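import Cfsg.Statements.S3056
import Cfsg.Agent.Lib.Helper17.StronglyEmbedded
import Cfsg.Agent.Lib.Helper19.SylowRel

set_option autoImplicit false
open Cfsg

namespace Cfsg.Agent.S3056

open Cfsg.Agent.Lib.Helper19
open scoped Pointwise

/-- Adjacency of Sylow subgroups: distinct with nontrivial intersection. -/
def adj {G : Type*} [Group G] {p : ℕ} (S T : Sylow p G) : Prop :=
  S ≠ T ∧ (S : Subgroup G) ⊓ (T : Subgroup G) ≠ ⊥

theorem adj_symm {G : Type*} [Group G] {p : ℕ} {S T : Sylow p G} (h : adj S T) : adj T S :=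
  ⟨h.1.symm, by rw [inf_comm]; exact h.2⟩

theorem adj_smul {G : Type*} [Group G] {p : ℕ} (g : G) {S T : Sylow p G} (h : adj S T) :
    adj (g • S) (g • T) := by
  refine ⟨fun e => h.1 (smul_left_cancel g e), ?_⟩
  obtain ⟨x, hx1⟩ := Subgroup.ne_bot_iff_exists_ne_one.mp h.2
  have hxS : (x : G) ∈ (S : Subgroup G) := (Subgroup.mem_inf.mp x.2).1
  have hxT : (x : G) ∈ (T : Subgroup G) := (Subgroup.mem_inf.mp x.2).2
  intro hbot
  have e : g⁻¹ * (g * (x : G) * g⁻¹) * g = (x : G) := by group
  have hmem : g * (x : G) * g⁻¹ ∈ ((g • S : Sylow p G) : Subgroup G) ⊓ ((g • T : Sylow p G) : Subgroup G) :=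
    Subgroup.mem_inf.mpr ⟨(mem_smul_sylow_iff S g _).mpr (by rw [e]; exact hxS),
      (mem_smul_sylow_iff T g _).mpr (by rw [e]; exact hxT)⟩
  rw [hbot, Subgroup.mem_bot] at hmem
  apply hx1
  apply Subtype.ext
  have : (x : G) = g⁻¹ * (g * (x : G) * g⁻¹) * g := e.symm
  rw [this, hmem]
  simp

/-- Connectivity in the Sylow graph. -/
def conn {G : Type*} [Group G] {p : ℕ} (S T : Sylow p G) : Prop :=
  Relation.ReflTransGen adj S T

theorem conn_smul {G : Type*} [Group G] {p : ℕ} (g : G) {S T : Sylow p G} (h : conn S T) :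
    conn (g • S) (g • T) := by
  induction h with
  | refl => exact Relation.ReflTransGen.refl
  | tail _ hbc ih => exact Relation.ReflTransGen.tail ih (adj_smul g hbc)

theorem conn_symm {G : Type*} [Group G] {p : ℕ} {S T : Sylow p G} (h : conn S T) : conn T S := by
  induction h with
  | refl => exact Relation.ReflTransGen.refl
  | tail _ hbc ih => exact Relation.ReflTransGen.head (adj_symm hbc) ih

theorem conn_of_inf_ne_bot {G : Type*} [Group G] {p : ℕ} {S T : Sylow p G}
    (h : (S : Subgroup G) ⊓ (T : Subgroup G) ≠ ⊥) : conn S T := by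
  by_cases e : S = T
  · subst e; exact Relation.ReflTransGen.refl
  · exact Relation.ReflTransGen.single ⟨e, h⟩

theorem chain_of_conn {G : Type*} [Group G] {p : ℕ} {S T : Sylow p G} (h : conn S T) :
    ∃ (n : ℕ) (c : Fin (n + 1) → Sylow p G), c 0 = S ∧ c (Fin.last n) = T ∧
      ∀ i : Fin n, c i.castSucc ≠ c i.succ ∧
        (c i.castSucc : Subgroup G) ⊓ (c i.succ : Subgroup G) ≠ ⊥ := by
  induction h using Relation.ReflTransGen.head_induction_on with
  | refl => exact ⟨0, fun _ => T, rfl, rfl, fun i => i.elim0⟩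
  | @head a b hadj _ ih =>
    obtain ⟨n, c, h0, hl, hc⟩ := ih
    refine ⟨n + 1, Fin.cons a c, rfl, ?_, ?_⟩
    · rw [← Fin.succ_last, Fin.cons_succ]; exact hl
    · intro i
      refine Fin.cases ?_ (fun j => ?_) i
      · rw [Fin.castSucc_zero, Fin.cons_zero, Fin.cons_succ, h0]
        exact hadj
      · rw [← Fin.succ_castSucc, Fin.cons_succ, Fin.cons_succ]
        exact hc j

/-- Let G be a finite group and p a prime. Join two Sylow p-subgroups when they are distinct and meet nontrivially. This graph on the Sylow p-subgroups is disconnected (the Sylow p-subgroups are not chain-connected through nontrivial intersections) if and only if G has a strongly p-embedded subgroup in the classical sense: a proper subgroup H of order divisible by p such that H ∩ gHg⁻¹ has order prime to p for every g outside H. -/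
theorem result {G : Type*} [Group G] [Finite G]
    (p : ℕ) [Fact p.Prime] :
    ¬ Cfsg.IsSylowChainConnected p G ↔
      ∃ H : Subgroup G, H ≠ ⊤ ∧ p ∣ Nat.card H ∧
        ∀ g : G, g ∉ H → ¬ p ∣ Nat.card ↥(H ⊓ H.map (MulAut.conj g).toMonoidHom) := by
  classical
  have hp : p.Prime := Fact.out
  constructor
  · -- not connected ⇒ strongly embedded subgroup
    intro hnc
    unfold Cfsg.IsSylowChainConnected at hnc
    push Not at hnc
    obtain ⟨S, T, hST⟩ := hnc
    have hne : S ≠ T := by
      intro e
      subst e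
      obtain ⟨i, hi⟩ := hST 0 (fun _ => S) rfl rfl (fun _ => inf_le_left)
      exact i.elim0
    have hinf : (S : Subgroup G) ⊓ (T : Subgroup G) = ⊥ := by
      by_contra hbot
      obtain ⟨i, hi⟩ := hST 1 (Fin.cons S (fun _ => T)) rfl rfl (fun j => by
        refine Fin.cases ?_ (fun k => ?_) j
        · rw [Fin.cons_zero]; exact inf_le_left
        · rw [Fin.cons_succ]; exact inf_le_right)
      have hi0 : i = 0 := Subsingleton.elim _ _
      subst hi0
      rw [Fin.castSucc_zero, Fin.cons_zero, Fin.cons_succ] at hi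
      exact hbot (hi hne)
    have hnconn : ¬ conn S T := by
      intro hc
      obtain ⟨n, c, h0, hl, hcc⟩ := chain_of_conn hc
      obtain ⟨i, hi⟩ := hST n c h0 hl (fun j => by rw [hinf]; exact bot_le)
      exact (hcc i).2 (hi (hcc i).1)
    -- the stabilizer of the component of `S`
    let H : Subgroup G :=
      { carrier := {g | conn (g • S) S}
        one_mem' := by
          show conn ((1 : G) • S) S
          rw [one_smul]; exact Relation.ReflTransGen.refl
        mul_mem' := by
          intro a b ha hb
          show conn ((a * b) • S) S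
          rw [mul_smul]
          exact Relation.ReflTransGen.trans (conn_smul a hb) ha
        inv_mem' := by
          intro a ha
          show conn (a⁻¹ • S) S
          have := conn_smul a⁻¹ ha
          rw [inv_smul_smul] at this
          exact conn_symm this }
    have hmemH : ∀ g : G, g ∈ H ↔ conn (g • S) S := fun g => Iff.rfl
    have hSH : (S : Subgroup G) ≤ H := by
      intro s hs
      rw [hmemH]
      have : s • S = S := Sylow.smul_eq_iff_mem_normalizer.mpr (Subgroup.le_normalizer hs)
      rw [this]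
      exact Relation.ReflTransGen.refl
    have hSbot : (S : Subgroup G) ≠ ⊥ := by
      intro hb
      apply hne
      obtain ⟨g, hg⟩ := MulAction.exists_smul_eq G S T
      have hT : (T : Subgroup G) = ⊥ := by
        rw [← hg, Sylow.coe_subgroup_smul, hb]
        exact Subgroup.smul_bot _
      exact Sylow.ext (by rw [hb, hT])
    have hpS : p ∣ Nat.card (S : Subgroup G) := by
      rcases S.isPGroup'.card_eq_or_dvd with h | h
      · exact absurd (Subgroup.card_eq_one.mp h) hSbot
      · exact h
    have hidx : ¬ p ∣ (S : Subgroup G).relIndex H := by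
      intro hd
      exact S.not_dvd_index (hd.trans (Dvd.intro _ (Subgroup.relIndex_mul_index hSH)))
    refine ⟨H, ?_, hpS.trans (Subgroup.card_dvd_of_le hSH), ?_⟩
    · intro htop
      obtain ⟨g, hg⟩ := MulAction.exists_smul_eq G S T
      have hgH : g ∈ H := by rw [htop]; trivial
      rw [hmemH, hg] at hgH
      exact hnconn (conn_symm hgH)
    · intro g hg hdvd
      obtain ⟨x, hx⟩ := exists_prime_orderOf_dvd_card' p hdvd
      have hx1 : (x : G) ≠ 1 := by
        intro h
        have : x = 1 := Subtype.ext h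
        rw [this, orderOf_one] at hx
        exact hp.one_lt.ne hx
      have hxH : (x : G) ∈ H := (Subgroup.mem_inf.mp x.2).1
      obtain ⟨y, hyH, hyx⟩ := (Subgroup.mem_inf.mp x.2).2
      have hyx' : g * y * g⁻¹ = (x : G) := hyx
      have hordx : orderOf (x : G) = p := by rw [Subgroup.orderOf_coe]; exact hx
      have hQ : IsPGroup p (Subgroup.zpowers (x : G)) := by
        apply IsPGroup.of_card (n := 1)
        rw [Nat.card_zpowers, hordx, pow_one]
      have hy : y = g⁻¹ * (x : G) * g := by rw [← hyx']; group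
      have hQ' : IsPGroup p (Subgroup.zpowers y) := by
        apply IsPGroup.of_card (n := 1)
        have : orderOf y = p := by
          rw [hy]
          have e : g⁻¹ * (x : G) * g = MulAut.conj g⁻¹ (x : G) := by
            rw [MulAut.conj_apply, inv_inv]
          rw [e, MulEquiv.orderOf_eq, hordx]
        rw [Nat.card_zpowers, this, pow_one]
      obtain ⟨h, hhH, hh⟩ := exists_conj_le_of_not_dvd_relIndex hSH S.isPGroup' hidx
        (Subgroup.zpowers_le.mpr hxH) hQ
      obtain ⟨h', hh'H, hh'⟩ := exists_conj_le_of_not_dvd_relIndex hSH S.isPGroup' hidx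
        (Subgroup.zpowers_le.mpr hyH) hQ'
      have h1 : (x : G) ∈ ((h⁻¹ • S : Sylow p G) : Subgroup G) := by
        rw [mem_smul_sylow_iff, inv_inv]
        exact hh _ (Subgroup.mem_zpowers _)
      have h2 : (x : G) ∈ (((g * h'⁻¹) • S : Sylow p G) : Subgroup G) := by
        rw [mem_smul_sylow_iff]
        have := hh' _ (Subgroup.mem_zpowers y)
        have e : (g * h'⁻¹)⁻¹ * (x : G) * (g * h'⁻¹) = h' * y * h'⁻¹ := by rw [hy]; group
        rw [e]; exact this
      have hc : conn ((g * h'⁻¹) • S) (h⁻¹ • S) := by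
        apply conn_of_inf_ne_bot
        intro hbot
        have : (x : G) ∈ (((g * h'⁻¹) • S : Sylow p G) : Subgroup G) ⊓ ((h⁻¹ • S : Sylow p G) : Subgroup G) :=
          Subgroup.mem_inf.mpr ⟨h2, h1⟩
        rw [hbot, Subgroup.mem_bot] at this
        exact hx1 this
      have hc2 : conn (h⁻¹ • S) S := (hmemH _).mp (H.inv_mem hhH)
      have hmem : g * h'⁻¹ ∈ H := (hmemH _).mpr (Relation.ReflTransGen.trans hc hc2)
      have : g = (g * h'⁻¹) * h' := by group
      rw [this] at hg
      exact hg (H.mul_mem hmem hh'H)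
  · -- strongly embedded ⇒ not connected
    rintro ⟨H, hHtop, hpH, hse⟩ hconn
    have hnc := Cfsg.Agent.Lib.Helper17.normControl_of_inter hse
    obtain ⟨P, hPH, hP1⟩ := Cfsg.Agent.Lib.Helper17.exists_sylow_le_of_normControl hnc hpH
    obtain ⟨g, hg⟩ : ∃ g : G, g ∉ H := by
      by_contra hall
      push Not at hall
      exact hHtop (eq_top_iff.mpr (fun g _ => hall g))
    obtain ⟨n, c, h0, hl, -, hcc⟩ := hconn P (g • P)
    have hall : ∀ i : Fin (n + 1), ((c i : Sylow p G) : Subgroup G) ≤ H := by
      intro i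
      induction i using Fin.induction with
      | zero => rw [h0]; exact hPH
      | succ j ih =>
        obtain ⟨x, hx1⟩ := Subgroup.ne_bot_iff_exists_ne_one.mp (hcc j).2
        have hx1' : (x : G) ≠ 1 := fun h => hx1 (Subtype.ext h)
        exact Cfsg.Agent.Lib.Helper17.sylow_le_of_normControl hnc (c j.succ)
          (Subgroup.mem_inf.mp x.2).2 (ih (Subgroup.mem_inf.mp x.2).1) hx1'
    have hgP : ((g • P : Sylow p G) : Subgroup G) ≤ H := by
      have := hall (Fin.last n)
      rwa [hl] at this
    obtain ⟨x, hx1⟩ := Subgroup.ne_bot_iff_exists_ne_one.mp hP1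
    have hx1' : (x : G) ≠ 1 := fun h => hx1 (Subtype.ext h)
    have hxg : g * (x : G) * g⁻¹ ∈ ((g • P : Sylow p G) : Subgroup G) := by
      rw [mem_smul_sylow_iff]
      have e : g⁻¹ * (g * (x : G) * g⁻¹) * g = (x : G) := by group
      rw [e]; exact x.2
    apply hg
    apply Cfsg.Agent.Lib.Helper17.mem_of_normControl_of_dvd hnc g
    have hle : ((g • P : Sylow p G) : Subgroup G) ≤ H ⊓ H.map (MulAut.conj g).toMonoidHom := by
      refine le_inf hgP ?_
      intro z hz
      rw [mem_smul_sylow_iff] at hz
      refine ⟨g⁻¹ * z * g, hPH hz, ?_⟩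
      simp only [MulEquiv.coe_toMonoidHom, MulAut.conj_apply]
      group
    have hpg : p ∣ Nat.card ((g • P : Sylow p G) : Subgroup G) := by
      rcases (g • P).isPGroup'.card_eq_or_dvd with h | h
      · exfalso
        have hb := Subgroup.card_eq_one.mp h
        rw [hb, Subgroup.mem_bot] at hxg
        apply hx1'
        have : (x : G) = g⁻¹ * (g * (x : G) * g⁻¹) * g := by group
        rw [this, hxg]; simp
      · exact h
    exact hpg.trans (Subgroup.card_dvd_of_le hle)

end Cfsg.Agent.S3056
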