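import Mathlib
import Cfsg.Statements.S1302
import Cfsg.Agent.Lib.Helper11.PPrimeInv
import Cfsg.Agent.Lib.Helper11.PConstrained
import Cfsg.Agent.Lib.Helper11.FStarLocal

set_option autoImplicit false
open Cfsg

namespace Cfsg.Agent.S1302

open Cfsg.Agent.Lib.Helper11

/-- Let X be a finite p-constrained group, p an odd prime, and A an abelian p-subgroup of X containing every element of order p of C_X(A). Then every subgroup of X of order prime to p that is normalized by A lies in O_{p'}(X). -/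
theorem result {X : Type*} [Group X] [Finite X] (p : ℕ) [Fact p.Prime] (hp : p ≠ 2) (hX : Cfsg.IsPConstrained p X) (A : Subgroup X) (hA : IsMulCommutative ↥A) (hAp : IsPGroup p ↥A) (hΩ : ∀ x ∈ Subgroup.centralizer (A : Set X), orderOf x = p → x ∈ A) (Q : Subgroup X) (hQ : ¬ p ∣ Nat.card ↥Q) (hAQ : A ≤ Subgroup.normalizer (Q : Set X)) : Q ≤ Cfsg.pPrimeCore p X := by
  have hpr : p.Prime := Fact.out
  have hcon := (isPConstrained_iff p).mp hX
  have hPn : (Cfsg.pCore p (X ⧸ Cfsg.pPrimeCore p X)).Normal := pCore_normal' p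
  have hPp : IsPGroup p (Cfsg.pCore p (X ⧸ Cfsg.pPrimeCore p X)) := pCore_isPGroup p
  obtain ⟨π, hπ⟩ : ∃ π : X →* X ⧸ Cfsg.pPrimeCore p X, π = QuotientGroup.mk' (Cfsg.pPrimeCore p X) :=
    ⟨_, rfl⟩
  have hπsurj : Function.Surjective π := by rw [hπ]; exact QuotientGroup.mk'_surjective _
  have hπker : ∀ x : X, π x = 1 ↔ x ∈ Cfsg.pPrimeCore p X := by
    intro x; rw [hπ]; exact QuotientGroup.eq_one_iff x
  have hAbar : IsPGroup p (A.map π) := hAp.map π
  have hQbar : ¬ p ∣ Nat.card (Q.map π) := fun h => hQ (h.trans (Subgroup.card_map_dvd Q π))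
  have hAQbar : A.map π ≤ Subgroup.normalizer ((Q.map π : Subgroup _) : Set _) :=
    (Subgroup.map_mono hAQ).trans (Subgroup.le_normalizer_map π)
  have hNcop : (Nat.card (Cfsg.pPrimeCore p X)).Coprime p := pPrimeCore_card_coprime p
  have hΩbar : ∀ x ∈ Cfsg.pCore p (X ⧸ Cfsg.pPrimeCore p X),
      x ∈ Subgroup.centralizer ((A.map π : Subgroup _) : Set _) → orderOf x = p → x ∈ A.map π := by
    intro xbar _ hxc hxo
    obtain ⟨y, rfl⟩ := hπsurj xbar
    -- the fibre over `π y`, with `A` acting by conjugation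
    have hstab : ∀ a ∈ A, ∀ g : X, π g = π y → π (a * g * a⁻¹) = π y := by
      intro a ha g hg
      have h1 := Subgroup.mem_centralizer_iff.mp hxc (π a) (Subgroup.mem_map_of_mem π ha)
      rw [map_mul, map_mul, map_inv, hg, h1, mul_inv_cancel_right]
    letI : MulAction A {g : X // π g = π y} :=
      { smul := fun a g => ⟨a * g * a⁻¹, hstab a a.2 g g.2⟩
        one_smul := fun g => Subtype.ext (by
          show (1 : X) * g * (1 : X)⁻¹ = g
          group)
        mul_smul := fun a b g => Subtype.ext (by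
          show (a : X) * b * g * ((a : X) * b)⁻¹ = a * (b * g * (b : X)⁻¹) * (a : X)⁻¹
          group) }
    have hScard : Nat.card {g : X // π g = π y} = Nat.card (Cfsg.pPrimeCore p X) := by
      apply Nat.card_congr
      exact
        { toFun := fun g => ⟨y⁻¹ * g, by
            rw [← hπker, map_mul, map_inv, g.2, inv_mul_cancel]⟩
          invFun := fun n => ⟨y * n, by
            rw [map_mul, (hπker _).mpr n.2, mul_one]⟩
          left_inv := fun g => Subtype.ext (by simp)
          right_inv := fun n => Subtype.ext (by simp) }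
    have hSp : ¬ p ∣ Nat.card {g : X // π g = π y} := by
      rw [hScard]
      exact (Nat.Prime.coprime_iff_not_dvd hpr).mp hNcop.symm
    obtain ⟨g₀, hg₀⟩ := hAp.nonempty_fixed_point_of_prime_not_dvd_card {g : X // π g = π y} hSp
    have hg₀c : (g₀ : X) ∈ Subgroup.centralizer (A : Set X) := by
      rw [Subgroup.mem_centralizer_iff]
      intro a ha
      have h1 : (⟨a, ha⟩ : A) • g₀ = g₀ := hg₀ ⟨a, ha⟩
      have h2 : a * (g₀ : X) * a⁻¹ = g₀ := congrArg Subtype.val h1
      calc a * (g₀ : X) = (a * g₀ * a⁻¹) * a := by group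
        _ = g₀ * a := by rw [h2]
    have hg₀π : π (g₀ : X) = π y := g₀.2
    have hyp : (π y) ^ p = 1 := by
      have := pow_orderOf_eq_one (π y)
      rwa [hxo] at this
    have hgpN : (g₀ : X) ^ p ∈ Cfsg.pPrimeCore p X := by
      rw [← hπker, map_pow, hg₀π]; exact hyp
    have hgpn : ((g₀ : X) ^ p) ^ Nat.card (Cfsg.pPrimeCore p X) = 1 := by
      have := pow_card_eq_one' (G := Cfsg.pPrimeCore p X) (x := ⟨(g₀ : X) ^ p, hgpN⟩)
      exact congrArg Subtype.val this
    obtain ⟨m, -, hm⟩ := Nat.exists_mul_mod_eq_one_of_coprime hNcop hpr.one_lt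
    obtain ⟨n, hn⟩ : ∃ n, n = Nat.card (Cfsg.pPrimeCore p X) := ⟨_, rfl⟩
    rw [← hn] at hgpn hm
    have hxp : ((g₀ : X) ^ (n * m)) ^ p = 1 := by
      have he : n * m * p = p * n * m := by ring
      rw [← pow_mul, he, pow_mul, pow_mul, hgpn, one_pow]
    have hxπ : π ((g₀ : X) ^ (n * m)) = π y := by
      rw [map_pow, hg₀π]
      have h1 := Nat.div_add_mod (n * m) p
      rw [hm] at h1
      rw [← h1, pow_succ, pow_mul, hyp, one_pow, one_mul]
    have hy1 : π y ≠ 1 := by
      intro h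
      rw [h, orderOf_one] at hxo
      exact hpr.one_lt.ne hxo
    have hx1 : (g₀ : X) ^ (n * m) ≠ 1 := by
      intro h
      rw [h, map_one] at hxπ
      exact hy1 hxπ.symm
    have hxo' : orderOf ((g₀ : X) ^ (n * m)) = p := orderOf_eq_prime hxp hx1
    have hxA := hΩ _ (Subgroup.pow_mem _ hg₀c _) hxo'
    rw [← hxπ]
    exact Subgroup.mem_map_of_mem π hxA
  have hc := pprime_invariant_centralizes p hp (Cfsg.pCore p (X ⧸ Cfsg.pPrimeCore p X)) hPn hPp
    (A.map π) hAbar hΩbar (Q.map π) hQbar hAQbar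
  have hle : Q.map π ≤ Cfsg.pCore p (X ⧸ Cfsg.pPrimeCore p X) := hc.trans hcon
  have hbot : Q.map π = ⊥ := by
    obtain ⟨k, hk⟩ := IsPGroup.iff_card.mp (hPp.to_le hle)
    rcases Nat.eq_zero_or_pos k with rfl | hkpos
    · rw [pow_zero] at hk
      exact Subgroup.card_eq_one.mp hk
    · exfalso
      apply hQbar
      rw [hk]; exact dvd_pow_self p hkpos.ne'
  intro x hx
  rw [← hπker]
  have : π x ∈ Q.map π := Subgroup.mem_map_of_mem π hx
  rw [hbot, Subgroup.mem_bot] at this
  exact this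

end Cfsg.Agent.S1302
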