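import Mathlib
import Cfsg.Statements.S0130
import Cfsg.Agent.Lib.Helper2.Level
import Cfsg.Agent.Lib.Helper2.ClassThree
import Cfsg.Agent.Lib.Helper2.CyclicMax

set_option autoImplicit false
open Cfsg

namespace Cfsg.Agent.S0130

open Cfsg.Agent.Lib.Helper2

open scoped commutatorElement

theorem dvd_aux {p n : ℕ} (hp : p.Prime) (hn0 : 0 < n) (hn : p ^ n ≠ 2) :
    p ∣ p ^ n * (p ^ n - 1) / 2 := by
  by_cases hp2 : p = 2
  · subst hp2
    obtain ⟨m, rfl⟩ : ∃ m, n = m + 2 := by
      refine ⟨n - 2, ?_⟩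
      have : n ≠ 1 := by
        rintro rfl
        exact hn (by norm_num)
      omega
    have h1 : 2 ^ (m + 2) * (2 ^ (m + 2) - 1) = 2 * (2 * (2 ^ m * (2 ^ (m + 2) - 1))) := by
      generalize 2 ^ (m + 2) - 1 = t
      rw [pow_add]
      ring
    rw [h1, Nat.mul_div_cancel_left _ (by norm_num : 0 < 2)]
    exact dvd_mul_right _ _
  · have hodd : 2 ∣ p ^ n - 1 := by
      obtain ⟨k, hk⟩ := (hp.odd_of_ne_two hp2).pow (n := n)
      exact ⟨k, by omega⟩
    rw [Nat.mul_div_assoc _ hodd]
    exact dvd_mul_of_dvd_left (dvd_pow_self p (by omega)) _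

/-- the key case: elements of the centralizer whose `p`-th power lies in `A` -/
theorem key {G : Type*} [Group G] [Finite G] {p : ℕ} [Fact p.Prime] (hG : IsPGroup p G) (n : ℕ)
    (hn0 : 0 < n) (hn : p ^ n ≠ 2) (A : Subgroup G) [hAn : A.Normal] (hA : IsMulCommutative A)
    (hAe : ∀ a ∈ A, a ^ p ^ n = 1)
    (hmax : ∀ B : Subgroup G, B.Normal → IsMulCommutative B → (∀ b ∈ B, b ^ p ^ n = 1) →
      A ≤ B → B = A) :
    ∀ x ∈ {x : G | x ∈ Subgroup.centralizer (A : Set G) ∧ x ^ p ^ n = 1 ∧ x ^ p ∈ A}, x ∈ A := by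
  classical
  have hp : p.Prime := Fact.out
  have hnil : Group.IsNilpotent G := hG.isNilpotent
  have hdiv := dvd_aux hp hn0 hn
  apply level_induction A
  · rintro x ⟨hxC, hxn, hxp⟩ g hcomm
    have hw : ⁅x, g⁆ = x * (g * x⁻¹ * g⁻¹) := by
      rw [commutatorElement_def]
      group
    have hx'C : g * x⁻¹ * g⁻¹ ∈ Subgroup.centralizer (A : Set G) :=
      (Subgroup.normal_centralizer (H := A)).conj_mem _ (Subgroup.inv_mem _ hxC) g
    have hx'n : (g * x⁻¹ * g⁻¹) ^ p ^ n = 1 := by
      rw [conj_pow, inv_pow, hxn]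
      simp
    have hx'p : (g * x⁻¹ * g⁻¹) ^ p ∈ A := by
      rw [conj_pow, inv_pow]
      exact hAn.conj_mem _ (A.inv_mem hxp) g
    have hc : ⁅g * x⁻¹ * g⁻¹, x⁆ ∈ A := by
      have e : ⁅g * x⁻¹ * g⁻¹, x⁆ = x⁻¹ * ⁅x, ⁅x, g⁆⁆⁻¹ * (x⁻¹)⁻¹ := by
        simp only [commutatorElement_def]
        group
      rw [e]
      exact hAn.conj_mem _ (A.inv_mem hcomm) x⁻¹
    generalize g * x⁻¹ * g⁻¹ = x' at hw hx'C hx'n hx'p hc
    have hcx : Commute ⁅x', x⁆ x := Subgroup.mem_centralizer_iff.mp hxC _ hc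
    have hcx' : Commute ⁅x', x⁆ x' := Subgroup.mem_centralizer_iff.mp hx'C _ hc
    have h1 := Cfsg.Agent.Lib.Helper11.mul_pow_class_two x x' hcx.eq hcx'.eq
    have h2 := Cfsg.Agent.Lib.Helper11.commElem_pow_left x' x hcx'.eq p
    have hcp : ⁅x', x⁆ ^ p = 1 := by
      rw [← h2, commutatorElement_eq_one_iff_commute]
      exact Subgroup.mem_centralizer_iff.mp hxC _ hx'p
    refine ⟨?_, ?_, ?_⟩
    · rw [hw]
      exact Subgroup.mul_mem _ hxC hx'C
    · rw [hw, h1 (p ^ n), hxn, hx'n, pow_eq_one_of_dvd hcp hdiv]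
      simp
    · rw [hw, h1 p]
      exact A.mul_mem (A.mul_mem hxp hx'p) (A.pow_mem hc _)
  · rintro x ⟨hxC, hxn, hxp⟩ hcomm
    -- the subgroup generated by A and x is normal abelian of exponent dividing p^n
    have hzx : Subgroup.zpowers x ≤ (Subgroup.center (G ⧸ A)).comap (QuotientGroup.mk' A) := by
      rw [Subgroup.zpowers_le, Subgroup.mem_comap, Subgroup.mem_center_iff]
      intro y
      obtain ⟨g, rfl⟩ := QuotientGroup.mk_surjective y
      have h1 := hcomm g
      rw [commutatorElement_def] at h1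
      have h2 : (QuotientGroup.mk' A) (x * g * x⁻¹ * g⁻¹) = 1 :=
        (QuotientGroup.eq_one_iff _).mpr h1
      have h3 : (QuotientGroup.mk' A) (x * g) = (QuotientGroup.mk' A) (g * x) := by
        have : x * g = (x * g * x⁻¹ * g⁻¹) * (g * x) := by group
        rw [this, map_mul, h2, one_mul]
      rw [map_mul, map_mul] at h3
      exact h3.symm
    have hcommle : ⁅Subgroup.zpowers x, (⊤ : Subgroup G)⁆ ≤ A := by
      rw [Subgroup.commutator_le]
      intro y hy g _
      have h1 := hzx hy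
      rw [Subgroup.mem_comap, Subgroup.mem_center_iff] at h1
      have h2 := h1 ((QuotientGroup.mk' A) g)
      rw [← QuotientGroup.eq_one_iff, ← QuotientGroup.mk'_apply, map_commutatorElement,
        commutatorElement_eq_one_iff_commute]
      exact h2.symm
    have hBn : (A ⊔ Subgroup.zpowers x).Normal := normal_sup_of_commutator_le A _ hcommle
    have hzC : Subgroup.zpowers x ≤ Subgroup.centralizer (A : Set G) :=
      Subgroup.zpowers_le.mpr hxC
    have hAC : A ≤ Subgroup.centralizer (A : Set G) :=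
      Subgroup.le_centralizer_iff_isMulCommutative.mpr hA
    have hzz : Subgroup.zpowers x ≤ Subgroup.centralizer (Subgroup.zpowers x : Set G) :=
      Subgroup.le_centralizer_iff_isMulCommutative.mpr inferInstance
    have hB1 : A ≤ Subgroup.centralizer ((A ⊔ Subgroup.zpowers x : Subgroup G) : Set G) :=
      Subgroup.le_centralizer_iff.mp (sup_le hAC hzC)
    have hB2 : Subgroup.zpowers x
        ≤ Subgroup.centralizer ((A ⊔ Subgroup.zpowers x : Subgroup G) : Set G) :=
      Subgroup.le_centralizer_iff.mp (sup_le (Subgroup.le_centralizer_iff.mp hzC) hzz)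
    have hBc : IsMulCommutative (A ⊔ Subgroup.zpowers x : Subgroup G) :=
      Subgroup.le_centralizer_iff_isMulCommutative.mp (sup_le hB1 hB2)
    have hBe : ∀ b ∈ A ⊔ Subgroup.zpowers x, b ^ p ^ n = 1 := by
      intro b hb
      have hb' : b ∈ ((A ⊔ Subgroup.zpowers x : Subgroup G) : Set G) := hb
      rw [Subgroup.normal_mul] at hb'
      obtain ⟨a, ha, y, hy, rfl⟩ := Set.mem_mul.mp hb'
      have hay : Commute a y := (Subgroup.mem_centralizer_iff.mp (hzC hy) a ha)
      rw [hay.mul_pow, hAe a ha, one_mul]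
      obtain ⟨k, rfl⟩ := Subgroup.mem_zpowers_iff.mp hy
      rw [← zpow_natCast, ← zpow_mul, mul_comm, zpow_mul, zpow_natCast, hxn, one_zpow]
    have hBA := hmax _ hBn hBc hBe le_sup_left
    rw [← hBA]
    exact (le_sup_right : Subgroup.zpowers x ≤ _) (Subgroup.mem_zpowers x)

/-- If A is maximal among the normal abelian subgroups of exponent dividing p^n of a p-group (p^n ≠ 2), then A contains every element of order dividing p^n in its centralizer. -/
theorem result {G : Type*} [Group G] [Finite G] {p : ℕ} [Fact p.Prime] (hG : IsPGroup p G) (n : ℕ) (hn : p ^ n ≠ 2) (A : Subgroup G) [A.Normal] (hA : IsMulCommutative A) (hAe : ∀ a ∈ A, a ^ p ^ n = 1) (hmax : ∀ B : Subgroup G, B.Normal → IsMulCommutative B → (∀ b ∈ B, b ^ p ^ n = 1) → A ≤ B → B = A) (x : G) (hx : x ∈ Subgroup.centralizer (A : Set G)) (hxn : x ^ p ^ n = 1) : x ∈ A := by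
  rcases Nat.eq_zero_or_pos n with h0 | hnpos
  · subst h0
    rw [pow_zero, pow_one] at hxn
    rw [hxn]
    exact A.one_mem
  have hkey := key hG n hnpos hn A hA hAe hmax
  -- descending induction on powers
  have hdesc : ∀ k : ℕ, k ≤ n → x ^ p ^ (n - k) ∈ A := by
    intro k
    induction k with
    | zero =>
      intro _
      rw [Nat.sub_zero, hxn]
      exact A.one_mem
    | succ k ih =>
      intro hk
      apply hkey
      refine ⟨Subgroup.pow_mem _ hx _, ?_, ?_⟩
      · rw [← pow_mul, mul_comm, pow_mul, hxn, one_pow]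
      · have h1 := ih (by omega)
        have h2 : n - k = (n - (k + 1)) + 1 := by omega
        rw [h2, pow_succ, pow_mul] at h1
        exact h1
  have := hdesc n le_rfl
  rwa [Nat.sub_self, pow_zero, pow_one] at this

end Cfsg.Agent.S0130
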