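import Mathlib
import Cfsg.Statements.S0100
import Cfsg.Agent.Lib.Helper2.PChain
import Cfsg.Agent.S0130

set_option autoImplicit false
open Cfsg

namespace Cfsg.Agent.S0100

open Cfsg.Agent.Lib.Helper2

/-- For odd p, a p-group without normal elementary abelian subgroups of order p^3 has p-rank at most 2. -/
theorem result {P : Type*} [Group P] [Finite P] {p : ℕ} [Fact p.Prime] (hp : p ≠ 2) (hP : IsPGroup p P) (h : ∀ A : Subgroup P, A.Normal → IsMulCommutative A → (∀ a ∈ A, a ^ p = 1) → Nat.card A ≠ p ^ 3) (E : Subgroup P) (hE : IsMulCommutative E) (hEe : ∀ e ∈ E, e ^ p = 1) : Nat.card E ≤ p ^ 2 := by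
  classical
  have hpp : p.Prime := Fact.out
  obtain ⟨A, hAn, hAc, hAe, -, hmax⟩ := exists_max_normal_abelian_exp p (⊥ : Subgroup P)
    inferInstance inferInstance (by
      intro b hb
      rw [Subgroup.mem_bot.mp hb, one_pow])
  obtain ⟨a, ha⟩ := IsPGroup.iff_card.mp (hP.to_subgroup A)
  have hAC : A ≤ Subgroup.centralizer (A : Set P) :=
    Subgroup.le_centralizer_iff_isMulCommutative.mpr hAc
  have ha2 : a ≤ 2 := by
    by_contra hcon
    obtain ⟨C, hCn, hCA, hCcard⟩ := exists_normal_le_card hP A a ha 3 (by omega)
    have hCc : IsMulCommutative C :=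
      Subgroup.le_centralizer_iff_isMulCommutative.mp
        (le_trans hCA (le_trans hAC (Subgroup.centralizer_le hCA)))
    exact h C hCn hCc (fun c hc => hAe c (hCA hc)) hCcard
  have hS := Cfsg.Agent.S0130.result hP 1 (by
      rw [pow_one]
      exact hp) A hAc (by
      intro x hx
      rw [pow_one]
      exact hAe x hx) (by
      intro B hB1 hB2 hB3 hAB
      exact hmax B hB1 hB2 (fun b hb => by
        have := hB3 b hb
        rwa [pow_one] at this) hAB)
  have hinf : Subgroup.centralizer (A : Set P) ⊓ E ≤ A := by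
    intro x hx
    exact hS x hx.1 (by
      rw [pow_one]
      exact hEe x hx.2)
  by_cases hAE : A ≤ E
  · have hEC : E ≤ Subgroup.centralizer (A : Set P) := by
      intro e he
      rw [Subgroup.mem_centralizer_iff]
      intro x hx
      have := hE.is_comm.comm (⟨x, hAE hx⟩ : E) ⟨e, he⟩
      exact congrArg Subtype.val this
    have hEA : E ≤ A := fun e he => hinf ⟨hEC he, he⟩
    calc Nat.card E ≤ Nat.card A := Subgroup.card_le_of_le hEA
      _ = p ^ a := ha
      _ ≤ p ^ 2 := Nat.pow_le_pow_right hpp.pos ha2
  · obtain ⟨b, hb⟩ := IsPGroup.iff_card.mp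
      (hP.to_subgroup (Subgroup.centralizer (A : Set P) ⊓ E : Subgroup P))
    have hba : b < a := by
      by_contra hcon
      have h1 : Nat.card A ≤ Nat.card (Subgroup.centralizer (A : Set P) ⊓ E : Subgroup P) := by
        rw [ha, hb]
        exact Nat.pow_le_pow_right hpp.pos (by omega)
      have h2 := Subgroup.eq_of_le_of_card_ge hinf h1
      exact hAE (by
        rw [← h2]
        exact inf_le_right)
    have hidx : (Subgroup.centralizer (A : Set P)).index ≤ p := by
      have h1 := card_le_card_centralizer_mul hP A a ha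
      have h2 := Subgroup.card_mul_index (Subgroup.centralizer (A : Set P))
      rw [← h2] at h1
      have h3 := Nat.le_of_mul_le_mul_left h1 Nat.card_pos
      have h4 : a.choose 2 ≤ 1 := by
        interval_cases a <;> decide
      calc (Subgroup.centralizer (A : Set P)).index ≤ p ^ (a.choose 2) := h3
        _ ≤ p ^ 1 := Nat.pow_le_pow_right hpp.pos h4
        _ = p := pow_one p
    have h5 := card_le_card_inf_mul_index E (Subgroup.centralizer (A : Set P))
    calc Nat.card E ≤ Nat.card (Subgroup.centralizer (A : Set P) ⊓ E : Subgroup P)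
          * (Subgroup.centralizer (A : Set P)).index := h5
      _ ≤ p ^ 1 * p := by
        rw [hb]
        exact Nat.mul_le_mul (Nat.pow_le_pow_right hpp.pos (by omega)) hidx
      _ = p ^ 2 := by ring

end Cfsg.Agent.S0100
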