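import Cfsg.Statements.S0640
import Mathlib
import Cfsg.Agent.Lib.Helper11.AutRank2

set_option autoImplicit false
open Cfsg

namespace Cfsg.Agent.S0640

/-- For odd p, a prime q ≠ p dividing the order of the automorphism group of a p-group of rank at most 2 divides p² - 1 and is less than p. -/
theorem result {R : Type*} [Group R] [Finite R] {p : ℕ} [Fact p.Prime] (hp : p ≠ 2) (hR : IsPGroup p R) (hrk : Cfsg.PRankLE p 2 R) (q : ℕ) (hq : q.Prime) (hqp : q ≠ p) (hdvd : q ∣ Nat.card (MulAut R)) : q ∣ p ^ 2 - 1 ∧ q < p := by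
  classical
  have hpp : p.Prime := Fact.out
  haveI : Fact q.Prime := ⟨hq⟩
  obtain ⟨α, hα⟩ := exists_prime_orderOf_dvd_card' (G := MulAut R) q hdvd
  have hα1 : α ≠ 1 := by
    intro h
    rw [h, orderOf_one] at hα
    exact hq.one_lt.ne hα
  have hαq : α ^ q = 1 := by rw [← hα]; exact pow_orderOf_eq_one α
  have h := Cfsg.Agent.Lib.Helper11.aut_rank2 hp hq hqp hR hrk α hα1 hαq
  have h2 : p ^ 2 - 1 = (p - 1) * (p + 1) := by
    obtain ⟨k, rfl⟩ : ∃ k, p = k + 1 := ⟨p - 1, by have := hpp.pos; omega⟩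
    have : (k + 1) ^ 2 = k * (k + 1 + 1) + 1 := by ring
    rw [this]
    simp
  have h1 : q ∣ p ^ 2 - 1 := by
    rcases h with h | h
    · rw [h2]; exact dvd_mul_of_dvd_left h _
    · exact h
  refine ⟨h1, ?_⟩
  by_contra hge
  push Not at hge
  have hlt : p < q := lt_of_le_of_ne hge (Ne.symm hqp)
  have h2le := hpp.two_le
  rw [h2] at h1
  rcases (Nat.Prime.dvd_mul hq).mp h1 with h3 | h3
  · have := Nat.le_of_dvd (by omega) h3
    omega
  · have h4 := Nat.le_of_dvd (by omega) h3
    have h5 : q = p + 1 := by omega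
    rcases hpp.eq_two_or_odd with h6 | h6
    · exact hp h6
    · rcases hq.eq_two_or_odd with h7 | h7
      · omega
      · omega

end Cfsg.Agent.S0640
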