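import Cfsg.Statements.S4623
import Cfsg.Agent.Lib.Helper21.SylElem1
import Cfsg.Agent.Lib.Helper21.SylElem2
import Cfsg.Agent.Lib.Helper21.SylElem3

set_option autoImplicit false
open Cfsg

namespace Cfsg.Agent.S4623

open Cfsg.Agent.Lib.Helper21 in
open scoped commutatorElement in

/-- For every prime p and every n, a Sylow p-subgroup P of the symmetric group on n letters has P/P' elementary abelian (the p-th power of every element of P lies in the derived subgroup of P), and the same holds for a Sylow p-subgroup of the alternating group on n letters. -/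
theorem result (p : ℕ) [Fact p.Prime] (n : ℕ) (P : Sylow p (Equiv.Perm (Fin n))) (Q : Sylow p (alternatingGroup (Fin n))) :
    (∀ x : (P : Subgroup (Equiv.Perm (Fin n))), x ^ p ∈ commutator (P : Subgroup (Equiv.Perm (Fin n)))) ∧
    (∀ x : (Q : Subgroup (alternatingGroup (Fin n))), x ^ p ∈ commutator (Q : Subgroup (alternatingGroup (Fin n)))) := by
  have hp : p.Prime := Fact.out
  have hFsyl : ∀ P₁ : Sylow p (Equiv.Perm (Fin n)),
      seF p (P₁ : Subgroup (Equiv.Perm (Fin n))) := by
    intro P₁ R hR hPR _
    exact (P₁.is_maximal' hR hPR).le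
  constructor
  · intro x
    apply se_final
    exact se_T p n (Fin n) (by simp) _ P.isPGroup' (hFsyl P) x.1 x.2
  · obtain ⟨Q', hQ'⟩ : ∃ Q' : Subgroup (Equiv.Perm (Fin n)),
        Q' = (Q : Subgroup (alternatingGroup (Fin n))).map (alternatingGroup (Fin n)).subtype :=
      ⟨_, rfl⟩
    have hQ'p : IsPGroup p Q' := by rw [hQ']; exact Q.isPGroup'.map _
    obtain ⟨P₁, hP₁⟩ := hQ'p.exists_le_sylow
    have hQ'eq : ∀ g : Equiv.Perm (Fin n), g ∈ (P₁ : Subgroup (Equiv.Perm (Fin n))) →
        g ∈ alternatingGroup (Fin n) → g ∈ Q' := by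
      intro g hgP hgA
      have h1 : IsPGroup p ((P₁ : Subgroup (Equiv.Perm (Fin n))).subgroupOf
          (alternatingGroup (Fin n))) := P₁.isPGroup'.comap_subtype
      have h2 : (Q : Subgroup (alternatingGroup (Fin n)))
          ≤ (P₁ : Subgroup (Equiv.Perm (Fin n))).subgroupOf (alternatingGroup (Fin n)) := by
        intro y hy
        rw [Subgroup.mem_subgroupOf]
        exact hP₁ (by rw [hQ']; exact ⟨y, hy, rfl⟩)
      have h3 := Q.is_maximal' h1 h2
      have h4 : (⟨g, hgA⟩ : alternatingGroup (Fin n))
          ∈ (Q : Subgroup (alternatingGroup (Fin n))) := by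
        rw [← h3, Subgroup.mem_subgroupOf]; exact hgP
      rw [hQ']; exact ⟨⟨g, hgA⟩, h4, rfl⟩
    have hkey : ∀ y ∈ Q', y ^ p ∈ ⁅Q', Q'⁆ := by
      rcases hp.eq_two_or_odd' with h2 | hodd
      · subst h2
        have hQ'2 : Q' = (P₁ : Subgroup (Equiv.Perm (Fin n))) ⊓ seAlt (Fin n) := by
          apply le_antisymm
          · intro y hy
            refine ⟨hP₁ hy, ?_⟩
            rw [se_alt_eq]
            rw [hQ'] at hy
            obtain ⟨w, -, rfl⟩ := hy
            exact w.2
          · rintro y ⟨hy1, hy2⟩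
            rw [se_alt_eq] at hy2
            exact hQ'eq y hy1 hy2
        rw [hQ'2]
        exact se_TA n (Fin n) (by simp) _ P₁.isPGroup' (hFsyl P₁)
      · have hle : (P₁ : Subgroup (Equiv.Perm (Fin n))) ≤ alternatingGroup (Fin n) := by
          intro g hg
          rw [Equiv.Perm.mem_alternatingGroup]
          obtain ⟨k, hk⟩ := P₁.isPGroup' ⟨g, hg⟩
          have hk' : g ^ p ^ k = 1 := by
            have h0 := congrArg Subtype.val hk
            simpa using h0
          have h1 : Equiv.Perm.sign g ^ p ^ k = 1 := by rw [← map_pow, hk', map_one]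
          rcases Int.units_eq_one_or (Equiv.Perm.sign g) with h | h
          · exact h
          · rw [h, (hodd.pow).neg_one_pow] at h1
            exact absurd h1 (units_ne_neg_self 1).symm
        have hQ'P : Q' = (P₁ : Subgroup (Equiv.Perm (Fin n))) :=
          le_antisymm hP₁ (fun g hg => hQ'eq g hg (hle hg))
        rw [hQ'P]
        exact se_T p n (Fin n) (by simp) _ P₁.isPGroup' (hFsyl P₁)
    intro x
    apply se_final
    have h1 := hkey ((x : alternatingGroup (Fin n)) : Equiv.Perm (Fin n))
      (by rw [hQ']; exact ⟨x.1, x.2, rfl⟩)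
    rw [hQ', ← Subgroup.map_commutator] at h1
    obtain ⟨w, hw, hwx⟩ := h1
    have h2 : w = (x : alternatingGroup (Fin n)) ^ p := by
      apply Subtype.ext
      rw [Subgroup.coe_pow]; exact hwx
    rw [← h2]; exact hw

end Cfsg.Agent.S4623
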