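import Cfsg.Statements.S0042
-- import your own Cfsg.Agent.* helpers here
import Mathlib
import Cfsg.Agent.Lib.Lead.Frobenius
import Cfsg.Agent.S0033

set_option autoImplicit false
open Cfsg

namespace Cfsg.Agent.S0042



universe u

open Cfsg.Agent.Lib.Lead

theorem kernel_nilpotent {G : Type u} [Group G] [Finite G]
    (hT : ∀ (K : Type u) [Group K] [Finite K] (φ : K ≃* K),
      MonoidHom.FixedPointFree (φ : K →* K) → ∀ p : ℕ, p.Prime → orderOf φ = p →
      Group.IsNilpotent K)
    (H : Subgroup G) (hH : Cfsg.IsFrobeniusComplement H) :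
    ∃ N : Subgroup G, (N : Set G) = Cfsg.frobeniusKernel H ∧ N.Normal ∧ Group.IsNilpotent N := by
  obtain ⟨N, hNk, hNn, hcomp⟩ := frobenius_theorem H hH
  refine ⟨N, hNk, hNn, ?_⟩
  haveI := hNn
  by_cases hsub : Subsingleton N
  · infer_instance
  rw [not_subsingleton_iff_nontrivial] at hsub
  -- an element of prime order in H
  have hHne : Nat.card H ≠ 1 := by
    intro h1
    exact hH.1 (Subgroup.eq_bot_of_card_eq H h1)
  obtain ⟨p, hp, hpdvd⟩ := Nat.exists_prime_and_dvd hHne
  haveI : Fact p.Prime := ⟨hp⟩
  obtain ⟨h, hh⟩ := exists_prime_orderOf_dvd_card' (G := H) p hpdvd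
  have hh1 : (h : G) ≠ 1 := by
    intro h1
    have : h = 1 := Subtype.ext h1
    rw [this, orderOf_one] at hh
    exact hp.ne_one hh.symm
  have hfix : ∀ n : N, (h : G) * n * (h : G)⁻¹ = n → n = 1 := by
    intro n hn
    have h2 : (n : G)⁻¹ * (h : G) * (n : G) = h := by
      have : (h : G) * n = n * h := by
        calc (h : G) * n = (h : G) * n * (h : G)⁻¹ * h := by group
          _ = n * h := by rw [hn]
      calc (n : G)⁻¹ * (h : G) * (n : G) = (n : G)⁻¹ * ((h : G) * n) := by group
        _ = (n : G)⁻¹ * (n * h) := by rw [this]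
        _ = h := by group
    have h3 : (n : G) ∈ H := frob_conj_mem hH h.2 hh1 (by rw [h2]; exact h.2)
    have h4 : (n : G) ∈ N ⊓ H := ⟨n.2, h3⟩
    rw [disjoint_iff.mp hcomp.disjoint, Subgroup.mem_bot] at h4
    exact Subtype.ext h4
  let φ : N ≃* N := MulAut.conjNormal (h : G)
  have hφapp : ∀ n : N, ((φ n : N) : G) = (h : G) * n * (h : G)⁻¹ :=
    fun n => MulAut.conjNormal_apply (h : G) n
  have hfpf : MonoidHom.FixedPointFree (φ : N →* N) := by
    intro n hn
    apply hfix
    have := congrArg Subtype.val hn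
    rw [← hφapp]
    exact this
  have hord : orderOf φ = p := by
    apply orderOf_eq_prime
    · show (MulAut.conjNormal (h : G) : MulAut N) ^ p = 1
      rw [← map_pow]
      have : (h : G) ^ p = 1 := by
        have := pow_orderOf_eq_one h
        rw [hh] at this
        have := congrArg Subtype.val this
        simpa using this
      rw [this, map_one]
    · intro h1
      obtain ⟨n, hn⟩ := exists_ne (1 : N)
      apply hn
      apply hfix
      rw [← hφapp, h1]
      rfl
  exact hT N φ hfpf p hp hord



/-- In a finite Frobenius group, the Frobenius kernel is (the carrier of) a normal subgroup which is nilpotent. -/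
theorem result {G : Type*} [Group G] [Finite G] (H : Subgroup G) (hH : Cfsg.IsFrobeniusComplement H) :
    ∃ N : Subgroup G, (N : Set G) = Cfsg.frobeniusKernel H ∧ N.Normal ∧ Group.IsNilpotent N := by
  exact kernel_nilpotent (fun K _ _ φ hφ p hp ho => Cfsg.Agent.S0033.result φ hφ p hp ho) H hH

end Cfsg.Agent.S0042
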