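import Cfsg.Statements.S1446
import Cfsg.Agent.Lib.Helper12.WComm
import Cfsg.Agent.S1545
import Cfsg.Agent.S0042
import Cfsg.Agent.Lib.Lead.FrobeniusMore
import Cfsg.Agent.Lib.Helper1.Coprime

set_option autoImplicit false
set_option linter.style.haveILetI false
open Cfsg

namespace Cfsg.Agent.S1446

open Cfsg.Agent.S1545

section Aux

theorem frob_of_fpf {A : Type*} [Group A] (K R : Subgroup A) [K.Normal] (hK1 : K ≠ ⊥)
    (hR1 : R ≠ ⊥) (hKR : K ⊓ R = ⊥) (hsup : K ⊔ R = ⊤)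
    (hfpf : ∀ r ∈ R, r ≠ 1 → ∀ k ∈ K, r * k = k * r → k = 1) :
    Cfsg.IsFrobeniusComplement R := by
  refine ⟨hR1, ?_, ?_⟩
  · intro h
    have h1 : K ⊓ R = K := by rw [h]; exact inf_top_eq K
    rw [hKR] at h1
    exact hK1 h1.symm
  · intro g hg
    rw [Subgroup.eq_bot_iff_forall]
    rintro x ⟨hxR, hxg⟩
    have hxg' : g⁻¹ * x * g ∈ R := (Cfsg.Agent.Lib.Lead.mem_conj_smul R g x).mp hxg
    have hgtop : g ∈ ((K ⊔ R : Subgroup A) : Set A) := by rw [hsup]; exact Set.mem_univ g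
    rw [Subgroup.normal_mul] at hgtop
    obtain ⟨k, hk, r, hr, hkr⟩ := hgtop
    have hkr' : k * r = g := hkr
    subst hkr'
    have hk1 : k ≠ 1 := by
      intro h
      apply hg
      rw [h, one_mul]
      exact hr
    have h1 : k⁻¹ * x * k ∈ R := by
      have h2 := R.mul_mem (R.mul_mem hr hxg') (R.inv_mem hr)
      have h3 : r * ((k * r)⁻¹ * x * (k * r)) * r⁻¹ = k⁻¹ * x * k := by group
      rwa [h3] at h2
    have h4 : x⁻¹ * (k⁻¹ * x * k) ∈ K ⊓ R := by
      refine ⟨?_, R.mul_mem (R.inv_mem hxR) h1⟩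
      have h5 := ‹K.Normal›.conj_mem k⁻¹ (K.inv_mem hk) x⁻¹
      have h6 := K.mul_mem h5 hk
      have h7 : x⁻¹ * k⁻¹ * x⁻¹⁻¹ * k = x⁻¹ * (k⁻¹ * x * k) := by group
      rwa [h7] at h6
    rw [hKR, Subgroup.mem_bot] at h4
    by_contra hx1
    apply hk1
    apply hfpf x hxR hx1 k hk
    have h8 : x * k = k * (x * (x⁻¹ * (k⁻¹ * x * k))) := by group
    rw [h8, h4, mul_one]

theorem nilpotent_of_fpf {A : Type*} [Group A] [Finite A] (K R : Subgroup A) [K.Normal]
    (hK1 : K ≠ ⊥) (hR1 : R ≠ ⊥) (hKR : K ⊓ R = ⊥) (hsup : K ⊔ R = ⊤)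
    (hfpf : ∀ r ∈ R, r ≠ 1 → ∀ k ∈ K, r * k = k * r → k = 1) : Group.IsNilpotent K := by
  have hF := frob_of_fpf K R hK1 hR1 hKR hsup hfpf
  obtain ⟨N, hN, _, hNnil⟩ := Cfsg.Agent.S0042.result R hF
  have hNF : N = Cfsg.Agent.Lib.Lead.frobKer R hF :=
    SetLike.coe_injective (by rw [hN, Cfsg.Agent.Lib.Lead.coe_frobKer])
  have hNK : K = N := by
    have hle : K ≤ N := by
      intro k hk
      rw [hNF, Cfsg.Agent.Lib.Lead.mem_frobKer_iff]
      by_cases hk1 : k = 1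
      · exact Or.inl hk1
      · right
        intro g hg
        rw [Cfsg.Agent.Lib.Lead.mem_conj_smul] at hg
        have h1 : g⁻¹ * k * g ∈ K := by
          have := ‹K.Normal›.conj_mem k hk g⁻¹
          rwa [inv_inv] at this
        have h2 : g⁻¹ * k * g ∈ K ⊓ R := ⟨h1, hg⟩
        rw [hKR, Subgroup.mem_bot] at h2
        apply hk1
        have h3 : k = g * (g⁻¹ * k * g) * g⁻¹ := by group
        rw [h3, h2]
        group
    apply Subgroup.eq_of_le_of_card_ge hle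
    have h2 := Cfsg.Agent.Lib.Lead.card_frobKer_mul_card R hF
    have h3 := (Cfsg.Agent.Lib.Helper12.WCore.frob_compl K R hKR hsup).card_mul_card
    have hRpos : 0 < Nat.card R := Nat.card_pos
    rw [hNF]
    have h4 : Nat.card (Cfsg.Agent.Lib.Lead.frobKer R hF) * Nat.card R
        = Nat.card K * Nat.card R := by rw [h2, h3]
    exact (Nat.eq_of_mul_eq_mul_right hRpos h4).le
  rw [hNK]
  exact hNnil

variable {X : Type*} [Group X]

/-- the action on the elementary abelian quotient, as a homomorphism into automorphisms. -/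
noncomputable def psiV (A H : Subgroup X) (hAH : A ≤ Subgroup.normalizer (H : Set X)) (p : ℕ) :
    ↥A →* MulAut (Vq H p) :=
  MonoidHom.mk' (fun a =>
    { toFun := fmap A H hAH p a
      invFun := fmap A H hAH p a⁻¹
      left_inv := fun v => by rw [← fmap_mul, inv_mul_cancel, fmap_one]
      right_inv := fun v => by rw [← fmap_mul, mul_inv_cancel, fmap_one]
      map_mul' := fun x y => map_mul _ x y })
    (fun a b => by
      ext v
      exact fmap_mul A H hAH p a b v)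

theorem psiV_apply (A H : Subgroup X) (hAH : A ≤ Subgroup.normalizer (H : Set X)) (p : ℕ)
    (a : A) (v : Vq H p) : psiV A H hAH p a v = fmap A H hAH p a v := rfl

end Aux

theorem claim3 {X : Type*} [Group X] [Finite X] (K R : Subgroup X) (hK1 : K ≠ ⊥) (hR1 : R ≠ ⊥)
    (hKR : K ⊓ R = ⊥) (hRK : ∀ r ∈ R, ∀ k ∈ K, r * k * r⁻¹ ∈ K)
    (hfpf : ∀ r ∈ R, r ≠ 1 → ∀ k ∈ K, r * k = k * r → k = 1) :
    ∀ (n : ℕ) (H : Subgroup X), Nat.card H = n →
      (∀ x ∈ K ⊔ R, ∀ h ∈ H, x * h * x⁻¹ ∈ H) → Group.IsSolvable H →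
      Nat.Coprime (Nat.card H) (Nat.card ↥(K ⊔ R)) →
      IsCyclic ↥(H ⊓ Subgroup.centralizer (R : Set X)) →
      ⁅K, K⁆ ≤ Subgroup.centralizer (H : Set X) := by
  intro n
  induction n using Nat.strong_induction_on with
  | _ n ih =>
  intro H hn hHn hsolv hcop hcyc
  by_cases hH1 : H = ⊥
  · subst hH1
    intro x _
    rw [Subgroup.mem_centralizer_iff]
    intro h hh
    have h1 : h = 1 := hh
    rw [h1, one_mul, mul_one]
  set A : Subgroup X := K ⊔ R with hAdef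
  have hAH : A ≤ Subgroup.normalizer (H : Set X) := le_normalizer_of_conj_mem hHn
  haveI : Nontrivial ↥H := (Subgroup.nontrivial_iff_ne_bot H).mpr hH1
  haveI := hsolv
  have hcomm_lt := Group.IsSolvable.commutator_lt_top_of_nontrivial ↥H
  have hQ1 : Nat.card (Abelianization ↥H) ≠ 1 := fun h =>
    hcomm_lt.ne (Subgroup.index_eq_one.mp h)
  set p := (Nat.card (Abelianization ↥H)).minFac with hpdef
  have hp : p.Prime := Nat.minFac_prime hQ1
  haveI : Fact p.Prime := ⟨hp⟩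
  have hpQ : p ∣ Nat.card (Abelianization ↥H) := Nat.minFac_dvd _
  have hpH : p ∣ Nat.card H := hpQ.trans (Subgroup.index_dvd_card (commutator ↥H))
  have hpA : ¬ p ∣ Nat.card ↥A := by
    intro h
    have h1 := Nat.dvd_gcd hpH h
    rw [Nat.Coprime.gcd_eq_one hcop] at h1
    exact hp.one_lt.ne' (Nat.dvd_one.mp h1)
  set N : Subgroup X := (theta H p).ker.map H.subtype with hN
  have hNH : N ≤ H := Subgroup.map_subtype_le _
  have hcardN : Nat.card N = Nat.card (theta H p).ker :=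
    Subgroup.card_map_of_injective (Subgroup.subtype_injective _)
  have hcardH : Nat.card H = Nat.card N * Nat.card (Vq H p) := by
    have h1 := Subgroup.card_mul_index (theta H p).ker
    rw [Subgroup.index_ker, MonoidHom.range_eq_top.mpr (theta_surj H p), Subgroup.card_top] at h1
    rw [hcardN, h1]
  have hV1 := one_lt_card_Vq H p hpQ
  have hNpos : 0 < Nat.card N := Nat.card_pos
  have hNlt : Nat.card N < n := by
    rw [← hn, hcardH]
    nlinarith
  have hNsolv : Group.IsSolvable N :=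
    Group.isSolvable_of_isSolvable_injective (Subgroup.inclusion_injective hNH)
  have hNcop : Nat.Coprime (Nat.card N) (Nat.card ↥(K ⊔ R)) :=
    Nat.Coprime.coprime_dvd_left (Subgroup.card_dvd_of_le hNH) hcop
  have hNcyc : IsCyclic ↥(N ⊓ Subgroup.centralizer (R : Set X)) := by
    haveI := hcyc
    exact isCyclic_of_injective (Subgroup.inclusion (inf_le_inf_right _ hNH))
      (Subgroup.inclusion_injective _)
  have ihN := ih (Nat.card N) hNlt N rfl (kermap_inv A H hAH p) hNsolv hNcop hNcyc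
  have hKA : K ≤ A := le_sup_left
  have hRA : R ≤ A := le_sup_right
  have hAK : A ≤ Subgroup.normalizer (K : Set X) :=
    sup_le Subgroup.le_normalizer (le_normalizer_of_conj_mem hRK)
  haveI hKnorm : (K.subgroupOf A).Normal := Subgroup.normal_subgroupOf_of_le_normalizer hAK
  have hKR' : K.subgroupOf A ⊓ R.subgroupOf A = ⊥ := by
    rw [Subgroup.eq_bot_iff_forall]
    rintro x ⟨hxU, hxE⟩
    have h1 : (x : X) ∈ K ⊓ R := ⟨hxU, hxE⟩
    rw [hKR, Subgroup.mem_bot] at h1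
    exact Subtype.ext h1
  have hsup' : K.subgroupOf A ⊔ R.subgroupOf A = ⊤ := by
    rw [← Subgroup.subgroupOf_sup hKA hRA, Subgroup.subgroupOf_self]
  have hfpf' : ∀ e ∈ R.subgroupOf A, e ≠ 1 → ∀ u ∈ K.subgroupOf A, e * u = u * e → u = 1 := by
    intro e he he1 u hu hcomm
    have h1 := hfpf (e : X) he (fun h => he1 (Subtype.ext h)) (u : X) hu
      (congrArg Subtype.val hcomm)
    exact Subtype.ext h1
  have hK1' : K.subgroupOf A ≠ ⊥ := by
    obtain ⟨a, ha⟩ := (Subgroup.ne_bot_iff_exists_ne_one).mp hK1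
    intro h
    have h1 : (⟨(a : X), hKA a.2⟩ : ↥A) ∈ K.subgroupOf A := a.2
    rw [h, Subgroup.mem_bot] at h1
    have h2 : (a : X) = 1 := congrArg (Subtype.val : ↥A → X) h1
    exact ha (Subtype.ext h2)
  have hR1' : R.subgroupOf A ≠ ⊥ := by
    obtain ⟨a, ha⟩ := (Subgroup.ne_bot_iff_exists_ne_one).mp hR1
    intro h
    have h1 : (⟨(a : X), hRA a.2⟩ : ↥A) ∈ R.subgroupOf A := a.2
    rw [h, Subgroup.mem_bot] at h1
    have h2 : (a : X) = 1 := congrArg (Subtype.val : ↥A → X) h1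
    exact ha (Subtype.ext h2)
  have hnil : Group.IsNilpotent ↥(K.subgroupOf A) :=
    nilpotent_of_fpf (K.subgroupOf A) (R.subgroupOf A) hK1' hR1' hKR' hsup' hfpf'
  set ψ : ↥A →* MulAut (Vq H p) := psiV A H hAH p with hψ
  have hcopR : (Nat.card R).Coprime (Nat.card H) :=
    Nat.Coprime.coprime_dvd_left (Subgroup.card_dvd_of_le hRA) hcop.symm
  have hfc : Nat.card ↥(H ⊓ Subgroup.centralizer (R : Set X))
      = Nat.card ↥(Cfsg.Agent.Lib.Helper12.WComm.fixSub ψ ((R.subgroupOf A : Subgroup ↥A) : Set ↥A))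
        * Nat.card ↥(N ⊓ Subgroup.centralizer (R : Set X)) := by
    have h0 := fix_count A H R hAH hRA hcopR hsolv p
    have h1 : Nat.card ↥(Cfsg.Agent.Lib.Helper12.WComm.fixSub ψ
        ((R.subgroupOf A : Subgroup ↥A) : Set ↥A))
        = Nat.card {v : Vq H p | ∀ a : A, (a : X) ∈ R → fmap A H hAH p a v = v} :=
      Nat.card_congr (Equiv.subtypeEquivRight (fun v => Iff.rfl))
    rw [h1]
    exact h0
  have hfix : Nat.card ↥(Cfsg.Agent.Lib.Helper12.WComm.fixSub ψ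
      ((R.subgroupOf A : Subgroup ↥A) : Set ↥A)) ≤ p := by
    obtain ⟨g, hg⟩ := hcyc.exists_generator
    have hc : orderOf g = Nat.card ↥(H ⊓ Subgroup.centralizer (R : Set X)) :=
      orderOf_eq_card_of_forall_mem_zpowers hg
    have hgp : (g : X) ^ p ∈ N ⊓ Subgroup.centralizer (R : Set X) := by
      have h1 : (⟨(g : X) ^ p, H.pow_mem g.2.1 p⟩ : ↥H) = (⟨(g : X), g.2.1⟩ : ↥H) ^ p := rfl
      have h0 : (g : X) ^ p ∈ N :=
        (mem_kermap H p _).mpr ⟨H.pow_mem g.2.1 p, by rw [h1, map_pow, Vq_exp]⟩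
      exact ⟨h0, Subgroup.pow_mem _ g.2.2 p⟩
    have h2 : Nat.card ↥(Subgroup.zpowers ((g : X) ^ p))
        ≤ Nat.card ↥(N ⊓ Subgroup.centralizer (R : Set X)) :=
      Subgroup.card_le_of_le (Subgroup.zpowers_le.mpr hgp)
    rw [Nat.card_zpowers, orderOf_pow' _ hp.ne_zero, Subgroup.orderOf_coe, hc] at h2
    set c := Nat.card ↥(H ⊓ Subgroup.centralizer (R : Set X)) with hcdef
    set n' := Nat.card ↥(N ⊓ Subgroup.centralizer (R : Set X)) with hn'
    have hn'pos : 0 < n' := Nat.card_pos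
    have h3 : c = c / Nat.gcd c p * Nat.gcd c p := (Nat.div_mul_cancel (Nat.gcd_dvd_left c p)).symm
    have h4 : Nat.gcd c p ≤ p := Nat.gcd_le_right c hp.pos
    have h5 : c ≤ n' * p := by
      calc c = c / Nat.gcd c p * Nat.gcd c p := h3
        _ ≤ n' * p := Nat.mul_le_mul h2 h4
    rw [hfc] at h5
    have h6 : Nat.card ↥(Cfsg.Agent.Lib.Helper12.WComm.fixSub ψ
        ((R.subgroupOf A : Subgroup ↥A) : Set ↥A)) * n' ≤ p * n' := by
      rw [mul_comm p n']; exact h5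
    exact Nat.le_of_mul_le_mul_right h6 hn'pos
  have key := Cfsg.Agent.Lib.Helper12.WComm.comm_trivial p (Vq_exp H p) hpA ψ
    (K.subgroupOf A) (R.subgroupOf A) hKR' hfpf' hnil hfix
  -- the kernel of the action on the quotient
  set T : Subgroup X := ψ.ker.map A.subtype with hT
  have hKKK : ⁅K, K⁆ ≤ K := by
    rw [Subgroup.commutator_le]
    intro k hk k' hk'
    rw [commutatorElement_def]
    exact K.mul_mem (K.mul_mem (K.mul_mem hk hk') (K.inv_mem hk)) (K.inv_mem hk')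
  have hDT : ⁅K, K⁆ ≤ T := by
    rw [Subgroup.commutator_le]
    intro k hk k' hk'
    rw [commutatorElement_def]
    have hmemA : k * k' * k⁻¹ * k'⁻¹ ∈ A :=
      A.mul_mem (A.mul_mem (A.mul_mem (hKA hk) (hKA hk')) (A.inv_mem (hKA hk)))
        (A.inv_mem (hKA hk'))
    refine ⟨⟨k * k' * k⁻¹ * k'⁻¹, hmemA⟩, ?_, rfl⟩
    rw [SetLike.mem_coe, MonoidHom.mem_ker]
    ext v
    rw [MulAut.one_apply]
    have h1 := key ⟨k, hKA hk⟩ hk ⟨k', hKA hk'⟩ hk'
      (ψ ((⟨k', hKA hk'⟩ : ↥A) * ⟨k, hKA hk⟩)⁻¹ v)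
    rw [← MulAut.mul_apply, ← map_mul, ← MulAut.mul_apply, ← map_mul, mul_inv_cancel, map_one,
      MulAut.one_apply] at h1
    have h2 : (⟨k * k' * k⁻¹ * k'⁻¹, hmemA⟩ : ↥A)
        = (⟨k, hKA hk⟩ : ↥A) * ⟨k', hKA hk'⟩ * ((⟨k', hKA hk'⟩ : ↥A) * ⟨k, hKA hk⟩)⁻¹ := by
      apply Subtype.ext
      simp only [Subgroup.coe_mul, Subgroup.coe_inv, mul_inv_rev]
      group
    rw [h2]
    exact h1
  have hHT : ∀ d ∈ T, ∀ h ∈ H, d * h * d⁻¹ * h⁻¹ ∈ N := by
    rintro _ ⟨a, ha, rfl⟩ h hh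
    have ha1 : ψ a = 1 := ha
    have h1 : fmap A H hAH p a (theta H p ⟨h, hh⟩) = theta H p ⟨h, hh⟩ := by
      rw [← psiV_apply, ← hψ, ha1, MulAut.one_apply]
    rw [fmap_theta] at h1
    rw [hN, mem_kermap]
    refine ⟨H.mul_mem (cj A H hAH a ⟨h, hh⟩).2 (H.inv_mem hh), ?_⟩
    have h6 : (⟨A.subtype a * h * (A.subtype a)⁻¹ * h⁻¹,
        H.mul_mem (cj A H hAH a ⟨h, hh⟩).2 (H.inv_mem hh)⟩ : ↥H)
        = cj A H hAH a ⟨h, hh⟩ * (⟨h, hh⟩ : ↥H)⁻¹ := rfl
    rw [h6, map_mul, h1, map_inv, mul_inv_cancel]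
  have hHD : ⁅H, ⁅K, K⁆⁆ ≤ N := by
    rw [Subgroup.commutator_le]
    intro h hh d hd
    rw [commutatorElement_def]
    have h1 := N.inv_mem (hHT d (hDT hd) h hh)
    have h2 : (d * h * d⁻¹ * h⁻¹)⁻¹ = h * d * h⁻¹ * d⁻¹ := by group
    rwa [h2] at h1
  have hND : ⁅N, ⁅K, K⁆⁆ = ⊥ :=
    Subgroup.commutator_eq_bot_iff_le_centralizer.mpr (Subgroup.le_centralizer_iff.mp ihN)
  have hDH : ⁅K, K⁆ ≤ Subgroup.normalizer (H : Set X) := (hKKK.trans hKA).trans hAH
  have hcopD : (Nat.card ↥⁅K, K⁆).Coprime (Nat.card H) :=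
    Nat.Coprime.coprime_dvd_left (Subgroup.card_dvd_of_le (hKKK.trans hKA)) hcop.symm
  have hcc := Cfsg.Agent.Lib.Helper1.coprime_commutator_commutator ⁅K, K⁆ H hDH hcopD
    (Or.inr hsolv)
  have hbot : ⁅H, ⁅K, K⁆⁆ = ⊥ := by
    rw [← hcc, eq_bot_iff, ← hND]
    exact Subgroup.commutator_mono hHD le_rfl
  exact Subgroup.le_centralizer_iff.mp (Subgroup.commutator_eq_bot_iff_le_centralizer.mp hbot)

/-- Let X be a finite group with subgroups K, R, M such that: K and R are nontrivial, K ∩ R = 1, R normalizes K, no non-identity element of R centralizes a non-identity element of K, K ⊔ R is solvable of odd order; M is nilpotent and nontrivial, normalized by K and by R, with order coprime to that of K ⊔ R, M ∩ C(K) = 1, and M ∩ C(x) = M ∩ C(R) for all non-identity x ∈ R. Then R has prime order p, #M = #(M ∩ C(R)) ^ p, and if M ∩ C(R) is cyclic then [K, K] centralizes M. -/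
theorem result {X : Type*} [Group X] [Finite X] (K R M : Subgroup X) (hK1 : K ≠ ⊥) (hR1 : R ≠ ⊥) (hKR : K ⊓ R = ⊥)
    (hRK : R ≤ Subgroup.normalizer (K : Set X)) (hfrob : ∀ r ∈ R, r ≠ 1 → K ⊓ Subgroup.centralizer ({r} : Set X) = ⊥)
    (hsolv : Group.IsSolvable ↥(K ⊔ R)) (hodd : Odd (Nat.card ↥(K ⊔ R)))
    (hM1 : M ≠ ⊥) (hMn : Group.IsNilpotent M) (hKM : K ≤ Subgroup.normalizer (M : Set X)) (hRM : R ≤ Subgroup.normalizer (M : Set X))
    (hcop : (Nat.card ↥(K ⊔ R)).Coprime (Nat.card M)) (hCK : M ⊓ Subgroup.centralizer (K : Set X) = ⊥)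
    (hpr : ∀ x ∈ R, x ≠ 1 → M ⊓ Subgroup.centralizer ({x} : Set X) = M ⊓ Subgroup.centralizer (R : Set X)) :
    (Nat.card R).Prime ∧ Nat.card M = Nat.card ↥(M ⊓ Subgroup.centralizer (R : Set X)) ^ Nat.card R ∧
      (IsCyclic ↥(M ⊓ Subgroup.centralizer (R : Set X)) → ⁅K, K⁆ ≤ Subgroup.centralizer (M : Set X)) := by
  classical
  have hUn : ∀ e ∈ R, ∀ u ∈ K, e * u * e⁻¹ ∈ K := fun e he u hu =>
    ((Subgroup.mem_normalizer_iff.mp (hRK he)) u).mp hu
  have hfpf : ∀ e ∈ R, e ≠ 1 → ∀ u ∈ K, e * u = u * e → u = 1 := by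
    intro e he he1 u hu hc
    have h1 : u ∈ K ⊓ Subgroup.centralizer ({e} : Set X) := by
      refine ⟨hu, Subgroup.mem_centralizer_iff.mpr ?_⟩
      intro h hh
      rw [Set.mem_singleton_iff] at hh
      rw [hh]
      exact hc
    rw [hfrob e he he1, Subgroup.mem_bot] at h1
    exact h1
  have hsolvM : Group.IsSolvable M := by
    haveI := hMn
    infer_instance
  have hAM : K ⊔ R ≤ Subgroup.normalizer (M : Set X) := sup_le hKM hRM
  have hHn : ∀ x ∈ K ⊔ R, ∀ h ∈ M, x * h * x⁻¹ ∈ M := fun x hx h hh =>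
    ((Subgroup.mem_normalizer_iff.mp (hAM hx)) h).mp hh
  have hdisj : M ⊓ (K ⊔ R) = ⊥ := Cfsg.Agent.Lib.Helper1.inf_eq_bot_of_coprime_card hcop
  have hCKR : ∀ R₀ : Subgroup X, M ⊓ Subgroup.centralizer ((K ⊔ R₀ : Subgroup X) : Set X) = ⊥ := by
    intro R₀
    rw [eq_bot_iff, ← hCK]
    exact inf_le_inf_left M (Subgroup.centralizer_le (show (K : Set X) ⊆ ((K ⊔ R₀ : Subgroup X) : Set X)
      from fun x hx => (le_sup_left : K ≤ K ⊔ R₀) hx))
  have h2 : Nat.card M = Nat.card ↥(M ⊓ Subgroup.centralizer (R : Set X)) ^ Nat.card R := by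
    have h := Cfsg.Agent.S1545.result K R M hK1 hR1 hKR hUn hfpf hHn hdisj hsolvM hcop.symm
    rw [hCKR R, hCK, Subgroup.card_bot, one_pow, one_mul, mul_one] at h
    exact h
  have hcpos : 0 < Nat.card ↥(M ⊓ Subgroup.centralizer (R : Set X)) := Nat.card_pos
  have hM1' : Nat.card M ≠ 1 := fun h => hM1 (Subgroup.eq_bot_of_card_eq M h)
  refine ⟨?_, h2, ?_⟩
  · by_contra hnp
    have hR1' : Nat.card R ≠ 1 := fun h => hR1 (Subgroup.eq_bot_of_card_eq R h)
    set q := (Nat.card R).minFac with hqdef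
    have hq : q.Prime := Nat.minFac_prime hR1'
    haveI : Fact q.Prime := ⟨hq⟩
    have hqdvd : q ∣ Nat.card R := Nat.minFac_dvd _
    have hqlt : q < Nat.card R := by
      have h1 : q ≤ Nat.card R := Nat.le_of_dvd Nat.card_pos hqdvd
      have h3 : q ≠ Nat.card R := fun h => hnp (h ▸ hq)
      omega
    obtain ⟨x, hx⟩ := exists_prime_orderOf_dvd_card' q hqdvd
    set R₀ : Subgroup X := Subgroup.zpowers (x : X) with hR₀
    have hR₀R : R₀ ≤ R := Subgroup.zpowers_le.mpr x.2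
    have hcardR₀ : Nat.card R₀ = q := by
      rw [hR₀, Nat.card_zpowers, Subgroup.orderOf_coe, hx]
    have hx1 : (x : X) ≠ 1 := by
      intro h
      have h1 : x = 1 := Subtype.ext h
      rw [h1, orderOf_one] at hx
      exact hq.one_lt.ne hx
    have hR₀1 : R₀ ≠ ⊥ := by
      intro h
      rw [h, Subgroup.card_bot] at hcardR₀
      exact hq.one_lt.ne hcardR₀
    have hle : K ⊔ R₀ ≤ K ⊔ R := sup_le_sup_left hR₀R K
    have h := Cfsg.Agent.S1545.result K R₀ M hK1 hR₀1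
      (by rw [eq_bot_iff, ← hKR]; exact inf_le_inf_left K hR₀R)
      (fun e he u hu => hUn e (hR₀R he) u hu)
      (fun e he he1 u hu hc => hfpf e (hR₀R he) he1 u hu hc)
      (fun y hy h hh => hHn y (hle hy) h hh)
      (by rw [eq_bot_iff, ← hdisj]; exact inf_le_inf_left M hle)
      hsolvM
      (Nat.Coprime.coprime_dvd_right (Subgroup.card_dvd_of_le hle) hcop.symm)
    have hCR₀ : M ⊓ Subgroup.centralizer (R₀ : Set X) = M ⊓ Subgroup.centralizer (R : Set X) := by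
      apply le_antisymm
      · rw [← hpr x x.2 hx1]
        exact inf_le_inf_left M (Subgroup.centralizer_le (by
          intro y hy
          rw [Set.mem_singleton_iff] at hy
          rw [hy]
          exact Subgroup.mem_zpowers (x : X)))
      · exact inf_le_inf_left M (Subgroup.centralizer_le (fun y hy => hR₀R hy))
    rw [hCKR R₀, hCK, Subgroup.card_bot, one_pow, one_mul, mul_one, hCR₀, hcardR₀, h2] at h
    set c := Nat.card ↥(M ⊓ Subgroup.centralizer (R : Set X)) with hc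
    rcases Nat.lt_or_ge 1 c with h1 | h1
    · have h3 : c ^ q < c ^ Nat.card R := Nat.pow_lt_pow_right h1 hqlt
      omega
    · have h3 : c = 1 := by omega
      rw [h3, one_pow] at h2
      exact hM1' h2
  · intro hcyc
    exact claim3 K R hK1 hR1 hKR hUn hfpf (Nat.card M) M rfl hHn hsolvM hcop.symm hcyc

end Cfsg.Agent.S1446
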