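import Mathlib
import Cfsg.Statements.S0752

set_option autoImplicit false
open Cfsg

namespace Cfsg.Agent.S0752

universe u v

theorem aux {F : Type v} [Field F] : ∀ (n : ℕ) (V : Type u) [AddCommGroup V] [Module F V]
    [FiniteDimensional F V] (B : LinearMap.BilinForm F V), B.IsAlt → Module.finrank F V = n →
    ∃ (m k : ℕ) (e f : Fin m → V) (r : Fin k → V), 2 * m + k = n ∧ LinearIndependent F r ∧
      (∀ i j : Fin m, B (e i) (f j) = if i = j then 1 else 0) ∧
      (∀ i j : Fin m, B (e i) (e j) = 0) ∧
      (∀ i j : Fin m, B (f i) (f j) = 0) ∧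
      (∀ (j : Fin k) (w : V), B (r j) w = 0) := by
  intro n
  induction n using Nat.strong_induction_on with
  | _ n ih =>
    intro V _ _ _ B hA hn
    have hskew : ∀ a b, B a b = - B b a := fun a b => (hA.neg_eq b a).symm
    by_cases h0 : ∀ x y, B x y = 0
    · refine ⟨0, n, Fin.elim0, Fin.elim0, fun j => (Module.finBasisOfFinrankEq F V hn) j,
        by simp, (Module.finBasisOfFinrankEq F V hn).linearIndependent, ?_, ?_, ?_, ?_⟩
      · intro i; exact i.elim0
      · intro i; exact i.elim0
      · intro i; exact i.elim0
      · intro j w; exact h0 _ _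
    · push Not at h0
      obtain ⟨x, y0, hxy⟩ := h0
      set y := (B x y0)⁻¹ • y0 with hy
      have hxy1 : B x y = 1 := by rw [hy, map_smul, smul_eq_mul, inv_mul_cancel₀ hxy]
      have hyx1 : B y x = -1 := by rw [hskew, hxy1]
      have hxx : B x x = 0 := hA x
      have hyy : B y y = 0 := hA y
      set φ : V →ₗ[F] F × F := (B x).prod (B y) with hφ
      set W : Submodule F V := LinearMap.ker φ with hWdef
      have hW : ∀ w : V, w ∈ W ↔ B x w = 0 ∧ B y w = 0 := by
        intro w
        rw [hWdef, LinearMap.mem_ker]
        show ((B x w, B y w) : F × F) = 0 ↔ _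
        exact Prod.mk_eq_zero
      have hsurj : LinearMap.range φ = ⊤ := by
        rw [LinearMap.range_eq_top]
        rintro ⟨a, b⟩
        refine ⟨a • y - b • x, ?_⟩
        show ((B x (a • y - b • x), B y (a • y - b • x)) : F × F) = (a, b)
        rw [Prod.mk.injEq]
        constructor <;> simp [hxy1, hyx1, hxx, hyy]
      have hdim : Module.finrank F W + 2 = n := by
        have h1 : Module.finrank F (LinearMap.range φ) + Module.finrank F W = Module.finrank F V :=
          LinearMap.finrank_range_add_finrank_ker φ
        rw [hsurj, finrank_top, Module.finrank_prod, Module.finrank_self, hn] at h1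
        omega
      obtain ⟨m, k, e, f, r, hmk, hr, hef, hee, hff, hrv⟩ :=
        ih (Module.finrank F W) (by omega) W (B.restrict W) (fun w => hA w) rfl
      have hWx : ∀ w : W, B x (w : V) = 0 := fun w => ((hW w).mp w.2).1
      have hWy : ∀ w : W, B y (w : V) = 0 := fun w => ((hW w).mp w.2).2
      have hWx' : ∀ w : W, B (w : V) x = 0 := fun w => by rw [hskew, hWx, neg_zero]
      have hWy' : ∀ w : W, B (w : V) y = 0 := fun w => by rw [hskew, hWy, neg_zero]
      refine ⟨m + 1, k, Fin.cons x (fun i => (e i : V)), Fin.cons y (fun i => (f i : V)),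
        fun j => (r j : V), by omega, ?_, ?_, ?_, ?_, ?_⟩
      · exact hr.map' W.subtype (Submodule.ker_subtype W)
      · intro i j
        refine Fin.cases ?_ (fun i => ?_) i <;> refine Fin.cases ?_ (fun j => ?_) j
        · simp [hxy1]
        · simp [hWx, (Fin.succ_ne_zero j).symm]
        · simp [hWy', Fin.succ_ne_zero]
        · have h5 : B (e i : V) (f j : V) = if i = j then 1 else 0 := hef i j
          simp [h5]
      · intro i j
        refine Fin.cases ?_ (fun i => ?_) i <;> refine Fin.cases ?_ (fun j => ?_) j
        · simp [hxx]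
        · simp [hWx]
        · simp [hWx']
        · have h5 : B (e i : V) (e j : V) = 0 := hee i j
          simp [h5]
      · intro i j
        refine Fin.cases ?_ (fun i => ?_) i <;> refine Fin.cases ?_ (fun j => ?_) j
        · simp [hyy]
        · simp [hWy]
        · simp [hWy']
        · have h5 : B (f i : V) (f j : V) = 0 := hff i j
          simp [h5]
      · intro j w
        set w' : V := w - B w y • x - B x w • y with hw'
        have hw'W : w' ∈ W := by
          rw [hW, hw']
          simp only [map_sub, map_smul, hxy1, hyx1, hxx, hyy, smul_eq_mul]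
          constructor
          · ring
          · rw [hskew y w]; ring
        have hdec : w = w' + B w y • x + B x w • y := by rw [hw']; abel
        have h1 : B (r j : V) w' = 0 := hrv j ⟨w', hw'W⟩
        rw [hdec]
        simp only [map_add, map_smul, h1, hWx', hWy', smul_eq_mul]
        ring

/-- Classification of alternating forms: for an alternating bilinear form B on a finite-dimensional space over any field there is a basis indexed by (Fin m ⊕ Fin m) ⊕ Fin k such that B (e_i, f_j) = δ_ij, the e's are pairwise orthogonal, the f's are pairwise orthogonal, and the last k basis vectors are orthogonal to everything (they span the radical). -/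
theorem result {F V : Type*} [Field F] [AddCommGroup V] [Module F V] [FiniteDimensional F V] (B : LinearMap.BilinForm F V) (hA : B.IsAlt) : ∃ (m k : ℕ) (b : Module.Basis ((Fin m ⊕ Fin m) ⊕ Fin k) F V), (∀ i j : Fin m, B (b (Sum.inl (Sum.inl i))) (b (Sum.inl (Sum.inr j))) = if i = j then 1 else 0) ∧ (∀ i j : Fin m, B (b (Sum.inl (Sum.inl i))) (b (Sum.inl (Sum.inl j))) = 0) ∧ (∀ i j : Fin m, B (b (Sum.inl (Sum.inr i))) (b (Sum.inl (Sum.inr j))) = 0) ∧ (∀ (j : Fin k) (v : V), B (b (Sum.inr j)) v = 0) := by
  obtain ⟨m, k, e, f, r, hmk, hr, hef, hee, hff, hrv⟩ := aux (Module.finrank F V) V B hA rfl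
  have hskew : ∀ a b, B a b = - B b a := fun a b => (hA.neg_eq b a).symm
  have hfe : ∀ i j : Fin m, B (f i) (e j) = if i = j then -1 else 0 := by
    intro i j
    rw [hskew, hef]
    by_cases h : i = j
    · simp [h]
    · simp [h, Ne.symm h]
  have hli : LinearIndependent F (Sum.elim (Sum.elim e f) r) := by
    rw [Fintype.linearIndependent_iff]
    intro c hc
    simp only [Fintype.sum_sum_type, Sum.elim_inl, Sum.elim_inr] at hc
    have h1 : ∀ i, c (Sum.inl (Sum.inl i)) = 0 := by
      intro i0
      have := congrArg (fun w => B w (f i0)) hc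
      simp only [map_add, map_sum, map_smul, LinearMap.add_apply, LinearMap.sum_apply,
        LinearMap.smul_apply, hef, hff, hrv, smul_eq_mul, mul_zero, Finset.sum_const_zero,
        add_zero, mul_ite, mul_one, Finset.sum_ite_eq', Finset.mem_univ, if_true,
        map_zero, LinearMap.zero_apply] at this
      exact this
    have h2 : ∀ i, c (Sum.inl (Sum.inr i)) = 0 := by
      intro i0
      have := congrArg (fun w => B w (e i0)) hc
      simp only [map_add, map_sum, map_smul, LinearMap.add_apply, LinearMap.sum_apply,
        LinearMap.smul_apply, hee, hfe, hrv, smul_eq_mul, mul_zero, Finset.sum_const_zero,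
        add_zero, zero_add, mul_ite, mul_neg, mul_one, Finset.sum_ite_eq', Finset.mem_univ, if_true,
        map_zero, LinearMap.zero_apply, neg_eq_zero] at this
      exact this
    have h3 : ∀ j, c (Sum.inr j) = 0 := by
      simp only [h1, h2, zero_smul, Finset.sum_const_zero, zero_add] at hc
      exact Fintype.linearIndependent_iff.mp hr (fun j => c (Sum.inr j)) hc
    rintro ((i | i) | j)
    · exact h1 i
    · exact h2 i
    · exact h3 j
  have hcard : Fintype.card ((Fin m ⊕ Fin m) ⊕ Fin k) = Module.finrank F V := by
    simp only [Fintype.card_sum, Fintype.card_fin]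
    omega
  refine ⟨m, k, basisOfLinearIndependentOfCardEqFinrank' _ hli hcard, ?_, ?_, ?_, ?_⟩
  all_goals simp only [coe_basisOfLinearIndependentOfCardEqFinrank', Sum.elim_inl, Sum.elim_inr]
  · exact hef
  · exact hee
  · exact hff
  · exact hrv
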