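import Mathlib
import Cfsg.Statements.S0749

set_option autoImplicit false
open Cfsg

namespace Cfsg.Agent.S0749

theorem one_step {F V : Type*} [Field F] [AddCommGroup V] [Module F V] [FiniteDimensional F V]
    (B : LinearMap.BilinForm F V) (hB : B.Nondegenerate) (hA : B.IsAlt) (X : Submodule F V)
    (f : V →ₗ[F] V)
    (hiso : ∀ x ∈ X, ∀ x' ∈ X, B (f x) (f x') = B x x') (hinj : ∀ x ∈ X, f x = 0 → x = 0)
    (v w : V) (hv : v ∉ X) (hw : ∀ x ∈ X, f x ≠ w) (hcomp : ∀ x ∈ X, B (f x) w = B x v) :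
    ∃ f' : V →ₗ[F] V, (∀ x ∈ X, f' x = f x) ∧
      (∀ x ∈ X ⊔ Submodule.span F {v}, ∀ x' ∈ X ⊔ Submodule.span F {v},
        B (f' x) (f' x') = B x x') ∧
      (∀ x ∈ X ⊔ Submodule.span F {v}, f' x = 0 → x = 0) := by
  have hskew : ∀ a b, B a b = - B b a := fun a b => (hA.neg_eq b a).symm
  have hrefl : B.IsRefl := hA.isRefl
  have hoo : B.orthogonal (B.orthogonal X) = X :=
    LinearMap.BilinForm.orthogonal_orthogonal hB hrefl X
  have hv' : v ∉ B.orthogonal (B.orthogonal X) := by rw [hoo]; exact hv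
  rw [LinearMap.BilinForm.mem_orthogonal_iff] at hv'
  push Not at hv'
  obtain ⟨u, huX, huv⟩ := hv'
  rw [LinearMap.BilinForm.mem_orthogonal_iff] at huX
  set ℓ : V →ₗ[F] F := (B u v)⁻¹ • B u with hℓ
  have hℓX : ∀ x ∈ X, ℓ x = 0 := by
    intro x hx
    simp [hℓ, hskew u x, huX x hx]
  have hℓv : ℓ v = 1 := by
    simp [hℓ, huv]
  set f' : V →ₗ[F] V := f + ℓ.smulRight (w - f v) with hf'
  have hf'X : ∀ x ∈ X, f' x = f x := by
    intro x hx
    simp [hf', hℓX x hx]
  have hf'v : f' v = w := by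
    simp [hf', hℓv]
  have hdecomp : ∀ y ∈ X ⊔ Submodule.span F {v}, ∃ x ∈ X, ∃ a : F, y = x + a • v := by
    intro y hy
    obtain ⟨x, hx, z, hz, rfl⟩ := Submodule.mem_sup.mp hy
    obtain ⟨a, rfl⟩ := Submodule.mem_span_singleton.mp hz
    exact ⟨x, hx, a, rfl⟩
  have hval : ∀ x ∈ X, ∀ a : F, f' (x + a • v) = f x + a • w := by
    intro x hx a
    rw [map_add, map_smul, hf'X x hx, hf'v]
  refine ⟨f', hf'X, ?_, ?_⟩
  · intro y hy y' hy'
    obtain ⟨x, hx, a, rfl⟩ := hdecomp y hy
    obtain ⟨x', hx', a', rfl⟩ := hdecomp y' hy'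
    rw [hval x hx, hval x' hx']
    simp only [map_add, map_smul, LinearMap.add_apply, LinearMap.smul_apply, smul_eq_mul]
    rw [hiso x hx x' hx', hcomp x hx, hskew w (f x'), hcomp x' hx', hA w, hA v, hskew v x']
  · intro y hy h0
    obtain ⟨x, hx, a, rfl⟩ := hdecomp y hy
    rw [hval x hx] at h0
    by_cases ha : a = 0
    · subst ha
      simp only [zero_smul, add_zero] at h0 ⊢
      exact hinj x hx h0
    · exfalso
      apply hw (-(a⁻¹) • x) (X.smul_mem _ hx)
      rw [map_smul]
      have h1 : a • w = - f x := by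
        rw [eq_neg_iff_add_eq_zero, add_comm]
        exact h0
      calc -(a⁻¹) • f x = a⁻¹ • (- f x) := by rw [neg_smul, smul_neg]
        _ = a⁻¹ • (a • w) := by rw [h1]
        _ = w := by rw [smul_smul, inv_mul_cancel₀ ha, one_smul]

theorem top_case {F V : Type*} [Field F] [AddCommGroup V] [Module F V] [FiniteDimensional F V]
    (B : LinearMap.BilinForm F V) (X : Submodule F V) (hX : X = ⊤) (f : V →ₗ[F] V)
    (hiso : ∀ x ∈ X, ∀ x' ∈ X, B (f x) (f x') = B x x') (hinj : ∀ x ∈ X, f x = 0 → x = 0) :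
    ∃ g : V ≃ₗ[F] V, (∀ u v : V, B (g u) (g v) = B u v) ∧ ∀ x ∈ X, g x = f x := by
  subst hX
  have hf : Function.Injective f :=
    (injective_iff_map_eq_zero f).mpr (fun x hx => hinj x Submodule.mem_top hx)
  refine ⟨LinearEquiv.ofInjectiveEndo f hf, ?_, ?_⟩
  · intro u v
    rw [LinearEquiv.coe_ofInjectiveEndo]
    exact hiso u Submodule.mem_top v Submodule.mem_top
  · intro x _
    rw [LinearEquiv.coe_ofInjectiveEndo]

theorem exists_pair {F V : Type*} [Field F] [AddCommGroup V] [Module F V] [FiniteDimensional F V]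
    (B : LinearMap.BilinForm F V) (hB : B.Nondegenerate) (hA : B.IsAlt) (X : Submodule F V)
    (hX : X ≠ ⊤) (f : V →ₗ[F] V)
    (hiso : ∀ x ∈ X, ∀ x' ∈ X, B (f x) (f x') = B x x') (hinj : ∀ x ∈ X, f x = 0 → x = 0) :
    ∃ v w : V, v ∉ X ∧ (∀ x ∈ X, f x ≠ w) ∧ (∀ x ∈ X, B (f x) w = B x v) := by
  have hskew : ∀ a b, B a b = - B b a := fun a b => (hA.neg_eq b a).symm
  by_cases htop : X ⊔ B.orthogonal X = ⊤
  · -- orthogonal case
    have hX0 : X ⊓ B.orthogonal X = ⊥ := by
      rw [eq_bot_iff]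
      intro x hx
      rw [Submodule.mem_bot]
      apply hB.2
      intro z
      have hz : z ∈ X ⊔ B.orthogonal X := by rw [htop]; exact Submodule.mem_top
      obtain ⟨a, ha, b, hb, rfl⟩ := Submodule.mem_sup.mp hz
      rw [map_add, LinearMap.add_apply, hx.2 a ha, hskew b x, hb x hx.1]
      simp
    have hfrX : Module.finrank F X < Module.finrank F V := Submodule.finrank_lt hX
    have hfrXo := LinearMap.BilinForm.finrank_orthogonal hB X
    have hfrY : Module.finrank F (X.map f) ≤ Module.finrank F X := Submodule.finrank_map_le f X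
    have hfrYo := LinearMap.BilinForm.finrank_orthogonal hB (X.map f)
    obtain ⟨v, hv⟩ := (Module.finrank_pos_iff_exists_ne_zero (R := F)
      (M := B.orthogonal X)).mp (by omega)
    obtain ⟨w, hw⟩ := (Module.finrank_pos_iff_exists_ne_zero (R := F)
      (M := B.orthogonal (X.map f))).mp (by omega)
    refine ⟨v, w, ?_, ?_, ?_⟩
    · intro hvX
      have h1 : (v : V) ∈ X ⊓ B.orthogonal X := ⟨hvX, v.2⟩
      rw [hX0, Submodule.mem_bot] at h1
      exact hv (Subtype.ext h1)
    · intro x hx hfx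
      have h1 : x ∈ X ⊓ B.orthogonal X := by
        refine ⟨hx, ?_⟩
        intro x' hx'
        rw [← hiso x' hx' x hx, hfx]
        exact w.2 (f x') (Submodule.mem_map_of_mem hx')
      rw [hX0, Submodule.mem_bot] at h1
      rw [h1, map_zero] at hfx
      exact hw (Subtype.ext hfx.symm)
    · intro x hx
      rw [w.2 (f x) (Submodule.mem_map_of_mem hx), v.2 x hx]
  · -- generic case
    obtain ⟨v, hv⟩ : ∃ v, v ∉ X ⊔ B.orthogonal X := by
      by_contra hcon
      push Not at hcon
      exact htop (eq_top_iff.mpr (fun z _ => hcon z))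
    have hker : LinearMap.ker (f.comp X.subtype) = ⊥ := by
      rw [LinearMap.ker_eq_bot']
      intro x hx
      exact Subtype.ext (hinj x x.2 hx)
    obtain ⟨h₀, hh₀⟩ := LinearMap.exists_leftInverse_of_injective (f.comp X.subtype) hker
    have hh : ∀ x (hx : x ∈ X), h₀ (f x) = ⟨x, hx⟩ := by
      intro x hx
      exact LinearMap.congr_fun hh₀ ⟨x, hx⟩
    set lam : V →ₗ[F] F := (B.flip v).comp (X.subtype.comp h₀) with hlam
    set w₀ : V := (B.toDual hB).symm (-lam) with hw₀
    have hw₀B : ∀ y, B w₀ y = - lam y := by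
      intro y
      rw [hw₀, LinearMap.BilinForm.apply_toDual_symm_apply]
      rfl
    have hcomp : ∀ x ∈ X, B (f x) w₀ = B x v := by
      intro x hx
      rw [hskew, hw₀B, neg_neg, hlam]
      simp only [LinearMap.comp_apply, hh x hx]
      rfl
    refine ⟨v, w₀, ?_, ?_, hcomp⟩
    · intro hvX
      exact hv (Submodule.mem_sup_left hvX)
    · intro x₀ hx₀ hfx₀
      apply hv
      have h1 : v - x₀ ∈ B.orthogonal X := by
        intro x hx
        rw [map_sub, ← hcomp x hx, ← hfx₀, hiso x hx x₀ hx₀, sub_self]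
      have h2 : v = x₀ + (v - x₀) := by abel
      rw [h2]
      exact Submodule.add_mem _ (Submodule.mem_sup_left hx₀) (Submodule.mem_sup_right h1)

theorem extend_aux {F V : Type*} [Field F] [AddCommGroup V] [Module F V] [FiniteDimensional F V]
    (B : LinearMap.BilinForm F V) (hB : B.Nondegenerate) (hA : B.IsAlt) :
    ∀ (k : ℕ) (X : Submodule F V) (f : V →ₗ[F] V),
      Module.finrank F V ≤ Module.finrank F X + k →
      (∀ x ∈ X, ∀ x' ∈ X, B (f x) (f x') = B x x') → (∀ x ∈ X, f x = 0 → x = 0) →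
      ∃ g : V ≃ₗ[F] V, (∀ u v : V, B (g u) (g v) = B u v) ∧ ∀ x ∈ X, g x = f x := by
  intro k
  induction k with
  | zero =>
    intro X f hk hiso hinj
    have hX : X = ⊤ := by
      apply Submodule.eq_top_of_finrank_eq
      have := Submodule.finrank_le X
      omega
    exact top_case B X hX f hiso hinj
  | succ k ih =>
    intro X f hk hiso hinj
    by_cases hX : X = ⊤
    · exact top_case B X hX f hiso hinj
    · obtain ⟨v, w, hv, hw, hcomp⟩ := exists_pair B hB hA X hX f hiso hinj
      obtain ⟨f', hf'X, hiso', hinj'⟩ := one_step B hB hA X f hiso hinj v w hv hw hcomp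
      have hlt : X < X ⊔ Submodule.span F {v} := by
        refine lt_of_le_of_ne le_sup_left ?_
        intro h
        apply hv
        rw [h]
        exact Submodule.mem_sup_right (Submodule.mem_span_singleton_self v)
      have hfr := Submodule.finrank_lt_finrank_of_lt hlt
      obtain ⟨g, hg1, hg2⟩ := ih (X ⊔ Submodule.span F {v}) f' (by omega) hiso' hinj'
      exact ⟨g, hg1, fun x hx => by rw [hg2 x (Submodule.mem_sup_left hx), hf'X x hx]⟩

/-- Witt's Lemma for alternating forms. If B is a non-degenerate alternating bilinear form on a finite-dimensional vector space V (over any field) and φ is a linear equivalence between subspaces X and Y of V preserving B, then φ extends to a B-preserving linear automorphism of V. -/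
theorem result {F V : Type*} [Field F] [AddCommGroup V] [Module F V] [FiniteDimensional F V] (B : LinearMap.BilinForm F V) (hB : B.Nondegenerate) (hA : B.IsAlt) (X Y : Submodule F V) (φ : X ≃ₗ[F] Y) (hφ : ∀ x x' : X, B (φ x : V) (φ x' : V) = B (x : V) (x' : V)) : ∃ g : V ≃ₗ[F] V, (∀ u v : V, B (g u) (g v) = B u v) ∧ ∀ x : X, g (x : V) = (φ x : V) := by
  obtain ⟨f, hf⟩ := LinearMap.exists_extend (Y.subtype.comp φ.toLinearMap)
  have hfx : ∀ x : X, f (x : V) = (φ x : V) := fun x => LinearMap.congr_fun hf x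
  obtain ⟨g, hg1, hg2⟩ := extend_aux B hB hA (Module.finrank F V) X f (by omega)
    (fun x hx x' hx' => by
      have h1 := hfx ⟨x, hx⟩
      have h2 := hfx ⟨x', hx'⟩
      simp only at h1 h2
      rw [h1, h2]
      exact hφ ⟨x, hx⟩ ⟨x', hx'⟩)
    (fun x hx h0 => by
      have h1 := hfx ⟨x, hx⟩
      simp only at h1
      rw [h1] at h0
      have h2 : φ ⟨x, hx⟩ = 0 := Subtype.ext h0
      have h3 : (⟨x, hx⟩ : X) = 0 := by
        rwa [LinearEquiv.map_eq_zero_iff] at h2
      exact congrArg Subtype.val h3)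
  exact ⟨g, hg1, fun x => by rw [hg2 (x : V) x.2, hfx x]⟩

end Cfsg.Agent.S0749
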