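import Mathlib
import Cfsg.Statements.S0750

set_option autoImplicit false
open Cfsg

namespace Cfsg.Agent.S0750

section aux

variable {F V : Type*} [Field F] [AddCommGroup V] [Module F V] [FiniteDimensional F V]
  (Q : V → F) (B : LinearMap.BilinForm F V)

omit [FiniteDimensional F V] in
theorem B_symm (hadd : ∀ x y, Q (x + y) = Q x + Q y + B x y) (x y : V) : B x y = B y x := by
  have h1 := hadd x y
  have h2 := hadd y x
  rw [add_comm y x] at h2
  linear_combination h2 - h1

omit [FiniteDimensional F V] in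
theorem Q_sub (hadd : ∀ x y, Q (x + y) = Q x + Q y + B x y)
    (hsmul : ∀ (c : F) x, Q (c • x) = c * c * Q x) (x y : V) :
    Q (x - y) = Q x + Q y - B x y := by
  have h1 := hadd x (-y)
  have h2 := hsmul (-1) y
  rw [neg_one_smul] at h2
  rw [sub_eq_add_neg, h1, h2, map_neg]
  ring

omit [FiniteDimensional F V] in
theorem B_self (hadd : ∀ x y, Q (x + y) = Q x + Q y + B x y)
    (hsmul : ∀ (c : F) x, Q (c • x) = c * c * Q x) (x : V) : B x x = 2 * Q x := by
  have h1 := hadd x x
  have h2 := hsmul 2 x
  rw [two_smul] at h2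
  linear_combination h2 - h1

theorem equiv_of_isometry (hadd : ∀ x y, Q (x + y) = Q x + Q y + B x y) (hB : B.Nondegenerate)
    (g : V →ₗ[F] V) (hg : ∀ v, Q (g v) = Q v) : ∃ e : V ≃ₗ[F] V, ∀ v, e v = g v := by
  have hBg : ∀ x y, B (g x) (g y) = B x y := by
    intro x y
    have h1 := hadd x y
    have h2 := hadd (g x) (g y)
    rw [← map_add, hg, hg, hg, h1] at h2
    linear_combination -h2
  have hinj : Function.Injective g := by
    rw [injective_iff_map_eq_zero]
    intro x hx
    apply hB.1
    intro y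
    rw [← hBg, hx, map_zero, LinearMap.zero_apply]
  exact ⟨LinearEquiv.ofInjectiveEndo g hinj, fun v => by rw [LinearEquiv.coe_ofInjectiveEndo]⟩

omit [FiniteDimensional F V] in
theorem B_pres (hadd : ∀ x y, Q (x + y) = Q x + Q y + B x y) (X : Submodule F V)
    (f : V →ₗ[F] V) (hiso : ∀ x ∈ X, Q (f x) = Q x) :
    ∀ x ∈ X, ∀ y ∈ X, B (f x) (f y) = B x y := by
  intro x hx y hy
  have h1 := hadd x y
  have h2 := hadd (f x) (f y)
  rw [← map_add, hiso _ (X.add_mem hx hy), hiso x hx, hiso y hy, h1] at h2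
  linear_combination -h2

omit [FiniteDimensional F V] in
theorem ext_step (X : Submodule F V) (f : V →ₗ[F] V) (v w : V) (hv : v ∉ X) :
    ∃ f' : V →ₗ[F] V, (∀ x ∈ X, f' x = f x) ∧ f' v = w := by
  obtain ⟨g, hg, hgv⟩ := LinearMap.exists_extend_of_notMem (f.comp X.subtype) hv w
  refine ⟨g, fun x hx => ?_, hgv⟩
  have := LinearMap.congr_fun hg ⟨x, hx⟩
  simpa using this

theorem refl_exists (hadd : ∀ x y, Q (x + y) = Q x + Q y + B x y)
    (hsmul : ∀ (c : F) x, Q (c • x) = c * c * Q x) (hB : B.Nondegenerate)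
    (p : V) (hp : Q p ≠ 0) :
    ∃ r : V ≃ₗ[F] V, (∀ v, Q (r v) = Q v) ∧ ∀ v, r v = v - (B v p / Q p) • p := by
  set g : V →ₗ[F] V := LinearMap.id - ((Q p)⁻¹ • (B.flip p)).smulRight p with hg
  have hgv : ∀ v, g v = v - (B v p / Q p) • p := by
    intro v
    simp [hg, div_eq_inv_mul]
  have hiso : ∀ v, Q (g v) = Q v := by
    intro v
    rw [hgv, Q_sub Q B hadd hsmul, hsmul, map_smul, smul_eq_mul]
    field_simp
    ring
  obtain ⟨e, he⟩ := equiv_of_isometry Q B hadd hB g hiso
  exact ⟨e, fun v => by rw [he, hiso], fun v => by rw [he, hgv]⟩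

theorem final_step (hadd : ∀ x y, Q (x + y) = Q x + Q y + B x y)
    (hsmul : ∀ (c : F) x, Q (c • x) = c * c * Q x) (hB : B.Nondegenerate)
    (p : V) (hp0 : p ≠ 0) (hQp : Q p = 0) (f : V →ₗ[F] V)
    (hiso : ∀ x, B x p = 0 → Q (f x) = Q x) (hinj : ∀ x, B x p = 0 → f x = 0 → x = 0)
    (hfp : ∀ x, B x p = 0 → ∃ c : F, x - f x = c • p) :
    ∃ g : V ≃ₗ[F] V, (∀ v, Q (g v) = Q v) ∧ ∀ x, B x p = 0 → g x = f x := by
  set M : Submodule F V := LinearMap.ker (B.flip p) with hM
  have hmem : ∀ x, x ∈ M ↔ B x p = 0 := by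
    intro x
    simp [hM]
  have hBpp : B p p = 0 := by rw [B_self Q B hadd hsmul, hQp, mul_zero]
  obtain ⟨v, hv⟩ : ∃ v, B v p ≠ 0 := by
    by_contra hcon
    push Not at hcon
    exact hp0 (hB.2 p hcon)
  have hfM : ∀ x ∈ M, f x ∈ M := by
    intro x hx
    obtain ⟨c, hc⟩ := hfp x ((hmem x).mp hx)
    have h1 : f x = x - c • p := by rw [← hc]; abel
    rw [h1, hmem, map_sub, LinearMap.sub_apply, map_smul, LinearMap.smul_apply, (hmem x).mp hx,
      hBpp]
    simp
  have hpM : p ∈ M := by rw [hmem]; exact hBpp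
  obtain ⟨c, hc⟩ := hfp p hBpp
  have hfp' : f p = (1 - c) • p := by rw [sub_smul, one_smul, ← hc]; abel
  have hd : 1 - c ≠ 0 := by
    intro h
    rw [h, zero_smul] at hfp'
    exact hp0 (hinj p hBpp hfp')
  have hker : LinearMap.ker (f.comp M.subtype) = ⊥ := by
    rw [LinearMap.ker_eq_bot']
    intro x hx
    exact Subtype.ext (hinj x ((hmem x).mp x.2) hx)
  obtain ⟨h₀, hh₀⟩ := LinearMap.exists_leftInverse_of_injective (f.comp M.subtype) hker
  have hh : ∀ x (hx : x ∈ M), h₀ (f x) = ⟨x, hx⟩ := fun x hx =>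
    LinearMap.congr_fun hh₀ ⟨x, hx⟩
  set L : V →ₗ[F] F := (B.flip v).comp (M.subtype.comp h₀) with hL
  set w0 : V := (B.toDual hB).symm L with hw0def
  have hw0 : ∀ y, B w0 y = L y := fun y => LinearMap.BilinForm.apply_toDual_symm_apply L y
  have hw0M : ∀ x ∈ M, B (f x) w0 = B x v := by
    intro x hx
    rw [B_symm Q B hadd, hw0, hL]
    simp [hh x hx]
  have hBw0p : B w0 p ≠ 0 := by
    have h1 := hw0M p hpM
    rw [hfp', map_smul, LinearMap.smul_apply, smul_eq_mul] at h1
    intro h0
    rw [B_symm Q B hadd p w0, h0, mul_zero] at h1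
    exact hv (by rw [B_symm Q B hadd v p]; exact h1.symm)
  set lam : F := (Q v - Q w0) / B w0 p with hlam
  set w : V := w0 + lam • p with hw
  have hQw : Q w = Q v := by
    rw [hw, hadd, hsmul, hQp, map_smul, smul_eq_mul, hlam]
    field_simp
    ring
  have hBw : ∀ x ∈ M, B (f x) w = B x v := by
    intro x hx
    rw [hw, map_add, map_smul, hw0M x hx, (hmem _).mp (hfM x hx)]
    simp
  obtain ⟨g, hgM, hgv⟩ := ext_step M f v w (by rw [hmem]; exact hv)
  have hgiso : ∀ y, Q (g y) = Q y := by
    intro y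
    set a : F := B y p / B v p with ha
    have hm : y - a • v ∈ M := by
      rw [hmem, map_sub, LinearMap.sub_apply, map_smul, LinearMap.smul_apply, smul_eq_mul, ha]
      field_simp
      ring
    have hy : y = (y - a • v) + a • v := by abel
    rw [hy, map_add, map_smul, hgM _ hm, hgv, hadd, hadd, hsmul, hsmul,
      hiso _ ((hmem _).mp hm), hQw, map_smul, map_smul, hBw _ hm]
  obtain ⟨e, he⟩ := equiv_of_isometry Q B hadd hB g hgiso
  exact ⟨e, fun v => by rw [he, hgiso], fun x hx => by rw [he, hgM x ((hmem x).mpr hx)]⟩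

theorem case2 (hadd : ∀ x y, Q (x + y) = Q x + Q y + B x y)
    (hsmul : ∀ (c : F) x, Q (c • x) = c * c * Q x) (hB : B.Nondegenerate)
    (p : V) (hp0 : p ≠ 0) (hQp : Q p = 0) :
    ∀ (k : ℕ) (X : Submodule F V) (f : V →ₗ[F] V),
      Module.finrank F V - Module.finrank F X ≤ k →
      (∀ x ∈ X, B x p = 0) → (∀ x ∈ X, Q (f x) = Q x) → (∀ x ∈ X, f x = 0 → x = 0) →
      (∀ x ∈ X, ∃ c : F, x - f x = c • p) →
      ∃ g : V ≃ₗ[F] V, (∀ v, Q (g v) = Q v) ∧ ∀ x ∈ X, g x = f x := by
  have hBpp : B p p = 0 := by rw [B_self Q B hadd hsmul, hQp, mul_zero]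
  intro k
  induction k with
  | zero =>
    intro X f hk hXp hiso hinj hfp
    exfalso
    have h1 : Module.finrank F X = Module.finrank F V := by
      have := Submodule.finrank_le X
      omega
    have h2 : X = ⊤ := Submodule.eq_top_of_finrank_eq h1
    apply hp0
    apply hB.2 p
    intro x
    exact hXp x (by rw [h2]; exact Submodule.mem_top)
  | succ k ih =>
    intro X f hk hXp hiso hinj hfp
    by_cases hXM : ∀ x, B x p = 0 → x ∈ X
    · obtain ⟨g, hg1, hg2⟩ := final_step Q B hadd hsmul hB p hp0 hQp f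
        (fun x hx => hiso x (hXM x hx)) (fun x hx => hinj x (hXM x hx))
        (fun x hx => hfp x (hXM x hx))
      exact ⟨g, hg1, fun x hx => hg2 x (hXp x hx)⟩
    · push Not at hXM
      obtain ⟨a, hap, haX⟩ := hXM
      set M : Submodule F V := LinearMap.ker (B.flip p) with hM
      have hmem : ∀ x, x ∈ M ↔ B x p = 0 := by
        intro x
        simp [hM]
      have hXltM : X < M := by
        refine lt_of_le_of_ne (fun x hx => (hmem x).mpr (hXp x hx)) ?_
        intro h
        apply haX
        rw [h, hmem]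
        exact hap
      have hfX : ∀ x ∈ X, B (f x) p = 0 := by
        intro x hx
        obtain ⟨c, hc⟩ := hfp x hx
        have h1 : f x = x - c • p := by rw [← hc]; abel
        rw [h1, map_sub, LinearMap.sub_apply, map_smul, LinearMap.smul_apply, hXp x hx, hBpp]
        simp
      obtain ⟨b, hbp, hbX⟩ : ∃ b, B b p = 0 ∧ b ∉ X.map f := by
        by_contra hcon
        push Not at hcon
        have h1 : M ≤ X.map f := fun x hx => hcon x ((hmem x).mp hx)
        have h2 := Submodule.finrank_mono h1
        have h3 := Submodule.finrank_map_le f X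
        have h4 := Submodule.finrank_lt_finrank_of_lt hXltM
        omega
      obtain ⟨t, htp, htX, htfX⟩ : ∃ t, B t p = 0 ∧ t ∉ X ∧ t ∉ X.map f := by
        by_cases h1 : a ∈ X.map f
        · by_cases h2 : b ∈ X
          · refine ⟨a + b, ?_, ?_, ?_⟩
            · rw [map_add, LinearMap.add_apply, hap, hbp, add_zero]
            · intro h3
              apply haX
              have := X.sub_mem h3 h2
              simpa using this
            · intro h3
              apply hbX
              have := (X.map f).sub_mem h3 h1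
              simpa using this
          · exact ⟨b, hbp, h2, hbX⟩
        · exact ⟨a, hap, haX, h1⟩
      obtain ⟨f', hf'X, hf't⟩ := ext_step X f t t htX
      set X' : Submodule F V := X ⊔ Submodule.span F {t} with hX'
      have hdecomp : ∀ y ∈ X', ∃ x ∈ X, ∃ c : F, y = x + c • t := by
        intro y hy
        obtain ⟨x, hx, z, hz, rfl⟩ := Submodule.mem_sup.mp hy
        obtain ⟨c, rfl⟩ := Submodule.mem_span_singleton.mp hz
        exact ⟨x, hx, c, rfl⟩
      have hval : ∀ x ∈ X, ∀ c : F, f' (x + c • t) = f x + c • t := by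
        intro x hx c
        rw [map_add, map_smul, hf'X x hx, hf't]
      have hXX' : X < X' := by
        refine lt_of_le_of_ne le_sup_left ?_
        intro h
        apply htX
        rw [h]
        exact Submodule.mem_sup_right (Submodule.mem_span_singleton_self t)
      have hk' : Module.finrank F V - Module.finrank F X' ≤ k := by
        have := Submodule.finrank_lt_finrank_of_lt hXX'
        omega
      have hBft : ∀ x ∈ X, B (f x) t = B x t := by
        intro x hx
        obtain ⟨c, hc⟩ := hfp x hx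
        have h1 : f x = x - c • p := by rw [← hc]; abel
        rw [h1, map_sub, LinearMap.sub_apply, map_smul, LinearMap.smul_apply,
          B_symm Q B hadd p t, htp]
        simp
      have hA1 : ∀ y ∈ X', B y p = 0 := by
        intro y hy
        obtain ⟨x, hx, c, rfl⟩ := hdecomp y hy
        rw [map_add, LinearMap.add_apply, map_smul, LinearMap.smul_apply, hXp x hx, htp,
          smul_zero, add_zero]
      have hA2 : ∀ y ∈ X', Q (f' y) = Q y := by
        intro y hy
        obtain ⟨x, hx, c, rfl⟩ := hdecomp y hy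
        rw [hval x hx, hadd, hadd, hiso x hx, map_smul, map_smul, hBft x hx]
      have hA3 : ∀ y ∈ X', f' y = 0 → y = 0 := by
        intro y hy h0
        obtain ⟨x, hx, c, rfl⟩ := hdecomp y hy
        rw [hval x hx] at h0
        by_cases hc : c = 0
        · subst hc
          simp only [zero_smul, add_zero] at h0 ⊢
          exact hinj x hx h0
        · exfalso
          apply htfX
          refine ⟨-(c⁻¹) • x, X.smul_mem _ hx, ?_⟩
          rw [map_smul]
          have h1 : c • t = - f x := by
            rw [eq_neg_iff_add_eq_zero, add_comm]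
            exact h0
          calc -(c⁻¹) • f x = c⁻¹ • (- f x) := by rw [neg_smul, smul_neg]
            _ = c⁻¹ • (c • t) := by rw [h1]
            _ = t := by rw [smul_smul, inv_mul_cancel₀ hc, one_smul]
      have hA4 : ∀ y ∈ X', ∃ c : F, y - f' y = c • p := by
        intro y hy
        obtain ⟨x, hx, c, rfl⟩ := hdecomp y hy
        obtain ⟨d, hd⟩ := hfp x hx
        refine ⟨d, ?_⟩
        rw [hval x hx, ← hd]
        abel
      obtain ⟨g, hg1, hg2⟩ := ih X' f' hk' hA1 hA2 hA3 hA4
      exact ⟨g, hg1, fun x hx => by rw [hg2 x (le_of_lt hXX' hx), hf'X x hx]⟩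

theorem main (hadd : ∀ x y, Q (x + y) = Q x + Q y + B x y)
    (hsmul : ∀ (c : F) x, Q (c • x) = c * c * Q x) (hB : B.Nondegenerate) :
    ∀ (n : ℕ) (X : Submodule F V) (f : V →ₗ[F] V), Module.finrank F X ≤ n →
      (∀ x ∈ X, Q (f x) = Q x) → (∀ x ∈ X, f x = 0 → x = 0) →
      ∃ g : V ≃ₗ[F] V, (∀ v, Q (g v) = Q v) ∧ ∀ x ∈ X, g x = f x := by
  intro n
  induction n with
  | zero =>
    intro X f hX hiso hinj
    have h1 : X = ⊥ := Submodule.finrank_eq_zero.mp (Nat.le_zero.mp hX)
    refine ⟨LinearEquiv.refl F V, fun v => rfl, ?_⟩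
    intro x hx
    rw [h1, Submodule.mem_bot] at hx
    rw [hx, map_zero, map_zero]
  | succ n ih =>
    intro X f hX hiso hinj
    by_cases hXbot : X = ⊥
    · refine ⟨LinearEquiv.refl F V, fun v => rfl, ?_⟩
      intro x hx
      rw [hXbot, Submodule.mem_bot] at hx
      rw [hx, map_zero, map_zero]
    · obtain ⟨u0, hu0X, hu0⟩ := (Submodule.ne_bot_iff X).mp hXbot
      obtain ⟨ℓ, hℓ1, -⟩ := Submodule.exists_le_ker_of_notMem (K := F)
        (p := (⊥ : Submodule F V)) (v := u0) (by simpa using hu0)
      set H : Submodule F V := X ⊓ LinearMap.ker ℓ with hH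
      have hHX : H < X := by
        refine lt_of_le_of_ne inf_le_left ?_
        intro h
        have h1 : u0 ∈ H := by rw [h]; exact hu0X
        rw [hH] at h1
        exact hℓ1 (LinearMap.mem_ker.mp h1.2)
      have hHn : Module.finrank F H ≤ n := by
        have := Submodule.finrank_lt_finrank_of_lt hHX
        omega
      have hdecomp : ∀ x ∈ X, ∃ h ∈ H, ∃ c : F, x = h + c • u0 := by
        intro x hx
        refine ⟨x - (ℓ x / ℓ u0) • u0,
          Submodule.mem_inf.mpr ⟨X.sub_mem hx (X.smul_mem _ hu0X), ?_⟩, ℓ x / ℓ u0, by abel⟩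
        rw [LinearMap.mem_ker, map_sub, map_smul, smul_eq_mul]
        field_simp
        ring
      obtain ⟨g1, hg1iso, hg1H⟩ := ih H f hHn (fun x hx => hiso x (le_of_lt hHX hx))
        (fun x hx => hinj x (le_of_lt hHX hx))
      have hg1s : ∀ y, Q (g1.symm y) = Q y := by
        intro y
        rw [← hg1iso (g1.symm y), LinearEquiv.apply_symm_apply]
      set f2 : V →ₗ[F] V := (g1.symm : V →ₗ[F] V).comp f with hf2
      have hf2v : ∀ x, f2 x = g1.symm (f x) := fun x => rfl
      have hf2iso : ∀ x ∈ X, Q (f2 x) = Q x := by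
        intro x hx
        rw [hf2v, hg1s, hiso x hx]
      have hf2inj : ∀ x ∈ X, f2 x = 0 → x = 0 := by
        intro x hx h0
        rw [hf2v] at h0
        apply hinj x hx
        have := congrArg g1 h0
        rwa [LinearEquiv.apply_symm_apply, map_zero] at this
      have hf2H : ∀ h ∈ H, f2 h = h := by
        intro h hh
        rw [hf2v, ← hg1H h hh, LinearEquiv.symm_apply_apply]
      set p : V := u0 - f2 u0 with hp
      have hBf2 := B_pres Q B hadd X f2 hf2iso
      have hHp : ∀ h ∈ H, B h p = 0 := by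
        intro h hh
        have h1 := hBf2 h (le_of_lt hHX hh) u0 hu0X
        rw [hf2H h hh] at h1
        rw [hp, map_sub, h1, sub_self]
      have hQp : Q p = B u0 p := by
        rw [hp, Q_sub Q B hadd hsmul, hf2iso u0 hu0X, map_sub, B_self Q B hadd hsmul]
        ring
      have hsub : ∀ h ∈ H, ∀ c : F, (h + c • u0) - f2 (h + c • u0) = c • p := by
        intro h hh c
        rw [map_add, map_smul, hf2H h hh, hp, smul_sub]
        abel
      have hBxp : ∀ h ∈ H, ∀ c : F, B (h + c • u0) p = c * B u0 p := by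
        intro h hh c
        rw [map_add, LinearMap.add_apply, map_smul, LinearMap.smul_apply, hHp h hh, zero_add,
          smul_eq_mul]
      have key : ∃ g2 : V ≃ₗ[F] V, (∀ v, Q (g2 v) = Q v) ∧ ∀ x ∈ X, g2 x = f2 x := by
        by_cases hp0 : p = 0
        · refine ⟨LinearEquiv.refl F V, fun v => rfl, ?_⟩
          intro x hx
          obtain ⟨h, hh, c, rfl⟩ := hdecomp x hx
          have h1 := hsub h hh c
          rw [hp0, smul_zero, sub_eq_zero] at h1
          rw [LinearEquiv.refl_apply]
          exact h1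
        · by_cases hup : B u0 p = 0
          · have hQp0 : Q p = 0 := by rw [hQp, hup]
            apply case2 Q B hadd hsmul hB p hp0 hQp0
              (Module.finrank F V - Module.finrank F X) X f2 le_rfl ?_ hf2iso hf2inj ?_
            · intro x hx
              obtain ⟨h, hh, c, rfl⟩ := hdecomp x hx
              rw [hBxp h hh, hup, mul_zero]
            · intro x hx
              obtain ⟨h, hh, c, rfl⟩ := hdecomp x hx
              exact ⟨c, hsub h hh c⟩
          · have hQp0 : Q p ≠ 0 := by rw [hQp]; exact hup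
            obtain ⟨r, hr1, hr2⟩ := refl_exists Q B hadd hsmul hB p hQp0
            refine ⟨r, hr1, ?_⟩
            intro x hx
            obtain ⟨h, hh, c, rfl⟩ := hdecomp x hx
            rw [hr2, hBxp h hh, hQp, mul_div_assoc, div_self hup, mul_one, ← hsub h hh c]
            abel
      obtain ⟨g2, hg2iso, hg2X⟩ := key
      refine ⟨g2.trans g1, fun v => ?_, fun x hx => ?_⟩
      · rw [LinearEquiv.trans_apply, hg1iso, hg2iso]
      · rw [LinearEquiv.trans_apply, hg2X x hx, hf2v, LinearEquiv.apply_symm_apply]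

end aux

/-- Witt's Lemma for quadratic forms over a finite field, in any characteristic: if Q is a quadratic form on a finite-dimensional space V whose polar bilinear form is non-degenerate, then every linear equivalence between subspaces X, Y of V that preserves Q extends to a Q-preserving linear automorphism of V. (In odd characteristic this is the symmetric-bilinear case; in characteristic two it is the statement for non-degenerate quadratic forms.) -/
theorem result {F V : Type*} [Field F] [Finite F] [AddCommGroup V] [Module F V] [FiniteDimensional F V] (Q : QuadraticForm F V) (hQ : (QuadraticMap.polarBilin Q).Nondegenerate) (X Y : Submodule F V) (φ : X ≃ₗ[F] Y) (hφ : ∀ x : X, Q (φ x : V) = Q (x : V)) : ∃ g : V ≃ₗ[F] V, (∀ v : V, Q (g v) = Q v) ∧ ∀ x : X, g (x : V) = (φ x : V) := by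
  have hadd : ∀ x y : V, Q (x + y) = Q x + Q y + QuadraticMap.polarBilin Q x y := by
    intro x y
    exact QuadraticMap.map_add (⇑Q) x y
  have hsmul : ∀ (c : F) (x : V), Q (c • x) = c * c * Q x := by
    intro c x
    rw [QuadraticMap.map_smul, smul_eq_mul]
  obtain ⟨f, hf⟩ := LinearMap.exists_extend (Y.subtype.comp φ.toLinearMap)
  have hfX : ∀ x (hx : x ∈ X), f x = (φ ⟨x, hx⟩ : V) := by
    intro x hx
    have := LinearMap.congr_fun hf ⟨x, hx⟩
    simpa using this
  have hC1 : ∀ x ∈ X, Q (f x) = Q x := by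
    intro x hx
    rw [hfX x hx, hφ ⟨x, hx⟩]
  have hC2 : ∀ x ∈ X, f x = 0 → x = 0 := by
    intro x hx h0
    rw [hfX x hx] at h0
    have h1 : φ ⟨x, hx⟩ = 0 := Subtype.ext h0
    have h2 : (⟨x, hx⟩ : X) = 0 := by
      rw [← φ.map_eq_zero_iff]
      exact h1
    exact congrArg Subtype.val h2
  obtain ⟨g, hg1, hg2⟩ := main (fun v => Q v) (QuadraticMap.polarBilin Q) hadd hsmul hQ
    (Module.finrank F X) X f le_rfl hC1 hC2
  exact ⟨g, hg1, fun x => by rw [hg2 x x.2, hfX x x.2]⟩

end Cfsg.Agent.S0750
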