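import Cfsg.Statements.S0244
import Mathlib

set_option autoImplicit false
open Cfsg

namespace Cfsg.Agent.S0244

/-- Sp_2 = SL_2: a matrix on Fin 1 ⊕ Fin 1 lies in Mathlib's symplectic group iff its determinant is 1. -/
theorem result {R : Type*} [CommRing R] (A : Matrix (Fin 1 ⊕ Fin 1) (Fin 1 ⊕ Fin 1) R) : A ∈ Matrix.symplecticGroup (Fin 1) R ↔ A.det = 1 := by
    have hdet : A.det = A (Sum.inl 0) (Sum.inl 0) * A (Sum.inr 0) (Sum.inr 0) - A (Sum.inl 0) (Sum.inr 0) * A (Sum.inr 0) (Sum.inl 0) := by
      rw [← Matrix.det_submatrix_equiv_self (finSumFinEquiv (m := 1) (n := 1)).symm A, Matrix.det_fin_two]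
      rfl
    rw [SymplecticGroup.mem_iff, hdet]
    constructor
    · intro h
      have h1 := congrFun (congrFun h (Sum.inr 0)) (Sum.inl 0)
      simp [Matrix.mul_apply, Matrix.J, Matrix.fromBlocks, Fintype.sum_sum_type] at h1
      linear_combination h1
    · intro h
      ext i j
      rcases i with i | i <;> rcases j with j | j <;>
        (have hi := Subsingleton.elim i 0; have hj := Subsingleton.elim j 0; subst hi; subst hj;
         simp [Matrix.mul_apply, Matrix.J, Matrix.fromBlocks, Fintype.sum_sum_type])
      · ring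
      · linear_combination -h
      · linear_combination h
      · ring

end Cfsg.Agent.S0244
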