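import Cfsg.Statements.S0263
import Mathlib
import Cfsg.Agent.Lib.Helper3.SylowCard

set_option autoImplicit false
open Cfsg

namespace Cfsg.Agent.S0263

/-- A Sylow p-subgroup of GL_n(q), p the characteristic, has order q^(n(n-1)/2). -/
theorem result {F : Type*} [Field F] [Fintype F] {q : ℕ} (hF : Fintype.card F = q) (p : ℕ) [Fact p.Prime] [CharP F p] (n : ℕ) (P : Sylow p (Matrix.GeneralLinearGroup (Fin n) F)) : Nat.card P = q ^ (n * (n - 1) / 2) := by
  classical
  subst hF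
  obtain ⟨f, hp, hq⟩ := FiniteField.card F p
  have hcard : Nat.card (GL (Fin n) F) = ∏ i : Fin n, (Fintype.card F ^ n - Fintype.card F ^ (i : ℕ)) := Matrix.card_GL_field n
  have hprod : ∏ i : Fin n, (Fintype.card F ^ n - Fintype.card F ^ (i : ℕ)) = Fintype.card F ^ (n * (n - 1) / 2) * ∏ i : Fin n, (Fintype.card F ^ (n - (i : ℕ)) - 1) := by
    have h1 : ∀ i : Fin n, Fintype.card F ^ n - Fintype.card F ^ (i : ℕ) = Fintype.card F ^ (i : ℕ) * (Fintype.card F ^ (n - (i : ℕ)) - 1) := by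
      intro i
      rw [Nat.mul_sub, mul_one, ← pow_add]
      congr 2
      have := i.2
      omega
    rw [Finset.prod_congr rfl (fun i _ => h1 i), Finset.prod_mul_distrib, Finset.prod_pow_eq_pow_sum]
    congr 2
    rw [Fin.sum_univ_eq_sum_range (fun i => i) n, Finset.sum_range_id]
  rw [hprod] at hcard
  have hpk : Fintype.card F ^ (n * (n - 1) / 2) = p ^ ((f : ℕ) * (n * (n - 1) / 2)) := by
    rw [hq, ← pow_mul]
  rw [hpk] at hcard ⊢
  refine Cfsg.Agent.Lib.Helper3.sylow_card_of P hcard ?_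
  intro hdvd
  rw [Prime.dvd_finsetProd_iff hp.prime] at hdvd
  obtain ⟨i, -, hi⟩ := hdvd
  have hni : 0 < n - (i : ℕ) := by
    have := i.2
    omega
  have h2 : p ∣ Fintype.card F ^ (n - (i : ℕ)) := by
    rw [hq]
    exact dvd_pow (dvd_pow_self p (PNat.ne_zero f)) hni.ne'
  have h3 : 0 < Fintype.card F ^ (n - (i : ℕ)) := pow_pos Fintype.card_pos _
  have h4 : p ∣ 1 := by
    have h5 := Nat.dvd_sub h2 hi
    rwa [Nat.sub_sub_self h3] at h5
  exact hp.one_lt.ne' (Nat.dvd_one.mp h4)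

end Cfsg.Agent.S0263
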