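import Cfsg.Statements.S0261
import Mathlib
import Cfsg.Agent.Lib.Helper3.SL2Tori
import Cfsg.Agent.Lib.Helper3.QuatRecog

set_option autoImplicit false
open Cfsg

namespace Cfsg.Agent.S0261

open Cfsg.Agent.Lib.Helper3 in
theorem two_adic {N : ℕ} (hN : N ≠ 0) (h4 : 4 ∣ N) :
    ∃ k m₁, N = 2 ^ (k + 1) * m₁ ∧ ¬ 2 ∣ m₁ ∧ 1 ≤ k := by
  obtain ⟨b, m₁, hm, rfl⟩ := Nat.exists_eq_pow_mul_and_not_dvd hN 2 (by norm_num)
  have hb : 2 ≤ b := by
    by_contra hlt
    have hb01 : b = 0 ∨ b = 1 := by omega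
    rcases hb01 with rfl | rfl
    · apply hm
      obtain ⟨c, hc⟩ := h4
      exact ⟨2 * c, by omega⟩
    · apply hm
      obtain ⟨c, hc⟩ := h4
      exact ⟨c, by omega⟩
  exact ⟨b - 1, m₁, by rw [Nat.sub_add_cancel (by omega)], hm, by omega⟩

theorem not_dvd_mul_of {a b : ℕ} (ha : a ≠ 0) (hb : b ≠ 0) (i j : ℕ) (h1 : ¬ 2 ^ (i + 1) ∣ a)
    (h2 : ¬ 2 ^ (j + 1) ∣ b) : ¬ 2 ^ (i + j + 1) ∣ a * b := by
  have : Fact (Nat.Prime 2) := ⟨Nat.prime_two⟩
  rw [padicValNat_dvd_iff_le ha] at h1
  rw [padicValNat_dvd_iff_le hb] at h2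
  rw [padicValNat_dvd_iff_le (mul_ne_zero ha hb), padicValNat.mul ha hb]
  omega

/-- The Weyl element. -/
def wSL (F : Type*) [Field F] : Matrix.SpecialLinearGroup (Fin 2) F :=
  ⟨!![0, 1; -1, 0], by simp [Matrix.det_fin_two_of]⟩

theorem wSL_val (F : Type*) [Field F] :
    ((wSL F : Matrix.SpecialLinearGroup (Fin 2) F) : Matrix (Fin 2) (Fin 2) F) = !![0, 1; -1, 0] := rfl

theorem order_two_of_sq_neg_one {F : Type*} [Field F] (h2 : (2 : F) ≠ 0)
    (w : Matrix.SpecialLinearGroup (Fin 2) F)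
    (hw : (w : Matrix (Fin 2) (Fin 2) F) * (w : Matrix (Fin 2) (Fin 2) F) = -1) :
    orderOf (w * w) = 2 := by
  rw [Cfsg.Agent.Lib.Helper3.invol_iff]
  constructor
  · apply Subtype.ext
    simp only [Matrix.SpecialLinearGroup.coe_mul, hw]
    simp
  · intro h
    have h1 := congrArg (fun g : Matrix.SpecialLinearGroup (Fin 2) F =>
      (g : Matrix (Fin 2) (Fin 2) F) 0 0) h
    simp only [Matrix.SpecialLinearGroup.coe_mul, hw] at h1
    simp at h1
    apply h2
    linear_combination -h1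

theorem two_ne_zero_of_odd {F : Type*} [Field F] [Fintype F] (hF : Odd (Fintype.card F)) :
    (2 : F) ≠ 0 := by
  intro h20
  have hch : ringChar F = 2 := by
    have := (ringChar.spec F 2).mp (by exact_mod_cast h20)
    have h1 : ringChar F ≠ 1 := CharP.ringChar_ne_one
    exact (Nat.dvd_prime Nat.prime_two).mp this |>.resolve_left h1
  have := FiniteField.even_card_of_char_two hch
  rcases hF with ⟨k, hk⟩
  omega

/-- For q odd, the Sylow 2-subgroups of SL_2(q) are generalised quaternion. -/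
theorem result {F : Type*} [Field F] [Fintype F] (hF : Odd (Fintype.card F)) (P : Sylow 2 (Matrix.SpecialLinearGroup (Fin 2) F)) : ∃ k : ℕ, 1 ≤ k ∧ Nonempty ((P : Subgroup (Matrix.SpecialLinearGroup (Fin 2) F)) ≃* QuaternionGroup (2 ^ k)) := by
  classical
  have h2 := two_ne_zero_of_odd hF
  have hq2 : 2 ≤ Fintype.card F := Fintype.one_lt_card
  have hSL := Cfsg.Agent.Lib.Helper3.card_SL2_eq (F := F)
  have e1 : Fintype.card F ^ 2 - 1 = (Fintype.card F - 1) * (Fintype.card F + 1) := by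
    obtain ⟨k, hk⟩ : ∃ k, Fintype.card F = k + 1 := ⟨Fintype.card F - 1, by omega⟩
    rw [hk, Nat.add_sub_cancel]
    exact Nat.sub_eq_of_eq_add (by ring)
  have hqodd : ¬ 2 ∣ Fintype.card F := by
    rcases hF with ⟨j, hj⟩
    omega
  have hmod : Fintype.card F % 4 = 1 ∨ Fintype.card F % 4 = 3 := by
    rcases hF with ⟨j, hj⟩
    omega
  rcases hmod with hmod | hmod
  · have hcyc := Cfsg.Agent.Lib.Helper3.isCyclic_range_dSL (F := F)
    have hCcard := Cfsg.Agent.Lib.Helper3.card_range_dSL (F := F)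
    obtain ⟨k, m₁, hkm, hm₁, hk⟩ := two_adic (N := Fintype.card F - 1) (by omega) (by omega)
    refine ⟨k, hk, ?_⟩
    refine Cfsg.Agent.Lib.Helper3.sylow2_quaternion_of_cyclic
      (Cfsg.Agent.Lib.Helper3.dSL : Fˣ →* Matrix.SpecialLinearGroup (Fin 2) F).range (wSL F)
      ?hw ?hinv ?hw2 ?hw2o k m₁ (Fintype.card F * (Fintype.card F + 1)) (by rw [hCcard, hkm]) hm₁ ?hG ?hu P
    case hw =>
      rintro ⟨a, ha⟩
      have := congrArg (fun g : Matrix.SpecialLinearGroup (Fin 2) F => (g : Matrix (Fin 2) (Fin 2) F) 0 1) ha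
      simp [Cfsg.Agent.Lib.Helper3.dSL_val, Cfsg.Agent.Lib.Helper3.dMat, wSL_val] at this
    case hinv =>
      rintro _ ⟨a, rfl⟩
      rw [← map_inv]
      apply Subtype.ext
      simp only [Matrix.SpecialLinearGroup.coe_mul, Cfsg.Agent.Lib.Helper3.dSL_val, wSL_val, inv_inv]
      ext i j
      fin_cases i <;> fin_cases j <;> simp [Cfsg.Agent.Lib.Helper3.dMat, Matrix.mul_apply, Fin.sum_univ_two]
    case hw2 =>
      refine ⟨-1, ?_⟩
      apply Subtype.ext
      simp only [Matrix.SpecialLinearGroup.coe_mul, Cfsg.Agent.Lib.Helper3.dSL_val, wSL_val]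
      ext i j
      fin_cases i <;> fin_cases j <;> simp [Cfsg.Agent.Lib.Helper3.dMat, Matrix.mul_apply, Fin.sum_univ_two]
    case hw2o =>
      apply order_two_of_sq_neg_one h2
      rw [wSL_val]
      ext i j
      fin_cases i <;> fin_cases j <;> simp [Matrix.mul_apply, Fin.sum_univ_two]
    case hG =>
      rw [hSL, hCcard, e1]
      ring
    case hu =>
      have h3 := not_dvd_mul_of (a := Fintype.card F) (b := Fintype.card F + 1) (by omega) (by omega) 0 1
        (by simpa using hqodd) (by norm_num; omega)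
      simpa using h3
  · have ht : ∀ x y : F, x ^ 2 + 0 * x * y + y ^ 2 = 0 → x = 0 ∧ y = 0 := by
      intro x y h
      have hns : ¬ IsSquare (-1 : F) := by
        rw [FiniteField.isSquare_neg_one_iff]
        omega
      by_cases hy : y = 0
      · subst hy
        simp at h
        exact ⟨h, rfl⟩
      · exfalso
        apply hns
        refine ⟨x / y, ?_⟩
        field_simp
        linear_combination -h
    obtain ⟨α, β, hαβ⟩ : ∃ α β : F, α ^ 2 + β ^ 2 = -1 := by
      obtain ⟨a, b, hab⟩ := FiniteField.exists_root_sum_quadratic (R := F) (f := Polynomial.X ^ 2)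
        (g := Polynomial.X ^ 2 + Polynomial.C 1) (Polynomial.degree_X_pow 2)
        (Polynomial.degree_X_pow_add_C (by norm_num) 1) (by rcases hF with ⟨j, hj⟩; omega)
      refine ⟨a, b, ?_⟩
      simp at hab
      linear_combination hab
    have hdetw : (!![α, β; β, -α] : Matrix (Fin 2) (Fin 2) F).det = 1 := by
      rw [Matrix.det_fin_two_of]
      linear_combination -hαβ
    obtain ⟨w, hw⟩ : ∃ w : Matrix.SpecialLinearGroup (Fin 2) F,
        (w : Matrix (Fin 2) (Fin 2) F) = !![α, β; β, -α] := ⟨⟨_, hdetw⟩, rfl⟩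
    have hWW : (w : Matrix (Fin 2) (Fin 2) F) * (w : Matrix (Fin 2) (Fin 2) F) = -1 := by
      rw [hw]
      ext i j
      fin_cases i <;> fin_cases j <;> simp [Matrix.mul_apply, Fin.sum_univ_two] <;>
        first | (linear_combination hαβ) | ring1
    have hcyc := Cfsg.Agent.Lib.Helper3.isCyclic_centralizer_comp ht
    obtain ⟨m, hm1, hm2⟩ := Cfsg.Agent.Lib.Helper3.card_centralizer_comp_mul ht
    have hCne : Nat.card (Subgroup.centralizer ({Cfsg.Agent.Lib.Helper3.compSL (0 : F)} : Set (Matrix.SpecialLinearGroup (Fin 2) F))) ≠ 0 :=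
      Nat.card_pos.ne'
    have hm0 : m ≠ 0 := by
      rintro rfl
      rw [mul_zero, e1] at hm2
      have h3 : 0 < (Fintype.card F - 1) * (Fintype.card F + 1) := Nat.mul_pos (by omega) (by omega)
      omega
    have hm4 : ¬ 4 ∣ m := by
      intro h
      have h3 := h.trans hm1
      omega
    have h8 : 8 ∣ Nat.card (Subgroup.centralizer ({Cfsg.Agent.Lib.Helper3.compSL (0 : F)} : Set (Matrix.SpecialLinearGroup (Fin 2) F))) * m := by
      rw [hm2, e1]
      obtain ⟨j, hj⟩ : ∃ j, Fintype.card F = 4 * j + 3 := ⟨Fintype.card F / 4, by omega⟩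
      rw [hj]
      have e3 : 4 * j + 3 - 1 = 4 * j + 2 := rfl
      rw [e3]
      exact ⟨(2 * j + 1) * (j + 1), by ring⟩
    have hC4 : 4 ∣ Nat.card (Subgroup.centralizer ({Cfsg.Agent.Lib.Helper3.compSL (0 : F)} : Set (Matrix.SpecialLinearGroup (Fin 2) F))) := by
      by_contra hC4
      exact not_dvd_mul_of hCne hm0 1 1 (by simpa using hC4) (by simpa using hm4) (by simpa using h8)
    obtain ⟨k, m₁, hkm, hm₁, hk⟩ := two_adic hCne hC4
    refine ⟨k, hk, ?_⟩
    refine Cfsg.Agent.Lib.Helper3.sylow2_quaternion_of_cyclic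
      (Subgroup.centralizer ({Cfsg.Agent.Lib.Helper3.compSL (0 : F)} : Set (Matrix.SpecialLinearGroup (Fin 2) F))) w
      ?hw ?hinv ?hw2 ?hw2o k m₁ (Fintype.card F * m) hkm hm₁ ?hG ?hu P
    case hG =>
      rw [hSL, ← hm2]
      ring
    case hu =>
      have h3 := not_dvd_mul_of (a := Fintype.card F) (b := m) (by omega) hm0 0 1
        (by simpa using hqodd) (by simpa using hm4)
      simpa using h3
    case hw2o => exact order_two_of_sq_neg_one h2 w hWW
    case hw2 =>
      rw [Cfsg.Agent.Lib.Helper3.mem_cent_singleton]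
      apply Subtype.ext
      simp only [Matrix.SpecialLinearGroup.coe_mul]
      rw [hWW]
      simp
    case hw =>
      intro hmem
      obtain ⟨r1, r2⟩ := Cfsg.Agent.Lib.Helper3.centralizer_comp_rel ⟨w, hmem⟩
      simp only [hw] at r1 r2
      simp at r1 r2
      have hβ : β = 0 := by
        have h3 : (2 : F) * β = 0 := by linear_combination r1
        exact (mul_eq_zero.mp h3).resolve_left h2
      have hα : α = 0 := by
        have h3 : (2 : F) * α = 0 := by linear_combination -r2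
        exact (mul_eq_zero.mp h3).resolve_left h2
      rw [hα, hβ] at hαβ
      simp at hαβ
    case hinv =>
      intro c hc
      rw [eq_mul_inv_iff_mul_eq]
      obtain ⟨r1, r2⟩ := Cfsg.Agent.Lib.Helper3.centralizer_comp_rel ⟨c, hc⟩
      have hdet := Cfsg.Agent.Lib.Helper3.sl2_det c
      simp only at r1 r2
      rw [r1, r2] at hdet
      apply Subtype.ext
      simp only [Matrix.SpecialLinearGroup.coe_mul, hw]
      ext i j
      fin_cases i <;> fin_cases j <;> simp [Cfsg.Agent.Lib.Helper3.mul_fin_two_apply, r1, r2]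
      · linear_combination α * hdet
      · linear_combination β * hdet
      · linear_combination β * hdet
      · linear_combination (-α) * hdet

end Cfsg.Agent.S0261
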