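import Cfsg.Statements.S0636
import Cfsg.Agent.Lib.Helper2.CyclicMax

set_option autoImplicit false
open Cfsg

namespace Cfsg.Agent.S0636

open scoped commutatorElement

/-- For odd p, every non-cyclic normal subgroup of a p-group contains a normal elementary abelian subgroup of the whole group of order p². -/
theorem result {R : Type*} [Group R] [Finite R] {p : ℕ} [Fact p.Prime] (hp : p ≠ 2) (hR : IsPGroup p R) (S : Subgroup R) [S.Normal] (hS : ¬ IsCyclic S) : ∃ A : Subgroup R, A ≤ S ∧ A.Normal ∧ Cfsg.IsElementaryAbelian p A ∧ Nat.card A = p ^ 2 := by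
  classical
  have hpf : p.Prime := Fact.out
  have hoddp : Odd p := hpf.odd_of_ne_two hp
  have hnil : Group.IsNilpotent R := hR.isNilpotent
  have hbot : IsMulCommutative (⊥ : Subgroup R) :=
    ⟨⟨fun a b => Subtype.ext (by
      rw [Subgroup.coe_mul, Subgroup.coe_mul, Subgroup.mem_bot.mp a.2, Subgroup.mem_bot.mp b.2])⟩⟩
  obtain ⟨A, hAn, -, hAS, -, hAC⟩ := Cfsg.Agent.S1894.result hR S ⊥ bot_le hbot
  have hAcomm : ∀ x ∈ A, ∀ y ∈ A, x * y = y * x := by
    intro x hx y hy
    have : y ∈ S ⊓ Subgroup.centralizer (A : Set R) := by rw [hAC]; exact hy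
    exact Subgroup.mem_centralizer_iff.mp this.2 x hx
  by_cases hU : Cfsg.Agent.Lib.Lead.UniqP p A
  · -- `A` is cyclic
    have hAc : IsCyclic A :=
      Cfsg.Agent.Lib.Lead.isCyclic_of_uniqP_odd p hoddp _ A rfl (hR.to_subgroup A) hU
    obtain ⟨a', ha'⟩ := hAc.exists_generator
    have hMa : ∀ m ∈ A, m ∈ Subgroup.zpowers (a' : R) := by
      intro m hm
      obtain ⟨i, hi⟩ := Subgroup.mem_zpowers_iff.mp (ha' ⟨m, hm⟩)
      exact Subgroup.mem_zpowers_iff.mpr ⟨i, by simpa using congrArg Subtype.val hi⟩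
    have hAtop : ¬ S ≤ A := by
      intro h
      apply hS
      have hSA : S = A := le_antisymm h hAS
      rw [hSA]
      exact hAc
    obtain ⟨y, hyS, hyA, hyc⟩ := Cfsg.Agent.S1894.exists_mem_not_mem_comm S A hAtop
    have hex : ∃ j : ℕ, y ^ (p ^ j) ∈ A := by
      obtain ⟨j, hj⟩ := hR y
      exact ⟨j, by rw [hj]; exact A.one_mem⟩
    have hj0 : Nat.find hex ≠ 0 := by
      intro h0
      have := Nat.find_spec hex
      rw [h0, pow_zero, pow_one] at this
      exact hyA this
    obtain ⟨j, hj⟩ := Nat.exists_eq_succ_of_ne_zero hj0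
    have hy'A : y ^ (p ^ j) ∉ A := Nat.find_min hex (by omega)
    have hy'p : (y ^ (p ^ j)) ^ p ∈ A := by
      have := Nat.find_spec hex
      rwa [hj, Nat.succ_eq_add_one, pow_succ, pow_mul] at this
    have hy'c : ⁅Subgroup.zpowers (y ^ (p ^ j)), (⊤ : Subgroup R)⁆ ≤ A :=
      le_trans (Subgroup.commutator_mono
        (Subgroup.zpowers_le.mpr (Subgroup.pow_mem _ (Subgroup.mem_zpowers y) _)) le_rfl) hyc
    obtain ⟨y', hy'⟩ : ∃ y', y' = y ^ (p ^ j) := ⟨_, rfl⟩
    have hy'S : y' ∈ S := hy' ▸ S.pow_mem hyS _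
    rw [← hy'] at hy'A hy'p hy'c
    obtain ⟨B, hB⟩ : ∃ B, B = A ⊔ Subgroup.zpowers y' := ⟨_, rfl⟩
    have hBn : B.Normal := by
      rw [hB]; exact Cfsg.Agent.Lib.Helper2.normal_sup_of_commutator_le A _ hy'c
    have hBcard : Nat.card B = Nat.card A * p := by
      rw [hB]; exact Cfsg.Agent.Lib.Helper2.card_sup_zpowers_of_pow_mem A y' p hy'A hy'p
    have hAB : A ≤ B := by rw [hB]; exact le_sup_left
    have hBS : B ≤ S := by
      rw [hB]; exact sup_le hAS (Subgroup.zpowers_le.mpr hy'S)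
    have hy'B : y' ∈ B := by
      rw [hB]; exact Subgroup.mem_sup_right (Subgroup.mem_zpowers y')
    have hCcyc : IsCyclic (A.subgroupOf B) :=
      (Subgroup.subgroupOfEquivOfLe hAB).isCyclic.mpr hAc
    have hCidx : (A.subgroupOf B).index = p := by
      have h1 := Subgroup.card_mul_index (A.subgroupOf B)
      have h2 : Nat.card (A.subgroupOf B) = Nat.card A :=
        Nat.card_congr (Subgroup.subgroupOfEquivOfLe hAB).toEquiv
      rw [h2, hBcard] at h1
      exact Nat.eq_of_mul_eq_mul_left Nat.card_pos h1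
    have hBnc : ¬ IsCyclic B := by
      intro hBc
      apply hy'A
      rw [← hAC]
      refine ⟨hy'S, ?_⟩
      show y' ∈ Subgroup.centralizer (A : Set R)
      rw [Subgroup.mem_centralizer_iff]
      intro h hh
      have hcomm : IsMulCommutative B := hBc.isMulCommutative
      have := (hcomm.is_comm.comm (⟨h, hAB hh⟩ : B) ⟨y', hy'B⟩)
      exact congrArg Subtype.val this
    obtain ⟨K, hK, hKc⟩ := Cfsg.Agent.Lib.Helper2.omega_of_cyclic_index_p hp (hR.to_subgroup B) hBnc
      (A.subgroupOf B) hCcyc hCidx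
    have : IsMulCommutative K := IsPGroup.isMulCommutative_of_card_eq_prime_sq hKc
    refine ⟨K.map B.subtype, ?_, ?_, ⟨inferInstance, ?_⟩, ?_⟩
    · exact (Subgroup.map_subtype_le K).trans hBS
    · constructor
      rintro _ ⟨k, hk, rfl⟩ g
      refine ⟨⟨g * (k : R) * g⁻¹, hBn.conj_mem _ k.2 g⟩, ?_, rfl⟩
      apply (hK _).mpr
      apply Subtype.ext
      have h1 : (k : R) ^ p = 1 := by
        have := (hK k).mp hk
        simpa using congrArg Subtype.val this
      simp only [Subgroup.coe_pow, Subgroup.coe_one]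
      rw [conj_pow, h1, mul_one, mul_inv_cancel]
    · rintro _ ⟨k, hk, rfl⟩
      have := (hK k).mp hk
      simpa using congrArg Subtype.val this
    · rw [Subgroup.card_map_of_injective B.subtype_injective, hKc]
  · -- `A` has two independent elements of order `p`
    unfold Cfsg.Agent.Lib.Lead.UniqP at hU
    push Not at hU
    obtain ⟨x, y, hx, hy, hx1, hyx⟩ := hU
    let Ω : Subgroup R :=
      { carrier := {x | x ∈ A ∧ x ^ p = 1}
        mul_mem' := by
          rintro a b ⟨ha, hap⟩ ⟨hb, hbp⟩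
          refine ⟨A.mul_mem ha hb, ?_⟩
          have hc : Commute a b := hAcomm a ha b hb
          rw [hc.mul_pow, hap, hbp, one_mul]
        one_mem' := ⟨A.one_mem, one_pow p⟩
        inv_mem' := by
          rintro a ⟨ha, hap⟩
          exact ⟨A.inv_mem ha, by rw [inv_pow, hap, inv_one]⟩ }
    have hΩmem : ∀ a, a ∈ Ω ↔ a ∈ A ∧ a ^ p = 1 := fun a => Iff.rfl
    have hΩn : Ω.Normal := by
      constructor
      intro a ha g
      exact ⟨hAn.conj_mem a ha.1 g, by rw [conj_pow, ha.2, mul_one, mul_inv_cancel]⟩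
    have hxΩ : (x : R) ∈ Ω := ⟨x.2, by simpa using congrArg Subtype.val hx⟩
    have hyΩ : (y : R) ∈ Ω := ⟨y.2, by simpa using congrArg Subtype.val hy⟩
    have hΩne : Ω ≠ ⊥ := by
      intro h
      rw [h, Subgroup.mem_bot] at hxΩ
      exact hx1 (Subtype.ext hxΩ)
    obtain ⟨z, hzΩ, hzc, hz1⟩ := Cfsg.Agent.Lib.Helper21.exists_mem_center_of_normal hR Ω hΩne
    have hzo : orderOf z = p := orderOf_eq_prime hzΩ.2 hz1
    have hZn : (Subgroup.zpowers z).Normal := by
      constructor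
      intro n hn g
      have : g * n * g⁻¹ = n := by
        have hc := Subgroup.mem_center_iff.mp
          ((Subgroup.zpowers_le.mpr hzc) hn) g
        rw [hc, mul_inv_cancel_right]
      rw [this]; exact hn
    have hΩZ : ¬ Ω ≤ Subgroup.zpowers z := by
      intro hle
      apply hyx
      have hxz : Subgroup.zpowers (x : R) = Subgroup.zpowers z := by
        apply Subgroup.eq_of_le_of_card_ge (Subgroup.zpowers_le.mpr (hle hxΩ))
        rw [Nat.card_zpowers, Nat.card_zpowers, hzo,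
          orderOf_eq_prime hxΩ.2 (fun h => hx1 (Subtype.ext h))]
      have hyz : (y : R) ∈ Subgroup.zpowers (x : R) := by rw [hxz]; exact hle hyΩ
      obtain ⟨i, hi⟩ := Subgroup.mem_zpowers_iff.mp hyz
      exact Subgroup.mem_zpowers_iff.mpr ⟨i, Subtype.ext (by simpa using hi)⟩
    obtain ⟨w, hwΩ, hwZ, hwc⟩ :=
      Cfsg.Agent.S1894.exists_mem_not_mem_comm Ω (Subgroup.zpowers z) hΩZ
    have hle : Subgroup.zpowers z ⊔ Subgroup.zpowers w ≤ Ω :=
      sup_le (Subgroup.zpowers_le.mpr hzΩ) (Subgroup.zpowers_le.mpr hwΩ)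
    refine ⟨Subgroup.zpowers z ⊔ Subgroup.zpowers w, ?_,
      Cfsg.Agent.Lib.Helper2.normal_sup_of_commutator_le _ _ hwc, ?_, ?_⟩
    · exact fun a ha => hAS (hle ha).1
    · exact ⟨⟨⟨fun a b => Subtype.ext (hAcomm _ (hle a.2).1 _ (hle b.2).1)⟩⟩,
        fun a ha => (hle ha).2⟩
    · rw [Cfsg.Agent.Lib.Helper2.card_sup_zpowers_of_pow_mem (Subgroup.zpowers z) w p hwZ
        (by rw [hwΩ.2]; exact Subgroup.one_mem _), Nat.card_zpowers, hzo, sq]

end Cfsg.Agent.S0636
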