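import Cfsg.Statements.S3745
import Cfsg.Agent.Lib.Helper21.CoprimeHall

set_option autoImplicit false
open Cfsg

namespace Cfsg.Agent.S3745

open Cfsg.Agent.Lib.Helper21

theorem exists_pi_decomp (π : Set ℕ) : ∀ k : ℕ, 0 < k → ∃ m n : ℕ, k = m * n ∧
    (∀ p : ℕ, p.Prime → p ∣ m → p ∈ π) ∧ (∀ p : ℕ, p.Prime → p ∈ π → ¬ p ∣ n) := by
  intro k
  induction k using Nat.strong_induction_on with
  | _ k ih =>
    intro hk
    by_cases hk1 : k = 1
    · exact ⟨1, 1, by rw [hk1], fun p hp h => absurd (Nat.dvd_one.mp h) hp.ne_one,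
        fun p hp _ h => hp.ne_one (Nat.dvd_one.mp h)⟩
    obtain ⟨p, hp, hpk⟩ := Nat.exists_prime_and_dvd hk1
    obtain ⟨k', rfl⟩ := hpk
    have hk'pos : 0 < k' := by
      rcases Nat.eq_zero_or_pos k' with h | h
      · rw [h, mul_zero] at hk; omega
      · exact h
    have hlt : k' < p * k' := by nlinarith [hp.two_le]
    obtain ⟨m, n, hmn, hm, hn⟩ := ih k' hlt hk'pos
    by_cases hpπ : p ∈ π
    · refine ⟨p * m, n, by rw [hmn]; ring, ?_, hn⟩
      intro q hq hqd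
      rcases (Nat.Prime.dvd_mul hq).mp hqd with h | h
      · rw [(Nat.prime_dvd_prime_iff_eq hq hp).mp h]; exact hpπ
      · exact hm q hq h
    · refine ⟨m, p * n, by rw [hmn]; ring, hm, ?_⟩
      intro q hq hqπ hqd
      rcases (Nat.Prime.dvd_mul hq).mp hqd with h | h
      · rw [(Nat.prime_dvd_prime_iff_eq hq hp).mp h] at hqπ; exact hpπ hqπ
      · exact hn q hq hqπ h

theorem isPiHallOf_iff {X : Type*} [Group X] [Finite X] (π : Set ℕ) (G : Subgroup X) (m n : ℕ)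
    (hG : Nat.card G = m * n) (hm : ∀ p : ℕ, p.Prime → p ∣ m → p ∈ π)
    (hn : ∀ p : ℕ, p.Prime → p ∈ π → ¬ p ∣ n) (H : Subgroup X) :
    Cfsg.IsPiHallOf π H G ↔ H ≤ G ∧ Nat.card H = m := by
  have hmpos : 0 < m := by
    rcases Nat.eq_zero_or_pos m with h | h
    · rw [h, zero_mul] at hG; have := Nat.card_pos (α := G); omega
    · exact h
  constructor
  · rintro ⟨hHG, h1, h2⟩
    refine ⟨hHG, ?_⟩
    have h3 := card_mul_relIndex hHG
    rw [hG] at h3
    have c1 : (Nat.card H).Coprime n :=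
      Nat.coprime_of_dvd (fun p hp ha hb => hn p hp (h1 p hp ha) hb)
    have c2 : m.Coprime (H.relIndex G) :=
      Nat.coprime_of_dvd (fun p hp ha hb => h2 p hp (hm p hp ha) hb)
    have d1 : Nat.card H ∣ m := c1.dvd_of_dvd_mul_right (h3 ▸ Dvd.intro _ rfl)
    have d2 : m ∣ Nat.card H := c2.dvd_of_dvd_mul_right (h3 ▸ Dvd.intro _ rfl)
    exact Nat.dvd_antisymm d1 d2
  · rintro ⟨hHG, hc⟩
    refine ⟨hHG, fun p hp h => hm p hp (hc ▸ h), ?_⟩
    have h3 := card_mul_relIndex hHG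
    rw [hG, hc] at h3
    have h4 : H.relIndex G = n := Nat.eq_of_mul_eq_mul_left hmpos h3
    rw [h4]
    exact hn

/-- Coprime action on a solvable group and Hall subgroups. Let A and G be subgroups of a finite group with A normalizing G, the orders of A and G coprime, and G solvable, and let π be a set of primes. Then (a) G has an A-invariant Hall π-subgroup; (b) any two A-invariant Hall π-subgroups of G are conjugate by an element of C_G(A); (c) every A-invariant π-subgroup of G lies in an A-invariant Hall π-subgroup of G. -/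
theorem result {X : Type*} [Group X] [Finite X] (A G : Subgroup X) (hAG : A ≤ Subgroup.normalizer (G : Set X)) (hcop : (Nat.card A).Coprime (Nat.card G)) (hsolv : Group.IsSolvable G) (π : Set ℕ) : (∃ H : Subgroup X, Cfsg.IsPiHallOf π H G ∧ A ≤ Subgroup.normalizer (H : Set X)) ∧ (∀ H₁ H₂ : Subgroup X, Cfsg.IsPiHallOf π H₁ G → A ≤ Subgroup.normalizer (H₁ : Set X) → Cfsg.IsPiHallOf π H₂ G → A ≤ Subgroup.normalizer (H₂ : Set X) → ∃ c ∈ G ⊓ Subgroup.centralizer (A : Set X), H₂ = H₁.map (MulAut.conj c).toMonoidHom) ∧ (∀ U : Subgroup X, U ≤ G → A ≤ Subgroup.normalizer (U : Set X) → (∀ p : ℕ, p.Prime → p ∣ Nat.card U → p ∈ π) → ∃ H : Subgroup X, Cfsg.IsPiHallOf π H G ∧ A ≤ Subgroup.normalizer (H : Set X) ∧ U ≤ H) := by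
  haveI := hsolv
  obtain ⟨m, n, hG, hm, hn⟩ := exists_pi_decomp π (Nat.card G) Nat.card_pos
  have hmn : m.Coprime n := Nat.coprime_of_dvd (fun p hp h1 h2 => hn p hp (hm p hp h1) h2)
  have bridge := isPiHallOf_iff π G m n hG hm hn
  refine ⟨?_, ?_, ?_⟩
  · obtain ⟨H, h1, h2, h3⟩ := coprime_hall_exists A G hAG hcop m n hG hmn
    exact ⟨H, (bridge H).mpr ⟨h1, h2⟩, h3⟩
  · intro H₁ H₂ h1 hA1 h2 hA2
    obtain ⟨h1a, h1b⟩ := (bridge H₁).mp h1
    obtain ⟨h2a, h2b⟩ := (bridge H₂).mp h2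
    obtain ⟨c, hc, hcH⟩ := coprime_hall_conj A G hAG hcop m n hG hmn H₁ H₂ h1a h2a h1b h2b
      hA1 hA2
    exact ⟨c, hc, by rw [map_conj_eq_smul, hcH]⟩
  · intro U hUG hAU hUπ
    have hUn : (Nat.card U).Coprime n :=
      Nat.coprime_of_dvd (fun p hp h1 h2 => hn p hp (hUπ p hp h1) h2)
    obtain ⟨H, h1, h2, h3, h4⟩ := coprime_hall_dom A G hAG hcop m n hG hmn U hUG hAU hUn
    exact ⟨H, (bridge H).mpr ⟨h1, h2⟩, h3, h4⟩

end Cfsg.Agent.S3745
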