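import Cfsg.Statements.S3703
import Cfsg.Agent.Lib.Helper21.SylowRel
import Cfsg.Agent.Lib.Helper21.CoprimeP
import Cfsg.Agent.Lib.Lead.FrobeniusMore

set_option autoImplicit false
open Cfsg

namespace Cfsg.Agent.S3703


open Cfsg.Agent.Lib.Helper21 Cfsg.Agent.Lib.Lead

section abstract

/-- Trace argument for a Frobenius-like group `Q⟨c⟩` acting on an abelian group `V` of
coprime order, all of whose elements `u c` (`u ∈ Q`) have vanishing norm on `V`. -/
theorem frob_trace {E V : Type*} [Group E] [CommGroup V] [Finite V] (ρ : E →* MulAut V)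
    (Q : Subgroup E) [Finite Q] (c : E) (n : ℕ)
    (hc : ∀ u ∈ Q, c * u * c⁻¹ ∈ Q)
    (hb : ∀ u ∈ Q, ∀ v : V, ∏ i ∈ Finset.range (n + 1), ρ ((u * c) ^ i) v = 1)
    (hinj : ∀ u ∈ Q, ∀ u' ∈ Q, ∀ i, 0 < i → i < n + 1 → (u * c) ^ i = (u' * c) ^ i → u = u')
    (hcop : (Nat.card Q).Coprime (Nat.card V)) :
    ∀ u ∈ Q, ∀ v : V, ρ u v = v := by
  classical
  haveI : Fintype Q := Fintype.ofFinite Q
  have hci : ∀ i : ℕ, ∀ u ∈ Q, c ^ i * u * (c ^ i)⁻¹ ∈ Q := by
    intro i
    induction i with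
    | zero => intro u hu; simpa using hu
    | succ i ih =>
      intro u hu
      have e : c ^ (i + 1) * u * (c ^ (i + 1))⁻¹ = c * (c ^ i * u * (c ^ i)⁻¹) * c⁻¹ := by
        rw [pow_succ', mul_inv_rev]
        simp only [mul_assoc]
      rw [e]
      exact hc _ (ih u hu)
  have hφ : ∀ i : ℕ, ∀ u ∈ Q, (u * c) ^ i * (c ^ i)⁻¹ ∈ Q := by
    intro i
    induction i with
    | zero => intro u hu; simp
    | succ i ih =>
      intro u hu
      have e : (u * c) ^ (i + 1) * (c ^ (i + 1))⁻¹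
          = ((u * c) ^ i * (c ^ i)⁻¹) * (c ^ i * u * (c ^ i)⁻¹) := by
        rw [pow_succ, pow_succ, mul_inv_rev]
        group
      rw [e]
      exact Q.mul_mem (ih u hu) (hci i u hu)
  -- the trace
  let Tr : V → V := fun w => ∏ u : Q, ρ (u : E) w
  have hTr_mul : ∀ w₁ w₂, Tr (w₁ * w₂) = Tr w₁ * Tr w₂ := by
    intro w₁ w₂
    show ∏ u : Q, ρ (u : E) (w₁ * w₂) = (∏ u : Q, ρ (u : E) w₁) * ∏ u : Q, ρ (u : E) w₂
    rw [← Finset.prod_mul_distrib]
    exact Finset.prod_congr rfl fun u _ => map_mul _ _ _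
  have hTr_one : Tr 1 = 1 := by
    show ∏ u : Q, ρ (u : E) 1 = 1
    exact Finset.prod_eq_one fun u _ => map_one _
  let TrH : V →* V := ⟨⟨Tr, hTr_one⟩, hTr_mul⟩
  have hTrH : ∀ w, TrH w = Tr w := fun w => rfl
  have hTr_inv : ∀ (u₀ : E), u₀ ∈ Q → ∀ w, ρ u₀ (Tr w) = Tr w := by
    intro u₀ hu₀ w
    show ρ u₀ (∏ u : Q, ρ (u : E) w) = ∏ u : Q, ρ (u : E) w
    rw [map_prod]
    refine Fintype.prod_equiv (Equiv.mulLeft (⟨u₀, hu₀⟩ : Q)) _ _ ?_
    intro u
    show ρ u₀ (ρ (u : E) w) = ρ ((⟨u₀, hu₀⟩ * u : Q) : E) w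
    rw [Subgroup.coe_mul, map_mul]
    rfl
  have hstep : ∀ i, 0 < i → i < n + 1 → ∀ v : V,
      ∏ u : Q, ρ (((u : E) * c) ^ i) v = Tr (ρ (c ^ i) v) := by
    intro i hi0 hin v
    let φ : Q → Q := fun u => ⟨((u : E) * c) ^ i * (c ^ i)⁻¹, hφ i u u.2⟩
    have hφinj : Function.Injective φ := by
      intro u u' huu
      have h1 : ((u : E) * c) ^ i * (c ^ i)⁻¹ = ((u' : E) * c) ^ i * (c ^ i)⁻¹ :=
        congrArg Subtype.val huu
      have h2 : ((u : E) * c) ^ i = ((u' : E) * c) ^ i := mul_right_cancel h1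
      exact Subtype.ext (hinj u u.2 u' u'.2 i hi0 hin h2)
    have hφbij : Function.Bijective φ := Finite.injective_iff_bijective.mp hφinj
    show ∏ u : Q, ρ (((u : E) * c) ^ i) v = ∏ u : Q, ρ (u : E) (ρ (c ^ i) v)
    rw [← Function.Bijective.prod_comp hφbij (fun u : Q => ρ (u : E) (ρ (c ^ i) v))]
    refine Finset.prod_congr rfl fun u _ => ?_
    show ρ (((u : E) * c) ^ i) v = ρ (((u : E) * c) ^ i * (c ^ i)⁻¹) (ρ (c ^ i) v)
    rw [← MulAut.mul_apply, ← map_mul, inv_mul_cancel_right]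
  intro u₀ hu₀ v
  -- the product of all the norm relations
  have h1 : ∏ u : Q, ∏ i ∈ Finset.range (n + 1), ρ (((u : E) * c) ^ i) v = 1 :=
    Finset.prod_eq_one fun u _ => hb u u.2 v
  rw [Finset.prod_comm, Finset.prod_range_succ'] at h1
  have h2 : ∏ u : Q, ρ (((u : E) * c) ^ 0) v = v ^ Nat.card Q := by
    simp only [pow_zero, map_one, MulAut.one_apply, Finset.prod_const, Finset.card_univ,
      Nat.card_eq_fintype_card]
  have h3 : ∏ i ∈ Finset.range n, ∏ u : Q, ρ (((u : E) * c) ^ (i + 1)) v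
      = Tr (∏ i ∈ Finset.range n, ρ (c ^ (i + 1)) v) := by
    rw [← hTrH, map_prod]
    refine Finset.prod_congr rfl fun i hi => ?_
    rw [hTrH]
    exact hstep (i + 1) (Nat.succ_pos i) (Nat.succ_lt_succ (Finset.mem_range.mp hi)) v
  have h4 : (∏ i ∈ Finset.range n, ρ (c ^ (i + 1)) v) = v⁻¹ := by
    have h5 := hb 1 Q.one_mem v
    rw [Finset.prod_range_succ'] at h5
    simp only [one_mul, pow_zero, map_one, MulAut.one_apply] at h5
    exact eq_inv_of_mul_eq_one_left h5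
  rw [h2, h3, h4] at h1
  have h6 : Tr v⁻¹ = (Tr v)⁻¹ := by
    rw [← hTrH, ← hTrH, map_inv]
  rw [h6] at h1
  have h7 : v ^ Nat.card Q = Tr v := by
    rw [inv_mul_eq_one] at h1
    exact h1.symm
  have h8 : ρ u₀ (v ^ Nat.card Q) = v ^ Nat.card Q := by
    rw [h7]
    exact hTr_inv u₀ hu₀ v
  rw [map_pow] at h8
  have h9 : (ρ u₀ v * v⁻¹) ^ Nat.card Q = 1 := by
    rw [mul_pow, inv_pow, h8, mul_inv_cancel]
  have h10 : orderOf (ρ u₀ v * v⁻¹) = 1 :=
    Nat.eq_one_of_dvd_coprimes hcop (orderOf_dvd_of_pow_eq_one h9) (orderOf_dvd_natCard _)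
  exact mul_inv_eq_one.mp (orderOf_eq_one_iff.mp h10)

end abstract

section normal

/-- the action of `E` on the abelianization of a normal subgroup -/
noncomputable def abAct {E : Type*} [Group E] (A : Subgroup E) [A.Normal] :
    E →* MulAut (Abelianization A) where
  toFun x := (MulAut.conjNormal x : MulAut A).abelianizationCongr
  map_one' := by
    rw [map_one]
    exact abelianizationCongr_refl
  map_mul' x y := by
    rw [map_mul]
    exact (abelianizationCongr_trans _ _).symm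

theorem abAct_of {E : Type*} [Group E] (A : Subgroup E) [A.Normal] (x : E) (a : A) :
    abAct A x (Abelianization.of a) = Abelianization.of (MulAut.conjNormal x a) := rfl

theorem frob_comm_normal {E : Type*} [Group E] (A : Subgroup E) [A.Normal] [Finite A]
    (Q : Subgroup E) [Finite Q] (c : E) (n : ℕ)
    (hc : ∀ u ∈ Q, c * u * c⁻¹ ∈ Q)
    (hb : ∀ u ∈ Q, ∀ a ∈ A, (a * (u * c)) ^ (n + 1) = 1)
    (hinj : ∀ u ∈ Q, ∀ u' ∈ Q, ∀ i, 0 < i → i < n + 1 → (u * c) ^ i = (u' * c) ^ i → u = u')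
    (hcop : (Nat.card Q).Coprime (Nat.card A)) :
    ∀ u ∈ Q, ∀ a ∈ A, u * a * u⁻¹ * a⁻¹ ∈ ⁅A, A⁆ := by
  have hcop' : (Nat.card Q).Coprime (Nat.card (Abelianization A)) :=
    Nat.Coprime.coprime_dvd_right (Subgroup.card_quotient_dvd_card _) hcop
  have key := frob_trace (abAct A) Q c n hc ?_ hinj hcop'
  · intro u hu a ha
    have h1 := key u hu (Abelianization.of ⟨a, ha⟩)
    rw [abAct_of] at h1
    have h3 : (MulAut.conjNormal u (⟨a, ha⟩ : A)) * (⟨a, ha⟩ : A)⁻¹ ∈ commutator A := by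
      rw [← Abelianization.ker_of, MonoidHom.mem_ker, map_mul, map_inv, h1, mul_inv_cancel]
    have h4 := Subgroup.mem_map_of_mem A.subtype h3
    rw [Subgroup.map_subtype_commutator] at h4
    exact h4
  · intro u hu v
    obtain ⟨a, rfl⟩ : ∃ a : A, Abelianization.of a = v := QuotientGroup.mk_surjective v
    have hind : ∀ k : ℕ, ∃ b : A, (b : E) = ((a : E) * (u * c)) ^ k * ((u * c) ^ k)⁻¹ ∧
        Abelianization.of b
          = ∏ i ∈ Finset.range k, abAct A ((u * c) ^ i) (Abelianization.of a) := by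
      intro k
      induction k with
      | zero => exact ⟨1, by simp, by simp⟩
      | succ k ih =>
        obtain ⟨b, hb1, hb2⟩ := ih
        refine ⟨b * MulAut.conjNormal ((u * c) ^ k) a, ?_, ?_⟩
        · rw [Subgroup.coe_mul, hb1, MulAut.conjNormal_apply, pow_succ, pow_succ, mul_inv_rev]
          group
        · rw [map_mul, hb2, Finset.prod_range_succ, abAct_of]
    obtain ⟨b, hb1, hb2⟩ := hind (n + 1)
    rw [← hb2]
    have h1 : (u * c) ^ (n + 1) = 1 := by simpa using hb u hu 1 A.one_mem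
    rw [hb u hu a a.2, h1, inv_one, mul_one] at hb1
    have hb0 : b = 1 := Subtype.ext hb1
    rw [hb0, map_one]

/-- version for a subgroup `U` normalized by `Q` and `c` -/
theorem frob_comm {E : Type*} [Group E] (U : Subgroup E) [Finite U]
    (Q : Subgroup E) [Finite Q] (c : E) (n : ℕ)
    (hQU : Q ≤ Subgroup.normalizer (U : Set E)) (hcU : c ∈ Subgroup.normalizer (U : Set E))
    (hc : ∀ u ∈ Q, c * u * c⁻¹ ∈ Q)
    (hb : ∀ u ∈ Q, ∀ a ∈ U, (a * (u * c)) ^ (n + 1) = 1)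
    (hinj : ∀ u ∈ Q, ∀ u' ∈ Q, ∀ i, 0 < i → i < n + 1 → (u * c) ^ i = (u' * c) ^ i → u = u')
    (hcop : (Nat.card Q).Coprime (Nat.card U)) :
    ∀ u ∈ Q, ∀ a ∈ U, u * a * u⁻¹ * a⁻¹ ∈ ⁅U, U⁆ := by
  set T : Subgroup E := Subgroup.normalizer (U : Set E) with hT
  have hUT : U ≤ T := Subgroup.le_normalizer
  haveI : (U.subgroupOf T).Normal := Subgroup.normal_in_normalizer
  haveI : Finite (U.subgroupOf T) :=
    Finite.of_equiv U (Subgroup.subgroupOfEquivOfLe hUT).symm.toEquiv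
  haveI : Finite (Q.subgroupOf T) :=
    Finite.of_equiv Q (Subgroup.subgroupOfEquivOfLe hQU).symm.toEquiv
  have hcard1 : Nat.card (U.subgroupOf T) = Nat.card U :=
    Nat.card_congr (Subgroup.subgroupOfEquivOfLe hUT).toEquiv
  have hcard2 : Nat.card (Q.subgroupOf T) = Nat.card Q :=
    Nat.card_congr (Subgroup.subgroupOfEquivOfLe hQU).toEquiv
  have key := frob_comm_normal (U.subgroupOf T) (Q.subgroupOf T) (⟨c, hcU⟩ : T) n ?_ ?_ ?_ ?_
  · intro u hu a ha
    have h1 := key ⟨u, hQU hu⟩ (Subgroup.mem_subgroupOf.mpr hu) ⟨a, hUT ha⟩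
      (Subgroup.mem_subgroupOf.mpr ha)
    have h2 := Subgroup.mem_map_of_mem T.subtype h1
    rw [Subgroup.map_commutator, Subgroup.subgroupOf_map_subtype, inf_eq_left.mpr hUT] at h2
    exact h2
  · intro u hu
    rw [Subgroup.mem_subgroupOf] at hu ⊢
    exact hc _ hu
  · intro u hu a ha
    rw [Subgroup.mem_subgroupOf] at hu ha
    apply Subtype.ext
    exact hb _ hu _ ha
  · intro u hu u' hu' i hi0 hin heq
    rw [Subgroup.mem_subgroupOf] at hu hu'
    apply Subtype.ext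
    exact hinj _ hu _ hu' i hi0 hin (congrArg Subtype.val heq)
  · rw [hcard1, hcard2]
    exact hcop

end normal

section frob

universe u

variable {K : Type u} [Group K] [Finite K]

theorem frob_coset_conj (H : Subgroup K) (hH : Cfsg.IsFrobeniusComplement H) (c : K)
    (hcH : c ∈ H) (hord : orderOf c = Nat.card H) (y : K) (hy : y * c⁻¹ ∈ frobKer H hH) :
    ∃ g : K, g⁻¹ * y * g ∈ H := by
  have hyF : y ∉ frobKer H hH := by
    intro hyF
    have hc : c ∈ frobKer H hH := by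
      have e : c = (y * c⁻¹)⁻¹ * y := by group
      rw [e]
      exact Subgroup.mul_mem _ (Subgroup.inv_mem _ hy) hyF
    have hmem : c ∈ frobKer H hH ⊓ H := ⟨hc, hcH⟩
    rw [frobKer_inf, Subgroup.mem_bot] at hmem
    rw [hmem, orderOf_one] at hord
    exact hH.1 (Subgroup.eq_bot_of_card_eq H hord.symm)
  rw [mem_frobKer_iff] at hyF
  push Not at hyF
  obtain ⟨-, g, hg⟩ := hyF
  exact ⟨g, (mem_conj_smul H g y).mp hg⟩

theorem frob_coset_order (H : Subgroup K) (hH : Cfsg.IsFrobeniusComplement H) (c : K)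
    (hcH : c ∈ H) (hord : orderOf c = Nat.card H) (y : K) (hy : y * c⁻¹ ∈ frobKer H hH) :
    orderOf y = Nat.card H := by
  haveI := frobKer_normal H hH
  obtain ⟨g, hg⟩ := frob_coset_conj H hH c hcH hord y hy
  apply Nat.dvd_antisymm
  · apply orderOf_dvd_of_pow_eq_one
    have h1 : (⟨g⁻¹ * y * g, hg⟩ : H) ^ Nat.card H = 1 := pow_card_eq_one'
    have h2 : (g⁻¹ * y * g) ^ Nat.card H = 1 := congrArg Subtype.val h1
    have h3 : (g⁻¹ * y * g) ^ Nat.card H = g⁻¹ * y ^ Nat.card H * g := by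
      have := conj_pow (a := g⁻¹) (b := y) (i := Nat.card H)
      rwa [inv_inv] at this
    rw [h3] at h2
    have h4 : y ^ Nat.card H = g * (g⁻¹ * y ^ Nat.card H * g) * g⁻¹ := by group
    rw [h4, h2]
    group
  · rw [← hord]
    apply orderOf_dvd_of_pow_eq_one
    have h1 : (QuotientGroup.mk y : K ⧸ frobKer H hH) = QuotientGroup.mk c := by
      rw [QuotientGroup.eq]
      have e : y⁻¹ * c = y⁻¹ * (y * c⁻¹)⁻¹ * y⁻¹⁻¹ := by group
      rw [e]
      exact Subgroup.Normal.conj_mem inferInstance _ (Subgroup.inv_mem _ hy) _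
    have h2 : (QuotientGroup.mk (c ^ orderOf y) : K ⧸ frobKer H hH) = 1 := by
      rw [QuotientGroup.mk_pow, ← h1, ← QuotientGroup.mk_pow, pow_orderOf_eq_one]
      rfl
    have h3 : c ^ orderOf y ∈ frobKer H hH := (QuotientGroup.eq_one_iff _).mp h2
    have hmem : c ^ orderOf y ∈ frobKer H hH ⊓ H := ⟨h3, H.pow_mem hcH _⟩
    rw [frobKer_inf, Subgroup.mem_bot] at hmem
    exact hmem

theorem frob_coset_pow_inj (H : Subgroup K) (hH : Cfsg.IsFrobeniusComplement H) (c : K)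
    (hcH : c ∈ H) (hord : orderOf c = Nat.card H) (y₁ y₂ : K)
    (hy₁ : y₁ * c⁻¹ ∈ frobKer H hH) (hy₂ : y₂ * c⁻¹ ∈ frobKer H hH) (i : ℕ) (hi0 : 0 < i)
    (hi : i < Nat.card H) (heq : y₁ ^ i = y₂ ^ i) : y₁ = y₂ := by
  haveI := frobKer_normal H hH
  obtain ⟨g, hg⟩ := frob_coset_conj H hH c hcH hord y₁ hy₁
  have ho := frob_coset_order H hH c hcH hord y₁ hy₁
  have hne : (g⁻¹ * y₁ * g) ^ i ≠ 1 := by
    intro h1
    have h3 : (g⁻¹ * y₁ * g) ^ i = g⁻¹ * y₁ ^ i * g := by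
      have := conj_pow (a := g⁻¹) (b := y₁) (i := i)
      rwa [inv_inv] at this
    rw [h3] at h1
    have h4 : y₁ ^ i = 1 := by
      have e : y₁ ^ i = g * (g⁻¹ * y₁ ^ i * g) * g⁻¹ := by group
      rw [e, h1]
      group
    have h5 := orderOf_dvd_of_pow_eq_one h4
    rw [ho] at h5
    exact absurd (Nat.le_of_dvd hi0 h5) (not_le.mpr hi)
  have hb : g⁻¹ * y₂ * g ∈ H := by
    apply frob_conj_mem hH (H.pow_mem hg i) hne
    have e : (g⁻¹ * y₂ * g)⁻¹ * (g⁻¹ * y₁ * g) ^ i * (g⁻¹ * y₂ * g) = (g⁻¹ * y₁ * g) ^ i := by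
      have h3 : (g⁻¹ * y₁ * g) ^ i = g⁻¹ * y₁ ^ i * g := by
        have := conj_pow (a := g⁻¹) (b := y₁) (i := i)
        rwa [inv_inv] at this
      rw [h3, heq]
      have h6 : y₂⁻¹ * y₂ ^ i * y₂ = y₂ ^ i := by
        rw [mul_assoc, ← pow_succ, pow_succ', ← mul_assoc, inv_mul_cancel, one_mul]
      calc (g⁻¹ * y₂ * g)⁻¹ * (g⁻¹ * y₂ ^ i * g) * (g⁻¹ * y₂ * g)
          = g⁻¹ * (y₂⁻¹ * y₂ ^ i * y₂) * g := by group
        _ = g⁻¹ * y₂ ^ i * g := by rw [h6]
    rw [e]
    exact H.pow_mem hg i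
  have hF : (g⁻¹ * y₁ * g) * (g⁻¹ * y₂ * g)⁻¹ ∈ frobKer H hH := by
    have e : (g⁻¹ * y₁ * g) * (g⁻¹ * y₂ * g)⁻¹ = g⁻¹ * ((y₁ * c⁻¹) * (y₂ * c⁻¹)⁻¹) * g⁻¹⁻¹ := by
      group
    rw [e]
    exact Subgroup.Normal.conj_mem inferInstance _
      (Subgroup.mul_mem _ hy₁ (Subgroup.inv_mem _ hy₂)) _
  have hmem : (g⁻¹ * y₁ * g) * (g⁻¹ * y₂ * g)⁻¹ ∈ frobKer H hH ⊓ H :=
    ⟨hF, H.mul_mem hg (H.inv_mem hb)⟩
  rw [frobKer_inf, Subgroup.mem_bot] at hmem
  have h7 : g⁻¹ * y₁ * g = g⁻¹ * y₂ * g := mul_inv_eq_one.mp hmem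
  exact mul_left_cancel (mul_right_cancel h7)

end frob

/-- Let N be a normal subgroup of the finite group G such that G/N is a Frobenius group with kernel F and cyclic complement H, where the order of F is coprime to that of N and F is not contained in the image of C_G(N) in G/N. Then G has an element of order p·#H for some prime p dividing the order of N. (A standard tool in recognising groups by their element orders.) -/
theorem result {G : Type*} [Group G] [Finite G] (N : Subgroup G) [N.Normal]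
    (Fb Hb : Subgroup (G ⧸ N)) [Fb.Normal] (hHb : Cfsg.IsFrobeniusComplement Hb) (hker : Cfsg.frobeniusKernel Hb = (Fb : Set (G ⧸ N)))
    (hcyc : IsCyclic Hb) (hcop : (Nat.card Fb).Coprime (Nat.card N))
    (hnot : ¬ Fb ≤ (Subgroup.centralizer (N : Set G)).map (QuotientGroup.mk' N)) :
    ∃ p : ℕ, p.Prime ∧ p ∣ Nat.card N ∧ ∃ g : G, orderOf g = p * Nat.card Hb := by
  classical
  have hFb : Fb = frobKer Hb hHb := by
    apply SetLike.coe_injective
    rw [coe_frobKer, hker]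
  subst hFb
  set π : G →* G ⧸ N := QuotientGroup.mk' N with hπ
  have hπs : Function.Surjective π := QuotientGroup.mk'_surjective N
  have hkerπ : ∀ x : G, π x = 1 ↔ x ∈ N := fun x => QuotientGroup.eq_one_iff x
  obtain ⟨cb, hcb⟩ := hcyc.exists_generator
  have hordcb : orderOf (cb : G ⧸ N) = Nat.card Hb := by
    rw [Subgroup.orderOf_coe]
    exact orderOf_eq_card_of_forall_mem_zpowers hcb
  have hcbH : (cb : G ⧸ N) ∈ Hb := cb.2
  set h := Nat.card Hb with hh
  have hpos : 0 < h := Nat.card_pos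
  set Fk := frobKer Hb hHb with hFk
  by_cases hstar : ∀ g : G, π g * (cb : G ⧸ N)⁻¹ ∈ Fk → g ^ h = 1
  swap
  · push Not at hstar
    obtain ⟨g, hg, hgh⟩ := hstar
    have ho : orderOf (π g) = h := frob_coset_order Hb hHb cb hcbH hordcb (π g) hg
    have hdvd : h ∣ orderOf g := by
      rw [← ho]
      exact orderOf_map_dvd π g
    have hghN : g ^ h ∈ N := by
      rw [← hkerπ, map_pow, ← ho, pow_orderOf_eq_one]
    set m := orderOf (g ^ h) with hm
    have hm1 : m ≠ 1 := fun h1 => hgh (orderOf_eq_one_iff.mp h1)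
    have hmdef : m = orderOf g / h := orderOf_pow_of_dvd hpos.ne' hdvd
    have hog : orderOf g = h * m := by
      rw [hmdef, Nat.mul_div_cancel' hdvd]
    obtain ⟨p, hp, hpm⟩ := Nat.exists_prime_and_dvd hm1
    obtain ⟨m', hm'⟩ := hpm
    have hpN : p ∣ Nat.card N := by
      have h2 := Subgroup.orderOf_dvd_natCard N hghN
      exact (Dvd.intro m' hm'.symm).trans h2
    refine ⟨p, hp, hpN, g ^ m', ?_⟩
    have hog0 : orderOf g ≠ 0 := (orderOf_pos g).ne'
    have hm'0 : m' ≠ 0 := by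
      rintro rfl
      rw [mul_zero] at hm'
      rw [hog, hm', mul_zero] at hog0
      exact hog0 rfl
    have hd : m' ∣ orderOf g := by
      rw [hog, hm']
      exact Dvd.intro_left (h * p) (by ring)
    rw [orderOf_pow_of_dvd hm'0 hd, hog, hm', show h * (p * m') = (p * h) * m' by ring]
    exact Nat.mul_div_cancel _ (Nat.pos_of_ne_zero hm'0)
  exfalso
  haveI hFkn : Fk.Normal := frobKer_normal Hb hHb
  set F : Subgroup G := Fk.comap π with hFdef
  haveI hFn : F.Normal := Subgroup.Normal.comap hFkn π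
  have hNF : N ≤ F := by
    intro x hx
    show π x ∈ Fk
    rw [(hkerπ x).mpr hx]
    exact Fk.one_mem
  have hmapF : F.map π = Fk := Subgroup.map_comap_eq_self_of_surjective hπs Fk
  have hrelNF : N.relIndex F = Nat.card Fk := by
    have h1 : ((⊥ : Subgroup (G ⧸ N)).comap π).relIndex F = Nat.card Fk := by
      rw [Subgroup.relIndex_comap, hmapF, Subgroup.relIndex_bot_left]
    have h2 : (⊥ : Subgroup (G ⧸ N)).comap π = N := by
      rw [MonoidHom.comap_bot, QuotientGroup.ker_mk']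
    rw [h2] at h1
    exact h1
  -- Step 1: a Sylow subgroup of `F` acting nontrivially on `N`
  have hex : ∃ q : ℕ, q.Prime ∧ ¬ q ∣ Nat.card N ∧ ∃ Q' : Sylow q F,
      ¬ ((Q' : Subgroup F).map F.subtype ≤ Subgroup.centralizer (N : Set G)) := by
    by_contra hno
    push Not at hno
    apply hnot
    set M : Subgroup G := (Subgroup.centralizer (N : Set G) ⊓ F) ⊔ N with hM
    have hNM : N ≤ M := le_sup_right
    have hMF : M ≤ F := sup_le inf_le_right hNF
    have hrel1 : M.relIndex F = 1 := by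
      by_contra hne1
      obtain ⟨q, hq, hqd⟩ := Nat.exists_prime_and_dvd hne1
      haveI := Fact.mk hq
      have h1 : N.relIndex M * M.relIndex F = N.relIndex F :=
        Subgroup.relIndex_mul_relIndex N M F hNM hMF
      have hqF : q ∣ Nat.card Fk := by
        rw [← hrelNF, ← h1]
        exact Dvd.dvd.mul_left hqd _
      have hqN : ¬ q ∣ Nat.card N := fun hqN =>
        hq.one_lt.ne' (Nat.eq_one_of_dvd_coprimes hcop hqF hqN)
      obtain ⟨Q'⟩ : Nonempty (Sylow q F) := inferInstance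
      have hsyl := isSylOf_map_subtype Q'
      have hQM : (Q' : Subgroup F).map F.subtype ≤ M :=
        le_sup_of_le_left (le_inf (hno q hq hqN Q') hsyl.1)
      have h2 := Subgroup.relIndex_mul_relIndex _ M F hQM hMF
      exact hsyl.2.2 (h2 ▸ Dvd.dvd.mul_left hqd _)
    have hFM : F ≤ M := Subgroup.relIndex_eq_one.mp hrel1
    intro x hx
    obtain ⟨g, rfl⟩ := hπs x
    have hgF : g ∈ F := hx
    have hgM := hFM hgF
    obtain ⟨a, ha, b, hb, rfl⟩ := Subgroup.mem_sup_of_normal_right.mp hgM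
    refine ⟨a, ha.1, ?_⟩
    rw [map_mul, (hkerπ b).mpr hb, mul_one]
  obtain ⟨q, hq, hqN, Q', hQc⟩ := hex
  haveI := Fact.mk hq
  set Q : Subgroup G := (Q' : Subgroup F).map F.subtype with hQdef
  have hsylQ : IsSylOf q F Q := isSylOf_map_subtype Q'
  have hQ : IsPGroup q Q := hsylQ.2.1
  have hQF : Q ≤ F := hsylQ.1
  -- Step 2: Frattini
  obtain ⟨c₀, hc₀⟩ := hπs (cb : G ⧸ N)
  have hfrat : Subgroup.normalizer (Q : Set G) ⊔ F = ⊤ := Sylow.normalizer_sup_eq_top Q'
  have hc₀mem : c₀ ∈ Subgroup.normalizer (Q : Set G) ⊔ F := by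
    rw [hfrat]
    exact Subgroup.mem_top _
  obtain ⟨c₁, hc₁Q, f, hf, hc₁f⟩ := Subgroup.mem_sup_of_normal_right.mp hc₀mem
  have hc₁C : π c₁ * (cb : G ⧸ N)⁻¹ ∈ Fk := by
    have e : π c₁ = (cb : G ⧸ N) * (π f)⁻¹ := by
      rw [← hc₀, ← hc₁f, map_mul, mul_inv_cancel_right]
    rw [e]
    exact Subgroup.Normal.conj_mem inferInstance _ (Fk.inv_mem hf) _
  -- Step 3: a `Q`-invariant Sylow subgroup of `N` on which `Q` acts nontrivially
  have hex2 : ∃ p : ℕ, p.Prime ∧ ∃ P' : Sylow p N,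
      Q ≤ Subgroup.normalizer (((P' : Subgroup N).map N.subtype : Subgroup G) : Set G) ∧
      ¬ Q ≤ Subgroup.centralizer (((P' : Subgroup N).map N.subtype : Subgroup G) : Set G) := by
    by_contra hno
    push Not at hno
    apply hQc
    set M : Subgroup G := Subgroup.centralizer (Q : Set G) ⊓ N with hM
    have hrel1 : M.relIndex N = 1 := by
      by_contra hne1
      obtain ⟨p, hp, hpd⟩ := Nat.exists_prime_and_dvd hne1
      haveI := Fact.mk hp
      obtain ⟨P', hP'⟩ := exists_sylow_normalized (p := q) (q := p) hqN hQ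
      have hsyl := isSylOf_map_subtype P'
      have hcent := hno p hp P' hP'
      have hPM : (P' : Subgroup N).map N.subtype ≤ M :=
        le_inf (Subgroup.le_centralizer_iff.mp hcent) hsyl.1
      have h2 := Subgroup.relIndex_mul_relIndex _ M N hPM inf_le_right
      exact hsyl.2.2 (h2 ▸ Dvd.dvd.mul_left hpd _)
    have hNM : N ≤ M := Subgroup.relIndex_eq_one.mp hrel1
    exact Subgroup.le_centralizer_iff.mp (hNM.trans inf_le_left)
  obtain ⟨p, hp, P', hQP, hQncP⟩ := hex2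
  haveI := Fact.mk hp
  set P : Subgroup G := (P' : Subgroup N).map N.subtype with hPdef
  have hsylP : IsSylOf p N P := isSylOf_map_subtype P'
  have hc₁N : c₁ ∈ Subgroup.normalizer (N : Set G) := by
    rw [Subgroup.normalizer_eq_top]
    exact Subgroup.mem_top _
  have hsylP₂ := hsylP.map_conj hc₁N
  have hQP₂ : Q ≤ Subgroup.normalizer
      ((P.map (MulAut.conj c₁).toMonoidHom : Subgroup G) : Set G) := by
    have h1 := le_normalizer_map_conj hQP c₁
    rwa [(mem_normalizer_iff_map Q c₁).mp hc₁Q] at h1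
  obtain ⟨n, hnN, hnQ, hnP⟩ :=
    IsSylOf.exists_conj_normalizer (p := q) (q := p) hqN hQ hsylP hsylP₂ hQP hQP₂
  set c₂ := n⁻¹ * c₁ with hc₂
  have hc₂P : c₂ ∈ Subgroup.normalizer (P : Set G) := by
    rw [mem_normalizer_iff_map, hc₂, map_conj_mul, hnP, map_conj_map_conj_inv]
  have hc₂Q : c₂ ∈ Subgroup.normalizer (Q : Set G) :=
    Subgroup.mul_mem _ (Subgroup.inv_mem _ hnQ) hc₁Q
  have hc₂C : π c₂ * (cb : G ⧸ N)⁻¹ ∈ Fk := by
    rw [hc₂, map_mul, map_inv, (hkerπ n).mpr hnN, inv_one, one_mul]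
    exact hc₁C
  -- Step 4: a minimal invariant subgroup with nontrivial action
  let S : Set (Subgroup G) := {U | U ≤ P ∧ Q ≤ Subgroup.normalizer (U : Set G) ∧
    c₂ ∈ Subgroup.normalizer (U : Set G) ∧ ¬ Q ≤ Subgroup.centralizer (U : Set G)}
  have hPS : P ∈ S := ⟨le_rfl, hQP, hc₂P, hQncP⟩
  obtain ⟨U, ⟨hUP, hQU, hcU, hQncU⟩, hUmin⟩ :=
    (wellFounded_lt (α := Subgroup G)).has_min S ⟨P, hPS⟩
  have hnormD : Subgroup.normalizer (U : Set G)
      ≤ Subgroup.normalizer ((⁅U, U⁆ : Subgroup G) : Set G) := by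
    intro g hg
    rw [mem_normalizer_iff_map] at hg ⊢
    rw [Subgroup.map_commutator, hg]
  have hUp : IsPGroup p U := hsylP.2.1.to_le hUP
  have hUne : U ≠ ⊥ := by
    rintro rfl
    apply hQncU
    intro u hu
    rw [Subgroup.mem_centralizer_iff]
    intro x hx
    have hx1 : x = 1 := Subgroup.mem_bot.mp hx
    rw [hx1, one_mul, mul_one]
  have hDeq : ⁅U, U⁆ = (commutator U).map U.subtype := (Subgroup.map_subtype_commutator U).symm
  have hDle : ⁅U, U⁆ ≤ U := by
    rw [hDeq]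
    exact Subgroup.map_subtype_le _
  have hDne : ⁅U, U⁆ ≠ U := by
    intro heq
    haveI : Nontrivial U := (Subgroup.nontrivial_iff_ne_bot U).mpr hUne
    haveI : Group.IsNilpotent U := hUp.isNilpotent
    have hlt := Group.IsSolvable.commutator_lt_top_of_nontrivial U
    apply hlt.ne
    apply Subgroup.map_injective U.subtype_injective
    rw [← hDeq, heq, ← MonoidHom.range_eq_map, Subgroup.range_subtype]
  have hDS : ⁅U, U⁆ ∉ S := fun hD => hUmin _ hD (lt_of_le_of_ne hDle hDne)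
  have hQcD : Q ≤ Subgroup.centralizer ((⁅U, U⁆ : Subgroup G) : Set G) := by
    by_contra hcon
    exact hDS ⟨hDle.trans hUP, hQU.trans hnormD, hnormD hcU, hcon⟩
  -- Step 5: the trace argument
  obtain ⟨k, hk⟩ : ∃ k, Nat.card Q = q ^ k := IsPGroup.iff_card.mp hQ
  have hcopQN : (Nat.card Q).Coprime (Nat.card N) := by
    rw [hk]
    exact Nat.Coprime.pow_left k ((Nat.Prime.coprime_iff_not_dvd hq).mpr hqN)
  have hUN : U ≤ N := hUP.trans hsylP.1
  have hcopQU : (Nat.card Q).Coprime (Nat.card U) :=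
    Nat.Coprime.coprime_dvd_right (Subgroup.card_dvd_of_le hUN) hcopQN
  obtain ⟨n', hn'⟩ : ∃ n', h = n' + 1 := Nat.exists_eq_succ_of_ne_zero hpos.ne'
  have hQC : ∀ u ∈ Q, π (u * c₂) * (cb : G ⧸ N)⁻¹ ∈ Fk := by
    intro u hu
    rw [map_mul, mul_assoc]
    exact Fk.mul_mem (hQF hu) hc₂C
  have hcomm := frob_comm U Q c₂ n' hQU hcU ?_ ?_ ?_ hcopQU
  rotate_left
  · intro u hu
    exact (Subgroup.mem_normalizer_iff.mp hc₂Q u).mp hu
  · intro u hu a ha
    rw [← hn']
    apply hstar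
    rw [map_mul, (hkerπ a).mpr (hUN ha), one_mul]
    exact hQC u hu
  · intro u hu u' hu' i hi0 hin heq
    rw [← hn'] at hin
    have h1 : π (u * c₂) = π (u' * c₂) := by
      apply frob_coset_pow_inj Hb hHb cb hcbH hordcb _ _ (hQC u hu) (hQC u' hu') i hi0 hin
      rw [← map_pow, ← map_pow, heq]
    rw [map_mul, map_mul] at h1
    have h2 : π u = π u' := mul_right_cancel h1
    have h3 : u⁻¹ * u' ∈ N := by
      rw [← hkerπ, map_mul, map_inv, h2, inv_mul_cancel]
    have h4 : orderOf (u⁻¹ * u') = 1 := by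
      apply Nat.eq_one_of_dvd_coprimes hcopQN
      · exact Subgroup.orderOf_dvd_natCard Q (Q.mul_mem (Q.inv_mem hu) hu')
      · exact Subgroup.orderOf_dvd_natCard N h3
    exact inv_mul_eq_one.mp (orderOf_eq_one_iff.mp h4)
  -- Step 6: coprime action
  apply hQncU
  intro u hu
  rw [Subgroup.mem_centralizer_iff]
  intro a ha
  have hw := hcomm u hu a ha
  set w := u * a * u⁻¹ * a⁻¹ with hwdef
  have h1 : u * a * u⁻¹ = w * a := by
    rw [hwdef]
    group
  have hwu : Commute w u := (Subgroup.mem_centralizer_iff.mp (hQcD hu)) w hw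
  have h2 := conj_pow_of_central h1 hwu (orderOf u)
  rw [pow_orderOf_eq_one, inv_one, one_mul, mul_one] at h2
  have h3 : w ^ orderOf u = 1 := by
    have h3' : w ^ orderOf u * a = 1 * a := by
      rw [one_mul]
      exact h2.symm
    exact mul_right_cancel h3'
  have h4 : orderOf w = 1 := by
    apply Nat.eq_one_of_dvd_coprimes hcopQU
    · exact (orderOf_dvd_of_pow_eq_one h3).trans (Subgroup.orderOf_dvd_natCard Q hu)
    · exact Subgroup.orderOf_dvd_natCard U (hDle hw)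
  have h5 : w = 1 := orderOf_eq_one_iff.mp h4
  rw [h5, one_mul] at h1
  calc a * u = (u * a * u⁻¹) * u := by rw [h1]
    _ = u * a := by group

end Cfsg.Agent.S3703
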