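import Cfsg.Statements.S3879
import Mathlib

set_option autoImplicit false
open Cfsg

namespace Cfsg.Agent.S3879


open scoped commutatorElement

theorem nt {p : ℕ} [Fact p.Prime] (hp : p ≠ 2) (n : ℕ) (r : ℤ) (hr : (p:ℤ) ∣ r - 1) (k : ℕ) :
    ((p:ℤ)^n ∣ r^k - 1) ↔ ((p:ℤ)^n ∣ (r - 1) * k) := by
  have hp' : Nat.Prime p := Fact.out
  have hodd : Odd p := hp'.odd_of_ne_two hp
  have hx : ¬ (p:ℤ) ∣ r := by
    intro h
    have h1 : (p:ℤ) ∣ 1 := by simpa using dvd_sub h hr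
    have h2 : p ∣ 1 := by exact_mod_cast h1
    exact hp'.one_lt.ne' (Nat.dvd_one.mp h2)
  have h1 := Int.emultiplicity_pow_sub_pow hp' hodd (x := r) (y := 1) hr hx k
  rw [one_pow] at h1
  rw [pow_dvd_iff_le_emultiplicity, pow_dvd_iff_le_emultiplicity, h1,
    emultiplicity_mul (Nat.prime_iff_prime_int.mp hp'), Int.natCast_emultiplicity]

/-- conjugating by powers of `b` -/
theorem conj_pow_b {G : Type*} [Group G] (a b : G) (r : ℕ) (hr : b * a * b⁻¹ = a ^ r) (k : ℕ) :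
    b ^ k * a * (b ^ k)⁻¹ = a ^ (r ^ k) := by
  induction k with
  | zero => simp
  | succ k ih =>
    have : b ^ (k+1) * a * (b ^ (k+1))⁻¹ = b * (b ^ k * a * (b ^ k)⁻¹) * b⁻¹ := by
      rw [pow_succ']; group
    rw [this, ih, ← conj_pow, hr, ← pow_mul, pow_succ, mul_comm]

/-- the key equivalence -/
theorem key {G : Type*} [Group G] [Finite G] {p : ℕ} [Fact p.Prime] (hp : p ≠ 2)
    (hG : IsPGroup p G) (a b : G) (r : ℕ) (hr : b * a * b⁻¹ = a ^ r) (k : ℕ) :
    a ^ (r ^ k) = a ↔ (b * a * b⁻¹ * a⁻¹) ^ k = 1 := by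
  have hp' : Nat.Prime p := Fact.out
  obtain ⟨n, hn⟩ := (IsPGroup.iff_orderOf.mp hG) a
  have hc : b * a * b⁻¹ * a⁻¹ = a ^ ((r : ℤ) - 1) := by
    rw [hr, zpow_sub_one, zpow_natCast]
  have e1 : a ^ (r ^ k) = a ↔ ((p:ℤ)^n ∣ (r:ℤ)^k - 1) := by
    have : a ^ (r ^ k) = a ↔ a ^ (((r:ℤ)^k - 1 : ℤ)) = 1 := by
      rw [zpow_sub_one, mul_inv_eq_one]
      have : a ^ ((r:ℤ)^k) = a ^ (r ^ k) := by
        rw [← zpow_natCast]; push_cast; rfl
      rw [this]
    rw [this, ← orderOf_dvd_iff_zpow_eq_one, hn]; push_cast; rfl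
  have e2 : (b * a * b⁻¹ * a⁻¹) ^ k = 1 ↔ ((p:ℤ)^n ∣ ((r:ℤ) - 1) * k) := by
    rw [hc, ← zpow_natCast, ← zpow_mul, ← orderOf_dvd_iff_zpow_eq_one, hn]; push_cast; rfl
  rw [e1, e2]
  rcases Nat.eq_zero_or_pos n with h0 | h0
  · subst h0; simp
  · apply nt hp
    -- p ∣ r - 1
    obtain ⟨t, ht⟩ := hG b
    have h1 := conj_pow_b a b r hr (p ^ t)
    rw [ht] at h1
    simp only [one_mul, inv_one, mul_one] at h1
    have h2 : ((p:ℤ)^n ∣ (r:ℤ)^(p^t) - 1) := by
      have : a ^ (((r:ℤ)^(p^t) - 1 : ℤ)) = 1 := by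
        rw [zpow_sub_one, mul_inv_eq_one]
        have : a ^ ((r:ℤ)^(p^t)) = a ^ (r ^ (p^t)) := by
          rw [← zpow_natCast]; push_cast; rfl
        rw [this, ← h1]
      rw [← orderOf_dvd_iff_zpow_eq_one, hn] at this
      exact_mod_cast this
    have h3 : (p:ℤ) ∣ (r:ℤ)^(p^t) - 1 := dvd_trans (dvd_pow_self _ h0.ne') h2
    have h4 : (((r:ℤ)^(p^t) - 1 : ℤ) : ZMod p) = 0 := by
      rw [ZMod.intCast_zmod_eq_zero_iff_dvd]; exact h3
    rw [← ZMod.intCast_zmod_eq_zero_iff_dvd]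
    push_cast at h4 ⊢
    rwa [ZMod.pow_card_pow] at h4

theorem main {G : Type*} [Group G] [Finite G] {p : ℕ} [Fact p.Prime] (hp : p ≠ 2)
    (hG : IsPGroup p G) (a b : G) (r : ℕ) (hr : b * a * b⁻¹ = a ^ r)
    (hN : (Subgroup.zpowers a).Normal)
    (hdec : ∀ g : G, ∃ i j : ℤ, g = a ^ i * b ^ j) :
    (Subgroup.center G).index = Nat.card ↥(commutator G) ^ 2 := by
  classical
  set c : G := b * a * b⁻¹ * a⁻¹ with hc
  have hca : c = a ^ ((r : ℤ) - 1) := by
    rw [hc, hr, zpow_sub_one, zpow_natCast]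
  -- [b, h] is a power of c
  have comm_b : ∀ h : G, ∃ i : ℤ, b * h * b⁻¹ * h⁻¹ = c ^ i := by
    intro h
    obtain ⟨i, j, rfl⟩ := hdec h
    refine ⟨i, ?_⟩
    have h1 : b * (a ^ i * b ^ j) * b⁻¹ * (a ^ i * b ^ j)⁻¹ = (b * a ^ i * b⁻¹) * (a ^ i)⁻¹ := by
      have : b * (a ^ i * b ^ j) * b⁻¹ * (a ^ i * b ^ j)⁻¹
          = b * a ^ i * (b ^ j * b⁻¹ * (b ^ j)⁻¹) * (a ^ i)⁻¹ := by group
      rw [this]
      have : b ^ j * b⁻¹ * (b ^ j)⁻¹ = b⁻¹ := by
        rw [← zpow_neg_one, ← zpow_add, ← zpow_neg, ← zpow_add]; congr 1; ring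
      rw [this]
    rw [h1, ← conj_zpow, hr, hca, ← zpow_natCast, ← zpow_mul, ← zpow_mul, ← zpow_neg, ← zpow_add]
    congr 1; ring
  set C : Subgroup G := Subgroup.centralizer ({a} : Set G) with hC
  have memC : ∀ g : G, g ∈ C ↔ a * g = g * a := by
    intro g; rw [hC, Subgroup.mem_centralizer_iff]; simp
  have haC : a ∈ C := (memC a).mpr rfl
  have hzC : ∀ (g : G), g ∈ C → ∀ i : ℤ, a ^ i * g = g * a ^ i := by
    intro g hg i
    exact ((Commute.zpow_left (show Commute a g from (memC g).mp hg) i)).eq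
  have hCn : C.Normal := by
    refine ⟨fun g hg h => ?_⟩
    rw [memC]
    have h1 : h⁻¹ * a * h⁻¹⁻¹ ∈ Subgroup.zpowers a := hN.conj_mem a (Subgroup.mem_zpowers a) h⁻¹
    obtain ⟨m, hm⟩ := Subgroup.mem_zpowers_iff.mp h1
    have h2 := hzC g hg m
    rw [hm] at h2
    have h3 : a = h * (h⁻¹ * a * h⁻¹⁻¹) * h⁻¹ := by group
    rw [h3]
    calc h * (h⁻¹ * a * h⁻¹⁻¹) * h⁻¹ * (h * g * h⁻¹)
        = h * ((h⁻¹ * a * h⁻¹⁻¹) * g) * h⁻¹ := by group
      _ = h * (g * (h⁻¹ * a * h⁻¹⁻¹)) * h⁻¹ := by rw [h2]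
      _ = h * g * h⁻¹ * (h * (h⁻¹ * a * h⁻¹⁻¹) * h⁻¹) := by group
  -- Step B
  have hB : C.index = orderOf c := by
    rw [Subgroup.index_eq_card]
    have gen : ∀ x : G ⧸ C, x ∈ Subgroup.zpowers (QuotientGroup.mk b : G ⧸ C) := by
      intro x
      obtain ⟨g, rfl⟩ := QuotientGroup.mk_surjective x
      obtain ⟨i, j, rfl⟩ := hdec g
      refine Subgroup.mem_zpowers_iff.mpr ⟨j, ?_⟩
      have h1 : ((a ^ i : G) : G ⧸ C) = 1 :=
        (QuotientGroup.eq_one_iff _).mpr (C.zpow_mem haC i)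
      rw [QuotientGroup.mk_mul, h1, one_mul, QuotientGroup.mk_zpow]
    rw [← orderOf_eq_card_of_forall_mem_zpowers gen]
    refine orderOf_eq_orderOf_iff.mpr fun k => ?_
    rw [← QuotientGroup.mk_pow, QuotientGroup.eq_one_iff, memC, ← key hp hG a b r hr k,
      ← conj_pow_b a b r hr k]
    constructor
    · intro h; rw [mul_inv_eq_iff_eq_mul]; exact h.symm
    · intro h; rw [mul_inv_eq_iff_eq_mul] at h; exact h.symm
  -- Step C
  have hmulψ : ∀ g h : C, b * ((g * h : C) : G) * b⁻¹ * ((g * h : C) : G)⁻¹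
      = (b * (g : G) * b⁻¹ * (g : G)⁻¹) * (b * (h : G) * b⁻¹ * (h : G)⁻¹) := by
    intro g h
    obtain ⟨i, hi⟩ := comm_b (h : G)
    have h1 := hzC g g.2 (((r : ℤ) - 1) * i)
    rw [hi, hca, ← zpow_mul]
    have : b * ((g * h : C) : G) * b⁻¹ * ((g * h : C) : G)⁻¹
        = b * (g : G) * b⁻¹ * ((b * (h : G) * b⁻¹ * (h : G)⁻¹) * (g : G)⁻¹) := by
      rw [Subgroup.coe_mul]; group
    rw [this, hi, hca, ← zpow_mul]
    have h2 : a ^ (((r : ℤ) - 1) * i) * (g : G)⁻¹ = (g : G)⁻¹ * a ^ (((r : ℤ) - 1) * i) := by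
      rw [eq_inv_mul_iff_mul_eq, ← mul_assoc, ← h1, mul_assoc, mul_inv_cancel, mul_one]
    rw [h2]; group
  let ψ : C →* G := MonoidHom.mk' (fun g => b * (g : G) * b⁻¹ * (g : G)⁻¹) hmulψ
  have hker : ψ.ker = (Subgroup.center G).subgroupOf C := by
    ext g
    rw [MonoidHom.mem_ker, Subgroup.mem_subgroupOf, Subgroup.mem_center_iff]
    show b * (g : G) * b⁻¹ * (g : G)⁻¹ = 1 ↔ _
    constructor
    · intro h x
      have hb : b * (g : G) = (g : G) * b := by
        rw [mul_inv_eq_one, mul_inv_eq_iff_eq_mul] at h; exact h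
      obtain ⟨i, j, rfl⟩ := hdec x
      have h1 := hzC g g.2 i
      have h2 : b ^ j * (g : G) = (g : G) * b ^ j :=
        (Commute.zpow_left (show Commute b (g : G) from hb) j).eq
      rw [mul_assoc, h2, ← mul_assoc, h1, mul_assoc]
    · intro h
      rw [h b]; group
  have hrange : ψ.range = Subgroup.zpowers c := by
    apply le_antisymm
    · rintro _ ⟨g, rfl⟩
      obtain ⟨i, hi⟩ := comm_b (g : G)
      exact Subgroup.mem_zpowers_iff.mpr ⟨i, hi.symm⟩
    · rw [Subgroup.zpowers_le]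
      exact ⟨⟨a, haC⟩, rfl⟩
  have hCrel : (Subgroup.center G).relIndex C = orderOf c := by
    rw [Subgroup.relIndex, ← hker, Subgroup.index_ker, hrange, Nat.card_zpowers]
  -- Step D
  have hD : commutator G = Subgroup.zpowers c := by
    apply le_antisymm
    · have hcn : (Subgroup.zpowers c).Normal := by
        refine ⟨fun x hx g => ?_⟩
        obtain ⟨m, rfl⟩ := Subgroup.mem_zpowers_iff.mp hx
        have h1 : g * a * g⁻¹ ∈ Subgroup.zpowers a := hN.conj_mem a (Subgroup.mem_zpowers a) g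
        obtain ⟨t, ht⟩ := Subgroup.mem_zpowers_iff.mp h1
        rw [← conj_zpow, hca, ← conj_zpow, ← ht, ← zpow_mul, ← zpow_mul]
        refine Subgroup.mem_zpowers_iff.mpr ⟨t * m, ?_⟩
        rw [← zpow_mul]; congr 1; ring
      rw [commutator_def, Subgroup.commutator_le]
      intro g₁ _ g₂ _
      rw [← QuotientGroup.eq_one_iff]
      have hab : Commute (QuotientGroup.mk a : G ⧸ Subgroup.zpowers c) (QuotientGroup.mk b) := by
        have h1 : ((b * a * b⁻¹ * a⁻¹ : G) : G ⧸ Subgroup.zpowers c) = 1 :=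
          (QuotientGroup.eq_one_iff _).mpr (Subgroup.mem_zpowers c)
        simp only [QuotientGroup.mk_mul, QuotientGroup.mk_inv] at h1
        rw [mul_inv_eq_one, mul_inv_eq_iff_eq_mul] at h1
        exact h1.symm
      have hcomm : ∀ x y : G, Commute (QuotientGroup.mk x : G ⧸ Subgroup.zpowers c)
          (QuotientGroup.mk y) := by
        intro x y
        obtain ⟨i, j, rfl⟩ := hdec x
        obtain ⟨k, l, rfl⟩ := hdec y
        simp only [QuotientGroup.mk_mul, QuotientGroup.mk_zpow]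
        exact Commute.mul_right
          (Commute.mul_left ((Commute.refl _).zpow_zpow i k) ((hab.symm).zpow_zpow j k))
          (Commute.mul_left (hab.zpow_zpow i l) ((Commute.refl _).zpow_zpow j l))
      rw [commutatorElement_def]
      simp only [QuotientGroup.mk_mul, QuotientGroup.mk_inv]
      rw [(hcomm g₁ g₂).eq]; group
    · rw [Subgroup.zpowers_le, commutator_def]
      have : c = ⁅b, a⁆ := by rw [commutatorElement_def]
      rw [this]
      exact Subgroup.commutator_mem_commutator (Subgroup.mem_top b) (Subgroup.mem_top a)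
  rw [hD, Nat.card_zpowers, ← Subgroup.relIndex_mul_index (Subgroup.center_le_centralizer _),
    hCrel, ← hC, hB, sq]


/-- Let p be an odd prime and G a finite metacyclic p-group (G has a cyclic normal subgroup with cyclic quotient). Then the index of the center of G is the square of the order of the derived subgroup: |G : Z(G)| = |G'|². -/
theorem result {G : Type*} [Group G] [Finite G] {p : ℕ} [Fact p.Prime] (hp : p ≠ 2) (hG : IsPGroup p G) (hmc : Cfsg.IsMetacyclic G) : (Subgroup.center G).index = Nat.card ↥(commutator G) ^ 2 := by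
  obtain ⟨N, hN, hcyc, hq⟩ := hmc
  obtain ⟨a', ha'⟩ := IsCyclic.exists_generator (α := N)
  have hNa : N = Subgroup.zpowers (a' : G) := by
    apply le_antisymm
    · intro x hx
      obtain ⟨i, hi⟩ := Subgroup.mem_zpowers_iff.mp (ha' ⟨x, hx⟩)
      refine Subgroup.mem_zpowers_iff.mpr ⟨i, ?_⟩
      have := congrArg Subtype.val hi
      simpa using this
    · rw [Subgroup.zpowers_le]; exact a'.2
  obtain ⟨q, hq'⟩ := IsCyclic.exists_generator (α := G ⧸ N)
  obtain ⟨b, rfl⟩ := QuotientGroup.mk_surjective q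
  have h1 : b * (a' : G) * b⁻¹ ∈ Subgroup.zpowers (a' : G) := by
    rw [← hNa]; exact hN.conj_mem _ a'.2 b
  obtain ⟨r, hr⟩ := (Submonoid.mem_powers_iff _ _).mp (mem_powers_iff_mem_zpowers.mpr h1)
  have hdec : ∀ g : G, ∃ i j : ℤ, g = (a' : G) ^ i * b ^ j := by
    intro g
    obtain ⟨j, hj⟩ := Subgroup.mem_zpowers_iff.mp (hq' (QuotientGroup.mk g))
    rw [← QuotientGroup.mk_zpow] at hj
    have h2 : (b ^ j)⁻¹ * g ∈ N := QuotientGroup.eq.mp hj
    have h3 : b ^ j * ((b ^ j)⁻¹ * g) * (b ^ j)⁻¹ ∈ N := hN.conj_mem _ h2 _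
    rw [hNa] at h3
    obtain ⟨i, hi⟩ := Subgroup.mem_zpowers_iff.mp h3
    refine ⟨i, j, ?_⟩
    rw [hi]; group
  exact main hp hG (a' : G) b r hr.symm (hNa ▸ hN) hdec

end Cfsg.Agent.S3879
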