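import Mathlib
import Cfsg.Statements.S0933
import Cfsg.Agent.Lib.Helper8.InducedBlock

set_option autoImplicit false

open Cfsg

namespace Cfsg.Agent.S0933

open Cfsg.Agent.Lib.Helper2 Cfsg.Agent.Lib.Helper25 Cfsg.Agent.Lib.Helper8

theorem result {G : Type*} [Group G] [Fintype G] (p : ℕ) [Fact p.Prime] (M : Ideal Cfsg.AlgInt) (hM : Cfsg.IsPModular p M) (H : Subgroup G) (ξ : Cfsg.IrrCharacter H) (hind : Cfsg.IsIrrCharacter G (Cfsg.indFun H (ξ : H → ℂ))) : Cfsg.IsInducedBlock M H (Cfsg.blockOf M (ξ : H → ℂ)) (Cfsg.blockOf M (Cfsg.indFun H (ξ : H → ℂ))) := by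
  classical
  have : Fintype H := Fintype.ofFinite H
  have hpr := isPrime_of_isPModular hM
  exact (isInducedBlock_iff hM H ξ ⟨indFun H (ξ : H → ℂ), hind⟩).mpr (sameBlock_refl M _)

end Cfsg.Agent.S0933
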