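import Cfsg.Statements.S5106
import Cfsg.Agent.Lib.Helper27.NormalCrit

set_option autoImplicit false
open Cfsg
open Cfsg.Agent.Lib.Helper27 Cfsg.FusionSystem Cfsg.Agent.Lib.Helper26
open Cfsg.Agent.Lib.Helper27 Cfsg.FusionSystem Cfsg.Agent.Lib.Helper26

namespace Cfsg.Agent.S5106

section Aux

variable {Ω : Type*} [Group Ω] {S : Subgroup Ω}

/-- The automorphisms in `Aut_F(P)` acting trivially modulo `R` and like an element of `R` on
`P ∩ R`. -/
def kGroup [Finite S] (F : FusionSystem S) (R P : Subgroup Ω) (hsc : F.StronglyClosed R)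
    (hP : P ≤ S) : Subgroup (F.autGroup P) where
  carrier := {α | (∀ x : P, (x : Ω)⁻¹ * (((α : MulAut P) x : P) : Ω) ∈ R) ∧
    ∃ r ∈ R, ∀ x : P, (x : Ω) ∈ R → (((α : MulAut P) x : P) : Ω) = r * x * r⁻¹}
  one_mem' := ⟨fun x => by
    show (x : Ω)⁻¹ * (x : Ω) ∈ R
    rw [inv_mul_cancel]
    exact R.one_mem, 1, R.one_mem, fun x _ => by
    show (x : Ω) = 1 * x * 1⁻¹
    group⟩
  mul_mem' := by
    rintro α β ⟨ha1, r, hr, ha2⟩ ⟨hb1, r', hr', hb2⟩
    refine ⟨fun x => ?_, r * r', R.mul_mem hr hr', fun x hx => ?_⟩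
    · have h : (x : Ω)⁻¹ * ((((α * β : F.autGroup P) : MulAut P) x : P) : Ω) =
          ((x : Ω)⁻¹ * (((β : MulAut P) x : P) : Ω)) *
            ((((β : MulAut P) x : P) : Ω)⁻¹ *
              (((α : MulAut P) ((β : MulAut P) x) : P) : Ω)) := by
        show (x : Ω)⁻¹ * (((α : MulAut P) ((β : MulAut P) x) : P) : Ω) = _
        group
      rw [h]
      exact R.mul_mem (hb1 x) (ha1 _)
    · have hbx : (((β : MulAut P) x : P) : Ω) ∈ R := by
        rw [hb2 x hx]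
        exact R.mul_mem (R.mul_mem hr' hx) (R.inv_mem hr')
      show (((α : MulAut P) ((β : MulAut P) x) : P) : Ω) = _
      rw [ha2 _ hbx, hb2 x hx]
      group
  inv_mem' := by
    rintro α ⟨ha1, r, hr, ha2⟩
    refine ⟨fun x => ?_, r⁻¹, R.inv_mem hr, fun x hx => ?_⟩
    · have h : (x : Ω)⁻¹ * ((((α⁻¹ : F.autGroup P) : MulAut P) x : P) : Ω) =
          (((((α : MulAut P)⁻¹ x : P) : Ω))⁻¹ *
            (((α : MulAut P) ((α : MulAut P)⁻¹ x) : P) : Ω))⁻¹ := by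
        rw [MulAut.apply_inv_self]
        show (x : Ω)⁻¹ * ((((α : MulAut P)⁻¹ x : P) : Ω)) = _
        group
      rw [h]
      exact R.inv_mem (ha1 _)
    · have hinv : ((α⁻¹ : F.autGroup P) : MulAut P) ∈ F.autGroup P := (α⁻¹).2
      have hmap := autGroup_map_of_stronglyClosed F hsc hP hinv
      have hy : ((((α : MulAut P)⁻¹ x : P) : Ω)) ∈ R := by
        have h1 : ((α⁻¹ : F.autGroup P) : MulAut P) x ∈ R.subgroupOf P := by
          rw [← hmap]
          exact ⟨x, Subgroup.mem_subgroupOf.mpr hx, rfl⟩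
        exact Subgroup.mem_subgroupOf.mp h1
      have h2 := ha2 _ hy
      rw [MulAut.apply_inv_self] at h2
      show ((((α : MulAut P)⁻¹ x : P) : Ω)) = r⁻¹ * x * r⁻¹⁻¹
      rw [h2]
      group

theorem kGroup_isPGroup [Finite S] {p : ℕ} [Fact p.Prime] (hS : IsPGroup p S)
    (F : FusionSystem S) (R P : Subgroup Ω) (hsc : F.StronglyClosed R) (hP : P ≤ S) :
    IsPGroup p (kGroup F R P hsc hP) := by
  have hPfin : Finite P := finite_of_le hP
  rintro ⟨α, hα⟩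
  obtain ⟨ha1, r, hr, ha2⟩ := hα
  obtain ⟨k, hk⟩ := hS ⟨r, hsc.1 hr⟩
  have hk' : r ^ p ^ k = 1 := by
    have := congrArg Subtype.val hk
    rwa [Subgroup.coe_pow] at this
  have hpow : ∀ n : ℕ, ∀ x : P, (x : Ω) ∈ R →
      ((((α : MulAut P) ^ n) x : P) : Ω) = r ^ n * x * (r ^ n)⁻¹ := by
    intro n
    induction n with
    | zero => intro x _; simp
    | succ n ih =>
      intro x hx
      have hnx : ((((α : MulAut P) ^ n) x : P) : Ω) ∈ R := by
        rw [ih x hx]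
        exact R.mul_mem (R.mul_mem (R.pow_mem hr n) hx) (R.inv_mem (R.pow_mem hr n))
      rw [pow_succ', MulAut.mul_apply, ha2 _ hnx, ih x hx, pow_succ']
      group
  have hβK : α ^ p ^ k ∈ kGroup F R P hsc hP := (kGroup F R P hsc hP).pow_mem ⟨ha1, r, hr, ha2⟩ _
  have hβ : ((α ^ p ^ k : F.autGroup P) : MulAut P) ∈ stabSeries (R.subgroupOf P) := by
    refine ⟨fun x => Subgroup.mem_subgroupOf.mpr (hβK.1 x), fun x hx => ?_⟩
    apply Subtype.ext
    show ((((α : MulAut P) ^ p ^ k) x : P) : Ω) = x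
    rw [hpow _ x (Subgroup.mem_subgroupOf.mp hx), hk']
    group
  have hZp : IsPGroup p (R.subgroupOf P) := (hS.to_le hP).to_subgroup _
  obtain ⟨j, hj⟩ := IsPGroup.iff_card.mp hZp
  have h1 := stabSeries_pow_card hβ
  rw [hj] at h1
  refine ⟨k + j, ?_⟩
  apply Subtype.ext
  apply Subtype.ext
  show (α : MulAut P) ^ p ^ (k + j) = 1
  rw [pow_add, pow_mul]
  exact h1

theorem kGroup_normal [Finite S] (F : FusionSystem S) (R P : Subgroup Ω)
    (hsc : F.StronglyClosed R) (hP : P ≤ S)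
    (H : ∀ (P' : Subgroup Ω) (hPR : P' ≤ R) (φ : P' →* Ω), φ ∈ F.Hom P' →
      ∃ α ∈ F.autGroup R, ∀ x : P', ((α (Subgroup.inclusion hPR x) : R) : Ω) = φ x) :
    (kGroup F R P hsc hP).Normal := by
  refine ⟨fun α hα γ => ?_⟩
  obtain ⟨ha1, r, hr, ha2⟩ := hα
  have hγ := γ.2
  have hγinv : ((γ⁻¹ : F.autGroup P) : MulAut P) ∈ F.autGroup P := (γ⁻¹).2
  have hmapγ := autGroup_map_of_stronglyClosed F hsc hP hγ
  have hmapγ' := autGroup_map_of_stronglyClosed F hsc hP hγinv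
  have hγR : ∀ x : P, (x : Ω) ∈ R → ((((γ : MulAut P) x : P)) : Ω) ∈ R := by
    intro x hx
    have h1 : (γ : MulAut P) x ∈ R.subgroupOf P := by
      rw [← hmapγ]
      exact ⟨x, Subgroup.mem_subgroupOf.mpr hx, rfl⟩
    exact Subgroup.mem_subgroupOf.mp h1
  have hγR' : ∀ x : P, (x : Ω) ∈ R → ((((γ : MulAut P)⁻¹ x : P)) : Ω) ∈ R := by
    intro x hx
    have h1 : ((γ⁻¹ : F.autGroup P) : MulAut P) x ∈ R.subgroupOf P := by
      rw [← hmapγ']
      exact ⟨x, Subgroup.mem_subgroupOf.mpr hx, rfl⟩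
    exact Subgroup.mem_subgroupOf.mp h1
  rw [Fusion.mem_autGroup_iff F hP] at hγ
  have hres := Fusion.restrict_mem F hγ (inf_le_left : P ⊓ R ≤ P)
  obtain ⟨γ', hγ', hγ'ext⟩ := H (P ⊓ R) inf_le_right _ hres
  have hagree : ∀ x : P, ∀ hx : (x : Ω) ∈ R,
      ((γ' ⟨x, hx⟩ : R) : Ω) = (((γ : MulAut P) x : P) : Ω) := by
    intro x hx
    exact hγ'ext ⟨x, ⟨x.2, hx⟩⟩
  refine ⟨fun x => ?_, ((γ' ⟨r, hr⟩ : R) : Ω), (γ' ⟨r, hr⟩).2, fun x hx => ?_⟩
  · show (x : Ω)⁻¹ * (((γ : MulAut P) ((α : MulAut P) ((γ : MulAut P)⁻¹ x)) : P) : Ω) ∈ R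
    have h1 := ha1 ((γ : MulAut P)⁻¹ x)
    have h2 : (((γ : MulAut P)⁻¹ x)⁻¹ * (α : MulAut P) ((γ : MulAut P)⁻¹ x) : P) ∈ R.subgroupOf P :=
      Subgroup.mem_subgroupOf.mpr h1
    have h3 := hγR (((γ : MulAut P)⁻¹ x)⁻¹ * (α : MulAut P) ((γ : MulAut P)⁻¹ x)) h1
    have h4 : (x : Ω)⁻¹ * (((γ : MulAut P) ((α : MulAut P) ((γ : MulAut P)⁻¹ x)) : P) : Ω) =
        (((γ : MulAut P) (((γ : MulAut P)⁻¹ x)⁻¹ * (α : MulAut P) ((γ : MulAut P)⁻¹ x)) : P) : Ω) := by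
      rw [map_mul, map_inv, MulAut.apply_inv_self]
      rfl
    rw [h4]
    exact h3
  · show (((γ : MulAut P) ((α : MulAut P) ((γ : MulAut P)⁻¹ x)) : P) : Ω) = _
    have hy := hγR' x hx
    have h1 := ha2 _ hy
    have hαy : ((((α : MulAut P) ((γ : MulAut P)⁻¹ x) : P)) : Ω) ∈ R := by
      rw [h1]
      exact R.mul_mem (R.mul_mem hr hy) (R.inv_mem hr)
    rw [← hagree _ hαy]
    have h2 : (⟨(((α : MulAut P) ((γ : MulAut P)⁻¹ x) : P) : Ω), hαy⟩ : R) =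
        ⟨r, hr⟩ * ⟨(((γ : MulAut P)⁻¹ x : P) : Ω), hy⟩ * ⟨r, hr⟩⁻¹ := Subtype.ext h1
    rw [h2, map_mul, map_mul, map_inv]
    show ((γ' ⟨r, hr⟩ : R) : Ω) * ((γ' ⟨(((γ : MulAut P)⁻¹ x : P) : Ω), hy⟩ : R) : Ω) *
      ((γ' ⟨r, hr⟩ : R) : Ω)⁻¹ = _
    rw [hagree _ hy, MulAut.apply_inv_self]

end Aux


/-- In a saturated fusion system over a finite p-group S, a subgroup R ≤ S is normal in the system if and only if every map of the system whose source is a subgroup of R is the restriction of an element of Aut_F(R). -/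
theorem result {Ω : Type*} [Group Ω] {S : Subgroup Ω} [Finite S] (p : ℕ) [Fact p.Prime] (hS : IsPGroup p S) (F : Cfsg.FusionSystem S) (hF : F.IsSaturated p) (R : Subgroup Ω) (hRS : R ≤ S) : F.IsNormal R ↔ ∀ (P : Subgroup Ω) (hPR : P ≤ R) (φ : P →* Ω), φ ∈ F.Hom P → ∃ α ∈ F.autGroup R, ∀ x : P, ((α (Subgroup.inclusion hPR x) : R) : Ω) = φ x := by
  constructor
  · intro hR P hPR φ hφ
    obtain ⟨ψ, hψ, hext, hmap⟩ := hR.2 P φ hφ
    have hr := range_restrict_eq ψ (le_sup_right : R ≤ P ⊔ R) hmap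
    have hres := Fusion.restrict_mem F hψ (le_sup_right : R ≤ P ⊔ R)
    have hiso := Fusion.isIso_equivOfRange F hres hr
    refine ⟨Fusion.equivOfRange _ (F.injective_of_mem hres) hr,
      (Fusion.mem_autGroup_iff F hRS).2 hiso, fun x => ?_⟩
    rw [← hext x]
    rfl
  · intro H
    have hsc : F.StronglyClosed R := by
      refine ⟨hRS, fun R' hR' φ hφ x => ?_⟩
      obtain ⟨α, -, hα⟩ := H R' hR' φ hφ
      rw [← hα x]
      exact (α _).2
    rw [isNormal_iff_stronglyClosed_radical p hS F hF R]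
    refine ⟨hsc, fun P hPc hPr => ?_⟩
    have hP : P ≤ S := hPc.1
    have hcen : centralizerIn S P ≤ P := hPc.2 P (Fusion.isConj_refl F hP)
    have hPRS : P ⊔ R ≤ S := sup_le hP hRS
    have hSN : S ≤ Subgroup.normalizer (R : Set Ω) := by
      intro g hg
      have hRfin : Finite R := finite_of_le hRS
      apply mem_normalizer_of_cj_eq
      apply Subgroup.eq_of_le_of_card_ge
      · rintro _ ⟨x, hx, rfl⟩
        exact hsc.2 R le_rfl _ (F.conj_mem hRS hg) ⟨x, hx⟩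
      · rw [card_cj]
    have hKn := kGroup_normal F R P hsc hP H
    have hKp := kGroup_isPGroup hS F R P hsc hP
    have hNR : ∀ g ∈ R, g ∈ Subgroup.normalizer (P : Set Ω) → g ∈ P := by
      intro g hgR hgN
      have hcS : P.normalizerMonoidHom ⟨g, hgN⟩ ∈ autInducedBy S P :=
        Subgroup.subset_closure ⟨g, hRS hgR, fun x => rfl⟩
      have hcA : P.normalizerMonoidHom ⟨g, hgN⟩ ∈ F.autGroup P :=
        Fusion.autInducedBy_le_autGroup F hP hcS
      refine mem_of_radical_of_normal_pgroup F hcen hPr _ hKn hKp (hRS hgR)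
        ⟨⟨_, hcA⟩, ⟨fun x => ?_, g, hgR, fun x _ => rfl⟩, fun x => rfl⟩
      show (x : Ω)⁻¹ * (g * x * g⁻¹) ∈ R
      have h1 : (x : Ω)⁻¹ * g * ((x : Ω)⁻¹)⁻¹ ∈ R :=
        (Subgroup.mem_normalizer_iff.mp (hSN (S.inv_mem (hP x.2))) g).mp hgR
      have h2 : (x : Ω)⁻¹ * (g * x * g⁻¹) = ((x : Ω)⁻¹ * g * ((x : Ω)⁻¹)⁻¹) * g⁻¹ := by group
      rw [h2]
      exact R.mul_mem h1 (R.inv_mem hgR)
    by_contra hRP
    have hlt : P < P ⊔ R := lt_of_le_not_ge le_sup_left (fun h => hRP (le_sup_right.trans h))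
    have hPRfin : Finite ↥(P ⊔ R) := finite_of_le hPRS
    obtain ⟨g, hg, hgN, hgP⟩ := exists_mem_normalizer_not_mem (hS.to_le hPRS) hlt
    have hmem : g ∈ ((P ⊔ R : Subgroup Ω) : Set Ω) := hg
    rw [Subgroup.coe_mul_of_left_le_normalizer_right P R (hP.trans hSN)] at hmem
    obtain ⟨x, hx, r, hr, rfl⟩ := Set.mem_mul.mp hmem
    have hrN : r ∈ Subgroup.normalizer (P : Set Ω) := by
      have h1 : x⁻¹ * (x * r) ∈ Subgroup.normalizer (P : Set Ω) :=
        Subgroup.mul_mem _ (Subgroup.inv_mem _ (Subgroup.le_normalizer hx)) hgN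
      rwa [inv_mul_cancel_left] at h1
    exact hgP (P.mul_mem hx (hNR r hr hrN))

end Cfsg.Agent.S5106
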