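import Mathlib
import Cfsg.Statements.S5642
import Cfsg.Agent.Lib.Helper28.SLGen

set_option autoImplicit false
open Cfsg

namespace Cfsg.Agent.S5642

open Matrix Cfsg.Agent.Lib.Helper28

section aux

variable {F : Type*} [Field F] {n : ℕ}

/-- `M` contains the transvection `x ↦ x + φ x • a`. -/
def InM (M : Subgroup (Matrix.GeneralLinearGroup (Fin n) F)) (a : Fin n → F)
    (φ : Module.Dual F (Fin n → F)) : Prop :=
  ∃ t ∈ M, ∀ x, (t : Matrix (Fin n) (Fin n) F) *ᵥ x = x + φ x • a

theorem gl_inv_mulVec (g : Matrix.GeneralLinearGroup (Fin n) F) (x : Fin n → F) :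
    ((g⁻¹ : Matrix.GeneralLinearGroup (Fin n) F) : Matrix (Fin n) (Fin n) F) *ᵥ
      ((g : Matrix (Fin n) (Fin n) F) *ᵥ x) = x := by
  rw [Matrix.mulVec_mulVec, ← Units.val_mul, inv_mul_cancel, Units.val_one, Matrix.one_mulVec]

theorem gl_mulVec_inv (g : Matrix.GeneralLinearGroup (Fin n) F) (x : Fin n → F) :
    (g : Matrix (Fin n) (Fin n) F) *ᵥ
      (((g⁻¹ : Matrix.GeneralLinearGroup (Fin n) F) : Matrix (Fin n) (Fin n) F) *ᵥ x) = x := by
  rw [Matrix.mulVec_mulVec, ← Units.val_mul, mul_inv_cancel, Units.val_one, Matrix.one_mulVec]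

theorem gl_ext (g h : Matrix.GeneralLinearGroup (Fin n) F)
    (hh : ∀ x, (g : Matrix (Fin n) (Fin n) F) *ᵥ x = (h : Matrix (Fin n) (Fin n) F) *ᵥ x) :
    g = h := by
  apply Units.ext
  apply Matrix.toLin'.injective
  apply LinearMap.ext
  intro x
  rw [Matrix.toLin'_apply, Matrix.toLin'_apply]
  exact hh x

theorem inM_conj (M : Subgroup (Matrix.GeneralLinearGroup (Fin n) F)) (a b : Fin n → F)
    (φ ψ : Module.Dual F (Fin n → F)) (h : InM M a φ)
    (k : Matrix.GeneralLinearGroup (Fin n) F) (hk : k ∈ M)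
    (hb : (k : Matrix (Fin n) (Fin n) F) *ᵥ b = a)
    (hψ : ∀ x, ψ x = φ ((k : Matrix (Fin n) (Fin n) F) *ᵥ x)) : InM M b ψ := by
  obtain ⟨t, htM, ht⟩ := h
  refine ⟨k⁻¹ * t * k, M.mul_mem (M.mul_mem (M.inv_mem hk) htM) hk, fun x => ?_⟩
  rw [Units.val_mul, Units.val_mul, ← Matrix.mulVec_mulVec, ← Matrix.mulVec_mulVec, ht,
    Matrix.mulVec_add, Matrix.mulVec_smul, gl_inv_mulVec, ← hb, gl_inv_mulVec, hψ]

theorem inM_add (M : Subgroup (Matrix.GeneralLinearGroup (Fin n) F)) (a : Fin n → F)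
    (φ ψ : Module.Dual F (Fin n → F)) (hφa : φ a = 0) (h1 : InM M a φ) (h2 : InM M a ψ) :
    InM M a (φ + ψ) := by
  obtain ⟨t, htM, ht⟩ := h1
  obtain ⟨s, hsM, hs⟩ := h2
  refine ⟨t * s, M.mul_mem htM hsM, fun x => ?_⟩
  rw [Units.val_mul, ← Matrix.mulVec_mulVec, hs, ht, map_add, map_smul, hφa, smul_zero, add_zero,
    LinearMap.add_apply, add_smul]
  abel

theorem inM_neg (M : Subgroup (Matrix.GeneralLinearGroup (Fin n) F)) (a : Fin n → F)
    (φ : Module.Dual F (Fin n → F)) (hφa : φ a = 0) (h : InM M a φ) : InM M a (-φ) := by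
  obtain ⟨t, htM, ht⟩ := h
  refine ⟨t⁻¹, M.inv_mem htM, fun x => ?_⟩
  have h1 : (t : Matrix (Fin n) (Fin n) F) *ᵥ (x + (-φ) x • a) = x := by
    rw [ht, map_add, map_smul, hφa, smul_zero, add_zero, LinearMap.neg_apply, neg_smul]
    abel
  conv_lhs => rw [← h1]
  rw [gl_inv_mulVec]

theorem dual_prop (φ ψ : Module.Dual F (Fin n → F)) (h : ∀ x, φ x = 0 → ψ x = 0) :
    ∃ μ : F, ∀ x, ψ x = μ * φ x := by
  by_cases h0 : ∀ x, φ x = 0
  · exact ⟨0, fun x => by rw [h x (h0 x), zero_mul]⟩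
  push Not at h0
  obtain ⟨x₀, hx₀⟩ := h0
  refine ⟨ψ x₀ / φ x₀, fun x => ?_⟩
  have h1 : φ (x - (φ x / φ x₀) • x₀) = 0 := by
    rw [map_sub, map_smul, smul_eq_mul, div_mul_cancel₀ _ hx₀, sub_self]
  have h2 := h _ h1
  rw [map_sub, map_smul, smul_eq_mul, sub_eq_zero] at h2
  rw [h2]
  field_simp

variable (f : (Fin n → F) → (Fin n → F) → F) (hf : Geo.IsSymplecticForm f)

/-- The form as a bilinear form. -/
def BF : LinearMap.BilinForm F (Fin n → F) :=
  LinearMap.mk₂ F f hf.bilinear.add_left hf.bilinear.smul_left hf.bilinear.add_right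
    hf.bilinear.smul_right

theorem BF_apply (x y : Fin n → F) : BF f hf x y = f x y := rfl

/-- The functional `x ↦ f x w`. -/
def fl (w : Fin n → F) : Module.Dual F (Fin n → F) := (BF f hf).flip w

theorem fl_apply (w x : Fin n → F) : fl f hf w x = f x w := rfl

include hf

theorem f_zero_right (x : Fin n → F) : f x 0 = 0 := by
  have := hf.bilinear.smul_right 0 x 0
  rwa [zero_smul, zero_mul] at this

theorem f_zero_left (x : Fin n → F) : f 0 x = 0 := by
  have := hf.bilinear.smul_left 0 0 x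
  rwa [zero_smul, zero_mul] at this

theorem f_neg_right (x y : Fin n → F) : f x (-y) = - f x y := by
  have := hf.bilinear.smul_right (-1) x y
  rwa [neg_one_smul, neg_one_mul] at this

theorem f_neg_left (x y : Fin n → F) : f (-x) y = - f x y := by
  have := hf.bilinear.smul_left (-1) x y
  rwa [neg_one_smul, neg_one_mul] at this

theorem f_sub_right (x y z : Fin n → F) : f x (y - z) = f x y - f x z := by
  rw [sub_eq_add_neg, hf.bilinear.add_right, f_neg_right f hf, ← sub_eq_add_neg]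

theorem f_swap_zero (x y : Fin n → F) (h : f x y = 0) : f y x = 0 := by
  rw [hf.skew, h, neg_zero]

theorem f_swap_ne (x y : Fin n → F) (h : f x y ≠ 0) : f y x ≠ 0 := by
  rw [hf.skew]
  exact neg_ne_zero.mpr h

theorem BF_nondeg : (BF f hf).Nondegenerate := by
  refine ⟨fun x hx => ?_, fun y hy => ?_⟩
  · by_contra h0
    obtain ⟨y, hy⟩ := (hf.nondegenerate x h0).2
    exact hy (hx y)
  · by_contra h0
    obtain ⟨x, hx⟩ := (hf.nondegenerate y h0).1
    exact hx (hy x)

/-- Symplectic transvections, as elements of the subgroup of the statement. -/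
theorem exists_symp (u : Fin n → F) (c : F) :
    ∃ s ∈ Geo.similarityGroup f ⊓ Geo.specialLinear (Fin n) F,
      ∀ x, (s : Matrix (Fin n) (Fin n) F) *ᵥ x = x + (c * f x u) • u := by
  obtain ⟨g, hg1, hg2⟩ := exists_transvection (c • fl f hf u) u
    (by rw [LinearMap.smul_apply, fl_apply, hf.alternating, smul_zero])
  have hg3 : ∀ x, (g : Matrix (Fin n) (Fin n) F) *ᵥ x = x + (c * f x u) • u := fun x => by
    rw [hg2]
    rfl
  refine ⟨g, ⟨⟨1, fun x y => ?_⟩, hg1⟩, hg3⟩
  rw [hg3, hg3, Units.val_one, one_mul]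
  simp only [hf.bilinear.add_left, hf.bilinear.add_right, hf.bilinear.smul_left,
    hf.bilinear.smul_right, hf.alternating]
  rw [hf.skew u y]
  ring

theorem exists_common (y y' : Fin n → F) (hy : y ≠ 0) (hy' : y' ≠ 0) :
    ∃ z, f z y ≠ 0 ∧ f z y' ≠ 0 := by
  obtain ⟨z₁, hz₁⟩ := (hf.nondegenerate y hy).1
  obtain ⟨z₂, hz₂⟩ := (hf.nondegenerate y' hy').1
  by_cases h1 : f z₁ y' = 0
  · by_cases h2 : f z₂ y = 0
    · refine ⟨z₁ + z₂, ?_, ?_⟩
      · rw [hf.bilinear.add_left, h2, add_zero]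
        exact hz₁
      · rw [hf.bilinear.add_left, h1, zero_add]
        exact hz₂
    · exact ⟨z₂, h2, hz₂⟩
  · exact ⟨z₁, hz₁, h1⟩

theorem symp_step (v a : Fin n → F) (h : f v a ≠ 0) :
    ∃ k ∈ Geo.similarityGroup f ⊓ Geo.specialLinear (Fin n) F,
      (k : Matrix (Fin n) (Fin n) F) *ᵥ v = a := by
  obtain ⟨s, hs, hsx⟩ := exists_symp f hf (a - v) (f v a)⁻¹
  refine ⟨s, hs, ?_⟩
  rw [hsx, f_sub_right f hf, hf.alternating, sub_zero, inv_mul_cancel₀ h, one_smul]
  abel

theorem symp_trans (v a : Fin n → F) (hv : v ≠ 0) (ha : a ≠ 0) :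
    ∃ k ∈ Geo.similarityGroup f ⊓ Geo.specialLinear (Fin n) F,
      (k : Matrix (Fin n) (Fin n) F) *ᵥ v = a := by
  by_cases h : f v a = 0
  · obtain ⟨z, hz1, hz2⟩ := exists_common f hf v a hv ha
    obtain ⟨k₁, hk₁, hk₁v⟩ := symp_step f hf v z (f_swap_ne f hf _ _ hz1)
    obtain ⟨k₂, hk₂, hk₂z⟩ := symp_step f hf z a hz2
    exact ⟨k₂ * k₁, mul_mem hk₂ hk₁, by rw [Units.val_mul, ← Matrix.mulVec_mulVec, hk₁v, hk₂z]⟩
  · exact symp_step f hf v a h

/-- A matrix preserving orthogonality is a similarity. -/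
theorem sim_of_ortho (hn : 0 < n) (g : Matrix.GeneralLinearGroup (Fin n) F)
    (h : ∀ v w, f w v = 0 → f ((g : Matrix (Fin n) (Fin n) F) *ᵥ w)
      ((g : Matrix (Fin n) (Fin n) F) *ᵥ v) = 0) : g ∈ Geo.similarityGroup f := by
  have step1 : ∀ y, ∃ μ : F, ∀ x, f ((g : Matrix (Fin n) (Fin n) F) *ᵥ x)
      ((g : Matrix (Fin n) (Fin n) F) *ᵥ y) = μ * f x y := by
    intro y
    obtain ⟨μ, hμ⟩ := dual_prop (fl f hf y)
      ((fl f hf ((g : Matrix (Fin n) (Fin n) F) *ᵥ y)).comp
        (Matrix.mulVecLin (g : Matrix (Fin n) (Fin n) F))) (fun x hx => h y x hx)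
    exact ⟨μ, fun x => hμ x⟩
  choose μ hμ using step1
  have step3a : ∀ y y', f y' y ≠ 0 → μ y = μ y' := by
    intro y y' hyy'
    have e1 := hμ y y'
    have e2 := hμ y' y
    rw [hf.skew ((g : Matrix (Fin n) (Fin n) F) *ᵥ y) ((g : Matrix (Fin n) (Fin n) F) *ᵥ y'), e1,
      hf.skew y y'] at e2
    have h3 : (μ y - μ y') * f y' y = 0 := by linear_combination -e2
    rcases mul_eq_zero.mp h3 with h4 | h4
    · exact sub_eq_zero.mp h4
    · exact absurd h4 hyy'
  have step3 : ∀ y y', y ≠ 0 → y' ≠ 0 → μ y = μ y' := by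
    intro y y' hy hy'
    obtain ⟨z, hz1, hz2⟩ := exists_common f hf y y' hy hy'
    rw [step3a y z hz1, step3a y' z hz2]
  have hy₁ : (fun _ => 1 : Fin n → F) ≠ 0 := by
    intro h0
    have := congrFun h0 ⟨0, hn⟩
    simp at this
  have hall : ∀ x y, f ((g : Matrix (Fin n) (Fin n) F) *ᵥ x)
      ((g : Matrix (Fin n) (Fin n) F) *ᵥ y) = μ (fun _ => 1) * f x y := by
    intro x y
    by_cases hy : y = 0
    · rw [hy, Matrix.mulVec_zero, f_zero_right f hf, f_zero_right f hf, mul_zero]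
    · rw [hμ y x, step3 y _ hy hy₁]
  have hgy : (g : Matrix (Fin n) (Fin n) F) *ᵥ (fun _ => 1 : Fin n → F) ≠ 0 := by
    intro h0
    apply hy₁
    have := gl_inv_mulVec g (fun _ => 1 : Fin n → F)
    rw [h0, Matrix.mulVec_zero] at this
    exact this.symm
  obtain ⟨x', hx'⟩ := (hf.nondegenerate _ hgy).1
  have hne : μ (fun _ => 1) ≠ 0 := by
    intro h0
    apply hx'
    have := hall (((g⁻¹ : Matrix.GeneralLinearGroup (Fin n) F) : Matrix (Fin n) (Fin n) F) *ᵥ x')
      (fun _ => 1)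
    rw [gl_mulVec_inv, h0, zero_mul] at this
    exact this
  exact ⟨Units.mk0 _ hne, fun u v => hall u v⟩

end aux

/-- For a finite field F and n ≥ 13, let f be a non-degenerate symplectic form on F^n (so n is even). Then the elements of SL_n(F) that are similarities of f (f(gu, gv) = c f(u, v) for a non-zero scalar c depending on g) form a maximal subgroup of SL_n(F). -/
theorem result {F : Type*} [Field F] [Fintype F] (n : ℕ) (hn : 13 ≤ n) (f : (Fin n → F) → (Fin n → F) → F) (hf : Cfsg.Geo.IsSymplecticForm f) : Cfsg.Geo.IsMaximalIn (Cfsg.Geo.specialLinear (Fin n) F) (Cfsg.Geo.similarityGroup f ⊓ Cfsg.Geo.specialLinear (Fin n) F) := by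
  classical
  have hn2 : 2 ≤ n := by omega
  have ha : (fun _ => 1 : Fin n → F) ≠ 0 := by
    intro h0
    have := congrFun h0 ⟨0, by omega⟩
    simp at this
  refine ⟨lt_of_le_of_ne inf_le_right ?_, ?_⟩
  · intro heq
    obtain ⟨a, haa⟩ : ∃ a : Fin n → F, a = fun _ => 1 := ⟨_, rfl⟩
    rw [← haa] at ha
    obtain ⟨b, hb⟩ := (hf.nondegenerate a ha).2
    -- a non-zero vector orthogonal to `a` and `b`
    obtain ⟨w, hwa, hwb, hw0⟩ : ∃ w, f a w = 0 ∧ f b w = 0 ∧ w ≠ 0 := by
      have h1 := LinearMap.BilinForm.finrank_orthogonal (BF_nondeg f hf) (Submodule.span F {a, b})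
      have h4 : Module.finrank F (Submodule.span F ({a, b} : Set (Fin n → F))) ≤ 2 := by
        have := finrank_span_finset_le_card (R := F) ({a, b} : Finset (Fin n → F))
        rw [Finset.coe_pair] at this
        exact this.trans Finset.card_le_two
      have h5 : Module.finrank F (Fin n → F) = n := by
        rw [Module.finrank_fintype_fun_eq_card, Fintype.card_fin]
      have h6 : 0 < Module.finrank F
          ((BF f hf).orthogonal (Submodule.span F ({a, b} : Set (Fin n → F)))) := by omega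
      obtain ⟨⟨w, hw⟩, hw0⟩ := Module.finrank_pos_iff_exists_ne_zero.mp h6
      refine ⟨w, hw a (Submodule.subset_span (by simp)), hw b (Submodule.subset_span (by simp)), ?_⟩
      intro h0
      exact hw0 (Subtype.ext h0)
    obtain ⟨w', hw'⟩ := (hf.nondegenerate w hw0).2
    obtain ⟨w'', hw''⟩ : ∃ w'', w'' = w' - (f w' a / f b a) • b := ⟨_, rfl⟩
    have hba : f b a ≠ 0 := f_swap_ne f hf _ _ hb
    have h1 : f w'' a = 0 := by
      rw [hw'', sub_eq_add_neg, hf.bilinear.add_left, f_neg_left f hf, hf.bilinear.smul_left]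
      field_simp
      ring
    have h2 : f w w'' ≠ 0 := by
      rw [hw'', f_sub_right f hf, hf.bilinear.smul_right, f_swap_zero f hf _ _ hwb, mul_zero,
        sub_zero]
      exact hw'
    obtain ⟨t, ht1, ht2⟩ := exists_transvection (fl f hf w) a hwa
    have ht3 : ∀ x, (t : Matrix (Fin n) (Fin n) F) *ᵥ x = x + f x w • a := ht2
    have htH : t ∈ Geo.similarityGroup f ⊓ Geo.specialLinear (Fin n) F := by
      rw [heq]
      exact ht1
    obtain ⟨c, hc⟩ := htH.1
    have e1 := hc w w''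
    rw [ht3, ht3, hf.alternating, zero_smul, add_zero, hf.bilinear.add_right,
      hf.bilinear.smul_right, f_swap_zero f hf _ _ hwa, mul_zero, add_zero] at e1
    have hc1 : (c : F) = 1 := by
      have h3 : ((c : F) - 1) * f w w'' = 0 := by linear_combination -e1
      rcases mul_eq_zero.mp h3 with h4 | h4
      · exact sub_eq_zero.mp h4
      · exact absurd h4 h2
    have e2 := hc b w''
    rw [ht3, ht3, hwb, zero_smul, add_zero, hf.bilinear.add_right, hf.bilinear.smul_right, hc1,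
      one_mul] at e2
    have h5 : f w'' w * f b a = 0 := by linear_combination e2
    rcases mul_eq_zero.mp h5 with h6 | h6
    · exact f_swap_ne f hf _ _ h2 h6
    · exact hba h6
  · intro M hHM hMK
    by_cases hMH : M = Geo.similarityGroup f ⊓ Geo.specialLinear (Fin n) F
    · left
      exact hMH
    right
    obtain ⟨g, hgM, hgH⟩ : ∃ g ∈ M, g ∉ Geo.similarityGroup f ⊓ Geo.specialLinear (Fin n) F := by
      by_contra hcon
      push Not at hcon
      exact hMH (le_antisymm hcon hHM)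
    have hgS : g ∉ Geo.similarityGroup f := fun h => hgH ⟨h, hMK hgM⟩
    obtain ⟨v, w₀, hw₀v, hgw⟩ : ∃ v w, f w v = 0 ∧ f ((g : Matrix (Fin n) (Fin n) F) *ᵥ w)
        ((g : Matrix (Fin n) (Fin n) F) *ᵥ v) ≠ 0 := by
      by_contra hcon
      push Not at hcon
      exact hgS (sim_of_ortho f hf (by omega) g hcon)
    apply le_antisymm hMK
    apply specialLinear_le_of_transv hn2
    rintro t ht ⟨φ, a, hφa, hta⟩
    have hsymp : ∀ (u : Fin n → F) (c : F), InM M u (c • fl f hf u) := by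
      intro u c
      obtain ⟨s, hs, hsx⟩ := exists_symp f hf u c
      exact ⟨s, hHM hs, fun x => by rw [hsx]; rfl⟩
    obtain ⟨φ₀, hφ₀⟩ : ∃ φ₀ : Module.Dual F (Fin n → F), φ₀ =
        (fl f hf ((g : Matrix (Fin n) (Fin n) F) *ᵥ v)).comp
          (Matrix.mulVecLin (g : Matrix (Fin n) (Fin n) F)) := ⟨_, rfl⟩
    have hφ₀x : ∀ x, φ₀ x = f ((g : Matrix (Fin n) (Fin n) F) *ᵥ x)
        ((g : Matrix (Fin n) (Fin n) F) *ᵥ v) := fun x => by rw [hφ₀]; rfl
    have hφ₀M : InM M v φ₀ := by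
      refine inM_conj M ((g : Matrix (Fin n) (Fin n) F) *ᵥ v) v _ φ₀
        (hsymp ((g : Matrix (Fin n) (Fin n) F) *ᵥ v) 1) g hgM rfl (fun x => ?_)
      rw [hφ₀x, one_smul]
      rfl
    have hφ₀v : φ₀ v = 0 := by
      rw [hφ₀x]
      exact hf.alternating _
    have hv0 : v ≠ 0 := by
      rintro rfl
      apply hgw
      rw [Matrix.mulVec_zero, f_zero_right f hf]
    have hφ₀w : φ₀ w₀ ≠ 0 := by
      rw [hφ₀x]
      exact hgw
    have hZ1 : ∀ c : F, InM M v (c • fl f hf w₀) := by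
      intro c
      obtain ⟨s, hs, hsx⟩ := exists_symp f hf w₀ (c / φ₀ w₀)
      have hsv : (s : Matrix (Fin n) (Fin n) F) *ᵥ v = v := by
        rw [hsx, f_swap_zero f hf _ _ hw₀v, mul_zero, zero_smul, add_zero]
      have h1 : InM M v (φ₀ + c • fl f hf w₀) := by
        refine inM_conj M v v φ₀ _ hφ₀M s (hHM hs) hsv (fun x => ?_)
        rw [hsx, map_add, map_smul, LinearMap.add_apply, LinearMap.smul_apply, fl_apply,
          smul_eq_mul, smul_eq_mul]
        field_simp
      have h2 := inM_add M v (-φ₀) _ (by rw [LinearMap.neg_apply, hφ₀v, neg_zero])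
        (inM_neg M v φ₀ hφ₀v hφ₀M) h1
      rwa [neg_add_cancel_left] at h2
    have hZ2 : ∀ w z, f w v = 0 → f z v = 0 → f w z ≠ 0 → InM M v (fl f hf w) →
        InM M v (fl f hf z) := by
      intro w z hwv hzv hwz hw
      have hzw : f z w ≠ 0 := f_swap_ne f hf _ _ hwz
      obtain ⟨s, hs, hsx⟩ := exists_symp f hf z (1 / f z w)
      have hsv : (s : Matrix (Fin n) (Fin n) F) *ᵥ v = v := by
        rw [hsx, f_swap_zero f hf _ _ hzv, mul_zero, zero_smul, add_zero]
      have h1 : InM M v (fl f hf w + fl f hf z) := by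
        refine inM_conj M v v (fl f hf w) _ hw s (hHM hs) hsv (fun x => ?_)
        rw [hsx, LinearMap.add_apply, fl_apply, fl_apply, fl_apply, hf.bilinear.add_left,
          hf.bilinear.smul_left]
        field_simp
      have h2 := inM_add M v (-fl f hf w) _
        (by rw [LinearMap.neg_apply, fl_apply, f_swap_zero f hf _ _ hwv, neg_zero])
        (inM_neg M v _ (by rw [fl_apply]; exact f_swap_zero f hf _ _ hwv) hw) h1
      rwa [neg_add_cancel_left] at h2
    have hw₀1 : InM M v (fl f hf w₀) := by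
      have := hZ1 1
      rwa [one_smul] at this
    have hall : ∀ z, f z v = 0 → InM M v (fl f hf z) := by
      intro z hzv
      by_cases hz : f w₀ z = 0
      · obtain ⟨z₁, hz₁v, hz₁⟩ : ∃ z₁, f z₁ v = 0 ∧ f w₀ z₁ ≠ 0 := by
          by_contra hcon
          push Not at hcon
          obtain ⟨μ, hμ⟩ := dual_prop (fl f hf v) (BF f hf w₀) (fun x hx => hcon x hx)
          have hw : w₀ + μ • v = 0 := by
            by_contra hne
            obtain ⟨x, hx⟩ := (hf.nondegenerate _ hne).2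
            apply hx
            have h3 : f w₀ x = μ * f x v := hμ x
            rw [hf.bilinear.add_left, hf.bilinear.smul_left, hf.skew v x, h3]
            ring
          apply hgw
          have h4 : w₀ = (-μ) • v := by
            have := eq_neg_of_add_eq_zero_left hw
            rw [this, neg_smul]
          rw [h4, Matrix.mulVec_smul, hf.bilinear.smul_left, hf.alternating, mul_zero]
        have h1 := hZ2 w₀ z₁ hw₀v hz₁v hz₁ hw₀1
        have h2 := hZ2 w₀ (z + z₁) hw₀v (by rw [hf.bilinear.add_left, hzv, hz₁v, add_zero])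
          (by rw [hf.bilinear.add_right, hz, zero_add]; exact hz₁) hw₀1
        have e : fl f hf z = fl f hf (z + z₁) + -(fl f hf z₁) := by
          unfold fl
          rw [map_add]
          abel
        rw [e]
        exact inM_add M v _ _ (by
          rw [fl_apply, hf.bilinear.add_right, f_swap_zero f hf _ _ hzv,
            f_swap_zero f hf _ _ hz₁v, add_zero]) h2
          (inM_neg M v _ (by rw [fl_apply]; exact f_swap_zero f hf _ _ hz₁v) h1)
      · exact hZ2 w₀ z hw₀v hzv hz hw₀1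
    have hfull : ∀ ψ : Module.Dual F (Fin n → F), ψ v = 0 → InM M v ψ := by
      intro ψ hψ
      obtain ⟨z, hz⟩ : ∃ z, z = ((BF f hf).toDual (BF_nondeg f hf)).symm ψ := ⟨_, rfl⟩
      have hzx : ∀ x, f z x = ψ x := by
        intro x
        rw [hz]
        exact LinearMap.BilinForm.apply_toDual_symm_apply (B := BF f hf) (hB := BF_nondeg f hf) ψ x
      have e : ψ = fl f hf (-z) := by
        apply LinearMap.ext
        intro x
        rw [fl_apply, f_neg_right f hf, ← hf.skew, hzx]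
      rw [e]
      apply hall
      rw [f_neg_left f hf, hzx, hψ, neg_zero]
    by_cases ha0 : a = 0
    · have h1 : t = 1 := gl_ext t 1 (fun x => by
        rw [hta, ha0, smul_zero, add_zero, Units.val_one, Matrix.one_mulVec])
      rw [h1]
      exact M.one_mem
    obtain ⟨k, hk, hka⟩ := symp_trans f hf a v ha0 hv0
    have h1 : InM M v (φ.comp (Matrix.mulVecLin
        ((k⁻¹ : Matrix.GeneralLinearGroup (Fin n) F) : Matrix (Fin n) (Fin n) F))) := by
      apply hfull
      change φ (((k⁻¹ : Matrix.GeneralLinearGroup (Fin n) F) : Matrix (Fin n) (Fin n) F) *ᵥ v) = 0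
      rw [← hka, gl_inv_mulVec, hφa]
    have h2 : InM M a φ := by
      refine inM_conj M v a _ φ h1 k (hHM hk) hka (fun x => ?_)
      change φ x = φ (((k⁻¹ : Matrix.GeneralLinearGroup (Fin n) F) : Matrix (Fin n) (Fin n) F) *ᵥ
        ((k : Matrix (Fin n) (Fin n) F) *ᵥ x))
      rw [gl_inv_mulVec]
    obtain ⟨t', ht'M, ht'⟩ := h2
    have h3 : t = t' := gl_ext t t' (fun x => by rw [hta, ht'])
    rw [h3]
    exact ht'M

end Cfsg.Agent.S5642
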