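import Mathlib
import Cfsg.Statements.S5644
import Cfsg.Agent.S5642

set_option autoImplicit false
open Cfsg

namespace Cfsg.Agent.S5644

open Matrix
open Cfsg.Agent.S5642 (InM inM_conj inM_add inM_neg dual_prop gl_ext gl_inv_mulVec gl_mulVec_inv)
open Cfsg.Agent.Lib.Helper28 (specialLinear_le_of_transv exists_transvection IsTransvAction)

section lib

variable {F : Type*} [Field F] {n : ℕ} (Q : (Fin n → F) → F)
  (hQ : Geo.IsNondegenerateQuadraticForm Q)

/-- the polar form as a bilinear form -/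
def BF : LinearMap.BilinForm F (Fin n → F) :=
  LinearMap.mk₂ F (QuadraticMap.polar Q) hQ.polar_bilinear.add_left hQ.polar_bilinear.smul_left
    hQ.polar_bilinear.add_right hQ.polar_bilinear.smul_right

local notation "B" => BF Q hQ

theorem BF_apply (x y : Fin n → F) : B x y = QuadraticMap.polar Q x y := rfl

theorem Q_add (x y : Fin n → F) : Q (x + y) = Q x + Q y + B x y := by
  rw [BF_apply, QuadraticMap.polar]
  ring

theorem B_comm (x y : Fin n → F) : B x y = B y x := by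
  rw [BF_apply, BF_apply, QuadraticMap.polar_comm]

theorem B_self (x : Fin n → F) : B x x = 2 * Q x := by
  have h := Q_add Q hQ x x
  have h2 : x + x = (2 : F) • x := by rw [two_smul]
  rw [h2, hQ.smul] at h
  linear_combination -h

include hQ in
theorem Q_zero : Q 0 = 0 := by
  have := hQ.smul 0 0
  simpa using this

theorem BF_nondeg : (BF Q hQ).Nondegenerate := by
  refine ⟨fun x hx => ?_, fun y hy => ?_⟩
  · by_contra h0
    obtain ⟨y, hy⟩ := (hQ.nondegenerate x h0).2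
    exact hy (hx y)
  · by_contra h0
    obtain ⟨x, hx⟩ := (hQ.nondegenerate y h0).1
    exact hx (hy x)

theorem exists_ne (x : Fin n → F) (hx : x ≠ 0) : ∃ y, B x y ≠ 0 :=
  (hQ.nondegenerate x hx).2

theorem riesz (ψ : Module.Dual F (Fin n → F)) : ∃ r : Fin n → F, ∀ z, B r z = ψ z :=
  ⟨((BF Q hQ).toDual (BF_nondeg Q hQ)).symm ψ, fun z =>
    LinearMap.BilinForm.apply_toDual_symm_apply ψ z⟩

/-- a non-zero vector orthogonal to a family of fewer than `n` vectors -/
theorem exists_perp {k : ℕ} (v : Fin k → (Fin n → F)) (hk : k < n) :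
    ∃ x : Fin n → F, x ≠ 0 ∧ ∀ i, B (v i) x = 0 := by
  have h1 := LinearMap.BilinForm.finrank_orthogonal (BF_nondeg Q hQ)
    (Submodule.span F (Set.range v))
  have h2 : Module.finrank F (Submodule.span F (Set.range v)) ≤ k := by
    have := finrank_range_le_card (R := F) v
    rwa [Fintype.card_fin] at this
  have h3 : Module.finrank F (Fin n → F) = n := Module.finrank_fin_fun F
  have h4 : 0 < Module.finrank F
      ((BF Q hQ).orthogonal (Submodule.span F (Set.range v))) := by omega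
  obtain ⟨⟨x, hx⟩, hx0⟩ := Module.finrank_pos_iff_exists_ne_zero.mp h4
  exact ⟨x, fun h => hx0 (Subtype.ext h), fun i => hx (v i) (Submodule.subset_span ⟨i, rfl⟩)⟩

/-- a non-singular vector orthogonal to a family of fewer than `n / 2` vectors -/
theorem exists_ns {k : ℕ} (v : Fin k → (Fin n → F)) (hk : 2 * k < n) :
    ∃ x : Fin n → F, Q x ≠ 0 ∧ ∀ i, B (v i) x = 0 := by
  by_contra hcon
  push Not at hcon
  have h1 := LinearMap.BilinForm.finrank_orthogonal (BF_nondeg Q hQ)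
    (Submodule.span F (Set.range v))
  have h2 : Module.finrank F (Submodule.span F (Set.range v)) ≤ k := by
    have := finrank_range_le_card (R := F) v
    rwa [Fintype.card_fin] at this
  have h3 : Module.finrank F (Fin n → F) = n := Module.finrank_fin_fun F
  have hQW : ∀ x ∈ (BF Q hQ).orthogonal (Submodule.span F (Set.range v)), Q x = 0 := by
    intro x hx
    by_contra h
    obtain ⟨i, hi⟩ := hcon x h
    exact hi (hx (v i) (Submodule.subset_span ⟨i, rfl⟩))
  have hle : (BF Q hQ).orthogonal (Submodule.span F (Set.range v)) ≤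
      (BF Q hQ).orthogonal ((BF Q hQ).orthogonal (Submodule.span F (Set.range v))) := by
    intro x hx y hy
    show B y x = 0
    have := Q_add Q hQ y x
    rw [hQW _ (Submodule.add_mem _ hy hx), hQW y hy, hQW x hx] at this
    linear_combination -this
  have h5 := Submodule.finrank_mono hle
  have h6 := LinearMap.BilinForm.finrank_orthogonal (BF_nondeg Q hQ)
    ((BF Q hQ).orthogonal (Submodule.span F (Set.range v)))
  omega

theorem two_ne [Fintype F] (hodd : Odd (Fintype.card F)) : (2 : F) ≠ 0 := by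
  intro h
  have h1 : ringChar F = 2 := by
    have hd : ringChar F ∣ 2 := ringChar.dvd (by exact_mod_cast h)
    have hp := CharP.char_is_prime F (ringChar F)
    exact (Nat.prime_dvd_prime_iff_eq hp Nat.prime_two).mp hd
  have h2 := FiniteField.even_card_of_char_two h1
  have h3 := Nat.odd_iff.mp hodd
  omega

theorem iso3 [Fintype F] (hodd : Odd (Fintype.card F)) (a b c : F) (ha : a ≠ 0) (hb : b ≠ 0) :
    ∃ x y : F, a * x ^ 2 + b * y ^ 2 + c = 0 := by
  have hR : Fintype.card F % 2 = 1 := Nat.odd_iff.mp hodd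
  have hf2 : (Polynomial.C a * Polynomial.X ^ 2).degree = 2 := by
    rw [Polynomial.degree_C_mul_X_pow 2 ha]
    rfl
  have hg2 : (Polynomial.C b * Polynomial.X ^ 2 + Polynomial.C c).degree = 2 := by
    rw [Polynomial.degree_add_C (by rw [Polynomial.degree_C_mul_X_pow 2 hb]; exact by norm_num),
      Polynomial.degree_C_mul_X_pow 2 hb]
    rfl
  obtain ⟨x, y, h⟩ := FiniteField.exists_root_sum_quadratic hf2 hg2 hR
  refine ⟨x, y, ?_⟩
  simp only [Polynomial.eval_add, Polynomial.eval_mul, Polynomial.eval_C, Polynomial.eval_pow,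
    Polynomial.eval_X] at h
  linear_combination h

/-- a vector of prescribed norm orthogonal to a small family -/
theorem exists_rep [Fintype F] (hodd : Odd (Fintype.card F)) {k : ℕ} (v : Fin k → (Fin n → F))
    (hk : 2 * (k + 1) < n) (c : F) : ∃ e : Fin n → F, Q e = c ∧ ∀ i, B (v i) e = 0 := by
  obtain ⟨b₁, hb₁, h1⟩ := exists_ns Q hQ v (by omega)
  obtain ⟨b₂, hb₂, h2⟩ := exists_ns Q hQ (Fin.cons b₁ v : Fin (k + 1) → (Fin n → F)) hk
  have h12 : B b₁ b₂ = 0 := by simpa using h2 0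
  have h2' : ∀ i, B (v i) b₂ = 0 := fun i => by simpa using h2 i.succ
  obtain ⟨x, y, hxy⟩ := iso3 hodd (Q b₁) (Q b₂) (-c) hb₁ hb₂
  refine ⟨x • b₁ + y • b₂, ?_, fun i => ?_⟩
  · rw [Q_add Q hQ, hQ.smul, hQ.smul]
    simp only [map_add, map_smul, LinearMap.add_apply, LinearMap.smul_apply, smul_eq_mul, h12,
      mul_zero, add_zero]
    linear_combination hxy
  · rw [map_add, map_smul, map_smul, h1 i, h2' i, smul_zero, smul_zero, add_zero]

/-- a non-zero singular vector orthogonal to a family -/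
theorem exists_sing [Fintype F] (hodd : Odd (Fintype.card F)) {k : ℕ}
    (v : Fin k → (Fin n → F)) (hk : k + 2 < n) :
    ∃ s : Fin n → F, s ≠ 0 ∧ Q s = 0 ∧ ∀ i, B (v i) s = 0 := by
  have h2ne := two_ne hodd
  obtain ⟨b₁, hb₁0, h1⟩ := exists_perp Q hQ v (by omega)
  by_cases hq1 : Q b₁ = 0
  · exact ⟨b₁, hb₁0, hq1, h1⟩
  obtain ⟨b₂, hb₂0, h2⟩ := exists_perp Q hQ (Fin.cons b₁ v : Fin (k + 1) → (Fin n → F))
    (by omega)
  have h12 : B b₁ b₂ = 0 := by simpa using h2 0
  have h2' : ∀ i, B (v i) b₂ = 0 := fun i => by simpa using h2 i.succ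
  by_cases hq2 : Q b₂ = 0
  · exact ⟨b₂, hb₂0, hq2, h2'⟩
  obtain ⟨b₃, hb₃0, h3⟩ := exists_perp Q hQ
    (Fin.cons b₂ (Fin.cons b₁ v) : Fin (k + 1 + 1) → (Fin n → F)) (by omega)
  have h23 : B b₂ b₃ = 0 := by simpa using h3 0
  have h13 : B b₁ b₃ = 0 := by simpa using h3 (Fin.succ 0)
  have h3' : ∀ i, B (v i) b₃ = 0 := fun i => by simpa using h3 i.succ.succ
  obtain ⟨x, y, hxy⟩ := iso3 hodd (Q b₁) (Q b₂) (Q b₃) hq1 hq2
  refine ⟨x • b₁ + y • b₂ + b₃, ?_, ?_, fun i => ?_⟩
  · intro h0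
    have e1 : B b₁ (x • b₁ + y • b₂ + b₃) = x * (2 * Q b₁) := by
      rw [map_add, map_add, map_smul, map_smul, B_self Q hQ, h12, h13, smul_zero, add_zero,
        add_zero, smul_eq_mul]
    have e2 : B b₂ (x • b₁ + y • b₂ + b₃) = y * (2 * Q b₂) := by
      rw [map_add, map_add, map_smul, map_smul, B_self Q hQ, B_comm Q hQ b₂ b₁, h12, h23,
        smul_zero, zero_add, add_zero, smul_eq_mul]
    rw [h0, map_zero] at e1 e2
    have hx0 : x = 0 := by
      rcases mul_eq_zero.mp e1.symm with h | h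
      · exact h
      · exact absurd h (mul_ne_zero h2ne hq1)
    have hy0 : y = 0 := by
      rcases mul_eq_zero.mp e2.symm with h | h
      · exact h
      · exact absurd h (mul_ne_zero h2ne hq2)
    rw [hx0, hy0, zero_smul, zero_smul, zero_add, zero_add] at h0
    exact hb₃0 h0
  · rw [Q_add Q hQ, Q_add Q hQ, hQ.smul, hQ.smul]
    simp only [map_add, map_smul, LinearMap.add_apply, LinearMap.smul_apply, smul_eq_mul, h12,
      h13, h23, mul_zero, add_zero]
    linear_combination hxy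
  · rw [map_add, map_add, map_smul, map_smul, h1 i, h2' i, h3' i, smul_zero, smul_zero,
      add_zero, add_zero]

/-- Siegel elements -/
theorem exists_siegel (u y : Fin n → F) (hu : Q u = 0) (huy : B u y = 0) :
    ∃ E : Matrix.GeneralLinearGroup (Fin n) F,
      E ∈ Geo.quadSimilarityGroup Q ⊓ Geo.specialLinear (Fin n) F ∧
      ∀ z, (E : Matrix (Fin n) (Fin n) F) *ᵥ z =
        z + B u z • y - B y z • u - (Q y * B u z) • u := by
  have huu : B u u = 0 := by rw [B_self, hu, mul_zero]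
  obtain ⟨t₁, ht₁, h1⟩ := exists_transvection (B u) y huy
  obtain ⟨t₂, ht₂, h2⟩ := exists_transvection (-(B y) + Q y • B u) u (by
    rw [LinearMap.add_apply, LinearMap.neg_apply, LinearMap.smul_apply, huu, B_comm Q hQ y u, huy,
      neg_zero, smul_zero, add_zero])
  have hE : ∀ z, ((t₂ * t₁ : Matrix.GeneralLinearGroup (Fin n) F) :
      Matrix (Fin n) (Fin n) F) *ᵥ z = z + B u z • y - B y z • u - (Q y * B u z) • u := by
    intro z
    rw [Units.val_mul, ← Matrix.mulVec_mulVec, h1, h2]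
    simp only [LinearMap.add_apply, LinearMap.neg_apply, LinearMap.smul_apply, map_add, map_smul,
      smul_eq_mul, B_self Q hQ y, huy, mul_zero, add_zero]
    module
  refine ⟨t₂ * t₁, ⟨⟨1, fun z => ?_⟩, Subgroup.mul_mem _ ht₂ ht₁⟩, hE⟩
  rw [hE, Units.val_one, one_mul]
  have e : z + B u z • y - B y z • u - (Q y * B u z) • u =
      z + (B u z • y + (-(B y z) - Q y * B u z) • u) := by module
  have hyu : B y u = 0 := by rw [B_comm Q hQ y u, huy]
  rw [e, Q_add Q hQ, Q_add Q hQ, hQ.smul, hQ.smul, hu]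
  simp only [map_add, map_smul, LinearMap.add_apply, LinearMap.smul_apply, smul_eq_mul, hyu,
    B_comm Q hQ z y, B_comm Q hQ z u]
  ring

/-- a linear map respecting the functionals of the singular vectors is a similarity -/
theorem sim_lemma [Fintype F] (hodd : Odd (Fintype.card F)) (hn : 5 ≤ n)
    (g : Matrix.GeneralLinearGroup (Fin n) F)
    (h : ∀ u : Fin n → F, Q u = 0 → ∃ κ : F, ∀ z, B ((g : Matrix (Fin n) (Fin n) F) *ᵥ u)
      ((g : Matrix (Fin n) (Fin n) F) *ᵥ z) = κ * B u z) :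
    g ∈ Geo.quadSimilarityGroup Q := by
  have h2ne := two_ne hodd
  choose κ hκ using h
  have stepb : ∀ (u u' : Fin n → F) (hu : Q u = 0) (hu' : Q u' = 0), B u u' ≠ 0 →
      κ u hu = κ u' hu' := by
    intro u u' hu hu' hβ
    have h1 := hκ u hu u'
    have h2 := hκ u' hu' u
    rw [B_comm Q hQ ((g : Matrix (Fin n) (Fin n) F) *ᵥ u') ((g : Matrix (Fin n) (Fin n) F) *ᵥ u),
      h1, B_comm Q hQ u' u] at h2
    exact mul_right_cancel₀ hβ h2
  have common : ∀ u u' : Fin n → F, u ≠ 0 → u' ≠ 0 → Q u = 0 → B u u' = 0 →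
      ∃ z, Q z = 0 ∧ B u z ≠ 0 ∧ B u' z ≠ 0 := by
    intro u u' hu0 hu'0 hu huu'
    obtain ⟨y₁, h1⟩ := exists_ne Q hQ u hu0
    obtain ⟨y₂, h2⟩ := exists_ne Q hQ u' hu'0
    obtain ⟨x, hx1, hx2⟩ : ∃ x, B u x ≠ 0 ∧ B u' x ≠ 0 := by
      by_cases c1 : B u' y₁ = 0
      · by_cases c2 : B u y₂ = 0
        · exact ⟨y₁ + y₂, by rw [map_add, c2, add_zero]; exact h1,
            by rw [map_add, c1, zero_add]; exact h2⟩
        · exact ⟨y₂, c2, h2⟩
      · exact ⟨y₁, h1, c1⟩
    refine ⟨x + (-(Q x) / B u x) • u, ?_, ?_, ?_⟩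
    · rw [Q_add Q hQ, hQ.smul, hu, map_smul, B_comm Q hQ x u, smul_eq_mul]
      field_simp
      ring
    · rw [map_add, map_smul, B_self Q hQ, hu, mul_zero, smul_zero, add_zero]
      exact hx1
    · rw [map_add, map_smul, B_comm Q hQ u' u, huu', smul_zero, add_zero]
      exact hx2
  have stepc : ∀ (u u' : Fin n → F) (hu : Q u = 0) (hu' : Q u' = 0), u ≠ 0 → u' ≠ 0 →
      κ u hu = κ u' hu' := by
    intro u u' hu hu' hu0 hu'0
    by_cases hβ : B u u' = 0
    · obtain ⟨z, hz, huz, hu'z⟩ := common u u' hu0 hu'0 hu hβ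
      rw [stepb u z hu hz huz, stepb u' z hu' hz hu'z]
    · exact stepb u u' hu hu' hβ
  obtain ⟨u₀, hu₀0, hu₀, -⟩ := exists_sing Q hQ hodd (Fin.elim0 : Fin 0 → (Fin n → F))
    (by omega)
  have hiso : ∀ x : Fin n → F, Q x = 0 → ∀ z, B ((g : Matrix (Fin n) (Fin n) F) *ᵥ x)
      ((g : Matrix (Fin n) (Fin n) F) *ᵥ z) = κ u₀ hu₀ * B x z := by
    intro x hx z
    by_cases hx0 : x = 0
    · simp only [hx0, Matrix.mulVec_zero, map_zero, LinearMap.zero_apply, mul_zero]
    · rw [stepc u₀ x hu₀ hx hu₀0 hx0]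
      exact hκ x hx z
  have hall : ∀ x z : Fin n → F, B ((g : Matrix (Fin n) (Fin n) F) *ᵥ x)
      ((g : Matrix (Fin n) (Fin n) F) *ᵥ z) = κ u₀ hu₀ * B x z := by
    intro x z
    by_cases hx : Q x = 0
    · exact hiso x hx z
    obtain ⟨e, he, hex⟩ := exists_rep Q hQ hodd (![x] : Fin 1 → (Fin n → F)) (by omega) (-(Q x))
    have hxe : B x e = 0 := by simpa using hex 0
    have h1 : Q (x + e) = 0 := by
      rw [Q_add Q hQ, he, hxe]
      ring
    have h2 : Q (x + (-1 : F) • e) = 0 := by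
      rw [Q_add Q hQ, hQ.smul, he, map_smul, hxe]
      simp
    have e2 : x = (2⁻¹ : F) • (x + e) + (2⁻¹ : F) • (x + (-1 : F) • e) := by
      rw [← smul_add]
      have : x + e + (x + (-1 : F) • e) = (2 : F) • x := by module
      rw [this, smul_smul, inv_mul_cancel₀ h2ne, one_smul]
    have i1 := hiso _ h1 z
    have i2 := hiso _ h2 z
    have hBx : B x z = 2⁻¹ * B (x + e) z + 2⁻¹ * B (x + (-1 : F) • e) z := by
      simp only [map_add, map_smul, LinearMap.add_apply, LinearMap.smul_apply, smul_eq_mul]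
      field_simp
      ring
    have hgx : (g : Matrix (Fin n) (Fin n) F) *ᵥ x =
        (2⁻¹ : F) • (g : Matrix (Fin n) (Fin n) F) *ᵥ (x + e) +
          (2⁻¹ : F) • (g : Matrix (Fin n) (Fin n) F) *ᵥ (x + (-1 : F) • e) := by
      rw [← Matrix.mulVec_smul, ← Matrix.mulVec_smul, ← Matrix.mulVec_add, ← e2]
    rw [hgx, map_add, map_smul, map_smul, LinearMap.add_apply, LinearMap.smul_apply,
      LinearMap.smul_apply, i1, i2, hBx]
    simp only [smul_eq_mul]
    ring
  have hκ0 : κ u₀ hu₀ ≠ 0 := by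
    intro h0
    have hgu : (g : Matrix (Fin n) (Fin n) F) *ᵥ u₀ ≠ 0 := by
      intro h1
      apply hu₀0
      have := gl_inv_mulVec g u₀
      rw [h1, Matrix.mulVec_zero] at this
      exact this.symm
    obtain ⟨y, hy⟩ := exists_ne Q hQ _ hgu
    apply hy
    have := hall u₀ (((g⁻¹ : Matrix.GeneralLinearGroup (Fin n) F) :
      Matrix (Fin n) (Fin n) F) *ᵥ y)
    rwa [gl_mulVec_inv, h0, zero_mul] at this
  show ∃ c : Fˣ, ∀ v, Q ((g : Matrix (Fin n) (Fin n) F) *ᵥ v) = (c : F) * Q v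
  refine ⟨Units.mk0 (κ u₀ hu₀) hκ0, fun v => ?_⟩
  have := hall v v
  rw [B_self Q hQ, B_self Q hQ] at this
  rw [Units.val_mk0]
  have h3 : 2 * (Q ((g : Matrix (Fin n) (Fin n) F) *ᵥ v) - κ u₀ hu₀ * Q v) = 0 := by
    linear_combination this
  rcases mul_eq_zero.mp h3 with h4 | h4
  · exact absurd h4 h2ne
  · exact sub_eq_zero.mp h4

omit Q hQ in
theorem inM_zero (M : Subgroup (Matrix.GeneralLinearGroup (Fin n) F))
    (ψ : Module.Dual F (Fin n → F)) : InM M 0 ψ :=
  ⟨1, M.one_mem, fun x => by rw [Units.val_one, Matrix.one_mulVec, smul_zero, add_zero]⟩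

omit Q hQ in
theorem inM_diff (M : Subgroup (Matrix.GeneralLinearGroup (Fin n) F)) (v : Fin n → F)
    (ψ χ : Module.Dual F (Fin n → F)) (hψv : ψ v = 0)
    (h1 : InM M v ψ) (h2 : InM M v (ψ + χ)) : InM M v χ := by
  have h3 := inM_add M v (-ψ) _ (by rw [LinearMap.neg_apply, hψv, neg_zero])
    (inM_neg M v ψ hψv h1) h2
  rwa [neg_add_cancel_left] at h3

/-- an overgroup not consisting of similarities contains a transvection -/
theorem exists_transv [Fintype F] (hodd : Odd (Fintype.card F)) (hn : 13 ≤ n)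
    (M : Subgroup (Matrix.GeneralLinearGroup (Fin n) F))
    (hHM : Geo.quadSimilarityGroup Q ⊓ Geo.specialLinear (Fin n) F ≤ M)
    (g : Matrix.GeneralLinearGroup (Fin n) F) (hgM : g ∈ M)
    (hg : g ∉ Geo.quadSimilarityGroup Q) :
    ∃ c w : Fin n → F, c ≠ 0 ∧ B w c = 0 ∧ (∀ l : F, w ≠ l • c) ∧ InM M c (B w) := by
  obtain ⟨u, hu, hκ⟩ : ∃ u : Fin n → F, Q u = 0 ∧ ¬ ∃ κ : F, ∀ z,
      B ((g : Matrix (Fin n) (Fin n) F) *ᵥ u) ((g : Matrix (Fin n) (Fin n) F) *ᵥ z) =
        κ * B u z := by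
    by_contra hcon
    apply hg
    apply sim_lemma Q hQ hodd (by omega) g
    intro u hu
    by_contra h2
    exact hcon ⟨u, hu, h2⟩
  have hu0 : u ≠ 0 := by
    rintro rfl
    exact hκ ⟨0, fun z => by rw [Matrix.mulVec_zero, map_zero, LinearMap.zero_apply, zero_mul]⟩
  obtain ⟨x, hx1, hx2⟩ : ∃ x, B ((g : Matrix (Fin n) (Fin n) F) *ᵥ u)
      ((g : Matrix (Fin n) (Fin n) F) *ᵥ x) = 0 ∧ B u x ≠ 0 := by
    by_contra hcon
    push Not at hcon
    obtain ⟨μ, hμ⟩ := dual_prop ((B ((g : Matrix (Fin n) (Fin n) F) *ᵥ u)).comp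
      (Matrix.mulVecLin (g : Matrix (Fin n) (Fin n) F))) (B u) (fun z hz => hcon z hz)
    have hμ0 : μ ≠ 0 := by
      rintro rfl
      obtain ⟨y, hy⟩ := exists_ne Q hQ u hu0
      exact hy (by rw [hμ y, zero_mul])
    apply hκ
    refine ⟨μ⁻¹, fun z => ?_⟩
    rw [hμ z, ← mul_assoc, inv_mul_cancel₀ hμ0, one_mul]
    rfl
  obtain ⟨us, hus⟩ := exists_ne Q hQ u hu0
  obtain ⟨x', hx'⟩ := riesz Q hQ ((B ((g : Matrix (Fin n) (Fin n) F) *ᵥ x)).comp
    (Matrix.mulVecLin (g : Matrix (Fin n) (Fin n) F)))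
  obtain ⟨y, hy0, hy, hyS⟩ := exists_sing Q hQ hodd (![u, x', us] : Fin 3 → (Fin n → F))
    (by omega)
  have huy : B u y = 0 := by simpa using hyS 0
  have hxy : B ((g : Matrix (Fin n) (Fin n) F) *ᵥ x) ((g : Matrix (Fin n) (Fin n) F) *ᵥ y)
      = 0 := by
    have h : B x' y = 0 := by simpa using hyS 1
    rw [hx'] at h
    exact h
  have husy : B us y = 0 := by simpa using hyS 2
  obtain ⟨E, hE, hEz⟩ := exists_siegel Q hQ u y hu huy
  obtain ⟨wα, hwα⟩ := riesz Q hQ ((B u).comp (Matrix.mulVecLin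
    ((g⁻¹ : Matrix.GeneralLinearGroup (Fin n) F) : Matrix (Fin n) (Fin n) F)))
  obtain ⟨wβ, hwβ⟩ := riesz Q hQ ((B y).comp (Matrix.mulVecLin
    ((g⁻¹ : Matrix.GeneralLinearGroup (Fin n) F) : Matrix (Fin n) (Fin n) F)))
  obtain ⟨c, hc⟩ : ∃ c : Fin n → F, c = B u x • ((g : Matrix (Fin n) (Fin n) F) *ᵥ y) -
      B y x • ((g : Matrix (Fin n) (Fin n) F) *ᵥ u) := ⟨_, rfl⟩
  have hc0 : c ≠ 0 := by
    intro h0
    have h1 : B u x • y - B y x • u = 0 := by
      have h2 : (g : Matrix (Fin n) (Fin n) F) *ᵥ (B u x • y - B y x • u) = 0 := by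
        rw [Matrix.mulVec_sub, Matrix.mulVec_smul, Matrix.mulVec_smul, ← hc, h0]
      have := gl_inv_mulVec g (B u x • y - B y x • u)
      rw [h2, Matrix.mulVec_zero] at this
      exact this.symm
    have h3 := congrArg (fun v => B us v) h1
    simp only [map_sub, map_smul, husy, smul_zero, zero_sub, map_zero, smul_eq_mul] at h3
    have hyx : B y x = 0 := by
      have hne : B us u ≠ 0 := by rw [B_comm Q hQ]; exact hus
      have : B y x * B us u = 0 := by linear_combination -h3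
      exact (mul_eq_zero.mp this).resolve_right hne
    rw [hyx, zero_smul, sub_zero] at h1
    exact hy0 ((smul_eq_zero.mp h1).resolve_left hx2)
  obtain ⟨cs, hcs⟩ := exists_ne Q hQ c hc0
  obtain ⟨u₁, hu₁0, hu₁, hu₁S⟩ := exists_sing Q hQ hodd
    (![(g : Matrix (Fin n) (Fin n) F) *ᵥ y, (g : Matrix (Fin n) (Fin n) F) *ᵥ u,
      (g : Matrix (Fin n) (Fin n) F) *ᵥ x, wα, wβ, cs] : Fin 6 → (Fin n → F)) (by omega)
  have h1a : B u₁ ((g : Matrix (Fin n) (Fin n) F) *ᵥ y) = 0 := by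
    rw [B_comm Q hQ]; simpa using hu₁S 0
  have h1b : B u₁ ((g : Matrix (Fin n) (Fin n) F) *ᵥ u) = 0 := by
    rw [B_comm Q hQ]; simpa using hu₁S 1
  have h1x : B u₁ ((g : Matrix (Fin n) (Fin n) F) *ᵥ x) = 0 := by
    rw [B_comm Q hQ]; simpa using hu₁S 2
  have h1α : B u (((g⁻¹ : Matrix.GeneralLinearGroup (Fin n) F) : Matrix (Fin n) (Fin n) F) *ᵥ u₁)
      = 0 := by
    have h : B wα u₁ = 0 := by simpa using hu₁S 3
    rw [hwα] at h
    exact h
  have h1β : B y (((g⁻¹ : Matrix.GeneralLinearGroup (Fin n) F) : Matrix (Fin n) (Fin n) F) *ᵥ u₁)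
      = 0 := by
    have h : B wβ u₁ = 0 := by simpa using hu₁S 4
    rw [hwβ] at h
    exact h
  have h1c : B cs u₁ = 0 := by simpa using hu₁S 5
  have hu₁u₁ : B u₁ u₁ = 0 := by rw [B_self, hu₁, mul_zero]
  obtain ⟨E₁, hE₁, hE₁z⟩ := exists_siegel Q hQ u₁ ((g : Matrix (Fin n) (Fin n) F) *ᵥ x) hu₁ h1x
  have hE₂M : g * E * g⁻¹ ∈ M := M.mul_mem (M.mul_mem hgM (hHM hE)) (M.inv_mem hgM)
  have hE₂z : ∀ z, ((g * E * g⁻¹ : Matrix.GeneralLinearGroup (Fin n) F) :
      Matrix (Fin n) (Fin n) F) *ᵥ z = z +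
        B u (((g⁻¹ : Matrix.GeneralLinearGroup (Fin n) F) : Matrix (Fin n) (Fin n) F) *ᵥ z) •
          ((g : Matrix (Fin n) (Fin n) F) *ᵥ y) -
        B y (((g⁻¹ : Matrix.GeneralLinearGroup (Fin n) F) : Matrix (Fin n) (Fin n) F) *ᵥ z) •
          ((g : Matrix (Fin n) (Fin n) F) *ᵥ u) := by
    intro z
    rw [Units.val_mul, Units.val_mul, ← Matrix.mulVec_mulVec, ← Matrix.mulVec_mulVec, hEz, hy,
      zero_mul, zero_smul, sub_zero, Matrix.mulVec_sub, Matrix.mulVec_add, Matrix.mulVec_smul,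
      Matrix.mulVec_smul, gl_mulVec_inv]
  have hgu_gx : B ((g : Matrix (Fin n) (Fin n) F) *ᵥ x) ((g : Matrix (Fin n) (Fin n) F) *ᵥ u)
      = 0 := by rw [B_comm Q hQ]; exact hx1
  have f1 : ∀ z, B u₁ (((g * E * g⁻¹ : Matrix.GeneralLinearGroup (Fin n) F) :
      Matrix (Fin n) (Fin n) F) *ᵥ z) = B u₁ z := by
    intro z
    rw [hE₂z, map_sub, map_add, map_smul, map_smul, h1a, h1b, smul_zero, smul_zero, add_zero,
      sub_zero]
  have f2 : ∀ z, B ((g : Matrix (Fin n) (Fin n) F) *ᵥ x)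
      (((g * E * g⁻¹ : Matrix.GeneralLinearGroup (Fin n) F) :
        Matrix (Fin n) (Fin n) F) *ᵥ z) = B ((g : Matrix (Fin n) (Fin n) F) *ᵥ x) z := by
    intro z
    rw [hE₂z, map_sub, map_add, map_smul, map_smul, hxy, hgu_gx, smul_zero, smul_zero, add_zero,
      sub_zero]
  have f3 : ∀ z, B u₁ ((E₁ : Matrix (Fin n) (Fin n) F) *ᵥ z) = B u₁ z := by
    intro z
    rw [hE₁z]
    simp only [map_sub, map_add, map_smul, h1x, hu₁u₁, smul_zero, add_zero, sub_zero]
  have f4 : ∀ z, B u (((g⁻¹ : Matrix.GeneralLinearGroup (Fin n) F) :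
      Matrix (Fin n) (Fin n) F) *ᵥ ((E₁ : Matrix (Fin n) (Fin n) F) *ᵥ z)) =
        B u (((g⁻¹ : Matrix.GeneralLinearGroup (Fin n) F) : Matrix (Fin n) (Fin n) F) *ᵥ z) +
          B u₁ z * B u x := by
    intro z
    rw [hE₁z]
    simp only [Matrix.mulVec_sub, Matrix.mulVec_add, Matrix.mulVec_smul, gl_inv_mulVec, map_sub,
      map_add, map_smul, h1α, smul_zero, sub_zero, smul_eq_mul, mul_zero]
  have f5 : ∀ z, B y (((g⁻¹ : Matrix.GeneralLinearGroup (Fin n) F) :
      Matrix (Fin n) (Fin n) F) *ᵥ ((E₁ : Matrix (Fin n) (Fin n) F) *ᵥ z)) =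
        B y (((g⁻¹ : Matrix.GeneralLinearGroup (Fin n) F) : Matrix (Fin n) (Fin n) F) *ᵥ z) +
          B u₁ z * B y x := by
    intro z
    rw [hE₁z]
    simp only [Matrix.mulVec_sub, Matrix.mulVec_add, Matrix.mulVec_smul, gl_inv_mulVec, map_sub,
      map_add, map_smul, h1β, smul_zero, sub_zero, smul_eq_mul, mul_zero]
  have key : ∀ z, ((g * E * g⁻¹ : Matrix.GeneralLinearGroup (Fin n) F) :
      Matrix (Fin n) (Fin n) F) *ᵥ ((E₁ : Matrix (Fin n) (Fin n) F) *ᵥ z) =
      (E₁ : Matrix (Fin n) (Fin n) F) *ᵥ (((g * E * g⁻¹ : Matrix.GeneralLinearGroup (Fin n) F) :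
        Matrix (Fin n) (Fin n) F) *ᵥ z) +
      B u₁ ((E₁ : Matrix (Fin n) (Fin n) F) *ᵥ
        (((g * E * g⁻¹ : Matrix.GeneralLinearGroup (Fin n) F) :
          Matrix (Fin n) (Fin n) F) *ᵥ z)) • c := by
    intro z
    rw [f3, f1, hE₂z ((E₁ : Matrix (Fin n) (Fin n) F) *ᵥ z), f4, f5,
      hE₁z (((g * E * g⁻¹ : Matrix.GeneralLinearGroup (Fin n) F) :
        Matrix (Fin n) (Fin n) F) *ᵥ z), f1, f2, hE₂z z, hE₁z z, hc]
    module
  refine ⟨c, u₁, hc0, ?_, ?_, ?_⟩
  · rw [hc, map_sub, map_smul, map_smul, h1a, h1b, smul_zero, smul_zero, sub_zero]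
  · intro l hl
    rw [hl, map_smul, smul_eq_mul] at h1c
    have hne : B cs c ≠ 0 := by rw [B_comm Q hQ]; exact hcs
    have hl0 : l = 0 := (mul_eq_zero.mp h1c).resolve_right hne
    rw [hl0, zero_smul] at hl
    exact hu₁0 hl
  · refine ⟨g * E * g⁻¹ * E₁ * (g * E * g⁻¹)⁻¹ * E₁⁻¹, ?_, fun w => ?_⟩
    · exact M.mul_mem (M.mul_mem (M.mul_mem hE₂M (hHM hE₁)) (M.inv_mem hE₂M))
        (M.inv_mem (hHM hE₁))
    · have hk := key ((((g * E * g⁻¹)⁻¹ : Matrix.GeneralLinearGroup (Fin n) F) :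
        Matrix (Fin n) (Fin n) F) *ᵥ (((E₁⁻¹ : Matrix.GeneralLinearGroup (Fin n) F) :
          Matrix (Fin n) (Fin n) F) *ᵥ w))
      rw [gl_mulVec_inv, gl_mulVec_inv] at hk
      rw [Units.val_mul, Units.val_mul, Units.val_mul, ← Matrix.mulVec_mulVec,
        ← Matrix.mulVec_mulVec, ← Matrix.mulVec_mulVec]
      exact hk

/-- the whole root group at the centre of a transvection of the overgroup -/
theorem full_root [Fintype F] (hodd : Odd (Fintype.card F)) (hn : 13 ≤ n)
    (M : Subgroup (Matrix.GeneralLinearGroup (Fin n) F))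
    (hHM : Geo.quadSimilarityGroup Q ⊓ Geo.specialLinear (Fin n) F ≤ M)
    (c w : Fin n → F) (hwc : B w c = 0) (hw : ∀ l : F, w ≠ l • c) (hwM : InM M c (B w))
    (ψ : Module.Dual F (Fin n → F)) (hψc : ψ c = 0) : InM M c ψ := by
  have h2ne := two_ne hodd
  -- (B2)
  have key : ∀ (χ : Module.Dual F (Fin n → F)) (s y : Fin n → F), InM M c χ → χ c = 0 →
      Q s = 0 → B s c = 0 → χ s = 0 → B s y = 0 → B y c = 0 → χ y ≠ 0 →
      ∀ τ : F, InM M c (τ • B s) := by
    intro χ s y hχM hχc hs hsc hχs hsy hyc hχy τ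
    obtain ⟨E, hE, hEz⟩ := exists_siegel Q hQ s ((τ / χ y) • y) hs
      (by rw [map_smul, hsy, smul_zero])
    have hEc : (E : Matrix (Fin n) (Fin n) F) *ᵥ c = c := by
      rw [hEz, hsc, map_smul, LinearMap.smul_apply, hyc, smul_zero, zero_smul, zero_smul,
        mul_zero, zero_smul, add_zero, sub_zero, sub_zero]
    have h1 : InM M c (χ + τ • B s) := by
      refine inM_conj M c c χ _ hχM E (hHM hE) hEc (fun z => ?_)
      rw [hEz]
      simp only [map_sub, map_add, map_smul, hχs, smul_zero, sub_zero, LinearMap.add_apply,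
        LinearMap.smul_apply, smul_eq_mul, mul_zero]
      field_simp
    exact inM_diff M c χ _ hχc hχM h1
  obtain ⟨ws, hws1, hws2⟩ : ∃ ws, B c ws = 0 ∧ B w ws ≠ 0 := by
    by_contra hcon
    push Not at hcon
    obtain ⟨μ, hμ⟩ := dual_prop (B c) (B w) hcon
    apply hw μ
    by_contra hne
    obtain ⟨y, hy⟩ := exists_ne Q hQ (w - μ • c) (sub_ne_zero.mpr hne)
    apply hy
    rw [map_sub, map_smul, LinearMap.sub_apply, LinearMap.smul_apply, hμ y, smul_eq_mul, sub_self]
  have hcw : B c w = 0 := by rw [B_comm Q hQ]; exact hwc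
  -- (B3)
  have step3 : ∀ s : Fin n → F, Q s = 0 → B s c = 0 → B s w = 0 → B s ws = 0 →
      ∀ τ : F, InM M c (τ • B s) := by
    intro s hs hsc hsw hsws
    exact key (B w) s ws hwM hwc hs hsc (by rw [B_comm Q hQ]; exact hsw) hsws
      (by rw [B_comm Q hQ]; exact hws1) hws2
  -- (B4)
  have step4 : ∀ s' : Fin n → F, Q s' = 0 → B s' c = 0 → ∀ τ : F, InM M c (τ • B s') := by
    intro s' hs' hs'c
    obtain ⟨e, he, heS⟩ := exists_ns Q hQ (![c, w, ws, s'] : Fin 4 → (Fin n → F)) (by omega)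
    have hce : B c e = 0 := by simpa using heS 0
    have hwe : B w e = 0 := by simpa using heS 1
    have hwse : B ws e = 0 := by simpa using heS 2
    have hs'e : B s' e = 0 := by simpa using heS 3
    obtain ⟨e', he', he'S⟩ := exists_rep Q hQ hodd (![c, w, ws, s', e] : Fin 5 → (Fin n → F))
      (by omega) (-(Q e))
    have hce' : B c e' = 0 := by simpa using he'S 0
    have hwe' : B w e' = 0 := by simpa using he'S 1
    have hwse' : B ws e' = 0 := by simpa using he'S 2
    have hs'e' : B s' e' = 0 := by simpa using he'S 3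
    have hee' : B e e' = 0 := by simpa using he'S 4
    have hz : Q (e + e') = 0 := by
      rw [Q_add Q hQ, he', hee']
      ring
    have hzc : B (e + e') c = 0 := by
      rw [B_comm Q hQ, map_add, hce, hce', add_zero]
    have hzw : B (e + e') w = 0 := by
      rw [B_comm Q hQ, map_add, hwe, hwe', add_zero]
    have hzws : B (e + e') ws = 0 := by
      rw [B_comm Q hQ, map_add, hwse, hwse', add_zero]
    have hYz := step3 (e + e') hz hzc hzw hzws 1
    rw [one_smul] at hYz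
    refine key (B (e + e')) s' e hYz hzc hs' hs'c ?_ hs'e (by rw [B_comm Q hQ]; exact hce) ?_
    · rw [B_comm Q hQ, map_add, hs'e, hs'e', add_zero]
    · rw [map_add, LinearMap.add_apply, B_self Q hQ, B_comm Q hQ e' e, hee', add_zero]
      exact mul_ne_zero h2ne he
  -- (B5)
  obtain ⟨r, hr⟩ := riesz Q hQ ψ
  have hψr : ψ = B r := by
    apply LinearMap.ext
    intro z
    exact (hr z).symm
  have hrc : B r c = 0 := by rw [hr]; exact hψc
  by_cases hqr : Q r = 0
  · have := step4 r hqr hrc 1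
    rwa [one_smul, ← hψr] at this
  · obtain ⟨e', he', he'S⟩ := exists_rep Q hQ hodd (![c, r] : Fin 2 → (Fin n → F)) (by omega)
      (-(Q r))
    have hce' : B c e' = 0 := by simpa using he'S 0
    have hre' : B r e' = 0 := by simpa using he'S 1
    have h1 : Q (r + e') = 0 := by
      rw [Q_add Q hQ, he', hre']
      ring
    have h2 : Q (r + (-1 : F) • e') = 0 := by
      rw [Q_add Q hQ, hQ.smul, he', map_smul, hre']
      simp
    have h1c : B (r + e') c = 0 := by
      rw [B_comm Q hQ, map_add, B_comm Q hQ c r, hrc, hce', add_zero]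
    have h2c : B (r + (-1 : F) • e') c = 0 := by
      rw [B_comm Q hQ, map_add, map_smul, B_comm Q hQ c r, hrc, hce', smul_zero, add_zero]
    have i1 := step4 _ h1 h1c 2⁻¹
    have i2 := step4 _ h2 h2c 2⁻¹
    have e : ψ = (2⁻¹ : F) • B (r + e') + (2⁻¹ : F) • B (r + (-1 : F) • e') := by
      rw [hψr]
      apply LinearMap.ext
      intro z
      simp only [map_add, map_smul, LinearMap.add_apply, LinearMap.smul_apply, smul_eq_mul]
      field_simp
      ring
    rw [e]
    exact inM_add M c _ _ (by rw [LinearMap.smul_apply, h1c, smul_zero]) i1 i2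

/-- the vectors whose whole root group lies in the overgroup -/
def Full (M : Subgroup (Matrix.GeneralLinearGroup (Fin n) F)) (a : Fin n → F) : Prop :=
  ∀ ψ : Module.Dual F (Fin n → F), ψ a = 0 → InM M a ψ

omit Q hQ in
theorem full_conj (M : Subgroup (Matrix.GeneralLinearGroup (Fin n) F)) (a : Fin n → F)
    (ha : Full M a) (k : Matrix.GeneralLinearGroup (Fin n) F) (hk : k ∈ M) :
    Full M ((k : Matrix (Fin n) (Fin n) F) *ᵥ a) := by
  intro ψ hψ
  have h1 := ha (ψ.comp (Matrix.mulVecLin (k : Matrix (Fin n) (Fin n) F))) hψ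
  refine inM_conj M a _ _ ψ h1 k⁻¹ (M.inv_mem hk) (gl_inv_mulVec k a) (fun x => ?_)
  show ψ x = ψ ((k : Matrix (Fin n) (Fin n) F) *ᵥ
    (((k⁻¹ : Matrix.GeneralLinearGroup (Fin n) F) : Matrix (Fin n) (Fin n) F) *ᵥ x))
  rw [gl_mulVec_inv]

omit Q hQ in
theorem full_smul (M : Subgroup (Matrix.GeneralLinearGroup (Fin n) F)) (a : Fin n → F)
    (ha : Full M a) (l : F) : Full M (l • a) := by
  intro ψ hψ
  by_cases hl : l = 0
  · rw [hl, zero_smul]
    exact inM_zero M ψ
  have hψa : ψ a = 0 := by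
    rw [map_smul, smul_eq_mul] at hψ
    exact (mul_eq_zero.mp hψ).resolve_left hl
  obtain ⟨t, ht, htx⟩ := ha (l • ψ) (by rw [LinearMap.smul_apply, hψa, smul_zero])
  refine ⟨t, ht, fun x => ?_⟩
  rw [htx, LinearMap.smul_apply, smul_eq_mul, smul_smul, mul_comm]

include hQ in
theorem full_add (M : Subgroup (Matrix.GeneralLinearGroup (Fin n) F)) (a a' : Fin n → F)
    (ha : Full M a) (ha' : Full M a') : Full M (a + a') := by
  by_cases h : ∀ x, B a' x = 0 → B a x = 0
  · obtain ⟨μ, hμ⟩ := dual_prop (B a') (B a) h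
    have e : a = μ • a' := by
      by_contra hne
      obtain ⟨y, hy⟩ := exists_ne Q hQ (a - μ • a') (sub_ne_zero.mpr hne)
      apply hy
      rw [map_sub, map_smul, LinearMap.sub_apply, LinearMap.smul_apply, hμ y, smul_eq_mul,
        sub_self]
    have e2 : a + a' = (μ + 1) • a' := by rw [e, add_smul, one_smul]
    rw [e2]
    exact full_smul M a' ha' _
  · push Not at h
    obtain ⟨x, hx1, hx2⟩ := h
    obtain ⟨t, ht, htx⟩ := ha' ((B a x)⁻¹ • B x) (by
      rw [LinearMap.smul_apply, B_comm Q hQ x a', hx1, smul_zero])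
    have e : (t : Matrix (Fin n) (Fin n) F) *ᵥ a = a + a' := by
      rw [htx, LinearMap.smul_apply, B_comm Q hQ x a, smul_eq_mul, inv_mul_cancel₀ hx2, one_smul]
    rw [← e]
    exact full_conj M a ha t ht

/-- the vectors whose whole root group lies in the overgroup, as a subspace -/
def fullSub (M : Subgroup (Matrix.GeneralLinearGroup (Fin n) F)) :
    Submodule F (Fin n → F) where
  carrier := {a | Full M a}
  add_mem' := fun {a b} ha hb => full_add Q hQ M a b ha hb
  zero_mem' := fun ψ _ => inM_zero M ψ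
  smul_mem' := fun l a ha => full_smul M a ha l

include hQ in
/-- all transvections, from one whole root group -/
theorem all_transv [Fintype F] (hodd : Odd (Fintype.card F)) (hn : 13 ≤ n)
    (M : Subgroup (Matrix.GeneralLinearGroup (Fin n) F))
    (hHM : Geo.quadSimilarityGroup Q ⊓ Geo.specialLinear (Fin n) F ≤ M)
    (c : Fin n → F) (hc0 : c ≠ 0) (hc : Full M c) (a : Fin n → F) : Full M a := by
  have h2ne := two_ne hodd
  have hcS : c ∈ fullSub Q hQ M := hc
  obtain ⟨s, hs, hcs⟩ : ∃ s : Fin n → F, Q s = 0 ∧ B s c ≠ 0 := by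
    obtain ⟨x₀, hx₀⟩ := exists_ne Q hQ c hc0
    by_cases hq : Q x₀ = 0
    · exact ⟨x₀, hq, by rw [B_comm Q hQ]; exact hx₀⟩
    · obtain ⟨e', he', he'S⟩ := exists_rep Q hQ hodd (![c, x₀] : Fin 2 → (Fin n → F))
        (by omega) (-(Q x₀))
      have hce' : B c e' = 0 := by simpa using he'S 0
      have hxe' : B x₀ e' = 0 := by simpa using he'S 1
      refine ⟨x₀ + e', ?_, ?_⟩
      · rw [Q_add Q hQ, he', hxe']
        ring
      · rw [B_comm Q hQ, map_add, hce', add_zero]
        exact hx₀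
  have hv : ∀ y : Fin n → F, B s y = 0 →
      B s c • y - (B y c + Q y * B s c) • s ∈ fullSub Q hQ M := by
    intro y hsy
    obtain ⟨E, hE, hEz⟩ := exists_siegel Q hQ s y hs hsy
    have h1 : (E : Matrix (Fin n) (Fin n) F) *ᵥ c ∈ fullSub Q hQ M :=
      full_conj M c hc E (hHM hE)
    have h2 := Submodule.sub_mem _ h1 hcS
    have e : (E : Matrix (Fin n) (Fin n) F) *ᵥ c - c =
        B s c • y - (B y c + Q y * B s c) • s := by
      rw [hEz]
      module
    rwa [e] at h2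
  obtain ⟨y₀, hy₀, hy₀S⟩ := exists_ns Q hQ (![s] : Fin 1 → (Fin n → F)) (by omega)
  have hsy₀ : B s y₀ = 0 := by simpa using hy₀S 0
  have hsS : s ∈ fullSub Q hQ M := by
    have h1 := hv y₀ hsy₀
    have h2 := hv ((2 : F) • y₀) (by rw [map_smul, hsy₀, smul_zero])
    have h3 := Submodule.sub_mem _ h2 (Submodule.smul_mem _ (2 : F) h1)
    have e : B s c • (2 : F) • y₀ - (B ((2 : F) • y₀) c + Q ((2 : F) • y₀) * B s c) • s -
        (2 : F) • (B s c • y₀ - (B y₀ c + Q y₀ * B s c) • s) =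
        (-(2 * Q y₀ * B s c)) • s := by
      rw [hQ.smul, map_smul, LinearMap.smul_apply, smul_eq_mul]
      module
    rw [e] at h3
    exact (Submodule.smul_mem_iff _ (neg_ne_zero.mpr
      (mul_ne_zero (mul_ne_zero h2ne hy₀) hcs))).mp h3
  have hperp : ∀ y : Fin n → F, B s y = 0 → y ∈ fullSub Q hQ M := by
    intro y hsy
    have h1 := hv y hsy
    have h2 := Submodule.add_mem _ h1 (Submodule.smul_mem _ (B y c + Q y * B s c) hsS)
    rw [sub_add_cancel] at h2
    exact (Submodule.smul_mem_iff _ hcs).mp h2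
  have e : a = (a - (B s a / B s c) • c) + (B s a / B s c) • c := by abel
  have h1 : a - (B s a / B s c) • c ∈ fullSub Q hQ M := by
    apply hperp
    rw [map_sub, map_smul, smul_eq_mul, div_mul_cancel₀ _ hcs, sub_self]
  have h2 := Submodule.add_mem _ h1 (Submodule.smul_mem _ (B s a / B s c) hcS)
  rw [← e] at h2
  exact h2

end lib

/-- For n ≥ 13 and q odd, the group of similarities of a non-degenerate quadratic form on F_q^n meeting SL_n(q) is maximal in SL_n(q). -/
theorem result {F : Type*} [Field F] [Fintype F] (n : ℕ) (hn : 13 ≤ n) (hodd : Odd (Fintype.card F)) (Q : (Fin n → F) → F) (hQ : Cfsg.Geo.IsNondegenerateQuadraticForm Q) : Cfsg.Geo.IsMaximalIn (Cfsg.Geo.specialLinear (Fin n) F) (Cfsg.Geo.quadSimilarityGroup Q ⊓ Cfsg.Geo.specialLinear (Fin n) F) := by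
  classical
  have h2ne := two_ne hodd
  refine ⟨lt_of_le_of_ne inf_le_right ?_, ?_⟩
  · intro heq
    obtain ⟨a, ha, -⟩ := exists_ns Q hQ (Fin.elim0 : Fin 0 → (Fin n → F)) (by omega)
    obtain ⟨w, hw, hwS⟩ := exists_ns Q hQ (![a] : Fin 1 → (Fin n → F)) (by omega)
    have haw : BF Q hQ a w = 0 := by simpa using hwS 0
    have hwa : BF Q hQ w a = 0 := by rw [B_comm Q hQ]; exact haw
    obtain ⟨t, ht1, ht2⟩ := exists_transvection (BF Q hQ w) a hwa
    have htH : t ∈ Cfsg.Geo.quadSimilarityGroup Q ⊓ Cfsg.Geo.specialLinear (Fin n) F := by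
      rw [heq]
      exact ht1
    obtain ⟨c, hc⟩ := htH.1
    have h1 := hc a
    rw [ht2, hwa, zero_smul, add_zero] at h1
    have hc1 : (c : F) = 1 := by
      have : ((c : F) - 1) * Q a = 0 := by linear_combination -h1
      rcases mul_eq_zero.mp this with h | h
      · exact sub_eq_zero.mp h
      · exact absurd h ha
    have h2 := hc w
    rw [ht2, hc1, one_mul, Q_add Q hQ, hQ.smul, map_smul, hwa, B_self Q hQ, smul_zero] at h2
    have h3 : 4 * Q w ^ 2 * Q a = 0 := by linear_combination h2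
    have h4 : (4 : F) ≠ 0 := by
      have : (4 : F) = 2 * 2 := by norm_num
      rw [this]
      exact mul_ne_zero h2ne h2ne
    exact mul_ne_zero (mul_ne_zero h4 (pow_ne_zero 2 hw)) ha h3
  · intro M hHM hMK
    by_cases hMH : M = Cfsg.Geo.quadSimilarityGroup Q ⊓ Cfsg.Geo.specialLinear (Fin n) F
    · left
      exact hMH
    right
    obtain ⟨g, hgM, hgH⟩ : ∃ g ∈ M, g ∉ Cfsg.Geo.quadSimilarityGroup Q ⊓
        Cfsg.Geo.specialLinear (Fin n) F := by
      by_contra hcon
      push Not at hcon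
      exact hMH (le_antisymm hcon hHM)
    have hgS : g ∉ Cfsg.Geo.quadSimilarityGroup Q := fun h => hgH ⟨h, hMK hgM⟩
    obtain ⟨c, w, hc0, hwc, hw, hwM⟩ := exists_transv Q hQ hodd hn M hHM g hgM hgS
    have hfull : Full M c := fun ψ hψ => full_root Q hQ hodd hn M hHM c w hwc hw hwM ψ hψ
    have hall := all_transv Q hQ hodd hn M hHM c hc0 hfull
    apply le_antisymm hMK
    apply specialLinear_le_of_transv (by omega)
    rintro t ht ⟨χ, a, hχa, hta⟩
    obtain ⟨t', ht'M, ht'⟩ := hall a χ hχa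
    have h3 : t = t' := gl_ext t t' (fun x => by rw [hta, ht'])
    rw [h3]
    exact ht'M

end Cfsg.Agent.S5644
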