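import Mathlib
import Cfsg.Statements.S5676
import Cfsg.Agent.S5644
import Cfsg.Agent.Lib.Helper3.OmegaCenter

set_option autoImplicit false
open Cfsg

namespace Cfsg.Agent.S5676

open Matrix
open Cfsg.Agent.Lib.Helper16 (reflG refl_mulVec reflG_coe isomG_map qfOdd qfOdd_coe qfOdd_nondeg)
open Cfsg.Agent.Lib.Helper3 (refl_pair_mem_omega)

section transfer

variable {ι : Type} [Fintype ι] [DecidableEq ι] {F : Type*} [Field F]
  (Q : QuadraticForm F (ι → F)) (hQ : (QuadraticMap.polarBilin Q).Nondegenerate)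

/-- the form transported to a standard index type -/
noncomputable def Qt (x : Fin (Fintype.card ι) → F) : F := Q (x ∘ Fintype.equivFin ι)

theorem comp_symm_comp (y : ι → F) :
    (y ∘ (Fintype.equivFin ι).symm) ∘ Fintype.equivFin ι = y := by
  funext i
  simp

theorem comp_ne_zero {x : Fin (Fintype.card ι) → F} (hx : x ≠ 0) :
    x ∘ Fintype.equivFin ι ≠ 0 := by
  intro h
  apply hx
  funext j
  have := congrFun h ((Fintype.equivFin ι).symm j)
  simpa using this

include hQ in
theorem hQt : Geo.IsNondegenerateQuadraticForm (Qt Q) := by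
  have hp : ∀ x y : Fin (Fintype.card ι) → F, QuadraticMap.polar (Qt Q) x y
      = QuadraticMap.polar Q (x ∘ Fintype.equivFin ι) (y ∘ Fintype.equivFin ι) := fun x y => rfl
  refine ⟨fun c v => ?_, ⟨?_, ?_, ?_, ?_⟩, fun v hv => ?_⟩
  · show Q (c • (v ∘ Fintype.equivFin ι)) = _
    rw [QuadraticMap.map_smul, smul_eq_mul, pow_two]
    rfl
  · intro x y v
    rw [hp, hp, hp]
    exact QuadraticMap.polar_add_left Q _ _ _
  · intro c x v
    rw [hp, hp]
    exact QuadraticMap.polar_smul_left Q c _ _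
  · intro v x y
    rw [hp, hp, hp]
    exact QuadraticMap.polar_add_right Q _ _ _
  · intro c v x
    rw [hp, hp]
    exact QuadraticMap.polar_smul_right Q c _ _
  · have hv' := comp_ne_zero hv
    have h1 : ∃ y, QuadraticMap.polar Q (v ∘ Fintype.equivFin ι) y ≠ 0 := by
      by_contra hcon
      push Not at hcon
      exact hv' (hQ.1 _ hcon)
    obtain ⟨y, hy⟩ := h1
    have hy' : QuadraticMap.polar (Qt Q) v (y ∘ (Fintype.equivFin ι).symm) ≠ 0 := by
      rw [hp, comp_symm_comp]
      exact hy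
    refine ⟨⟨y ∘ (Fintype.equivFin ι).symm, ?_⟩, ⟨y ∘ (Fintype.equivFin ι).symm, hy'⟩⟩
    rw [QuadraticMap.polar_comm]
    exact hy'

include hQ in
/-- a non-zero vector orthogonal to a family -/
theorem gperp {k : ℕ} (v : Fin k → (ι → F)) (hk : k < Fintype.card ι) :
    ∃ x : ι → F, x ≠ 0 ∧ ∀ i, QuadraticMap.polar Q (v i) x = 0 := by
  obtain ⟨x, hx0, hx⟩ := Cfsg.Agent.S5644.exists_perp (Qt Q) (hQt Q hQ)
    (fun i => v i ∘ (Fintype.equivFin ι).symm) hk
  refine ⟨x ∘ Fintype.equivFin ι, comp_ne_zero hx0, fun i => ?_⟩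
  have h' : QuadraticMap.polar Q ((v i ∘ (Fintype.equivFin ι).symm) ∘ Fintype.equivFin ι)
      (x ∘ Fintype.equivFin ι) = 0 := hx i
  rwa [comp_symm_comp] at h'

include hQ in
/-- a non-singular vector orthogonal to a family -/
theorem gns {k : ℕ} (v : Fin k → (ι → F)) (hk : 2 * k < Fintype.card ι) :
    ∃ x : ι → F, Q x ≠ 0 ∧ ∀ i, QuadraticMap.polar Q (v i) x = 0 := by
  obtain ⟨x, hx0, hx⟩ := Cfsg.Agent.S5644.exists_ns (Qt Q) (hQt Q hQ)
    (fun i => v i ∘ (Fintype.equivFin ι).symm) hk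
  refine ⟨x ∘ Fintype.equivFin ι, hx0, fun i => ?_⟩
  have h' : QuadraticMap.polar Q ((v i ∘ (Fintype.equivFin ι).symm) ∘ Fintype.equivFin ι)
      (x ∘ Fintype.equivFin ι) = 0 := hx i
  rwa [comp_symm_comp] at h'

include hQ in
/-- a vector of prescribed norm orthogonal to a family -/
theorem grep [Fintype F] (hodd : Odd (Fintype.card F)) {k : ℕ} (v : Fin k → (ι → F))
    (hk : 2 * (k + 1) < Fintype.card ι) (c : F) :
    ∃ x : ι → F, Q x = c ∧ ∀ i, QuadraticMap.polar Q (v i) x = 0 := by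
  obtain ⟨x, hx0, hx⟩ := Cfsg.Agent.S5644.exists_rep (Qt Q) (hQt Q hQ) hodd
    (fun i => v i ∘ (Fintype.equivFin ι).symm) hk c
  refine ⟨x ∘ Fintype.equivFin ι, hx0, fun i => ?_⟩
  have h' : QuadraticMap.polar Q ((v i ∘ (Fintype.equivFin ι).symm) ∘ Fintype.equivFin ι)
      (x ∘ Fintype.equivFin ι) = 0 := hx i
  rwa [comp_symm_comp] at h'

include hQ in
/-- a non-zero singular vector orthogonal to a family -/
theorem gsing [Fintype F] (hodd : Odd (Fintype.card F)) {k : ℕ} (v : Fin k → (ι → F))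
    (hk : k + 2 < Fintype.card ι) :
    ∃ x : ι → F, x ≠ 0 ∧ Q x = 0 ∧ ∀ i, QuadraticMap.polar Q (v i) x = 0 := by
  obtain ⟨x, hx0, hxQ, hx⟩ := Cfsg.Agent.S5644.exists_sing (Qt Q) (hQt Q hQ) hodd
    (fun i => v i ∘ (Fintype.equivFin ι).symm) hk
  refine ⟨x ∘ Fintype.equivFin ι, comp_ne_zero hx0, hxQ, fun i => ?_⟩
  have h' : QuadraticMap.polar Q ((v i ∘ (Fintype.equivFin ι).symm) ∘ Fintype.equivFin ι)
      (x ∘ Fintype.equivFin ι) = 0 := hx i
  rwa [comp_symm_comp] at h'

end transfer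

section raw

variable {ι : Type} [Fintype ι] [DecidableEq ι] {F : Type*} [Field F]
  (Q : (ι → F) → F) (hQ : Geo.IsNondegenerateQuadraticForm Q)

/-- a non-degenerate quadratic form given as a function, as a quadratic form -/
def toQF : QuadraticForm F (ι → F) :=
  QuadraticMap.ofPolar Q (fun a x => by rw [hQ.smul, pow_two, smul_eq_mul])
    hQ.polar_bilinear.add_left (fun a x y => hQ.polar_bilinear.smul_left a x y)

theorem toQF_coe : ⇑(toQF Q hQ) = Q := rfl

theorem toQF_nondeg : (QuadraticMap.polarBilin (toQF Q hQ)).Nondegenerate := by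
  refine ⟨fun x hx => ?_, fun y hy => ?_⟩
  · by_contra h0
    obtain ⟨y, hy⟩ := (hQ.nondegenerate x h0).2
    exact hy (hx y)
  · by_contra h0
    obtain ⟨x, hx⟩ := (hQ.nondegenerate y h0).1
    exact hx (hy x)

end raw

section planeA

variable {ι : Type} [Fintype ι] [DecidableEq ι] {F : Type*} [Field F] [Fintype F]
  (Q : QuadraticForm F (ι → F)) (hQ : (QuadraticMap.polarBilin Q).Nondegenerate)

local notation "Bp" => QuadraticMap.polar (DFunLike.coe Q)

/-- the product of two reflections as an element of the general linear group -/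
noncomputable def rr (a b : ι → F) (ha : Q a ≠ 0) (hb : Q b ≠ 0) :
    Matrix.GeneralLinearGroup ι F :=
  ((reflG Q a ha * reflG Q b hb : ↥(Cfsg.isometryGroup F (⇑Q))) : Matrix.GeneralLinearGroup ι F)

include hQ in
theorem rr_mem (hex : Fintype.card F ≠ 2 ∨ Fintype.card ι ≠ 4) {a b : ι → F} (ha : Q a ≠ 0)
    (hb : Q b ≠ 0) (hs : IsSquare (Q a * Q b)) : rr Q a b ha hb ∈ Geo.omegaGL (⇑Q) :=
  Subgroup.mem_map.mpr ⟨_, refl_pair_mem_omega Q hQ hex ha hb hs, rfl⟩

omit [Fintype F] in
theorem rr_mulVec {a b : ι → F} (ha : Q a ≠ 0) (hb : Q b ≠ 0) (x : ι → F) :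
    ((rr Q a b ha hb : Matrix.GeneralLinearGroup ι F) : Matrix ι ι F) *ᵥ x =
      (x - ((Q b)⁻¹ * Bp b x) • b) - ((Q a)⁻¹ * Bp a (x - ((Q b)⁻¹ * Bp b x) • b)) • a := by
  have e : ((rr Q a b ha hb : Matrix.GeneralLinearGroup ι F) : Matrix ι ι F)
      = Cfsg.reflectionMatrix (⇑Q) a * Cfsg.reflectionMatrix (⇑Q) b := rfl
  rw [e, ← Matrix.mulVec_mulVec, refl_mulVec, refl_mulVec]

omit [Fintype F] in
theorem omega_isom {g : Matrix.GeneralLinearGroup ι F} (hg : g ∈ Geo.omegaGL (⇑Q)) (x : ι → F) :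
    Q ((g : Matrix ι ι F) *ᵥ x) = Q x := by
  obtain ⟨g', -, rfl⟩ := Subgroup.mem_map.mp hg
  exact isomG_map Q g' x

omit [Fintype F] in
theorem ginj (g : Matrix.GeneralLinearGroup ι F) {x y : ι → F}
    (h : (g : Matrix ι ι F) *ᵥ x = (g : Matrix ι ι F) *ᵥ y) : x = y := by
  have h1 := congrArg (fun z => ((g⁻¹ : Matrix.GeneralLinearGroup ι F) : Matrix ι ι F) *ᵥ z) h
  simpa [Matrix.mulVec_mulVec, ← Units.val_mul] using h1

omit [Fintype F] in
/-- an element scaling `v` stabilises the line through `v` -/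
theorem line_stab (g : Matrix.GeneralLinearGroup ι F) (v : ι → F) (x : F) (hx : x ≠ 0)
    (h : (g : Matrix ι ι F) *ᵥ v = x • v) :
    g ∈ Geo.subspaceStabilizer (Submodule.span F {v}) := by
  intro z
  show z ∈ Submodule.span F {v} ↔ (g : Matrix ι ι F) *ᵥ z ∈ Submodule.span F {v}
  constructor
  · intro hz
    obtain ⟨l, rfl⟩ := Submodule.mem_span_singleton.mp hz
    rw [Matrix.mulVec_smul, h, smul_smul]
    exact Submodule.smul_mem _ _ (Submodule.mem_span_singleton_self v)
  · intro hz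
    obtain ⟨μ, hμ⟩ := Submodule.mem_span_singleton.mp hz
    have e : z = (μ * x⁻¹) • v := by
      apply ginj g
      rw [Matrix.mulVec_smul, h, smul_smul, mul_assoc, inv_mul_cancel₀ hx, mul_one, hμ]
    rw [e]
    exact Submodule.smul_mem _ _ (Submodule.mem_span_singleton_self v)

include hQ in
/-- The stabiliser in Ω of a plus-type plane over a field with at most three elements is not
maximal: it fixes the non-singular point of the plane spanned by the sum of a hyperbolic pair. -/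
theorem plane_not_max (hq : Fintype.card F ≤ 3) (hn : 9 ≤ Fintype.card ι)
    (W : Submodule F (ι → F)) (hdim : Module.finrank F W = 2)
    (hW : Geo.IsNondegenerateOn (QuadraticMap.polar (⇑Q)) W) (hplus : Geo.IsPlusTypeOn (⇑Q) W) :
    ∃ K : Subgroup (Matrix.GeneralLinearGroup ι F),
      Geo.subspaceStabilizer W ⊓ Geo.omegaGL (⇑Q) < K ∧ K < Geo.omegaGL (⇑Q) := by
  classical
  have hadd : ∀ x y : ι → F, Q (x + y) = Q x + Q y + Bp x y := fun x y =>
    QuadraticMap.map_add (⇑Q) x y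
  have hBxx : ∀ x : ι → F, Bp x x = 2 * Q x := fun x => by
    rw [QuadraticMap.polar_self]
    simp
  have hBc : ∀ x y : ι → F, Bp x y = Bp y x := fun x y => QuadraticMap.polar_comm _ x y
  have hBl : ∀ x y : ι → F, Bp x y = QuadraticMap.polarBilin Q x y := fun _ _ => rfl
  have hcard2 : 2 ≤ Fintype.card F := Fintype.one_lt_card
  have hsq : ∀ x : F, x ≠ 0 → x * x = 1 := by
    intro x hx
    have h := FiniteField.pow_card_sub_one_eq_one x hx
    have h23 : Fintype.card F = 2 ∨ Fintype.card F = 3 := by omega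
    rcases h23 with h' | h'
    · rw [h'] at h
      have : x = 1 := by simpa using h
      rw [this, mul_one]
    · rw [h'] at h
      have : x ^ 2 = 1 := by simpa using h
      rw [← pow_two]
      exact this
  have hex : Fintype.card F ≠ 2 ∨ Fintype.card ι ≠ 4 := Or.inr (by omega)
  -- a hyperbolic pair spanning `W`
  obtain ⟨U, hUW, hUts, hUdim⟩ := hplus
  obtain ⟨⟨e, heU⟩, he0'⟩ := Module.finrank_pos_iff_exists_ne_zero.mp
    (by omega : 0 < Module.finrank F U)
  have he0 : e ≠ 0 := fun h => he0' (Subtype.ext h)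
  have heW : e ∈ W := hUW heU
  have hQe : Q e = 0 := hUts e heU
  have hBee : Bp e e = 0 := by rw [hBxx, hQe, mul_zero]
  obtain ⟨f₀, hf₀W, hef₀⟩ := (hW e heW he0).2
  obtain ⟨f₁, hf₁⟩ : ∃ f₁, f₁ = (Bp e f₀)⁻¹ • f₀ := ⟨_, rfl⟩
  have hf₁W : f₁ ∈ W := by
    rw [hf₁]
    exact W.smul_mem _ hf₀W
  have hef₁ : Bp e f₁ = 1 := by
    rw [hf₁, hBl, map_smul, smul_eq_mul, ← hBl, inv_mul_cancel₀ hef₀]
  obtain ⟨f, hf⟩ : ∃ f, f = f₁ - Q f₁ • e := ⟨_, rfl⟩
  have hfW : f ∈ W := by
    rw [hf]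
    exact W.sub_mem hf₁W (W.smul_mem _ heW)
  have hQf : Q f = 0 := by
    rw [hf, Cfsg.Agent.Lib.Helper16.quad_sub_smul, hQe, hef₁]
    ring
  have hef : Bp e f = 1 := by
    rw [hf, hBl, map_sub, map_smul, ← hBl, ← hBl, hef₁, hBee, smul_zero, sub_zero]
  have hfe : Bp f e = 1 := by rw [hBc, hef]
  have hBff : Bp f f = 0 := by rw [hBxx, hQf, mul_zero]
  have hspan : ∀ w ∈ W, ∃ x y : F, w = x • e + y • f := by
    have hli : LinearIndependent F ![e, f] := by
      rw [LinearIndependent.pair_iff]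
      intro s t hst
      have h1 := congrArg (fun z => Bp e z) hst
      simp only [hBl, map_add, map_smul, smul_eq_mul, map_zero] at h1
      rw [← hBl, ← hBl, hBee, hef] at h1
      have ht : t = 0 := by simpa using h1
      rw [ht, zero_smul, add_zero] at hst
      exact ⟨(smul_eq_zero.mp hst).resolve_right he0, ht⟩
    have hle : Submodule.span F (Set.range ![e, f]) ≤ W := by
      rw [Submodule.span_le]
      rintro _ ⟨i, rfl⟩
      fin_cases i
      · exact heW
      · exact hfW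
    have hfr : Module.finrank F (Submodule.span F (Set.range ![e, f])) = 2 := by
      rw [finrank_span_eq_card hli]
      simp
    have heq := Submodule.eq_of_le_of_finrank_eq hle (by rw [hfr, hdim])
    intro w hw
    rw [← heq, Matrix.range_cons_cons_empty, Submodule.mem_span_pair] at hw
    obtain ⟨x, y, rfl⟩ := hw
    exact ⟨x, y, rfl⟩
  have hperp0 : ∀ z : ι → F, z ∈ W → Bp e z = 0 → Bp f z = 0 → z = 0 := by
    intro z hz h1 h2
    obtain ⟨x, y, rfl⟩ := hspan z hz
    simp only [hBl, map_add, map_smul, smul_eq_mul] at h1 h2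
    rw [← hBl, ← hBl] at h1 h2
    rw [hBee, hef] at h1
    rw [hfe, hBff] at h2
    have hy : y = 0 := by simpa using h1
    have hx : x = 0 := by simpa using h2
    rw [hx, hy, zero_smul, zero_smul, add_zero]
  obtain ⟨v, hv⟩ : ∃ v, v = e + f := ⟨_, rfl⟩
  have hvW : v ∈ W := by
    rw [hv]
    exact W.add_mem heW hfW
  have hQv : Q v = 1 := by rw [hv, hadd, hQe, hQf, hef]; ring
  -- auxiliary vectors orthogonal to the plane
  obtain ⟨b, c, hQb, heb, hfb, hc0, hQc, hec, hfc⟩ : ∃ b c : ι → F, Q b = -1 ∧ Bp e b = 0 ∧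
      Bp f b = 0 ∧ c ≠ 0 ∧ Q c = 0 ∧ Bp e c = 0 ∧ Bp f c = 0 := by
    have h23 : Fintype.card F = 2 ∨ Fintype.card F = 3 := by omega
    rcases h23 with h' | h'
    · -- two elements
      have hF2 : ∀ x : F, x ≠ 0 → x = 1 := by
        intro x hx
        have h := FiniteField.pow_card_sub_one_eq_one x hx
        rw [h'] at h
        simpa using h
      have h11 : (-1 : F) = 1 := hF2 _ (neg_ne_zero.mpr one_ne_zero)
      obtain ⟨b, hb, hbp⟩ := gns Q hQ ![e, f] (by omega)
      have heb : Bp e b = 0 := by simpa using hbp 0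
      have hfb : Bp f b = 0 := by simpa using hbp 1
      obtain ⟨x₀, hx₀, hx₀p⟩ := gperp Q hQ ![e, f] (by omega)
      have hex₀ : Bp e x₀ = 0 := by simpa using hx₀p 0
      have hfx₀ : Bp f x₀ = 0 := by simpa using hx₀p 1
      by_cases hQx₀ : Q x₀ = 0
      · exact ⟨b, x₀, by rw [h11]; exact hF2 _ hb, heb, hfb, hx₀, hQx₀, hex₀, hfx₀⟩
      obtain ⟨t, ht⟩ : ∃ t, Bp x₀ t ≠ 0 := by
        by_contra hcon
        push Not at hcon
        exact hx₀ (hQ.1 _ hcon)
      obtain ⟨y, hy, hyp⟩ := gperp Q hQ ![e, f, x₀, t] (by omega)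
      have hey : Bp e y = 0 := by simpa using hyp 0
      have hfy : Bp f y = 0 := by simpa using hyp 1
      have hx₀y : Bp x₀ y = 0 := by simpa using hyp 2
      have hty : Bp t y = 0 := by simpa using hyp 3
      by_cases hQy : Q y = 0
      · exact ⟨b, y, by rw [h11]; exact hF2 _ hb, heb, hfb, hy, hQy, hey, hfy⟩
      refine ⟨b, x₀ + y, by rw [h11]; exact hF2 _ hb, heb, hfb, ?_, ?_, ?_, ?_⟩
      · intro h0
        have e1 : y = -x₀ := by
          rw [eq_neg_iff_add_eq_zero, add_comm]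
          exact h0
        rw [e1, hBl, map_neg, ← hBl, hBc, neg_eq_zero] at hty
        exact ht hty
      · rw [hadd, hF2 _ hQx₀, hF2 _ hQy, hx₀y, add_zero]
        have : (1 : F) + 1 = 0 := by
          have := h11
          linear_combination -this
        exact this
      · rw [hBl, map_add, ← hBl, ← hBl, hex₀, hey, add_zero]
      · rw [hBl, map_add, ← hBl, ← hBl, hfx₀, hfy, add_zero]
    · -- three elements
      have hodd : Odd (Fintype.card F) := by
        rw [h']
        decide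
      obtain ⟨b, hb, hbp⟩ := grep Q hQ hodd ![e, f] (by omega) (-1)
      obtain ⟨c, hc0, hQc, hcp⟩ := gsing Q hQ hodd ![e, f] (by omega)
      exact ⟨b, c, hb, by simpa using hbp 0, by simpa using hbp 1, hc0, hQc,
        by simpa using hcp 0, by simpa using hcp 1⟩
  have hbe : Bp b e = 0 := by rw [hBc, heb]
  have hbf : Bp b f = 0 := by rw [hBc, hfb]
  have hce : Bp c e = 0 := by rw [hBc, hec]
  have hcf : Bp c f = 0 := by rw [hBc, hfc]
  have hQb0 : Q b ≠ 0 := by
    rw [hQb]
    exact neg_ne_zero.mpr one_ne_zero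
  have hbW : b ∉ W := by
    intro h
    have := hperp0 b h heb hfb
    rw [this, map_zero] at hQb
    exact one_ne_zero (neg_eq_zero.mp hQb.symm)
  have hcW : c ∉ W := fun h => hc0 (hperp0 c h hec hfc)
  have hbv : Bp b v = 0 := by
    rw [hv, hBl, map_add, ← hBl, ← hBl, hbe, hbf, add_zero]
  -- the vector a = e - f + c
  obtain ⟨a, ha⟩ : ∃ a, a = e - f + c := ⟨_, rfl⟩
  have hQa : Q a = -1 := by
    have h1 : Q (e - f) = -1 := by
      have := Cfsg.Agent.Lib.Helper16.quad_sub_smul Q 1 f e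
      rw [one_smul] at this
      rw [this, hQe, hQf, hfe]
      ring
    have h2 : Bp (e - f) c = 0 := by
      rw [hBc, hBl, map_sub, ← hBl, ← hBl, hce, hcf, sub_zero]
    rw [ha, hadd, h1, hQc, h2]
    ring
  have hQa0 : Q a ≠ 0 := by
    rw [hQa]
    exact neg_ne_zero.mpr one_ne_zero
  have hav : Bp a v = 0 := by
    rw [ha, hv]
    simp only [hBl, map_add, map_sub, LinearMap.add_apply, LinearMap.sub_apply]
    simp only [← hBl]
    rw [hBee, hef, hfe, hBff, hce, hcf]
    ring
  have hae : Bp a e = -1 := by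
    rw [ha]
    simp only [hBl, map_add, map_sub, LinearMap.add_apply, LinearMap.sub_apply]
    simp only [← hBl]
    rw [hBee, hfe, hce]
    ring
  have hone : IsSquare ((-1 : F) * -1) := ⟨1, by ring⟩
  -- the element of K outside H
  have hkΩ : rr Q a b hQa0 hQb0 ∈ Geo.omegaGL (⇑Q) :=
    rr_mem Q hQ hex hQa0 hQb0 (by rw [hQa, hQb]; exact hone)
  have hkv : ((rr Q a b hQa0 hQb0 : Matrix.GeneralLinearGroup ι F) : Matrix ι ι F) *ᵥ v = v := by
    rw [rr_mulVec, hbv, mul_zero, zero_smul, sub_zero, hav, mul_zero, zero_smul, sub_zero]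
  have hke : ((rr Q a b hQa0 hQb0 : Matrix.GeneralLinearGroup ι F) : Matrix ι ι F) *ᵥ e
      = f - c := by
    rw [rr_mulVec, hbe, mul_zero, zero_smul, sub_zero, hae, hQa, ha]
    have : ((-1 : F))⁻¹ * -1 = 1 := by norm_num
    rw [this, one_smul]
    abel
  -- the element of Ω outside K
  have hQeb : Q (e + b) = -1 := by rw [hadd, hQe, hQb, heb]; ring
  have hQeb0 : Q (e + b) ≠ 0 := by
    rw [hQeb]
    exact neg_ne_zero.mpr one_ne_zero
  have hωΩ : rr Q (e + b) b hQeb0 hQb0 ∈ Geo.omegaGL (⇑Q) :=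
    rr_mem Q hQ hex hQeb0 hQb0 (by rw [hQeb, hQb]; exact hone)
  have hωv : ((rr Q (e + b) b hQeb0 hQb0 : Matrix.GeneralLinearGroup ι F) : Matrix ι ι F) *ᵥ v
      = v + (e + b) := by
    have h1 : Bp (e + b) v = 1 := by
      rw [hv]
      simp only [hBl, map_add, LinearMap.add_apply]
      simp only [← hBl]
      rw [hBee, hef, hbe, hbf]
      ring
    rw [rr_mulVec, hbv, mul_zero, zero_smul, sub_zero, h1, hQeb]
    have : ((-1 : F))⁻¹ * 1 = -1 := by norm_num
    rw [this, neg_smul, one_smul, sub_neg_eq_add]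
  refine ⟨Geo.subspaceStabilizer (Submodule.span F {v}) ⊓ Geo.omegaGL (⇑Q), ?_, ?_⟩
  · refine lt_of_le_of_ne ?_ ?_
    · rintro g ⟨hgW, hgΩ⟩
      refine ⟨?_, hgΩ⟩
      have hgv : (g : Matrix ι ι F) *ᵥ v ∈ W := (hgW v).mp hvW
      obtain ⟨x, y, hxy⟩ := hspan _ hgv
      have hQ1 : Q ((g : Matrix ι ι F) *ᵥ v) = 1 := by
        rw [omega_isom Q hgΩ]
        exact hQv
      have hxy1 : x * y = 1 := by
        rw [hxy, hadd, QuadraticMap.map_smul, QuadraticMap.map_smul, hQe, hQf] at hQ1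
        simp only [hBl, map_smul, LinearMap.smul_apply, smul_eq_mul, mul_zero, zero_add] at hQ1
        rw [← hBl, hef] at hQ1
        linear_combination hQ1
      have hx0 : x ≠ 0 := by
        rintro rfl
        rw [zero_mul] at hxy1
        exact zero_ne_one hxy1
      have hyx : y = x := by
        have h1 := hsq x hx0
        have : x * y = x * x := by rw [hxy1, h1]
        exact mul_left_cancel₀ hx0 this
      apply line_stab g v x hx0
      rw [hxy, hyx, hv, smul_add]
    · intro heq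
      have hk : rr Q a b hQa0 hQb0 ∈ Geo.subspaceStabilizer W ⊓ Geo.omegaGL (⇑Q) := by
        rw [heq]
        exact ⟨line_stab _ v 1 one_ne_zero (by rw [hkv, one_smul]), hkΩ⟩
      have h1 := (hk.1 e).mp heW
      have h2 : ((rr Q a b hQa0 hQb0 : Matrix.GeneralLinearGroup ι F) : Matrix ι ι F) *ᵥ e ∈ W :=
        h1
      rw [hke] at h2
      apply hcW
      have : c = f - (f - c) := by abel
      rw [this]
      exact W.sub_mem hfW h2
  · refine lt_of_le_of_ne inf_le_right ?_
    intro heq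
    have hω : rr Q (e + b) b hQeb0 hQb0 ∈
        Geo.subspaceStabilizer (Submodule.span F {v}) ⊓ Geo.omegaGL (⇑Q) := by
      rw [heq]
      exact hωΩ
    have h1 := (hω.1 v).mp (Submodule.mem_span_singleton_self v)
    have h2 : ((rr Q (e + b) b hQeb0 hQb0 : Matrix.GeneralLinearGroup ι F) : Matrix ι ι F) *ᵥ v
        ∈ Submodule.span F {v} := h1
    rw [hωv] at h2
    obtain ⟨l, hl⟩ := Submodule.mem_span_singleton.mp h2
    apply hbW
    have : b = l • v - v - e := by
      rw [hl]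
      abel
    rw [this]
    exact W.sub_mem (W.sub_mem (W.smul_mem _ hvW) hvW) heW

end planeA

/-- Let F be the field with 3 elements, m ≥ 6, Q the standard quadratic form on F^(2m+1) and Ω the commutator subgroup of its isometry group. Let W be a 2-dimensional subspace on which the polar form is non-degenerate and which contains a line on which Q vanishes. Then the elements of Ω stabilising W form a subgroup that is not maximal: some subgroup lies strictly between it and Ω. -/
theorem result {F : Type*} [Field F] [Fintype F] (hq : Fintype.card F = 3) (m : ℕ) (hm : 6 ≤ m) (W : Submodule F (Unit ⊕ (Fin m ⊕ Fin m) → F)) (hdim : Module.finrank F W = 2) (hW : Cfsg.Geo.IsNondegenerateOn (QuadraticMap.polar (Cfsg.quadFormOdd m F)) W) (hplus : Cfsg.Geo.IsPlusTypeOn (Cfsg.quadFormOdd m F) W) : ∃ K : Subgroup (Matrix.GeneralLinearGroup (Unit ⊕ (Fin m ⊕ Fin m)) F), Cfsg.Geo.subspaceStabilizer W ⊓ Cfsg.Geo.omegaGL (Cfsg.quadFormOdd m F) < K ∧ K < Cfsg.Geo.omegaGL (Cfsg.quadFormOdd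 m F) := by
  have hodd : Odd (Fintype.card F) := by
    rw [hq]
    decide
  have h2 : (2 : F) ≠ 0 := Cfsg.Agent.S5644.two_ne hodd
  exact plane_not_max (qfOdd m F) (qfOdd_nondeg m F h2) (by omega)
    (by simp only [Fintype.card_sum, Fintype.card_unit, Fintype.card_fin]; omega) W hdim hW hplus

end Cfsg.Agent.S5676
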