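import Mathlib
import Cfsg.Statements.S0987
import Cfsg.Agent.Lib.Helper8.SimpleAux
import Cfsg.Agent.Lib.Helper8.NormalAux

set_option autoImplicit false
open Cfsg

namespace Cfsg.Agent.S0987

open Cfsg.Agent.Lib.Helper8 Subgroup

theorem result {G : Type*} [Group G] [Finite G] (p q r : ℕ) (hp : p.Prime) (hq : q.Prime) [Fact r.Prime] (hpq : p < q) (hqr : q < r) (hG : Nat.card G = p * q * r) (R : Sylow r G) : (R : Subgroup G).Normal := by
  classical
  have hr : r.Prime := Fact.out
  haveI : Fact q.Prime := ⟨hq⟩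
  have hp1 := hp.one_lt
  have hq1 := hq.one_lt
  have hG' : Nat.card G = r ^ 1 * (p * q) := by rw [hG]; ring
  have hrpq : ¬ r ∣ p * q := by
    intro h
    rcases (Nat.Prime.dvd_mul hr).1 h with h | h
    · exact absurd (Nat.le_of_dvd hp.pos h) (by omega)
    · exact absurd (Nat.le_of_dvd hq.pos h) (by omega)
  have hRcard : Nat.card (R : Subgroup G) = r := by
    simpa using sylow_card_of_card_eq 1 (p * q) hrpq hG' R
  have hdvd : Nat.card (Sylow r G) ∣ p * q := card_sylow_dvd_of_card_eq 1 (p * q) hrpq hG'
  have hmod : Nat.card (Sylow r G) % r = 1 := card_sylow_mod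
  by_contra hnorm
  have hne1 : Nat.card (Sylow r G) ≠ 1 := fun h => hnorm (sylow_normal_of_card_eq_one R h)
  have hn : Nat.card (Sylow r G) = p * q := by
    obtain ⟨a, b, ha, hb, hab⟩ := (Nat.dvd_mul).1 hdvd
    rcases (Nat.dvd_prime hp).1 ha with rfl | rfl <;> rcases (Nat.dvd_prime hq).1 hb with rfl | rfl
    · exact absurd hab.symm (by simpa using hne1)
    · rw [← hab, one_mul, Nat.mod_eq_of_lt hqr] at hmod
      omega
    · rw [← hab, mul_one, Nat.mod_eq_of_lt (by omega)] at hmod
      omega
    · exact hab.symm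
  have hN : Nat.card (normalizer ((R : Subgroup G) : Set G)) = r := by
    have := card_sylow_mul_card_normalizer R
    rw [hn, hG] at this
    exact Nat.eq_of_mul_eq_mul_left (Nat.mul_pos hp.pos hq.pos) this
  have hNR : (R : Subgroup G) = normalizer ((R : Subgroup G) : Set G) :=
    Subgroup.eq_of_le_of_card_ge le_normalizer (by rw [hN, hRcard])
  haveI : IsCyclic (R : Subgroup G) := isCyclic_of_prime_card hRcard
  have hNC : normalizer ((R : Subgroup G) : Set G) ≤ centralizer ((R : Subgroup G) : Set G) := by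
    rw [← hNR]
    intro x hx
    rw [mem_centralizer_iff]
    intro y hy
    letI := IsCyclic.commGroup (α := (R : Subgroup G))
    exact congrArg Subtype.val (mul_comm (⟨y, hy⟩ : (R : Subgroup G)) ⟨x, hx⟩)
  have hc := MonoidHom.ker_transferSylow_isComplement' R hNC
  haveI hKn : (MonoidHom.transferSylow R hNC).ker.Normal := MonoidHom.normal_ker _
  generalize (MonoidHom.transferSylow R hNC).ker = K at hc hKn
  have hKcard : Nat.card K = p * q := by
    have := hc.card_mul_card
    rw [hRcard, hG] at this
    exact Nat.eq_of_mul_eq_mul_right hr.pos this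
  have hKcard' : Nat.card K = q ^ 1 * p := by rw [hKcard]; ring
  have hqp : ¬ q ∣ p := fun h => absurd (Nat.le_of_dvd hp.pos h) (by omega)
  obtain ⟨Q₀⟩ : Nonempty (Sylow q K) := inferInstance
  have hQ₀card : Nat.card (Q₀ : Subgroup K) = q := by
    simpa using sylow_card_of_card_eq 1 p hqp hKcard' Q₀
  have hnq : Nat.card (Sylow q K) = 1 := by
    have h1 : Nat.card (Sylow q K) ∣ p := card_sylow_dvd_of_card_eq 1 p hqp hKcard'
    have h2 : Nat.card (Sylow q K) % q = 1 := card_sylow_mod
    rcases (Nat.dvd_prime hp).1 h1 with h | h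
    · exact h
    · rw [h, Nat.mod_eq_of_lt hpq] at h2
      omega
  have hQ₀n : (Q₀ : Subgroup K).Normal := sylow_normal_of_card_eq_one Q₀ hnq
  haveI hQn : ((Q₀ : Subgroup K).map K.subtype).Normal := map_sylow_normal_of_normal K Q₀ hQ₀n
  have hQcard : Nat.card ((Q₀ : Subgroup K).map K.subtype) = q := by
    rw [Subgroup.card_map_of_injective K.subtype_injective, hQ₀card]
  generalize (Q₀ : Subgroup K).map K.subtype = Q at hQn hQcard
  haveI : IsCyclic Q := isCyclic_of_prime_card hQcard
  have hAut : Nat.card (MulAut Q) = q - 1 := by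
    rw [IsCyclic.card_mulAut, hQcard, Nat.totient_prime hq]
  have hcent : Q ≤ normalizer ((R : Subgroup G) : Set G) := by
    intro y hy
    apply Subgroup.centralizer_le_normalizer
    rw [mem_centralizer_iff]
    intro x hx
    have hord : orderOf x ∣ r := by
      rw [← hRcard]
      have := orderOf_dvd_natCard (⟨x, hx⟩ : (R : Subgroup G))
      rwa [Subgroup.orderOf_mk] at this
    have hcop : Nat.Coprime (orderOf x) (Nat.card (MulAut Q)) := by
      rw [hAut]
      apply Nat.Coprime.coprime_dvd_left hord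
      rw [Nat.Prime.coprime_iff_not_dvd hr]
      intro h
      have := Nat.le_of_dvd (by omega) h
      omega
    have := conj_eq_of_coprime_card_mulAut Q x hcop y hy
    exact (mul_inv_eq_iff_eq_mul.1 this)
  have h5 := Subgroup.card_dvd_of_le hcent
  rw [hQcard, hN] at h5
  rcases (Nat.dvd_prime hr).1 h5 with h | h
  · omega
  · omega

end Cfsg.Agent.S0987
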