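import Cfsg.Statements.S0019
-- import your own Cfsg.Agent.* helpers here
import Mathlib
import Cfsg.Agent.Lib.Helper21.Basic
import Cfsg.Agent.Lib.Helper24.Solvable

set_option autoImplicit false
open Cfsg

namespace Cfsg.Agent.S0019


universe u

open Cfsg.Agent.Lib.Helper21

/-- Normal closure trick: if `G = H₁ H₂`, `N` is an `r`-subgroup normalized by `H₁` and `r` does
not divide the index of `H₂`, then the normal closure of `N` lies in `H₂`. -/
theorem normalClosure_le_of_factor {G : Type u} [Group G] [Finite G] (H₁ H₂ : Subgroup G)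
    (h12 : ∀ g : G, ∃ x ∈ H₁, ∃ y ∈ H₂, g = x * y) (N : Subgroup G) {r : ℕ} [Fact r.Prime]
    (hN : IsPGroup r N) (hnorm : ∀ h ∈ H₁, ∀ n ∈ N, h * n * h⁻¹ ∈ N) (hr : ¬ r ∣ H₂.index) :
    Subgroup.normalClosure (N : Set G) ≤ H₂ := by
  obtain ⟨P₂⟩ : Nonempty (Sylow r H₂) := inferInstance
  have hP : IsPGroup r ((P₂ : Subgroup H₂).map H₂.subtype) := P₂.isPGroup'.map _
  have hPidx : ¬ r ∣ ((P₂ : Subgroup H₂).map H₂.subtype).index := by
    rw [Subgroup.index_map_subtype]
    intro hdvd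
    rcases (Nat.Prime.dvd_mul Fact.out).mp hdvd with h | h
    · exact P₂.not_dvd_index h
    · exact hr h
  have hPle : (P₂ : Subgroup H₂).map H₂.subtype ≤ H₂ := Subgroup.map_subtype_le _
  obtain ⟨g, hg⟩ := exists_conj_le_of_index hP hN hPidx
  obtain ⟨x, hx, y, hy, rfl⟩ := h12 g
  have hNH₂ : N ≤ H₂ := by
    intro n hn
    have hn' : x * n * x⁻¹ ∈ N := hnorm x hx n hn
    have h1 := hg hn'
    rw [mem_map_conj] at h1
    have h2 : (x * y)⁻¹ * (x * n * x⁻¹) * (x * y) ∈ H₂ := hPle h1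
    have e : n = y * ((x * y)⁻¹ * (x * n * x⁻¹) * (x * y)) * y⁻¹ := by group
    rw [e]
    exact H₂.mul_mem (H₂.mul_mem hy h2) (H₂.inv_mem hy)
  change Subgroup.closure (Group.conjugatesOfSet (N : Set G)) ≤ H₂
  rw [Subgroup.closure_le]
  intro z hz
  rw [Group.mem_conjugatesOfSet_iff] at hz
  obtain ⟨n, hn, hconj⟩ := hz
  obtain ⟨c, hc⟩ := isConj_iff.mp hconj
  obtain ⟨x', hx', y', hy', hc'⟩ := h12 c⁻¹
  have hceq : c = y'⁻¹ * x'⁻¹ := by
    rw [← inv_inv c, hc']; group
  rw [SetLike.mem_coe, ← hc, hceq]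
  have e : y'⁻¹ * x'⁻¹ * n * (y'⁻¹ * x'⁻¹)⁻¹ = y'⁻¹ * (x'⁻¹ * n * x'⁻¹⁻¹) * y' := by group
  rw [e]
  exact H₂.mul_mem (H₂.mul_mem (H₂.inv_mem hy')
    (hNH₂ (hnorm x'⁻¹ (H₁.inv_mem hx') n hn))) hy'

theorem solvable_of_factorizations : ∀ (n : ℕ) (G : Type u) [Group G] [Finite G],
    Nat.card G = n → ∀ (H₁ H₂ H₃ : Subgroup G), Group.IsSolvable H₁ → Group.IsSolvable H₂ →
    Group.IsSolvable H₃ → (∀ g : G, ∃ x ∈ H₁, ∃ y ∈ H₂, g = x * y) →
    (∀ g : G, ∃ x ∈ H₁, ∃ y ∈ H₃, g = x * y) → H₂.index.Coprime H₃.index →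
    Group.IsSolvable G := by
  intro n
  induction n using Nat.strong_induction_on with
  | _ n ih =>
    intro G _ _ hG H₁ H₂ H₃ h₁ h₂ h₃ h12 h13 hcop
    by_cases hH₁ : H₁ = ⊥
    · have htop : H₂ = ⊤ := by
        rw [eq_top_iff]
        intro g _
        obtain ⟨x, hx, y, hy, rfl⟩ := h12 g
        rw [hH₁, Subgroup.mem_bot] at hx
        rw [hx, one_mul]
        exact hy
      subst htop
      exact Group.isSolvable_of_surjective (f := (⊤ : Subgroup G).subtype)
        (fun g => ⟨⟨g, Subgroup.mem_top g⟩, rfl⟩)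
    · haveI : Nontrivial H₁ := (Subgroup.nontrivial_iff_ne_bot H₁).mpr hH₁
      obtain ⟨r, N₀, hr, hN₀n, hN₀ne, hN₀p⟩ :=
        Cfsg.Agent.Lib.Helper24.exists_normal_pGroup_of_solvable h₁
      haveI := Fact.mk hr
      have hNp : IsPGroup r (N₀.map H₁.subtype) := hN₀p.map _
      have hNne : N₀.map H₁.subtype ≠ ⊥ := by
        intro h
        apply hN₀ne
        exact (Subgroup.map_eq_bot_iff_of_injective N₀ H₁.subtype_injective).mp h
      have hnorm : ∀ h ∈ H₁, ∀ n ∈ N₀.map H₁.subtype, h * n * h⁻¹ ∈ N₀.map H₁.subtype := by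
        intro h hh n hn
        obtain ⟨m, hm, rfl⟩ := hn
        exact ⟨⟨h, hh⟩ * m * ⟨h, hh⟩⁻¹, hN₀n.conj_mem m hm ⟨h, hh⟩, rfl⟩
      have key : ∃ M : Subgroup G, M.Normal ∧ M ≠ ⊥ ∧ Group.IsSolvable M := by
        have hle : N₀.map H₁.subtype ≤ Subgroup.normalClosure ((N₀.map H₁.subtype : Subgroup G) : Set G) :=
          Subgroup.le_normalClosure
        have hMne : Subgroup.normalClosure ((N₀.map H₁.subtype : Subgroup G) : Set G) ≠ ⊥ :=
          fun h => hNne (le_bot_iff.mp (h ▸ hle))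
        by_cases hr2 : r ∣ H₂.index
        · have hr3 : ¬ r ∣ H₃.index := by
            intro hr3
            exact hr.one_lt.ne' (Nat.eq_one_of_dvd_coprimes hcop hr2 hr3)
          have hM := normalClosure_le_of_factor H₁ H₃ h13 _ hNp hnorm hr3
          exact ⟨_, Subgroup.normalClosure_normal, hMne,
            Group.isSolvable_of_isSolvable_injective (Subgroup.inclusion_injective hM)⟩
        · have hM := normalClosure_le_of_factor H₁ H₂ h12 _ hNp hnorm hr2
          exact ⟨_, Subgroup.normalClosure_normal, hMne,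
            Group.isSolvable_of_isSolvable_injective (Subgroup.inclusion_injective hM)⟩
      obtain ⟨M, hMn, hMne, hMs⟩ := key
      have hcard : Nat.card G = Nat.card (G ⧸ M) * Nat.card M :=
        Subgroup.card_eq_card_quotient_mul_card_subgroup M
      have hM1 : 1 < Nat.card M := (Subgroup.one_lt_card_iff_ne_bot M).mpr hMne
      have hsurj : Function.Surjective (QuotientGroup.mk' M) := QuotientGroup.mk'_surjective M
      have hQ : Group.IsSolvable (G ⧸ M) := by
        refine ih (Nat.card (G ⧸ M)) ?_ (G ⧸ M) rfl (H₁.map (QuotientGroup.mk' M))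
          (H₂.map (QuotientGroup.mk' M)) (H₃.map (QuotientGroup.mk' M)) ?_ ?_ ?_ ?_ ?_ ?_
        · rw [← hG, hcard]
          have : 0 < Nat.card (G ⧸ M) := Nat.card_pos
          nlinarith
        · exact Group.isSolvable_of_surjective
            (MonoidHom.subgroupMap_surjective (QuotientGroup.mk' M) H₁)
        · exact Group.isSolvable_of_surjective
            (MonoidHom.subgroupMap_surjective (QuotientGroup.mk' M) H₂)
        · exact Group.isSolvable_of_surjective
            (MonoidHom.subgroupMap_surjective (QuotientGroup.mk' M) H₃)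
        · intro q
          obtain ⟨g, rfl⟩ := hsurj q
          obtain ⟨x, hx, y, hy, rfl⟩ := h12 g
          exact ⟨_, Subgroup.mem_map_of_mem _ hx, _, Subgroup.mem_map_of_mem _ hy, map_mul _ x y⟩
        · intro q
          obtain ⟨g, rfl⟩ := hsurj q
          obtain ⟨x, hx, y, hy, rfl⟩ := h13 g
          exact ⟨_, Subgroup.mem_map_of_mem _ hx, _, Subgroup.mem_map_of_mem _ hy, map_mul _ x y⟩
        · exact Nat.Coprime.coprime_dvd_left (Subgroup.index_map_dvd H₂ hsurj)
            (Nat.Coprime.coprime_dvd_right (Subgroup.index_map_dvd H₃ hsurj) hcop)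
      exact Group.isSolvable_of_ker_le_range M.subtype (QuotientGroup.mk' M) (by simp)


/-- A finite group that factorises as H₁H₂ and as H₁H₃ with all three subgroups solvable and the indices of H₂ and H₃ coprime is solvable. -/
theorem result {G : Type*} [Group G] [Finite G] (H₁ H₂ H₃ : Subgroup G)
    (h₁ : Group.IsSolvable H₁) (h₂ : Group.IsSolvable H₂) (h₃ : Group.IsSolvable H₃)
    (h12 : ∀ g : G, ∃ x ∈ H₁, ∃ y ∈ H₂, g = x * y) (h13 : ∀ g : G, ∃ x ∈ H₁, ∃ y ∈ H₃, g = x * y)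
    (hcop : H₂.index.Coprime H₃.index) : Group.IsSolvable G := by
  exact solvable_of_factorizations _ G rfl H₁ H₂ H₃ h₁ h₂ h₃ h12 h13 hcop

end Cfsg.Agent.S0019
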