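import Cfsg.Statements.S0006
-- import your own Cfsg.Agent.* helpers here
import Mathlib
import Cfsg.Agent.S0019
import Cfsg.Agent.Lib.Helper2.CharBurnside
import Cfsg.Agent.Lib.Helper23.Coprime

set_option autoImplicit false
open Cfsg

namespace Cfsg.Agent.S0006


universe u

theorem relIndex_eq_index_of_coprime {G : Type u} [Group G] [Finite G] (A B : Subgroup G)
    (hcop : A.index.Coprime B.index) : A.relIndex B = A.index := by
  have e1 : A.relIndex B * B.index = (A ⊓ B).index := by
    rw [← Subgroup.inf_relIndex_right, Subgroup.relIndex_mul_index inf_le_right]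
  have e2 : B.relIndex A * A.index = (A ⊓ B).index := by
    rw [← Subgroup.inf_relIndex_left, Subgroup.relIndex_mul_index inf_le_left]
  have hdvd : A.index ∣ A.relIndex B := by
    apply Nat.Coprime.dvd_of_dvd_mul_right hcop
    rw [e1, ← e2]
    exact dvd_mul_left _ _
  have hne : A.relIndex B ≠ 0 := by
    intro h0
    have : (A.subgroupOf B).index = 0 := h0
    exact Subgroup.index_ne_zero_of_finite this
  have hle : A.index ≤ A.relIndex B := Nat.le_of_dvd (Nat.pos_of_ne_zero hne) hdvd
  have hne' : A.relIndex ⊤ ≠ 0 := by
    rw [Subgroup.relIndex_top_right]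
    exact Subgroup.index_ne_zero_of_finite
  have hle' : A.relIndex B ≤ A.relIndex ⊤ := Subgroup.relIndex_le_of_le_right le_top hne'
  rw [Subgroup.relIndex_top_right] at hle'
  exact le_antisymm hle' hle

theorem factorization_of_card_mul {m a n q : ℕ} (hq : q.Prime) (hm : m ≠ 0)
    (h : m * q ^ a = n) (r : ℕ) :
    n.factorization r = m.factorization r + (if r = q then a else 0) := by
  rw [← h, Nat.factorization_mul hm (pow_ne_zero _ hq.ne_zero), Nat.Prime.factorization_pow hq]
  simp only [Finsupp.coe_add, Pi.add_apply, Finsupp.single_apply]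
  by_cases hrq : r = q
  · subst hrq; simp
  · rw [if_neg hrq, if_neg (fun h => hrq h.symm)]

theorem hall_converse : ∀ (n : ℕ) (G : Type u) [Group G] [Finite G], Nat.card G = n →
    (∀ p : ℕ, p.Prime → ∃ H : Subgroup G, H.index = p ^ (Nat.card G).factorization p) →
    Group.IsSolvable G := by
  intro n
  induction n using Nat.strong_induction_on with
  | _ n ih =>
    intro G _ _ hG h
    classical
    have hG0 : Nat.card G ≠ 0 := Nat.card_pos.ne'
    by_cases h3 : 2 < (Nat.card G).primeFactors.card
    · obtain ⟨p₁, hp₁, p₂, hp₂, p₃, hp₃, h12, h13, h23⟩ := Finset.two_lt_card.mp h3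
      have hsolv : ∀ (p : ℕ) (K : Subgroup G), p ∈ (Nat.card G).primeFactors →
          K.index = p ^ (Nat.card G).factorization p → Group.IsSolvable K := by
        intro p K hpm hK
        have hp : p.Prime := Nat.prime_of_mem_primeFactors hpm
        have hpd : p ∣ Nat.card G := Nat.dvd_of_mem_primeFactors hpm
        have hKcard : Nat.card K * p ^ (Nat.card G).factorization p = Nat.card G := by
          rw [← hK]; exact K.card_mul_index
        have hK0 : Nat.card K ≠ 0 := Nat.card_pos.ne'
        refine ih (Nat.card K) ?_ K rfl ?_
        · rw [← hG, ← hKcard]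
          have hpos : 0 < (Nat.card G).factorization p :=
            hp.factorization_pos_of_dvd hG0 hpd
          have h1 : 1 < p ^ (Nat.card G).factorization p := Nat.one_lt_pow hpos.ne' hp.one_lt
          have h2 : 0 < Nat.card K := Nat.card_pos
          nlinarith
        · intro q hq
          by_cases hqp : q = p
          · subst hqp
            refine ⟨⊤, ?_⟩
            have h4 := factorization_of_card_mul hq hK0 hKcard q
            rw [if_pos rfl] at h4
            have h5 : (Nat.card K).factorization q = 0 := by omega
            rw [Subgroup.index_top, h5, pow_zero]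
          · obtain ⟨L, hL⟩ := h q hq
            refine ⟨L.subgroupOf K, ?_⟩
            have h4 := factorization_of_card_mul hp hK0 hKcard q
            rw [if_neg hqp, add_zero] at h4
            have hcop : L.index.Coprime K.index := by
              rw [hL, hK]
              exact Nat.Coprime.pow _ _ ((Nat.coprime_primes hq hp).mpr hqp)
            have h6 : (L.subgroupOf K).index = L.relIndex K := rfl
            rw [h6, relIndex_eq_index_of_coprime L K hcop, hL, h4]
      obtain ⟨K₁, hK₁⟩ := h p₁ (Nat.prime_of_mem_primeFactors hp₁)
      obtain ⟨K₂, hK₂⟩ := h p₂ (Nat.prime_of_mem_primeFactors hp₂)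
      obtain ⟨K₃, hK₃⟩ := h p₃ (Nat.prime_of_mem_primeFactors hp₃)
      have hcop : ∀ (p q : ℕ) (K L : Subgroup G), p ∈ (Nat.card G).primeFactors →
          q ∈ (Nat.card G).primeFactors → p ≠ q →
          K.index = p ^ (Nat.card G).factorization p →
          L.index = q ^ (Nat.card G).factorization q → K.index.Coprime L.index := by
        intro p q K L hp hq hpq hK hL
        rw [hK, hL]
        exact Nat.Coprime.pow _ _ ((Nat.coprime_primes (Nat.prime_of_mem_primeFactors hp)
          (Nat.prime_of_mem_primeFactors hq)).mpr hpq)
      refine Cfsg.Agent.S0019.solvable_of_factorizations _ G rfl K₁ K₂ K₃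
        (hsolv p₁ K₁ hp₁ hK₁) (hsolv p₂ K₂ hp₂ hK₂) (hsolv p₃ K₃ hp₃ hK₃) ?_ ?_
        (hcop p₂ p₃ K₂ K₃ hp₂ hp₃ h23 hK₂ hK₃)
      · intro g
        exact Cfsg.Agent.Lib.Helper23.exists_mul_of_coprime_index K₂ K₁
          (hcop p₂ p₁ K₂ K₁ hp₂ hp₁ (Ne.symm h12) hK₂ hK₁) g
      · intro g
        exact Cfsg.Agent.Lib.Helper23.exists_mul_of_coprime_index K₃ K₁
          (hcop p₃ p₁ K₃ K₁ hp₃ hp₁ (Ne.symm h13) hK₃ hK₁) g
    · have hcard : (Nat.card G).primeFactors.card ≤ 2 := by omega
      have hmem : ∀ r : ℕ, r.Prime → r ∣ Nat.card G → r ∈ (Nat.card G).primeFactors :=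
        fun r hr hrd => Nat.mem_primeFactors.mpr ⟨hr, hrd, hG0⟩
      have key : ∃ p q : ℕ, p.Prime ∧ q.Prime ∧
          ∀ r : ℕ, r.Prime → r ∣ Nat.card G → r = p ∨ r = q := by
        rcases Nat.lt_or_ge (Nat.card G).primeFactors.card 1 with h0 | h1
        · have hempty : (Nat.card G).primeFactors = ∅ := Finset.card_eq_zero.mp (by omega)
          refine ⟨2, 3, Nat.prime_two, Nat.prime_three, ?_⟩
          intro r hr hrd
          have := hmem r hr hrd
          rw [hempty] at this
          exact absurd this (Finset.notMem_empty r)
        · rcases Nat.lt_or_ge (Nat.card G).primeFactors.card 2 with h1' | h2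
          · obtain ⟨a, ha⟩ := Finset.card_eq_one.mp (by omega : (Nat.card G).primeFactors.card = 1)
            have hap : a.Prime := Nat.prime_of_mem_primeFactors (by rw [ha]; exact Finset.mem_singleton_self a)
            refine ⟨a, a, hap, hap, ?_⟩
            intro r hr hrd
            have := hmem r hr hrd
            rw [ha, Finset.mem_singleton] at this
            exact Or.inl this
          · obtain ⟨a, b, hab, hS⟩ := Finset.card_eq_two.mp (by omega : (Nat.card G).primeFactors.card = 2)
            have hap : a.Prime := Nat.prime_of_mem_primeFactors (by rw [hS]; simp)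
            have hbp : b.Prime := Nat.prime_of_mem_primeFactors (by rw [hS]; simp)
            refine ⟨a, b, hap, hbp, ?_⟩
            intro r hr hrd
            have := hmem r hr hrd
            rw [hS, Finset.mem_insert, Finset.mem_singleton] at this
            exact this
      obtain ⟨p, q, hp, hq, hpq⟩ := key
      exact Cfsg.Agent.Lib.Helper2.solvable_of_two_primes p q hp hq (Nat.card G) G rfl hpq


/-- Converse of Hall's Theorem: if for every prime p a finite group has a subgroup of index equal to the p-part of the group order (a Hall p-complement), then the group is solvable. -/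
theorem result {G : Type*} [Group G] [Finite G]
    (h : ∀ p : ℕ, p.Prime → ∃ H : Subgroup G, H.index = p ^ (Nat.card G).factorization p) :
    Group.IsSolvable G := by
  exact hall_converse _ G rfl h

end Cfsg.Agent.S0006
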