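import Cfsg.Statements.S0040
-- import your own Cfsg.Agent.* helpers here
import Mathlib
import Cfsg.Agent.Lib.Lead.FrobComplement

set_option autoImplicit false
open Cfsg

namespace Cfsg.Agent.S0040

/-- Sylow subgroups of Frobenius complements: if H complements a nontrivial normal subgroup K and every nonidentity element of H has trivial centraliser in K, then each Sylow subgroup of H is cyclic or isomorphic to a generalized quaternion group. -/
theorem result {G : Type*} [Group G] [Finite G] (K H : Subgroup G) [K.Normal]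
    (hc : Subgroup.IsComplement' K H) (hK : K ≠ ⊥) (hfpf : ∀ h ∈ H, h ≠ 1 → K ⊓ Subgroup.centralizer {h} = ⊥)
    (p : ℕ) [Fact p.Prime] (P : Sylow p H) :
    IsCyclic P ∨ ∃ n : ℕ, Nonempty (P ≃* QuaternionGroup (2 ^ n)) := by
  classical
  have hPp : IsPGroup p (P : Subgroup H) := P.isPGroup'
  have hU' : Cfsg.Agent.Lib.Lead.UniqP p ((P : Subgroup H).map H.subtype) :=
    Cfsg.Agent.Lib.Lead.fpf_pgroup_uniq K hK p _ (hPp.map _)
      (fun h hh hh1 => hfpf h (Subgroup.map_subtype_le _ hh) hh1)
  have hU : Cfsg.Agent.Lib.Lead.UniqP p (P : Subgroup H) :=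
    Cfsg.Agent.Lib.Lead.uniqP_of_mulEquiv
      ((P : Subgroup H).equivMapOfInjective H.subtype H.subtype_injective).symm hU'
  rcases Cfsg.Agent.Lib.Lead.uniqP_cyclic_or_quaternion p hPp hU with h | ⟨_, n, hn⟩
  · exact Or.inl h
  · exact Or.inr ⟨n, hn⟩

end Cfsg.Agent.S0040
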