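import Cfsg.Statements.S0068
-- import your own Cfsg.Agent.* helpers here
import Mathlib

set_option autoImplicit false
open Cfsg

namespace Cfsg.Agent.S0068

/-- Frobenius complements of even order: if H complements a nontrivial normal subgroup K, each nonidentity element of H has trivial centraliser in K, and H has even order, then H contains a unique involution s, K is abelian, and s inverts every element of K. -/
theorem result {G : Type*} [Group G] [Finite G] (K H : Subgroup G) [K.Normal]
    (hc : Subgroup.IsComplement' K H) (hK : K ≠ ⊥) (hfpf : ∀ h ∈ H, h ≠ 1 → K ⊓ Subgroup.centralizer {h} = ⊥)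
    (heven : 2 ∣ Nat.card H) :
    (∃ s ∈ H, orderOf s = 2 ∧ (∀ t ∈ H, orderOf t = 2 → t = s) ∧ ∀ k ∈ K, s * k * s⁻¹ = k⁻¹) ∧ IsMulCommutative K := by
  classical
  have : Fact (Nat.Prime 2) := ⟨Nat.prime_two⟩
  obtain ⟨s0, hs0⟩ := exists_prime_orderOf_dvd_card' (G := H) 2 heven
  have hsH : (s0 : G) ∈ H := s0.2
  have hso : orderOf (s0 : G) = 2 := by rw [Subgroup.orderOf_coe]; exact hs0
  generalize (s0 : G) = s at hsH hso
  have key : ∀ t ∈ H, orderOf t = 2 →
      (∀ k ∈ K, t * k * t⁻¹ = k⁻¹) ∧ ∀ a b : K, a * b = b * a := by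
    intro t htH hto
    have ht1 : t ≠ 1 := by rintro rfl; simp at hto
    have htsq : t * t = 1 := by rw [← sq, ← hto]; exact pow_orderOf_eq_one t
    have htinv : t⁻¹ = t := inv_eq_of_mul_eq_one_left htsq
    have hfpf' : MonoidHom.FixedPointFree (MulAut.conjNormal t : MulAut K) := by
      intro k hk
      have hk' : t * (k : G) * t⁻¹ = k := by
        have := congrArg Subtype.val hk
        rwa [MulAut.conjNormal_apply] at this
      have hmem : (k : G) ∈ K ⊓ Subgroup.centralizer {t} := by
        refine Subgroup.mem_inf.mpr ⟨k.2, ?_⟩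
        rw [Subgroup.mem_centralizer_iff]
        intro h hh
        rw [Set.mem_singleton_iff] at hh
        subst hh
        have := congrArg (fun x => x * h) hk'
        simpa [mul_assoc] using this
      rw [hfpf t htH ht1, Subgroup.mem_bot] at hmem
      exact Subtype.ext hmem
    have hinv : Function.Involutive (MulAut.conjNormal t : MulAut K) := by
      intro k
      apply Subtype.ext
      simp only [MulAut.conjNormal_apply]
      rw [htinv]
      calc t * (t * (k : G) * t) * t = (t * t) * k * (t * t) := by group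
        _ = k := by rw [htsq]; simp
    have h1 := hfpf'.coe_eq_inv_of_involutive hinv
    refine ⟨?_, fun a b => (hfpf'.commute_all_of_involutive hinv a b).eq⟩
    intro k hk
    have h2 := congrFun h1 ⟨k, hk⟩
    have h3 := congrArg Subtype.val h2
    simpa [MulAut.conjNormal_apply] using h3
  obtain ⟨hsinv, hcomm⟩ := key s hsH hso
  refine ⟨⟨s, hsH, hso, ?_, hsinv⟩, ⟨⟨hcomm⟩⟩⟩
  intro t htH hto
  obtain ⟨htinv, -⟩ := key t htH hto
  by_contra hne
  have hst1 : s * t⁻¹ ≠ 1 := by
    intro h
    exact hne (mul_inv_eq_one.mp h).symm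
  have hstH : s * t⁻¹ ∈ H := H.mul_mem hsH (H.inv_mem htH)
  have hbot := hfpf (s * t⁻¹) hstH hst1
  apply hK
  rw [eq_bot_iff, ← hbot]
  intro k hk
  refine Subgroup.mem_inf.mpr ⟨hk, ?_⟩
  rw [Subgroup.mem_centralizer_iff]
  intro h hh
  rw [Set.mem_singleton_iff] at hh
  subst hh
  have hk' : t⁻¹ * k * t ∈ K := by simpa using ‹K.Normal›.conj_mem k hk t⁻¹
  have e1 : t⁻¹ * k * t = k⁻¹ := by
    have := htinv _ hk'
    have h5 : t * (t⁻¹ * k * t) * t⁻¹ = k := by group
    rw [h5] at this
    exact inv_eq_iff_eq_inv.mp this.symm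
  have e2 := hsinv _ (K.inv_mem hk)
  rw [inv_inv] at e2
  calc s * t⁻¹ * k = s * (t⁻¹ * k * t) * s⁻¹ * (s * t⁻¹) := by group
    _ = s * k⁻¹ * s⁻¹ * (s * t⁻¹) := by rw [e1]
    _ = k * (s * t⁻¹) := by rw [e2]

end Cfsg.Agent.S0068
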