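import Cfsg.Statements.S0069
-- import your own Cfsg.Agent.* helpers here
import Mathlib
import Cfsg.Agent.Lib.Lead.FrobComplement
import Cfsg.Agent.Lib.Lead.FpfCenter
import Cfsg.Agent.S0040
import Cfsg.Agent.S0068

set_option autoImplicit false
open Cfsg

namespace Cfsg.Agent.S0069

/-- A Frobenius complement has nontrivial centre: if H ≠ 1 complements a nontrivial normal subgroup K and every nonidentity element of H has trivial centraliser in K, then the centre of H is nontrivial. -/
theorem result {G : Type*} [Group G] [Finite G] (K H : Subgroup G) [K.Normal]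
    (hc : Subgroup.IsComplement' K H) (hK : K ≠ ⊥) (hH : H ≠ ⊥) (hfpf : ∀ h ∈ H, h ≠ 1 → K ⊓ Subgroup.centralizer {h} = ⊥) :
    Subgroup.center H ≠ ⊥ := by
  classical
  by_cases heven : 2 ∣ Nat.card H
  · obtain ⟨⟨s, hsH, hso, hsuniq, _⟩, _⟩ := Cfsg.Agent.S0068.result K H hc hK hfpf heven
    intro hbot
    have hs1 : s ≠ 1 := by
      rintro rfl
      simp at hso
    have hs2 : s ^ 2 = 1 := by rw [← hso]; exact pow_orderOf_eq_one s
    have : Fact (Nat.Prime 2) := ⟨Nat.prime_two⟩
    have hmem : (⟨s, hsH⟩ : H) ∈ Subgroup.center H := by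
      rw [Subgroup.mem_center_iff]
      intro g
      apply Subtype.ext
      show (g : G) * s = s * g
      have h1 : (g : G) * s * (g : G)⁻¹ = s := by
        apply hsuniq _ (H.mul_mem (H.mul_mem g.2 hsH) (H.inv_mem g.2))
        apply orderOf_eq_prime
        · rw [conj_pow, hs2]; group
        · intro h2
          apply hs1
          have e : s = (g : G)⁻¹ * ((g : G) * s * (g : G)⁻¹) * g := by group
          rw [e, h2]; group
      calc (g : G) * s = g * s * (g : G)⁻¹ * g := by group
        _ = s * g := by rw [h1]
    rw [hbot, Subgroup.mem_bot] at hmem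
    exact hs1 (congrArg Subtype.val hmem)
  · have hZ : IsZGroup H := by
      refine ⟨fun p hp P => ?_⟩
      have : Fact p.Prime := ⟨hp⟩
      rcases Cfsg.Agent.S0040.result K H hc hK hfpf p P with h | ⟨n, ⟨e⟩⟩
      · exact h
      · exfalso
        apply heven
        have h1 : Nat.card P = 4 * 2 ^ n := by
          rw [Nat.card_congr e.toEquiv, Nat.card_eq_fintype_card, QuaternionGroup.card]
        have h2 : Nat.card P ∣ Nat.card H := Subgroup.card_subgroup_dvd_card _
        rw [h1] at h2
        exact (Dvd.intro (2 * 2 ^ n) (by ring) : 2 ∣ 4 * 2 ^ n).trans h2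
    have hHnt : Nontrivial H := (Subgroup.nontrivial_iff_ne_bot H).mpr hH
    have hcop : (Nat.card H).Coprime (Nat.card K) := by
      apply Nat.coprime_of_dvd'
      intro p hp hpH hpK
      exfalso
      have : Fact p.Prime := ⟨hp⟩
      have hPne : ((default : Sylow p H) : Subgroup H) ≠ ⊥ :=
        (default : Sylow p H).ne_bot_of_dvd_card hpH
      refine Cfsg.Agent.Lib.Lead.not_dvd_card_of_fpf K p
        (((default : Sylow p H) : Subgroup H).map H.subtype)
        ((default : Sylow p H).isPGroup'.map _) ?_ ?_ hpK
      · intro h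
        exact hPne ((Subgroup.map_eq_bot_iff_of_injective _ H.subtype_injective).mp h)
      · intro h hh hh1
        exact hfpf h (Subgroup.map_subtype_le _ hh) hh1
    have hsolv : Group.IsSolvable H := inferInstance
    obtain ⟨V, hVK, hV, hHV, hVc⟩ :=
      Cfsg.Agent.Lib.Lead.exists_invariant_abelian H K hK hcop (Or.inl hsolv)
    let _ : CommGroup V :=
      { (inferInstance : Group V) with mul_comm := fun x y => Subtype.ext (hVc x x.2 y y.2) }
    let _ : MulDistribMulAction H V :=
      MulDistribMulAction.compHom V (V.normalizerMonoidHom.comp (Subgroup.inclusion hHV))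
    have hsmul : ∀ (a : H) (v : V), ((a • v : V) : G) = a * v * (a : G)⁻¹ := fun a v => rfl
    have hact : Cfsg.Agent.Lib.Lead.FpfAct H V := by
      intro a ha v hv
      have h1 : (v : G) ∈ K ⊓ Subgroup.centralizer {(a : G)} := by
        refine ⟨hVK v.2, ?_⟩
        change (v : G) ∈ Subgroup.centralizer {(a : G)}
        rw [Subgroup.mem_centralizer_iff]
        intro b hb
        rw [Set.mem_singleton_iff] at hb
        subst hb
        have h2 := congrArg Subtype.val hv
        rw [hsmul] at h2
        calc (a : G) * (v : G) = (a : G) * v * (a : G)⁻¹ * a := by group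
          _ = (v : G) * a := by rw [h2]
      rw [hfpf a a.2 (fun h1 => ha (Subtype.ext h1))] at h1
      exact Subtype.ext (Subgroup.mem_bot.mp h1)
    have : Nontrivial V := (Subgroup.nontrivial_iff_ne_bot V).mpr hV
    obtain ⟨y, hy1, hyc⟩ := Cfsg.Agent.Lib.Lead.fpf_exists_central_of_zgroup hact
    intro hbot
    have hmem : y ∈ Subgroup.center H := Subgroup.mem_center_iff.mpr hyc
    rw [hbot, Subgroup.mem_bot] at hmem
    exact hy1 hmem

end Cfsg.Agent.S0069
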