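import Cfsg.Statements.S0092
import Cfsg.Agent.Lib.Helper1.PRes
import Cfsg.Agent.Lib.Helper1.SZ
import Cfsg.Agent.Lib.Helper1.Averaging
import Cfsg.Agent.Lib.Helper1.Basic

set_option autoImplicit false
open Cfsg

namespace Cfsg.Agent.S0092

open Cfsg.Agent.Lib.Helper1
open scoped commutatorElement
open Pointwise
set_option linter.style.haveILetI false

theorem exists_complement_rel {G : Type*} [Group G] [Finite G] (M L : Subgroup G) (hML : M ≤ L)
    (hLn : L ≤ Subgroup.normalizer (M : Set G)) (hcop : (Nat.card M).Coprime (M.relIndex L)) :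
    ∃ H : Subgroup G, H ≤ L ∧ M ⊓ H = ⊥ ∧ Nat.card H = M.relIndex L ∧
      ∀ l ∈ L, ∃ a ∈ M, ∃ h ∈ H, l = a * h := by
  haveI : (M.subgroupOf L).Normal := (Subgroup.normal_subgroupOf_iff_le_normalizer hML).mpr hLn
  have hc1 : Nat.card (M.subgroupOf L) = Nat.card M :=
    Nat.card_congr (Subgroup.subgroupOfEquivOfLe hML).toEquiv
  obtain ⟨H', hH'⟩ := Subgroup.exists_right_complement'_of_coprime
    (N := M.subgroupOf L) (by rw [hc1]; exact hcop)
  refine ⟨H'.map L.subtype, Subgroup.map_subtype_le H', ?_, ?_, ?_⟩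
  · rw [eq_bot_iff]
    rintro x ⟨hxM, y, hy, rfl⟩
    have : y ∈ M.subgroupOf L ⊓ H' := ⟨Subgroup.mem_subgroupOf.mpr hxM, hy⟩
    rw [IsComplement'.inf_eq_bot hH', Subgroup.mem_bot] at this
    rw [Subgroup.mem_bot, this]; rfl
  · rw [Subgroup.card_map_of_injective L.subtype_injective, ← hH'.symm.index_eq_card]
    rfl
  · intro l hl
    obtain ⟨a, ha, h, hh, hxe⟩ := IsComplement'.exists_mul hH' (⟨l, hl⟩ : L)
    exact ⟨a, Subgroup.mem_subgroupOf.mp ha, h, ⟨h, hh, rfl⟩, congrArg Subtype.val hxe⟩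

theorem pResidual_self_eq_top {G : Type*} [Group G] (p : ℕ) :
    Cfsg.pResidual p (Cfsg.pResidual p G) = ⊤ := by
  have h1 : Cfsg.pResidual p G ≤
      (Cfsg.pResidual p (Cfsg.pResidual p G)).map (Cfsg.pResidual p G).subtype := by
    have h0 : Subgroup.closure {g : G | Nat.Coprime (orderOf g) p} ≤
        (Cfsg.pResidual p (Cfsg.pResidual p G)).map (Cfsg.pResidual p G).subtype := by
      rw [Subgroup.closure_le]
      intro g hg
      have hgK : g ∈ Cfsg.pResidual p G := Subgroup.subset_closure hg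
      refine ⟨⟨g, hgK⟩, ?_, rfl⟩
      apply Subgroup.subset_closure
      show Nat.Coprime (orderOf (⟨g, hgK⟩ : Cfsg.pResidual p G)) p
      rw [Subgroup.orderOf_mk]
      exact hg
    exact h0
  rw [eq_top_iff]
  intro x _
  obtain ⟨y, hy, hyx⟩ := h1 x.2
  have : y = x := Subtype.ext hyx
  rw [← this]; exact hy

/-- If the Sylow p-subgroups of O^p(G) are abelian then G splits over O^p(G). -/
theorem result {G : Type*} [Group G] [Finite G] {p : ℕ} [Fact p.Prime] (h : ∀ Q : Sylow p (Cfsg.pResidual p G), IsMulCommutative Q) : ∃ K : Subgroup G, K.IsComplement' (Cfsg.pResidual p G) := by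
  have hp : p.Prime := Fact.out
  haveI hKn : (Cfsg.pResidual p G).Normal := pResidual_normal p
  obtain ⟨Q₀⟩ : Nonempty (Sylow p (Cfsg.pResidual p G)) := inferInstance
  haveI := h Q₀
  have hfoc := sylow_inf_pResidual Q₀
  rw [pResidual_self_eq_top, inf_top_eq] at hfoc
  have hfoc' : (Q₀ : Subgroup (Cfsg.pResidual p G)) = ⁅(Q₀ : Subgroup (Cfsg.pResidual p G)),
      Subgroup.normalizer ((Q₀ : Subgroup (Cfsg.pResidual p G)) : Set (Cfsg.pResidual p G))⁆ :=
    hfoc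
  obtain ⟨Q, hQdef⟩ : ∃ Q : Subgroup G,
    Q = (Q₀ : Subgroup (Cfsg.pResidual p G)).map (Cfsg.pResidual p G).subtype := ⟨_, rfl⟩
  have hQK : Q ≤ Cfsg.pResidual p G := hQdef ▸ Subgroup.map_subtype_le _
  have hQab : ∀ a ∈ Q, ∀ b ∈ Q, a * b = b * a := by
    rw [hQdef]
    rintro a ⟨a', ha', rfl⟩ b ⟨b', hb', rfl⟩
    have h0 := mul_comm' (⟨a', ha'⟩ : Q₀) ⟨b', hb'⟩
    have h1 : a' * b' = b' * a' := congrArg Subtype.val h0
    rw [← map_mul, ← map_mul, h1]
  haveI hQc : IsMulCommutative Q := ⟨⟨fun a b => Subtype.ext (hQab a a.2 b b.2)⟩⟩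
  have hQp : IsPGroup p Q := by rw [hQdef]; exact Q₀.2.map _
  obtain ⟨N, hNdef⟩ : ∃ N : Subgroup G,
    N = Subgroup.normalizer (Q : Set G) ⊓ Cfsg.pResidual p G := ⟨_, rfl⟩
  have hQN : Q ≤ N := hNdef ▸ le_inf Subgroup.le_normalizer hQK
  have hNnQ : N ≤ Subgroup.normalizer (Q : Set G) := hNdef ▸ inf_le_left
  have hNK : N ≤ Cfsg.pResidual p G := hNdef ▸ inf_le_right
  -- Key fact 1
  have hkey1 : Q ≤ ⁅Q, N⁆ := by
    have h2 : (Subgroup.normalizer ((Q₀ : Subgroup (Cfsg.pResidual p G)) :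
        Set (Cfsg.pResidual p G))).map (Cfsg.pResidual p G).subtype ≤ N := by
      rw [hNdef]
      refine le_inf ?_ (Subgroup.map_subtype_le _)
      rw [hQdef]
      exact Subgroup.le_normalizer_map _
    have h1 : Q = ⁅Q, (Subgroup.normalizer ((Q₀ : Subgroup (Cfsg.pResidual p G)) :
        Set (Cfsg.pResidual p G))).map (Cfsg.pResidual p G).subtype⁆ := by
      rw [hQdef, ← Subgroup.map_commutator, ← hfoc']
    calc Q = _ := h1
      _ ≤ ⁅Q, N⁆ := Subgroup.commutator_mono le_rfl h2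
  -- Q is a normal Hall subgroup of N
  have hrel : ¬ p ∣ Q.relIndex N := by
    intro hdvd
    have h1 : Q.relIndex N ∣ Q.relIndex (Cfsg.pResidual p G) :=
      Dvd.intro _ (Subgroup.relIndex_mul_relIndex Q N (Cfsg.pResidual p G) hQN hNK)
    have h2 : Q.relIndex (Cfsg.pResidual p G) = (Q₀ : Subgroup (Cfsg.pResidual p G)).index := by
      rw [hQdef]
      show ((Subgroup.map (Cfsg.pResidual p G).subtype
        (Q₀ : Subgroup (Cfsg.pResidual p G))).comap (Cfsg.pResidual p G).subtype).index = _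
      rw [Subgroup.comap_map_eq_self_of_injective (Subgroup.subtype_injective _)]
    exact Q₀.not_dvd_index (h2 ▸ dvd_trans hdvd h1)
  obtain ⟨n, hn⟩ := IsPGroup.iff_card.mp hQp
  have hcop : (Nat.card Q).Coprime (Q.relIndex N) := by
    rw [hn]
    exact Nat.Coprime.pow_left _ ((Nat.Prime.coprime_iff_not_dvd hp).mpr hrel)
  obtain ⟨B, hBN, hQB, hBcard, hNmul⟩ := exists_complement_rel Q N hQN hNnQ hcop
  have hBnQ : B ≤ Subgroup.normalizer (Q : Set G) := hBN.trans hNnQ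
  have hBK : B ≤ Cfsg.pResidual p G := hBN.trans hNK
  have hBp : (Nat.card B).Coprime p := by
    rw [hBcard]; exact ((Nat.Prime.coprime_iff_not_dvd hp).mpr hrel).symm
  have hcopBQ : (Nat.card B).Coprime (Nat.card Q) := by
    rw [hn]; exact Nat.Coprime.pow_right _ hBp
  have hcomm : ⁅Q, N⁆ ≤ ⁅Q, B⁆ := by
    rw [Subgroup.commutator_le]
    intro x hx n' hn'
    obtain ⟨q, hq, b, hb, rfl⟩ := hNmul n' hn'
    have hxb : x * b * x⁻¹ * b⁻¹ ∈ Q := by
      have h1 : b * x⁻¹ * b⁻¹ ∈ Q :=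
        (Subgroup.mem_normalizer_iff.mp (hBnQ hb) x⁻¹).mp (Q.inv_mem hx)
      have : x * b * x⁻¹ * b⁻¹ = x * (b * x⁻¹ * b⁻¹) := by group
      rw [this]; exact Q.mul_mem hx h1
    have h2 : ⁅x, q * b⁆ = ⁅x, b⁆ := by
      rw [commutatorElement_def, commutatorElement_def]
      have e1 : x * (q * b) * x⁻¹ * (q * b)⁻¹ = (x * q) * b * x⁻¹ * b⁻¹ * q⁻¹ := by group
      rw [e1, hQab x hx q hq]
      have e2 : q * x * b * x⁻¹ * b⁻¹ * q⁻¹ = q * (x * b * x⁻¹ * b⁻¹) * q⁻¹ := by group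
      rw [e2, hQab q hq _ hxb]
      group
    rw [h2]
    exact Subgroup.commutator_mem_commutator hx hb
  have hCQB : Q ⊓ Subgroup.centralizer (B : Set G) = ⊥ := by
    have h1 := coprime_abelian_inf_commutator B Q hBnQ hcopBQ
    rw [eq_bot_iff, ← h1]
    exact le_inf le_rfl (inf_le_left.trans (hkey1.trans hcomm))
  -- Frattini
  have hfrat : Subgroup.normalizer (Q : Set G) ⊔ Cfsg.pResidual p G = ⊤ := by
    rw [hQdef]
    exact Sylow.normalizer_sup_eq_top Q₀
  haveI : Group.IsSolvable Q := isSolvable_of_isMulCommutative Q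
  have hNle : N ≤ Q ⊔ B := by
    intro x hx
    obtain ⟨q, hq, b, hb, rfl⟩ := hNmul x hx
    exact Subgroup.mul_mem _ (Subgroup.mem_sup_left hq) (Subgroup.mem_sup_right hb)
  obtain ⟨L, hLdef⟩ : ∃ L : Subgroup G,
    L = Subgroup.normalizer (B : Set G) ⊓ Subgroup.normalizer (Q : Set G) := ⟨_, rfl⟩
  have hstep : ∀ m ∈ Subgroup.normalizer (Q : Set G), ∃ k ∈ Q, k⁻¹ * m ∈ L := by
    intro m hm
    have hle : MulAut.conj m • B ≤ Q ⊔ B := by
      intro y hy
      rw [mem_conj_smul_iff] at hy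
      apply hNle
      rw [hNdef]
      have hy1 : m⁻¹ * y * m ∈ Subgroup.normalizer (Q : Set G) := hBnQ hy
      have hy2 : m⁻¹ * y * m ∈ Cfsg.pResidual p G := hBK hy
      have e : y = m * (m⁻¹ * y * m) * m⁻¹ := by group
      rw [e]
      exact ⟨Subgroup.mul_mem _ (Subgroup.mul_mem _ hm hy1) (Subgroup.inv_mem _ hm),
        hKn.conj_mem _ hy2 m⟩
    obtain ⟨k, hk, hkm⟩ := sz_conj_rel B Q hBnQ hcopBQ (Or.inr inferInstance) (MulAut.conj m • B)
      hle (card_conj_smul m B)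
    refine ⟨k, hk, ?_⟩
    rw [hLdef]
    refine ⟨?_, Subgroup.mul_mem _ (Subgroup.inv_mem _ (Subgroup.le_normalizer hk)) hm⟩
    apply mem_normalizer_of_conj_smul_eq
    rw [conj_mul_smul, ← hkm, ← conj_mul_smul, inv_mul_cancel, map_one, one_smul]
  have hBL : B ≤ L := hLdef ▸ le_inf Subgroup.le_normalizer hBnQ
  have hLnB : L ≤ Subgroup.normalizer (B : Set G) := hLdef ▸ inf_le_left
  have hLnQ : L ≤ Subgroup.normalizer (Q : Set G) := hLdef ▸ inf_le_right
  have hLK : L ⊓ Cfsg.pResidual p G ≤ B := by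
    rintro x ⟨hxL, hxK⟩
    have hxN : x ∈ N := by rw [hNdef]; exact ⟨hLnQ hxL, hxK⟩
    obtain ⟨q, hq, b, hb, rfl⟩ := hNmul x hxN
    have hqnB : q ∈ Subgroup.normalizer (B : Set G) := by
      have e : q = (q * b) * b⁻¹ := by group
      rw [e]
      exact Subgroup.mul_mem _ (hLnB hxL) (Subgroup.inv_mem _ (Subgroup.le_normalizer hb))
    have hqC : q ∈ Q ⊓ Subgroup.centralizer (B : Set G) := by
      refine ⟨hq, ?_⟩
      show q ∈ Subgroup.centralizer (B : Set G)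
      rw [Subgroup.mem_centralizer_iff]
      intro b' hb'
      have h1 : q * b' * q⁻¹ * b'⁻¹ ∈ B := by
        have := (Subgroup.mem_normalizer_iff.mp hqnB b').mp hb'
        exact B.mul_mem this (B.inv_mem hb')
      have h2 : q * b' * q⁻¹ * b'⁻¹ ∈ Q := by
        have h3 : b' * q⁻¹ * b'⁻¹ ∈ Q :=
          (Subgroup.mem_normalizer_iff.mp (hBnQ hb') q⁻¹).mp (Q.inv_mem hq)
        have e : q * b' * q⁻¹ * b'⁻¹ = q * (b' * q⁻¹ * b'⁻¹) := by group
        rw [e]; exact Q.mul_mem hq h3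
      have h4 : q * b' * q⁻¹ * b'⁻¹ ∈ Q ⊓ B := ⟨h2, h1⟩
      rw [hQB, Subgroup.mem_bot] at h4
      have e : b' * q = (q * b' * q⁻¹ * b'⁻¹)⁻¹ * (q * b') := by group
      rw [e, h4, inv_one, one_mul]
    rw [hCQB, Subgroup.mem_bot] at hqC
    rw [hqC, one_mul]
    exact hb
  -- B is a normal Hall subgroup of L
  haveI hBLn : (B.subgroupOf L).Normal :=
    (Subgroup.normal_subgroupOf_iff_le_normalizer hBL).mpr hLnB
  have hquot : IsPGroup p (L ⧸ B.subgroupOf L) := by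
    intro x
    obtain ⟨l, rfl⟩ := QuotientGroup.mk'_surjective (B.subgroupOf L) x
    obtain ⟨k, hk⟩ := exists_pow_mem_pResidual p (l : G)
    refine ⟨k, ?_⟩
    rw [← map_pow]
    apply (QuotientGroup.eq_one_iff _).mpr
    rw [Subgroup.mem_subgroupOf]
    apply hLK
    rw [Subgroup.coe_pow]
    exact ⟨L.pow_mem l.2 _, hk⟩
  obtain ⟨j, hj⟩ := IsPGroup.iff_card.mp hquot
  have hrelB : B.relIndex L = p ^ j := by
    rw [Subgroup.relIndex, Subgroup.index_eq_card, hj]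
  have hcop' : (Nat.card B).Coprime (B.relIndex L) := by
    rw [hrelB]; exact Nat.Coprime.pow_right _ hBp
  obtain ⟨X, hXL, hBX, hXcard, hLmul⟩ := exists_complement_rel B L hBL hLnB hcop'
  refine ⟨X, ?_⟩
  apply isComplement'_of_disjoint_of_mul
  · rw [eq_bot_iff, ← hBX]
    intro x hx
    exact ⟨hLK ⟨hXL hx.1, hx.2⟩, hx.1⟩
  · intro g
    have hg : g ∈ ((Subgroup.normalizer (Q : Set G) ⊔ Cfsg.pResidual p G : Subgroup G) : Set G) := by
      rw [hfrat]; trivial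
    rw [Subgroup.mul_normal] at hg
    obtain ⟨m, hm, k₁, hk₁, rfl⟩ := hg
    obtain ⟨k, hk, hl⟩ := hstep m hm
    obtain ⟨b, hb, x, hx, hlx⟩ := hLmul _ hl
    refine ⟨x, hx, x⁻¹ * (k * b) * x * k₁, ?_, ?_⟩
    · refine Subgroup.mul_mem _ ?_ hk₁
      have := hKn.conj_mem (k * b) (Subgroup.mul_mem _ (hQK hk) (hBK hb)) x⁻¹
      rwa [inv_inv] at this
    · have e : m = k * (k⁻¹ * m) := by group
      rw [e, hlx]
      group

end Cfsg.Agent.S0092
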