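import Mathlib
import Cfsg.Statements.S0112
import Cfsg.Agent.Lib.Helper21.PGroupMore

set_option autoImplicit false
open Cfsg

namespace Cfsg.Agent.S0112

open scoped commutatorElement

universe u

/-- Induction on the order: a self-centralizing subgroup of order `p ^ 2` forces maximal class. -/
theorem aux {p : ℕ} [hp : Fact p.Prime] : ∀ (n : ℕ) (X : Type u) [Group X] [Finite X],
    Nat.card X = p ^ n → ∀ A : Subgroup X, Nat.card A = p ^ 2 →
    Subgroup.centralizer (A : Set X) = A → Group.nilpotencyClass X = n - 1 := by
  intro n
  induction n with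
  | zero =>
    intro X _ _ hX A hA hC
    exfalso
    have h1 := Subgroup.card_le_card_group A
    rw [hA, hX, pow_zero] at h1
    have h2 : 1 < p ^ 2 := Nat.one_lt_pow (by norm_num) hp.out.one_lt
    omega
  | succ n ih =>
    intro X _ _ hX A hA hC
    have hXp : IsPGroup p X := IsPGroup.of_card hX
    have : Group.IsNilpotent X := hXp.isNilpotent
    have hAdvd : p ^ 2 ∣ p ^ (n + 1) := by
      rw [← hA, ← hX]; exact Subgroup.card_subgroup_dvd_card A
    have hn1 : 2 ≤ n + 1 := (Nat.pow_dvd_pow_iff_le_right hp.out.one_lt).mp hAdvd
    have : Nontrivial X := by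
      rw [← Finite.one_lt_card_iff_nontrivial, hX]
      exact Nat.one_lt_pow (by omega) hp.out.one_lt
    rw [Group.nilpotencyClass_eq_quotient_center_plus_one]
    have hZA : Subgroup.center X ≤ A := by
      rw [← hC]; exact Subgroup.center_le_centralizer _
    have hAtop_iff : A = ⊤ → n + 1 = 2 := by
      intro h
      have h1 : Nat.card A = Nat.card X := by rw [h, Subgroup.card_top]
      rw [hA, hX] at h1
      exact (Nat.pow_right_injective hp.out.two_le h1).symm
    by_cases hn2 : n + 1 = 2
    · have hAtop : A = ⊤ := Subgroup.eq_top_of_card_eq A (by rw [hA, hX, hn2])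
      have hZtop : Subgroup.center X = ⊤ := by
        rw [hAtop, Subgroup.coe_top, Subgroup.centralizer_univ] at hC
        exact hC
      have hsub : Subsingleton (X ⧸ Subgroup.center X) := by
        rw [hZtop]; exact QuotientGroup.subsingleton_quotient_top
      rw [Group.nilpotencyClass_zero_iff_subsingleton.mpr hsub]
      omega
    · have hn3 : 3 ≤ n + 1 := by omega
      obtain ⟨Z, hZ⟩ : ∃ Z, Z = Subgroup.center X := ⟨_, rfl⟩
      rw [← hZ] at hZA
      have hZne : Z ≠ ⊥ := by rw [hZ]; exact (hXp.bot_lt_center).ne'
      have hZneA : Z ≠ A := by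
        intro h
        have h1 : Subgroup.centralizer (A : Set X) = ⊤ := by
          rw [← h, hZ]; exact Subgroup.centralizer_eq_top_iff_subset.mpr le_rfl
        rw [hC] at h1
        exact hn2 (hAtop_iff h1)
      have hZcard : Nat.card Z = p := by
        have hdvd : Nat.card Z ∣ p ^ 2 := by rw [← hA]; exact Subgroup.card_dvd_of_le hZA
        obtain ⟨j, hj, hjc⟩ := (Nat.dvd_prime_pow hp.out).mp hdvd
        interval_cases j
        · exfalso; apply hZne; rw [← Subgroup.card_eq_one]; simpa using hjc
        · simpa using hjc
        · exfalso; apply hZneA; exact Subgroup.eq_of_le_of_card_ge hZA (by rw [hjc, hA])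
      have hZcen : ∀ z ∈ Z, ∀ g : X, g * z = z * g := by
        intro z hz g
        rw [hZ] at hz
        exact Subgroup.mem_center_iff.mp hz g
      have hAlt : A < ⊤ := by
        rw [lt_top_iff_ne_top]; intro h; exact hn2 (hAtop_iff h)
      have hAN : A < Subgroup.normalizer (A : Set X) :=
        Group.normalizerCondition_of_isNilpotent A hAlt
      have hNcard : p ^ 3 ≤ Nat.card (Subgroup.normalizer (A : Set X)) := by
        obtain ⟨m, hm⟩ := IsPGroup.iff_card.mp (hXp.to_subgroup (Subgroup.normalizer (A : Set X)))
        rw [hm]
        apply Nat.pow_le_pow_right hp.out.pos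
        by_contra hlt
        have hm2 : m ≤ 2 := by omega
        have : Nat.card (Subgroup.normalizer (A : Set X)) ≤ Nat.card A := by
          rw [hm, hA]; exact Nat.pow_le_pow_right hp.out.pos hm2
        exact hAN.ne (Subgroup.eq_of_le_of_card_ge hAN.le this)
      obtain ⟨B, hAB, hBN, hBcard⟩ := Cfsg.Agent.Lib.Helper21.exists_between_card
        (hXp.to_subgroup _) hAN.le hA (by norm_num : 2 ≤ 3) hNcard
      have hZB : Z ≤ B := hZA.trans hAB
      have hZn : Z.Normal := by rw [hZ]; infer_instance
      have hBbar : Nat.card (B.map (QuotientGroup.mk' Z)) = p ^ 2 := by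
        have h1 : Z.relIndex B = Nat.card (B.map (QuotientGroup.mk' Z)) := by
          have := Subgroup.relIndex_ker (QuotientGroup.mk' Z) (K := B)
          rwa [QuotientGroup.ker_mk'] at this
        have h2 := Subgroup.index_mul_card (Z.subgroupOf B)
        have h3 : Nat.card (Z.subgroupOf B) = Nat.card Z :=
          Nat.card_congr (Subgroup.subgroupOfEquivOfLe hZB).toEquiv
        rw [h3, hZcard, hBcard] at h2
        rw [← h1]
        have h4 : Z.relIndex B * p = p ^ 2 * p := by
          rw [← pow_succ]; exact h2
        exact Nat.eq_of_mul_eq_mul_right hp.out.pos h4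
      have hQcard : Nat.card (X ⧸ Z) = p ^ n := by
        have h1 := Subgroup.card_eq_card_quotient_mul_card_subgroup Z
        rw [hX, hZcard, pow_succ] at h1
        exact (Nat.eq_of_mul_eq_mul_right hp.out.pos h1).symm
      -- an element of `A` outside `Z`
      obtain ⟨a, haA, haZ⟩ : ∃ a ∈ A, a ∉ Z := by
        by_contra hall
        push Not at hall
        exact hZneA (le_antisymm hZA hall)
      have hcenta : Subgroup.centralizer ({a} : Set X) ≤ A := by
        intro y hy
        have hy' : a * y = y * a := Subgroup.mem_centralizer_singleton_iff.mp hy |>.symm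
        have hAeq : Z ⊔ Subgroup.zpowers a = A := by
          have hle : Z ⊔ Subgroup.zpowers a ≤ A := sup_le hZA (Subgroup.zpowers_le.mpr haA)
          apply Subgroup.eq_of_le_of_card_ge hle
          have hdvd : Nat.card (Z ⊔ Subgroup.zpowers a : Subgroup X) ∣ p ^ 2 := by
            rw [← hA]; exact Subgroup.card_dvd_of_le hle
          obtain ⟨j, hj, hjc⟩ := (Nat.dvd_prime_pow hp.out).mp hdvd
          have hZle : Z ≤ Z ⊔ Subgroup.zpowers a := le_sup_left
          interval_cases j
          · exfalso
            have h5 := Subgroup.card_le_of_le hZle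
            rw [hjc, hZcard, pow_zero] at h5
            have h6 := hp.out.one_lt
            omega
          · exfalso
            have : Z = Z ⊔ Subgroup.zpowers a :=
              Subgroup.eq_of_le_of_card_ge hZle (by rw [hjc, hZcard, pow_one])
            apply haZ
            rw [this]
            exact Subgroup.mem_sup_right (Subgroup.mem_zpowers a)
          · rw [hjc, hA]
        rw [← hC, ← hAeq]
        have hle2 : Z ⊔ Subgroup.zpowers a ≤ Subgroup.centralizer ({y} : Set X) := by
          apply sup_le
          · intro z hz
            exact Subgroup.mem_centralizer_singleton_iff.mpr (hZcen z hz y).symm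
          · rw [Subgroup.zpowers_le]
            exact Subgroup.mem_centralizer_singleton_iff.mpr hy'
        rw [Subgroup.mem_centralizer_iff]
        intro h hh
        exact (Subgroup.mem_centralizer_singleton_iff.mp (hle2 hh))
      obtain ⟨M, hM⟩ : ∃ M, M = (Subgroup.centralizer
          ((B.map (QuotientGroup.mk' Z) : Subgroup (X ⧸ Z)) : Set (X ⧸ Z))).comap
          (QuotientGroup.mk' Z) := ⟨_, rfl⟩
      have hBcomm : IsMulCommutative (B.map (QuotientGroup.mk' Z)) :=
        IsPGroup.isMulCommutative_of_card_eq_prime_sq hBbar
      have hBle : B.map (QuotientGroup.mk' Z) ≤ Subgroup.centralizer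
          ((B.map (QuotientGroup.mk' Z) : Subgroup (X ⧸ Z)) : Set (X ⧸ Z)) :=
        Subgroup.le_centralizer_iff_isMulCommutative.mpr hBcomm
      have hBM : B ≤ M := by
        intro b hb
        rw [hM, Subgroup.mem_comap]
        exact hBle (Subgroup.mem_map_of_mem _ hb)
      have hMcomm : ∀ y ∈ M, ⁅y, a⁆ ∈ Z := by
        intro y hy
        rw [hM, Subgroup.mem_comap] at hy
        have h1 := Subgroup.mem_centralizer_iff.mp hy (QuotientGroup.mk' Z a)
          (Subgroup.mem_map_of_mem _ (hAB haA))
        rw [← QuotientGroup.ker_mk' Z, MonoidHom.mem_ker, commutatorElement_def]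
        simp only [map_mul, map_inv]
        rw [← h1]; group
      let φ : M →* Z :=
        { toFun := fun y => ⟨⁅(y : X), a⁆, hMcomm y y.2⟩
          map_one' := by
            apply Subtype.ext
            simp [commutatorElement_def]
          map_mul' := by
            intro y y'
            apply Subtype.ext
            have h1 := hZcen _ (hMcomm y' y'.2) (y : X)
            have h2 := hZcen _ (hMcomm y' y'.2) ⁅(y : X), a⁆
            show ⁅(y : X) * (y' : X), a⁆ = ⁅(y : X), a⁆ * ⁅(y' : X), a⁆
            have e : ⁅(y : X) * (y' : X), a⁆ = (y : X) * ⁅(y' : X), a⁆ * (y : X)⁻¹ * ⁅(y : X), a⁆ := by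
              simp only [commutatorElement_def]; group
            rw [e, h1, mul_inv_cancel_right, h2] }
      have hker : ∀ k : φ.ker, ((k : M) : X) ∈ A := by
        intro k
        apply hcenta
        have h1 : φ (k : M) = 1 := k.2
        have h2 : ⁅((k : M) : X), a⁆ = 1 := congrArg Subtype.val h1
        rw [commutatorElement_eq_one_iff_mul_comm] at h2
        exact Subgroup.mem_centralizer_singleton_iff.mpr h2
      have hMcard : Nat.card M ≤ p ^ 3 := by
        have h1 := Subgroup.card_mul_index φ.ker
        rw [Subgroup.index_ker] at h1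
        have h2 : Nat.card φ.range ≤ p := by
          rw [← hZcard]; exact Subgroup.card_le_card_group _
        have h3 : Nat.card φ.ker ≤ p ^ 2 := by
          rw [← hA]
          exact Nat.card_le_card_of_injective (fun k : φ.ker => (⟨((k : M) : X), hker k⟩ : A))
            (by
              intro k k' h
              apply Subtype.ext
              apply Subtype.ext
              exact congrArg (fun t : A => (t : X)) h)
        calc Nat.card M = Nat.card φ.ker * Nat.card φ.range := h1.symm
          _ ≤ p ^ 2 * p := Nat.mul_le_mul h3 h2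
          _ = p ^ 3 := by ring
      have hMB : B = M := Subgroup.eq_of_le_of_card_ge hBM (by rw [hBcard]; exact hMcard)
      have hCbar : Subgroup.centralizer
          ((B.map (QuotientGroup.mk' Z) : Subgroup (X ⧸ Z)) : Set (X ⧸ Z)) =
          B.map (QuotientGroup.mk' Z) := by
        apply le_antisymm _ hBle
        intro q hq
        obtain ⟨y, rfl⟩ := QuotientGroup.mk'_surjective Z q
        have hyM : y ∈ M := by rw [hM, Subgroup.mem_comap]; exact hq
        rw [← hMB] at hyM
        exact Subgroup.mem_map_of_mem _ hyM
      subst hZ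
      have := ih (X ⧸ Subgroup.center X) hQcard (B.map (QuotientGroup.mk' (Subgroup.center X))) hBbar hCbar
      rw [this]
      omega

/-- A p-group with a self-centralizing subgroup of order p^2 is of maximal class. -/
theorem result {X : Type*} [Group X] [Finite X] {p : ℕ} [Fact p.Prime] (n : ℕ) (hX : Nat.card X = p ^ n) (A : Subgroup X) (hA : Nat.card A = p ^ 2) (hC : Subgroup.centralizer (A : Set X) = A) : Group.nilpotencyClass X = n - 1 := by
  exact aux n X hX A hA hC

end Cfsg.Agent.S0112
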