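import Mathlib
import Cfsg.Statements.S0115
import Cfsg.Agent.Lib.Helper2.MaxClass2

set_option autoImplicit false
open Cfsg

namespace Cfsg.Agent.S0115

open Cfsg.Agent.Lib.Helper2


/-- A 2-group of order 2^n, n ≥ 3, is of maximal class exactly when its commutator quotient is a Klein four-group. -/
theorem result {X : Type*} [Group X] [Finite X] (n : ℕ) (hn : 3 ≤ n) (hX : Nat.card X = 2 ^ n) : Group.nilpotencyClass X = n - 1 ↔ IsKleinFour (X ⧸ commutator X) := by
  constructor
  · intro hc
    obtain ⟨hi, hsq⟩ := maxClass_two_abelianization n hn X hX hc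
    refine ⟨by rw [← Subgroup.index_eq_card]; exact hi, ?_⟩
    have h1 : Monoid.exponent (X ⧸ commutator X) ∣ 2 := by
      apply Monoid.exponent_dvd_of_forall_pow_eq_one
      intro q
      obtain ⟨g, rfl⟩ := QuotientGroup.mk'_surjective (commutator X) q
      rw [← map_pow]
      have h3 : QuotientGroup.mk' (commutator X) (g ^ 2) = 1 :=
        (QuotientGroup.eq_one_iff _).mpr (hsq g)
      exact h3
    have h2 : Monoid.exponent (X ⧸ commutator X) ≠ 1 := by
      intro h
      rw [Monoid.exp_eq_one_iff] at h
      have h4 : Nat.card (X ⧸ commutator X) = 1 := Nat.card_of_subsingleton 1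
      rw [← Subgroup.index_eq_card, hi] at h4
      norm_num at h4
    rcases (Nat.dvd_prime Nat.prime_two).mp h1 with h | h
    · exact absurd h h2
    · exact h
  · intro hK
    obtain ⟨k, rfl⟩ : ∃ k, n = k + 3 := ⟨n - 3, by omega⟩
    have hi : (commutator X).index = 4 := by
      rw [Subgroup.index_eq_card]; exact hK.card_four
    exact taussky k X hX hi

end Cfsg.Agent.S0115
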