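import Mathlib
import Cfsg.Statements.S0119
import Cfsg.Agent.S1894
import Cfsg.Agent.S0012
import Cfsg.Agent.Lib.Helper18.Frattini
import Cfsg.Agent.Lib.Helper11.OmegaOne

set_option autoImplicit false
open Cfsg

namespace Cfsg.Agent.S0119

open scoped commutatorElement

/-- Central factors do not change a commutator. -/
theorem comm_central_mul {G : Type*} [Group G] (u v g h : G) (hu : u ∈ Subgroup.center G)
    (hv : v ∈ Subgroup.center G) : ⁅u * g, v * h⁆ = ⁅g, h⁆ := by
  have hu' : ∀ t : G, u * t * u⁻¹ = t := by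
    intro t
    rw [← Subgroup.mem_center_iff.mp hu t, mul_inv_cancel_right]
  have hv' : ∀ t : G, t * v * t⁻¹ = v := by
    intro t
    rw [Subgroup.mem_center_iff.mp hv t, mul_inv_cancel_right]
  have hv'' : ∀ t : G, v * t * v⁻¹ = t := by
    intro t
    rw [← Subgroup.mem_center_iff.mp hv t, mul_inv_cancel_right]
  have e1 : ⁅u * g, v * h⁆ = u * (g * (v * h) * g⁻¹) * u⁻¹ * (v * h)⁻¹ := by
    simp only [commutatorElement_def]; group
  rw [e1, hu']
  have e2 : g * (v * h) * g⁻¹ * (v * h)⁻¹ = (g * v * g⁻¹) * (g * h * g⁻¹ * h⁻¹) * v⁻¹ := by group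
  rw [e2, hv', hv'', commutatorElement_def]

/-- If a p'-group A of automorphisms of a p-group G satisfies G = [G, A] and acts trivially on every characteristic abelian subgroup, then G is special with centre equal to the fixed points of A. -/
theorem result {G : Type*} [Group G] [Finite G] {p : ℕ} [Fact p.Prime] (hG : IsPGroup p G) (A : Subgroup (MulAut G)) (hA : Nat.Coprime (Nat.card A) p) (hGA : Subgroup.closure {x : G | ∃ g : G, ∃ a ∈ A, x = g⁻¹ * a g} = ⊤) (hchar : ∀ H : Subgroup G, H.Characteristic → IsMulCommutative H → ∀ a ∈ A, ∀ h ∈ H, a h = h) : Cfsg.IsSpecial p G ∧ (∀ g : G, (g ∈ Subgroup.center G ↔ ∀ a ∈ A, a g = g)) := by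
  classical
  have hp : p.Prime := Fact.out
  -- (1) characteristic abelian subgroups are central
  have hcentral : ∀ H : Subgroup G, H.Characteristic → IsMulCommutative H →
      H ≤ Subgroup.center G := by
    intro H hHc hHcomm h hh
    have hle : Subgroup.closure {x : G | ∃ g : G, ∃ a ∈ A, x = g⁻¹ * a g} ≤
        Subgroup.centralizer {h} := by
      rw [Subgroup.closure_le]
      rintro x ⟨g, a, ha, rfl⟩
      rw [SetLike.mem_coe, Subgroup.mem_centralizer_singleton_iff]
      have hn : H.Normal := inferInstance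
      have h1 : g * h * g⁻¹ ∈ H := hn.conj_mem h hh g
      have h2 : a (g * h * g⁻¹) = g * h * g⁻¹ := hchar H hHc hHcomm a ha _ h1
      have h3 : a h = h := hchar H hHc hHcomm a ha h hh
      rw [map_mul, map_mul, map_inv, h3] at h2
      calc g⁻¹ * a g * h = g⁻¹ * (a g * h * (a g)⁻¹) * a g := by group
        _ = g⁻¹ * (g * h * g⁻¹) * a g := by rw [h2]
        _ = h * (g⁻¹ * a g) := by group
    rw [hGA] at hle
    rw [Subgroup.mem_center_iff]
    intro g
    exact Subgroup.mem_centralizer_singleton_iff.mp (hle (Subgroup.mem_top g))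
  -- (2) class at most two
  have hclass : commutator G ≤ Subgroup.center G := by
    by_contra hnot
    have hnil : Group.IsNilpotent G := hG.isNilpotent
    obtain ⟨x, hxD, hxZ, hxc⟩ :=
      Cfsg.Agent.S1894.exists_mem_not_mem_comm (commutator G) (Subgroup.center G) hnot
    let H : Subgroup G :=
      { carrier := {x | x ∈ commutator G ∧ ∀ g : G, ⁅x, g⁆ ∈ Subgroup.center G}
        mul_mem' := by
          rintro a b ⟨ha, ha'⟩ ⟨hb, hb'⟩
          refine ⟨Subgroup.mul_mem _ ha hb, fun g => ?_⟩
          have e : ⁅a * b, g⁆ = a * ⁅b, g⁆ * a⁻¹ * ⁅a, g⁆ := by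
            simp only [commutatorElement_def]; group
          rw [e]
          exact Subgroup.mul_mem _
            ((inferInstance : (Subgroup.center G).Normal).conj_mem _ (hb' g) a) (ha' g)
        one_mem' := ⟨Subgroup.one_mem _, fun g => by simp [commutatorElement_def]⟩
        inv_mem' := by
          rintro a ⟨ha, ha'⟩
          refine ⟨Subgroup.inv_mem _ ha, fun g => ?_⟩
          have e : ⁅a⁻¹, g⁆ = a⁻¹ * ⁅a, g⁆⁻¹ * (a⁻¹)⁻¹ := by
            simp only [commutatorElement_def]; group
          rw [e]
          exact (inferInstance : (Subgroup.center G).Normal).conj_mem _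
            (Subgroup.inv_mem _ (ha' g)) a⁻¹ }
    have hHchar : H.Characteristic := by
      rw [Subgroup.characteristic_iff_le_comap]
      intro φ y hy
      refine ⟨?_, fun g => ?_⟩
      · have hc : (commutator G).Characteristic := inferInstance
        have h1 : y ∈ (commutator G).comap φ.toMonoidHom := by
          rw [hc.fixed]; exact hy.1
        exact h1
      · have hc : (Subgroup.center G).Characteristic := inferInstance
        have h1 : ⁅y, φ.symm g⁆ ∈ (Subgroup.center G).comap φ.toMonoidHom := by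
          rw [hc.fixed]; exact hy.2 _
        have h2 : φ.toMonoidHom ⁅y, φ.symm g⁆ = ⁅φ.toMonoidHom y, g⁆ := by
          rw [map_commutatorElement]; simp
        rw [← h2]
        exact h1
    have hHcomm : IsMulCommutative H := by
      refine ⟨⟨fun a b => Subtype.ext ?_⟩⟩
      have hle : commutator G ≤ Subgroup.centralizer {(a : G)} := by
        rw [commutator_def, Subgroup.commutator_le]
        intro g _ h _
        rw [Subgroup.mem_centralizer_singleton_iff]
        have e1 : (a : G) * ⁅g, h⁆ * (a : G)⁻¹ = ⁅⁅(a : G), g⁆ * g, ⁅(a : G), h⁆ * h⁆ := by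
          simp only [commutatorElement_def]; group
        rw [comm_central_mul _ _ _ _ (a.2.2 g) (a.2.2 h)] at e1
        calc ⁅g, h⁆ * (a : G) = ((a : G) * ⁅g, h⁆ * (a : G)⁻¹) * (a : G) := by rw [e1]
          _ = (a : G) * ⁅g, h⁆ := by group
      exact (Subgroup.mem_centralizer_singleton_iff.mp (hle b.2.1)).symm
    have hxH : x ∈ H :=
      ⟨hxD, fun g => hxc (Subgroup.commutator_mem_commutator (Subgroup.mem_zpowers x)
        (Subgroup.mem_top g))⟩
    exact hxZ (hcentral H hHchar hHcomm hxH)
  -- (3) fixed points lie in the derived subgroup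
  have hfix : ∀ g : G, (∀ a ∈ A, a g = g) → g ∈ commutator G := by
    intro g hg
    have hfin : Finite A := inferInstance
    let _ : Fintype A := Fintype.ofFinite A
    let N : G →* Abelianization G :=
      ∏ a : A, (Abelianization.of.comp ((a : MulAut G).toMonoidHom))
    have hN : ∀ x : G, N x = ∏ a : A, Abelianization.of ((a : MulAut G) x) := by
      intro x
      simp [N, MonoidHom.finsetProd_apply]
    have hNinv : ∀ (b : A) (x : G), N ((b : MulAut G) x) = N x := by
      intro b x
      rw [hN, hN]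
      exact Fintype.prod_equiv (Equiv.mulRight b) _ _ (fun a => by simp [MulAut.mul_apply])
    have hker : N.ker = ⊤ := by
      rw [eq_top_iff, ← hGA, Subgroup.closure_le]
      rintro x ⟨y, a, ha, rfl⟩
      rw [SetLike.mem_coe, MonoidHom.mem_ker, map_mul, map_inv, hNinv ⟨a, ha⟩ y, inv_mul_cancel]
    have h1 : Abelianization.of g ^ Nat.card A = 1 := by
      have h2 : N g = 1 := by
        rw [← MonoidHom.mem_ker, hker]; trivial
      rw [hN] at h2
      have h3 : ∀ a : A, Abelianization.of ((a : MulAut G) g) = Abelianization.of g :=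
        fun a => by rw [hg a a.2]
      simp only [h3, Finset.prod_const, Finset.card_univ] at h2
      rw [Nat.card_eq_fintype_card]
      exact h2
    obtain ⟨k, hk⟩ := hG g
    have h4 : Abelianization.of g ^ (p ^ k) = 1 := by rw [← map_pow, hk, map_one]
    have h5 : orderOf (Abelianization.of g) ∣ Nat.gcd (Nat.card A) (p ^ k) :=
      Nat.dvd_gcd (orderOf_dvd_of_pow_eq_one h1) (orderOf_dvd_of_pow_eq_one h4)
    have h6 : Nat.gcd (Nat.card A) (p ^ k) = 1 := Nat.Coprime.pow_right k hA
    rw [h6, Nat.dvd_one, orderOf_eq_one_iff] at h5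
    rw [← Abelianization.ker_of, MonoidHom.mem_ker]
    exact h5
  have hcenfix : ∀ g ∈ Subgroup.center G, ∀ a ∈ A, a g = g := by
    intro g hg a ha
    exact hchar (Subgroup.center G) inferInstance inferInstance a ha g hg
  have hZD : Subgroup.center G ≤ commutator G := fun g hg => hfix g (hcenfix g hg)
  have hDZ : commutator G = Subgroup.center G := le_antisymm hclass hZD
  -- (5) `p`-th powers are central
  have hcommcen : ∀ x y : G, ⁅x, y⁆ ∈ Subgroup.center G := by
    intro x y
    apply hclass
    rw [commutator_def]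
    exact Subgroup.commutator_mem_commutator (Subgroup.mem_top x) (Subgroup.mem_top y)
  have hex : ∃ e : ℕ, ∀ x : G, x ^ (p ^ e) ∈ Subgroup.center G := by
    obtain ⟨k, hk⟩ := IsPGroup.iff_card.mp hG
    exact ⟨k, fun x => by rw [← hk, pow_card_eq_one']; exact Subgroup.one_mem _⟩
  have he1 : Nat.find hex ≤ 1 := by
    by_contra hgt
    push Not at hgt
    obtain ⟨e', he'⟩ : ∃ e', Nat.find hex = e' + 2 := ⟨Nat.find hex - 2, by omega⟩
    have hspec := Nat.find_spec hex
    rw [he'] at hspec
    have hcomm_gen : ∀ x y : G, x ^ (p ^ (e' + 1)) * y ^ (p ^ (e' + 1)) =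
        y ^ (p ^ (e' + 1)) * x ^ (p ^ (e' + 1)) := by
      intro x y
      rw [← commutatorElement_eq_one_iff_mul_comm]
      have hc1 : ⁅x, y ^ (p ^ (e' + 1))⁆ * x = x * ⁅x, y ^ (p ^ (e' + 1))⁆ :=
        (Subgroup.mem_center_iff.mp (hcommcen x _) x).symm
      have hc2 : ⁅y, x⁆ * y = y * ⁅y, x⁆ :=
        (Subgroup.mem_center_iff.mp (hcommcen y x) y).symm
      rw [Cfsg.Agent.Lib.Helper11.commElem_pow_left x _ hc1, ← commutatorElement_inv,
        Cfsg.Agent.Lib.Helper11.commElem_pow_left y x hc2, inv_pow, ← pow_mul, inv_eq_one]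
      have h1 : ⁅y, x⁆ ^ (p ^ (e' + 2)) = 1 := by
        rw [← Cfsg.Agent.Lib.Helper11.commElem_pow_left y x hc2,
          commutatorElement_eq_one_iff_mul_comm]
        exact (Subgroup.mem_center_iff.mp (hspec y) x).symm
      have h2 : p ^ (e' + 1) * p ^ (e' + 1) = p ^ (e' + 2) * p ^ e' := by ring
      rw [h2, pow_mul, h1, one_pow]
    have hTchar : (Subgroup.closure (Set.range (fun x : G => x ^ (p ^ (e' + 1))))).Characteristic := by
      rw [Subgroup.characteristic_iff_map_le]
      intro φ
      rw [MonoidHom.map_closure, Subgroup.closure_le]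
      rintro _ ⟨_, ⟨x, rfl⟩, rfl⟩
      exact Subgroup.subset_closure ⟨φ x, by simp⟩
    have hTcomm : IsMulCommutative (Subgroup.closure (Set.range (fun x : G => x ^ (p ^ (e' + 1))))) := by
      apply Subgroup.isMulCommutative_closure
      rintro _ ⟨x, rfl⟩ _ ⟨y, rfl⟩
      exact hcomm_gen x y
    have hT := hcentral _ hTchar hTcomm
    exact Nat.find_min hex (by omega : e' + 1 < Nat.find hex)
      (fun x => hT (Subgroup.subset_closure ⟨x, rfl⟩))
  have hpow : ∀ x : G, x ^ p ∈ Subgroup.center G := by
    intro x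
    have hspec := Nat.find_spec hex x
    obtain ⟨e, he⟩ : ∃ e, e = Nat.find hex := ⟨_, rfl⟩
    rw [← he] at hspec he1
    interval_cases e
    · rw [pow_zero, pow_one] at hspec
      exact Subgroup.pow_mem _ hspec p
    · rwa [pow_one] at hspec
  refine ⟨⟨hG, ?_, hDZ⟩, fun g => ⟨fun hg a ha => hcenfix g hg a ha, fun h => hclass (hfix g h)⟩⟩
  apply le_antisymm
  · apply Cfsg.Agent.Lib.Helper18.frattini_le_of_elementary (p := p)
    · intro a b
      have := hcommcen a b
      rwa [commutatorElement_def] at this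
    · exact hpow
  · rw [← hDZ]
    exact (Cfsg.Agent.S0012.result p hG).1

end Cfsg.Agent.S0119
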