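import Mathlib
import Cfsg.Statements.S0128
import Cfsg.Agent.Lib.Helper2.RankTwo

set_option autoImplicit false
open Cfsg

namespace Cfsg.Agent.S0128

open Cfsg.Agent.Lib.Helper2

open scoped commutatorElement

/-- For p > 3, in a p-group of p-rank at most 2 the elements of order dividing p generate a subgroup of exponent dividing p. -/
theorem result {R : Type*} [Group R] [Finite R] {p : ℕ} [Fact p.Prime] (hp : 3 < p) (hR : IsPGroup p R) (hrk : ∀ E : Subgroup R, Cfsg.IsElementaryAbelian p E → Nat.card E ≤ p ^ 2) (g : R) (hg : g ∈ Subgroup.closure {x : R | x ^ p = 1}) : g ^ p = 1 := by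
  classical
  have hpp : p.Prime := Fact.out
  have hnil : Group.IsNilpotent R := hR.isNilpotent
  obtain ⟨A, hAn, hAc, hAe, -, hmax⟩ := exists_max_normal_abelian_exp p (⊥ : Subgroup R)
    inferInstance inferInstance (by
      intro b hb
      rw [Subgroup.mem_bot.mp hb, one_pow])
  obtain ⟨a, ha⟩ := IsPGroup.iff_card.mp (hR.to_subgroup A)
  have ha2 : a ≤ 2 := by
    have h1 := hrk A ⟨hAc, hAe⟩
    rw [ha] at h1
    exact (Nat.pow_le_pow_iff_right hpp.one_lt).mp h1
  have hcent := comm_mem_center_of_card_le_sq hR A a ha ha2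
  have hW : ∀ {x x' : R}, x ^ p = 1 → x' ^ p = 1 → ⁅x', x⁆ ∈ A → (x * x') ^ p = 1 :=
    fun hx hx' hz => mul_pow_eq_one_of_comm_mem hpp hp A hAe hcent hx hx' hz
  suffices hM : ∃ M : Subgroup R, (∀ m ∈ M, m ^ p = 1) ∧ ∀ s : R, s ^ p = 1 → s ∈ M by
    obtain ⟨M, hMe, hMs⟩ := hM
    exact hMe g ((Subgroup.closure_le M).mpr (fun s hs => hMs s hs) hg)
  by_cases hT : ∀ x : R, x ^ p = 1 → (∀ g : R, ⁅x, g⁆ ∈ A) → x ∈ A
  · refine ⟨A, hAe, ?_⟩
    apply level_induction A {x : R | x ^ p = 1}
    · intro x hx g hcomm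
      have hx1 : x ^ p = 1 := hx
      have hw : ⁅x, g⁆ = x * (g * x⁻¹ * g⁻¹) := by
        rw [commutatorElement_def]
        group
      have hx'p : (g * x⁻¹ * g⁻¹) ^ p = 1 := by
        rw [conj_pow, inv_pow, hx1]
        simp
      have hc : ⁅g * x⁻¹ * g⁻¹, x⁆ ∈ A := by
        have e : ⁅g * x⁻¹ * g⁻¹, x⁆ = x⁻¹ * ⁅x, ⁅x, g⁆⁆⁻¹ * (x⁻¹)⁻¹ := by
          simp only [commutatorElement_def]
          group
        rw [e]
        exact hAn.conj_mem _ (A.inv_mem hcomm) x⁻¹
      show ⁅x, g⁆ ^ p = 1
      rw [hw]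
      exact hW hx1 hx'p hc
    · intro x hx hcomm
      exact hT x hx hcomm
  · push Not at hT
    obtain ⟨t, htp, htcomm, htA⟩ := hT
    have hcommle := commutator_zpowers_le_of_forall A htcomm
    have hMn : (A ⊔ Subgroup.zpowers t).Normal := normal_sup_of_commutator_le A _ hcommle
    have hMcard : Nat.card (A ⊔ Subgroup.zpowers t : Subgroup R) = Nat.card A * p :=
      card_sup_zpowers_of_pow_mem A t p htA (by
        rw [htp]
        exact A.one_mem)
    have hMe : ∀ m ∈ A ⊔ Subgroup.zpowers t, m ^ p = 1 := by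
      intro m hm
      have hm' : m ∈ ((A ⊔ Subgroup.zpowers t : Subgroup R) : Set R) := hm
      rw [Subgroup.normal_mul] at hm'
      obtain ⟨c, hc, y, hy, rfl⟩ := Set.mem_mul.mp hm'
      have hyp : y ^ p = 1 := by
        obtain ⟨k, rfl⟩ := Subgroup.mem_zpowers_iff.mp hy
        rw [← zpow_natCast, ← zpow_mul, mul_comm, zpow_mul, zpow_natCast, htp, one_zpow]
      apply hW (hAe c hc) hyp
      rw [commutatorElement_def]
      exact A.mul_mem (hAn.conj_mem c hc y) (A.inv_mem hc)
    have ha2' : a = 2 := by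
      by_contra hne
      have ha1 : a ≤ 1 := by omega
      have hAZ : A ≤ Subgroup.center R := by
        interval_cases a
        · have hA : A = ⊥ := by
            rw [pow_zero] at ha
            exact Subgroup.card_eq_one.mp ha
          rw [hA]
          exact bot_le
        · rw [pow_one] at ha
          exact Cfsg.Agent.Lib.Helper21.le_center_of_normal_of_card_eq_prime hR A ha
      have hMc : IsMulCommutative (A ⊔ Subgroup.zpowers t : Subgroup R) := by
        apply Subgroup.le_centralizer_iff_isMulCommutative.mp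
        apply sup_le
        · exact le_trans hAZ (Subgroup.center_le_centralizer _)
        · apply Subgroup.le_centralizer_iff.mp
          apply sup_le
          · exact le_trans hAZ (Subgroup.center_le_centralizer _)
          · exact Subgroup.le_centralizer_iff_isMulCommutative.mpr inferInstance
      have := hmax _ hMn hMc hMe le_sup_left
      apply htA
      rw [← this]
      exact (le_sup_right : Subgroup.zpowers t ≤ _) (Subgroup.mem_zpowers t)
    subst ha2'
    refine ⟨A ⊔ Subgroup.zpowers t, hMe, ?_⟩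
    intro s hs
    by_contra hsM
    generalize hMdef : A ⊔ Subgroup.zpowers t = M at hMn hMcard hMe hsM
    have hKcard : Nat.card (M ⊔ Subgroup.zpowers s : Subgroup R) = p ^ 4 := by
      rw [card_sup_zpowers_of_pow_mem M s p hsM (by
        rw [hs]
        exact M.one_mem), hMcard, ha]
      ring
    have hKp : IsPGroup p (M ⊔ Subgroup.zpowers s : Subgroup R) := hR.to_subgroup _
    have hKnil : Group.IsNilpotent (M ⊔ Subgroup.zpowers s : Subgroup R) := hKp.isNilpotent
    have hcls := nilpotencyClass_le_of_card (p := p) 4 (↥(M ⊔ Subgroup.zpowers s)) hKcard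
      (by norm_num)
    have hcl : ⁅⁅commutator (↥(M ⊔ Subgroup.zpowers s)),
        (⊤ : Subgroup (↥(M ⊔ Subgroup.zpowers s)))⁆,
        (⊤ : Subgroup (↥(M ⊔ Subgroup.zpowers s)))⁆ = ⊥ :=
      Subgroup.lowerCentralSeries_eq_bot_iff_nilpotencyClass_le.mpr hcls
    have hKe : ∀ k : ↥(M ⊔ Subgroup.zpowers s), k ^ p = 1 := by
      intro k
      have hk : (k : R) ∈ ((M ⊔ Subgroup.zpowers s : Subgroup R) : Set R) := k.2
      rw [Subgroup.normal_mul] at hk
      obtain ⟨m, hm, y, hy, hmy⟩ := Set.mem_mul.mp hk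
      have hyp : y ^ p = 1 := by
        obtain ⟨j, rfl⟩ := Subgroup.mem_zpowers_iff.mp hy
        rw [← zpow_natCast, ← zpow_mul, mul_comm, zpow_mul, zpow_natCast, hs, one_zpow]
      have e : k = (⟨m, (le_sup_left : M ≤ M ⊔ Subgroup.zpowers s) hm⟩ :
            ↥(M ⊔ Subgroup.zpowers s))
          * ⟨y, (le_sup_right : Subgroup.zpowers s ≤ M ⊔ Subgroup.zpowers s) hy⟩ :=
        Subtype.ext hmy.symm
      rw [e]
      apply mul_pow_prime_eq_one_class_three hpp hp hcl
      · exact Subtype.ext (hMe m hm)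
      · exact Subtype.ext hyp
    obtain ⟨B, hBn, hBc, -, -, hBmax⟩ := exists_max_normal_abelian_exp p
      (⊥ : Subgroup ↥(M ⊔ Subgroup.zpowers s)) inferInstance inferInstance (by
        intro b hb
        rw [Subgroup.mem_bot.mp hb, one_pow])
    obtain ⟨b, hb⟩ := IsPGroup.iff_card.mp (hKp.to_subgroup B)
    have hbound := Cfsg.Agent.S0129.result hKp B hBc
      (fun B' h1 h2 h3 => hBmax B' h1 h2 (fun x _ => hKe x) h3) b hb
    rw [hKcard] at hbound
    have hb3 : 3 ≤ b := by
      by_contra hlt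
      have h3 : b * (b + 1) / 2 ≤ 3 := by
        interval_cases b <;> norm_num
      have h4 := (Nat.pow_le_pow_iff_right hpp.one_lt).mp hbound
      omega
    have hE : Cfsg.IsElementaryAbelian p (B.map (Subgroup.subtype (M ⊔ Subgroup.zpowers s))) := by
      refine ⟨inferInstance, ?_⟩
      rintro _ ⟨x, -, rfl⟩
      have := congrArg Subtype.val (hKe x)
      simpa using this
    have hcardE : Nat.card (B.map (Subgroup.subtype (M ⊔ Subgroup.zpowers s))) = p ^ b := by
      rw [Subgroup.card_map_of_injective (Subgroup.subtype_injective _), hb]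
    have h5 := hrk _ hE
    rw [hcardE] at h5
    have h6 := (Nat.pow_le_pow_iff_right hpp.one_lt).mp h5
    omega

end Cfsg.Agent.S0128
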