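import Mathlib
import Cfsg.Statements.S0160
import Cfsg.Agent.Lib.Helper2.CharPerm

set_option autoImplicit false
open Cfsg

namespace Cfsg.Agent.S0160

open Cfsg.Agent.Lib.Helper2


/-- A finite group has as many real-valued irreducible complex characters as conjugacy classes closed under taking inverses. -/
theorem result {G : Type*} [Group G] [Finite G] : Nat.card {χ : Cfsg.IrrCharacter G // ∀ g : G, ((χ : G → ℂ) g).im = 0} = Nat.card {C : ConjClasses G // ∀ g : G, ConjClasses.mk g = C → IsConj g g⁻¹} := by
  classical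
  have := Fintype.ofFinite G
  have key := card_fixed_irr_eq_card_fixed_classes (fun g : G => g⁻¹)
    (fun χ hχ => isIrrCharacter_comp_inv hχ)
    (fun g h hgh => by
      obtain ⟨c, hc⟩ := isConj_iff.mp hgh
      exact isConj_iff.mpr ⟨c, by rw [← hc]; group⟩)
  have e1 : Nat.card {χ : Cfsg.IrrCharacter G // ∀ g : G, ((χ : G → ℂ) g).im = 0}
      = Nat.card {χ : Cfsg.IrrCharacter G // (χ : G → ℂ) ∘ (fun g : G => g⁻¹) = (χ : G → ℂ)} := by
    apply Nat.card_congr
    apply Equiv.subtypeEquivRight
    intro χ
    have hinv : ∀ g : G, (χ : G → ℂ) g⁻¹ = (starRingEnd ℂ) ((χ : G → ℂ) g) := by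
      obtain ⟨n, ρ, hρ, hχ⟩ := χ.2
      intro g
      rw [← hχ]
      exact char_inv ρ g
    constructor
    · intro h
      funext g
      change (χ : G → ℂ) g⁻¹ = (χ : G → ℂ) g
      rw [hinv, Complex.conj_eq_iff_im]
      exact h g
    · intro h g
      have := congrFun h g
      change (χ : G → ℂ) g⁻¹ = (χ : G → ℂ) g at this
      rw [hinv, Complex.conj_eq_iff_im] at this
      exact this
  rw [e1, key]
  apply Nat.card_congr
  apply Equiv.subtypeEquivRight
  intro C
  constructor
  · intro h g hg
    exact (h g hg).symm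
  · intro h g hg
    exact (h g hg).symm

end Cfsg.Agent.S0160
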