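import Mathlib
import Cfsg.Statements.S0166
import Cfsg.Agent.Lib.Helper2.SplitMain
import Cfsg.Agent.S0153

set_option autoImplicit false
open Cfsg

namespace Cfsg.Agent.S0166

open Cfsg.Agent.Lib.Helper2

/-- Brauer's splitting field Theorem: a complex representation of a finite group of exponent m is equivalent to a representation by matrices with entries in ℚ adjoined exp(2πi/m). -/
theorem result {G : Type*} [Group G] [Finite G] (n : ℕ) (ρ : Representation ℂ G (Fin n → ℂ)) : ∃ σ : Representation ℂ G (Fin n → ℂ), Nonempty (ρ.Equiv σ) ∧ ∀ g : G, ∀ i j : Fin n, LinearMap.toMatrix' (σ g) i j ∈ Algebra.adjoin ℚ ({Complex.exp (2 * Real.pi * Complex.I / (Monoid.exponent G : ℂ))} : Set ℂ) := by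
  classical
  have := Fintype.ofFinite G
  have hm : Monoid.exponent G ≠ 0 := Monoid.exponent_ne_zero_of_finite
  have hprim : IsPrimitiveRoot (Complex.exp (2 * Real.pi * Complex.I / (Monoid.exponent G : ℂ)))
      (Monoid.exponent G) := Complex.isPrimitiveRoot_exp _ hm
  generalize Complex.exp (2 * Real.pi * Complex.I / (Monoid.exponent G : ℂ)) = ζ at hprim ⊢
  let K : Subfield ℂ := (IntermediateField.adjoin ℚ ({ζ} : Set ℂ)).toSubfield
  have hζK : ζ ∈ K := IntermediateField.mem_adjoin_simple_self ℚ ζ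
  have hK : ∀ z : ℂ, z ^ Monoid.exponent G = 1 → z ∈ K := by
    intro z hz
    have : NeZero (Monoid.exponent G) := ⟨hm⟩
    obtain ⟨i, -, rfl⟩ := hprim.eq_pow_of_pow_eq_one hz
    exact K.pow_mem hζK i
  have hmem : ∀ x : ℂ, x ∈ K → x ∈ Algebra.adjoin ℚ ({ζ} : Set ℂ) := by
    intro x hx
    have hint : IsIntegral ℚ ζ := (hprim.isIntegral (Nat.pos_of_ne_zero hm)).tower_top
    have h1 := IntermediateField.adjoin_simple_toSubalgebra_of_isAlgebraic (F := ℚ) (α := ζ)
      hint.isAlgebraic
    rw [← h1]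
    exact hx
  obtain ⟨r, M, hM⟩ := kReal_of_char hK (⟨n, ρ, rfl⟩ : Cfsg.IsCharacter G ρ.character)
  have hr : r = n := by
    have h1 := hM 1
    rw [Representation.char_one, Module.finrank_fin_fun, map_one, Matrix.trace_one,
      Fintype.card_fin] at h1
    exact_mod_cast h1.symm
  subst hr
  refine ⟨matRep K M, Cfsg.Agent.S0153.result ρ (matRep K M) ?_, ?_⟩
  · funext g
    rw [matRep_character, hM]
  · intro g i j
    apply hmem
    rw [matRep_apply, LinearMap.toMatrix'_toLin']
    exact (M g i j).2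

end Cfsg.Agent.S0166
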