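import Mathlib
import Cfsg.Statements.S0198
import Cfsg.Agent.Lib.Helper2.CharGen

set_option autoImplicit false
open Cfsg

namespace Cfsg.Agent.S0198

open Cfsg.Agent.Lib.Helper2


/-- The isometry lemma behind exceptional characters. Let τ be a family of generalized characters of a finite group G indexed by Fin n, with τ i₀ = 0, every τ i vanishing at the identity, and inner products ⟨τ i, τ j⟩ = 2 if i = j and 1 otherwise for i, j ≠ i₀. Then there are a sign ε and pairwise distinct irreducible characters μ i with τ i = ε (μ i − μ i₀) for all i. -/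
theorem result {G : Type*} [Group G] [Fintype G] (n : ℕ) (i₀ : Fin n) (τ : Fin n → (G → ℂ)) (h0 : τ i₀ = 0) (hgen : ∀ i, Cfsg.IsGeneralizedCharacter G (τ i)) (hone : ∀ i, τ i 1 = 0) (hgram : ∀ i j, i ≠ i₀ → j ≠ i₀ → Cfsg.classInner (τ i) (τ j) = if i = j then 2 else 1) : ∃ ε : ℂ, (ε = 1 ∨ ε = -1) ∧ ∃ μ : Fin n → (G → ℂ), (∀ i, Cfsg.IsIrrCharacter G (μ i)) ∧ Function.Injective μ ∧ ∀ i, τ i = ε • (μ i - μ i₀) := by
  classical
  by_cases hall : ∀ i : Fin n, i = i₀
  · refine ⟨1, Or.inl rfl, fun _ => (fun _ => 1), fun _ => isIrrCharacter_one, ?_, ?_⟩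
    · intro i j _
      rw [hall i, hall j]
    · intro i
      rw [hall i, h0]
      simp
  push Not at hall
  obtain ⟨i₁, hi₁⟩ := hall
  have hdec : ∀ i : Fin n, i ≠ i₀ → ∃ α β : G → ℂ, Cfsg.IsIrrCharacter G α ∧
      Cfsg.IsIrrCharacter G β ∧ α ≠ β ∧ τ i = α - β := by
    intro i hi
    apply genChar_norm_two (hgen i) _ (hone i)
    rw [hgram i i hi hi, if_pos rfl]
  choose! α β hα hβ hαβ hτ using hdec
  have hpair : ∀ j k : Fin n, j ≠ i₀ → k ≠ i₀ → j ≠ k →
      (α j = α k ∧ β j ≠ β k) ∨ (β j = β k ∧ α j ≠ α k) := by
    intro j k hj hk hjk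
    have hg := hgram j k hj hk
    rw [if_neg hjk, hτ j hj, hτ k hk, classInner_sub_left, classInner_sub_right,
      classInner_sub_right, classInner_irr (hα j hj) (hα k hk),
      classInner_irr (hα j hj) (hβ k hk), classInner_irr (hβ j hj) (hα k hk),
      classInner_irr (hβ j hj) (hβ k hk)] at hg
    have hαβj := hαβ j hj
    have hαβk := hαβ k hk
    by_cases e3 : α j = β k
    · exfalso
      have e1 : α j ≠ α k := fun e => hαβk (e.symm.trans e3)
      have e2 : β j ≠ β k := fun e => hαβj (e3.trans e.symm)
      rw [if_neg e1, if_pos e3, if_neg e2] at hg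
      by_cases e4 : β j = α k
      · rw [if_pos e4] at hg
        norm_num at hg
      · rw [if_neg e4] at hg
        norm_num at hg
    · by_cases e4 : β j = α k
      · exfalso
        have e1 : α j ≠ α k := fun e => hαβj (e.trans e4.symm)
        have e2 : β j ≠ β k := fun e => hαβk (e4.symm.trans e)
        rw [if_neg e1, if_neg e3, if_pos e4, if_neg e2] at hg
        norm_num at hg
      · rw [if_neg e3, if_neg e4] at hg
        by_cases e1 : α j = α k
        · by_cases e2 : β j = β k
          · exfalso
            rw [if_pos e1, if_pos e2] at hg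
            norm_num at hg
          · exact Or.inl ⟨e1, e2⟩
        · by_cases e2 : β j = β k
          · exact Or.inr ⟨e2, e1⟩
          · exfalso
            rw [if_neg e1, if_neg e2] at hg
            norm_num at hg
  by_cases hA : ∀ j : Fin n, j ≠ i₀ → α j = α i₁
  · refine ⟨-1, Or.inr rfl, fun j => if j = i₀ then α i₁ else β j, ?_, ?_, ?_⟩
    · intro j
      by_cases hj : j = i₀
      · simp only [hj, if_true]
        exact hα i₁ hi₁
      · simp only [hj, if_false]
        exact hβ j hj
    · intro j k hjk
      by_contra hne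
      by_cases hj : j = i₀ <;> by_cases hk : k = i₀
      · exact hne (hj.trans hk.symm)
      · simp only [hj, hk, if_true, if_false] at hjk
        exact hαβ k hk ((hA k hk).trans hjk)
      · simp only [hj, hk, if_true, if_false] at hjk
        exact hαβ j hj ((hA j hj).trans hjk.symm)
      · simp only [hj, hk, if_false] at hjk
        rcases hpair j k hj hk hne with ⟨_, h⟩ | ⟨_, h⟩
        · exact h hjk
        · exact h ((hA j hj).trans (hA k hk).symm)
    · intro j
      by_cases hj : j = i₀
      · simp [hj, h0]
      · simp only [hj, if_false, if_true]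
        rw [hτ j hj, hA j hj]
        funext g
        simp
  · push Not at hA
    obtain ⟨k, hk, hkα⟩ := hA
    have hk1 : k ≠ i₁ := fun e => hkα (by rw [e])
    have hB : ∀ j : Fin n, j ≠ i₀ → β j = β i₁ := by
      intro j hj
      by_cases hj1 : j = i₁
      · rw [hj1]
      · rcases hpair j i₁ hj hi₁ hj1 with ⟨h1, h2⟩ | ⟨h1, _⟩
        · exfalso
          have hjk : j ≠ k := fun e => hkα (by rw [← e]; exact h1)
          have hkβ : β k = β i₁ := by
            rcases hpair k i₁ hk hi₁ hk1 with ⟨h3, _⟩ | ⟨h3, _⟩
            · exact absurd h3 hkα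
            · exact h3
          rcases hpair j k hj hk hjk with ⟨h3, _⟩ | ⟨h3, _⟩
          · exact hkα (h3.symm.trans h1)
          · exact h2 (h3.trans hkβ)
        · exact h1
    refine ⟨1, Or.inl rfl, fun j => if j = i₀ then β i₁ else α j, ?_, ?_, ?_⟩
    · intro j
      by_cases hj : j = i₀
      · simp only [hj, if_true]
        exact hβ i₁ hi₁
      · simp only [hj, if_false]
        exact hα j hj
    · intro j k' hjk
      by_contra hne
      by_cases hj : j = i₀ <;> by_cases hk' : k' = i₀
      · exact hne (hj.trans hk'.symm)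
      · simp only [hj, hk', if_true, if_false] at hjk
        exact hαβ k' hk' (hjk.symm.trans (hB k' hk').symm)
      · simp only [hj, hk', if_true, if_false] at hjk
        exact hαβ j hj (hjk.trans (hB j hj).symm)
      · simp only [hj, hk', if_false] at hjk
        rcases hpair j k' hj hk' hne with ⟨_, h⟩ | ⟨_, h⟩
        · exact h ((hB j hj).trans (hB k' hk').symm)
        · exact h hjk
    · intro j
      by_cases hj : j = i₀
      · simp [hj, h0]
      · simp only [hj, if_false, if_true]
        rw [hτ j hj, hB j hj, one_smul]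

end Cfsg.Agent.S0198
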