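import Mathlib
import Cfsg.Statements.S0170
import Cfsg.Agent.Lib.Helper2.CharGen
import Cfsg.Agent.Lib.Helper2.CharClifford
import Cfsg.Agent.Lib.Helper2.CharMore
import Cfsg.Agent.S0198

set_option autoImplicit false
open Cfsg

namespace Cfsg.Agent.S0170

open Cfsg.Agent.Lib.Helper2

section aux
variable {G : Type*} [Group G]

theorem extendByZero_sub' (H : Subgroup G) (φ ψ : H → ℂ) (g : G) :
    Cfsg.extendByZero H (φ - ψ) g = Cfsg.extendByZero H φ g - Cfsg.extendByZero H ψ g := by
  by_cases hg : g ∈ H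
  · rw [extendByZero_of_mem H _ hg, extendByZero_of_mem H _ hg, extendByZero_of_mem H _ hg]
    rfl
  · rw [extendByZero_of_not_mem H _ hg, extendByZero_of_not_mem H _ hg,
      extendByZero_of_not_mem H _ hg, sub_zero]

theorem indFun_sub' [Fintype G] (H : Subgroup G) (φ ψ : H → ℂ) :
    Cfsg.indFun H (φ - ψ) = Cfsg.indFun H φ - Cfsg.indFun H ψ := by
  funext g
  rw [Pi.sub_apply, indFun_apply, indFun_apply, indFun_apply, ← mul_sub,
    ← Finset.sum_sub_distrib]
  congr 1
  apply Finset.sum_congr rfl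
  intro x _
  exact extendByZero_sub' H φ ψ _

theorem aux [Fintype G] (N : Subgroup G) (S : Set G)
    (hTI : ∀ g : G, g ∉ N → ∀ s ∈ S, g * s * g⁻¹ ∈ S → s = 1) (n : ℕ) (hn : 2 ≤ n)
    (χ : Fin n → (N → ℂ)) (hirr : ∀ i, Cfsg.IsIrrCharacter N (χ i))
    (hinj : Function.Injective χ) (hvan : ∀ i, ∀ x : N, (x : G) ∉ S → χ i x = 0)
    (hdeg : ∀ i j, χ i 1 = χ j 1) :
    ∃ ε : ℂ, (ε = 1 ∨ ε = -1) ∧ ∃ θ : Fin n → (G → ℂ), (∀ i, Cfsg.IsIrrCharacter G (θ i)) ∧
      Function.Injective θ ∧
      ∀ i j, Cfsg.indFun N (χ i) - Cfsg.indFun N (χ j) = ε • (θ i - θ j) := by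
  classical
  have := Fintype.ofFinite N
  let i₀ : Fin n := ⟨0, by omega⟩
  let τ : Fin n → (G → ℂ) := fun i => Cfsg.indFun N (χ i) - Cfsg.indFun N (χ i₀)
  have hchar : ∀ i, Cfsg.IsCharacter G (Cfsg.indFun N (χ i)) :=
    fun i => indFun_isCharacter N (isCharacter_of_isIrrCharacter (hirr i))
  have h0 : τ i₀ = 0 := sub_self _
  have hgen : ∀ i, Cfsg.IsGeneralizedCharacter G (τ i) := fun i => ⟨_, _, hchar i, hchar i₀, rfl⟩
  have hone : ∀ i, τ i 1 = 0 := by
    intro i
    change Cfsg.indFun N (χ i) 1 - Cfsg.indFun N (χ i₀) 1 = 0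
    rw [indFun_apply_one, indFun_apply_one, hdeg i i₀, sub_self]
  have hcfχ : ∀ i, Cfsg.IsClassFunction N (χ i) :=
    fun i => isClassFunction_of_isIrrCharacter (hirr i)
  have hind : ∀ j (x : N), (x : G) ∈ S → x ≠ 1 →
      Cfsg.indFun N (χ j - χ i₀) (x : G) = (χ j - χ i₀) x := by
    intro j x hxS hx1
    rw [indFun_apply]
    have hterm : ∀ g : G, Cfsg.extendByZero N (χ j - χ i₀) (g⁻¹ * (x : G) * g)
        = if g ∈ N then (χ j - χ i₀) x else 0 := by
      intro g
      split_ifs with hg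
      · have hmem : g⁻¹ * (x : G) * g ∈ N := N.mul_mem (N.mul_mem (N.inv_mem hg) x.2) hg
        rw [extendByZero_of_mem N _ hmem]
        have hcf : Cfsg.IsClassFunction N (χ j - χ i₀) :=
          IsClassFunction.sub (hcfχ j) (hcfχ i₀)
        have h1 := hcf x (⟨g, hg⟩ : N)⁻¹
        have harg : (⟨g⁻¹ * (x : G) * g, hmem⟩ : N) = (⟨g, hg⟩ : N)⁻¹ * x * (⟨g, hg⟩ : N)⁻¹⁻¹ := by
          apply Subtype.ext
          simp
        rw [harg]
        exact h1
      · by_cases hmem : g⁻¹ * (x : G) * g ∈ N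
        · rw [extendByZero_of_mem N _ hmem]
          have hnS : g⁻¹ * (x : G) * g ∉ S := by
            intro hS
            apply hx1
            have hg' : g⁻¹ ∉ N := fun h => hg (by simpa using N.inv_mem h)
            have h2 := hTI g⁻¹ hg' x hxS (by simpa using hS)
            exact Subtype.ext h2
          rw [Pi.sub_apply, hvan j ⟨_, hmem⟩ hnS, hvan i₀ ⟨_, hmem⟩ hnS, sub_zero]
        · exact extendByZero_of_not_mem N _ hmem
    simp only [hterm]
    rw [← Finset.sum_filter, Finset.sum_const, nsmul_eq_mul]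
    have hcard : (Finset.univ.filter (fun g : G => g ∈ N)).card = Nat.card N := by
      rw [Nat.card_eq_fintype_card]
      exact (Fintype.card_of_subtype _ (by simp)).symm
    rw [hcard, ← mul_assoc, inv_mul_cancel₀ (card_ne_zero_complex N), one_mul]
  have hgram : ∀ i j, i ≠ i₀ → j ≠ i₀ →
      Cfsg.classInner (τ i) (τ j) = if i = j then 2 else 1 := by
    intro i j hi hj
    have hτi : τ i = Cfsg.indFun N (χ i - χ i₀) := (indFun_sub' N _ _).symm
    have hτj : τ j = Cfsg.indFun N (χ j - χ i₀) := (indFun_sub' N _ _).symm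
    rw [hτi, frobenius_reciprocity N _ _ (by rw [hτj]; exact indFun_isClassFunction N _)]
    have hstep : Cfsg.classInner (χ i - χ i₀) (fun h : N => τ j h)
        = Cfsg.classInner (χ i - χ i₀) (χ j - χ i₀) := by
      rw [classInner_def, classInner_def]
      congr 1
      apply Finset.sum_congr rfl
      intro x _
      by_cases hxS : (x : G) ∈ S
      · by_cases hx1 : x = 1
        · have h3 : (χ i - χ i₀) x = 0 := by
            rw [hx1, Pi.sub_apply, hdeg i i₀, sub_self]
          rw [h3, zero_mul, zero_mul]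
        · rw [hτj, hind j x hxS hx1]
      · have h3 : (χ i - χ i₀) x = 0 := by
          rw [Pi.sub_apply, hvan i x hxS, hvan i₀ x hxS, sub_zero]
        rw [h3, zero_mul, zero_mul]
    rw [hstep, classInner_sub_left, classInner_sub_right, classInner_sub_right,
      classInner_irr (hirr i) (hirr j), classInner_irr (hirr i) (hirr i₀),
      classInner_irr (hirr i₀) (hirr j), classInner_irr (hirr i₀) (hirr i₀)]
    have e1 : χ i ≠ χ i₀ := fun e => hi (hinj e)
    have e2 : χ i₀ ≠ χ j := fun e => hj (hinj e).symm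
    rw [if_neg e1, if_neg e2, if_pos rfl]
    by_cases hij : i = j
    · rw [if_pos hij, if_pos (by rw [hij])]
      norm_num
    · rw [if_neg hij, if_neg (fun e => hij (hinj e))]
      norm_num
  obtain ⟨ε, hε, μ, hμirr, hμinj, hμ⟩ := Cfsg.Agent.S0198.result n i₀ τ h0 hgen hone hgram
  refine ⟨ε, hε, μ, hμirr, hμinj, ?_⟩
  intro i j
  have hi := hμ i
  have hj := hμ j
  have e : Cfsg.indFun N (χ i) - Cfsg.indFun N (χ j) = τ i - τ j := by
    simp only [τ]
    abel
  rw [e, hi, hj, ← smul_sub]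
  congr 1
  abel

end aux


/-- Exceptional characters. Let S be a subset of a finite group contained in its normalizer N and meeting its conjugates by elements outside N only in the identity. Given n ≥ 2 distinct irreducible characters of N of equal degree that vanish on N away from S, there exist a sign ε and n distinct irreducible characters θ_i of G such that inducing χ_i − χ_j to G gives ε (θ_i − θ_j) for all i, j. -/
theorem result {G : Type*} [Group G] [Fintype G] (S : Set G) (hSN : S ⊆ Subgroup.normalizer S) (hTI : ∀ g : G, g ∉ Subgroup.normalizer S → ∀ s ∈ S, g * s * g⁻¹ ∈ S → s = 1) (n : ℕ) (hn : 2 ≤ n) (χ : Fin n → (Subgroup.normalizer S → ℂ)) (hirr : ∀ i, Cfsg.IsIrrCharacter (Subgroup.normalizer S) (χ i)) (hinj : Function.Injective χ) (hvan : ∀ i, ∀ x : Subgroup.normalizer S, (x : G) ∉ S → χ i x = 0) (hdeg : ∀ i j, χ i 1 = χ j 1) : ∃ ε : ℂ, (ε = 1 ∨ ε = -1) ∧ ∃ θ : Fin n → (G → ℂ), (∀ i, Cfsg.IsIrrCharacter G (θ i)) ∧ Function.Injective θ ∧ ∀ i j, Cfsg.indFun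 (Subgroup.normalizer S) (χ i) - Cfsg.indFun (Subgroup.normalizer S) (χ j) = ε • (θ i - θ j) := by
  exact aux (Subgroup.normalizer S) S hTI n hn χ hirr hinj hvan hdeg

end Cfsg.Agent.S0170
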