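import Mathlib
import Cfsg.Statements.S0185
import Cfsg.Agent.Lib.Helper2.CharIntegral
import Cfsg.Agent.Lib.Helper2.CharMore
import Cfsg.Agent.Lib.Helper2.CharLinear

set_option autoImplicit false
open Cfsg

namespace Cfsg.Agent.S0185

open Cfsg.Agent.Lib.Helper2

open Module


/-- If a finite group has a faithful complex representation of degree less than the smallest prime dividing its order, the group is abelian. -/
theorem result {G : Type*} [Group G] [Finite G] {V : Type*} [AddCommGroup V] [Module ℂ V] [FiniteDimensional ℂ V] (ρ : Representation ℂ G V) (hfaithful : Function.Injective ρ) (hdeg : ∀ p : ℕ, p.Prime → p ∣ Nat.card G → Module.finrank ℂ V < p) (a b : G) : a * b = b * a := by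
  classical
  have := Fintype.ofFinite G
  have := Fintype.ofFinite (Cfsg.IrrCharacter G)
  have hχ : Cfsg.IsCharacter G ρ.character := isCharacter_of_rep ρ
  have hval : ρ.character (a * b * a⁻¹ * b⁻¹) = ρ.character 1 := by
    have hexp := class_fun_expand ρ.character (isClassFunction_of_isCharacter hχ)
    have h1 := congrFun hexp (a * b * a⁻¹ * b⁻¹)
    have h2 := congrFun hexp 1
    rw [h1, h2, Finset.sum_apply, Finset.sum_apply]
    apply Finset.sum_congr rfl
    intro ψ _
    simp only [Pi.smul_apply, smul_eq_mul]
    by_cases h0 : Cfsg.classInner ρ.character ψ = 0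
    · rw [h0, zero_mul, zero_mul]
    · congr 1
      obtain ⟨N, d, hN, hd, hle⟩ := irr_deg_le_of_inner_ne_zero hχ ψ.2 h0
      have hNV : N = finrank ℂ V := by
        rw [Representation.char_one] at hN
        exact_mod_cast hN.symm
      obtain ⟨n, σ, hσ, hψ⟩ := ψ.2
      have hdn : d = n := by
        rw [← hψ, Representation.char_one, Module.finrank_fin_fun] at hd
        exact_mod_cast hd.symm
      have hdvd : n ∣ Nat.card G := by
        have h3 := irr_degree_dvd_card σ
        rwa [Module.finrank_fin_fun] at h3
      have hnpos : 0 < n := by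
        have h3 := irr_finrank_pos σ
        rwa [Module.finrank_fin_fun] at h3
      have hn1 : n = 1 := by
        by_contra hne
        obtain ⟨p, hp, hpn⟩ := Nat.exists_prime_and_dvd hne
        have h3 := hdeg p hp (hpn.trans hdvd)
        have h4 : p ≤ n := Nat.le_of_dvd hnpos hpn
        omega
      have hψ1 : (ψ : G → ℂ) 1 = 1 := by
        rw [hd, hdn, hn1]
        simp
      obtain ⟨lam, hlam⟩ := hom_of_irr_deg_one ψ.2 hψ1
      rw [hlam]
      change ((lam (a * b * a⁻¹ * b⁻¹) : ℂˣ) : ℂ) = ((lam 1 : ℂˣ) : ℂ)
      congr 1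
      rw [map_mul, map_mul, map_mul, map_inv, map_inv, map_one, mul_comm (lam a) (lam b),
        mul_inv_cancel_right, mul_inv_cancel]
  have hid : ρ (a * b * a⁻¹ * b⁻¹) = LinearMap.id :=
    (char_eq_finrank_iff ρ _).mp (by rw [hval, Representation.char_one])
  have hc1 : a * b * a⁻¹ * b⁻¹ = 1 := by
    apply hfaithful
    rw [hid, map_one]
    rfl
  calc a * b = (a * b * a⁻¹ * b⁻¹) * (b * a) := by group
    _ = b * a := by rw [hc1, one_mul]

end Cfsg.Agent.S0185
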