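import Mathlib
import Cfsg.Statements.S0208
import Cfsg.Agent.Lib.Helper2.Dihedral

set_option autoImplicit false
open Cfsg

namespace Cfsg.Agent.S0208

open Cfsg.Agent.Lib.Helper2

/-- If x, y are involutions and xy has odd order, then some element of the subgroup generated by x and y conjugates x to y. -/
theorem result {G : Type*} [Group G] [Finite G] (x y : G) (hx : orderOf x = 2) (hy : orderOf y = 2) (hodd : Odd (orderOf (x * y))) : ∃ d ∈ Subgroup.closure ({x, y} : Set G), d * x * d⁻¹ = y := by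
  obtain ⟨m, hm⟩ := hodd
  refine ⟨(x * y) ^ (m : ℤ), invol_zpow_mem_closure _, ?_⟩
  rw [invol_conj_zpow_form hx hy]
  have h1 : (x * y) ^ (2 * (m : ℤ)) = (x * y) ^ (-1 : ℤ) := by
    have h2 : (2 * (m : ℤ)) = ((orderOf (x * y) : ℕ) : ℤ) + (-1) := by
      rw [hm]; push_cast; ring
    rw [h2, zpow_add, zpow_natCast, pow_orderOf_eq_one, one_mul]
  rw [h1]
  exact (invol_y_eq' hx hy).symm

end Cfsg.Agent.S0208
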