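import Mathlib
import Cfsg.Statements.S0209
import Cfsg.Agent.Lib.Helper2.Dihedral

set_option autoImplicit false
open Cfsg

namespace Cfsg.Agent.S0209

open Cfsg.Agent.Lib.Helper2

/-- If x, y are involutions whose product has even order n, the element (xy)^(n/2) is an involution that commutes with x and with y. -/
theorem result {G : Type*} [Group G] [Finite G] (x y : G) (hx : orderOf x = 2) (hy : orderOf y = 2) (heven : Even (orderOf (x * y))) : orderOf ((x * y) ^ (orderOf (x * y) / 2)) = 2 ∧ Commute ((x * y) ^ (orderOf (x * y) / 2)) x ∧ Commute ((x * y) ^ (orderOf (x * y) / 2)) y := by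
  have hpos : 0 < orderOf (x * y) := orderOf_pos (x * y)
  obtain ⟨m, hm⟩ := heven
  have hm2 : orderOf (x * y) / 2 = m := by omega
  have hmpos : 0 < m := by omega
  rw [hm2]
  have hord : orderOf ((x * y) ^ m) = 2 := by
    rw [orderOf_pow' _ (by omega : m ≠ 0), hm]
    have : Nat.gcd (m + m) m = m := by
      rw [← two_mul]; exact Nat.gcd_eq_right (Dvd.intro_left 2 rfl)
    rw [this]
    have : m + m = 2 * m := by ring
    rw [this]
    exact Nat.mul_div_cancel _ hmpos
  have hz : ((x * y) ^ m) * ((x * y) ^ m) = 1 := invol_sq hord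
  have hzinv : (x * y) ^ (-(m : ℤ)) = (x * y) ^ m := by
    rw [zpow_neg, zpow_natCast]; exact invol_inv hord
  have hcx : Commute ((x * y) ^ m) x := by
    have := invol_mul_zpow hx hy (m : ℤ)
    rw [hzinv, zpow_natCast] at this
    exact this.symm
  refine ⟨hord, hcx, ?_⟩
  have hyeq : y = x * (x * y) := invol_y_eq hx
  have h3 : Commute ((x * y) ^ m) (x * y) := (Commute.refl (x * y)).pow_left m
  have h4 : Commute ((x * y) ^ m) (x * (x * y)) := hcx.mul_right h3
  rw [← hyeq] at h4
  exact h4

end Cfsg.Agent.S0209
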