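import Cfsg.Statements.S0228
import Mathlib
import Cfsg.Agent.Lib.Helper3.Invol
import Cfsg.Agent.Lib.Helper3.SylowCard

set_option autoImplicit false
open Cfsg

namespace Cfsg.Agent.S0228

open Cfsg.Agent.Lib.Helper3

/-- A group of order 12 in which no involution is central is isomorphic to the alternating group on four letters. -/
theorem result {G : Type*} [Group G] [Finite G] (hG : Nat.card G = 12) (hz : ∀ z : G, orderOf z = 2 → z ∉ Subgroup.center G) : Nonempty (G ≃* alternatingGroup (Fin 4)) := by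
  classical
  have : Fact (Nat.Prime 2) := ⟨Nat.prime_two⟩
  have : Fact (Nat.Prime 3) := ⟨Nat.prime_three⟩
  obtain ⟨P⟩ : Nonempty (Sylow 3 G) := inferInstance
  have hcard3 : ∀ Q : Sylow 3 G, Nat.card Q = 3 := by
    intro Q
    have := sylow_card_of Q (k := 1) (m := 4) (by rw [hG]; norm_num) (by norm_num)
    simpa using this
  have hPcard := hcard3 P
  have hPidx : (P : Subgroup G).index = 4 := by
    have := (P : Subgroup G).index_mul_card
    rw [hPcard, hG] at this; omega
  have hn3dvd : Nat.card (Sylow 3 G) ∣ 4 := hPidx ▸ P.card_dvd_index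
  have hn3mod : Nat.card (Sylow 3 G) % 3 = 1 := card_sylow_modEq_one 3 G
  have hn3 : Nat.card (Sylow 3 G) = 1 ∨ Nat.card (Sylow 3 G) = 4 := by
    have hle := Nat.le_of_dvd (by norm_num) hn3dvd
    interval_cases h : Nat.card (Sylow 3 G) <;> simp_all
  rcases hn3 with h1 | h4
  · exfalso
    have hsub : Subsingleton (Sylow 3 G) := (Nat.card_eq_one_iff_unique.mp h1).1
    have hPn : (P : Subgroup G).Normal := Sylow.normal_of_subsingleton P
    obtain ⟨a', ha'⟩ := exists_prime_orderOf_dvd_card' (G := P) 3 (by rw [hPcard])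
    have ha3 : orderOf (a' : G) = 3 := by rw [Subgroup.orderOf_coe]; exact ha'
    have haP : (a' : G) ∈ (P : Subgroup G) := a'.2
    generalize (a' : G) = a at ha3 haP
    have ha1 : a ≠ 1 := by
      intro h; rw [h, orderOf_one] at ha3; omega
    have hPz : Subgroup.zpowers a = (P : Subgroup G) := by
      apply Subgroup.eq_of_le_of_card_ge (Subgroup.zpowers_le.mpr haP)
      rw [Nat.card_zpowers, ha3, hPcard]
    have hconj : ∀ v : G, v * a * v⁻¹ = a ∨ v * a * v⁻¹ = a⁻¹ := by
      intro v
      have hm : v * a * v⁻¹ ∈ Subgroup.zpowers a := hPz ▸ hPn.conj_mem a haP v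
      rw [mem_zpowers_iff_mem_range_orderOf, ha3] at hm
      simp only [Finset.mem_image, Finset.mem_range] at hm
      obtain ⟨k, hk, hk2⟩ := hm
      interval_cases k
      · exfalso
        apply ha1
        rw [pow_zero] at hk2
        have e : a = v⁻¹ * (v * a * v⁻¹) * v := by group
        rw [e, ← hk2]; group
      · left; rw [← hk2, pow_one]
      · right
        rw [← hk2]
        symm
        rw [inv_eq_iff_mul_eq_one, ← pow_succ']
        have h9 := pow_orderOf_eq_one a
        rw [ha3] at h9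
        exact h9
    obtain ⟨V⟩ : Nonempty (Sylow 2 G) := inferInstance
    have hVcard : Nat.card V = 4 := by
      have := sylow_card_of V (k := 2) (m := 3) (by rw [hG]; norm_num) (by norm_num)
      simpa using this
    have : Fintype V := Fintype.ofFinite V
    have hcardV : Fintype.card V = 4 := by rw [← Nat.card_eq_fintype_card]; exact hVcard
    obtain ⟨v₁, v₂, hne, hf⟩ := Fintype.exists_ne_map_eq_of_card_lt
      (fun v : (V : Subgroup G) => decide ((v : G) * a * (v : G)⁻¹ = a)) (by simp [hcardV])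
    have hsame : (v₁ : G) * a * (v₁ : G)⁻¹ = (v₂ : G) * a * (v₂ : G)⁻¹ := by
      have hf' : ((v₁ : G) * a * (v₁ : G)⁻¹ = a) ↔ ((v₂ : G) * a * (v₂ : G)⁻¹ = a) := by
        simpa using hf
      rcases hconj (v₁ : G) with h | h
      · rw [h, hf'.mp h]
      · rcases hconj (v₂ : G) with h' | h'
        · rw [hf'.mpr h', h']
        · rw [h, h']
    have hwV : (v₁ : G)⁻¹ * (v₂ : G) ∈ (V : Subgroup G) := V.mul_mem (V.inv_mem v₁.2) v₂.2
    have hw1 : (v₁ : G)⁻¹ * (v₂ : G) ≠ 1 := by
      intro h; apply hne; apply Subtype.ext; exact inv_mul_eq_one.mp h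
    have hwa : (v₁ : G)⁻¹ * (v₂ : G) * a = a * ((v₁ : G)⁻¹ * (v₂ : G)) := by
      calc (v₁ : G)⁻¹ * (v₂ : G) * a = (v₁ : G)⁻¹ * ((v₂ : G) * a * (v₂ : G)⁻¹) * (v₂ : G) := by group
        _ = (v₁ : G)⁻¹ * ((v₁ : G) * a * (v₁ : G)⁻¹) * (v₂ : G) := by rw [hsame]
        _ = a * ((v₁ : G)⁻¹ * (v₂ : G)) := by group
    generalize (v₁ : G)⁻¹ * (v₂ : G) = w at hwV hw1 hwa
    have hw4 : w ^ 4 = 1 := by
      have h5 : (⟨w, hwV⟩ : V) ^ (Nat.card V) = 1 := pow_card_eq_one'
      rw [hVcard] at h5
      have h6 := congrArg Subtype.val h5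
      rw [Subgroup.coe_pow] at h6
      exact h6
    obtain ⟨z, hzV, hz2, hza⟩ : ∃ z ∈ (V : Subgroup G), orderOf z = 2 ∧ z * a = a * z := by
      by_cases hw2 : w * w = 1
      · exact ⟨w, hwV, invol_iff.mpr ⟨hw2, hw1⟩, hwa⟩
      · refine ⟨w * w, V.mul_mem hwV hwV, invol_iff.mpr ⟨?_, hw2⟩, ?_⟩
        · calc w * w * (w * w) = w ^ 4 := by rw [← pow_two, ← pow_two, ← pow_mul]
            _ = 1 := hw4
        · rw [mul_assoc, hwa, ← mul_assoc, hwa, mul_assoc]
    have hVab := IsPGroup.commutative_of_card_eq_prime_sq (p := 2) (G := V) (by rw [hVcard]; norm_num)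
    have hVle : (V : Subgroup G) ≤ Subgroup.centralizer ({z} : Set G) := by
      intro v hv
      rw [mem_cent_singleton]
      exact congrArg Subtype.val (hVab ⟨z, hzV⟩ ⟨v, hv⟩)
    have hPle : (P : Subgroup G) ≤ Subgroup.centralizer ({z} : Set G) := by
      rw [← hPz, Subgroup.zpowers_le, mem_cent_singleton]; exact hza
    have h4 : 4 ∣ Nat.card (Subgroup.centralizer ({z} : Set G)) :=
      hVcard ▸ Subgroup.card_dvd_of_le hVle
    have h3 : 3 ∣ Nat.card (Subgroup.centralizer ({z} : Set G)) :=
      hPcard ▸ Subgroup.card_dvd_of_le hPle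
    have hd := Subgroup.card_subgroup_dvd_card (Subgroup.centralizer ({z} : Set G))
    rw [hG] at hd
    have h12 : 12 ∣ Nat.card (Subgroup.centralizer ({z} : Set G)) :=
      Nat.Coprime.mul_dvd_of_dvd_of_dvd (by norm_num : Nat.Coprime 4 3) h4 h3
    have htop : Subgroup.centralizer ({z} : Set G) = ⊤ :=
      Subgroup.eq_top_of_card_eq _ (by rw [hG]; exact Nat.dvd_antisymm hd h12)
    apply hz z hz2
    rw [Subgroup.mem_center_iff]
    intro g
    have hg : g ∈ Subgroup.centralizer ({z} : Set G) := by rw [htop]; trivial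
    exact (mem_cent_singleton.mp hg).symm
  · have hN : ∀ Q : Sylow 3 G, Subgroup.normalizer ((Q : Subgroup G) : Set G) = Q := by
      intro Q
      have h1 : Nat.card (Sylow 3 G) = (Subgroup.normalizer ((Q : Subgroup G) : Set G)).index :=
        Q.card_eq_index_normalizer
      rw [h4] at h1
      have h2 := (Subgroup.normalizer ((Q : Subgroup G) : Set G)).index_mul_card
      rw [← h1, hG] at h2
      have h3 : Nat.card (Subgroup.normalizer ((Q : Subgroup G) : Set G)) = 3 := by omega
      symm
      exact Subgroup.eq_of_le_of_card_ge Subgroup.le_normalizer (by rw [h3, hcard3 Q])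
    have hφ : Function.Injective (MulAction.toPermHom G (Sylow 3 G)) := by
      rw [← MonoidHom.ker_eq_bot_iff, Subgroup.eq_bot_iff_forall]
      intro g hg
      by_contra hg1
      have hgQ : ∀ Q : Sylow 3 G, g ∈ (Q : Subgroup G) := by
        intro Q
        rw [← hN Q]
        apply Sylow.smul_eq_iff_mem_normalizer.mp
        have h5 := congrArg (fun σ : Equiv.Perm (Sylow 3 G) => σ Q) (MonoidHom.mem_ker.mp hg)
        simpa [MulAction.toPermHom_apply] using h5
      have hall : ∀ Q : Sylow 3 G, (Q : Subgroup G) = Subgroup.zpowers g := by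
        intro Q
        symm
        apply Subgroup.eq_of_le_of_card_ge (Subgroup.zpowers_le.mpr (hgQ Q))
        rw [hcard3 Q, Nat.card_zpowers]
        have hd : orderOf g ∣ 3 := by
          have h6 := orderOf_dvd_natCard (⟨g, hgQ Q⟩ : (Q : Subgroup G))
          rw [Subgroup.orderOf_mk, hcard3 Q] at h6; exact h6
        rcases (Nat.dvd_prime Nat.prime_three).mp hd with h | h
        · exact absurd (orderOf_eq_one_iff.mp h) hg1
        · rw [h]
      have hsub : Subsingleton (Sylow 3 G) :=
        ⟨fun Q Q' => Sylow.ext (by rw [hall Q, hall Q'])⟩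
      have h7 : Nat.card (Sylow 3 G) = 1 := Nat.card_eq_one_iff_unique.mpr ⟨hsub, inferInstance⟩
      omega
    have : Fintype (Sylow 3 G) := Fintype.ofFinite _
    have hcardS : Fintype.card (Sylow 3 G) = 4 := by rw [← Nat.card_eq_fintype_card]; exact h4
    have hrange : (MulAction.toPermHom G (Sylow 3 G)).range = alternatingGroup (Sylow 3 G) := by
      apply Equiv.Perm.eq_alternatingGroup_of_index_eq_two
      have h1 : Nat.card (MulAction.toPermHom G (Sylow 3 G)).range = 12 := by
        rw [← hG]; exact (Nat.card_congr (MonoidHom.ofInjective hφ).toEquiv).symm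
      have h2 := (MulAction.toPermHom G (Sylow 3 G)).range.index_mul_card
      rw [h1, Nat.card_perm, h4] at h2
      have h8 : Nat.factorial 4 = 24 := by decide
      omega
    have e1 : G ≃* (MulAction.toPermHom G (Sylow 3 G)).range := MonoidHom.ofInjective hφ
    have e2 : (MulAction.toPermHom G (Sylow 3 G)).range ≃* alternatingGroup (Sylow 3 G) :=
      MulEquiv.subgroupCongr hrange
    have e3 : Sylow 3 G ≃ Fin 4 := Fintype.equivFinOfCardEq hcardS
    exact ⟨(e1.trans e2).trans (Equiv.altCongrHom e3)⟩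

end Cfsg.Agent.S0228
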