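import Cfsg.Statements.S0290
import Mathlib
import Cfsg.Agent.Lib.Helper3.FormCount

set_option autoImplicit false
open Cfsg

namespace Cfsg.Agent.S0290

/-- The minus-type quadratic form on F^(2m), m at least 1, has q^(2m-1) + q^(m-1) - q^m zeros (that is, (q^m + 1)(q^(m-1) - 1) non-zero isotropic vectors). -/
theorem result {F : Type*} [Field F] [Fintype F] {q : ℕ} (hF : Fintype.card F = q) (m : ℕ) (hm : 1 ≤ m) (a b : F) (hab : ∀ z₁ z₂ : F, z₁ ^ 2 + a * z₁ * z₂ + b * z₂ ^ 2 = 0 → z₁ = 0 ∧ z₂ = 0) : Nat.card {v : (Fin (m - 1) ⊕ Fin (m - 1)) ⊕ Fin 2 → F // Cfsg.quadFormMinus (m - 1) F a b v = 0} = q ^ (2 * m - 1) + q ^ (m - 1) - q ^ m := by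
  classical
  subst hF
  have e : {v : (Fin (m - 1) ⊕ Fin (m - 1)) ⊕ Fin 2 → F // Cfsg.quadFormMinus (m - 1) F a b v = 0} ≃
      {p : ((Fin 2 → F) × (Fin (m - 1) → F)) × (Fin (m - 1) → F) // ∑ i, p.1.2 i * p.2 i =
        (fun z : Fin 2 → F => -(z 0 ^ 2 + a * z 0 * z 1 + b * z 1 ^ 2)) p.1.1} := by
    refine Equiv.subtypeEquiv ⟨fun v => ((fun j => v (Sum.inr j), fun i => v (Sum.inl (Sum.inl i))), fun i => v (Sum.inl (Sum.inr i))),
      fun p => Sum.elim (Sum.elim p.1.2 p.2) p.1.1, ?_, ?_⟩ ?_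
    · intro v
      funext s
      rcases s with (s | s) | s <;> rfl
    · intro p
      rfl
    · intro v
      show (∑ i : Fin (m - 1), v (Sum.inl (Sum.inl i)) * v (Sum.inl (Sum.inr i))) +
        (v (Sum.inr 0) ^ 2 + a * v (Sum.inr 0) * v (Sum.inr 1) + b * v (Sum.inr 1) ^ 2) = 0 ↔
        ∑ i : Fin (m - 1), v (Sum.inl (Sum.inl i)) * v (Sum.inl (Sum.inr i)) =
          -(v (Sum.inr 0) ^ 2 + a * v (Sum.inr 0) * v (Sum.inr 1) + b * v (Sum.inr 1) ^ 2)
      rw [eq_neg_iff_add_eq_zero]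
  rw [Nat.card_congr e, Cfsg.Agent.Lib.Helper3.card_pairs_dot (m - 1)
    (fun z : Fin 2 → F => -(z 0 ^ 2 + a * z 0 * z 1 + b * z 1 ^ 2))]
  have hz : Nat.card {z : Fin 2 → F // (fun z : Fin 2 → F => -(z 0 ^ 2 + a * z 0 * z 1 + b * z 1 ^ 2)) z = 0} = 1 := by
    have : Unique {z : Fin 2 → F // (fun z : Fin 2 → F => -(z 0 ^ 2 + a * z 0 * z 1 + b * z 1 ^ 2)) z = 0} :=
      { default := ⟨0, by simp⟩
        uniq := fun z => by
          apply Subtype.ext
          have h1 := z.2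
          simp only [neg_eq_zero] at h1
          obtain ⟨h2, h3⟩ := hab _ _ h1
          funext j
          fin_cases j
          · exact h2
          · exact h3 }
    exact Nat.card_unique
  rw [hz, one_mul, Fintype.card_fun, Fintype.card_fin]
  obtain ⟨M, rfl⟩ : ∃ M, m = M + 1 := ⟨m - 1, by omega⟩
  simp only [Nat.add_sub_cancel]
  rcases Nat.eq_zero_or_pos M with h0 | h0
  · subst h0
    simp
  · have h1 : Fintype.card F ^ 2 * (Fintype.card F ^ M - 1) * Fintype.card F ^ (M - 1) =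
        (Fintype.card F ^ M - 1) * Fintype.card F ^ (M + 1) := by
      have h2 : Fintype.card F ^ (M + 1) = Fintype.card F ^ 2 * Fintype.card F ^ (M - 1) := by
        rw [← pow_add]
        congr 1
        omega
      rw [mul_comm (Fintype.card F ^ 2) _, mul_assoc, ← h2]
    have h4 : Fintype.card F ^ (2 * (M + 1) - 1) = Fintype.card F ^ M * Fintype.card F ^ (M + 1) := by
      rw [← pow_add]
      congr 1
      omega
    rw [h1, h4, Nat.sub_mul, one_mul]
    have h3 : Fintype.card F ^ (M + 1) ≤ Fintype.card F ^ M * Fintype.card F ^ (M + 1) :=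
      Nat.le_mul_of_pos_left _ (pow_pos Fintype.card_pos _)
    omega

end Cfsg.Agent.S0290
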