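import Cfsg.Statements.S0294
import Mathlib
import Cfsg.Agent.S0288
import Cfsg.Agent.S0791
import Cfsg.Agent.Lib.Helper3.OmegaCenter
import Cfsg.Agent.Lib.Helper3.DicksonGen
import Cfsg.Agent.Lib.Helper16.SpinQuot

set_option autoImplicit false
open Cfsg

namespace Cfsg.Agent.S0294

open Cfsg.Agent.Lib.Helper16 Cfsg.Agent.Lib.Helper17 Cfsg.Agent.Lib.Helper3 Matrix

section Generic

variable {ι : Type} [Fintype ι] [DecidableEq ι] {F : Type*} [Field F]
variable (Q : QuadraticForm F (ι → F))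

/-- An isometry commuting with the commutator subgroup stabilises the line of a nonsingular
vector `u` having two partners `v`, `v'` (any characteristic). -/
theorem eig_gen [Fintype F] (hQ : (QuadraticMap.polarBilin Q).Nondegenerate)
    (hex : Fintype.card F ≠ 2 ∨ Fintype.card ι ≠ 4)
    (z : ↥(Cfsg.isometryGroup F (⇑Q)))
    (hz : ∀ g ∈ commutator ↥(Cfsg.isometryGroup F (⇑Q)), z * g = g * z)
    {u x v v' : ι → F} (hu : Q u ≠ 0) (hv : Q v ≠ 0) (hv' : Q v' ≠ 0)
    (hs : IsSquare (Q u * Q v)) (hs' : IsSquare (Q u * Q v'))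
    (hvx : QuadraticMap.polar (⇑Q) v x = 0) (hv'x : QuadraticMap.polar (⇑Q) v' x = 0)
    (hux : QuadraticMap.polar (⇑Q) u x ≠ 0)
    (i₀ : ι) (h1 : u i₀ = 0) (h2 : v' i₀ = 0) (h3 : v i₀ ≠ 0) :
    ∃ c : F, ((z : Matrix.GeneralLinearGroup ι F) : Matrix ι ι F) *ᵥ u = c • u := by
  have hmem := refl_pair_mem_omega Q hQ hex hu hv hs
  have hmem' := refl_pair_mem_omega Q hQ hex hu hv' hs'
  obtain ⟨a, b, hab⟩ := span_of_comm Q z hu hv (hz _ hmem) hvx hux
  obtain ⟨a', b', hab'⟩ := span_of_comm Q z hu hv' (hz _ hmem') hv'x hux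
  have e1 := congrFun hab i₀
  have e2 := congrFun hab' i₀
  rw [e1] at e2
  simp only [Pi.add_apply, Pi.smul_apply, smul_eq_mul, h1, h2, mul_zero, zero_add, add_zero]
    at e2
  have hb : b = 0 := by
    rcases mul_eq_zero.1 e2 with h | h
    · exact h
    · exact absurd h h3
  refine ⟨a, ?_⟩
  rw [hab, hb, zero_smul, add_zero]

end Generic

section Minus

variable (k : ℕ) (F : Type*) [Field F] (a b : F)

theorem a_ne_zero_of_char_two [Fintype F] (h2 : (2 : F) = 0)
    (hab : ∀ z₁ z₂ : F, z₁ ^ 2 + a * z₁ * z₂ + b * z₂ ^ 2 = 0 → z₁ = 0 ∧ z₂ = 0) : a ≠ 0 := by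
  intro ha
  have : CharP F 2 := charP_two_of_eq h2
  obtain ⟨r, hr⟩ := c2_fin_hsq b
  have := hab r 1 (by rw [ha]; linear_combination hr + b * h2)
  exact one_ne_zero this.2

theorem b_ne_zero
    (hab : ∀ z₁ z₂ : F, z₁ ^ 2 + a * z₁ * z₂ + b * z₂ ^ 2 = 0 → z₁ = 0 ∧ z₂ = 0) : b ≠ 0 := by
  intro hb
  have := hab 0 1 (by rw [hb]; ring)
  exact one_ne_zero this.2

theorem qfMinus_nondeg_all [Fintype F]
    (hab : ∀ z₁ z₂ : F, z₁ ^ 2 + a * z₁ * z₂ + b * z₂ ^ 2 = 0 → z₁ = 0 ∧ z₂ = 0) :
    (QuadraticMap.polarBilin (qfMinus k F a b)).Nondegenerate := by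
  by_cases h2 : (2 : F) = 0
  · have ha := a_ne_zero_of_char_two F a b h2 hab
    apply nondeg_of_sepLeft
    intro x hx
    have h0 := hx (Pi.single (Sum.inr 0) 1)
    have h1 := hx (Pi.single (Sum.inr 1) 1)
    rw [qfMinus_polar_zero, h2, zero_mul, zero_add] at h0
    rw [qfMinus_polar_one, h2, zero_mul, zero_mul, add_zero] at h1
    funext i
    rcases i with (j | j) | j
    · have := hx (Pi.single (Sum.inl (Sum.inr j)) 1)
      rw [qfMinus_polar_inr] at this
      exact this
    · have := hx (Pi.single (Sum.inl (Sum.inl j)) 1)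
      rw [qfMinus_polar_inl] at this
      exact this
    · fin_cases j
      · rcases mul_eq_zero.1 h1 with h | h
        · exact absurd h ha
        · exact h
      · rcases mul_eq_zero.1 h0 with h | h
        · exact absurd h ha
        · exact h
  · exact qfMinus_nondeg k F a b h2 hab

/-- The vector `e_j + t f_j`. -/
def pm (j : Fin k) (t : F) : (Fin k ⊕ Fin k) ⊕ Fin 2 → F :=
  Pi.single (Sum.inl (Sum.inl j)) 1 + Pi.single (Sum.inl (Sum.inr j)) t

theorem pm_q (j : Fin k) (t : F) : qfMinus k F a b (pm k F j t) = t := by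
  show Cfsg.quadFormMinus k F a b _ = t
  unfold Cfsg.quadFormMinus pm
  simp [Pi.single_apply]

theorem pm_polar (j : Fin k) (t : F) (x : (Fin k ⊕ Fin k) ⊕ Fin 2 → F) :
    QuadraticMap.polar (⇑(qfMinus k F a b)) (pm k F j t) x
      = t * x (Sum.inl (Sum.inl j)) + x (Sum.inl (Sum.inr j)) := by
  rw [qfMinus_coe, polar_minus]
  unfold pm
  simp [Pi.single_apply, Finset.sum_add_distrib]
  ring

theorem d0_q : qfMinus k F a b (Pi.single (Sum.inr 0) 1) = 1 := by
  show Cfsg.quadFormMinus k F a b _ = 1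
  unfold Cfsg.quadFormMinus
  simp [Pi.single_apply]

theorem d1_q : qfMinus k F a b (Pi.single (Sum.inr 1) 1) = b := by
  show Cfsg.quadFormMinus k F a b _ = b
  unfold Cfsg.quadFormMinus
  simp [Pi.single_apply]

/-- An isometry of the minus-type form in dimension at least 8 that commutes with the commutator
subgroup is a scalar of square one. -/
theorem minus_central_scalar [Fintype F] (hk : 3 ≤ k)
    (hab : ∀ z₁ z₂ : F, z₁ ^ 2 + a * z₁ * z₂ + b * z₂ ^ 2 = 0 → z₁ = 0 ∧ z₂ = 0)
    (z : ↥(Cfsg.isometryGroup F (⇑(qfMinus k F a b))))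
    (hz : ∀ g ∈ commutator ↥(Cfsg.isometryGroup F (⇑(qfMinus k F a b))), z * g = g * z) :
    ∃ c : F, c * c = 1 ∧ ((z : Matrix.GeneralLinearGroup ((Fin k ⊕ Fin k) ⊕ Fin 2) F) :
      Matrix ((Fin k ⊕ Fin k) ⊕ Fin 2) ((Fin k ⊕ Fin k) ⊕ Fin 2) F) = c • 1 := by
  have hQ := qfMinus_nondeg_all k F a b hab
  have hex : Fintype.card F ≠ 2 ∨ Fintype.card ((Fin k ⊕ Fin k) ⊕ Fin 2) ≠ 4 := by
    right
    simp only [Fintype.card_sum, Fintype.card_fin]
    omega
  have hb := b_ne_zero F a b hab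
  set Z := ((z : Matrix.GeneralLinearGroup ((Fin k ⊕ Fin k) ⊕ Fin 2) F) :
      Matrix ((Fin k ⊕ Fin k) ⊕ Fin 2) ((Fin k ⊕ Fin k) ⊕ Fin 2) F) with hZ
  have hone : IsSquare ((1 : F) * 1) := ⟨1, by ring⟩
  have hbb : IsSquare (b * b) := ⟨b, rfl⟩
  have hstep1 : ∀ j : Fin k, ∃ c : F, Z *ᵥ pm k F j 1 = c • pm k F j 1 := by
    intro j
    obtain ⟨l, hlj, -⟩ := Fin.exists_ne_and_ne_of_two_lt j j (by omega)
    obtain ⟨l', hl'j, hl'l⟩ := Fin.exists_ne_and_ne_of_two_lt j l (by omega)
    exact eig_gen (qfMinus k F a b) hQ hex z hz (u := pm k F j 1)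
      (x := Pi.single (Sum.inl (Sum.inl j)) 1) (v := pm k F l 1) (v' := pm k F l' 1)
      (by rw [pm_q]; exact one_ne_zero) (by rw [pm_q]; exact one_ne_zero)
      (by rw [pm_q]; exact one_ne_zero)
      (by rw [pm_q, pm_q]; exact hone) (by rw [pm_q, pm_q]; exact hone)
      (by rw [pm_polar]; simp [Pi.single_apply, hlj, Ne.symm hlj])
      (by rw [pm_polar]; simp [Pi.single_apply, hl'j, Ne.symm hl'j])
      (by rw [pm_polar]; simp)
      (Sum.inl (Sum.inl l))
      (by simp [pm, Pi.single_apply, hlj, Ne.symm hlj])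
      (by simp [pm, Pi.single_apply, hl'l, Ne.symm hl'l])
      (by simp [pm])
  choose c hc using hstep1
  have hstep2 : ∀ i j : Fin k, i ≠ j →
      Z *ᵥ Pi.single (Sum.inl (Sum.inl i)) 1 = c j • Pi.single (Sum.inl (Sum.inl i)) 1 ∧
      Z *ᵥ Pi.single (Sum.inl (Sum.inr i)) 1 = c j • Pi.single (Sum.inl (Sum.inr i)) 1 := by
    intro i j hij
    obtain ⟨l, hli, hlj⟩ := Fin.exists_ne_and_ne_of_two_lt i j (by omega)
    have hqe : qfMinus k F a b (Pi.single (Sum.inl (Sum.inl i)) 1 + pm k F j 1) = 1 := by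
      rw [QuadraticMap.map_add (⇑(qfMinus k F a b)), qfMinus_q_inl, pm_q, qfMinus_polar_inl]
      simp [pm, Pi.single_apply, hij]
    have hqf : qfMinus k F a b (Pi.single (Sum.inl (Sum.inr i)) 1 + pm k F j 1) = 1 := by
      rw [QuadraticMap.map_add (⇑(qfMinus k F a b)), qfMinus_q_inr, pm_q, qfMinus_polar_inr]
      simp [pm, Pi.single_apply, hij]
    obtain ⟨d, hd⟩ := eig_gen (qfMinus k F a b) hQ hex z hz
      (u := Pi.single (Sum.inl (Sum.inl i)) 1 + pm k F j 1)
      (x := Pi.single (Sum.inl (Sum.inl j)) 1) (v := pm k F l 1) (v' := Pi.single (Sum.inr 0) 1)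
      (by rw [hqe]; exact one_ne_zero) (by rw [pm_q]; exact one_ne_zero)
      (by rw [d0_q]; exact one_ne_zero)
      (by rw [hqe, pm_q]; exact hone) (by rw [hqe, d0_q]; exact hone)
      (by rw [pm_polar]; simp [Pi.single_apply, hlj, Ne.symm hlj])
      (by rw [qfMinus_polar_zero]; simp)
      (by rw [QuadraticMap.polar_add_left, qfMinus_polar_inl, pm_polar]; simp [Pi.single_apply])
      (Sum.inl (Sum.inl l))
      (by simp [pm, Pi.single_apply, hli, hlj, Ne.symm hli, Ne.symm hlj])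
      (by simp)
      (by simp [pm])
    obtain ⟨d', hd'⟩ := eig_gen (qfMinus k F a b) hQ hex z hz
      (u := Pi.single (Sum.inl (Sum.inr i)) 1 + pm k F j 1)
      (x := Pi.single (Sum.inl (Sum.inl j)) 1) (v := pm k F l 1) (v' := Pi.single (Sum.inr 0) 1)
      (by rw [hqf]; exact one_ne_zero) (by rw [pm_q]; exact one_ne_zero)
      (by rw [d0_q]; exact one_ne_zero)
      (by rw [hqf, pm_q]; exact hone) (by rw [hqf, d0_q]; exact hone)
      (by rw [pm_polar]; simp [Pi.single_apply, hlj, Ne.symm hlj])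
      (by rw [qfMinus_polar_zero]; simp)
      (by rw [QuadraticMap.polar_add_left, qfMinus_polar_inr, pm_polar]
          simp [Pi.single_apply, hij])
      (Sum.inl (Sum.inl l))
      (by simp [pm, Pi.single_apply, hli, hlj, Ne.symm hli, Ne.symm hlj])
      (by simp)
      (by simp [pm])
    rw [← hZ, Matrix.mulVec_add, hc j] at hd hd'
    have hZe : Z *ᵥ Pi.single (Sum.inl (Sum.inl i)) 1
        = d • Pi.single (Sum.inl (Sum.inl i)) 1 + (d - c j) • pm k F j 1 := by
      rw [eq_sub_of_add_eq hd, smul_add, sub_smul]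
      abel
    have hZf : Z *ᵥ Pi.single (Sum.inl (Sum.inr i)) 1
        = d' • Pi.single (Sum.inl (Sum.inr i)) 1 + (d' - c j) • pm k F j 1 := by
      rw [eq_sub_of_add_eq hd', smul_add, sub_smul]
      abel
    have hQe := isomG_map (qfMinus k F a b) z (Pi.single (Sum.inl (Sum.inl i)) 1)
    rw [← hZ, hZe, QuadraticMap.map_add (⇑(qfMinus k F a b)), QuadraticMap.map_smul,
      QuadraticMap.map_smul, qfMinus_q_inl, pm_q, QuadraticMap.polar_smul_left,
      QuadraticMap.polar_smul_right, qfMinus_polar_inl] at hQe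
    simp [pm, Pi.single_apply, hij] at hQe
    have hQf := isomG_map (qfMinus k F a b) z (Pi.single (Sum.inl (Sum.inr i)) 1)
    rw [← hZ, hZf, QuadraticMap.map_add (⇑(qfMinus k F a b)), QuadraticMap.map_smul,
      QuadraticMap.map_smul, qfMinus_q_inr, pm_q, QuadraticMap.polar_smul_left,
      QuadraticMap.polar_smul_right, qfMinus_polar_inr] at hQf
    simp [pm, Pi.single_apply, hij] at hQf
    have e1 : d = c j := sub_eq_zero.1 hQe
    have e2 : d' = c j := sub_eq_zero.1 hQf
    rw [hZe, hZf, e1, e2, sub_self, zero_smul, add_zero, add_zero]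
    exact ⟨rfl, rfl⟩
  have hconst : ∀ j j' : Fin k, c j = c j' := by
    intro j j'
    obtain ⟨i, hij, hij'⟩ := Fin.exists_ne_and_ne_of_two_lt j j' (by omega)
    have e1 := (hstep2 i j hij).1
    rw [(hstep2 i j' hij').1] at e1
    have e2 := congrFun e1 (Sum.inl (Sum.inl i))
    simpa using e2.symm
  have hE : ∀ i : Fin k, Z *ᵥ Pi.single (Sum.inl (Sum.inl i)) 1
      = c ⟨0, by omega⟩ • Pi.single (Sum.inl (Sum.inl i)) 1 := by
    intro i
    obtain ⟨j, hji, -⟩ := Fin.exists_ne_and_ne_of_two_lt i i (by omega)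
    rw [(hstep2 i j (Ne.symm hji)).1, hconst j ⟨0, by omega⟩]
  have hFv : ∀ i : Fin k, Z *ᵥ Pi.single (Sum.inl (Sum.inr i)) 1
      = c ⟨0, by omega⟩ • Pi.single (Sum.inl (Sum.inr i)) 1 := by
    intro i
    obtain ⟨j, hji, -⟩ := Fin.exists_ne_and_ne_of_two_lt i i (by omega)
    rw [(hstep2 i j (Ne.symm hji)).2, hconst j ⟨0, by omega⟩]
  have h01 : (⟨0, by omega⟩ : Fin k) ≠ ⟨1, by omega⟩ := by simp [Fin.ext_iff]
  have h02 : (⟨0, by omega⟩ : Fin k) ≠ ⟨2, by omega⟩ := by simp [Fin.ext_iff]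
  have h12 : (⟨1, by omega⟩ : Fin k) ≠ ⟨2, by omega⟩ := by simp [Fin.ext_iff]
  have hD0 : Z *ᵥ Pi.single (Sum.inr 0) 1 = c ⟨0, by omega⟩ • Pi.single (Sum.inr 0) 1 := by
    obtain ⟨c', hc'⟩ : ∃ c' : F, Z *ᵥ Pi.single (Sum.inr 0) 1 = c' • Pi.single (Sum.inr 0) 1 := by
      by_cases h2 : (2 : F) = 0
      · have ha := a_ne_zero_of_char_two F a b h2 hab
        exact eig_gen (qfMinus k F a b) hQ hex z hz (u := Pi.single (Sum.inr 0) 1)
          (x := Pi.single (Sum.inr 1) 1) (v := pm k F ⟨0, by omega⟩ 1)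
          (v' := pm k F ⟨1, by omega⟩ 1)
          (by rw [d0_q]; exact one_ne_zero) (by rw [pm_q]; exact one_ne_zero)
          (by rw [pm_q]; exact one_ne_zero)
          (by rw [d0_q, pm_q]; exact hone) (by rw [d0_q, pm_q]; exact hone)
          (by rw [pm_polar]; simp)
          (by rw [pm_polar]; simp)
          (by rw [qfMinus_polar_zero]; simpa using ha)
          (Sum.inl (Sum.inl ⟨0, by omega⟩))
          (by simp)
          (by simp [pm, Pi.single_apply, h01])
          (by simp [pm])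
      · exact eig_gen (qfMinus k F a b) hQ hex z hz (u := Pi.single (Sum.inr 0) 1)
          (x := Pi.single (Sum.inr 0) 1) (v := pm k F ⟨0, by omega⟩ 1)
          (v' := pm k F ⟨1, by omega⟩ 1)
          (by rw [d0_q]; exact one_ne_zero) (by rw [pm_q]; exact one_ne_zero)
          (by rw [pm_q]; exact one_ne_zero)
          (by rw [d0_q, pm_q]; exact hone) (by rw [d0_q, pm_q]; exact hone)
          (by rw [pm_polar]; simp)
          (by rw [pm_polar]; simp)
          (by rw [qfMinus_polar_zero]; simpa using h2)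
          (Sum.inl (Sum.inl ⟨0, by omega⟩))
          (by simp)
          (by simp [pm, Pi.single_apply, h01])
          (by simp [pm])
    have hq : qfMinus k F a b (Pi.single (Sum.inr 0) 1
        + Pi.single (Sum.inl (Sum.inl ⟨0, by omega⟩)) 1) = 1 := by
      rw [QuadraticMap.map_add (⇑(qfMinus k F a b)), qfMinus_q_inl, d0_q, qfMinus_polar_zero]
      simp
    obtain ⟨d, hd⟩ := eig_gen (qfMinus k F a b) hQ hex z hz
      (u := Pi.single (Sum.inr 0) 1 + Pi.single (Sum.inl (Sum.inl ⟨0, by omega⟩)) 1)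
      (x := Pi.single (Sum.inl (Sum.inr ⟨0, by omega⟩)) 1) (v := pm k F ⟨1, by omega⟩ 1)
      (v' := pm k F ⟨2, by omega⟩ 1)
      (by rw [hq]; exact one_ne_zero) (by rw [pm_q]; exact one_ne_zero)
      (by rw [pm_q]; exact one_ne_zero)
      (by rw [hq, pm_q]; exact hone) (by rw [hq, pm_q]; exact hone)
      (by rw [pm_polar]; simp [Pi.single_apply, h01])
      (by rw [pm_polar]; simp [Pi.single_apply, h02])
      (by rw [QuadraticMap.polar_add_left, qfMinus_polar_zero, qfMinus_polar_inl]; simp)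
      (Sum.inl (Sum.inl ⟨1, by omega⟩))
      (by simp [Pi.single_apply, h01])
      (by simp [pm, Pi.single_apply, h12])
      (by simp [pm])
    rw [← hZ, Matrix.mulVec_add, hc', hE] at hd
    have e1 := congrFun hd (Sum.inr 0)
    have e2 := congrFun hd (Sum.inl (Sum.inl ⟨0, by omega⟩))
    simp at e1 e2
    rw [hc', e1, ← e2]
  have hD1 : Z *ᵥ Pi.single (Sum.inr 1) 1 = c ⟨0, by omega⟩ • Pi.single (Sum.inr 1) 1 := by
    obtain ⟨c', hc'⟩ : ∃ c' : F, Z *ᵥ Pi.single (Sum.inr 1) 1 = c' • Pi.single (Sum.inr 1) 1 := by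
      by_cases h2 : (2 : F) = 0
      · have ha := a_ne_zero_of_char_two F a b h2 hab
        exact eig_gen (qfMinus k F a b) hQ hex z hz (u := Pi.single (Sum.inr 1) 1)
          (x := Pi.single (Sum.inr 0) 1) (v := pm k F ⟨0, by omega⟩ b)
          (v' := pm k F ⟨1, by omega⟩ b)
          (by rw [d1_q]; exact hb) (by rw [pm_q]; exact hb)
          (by rw [pm_q]; exact hb)
          (by rw [d1_q, pm_q]; exact hbb) (by rw [d1_q, pm_q]; exact hbb)
          (by rw [pm_polar]; simp)
          (by rw [pm_polar]; simp)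
          (by rw [qfMinus_polar_one]; simpa using ha)
          (Sum.inl (Sum.inl ⟨0, by omega⟩))
          (by simp)
          (by simp [pm, Pi.single_apply, h01])
          (by simp [pm])
      · exact eig_gen (qfMinus k F a b) hQ hex z hz (u := Pi.single (Sum.inr 1) 1)
          (x := Pi.single (Sum.inr 1) 1) (v := pm k F ⟨0, by omega⟩ b)
          (v' := pm k F ⟨1, by omega⟩ b)
          (by rw [d1_q]; exact hb) (by rw [pm_q]; exact hb)
          (by rw [pm_q]; exact hb)
          (by rw [d1_q, pm_q]; exact hbb) (by rw [d1_q, pm_q]; exact hbb)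
          (by rw [pm_polar]; simp)
          (by rw [pm_polar]; simp)
          (by rw [qfMinus_polar_one]; simpa using ⟨h2, hb⟩)
          (Sum.inl (Sum.inl ⟨0, by omega⟩))
          (by simp)
          (by simp [pm, Pi.single_apply, h01])
          (by simp [pm])
    have hq : qfMinus k F a b (Pi.single (Sum.inr 1) 1
        + Pi.single (Sum.inl (Sum.inl ⟨0, by omega⟩)) 1) = b := by
      rw [QuadraticMap.map_add (⇑(qfMinus k F a b)), qfMinus_q_inl, d1_q, qfMinus_polar_one]
      simp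
    obtain ⟨d, hd⟩ := eig_gen (qfMinus k F a b) hQ hex z hz
      (u := Pi.single (Sum.inr 1) 1 + Pi.single (Sum.inl (Sum.inl ⟨0, by omega⟩)) 1)
      (x := Pi.single (Sum.inl (Sum.inr ⟨0, by omega⟩)) 1) (v := pm k F ⟨1, by omega⟩ b)
      (v' := pm k F ⟨2, by omega⟩ b)
      (by rw [hq]; exact hb) (by rw [pm_q]; exact hb)
      (by rw [pm_q]; exact hb)
      (by rw [hq, pm_q]; exact hbb) (by rw [hq, pm_q]; exact hbb)
      (by rw [pm_polar]; simp [Pi.single_apply, h01])
      (by rw [pm_polar]; simp [Pi.single_apply, h02])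
      (by rw [QuadraticMap.polar_add_left, qfMinus_polar_one, qfMinus_polar_inl]; simp)
      (Sum.inl (Sum.inl ⟨1, by omega⟩))
      (by simp [Pi.single_apply, h01])
      (by simp [pm, Pi.single_apply, h12])
      (by simp [pm])
    rw [← hZ, Matrix.mulVec_add, hc', hE] at hd
    have e1 := congrFun hd (Sum.inr 1)
    have e2 := congrFun hd (Sum.inl (Sum.inl ⟨0, by omega⟩))
    simp at e1 e2
    rw [hc', e1, ← e2]
  have hcol : ∀ t, Z *ᵥ Pi.single t 1 = c ⟨0, by omega⟩ • Pi.single t 1 := by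
    rintro ((i | i) | j)
    · exact hE i
    · exact hFv i
    · fin_cases j
      · exact hD0
      · exact hD1
  refine ⟨c ⟨0, by omega⟩, ?_, ?_⟩
  · have := isomG_map (qfMinus k F a b) z (pm k F ⟨0, by omega⟩ 1)
    rw [← hZ, hc, QuadraticMap.map_smul, pm_q, smul_eq_mul, mul_one] at this
    exact this
  · ext s t
    have := congrFun (hcol t) s
    rw [Matrix.mulVec_single_one] at this
    simp only [Matrix.col_apply, Pi.smul_apply, smul_eq_mul] at this
    rw [this, Matrix.smul_apply, Matrix.one_apply, Pi.single_apply, smul_eq_mul]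

end Minus

/-- gcd(4, q^m + 1) |PΩ^-_{2m}(q)| = q^(m(m-1)) (q^m + 1) prod_{i=1}^{m-1} (q^(2i) - 1), m at least 4 (type ²D_m). -/
theorem result {F : Type*} [Field F] [Fintype F] {q : ℕ} (hF : Fintype.card F = q) (m : ℕ) (hm : 4 ≤ m) (a b : F) (hab : ∀ z₁ z₂ : F, z₁ ^ 2 + a * z₁ * z₂ + b * z₂ ^ 2 = 0 → z₁ = 0 ∧ z₂ = 0) : Nat.gcd 4 (q ^ m + 1) * Nat.card (Cfsg.POmega F (Cfsg.quadFormMinus (m - 1) F a b)) = q ^ (m * (m - 1)) * (q ^ m + 1) * ∏ i ∈ Finset.range (m - 1), (q ^ (2 * (i + 1)) - 1) := by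
  subst hF
  obtain ⟨k, rfl⟩ : ∃ k, m = k + 1 := ⟨m - 1, by omega⟩
  rw [Nat.add_sub_cancel]
  have hcard := Cfsg.Agent.S0288.card_minus_closed (F := F) a b hab k
  have hquot := Subgroup.card_eq_card_quotient_mul_card_subgroup
    (Subgroup.center (Cfsg.Omega F (Cfsg.quadFormMinus k F a b)))
  have hidxmul := Subgroup.card_mul_index (Cfsg.Omega F (Cfsg.quadFormMinus k F a b))
  have hQ := qfMinus_nondeg_all k F a b hab
  have hscal : ∀ z ∈ Subgroup.center (Cfsg.Omega F (Cfsg.quadFormMinus k F a b)),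
      ∃ c : F, c * c = 1 ∧ (((z : ↥(Cfsg.isometryGroup F (Cfsg.quadFormMinus k F a b))) :
        Matrix.GeneralLinearGroup ((Fin k ⊕ Fin k) ⊕ Fin 2) F) :
        Matrix ((Fin k ⊕ Fin k) ⊕ Fin 2) ((Fin k ⊕ Fin k) ⊕ Fin 2) F) = c • 1 := by
    intro z hz
    rw [Subgroup.mem_center_iff] at hz
    apply minus_central_scalar k F a b (by omega) hab
    intro g hg
    have := hz ⟨g, hg⟩
    exact (congrArg Subtype.val this).symm
  have hQpos : 1 ≤ Fintype.card F ^ (k + 1) := Nat.one_le_pow _ _ Fintype.card_pos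
  show Nat.gcd 4 (Fintype.card F ^ (k + 1) + 1) *
    Nat.card (↥(Cfsg.Omega F (Cfsg.quadFormMinus k F a b)) ⧸
      Subgroup.center ↥(Cfsg.Omega F (Cfsg.quadFormMinus k F a b))) = _
  by_cases h2 : (2 : F) = 0
  · have hidx : (Cfsg.Omega F (Cfsg.quadFormMinus k F a b)).index = 2 :=
      omega_index_char_two (qfMinus k F a b) h2 hQ (by
        right
        simp only [Fintype.card_sum, Fintype.card_fin]
        omega)
    have hcen : Nat.card (Subgroup.center (Cfsg.Omega F (Cfsg.quadFormMinus k F a b))) = 1 := by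
      rw [Subgroup.card_eq_one, Subgroup.eq_bot_iff_forall]
      intro z hz
      obtain ⟨c, hc, hzc⟩ := hscal z hz
      have hc1 : c = 1 := by
        have h3 : (c - 1) * (c - 1) = 0 := by linear_combination hc + (1 - c) * h2
        have h4 := mul_self_eq_zero.1 h3
        exact sub_eq_zero.1 h4
      apply Subtype.ext
      apply isomG_ext (qfMinus k F a b)
      rw [hzc, hc1, one_smul]
      rfl
    have heven : Even (Fintype.card F ^ (k + 1)) := by
      have : CharP F 2 := charP_two_of_eq h2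
      have h3 := FiniteField.even_card_of_char_two ((ringChar.eq_iff).mpr this)
      exact (Nat.even_pow.2 ⟨Nat.even_iff.2 h3, by omega⟩)
    have hgcd : Nat.gcd 4 (Fintype.card F ^ (k + 1) + 1) = 1 := by
      rw [Nat.gcd_rec]
      obtain ⟨t, ht⟩ := heven
      have h5 : (Fintype.card F ^ (k + 1) + 1) % 4 = 1 ∨ (Fintype.card F ^ (k + 1) + 1) % 4 = 3 := by
        omega
      rcases h5 with h5 | h5 <;> rw [h5] <;> rfl
    rw [hgcd, one_mul]
    rw [hidx, hquot, hcen, mul_one, hcard] at hidxmul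
    generalize Nat.card (↥(Cfsg.Omega F (Cfsg.quadFormMinus k F a b)) ⧸
      Subgroup.center ↥(Cfsg.Omega F (Cfsg.quadFormMinus k F a b))) = x at hidxmul ⊢
    generalize Fintype.card F ^ ((k + 1) * k) = A at hidxmul ⊢
    generalize (Fintype.card F ^ (k + 1) + 1) = B at hidxmul ⊢
    generalize (∏ i ∈ Finset.range k, (Fintype.card F ^ (2 * (i + 1)) - 1)) = C at hidxmul ⊢
    have : 2 * x = 2 * (A * B * C) := by rw [mul_comm 2 x, hidxmul]; ring
    exact Nat.eq_of_mul_eq_mul_left (by norm_num) this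
  · have hodd : Odd (Fintype.card F) := by
      rw [← Nat.not_even_iff_odd]
      intro he
      have h3 : ringChar F = 2 := by
        have hp : (ringChar F).Prime := CharP.char_is_prime F (ringChar F)
        obtain ⟨n, hn, hcardF⟩ := FiniteField.card F (ringChar F)
        have h5 : 2 ∣ ringChar F ^ (n : ℕ) := by rw [← hcardF]; exact he.two_dvd
        have h6 := Nat.prime_two.dvd_of_dvd_pow h5
        exact ((Nat.prime_dvd_prime_iff_eq Nat.prime_two hp).1 h6).symm
      have : CharP F 2 := ringChar.of_eq h3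
      exact h2 CharTwo.two_eq_zero
    have hidx : (Cfsg.Omega F (Cfsg.quadFormMinus k F a b)).index = 4 :=
      omega_index (qfMinus k F a b) h2 hQ (by
        simp only [Fintype.card_sum, Fintype.card_fin]
        omega)
    have hmem := Cfsg.Agent.Lib.Helper16.neg_one_mem_omega_minus (F := F) k a b rfl hodd hab
    have hQodd : Odd (Fintype.card F ^ (k + 1)) := hodd.pow
    by_cases h4 : Fintype.card F ^ (k + 1) % 4 = 3
    · obtain ⟨g, hgO, hg⟩ := hmem.2 h4
      have hgc : (⟨g, hgO⟩ : ↥(Cfsg.Omega F (Cfsg.quadFormMinus k F a b)))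
          ∈ Subgroup.center (Cfsg.Omega F (Cfsg.quadFormMinus k F a b)) := by
        rw [Subgroup.mem_center_iff]
        intro h
        apply Subtype.ext
        apply isomG_ext (qfMinus k F a b)
        show ((h : ↥(Cfsg.isometryGroup F (Cfsg.quadFormMinus k F a b))) : Matrix.GeneralLinearGroup ((Fin k ⊕ Fin k) ⊕ Fin 2) F).1 * (g : Matrix.GeneralLinearGroup ((Fin k ⊕ Fin k) ⊕ Fin 2) F).1
          = (g : Matrix.GeneralLinearGroup ((Fin k ⊕ Fin k) ⊕ Fin 2) F).1 * ((h : ↥(Cfsg.isometryGroup F (Cfsg.quadFormMinus k F a b))) : Matrix.GeneralLinearGroup ((Fin k ⊕ Fin k) ⊕ Fin 2) F).1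
        rw [hg]
        simp
      have hcen : Nat.card (Subgroup.center (Cfsg.Omega F (Cfsg.quadFormMinus k F a b))) = 2 := by
        rw [Nat.card_eq_two_iff' 1]
        refine ⟨⟨⟨g, hgO⟩, hgc⟩, ?_, ?_⟩
        · intro h1
          have h3 := congrArg (fun y : ↥(Subgroup.center (Cfsg.Omega F (Cfsg.quadFormMinus k F a b))) =>
            (((y : ↥(Cfsg.Omega F (Cfsg.quadFormMinus k F a b))) : ↥(Cfsg.isometryGroup F (Cfsg.quadFormMinus k F a b))) : Matrix.GeneralLinearGroup ((Fin k ⊕ Fin k) ⊕ Fin 2) F).1 (Sum.inr 0) (Sum.inr 0)) h1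
          simp only at h3
          rw [hg] at h3
          simp at h3
          apply h2
          linear_combination -h3
        · intro y hy
          obtain ⟨c, hc, hzc⟩ := hscal y.1 y.2
          rcases mul_self_eq_one_iff.1 hc with hc1 | hc1
          · exfalso
            apply hy
            apply Subtype.ext
            apply Subtype.ext
            apply isomG_ext (qfMinus k F a b)
            rw [hzc, hc1, one_smul]
            rfl
          · apply Subtype.ext
            apply Subtype.ext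
            apply isomG_ext (qfMinus k F a b)
            rw [hzc, hc1, hg]
            simp
      have hgcd : Nat.gcd 4 (Fintype.card F ^ (k + 1) + 1) = 4 := by
        rw [Nat.gcd_rec]
        have h5 : (Fintype.card F ^ (k + 1) + 1) % 4 = 0 := by omega
        rw [h5]
        rfl
      rw [hgcd]
      rw [hidx, hquot, hcen, hcard] at hidxmul
      generalize Nat.card (↥(Cfsg.Omega F (Cfsg.quadFormMinus k F a b)) ⧸
        Subgroup.center ↥(Cfsg.Omega F (Cfsg.quadFormMinus k F a b))) = x at hidxmul ⊢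
      generalize Fintype.card F ^ ((k + 1) * k) = A at hidxmul ⊢
      generalize (Fintype.card F ^ (k + 1) + 1) = B at hidxmul ⊢
      generalize (∏ i ∈ Finset.range k, (Fintype.card F ^ (2 * (i + 1)) - 1)) = C at hidxmul ⊢
      have : 2 * (4 * x) = 2 * (A * B * C) := by
        have e : 2 * (4 * x) = x * 2 * 4 := by ring
        rw [e, hidxmul]; ring
      exact Nat.eq_of_mul_eq_mul_left (by norm_num) this
    · have hcen : Nat.card (Subgroup.center (Cfsg.Omega F (Cfsg.quadFormMinus k F a b))) = 1 := by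
        rw [Subgroup.card_eq_one, Subgroup.eq_bot_iff_forall]
        intro z hz
        obtain ⟨c, hc, hzc⟩ := hscal z hz
        rcases mul_self_eq_one_iff.1 hc with hc1 | hc1
        · apply Subtype.ext
          apply isomG_ext (qfMinus k F a b)
          rw [hzc, hc1, one_smul]
          rfl
        · exfalso
          apply h4
          rw [← hmem]
          refine ⟨z.1, z.2, ?_⟩
          rw [hzc, hc1]
          simp
      have hgcd : Nat.gcd 4 (Fintype.card F ^ (k + 1) + 1) = 2 := by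
        rw [Nat.gcd_rec]
        obtain ⟨t, ht⟩ := hQodd
        have h5 : (Fintype.card F ^ (k + 1) + 1) % 4 = 2 := by omega
        rw [h5]
        rfl
      rw [hgcd]
      rw [hidx, hquot, hcen, mul_one, hcard] at hidxmul
      generalize Nat.card (↥(Cfsg.Omega F (Cfsg.quadFormMinus k F a b)) ⧸
        Subgroup.center ↥(Cfsg.Omega F (Cfsg.quadFormMinus k F a b))) = x at hidxmul ⊢
      generalize Fintype.card F ^ ((k + 1) * k) = A at hidxmul ⊢
      generalize (Fintype.card F ^ (k + 1) + 1) = B at hidxmul ⊢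
      generalize (∏ i ∈ Finset.range k, (Fintype.card F ^ (2 * (i + 1)) - 1)) = C at hidxmul ⊢
      have : 2 * (2 * x) = 2 * (A * B * C) := by
        have e : 2 * (2 * x) = x * 4 := by ring
        rw [e, hidxmul]; ring
      exact Nat.eq_of_mul_eq_mul_left (by norm_num) this

end Cfsg.Agent.S0294
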