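import Cfsg.Statements.S0436

set_option autoImplicit false
open Pointwise
open Cfsg

namespace Cfsg.Agent.S0436

theorem sq_one_of_order {G : Type*} [Group G] {a : G} (h : orderOf a = 2) : a * a = 1 := by
  have := pow_orderOf_eq_one a
  rw [h, pow_two] at this
  exact this

theorem commute_of_sq {G : Type*} [Group G] {e a : G} (he : e * e = 1) (ha : a * a = 1)
    (h : (e * a) ^ 2 = 1) : Commute e a := by
  have h1 : e * a * (e * a) = 1 := by rw [← pow_two]; exact h
  show e * a = a * e
  have h2 : e * a = (e * a)⁻¹ := (inv_eq_of_mul_eq_one_left h1).symm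
  rw [h2, mul_inv_rev, inv_eq_of_mul_eq_one_left he, inv_eq_of_mul_eq_one_left ha]

/-- if `e` commutes with the product of two commuting distinct involutions, and all pair products
have order at most three, then `e` commutes with both. -/
theorem key {G : Type*} [Group G] {a b e : G} (ha : a * a = 1) (hb : b * b = 1) (he : e * e = 1)
    (hea : (e * a) ^ 2 = 1 ∨ (e * a) ^ 3 = 1) (heb : (e * b) ^ 2 = 1 ∨ (e * b) ^ 3 = 1)
    (hab : a ≠ b) (hcomm : Commute a b) (h : Commute e (a * b)) : Commute e a ∧ Commute e b := by
  have hainv : a⁻¹ = a := inv_eq_of_mul_eq_one_left ha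
  have hbinv : b⁻¹ = b := inv_eq_of_mul_eq_one_left hb
  have hb_of_a : Commute e a → Commute e b := by
    intro h1
    have : Commute e (a⁻¹ * (a * b)) := h1.inv_right.mul_right h
    rwa [inv_mul_cancel_left] at this
  have ha_of_b : Commute e b → Commute e a := by
    intro h1
    have : Commute e (a * b * b⁻¹) := h.mul_right h1.inv_right
    rwa [mul_inv_cancel_right] at this
  rcases hea with hea | hea
  · have := commute_of_sq he ha hea
    exact ⟨this, hb_of_a this⟩
  rcases heb with heb | heb
  · have := commute_of_sq he hb heb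
    exact ⟨ha_of_b this, this⟩
  exfalso
  -- e * b = (e * a) * (a * b)
  have e1 : e * b = (e * a) * (a * b) := by
    rw [mul_assoc, ← mul_assoc a a b, ha, one_mul]
  have hc : Commute (e * a) (a * b) := by
    have h1 : Commute a (a * b) := (Commute.refl a).mul_right hcomm
    exact h.mul_left h1
  have hz2 : (a * b) ^ 2 = 1 := by
    rw [hcomm.mul_pow, pow_two, pow_two, ha, hb, one_mul]
  have hz3 : (a * b) ^ 3 = a * b := by
    rw [pow_succ, hz2, one_mul]
  rw [e1, hc.mul_pow, hea, one_mul, hz3] at heb
  apply hab
  have : a = b⁻¹ := eq_inv_of_mul_eq_one_left heb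
  rw [this, hbinv]

/-- For distinct commuting members a, b of a set of 3-transpositions E, a member e of E centralises the product a * b if and only if it centralises both a and b. -/
theorem result {G : Type*} [Group G] {E : Set G} (hE : Cfsg.IsThreeTranspositionSet E) {a b e : G} (ha : a ∈ E) (hb : b ∈ E) (he : e ∈ E) (hab : a ≠ b) (hcomm : Commute a b) : Commute e (a * b) ↔ (Commute e a ∧ Commute e b) := by
  constructor
  · intro h
    exact key (sq_one_of_order (hE.1 a ha)) (sq_one_of_order (hE.1 b hb)) (sq_one_of_order (hE.1 e he))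
      (hE.2 e he a ha) (hE.2 e he b hb) hab hcomm h
  · rintro ⟨h1, h2⟩
    exact h1.mul_right h2

end Cfsg.Agent.S0436
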