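import Cfsg.Statements.S0437
import Cfsg.Agent.S0436

set_option autoImplicit false
open Pointwise
open Cfsg

namespace Cfsg.Agent.S0437

theorem braid_of_cube {G : Type*} [Group G] {e a : G} (he : e * e = 1) (ha : a * a = 1)
    (h : (e * a) ^ 3 = 1) : e * (a * e) = a * (e * a) := by
  have heinv : e⁻¹ = e := inv_eq_of_mul_eq_one_left he
  have hainv : a⁻¹ = a := inv_eq_of_mul_eq_one_left ha
  have h1 : e * a * (e * a) * (e * a) = 1 := by
    rw [← h, pow_succ, pow_two]
  have h2 : e * a * e * (a * e * a) = 1 := by
    rw [← h1]; simp only [mul_assoc]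
  have h3 : e * a * e = (a * e * a)⁻¹ := eq_inv_of_mul_eq_one_left h2
  rw [mul_inv_rev, mul_inv_rev, hainv, heinv] at h3
  rw [← mul_assoc, h3]

/-- in a group generated by involutions `e, a, b` with `a b = b a` and `(e a)^3 = (e b)^3 = 1`,
the element `e a b` has order dividing four. -/
theorem pow_four {G : Type*} [Group G] {e a b : G} (he : e * e = 1) (ha : a * a = 1)
    (hb : b * b = 1) (hab : a * b = b * a) (hea : (e * a) ^ 3 = 1) (heb : (e * b) ^ 3 = 1) :
    (e * (a * b)) ^ 4 = 1 := by
  have R1' := braid_of_cube he ha hea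
  have R2' := braid_of_cube he hb heb
  have R1 : ∀ x, e * (a * (e * x)) = a * (e * (a * x)) := fun x => by
    calc e * (a * (e * x)) = (e * (a * e)) * x := by simp only [mul_assoc]
      _ = (a * (e * a)) * x := by rw [R1']
      _ = _ := by simp only [mul_assoc]
  have R2 : ∀ x, e * (b * (e * x)) = b * (e * (b * x)) := fun x => by
    calc e * (b * (e * x)) = (e * (b * e)) * x := by simp only [mul_assoc]
      _ = (b * (e * b)) * x := by rw [R2']
      _ = _ := by simp only [mul_assoc]
  have R3 : ∀ x, a * (b * x) = b * (a * x) := fun x => by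
    rw [← mul_assoc, hab, mul_assoc]
  have he' : ∀ x, e * (e * x) = x := fun x => by rw [← mul_assoc, he, one_mul]
  have ha' : ∀ x, a * (a * x) = x := fun x => by rw [← mul_assoc, ha, one_mul]
  have hb' : ∀ x, b * (b * x) = x := fun x => by rw [← mul_assoc, hb, one_mul]
  have key : e * (a * (b * (e * (a * b)))) = a * (b * (e * (a * (b * e)))) := by
    calc e * (a * (b * (e * (a * b)))) = e * (a * (b * (e * (b * a)))) := by rw [hab]
      _ = e * (a * (e * (b * (e * a)))) := by rw [← R2 a]
      _ = a * (e * (a * (b * (e * a)))) := by rw [R1]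
      _ = a * (e * (b * (a * (e * a)))) := by rw [R3 (e * a)]
      _ = a * (e * (b * (e * (a * e)))) := by rw [← R1']
      _ = a * (b * (e * (b * (a * e)))) := by rw [R2 (a * e)]
      _ = a * (b * (e * (a * (b * e)))) := by rw [← R3 e]
  have h4 : (e * (a * b)) ^ 4 = (e * (a * (b * (e * (a * b))))) * (e * (a * (b * (e * (a * b))))) := by
    rw [pow_succ, pow_succ, pow_two]; simp only [mul_assoc]
  rw [h4]
  nth_rewrite 1 [key]
  simp only [mul_assoc, he']
  rw [R3 (a * (b * (e * (a * b)))), ha', hb', he', hab, hb', ha]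

open Cfsg.Agent.S0436 in
/-- For three distinct, pairwise commuting members a, b, c of a set of 3-transpositions E, a member e of E centralises a * b * c if and only if it centralises each of a, b and c. -/
theorem result {G : Type*} [Group G] {E : Set G} (hE : Cfsg.IsThreeTranspositionSet E) {a b c e : G} (ha : a ∈ E) (hb : b ∈ E) (hc : c ∈ E) (he : e ∈ E) (hab : a ≠ b) (hac : a ≠ c) (hbc : b ≠ c) (h₁ : Commute a b) (h₂ : Commute a c) (h₃ : Commute b c) : Commute e (a * b * c) ↔ (Commute e a ∧ Commute e b ∧ Commute e c) := by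
  have ha2 := sq_one_of_order (hE.1 a ha)
  have hb2 := sq_one_of_order (hE.1 b hb)
  have hc2 := sq_one_of_order (hE.1 c hc)
  have he2 := sq_one_of_order (hE.1 e he)
  have hainv : a⁻¹ = a := inv_eq_of_mul_eq_one_left ha2
  have hbinv : b⁻¹ = b := inv_eq_of_mul_eq_one_left hb2
  have hcinv : c⁻¹ = c := inv_eq_of_mul_eq_one_left hc2
  constructor
  · intro h
    by_cases hea : Commute e a
    · have h' : Commute e (b * c) := by
        have : Commute e (a⁻¹ * (a * b * c)) := hea.inv_right.mul_right h
        rwa [mul_assoc, inv_mul_cancel_left] at this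
      have := key hb2 hc2 he2 (hE.2 e he b hb) (hE.2 e he c hc) hbc h₃ h'
      exact ⟨hea, this.1, this.2⟩
    by_cases heb : Commute e b
    · have h' : Commute e (a * c) := by
        have : Commute e (b⁻¹ * (a * b * c)) := heb.inv_right.mul_right h
        rwa [h₁.eq, mul_assoc, inv_mul_cancel_left] at this
      have := key ha2 hc2 he2 (hE.2 e he a ha) (hE.2 e he c hc) hac h₂ h'
      exact ⟨this.1, heb, this.2⟩
    by_cases hec : Commute e c
    · have h' : Commute e (a * b) := by
        have : Commute e (a * b * c * c⁻¹) := h.mul_right hec.inv_right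
        rwa [mul_inv_cancel_right] at this
      have := key ha2 hb2 he2 (hE.2 e he a ha) (hE.2 e he b hb) hab h₁ h'
      exact ⟨this.1, this.2, hec⟩
    exfalso
    have hea3 : (e * a) ^ 3 = 1 := by
      rcases hE.2 e he a ha with h2 | h3
      · exact absurd (commute_of_sq he2 ha2 h2) hea
      · exact h3
    have heb3 : (e * b) ^ 3 = 1 := by
      rcases hE.2 e he b hb with h2 | h3
      · exact absurd (commute_of_sq he2 hb2 h2) heb
      · exact h3
    have hec3 : (e * c) ^ 3 = 1 := by
      rcases hE.2 e he c hc with h2 | h3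
      · exact absurd (commute_of_sq he2 hc2 h2) hec
      · exact h3
    have hw4 := pow_four he2 ha2 hb2 h₁.eq hea3 heb3
    -- z = a * b * c commutes with e * (a * b)
    have hza : Commute (a * b * c) a := ((Commute.refl a).mul_left h₁.symm).mul_left h₂.symm
    have hzb : Commute (a * b * c) b := (h₁.mul_left (Commute.refl b)).mul_left h₃.symm
    have hzw : Commute (e * (a * b)) (a * b * c) := h.mul_left (hza.symm.mul_left hzb.symm)
    have hz2 : (a * b * c) ^ 2 = 1 := by
      have habc : Commute (a * b) c := h₂.mul_left h₃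
      rw [habc.mul_pow, h₁.mul_pow, pow_two, pow_two, pow_two, ha2, hb2, hc2, one_mul, one_mul]
    have hz3 : (a * b * c) ^ 3 = a * b * c := by rw [pow_succ, hz2, one_mul]
    have e1 : e * c = e * (a * b) * (a * b * c) := by
      have : a * b * (a * b * c) = c := by
        rw [← mul_assoc, ← mul_assoc, mul_assoc a b a, ← h₁.eq, ← mul_assoc, ha2, one_mul, hb2, one_mul]
      rw [mul_assoc e, this]
    rw [e1, hzw.mul_pow, hz3] at hec3
    -- w^3 * z = 1 and w^4 = 1 so w = z
    have hw : e * (a * b) = a * b * c := by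
      have h5 : (e * (a * b)) ^ 4 = (e * (a * b)) * (e * (a * b)) ^ 3 := by rw [← pow_succ']
      rw [h5] at hw4
      have h6 : (e * (a * b)) ^ 3 = (e * (a * b))⁻¹ := eq_inv_of_mul_eq_one_right hw4
      rw [h6] at hec3
      have := eq_of_inv_mul_eq_one hec3
      exact this
    have hec' : e = c := by
      have : e * (a * b) = c * (a * b) := by rw [hw, (h₂.mul_left h₃).eq]
      exact mul_right_cancel this
    exact hec (hec' ▸ Commute.refl e)
  · rintro ⟨h1, h2, h3⟩
    exact (h1.mul_right h2).mul_right h3

end Cfsg.Agent.S0437
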