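import Cfsg.Statements.S0444
import Cfsg.Agent.S0437

set_option autoImplicit false
open Pointwise
open Cfsg

namespace Cfsg.Agent.S0444

open Cfsg.Agent.S0436 Cfsg.Agent.S0437

section
variable {G : Type*} [Group G] (d e : G)

/-- the map on rotations -/
def pw (i : ZMod 3) : G := (d * e) ^ i.val

/-- the underlying map of the homomorphism from the dihedral group of order six -/
def toFun : DihedralGroup 3 → G
  | DihedralGroup.r i => pw d e i
  | DihedralGroup.sr i => d * pw d e i

variable {d e}

theorem pw_add (h3 : (d * e) ^ 3 = 1) (i j : ZMod 3) : pw d e (i + j) = pw d e i * pw d e j := by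
  unfold pw
  rw [ZMod.val_add, ← pow_add, pow_eq_pow_mod (i.val + j.val) h3]

theorem pw_zero : pw d e 0 = 1 := by
  unfold pw; simp

theorem pw_neg (h3 : (d * e) ^ 3 = 1) (i : ZMod 3) : pw d e (-i) = (pw d e i)⁻¹ := by
  have := pw_add h3 i (-i)
  rw [add_neg_cancel, pw_zero] at this
  exact (inv_eq_of_mul_eq_one_right this.symm).symm

theorem pw_sub (h3 : (d * e) ^ 3 = 1) (i j : ZMod 3) : pw d e (j - i) = pw d e j * (pw d e i)⁻¹ := by
  rw [sub_eq_add_neg, pw_add h3, pw_neg h3]

theorem pw_comm (i j : ZMod 3) : Commute (pw d e i) (pw d e j) := by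
  unfold pw
  exact ((Commute.refl (d * e)).pow_left _).pow_right _

theorem inv_pow_of_sq {a : G} (ha2 : a * a = 1) {c : G} (hc : c * c = 1) (m : ℕ) :
    a * (a * c) ^ m * a = ((a * c) ^ m)⁻¹ := by
  have hainv : a⁻¹ = a := inv_eq_of_mul_eq_one_left ha2
  have h1 : a * (a * c) * a = (a * c)⁻¹ := by
    rw [mul_inv_rev, hainv, inv_eq_of_mul_eq_one_left hc, ← mul_assoc, ha2, one_mul]
  have h2 : a * (a * c) ^ m * a = (a * (a * c) * a) ^ m := by
    have := conj_pow (a := a) (b := a * c) (i := m)
    rw [hainv] at this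
    exact this.symm
  rw [h2, h1, inv_pow]

theorem d_pw (hd : d * d = 1) (he : e * e = 1) (i : ZMod 3) :
    pw d e i * d = d * (pw d e i)⁻¹ := by
  unfold pw
  have h := inv_pow_of_sq hd he i.val
  rw [← h]
  simp only [mul_assoc]
  rw [← mul_assoc d d, hd, one_mul]

theorem toFun_mul (hd : d * d = 1) (he : e * e = 1) (h3 : (d * e) ^ 3 = 1)
    (a b : DihedralGroup 3) : toFun d e (a * b) = toFun d e a * toFun d e b := by
  rcases a with i | i <;> rcases b with j | j
  · rw [DihedralGroup.r_mul_r]; exact pw_add h3 i j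
  · rw [DihedralGroup.r_mul_sr]
    show d * pw d e (j - i) = pw d e i * (d * pw d e j)
    rw [pw_sub h3, ← mul_assoc (pw d e i), d_pw hd he, (pw_comm j i).inv_right.eq]
    simp only [mul_assoc]
  · rw [DihedralGroup.sr_mul_r]
    show d * pw d e (i + j) = d * pw d e i * pw d e j
    rw [pw_add h3, mul_assoc]
  · rw [DihedralGroup.sr_mul_sr]
    show pw d e (j - i) = d * pw d e i * (d * pw d e j)
    rw [pw_sub h3, ← mul_assoc (d * pw d e i), mul_assoc d, d_pw hd he, ← mul_assoc d d, hd, one_mul,
      (pw_comm j i).inv_right.eq]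

/-- the homomorphism from the dihedral group of order six -/
def hom (hd : d * d = 1) (he : e * e = 1) (h3 : (d * e) ^ 3 = 1) : DihedralGroup 3 →* G :=
  MonoidHom.mk' (toFun d e) (toFun_mul hd he h3)

theorem hom_injective (hd : d * d = 1) (he : e * e = 1) (h3 : (d * e) ^ 3 = 1)
    (hne : ¬ Commute d e) : Function.Injective (hom hd he h3) := by
  have hd1 : d ≠ 1 := fun h => hne (h ▸ Commute.one_left e)
  have he1 : e ≠ 1 := fun h => hne (h ▸ Commute.one_right d)
  rw [injective_iff_map_eq_one]
  intro a ha
  change toFun d e a = 1 at ha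
  rcases a with i | i
  · change pw d e i = 1 at ha
    unfold pw at ha
    fin_cases i
    · rfl
    · exfalso
      change (d * e) ^ 1 = 1 at ha
      rw [pow_one] at ha
      have : d = e⁻¹ := eq_inv_of_mul_eq_one_left ha
      rw [inv_eq_of_mul_eq_one_left he] at this
      exact hne (this ▸ Commute.refl d)
    · exfalso
      change (d * e) ^ 2 = 1 at ha
      exact hne (commute_of_sq hd he ha)
  · exfalso
    change d * pw d e i = 1 at ha
    unfold pw at ha
    fin_cases i
    · change d * (d * e) ^ 0 = 1 at ha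
      rw [pow_zero, mul_one] at ha
      exact hd1 ha
    · change d * (d * e) ^ 1 = 1 at ha
      rw [pow_one, ← mul_assoc, hd, one_mul] at ha
      exact he1 ha
    · change d * (d * e) ^ 2 = 1 at ha
      have hd' : ∀ x, d * (d * x) = x := fun x => by rw [← mul_assoc, hd, one_mul]
      rw [pow_two] at ha
      simp only [mul_assoc, hd'] at ha
      have h1 : e * (e * (d * e)) = e * 1 := by rw [ha]
      rw [← mul_assoc, he, one_mul, mul_one] at h1
      exact hd1 (mul_right_cancel (h1.trans (one_mul e).symm))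

theorem hom_range (hd : d * d = 1) (he : e * e = 1) (h3 : (d * e) ^ 3 = 1) :
    (hom hd he h3).range = Subgroup.closure ({d, e} : Set G) := by
  apply le_antisymm
  · rintro _ ⟨a, rfl⟩
    have hdm : d ∈ Subgroup.closure ({d, e} : Set G) := Subgroup.subset_closure (by simp)
    have hem : e ∈ Subgroup.closure ({d, e} : Set G) := Subgroup.subset_closure (by simp)
    change toFun d e a ∈ _
    rcases a with i | i
    · exact Subgroup.pow_mem _ (Subgroup.mul_mem _ hdm hem) _
    · exact Subgroup.mul_mem _ hdm (Subgroup.pow_mem _ (Subgroup.mul_mem _ hdm hem) _)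
  · rw [Subgroup.closure_le]
    rintro x (rfl | rfl)
    · refine ⟨DihedralGroup.sr 0, ?_⟩
      change x * pw x e 0 = x
      rw [pw_zero, mul_one]
    · refine ⟨DihedralGroup.sr 1, ?_⟩
      change d * pw d x 1 = x
      unfold pw
      have : (1 : ZMod 3).val = 1 := rfl
      rw [this, pow_one, ← mul_assoc, hd, one_mul]

/-- the subgroup generated by two non-commuting involutions with product of order three is
dihedral of order six -/
noncomputable def closureEquiv (hd : d * d = 1) (he : e * e = 1) (h3 : (d * e) ^ 3 = 1)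
    (hne : ¬ Commute d e) : DihedralGroup 3 ≃* Subgroup.closure ({d, e} : Set G) :=
  (MonoidHom.ofInjective (hom_injective hd he h3 hne)).trans
    (MulEquiv.subgroupCongr (hom_range hd he h3))

end

theorem perm_facts : (Equiv.swap (0 : Fin 3) 1 * Equiv.swap (0 : Fin 3) 1 = 1) ∧
    (Equiv.swap (1 : Fin 3) 2 * Equiv.swap (1 : Fin 3) 2 = 1) ∧
    ((Equiv.swap (0 : Fin 3) 1 * Equiv.swap (1 : Fin 3) 2) ^ 3 = 1) ∧
    ¬ Commute (Equiv.swap (0 : Fin 3) 1) (Equiv.swap (1 : Fin 3) 2) := by
  refine ⟨by simp, by simp, by decide, ?_⟩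
  intro h
  have := h.eq
  revert this
  decide

/-- the dihedral group of order six is the symmetric group of degree three -/
noncomputable def dihedralEquivPerm : DihedralGroup 3 ≃* Equiv.Perm (Fin 3) :=
  MulEquiv.ofBijective (hom perm_facts.1 perm_facts.2.1 perm_facts.2.2.1)
    ((Fintype.bijective_iff_injective_and_card _).mpr
      ⟨hom_injective _ _ _ perm_facts.2.2.2, by
        rw [DihedralGroup.card, Fintype.card_perm, Fintype.card_fin]; rfl⟩)

/-- Two members of a set of 3-transpositions which do not commute generate a subgroup isomorphic to the symmetric group on three letters. -/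
theorem result {G : Type*} [Group G] {E : Set G} (hE : Cfsg.IsThreeTranspositionSet E) {d e : G} (hd : d ∈ E) (he : e ∈ E) (h : ¬ Commute d e) : Nonempty (Subgroup.closure ({d, e} : Set G) ≃* Equiv.Perm (Fin 3)) := by
  have hd2 := sq_one_of_order (hE.1 d hd)
  have he2 := sq_one_of_order (hE.1 e he)
  have h3 : (d * e) ^ 3 = 1 := by
    rcases hE.2 d hd e he with h2 | h3
    · exact absurd (commute_of_sq hd2 he2 h2) h
    · exact h3
  exact ⟨(closureEquiv hd2 he2 h3 h).symm.trans dihedralEquivPerm⟩

end Cfsg.Agent.S0444
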