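import Cfsg.Statements.S0472
import Cfsg.Agent.Lib.Helper13.Fi23Cover
import Cfsg.Agent.Lib.Helper13.Fi23TChk
import Cfsg.Agent.Lib.Helper13.CosetTransp

set_option autoImplicit false
open Cfsg

namespace Cfsg.Agent.S0472

open Cfsg.Agent.Lib.Helper13.CE Cfsg.Agent.Lib.Helper13.Fi23x31671 Cfsg.Spor
open Cfsg.Agent.Lib.Helper13

/-- The Fischer group of order 4089470473293004800 exists as a 3-transposition group: a simple group of that order generated by a conjugacy class of 31671 3-transpositions, the centraliser of each being a non-split double cover of a simple group of order 64561751654400. -/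
theorem result : ∃ (G : Type) (_ : Group G) (_ : Finite G), Cfsg.IsFi23 G ∧ ∃ D : Set G, Cfsg.IsThreeTranspositionClass D ∧ Nat.card D = 31671 ∧ ∀ d ∈ D, ∃ (K : Type) (_ : Group K), Cfsg.IsFi22 K ∧ Cfsg.IsNonsplitDoubleCover (Subgroup.centralizer ({d} : Set G)) K := by
  obtain ⟨X, f, hnets, hev, hf, hinj, hgen, hconj, hcent, hJ⟩ := Fi23O.struct
  have hH : Fi23O.Hs = Subgroup.closure {g | ∃ W ∈ par.subs, g = X.ev W} := by
    unfold Fi23O.Hs
    congr 1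
    ext g
    constructor
    · rintro ⟨W, hW, rfl⟩; exact ⟨W, hW, (hev W).symm⟩
    · rintro ⟨W, hW, rfl⟩; exact ⟨W, hW, hev W⟩
  have ho1 : orbOK X.nets 31671 par.subs orb1 1 3510 = true := by rw [hnets]; exact horb1
  have ho2 : orbOK X.nets 31671 par.subs orb3511 (1 + 3510) 28160 = true := by
    rw [hnets]; exact horb3511
  -- the central involution of the point stabiliser
  have ht2 : X.ev Fi23S.Tw * X.ev Fi23S.Tw = 1 := by
    have h := X.hs Fi23.Gen.j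
    rw [hJ] at h
    have h' : X.ev Fi23S.Vj * (X.ev Fi23S.Tw * X.ev Fi23S.Tw) * (X.ev Fi23S.Vj)⁻¹ = 1 := by
      rw [← h]; group
    exact conj_eq_one_iff.mp h'
  have ht1 : X.ev Fi23S.Tw ≠ 1 := by
    intro h
    have h0 : wpos X.nets Fi23S.Tw 3511 = 8895 := by rw [hnets]; exact Fi23S.hpt
    have h1 := X.φ_ev_ne_one Fi23S.Tw ⟨3511, by norm_num⟩ (by
      show wpos X.nets Fi23S.Tw 3511 ≠ 3511
      rw [h0]; norm_num)
    apply h1
    rw [h, map_one]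
  have hperf : commutator Fi23 = ⊤ :=
    X.commutator_eq_top hgen _ hconj Fi23S.W0
      (X.ev_eq_one_of_inj hinj _ (by rw [hnets]; exact Fi23S.hW0)) (by decide)
  have : IsSimpleGroup Fi23 := Fi23O.simple
  have htc : X.ev Fi23S.Tw ∉ Subgroup.center Fi23 := by
    rw [center_eq_bot_of_simple hperf, Subgroup.mem_bot]
    exact ht1
  have hprim := X.isPreprimitive_of_rank3 Fi23O.Hs f hf par.subs hH orb1 orb3511 3510 28160
    (by norm_num) ho1 ho2 (by norm_num) (by norm_num)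
  have hC : Subgroup.centralizer ({X.ev Fi23S.Tw} : Set Fi23) = Fi23O.Hs :=
    X.centralizer_eq Fi23O.Hs f hf hprim (by norm_num) _ hcent htc
  -- the generators `g` and `j` as conjugates
  have hG : X.s Fi23.Gen.g = X.ev ([.j, .g] ++ Fi23S.Vj) * X.ev Fi23S.Tw *
      (X.ev ([.j, .g] ++ Fi23S.Vj))⁻¹ := by
    have h0 := (List.all_eq_true.mp Fi23S.hedges) (.j, .g) (by decide)
    have h1 := X.conj_of_relOK hinj [.j, .g] [.j] .g (by rw [hnets]; exact h0)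
    rw [h1, Act.ev_append]
    have h2 : X.ev [Fi23.Gen.j] = X.s Fi23.Gen.j := by
      simp only [Act.ev_cons, Act.ev_nil, mul_one]
    rw [h2, hJ]; group
  have hcg : X.s Fi23.Gen.g * X.ev Fi23S.Tw = X.ev Fi23S.Tw * X.s Fi23.Gen.g := by
    have h1 := X.comm_of_relOK hinj [.g] Fi23S.Tw (by rw [hnets]; exact Fi23S.hcomm_g)
    simp only [Act.ev_cons, Act.ev_nil, mul_one] at h1
    exact h1
  have h2 : (X.ev Fi23S.Tw * (X.ev ([.j, .g] ++ Fi23S.Vj) * X.ev Fi23S.Tw *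
      (X.ev ([.j, .g] ++ Fi23S.Vj))⁻¹)) ^ 2 = 1 := by
    rw [← hG, pow_two]
    calc X.ev Fi23S.Tw * X.s Fi23.Gen.g * (X.ev Fi23S.Tw * X.s Fi23.Gen.g)
        = X.ev Fi23S.Tw * (X.s Fi23.Gen.g * X.ev Fi23S.Tw) * X.s Fi23.Gen.g := by group
      _ = X.ev Fi23S.Tw * (X.ev Fi23S.Tw * X.s Fi23.Gen.g) * X.s Fi23.Gen.g := by rw [hcg]
      _ = (X.ev Fi23S.Tw * X.ev Fi23S.Tw) * (X.s Fi23.Gen.g * X.s Fi23.Gen.g) := by group
      _ = 1 := by rw [ht2, X.hs, one_mul]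
  have h3 : (X.ev Fi23S.Tw * (X.ev Fi23S.Vj * X.ev Fi23S.Tw * (X.ev Fi23S.Vj)⁻¹)) ^ 3 = 1 := by
    rw [← hJ]
    have h1 := X.ev_eq_one_of_inj hinj Fi23S.TJ3 (by rw [hnets]; exact Fi23S.hTJ3)
    unfold Fi23S.TJ3 at h1
    simp only [Act.ev_append, Act.ev_cons, Act.ev_nil, mul_one] at h1
    rw [← h1]
    simp only [pow_succ, pow_zero, one_mul, mul_assoc]
  have hu1 : 1 ≤ ((X.φ (X.ev ([.j, .g] ++ Fi23S.Vj)) 0 : Fin 31671) : ℕ) ∧
      ((X.φ (X.ev ([.j, .g] ++ Fi23S.Vj)) 0 : Fin 31671) : ℕ) < 1 + 3510 := by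
    have h0 : wpos X.nets ([.j, .g] ++ Fi23S.Vj) 0 = 1827 := by rw [hnets]; exact Fi23S.hpg
    have h1 := X.φ_ev_val ([.j, .g] ++ Fi23S.Vj) 0
    rw [h1]
    show 1 ≤ wpos X.nets ([.j, .g] ++ Fi23S.Vj) 0 ∧ wpos X.nets ([.j, .g] ++ Fi23S.Vj) 0 < 1 + 3510
    rw [h0]; norm_num
  have hu2 : 1 + 3510 ≤ ((X.φ (X.ev Fi23S.Vj) 0 : Fin 31671) : ℕ) ∧
      ((X.φ (X.ev Fi23S.Vj) 0 : Fin 31671) : ℕ) < 1 + 3510 + 28160 := by
    have h0 : wpos X.nets Fi23S.Vj 0 = 8895 := by rw [hnets]; exact Fi23S.hpj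
    have h1 := X.φ_ev_val Fi23S.Vj 0
    rw [h1]
    show 1 + 3510 ≤ wpos X.nets Fi23S.Vj 0 ∧ wpos X.nets Fi23S.Vj 0 < 1 + 3510 + 28160
    rw [h0]; norm_num
  have h3t := X.three_transp Fi23O.Hs f hf par.subs hH orb1 orb3511 3510 28160 (by norm_num)
    ho1 ho2 (X.ev Fi23S.Tw) hcent ht2 _ _ hu1 hu2 h2 h3
  refine ⟨Fi23, inferInstance, Fi23O.finite, ⟨Fi23O.simple, Fi23O.card⟩,
    conjugatesOf (X.ev Fi23S.Tw), ⟨⟨?_, h3t⟩, ⟨X.ev Fi23S.Tw, mem_conjugatesOf_self, rfl⟩, ?_⟩,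
    X.card_conjugatesOf Fi23O.Hs f hf _ hC, ?_⟩
  · intro d hd
    obtain ⟨a, rfl⟩ := isConj_iff.mp hd
    have : Fact (Nat.Prime 2) := ⟨Nat.prime_two⟩
    apply orderOf_eq_prime
    · rw [conj_pow, pow_two, ht2]; group
    · intro h
      exact ht1 (conj_eq_one_iff.mp h)
  · rw [eq_top_iff, ← hgen, Subgroup.closure_le]
    rintro _ ⟨x, rfl⟩
    obtain ⟨v, hv⟩ := hconj x
    apply Subgroup.subset_closure
    exact isConj_iff.mpr ⟨v, hv.symm⟩
  · intro d hd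
    obtain ⟨a, rfl⟩ := isConj_iff.mp hd
    refine ⟨Fi22, inferInstance, ⟨Fi22O.simple, Fi22O.card⟩, ?_⟩
    exact nonsplit_congr ((MulEquiv.subgroupCongr hC.symm).trans (centralizerConjEquiv _ a))
      Fi23C.cover

end Cfsg.Agent.S0472
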