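import Cfsg.Statements.S0522
import Cfsg.Agent.S1283
import Cfsg.Agent.Lib.Helper11.BG7c
import Cfsg.Agent.Lib.Helper11.BG7d
import Cfsg.Agent.S0058
import Cfsg.Agent.S0025
import Cfsg.Agent.Lib.Helper18.SylowRel

set_option autoImplicit false
open Cfsg

namespace Cfsg.Agent.S0522

section aux
variable {X : Type*} [Group X]

/-- one-sided conjugation invariance by a subgroup gives normalizer containment -/
theorem le_norm_of_conj {H K : Subgroup X} (h : ∀ x ∈ H, ∀ b ∈ K, x * b * x⁻¹ ∈ K) :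
    H ≤ Subgroup.normalizer (K : Set X) := by
  intro x hx
  rw [Subgroup.mem_normalizer_iff]
  intro b
  constructor
  · exact h x hx b
  · intro hb
    have h1 := h x⁻¹ (H.inv_mem hx) _ hb
    have e : x⁻¹ * (x * b * x⁻¹) * x⁻¹⁻¹ = b := by group
    rwa [e] at h1

theorem norm_inf_le (Y Z : Subgroup X) :
    Subgroup.normalizer (Y : Set X) ⊓ Subgroup.normalizer (Z : Set X) ≤
      Subgroup.normalizer ((Y ⊓ Z : Subgroup X) : Set X) := by
  intro x hx
  obtain ⟨h1, h2⟩ := Subgroup.mem_inf.mp hx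
  rw [Subgroup.mem_normalizer_iff] at h1 h2 ⊢
  intro y
  rw [Subgroup.mem_inf, Subgroup.mem_inf, ← h1 y, ← h2 y]

theorem norm_sup_le (Y Z : Subgroup X) :
    Subgroup.normalizer (Y : Set X) ⊓ Subgroup.normalizer (Z : Set X) ≤
      Subgroup.normalizer ((Y ⊔ Z : Subgroup X) : Set X) := by
  apply le_norm_of_conj
  intro x hx b hb
  obtain ⟨h1, h2⟩ := Subgroup.mem_inf.mp hx
  have hle : Y ⊔ Z ≤ (Y ⊔ Z).comap (MulAut.conj x).toMonoidHom := by
    apply sup_le
    · intro y hy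
      rw [Subgroup.mem_comap]
      exact Subgroup.mem_sup_left ((Subgroup.mem_normalizer_iff.mp h1 y).mp hy)
    · intro y hy
      rw [Subgroup.mem_comap]
      exact Subgroup.mem_sup_right ((Subgroup.mem_normalizer_iff.mp h2 y).mp hy)
  exact hle hb

end aux

/-- Transitivity Theorem (odd-order setting). Let X be a finite group of odd order in which the normalizer of every
nontrivial p-subgroup is solvable, P a Sylow p-subgroup, and B an abelian subgroup of P, normalized by P, with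
C_P(B) = B and containing an elementary abelian subgroup of order p^3. Then for every prime q ≠ p, any two q-subgroups
that are maximal among the q-subgroups normalized by B are conjugate by an element of the centralizer of B. -/
theorem result {X : Type*} [Group X] [Finite X] (hX : Odd (Nat.card X)) (p : ℕ)
    [Fact p.Prime] (hloc : ∀ T : Subgroup X, IsPGroup p T → T ≠ ⊥ → Group.IsSolvable (Subgroup.normalizer (T : Set X)))
    (P : Sylow p X) (B : Subgroup X) (hBP : B ≤ (P : Subgroup X))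
    (hBn : ∀ x ∈ (P : Subgroup X), ∀ b ∈ B, x * b * x⁻¹ ∈ B) (hBa : IsMulCommutative B)
    (hBc : (P : Subgroup X) ⊓ Subgroup.centralizer (B : Set X) = B)
    (hB3 : ∃ E : Subgroup X, E ≤ B ∧ (∀ e ∈ E, e ^ p = 1) ∧ p ^ 3 ≤ Nat.card E)
    (q : ℕ) [Fact q.Prime] (hqp : q ≠ p) (Q₁ Q₂ : Subgroup X)
    (h₁ : IsPGroup q Q₁ ∧ B ≤ Subgroup.normalizer (Q₁ : Set X) ∧
      ∀ R : Subgroup X, IsPGroup q R → B ≤ Subgroup.normalizer (R : Set X) → Q₁ ≤ R → R = Q₁)
    (h₂ : IsPGroup q Q₂ ∧ B ≤ Subgroup.normalizer (Q₂ : Set X) ∧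
      ∀ R : Subgroup X, IsPGroup q R → B ≤ Subgroup.normalizer (R : Set X) → Q₂ ≤ R → R = Q₂) :
    ∃ c ∈ Subgroup.centralizer (B : Set X), Q₂ = Q₁.map (MulAut.conj c).toMonoidHom := by
  classical
  have hp : p.Prime := Fact.out
  have hq : q.Prime := Fact.out
  obtain ⟨E, hEB, hEp, hE3⟩ := hB3
  have hBp : IsPGroup p B := P.2.to_le hBP
  have hBcomm : ∀ a ∈ B, ∀ b ∈ B, a * b = b * a :=
    fun a ha b hb => Cfsg.Agent.Lib.Helper11.sub_comm_of_imc hBa a ha b hb
  have hEa : IsMulCommutative E :=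
    Cfsg.Agent.Lib.Helper11.imc_of_sub_comm (fun a ha b hb => hBcomm a (hEB ha) b (hEB hb))
  have hEel : Cfsg.IsElementaryAbelian p E := ⟨hEa, hEp⟩
  have hEpg : IsPGroup p E := hBp.to_le hEB
  have hEcard : 1 < Nat.card E := lt_of_lt_of_le (Nat.one_lt_pow (by norm_num) hp.one_lt) hE3
  have hEne : E ≠ ⊥ := by
    rintro rfl
    simp at hEcard
  obtain ⟨e₀, he₀E, he₀1⟩ := (E.bot_or_exists_ne_one).resolve_left hEne
  have hp2 : p ≠ 2 := by
    rintro rfl
    have h2 : 2 ∣ Nat.card E := by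
      obtain ⟨n, hn⟩ := IsPGroup.iff_card.mp hEpg
      rw [hn] at hEcard ⊢
      have hn0 : n ≠ 0 := by
        rintro rfl
        simp at hEcard
      exact dvd_pow_self 2 hn0
    have h3 : 2 ∣ Nat.card X := h2.trans (Subgroup.card_subgroup_dvd_card E)
    exact (Nat.not_even_iff_odd.mpr hX) (even_iff_two_dvd.mpr h3)
  have hEnc : ¬ IsCyclic E := by
    intro hc
    obtain ⟨g, hg⟩ := hc.exists_generator
    have h1 : Nat.card E = orderOf g := (orderOf_eq_card_of_forall_mem_zpowers hg).symm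
    have h2 : orderOf g ∣ p := orderOf_dvd_of_pow_eq_one (Subtype.ext (by simpa using hEp g g.2))
    have h3 : Nat.card E ≤ p := h1 ▸ Nat.le_of_dvd hp.pos h2
    have h4 : p < p ^ 3 := by
      calc p = p ^ 1 := (pow_one p).symm
        _ < p ^ 3 := Nat.pow_lt_pow_right hp.one_lt (by norm_num)
    omega
  have hBsolv : Group.IsSolvable B := by
    have := hBp.isNilpotent
    infer_instance
  have hPN : (P : Subgroup X) ≤ Subgroup.normalizer (B : Set X) := le_norm_of_conj hBn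
  have hΩ := Cfsg.Agent.Lib.Helper11.scn_omega p P (A := B) ⟨hBP, hPN, hBc⟩
  have hBC : ∀ a ∈ B, B ≤ Subgroup.centralizer ({a} : Set X) := by
    intro a ha b hb
    rw [Subgroup.mem_centralizer_iff]
    intro h hh
    rw [Set.mem_singleton_iff] at hh
    subst hh
    exact hBcomm h ha b hb
  have hCsolv : ∀ a ∈ E, a ≠ 1 → Group.IsSolvable (Subgroup.centralizer ({a} : Set X)) := by
    intro a ha ha1
    have h1 : IsPGroup p (Subgroup.zpowers a) :=
      hEpg.to_le (by rw [Subgroup.zpowers_le]; exact ha)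
    have h2 : Subgroup.zpowers a ≠ ⊥ := by
      rw [Ne, Subgroup.zpowers_eq_bot]; exact ha1
    have h3 := hloc _ h1 h2
    have h4 : Subgroup.centralizer ({a} : Set X) ≤
        Subgroup.normalizer ((Subgroup.zpowers a : Subgroup X) : Set X) := by
      apply le_norm_of_conj
      intro x hx y hy
      have hxa : a * x = x * a := (Subgroup.mem_centralizer_iff.mp hx) a rfl
      obtain ⟨k, rfl⟩ := Subgroup.mem_zpowers_iff.mp hy
      have hc : Commute x (a ^ k) := Commute.zpow_right (show Commute x a from hxa.symm) k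
      rw [hc.eq, mul_inv_cancel_right]
      exact hy
    exact Group.isSolvable_of_isSolvable_injective (Subgroup.inclusion_injective h4)
  obtain ⟨θ, hθdef⟩ : ∃ θ : X → Subgroup X,
      θ = fun a => Cfsg.Agent.Lib.Helper11.ppc p (Subgroup.centralizer ({a} : Set X)) := ⟨_, rfl⟩
  have hθa : ∀ a, θ a = Cfsg.Agent.Lib.Helper11.ppc p (Subgroup.centralizer ({a} : Set X)) :=
    fun a => by rw [hθdef]
  have hθle : ∀ a, θ a ≤ Subgroup.centralizer ({a} : Set X) := fun a => by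
    rw [hθa]; exact Cfsg.Agent.Lib.Helper11.ppc_le p _
  have hθp : ∀ a, ¬ p ∣ Nat.card (θ a) := fun a => by
    rw [hθa]
    exact (Nat.Prime.coprime_iff_not_dvd hp).mp (Cfsg.Agent.Lib.Helper11.ppc_coprime p _).symm
  have hθB : ∀ a ∈ B, B ≤ Subgroup.normalizer ((θ a : Subgroup X) : Set X) := fun a ha => by
    rw [hθa]
    exact (hBC a ha).trans (Cfsg.Agent.Lib.Helper11.ppc_normalizer p _)
  have K1 : ∀ a ∈ E, a ≠ 1 → ∀ Y : Subgroup X, ¬ p ∣ Nat.card Y →
      B ≤ Subgroup.normalizer (Y : Set X) →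
      Y ⊓ Subgroup.centralizer ({a} : Set X) ≤ θ a := by
    intro a ha ha1 Y hY hBY
    rw [hθa]
    refine Cfsg.Agent.Lib.Helper11.inv_le_ppc p hp2 (hCsolv a ha ha1) (hBC a (hEB ha)) hBa hBp
      (fun x hx _ hxo => hΩ x hx hxo) inf_le_right ?_ ?_
    · intro hd
      exact hY (hd.trans (Subgroup.card_dvd_of_le inf_le_left))
    · exact le_trans (le_inf hBY ((hBC a (hEB ha)).trans Subgroup.le_normalizer)) (norm_inf_le _ _)
  have hθ : Cfsg.IsSolvableSignalizerFunctor p E θ := by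
    refine ⟨⟨fun a _ _ => hθle a, fun a _ _ => hθp a, ?_, ?_⟩, ?_⟩
    · intro a ha ha1 b hb x hx
      exact (Subgroup.mem_normalizer_iff.mp (hθB a (hEB ha) (hEB hb)) x).mp hx
    · intro a ha ha1 b hb hb1
      exact K1 b hb hb1 (θ a) (hθp a) (hθB a (hEB ha))
    · intro a ha ha1
      have := hCsolv a ha ha1
      exact Group.isSolvable_of_isSolvable_injective (Subgroup.inclusion_injective (hθle a))
  have hfam : ∀ Q : Subgroup X, IsPGroup q Q → B ≤ Subgroup.normalizer (Q : Set X) →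
      Q ∈ Cfsg.signalizerFamily p E θ := by
    intro Q hQq hBQ
    have hQp : ¬ p ∣ Nat.card Q := by
      obtain ⟨n, hn⟩ := IsPGroup.iff_card.mp hQq
      rw [hn]
      intro hd
      exact hqp ((Nat.prime_dvd_prime_iff_eq hp hq).mp (hp.dvd_of_dvd_pow hd)).symm
    refine ⟨?_, hQp, ?_, ?_⟩
    · have := hQq.isNilpotent
      infer_instance
    · intro b hb u hu
      exact (Subgroup.mem_normalizer_iff.mp (hBQ (hEB hb)) u).mp hu
    · intro a ha ha1
      exact K1 a ha ha1 Q hQp hBQ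
  have hmax : ∀ Q : Subgroup X, IsPGroup q Q → B ≤ Subgroup.normalizer (Q : Set X) →
      (∀ R : Subgroup X, IsPGroup q R → B ≤ Subgroup.normalizer (R : Set X) → Q ≤ R → R = Q) →
      ∀ R ∈ Cfsg.signalizerFamily p E θ, IsPGroup q R → Q ≤ R → R = Q := by
    intro Q hQq hBQ hQmax R hRW hRq hQR
    by_contra hne
    have hlt : Q < R := lt_of_le_of_ne hQR (fun h => hne h.symm)
    obtain ⟨hRsolv, hRp, hRE, hRθ⟩ := hRW
    obtain ⟨K, hKdef⟩ : ∃ K : Subgroup X, K = R ⊓ Subgroup.normalizer (Q : Set X) := ⟨_, rfl⟩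
    have hER : E ≤ Subgroup.normalizer (R : Set X) := le_norm_of_conj hRE
    have hEK : E ≤ Subgroup.normalizer (K : Set X) := by
      rw [hKdef]
      exact le_trans (le_inf hER ((hEB.trans hBQ).trans Subgroup.le_normalizer)) (norm_inf_le _ _)
    have hKq : IsPGroup q K := hRq.to_le (hKdef ▸ inf_le_left)
    have hcop : (Nat.card E).Coprime (Nat.card K) := by
      obtain ⟨n, hn⟩ := IsPGroup.iff_card.mp hEpg
      obtain ⟨m, hm⟩ := IsPGroup.iff_card.mp hKq
      rw [hn, hm]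
      exact Nat.Coprime.pow _ _ ((Nat.coprime_primes hp hq).mpr (Ne.symm hqp))
    have hgen := @Cfsg.Agent.S0058.result X _ _ E K hEa hEnc hEK hcop
    have hex : ∃ a ∈ E, a ≠ 1 ∧ ∃ y ∈ K ⊓ Subgroup.centralizer ({a} : Set X), y ∉ Q := by
      by_contra hcon
      push Not at hcon
      have hKQ : K ≤ Q := by
        rw [← hgen]
        refine iSup₂_le ?_
        intro a ha y hy
        exact hcon a ha.1 ha.2 y hy
      obtain ⟨x, hxR, hxN, hxQ⟩ := Cfsg.Agent.Lib.Helper18.exists_mem_normalizer_not_mem hRq hlt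
      exact hxQ (hKQ (hKdef ▸ Subgroup.mem_inf.mpr ⟨hxR, hxN⟩))
    obtain ⟨a, ha, ha1, y, hy, hyQ⟩ := hex
    obtain ⟨hyK, hyC⟩ := Subgroup.mem_inf.mp hy
    rw [hKdef] at hyK
    obtain ⟨hyR, hyN⟩ := Subgroup.mem_inf.mp hyK
    have hyθ : y ∈ θ a := hRθ a ha ha1 (Subgroup.mem_inf.mpr ⟨hyR, hyC⟩)
    obtain ⟨T, hTdef⟩ : ∃ T : Subgroup X, T = θ a ⊓ Subgroup.normalizer (Q : Set X) := ⟨_, rfl⟩
    have hyT : y ∈ T := hTdef ▸ Subgroup.mem_inf.mpr ⟨hyθ, hyN⟩
    have hBT : B ≤ Subgroup.normalizer (T : Set X) := by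
      rw [hTdef]
      exact le_trans (le_inf (hθB a (hEB ha)) (hBQ.trans Subgroup.le_normalizer)) (norm_inf_le _ _)
    have hTp : ¬ p ∣ Nat.card T :=
      fun hd => hθp a (hd.trans (Subgroup.card_dvd_of_le (hTdef ▸ inf_le_left)))
    have hTN : T ≤ Subgroup.normalizer (Q : Set X) := hTdef ▸ inf_le_right
    have hcopT : (Nat.card B).Coprime (Nat.card T) := by
      obtain ⟨n, hn⟩ := IsPGroup.iff_card.mp hBp
      rw [hn]
      exact Nat.Coprime.pow_left _ ((Nat.Prime.coprime_iff_not_dvd hp).mpr hTp)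
    have hBbot : B ≤ Subgroup.normalizer (((⊥ : Subgroup X) : Subgroup X) : Set X) := by
      intro b _
      rw [Subgroup.mem_normalizer_iff]
      intro x
      simp [Subgroup.mem_bot]
    obtain ⟨S, -, hBS⟩ := Cfsg.Agent.S0025.result B T hBT hcopT (Or.inl hBsolv) q ⊥ bot_le
      IsPGroup.of_bot hBbot
    obtain ⟨S', hS'def⟩ : ∃ S' : Subgroup X, S' = (S : Subgroup T).map T.subtype := ⟨_, rfl⟩
    rw [← hS'def] at hBS
    have hS'q : IsPGroup q S' := by
      rw [hS'def]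
      exact S.2.map _
    have hS'T : S' ≤ T := by rw [hS'def]; exact Subgroup.map_subtype_le _
    have hS'Q : S' ≤ Q := by
      have h1 : IsPGroup q (S' ⊔ Q : Subgroup X) :=
        IsPGroup.to_sup_of_normal_right' hS'q hQq (hS'T.trans hTN)
      have h2 : B ≤ Subgroup.normalizer ((S' ⊔ Q : Subgroup X) : Set X) :=
        le_trans (le_inf hBS hBQ) (norm_sup_le _ _)
      have h3 := hQmax _ h1 h2 le_sup_right
      rw [← h3]; exact le_sup_left
    have hyq : IsPGroup q (Subgroup.zpowers (⟨y, hyT⟩ : T)) := by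
      obtain ⟨k, hk⟩ := hRq ⟨y, hyR⟩
      have hk' : y ^ q ^ k = 1 := by simpa using congrArg Subtype.val hk
      have hy' : (⟨y, hyT⟩ : T) ^ q ^ k = 1 := Subtype.ext (by simpa using hk')
      obtain ⟨m, -, hm⟩ := (Nat.dvd_prime_pow hq).mp (orderOf_dvd_of_pow_eq_one hy')
      exact IsPGroup.of_card (n := m) (by rw [Nat.card_zpowers, hm])
    obtain ⟨S₂, hS₂⟩ := hyq.exists_le_sylow
    obtain ⟨g, hg⟩ := MulAction.exists_smul_eq T S S₂
    have h1 : (⟨y, hyT⟩ : T) ∈ ((g • S : Sylow q T) : Subgroup T) := by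
      rw [hg]; exact hS₂ (Subgroup.mem_zpowers _)
    rw [Sylow.coe_subgroup_smul, Subgroup.mem_pointwise_smul_iff_inv_smul_mem] at h1
    have h2 : (g : X)⁻¹ * y * (g : X) ∈ S' := by
      rw [hS'def, Subgroup.mem_map]
      exact ⟨_, h1, by simp [MulAut.smul_def]⟩
    have h3 := hS'Q h2
    have hgN : (g : X) ∈ Subgroup.normalizer (Q : Set X) := hTN g.2
    have h4 := (Subgroup.mem_normalizer_iff.mp hgN _).mp h3
    have e : (g : X) * ((g : X)⁻¹ * y * (g : X)) * (g : X)⁻¹ = y := by group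
    rw [e] at h4
    exact hyQ h4
  obtain ⟨hQ₁q, hBQ₁, hQ₁max⟩ := h₁
  obtain ⟨hQ₂q, hBQ₂, hQ₂max⟩ := h₂
  obtain ⟨c₀, hc₀, hc₀e⟩ := Cfsg.Agent.Lib.Helper10.transitivity p E hEel hE3 θ hθ q
    ⟨hfam Q₁ hQ₁q hBQ₁, hQ₁q, hmax Q₁ hQ₁q hBQ₁ hQ₁max⟩
    ⟨hfam Q₂ hQ₂q hBQ₂, hQ₂q, hmax Q₂ hQ₂q hBQ₂ hQ₂max⟩
  have hBK : B ≤ Subgroup.normalizer ((Cfsg.signalizerInf E θ : Subgroup X) : Set X) := by
    intro b hb
    rw [Subgroup.mem_normalizer_iff]
    intro x
    unfold Cfsg.signalizerInf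
    rw [Subgroup.mem_iInf, Subgroup.mem_iInf]
    constructor
    · intro h a
      exact (Subgroup.mem_normalizer_iff.mp (hθB a.1 (hEB a.2.1) hb) x).mp (h a)
    · intro h a
      exact (Subgroup.mem_normalizer_iff.mp (hθB a.1 (hEB a.2.1) hb) x).mpr (h a)
  have hKle : Cfsg.signalizerInf E θ ≤ θ e₀ :=
    iInf_le (fun a : {a : X // a ∈ E ∧ a ≠ 1} => θ (a : X)) ⟨e₀, he₀E, he₀1⟩
  have hcopK : (Nat.card B).Coprime (Nat.card (Cfsg.signalizerInf E θ)) := by
    obtain ⟨n, hn⟩ := IsPGroup.iff_card.mp hBp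
    rw [hn]
    exact Nat.Coprime.pow_left _ ((Nat.Prime.coprime_iff_not_dvd hp).mpr
      (fun hd => hθp e₀ (hd.trans (Subgroup.card_dvd_of_le hKle))))
  obtain ⟨c, hc, hce⟩ := Cfsg.Agent.Lib.Helper11.glauberman_trans B (Cfsg.signalizerInf E θ) hBK
    hcopK (Or.inl hBsolv) Q₁ Q₂ hBQ₁ hBQ₂ c₀ hc₀ hc₀e.symm
  exact ⟨c, (Subgroup.mem_inf.mp hc).2, hce⟩

end Cfsg.Agent.S0522
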