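import Cfsg.Statements.S0536
import Mathlib
import Cfsg.Agent.Lib.Helper1.Schmidt

set_option autoImplicit false
open Cfsg

namespace Cfsg.Agent.S0536

open Cfsg.Agent.Lib.Helper1
set_option linter.style.haveILetI false

/-- Structure of minimal non-nilpotent groups: if a finite group is not nilpotent but all its proper subgroups are, then there are distinct primes p and q, a cyclic Sylow p-subgroup P and a normal Sylow q-subgroup Q with G generated by P and Q. -/
theorem result {G : Type*} [Group G] [Finite G] (hG : Cfsg.IsMinimalNonNilpotent G) : ∃ p q : ℕ, p.Prime ∧ q.Prime ∧ p ≠ q ∧ ∃ (P : Sylow p G) (Q : Sylow q G), IsCyclic P ∧ (Q : Subgroup G).Normal ∧ (P : Subgroup G) ⊔ Q = ⊤ := by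
  obtain ⟨hnn, hprop⟩ := hG
  have hex : ∃ p : ℕ, p.Prime ∧ ¬ FrobCond p G := by
    by_contra hcon
    push Not at hcon
    exact hnn (isNilpotent_of_frobCond hcon)
  obtain ⟨p, hp, hnot⟩ := hex
  haveI : Fact p.Prime := ⟨hp⟩
  obtain ⟨Q, g, r, k, hr, hrp, hQ, hQn, hord, hgc, htop, hdisj, hcard⟩ := schmidt_core p
    (fun K hK Q hQK hQ x hx hxn hcop => centralizes_of_conj_in_nilpotent K (hprop K hK) Q hQK hQ
      x hxn hcop (fun y _ => ⟨x, hx, rfl⟩)) hnot
  obtain ⟨⟨P, hP⟩, ⟨Q', hQ'⟩⟩ := schmidt_sylows hr hrp hQ hord hcard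
  refine ⟨r, p, hr, hp, hrp, P, Q', ?_, ?_, ?_⟩
  · show IsCyclic (P : Subgroup G)
    rw [hP]
    infer_instance
  · rw [hQ']; exact hQn
  · rw [hP, hQ', sup_comm]; exact htop

end Cfsg.Agent.S0536
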