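import Cfsg.Statements.S0581
import Mathlib
import Cfsg.Agent.S0536
import Cfsg.Agent.S0092
import Cfsg.Agent.Lib.Helper1.Stability
import Cfsg.Agent.Lib.Helper1.Basic
import Cfsg.Agent.Lib.Helper1.SZ
import Cfsg.Agent.Lib.Helper14.SylowRel

set_option autoImplicit false
open Pointwise
open Cfsg

namespace Cfsg.Agent.S0581

open Cfsg.Agent.Lib.Helper1
set_option linter.style.haveILetI false

universe u

theorem isNilpotent_of_le {G : Type*} [Group G] {A B : Subgroup G} (h : A ≤ B)
    (hB : Group.IsNilpotent B) : Group.IsNilpotent A := by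
  haveI := hB
  exact Group.nilpotent_of_mulEquiv (Subgroup.subgroupOfEquivOfLe h)

theorem isNilpotent_conj {G : Type*} [Group G] (x : G) {H : Subgroup G}
    (hH : Group.IsNilpotent H) : Group.IsNilpotent (MulAut.conj x • H : Subgroup G) := by
  haveI := hH
  exact Group.nilpotent_of_mulEquiv (Subgroup.equivSMul (MulAut.conj x) H)

/-- A nontrivial finite group all of whose proper subgroups are nilpotent has a nontrivial normal
Sylow subgroup. -/
theorem exists_normal_sylow {K : Type u} [Group K] [Finite K] [Nontrivial K]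
    (h : ∀ H : Subgroup K, H ≠ ⊤ → Group.IsNilpotent H) :
    ∃ q : ℕ, q.Prime ∧ ∃ Q : Sylow q K, (Q : Subgroup K).Normal ∧ (Q : Subgroup K) ≠ ⊥ := by
  by_cases hnil : Group.IsNilpotent K
  · have hcard : Nat.card K ≠ 1 := by
      intro h1
      exact not_subsingleton K (Nat.card_eq_one_iff_unique.mp h1).1
    obtain ⟨q, hq, hqK⟩ := Nat.exists_prime_and_dvd hcard
    haveI : Fact q.Prime := ⟨hq⟩
    obtain ⟨Q⟩ : Nonempty (Sylow q K) := inferInstance
    haveI := hnil
    exact ⟨q, hq, Q, inferInstance, Q.ne_bot_of_dvd_card hqK⟩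
  · obtain ⟨p, q, hp, hq, hpq, P, Q, hPc, hQn, hPQ⟩ :=
      Cfsg.Agent.S0536.result (G := K) ⟨hnil, h⟩
    refine ⟨q, hq, Q, hQn, ?_⟩
    intro hQbot
    rw [hQbot, sup_bot_eq] at hPQ
    apply hnil
    haveI := hPc
    have hcomm : ∀ a b : K, a * b = b * a := by
      intro a b
      have ha : a ∈ (P : Subgroup K) := hPQ ▸ Subgroup.mem_top a
      have hb : b ∈ (P : Subgroup K) := hPQ ▸ Subgroup.mem_top b
      have h0 := mul_comm' (⟨a, ha⟩ : (P : Subgroup K)) ⟨b, hb⟩
      exact congrArg Subtype.val h0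
    have hKc : IsMulCommutative K := ⟨⟨hcomm⟩⟩
    exact ⟨⟨1, Subgroup.upperCentralSeries_one_eq_top_iff.mpr hKc⟩⟩

theorem wielandt_aux : ∀ (n : ℕ) (G : Type u) [Group G] [Finite G] (H K : Subgroup G),
    Group.IsNilpotent H → (Nat.card H).Coprime H.index →
    (∀ p : ℕ, p.Prime → p ∣ Nat.card K → p ∣ Nat.card H) → Nat.card K ≤ n →
    ∃ x : G, K ≤ MulAut.conj x • H := by
  intro n
  induction n with
  | zero =>
    intro G _ _ H K _ _ _ hK
    have := Nat.card_pos (α := K)
    omega
  | succ n ih =>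
    intro G _ _ H K hHnil hHall hprimes hKn
    by_cases hKbot : K = ⊥
    · exact ⟨1, by rw [hKbot]; exact bot_le⟩
    haveI : Nontrivial K := (Subgroup.nontrivial_iff_ne_bot K).mpr hKbot
    have hprop : ∀ K₁ : Subgroup G, K₁ < K → Group.IsNilpotent K₁ := by
      intro K₁ hK₁
      have hc : Nat.card K₁ ≤ n := by
        have := card_lt_of_lt hK₁
        omega
      obtain ⟨x, hx⟩ := ih G H K₁ hHnil hHall
        (fun p hp hpK => hprimes p hp (dvd_trans hpK (Subgroup.card_dvd_of_le hK₁.le))) hc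
      exact isNilpotent_of_le hx (isNilpotent_conj x hHnil)
    have hprop' : ∀ H' : Subgroup K, H' ≠ ⊤ → Group.IsNilpotent H' := by
      intro H' hH'
      have hlt : H'.map K.subtype < K := by
        refine lt_of_le_of_ne (Subgroup.map_subtype_le H') ?_
        intro heq
        apply hH'
        rw [eq_top_iff]
        intro y _
        have hy : (y : G) ∈ H'.map K.subtype := by rw [heq]; exact y.2
        obtain ⟨z, hz, hzy⟩ := hy
        have hzy' : z = y := Subtype.ext hzy
        rw [← hzy']; exact hz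
      haveI := hprop _ hlt
      exact Group.nilpotent_of_mulEquiv (H'.equivMapOfInjective K.subtype K.subtype_injective).symm
    obtain ⟨q, hq, Q', hQ'n, hQ'bot⟩ := exists_normal_sylow hprop'
    haveI : Fact q.Prime := ⟨hq⟩
    obtain ⟨P₁, hP₁def⟩ : ∃ P₁ : Subgroup G, P₁ = (Q' : Subgroup K).map K.subtype := ⟨_, rfl⟩
    have hP₁K : P₁ ≤ K := hP₁def ▸ Subgroup.map_subtype_le _
    have hP₁q : IsPGroup q P₁ := hP₁def ▸ Q'.2.map _
    have hKnP₁ : K ≤ Subgroup.normalizer (P₁ : Set G) := by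
      intro k hk
      have h1 : (⟨k, hk⟩ : K) ∈ Subgroup.normalizer ((Q' : Subgroup K) : Set K) := by
        rw [Subgroup.normalizer_eq_top_iff.mpr hQ'n]; trivial
      rw [hP₁def]
      exact Subgroup.le_normalizer_map K.subtype ⟨⟨k, hk⟩, h1, rfl⟩
    have hP₁bot : P₁ ≠ ⊥ := by
      intro h
      apply hQ'bot
      rw [hP₁def] at h
      exact (Subgroup.map_eq_bot_iff_of_injective _ K.subtype_injective).mp h
    have hrelq : ¬ q ∣ P₁.relIndex K := by
      have h2 : P₁.relIndex K = (Q' : Subgroup K).index := by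
        rw [hP₁def]
        show ((Subgroup.map K.subtype (Q' : Subgroup K)).comap K.subtype).index = _
        rw [Subgroup.comap_map_eq_self_of_injective K.subtype_injective]
      rw [h2]; exact Q'.not_dvd_index
    obtain ⟨j, hj⟩ := IsPGroup.iff_card.mp hP₁q
    have hcop1 : (Nat.card P₁).Coprime (P₁.relIndex K) := by
      rw [hj]; exact Nat.Coprime.pow_left _ ((Nat.Prime.coprime_iff_not_dvd hq).mpr hrelq)
    obtain ⟨L, hLK, hP₁L, hLcard, hKmul⟩ :=
      Cfsg.Agent.S0092.exists_complement_rel P₁ K hP₁K hKnP₁ hcop1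
    have hKcard : Nat.card P₁ * P₁.relIndex K = Nat.card K := by
      have h3 := Subgroup.card_mul_index (P₁.subgroupOf K)
      rwa [Nat.card_congr (Subgroup.subgroupOfEquivOfLe hP₁K).toEquiv] at h3
    have hP₁card : 2 ≤ Nat.card P₁ := by
      have := (Subgroup.one_lt_card_iff_ne_bot (H := P₁)).mpr hP₁bot
      omega
    have hLlt : Nat.card L ≤ n := by
      have hpos : 0 < Nat.card L := Nat.card_pos
      rw [hLcard] at hpos ⊢
      have h4 := Nat.mul_le_mul_right (P₁.relIndex K) hP₁card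
      omega
    have hqK : q ∣ Nat.card K := by
      rw [← hKcard, hj]
      have hj0 : j ≠ 0 := by
        rintro rfl
        rw [pow_zero] at hj
        omega
      exact Dvd.dvd.mul_right (dvd_pow_self q hj0) _
    have hqH : q ∣ Nat.card H := hprimes q hq hqK
    obtain ⟨S₀⟩ : Nonempty (Sylow q H) := inferInstance
    obtain ⟨S, hSdef⟩ : ∃ S : Subgroup G, S = (S₀ : Subgroup H).map H.subtype := ⟨_, rfl⟩
    have hSq : IsPGroup q S := hSdef ▸ S₀.2.map _
    have hSH : S ≤ H := hSdef ▸ Subgroup.map_subtype_le _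
    have hSidx : ¬ q ∣ S.index := by
      rw [hSdef, Subgroup.index_map_subtype]
      intro hdvd
      rcases (Nat.Prime.dvd_mul hq).mp hdvd with h1 | h1
      · exact S₀.not_dvd_index h1
      · exact hq.one_lt.ne' (Nat.eq_one_of_dvd_coprimes hHall hqH h1)
    have hHnS : H ≤ Subgroup.normalizer (S : Set G) := by
      haveI := hHnil
      have hS₀n : (S₀ : Subgroup H).Normal := inferInstance
      intro h hh
      have h1 : (⟨h, hh⟩ : H) ∈ Subgroup.normalizer ((S₀ : Subgroup H) : Set H) := by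
        rw [Subgroup.normalizer_eq_top_iff.mpr hS₀n]; trivial
      rw [hSdef]
      exact Subgroup.le_normalizer_map H.subtype ⟨⟨h, hh⟩, h1, rfl⟩
    obtain ⟨y, hy⟩ := Cfsg.Agent.Lib.Helper14.exists_map_conj_le_sylow (hSq.toSylow hSidx) hP₁q
    rw [IsPGroup.toSylow_coe] at hy
    obtain ⟨z, hzdef⟩ : ∃ z : G, z = y⁻¹ := ⟨_, rfl⟩
    obtain ⟨H₁, hH₁def⟩ : ∃ H₁ : Subgroup G, H₁ = MulAut.conj z • H := ⟨_, rfl⟩
    obtain ⟨S₁, hS₁def⟩ : ∃ S₁ : Subgroup G, S₁ = MulAut.conj z • S := ⟨_, rfl⟩
    have hP₁S₁ : P₁ ≤ S₁ := by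
      intro a ha
      rw [hS₁def, mem_conj_smul_iff, hzdef, inv_inv]
      exact hy ⟨a, ha, rfl⟩
    have hS₁H₁ : S₁ ≤ H₁ := by
      rw [hS₁def, hH₁def]
      intro a ha
      rw [mem_conj_smul_iff] at ha ⊢
      exact hSH ha
    have hH₁nil : Group.IsNilpotent H₁ := hH₁def ▸ isNilpotent_conj z hHnil
    have hcS₁ : Nat.card S₁ = Nat.card S := hS₁def ▸ card_conj_smul z S
    have hcH₁ : Nat.card H₁ = Nat.card H := hH₁def ▸ card_conj_smul z H
    obtain ⟨e, he⟩ := IsPGroup.iff_card.mp hSq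
    have hS₁q : IsPGroup q S₁ := IsPGroup.of_card (hcS₁.trans he)
    have hH₁nS₁ : H₁ ≤ Subgroup.normalizer (S₁ : Set G) := by
      intro h hh
      rw [hH₁def, mem_conj_smul_iff] at hh
      have h1 := hHnS hh
      apply mem_normalizer_of_conj_smul_eq
      have h2 := conj_smul_eq_of_mem_normalizer h1
      rw [hS₁def, ← conj_mul_smul]
      have e1 : h * z = z * (z⁻¹ * h * z) := by group
      rw [e1, conj_mul_smul, h2]
    have hH₁card : Nat.card S₁ * S₁.relIndex H₁ = Nat.card H₁ := by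
      have h3 := Subgroup.card_mul_index (S₁.subgroupOf H₁)
      rwa [Nat.card_congr (Subgroup.subgroupOfEquivOfLe hS₁H₁).toEquiv] at h3
    have hrelq' : ¬ q ∣ S₁.relIndex H₁ := by
      intro hdvd
      have h1 : q ^ (e + 1) ∣ Nat.card G := by
        have h0 : q ^ (e + 1) ∣ Nat.card H₁ := by
          rw [← hH₁card, hcS₁, he, pow_succ]
          exact Nat.mul_dvd_mul_left _ hdvd
        rw [hcH₁] at h0
        exact dvd_trans h0 (Subgroup.card_subgroup_dvd_card H)
      have h2 : Nat.card S * S.index = Nat.card G := Subgroup.card_mul_index S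
      rw [← h2, he, pow_succ] at h1
      exact hSidx ((Nat.mul_dvd_mul_iff_left (pow_pos hq.pos e)).mp h1)
    have hcop2 : (Nat.card S₁).Coprime (S₁.relIndex H₁) := by
      rw [hcS₁, he]
      exact Nat.Coprime.pow_left _ ((Nat.Prime.coprime_iff_not_dvd hq).mpr hrelq')
    obtain ⟨B, hBH₁, hS₁B, hBcard, hH₁mul⟩ :=
      Cfsg.Agent.S0092.exists_complement_rel S₁ H₁ hS₁H₁ hH₁nS₁ hcop2
    have hBcent : B ≤ Subgroup.centralizer (P₁ : Set G) := by
      intro b hb
      have hbord : (orderOf b).Coprime q := by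
        have h1 : orderOf b ∣ Nat.card B := by
          have h0 := orderOf_dvd_natCard (⟨b, hb⟩ : B)
          rwa [Subgroup.orderOf_mk] at h0
        rw [hBcard] at h1
        exact Nat.Coprime.coprime_dvd_left h1
          ((Nat.Prime.coprime_iff_not_dvd hq).mpr hrelq').symm
      have h2 := centralizes_of_conj_in_nilpotent H₁ hH₁nil S₁ hS₁H₁ hS₁q b
        (hH₁nS₁ (hBH₁ hb)) hbord (fun y _ => ⟨b, hBH₁ hb, rfl⟩)
      exact Subgroup.centralizer_le (SetLike.coe_subset_coe.mpr hP₁S₁) h2
    obtain ⟨N, hNdef⟩ : ∃ N : Subgroup G, N = Subgroup.normalizer (P₁ : Set G) := ⟨_, rfl⟩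
    have hBN : B ≤ N := by
      rw [hNdef]
      exact hBcent.trans (Subgroup.centralizer_le_normalizer _)
    have hLN : L ≤ N := hNdef ▸ hLK.trans hKnP₁
    have h4 : Nat.card S₁ * Nat.card B = Nat.card H := by rw [hBcard, hH₁card, hcH₁]
    have hBHall : (Nat.card (B.subgroupOf N)).Coprime (B.subgroupOf N).index := by
      rw [Nat.card_congr (Subgroup.subgroupOfEquivOfLe hBN).toEquiv]
      have h1 : (B.subgroupOf N).index ∣ B.index := Subgroup.relIndex_dvd_index_of_le hBN
      refine Nat.Coprime.coprime_dvd_right h1 ?_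
      apply Nat.coprime_of_dvd
      intro r hr hrB hrI
      have hrq : r ≠ q := by
        rintro rfl
        exact hrelq' (hBcard ▸ hrB)
      have hBm : Nat.card B ∣ Nat.card H := by
        rw [← hcH₁]; exact Subgroup.card_dvd_of_le hBH₁
      have hrH : r ∣ Nat.card H := dvd_trans hrB hBm
      have h2 : Nat.card B * B.index = Nat.card G := Subgroup.card_mul_index B
      have h3 : Nat.card H * H.index = Nat.card G := Subgroup.card_mul_index H
      have h5 : B.index = Nat.card S₁ * H.index := by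
        have h6 : Nat.card B * B.index = Nat.card B * (Nat.card S₁ * H.index) := by
          rw [h2, ← h3, ← h4]; ring
        exact Nat.eq_of_mul_eq_mul_left Nat.card_pos h6
      rw [h5, hcS₁, he] at hrI
      rcases (Nat.Prime.dvd_mul hr).mp hrI with h6 | h6
      · exact hrq ((Nat.prime_dvd_prime_iff_eq hr hq).mp (hr.dvd_of_dvd_pow h6))
      · exact hr.one_lt.ne' (Nat.eq_one_of_dvd_coprimes hHall hrH h6)
    have hBnil : Group.IsNilpotent (B.subgroupOf N) := by
      haveI := isNilpotent_of_le hBH₁ hH₁nil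
      exact Group.nilpotent_of_mulEquiv (Subgroup.subgroupOfEquivOfLe hBN).symm
    have hLprimes : ∀ r : ℕ, r.Prime → r ∣ Nat.card (L.subgroupOf N) →
        r ∣ Nat.card (B.subgroupOf N) := by
      intro r hr hrL
      rw [Nat.card_congr (Subgroup.subgroupOfEquivOfLe hLN).toEquiv] at hrL
      rw [Nat.card_congr (Subgroup.subgroupOfEquivOfLe hBN).toEquiv]
      have hrq : r ≠ q := by
        rintro rfl
        exact hrelq (hLcard ▸ hrL)
      have hrK : r ∣ Nat.card K := dvd_trans hrL (Subgroup.card_dvd_of_le hLK)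
      have hrH := hprimes r hr hrK
      rw [← h4, hcS₁, he] at hrH
      rcases (Nat.Prime.dvd_mul hr).mp hrH with h6 | h6
      · exact absurd ((Nat.prime_dvd_prime_iff_eq hr hq).mp (hr.dvd_of_dvd_pow h6)) hrq
      · exact h6
    have hLn : Nat.card (L.subgroupOf N) ≤ n := by
      rw [Nat.card_congr (Subgroup.subgroupOfEquivOfLe hLN).toEquiv]; exact hLlt
    obtain ⟨x, hx⟩ := ih N (B.subgroupOf N) (L.subgroupOf N) hBnil hBHall hLprimes hLn
    refine ⟨(x : G) * z, ?_⟩
    intro k hk
    obtain ⟨a, ha, l, hl, rfl⟩ := hKmul k hk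
    rw [conj_mul_smul, mem_conj_smul_iff, ← hH₁def]
    have h1 : (x : G)⁻¹ * a * (x : G) ∈ P₁ := by
      have hxN : (x : G) ∈ Subgroup.normalizer (P₁ : Set G) := hNdef ▸ x.2
      exact (Subgroup.mem_normalizer_iff''.mp hxN a).mp ha
    have h2 : (x : G)⁻¹ * l * (x : G) ∈ B := by
      have h3 := hx (Subgroup.mem_subgroupOf.mpr hl : (⟨l, hLN hl⟩ : N) ∈ L.subgroupOf N)
      rw [mem_conj_smul_iff] at h3
      exact Subgroup.mem_subgroupOf.mp h3
    have e2 : (x : G)⁻¹ * (a * l) * (x : G) =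
        ((x : G)⁻¹ * a * (x : G)) * ((x : G)⁻¹ * l * (x : G)) := by group
    rw [e2]
    exact H₁.mul_mem (hS₁H₁ (hP₁S₁ h1)) (hBH₁ h2)

/-- Let H be a nilpotent subgroup of a finite group G whose order is coprime to its index, and K a subgroup every prime divisor of whose order divides the order of H. Then K lies in some conjugate of H. -/
theorem result {G : Type*} [Group G] [Finite G] (H K : Subgroup G) (hH : Group.IsNilpotent H) (hHall : (Nat.card H).Coprime H.index) (hK : ∀ p : ℕ, p.Prime → p ∣ Nat.card K → p ∣ Nat.card H) : ∃ x : G, K ≤ MulAut.conj x • H := by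
  exact wielandt_aux _ G H K hH hHall hK le_rfl

end Cfsg.Agent.S0581
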