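import Cfsg.Statements.S0626
import Cfsg.Agent.Lib.Helper17.PStabAb

set_option autoImplicit false
open Cfsg

namespace Cfsg.Agent.S0626

/-- For odd p, groups whose Sylow 2-subgroups are abelian are p-stable in the action sense. -/
theorem result {G : Type*} [Group G] [Finite G] {p : ℕ} [Fact p.Prime] (hp : p ≠ 2) (hab : ∀ T : Sylow 2 G, IsMulCommutative T) : Cfsg.IsActionPStable p G := by
  apply Cfsg.Agent.Lib.Helper17.isActionPStable_of_abSyl hp
  intro T s hs t ht
  have h1 : (⟨s, hs⟩ : ↥(T : Subgroup G)) * ⟨t, ht⟩ = ⟨t, ht⟩ * ⟨s, hs⟩ :=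
    (hab T).is_comm.comm _ _
  exact congrArg Subtype.val h1

end Cfsg.Agent.S0626
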