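import Cfsg.Statements.S0638
import Cfsg.Agent.Lib.Helper2.CyclicMax

set_option autoImplicit false
open Cfsg

namespace Cfsg.Agent.S0638

/-- For odd p, in a non-cyclic metacyclic p-group the elements of order dividing p generate an elementary abelian subgroup of order p². -/
theorem result {R : Type*} [Group R] [Finite R] {p : ℕ} [Fact p.Prime] (hp : p ≠ 2) (hR : IsPGroup p R) (hm : Cfsg.IsMetacyclic R) (hnc : ¬ IsCyclic R) : Cfsg.IsElementaryAbelian p (Cfsg.omegaOne p (⊤ : Subgroup R)) ∧ Nat.card ↥(Cfsg.omegaOne p (⊤ : Subgroup R)) = p ^ 2 := by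
  classical
  have hpf : p.Prime := Fact.out
  have hoddp : Odd p := hpf.odd_of_ne_two hp
  obtain ⟨N, hNn, hNc, hQc⟩ := hm
  have hcommQ : ∀ a b : R ⧸ N, a * b = b * a := by
    intro a b
    obtain ⟨g, hg⟩ := hQc.exists_generator
    obtain ⟨i, rfl⟩ := Subgroup.mem_zpowers_iff.mp (hg a)
    obtain ⟨j, rfl⟩ := Subgroup.mem_zpowers_iff.mp (hg b)
    rw [← zpow_add, ← zpow_add, add_comm]
  let Q : Subgroup (R ⧸ N) :=
    { carrier := {y | y ^ p = 1}
      mul_mem' := by
        intro a b ha hb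
        have ha' : a ^ p = 1 := ha
        have hb' : b ^ p = 1 := hb
        show (a * b) ^ p = 1
        rw [(show Commute a b from hcommQ a b).mul_pow, ha', hb', one_mul]
      one_mem' := one_pow p
      inv_mem' := by
        intro a ha
        have ha' : a ^ p = 1 := ha
        show a⁻¹ ^ p = 1
        rw [inv_pow, ha', inv_one] }
  have hQmem : ∀ y, y ∈ Q ↔ y ^ p = 1 := fun y => Iff.rfl
  have hQcard : Nat.card Q ≤ p := by
    have := Fintype.ofFinite (R ⧸ N)
    have h1 := IsCyclic.card_pow_eq_one_le (α := R ⧸ N) (n := p) hpf.pos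
    have h2 : (Q : Set (R ⧸ N)) = ↑(Finset.univ.filter (fun a : R ⧸ N => a ^ p = 1)) := by
      ext y
      simp [hQmem]
    show Nat.card (Q : Set (R ⧸ N)) ≤ p
    rw [Nat.card_coe_set_eq, h2, Set.ncard_coe_finset]
    exact h1
  obtain ⟨M, hMdef⟩ : ∃ M : Subgroup R, M = Q.comap (QuotientGroup.mk' N) := ⟨_, rfl⟩
  have hNM : N ≤ M := by
    intro x hx
    rw [hMdef, Subgroup.mem_comap, hQmem]
    have h1 : QuotientGroup.mk' N x = 1 := (QuotientGroup.eq_one_iff x).mpr hx
    rw [h1, one_pow]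
  have hEM : ∀ x : R, x ^ p = 1 → x ∈ M := by
    intro x hx
    rw [hMdef, Subgroup.mem_comap, hQmem, ← map_pow, hx, map_one]
  have hU : ¬ Cfsg.Agent.Lib.Lead.UniqP p R := fun hU =>
    hnc (Cfsg.Agent.Lib.Lead.isCyclic_of_uniqP_odd p hoddp _ R rfl hR hU)
  unfold Cfsg.Agent.Lib.Lead.UniqP at hU
  push Not at hU
  obtain ⟨x, y, hx, hy, hx1, hyx⟩ := hU
  have hMnc : ¬ IsCyclic M := by
    intro hMc
    have := Fintype.ofFinite M
    have h1 := IsCyclic.card_pow_eq_one_le (α := M) (n := p) hpf.pos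
    obtain ⟨x', hx'⟩ : ∃ x' : M, (x' : R) = x := ⟨⟨x, hEM x hx⟩, rfl⟩
    obtain ⟨y', hy'⟩ : ∃ y' : M, (y' : R) = y := ⟨⟨y, hEM y hy⟩, rfl⟩
    have hx'p : x' ^ p = 1 := Subtype.ext (by simpa [hx'] using hx)
    have hy'p : y' ^ p = 1 := Subtype.ext (by simpa [hy'] using hy)
    have hx'1 : x' ≠ 1 := fun h => hx1 (by rw [← hx', h]; rfl)
    have hx'o : orderOf x' = p := orderOf_eq_prime hx'p hx'1
    have hsub : insert y' ((Finset.range p).image (fun i => x' ^ i))
        ⊆ Finset.univ.filter (fun a : M => a ^ p = 1) := by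
      intro a ha
      rw [Finset.mem_insert, Finset.mem_image] at ha
      rw [Finset.mem_filter]
      refine ⟨Finset.mem_univ _, ?_⟩
      rcases ha with rfl | ⟨i, -, rfl⟩
      · exact hy'p
      · rw [← pow_mul, mul_comm, pow_mul, hx'p, one_pow]
    have hcard : ((Finset.range p).image (fun i => x' ^ i)).card = p := by
      rw [Finset.card_image_of_injOn, Finset.card_range]
      intro i hi j hj hij
      have hi' : i ∈ Set.Iio (orderOf x') := by
        rw [hx'o]; exact Finset.mem_range.mp hi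
      have hj' : j ∈ Set.Iio (orderOf x') := by
        rw [hx'o]; exact Finset.mem_range.mp hj
      exact pow_injOn_Iio_orderOf hi' hj' hij
    have hnot : y' ∉ (Finset.range p).image (fun i => x' ^ i) := by
      intro h
      obtain ⟨i, -, hi⟩ := Finset.mem_image.mp h
      apply hyx
      refine Subgroup.mem_zpowers_iff.mpr ⟨i, ?_⟩
      have h3 := congrArg Subtype.val hi
      rw [← hx', ← hy', ← h3]
      simp
    have h4 := Finset.card_le_card hsub
    rw [Finset.card_insert_of_notMem hnot, hcard] at h4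
    omega
  have hrel : N.relIndex M = Nat.card Q := by
    have h1 := Subgroup.relIndex_comap (H := (⊥ : Subgroup (R ⧸ N))) (QuotientGroup.mk' N) M
    rw [MonoidHom.comap_bot, QuotientGroup.ker_mk', Subgroup.relIndex_bot_left] at h1
    rw [h1, hMdef, Subgroup.map_comap_eq_self_of_surjective (QuotientGroup.mk'_surjective N)]
  have hidx : (N.subgroupOf M).index = p := by
    show N.relIndex M = p
    have hQp : IsPGroup p Q := (hR.to_quotient N).to_subgroup Q
    obtain ⟨j, hj⟩ := IsPGroup.iff_card.mp hQp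
    have hj1 : j ≠ 0 := by
      rintro rfl
      rw [pow_zero] at hj
      rw [hj] at hrel
      have hMN : M ≤ N := Subgroup.relIndex_eq_one.mp hrel
      have hMN' : M = N := le_antisymm hMN hNM
      exact hMnc (hMN' ▸ hNc)
    have hj2 : j ≤ 1 := by
      by_contra hcon
      have h5 : p ^ 2 ≤ p ^ j := Nat.pow_le_pow_right hpf.pos (by omega)
      have hp2 := hpf.two_le
      rw [hj] at hQcard
      nlinarith
    have hj3 : j = 1 := by omega
    rw [hrel, hj, hj3, pow_one]
  have hCcyc : IsCyclic (N.subgroupOf M) := (Subgroup.subgroupOfEquivOfLe hNM).isCyclic.mpr hNc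
  obtain ⟨K, hK, hKc⟩ := Cfsg.Agent.Lib.Helper2.omega_of_cyclic_index_p hp (hR.to_subgroup M) hMnc
    (N.subgroupOf M) hCcyc hidx
  have hKcomm : IsMulCommutative K := IsPGroup.isMulCommutative_of_card_eq_prime_sq hKc
  have hΩ : Cfsg.omegaOne p (⊤ : Subgroup R) = K.map M.subtype := by
    unfold Cfsg.omegaOne
    apply le_antisymm
    · rw [Subgroup.closure_le]
      rintro x ⟨-, hx⟩
      refine ⟨⟨x, hEM x hx⟩, (hK _).mpr (Subtype.ext (by simpa using hx)), rfl⟩
    · rintro _ ⟨k, hk, rfl⟩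
      apply Subgroup.subset_closure
      refine ⟨Subgroup.mem_top _, ?_⟩
      have := (hK k).mp hk
      simpa using congrArg Subtype.val this
  rw [hΩ]
  refine ⟨⟨inferInstance, ?_⟩, ?_⟩
  · rintro _ ⟨k, hk, rfl⟩
    have := (hK k).mp hk
    simpa using congrArg Subtype.val this
  · rw [Subgroup.card_map_of_injective M.subtype_injective, hKc]

end Cfsg.Agent.S0638
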