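import Cfsg.Statements.S0645
import Cfsg.Agent.Lib.Helper2.CyclicMax

set_option autoImplicit false
open Cfsg

namespace Cfsg.Agent.S0645

open Cfsg.Agent.Lib.Helper2 Cfsg.Agent.Lib.Lead

lemma conj_pow_iter {G : Type*} [Group G] (a b : G) (r : ℕ) (h : b * a * b⁻¹ = a ^ r) :
    ∀ j : ℕ, b ^ j * a * (b ^ j)⁻¹ = a ^ (r ^ j) := by
  intro j
  induction j with
  | zero => simp
  | succ j ih =>
    have e : b ^ (j + 1) * a * (b ^ (j + 1))⁻¹ = b * (b ^ j * a * (b ^ j)⁻¹) * b⁻¹ := by
      rw [pow_succ']; group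
    rw [e, ih, ← conj_pow, h, ← pow_mul, pow_succ']

/-- binomial expansion modulo `N` when `N ∣ x * x` -/
lemma one_add_pow_modEq (N x : ℕ) (hxx : N ∣ x * x) :
    ∀ j : ℕ, ∃ t : ℕ, (1 + x) ^ j = 1 + j * x + N * t := by
  obtain ⟨s, hs⟩ := hxx
  intro j
  induction j with
  | zero => exact ⟨0, by simp⟩
  | succ j ih =>
    obtain ⟨t, ht⟩ := ih
    refine ⟨j * s + t * (1 + x), ?_⟩
    rw [pow_succ, ht]
    have e : (1 + j * x + N * t) * (1 + x) = 1 + (j + 1) * x + (j * (x * x) + N * t * (1 + x)) := by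
      ring
    rw [e, hs]
    ring

/-- a group generated by a central subgroup and one more commuting element is abelian -/
lemma comm_of_gen {G : Type*} [Group G] (C : Subgroup G) (a b : G)
    (hCeq : Subgroup.zpowers a = C) (htop : C ⊔ Subgroup.zpowers b = ⊤) (hcomm : b * a = a * b) :
    ∀ x y : G, x * y = y * x := by
  have hza : C ⊔ Subgroup.zpowers b ≤ Subgroup.centralizer {a} := by
    refine sup_le ?_ ?_
    · rw [← hCeq, Subgroup.zpowers_le, Subgroup.mem_centralizer_iff]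
      intro h hh
      rw [Set.mem_singleton_iff] at hh
      rw [hh]
    · rw [Subgroup.zpowers_le, Subgroup.mem_centralizer_iff]
      intro h hh
      rw [Set.mem_singleton_iff] at hh
      rw [hh, hcomm]
  have hzb : C ⊔ Subgroup.zpowers b ≤ Subgroup.centralizer {b} := by
    refine sup_le ?_ ?_
    · rw [← hCeq, Subgroup.zpowers_le, Subgroup.mem_centralizer_iff]
      intro h hh
      rw [Set.mem_singleton_iff] at hh
      rw [hh, hcomm]
    · rw [Subgroup.zpowers_le, Subgroup.mem_centralizer_iff]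
      intro h hh
      rw [Set.mem_singleton_iff] at hh
      rw [hh]
  have ha : a ∈ Subgroup.center G := by
    rw [Subgroup.mem_center_iff]
    intro g
    have hg : g ∈ Subgroup.centralizer {a} := hza (htop ▸ Subgroup.mem_top g)
    exact ((Subgroup.mem_centralizer_iff.mp hg) a rfl).symm
  have hb : b ∈ Subgroup.center G := by
    rw [Subgroup.mem_center_iff]
    intro g
    have hg : g ∈ Subgroup.centralizer {b} := hzb (htop ▸ Subgroup.mem_top g)
    exact ((Subgroup.mem_centralizer_iff.mp hg) b rfl).symm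
  have hcen : C ⊔ Subgroup.zpowers b ≤ Subgroup.center G :=
    sup_le (hCeq ▸ Subgroup.zpowers_le.mpr ha) (Subgroup.zpowers_le.mpr hb)
  intro x y
  have hy : y ∈ Subgroup.center G := hcen (htop ▸ Subgroup.mem_top y)
  exact (Subgroup.mem_center_iff.mp hy) x

/-- Classification of p-groups with a cyclic maximal subgroup, odd p: a non-abelian one of order p^n has generators a of order p^(n-1) and b of order p, b outside the cyclic subgroup generated by a, with b a b⁻¹ = a^(1 + p^(n-2)). -/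
theorem result {G : Type*} [Group G] [Finite G] {p : ℕ} [Fact p.Prime] (hp : p ≠ 2) (n : ℕ) (hn : 3 ≤ n) (hG : Nat.card G = p ^ n) (C : Subgroup G) (hC : IsCyclic C) (hCi : C.index = p) (hna : ∃ x y : G, x * y ≠ y * x) : ∃ a b : G, orderOf a = p ^ (n - 1) ∧ orderOf b = p ∧ b ∉ Subgroup.zpowers a ∧ b * a * b⁻¹ = a ^ (1 + p ^ (n - 2)) := by
  classical
  have hp' := (Fact.out : p.Prime)
  have hodd : Odd p := hp'.odd_of_ne_two hp
  have hR : IsPGroup p G := IsPGroup.of_card hG
  have hnc : ¬ IsCyclic G := by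
    intro hcyc
    obtain ⟨x, y, hxy⟩ := hna
    exact hxy ((IsCyclic.commGroup (α := G)).mul_comm x y)
  obtain ⟨K, hK, hKcard⟩ := omega_of_cyclic_index_p hp hR hnc C hC hCi
  obtain ⟨a', ha'⟩ := hC.exists_generator
  obtain ⟨a, haC, hCa⟩ : ∃ a ∈ C, ∀ m ∈ C, m ∈ Subgroup.zpowers a := by
    refine ⟨a', a'.2, ?_⟩
    intro m hm
    obtain ⟨i, hi⟩ := Subgroup.mem_zpowers_iff.mp (ha' ⟨m, hm⟩)
    exact Subgroup.mem_zpowers_iff.mpr ⟨i, by simpa using congrArg Subtype.val hi⟩
  have hCeq : Subgroup.zpowers a = C := le_antisymm (Subgroup.zpowers_le.mpr haC) hCa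
  have hCcard : Nat.card C = p ^ (n - 1) := by
    have h1 := C.card_mul_index
    rw [hCi, hG] at h1
    have h2 : p ^ n = p ^ (n - 1) * p := by
      rw [← pow_succ]; congr 1; omega
    rw [h2] at h1
    exact Nat.eq_of_mul_eq_mul_right hp'.pos h1
  have hoa : orderOf a = p ^ (n - 1) := by rw [← hCcard, ← hCeq, Nat.card_zpowers]
  obtain ⟨b, hbK, hbC⟩ : ∃ b, b ∈ K ∧ b ∉ C := by
    by_contra hall
    push Not at hall
    have : Fintype C := Fintype.ofFinite C
    have h1 : Nat.card K ≤ Nat.card {c : C // c ^ p = 1} := by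
      refine Nat.card_le_card_of_injective (fun x : K =>
        (⟨⟨x.1, hall x.1 x.2⟩, by apply Subtype.ext; simpa using (hK x.1).mp x.2⟩ :
          {c : C // c ^ p = 1})) ?_
      intro x y hxy
      apply Subtype.ext
      have := congrArg (fun c : {c : C // c ^ p = 1} => (c.1 : G)) hxy
      simpa using this
    have h2 : Nat.card {c : C // c ^ p = 1} ≤ p := by
      rw [Nat.card_eq_fintype_card, Fintype.card_subtype]
      exact IsCyclic.card_pow_eq_one_le hp'.pos
    rw [hKcard] at h1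
    have := hp'.two_le
    nlinarith
  have hbp : b ^ p = 1 := (hK b).mp hbK
  have hb1 : b ≠ 1 := fun h => hbC (h ▸ C.one_mem)
  have hob : orderOf b = p := orderOf_eq_prime hbp hb1
  have hCn : C.Normal := Cfsg.Agent.Lib.Helper21.normal_of_index_eq_prime hR hCi
  obtain ⟨r, hr⟩ : ∃ r : ℕ, b * a * b⁻¹ = a ^ r := by
    have h1 : b * a * b⁻¹ ∈ Subgroup.zpowers a := hCeq ▸ hCn.conj_mem a haC b
    rw [← mem_powers_iff_mem_zpowers] at h1
    obtain ⟨r, hr⟩ := h1
    exact ⟨r, hr.symm⟩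
  have hiter := conj_pow_iter a b r hr
  have hrp : r ^ p ≡ 1 [MOD p ^ (n - 1)] := by
    have h1 := hiter p
    rw [hbp, one_mul, inv_one, mul_one] at h1
    rw [← hoa]
    exact pow_eq_pow_iff_modEq.mp (by rw [pow_one]; exact h1.symm)
  obtain ⟨hr1, hpr, hdvd⟩ := nt_odd p hodd (n - 1) r (by omega) hrp
  have hN : p ^ (n - 1) = p * p ^ (n - 2) := by
    rw [← pow_succ']; congr 1; omega
  have hdvd' : p ^ (n - 2) ∣ r - 1 := by
    rw [hN] at hdvd
    exact (Nat.mul_dvd_mul_iff_left hp'.pos).mp hdvd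
  obtain ⟨k, hk⟩ := hdvd'
  have hr_eq : r = 1 + p ^ (n - 2) * k := by omega
  have hpk : ¬ p ∣ k := by
    intro hpk
    obtain ⟨k', rfl⟩ := hpk
    have h1 : a ^ r = a := by
      rw [hr_eq, pow_add, pow_one, show p ^ (n - 2) * (p * k') = p ^ (n - 1) * k' by
        rw [hN]; ring, pow_mul, ← hoa, pow_orderOf_eq_one, one_pow, mul_one]
    rw [h1] at hr
    have hcomm : b * a = a * b := by
      calc b * a = b * a * b⁻¹ * b := by group
        _ = a * b := by rw [hr]
    obtain ⟨x, y, hxy⟩ := hna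
    apply hxy
    have htop : C ⊔ Subgroup.zpowers b = ⊤ :=
      eq_top_of_index_prime le_sup_left (hCi ▸ hp')
        (fun h => hbC (h (Subgroup.mem_sup_right (Subgroup.mem_zpowers b))))
    exact comm_of_gen C a b hCeq htop hcomm x y
  obtain ⟨j, -, hj⟩ := Nat.exists_mul_mod_eq_one_of_coprime
    ((Nat.Prime.coprime_iff_not_dvd hp').mpr hpk).symm hp'.one_lt
  -- `k * j = 1 + p * m`
  obtain ⟨m, hm⟩ : ∃ m, k * j = 1 + p * m := ⟨k * j / p, by
    have := Nat.div_add_mod (k * j) p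
    omega⟩
  have hbjk : (b ^ j) ^ k = b := by
    rw [← pow_mul, mul_comm, hm, pow_add, pow_one, pow_mul, hbp, one_pow, mul_one]
  have hbj1 : b ^ j ≠ 1 := by
    intro h
    rw [h, one_pow] at hbjk
    exact hb1 hbjk.symm
  refine ⟨a, b ^ j, hoa, ?_, ?_, ?_⟩
  · exact orderOf_eq_prime (by rw [← pow_mul, mul_comm, pow_mul, hbp, one_pow]) hbj1
  · intro h
    apply hbC
    rw [← hCeq, ← hbjk]
    exact Subgroup.pow_mem _ h k
  · rw [hiter j]
    rw [pow_eq_pow_iff_modEq, hoa, hr_eq]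
    obtain ⟨t, ht⟩ := one_add_pow_modEq (p ^ (n - 1)) (p ^ (n - 2) * k) (by
      have h1 : p ^ (n - 1) ∣ p ^ (n - 2) * p ^ (n - 2) := by
        rw [← pow_add]
        exact pow_dvd_pow p (by omega)
      exact h1.trans ⟨k * k, by ring⟩) j
    rw [ht]
    have e : 1 + j * (p ^ (n - 2) * k) + p ^ (n - 1) * t
        = 1 + p ^ (n - 2) + p ^ (n - 1) * (m + t) := by
      have e1 : j * (p ^ (n - 2) * k) = p ^ (n - 2) * (k * j) := by ring
      rw [e1, hm, hN]
      ring
    rw [e]
    exact (Nat.modEq_iff_dvd' (by omega)).mpr ⟨m + t, by omega⟩ |>.symm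

end Cfsg.Agent.S0645
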