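import Cfsg.Statements.S0656
import Cfsg.Agent.Lib.Helper17.QuadInv

set_option autoImplicit false
open Cfsg

namespace Cfsg.Agent.S0656

/-- For odd p, a faithful group on an elementary abelian p-group with no nontrivial normal p-subgroup in which some nontrivial p-element acts quadratically has a section isomorphic to SL(2, p). -/
theorem result {G : Type*} [Group G] [Finite G] {p : ℕ} [Fact p.Prime] (hp : p ≠ 2) (V H : Subgroup G) (hV : Cfsg.IsElementaryAbelian p V) (hHV : H ≤ Subgroup.normalizer (V : Set G)) (hf : H ⊓ Subgroup.centralizer (V : Set G) = ⊥) (hO : Cfsg.pCore p ↥H = ⊥) (x : G) (hxH : x ∈ H) (hx1 : x ≠ 1) (hxp : ∃ k : ℕ, orderOf x = p ^ k) (hq : ⁅⁅V, Subgroup.zpowers x⁆, Subgroup.zpowers x⁆ = ⊥) : ∃ (K L : Subgroup G) (hL : (L.subgroupOf K).Normal), K ≤ H ∧ Nonempty ((K ⧸ L.subgroupOf K) ≃* Matrix.SpecialLinearGroup (Fin 2) (ZMod p)) := by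
  classical
  by_contra hcon
  obtain ⟨hVc, hVp⟩ := hV
  letI : CommGroup ↥V :=
    { (inferInstance : Group ↥V) with mul_comm := fun x y => hVc.is_comm.comm x y }
  obtain ⟨φ, hφ⟩ : ∃ φ : ↥H →* MulAut ↥V,
      ∀ (h : ↥H) (v : ↥V), ((φ h v : ↥V) : G) = h * v * (h : G)⁻¹ :=
    ⟨(V.normalizerMonoidHom).comp (Subgroup.inclusion hHV), fun _ _ => rfl⟩
  have hAp : ∀ v : ↥V, v ^ p = 1 := by
    intro v
    apply Subtype.ext
    rw [Subgroup.coe_pow, hVp _ v.2]
    rfl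
  have hqa : Cfsg.Agent.Lib.Helper17.QuadAct φ ⟨x, hxH⟩ := by
    intro v
    apply Subtype.ext
    rw [hφ, Subgroup.coe_div, hφ, div_eq_mul_inv]
    exact Cfsg.Agent.Lib.Helper17.quad_elem_of_comm V x hq v v.2
  have hno : ¬ Cfsg.Involves (Matrix.SpecialLinearGroup (Fin 2) (ZMod p)) ↥H := by
    intro h
    apply hcon
    exact Cfsg.Agent.Lib.Helper17.exists_section_of_involves_subgroup H h
  obtain ⟨N, hNn, haN, hN⟩ := Cfsg.Agent.Lib.Helper17.quad_involves hp hAp φ hno ⟨x, hxH⟩ hqa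
  have hNp : IsPGroup p N := by
    rintro ⟨g, hg⟩
    obtain ⟨k, hk⟩ := hN g hg
    refine ⟨k, ?_⟩
    apply Subtype.ext
    rw [Subgroup.coe_pow, Subgroup.coe_one]
    have hmem : ((g ^ p ^ k : ↥H) : G) ∈ H ⊓ Subgroup.centralizer (V : Set G) := by
      refine Subgroup.mem_inf.mpr ⟨(g ^ p ^ k).2, ?_⟩
      rw [Subgroup.mem_centralizer_iff]
      intro v hv
      have h1 : φ (g ^ p ^ k) ⟨v, hv⟩ = ⟨v, hv⟩ := by rw [map_pow, hk]; rfl
      have h2 := congrArg Subtype.val h1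
      rw [hφ] at h2
      obtain ⟨y, hy⟩ : ∃ y : G, y = ((g ^ p ^ k : ↥H) : G) := ⟨_, rfl⟩
      rw [← hy] at h2 ⊢
      calc v * y = (y * v * y⁻¹) * y := by rw [h2]
        _ = y * v := by group
    rw [hf, Subgroup.mem_bot] at hmem
    exact Subtype.ext hmem
  have hle := Cfsg.Agent.Lib.Helper14.le_pCore p hNn hNp haN
  rw [hO, Subgroup.mem_bot] at hle
  exact hx1 (congrArg Subtype.val hle)

end Cfsg.Agent.S0656
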