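import Cfsg.Statements.S0657
import Cfsg.Agent.Lib.Helper17.QuadNA

set_option autoImplicit false
open Cfsg

namespace Cfsg.Agent.S0657

/-- For odd p, a group that fails to be p-stable modulo its largest normal subgroup of order prime to p, and whose upper p-series does not stop there, has a section isomorphic to SL(2, p). -/
theorem result {G : Type*} [Group G] [Finite G] {p : ℕ} [Fact p.Prime] (hp : p ≠ 2) (hO : Cfsg.pPrimeCore p G < Cfsg.pPrimePCore p G) (hns : ¬ Cfsg.IsPStable p (G ⧸ Cfsg.pPrimeCore p G)) : ∃ (K L : Subgroup G) (hL : (L.subgroupOf K).Normal), K ≤ ⊤ ∧ Nonempty ((K ⧸ L.subgroupOf K) ≃* Matrix.SpecialLinearGroup (Fin 2) (ZMod p)) := by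
  classical
  by_contra hcon
  have hnoG : ¬ Cfsg.Involves (Matrix.SpecialLinearGroup (Fin 2) (ZMod p)) G := by
    rintro ⟨K, R, hn, he⟩
    exact hcon ⟨K, R, hn, le_top, he⟩
  have hnoQ : ¬ Cfsg.Involves (Matrix.SpecialLinearGroup (Fin 2) (ZMod p))
      (G ⧸ Cfsg.pPrimeCore p G) := fun h =>
    hnoG (Cfsg.Agent.Lib.Helper17.involves_of_surjective_hom (QuotientGroup.mk' _)
      (QuotientGroup.mk'_surjective _) h)
  apply hns
  refine ⟨(Fact.out : p.Prime).odd_of_ne_two hp, ?_, ?_⟩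
  · intro hbot
    have h1 : Cfsg.pPrimePCore p G = Cfsg.pPrimeCore p G := by
      unfold Cfsg.pPrimePCore
      rw [hbot, MonoidHom.comap_bot, QuotientGroup.ker_mk']
    exact (ne_of_lt hO) h1.symm
  · intro A P hA hP hAP hPle hnorm hquad
    rintro _ ⟨a', ha', rfl⟩
    have hnoX : ¬ Cfsg.Involves (Matrix.SpecialLinearGroup (Fin 2) (ZMod p))
        ↥(Subgroup.normalizer (P : Set (G ⧸ Cfsg.pPrimeCore p G))) := by
      intro h
      apply hnoQ
      obtain ⟨K₁, L₁, hn, hle, he⟩ :=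
        Cfsg.Agent.Lib.Helper17.exists_section_of_involves_subgroup _ h
      exact ⟨K₁, L₁, hn, he⟩
    obtain ⟨φ, hφ⟩ : ∃ φ : ↥(Subgroup.normalizer (P : Set (G ⧸ Cfsg.pPrimeCore p G))) →*
        MulAut ↥P, ∀ (h : ↥(Subgroup.normalizer (P : Set (G ⧸ Cfsg.pPrimeCore p G))))
          (v : ↥P), ((φ h v : ↥P) : G ⧸ Cfsg.pPrimeCore p G)
            = h * v * (h : G ⧸ Cfsg.pPrimeCore p G)⁻¹ :=
      ⟨P.normalizerMonoidHom, fun _ _ => rfl⟩
    have hqa : ⁅⁅P, Subgroup.zpowers (a' : G ⧸ Cfsg.pPrimeCore p G)⁆,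
        Subgroup.zpowers (a' : G ⧸ Cfsg.pPrimeCore p G)⁆ = ⊥ := by
      rw [eq_bot_iff, ← hquad]
      have hz : Subgroup.zpowers (a' : G ⧸ Cfsg.pPrimeCore p G) ≤ A := by
        rw [Subgroup.zpowers_le]
        exact ha'
      exact Subgroup.commutator_mono (Subgroup.commutator_mono le_rfl hz) hz
    have hq : ∀ v : ↥P, φ a' (φ a' v * v⁻¹) = φ a' v * v⁻¹ := by
      intro v
      apply Subtype.ext
      rw [hφ, Subgroup.coe_mul, hφ, Subgroup.coe_inv]
      exact Cfsg.Agent.Lib.Helper17.quad_elem_of_comm P (a' : G ⧸ Cfsg.pPrimeCore p G) hqa v v.2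
    obtain ⟨N, hNn, haN, hN⟩ := Cfsg.Agent.Lib.Helper17.quad_na p hp hnoX a' _ ↥P rfl hP φ hq
    have hNbn : (N.map (QuotientGroup.mk'
        ((Subgroup.centralizer (P : Set (G ⧸ Cfsg.pPrimeCore p G))).subgroupOf
          (Subgroup.normalizer (P : Set (G ⧸ Cfsg.pPrimeCore p G)))))).Normal :=
      hNn.map _ (QuotientGroup.mk'_surjective _)
    have hNbp : IsPGroup p (N.map (QuotientGroup.mk'
        ((Subgroup.centralizer (P : Set (G ⧸ Cfsg.pPrimeCore p G))).subgroupOf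
          (Subgroup.normalizer (P : Set (G ⧸ Cfsg.pPrimeCore p G)))))) := by
      rintro ⟨y, x, hx, rfl⟩
      obtain ⟨k, hk⟩ := hN x hx
      refine ⟨k, ?_⟩
      apply Subtype.ext
      rw [Subgroup.coe_pow, Subgroup.coe_one]
      show (QuotientGroup.mk' _ x) ^ p ^ k = 1
      rw [← map_pow]
      apply (QuotientGroup.eq_one_iff _).mpr
      rw [Subgroup.mem_subgroupOf, Subgroup.mem_centralizer_iff]
      intro v hv
      have h1 : φ (x ^ p ^ k) ⟨v, hv⟩ = ⟨v, hv⟩ := by rw [map_pow, hk]; rfl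
      have h2 := congrArg Subtype.val h1
      rw [hφ] at h2
      obtain ⟨y, hy⟩ : ∃ y : G ⧸ Cfsg.pPrimeCore p G,
          y = ((x ^ p ^ k : ↥(Subgroup.normalizer (P : Set (G ⧸ Cfsg.pPrimeCore p G)))) :
            G ⧸ Cfsg.pPrimeCore p G) := ⟨_, rfl⟩
      rw [← hy] at h2 ⊢
      calc v * y = (y * v * y⁻¹) * y := by rw [h2]
        _ = y * v := by group
    exact Cfsg.Agent.Lib.Helper14.le_pCore p hNbn hNbp ⟨a', haN, rfl⟩

end Cfsg.Agent.S0657
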