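import Mathlib
import Cfsg.Statements.S0718
import Cfsg.Agent.Lib.Helper7.PermChar2
import Cfsg.Agent.Lib.Helper7.PermCent

set_option autoImplicit false
open Cfsg

namespace Cfsg.Agent.S0718

open Cfsg.Agent.Lib.Helper2 Cfsg.Agent.Lib.Helper7.PermChar Cfsg.Agent.Lib.Helper7.PermCent

/-- Multiplicity-freeness of the permutation character is equivalent to commutativity of the centraliser ring, i.e. of the algebra of `G`-equivariant endomorphisms of the complex permutation module. -/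
theorem result {G : Type*} [Group G] [Fintype G] {Ω : Type*} [Fintype Ω] [MulAction G Ω] : (∀ χ : G → ℂ, Cfsg.IsIrrCharacter G χ → Cfsg.classInner (fun g : G => (Nat.card (MulAction.fixedBy Ω g) : ℂ)) χ = 0 ∨ Cfsg.classInner (fun g : G => (Nat.card (MulAction.fixedBy Ω g) : ℂ)) χ = 1) ↔ ∀ S T : (Ω → ℂ) →ₗ[ℂ] (Ω → ℂ), S ∈ ((Cfsg.permRep ℂ G Ω).linHom (Cfsg.permRep ℂ G Ω)).invariants → T ∈ ((Cfsg.permRep ℂ G Ω).linHom (Cfsg.permRep ℂ G Ω)).invariants → S ∘ₗ T = T ∘ₗ S := by
  have hπ : (Cfsg.permRep ℂ G Ω).character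
      = fun g : G => (Nat.card (MulAction.fixedBy Ω g) : ℂ) := funext perm_character
  constructor
  · intro hmf S T hS hT
    exact cent_comm (Cfsg.permRep ℂ G Ω) (by rw [hπ]; exact hmf) S T hS hT
  · intro hcomm χ hχ
    obtain ⟨n, τ, hτ, rfl⟩ := hχ
    have : τ.IsIrreducible := hτ
    have h1 := finrank_intertwining_le_one τ (Cfsg.permRep ℂ G Ω) hcomm
    have h2 := classInner_char_nat τ (Cfsg.permRep ℂ G Ω)
    rw [hπ] at h2
    rw [h2]
    rcases Nat.le_one_iff_eq_zero_or_eq_one.mp h1 with h | h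
    · left
      rw [h]
      simp
    · right
      rw [h]
      simp

end Cfsg.Agent.S0718
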