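import Mathlib
import Cfsg.Statements.S0717
import Cfsg.Agent.Lib.Helper7.PermChar2
import Cfsg.Agent.Lib.Helper7.PermCent
import Cfsg.Agent.S0718

set_option autoImplicit false
open Cfsg

namespace Cfsg.Agent.S0717

open Cfsg.Agent.Lib.Helper2 Cfsg.Agent.Lib.Helper7.PermChar Cfsg.Agent.Lib.Helper7.PermCent
open scoped ComplexConjugate

section aux

variable {G : Type*} [Group G] {Ω : Type*} [Fintype Ω] [DecidableEq Ω] [MulAction G Ω]

/-- The standard basis vectors of the permutation module. -/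
def bv (y : Ω) : Ω → ℂ := fun j => if y = j then 1 else 0

omit [Fintype Ω] in
theorem perm_bv (g : G) (y : Ω) : Cfsg.permRep ℂ G Ω g (bv y) = bv (g • y) := by
  funext x
  show bv y (g⁻¹ • x) = bv (g • y) x
  unfold bv
  have e : y = g⁻¹ • x ↔ g • y = x := by rw [eq_inv_smul_iff]
  by_cases h : g • y = x
  · rw [if_pos h, if_pos (e.mpr h)]
  · rw [if_neg h, if_neg (fun h' => h (e.mp h'))]

theorem apply_eq_sum (S : (Ω → ℂ) →ₗ[ℂ] (Ω → ℂ)) (φ : Ω → ℂ) (x : Ω) :
    S φ x = ∑ z, φ z * S (bv z) x := by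
  rw [LinearMap.pi_apply_eq_sum_univ S φ, Finset.sum_apply]
  rfl

theorem ext_bv (S T : (Ω → ℂ) →ₗ[ℂ] (Ω → ℂ)) (h : ∀ x y, S (bv y) x = T (bv y) x) : S = T := by
  apply LinearMap.ext
  intro φ
  funext x
  rw [apply_eq_sum S, apply_eq_sum T]
  exact Finset.sum_congr rfl (fun z _ => by rw [h])

omit [Fintype Ω] in
theorem cent_entry (S : (Ω → ℂ) →ₗ[ℂ] (Ω → ℂ))
    (hS : S ∈ ((Cfsg.permRep ℂ G Ω).linHom (Cfsg.permRep ℂ G Ω)).invariants) (g : G) (x y : Ω) :
    S (bv (g • y)) (g • x) = S (bv y) x := by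
  rw [mem_cent_iff] at hS
  rw [← perm_bv g y]
  have h1 := LinearMap.congr_fun (hS g) (bv y)
  rw [LinearMap.comp_apply, LinearMap.comp_apply] at h1
  rw [h1]
  show S (bv y) (g⁻¹ • g • x) = S (bv y) x
  rw [inv_smul_smul]

/-- Symmetry of the matrix of an endomorphism of the permutation module. -/
def Sym (S : (Ω → ℂ) →ₗ[ℂ] (Ω → ℂ)) : Prop := ∀ x y, S (bv y) x = S (bv x) y

theorem comp_entry (S T : (Ω → ℂ) →ₗ[ℂ] (Ω → ℂ)) (x y : Ω) :
    (S ∘ₗ T) (bv y) x = ∑ z, T (bv y) z * S (bv z) x := by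
  rw [LinearMap.comp_apply, apply_eq_sum S]

theorem comm_of_sym (S T : (Ω → ℂ) →ₗ[ℂ] (Ω → ℂ)) (hS : Sym S) (hT : Sym T)
    (hTS : Sym (T ∘ₗ S)) : S ∘ₗ T = T ∘ₗ S := by
  apply ext_bv
  intro x y
  rw [hTS x y, comp_entry, comp_entry]
  apply Finset.sum_congr rfl
  intro z _
  rw [hT z y, hS x z, mul_comm]

omit [Fintype Ω] in
theorem eOp_entry [Fintype G] (χ : G → ℂ) (x y : Ω) :
    eOp (Cfsg.permRep ℂ G Ω) χ (bv y) x = ∑ g : G, if g • y = x then χ g⁻¹ else 0 := by
  unfold eOp classOp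
  rw [LinearMap.sum_apply, Finset.sum_apply]
  apply Finset.sum_congr rfl
  intro g _
  rw [LinearMap.smul_apply, Pi.smul_apply, perm_bv, smul_eq_mul]
  unfold bv
  by_cases h : g • y = x
  · rw [if_pos h, if_pos h, mul_one]
  · rw [if_neg h, if_neg h, mul_zero]

omit [Fintype Ω] in
theorem eOp_swap [Fintype G] (χ : G → ℂ) (x y : Ω) :
    eOp (Cfsg.permRep ℂ G Ω) χ (bv x) y
      = eOp (Cfsg.permRep ℂ G Ω) (fun g => χ g⁻¹) (bv y) x := by
  rw [eOp_entry, eOp_entry]
  refine Fintype.sum_equiv (Equiv.inv G) (fun g => if g • x = y then χ g⁻¹ else 0)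
    (fun g => if g • y = x then χ g⁻¹⁻¹ else 0) ?_
  intro g
  show (if g • x = y then χ g⁻¹ else 0) = (if g⁻¹ • y = x then χ g⁻¹⁻¹⁻¹ else 0)
  have e : g⁻¹ • y = x ↔ g • x = y := by rw [inv_smul_eq_iff, eq_comm]
  by_cases h : g • x = y
  · rw [if_pos h, if_pos (e.mpr h), inv_inv]
  · rw [if_neg h, if_neg (fun h' => h (e.mp h'))]

open Classical in
/-- The orbital operator of the pair `(a, b)`. -/
noncomputable def orbOp (G : Type*) [Group G] [MulAction G Ω] (a b : Ω) :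
    (Ω → ℂ) →ₗ[ℂ] (Ω → ℂ) :=
  Matrix.toLin' (Matrix.of (fun x y => if ∃ g : G, g • a = x ∧ g • b = y then (1 : ℂ) else 0))

open Classical in
theorem orbOp_entry (a b x y : Ω) :
    orbOp G a b (bv y) x = if ∃ g : G, g • a = x ∧ g • b = y then (1 : ℂ) else 0 := by
  unfold orbOp
  rw [Matrix.toLin'_apply]
  simp only [Matrix.mulVec, dotProduct, Matrix.of_apply]
  unfold bv
  simp only [mul_ite, mul_one, mul_zero]
  rw [Finset.sum_ite_eq]
  simp

theorem orbOp_mem (a b : Ω) :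
    orbOp G a b ∈ ((Cfsg.permRep ℂ G Ω).linHom (Cfsg.permRep ℂ G Ω)).invariants := by
  classical
  rw [mem_cent_iff]
  intro g
  apply ext_bv
  intro x y
  rw [LinearMap.comp_apply, LinearMap.comp_apply, perm_bv, orbOp_entry]
  show _ = orbOp G a b (bv y) (g⁻¹ • x)
  rw [orbOp_entry]
  have e : (∃ h : G, h • a = x ∧ h • b = g • y) ↔ (∃ h : G, h • a = g⁻¹ • x ∧ h • b = y) := by
    constructor
    · rintro ⟨h, h1, h2⟩
      exact ⟨g⁻¹ * h, by rw [mul_smul, h1], by rw [mul_smul, h2, inv_smul_smul]⟩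
    · rintro ⟨h, h1, h2⟩
      exact ⟨g * h, by rw [mul_smul, h1, smul_inv_smul], by rw [mul_smul, h2]⟩
  by_cases hh : ∃ h : G, h • a = g⁻¹ • x ∧ h • b = y
  · rw [if_pos hh, if_pos (e.mpr hh)]
  · rw [if_neg hh, if_neg (fun h' => hh (e.mp h'))]

end aux

theorem eOp_eq_zero {G : Type*} [Group G] [Fintype G] {V : Type*} [AddCommGroup V] [Module ℂ V]
    [FiniteDimensional ℂ V] (ρ : Representation ℂ G V) {χ : G → ℂ}
    (hχ : Cfsg.IsIrrCharacter G χ) (h0 : Cfsg.classInner ρ.character χ = 0) : eOp ρ χ = 0 := by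
  have hG := card_ne_zero_complex G
  obtain ⟨n, hn0, hn⟩ := irr_apply_one hχ
  have hχ1 : χ 1 ≠ 0 := by
    rw [hn]
    exact_mod_cast hn0.ne'
  have hκ : (Nat.card G : ℂ) / χ 1 ≠ 0 := div_ne_zero hG hχ1
  have hEE := eOp_mul ρ hχ hχ
  rw [classInner_irr_self hχ, mul_one] at hEE
  have hP : ((Nat.card G : ℂ) / χ 1)⁻¹ • eOp ρ χ = 0 := by
    apply eq_zero_of_idem_trace
    · rw [smul_mul_smul_comm, hEE, smul_smul]
      congr 1
      field_simp
    · rw [map_smul, trace_eOp ρ (isCharacter_of_isIrrCharacter hχ), h0, mul_zero, smul_zero]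
  rcases smul_eq_zero.mp hP with h | h
  · exact absurd h (inv_ne_zero hκ)
  · exact h

/-- All suborbits of a transitive group are self-paired (every pair of points is interchanged by some group element) if and only if the permutation character is multiplicity-free and each of its irreducible constituents is real-valued. -/
theorem result {G : Type*} [Group G] [Fintype G] {Ω : Type*} [Fintype Ω] [MulAction G Ω] [MulAction.IsPretransitive G Ω] : (∀ a b : Ω, ∃ g : G, g • a = b ∧ g • b = a) ↔ ∀ χ : G → ℂ, Cfsg.IsIrrCharacter G χ → Cfsg.classInner (fun g : G => (Nat.card (MulAction.fixedBy Ω g) : ℂ)) χ ≠ 0 → Cfsg.classInner (fun g : G => (Nat.card (MulAction.fixedBy Ω g) : ℂ)) χ = 1 ∧ ∀ g : G, (starRingEnd ℂ) (χ g) = χ g := by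
  classical
  have hπ : (Cfsg.permRep ℂ G Ω).character
      = fun g : G => (Nat.card (MulAction.fixedBy Ω g) : ℂ) := funext perm_character
  have hGne := card_ne_zero_complex G
  constructor
  · intro hswap
    have hsym : ∀ S : (Ω → ℂ) →ₗ[ℂ] (Ω → ℂ),
        S ∈ ((Cfsg.permRep ℂ G Ω).linHom (Cfsg.permRep ℂ G Ω)).invariants → Sym S := by
      intro S hS x y
      obtain ⟨g, h1, h2⟩ := hswap x y
      have h3 := cent_entry S hS g x y
      rw [h1, h2] at h3
      exact h3.symm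
    have hcomm : ∀ S T : (Ω → ℂ) →ₗ[ℂ] (Ω → ℂ),
        S ∈ ((Cfsg.permRep ℂ G Ω).linHom (Cfsg.permRep ℂ G Ω)).invariants →
        T ∈ ((Cfsg.permRep ℂ G Ω).linHom (Cfsg.permRep ℂ G Ω)).invariants →
        S ∘ₗ T = T ∘ₗ S := by
      intro S T hS hT
      have hTS : T ∘ₗ S ∈ ((Cfsg.permRep ℂ G Ω).linHom (Cfsg.permRep ℂ G Ω)).invariants := by
        rw [mem_cent_iff] at hS hT ⊢
        intro g
        rw [LinearMap.comp_assoc, hS g, ← LinearMap.comp_assoc, hT g, LinearMap.comp_assoc]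
      exact comm_of_sym S T (hsym S hS) (hsym T hT) (hsym _ hTS)
    have hmf := (Cfsg.Agent.S0718.result (G := G) (Ω := Ω)).mpr hcomm
    intro χ hχ hne
    refine ⟨(hmf χ hχ).resolve_left hne, ?_⟩
    have hχ'irr : Cfsg.IsIrrCharacter G (fun g => χ g⁻¹) := isIrrCharacter_comp_inv hχ
    have hE : eOp (Cfsg.permRep ℂ G Ω) χ = eOp (Cfsg.permRep ℂ G Ω) (fun g => χ g⁻¹) := by
      apply ext_bv
      intro x y
      rw [← eOp_swap χ x y]
      exact hsym _ (eOp_mem _ (isClassFunction_of_isIrrCharacter hχ)) x y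
    have hEne : eOp (Cfsg.permRep ℂ G Ω) χ ≠ 0 := by
      intro h0
      have h1 := trace_eOp (Cfsg.permRep ℂ G Ω) (isCharacter_of_isIrrCharacter hχ)
      rw [h0, map_zero, hπ] at h1
      rcases mul_eq_zero.mp h1.symm with h | h
      · exact hGne h
      · exact hne h
    have hχeq : (fun g => χ g⁻¹) = χ := by
      by_contra hneq
      have h1 := eOp_mul (Cfsg.permRep ℂ G Ω) hχ hχ'irr
      rw [classInner_irr_ne hχ'irr hχ hneq, mul_zero, zero_smul, ← hE] at h1
      have h2 := eOp_mul (Cfsg.permRep ℂ G Ω) hχ hχ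
      rw [h1, classInner_irr_self hχ, mul_one] at h2
      obtain ⟨n, hn0, hn⟩ := irr_apply_one hχ
      have hχ1 : χ 1 ≠ 0 := by
        rw [hn]
        exact_mod_cast hn0.ne'
      rcases smul_eq_zero.mp h2.symm with h | h
      · exact (div_ne_zero hGne hχ1) h
      · exact hEne h
    intro g
    have h1 := irr_inv_eq_conj (isCharacter_of_isIrrCharacter hχ) g
    rw [← h1]
    exact congrFun hχeq g
  · intro h a b
    have hmf : ∀ χ : G → ℂ, Cfsg.IsIrrCharacter G χ →
        Cfsg.classInner (Cfsg.permRep ℂ G Ω).character χ = 0 ∨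
        Cfsg.classInner (Cfsg.permRep ℂ G Ω).character χ = 1 := by
      intro χ hχ
      rw [hπ]
      by_cases h0 : Cfsg.classInner (fun g : G => (Nat.card (MulAction.fixedBy Ω g) : ℂ)) χ = 0
      · left
        exact h0
      · right
        exact (h χ hχ h0).1
    have := Fintype.ofFinite (Cfsg.IrrCharacter G)
    have hsymE : ∀ χ : Cfsg.IrrCharacter G, Sym (eOp (Cfsg.permRep ℂ G Ω) (χ : G → ℂ)) := by
      intro χ
      by_cases h0 : Cfsg.classInner (fun g : G => (Nat.card (MulAction.fixedBy Ω g) : ℂ))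
          (χ : G → ℂ) = 0
      · have hz : eOp (Cfsg.permRep ℂ G Ω) (χ : G → ℂ) = 0 :=
          eOp_eq_zero _ χ.2 (by rw [hπ]; exact h0)
        intro x y
        rw [hz]
        rfl
      · have hreal := (h χ χ.2 h0).2
        have hχ' : (fun g => (χ : G → ℂ) g⁻¹) = (χ : G → ℂ) := by
          funext g
          rw [irr_inv_eq_conj (isCharacter_of_isIrrCharacter χ.2) g, hreal g]
        intro x y
        have h1 := eOp_swap (G := G) (χ : G → ℂ) x y
        rw [hχ'] at h1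
        exact h1.symm
    have hsym : ∀ S : (Ω → ℂ) →ₗ[ℂ] (Ω → ℂ),
        S ∈ ((Cfsg.permRep ℂ G Ω).linHom (Cfsg.permRep ℂ G Ω)).invariants → Sym S := by
      intro S hS
      obtain ⟨c, rfl⟩ := cent_span (Cfsg.permRep ℂ G Ω) hmf S hS
      intro x y
      rw [LinearMap.sum_apply, LinearMap.sum_apply, Finset.sum_apply, Finset.sum_apply]
      apply Finset.sum_congr rfl
      intro χ _
      rw [LinearMap.smul_apply, LinearMap.smul_apply, Pi.smul_apply, Pi.smul_apply,
        hsymE χ x y]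
    have h1 := hsym _ (orbOp_mem (G := G) a b) b a
    rw [orbOp_entry, orbOp_entry] at h1
    rw [if_pos (show ∃ g : G, g • a = a ∧ g • b = b from ⟨1, one_smul _ _, one_smul _ _⟩)] at h1
    by_contra hcon
    rw [if_neg hcon] at h1
    exact zero_ne_one h1

end Cfsg.Agent.S0717
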