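import Mathlib
import Cfsg.Statements.S0719
import Cfsg.Agent.S0717

set_option autoImplicit false
open Cfsg

namespace Cfsg.Agent.S0719

open Cfsg.Agent.Lib.Helper2 Cfsg.Agent.Lib.Helper7.PermChar Cfsg.Agent.Lib.Helper7.PermCent
open Cfsg.Agent.S0717
open scoped ComplexConjugate

section ops

variable {G : Type*} [Group G] {Ω : Type*} [Fintype Ω] [DecidableEq Ω] [MulAction G Ω]

/-- The trace of an endomorphism of the permutation module is the sum of its diagonal
entries. -/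
theorem trace_eq_sum (S : (Ω → ℂ) →ₗ[ℂ] (Ω → ℂ)) :
    LinearMap.trace ℂ (Ω → ℂ) S = ∑ x, S (bv x) x := by
  rw [LinearMap.trace_eq_matrix_trace ℂ (Pi.basisFun ℂ Ω), Matrix.trace]
  apply Finset.sum_congr rfl
  intro x _
  rw [Matrix.diag_apply, LinearMap.toMatrix_apply, Pi.basisFun_apply, Pi.basisFun_repr]
  have e : (Pi.single x (1 : ℂ) : Ω → ℂ) = bv x := by
    funext j
    rw [Pi.single_apply]
    unfold bv
    by_cases h : j = x
    · rw [if_pos h, if_pos h.symm]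
    · rw [if_neg h, if_neg (fun h' => h h'.symm)]
  rw [e]

theorem trace_cent [MulAction.IsPretransitive G Ω] (S : (Ω → ℂ) →ₗ[ℂ] (Ω → ℂ))
    (hS : S ∈ ((Cfsg.permRep ℂ G Ω).linHom (Cfsg.permRep ℂ G Ω)).invariants) (a : Ω) :
    LinearMap.trace ℂ (Ω → ℂ) S = (Fintype.card Ω : ℂ) * S (bv a) a := by
  rw [trace_eq_sum]
  have h : ∀ x : Ω, S (bv x) x = S (bv a) a := by
    intro x
    obtain ⟨g, rfl⟩ := MulAction.exists_smul_eq G a x
    exact cent_entry S hS g a a
  rw [Finset.sum_congr rfl (fun x _ => h x), Finset.sum_const, Finset.card_univ, nsmul_eq_mul]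

omit [Fintype Ω] in
theorem id_entry (x y : Ω) :
    (LinearMap.id : (Ω → ℂ) →ₗ[ℂ] (Ω → ℂ)) (bv y) x = if y = x then 1 else 0 := rfl

open Classical in
/-- The decomposition of an element of the centralizer algebra along the three orbitals of a
rank three group. -/
theorem three_decomp [MulAction.IsPretransitive G Ω] (a b b' : Ω) (hb : b ≠ a) (hb' : b' ≠ a)
    (hdisj : ¬ ∃ g : G, g • a = a ∧ g • b = b')
    (hcover : ∀ y : Ω, y = a ∨ (∃ g : G, g • a = a ∧ g • b = y) ∨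
      (∃ g : G, g • a = a ∧ g • b' = y))
    (S : (Ω → ℂ) →ₗ[ℂ] (Ω → ℂ))
    (hS : S ∈ ((Cfsg.permRep ℂ G Ω).linHom (Cfsg.permRep ℂ G Ω)).invariants) :
    S = S (bv a) a • LinearMap.id + S (bv b) a • orbOp G a b + S (bv b') a • orbOp G a b' := by
  apply ext_bv
  intro x y
  obtain ⟨g, rfl⟩ := MulAction.exists_smul_eq G a x
  obtain ⟨y', rfl⟩ : ∃ y' : Ω, g • y' = y := ⟨g⁻¹ • y, smul_inv_smul g y⟩
  rw [cent_entry S hS]
  rw [LinearMap.add_apply, LinearMap.add_apply, LinearMap.smul_apply, LinearMap.smul_apply,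
    LinearMap.smul_apply, Pi.add_apply, Pi.add_apply, Pi.smul_apply, Pi.smul_apply,
    Pi.smul_apply, cent_entry _ (orbOp_mem (G := G) a b), cent_entry _ (orbOp_mem (G := G) a b'),
    orbOp_entry, orbOp_entry, id_entry, smul_eq_mul, smul_eq_mul, smul_eq_mul]
  have hna : ∀ c : Ω, c ≠ a → ¬ ∃ h : G, h • a = a ∧ h • c = a := by
    rintro c hc ⟨h, h1, h2⟩
    apply hc
    have : h • c = h • a := by rw [h1, h2]
    exact (MulAction.injective h) this
  rcases hcover y' with rfl | ⟨h, h1, rfl⟩ | ⟨h, h1, rfl⟩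
  · rw [if_pos (by rw [smul_left_cancel_iff]), if_neg (hna b hb), if_neg (hna b' hb')]
    ring
  · have e1 : ¬ (g • h • b = g • a) := by
      intro hh
      rw [smul_left_cancel_iff] at hh
      exact hna b hb ⟨h, h1, hh⟩
    have e2 : ∃ h' : G, h' • a = a ∧ h' • b = h • b := ⟨h, h1, rfl⟩
    have e3 : ¬ ∃ h' : G, h' • a = a ∧ h' • b' = h • b := by
      rintro ⟨h', h2, h3⟩
      apply hdisj
      refine ⟨h'⁻¹ * h, ?_, ?_⟩
      · rw [mul_smul, h1, inv_smul_eq_iff, h2]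
      · rw [mul_smul, inv_smul_eq_iff, h3]
    rw [if_neg e1, if_pos e2, if_neg e3]
    have e4 := cent_entry S hS h a b
    rw [h1] at e4
    rw [e4]
    ring
  · have e1 : ¬ (g • h • b' = g • a) := by
      intro hh
      rw [smul_left_cancel_iff] at hh
      exact hna b' hb' ⟨h, h1, hh⟩
    have e2 : ∃ h' : G, h' • a = a ∧ h' • b' = h • b' := ⟨h, h1, rfl⟩
    have e3 : ¬ ∃ h' : G, h' • a = a ∧ h' • b = h • b' := by
      rintro ⟨h', h2, h3⟩
      apply hdisj
      refine ⟨h⁻¹ * h', ?_, ?_⟩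
      · rw [mul_smul, h2, inv_smul_eq_iff, h1]
      · rw [mul_smul, inv_smul_eq_iff, h3]
    rw [if_neg e1, if_neg e3, if_pos e2]
    have e4 := cent_entry S hS h a b'
    rw [h1] at e4
    rw [e4]
    ring

omit [Fintype Ω] in
/-- The operator of the trivial character has constant entries. -/
theorem eOp_one_entry [Fintype G] [MulAction.IsPretransitive G Ω] (x y x' y' : Ω) :
    eOp (Cfsg.permRep ℂ G Ω) (fun _ => (1 : ℂ)) (bv y) x
      = eOp (Cfsg.permRep ℂ G Ω) (fun _ => (1 : ℂ)) (bv y') x' := by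
  classical
  rw [eOp_entry, eOp_entry]
  obtain ⟨u, hu⟩ := MulAction.exists_smul_eq G x x'
  obtain ⟨v, hv⟩ := MulAction.exists_smul_eq G y' y
  refine Fintype.sum_equiv ((Equiv.mulLeft u).trans (Equiv.mulRight v))
    (fun g => if g • y = x then (1 : ℂ) else 0)
    (fun g => if g • y' = x' then (1 : ℂ) else 0) ?_
  intro g
  show (if g • y = x then (1 : ℂ) else 0) = (if (u * g * v) • y' = x' then (1 : ℂ) else 0)
  have e : (u * g * v) • y' = x' ↔ g • y = x := by
    rw [mul_smul, mul_smul, hv, ← hu, smul_left_cancel_iff]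
  by_cases h : g • y = x
  · rw [if_pos h, if_pos (e.mpr h)]
  · rw [if_neg h, if_neg (fun h' => h (e.mp h'))]

end ops

section idem

variable {G : Type*} [Group G] [Fintype G] {V : Type*} [AddCommGroup V] [Module ℂ V]

/-- The normalized operator attached to an irreducible character. -/
noncomputable def F (ρ : Representation ℂ G V) (χ : G → ℂ) : V →ₗ[ℂ] V :=
  (χ 1 / (Nat.card G : ℂ)) • eOp ρ χ

omit [Fintype G] in
theorem irr_one_ne_zero {χ : G → ℂ} (hχ : IsIrrCharacter G χ) : χ 1 ≠ 0 := by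
  obtain ⟨n, hn0, hn⟩ := irr_apply_one hχ
  rw [hn]
  exact_mod_cast hn0.ne'

theorem F_mul_self (ρ : Representation ℂ G V) {χ : G → ℂ} (hχ : IsIrrCharacter G χ) :
    F ρ χ * F ρ χ = F ρ χ := by
  unfold F
  rw [smul_mul_smul_comm, eOp_mul ρ hχ hχ, classInner_irr_self hχ, mul_one, smul_smul]
  congr 1
  have hG := card_ne_zero_complex G
  have hχ1 := irr_one_ne_zero hχ
  field_simp

theorem F_mul_ne (ρ : Representation ℂ G V) {χ ψ : G → ℂ} (hχ : IsIrrCharacter G χ)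
    (hψ : IsIrrCharacter G ψ) (h : χ ≠ ψ) : F ρ χ * F ρ ψ = 0 := by
  unfold F
  rw [smul_mul_smul_comm, eOp_mul ρ hχ hψ, classInner_irr_ne hψ hχ (Ne.symm h), mul_zero,
    zero_smul, smul_zero]

theorem trace_F [FiniteDimensional ℂ V] (ρ : Representation ℂ G V) {χ : G → ℂ}
    (hχ : IsIrrCharacter G χ) :
    LinearMap.trace ℂ V (F ρ χ) = χ 1 * classInner ρ.character χ := by
  unfold F
  rw [map_smul, trace_eOp ρ (isCharacter_of_isIrrCharacter hχ), smul_eq_mul]
  have hG := card_ne_zero_complex G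
  field_simp

theorem eOp_eq_F (ρ : Representation ℂ G V) {χ : G → ℂ} (hχ : IsIrrCharacter G χ) :
    eOp ρ χ = ((Nat.card G : ℂ) / χ 1) • F ρ χ := by
  unfold F
  rw [smul_smul]
  have hG := card_ne_zero_complex G
  have hχ1 := irr_one_ne_zero hχ
  have e : (Nat.card G : ℂ) / χ 1 * (χ 1 / (Nat.card G : ℂ)) = 1 := by field_simp
  rw [e, one_smul]

theorem decomp3 [FiniteDimensional ℂ V] (ρ : Representation ℂ G V) {χ₀ χ₁ χ₂ : G → ℂ}
    (h₀ : IsIrrCharacter G χ₀) (h₁ : IsIrrCharacter G χ₁) (h₂ : IsIrrCharacter G χ₂)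
    (h01 : χ₀ ≠ χ₁) (h02 : χ₀ ≠ χ₂) (h12 : χ₁ ≠ χ₂)
    (hπ : ρ.character = χ₀ + χ₁ + χ₂)
    (S : V →ₗ[ℂ] V) (hS : S ∈ (ρ.linHom ρ).invariants) :
    ∃ c₀ c₁ c₂ : ℂ, S = c₀ • F ρ χ₀ + c₁ • F ρ χ₁ + c₂ • F ρ χ₂ := by
  classical
  have := Fintype.ofFinite (IrrCharacter G)
  have hinner : ∀ χ : G → ℂ, IsIrrCharacter G χ → classInner ρ.character χ
      = (if χ₀ = χ then 1 else 0) + (if χ₁ = χ then 1 else 0) + (if χ₂ = χ then 1 else 0) := by
    intro χ hχ
    rw [hπ, classInner_add_left, classInner_add_left, classInner_irr h₀ hχ,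
      classInner_irr h₁ hχ, classInner_irr h₂ hχ]
  have hmf : ∀ χ : G → ℂ, IsIrrCharacter G χ →
      classInner ρ.character χ = 0 ∨ classInner ρ.character χ = 1 := by
    intro χ hχ
    rw [hinner χ hχ]
    by_cases e0 : χ₀ = χ
    · right
      rw [if_pos e0, if_neg (fun h => h01 (e0.trans h.symm)),
        if_neg (fun h => h02 (e0.trans h.symm))]
      ring
    · by_cases e1 : χ₁ = χ
      · right
        rw [if_neg e0, if_pos e1, if_neg (fun h => h12 (e1.trans h.symm))]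
        ring
      · by_cases e2 : χ₂ = χ
        · right
          rw [if_neg e0, if_neg e1, if_pos e2]
          ring
        · left
          rw [if_neg e0, if_neg e1, if_neg e2]
          ring
  obtain ⟨a, ha⟩ := cent_span ρ hmf S hS
  have hzero : ∀ χ : IrrCharacter G, (χ : G → ℂ) ≠ χ₀ → (χ : G → ℂ) ≠ χ₁ → (χ : G → ℂ) ≠ χ₂ →
      eOp ρ (χ : G → ℂ) = 0 := by
    intro χ e0 e1 e2
    apply eOp_eq_zero ρ χ.2
    rw [hinner _ χ.2, if_neg (Ne.symm e0), if_neg (Ne.symm e1), if_neg (Ne.symm e2)]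
    ring
  obtain ⟨i₀, hi₀⟩ : ∃ i : IrrCharacter G, (i : G → ℂ) = χ₀ := ⟨⟨χ₀, h₀⟩, rfl⟩
  obtain ⟨i₁, hi₁⟩ : ∃ i : IrrCharacter G, (i : G → ℂ) = χ₁ := ⟨⟨χ₁, h₁⟩, rfl⟩
  obtain ⟨i₂, hi₂⟩ : ∃ i : IrrCharacter G, (i : G → ℂ) = χ₂ := ⟨⟨χ₂, h₂⟩, rfl⟩
  have hsum : ∑ χ : IrrCharacter G, a χ • eOp ρ (χ : G → ℂ)
      = a i₀ • eOp ρ χ₀ + a i₁ • eOp ρ χ₁ + a i₂ • eOp ρ χ₂ := by
    rw [← Finset.sum_subset (Finset.subset_univ ({i₀, i₁, i₂} : Finset (IrrCharacter G)))]
    · rw [Finset.sum_insert, Finset.sum_insert, Finset.sum_singleton, hi₀, hi₁, hi₂, add_assoc]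
      · rw [Finset.mem_singleton]
        intro h
        exact h12 (by rw [← hi₁, ← hi₂, h])
      · rw [Finset.mem_insert, Finset.mem_singleton]
        rintro (h | h)
        · exact h01 (by rw [← hi₀, ← hi₁, h])
        · exact h02 (by rw [← hi₀, ← hi₂, h])
    · intro χ _ hχ
      rw [Finset.mem_insert, Finset.mem_insert, Finset.mem_singleton] at hχ
      rw [hzero χ (fun h => hχ (Or.inl (Subtype.ext (h.trans hi₀.symm))))
        (fun h => hχ (Or.inr (Or.inl (Subtype.ext (h.trans hi₁.symm)))))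
        (fun h => hχ (Or.inr (Or.inr (Subtype.ext (h.trans hi₂.symm))))), smul_zero]
  refine ⟨a i₀ * ((Nat.card G : ℂ) / χ₀ 1), a i₁ * ((Nat.card G : ℂ) / χ₁ 1),
    a i₂ * ((Nat.card G : ℂ) / χ₂ 1), ?_⟩
  rw [ha, hsum, eOp_eq_F ρ h₀, eOp_eq_F ρ h₁, eOp_eq_F ρ h₂, smul_smul, smul_smul, smul_smul]

end idem

/-- The abstract computation with three orthogonal idempotents. -/
theorem alg_core {R : Type*} [Ring R] [Algebra ℂ R] (P₀ P₁ P₂ A B : R)
    (h00 : P₀ * P₀ = P₀) (h11 : P₁ * P₁ = P₁) (h22 : P₂ * P₂ = P₂)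
    (h01 : P₀ * P₁ = 0) (h02 : P₀ * P₂ = 0) (h10 : P₁ * P₀ = 0) (h12 : P₁ * P₂ = 0)
    (h20 : P₂ * P₀ = 0) (h21 : P₂ * P₁ = 0)
    (α r s γ x₀ lam mu : ℂ)
    (hA : A = α • P₀ + r • P₁ + s • P₂)
    (hJ : 1 + A + B = γ • P₀)
    (hAA : A * A = x₀ • 1 + lam • A + mu • B)
    (hP1 : P₁ ≠ 0) (hP2 : P₂ ≠ 0) :
    r ^ 2 = (x₀ - mu) + (lam - mu) * r ∧ s ^ 2 = (x₀ - mu) + (lam - mu) * s ∧
      A * A = (α ^ 2) • P₀ + (r ^ 2) • P₁ + (s ^ 2) • P₂ ∧ A * P₀ = α • P₀ := by
  have hAP0 : A * P₀ = α • P₀ := by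
    rw [hA]
    simp only [add_mul, smul_mul_assoc, h00, h10, h20, smul_zero, add_zero]
  have hAP1 : A * P₁ = r • P₁ := by
    rw [hA]
    simp only [add_mul, smul_mul_assoc, h01, h11, h21, smul_zero, add_zero, zero_add]
  have hAP2 : A * P₂ = s • P₂ := by
    rw [hA]
    simp only [add_mul, smul_mul_assoc, h02, h12, h22, smul_zero, add_zero, zero_add]
  have hB : B = γ • P₀ - 1 - A := by
    rw [← hJ]; abel
  have hAA' : A * A = (α ^ 2) • P₀ + (r ^ 2) • P₁ + (s ^ 2) • P₂ := by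
    have e : A * A = A * (α • P₀ + r • P₁ + s • P₂) := by rw [← hA]
    rw [e]
    simp only [mul_add, mul_smul_comm, hAP0, hAP1, hAP2, smul_smul]
    rw [sq, sq, sq]
  have key : ∀ (P : R) (c : ℂ), P ≠ 0 → A * P = c • P → P₀ * P = 0 →
      c ^ 2 = (x₀ - mu) + (lam - mu) * c := by
    intro P c hP hAP h0P
    have e1 : A * A * P = (c ^ 2) • P := by
      rw [mul_assoc, hAP, mul_smul_comm, hAP, smul_smul, sq]
    have e2 : A * A * P = ((x₀ - mu) + (lam - mu) * c) • P := by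
      rw [hAA, hB]
      simp only [add_mul, sub_mul, smul_mul_assoc, one_mul, h0P, hAP, smul_zero, smul_sub]
      module
    have e3 : (c ^ 2 - ((x₀ - mu) + (lam - mu) * c)) • P = 0 := by
      rw [sub_smul, ← e1, ← e2, sub_self]
    rcases smul_eq_zero.mp e3 with h | h
    · exact sub_eq_zero.mp h
    · exact absurd h hP
  exact ⟨key P₁ r hP1 hAP1 h01, key P₂ s hP2 hAP2 h02, hAA', hAP0⟩

/-- The scalar computation. -/
theorem scalar_core (m k lam mu : ℕ) (r s : ℂ) (hm : 2 ≤ m) (hk1 : 1 ≤ k)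
    (hk2 : k + 2 ≤ 2 * m)
    (T1 : (k : ℂ) + r * ((m : ℂ) - 1) + s * m = 0)
    (T2 : (k : ℂ) ^ 2 + r ^ 2 * ((m : ℂ) - 1) + s ^ 2 * m = 2 * m * k)
    (E1 : r ^ 2 = ((k : ℂ) - mu) + ((lam : ℂ) - mu) * r)
    (E2 : s ^ 2 = ((k : ℂ) - mu) + ((lam : ℂ) - mu) * s) :
    ∃ t : ℤ, 2 * (k : ℤ) ^ 2 - 2 * k - 4 * ((m : ℤ) - 1) * k * t
      + ((m : ℤ) - 1) * (2 * m - 1) * t ^ 2 = 0 := by
  have hm0 : (m : ℂ) ≠ 0 := by
    have : m ≠ 0 := by omega
    exact_mod_cast this
  have hk0 : (k : ℂ) ≠ 0 := by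
    have : k ≠ 0 := by omega
    exact_mod_cast this
  by_cases hrs : r = s
  · exfalso
    subst hrs
    have h : (2 * (m : ℂ) * k) * ((k : ℂ) - (2 * m - 1)) = 0 := by
      linear_combination (2 * (m : ℂ) - 1) * T2 + ((k : ℂ) - r * (2 * m - 1)) * T1
    have h2 : (k : ℂ) - (2 * m - 1) = 0 := by
      rcases mul_eq_zero.mp h with h' | h'
      · exact absurd h' (mul_ne_zero (mul_ne_zero two_ne_zero hm0) hk0)
      · exact h'
    have h3 : ((k + 1 : ℕ) : ℂ) = ((2 * m : ℕ) : ℂ) := by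
      push_cast
      linear_combination h2
    have h4 : k + 1 = 2 * m := by exact_mod_cast h3
    omega
  · have h1 : (r - s) * (r + s - ((lam : ℂ) - mu)) = 0 := by
      linear_combination E1 - E2
    have h2 : r + s - ((lam : ℂ) - mu) = 0 := by
      rcases mul_eq_zero.mp h1 with h' | h'
      · exact absurd (sub_eq_zero.mp h') hrs
      · exact h'
    refine ⟨(mu : ℤ) - lam, ?_⟩
    have hr : r = (k : ℂ) - ((mu : ℂ) - lam) * m := by
      linear_combination (-1 : ℂ) * T1 + (m : ℂ) * h2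
    have hs : s = -((mu : ℂ) - lam) - r := by
      linear_combination h2
    have h3 : (m : ℂ) * (2 * (k : ℂ) ^ 2 - 2 * k - 4 * ((m : ℂ) - 1) * k * ((mu : ℂ) - lam)
        + ((m : ℂ) - 1) * (2 * m - 1) * ((mu : ℂ) - lam) ^ 2) = 0 := by
      rw [hs, hr] at T2
      linear_combination T2
    have h4 : 2 * (k : ℂ) ^ 2 - 2 * k - 4 * ((m : ℂ) - 1) * k * ((mu : ℂ) - lam)
        + ((m : ℂ) - 1) * (2 * m - 1) * ((mu : ℂ) - lam) ^ 2 = 0 := by
      rcases mul_eq_zero.mp h3 with h' | h'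
      · exact absurd h' hm0
      · exact h'
    exact_mod_cast h4

/-- The integer computation. -/
theorem int_core (m k : ℕ) (t : ℤ) (hm : 2 ≤ m) (hk : 2 ≤ k) (hk2 : k + 3 ≤ 2 * m)
    (h : 2 * (k : ℤ) ^ 2 - 2 * k - 4 * ((m : ℤ) - 1) * k * t
      + ((m : ℤ) - 1) * (2 * m - 1) * t ^ 2 = 0) :
    (2 * (k : ℤ) - (2 * m - 1)) ^ 2 = 2 * m - 1 := by
  have key : (2 * (k : ℤ) - 1 - 2 * ((m : ℤ) - 1) * t) ^ 2
      = 1 + 2 * ((m : ℤ) - 1) * t * (2 - t) := by
    linear_combination 2 * h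
  have hm' : (1 : ℤ) ≤ (m : ℤ) - 1 := by
    have : (2 : ℤ) ≤ m := by exact_mod_cast hm
    linarith
  have hk' : (2 : ℤ) ≤ k := by exact_mod_cast hk
  have hk2' : (k : ℤ) + 3 ≤ 2 * m := by exact_mod_cast hk2
  have hnn : 0 ≤ 1 + 2 * ((m : ℤ) - 1) * t * (2 - t) := by
    rw [← key]; exact sq_nonneg _
  have ht0 : 0 ≤ t := by
    by_contra hcon
    have h1 : t ≤ -1 := by omega
    have h2 : t * (2 - t) ≤ -3 := by nlinarith
    nlinarith
  have ht2 : t ≤ 2 := by
    by_contra hcon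
    have h1 : 3 ≤ t := by omega
    have h2 : t * (2 - t) ≤ -3 := by nlinarith
    nlinarith
  interval_cases t
  · exfalso
    have h1 : (2 * (k : ℤ) - 1) ^ 2 = 1 := by linear_combination key
    nlinarith
  · linear_combination key
  · exfalso
    have h1 : (2 * (k : ℤ) - 4 * m + 3) ^ 2 = 1 := by linear_combination key
    nlinarith

section main

variable {G : Type*} [Group G] [Fintype G] {Ω : Type*} [Fintype Ω] [DecidableEq Ω] [MulAction G Ω]

omit [Fintype G] [Fintype Ω] [DecidableEq Ω] in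
theorem mem_orbit_stab (a b y : Ω) :
    y ∈ MulAction.orbit (MulAction.stabilizer G a) b ↔ ∃ g : G, g • a = a ∧ g • b = y := by
  rw [MulAction.mem_orbit_iff]
  constructor
  · rintro ⟨h, rfl⟩
    exact ⟨h.1, h.2, rfl⟩
  · rintro ⟨g, hg, rfl⟩
    exact ⟨⟨g, hg⟩, rfl⟩

omit [Fintype G] in
open Classical in
theorem rowsum (a b : Ω) :
    ∑ z, orbOp G a b (bv z) a
      = (Nat.card (MulAction.orbit (MulAction.stabilizer G a) b) : ℂ) := by
  simp only [orbOp_entry]
  rw [Finset.sum_boole]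
  congr 1
  rw [← Fintype.card_subtype, ← Nat.card_eq_fintype_card]
  exact Nat.card_congr (Equiv.subtypeEquivRight (fun z => (mem_orbit_stab a b z).symm))

omit [Fintype G] in
open Classical in
theorem orbOp_sq_entry (a b x y : Ω) :
    ∃ N : ℕ, (orbOp G a b * orbOp G a b) (bv y) x = (N : ℂ) := by
  refine ⟨∑ z, (if ∃ g : G, g • a = z ∧ g • b = y then 1 else 0)
    * (if ∃ g : G, g • a = x ∧ g • b = z then 1 else 0), ?_⟩
  show (orbOp G a b ∘ₗ orbOp G a b) (bv y) x = _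
  rw [comp_entry]
  simp only [orbOp_entry]
  push_cast
  rfl

omit [Fintype G] [Fintype Ω] [DecidableEq Ω] in
theorem mul_mem_cent (S T : (Ω → ℂ) →ₗ[ℂ] (Ω → ℂ))
    (hS : S ∈ ((Cfsg.permRep ℂ G Ω).linHom (Cfsg.permRep ℂ G Ω)).invariants)
    (hT : T ∈ ((Cfsg.permRep ℂ G Ω).linHom (Cfsg.permRep ℂ G Ω)).invariants) :
    S * T ∈ ((Cfsg.permRep ℂ G Ω).linHom (Cfsg.permRep ℂ G Ω)).invariants := by
  rw [mem_cent_iff] at hS hT ⊢
  intro g
  show (S ∘ₗ T) ∘ₗ _ = _ ∘ₗ (S ∘ₗ T)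
  rw [LinearMap.comp_assoc, hT g, ← LinearMap.comp_assoc, hS g, LinearMap.comp_assoc]

theorem orbit_eqn [MulAction.IsPretransitive G Ω] (a b b' : Ω) (hb : b ≠ a) (hb' : b' ≠ a)
    (hdisj : ¬ ∃ g : G, g • a = a ∧ g • b = b')
    (hcover : ∀ y : Ω, y = a ∨ (∃ g : G, g • a = a ∧ g • b = y) ∨
      (∃ g : G, g • a = a ∧ g • b' = y))
    (hswap : ∀ x y : Ω, ∃ g : G, g • x = y ∧ g • y = x)
    (m : ℕ) (hm : Fintype.card Ω = 2 * m) (hm2 : 2 ≤ m)
    (χ₁ χ₂ : G → ℂ) (h₁ : IsIrrCharacter G χ₁) (h₂ : IsIrrCharacter G χ₂)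
    (h01 : (fun _ => (1 : ℂ)) ≠ χ₁) (h02 : (fun _ => (1 : ℂ)) ≠ χ₂) (h12 : χ₁ ≠ χ₂)
    (hπ : (Cfsg.permRep ℂ G Ω).character = (fun _ => (1 : ℂ)) + χ₁ + χ₂)
    (hd₁ : χ₁ 1 = (m : ℂ) - 1) (hd₂ : χ₂ 1 = m)
    (k l : ℕ) (hk : k = Nat.card (MulAction.orbit (MulAction.stabilizer G a) b))
    (hl : l = Nat.card (MulAction.orbit (MulAction.stabilizer G a) b')) (hl1 : 1 ≤ l)
    (hk1 : 1 ≤ k) :
    1 + k + l = 2 * m ∧
    ∃ t : ℤ, 2 * (k : ℤ) ^ 2 - 2 * k - 4 * ((m : ℤ) - 1) * k * t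
      + ((m : ℤ) - 1) * (2 * m - 1) * t ^ 2 = 0 := by
  classical
  have h₀ : IsIrrCharacter G (fun _ => (1 : ℂ)) := isIrrCharacter_one
  have hG := card_ne_zero_complex G
  have hn : (Fintype.card Ω : ℂ) = 2 * m := by rw [hm]; push_cast; ring
  -- the inner products
  have hin0 : classInner (Cfsg.permRep ℂ G Ω).character (fun _ => (1 : ℂ)) = 1 := by
    rw [hπ, classInner_add_left, classInner_add_left, classInner_irr_self h₀,
      classInner_irr_ne h₁ h₀ (Ne.symm h01), classInner_irr_ne h₂ h₀ (Ne.symm h02)]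
    ring
  have hin1 : classInner (Cfsg.permRep ℂ G Ω).character χ₁ = 1 := by
    rw [hπ, classInner_add_left, classInner_add_left, classInner_irr_self h₁,
      classInner_irr_ne h₀ h₁ h01, classInner_irr_ne h₂ h₁ (Ne.symm h12)]
    ring
  have hin2 : classInner (Cfsg.permRep ℂ G Ω).character χ₂ = 1 := by
    rw [hπ, classInner_add_left, classInner_add_left, classInner_irr_self h₂,
      classInner_irr_ne h₀ h₂ h02, classInner_irr_ne h₁ h₂ h12]
    ring
  -- the operators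
  obtain ⟨A, hAdef⟩ : ∃ A, A = orbOp G a b := ⟨_, rfl⟩
  obtain ⟨B, hBdef⟩ : ∃ B, B = orbOp G a b' := ⟨_, rfl⟩
  obtain ⟨J, hJdef⟩ : ∃ J, J = eOp (Cfsg.permRep ℂ G Ω) (fun _ => (1 : ℂ)) := ⟨_, rfl⟩
  have hAm : A ∈ ((Cfsg.permRep ℂ G Ω).linHom (Cfsg.permRep ℂ G Ω)).invariants := by
    rw [hAdef]; exact orbOp_mem a b
  have hBm : B ∈ ((Cfsg.permRep ℂ G Ω).linHom (Cfsg.permRep ℂ G Ω)).invariants := by
    rw [hBdef]; exact orbOp_mem a b'
  have hJm : J ∈ ((Cfsg.permRep ℂ G Ω).linHom (Cfsg.permRep ℂ G Ω)).invariants := by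
    rw [hJdef]; exact eOp_mem _ (isClassFunction_of_isIrrCharacter h₀)
  obtain ⟨c, hcdef⟩ : ∃ c, c = J (bv a) a := ⟨_, rfl⟩
  have hJent : ∀ x y : Ω, J (bv y) x = c := by
    intro x y
    rw [hcdef, hJdef]
    exact eOp_one_entry x y a a
  have hc : (Fintype.card Ω : ℂ) * c = Nat.card G := by
    rw [hcdef, ← trace_cent J hJm a, hJdef, trace_eOp _ (isCharacter_of_isIrrCharacter h₀), hin0,
      mul_one]
  have hc0 : c ≠ 0 := by
    intro h
    rw [h, mul_zero] at hc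
    exact hG hc.symm
  have hJ3 : J = c • (1 + A + B) := by
    have h := three_decomp a b b' hb hb' hdisj hcover J hJm
    rw [hJent, hJent, hJent, ← hAdef, ← hBdef] at h
    rw [smul_add, smul_add]
    exact h
  have hone : ∀ z : Ω, (if z = a then (1 : ℂ) else 0) + A (bv z) a + B (bv z) a = 1 := by
    intro z
    have h := congrFun (LinearMap.congr_fun hJ3 (bv z)) a
    rw [hJent, LinearMap.smul_apply, Pi.smul_apply, LinearMap.add_apply, LinearMap.add_apply,
      Pi.add_apply, Pi.add_apply, smul_eq_mul] at h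
    have h' : c * 1 = c * ((if z = a then (1 : ℂ) else 0) + A (bv z) a + B (bv z) a) := by
      rw [mul_one]
      exact h
    exact (mul_left_cancel₀ hc0 h').symm
  have hrowA : ∑ z, A (bv z) a = (k : ℂ) := by rw [hAdef, hk]; exact rowsum a b
  have hrowB : ∑ z, B (bv z) a = (l : ℂ) := by rw [hBdef, hl]; exact rowsum a b'
  have hcount : 1 + k + l = 2 * m := by
    have h1 : ∑ z : Ω, ((if z = a then (1 : ℂ) else 0) + A (bv z) a + B (bv z) a)
        = ∑ _z : Ω, (1 : ℂ) := Finset.sum_congr rfl (fun z _ => hone z)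
    rw [Finset.sum_add_distrib, Finset.sum_add_distrib, hrowA, hrowB, Finset.sum_ite_eq',
      if_pos (Finset.mem_univ a), Finset.sum_const, Finset.card_univ, nsmul_eq_mul, mul_one,
      hm] at h1
    exact_mod_cast h1
  refine ⟨hcount, ?_⟩
  -- idempotents
  obtain ⟨P₀, hP₀⟩ : ∃ P, P = F (Cfsg.permRep ℂ G Ω) (fun _ => (1 : ℂ)) := ⟨_, rfl⟩
  obtain ⟨P₁, hP₁⟩ : ∃ P, P = F (Cfsg.permRep ℂ G Ω) χ₁ := ⟨_, rfl⟩
  obtain ⟨P₂, hP₂⟩ : ∃ P, P = F (Cfsg.permRep ℂ G Ω) χ₂ := ⟨_, rfl⟩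
  have hP₀J : P₀ = (1 / (Nat.card G : ℂ)) • J := by
    rw [hP₀, hJdef]
    rfl
  have hJγ : (1 : Module.End ℂ (Ω → ℂ)) + A + B = ((Nat.card G : ℂ) / c) • P₀ := by
    rw [hP₀J, hJ3, smul_smul, smul_smul]
    have e : (Nat.card G : ℂ) / c * (1 / (Nat.card G : ℂ)) * c = 1 := by field_simp
    rw [e, one_smul]
  have hP₀ent : ∀ x y : Ω, P₀ (bv y) x = c / (Nat.card G : ℂ) := by
    intro x y
    rw [hP₀J, LinearMap.smul_apply, Pi.smul_apply, hJent, smul_eq_mul]
    ring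
  have htr0 : LinearMap.trace ℂ (Ω → ℂ) P₀ = 1 := by
    rw [hP₀, trace_F _ h₀, hin0, mul_one]
  have htr1 : LinearMap.trace ℂ (Ω → ℂ) P₁ = (m : ℂ) - 1 := by
    rw [hP₁, trace_F _ h₁, hin1, mul_one, hd₁]
  have htr2 : LinearMap.trace ℂ (Ω → ℂ) P₂ = (m : ℂ) := by
    rw [hP₂, trace_F _ h₂, hin2, mul_one, hd₂]
  have hm0 : (m : ℂ) ≠ 0 := by
    have : m ≠ 0 := by omega
    exact_mod_cast this
  have hm1 : (m : ℂ) - 1 ≠ 0 := by
    have : ((m - 1 : ℕ) : ℂ) ≠ 0 := by
      have : m - 1 ≠ 0 := by omega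
      exact_mod_cast this
    rw [Nat.cast_sub (by omega)] at this
    exact_mod_cast this
  have hP1ne : P₁ ≠ 0 := by
    intro h
    rw [h, map_zero] at htr1
    exact hm1 htr1.symm
  have hP2ne : P₂ ≠ 0 := by
    intro h
    rw [h, map_zero] at htr2
    exact hm0 htr2.symm
  obtain ⟨α, r, s, hA⟩ := decomp3 (Cfsg.permRep ℂ G Ω) h₀ h₁ h₂ h01 h02 h12 hπ A hAm
  rw [← hP₀, ← hP₁, ← hP₂] at hA
  -- the square of A
  have hAAm := mul_mem_cent A A hAm hAm
  have hSym : ∀ x y : Ω, A (bv y) x = A (bv x) y := by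
    intro x y
    obtain ⟨g, h1, h2⟩ := hswap x y
    have h3 := cent_entry A hAm g x y
    rw [h1, h2] at h3
    exact h3.symm
  have hx₀ : (A * A) (bv a) a = (k : ℂ) := by
    show (A ∘ₗ A) (bv a) a = _
    rw [comp_entry, ← hrowA]
    apply Finset.sum_congr rfl
    intro z _
    rw [hSym z a, hAdef, orbOp_entry]
    by_cases hz : ∃ g : G, g • a = a ∧ g • b = z
    · rw [if_pos hz, mul_one]
    · rw [if_neg hz, mul_zero]
  obtain ⟨lam, hlam⟩ : ∃ lam : ℕ, (A * A) (bv b) a = (lam : ℂ) := by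
    rw [hAdef]; exact orbOp_sq_entry a b a b
  obtain ⟨mu, hmu⟩ : ∃ mu : ℕ, (A * A) (bv b') a = (mu : ℂ) := by
    rw [hAdef]; exact orbOp_sq_entry a b a b'
  have hAA := three_decomp a b b' hb hb' hdisj hcover (A * A) hAAm
  rw [hx₀, hlam, hmu, ← hAdef, ← hBdef] at hAA
  obtain ⟨E1, E2, hAA', hAP0⟩ := alg_core P₀ P₁ P₂ A B
    (by rw [hP₀]; exact F_mul_self _ h₀) (by rw [hP₁]; exact F_mul_self _ h₁)
    (by rw [hP₂]; exact F_mul_self _ h₂)
    (by rw [hP₀, hP₁]; exact F_mul_ne _ h₀ h₁ h01) (by rw [hP₀, hP₂]; exact F_mul_ne _ h₀ h₂ h02)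
    (by rw [hP₀, hP₁]; exact F_mul_ne _ h₁ h₀ (Ne.symm h01))
    (by rw [hP₁, hP₂]; exact F_mul_ne _ h₁ h₂ h12)
    (by rw [hP₀, hP₂]; exact F_mul_ne _ h₂ h₀ (Ne.symm h02))
    (by rw [hP₁, hP₂]; exact F_mul_ne _ h₂ h₁ (Ne.symm h12))
    α r s ((Nat.card G : ℂ) / c) k lam mu hA hJγ hAA hP1ne hP2ne
  -- α = k
  have hα : α = k := by
    have h := congrFun (LinearMap.congr_fun hAP0 (bv a)) a
    have h1 : (A * P₀) (bv a) a = c / (Nat.card G : ℂ) * k := by
      show (A ∘ₗ P₀) (bv a) a = _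
      rw [comp_entry, ← hrowA, Finset.mul_sum]
      apply Finset.sum_congr rfl
      intro z _
      rw [hP₀ent]
    rw [h1, LinearMap.smul_apply, Pi.smul_apply, hP₀ent, smul_eq_mul] at h
    have hcN : c / (Nat.card G : ℂ) ≠ 0 := div_ne_zero hc0 hG
    have h2 : c / (Nat.card G : ℂ) * k = c / (Nat.card G : ℂ) * α := by rw [h]; ring
    exact (mul_left_cancel₀ hcN h2).symm
  -- traces
  have hT1 : (k : ℂ) + r * ((m : ℂ) - 1) + s * m = 0 := by
    have h1 : LinearMap.trace ℂ (Ω → ℂ) A = 0 := by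
      rw [trace_cent A hAm a, hAdef, orbOp_entry, if_neg, mul_zero]
      rintro ⟨g, h1, h2⟩
      apply hb
      have : g • b = g • a := by rw [h1, h2]
      exact (MulAction.injective g) this
    rw [hA, map_add, map_add, map_smul, map_smul, map_smul, htr0, htr1, htr2, hα] at h1
    simp only [smul_eq_mul] at h1
    linear_combination h1
  have hT2 : (k : ℂ) ^ 2 + r ^ 2 * ((m : ℂ) - 1) + s ^ 2 * m = 2 * m * k := by
    have h1 : LinearMap.trace ℂ (Ω → ℂ) (A * A) = 2 * m * k := by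
      rw [trace_cent (A * A) hAAm a, hx₀, hn]
    rw [hAA', map_add, map_add, map_smul, map_smul, map_smul, htr0, htr1, htr2, hα] at h1
    simp only [smul_eq_mul] at h1
    linear_combination h1
  exact scalar_core m k lam mu r s hm2 hk1 (by omega) hT1 hT2 E1 E2

end main

section prim

variable {G : Type*} [Group G] {Ω : Type*} [MulAction G Ω]

/-- In a primitive group, a point stabilizer fixing a second point fixes every point. -/
theorem fix_all (hprim : MulAction.IsPreprimitive G Ω) (a b : Ω) (hb : b ≠ a)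
    (hfix : ∀ g : G, g • a = a → g • b = b) :
    ∀ (x : Ω) (g : G), g • a = a → g • x = x := by
  have hnt : Nontrivial Ω := ⟨⟨b, a, hb⟩⟩
  have htr : MulAction.IsPretransitive G Ω := hprim.toIsPretransitive
  have hco : IsCoatom (MulAction.stabilizer G a) :=
    MulAction.IsPreprimitive.isCoatom_stabilizer_of_isPreprimitive (G := G) (X := Ω) a
  have hle : MulAction.stabilizer G a ≤ MulAction.stabilizer G b := fun g hg => hfix g hg
  have hne : MulAction.stabilizer G b ≠ ⊤ := by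
    intro h
    obtain ⟨g, hg⟩ := MulAction.exists_smul_eq G b a
    have h1 : g ∈ MulAction.stabilizer G b := by rw [h]; exact Subgroup.mem_top g
    rw [MulAction.mem_stabilizer_iff] at h1
    exact hb (h1.symm.trans hg)
  have heq : MulAction.stabilizer G b = MulAction.stabilizer G a := by
    by_contra hcon
    exact hne (hco.2 _ (lt_of_le_of_ne hle (Ne.symm hcon)))
  obtain ⟨g, hg⟩ := MulAction.exists_smul_eq G a b
  have hgN : g ∈ Subgroup.normalizer (MulAction.stabilizer G a : Set G) := by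
    rw [Subgroup.mem_normalizer_iff]
    intro h
    constructor
    · intro hh
      rw [MulAction.mem_stabilizer_iff] at hh
      rw [← heq, MulAction.mem_stabilizer_iff, mul_smul, mul_smul, ← hg, inv_smul_smul, hh]
    · intro hh
      rw [← heq, MulAction.mem_stabilizer_iff, mul_smul, mul_smul, ← hg, inv_smul_smul] at hh
      rw [MulAction.mem_stabilizer_iff]
      exact (MulAction.injective g) hh
  have hgnot : g ∉ MulAction.stabilizer G a := by
    rw [MulAction.mem_stabilizer_iff, hg]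
    exact hb
  have hNtop : Subgroup.normalizer (MulAction.stabilizer G a : Set G) = ⊤ := by
    apply hco.2
    exact lt_of_le_of_ne Subgroup.le_normalizer (fun h => hgnot (by rw [h]; exact hgN))
  intro x u hu
  obtain ⟨v, rfl⟩ := MulAction.exists_smul_eq G a x
  have hv : v⁻¹ ∈ Subgroup.normalizer (MulAction.stabilizer G a : Set G) := by
    rw [hNtop]; exact Subgroup.mem_top _
  rw [Subgroup.mem_normalizer_iff] at hv
  have h1 := (hv u).mp hu
  rw [MulAction.mem_stabilizer_iff, inv_inv, mul_smul, mul_smul, inv_smul_eq_iff] at h1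
  exact h1

theorem orbit_card_one {a b : Ω}
    (h : Nat.card (MulAction.orbit (MulAction.stabilizer G a) b) = 1) :
    ∀ g : G, g • a = a → g • b = b := by
  intro g hg
  obtain ⟨hs, _⟩ := Nat.card_eq_one_iff_unique.mp h
  have h1 : (⟨g • b, (mem_orbit_stab a b _).mpr ⟨g, hg, rfl⟩⟩ :
      MulAction.orbit (MulAction.stabilizer G a) b) = ⟨b, MulAction.mem_orbit_self b⟩ :=
    Subsingleton.elim _ _
  exact congrArg Subtype.val h1

theorem rank_eq_card (a : Ω) (hfix : ∀ (x : Ω) (g : G), g • a = a → g • x = x) :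
    Nat.card (MulAction.orbitRel.Quotient (MulAction.stabilizer G a) Ω) = Nat.card Ω := by
  symm
  apply Nat.card_eq_of_bijective
    (Quotient.mk'' : Ω → MulAction.orbitRel.Quotient (MulAction.stabilizer G a) Ω)
  constructor
  · intro x y h
    rw [Quotient.eq'', MulAction.orbitRel_apply, mem_orbit_stab] at h
    obtain ⟨g, h1, h2⟩ := h
    rw [← h2, hfix y g h1]
  · exact Quotient.mk''_surjective

theorem three_orbits (a : Ω)
    (hrank : Nat.card (MulAction.orbitRel.Quotient (MulAction.stabilizer G a) Ω) = 3)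
    (b : Ω) (hb : b ≠ a) :
    ∃ b' : Ω, b' ≠ a ∧ (¬ ∃ g : G, g • a = a ∧ g • b = b') ∧
      ∀ y : Ω, y = a ∨ (∃ g : G, g • a = a ∧ g • b = y) ∨ (∃ g : G, g • a = a ∧ g • b' = y) := by
  classical
  have hfin : Finite (MulAction.orbitRel.Quotient (MulAction.stabilizer G a) Ω) :=
    Nat.finite_of_card_ne_zero (by rw [hrank]; norm_num)
  have := Fintype.ofFinite (MulAction.orbitRel.Quotient (MulAction.stabilizer G a) Ω)
  have hcard : Fintype.card (MulAction.orbitRel.Quotient (MulAction.stabilizer G a) Ω) = 3 := by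
    rw [← Nat.card_eq_fintype_card]; exact hrank
  obtain ⟨q, hqdef⟩ : ∃ q : Ω → MulAction.orbitRel.Quotient (MulAction.stabilizer G a) Ω,
    q = Quotient.mk'' := ⟨_, rfl⟩
  have hq : ∀ x y : Ω, q x = q y ↔ ∃ g : G, g • a = a ∧ g • y = x := by
    intro x y
    rw [hqdef, Quotient.eq'', MulAction.orbitRel_apply, mem_orbit_stab]
  have hab : q a ≠ q b := by
    intro h
    rw [hq] at h
    obtain ⟨g, h1, h2⟩ := h
    exact hb (MulAction.injective g (h2.trans h1.symm))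
  obtain ⟨c, hc1, hc2⟩ : ∃ c : MulAction.orbitRel.Quotient (MulAction.stabilizer G a) Ω,
      c ≠ q a ∧ c ≠ q b := by
    by_contra hcon
    push Not at hcon
    have hsub : (Finset.univ : Finset (MulAction.orbitRel.Quotient (MulAction.stabilizer G a) Ω))
        ⊆ {q a, q b} := by
      intro c _
      rw [Finset.mem_insert, Finset.mem_singleton]
      by_cases h : c = q a
      · exact Or.inl h
      · exact Or.inr (hcon c h)
    have h1 := Finset.card_le_card hsub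
    rw [Finset.card_univ, hcard] at h1
    have h2 : ({q a, q b} : Finset (MulAction.orbitRel.Quotient (MulAction.stabilizer G a) Ω)).card
        ≤ 2 := Finset.card_le_two
    omega
  obtain ⟨b', hb'c⟩ : ∃ b' : Ω, q b' = c := by
    rw [hqdef]; exact Quotient.mk''_surjective c
  subst hb'c
  refine ⟨b', ?_, ?_, ?_⟩
  · rintro rfl
    exact hc1 rfl
  · intro h
    exact hc2 ((hq b' b).mpr h)
  · intro y
    have huniv : ({q a, q b, q b'} :
        Finset (MulAction.orbitRel.Quotient (MulAction.stabilizer G a) Ω)) = Finset.univ := by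
      apply Finset.eq_univ_of_card
      rw [hcard, Finset.card_insert_of_notMem, Finset.card_insert_of_notMem,
        Finset.card_singleton]
      · rw [Finset.mem_singleton]
        exact fun h => hc2 h.symm
      · rw [Finset.mem_insert, Finset.mem_singleton]
        rintro (h | h)
        · exact hab h
        · exact hc1 h.symm
    have hy : q y ∈ ({q a, q b, q b'} :
        Finset (MulAction.orbitRel.Quotient (MulAction.stabilizer G a) Ω)) := by
      rw [huniv]; exact Finset.mem_univ _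
    rw [Finset.mem_insert, Finset.mem_insert, Finset.mem_singleton] at hy
    rcases hy with h | h | h
    · left
      obtain ⟨g, h1, h2⟩ := (hq y a).mp h
      exact h2.symm.trans h1
    · right; left
      exact (hq y b).mp h
    · right; right
      exact (hq y b').mp h

end prim

/-- Reality of the two constituents. -/
theorem real_of_sum {G : Type*} [Group G] [Fintype G] {χ₁ χ₂ : G → ℂ}
    (h₁ : IsIrrCharacter G χ₁) (h₂ : IsIrrCharacter G χ₂) (hdeg : χ₁ 1 ≠ χ₂ 1)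
    (hinv : ∀ g : G, χ₁ g⁻¹ + χ₂ g⁻¹ = χ₁ g + χ₂ g) :
    ∀ g : G, (starRingEnd ℂ) (χ₁ g) = χ₁ g := by
  classical
  have h₁' : IsIrrCharacter G (fun g => χ₁ g⁻¹) := isIrrCharacter_comp_inv h₁
  have h₂' : IsIrrCharacter G (fun g => χ₂ g⁻¹) := isIrrCharacter_comp_inv h₂
  have hsum : (fun g => χ₁ g⁻¹) + (fun g => χ₂ g⁻¹) = χ₁ + χ₂ := funext hinv
  have e := congrArg (fun φ => classInner φ (fun g => χ₁ g⁻¹)) hsum
  simp only [classInner_add_left] at e
  rw [classInner_irr_self h₁', classInner_irr h₂' h₁', classInner_irr h₁ h₁',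
    classInner_irr h₂ h₁'] at e
  have hne : χ₂ ≠ (fun g => χ₁ g⁻¹) := by
    intro h
    apply hdeg
    have := congrFun h 1
    rw [this, inv_one]
  rw [if_neg hne, add_zero] at e
  have heq : χ₁ = (fun g => χ₁ g⁻¹) := by
    by_contra hcon
    rw [if_neg hcon] at e
    by_cases h3 : (fun g => χ₂ g⁻¹) = (fun g => χ₁ g⁻¹)
    · rw [if_pos h3] at e
      norm_num at e
    · rw [if_neg h3] at e
      norm_num at e
  intro g
  rw [← irr_inv_eq_conj (isCharacter_of_isIrrCharacter h₁) g]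
  exact (congrFun heq g).symm
/-- Groups of Wielandt type: if a primitive group of degree `2m` has rank 3 and permutation character `1 + χ₁ + χ₂` with irreducible `χ₁, χ₂` of degrees `m - 1` and `m`, then `m = 2a² + 2a + 1` for some positive integer `a` and the two non-trivial subdegrees are `a(2a+1)` and `(a+1)(2a+1)`. -/
theorem result {G : Type*} [Group G] [Fintype G] {Ω : Type*} [Fintype Ω] [MulAction G Ω] (hprim : MulAction.IsPreprimitive G Ω) {m : ℕ} (hm : Fintype.card Ω = 2 * m) (a₀ : Ω) (hrank : Nat.card (MulAction.orbitRel.Quotient (MulAction.stabilizer G a₀) Ω) = 3) (χ₁ χ₂ : G → ℂ) (h₁ : Cfsg.IsIrrCharacter G χ₁) (h₂ : Cfsg.IsIrrCharacter G χ₂) (hπ : (fun g : G => (Nat.card (MulAction.fixedBy Ω g) : ℂ)) = fun g => 1 + χ₁ g + χ₂ g) (hd₁ : χ₁ 1 = (m : ℂ) - 1) (hd₂ : χ₂ 1 = m) : ∃ a : ℕ, 0 < a ∧ m = 2 * a ^ 2 + 2 * a + 1 ∧ ∀ b : Ω, b ≠ a₀ → Nat.card (MulAction.orbit (MulAction.stabilizer G a₀) b) = a * (2 * a + 1) ∨ Nat.card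 (MulAction.orbit (MulAction.stabilizer G a₀) b) = (a + 1) * (2 * a + 1) := by
  classical
  have htr : MulAction.IsPretransitive G Ω := hprim.toIsPretransitive
  have hm2 : 2 ≤ m := by
    have h := Nat.card_le_card_of_surjective
      (Quotient.mk'' : Ω → MulAction.orbitRel.Quotient (MulAction.stabilizer G a₀) Ω)
      Quotient.mk''_surjective
    rw [hrank, Nat.card_eq_fintype_card, hm] at h
    omega
  have h₀ : IsIrrCharacter G (fun _ => (1 : ℂ)) := isIrrCharacter_one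
  have hπf : (fun g : G => (Nat.card (MulAction.fixedBy Ω g) : ℂ))
      = (fun _ => (1 : ℂ)) + χ₁ + χ₂ := by
    rw [hπ]; rfl
  have hπ' : (Cfsg.permRep ℂ G Ω).character = (fun _ => (1 : ℂ)) + χ₁ + χ₂ := by
    rw [← hπf]
    funext g
    exact perm_character g
  have hdeg : χ₁ 1 ≠ χ₂ 1 := by
    rw [hd₁, hd₂]
    intro h
    have : (m : ℂ) - 1 - m = 0 := by rw [h, sub_self]
    norm_num at this
  have h12 : χ₁ ≠ χ₂ := fun h => hdeg (by rw [h])
  have hone := classInner_perm_one (G := G) a₀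
  rw [hπf, classInner_add_left, classInner_add_left, classInner_irr_self h₀,
    classInner_irr h₁ h₀, classInner_irr h₂ h₀] at hone
  have h01 : (fun _ => (1 : ℂ)) ≠ χ₁ := by
    intro h
    rw [if_pos h.symm] at hone
    by_cases h' : χ₂ = fun _ => (1 : ℂ)
    · rw [if_pos h'] at hone
      norm_num at hone
    · rw [if_neg h'] at hone
      norm_num at hone
  have h02 : (fun _ => (1 : ℂ)) ≠ χ₂ := by
    intro h
    rw [if_pos h.symm] at hone
    by_cases h' : χ₁ = fun _ => (1 : ℂ)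
    · rw [if_pos h'] at hone
      norm_num at hone
    · rw [if_neg h'] at hone
      norm_num at hone
  have hinv : ∀ g : G, χ₁ g⁻¹ + χ₂ g⁻¹ = χ₁ g + χ₂ g := by
    intro g
    have e1 := congrFun hπ g
    have e2 := congrFun hπ g⁻¹
    rw [MulAction.fixedBy_inv, e1] at e2
    linear_combination -e2
  have hreal1 := real_of_sum h₁ h₂ hdeg hinv
  have hreal2 := real_of_sum h₂ h₁ (Ne.symm hdeg) (fun g => by
    rw [add_comm, hinv g, add_comm])
  have hswap : ∀ x y : Ω, ∃ g : G, g • x = y ∧ g • y = x := by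
    apply (Cfsg.Agent.S0717.result (G := G) (Ω := Ω)).mpr
    intro χ hχ hne
    rw [hπf, classInner_add_left, classInner_add_left, classInner_irr h₀ hχ,
      classInner_irr h₁ hχ, classInner_irr h₂ hχ] at hne ⊢
    by_cases e0 : (fun _ => (1 : ℂ)) = χ
    · rw [if_pos e0, if_neg (fun h => h01 (e0.trans h.symm)),
        if_neg (fun h => h02 (e0.trans h.symm))]
      refine ⟨by ring, ?_⟩
      intro g
      rw [← e0]
      simp
    · by_cases e1 : χ₁ = χ
      · rw [if_neg e0, if_pos e1, if_neg (fun h => h12 (e1.trans h.symm))]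
        refine ⟨by ring, ?_⟩
        rw [← e1]
        exact hreal1
      · by_cases e2 : χ₂ = χ
        · rw [if_neg e0, if_neg e1, if_pos e2]
          refine ⟨by ring, ?_⟩
          rw [← e2]
          exact hreal2
        · rw [if_neg e0, if_neg e1, if_neg e2] at hne
          exact absurd (by ring) hne
  have hcardΩ : Nat.card Ω = 2 * m := by rw [Nat.card_eq_fintype_card, hm]
  have key : ∀ b : Ω, b ≠ a₀ →
      (2 * (Nat.card (MulAction.orbit (MulAction.stabilizer G a₀) b) : ℤ) - (2 * m - 1)) ^ 2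
        = 2 * m - 1 := by
    intro b hb
    obtain ⟨b', hb', hdisj, hcover⟩ := three_orbits a₀ hrank b hb
    obtain ⟨k, hk⟩ : ∃ k, k = Nat.card (MulAction.orbit (MulAction.stabilizer G a₀) b) :=
      ⟨_, rfl⟩
    obtain ⟨l, hl⟩ : ∃ l, l = Nat.card (MulAction.orbit (MulAction.stabilizer G a₀) b') :=
      ⟨_, rfl⟩
    have hk1 : 1 ≤ k := by
      rw [hk]
      have : Nonempty (MulAction.orbit (MulAction.stabilizer G a₀) b) :=
        ⟨⟨b, MulAction.mem_orbit_self b⟩⟩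
      exact Nat.card_pos
    have hl1 : 1 ≤ l := by
      rw [hl]
      have : Nonempty (MulAction.orbit (MulAction.stabilizer G a₀) b') :=
        ⟨⟨b', MulAction.mem_orbit_self b'⟩⟩
      exact Nat.card_pos
    obtain ⟨hcount, t, ht⟩ := orbit_eqn a₀ b b' hb hb' hdisj hcover hswap m hm hm2 χ₁ χ₂ h₁ h₂
      h01 h02 h12 hπ' hd₁ hd₂ k l hk hl hl1 hk1
    have hk_ne : k ≠ 1 := by
      intro h1
      have hfix := fix_all hprim a₀ b hb (orbit_card_one (by rw [← hk]; exact h1))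
      have h2 := rank_eq_card a₀ hfix
      rw [hrank, hcardΩ] at h2
      omega
    have hl_ne : l ≠ 1 := by
      intro h1
      have hfix := fix_all hprim a₀ b' hb' (orbit_card_one (by rw [← hl]; exact h1))
      have h2 := rank_eq_card a₀ hfix
      rw [hrank, hcardΩ] at h2
      omega
    rw [← hk]
    exact int_core m k t hm2 (by omega) (by omega) ht
  obtain ⟨b₁, hb₁⟩ : ∃ b : Ω, b ≠ a₀ :=
    Fintype.exists_ne_of_one_lt_card (by rw [hm]; omega) a₀
  have h1 := key b₁ hb₁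
  obtain ⟨w, hw⟩ : ∃ w : ℕ, (w : ℤ) ^ 2 = 2 * m - 1 :=
    ⟨(2 * (Nat.card (MulAction.orbit (MulAction.stabilizer G a₀) b₁) : ℤ) - (2 * m - 1)).natAbs,
      by rw [Int.natCast_natAbs, sq_abs]; exact h1⟩
  obtain ⟨a, rfl⟩ : ∃ a : ℕ, w = 2 * a + 1 := by
    rcases Nat.even_or_odd w with ⟨c, rfl⟩ | ⟨c, rfl⟩
    · exfalso
      have h2 : (4 : ℤ) * (c : ℤ) ^ 2 = 2 * m - 1 := by
        rw [← hw]; push_cast; ring
      omega
    · exact ⟨c, rfl⟩
  have hmZ : (m : ℤ) = 2 * (a : ℤ) ^ 2 + 2 * a + 1 := by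
    have h2 : 2 * (m : ℤ) = 2 * (2 * (a : ℤ) ^ 2 + 2 * a + 1) := by
      push_cast at hw
      linear_combination -hw
    exact mul_left_cancel₀ (two_ne_zero) h2
  have hmN : m = 2 * a ^ 2 + 2 * a + 1 := by exact_mod_cast hmZ
  have ha : 0 < a := by
    rcases Nat.eq_zero_or_pos a with rfl | h
    · simp at hmN
      omega
    · exact h
  refine ⟨a, ha, hmN, ?_⟩
  intro b hb
  have h2 := key b hb
  have h3 : (2 * (Nat.card (MulAction.orbit (MulAction.stabilizer G a₀) b) : ℤ) - (2 * m - 1)) ^ 2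
      = (2 * (a : ℤ) + 1) ^ 2 := by
    rw [h2, ← hw]; push_cast; ring
  rcases sq_eq_sq_iff_eq_or_eq_neg.mp h3 with h | h
  · right
    have h4 : 2 * (Nat.card (MulAction.orbit (MulAction.stabilizer G a₀) b) : ℤ)
        = 2 * (((a : ℤ) + 1) * (2 * a + 1)) := by
      rw [hmZ] at h
      linear_combination h
    have h5 := mul_left_cancel₀ (two_ne_zero) h4
    exact_mod_cast h5
  · left
    have h4 : 2 * (Nat.card (MulAction.orbit (MulAction.stabilizer G a₀) b) : ℤ)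
        = 2 * ((a : ℤ) * (2 * a + 1)) := by
      rw [hmZ] at h
      linear_combination h
    have h5 := mul_left_cancel₀ (two_ne_zero) h4
    exact_mod_cast h5

end Cfsg.Agent.S0719
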