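import Mathlib
import Cfsg.Statements.S0721

set_option autoImplicit false
open Cfsg

namespace Cfsg.Agent.S0721

/-- Invariance of `K` under conjugation by the elements of `N`. -/
def NN {H : Type*} [Group H] (N K : Subgroup H) : Prop :=
  ∀ n ∈ N, K.map (MulAut.conj n).toMonoidHom ≤ K

theorem NN.conj_mem {H : Type*} [Group H] {N K : Subgroup H} (h : NN N K) {n x : H}
    (hn : n ∈ N) (hx : x ∈ K) : n * x * n⁻¹ ∈ K :=
  h n hn ⟨x, hx, rfl⟩

theorem NN.inf {H : Type*} [Group H] {N K L : Subgroup H} (hK : NN N K) (hL : NN N L) :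
    NN N (K ⊓ L) :=
  fun n hn => (Subgroup.map_inf_le K L _).trans (inf_le_inf (hK n hn) (hL n hn))

theorem NN.sup {H : Type*} [Group H] {N K L : Subgroup H} (hK : NN N K) (hL : NN N L) :
    NN N (K ⊔ L) := by
  intro n hn
  rw [Subgroup.map_sup]
  exact sup_le_sup (hK n hn) (hL n hn)

theorem comm_of_disjoint {H : Type*} [Group H] {N L M : Subgroup H} (hLN : L ≤ N) (hMN : M ≤ N)
    (hL : NN N L) (hM : NN N M) (hdis : L ⊓ M = ⊥) {l m : H} (hl : l ∈ L) (hm : m ∈ M) :
    l * m = m * l := by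
  have h1 : l * m * l⁻¹ * m⁻¹ ∈ L ⊓ M := by
    constructor
    · have h2 := hL.conj_mem (hMN hm) (L.inv_mem hl)
      have h3 := L.mul_mem hl h2
      have h4 : l * (m * l⁻¹ * m⁻¹) = l * m * l⁻¹ * m⁻¹ := by group
      rw [← h4]
      exact h3
    · have h2 := hM.conj_mem (hLN hl) hm
      exact M.mul_mem h2 (M.inv_mem hm)
  rw [hdis, Subgroup.mem_bot] at h1
  calc l * m = (l * m * l⁻¹ * m⁻¹) * (m * l) := by group
    _ = m * l := by rw [h1, one_mul]

theorem prod_iso {H : Type*} [Group H] {L M : Subgroup H}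
    (hcomm : ∀ m ∈ M, ∀ l ∈ L, m * l = l * m) (hdis : M ⊓ L = ⊥) :
    Nonempty ((M ⊔ L : Subgroup H) ≃* M × L) := by
  have hc : ∀ (m : M) (l : L), Commute (M.subtype m) (L.subtype l) :=
    fun m l => hcomm m m.2 l l.2
  have hinj : Function.Injective (MonoidHom.noncommCoprod M.subtype L.subtype hc) := by
    rw [MonoidHom.noncommCoprod_injective]
    refine ⟨Subtype.val_injective, Subtype.val_injective, ?_⟩
    rw [Subgroup.range_subtype, Subgroup.range_subtype, disjoint_iff, hdis]
  have hrange : (MonoidHom.noncommCoprod M.subtype L.subtype hc).range = M ⊔ L := by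
    rw [MonoidHom.noncommCoprod_range, Subgroup.range_subtype, Subgroup.range_subtype]
  exact ⟨((MonoidHom.ofInjective hinj).trans (MulEquiv.subgroupCongr hrange)).symm⟩

/-- Adding one factor to a power. -/
def piSuccEquiv (r : ℕ) (K : Type*) [Group K] : (Fin r → K) × K ≃* (Fin (r + 1) → K) where
  toFun p := Fin.cons (α := fun _ => K) p.2 p.1
  invFun g := (Fin.tail g, g 0)
  left_inv p := by simp
  right_inv g := by simp
  map_mul' p q := by
    ext i
    refine Fin.cases ?_ (fun j => ?_) i <;> simp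

/-- An instance-free copy of `Fin n`. -/
def TT (n : ℕ) : Type := Fin n

/-- The copy is in bijection with a finite type of that cardinality. -/
noncomputable def eqTT (K : Type*) [Finite K] : TT (Nat.card K) ≃ K := (Finite.equivFin K).symm

theorem transport {K : Type*} [Group K] [Finite K] [IsSimpleGroup K] :
    ∃ (T : Type) (_ : Group T), IsSimpleGroup T ∧ Nonempty (K ≃* T) := by
  refine ⟨TT (Nat.card K), (eqTT K).group, ?_, ?_⟩
  · let _ : Group (TT (Nat.card K)) := (eqTT K).group
    have hnt : Nontrivial (TT (Nat.card K)) := (eqTT K).nontrivial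
    exact IsSimpleGroup.isSimpleGroup_of_surjective ((eqTT K).mulEquiv.symm.toMonoidHom)
      ((eqTT K).mulEquiv.symm.surjective)
  · let _ : Group (TT (Nat.card K)) := (eqTT K).group
    exact ⟨(eqTT K).mulEquiv.symm⟩

/-- A minimal normal subgroup of a finite group is isomorphic to a direct power `T ^ m` of a simple group `T` (possibly of prime order). -/
theorem result {H : Type*} [Group H] [Finite H] (N : Subgroup H) [N.Normal] (hN : N ≠ ⊥) (hmin : ∀ M : Subgroup H, M.Normal → M ≤ N → M = ⊥ ∨ M = N) : ∃ (T : Type) (_ : Group T) (m : ℕ), IsSimpleGroup T ∧ 0 < m ∧ Nonempty (N ≃* (Fin m → T)) := by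
  classical
  have hNnormal : N.Normal := inferInstance
  have hNN : NN N N := by
    rintro n hn _ ⟨y, hy, rfl⟩
    exact N.mul_mem (N.mul_mem hn hy) (N.inv_mem hn)
  obtain ⟨K, ⟨hKN, hKbot, hKNN⟩, hKmin⟩ :=
    Set.exists_min_image {K : Subgroup H | K ≤ N ∧ K ≠ ⊥ ∧ NN N K} (fun K => Nat.card K)
      (Set.toFinite _) ⟨N, le_rfl, hN, hNN⟩
  have hc_le : ∀ h : H, K.map (MulAut.conj h).toMonoidHom ≤ N := by
    rintro h _ ⟨k, hk, rfl⟩
    exact hNnormal.conj_mem k (hKN hk) h
  have hc_card : ∀ h : H, Nat.card (K.map (MulAut.conj h).toMonoidHom) = Nat.card K :=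
    fun h => Subgroup.card_map_of_injective (MulAut.conj h).injective
  have hc_NN : ∀ h : H, NN N (K.map (MulAut.conj h).toMonoidHom) := by
    intro h n hn
    rintro _ ⟨_, ⟨k, hk, rfl⟩, rfl⟩
    have hn' : h⁻¹ * n * h ∈ N := hNnormal.conj_mem' n hn h
    refine ⟨(h⁻¹ * n * h) * k * (h⁻¹ * n * h)⁻¹, hKNN.conj_mem hn' hk, ?_⟩
    show h * ((h⁻¹ * n * h) * k * (h⁻¹ * n * h)⁻¹) * h⁻¹ = n * (h * k * h⁻¹) * n⁻¹
    group
  have star : ∀ (h : H) (M : Subgroup H), M ≤ N → NN N M →
      ¬ K.map (MulAut.conj h).toMonoidHom ≤ M → K.map (MulAut.conj h).toMonoidHom ⊓ M = ⊥ := by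
    intro h M hMN hMNN hnot
    by_contra hne
    have hP : (K.map (MulAut.conj h).toMonoidHom ⊓ M) ∈
        {K : Subgroup H | K ≤ N ∧ K ≠ ⊥ ∧ NN N K} :=
      ⟨inf_le_left.trans (hc_le h), hne, (hc_NN h).inf hMNN⟩
    have h1 := hKmin _ hP
    have heq : K.map (MulAut.conj h).toMonoidHom ⊓ M = K.map (MulAut.conj h).toMonoidHom :=
      Subgroup.eq_of_le_of_card_ge inf_le_left (by rw [hc_card]; exact h1)
    exact hnot (heq ▸ inf_le_right)
  have hJ : Subgroup.normalClosure (K : Set H) = N := by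
    refine (hmin _ Subgroup.normalClosure_normal (Subgroup.normalClosure_le_normal hKN)).resolve_left ?_
    intro hbot
    apply hKbot
    rw [eq_bot_iff, ← hbot]
    exact Subgroup.le_normalClosure
  have hNle : ∀ X : Subgroup H, (∀ h : H, K.map (MulAut.conj h).toMonoidHom ≤ X) → N ≤ X := by
    intro X hX
    rw [← hJ]
    show Subgroup.closure (Group.conjugatesOfSet (K : Set H)) ≤ X
    rw [Subgroup.closure_le]
    intro x hx
    rw [Group.mem_conjugatesOfSet_iff] at hx
    obtain ⟨a, ha, hconj⟩ := hx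
    obtain ⟨c, rfl⟩ := isConj_iff.mp hconj
    exact hX c ⟨a, ha, rfl⟩
  -- the maximal direct product of conjugates
  obtain ⟨M, hMmax⟩ := (Set.toFinite {M : Subgroup H | M ≤ N ∧ NN N M ∧
      ∃ r : ℕ, Nonempty (M ≃* (Fin r → K))}).exists_maximal
    ⟨⊥, bot_le, fun n hn => by rw [Subgroup.map_bot], 0, ⟨MulEquiv.ofUnique⟩⟩
  obtain ⟨hMN, hMNN, r, ⟨e2⟩⟩ := hMmax.prop
  have hNM : N ≤ M := by
    apply hNle
    intro h
    by_contra hnot
    have hdis := star h M hMN hMNN hnot
    have hcomm : ∀ m ∈ M, ∀ l ∈ K.map (MulAut.conj h).toMonoidHom, m * l = l * m :=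
      fun m hm l hl => (comm_of_disjoint (hc_le h) hMN (hc_NN h) hMNN hdis hl hm).symm
    obtain ⟨e1⟩ := prod_iso hcomm (by rw [inf_comm]; exact hdis)
    let e3 : K.map (MulAut.conj h).toMonoidHom ≃* K :=
      (K.equivMapOfInjective _ (MulAut.conj h).injective).symm
    have hmem : M ⊔ K.map (MulAut.conj h).toMonoidHom ∈ {M : Subgroup H | M ≤ N ∧ NN N M ∧
        ∃ r : ℕ, Nonempty (M ≃* (Fin r → K))} :=
      ⟨sup_le hMN (hc_le h), hMNN.sup (hc_NN h), r + 1,
        ⟨e1.trans ((MulEquiv.prodCongr e2 e3).trans (piSuccEquiv r K))⟩⟩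
    exact hnot (le_sup_right.trans (hMmax.le_of_ge hmem le_sup_left))
  have hMeq : M = N := le_antisymm hMN hNM
  have e : N ≃* (Fin r → K) := (MulEquiv.subgroupCongr hMeq.symm).trans e2
  have hr : 0 < r := by
    by_contra hr0
    have hr0' : r = 0 := by omega
    subst hr0'
    have hsub : Subsingleton N := e.toEquiv.subsingleton
    exact hN (Subgroup.eq_bot_of_subsingleton N)
  -- simplicity of K
  have hKnontriv : Nontrivial K := (Subgroup.nontrivial_iff_ne_bot K).mpr hKbot
  have hKsimple : IsSimpleGroup K := by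
    refine { toNontrivial := hKnontriv, eq_bot_or_eq_top_of_normal := ?_ }
    intro L₀ hL₀
    by_cases hL0 : L₀ = ⊥
    · left; exact hL0
    right
    set L' : Subgroup H := L₀.map K.subtype with hL'
    have hL'K : L' ≤ K := by
      rintro _ ⟨y, _, rfl⟩
      exact y.2
    have hL'bot : L' ≠ ⊥ := by
      intro h
      apply hL0
      exact (Subgroup.map_eq_bot_iff_of_injective L₀ K.subtype_injective).mp h
    have hnorm : N ≤ Subgroup.normalizer (L' : Set H) := by
      apply hNle
      intro h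
      by_cases hle : K.map (MulAut.conj h).toMonoidHom ≤ K
      · refine hle.trans ?_
        intro g hg
        rw [Subgroup.mem_set_normalizer_iff]
        intro x
        constructor
        · rintro ⟨y, hy, rfl⟩
          exact ⟨⟨g, hg⟩ * y * ⟨g, hg⟩⁻¹, hL₀.conj_mem y hy ⟨g, hg⟩, rfl⟩
        · rintro ⟨y, hy, hyx⟩
          refine ⟨⟨g, hg⟩⁻¹ * y * ⟨g, hg⟩, hL₀.conj_mem' y hy ⟨g, hg⟩, ?_⟩
          show g⁻¹ * (y : H) * g = x
          have hyx' : (y : H) = g * x * g⁻¹ := hyx
          rw [hyx']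
          group
      · have hdis := star h K hKN hKNN hle
        intro g hg
        have hcomm : ∀ x ∈ K, g * x = x * g :=
          fun x hx => comm_of_disjoint (hc_le h) hKN (hc_NN h) hKNN hdis hg hx
        rw [Subgroup.mem_set_normalizer_iff]
        intro x
        constructor
        · intro hx
          have h1 : g * x * g⁻¹ = x := by
            rw [hcomm x (hL'K hx)]
            group
          rw [SetLike.mem_coe, h1]
          exact hx
        · intro hx
          have h1 := hcomm _ (hL'K hx)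
          have h2 : g * (g * x * g⁻¹) = g * x := by
            rw [h1]
            group
          have h3 : x = g * x * g⁻¹ := (mul_left_cancel h2).symm
          rw [SetLike.mem_coe, h3]
          exact hx
    have hL'NN : NN N L' := by
      intro n hn
      rintro _ ⟨x, hx, rfl⟩
      exact (Subgroup.mem_set_normalizer_iff.mp (hnorm hn) x).mp hx
    have hcard := hKmin L' ⟨hL'K.trans hKN, hL'bot, hL'NN⟩
    have hL'eq : L' = K := Subgroup.eq_of_le_of_card_ge hL'K hcard
    rw [eq_top_iff]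
    intro y _
    have h1 : (y : H) ∈ L' := by
      rw [hL'eq]
      exact y.2
    obtain ⟨y', hy', hyy'⟩ := h1
    have h2 : y' = y := Subtype.ext hyy'
    rw [← h2]
    exact hy'
  obtain ⟨T, hT, hTsimple, ⟨μ⟩⟩ := transport (K := K)
  exact ⟨T, hT, r, hTsimple, hr, ⟨e.trans (MulEquiv.piCongrRight (fun _ => μ))⟩⟩

end Cfsg.Agent.S0721
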