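import Mathlib
import Cfsg.Statements.S0781
import Cfsg.Agent.S0780

set_option autoImplicit false
open Cfsg

namespace Cfsg.Agent.S0781

open Cfsg.Agent.S0837 (Bh Bh_apply hf Bh_symm Bh_nondeg)
open Cfsg.Agent.S0780

section gen

variable {F : Type*} [Field F] (φ : F →+* F) {n : ℕ} {q : ℕ}
  (hφq : ∀ a : F, φ a = a ^ q) (hφ2 : ∀ a : F, φ (φ a) = a)

local notation "B" => Bh φ n

/-- the Eichler (Siegel) element `x ↦ x + h(x,v) (y + κ v) - h(x,y) v` -/
def EE (v y : Fin n → F) (κ : F) : Matrix (Fin n) (Fin n) F :=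
  1 + Matrix.vecMulVec (y + κ • v) (fun j => φ (v j)) + Matrix.vecMulVec (-v) (fun j => φ (y j))

theorem EE_mulVec (v y : Fin n → F) (κ : F) (x : Fin n → F) :
    (EE φ v y κ).mulVec x = x + (B v x) • (y + κ • v) + (B y x) • (-v) :=
  rank_two_mulVec φ _ _ _ _ x

include hφ2 in
theorem EE_isSUm (v y : Fin n → F) (κ : F) (hvv : B v v = 0) (hvy : B v y = 0)
    (hκ : κ + φ κ = -(B y y)) : IsSUm φ (EE φ v y κ) := by
  have hS := Bh_symm φ hφ2 n
  have hyv : B y v = 0 := by rw [← hS.eq v y, hvy, map_zero]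
  refine ⟨?_, fun x x' => ?_⟩
  · rw [EE, det_rank_two]
    simp only [map_add, map_neg, map_smul, smul_eq_mul, hvv, hvy, hyv]
    ring
  · rw [EE_mulVec, EE_mulVec]
    have e1 : B x v = φ (B v x) := (hS.eq v x).symm
    have e2 : B x y = φ (B y x) := (hS.eq y x).symm
    simp only [map_add, map_neg, LinearMap.add_apply, LinearMap.neg_apply, LinearMap.map_smulₛₗ,
      LinearMap.smul_apply, map_smul, smul_eq_mul, hvv, hvy, hyv, e1, e2]
    linear_combination (φ (B v x) * B v x') * hκ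

omit hφ2 in
include hφq in
theorem EE_comm (v y y' : Fin n → F) (κ κ' c : F) (hvv : B v v = 0) (hvy : B v y = 0)
    (hvy' : B v y' = 0) (hyv : B y v = 0) (hy'v : B y' v = 0)
    (hc : c = B y' y - B y y') :
    EE φ v y κ * EE φ v y' κ' = Cfsg.unitaryTransvection n q v c * (EE φ v y' κ' * EE φ v y κ) := by
  apply mat_ext'
  intro x
  rw [← Matrix.mulVec_mulVec, ← Matrix.mulVec_mulVec, ← Matrix.mulVec_mulVec, tv_mulVec φ hφq,
    EE_mulVec, EE_mulVec, EE_mulVec, EE_mulVec]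
  simp only [map_add, map_neg, map_smul, smul_eq_mul, hvv, hvy, hvy', hyv, hy'v, hc]
  funext i
  simp only [Pi.add_apply, Pi.smul_apply, Pi.neg_apply, smul_eq_mul]
  ring

end gen

/-- In SU_n(q) with n ≥ 4, or n = 3 and q > 2, every element whose matrix is a unitary transvection x ↦ x + c h(x, v) v (v isotropic) is a commutator ⁅B, C⁆ of two elements of SU_n(q). -/
theorem result {F : Type*} [Field F] [Fintype F] {q : ℕ} (hF : Fintype.card F = q ^ 2) (n : ℕ) (hn : 4 ≤ n ∨ (n = 3 ∧ 3 ≤ q)) (A : ↥(Cfsg.SU n F q)) (v : Fin n → F) (c : F) (hv0 : Cfsg.hermForm n F q v v = 0) (hA : ((A : Matrix.SpecialLinearGroup (Fin n) F) : Matrix (Fin n) (Fin n) F) = Cfsg.unitaryTransvection n q v c) : A ∈ commutatorSet ↥(Cfsg.SU n F q) := by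
  classical
  obtain ⟨φ, hφq, hφ2⟩ := Cfsg.Agent.S0779.exists_frob hF
  have hφ := Cfsg.Agent.S0829.phi_ne_id hF φ hφq
  have hS := Bh_symm φ hφ2 n
  have hn3 : 3 ≤ n := by omega
  by_cases htriv : v = 0 ∨ c = 0
  · have hA1 : A = 1 := by
      apply Subtype.ext
      apply Subtype.ext
      rw [hA]
      rcases htriv with rfl | rfl
      · simp [Cfsg.unitaryTransvection]
      · simp [Cfsg.unitaryTransvection]
    rw [hA1]
    exact ⟨1, 1, by simp⟩
  push Not at htriv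
  obtain ⟨hv, hc0⟩ := htriv
  have hvv : Bh φ n v v = 0 := by
    rw [Bh_apply, ← Cfsg.Agent.S0837.herm_eq φ hφq]
    exact hv0
  have hcs : φ c = -c := by
    have h := (Cfsg.Agent.S0779.result hF n v hv hv0 c).mp (fun x y => by
      have h1 := A.2 x y
      rw [← hA]
      exact h1)
    rcases h with h | h
    · exact absurd h hc0
    · rw [hφq]
      have hq0 : q ≠ 0 := by
        have := Cfsg.Agent.S0829.two_le_q hF
        omega
      calc c ^ q = c ^ (q - 1) * c := by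
            rw [← pow_succ, Nat.sub_add_cancel (Nat.one_le_iff_ne_zero.mpr hq0)]
        _ = -c := by rw [h]; ring
  -- a unit vector orthogonal to `v`
  obtain ⟨d, hdd, hvd⟩ : ∃ d : Fin n → F, Bh φ n d d = 1 ∧ Bh φ n v d = 0 := by
    obtain ⟨i0, i1, i2, h01, h02, h12⟩ : ∃ i0 i1 i2 : Fin n, i0 ≠ i1 ∧ i0 ≠ i2 ∧ i1 ≠ i2 :=
      ⟨⟨0, by omega⟩, ⟨1, by omega⟩, ⟨2, by omega⟩, by simp [Fin.ext_iff], by simp [Fin.ext_iff],
        by simp [Fin.ext_iff]⟩
    obtain ⟨ξ1, ξ2, ξ3, h1, h2⟩ := CL3 φ hφ hφ2 (v i0) (v i1) (v i2)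
    obtain ⟨d0, hd0⟩ : ∃ d0 : Fin n → F, d0 = ξ1 • ee i0 + ξ2 • ee i1 + ξ3 • ee i2 := ⟨_, rfl⟩
    have hd0d0 : Bh φ n d0 d0 = φ ξ1 * ξ1 + φ ξ2 * ξ2 + φ ξ3 * ξ3 := by
      rw [hd0]
      simp only [map_add, LinearMap.add_apply, LinearMap.map_smulₛₗ, LinearMap.smul_apply, map_smul,
        smul_eq_mul, B_ee_ee, h01, h02, h12, h01.symm, h02.symm, h12.symm, ↓reduceIte]
      ring
    obtain ⟨l, hl⟩ := scale φ hφ hφ2 d0 (by rw [hd0d0]; exact h2)
    refine ⟨l • d0, hl, ?_⟩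
    rw [hd0]
    simp only [map_add, map_smul, smul_eq_mul, B_ee_right]
    linear_combination l * h1
  have hdv : Bh φ n d v = 0 := by rw [← hS.eq v d, hvd, map_zero]
  -- a - φ a = c
  obtain ⟨a, ha⟩ : ∃ a : F, a - φ a = c := by
    obtain ⟨x0, hx0⟩ := exists_moved φ hφ
    have hs0 : x0 - φ x0 ≠ 0 := sub_ne_zero.mpr (Ne.symm hx0)
    refine ⟨c / (x0 - φ x0) * x0, ?_⟩
    rw [map_mul, map_div₀, map_sub, hφ2, hcs]
    have hs0' : φ x0 - x0 ≠ 0 := sub_ne_zero.mpr hx0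
    field_simp
    ring
  obtain ⟨κ, hκ⟩ := Cfsg.Agent.S0751.trace_surj φ hφ hφ2 (-(φ a * a))
    (by rw [map_neg, map_mul, hφ2]; ring)
  obtain ⟨κ', hκ'⟩ := Cfsg.Agent.S0751.trace_surj φ hφ hφ2 (-1) (by rw [map_neg, map_one])
  have hE1 : IsSUm φ (EE φ v (a • d) κ) := by
    apply EE_isSUm φ hφ2 v (a • d) κ hvv
    · rw [map_smul, hvd, smul_zero]
    · rw [hκ]
      simp only [LinearMap.map_smulₛₗ, LinearMap.smul_apply, map_smul, smul_eq_mul, hdd]
      ring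
  have hE2 : IsSUm φ (EE φ v d κ') := by
    apply EE_isSUm φ hφ2 v d κ' hvv hvd
    rw [hκ', hdd]
  have hcomm := EE_comm φ hφq v (a • d) d κ κ' c hvv (by rw [map_smul, hvd, smul_zero]) hvd
    (by rw [LinearMap.map_smulₛₗ, LinearMap.smul_apply, hdv, smul_zero]) hdv
    (by
      simp only [LinearMap.map_smulₛₗ, LinearMap.smul_apply, map_smul, smul_eq_mul, hdd]
      linear_combination -ha)
  have mk : ∀ M : Matrix (Fin n) (Fin n) F, IsSUm φ M → ∃ g : ↥(Cfsg.SU n F q),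
      ((g : Matrix.SpecialLinearGroup (Fin n) F) : Matrix (Fin n) (Fin n) F) = M := by
    intro M hM
    have hmem : (⟨M, hM.1⟩ : Matrix.SpecialLinearGroup (Fin n) F) ∈ Cfsg.SU n F q := by
      intro x y
      have h := hM.2 y x
      rw [Bh_apply, Bh_apply, ← Cfsg.Agent.S0837.herm_eq φ hφq,
        ← Cfsg.Agent.S0837.herm_eq φ hφq] at h
      exact h
    exact ⟨⟨_, hmem⟩, rfl⟩
  obtain ⟨g1, hg1⟩ := mk _ hE1
  obtain ⟨g2, hg2⟩ := mk _ hE2
  have hmul : g1 * g2 = A * (g2 * g1) := by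
    apply Subtype.ext
    apply Subtype.ext
    show ((g1 : Matrix.SpecialLinearGroup (Fin n) F) : Matrix (Fin n) (Fin n) F)
        * ((g2 : Matrix.SpecialLinearGroup (Fin n) F) : Matrix (Fin n) (Fin n) F)
      = ((A : Matrix.SpecialLinearGroup (Fin n) F) : Matrix (Fin n) (Fin n) F)
        * (((g2 : Matrix.SpecialLinearGroup (Fin n) F) : Matrix (Fin n) (Fin n) F)
          * ((g1 : Matrix.SpecialLinearGroup (Fin n) F) : Matrix (Fin n) (Fin n) F))
    rw [hg1, hg2, hA]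
    exact hcomm
  refine ⟨g1, g2, ?_⟩
  rw [commutatorElement_def, hmul]
  group

end Cfsg.Agent.S0781
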