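import Cfsg.Statements.S0845
-- import your own Cfsg.Agent.* helpers here
import Mathlib
import Cfsg.Agent.Lib.Lead.BSKer

set_option autoImplicit false
open Cfsg

namespace Cfsg.Agent.S0845

/-- Suppose a Sylow 2-subgroup S of the finite group G is generalized quaternion of order at least 16. Then G has a normal subgroup M of even order such that G / M is non-abelian, that is, M does not contain the commutator subgroup of G. -/
theorem result {G : Type*} [Group G] [Finite G] (S : Sylow 2 G) (n : ℕ) (e : (S : Subgroup G) ≃* QuaternionGroup (2 ^ (n + 2))) : ∃ M : Subgroup G, M.Normal ∧ Even (Nat.card M) ∧ ¬ commutator G ≤ M := by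
  classical
  have := Fintype.ofFinite G
  have hne : NeZero (2 ^ (n + 2)) := ⟨by positivity⟩
  obtain ⟨M₁, M₀, hM₁, hM₀, hle, hinv, hcomm, hd⟩ := Cfsg.Agent.Lib.Lead.BSKer.invol_ker S n e
  refine ⟨M₁, hM₁, ?_, hcomm⟩
  obtain ⟨t, hto⟩ := Cfsg.Agent.Lib.Lead.BSKer.exists_invol S _ e
  have htM : t ∈ M₁ := hle (hinv t hto)
  have h2 : 2 ∣ Nat.card M₁ := by
    have := orderOf_dvd_natCard (⟨t, htM⟩ : M₁)
    rwa [Subgroup.orderOf_mk, hto] at this
  exact even_iff_two_dvd.mpr h2

end Cfsg.Agent.S0845
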