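import Cfsg.Statements.S0846
-- import your own Cfsg.Agent.* helpers here
import Mathlib
import Cfsg.Agent.Lib.Lead.BSKer

set_option autoImplicit false
open Cfsg

namespace Cfsg.Agent.S0846

/-- Suppose a Sylow 2-subgroup S of the finite group G is generalized quaternion of order at least 16. Then every Sylow 2-subgroup of the subgroup generated by the involutions of G is cyclic. -/
theorem result {G : Type*} [Group G] [Finite G] (S : Sylow 2 G) (n : ℕ) (e : (S : Subgroup G) ≃* QuaternionGroup (2 ^ (n + 2))) (Q : Sylow 2 ↥(Subgroup.closure {g : G | orderOf g = 2})) : IsCyclic Q := by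
  classical
  have := Fintype.ofFinite G
  have hne : NeZero (2 ^ (n + 2)) := ⟨by positivity⟩
  obtain ⟨M₁, M₀, hM₁, hM₀, hle, hinv, hcomm, hd⟩ := Cfsg.Agent.Lib.Lead.BSKer.invol_ker S n e
  have hHM : Subgroup.closure {g : G | orderOf g = 2} ≤ M₀ :=
    (Subgroup.closure_le _).mpr (fun t ht => hinv t ht)
  have hA := Cfsg.Agent.Lib.Lead.BSKer.sylow_inter_cyclic S _ e M₀ hd
  exact Cfsg.Agent.Lib.Lead.BSKer.sylow_sub_cyclic S M₀ _ hHM _ hA Q

end Cfsg.Agent.S0846
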