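import Mathlib
import Cfsg.Statements.S0850
import Cfsg.Agent.Lib.Helper8.ActionAux

set_option autoImplicit false
open Cfsg

namespace Cfsg.Agent.S0850

open Cfsg.Agent.Lib.Helper8

theorem ext_mem {G : Type*} [Group G] (H : Subgroup G) (φ : H → ℂ) (g : G) (hg : g ∈ H) :
    Cfsg.extendByZero H φ g = φ ⟨g, hg⟩ := by
  unfold Cfsg.extendByZero
  exact Subtype.val_injective.extend_apply φ 0 ⟨g, hg⟩

theorem ext_not_mem {G : Type*} [Group G] (H : Subgroup G) (φ : H → ℂ) (g : G) (hg : g ∉ H) :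
    Cfsg.extendByZero H φ g = 0 := by
  unfold Cfsg.extendByZero
  rw [Function.extend_apply']
  · rfl
  · rintro ⟨a, rfl⟩
    exact hg a.2

/-- conjugation action of a subgroup of the normalizer on the nonidentity elements -/
@[instance_reducible]
def conjAct {G : Type*} [Group G] (K Z : Subgroup G) (hZ : Z ≤ Subgroup.normalizer (K : Set G)) :
    MulAction Z {k : G // k ∈ K ∧ k ≠ 1} where
  smul z k := ⟨(z : G) * k.1 * (z : G)⁻¹,
    (Subgroup.mem_normalizer_iff.1 (hZ z.2) k.1).1 k.2.1, by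
      intro h
      apply k.2.2
      have : k.1 = (z : G)⁻¹ * ((z : G) * k.1 * (z : G)⁻¹) * (z : G) := by group
      rw [this, h]; group⟩
  one_smul k := by
    apply Subtype.ext
    simp [HSMul.hSMul]
  mul_smul u v k := by
    apply Subtype.ext
    simp [HSMul.hSMul, mul_assoc]

theorem part1 {G : Type*} [Group G] [Finite G] (K : Subgroup G)
    (hC : ∀ k ∈ K, k ≠ 1 → Subgroup.centralizer ({k} : Set G) ≤ K) :
    ∀ x ∈ Subgroup.normalizer (K : Set G), x ∉ K → ∀ g : G, g * x * g⁻¹ ∉ K := by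
  classical
  intro x hxN hxK g hk
  have hZ : Subgroup.zpowers x ≤ Subgroup.normalizer (K : Set G) := by
    rw [Subgroup.zpowers_le]; exact hxN
  have hA : ∀ z ∈ Subgroup.zpowers x, z ∈ K → z = 1 := by
    intro z hz hzK
    by_contra hne
    apply hxK
    apply hC z hzK hne
    rw [Subgroup.mem_centralizer_singleton_iff]
    obtain ⟨n, rfl⟩ := Subgroup.mem_zpowers_iff.1 hz
    exact ((Commute.refl x).zpow_right n).eq
  let _ := conjAct K (Subgroup.zpowers x) hZ
  have hfree : ∀ (z : Subgroup.zpowers x) (a : {k : G // k ∈ K ∧ k ≠ 1}), z • a = a → z = 1 := by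
    intro z a hza
    apply Subtype.ext
    apply hA z.1 z.2
    apply hC a.1 a.2.1 a.2.2
    rw [Subgroup.mem_centralizer_singleton_iff]
    have h1 : (z : G) * a.1 * (z : G)⁻¹ = a.1 := congrArg Subtype.val hza
    exact (mul_inv_eq_iff_eq_mul.1 h1)
  have h1 := card_dvd_of_free_action hfree
  rw [Nat.card_zpowers] at h1
  have hX : Nat.card {k : G // k ∈ K ∧ k ≠ 1} = Nat.card K - 1 := by
    have e1 : Nat.card {k : G // k ∈ K ∧ k ≠ 1} = ((K : Set G) \ {1}).ncard := by
      rw [← Nat.card_coe_set_eq]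
      rfl
    rw [e1, Set.ncard_sdiff_singleton_of_mem (Subgroup.one_mem K), ← Nat.card_coe_set_eq]
    rfl
  rw [hX] at h1
  have h2 : orderOf x ∣ Nat.card K := by
    apply orderOf_dvd_of_pow_eq_one
    have h3 : (⟨g * x * g⁻¹, hk⟩ : K) ^ Nat.card K = 1 := pow_card_eq_one'
    have h4 : (g * x * g⁻¹) ^ Nat.card K = 1 := by
      have e := Subgroup.coe_pow K ⟨g * x * g⁻¹, hk⟩ (Nat.card K)
      rw [h3] at e
      exact e.symm
    rw [conj_pow] at h4
    have : x ^ Nat.card K = g⁻¹ * (g * x ^ Nat.card K * g⁻¹) * g := by group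
    rw [this, h4]; group
  have hpos : 0 < Nat.card K := Nat.card_pos
  have h5 : orderOf x ∣ Nat.card K - (Nat.card K - 1) := Nat.dvd_sub h2 h1
  have h6 : Nat.card K - (Nat.card K - 1) = 1 := by omega
  rw [h6, Nat.dvd_one, orderOf_eq_one_iff] at h5
  apply hxK
  rw [h5]; exact K.one_mem

theorem part2 {G : Type*} [Group G] [Fintype G] (K N : Subgroup G)
    (hTI : ∀ g : G, g ∉ N → ∀ k ∈ K, g * k * g⁻¹ ∈ K → k = 1)
    (h1 : ∀ x ∈ N, x ∉ K → ∀ g : G, g * x * g⁻¹ ∉ K)
    (ϑ : N → ℂ) (hcf : Cfsg.IsClassFunction N ϑ) (hoff : ∀ x : N, (x : G) ∉ K → ϑ x = 0)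
    (hone : ϑ 1 = 0) (x : N) : Cfsg.indFun N ϑ x = ϑ x := by
  classical
  have hNpos : (Nat.card N : ℂ) ≠ 0 := by
    exact_mod_cast (Nat.card_pos (α := N)).ne'
  unfold Cfsg.indFun
  by_cases hxK : (x : G) ∈ K
  · by_cases hx1 : (x : G) = 1
    · have hx1' : x = 1 := Subtype.ext hx1
      have : ∀ y : G, Cfsg.extendByZero N ϑ (y⁻¹ * (x : G) * y) = 0 := by
        intro y
        have e : y⁻¹ * (x : G) * y = 1 := by rw [hx1]; group
        rw [e, ext_mem N ϑ 1 N.one_mem]
        exact hone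
      rw [Finset.sum_eq_zero (fun y _ => this y), mul_zero, hx1', hone]
    · have : ∀ y : G, Cfsg.extendByZero N ϑ (y⁻¹ * (x : G) * y) = if y ∈ N then ϑ x else 0 := by
        intro y
        by_cases hy : y ∈ N
        · rw [if_pos hy]
          have hmem : y⁻¹ * (x : G) * y ∈ N := N.mul_mem (N.mul_mem (N.inv_mem hy) x.2) hy
          rw [ext_mem N ϑ _ hmem]
          have := hcf x (⟨y, hy⟩⁻¹ : N)
          rw [← this]
          congr 1
          apply Subtype.ext
          simp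
        · rw [if_neg hy]
          by_cases hmem : y⁻¹ * (x : G) * y ∈ N
          · rw [ext_mem N ϑ _ hmem]
            apply hoff
            intro hK
            apply hx1
            apply hTI y⁻¹ (fun h => hy (by simpa using N.inv_mem h)) (x : G) hxK
            simpa using hK
          · exact ext_not_mem N ϑ _ hmem
      rw [Finset.sum_congr rfl (fun y _ => this y), sum_ite_mem_subgroup, ← mul_assoc,
        inv_mul_cancel₀ hNpos, one_mul]
  · have : ∀ y : G, Cfsg.extendByZero N ϑ (y⁻¹ * (x : G) * y) = 0 := by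
      intro y
      by_cases hmem : y⁻¹ * (x : G) * y ∈ N
      · rw [ext_mem N ϑ _ hmem]
        apply hoff
        have := h1 (x : G) x.2 hxK y⁻¹
        simpa using this
      · exact ext_not_mem N ϑ _ hmem
    rw [Finset.sum_eq_zero (fun y _ => this y), mul_zero, hoff x hxK]

theorem result {G : Type*} [Group G] [Fintype G] (K : Subgroup G) (hTI : ∀ g : G, g ∉ Subgroup.normalizer (K : Set G) → ∀ k ∈ K, g * k * g⁻¹ ∈ K → k = 1) (hlt : K < Subgroup.normalizer (K : Set G)) (hC : ∀ k ∈ K, k ≠ 1 → Subgroup.centralizer ({k} : Set G) ≤ K) : (∀ x ∈ Subgroup.normalizer (K : Set G), x ∉ K → ∀ g : G, g * x * g⁻¹ ∉ K) ∧ ∀ (ϑ : Subgroup.normalizer (K : Set G) → ℂ), Cfsg.IsClassFunction (Subgroup.normalizer (K : Set G)) ϑ → (∀ x : Subgroup.normalizer (K : Set G), (x : G) ∉ K → ϑ x = 0) → ϑ 1 = 0 → ∀ x : Subgroup.normalizer (K : Set G), Cfsg.indFun (Subgroup.normalizer (K : Set G)) ϑ x = ϑ x := by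
  have h1 := part1 K hC
  refine ⟨h1, ?_⟩
  intro ϑ hcf hoff hone x
  exact part2 K _ hTI h1 ϑ hcf hoff hone x

end Cfsg.Agent.S0850
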