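import Mathlib
import Cfsg.Statements.S0855
import Cfsg.Agent.Lib.Helper2.CharIto
import Cfsg.Agent.Lib.Helper2.CharRatio
import Cfsg.Agent.Lib.Helper2.CharTaketa
import Cfsg.Agent.Lib.Helper2.CharLinear
import Cfsg.Agent.Lib.Helper2.CharMore
import Cfsg.Agent.Lib.Helper2.CharIntegral
import Cfsg.Agent.Lib.Helper26.NpcExt

set_option autoImplicit false
open Cfsg

namespace Cfsg.Agent.S0855

open Cfsg.Agent.Lib.Helper2

/-- For a finite group G and a prime p: every irreducible character of G has degree a power of p if and only if G has an abelian normal subgroup whose order is prime to p and whose index is a power of p. -/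
theorem result {G : Type*} [Group G] [Finite G] (p : ℕ) (hp : p.Prime) : (∀ χ : Cfsg.IrrCharacter G, ∃ k : ℕ, (χ : G → ℂ) 1 = (p : ℂ) ^ k) ↔ ∃ A : Subgroup G, A.Normal ∧ (∀ a ∈ A, ∀ b ∈ A, a * b = b * a) ∧ Nat.Coprime (Nat.card A) p ∧ ∃ k : ℕ, A.index = p ^ k := by
  classical
  have := Fintype.ofFinite G
  have := Fintype.ofFinite (Cfsg.IrrCharacter G)
  have hpF : Fact p.Prime := ⟨hp⟩
  constructor
  · intro hdeg
    obtain ⟨P⟩ : Nonempty (Sylow p G) := inferInstance
    have hext : ∀ lam : (P : Subgroup G) →* ℂˣ, ∃ mu : G →* ℂˣ,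
        ∀ x : (P : Subgroup G), mu x = lam x := by
      intro lam
      set Θ := Cfsg.indFun (P : Subgroup G) (fun x => (lam x : ℂ)) with hΘ
      have hΘc : Cfsg.IsCharacter G Θ :=
        indFun_isCharacter _ (isCharacter_of_isIrrCharacter (isIrrCharacter_of_hom lam))
      have hΘ1 : Θ 1 = ((P : Subgroup G).index : ℂ) := by
        rw [hΘ, indFun_apply_one]; simp
      have hex : ∃ χ : Cfsg.IrrCharacter G, Cfsg.classInner Θ χ ≠ 0 ∧ (χ : G → ℂ) 1 = 1 := by
        by_contra hno
        push Not at hno
        have h1 := char_apply_one_eq_sum hΘc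
        have hterm : ∀ ψ : Cfsg.IrrCharacter G, ∃ t : ℕ,
            Cfsg.classInner Θ ψ * (ψ : G → ℂ) 1 = ((p * t : ℕ) : ℂ) := by
          intro ψ
          obtain ⟨m, hm⟩ := classInner_isCharacter_nat hΘc (isCharacter_of_isIrrCharacter ψ.2)
          obtain ⟨k, hk⟩ := hdeg ψ
          by_cases h0 : Cfsg.classInner Θ ψ = 0
          · exact ⟨0, by rw [h0]; simp⟩
          · have hne := hno ψ h0
            have hk0 : k ≠ 0 := by
              rintro rfl
              apply hne; rw [hk]; simp
            obtain ⟨j, rfl⟩ := Nat.exists_eq_succ_of_ne_zero hk0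
            refine ⟨m * p ^ j, ?_⟩
            rw [hm, hk, pow_succ]
            push_cast
            ring
        choose t ht using hterm
        rw [Finset.sum_congr rfl (fun ψ _ => ht ψ), hΘ1] at h1
        have h2 : (P : Subgroup G).index = ∑ ψ : Cfsg.IrrCharacter G, p * t ψ := by
          exact_mod_cast h1
        apply P.not_dvd_index
        rw [h2]
        exact Finset.dvd_sum (fun ψ _ => dvd_mul_right _ _)
      obtain ⟨χ, hχ0, hχ1⟩ := hex
      obtain ⟨mu, hmu⟩ := hom_of_irr_deg_one χ.2 hχ1
      refine ⟨mu, ?_⟩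
      have hfr := frobenius_reciprocity (P : Subgroup G) (fun x => (lam x : ℂ)) χ
        (isClassFunction_of_isIrrCharacter χ.2)
      rw [← hΘ] at hfr
      have hres : (fun h : (P : Subgroup G) => (χ : G → ℂ) h)
          = fun h => ((mu.comp (P : Subgroup G).subtype) h : ℂ) := by
        funext h; rw [hmu]; rfl
      rw [hres] at hfr
      have heq : (fun x : (P : Subgroup G) => (lam x : ℂ))
          = fun h => ((mu.comp (P : Subgroup G).subtype) h : ℂ) := by
        by_contra hne
        rw [classInner_irr_ne (isIrrCharacter_of_hom lam) (isIrrCharacter_of_hom _) hne] at hfr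
        exact hχ0 hfr
      intro x
      have h5 := congrFun heq x
      exact Units.ext h5.symm
    obtain ⟨N, hNn, hcop, k, hk⟩ := Cfsg.Agent.Lib.Helper26.exists_normal_of_ext p P hext
    refine ⟨N, hNn, ?_, hcop, k, hk⟩
    have hlin : ∀ θ : N → ℂ, Cfsg.IsIrrCharacter N θ → θ 1 = 1 := by
      intro θ hθ
      obtain ⟨d, hd0, hd⟩ := irr_apply_one hθ
      have hd1 : d ∣ Nat.card N := by
        obtain ⟨n, ρ, hρ, hρθ⟩ := hθ
        have h1 := irr_degree_dvd_card ρ
        rw [Module.finrank_fin_fun] at h1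
        have h2 : (n : ℂ) = d := by
          rw [← hd, ← hρθ, Representation.char_one, Module.finrank_fin_fun]
        have h3 : n = d := by exact_mod_cast h2
        rwa [h3] at h1
      have hΦ : Cfsg.IsCharacter G (Cfsg.indFun N θ) :=
        indFun_isCharacter N (isCharacter_of_isIrrCharacter hθ)
      have hΦ0 : Cfsg.indFun N θ ≠ 0 := by
        intro h0
        have h1 := indFun_apply_one N θ
        rw [h0, hd] at h1
        have h2 : (N.index : ℂ) * (d : ℂ) ≠ 0 := by
          apply mul_ne_zero
          · exact_mod_cast (Subgroup.index_ne_zero_of_finite (H := N))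
          · exact_mod_cast hd0.ne'
        exact h2 (by simpa using h1.symm)
      obtain ⟨χ, hχ, hχ0⟩ := exists_irr_constituent hΦ hΦ0
      rw [frobenius_reciprocity N θ χ (isClassFunction_of_isIrrCharacter hχ)] at hχ0
      have hcon : Cfsg.classInner (fun n : N => χ n) θ ≠ 0 := by
        intro h0
        apply hχ0
        rw [← classInner_conj_symm, h0, map_zero]
      obtain ⟨b, hb, -⟩ := degree_ratio N hχ hθ hcon
      obtain ⟨j, hj⟩ := hdeg ⟨χ, hχ⟩
      have h6 : b * d = p ^ j := by
        have : ((b * d : ℕ) : ℂ) = ((p ^ j : ℕ) : ℂ) := by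
          push_cast
          rw [← hd, ← hb]
          exact hj
        exact_mod_cast this
      have h7 : d ∣ p ^ j := Dvd.intro_left b h6
      obtain ⟨i, -, hi⟩ := (Nat.dvd_prime_pow hp).mp h7
      have h8 : d = 1 := by
        by_contra hne
        have hi0 : i ≠ 0 := by
          rintro rfl
          exact hne (by simpa using hi)
        have h9 : p ∣ d := by rw [hi]; exact dvd_pow_self p hi0
        have h10 : p ∣ Nat.card N := h9.trans hd1
        have h11 := Nat.Coprime.eq_one_of_dvd hcop.symm h10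
        exact hp.one_lt.ne' h11
      rw [hd, h8]; simp
    intro a ha b hb
    have key : (⟨a, ha⟩ * ⟨b, hb⟩ * ⟨a, ha⟩⁻¹ * ⟨b, hb⟩⁻¹ : N) = 1 := by
      apply eq_one_of_forall_irr_eq
      intro θ hθ
      obtain ⟨lam, hlam⟩ := hom_of_irr_deg_one hθ (hlin θ hθ)
      rw [hlam]
      simp only
      rw [map_mul, map_mul, map_mul, map_inv, map_inv, mul_comm (lam ⟨a, ha⟩) (lam ⟨b, hb⟩),
        mul_inv_cancel_right, mul_inv_cancel, map_one]
    have key2 := congrArg Subtype.val key
    simp only [Subgroup.coe_mul, Subgroup.coe_inv, Subgroup.coe_one] at key2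
    calc a * b = (a * b * a⁻¹ * b⁻¹) * (b * a) := by group
      _ = b * a := by rw [key2, one_mul]
  · rintro ⟨A, hAn, hab, -, k, hk⟩ χ
    obtain ⟨n, ρ, hρ, hρχ⟩ := χ.2
    have h1 := ito_degree_dvd_index ρ A hab
    rw [Module.finrank_fin_fun, hk] at h1
    obtain ⟨j, -, hj⟩ := (Nat.dvd_prime_pow hp).mp h1
    refine ⟨j, ?_⟩
    rw [← hρχ, Representation.char_one, Module.finrank_fin_fun, hj]
    push_cast
    rfl
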