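import Mathlib
import Cfsg.Statements.S0857
import Cfsg.Agent.Lib.Helper2.GoingDown
import Cfsg.Agent.S1489

set_option autoImplicit false
open Cfsg

namespace Cfsg.Agent.S0857

open Cfsg.Agent.Lib.Helper2

/-- Let L < K be normal subgroups of the finite group G with no normal subgroup of G strictly between them and with K / L abelian (the commutator subgroup of K lies in L). Let ϑ be an irreducible character of K invariant under conjugation by G. Then the restriction of ϑ to L is irreducible; or it equals e times an irreducible character of L with e ^ 2 equal to the index of L in K; or it is the sum of a family of pairwise distinct irreducible characters of L indexed by a set whose size is the index of L in K. -/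
theorem result {G : Type*} [Group G] [Fintype G] (K L : Subgroup G) [hK : K.Normal] [L.Normal] (hLK : L < K) (hchief : ∀ M : Subgroup G, M.Normal → L ≤ M → M ≤ K → M = L ∨ M = K) (hab : ⁅K, K⁆ ≤ L) (ϑ : K → ℂ) (hϑ : Cfsg.IsIrrCharacter K ϑ) (hinv : ∀ (g : G) (n : K), ϑ ⟨g * n * g⁻¹, hK.conj_mem (n : G) n.2 g⟩ = ϑ n) : Cfsg.IsIrrCharacter L (fun x : L => ϑ ⟨(x : G), hLK.le x.2⟩) ∨ (∃ (φ : L → ℂ) (e : ℕ), Cfsg.IsIrrCharacter L φ ∧ (fun x : L => ϑ ⟨(x : G), hLK.le x.2⟩) = (e : ℂ) • φ ∧ e ^ 2 = L.relIndex K) ∨ (∃ F : Finset (L → ℂ), (∀ φ ∈ F, Cfsg.IsIrrCharacter L φ) ∧ F.card = L.relIndex K ∧ (fun x : L => ϑ ⟨(x : G), hLK.le x.2⟩) = ∑ φ ∈ F, φ) := by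
  classical
  have hLn : (L.subgroupOf K).Normal := inferInstance
  let e : L.subgroupOf K ≃* L := Subgroup.subgroupOfEquivOfLe hLK.le
  have he : ∀ x : L.subgroupOf K, ((e x : L) : G) = ((x : K) : G) := fun x => rfl
  have hres : (fun x : L => ϑ ⟨(x : G), hLK.le x.2⟩)
      = (fun x : L.subgroupOf K => ϑ x) ∘ e.symm := by
    funext x
    obtain ⟨y, rfl⟩ := e.surjective x
    simp only [Function.comp_apply, MulEquiv.symm_apply_apply]
    congr 1
  have hirr : ∀ φ : L.subgroupOf K → ℂ, Cfsg.IsIrrCharacter (L.subgroupOf K) φ →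
      Cfsg.IsIrrCharacter L (φ ∘ e.symm) := fun φ hφ =>
    Cfsg.Agent.S1489.isIrrCharacter_comp_iso hφ e.symm
  have hgd := going_down (K := K) (L.subgroupOf K)
    (by
      intro a b
      rw [Subgroup.mem_subgroupOf]
      apply hab
      have := Subgroup.commutator_mem_commutator a.2 b.2
      rw [commutatorElement_def] at this
      exact this)
    (MulAut.conjNormal (H := K)).range
    (by
      rintro _ ⟨g, rfl⟩ x hx
      rw [Subgroup.mem_subgroupOf] at hx ⊢
      rw [MulAut.conjNormal_apply]
      exact Subgroup.Normal.conj_mem inferInstance _ hx g)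
    (by
      intro M hLM hMA
      have hMn : (M.map K.subtype).Normal := ⟨by
        rintro _ ⟨x, hx, rfl⟩ g
        refine ⟨MulAut.conjNormal g x, hMA _ ⟨g, rfl⟩ x hx, ?_⟩
        rw [Subgroup.coe_subtype, MulAut.conjNormal_apply]⟩
      have h1 : L ≤ M.map K.subtype := by
        intro l hl
        exact ⟨⟨l, hLK.le hl⟩, hLM (Subgroup.mem_subgroupOf.mpr hl), rfl⟩
      have h2 : M.map K.subtype ≤ K := by
        rintro _ ⟨x, -, rfl⟩
        exact x.2
      rcases hchief _ hMn h1 h2 with h | h
      · left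
        ext x
        rw [Subgroup.mem_subgroupOf, ← h]
        constructor
        · intro hx; exact ⟨x, hx, rfl⟩
        · rintro ⟨y, hy, hyx⟩
          have : y = x := Subtype.ext hyx
          rwa [← this]
      · right
        rw [eq_top_iff]
        intro x _
        have hx : (x : G) ∈ M.map K.subtype := by rw [h]; exact x.2
        obtain ⟨y, hy, hyx⟩ := hx
        have : y = x := Subtype.ext hyx
        rwa [← this])
    ϑ hϑ
    (by
      rintro _ ⟨g, rfl⟩ x
      rw [← hinv g x]
      congr 1)
  rcases hgd with h | ⟨φ, n, hφ, hφe, hn⟩ | ⟨F, hF, hFc, hFs⟩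
  · left
    rw [hres]
    exact hirr _ h
  · right; left
    refine ⟨φ ∘ e.symm, n, hirr φ hφ, ?_, hn⟩
    rw [hres, hφe]
    rfl
  · right; right
    have hinj : Function.Injective (fun φ : L.subgroupOf K → ℂ => φ ∘ e.symm) := by
      intro φ ψ h
      funext x
      have := congrFun h (e x)
      simpa using this
    refine ⟨F.image (fun φ => φ ∘ e.symm), ?_, ?_, ?_⟩
    · intro φ hφ
      rw [Finset.mem_image] at hφ
      obtain ⟨ψ, hψ, rfl⟩ := hφ
      exact hirr ψ (hF ψ hψ)
    · rw [Finset.card_image_of_injective F hinj, hFc]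
      rfl
    · rw [hres, hFs, Finset.sum_image (fun a _ b _ h => hinj h)]
      funext x
      simp [Finset.sum_apply]

end Cfsg.Agent.S0857
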