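import Mathlib
import Cfsg.Statements.S0858
import Cfsg.Agent.Lib.Helper2.GoingDown
import Cfsg.Agent.Lib.Helper2.RelMTools
import Cfsg.Agent.Lib.Helper2.CharMono
import Cfsg.Agent.S0857
import Cfsg.Agent.S1489

set_option autoImplicit false
open Cfsg

namespace Cfsg.Agent.S0858

open Cfsg.Agent.Lib.Helper2

theorem relM_aux.{u} (n : ℕ) : ∀ (G : Type u) [Group G] [Fintype G] (N : Subgroup G) [N.Normal],
    Nat.card G ≤ n → Group.IsSolvable (G ⧸ N) →
    (∀ (H K L : Subgroup G), N ≤ L → L < K → K ≤ H → (∀ h ∈ H, ∀ k ∈ K, h * k * h⁻¹ ∈ K) →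
      (∀ h ∈ H, ∀ l ∈ L, h * l * h⁻¹ ∈ L) →
      (∀ M : Subgroup G, L ≤ M → M ≤ K → (∀ h ∈ H, ∀ m ∈ M, h * m * h⁻¹ ∈ M) → M = L ∨ M = K) →
      ¬ IsSquare (L.relIndex K)) →
    ∀ χ : G → ℂ, Cfsg.IsIrrCharacter G χ →
    ∃ (H : Subgroup G) (hNH : N ≤ H) (ψ : H → ℂ), Cfsg.IsIrrCharacter H ψ ∧
      Cfsg.indFun H ψ = χ ∧ Cfsg.IsIrrCharacter N (fun n : N => ψ ⟨(n : G), hNH n.2⟩) := by
  induction n with
  | zero =>
    intro G _ _ N _ hcard
    exfalso
    have := Nat.card_pos (α := G)
    omega
  | succ n ih =>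
    intro G _ _ N _ hcard hsolv hchief χ hχ
    classical
    have htop : Cfsg.IsIrrCharacter (⊤ : Subgroup G) (fun x : (⊤ : Subgroup G) => χ x) :=
      Cfsg.Agent.S1489.isIrrCharacter_comp_iso hχ Subgroup.topEquiv
    by_cases hN : Cfsg.IsIrrCharacter N (fun n : N => χ n)
    · exact ⟨⊤, le_top, fun h => χ h, htop,
        indFun_top (isClassFunction_of_isIrrCharacter hχ), hN⟩
    · have hex : ∃ m, ∃ K : Subgroup G, (K.Normal ∧ N ≤ K ∧
          Cfsg.IsIrrCharacter K (fun x : K => χ x)) ∧ Nat.card K = m :=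
        ⟨_, ⊤, ⟨inferInstance, le_top, htop⟩, rfl⟩
      obtain ⟨K, ⟨hKn, hNK, hKirr⟩, hKm⟩ := Nat.find_spec hex
      have hKmin : ∀ K' : Subgroup G, K'.Normal → N ≤ K' →
          Cfsg.IsIrrCharacter K' (fun x : K' => χ x) → Nat.card K ≤ Nat.card K' := by
        intro K' h1 h2 h3
        rw [hKm]
        exact Nat.find_min' hex ⟨K', ⟨h1, h2, h3⟩, rfl⟩
      have hNK' : N < K := by
        refine lt_of_le_of_ne hNK ?_
        intro h
        subst h
        exact hN hKirr
      have hex2 : ∃ m, ∃ L : Subgroup G, (L.Normal ∧ N ≤ L ∧ L < K) ∧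
          Nat.card G - Nat.card L = m := ⟨_, N, ⟨inferInstance, le_rfl, hNK'⟩, rfl⟩
      obtain ⟨L, ⟨hLn, hNL, hLK⟩, hLm⟩ := Nat.find_spec hex2
      have hLmax : ∀ L' : Subgroup G, L'.Normal → N ≤ L' → L' < K →
          Nat.card L' ≤ Nat.card L := by
        intro L' h1 h2 h3
        have h0 := Nat.find_min' hex2 ⟨L', ⟨h1, h2, h3⟩, rfl⟩
        rw [← hLm] at h0
        have h4 : Nat.card L ≤ Nat.card G := Subgroup.card_le_card_group L
        have h5 : Nat.card L' ≤ Nat.card G := Subgroup.card_le_card_group L'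
        omega
      have hchiefG : ∀ M : Subgroup G, M.Normal → L ≤ M → M ≤ K → M = L ∨ M = K := by
        intro M hM hLM hMK
        by_cases hMK' : M = K
        · right; exact hMK'
        · left
          have h0 := hLmax M hM (hNL.trans hLM) (lt_of_le_of_ne hMK hMK')
          exact (Subgroup.eq_of_le_of_card_ge hLM h0).symm
      have hsolvL : Group.IsSolvable (G ⧸ L) := solvable_quot_of_le N L hNL hsolv
      have hab : ⁅K, K⁆ ≤ L := comm_le_of_chief L K hLK hchiefG hsolvL
      have hinvK : ∀ (g : G) (x : K), (fun x : K => χ x) ⟨g * x * g⁻¹, hKn.conj_mem x x.2 g⟩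
          = (fun x : K => χ x) x := fun g x => isClassFunction_of_isIrrCharacter hχ x g
      rcases Cfsg.Agent.S0857.result K L hLK hchiefG hab (fun x : K => χ x) hKirr hinvK with
        h | ⟨φ, e, hφ, hφe, he⟩ | ⟨F, hF, hFc, hFs⟩
      · exfalso
        have h0 := hKmin L hLn hNL h
        exact hLK.ne (Subgroup.eq_of_le_of_card_ge hLK.le h0)
      · exfalso
        apply hchief ⊤ K L hNL hLK le_top (fun h _ k hk => hKn.conj_mem k hk h)
          (fun h _ l hl => hLn.conj_mem l hl h)
          (fun M hLM hMK hM => hchiefG M ⟨fun m hm g => hM g (Subgroup.mem_top g) m hm⟩ hLM hMK)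
        exact ⟨e, by rw [← he, sq]⟩
      · have hF2 : 1 < F.card := by
          rw [hFc]
          have h1 : L.relIndex K ≠ 1 := fun h =>
            (not_le_of_gt hLK) (Subgroup.relIndex_eq_one.mp h)
          have h0 : L.relIndex K ≠ 0 := by
            show (L.subgroupOf K).index ≠ 0
            exact Subgroup.index_ne_zero_of_finite
          omega
        obtain ⟨φ₁, hφ₁, φ₂, hφ₂, hne⟩ := Finset.one_lt_card.mp hF2
        have hχL : (fun x : L => χ x) = ∑ φ ∈ F, φ := hFs
        have hin : ∀ φ ∈ F, Cfsg.classInner (fun x : L => χ x) φ = 1 := by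
          intro φ hφ
          rw [hχL, classInner_sum_left, Finset.sum_eq_single φ]
          · exact classInner_irr_self (hF φ hφ)
          · intro ψ hψ hne'
            exact classInner_irr_ne (hF ψ hψ) (hF φ hφ) hne'
          · intro h; exact absurd hφ h
        have hcon₁ : Cfsg.classInner (fun x : L => χ x) φ₁ ≠ 0 := by
          rw [hin φ₁ hφ₁]; exact one_ne_zero
        have hTne : inertia L φ₁ ≠ ⊤ := by
          intro hTtop
          have h1 : ∃ g : G, φ₂ = Cfsg.Agent.Lib.Helper2.conjFun L φ₁ g := by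
            by_contra hno
            push Not at hno
            have h2 := clifford_conj L hχ (hF φ₁ hφ₁) hcon₁ (hF φ₂ hφ₂) hno
            rw [hin φ₂ hφ₂] at h2
            exact one_ne_zero h2
          obtain ⟨g, hg⟩ := h1
          have hgT : g ∈ inertia L φ₁ := by rw [hTtop]; trivial
          rw [(mem_inertia L φ₁ g).mp hgT] at hg
          exact hne hg.symm
        obtain ⟨ψ₀, hψ₀, hψ₀χ⟩ := exists_clifford_correspondent L hχ (hF φ₁ hφ₁) hcon₁
        have hLT : L ≤ inertia L φ₁ := fun g hg => (mem_inertia L φ₁ g).mpr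
          (conjFun_of_mem L (isClassFunction_of_isIrrCharacter (hF φ₁ hφ₁)) hg)
        have hNT : N ≤ inertia L φ₁ := hNL.trans hLT
        have hcardT : Nat.card (inertia L φ₁) ≤ n := by
          have h1 : Nat.card (inertia L φ₁) < Nat.card G := by
            by_contra hge
            push Not at hge
            exact hTne (Subgroup.eq_top_of_card_eq _
              (le_antisymm (Subgroup.card_le_card_group _) hge))
          omega
        have hsolvT := solvable_subquot N (inertia L φ₁) hsolv
        obtain ⟨H', hNH', ψ', hψ', hind', hres'⟩ := ih (inertia L φ₁)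
          (N.subgroupOf (inertia L φ₁)) hcardT hsolvT
          (chief_transport N (inertia L φ₁) hNT hchief) ψ₀ hψ₀
        let eH := Subgroup.equivMapOfInjective H' (inertia L φ₁).subtype
          (inertia L φ₁).subtype_injective
        have hNH : N ≤ H'.map (inertia L φ₁).subtype := by
          intro x hx
          exact ⟨⟨x, hNT hx⟩, hNH' (Subgroup.mem_subgroupOf.mpr hx), rfl⟩
        refine ⟨H'.map (inertia L φ₁).subtype, hNH, fun x => ψ' (eH.symm x),
          Cfsg.Agent.S1489.isIrrCharacter_comp_iso hψ' eH.symm, ?_, ?_⟩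
        · rw [← hψ₀χ, ← hind']
          exact (indFun_trans_map (inertia L φ₁) H' ψ').symm
        · let eN : N ≃* N.subgroupOf (inertia L φ₁) := (Subgroup.subgroupOfEquivOfLe hNT).symm
          have h1 : (fun n : N => ψ' (eH.symm ⟨(n : G), hNH n.2⟩))
              = (fun n' : N.subgroupOf (inertia L φ₁) =>
                  ψ' ⟨(n' : inertia L φ₁), hNH' n'.2⟩) ∘ eN := by
            funext x
            simp only [Function.comp_apply]
            congr 1
            rw [MulEquiv.symm_apply_eq]
            apply Subtype.ext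
            rfl
          rw [h1]
          exact Cfsg.Agent.S1489.isIrrCharacter_comp_iso hres' eN

/-- Let N be a normal subgroup of the finite group G with G / N solvable, and suppose that for every subgroup H containing N and all subgroups L < K between N and H that are normal in H with no subgroup normal in H strictly between them, the index of L in K is not a perfect square. Then every irreducible character χ of G is induced from an irreducible character ψ of some subgroup H containing N such that the restriction of ψ to N is irreducible. -/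
theorem result {G : Type*} [Group G] [Fintype G] (N : Subgroup G) [N.Normal] (hsolv : Group.IsSolvable (G ⧸ N)) (hchief : ∀ (H K L : Subgroup G), N ≤ L → L < K → K ≤ H → (∀ h ∈ H, ∀ k ∈ K, h * k * h⁻¹ ∈ K) → (∀ h ∈ H, ∀ l ∈ L, h * l * h⁻¹ ∈ L) → (∀ M : Subgroup G, L ≤ M → M ≤ K → (∀ h ∈ H, ∀ m ∈ M, h * m * h⁻¹ ∈ M) → M = L ∨ M = K) → ¬ IsSquare (L.relIndex K)) (χ : G → ℂ) (hχ : Cfsg.IsIrrCharacter G χ) : ∃ (H : Subgroup G) (hNH : N ≤ H) (ψ : H → ℂ), Cfsg.IsIrrCharacter H ψ ∧ Cfsg.indFun H ψ = χ ∧ Cfsg.IsIrrCharacter N (fun n : N => ψ ⟨(n : G), hNH n.2⟩) := by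
  exact relM_aux (Nat.card G) G N le_rfl hsolv hchief χ hχ

end Cfsg.Agent.S0858
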