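import Mathlib
import Cfsg.Statements.S0859
import Cfsg.Agent.Lib.Helper2.GoingDown
import Cfsg.Agent.Lib.Helper2.RelMTools
import Cfsg.Agent.Lib.Helper2.AbSylow
import Cfsg.Agent.Lib.Helper2.CharMono
import Cfsg.Agent.S1489

set_option autoImplicit false
open Cfsg

namespace Cfsg.Agent.S0859

open Cfsg.Agent.Lib.Helper2

theorem mono_aux.{u} (n : ℕ) : ∀ (H : Type u) [Group H] [Fintype H] [Group.IsSolvable H]
    (N : Subgroup H) [N.Normal], Nat.card H ≤ n →
    (∀ p : ℕ, p.Prime → ∀ Q : Subgroup H, Q ≤ N → IsPGroup p Q →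
      ∀ a ∈ Q, ∀ b ∈ Q, a * b = b * a) →
    ∀ ψ : H → ℂ, Cfsg.IsIrrCharacter H ψ → Cfsg.IsIrrCharacter N (fun n : N => ψ n) →
    ∃ (U : Subgroup H) (lam : U → ℂ), Cfsg.IsCharacter U lam ∧ lam 1 = 1 ∧
      Cfsg.indFun U lam = ψ := by
  induction n with
  | zero =>
    intro H _ _ _ N _ hcard
    exfalso
    have := Nat.card_pos (α := H)
    omega
  | succ n ih =>
    intro H _ _ _ N _ hcard hab ψ hψ hψN
    classical
    have hψ' := hψ
    obtain ⟨d, ρ, hρ, rfl⟩ := hψ
    have : ρ.IsIrreducible := hρ
    by_cases hZN : N ≤ scalarSubgroup ρ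
    · have hd1 : ρ.character 1 = 1 := by
        have hirrN : Representation.IsIrreducible
            (ρ.comp N.subtype : Representation ℂ N (Fin d → ℂ)) :=
          isIrreducible_of_char_irr _ hψN
        have h1 := degree_dvd_index_of_scalar (ρ.comp N.subtype) ⊤ (fun g _ => hZN g.2)
        rw [Subgroup.index_top, Nat.dvd_one] at h1
        rw [Representation.char_one, h1]
        simp
      exact ⟨⊤, fun h => ρ.character h,
        IsCharacter.restrict (isCharacter_of_isIrrCharacter hψ') ⊤, hd1,
        indFun_top (isClassFunction_of_isIrrCharacter hψ')⟩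
    · set Z := N ⊓ scalarSubgroup ρ with hZ
      have hZn : Z.Normal := inferInstance
      have hZlt : Z < N := lt_of_le_of_ne inf_le_left (fun h => hZN (h ▸ inf_le_right))
      have hex : ∃ m, ∃ A : Subgroup H, (A.Normal ∧ Z < A ∧ A ≤ N) ∧ Nat.card A = m :=
        ⟨_, N, ⟨inferInstance, hZlt, le_rfl⟩, rfl⟩
      obtain ⟨A, ⟨hAn, hZA, hAN⟩, hAm⟩ := Nat.find_spec hex
      have hAmin : ∀ A' : Subgroup H, A'.Normal → Z < A' → A' ≤ N →
          Nat.card A ≤ Nat.card A' := by
        intro A' h1 h2 h3
        rw [hAm]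
        exact Nat.find_min' hex ⟨A', ⟨h1, h2, h3⟩, rfl⟩
      have hchiefA : ∀ M : Subgroup H, M.Normal → Z ≤ M → M ≤ A → M = Z ∨ M = A := by
        intro M hM hZM hMA
        by_cases h : M = Z
        · left; exact h
        · right
          have h0 := hAmin M hM (lt_of_le_of_ne hZM (Ne.symm h)) (hMA.trans hAN)
          exact Subgroup.eq_of_le_of_card_ge hMA h0
      have hcomm : ⁅A, A⁆ ≤ Z := comm_le_of_chief Z A hZA hchiefA inferInstance
      have hΘA : Cfsg.IsCharacter A (fun x : A => ρ.character x) :=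
        IsCharacter.restrict (isCharacter_of_isIrrCharacter hψ') A
      have hnt : Nontrivial (Fin d → ℂ) := irr_nontrivial ρ
      have hd0 : (Module.finrank ℂ (Fin d → ℂ) : ℂ) ≠ 0 := by
        exact_mod_cast (Module.finrank_pos (R := ℂ) (M := Fin d → ℂ)).ne'
      have hΘA0 : (fun x : A => ρ.character x) ≠ 0 := by
        intro h0
        have h1 := congrFun h0 1
        simp only [OneMemClass.coe_one, Representation.char_one, Pi.zero_apply] at h1
        exact hd0 h1
      obtain ⟨μ, hμ, hμcon⟩ := exists_irr_constituent hΘA hΘA0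
      have habA : ∀ p : ℕ, p.Prime → ∀ Q : Subgroup A, IsPGroup p Q →
          ∀ a ∈ Q, ∀ b ∈ Q, a * b = b * a := by
        intro p hp Q hQ a ha b hb
        have h1 := hab p hp (Q.map A.subtype)
          (by rintro _ ⟨x, -, rfl⟩; exact hAN x.2) (hQ.map A.subtype)
          a ⟨a, ha, rfl⟩ b ⟨b, hb, rfl⟩
        exact Subtype.ext h1
      by_cases hT : inertia A μ = ⊤
      · exfalso
        obtain ⟨e, he0, hsum⟩ := clifford_sum A hψ' hμ hμcon
        have hFeq : Finset.univ.image (fun k : H => Cfsg.Agent.Lib.Helper2.conjFun A μ k)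
            = {μ} := by
          ext φ
          simp only [Finset.mem_image, Finset.mem_univ, true_and, Finset.mem_singleton]
          constructor
          · rintro ⟨k, rfl⟩
            have : k ∈ inertia A μ := by rw [hT]; exact Subgroup.mem_top k
            exact (mem_inertia A μ k).mp this
          · rintro rfl
            exact ⟨1, conjFun_one A φ⟩
        rw [hFeq, Finset.sum_singleton] at hsum
        have htriv : ∀ c ∈ ⁅A, A⁆, ρ c = LinearMap.id := by
          intro c hc
          have hcZ := hcomm hc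
          obtain ⟨ζ, hζ⟩ := hcZ.2
          rw [← Subgroup.map_subtype_commutator] at hc
          obtain ⟨c', hc', rfl⟩ := hc
          have h1 := scalar_commutator_trivial (ρ.comp A.subtype) habA c' hc' ζ hζ
          rw [hζ, h1, one_smul]
        have hμ1 : μ 1 = 1 := by
          apply irr_deg_one_of_commutator_trivial hμ
          intro c' hc'
          apply constituent_apply_eq hΘA hμ hμcon
          have h1 : ρ (c' : H) = LinearMap.id :=
            htriv _ (by rw [← Subgroup.map_subtype_commutator]; exact ⟨c', hc', rfl⟩)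
          simp only [OneMemClass.coe_one]
          rw [Representation.char_one, (char_eq_finrank_iff ρ _).mpr h1]
        obtain ⟨lam, rfl⟩ := hom_of_irr_deg_one hμ hμ1
        have hAZ : A ≤ Z := by
          intro a ha
          refine ⟨hAN ha, ?_⟩
          show a ∈ scalarSubgroup ρ
          rw [mem_scalarSubgroup, ← norm_char_eq_iff]
          have h1 := congrFun hsum ⟨a, ha⟩
          have h2 := congrFun hsum 1
          simp only [Pi.smul_apply, smul_eq_mul, OneMemClass.coe_one, map_one, Units.val_one,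
            mul_one, Representation.char_one] at h1 h2
          have h3 : ‖(lam ⟨a, ha⟩ : ℂ)‖ = 1 := by
            apply Complex.norm_eq_one_of_pow_eq_one (n := orderOf (⟨a, ha⟩ : A)) _
              (orderOf_pos _).ne'
            rw [← Units.val_pow_eq_pow_val, ← map_pow, pow_orderOf_eq_one, map_one,
              Units.val_one]
          rw [h1, norm_mul, h3, mul_one, Complex.norm_natCast]
          have h4 : Module.finrank ℂ (Fin d → ℂ) = e := by exact_mod_cast h2
          rw [h4]
        exact (not_le_of_gt hZA) hAZ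
      · obtain ⟨ξ, hξ, hξind⟩ := exists_clifford_correspondent A hψ' hμ hμcon
        have hres := restrict_irr_of_ind N (inertia A μ) hψ' hψN hξ hξind
        have hcardT : Nat.card (inertia A μ) ≤ n := by
          have h1 : Nat.card (inertia A μ) < Nat.card H := by
            by_contra hge
            push Not at hge
            exact hT (Subgroup.eq_top_of_card_eq _
              (le_antisymm (Subgroup.card_le_card_group _) hge))
          omega
        have habT : ∀ p : ℕ, p.Prime → ∀ Q : Subgroup (inertia A μ),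
            Q ≤ N.subgroupOf (inertia A μ) → IsPGroup p Q →
            ∀ a ∈ Q, ∀ b ∈ Q, a * b = b * a := by
          intro p hp Q hQN hQ a ha b hb
          have h1 := hab p hp (Q.map (inertia A μ).subtype)
            (by rintro _ ⟨x, hx, rfl⟩; exact Subgroup.mem_subgroupOf.mp (hQN hx))
            (hQ.map _) a ⟨a, ha, rfl⟩ b ⟨b, hb, rfl⟩
          exact Subtype.ext h1
        obtain ⟨U', lam', hlam', hlam1, hind'⟩ := ih (inertia A μ)
          (N.subgroupOf (inertia A μ)) hcardT habT ξ hξ hres
        let eU := Subgroup.equivMapOfInjective U' (inertia A μ).subtype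
          (inertia A μ).subtype_injective
        refine ⟨U'.map (inertia A μ).subtype, fun x => lam' (eU.symm x), ?_, ?_, ?_⟩
        · obtain ⟨k, τ, rfl⟩ := hlam'
          exact ⟨k, τ.comp eU.symm.toMonoidHom, rfl⟩
        · show lam' (eU.symm 1) = 1
          rw [map_one]; exact hlam1
        · rw [← hξind, ← hind']
          exact (indFun_trans_map (inertia A μ) U' lam').symm

/-- Let G be a finite solvable group and N a normal subgroup such that for every prime p every Sylow p-subgroup of N is abelian. Suppose every irreducible character of G is induced from an irreducible character of some subgroup containing N whose restriction to N is irreducible. Then every irreducible character of G is induced from a character of degree 1 of some subgroup. -/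
theorem result {G : Type*} [Group G] [Fintype G] [Group.IsSolvable G] (N : Subgroup G) [N.Normal] (hab : ∀ (p : ℕ) [Fact p.Prime] (P : Sylow p N), ∀ a ∈ P, ∀ b ∈ P, a * b = b * a) (hrel : ∀ χ : G → ℂ, Cfsg.IsIrrCharacter G χ → ∃ (H : Subgroup G) (hNH : N ≤ H) (ψ : H → ℂ), Cfsg.IsIrrCharacter H ψ ∧ Cfsg.indFun H ψ = χ ∧ Cfsg.IsIrrCharacter N (fun n : N => ψ ⟨(n : G), hNH n.2⟩)) (χ : G → ℂ) (hχ : Cfsg.IsIrrCharacter G χ) : ∃ (U : Subgroup G) (lam : U → ℂ), Cfsg.IsCharacter U lam ∧ lam 1 = 1 ∧ Cfsg.indFun U lam = χ := by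
  classical
  obtain ⟨H, hNH, ψ, hψ, hind, hψN⟩ := hrel χ hχ
  have hNn : (N.subgroupOf H).Normal := inferInstance
  have habH : ∀ p : ℕ, p.Prime → ∀ Q : Subgroup H, Q ≤ N.subgroupOf H → IsPGroup p Q →
      ∀ a ∈ Q, ∀ b ∈ Q, a * b = b * a := by
    intro p hp Q hQN hQ a ha b hb
    have : Fact p.Prime := ⟨hp⟩
    have hQ₀ : IsPGroup p ((Q.map H.subtype).subgroupOf N) :=
      (hQ.map H.subtype).comap_of_injective N.subtype N.subtype_injective
    obtain ⟨P, hP⟩ := hQ₀.exists_le_sylow
    have haN : (a : G) ∈ N := Subgroup.mem_subgroupOf.mp (hQN ha)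
    have hbN : (b : G) ∈ N := Subgroup.mem_subgroupOf.mp (hQN hb)
    have h1 := hab p P ⟨a, haN⟩ (hP (Subgroup.mem_subgroupOf.mpr ⟨a, ha, rfl⟩))
      ⟨b, hbN⟩ (hP (Subgroup.mem_subgroupOf.mpr ⟨b, hb, rfl⟩))
    have h2 := congrArg Subtype.val h1
    exact Subtype.ext h2
  let eN : N.subgroupOf H ≃* N := Subgroup.subgroupOfEquivOfLe hNH
  have hψN' : Cfsg.IsIrrCharacter (N.subgroupOf H) (fun x : N.subgroupOf H => ψ x) := by
    have h1 := Cfsg.Agent.S1489.isIrrCharacter_comp_iso hψN eN
    have h2 : (fun n : N => ψ ⟨(n : G), hNH n.2⟩) ∘ eN = fun x : N.subgroupOf H => ψ x := by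
      funext x
      rfl
    rwa [h2] at h1
  obtain ⟨U', lam', hlam', hlam1, hind'⟩ := mono_aux (Nat.card H) H (N.subgroupOf H) le_rfl
    habH ψ hψ hψN'
  let eU := Subgroup.equivMapOfInjective U' H.subtype H.subtype_injective
  refine ⟨U'.map H.subtype, fun x => lam' (eU.symm x), ?_, ?_, ?_⟩
  · obtain ⟨k, τ, rfl⟩ := hlam'
    exact ⟨k, τ.comp eU.symm.toMonoidHom, rfl⟩
  · show lam' (eU.symm 1) = 1
    rw [map_one]; exact hlam1
  · rw [← hind, ← hind']
    exact (indFun_trans_map H U' lam').symm

end Cfsg.Agent.S0859
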