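import Mathlib
import Cfsg.Statements.S0875
import Cfsg.Agent.Lib.Helper8.PiSection2

set_option autoImplicit false
open Cfsg

namespace Cfsg.Agent.S0875

open Cfsg.Agent.Lib.Helper8 Cfsg.Agent.Lib.Helper2

/-- Let G be a finite group of order m * n with m and n coprime, and g an element whose order is coprime to m. Every x in G factors uniquely as x = u * v with u, v commuting, the order of u coprime to n and the order of v coprime to m; let ϑ be the function on G equal to n at those x whose factor v is conjugate to g and equal to 0 elsewhere. Then ϑ is a linear combination of the irreducible characters of G with algebraic-integer coefficients. -/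
theorem result {G : Type*} [Group G] [Fintype G] (m n : ℕ) (hmn : Nat.card G = m * n) (hcop : Nat.Coprime m n) (g : G) (hg : Nat.Coprime (orderOf g) m) (ϑ : G → ℂ) (hϑ1 : ∀ x : G, (∃ v : G, IsConj v g ∧ (∃ u : G, x = u * v ∧ Commute u v ∧ Nat.Coprime (orderOf u) n ∧ Nat.Coprime (orderOf v) m)) → ϑ x = n) (hϑ0 : ∀ x : G, (¬ ∃ v : G, IsConj v g ∧ (∃ u : G, x = u * v ∧ Commute u v ∧ Nat.Coprime (orderOf u) n ∧ Nat.Coprime (orderOf v) m)) → ϑ x = 0) : ∃ c : Cfsg.IrrCharacter G → ℂ, (∀ χ, c χ ∈ Cfsg.AlgInt) ∧ ϑ = ∑ᶠ χ : Cfsg.IrrCharacter G, c χ • (χ : G → ℂ) := by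
  classical
  have hcf : IsClassFunction G ϑ := by
    intro x h
    by_cases hx : PiPred m n g x
    · rw [hϑ1 x hx, hϑ1 _ (piPred_conj m n g x h hx)]
    · have hx' : ¬ PiPred m n g (h * x * h⁻¹) := by
        intro h'
        apply hx
        have h2 := piPred_conj m n g _ h⁻¹ h'
        have e : h⁻¹ * (h * x * h⁻¹) * h⁻¹⁻¹ = x := by group
        rwa [e] at h2
      rw [hϑ0 x hx, hϑ0 _ hx']
  have hval : ∀ x, ϑ x = n ∨ ϑ x = 0 := fun x => by
    by_cases hx : PiPred m n g x
    · exact Or.inl (hϑ1 x hx)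
    · exact Or.inr (hϑ0 x hx)
  have hϑ : ∀ u v : G, Commute u v → Nat.Coprime (orderOf u) n → Nat.Coprime (orderOf v) m →
      ϑ (v * u) = ϑ v := by
    intro u v hc hu hv
    rw [← hc.eq]
    have h1 := piPred_iff m n hmn hcop g hc hu hv
    have h2 := piPred_iff m n hmn hcop g (Commute.one_left v)
      (by rw [orderOf_one]; exact Nat.coprime_one_left n) hv
    rw [one_mul] at h2
    by_cases hx : IsConj v g
    · rw [hϑ1 _ (h1.mpr hx), hϑ1 _ (h2.mpr hx)]
    · rw [hϑ0 _ (fun h => hx (h1.mp h)), hϑ0 _ (fun h => hx (h2.mp h))]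
  refine ⟨fun χ => classInner ϑ χ, fun χ => ?_, class_fun_expand_finsum ϑ hcf⟩
  exact section_inner_integral m n hmn hcop ϑ hcf hval hϑ χ (isCharacter_of_isIrrCharacter χ.2)

end Cfsg.Agent.S0875
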