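import Mathlib
import Cfsg.Statements.S0876
import Cfsg.Agent.Lib.Helper8.PiSection2
import Cfsg.Agent.Lib.Helper8.DefectNum
import Cfsg.Agent.S0875

set_option autoImplicit false
open Cfsg

namespace Cfsg.Agent.S0876

open Cfsg.Agent.Lib.Helper8 Cfsg.Agent.Lib.Helper2 Cfsg.Agent.Lib.Helper25

/-- Let G be a finite group, p a prime and M a maximal ideal of the ring of algebraic integers containing p. Let x, y be elements with p-parts a and b (so a⁻¹ * x and b⁻¹ * y are their p-regular parts). Then a⁻¹ * x and b⁻¹ * y are conjugate in G if and only if, for every irreducible character χ, the difference χ x - χ y lies in the local ideal at M. -/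
theorem result {G : Type*} [Group G] [Finite G] (p : ℕ) (M : Ideal Cfsg.AlgInt) (hM : Cfsg.IsPModular p M) (x y a b : G) (ha : Cfsg.IsPPart p x a) (hb : Cfsg.IsPPart p y b) : IsConj (a⁻¹ * x) (b⁻¹ * y) ↔ ∀ χ : Cfsg.IrrCharacter G, Cfsg.MemLocalIdeal M ((χ : G → ℂ) x - (χ : G → ℂ) y) := by
  classical
  have hp : p.Prime := hM.1
  haveI : Fact p.Prime := ⟨hp⟩
  have hpr := isPrime_of_isPModular hM
  have : Fintype G := Fintype.ofFinite G
  have : Fintype (IrrCharacter G) := Fintype.ofFinite _
  obtain ⟨x', hx1, hx2, ⟨k, hk⟩, hx3⟩ := ha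
  obtain ⟨y', hy1, hy2, ⟨l, hl⟩, hy3⟩ := hb
  have ex : a⁻¹ * x = x' := by rw [← hx1]; group
  have ey : b⁻¹ * y = y' := by rw [← hy1]; group
  rw [ex, ey]
  have hak : a ^ (p ^ k) = 1 := by rw [← hk]; exact pow_orderOf_eq_one a
  have hbl : b ^ (p ^ l) = 1 := by rw [← hl]; exact pow_orderOf_eq_one b
  have hxa : ∀ χ : IrrCharacter G, MemLocalIdeal M ((χ : G → ℂ) x - (χ : G → ℂ) x') := by
    intro χ
    rw [← hx1]
    exact char_mul_sub_mem hM χ a x' k hak hx2.eq
  have hyb : ∀ χ : IrrCharacter G, MemLocalIdeal M ((χ : G → ℂ) y - (χ : G → ℂ) y') := by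
    intro χ
    rw [← hy1]
    exact char_mul_sub_mem hM χ b y' l hbl hy2.eq
  constructor
  · intro hconj χ
    have hcf := isClassFunction_of_isIrrCharacter χ.2
    have e : (χ : G → ℂ) x' = (χ : G → ℂ) y' := by
      obtain ⟨c, hc⟩ := isConj_iff.mp hconj
      rw [← hc]
      exact (hcf x' c).symm
    have h1 := MemLocalIdeal.sub M (hxa χ) (hyb χ)
    have e2 : (χ : G → ℂ) x - (χ : G → ℂ) x' - ((χ : G → ℂ) y - (χ : G → ℂ) y')
        = (χ : G → ℂ) x - (χ : G → ℂ) y := by rw [e]; ring
    rwa [e2] at h1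
  · intro h
    by_contra hnc
    have hdiff : ∀ χ : IrrCharacter G, MemLocalIdeal M ((χ : G → ℂ) x' - (χ : G → ℂ) y') := by
      intro χ
      have h1 := MemLocalIdeal.add M (MemLocalIdeal.sub M (h χ) (hxa χ)) (hyb χ)
      have e2 : (χ : G → ℂ) x - (χ : G → ℂ) y - ((χ : G → ℂ) x - (χ : G → ℂ) x')
          + ((χ : G → ℂ) y - (χ : G → ℂ) y') = (χ : G → ℂ) x' - (χ : G → ℂ) y' := by ring
      rwa [e2] at h1
    have hG0 : Nat.card G ≠ 0 := Nat.card_pos.ne'
    set m := p ^ (Nat.card G).factorization p with hm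
    set n := Nat.card G / m with hn
    have hmn : Nat.card G = m * n := (Nat.ordProj_mul_ordCompl_eq_self (Nat.card G) p).symm
    have hpn : ¬ p ∣ n := Nat.not_dvd_ordCompl hp hG0
    have hcop : Nat.Coprime m n := Nat.Coprime.pow_left _ (Nat.coprime_ordCompl hp hG0)
    have hxm : Nat.Coprime (orderOf x') m :=
      Nat.Coprime.pow_right _ ((Nat.Prime.coprime_iff_not_dvd hp).mpr hx3).symm
    have hym : Nat.Coprime (orderOf y') m :=
      Nat.Coprime.pow_right _ ((Nat.Prime.coprime_iff_not_dvd hp).mpr hy3).symm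
    obtain ⟨c, hc, hϑ⟩ := Cfsg.Agent.S0875.result m n hmn hcop x' hxm
      (fun z => if PiPred m n x' z then (n : ℂ) else 0)
      (fun z hz => if_pos hz) (fun z hz => if_neg hz)
    have h1 : PiPred m n x' x' := by
      have := (piPred_iff m n hmn hcop x' (Commute.one_left x')
        (by rw [orderOf_one]; exact Nat.coprime_one_left n) hxm).mpr (IsConj.refl x')
      rwa [one_mul] at this
    have h2 : ¬ PiPred m n x' y' := by
      intro h'
      have := (piPred_iff m n hmn hcop x' (Commute.one_left y')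
        (by rw [orderOf_one]; exact Nat.coprime_one_left n) hym)
      rw [one_mul] at this
      exact hnc (this.mp h').symm
    have e1 := congrFun hϑ x'
    have e2 := congrFun hϑ y'
    simp only [if_pos h1, if_neg h2] at e1 e2
    rw [finsum_eq_sum_of_fintype, Finset.sum_apply] at e1 e2
    have e3 : (n : ℂ) = ∑ χ : IrrCharacter G, c χ * ((χ : G → ℂ) x' - (χ : G → ℂ) y') := by
      have : (n : ℂ) = (n : ℂ) - 0 := by ring
      rw [this, e1, e2, ← Finset.sum_sub_distrib]
      apply Finset.sum_congr rfl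
      intro χ _
      simp only [Pi.smul_apply, smul_eq_mul]
      ring
    have h3 : MemLocalIdeal M (n : ℂ) := by
      rw [e3]
      apply memLocalIdeal_sum
      intro χ _
      exact MemLocalIdeal.mul_left M (memLocalRing_of_isIntegral M (hc χ)) (hdiff χ)
    exact hpn ((memLocalIdeal_natCast_iff hM n).mp h3)

end Cfsg.Agent.S0876
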