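import Mathlib
import Cfsg.Statements.S0887
import Cfsg.Agent.Lib.Helper2.CharRatio

set_option autoImplicit false
open Cfsg

namespace Cfsg.Agent.S0887

open Cfsg.Agent.Lib.Helper2

/-- If ϑ is an irreducible constituent of the restriction of χ ∈ Irr(G) to a normal subgroup N, then χ(1)/ϑ(1) is an integer dividing [G:N]. -/
theorem result {G : Type*} [Group G] [Fintype G] (N : Subgroup G) [N.Normal] [Fintype N] (χ : G → ℂ) (hχ : Cfsg.IsIrrCharacter G χ) (ϑ : N → ℂ) (hϑ : Cfsg.IsIrrCharacter N ϑ) (hcon : Cfsg.classInner (fun n : N => χ n) ϑ ≠ 0) (c d : ℕ) (hc : χ 1 = c) (hd : ϑ 1 = d) : d ∣ c ∧ c / d ∣ N.index := by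
  obtain ⟨b, hb1, hb2⟩ := degree_ratio N hχ hϑ hcon
  obtain ⟨m, hm0, hm⟩ := irr_apply_one hϑ
  have hdm : d = m := by
    rw [hd] at hm
    exact_mod_cast hm
  have hcb : c = b * d := by
    rw [hc, hd] at hb1
    exact_mod_cast hb1
  have hd0 : 0 < d := by omega
  refine ⟨⟨b, by rw [hcb, mul_comm]⟩, ?_⟩
  rw [hcb, Nat.mul_div_cancel _ hd0]
  exact hb2

end Cfsg.Agent.S0887
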