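import Mathlib
import Cfsg.Statements.S0890
import Cfsg.Agent.Lib.Helper2.BergerAux
import Cfsg.Agent.Lib.Helper2.CharRatio
import Cfsg.Agent.S1489

set_option autoImplicit false
open Cfsg

namespace Cfsg.Agent.S0890

open Cfsg.Agent.Lib.Helper2
open scoped ComplexConjugate

/-- the main argument, with `L` the core of `H` -/
theorem main {G : Type*} [Group G] [Fintype G] (L H : Subgroup G) [hL : L.Normal] (hLH : L ≤ H)
    (hcore : ∀ C : Subgroup G, C.Normal → C ≤ H → C ≤ L)
    (hmax : IsCoatom H) (hsolv : Group.IsSolvable (G ⧸ L)) (ϑ : H → ℂ)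
    (hϑ : Cfsg.IsIrrCharacter H ϑ)
    (hϑL : Cfsg.IsIrrCharacter L (fun x : L => ϑ ⟨(x : G), hLH x.2⟩))
    (hind : Cfsg.IsIrrCharacter G (Cfsg.indFun H ϑ))
    (hqp : ∀ M : Subgroup G, M.Normal → L ≤ M → ∃ (φ : M → ℂ) (e : ℕ),
      Cfsg.IsIrrCharacter M φ ∧ (fun m : M => Cfsg.indFun H ϑ m) = (e : ℂ) • φ) : False := by
  classical
  have := Fintype.ofFinite H
  have := Fintype.ofFinite L
  set χ : G → ℂ := Cfsg.indFun H ϑ with hχdef
  have hχcf := isClassFunction_of_isIrrCharacter hind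
  have hϑc := isCharacter_of_isIrrCharacter hϑ
  have hϑcf := isClassFunction_of_isIrrCharacter hϑ
  obtain ⟨a₀, ha₀, hϑ1⟩ := irr_apply_one hϑ
  have hχ1 : χ 1 = (H.index : ℂ) * (a₀ : ℂ) := by
    rw [hχdef, indFun_apply_one, hϑ1]
  have hHtop : H ≠ ⊤ := hmax.1
  by_cases hHn : H.Normal
  · -- `H` normal: then `χ_H = ϑ`
    obtain ⟨θ', e, hθ', he⟩ := hqp H hHn hLH
    have hfr := frobenius_reciprocity H ϑ χ hχcf
    rw [classInner_irr_self hind] at hfr
    have h1 : Cfsg.classInner ϑ ((e : ℂ) • θ') = 1 := by rw [← he]; exact hfr.symm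
    rw [classInner_smul_right] at h1
    have hθeq : ϑ = θ' := by
      by_contra hne
      rw [classInner_irr_ne hϑ hθ' hne, mul_zero] at h1
      exact zero_ne_one h1
    rw [← hθeq, classInner_irr_self hϑ, mul_one] at h1
    have he1 : (e : ℂ) = 1 := by
      have := congrArg (starRingEnd ℂ) h1
      simpa using this
    have h2 := congrFun he 1
    simp only [OneMemClass.coe_one, Pi.smul_apply, smul_eq_mul] at h2
    rw [he1, one_mul, ← hθeq, hχ1, hϑ1] at h2
    have h3 : H.index * a₀ = a₀ := by exact_mod_cast h2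
    have h4 : H.index = 1 := by
      have : H.index * a₀ = 1 * a₀ := by rw [h3, one_mul]
      exact Nat.eq_of_mul_eq_mul_right ha₀ this
    exact hHtop (Subgroup.index_eq_one.mp h4)
  have hLH' : L < H := by
    refine lt_of_le_of_ne hLH ?_
    intro h
    exact hHn (h ▸ hL)
  have hLtop : L ≠ ⊤ := fun h => hHtop (top_le_iff.mp (h ▸ hLH))
  obtain ⟨M, hMn, hLM, hmin⟩ := exists_min_above L hLtop
  obtain ⟨hab, p, k, hp, hk0, hMidx⟩ := chief_pow L M hLM hmin hsolv
  haveI : Fact p.Prime := ⟨hp⟩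
  obtain ⟨hsup, hinf⟩ := coatom_sup_inf L M H hLM hLH hmax hcore hab
  obtain ⟨K, hLK, hKH, hHK, hKidx⟩ := exists_normal_sub_p_or_p' p hp L H hLH' hsolv
  -- it suffices to show that `M` normalises `K`
  suffices hMK : ∀ m ∈ M, ∀ k ∈ K, m * k * m⁻¹ ∈ K by
    exact (not_le_of_gt hLK) (le_core_of_normalized L M H K hsup hcore hKH hHK hMK)
  rcases hKidx with hKp | hKc
  · exact normalizes_of_p_case p L M H K hLM hmin hab hsup hLK.le hHK hKp ⟨k, hk0, hMidx⟩
  -- the coprime case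
  have := Fintype.ofFinite M
  -- `χ_L = e₁ η`
  set η : L → ℂ := fun x : L => ϑ ⟨(x : G), hLH x.2⟩ with hηdef
  have hη1 : η 1 = (a₀ : ℂ) := hϑ1
  obtain ⟨η₁, e₁, hη₁, he₁⟩ := hqp L hL le_rfl
  have hcon1 : Cfsg.classInner (fun a : L => χ a) η ≠ 0 :=
    restrict_constituent H L hLH hind hϑ rfl hϑL (by
      show Cfsg.classInner η η ≠ 0
      rw [classInner_irr_self hϑL]; exact one_ne_zero)
  have hηeq : η₁ = η := by
    by_contra hne
    apply hcon1
    rw [he₁, classInner_smul_left, classInner_irr_ne hη₁ hϑL hne, mul_zero]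
  rw [hηeq] at he₁
  -- `χ_M = f φ`
  obtain ⟨φ, f, hφ, hf⟩ := hqp M hMn hLM.le
  have hφc := isCharacter_of_isIrrCharacter hφ
  have hidx : H.index = L.relIndex M := by
    rw [index_eq_relIndex_of_sup M H hsup, ← Subgroup.inf_relIndex_right, inf_comm, hinf]
  have hχ1' : χ 1 = ((p ^ k * a₀ : ℕ) : ℂ) := by
    rw [hχ1, hidx, hMidx]; push_cast; rfl
  have hχ1ne : χ 1 ≠ 0 := by
    rw [hχ1']
    have : p ^ k * a₀ ≠ 0 := Nat.mul_ne_zero (pow_ne_zero k hp.ne_zero) ha₀.ne'
    exact_mod_cast this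
  have hf0 : f ≠ 0 := by
    rintro rfl
    have := congrFun hf 1
    simp only [OneMemClass.coe_one, Nat.cast_zero, zero_smul, Pi.zero_apply] at this
    exact hχ1ne this
  have hfM : ∀ m : M, χ m = (f : ℂ) * φ m := fun m => congrFun hf m
  have he₁L : ∀ l : L, χ l = (e₁ : ℂ) * η l := fun l => congrFun he₁ l
  -- `φ_L = t η`
  have hφL : (fun l : L => φ ⟨l, hLM.le l.2⟩) = ((e₁ : ℂ) / (f : ℂ)) • η := by
    funext l
    have h1 := hfM ⟨l, hLM.le l.2⟩
    have h2 := he₁L l
    have hf0' : (f : ℂ) ≠ 0 := by exact_mod_cast hf0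
    simp only [Pi.smul_apply, smul_eq_mul]
    rw [div_mul_eq_mul_div, eq_div_iff hf0', mul_comm, ← h1, ← h2]
  obtain ⟨t, ht⟩ := smul_irr_nat (IsCharacter.comp_hom hφc (Subgroup.inclusion hLM.le)) hϑL _ hφL
  rw [ht] at hφL
  have hφL' : ∀ l : L, φ ⟨l, hLM.le l.2⟩ = (t : ℂ) * η l := fun l => congrFun hφL l
  -- `φ` vanishes off `L`
  have hφvan : ∀ m : M, (m : G) ∉ L → φ m = 0 := by
    intro m hm
    have h1 : χ m = 0 := by
      apply indFun_eq_zero_of_not_conj
      intro x hx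
      apply hm
      have h2 : x⁻¹ * (m : G) * x ∈ M := by
        have := hMn.conj_mem m m.2 x⁻¹
        rwa [inv_inv] at this
      have h3 : x⁻¹ * (m : G) * x ∈ L := by
        rw [← hinf]; exact ⟨h2, hx⟩
      have h4 := hL.conj_mem _ h3 x
      have h5 : x * (x⁻¹ * (m : G) * x) * x⁻¹ = m := by group
      rwa [h5] at h4
    rw [hfM m] at h1
    have hf0' : (f : ℂ) ≠ 0 := by exact_mod_cast hf0
    exact (mul_eq_zero.mp h1).resolve_left hf0'
  -- `t² = [M:L]`
  have htt : t * t = p ^ k := by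
    have n1 := classInner_irr_self hφ
    have n2 := classInner_irr_self hϑL
    rw [classInner_def] at n1 n2
    have hM0 : (Nat.card M : ℂ) ≠ 0 := card_ne_zero_complex M
    have hL0 : (Nat.card L : ℂ) ≠ 0 := card_ne_zero_complex L
    have s1 : ∑ m : M, φ m * conj (φ m) = (Nat.card M : ℂ) := by
      field_simp at n1
      exact n1
    have s2 : ∑ l : L, η l * conj (η l) = (Nat.card L : ℂ) := by
      field_simp at n2
      exact n2
    have s3 := sum_of_vanish L M hLM.le (fun m : M => φ m * conj (φ m))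
      (fun m hm => by rw [hφvan m hm, zero_mul])
    have s4 : ∑ l : L, φ ⟨l, hLM.le l.2⟩ * conj (φ ⟨l, hLM.le l.2⟩)
        = (t : ℂ) * (t : ℂ) * ∑ l : L, η l * conj (η l) := by
      rw [Finset.mul_sum]
      apply Finset.sum_congr rfl
      intro l _
      rw [hφL' l, map_mul, Complex.conj_natCast]
      ring
    rw [s1, s4, s2] at s3
    have h1 : Nat.card M = t * t * Nat.card L := by exact_mod_cast s3
    have h2 : Nat.card L * L.relIndex M = Nat.card M := by
      have := Subgroup.relIndex_mul_relIndex ⊥ L M bot_le hLM.le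
      rwa [Subgroup.relIndex_bot_left, Subgroup.relIndex_bot_left] at this
    rw [hMidx] at h2
    have h3 : 0 < Nat.card L := Nat.card_pos
    have h4 : Nat.card L * (t * t) = Nat.card L * p ^ k := by rw [h2, h1]; ring
    exact Nat.eq_of_mul_eq_mul_left h3 h4
  have ht0 : t ≠ 0 := by
    rintro rfl
    have : p ^ k ≠ 0 := pow_ne_zero k hp.ne_zero
    omega
  -- the normal subgroup `N = M K`
  set N : Subgroup G := M ⊔ K with hNdef
  have hNn : N.Normal := sup_normal_of M H K hsup hHK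
  have hMN : M ≤ N := le_sup_left
  have hKN : K ≤ N := le_sup_right
  have hLN : L ≤ N := hLM.le.trans hMN
  have hsupN : N ⊔ H = ⊤ := top_le_iff.mp (hsup ▸ sup_le_sup_right hMN H)
  have := Fintype.ofFinite N
  obtain ⟨ξ, c, hξ, hc⟩ := hqp N hNn hLN
  have hξc := isCharacter_of_isIrrCharacter hξ
  have hξcf := isClassFunction_of_isIrrCharacter hξ
  have hcN : ∀ x : N, χ x = (c : ℂ) * ξ x := fun x => congrFun hc x
  have hc0 : c ≠ 0 := by
    rintro rfl
    have := hcN 1
    simp only [OneMemClass.coe_one, Nat.cast_zero, zero_mul] at this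
    exact hχ1ne this
  have hc0' : (c : ℂ) ≠ 0 := by exact_mod_cast hc0
  -- `ξ_M = d φ`
  have hξM : (fun m : M => ξ ⟨m, hMN m.2⟩) = ((f : ℂ) / (c : ℂ)) • φ := by
    funext m
    have h1 := hfM m
    have h2 := hcN ⟨m, hMN m.2⟩
    simp only [Pi.smul_apply, smul_eq_mul]
    rw [div_mul_eq_mul_div, eq_div_iff hc0', mul_comm, ← h1, ← h2]
  obtain ⟨d, hd⟩ := smul_irr_nat (IsCharacter.comp_hom hξc (Subgroup.inclusion hMN)) hφ _ hξM
  rw [hd] at hξM
  have hξM' : ∀ m : M, ξ ⟨m, hMN m.2⟩ = (d : ℂ) * φ m := fun m => congrFun hξM m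
  have hfcd : f = c * d := by
    have h1 : (f : ℂ) = (c : ℂ) * (d : ℂ) := by
      rw [← hd]; field_simp
    exact_mod_cast h1
  have hd0 : d ≠ 0 := by
    rintro rfl
    exact hf0 (by rw [hfcd, mul_zero])
  -- degrees
  have hφ1 : φ 1 = ((t * a₀ : ℕ) : ℂ) := by
    have := hφL' 1
    rw [hη1] at this
    push_cast
    rw [← this]
    rfl
  have hξ1 : ξ 1 = ((d * (t * a₀) : ℕ) : ℂ) := by
    have := hξM' 1
    rw [hφ1] at this
    push_cast
    push_cast at this
    rw [← this]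
    rfl
  have hcdt : c * d = t := by
    have h1 := hcN 1
    rw [hξ1] at h1
    have h1' : χ 1 = ((c * (d * (t * a₀)) : ℕ) : ℂ) := by
      push_cast; push_cast at h1; exact h1
    rw [hχ1'] at h1'
    have h2 : p ^ k * a₀ = c * (d * (t * a₀)) := by exact_mod_cast h1'
    rw [← htt] at h2
    have h3 : (t * a₀) * t = (t * a₀) * (c * d) := by
      calc (t * a₀) * t = t * t * a₀ := by ring
        _ = c * (d * (t * a₀)) := h2
        _ = (t * a₀) * (c * d) := by ring
    exact (Nat.eq_of_mul_eq_mul_left (Nat.mul_pos (Nat.pos_of_ne_zero ht0) ha₀) h3).symm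
  -- `d` divides `[N:M] = [K:L]`
  have hMK : M ⊓ K = L := by
    apply le_antisymm
    · rw [← hinf]
      exact inf_le_inf_left M hKH
    · exact le_inf hLM.le hLK.le
  have hddvd : d ∣ L.relIndex K := by
    let e : M.subgroupOf N ≃* M := Subgroup.subgroupOfEquivOfLe hMN
    have hφ' : Cfsg.IsIrrCharacter (M.subgroupOf N) (φ ∘ e) :=
      Cfsg.Agent.S1489.isIrrCharacter_comp_iso hφ e
    have hres : (fun n : M.subgroupOf N => ξ n) = (d : ℂ) • (φ ∘ e) := by
      funext n
      have h1 := hξM' (e n)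
      simp only [Pi.smul_apply, smul_eq_mul, Function.comp_apply]
      rw [← h1]
      exact congrArg ξ (Subtype.ext (by simp [e]))
    have hcon : Cfsg.classInner (fun n : M.subgroupOf N => ξ n) (φ ∘ e) ≠ 0 := by
      rw [hres, classInner_smul_left, classInner_irr_self hφ', mul_one]
      exact_mod_cast hd0
    obtain ⟨b, hb1, hb2⟩ := degree_ratio (M.subgroupOf N) hξ hφ' hcon
    have hφe1 : (φ ∘ e) 1 = φ 1 := by simp
    rw [hφe1, hξ1, hφ1] at hb1
    have hb : d * (t * a₀) = b * (t * a₀) := by exact_mod_cast hb1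
    have hbd : d = b :=
      Nat.eq_of_mul_eq_mul_right (Nat.mul_pos (Nat.pos_of_ne_zero ht0) ha₀) hb
    rw [hbd]
    have hrel : (M.subgroupOf N).index = L.relIndex K := by
      show M.relIndex N = L.relIndex K
      rw [hNdef, Subgroup.relIndex_sup_left K M, ← Subgroup.inf_relIndex_right, hMK]
    rw [← hrel]
    exact hb2
  have hd1 : d = 1 := by
    have h1 : d ∣ p ^ k := by
      rw [← htt, ← hcdt]
      exact Dvd.dvd.mul_right (Dvd.intro_left c rfl) _
    exact Nat.eq_one_of_dvd_coprimes (Nat.Coprime.pow_right k hKc) hddvd h1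
  have hct : c = t := by rw [← hcdt, hd1, mul_one]
  -- Mackey and the key lemma
  set K' : Subgroup N := H.subgroupOf N with hK'def
  have := Fintype.ofFinite K'
  set κ' : K' → ℂ := fun y : K' => ϑ ⟨((y : N) : G), Subgroup.mem_subgroupOf.mp y.2⟩ with hκ'def
  have hmk : ∀ x : N, χ x = Cfsg.indFun K' κ' x :=
    fun x => indFun_restrict_of_sup H N hsupN ϑ hϑcf x
  let g₁ : K' →* H := MonoidHom.codRestrict (N.subtype.comp K'.subtype) H
    (fun y => Subgroup.mem_subgroupOf.mp y.2)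
  have hκ'c : Cfsg.IsCharacter K' κ' := IsCharacter.comp_hom hϑc g₁
  let f₁ : L →* K' := MonoidHom.codRestrict (Subgroup.inclusion hLN) K'
    (fun l => Subgroup.mem_subgroupOf.mpr (hLH l.2))
  have hκ' : Cfsg.IsIrrCharacter K' κ' := irr_of_comp_irr f₁ hκ'c hϑL
  have hindK : Cfsg.indFun K' κ' = (c : ℂ) • ξ := by
    funext x
    rw [← hmk x, hcN x]
    rfl
  have hfr := frobenius_reciprocity K' κ' ξ hξcf
  rw [hindK, classInner_smul_left, classInner_irr_self hξ, mul_one] at hfr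
  have hm : Cfsg.classInner (fun h : K' => ξ h) κ' = (c : ℂ) := by
    rw [← classInner_conj_symm, ← hfr, Complex.conj_natCast]
  have hκ'1 : κ' 1 = (a₀ : ℂ) := hϑ1
  have hdeg : (fun h : K' => ξ h) 1 = (c : ℂ) * κ' 1 := by
    show ξ 1 = _
    rw [hξ1, hκ'1, hd1, hct]
    push_cast
    ring
  have hξK := eq_smul_of_degree (IsCharacter.restrict hξc K') hκ' c hm hdeg
  have hξK' : ∀ y : K', ξ y = (c : ℂ) * κ' y := fun y => congrFun hξK y
  have hK'idx : K'.index = c * c := by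
    show H.relIndex N = c * c
    rw [← index_eq_relIndex_of_sup N H hsupN, hidx, hMidx, ← htt, hct]
  have hLK' : L.subgroupOf N ≤ K' := by
    intro x hx
    exact Subgroup.mem_subgroupOf.mpr (hLH (Subgroup.mem_subgroupOf.mp hx))
  have hκL : Cfsg.IsIrrCharacter (L.subgroupOf N)
      (fun l : L.subgroupOf N => κ' ⟨l, hLK' l.2⟩) := by
    let e' : L.subgroupOf N ≃* L := Subgroup.subgroupOfEquivOfLe hLN
    have h1 := Cfsg.Agent.S1489.isIrrCharacter_comp_iso hϑL e'
    have h2 : (fun x : L => ϑ ⟨(x : G), hLH x.2⟩) ∘ e'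
        = fun l : L.subgroupOf N => κ' ⟨l, hLK' l.2⟩ := by
      funext l
      exact congrArg ϑ (Subtype.ext (by simp [e']))
    rwa [h2] at h1
  have hK'n : K'.Normal := by
    apply normal_of_ind_restrict K' (L.subgroupOf N) hLK' hκ' hκL
    intro y
    rw [hindK, hK'idx]
    simp only [Pi.smul_apply, smul_eq_mul]
    rw [hξK' y]
    push_cast
    ring
  intro m hm k hk
  have hk' : (⟨k, hKN hk⟩ : N) ∈ K' := Subgroup.mem_subgroupOf.mpr (hKH hk)
  have h1 := hK'n.conj_mem _ hk' ⟨m, hMN hm⟩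
  have h2 : m * k * m⁻¹ ∈ H := Subgroup.mem_subgroupOf.mp h1
  have h3 : m * k * m⁻¹ ∈ M ⊔ K :=
    (M ⊔ K).mul_mem ((M ⊔ K).mul_mem (hMN hm) (hKN hk)) ((M ⊔ K).inv_mem (hMN hm))
  exact mem_of_mem_sup M H K L hinf hLK.le hKH h2 h3

/-- Let L ≤ H < G with L normal in G, H a maximal subgroup and G / L solvable. Let ϑ be an irreducible character of H whose restriction to L is irreducible and whose induction χ to G is irreducible. Then there is a normal subgroup M of G containing L such that the restriction of χ to M is not a natural-number multiple of a single irreducible character of M. -/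
theorem result {G : Type*} [Group G] [Fintype G] (L H : Subgroup G) [L.Normal] (hLH : L ≤ H) (hmax : IsCoatom H) (hsolv : Group.IsSolvable (G ⧸ L)) (ϑ : H → ℂ) (hϑ : Cfsg.IsIrrCharacter H ϑ) (hϑL : Cfsg.IsIrrCharacter L (fun x : L => ϑ ⟨(x : G), hLH x.2⟩)) (hind : Cfsg.IsIrrCharacter G (Cfsg.indFun H ϑ)) : ∃ M : Subgroup G, M.Normal ∧ L ≤ M ∧ ¬ ∃ (φ : M → ℂ) (e : ℕ), Cfsg.IsIrrCharacter M φ ∧ (fun m : M => Cfsg.indFun H ϑ m) = (e : ℂ) • φ := by
  classical
  by_contra hcon
  have hqp : ∀ M : Subgroup G, M.Normal → L ≤ M → ∃ (φ : M → ℂ) (e : ℕ),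
      Cfsg.IsIrrCharacter M φ ∧ (fun m : M => Cfsg.indFun H ϑ m) = (e : ℂ) • φ := by
    intro M hM hLM
    by_contra h
    exact hcon ⟨M, hM, hLM, h⟩
  have := Fintype.ofFinite H
  have := Fintype.ofFinite L
  -- pass to the core of `H`
  set L₁ : Subgroup G := H.normalCore with hL₁def
  have hL₁n : L₁.Normal := Subgroup.normalCore_normal H
  have hL₁H : L₁ ≤ H := Subgroup.normalCore_le H
  have hcore : ∀ C : Subgroup G, C.Normal → C ≤ H → C ≤ L₁ := by
    intro C hC hCH c hc b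
    exact hCH (hC.conj_mem c hc b)
  have hLL₁ : L ≤ L₁ := hcore L inferInstance hLH
  have hsolv₁ : Group.IsSolvable (G ⧸ L₁) := solvable_quot_of_le L L₁ hLL₁ hsolv
  have hϑc := isCharacter_of_isIrrCharacter hϑ
  have hϑL₁ : Cfsg.IsIrrCharacter L₁ (fun x : L₁ => ϑ ⟨(x : G), hL₁H x.2⟩) := by
    have hc : Cfsg.IsCharacter L₁ (ϑ ∘ (Subgroup.inclusion hL₁H)) :=
      IsCharacter.comp_hom hϑc (Subgroup.inclusion hL₁H)
    exact irr_of_comp_irr (Subgroup.inclusion hLL₁) hc hϑL
  exact main L₁ H hL₁H hcore hmax hsolv₁ ϑ hϑ hϑL₁ hind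
    (fun M hM hLM => hqp M hM (hLL₁.trans hLM))

end Cfsg.Agent.S0890
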