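import Mathlib
import Cfsg.Statements.S0905
import Cfsg.Agent.Lib.Helper8.PNilpotent

set_option autoImplicit false

open Cfsg

namespace Cfsg.Agent.S0905

open Cfsg.Agent.Lib.Helper8

theorem pCore_normal' {G : Type*} [Group G] (p : ℕ) : (pCore p G).Normal := by
  unfold pCore
  exact Subgroup.sSup_normal _ (fun H hH => hH.1)

theorem pCore_isPGroup' {G : Type*} [Group G] (p : ℕ) [Fact p.Prime] :
    IsPGroup p (pCore p G) := by
  obtain ⟨P⟩ : Nonempty (Sylow p G) := inferInstance
  apply P.isPGroup'.to_le
  unfold pCore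
  apply sSup_le
  rintro N ⟨hN, hNp⟩
  have := hN
  exact hNp.le_sylow_of_normal P

theorem result {G : Type*} [Group G] [Finite G] (p : ℕ) [Fact p.Prime] (F : Type*) [Field F] [CharP F p] (g : G) (hg : ∀ x : G, IsConj g x → x ∉ Subgroup.centralizer (Cfsg.pCore p G : Set G)) : IsNilpotent (∑ᶠ x ∈ ConjClasses.carrier (ConjClasses.mk g), MonoidAlgebra.single x (1 : F) : MonoidAlgebra F G) := by
  classical
  have : Fintype G := Fintype.ofFinite G
  have hnorm : (pCore p G).Normal := pCore_normal' p
  have hP : IsPGroup p (pCore p G) := pCore_isPGroup' p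
  let K : Finset G := Finset.univ.filter (fun x => IsConj g x)
  have hsum : (∑ᶠ x ∈ ConjClasses.carrier (ConjClasses.mk g), MonoidAlgebra.single x (1 : F) :
      MonoidAlgebra F G) = ∑ x ∈ K, MonoidAlgebra.single x (1 : F) := by
    rw [finsum_mem_eq_finite_toFinset_sum _ (Set.toFinite _)]
    apply Finset.sum_congr
    · ext x
      simp only [Set.Finite.mem_toFinset, ConjClasses.mem_carrier_iff_mk_eq,
        ConjClasses.mk_eq_mk_iff_isConj, K, Finset.mem_filter, Finset.mem_univ, true_and]
      exact ⟨fun h => h.symm, fun h => h.symm⟩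
    · intro x _; rfl
  rw [hsum]
  apply groupSum_nilpotent F (pCore p G) hP K
  · intro u _ x hx
    simp only [K, Finset.mem_filter, Finset.mem_univ, true_and] at hx ⊢
    exact hx.trans (isConj_iff.mpr ⟨u, rfl⟩)
  · intro x hx
    simp only [K, Finset.mem_filter, Finset.mem_univ, true_and] at hx
    by_contra hcon
    push Not at hcon
    apply hg x hx
    rw [Subgroup.mem_centralizer_iff]
    intro u hu
    have h1 := hcon u hu
    calc u * x = u * x * u⁻¹ * u := by group
      _ = x * u := by rw [h1]

end Cfsg.Agent.S0905
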