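import Mathlib
import Cfsg.Statements.S0915
import Cfsg.Agent.Lib.Helper6.PSolv
import Cfsg.Agent.Lib.Helper8.BlockNil
import Cfsg.Agent.Lib.Helper8.BlockReg
import Cfsg.Agent.S0905

set_option autoImplicit false
open Cfsg

namespace Cfsg.Agent.S0915

open Cfsg.Agent.Lib.Helper2 Cfsg.Agent.Lib.Helper25 Cfsg.Agent.Lib.Helper8

theorem result {G : Type*} [Group G] [Finite G] (p : ℕ) [Fact p.Prime] (M : Ideal Cfsg.AlgInt) (hM : Cfsg.IsPModular p M) (hsolv : Cfsg.IsPSolvable p G) (hcore : Cfsg.pPrimeCore p G = ⊥) (χ ψ : Cfsg.IrrCharacter G) : Cfsg.SameBlock M (χ : G → ℂ) (ψ : G → ℂ) := by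
  classical
  have : Fintype G := Fintype.ofFinite G
  have hpr := isPrime_of_isPModular hM
  have hp : p.Prime := Fact.out
  have hN : (pCore p G).Normal := Cfsg.Agent.S0905.pCore_normal' p
  have hP : IsPGroup p (pCore p G) := Cfsg.Agent.S0905.pCore_isPGroup' p
  apply sameBlock_of_regular hM χ ψ
  intro g hg
  by_cases hc : ∃ x : G, IsConj g x ∧ x ∈ Subgroup.centralizer (pCore p G : Set G)
  · obtain ⟨x, hgx, hx⟩ := hc
    have hx' : x ∈ pCore p G :=
      Cfsg.Agent.Lib.Helper6.centralizer_pCore_le_of_isPSolvable hsolv hcore hx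
    obtain ⟨k, hk⟩ := (IsPGroup.iff_orderOf.mp hP) ⟨x, hx'⟩
    have hord : orderOf x = p ^ k := by
      rw [← hk, ← Subgroup.orderOf_coe]
    have hgx' : orderOf g = orderOf x := by
      obtain ⟨c, hc⟩ := isConj_iff.mp hgx
      rw [← hc]
      exact (orderOf_injective (MulAut.conj c).toMonoidHom (MulAut.conj c).injective g).symm
    have hk0 : k = 0 := by
      by_contra hk0
      apply hg
      rw [hgx', hord]
      exact dvd_pow_self p hk0
    have hg1 : g = 1 := by
      rw [← orderOf_eq_one_iff, hgx', hord, hk0, pow_zero]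
    subst hg1
    have h1 : ∀ θ : IrrCharacter G, centralChar (θ : G → ℂ) 1 = 1 := by
      intro θ
      unfold centralChar
      have hθ : (θ : G → ℂ) 1 ≠ 0 := irr_one_ne_zero θ.2
      have hidx : (Subgroup.centralizer ({1} : Set G)).index = 1 := by
        rw [Subgroup.index_eq_one]
        rw [eq_top_iff]
        intro y _
        rw [Subgroup.mem_centralizer_iff]
        intro h hh
        rw [Set.mem_singleton_iff.mp hh]; simp
      rw [hidx]
      field_simp
      simp
    rw [h1, h1, sub_self]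
    exact memLocalIdeal_zero M
  · push Not at hc
    exact MemLocalIdeal.sub M (centralChar_mem_of_not_centralizer hM χ g _ hP hc)
      (centralChar_mem_of_not_centralizer hM ψ g _ hP hc)

end Cfsg.Agent.S0915
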