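import Cfsg.Statements.S4431
import Cfsg.Agent.S4426
import Cfsg.Agent.Lib.Helper8.InducedCC

set_option autoImplicit false
open Cfsg

namespace Cfsg.Agent.S4431

section aux

open Cfsg.Agent.Lib.Helper2 Cfsg.Agent.Lib.Helper25 Cfsg.Agent.S4426
open scoped ComplexConjugate

variable {G : Type*} [Group G] [Fintype G]

omit [Fintype G] in
/-- a class function takes equal values at conjugate elements -/
theorem classFun_of_isConj {R : G → ℂ} (hR : IsClassFunction G R) {a b : G} (h : IsConj a b) :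
    R a = R b := by
  obtain ⟨u, hu⟩ := isConj_iff.mp h
  rw [← hu, hR]

/-- regrouping a sum over a subgroup by the conjugacy classes of the group -/
theorem sum_subgroup_eq_sum_classes [Fintype (ConjClasses G)] (H : Subgroup G) [Fintype H]
    (R : G → ℂ) (hR : IsClassFunction G R) (ψ : H → ℂ) :
    ∑ h : H, R (h : G) * (ψ h / ψ 1)
      = ∑ c : ConjClasses G, R c.out * inducedCentralChar H ψ c.out := by
  classical
  simp only [Cfsg.Agent.Lib.Helper8.inducedCentralChar_eq_sum, Finset.mul_sum]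
  rw [Finset.sum_comm]
  apply Finset.sum_congr rfl
  intro h _
  rw [Finset.sum_eq_single (ConjClasses.mk (h : G))]
  · have hc : IsConj (ConjClasses.mk (h : G)).out (h : G) := by
      rw [← ConjClasses.mk_eq_mk_iff_isConj]; exact Quotient.out_eq _
    rw [if_pos hc, classFun_of_isConj hR hc]
  · intro c _ hne
    rw [if_neg, mul_zero]
    intro hc
    apply hne
    rw [← Quotient.out_eq c]
    exact ConjClasses.mk_eq_mk_iff_isConj.mpr hc
  · intro h'; exact absurd (Finset.mem_univ _) h'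

/-- the truncated inner product on the subgroup as a sum over the subgroup -/
theorem inner_sub_eq (p : ℕ) [Fact p.Prime] (H : Subgroup G) [Fintype H] (χ : G → ℂ)
    (ψ : IrrCharacter H) :
    ((Nat.card H / p ^ (Nat.card H).factorization p : ℕ) : ℂ) *
      (classInner (fun h : H => if p ∣ orderOf h then (0 : ℂ)
        else ((p ^ (Nat.card H).factorization p : ℕ) : ℂ) * χ h) (ψ : H → ℂ) / (ψ : H → ℂ) 1)
      = ∑ h : H, rfun p χ (h : G) * ((ψ : H → ℂ) h / (ψ : H → ℂ) 1) := by
  have hp : p.Prime := Fact.out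
  set a := (Nat.card H).factorization p with ha
  set N := Nat.card H / p ^ a with hN
  have hcard : p ^ a * N = Nat.card H := Nat.ordProj_mul_ordCompl_eq_self (Nat.card H) p
  have hpa : ((p : ℂ) ^ a) ≠ 0 := by
    have : ((p ^ a : ℕ) : ℂ) ≠ 0 := by exact_mod_cast (pow_pos hp.pos a).ne'
    push_cast at this; exact this
  have hN0 : (N : ℂ) ≠ 0 := by
    have : N ≠ 0 := by
      intro h0
      rw [h0, mul_zero] at hcard
      exact Nat.card_pos.ne' hcard.symm
    exact_mod_cast this
  have hsum : ∑ h : H, (if p ∣ orderOf h then (0 : ℂ)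
        else ((p ^ a : ℕ) : ℂ) * χ h) * conj ((ψ : H → ℂ) h)
      = ((p : ℂ) ^ a) * ∑ h : H, rfun p χ (h : G) * (ψ : H → ℂ) h := by
    rw [Finset.mul_sum, ← Equiv.sum_comp (Equiv.inv H)]
    apply Finset.sum_congr rfl
    intro y _
    simp only [Equiv.inv_apply, rfun, orderOf_inv, Subgroup.orderOf_coe, Subgroup.coe_inv]
    split_ifs
    · simp
    · rw [irr_conj_eq_inv, inv_inv]; push_cast; ring
  have hdiv : ∑ h : H, rfun p χ (h : G) * ((ψ : H → ℂ) h / (ψ : H → ℂ) 1)
      = (∑ h : H, rfun p χ (h : G) * (ψ : H → ℂ) h) / (ψ : H → ℂ) 1 := by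
    rw [Finset.sum_div]
    apply Finset.sum_congr rfl
    intro h _
    ring
  have h1 : (N : ℂ) * ((p : ℂ) ^ a * (N : ℂ))⁻¹ * (p : ℂ) ^ a = 1 := by
    field_simp
  rw [classInner_def, hsum, ← hcard, hdiv]
  push_cast
  calc (N : ℂ) * (((p : ℂ) ^ a * (N : ℂ))⁻¹ *
        ((p : ℂ) ^ a * ∑ h : H, rfun p χ (h : G) * (ψ : H → ℂ) h) / (ψ : H → ℂ) 1)
      = ((N : ℂ) * ((p : ℂ) ^ a * (N : ℂ))⁻¹ * (p : ℂ) ^ a) *
        ((∑ h : H, rfun p χ (h : G) * (ψ : H → ℂ) h) / (ψ : H → ℂ) 1) := by ring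
    _ = (∑ h : H, rfun p χ (h : G) * (ψ : H → ℂ) h) / (ψ : H → ℂ) 1 := by rw [h1, one_mul]

/-- the comparison of the truncated inner product on the subgroup with the central
character sum of a character of the induced block -/
theorem key {p : ℕ} [Fact p.Prime] {M : Ideal AlgInt} (hM : IsPModular p M) (H : Subgroup G)
    [Fintype H] (b : Set (IrrCharacter H)) (B₀ : Set (IrrCharacter G))
    (hind : IsInducedBlock M H b B₀) (χ : IrrCharacter G) (ψ : IrrCharacter H) (hψ : ψ ∈ b)
    (χ' : IrrCharacter G) (hχ' : χ' ∈ B₀) :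
    MemLocalIdeal M (((Nat.card H / p ^ (Nat.card H).factorization p : ℕ) : ℂ) *
      (classInner (fun h : H => if p ∣ orderOf h then (0 : ℂ)
        else ((p ^ (Nat.card H).factorization p : ℕ) : ℂ) * (χ : G → ℂ) h) (ψ : H → ℂ)
          / (ψ : H → ℂ) 1)
      - omegaFun (χ' : G → ℂ) (rfun p (χ : G → ℂ))) := by
  classical
  haveI := isPrime_of_isPModular hM
  haveI : Fintype (ConjClasses G) := Fintype.ofFinite _
  have hR := rfun_isClassFunction p (isClassFunction_of_isIrrCharacter χ.2)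
  rw [inner_sub_eq, sum_subgroup_eq_sum_classes H _ hR, omegaFun_eq_sum_classes' χ' _ hR,
    ← Finset.sum_sub_distrib]
  apply memLocalIdeal_sum
  intro c _
  rw [← mul_sub]
  apply MemLocalIdeal.mul_left M
  · simp only [rfun]
    split_ifs
    · exact memLocalRing_zero M
    · exact memLocalRing_of_isIntegral M (irr_isIntegral χ _)
  · exact hind.2.2 ψ hψ χ' hχ' _

end aux

open Cfsg.Agent.Lib.Helper2 Cfsg.Agent.Lib.Helper25 Cfsg.Agent.S4426 in
/-- Let H be a subgroup of the finite group G and b a block of H whose induced block B₀ in G is defined (relative to a maximal ideal M of the algebraic integers containing p). Let χ be an irreducible character of G, ψ ∈ b, and let η be the class function on H equal to p^a · χ on the p-regular elements of H and zero elsewhere, p^a being the p-part of the order of H. Then (a) if χ ∉ B₀, the number [η, ψ]/ψ(1) lies in the local ideal at M; (b) if χ ∈ B₀ has height zero, it does not. -/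
theorem result {G : Type*} [Group G] [Fintype G] (p : ℕ) [Fact p.Prime] (M : Ideal Cfsg.AlgInt) (hM : Cfsg.IsPModular p M) (H : Subgroup G) [Fintype H] (b : Set (Cfsg.IrrCharacter H)) (B₀ : Set (Cfsg.IrrCharacter G)) (hind : Cfsg.IsInducedBlock M H b B₀) (χ : Cfsg.IrrCharacter G) (ψ : Cfsg.IrrCharacter H) (hψ : ψ ∈ b) : (χ ∉ B₀ → Cfsg.MemLocalIdeal M (Cfsg.classInner (fun h : H => if p ∣ orderOf h then (0 : ℂ) else ((p ^ (Nat.card H).factorization p : ℕ) : ℂ) * (χ : G → ℂ) h) (ψ : H → ℂ) / (ψ : H → ℂ) 1)) ∧ (χ ∈ B₀ → Cfsg.blockHeight p B₀ (χ : G → ℂ) = 0 → ¬ Cfsg.MemLocalIdeal M (Cfsg.classInner (fun h : H => if p ∣ orderOf h then (0 : ℂ) else ((p ^ (Nat.card H).factorization p : ℕ) : ℂ) * (χ : G → ℂ) h) (ψ : H → ℂ) / (ψ : H → ℂ) 1)) := by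
  haveI := isPrime_of_isPModular hM
  have hp : p.Prime := Fact.out
  have hNH : ¬ p ∣ Nat.card H / p ^ (Nat.card H).factorization p :=
    Nat.not_dvd_ordCompl hp Nat.card_pos.ne'
  have hNH0 : ((Nat.card H / p ^ (Nat.card H).factorization p : ℕ) : ℂ) ≠ 0 := by
    have : Nat.card H / p ^ (Nat.card H).factorization p ≠ 0 := by
      intro h0
      apply hNH
      rw [h0]; exact dvd_zero p
    exact_mod_cast this
  constructor
  · intro hχ
    obtain ⟨χ', hχ'⟩ := isPBlock_nonempty hM hind.2.1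
    have hk := key hM H b B₀ hind χ ψ hψ χ' hχ'
    obtain ⟨z, hz⟩ := trunc_int p χ χ'
    obtain ⟨t, ht, hrel⟩ := exists_t p χ χ' z hz
    have hz0 : z = 0 := by
      by_contra hz0
      apply hχ
      apply mem_of_inner_ne_zero hM B₀ hind.2.1 χ' hχ' χ
      rw [trunc_symm_int p (χ : G → ℂ) (χ' : G → ℂ) z hz]
      exact_mod_cast hz0
    have ht0 : t = 0 := by
      rw [hz0, mul_zero] at hrel
      rcases mul_eq_zero.mp hrel.symm with h' | h'
      · exact absurd h' (by exact_mod_cast (degree_pos χ').ne')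
      · exact h'
    rw [ht, ht0, Int.cast_zero, sub_zero] at hk
    have h2 := MemLocalIdeal.mul_left M (memLocalRing_inv_natCast hM hNH) hk
    rwa [← mul_assoc, inv_mul_cancel₀ hNH0, one_mul] at h2
  · intro hχ h0 hmem
    obtain ⟨n, hn, hn0, hnv⟩ := (Cfsg.Agent.S4426.result p M hM B₀ hind.2.1 χ hχ).2.mp h0 χ hχ
    have hn' : classInner (trunc p (χ : G → ℂ)) (χ : G → ℂ) = (n : ℂ) := hn
    obtain ⟨t, ht, hrel⟩ := exists_t p χ χ n hn'
    have hpt : ¬ (p : ℤ) ∣ t :=
      (cond_iff p (not_dvd_compl p) (degree_pos χ) hrel).mp ⟨hn0, hnv⟩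
    have hk := key hM H b B₀ hind χ ψ hψ χ hχ
    rw [ht] at hk
    apply hpt
    rw [← memLocalIdeal_intCast_iff hM]
    have h2 := MemLocalIdeal.mul_left M (memLocalRing_natCast M
      (Nat.card H / p ^ (Nat.card H).factorization p)) hmem
    have h3 := MemLocalIdeal.sub M h2 hk
    simpa using h3

end Cfsg.Agent.S4431
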