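import Cfsg.Statements.S4428
import Cfsg.Agent.S4431
import Cfsg.Agent.Lib.Helper25.Central
import Cfsg.Agent.Lib.Helper25.CharSum

set_option autoImplicit false
open Cfsg

namespace Cfsg.Agent.S4428

section aux

open Cfsg.Agent.Lib.Helper2 Cfsg.Agent.Lib.Helper25 Cfsg.Agent.S4426
open scoped ComplexConjugate

/-- a central element of prime power order multiplies the values of an irreducible character
by a root of unity of prime power order -/
theorem exists_omega {p : ℕ} {C : Type*} [Group C] [Finite C] (xc : C)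
    (hxc : xc ∈ Subgroup.center C) (k : ℕ) (hk : orderOf xc = p ^ k) (ψ : IrrCharacter C) :
    ∃ ω : ℂ, (∀ c : C, (ψ : C → ℂ) (xc * c) = ω * (ψ : C → ℂ) c) ∧ ω ^ (p ^ k) = 1 := by
  obtain ⟨n, ρ, hρ, hψ⟩ := ψ.2
  haveI := hρ
  obtain ⟨ω, hω⟩ := central_scalar ρ hρ xc hxc
  haveI : Nontrivial (Fin n → ℂ) := irr_nontrivial ρ
  refine ⟨ω, fun c => ?_, ?_⟩
  · rw [← hψ]; exact char_scalar_mul ρ hω c
  · rw [← hk]; exact scalar_pow_orderOf ρ hω

/-- truncation is linear -/
theorem trunc_sum {C : Type*} [Group C] [Fintype C] (p : ℕ) {ι : Type*} (s : Finset ι)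
    (c : ι → ℂ) (f : ι → C → ℂ) :
    trunc p (∑ i ∈ s, c i • f i) = ∑ i ∈ s, c i • trunc p (f i) := by
  funext y
  simp only [trunc, Finset.sum_apply, Pi.smul_apply, smul_eq_mul]
  split_ifs
  · simp
  · rw [Finset.mul_sum]
    apply Finset.sum_congr rfl
    intro i _
    ring

/-- the main computation on the centralizer, abstractly: `C` a finite group, `xc` a central
element of `p`-power order, `f` a character of `C`, `b` a block of `C`; if the `b`-part of
`c ↦ f (xc * c)` vanishes on the `p`-regular elements, then the truncated inner product of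
`f` with a member of `b`, divided by its degree, lies in the local ideal -/
theorem key {p : ℕ} [Fact p.Prime] {M : Ideal AlgInt} (hM : IsPModular p M)
    {C : Type*} [Group C] [Fintype C] (xc : C) (hxc : xc ∈ Subgroup.center C) (k : ℕ)
    (hk : orderOf xc = p ^ k) (f : C → ℂ) (hf : IsCharacter C f)
    (b : Set (IrrCharacter C)) (hb : IsPBlock M b) (ψ₀ : IrrCharacter C) (hψ₀ : ψ₀ ∈ b)
    [Fintype (IrrCharacter C)] [DecidablePred (· ∈ b)]
    (hall : ∀ y : C, ¬ p ∣ orderOf y →
      ∑ ψ : IrrCharacter C, (if ψ ∈ b then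
        classInner (fun c : C => f (xc * c)) (ψ : C → ℂ) * (ψ : C → ℂ) y else 0) = 0) :
    MemLocalIdeal M (classInner (trunc p f) (ψ₀ : C → ℂ) / (ψ₀ : C → ℂ) 1) := by
  classical
  haveI := isPrime_of_isPModular hM
  have hp : p.Prime := Fact.out
  have hfc : IsClassFunction C f := by
    exact isClassFunction_of_isCharacter hf
  -- multiplicities
  have hnat : ∀ ψ : IrrCharacter C, ∃ a : ℕ, classInner f (ψ : C → ℂ) = (a : ℂ) :=
    fun ψ => classInner_isCharacter_nat hf (isCharacter_of_isIrrCharacter ψ.2)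
  choose a ha using hnat
  have hexp : f = ∑ ψ : IrrCharacter C, (a ψ : ℂ) • (ψ : C → ℂ) := by
    have h := class_fun_expand f hfc
    rw [h]
    apply Finset.sum_congr rfl
    intro ψ _
    rw [ha ψ]
  -- the roots of unity
  have hom : ∀ ψ : IrrCharacter C, ∃ ω : ℂ,
      (∀ c : C, (ψ : C → ℂ) (xc * c) = ω * (ψ : C → ℂ) c) ∧ ω ^ (p ^ k) = 1 :=
    fun ψ => exists_omega xc hxc k hk ψ
  choose ω hω1 hω2 using hom
  -- the twisted function
  have htw : (fun c : C => f (xc * c))
      = ∑ ψ : IrrCharacter C, ((a ψ : ℂ) * ω ψ) • (ψ : C → ℂ) := by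
    funext c
    have h := congrFun hexp (xc * c)
    rw [h, Finset.sum_apply, Finset.sum_apply]
    apply Finset.sum_congr rfl
    intro ψ _
    simp only [Pi.smul_apply, smul_eq_mul]
    rw [hω1 ψ c]; ring
  have hinner : ∀ ψ : IrrCharacter C,
      classInner (fun c : C => f (xc * c)) (ψ : C → ℂ) = (a ψ : ℂ) * ω ψ := by
    intro ψ
    rw [htw, classInner_sum_left, Finset.sum_eq_single ψ]
    · rw [classInner_smul_left, classInner_irr_self ψ.2, mul_one]
    · intro ψ' _ hne
      rw [classInner_smul_left, classInner_irr_ne ψ'.2 ψ.2 (fun h => hne (Subtype.ext h)),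
        mul_zero]
    · intro h; exact absurd (Finset.mem_univ _) h
  -- integer values of the truncated inner products
  have hint : ∀ ψ : IrrCharacter C, ∃ z : ℤ,
      classInner (trunc p (ψ : C → ℂ)) (ψ₀ : C → ℂ) = (z : ℂ) := fun ψ => trunc_int p ψ ψ₀
  -- vanishing outside the block
  have hout : ∀ ψ : IrrCharacter C, ψ ∉ b →
      classInner (trunc p (ψ : C → ℂ)) (ψ₀ : C → ℂ) = 0 := by
    intro ψ hψ
    by_contra hne
    apply hψ
    apply mem_of_inner_ne_zero hM b hb ψ₀ hψ₀ ψ
    intro h0
    apply hne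
    rw [trunc_symm, h0, map_zero]
  -- the consequence of the vanishing
  have hzero : ∑ ψ : IrrCharacter C, (if ψ ∈ b then
      (a ψ : ℂ) * ω ψ * classInner (trunc p (ψ : C → ℂ)) (ψ₀ : C → ℂ) else 0) = 0 := by
    have h1 : ∀ ψ : IrrCharacter C, (if ψ ∈ b then
        (a ψ : ℂ) * ω ψ * classInner (trunc p (ψ : C → ℂ)) (ψ₀ : C → ℂ) else 0)
        = (Nat.card C : ℂ)⁻¹ * ∑ y : C, (if ψ ∈ b then
          (a ψ : ℂ) * ω ψ * trunc p (ψ : C → ℂ) y else 0) * conj ((ψ₀ : C → ℂ) y) := by
      intro ψ
      split_ifs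
      · rw [classInner_def, Finset.mul_sum, Finset.mul_sum, Finset.mul_sum]
        apply Finset.sum_congr rfl
        intro y _
        ring
      · simp
    rw [Finset.sum_congr rfl (fun ψ _ => h1 ψ), ← Finset.mul_sum, Finset.sum_comm]
    rw [Finset.sum_eq_zero, mul_zero]
    intro y _
    rw [← Finset.sum_mul]
    have h2 : ∑ ψ : IrrCharacter C, (if ψ ∈ b then
        (a ψ : ℂ) * ω ψ * trunc p (ψ : C → ℂ) y else 0) = 0 := by
      by_cases hy : p ∣ orderOf y
      · apply Finset.sum_eq_zero
        intro ψ _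
        simp [trunc, hy]
      · have h3 := hall y hy
        have h4 : ∀ ψ : IrrCharacter C, (if ψ ∈ b then
            (a ψ : ℂ) * ω ψ * trunc p (ψ : C → ℂ) y else 0)
            = ((p ^ (Nat.card C).factorization p : ℕ) : ℂ) * (if ψ ∈ b then
              classInner (fun c : C => f (xc * c)) (ψ : C → ℂ) * (ψ : C → ℂ) y else 0) := by
          intro ψ
          split_ifs
          · rw [hinner ψ]
            simp only [trunc, if_neg hy]
            ring
          · simp
        rw [Finset.sum_congr rfl (fun ψ _ => h4 ψ), ← Finset.mul_sum, h3, mul_zero]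
    rw [h2, zero_mul]
  -- the truncated inner product of `f`
  have htr : classInner (trunc p f) (ψ₀ : C → ℂ)
      = ∑ ψ : IrrCharacter C, (if ψ ∈ b then
        (a ψ : ℂ) * classInner (trunc p (ψ : C → ℂ)) (ψ₀ : C → ℂ) else 0) := by
    conv_lhs => rw [hexp]
    rw [trunc_sum, classInner_sum_left]
    apply Finset.sum_congr rfl
    intro ψ _
    rw [classInner_smul_left]
    split_ifs with hψ
    · rfl
    · rw [hout ψ hψ, mul_zero]
  have hdiff : classInner (trunc p f) (ψ₀ : C → ℂ) / (ψ₀ : C → ℂ) 1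
      = ∑ ψ : IrrCharacter C, (if ψ ∈ b then
        (a ψ : ℂ) * (-(ω ψ - 1)) *
          (classInner (trunc p (ψ : C → ℂ)) (ψ₀ : C → ℂ) / (ψ₀ : C → ℂ) 1) else 0) := by
    have h5 : classInner (trunc p f) (ψ₀ : C → ℂ)
        = ∑ ψ : IrrCharacter C, (if ψ ∈ b then
          (a ψ : ℂ) * (-(ω ψ - 1)) * classInner (trunc p (ψ : C → ℂ)) (ψ₀ : C → ℂ) else 0) := by
      rw [htr, ← sub_zero (∑ ψ : IrrCharacter C, (if ψ ∈ b then
        (a ψ : ℂ) * classInner (trunc p (ψ : C → ℂ)) (ψ₀ : C → ℂ) else 0)), ← hzero,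
        ← Finset.sum_sub_distrib]
      apply Finset.sum_congr rfl
      intro ψ _
      split_ifs
      · ring
      · ring
    rw [h5, Finset.sum_div]
    apply Finset.sum_congr rfl
    intro ψ _
    split_ifs
    · ring
    · simp
  rw [hdiff]
  apply memLocalIdeal_sum
  intro ψ _
  split_ifs with hψ
  · apply MemLocalIdeal.mul_right M
    · apply MemLocalIdeal.mul_left M (memLocalRing_natCast M _)
      exact MemLocalIdeal.neg M (memLocalIdeal_sub_one_of_pow hM (hω2 ψ))
    · obtain ⟨z, hz⟩ := hint ψ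
      obtain ⟨t, -, hrel⟩ := exists_t p ψ ψ₀ z hz
      obtain ⟨d, hd1, hdpos, -, hdeg⟩ := irr_degree ψ₀
      rw [hdeg] at hrel
      have hN := not_dvd_compl (G := C) p
      set N := Nat.card C / p ^ (Nat.card C).factorization p with hNdef
      have hN0 : (N : ℂ) ≠ 0 := by
        have : N ≠ 0 := by rintro h0; apply hN; rw [h0]; exact dvd_zero p
        exact_mod_cast this
      have hd0 : (d : ℂ) ≠ 0 := by exact_mod_cast hdpos.ne'
      have hrel' : (N : ℂ) * (z : ℂ) = (d : ℂ) * (t : ℂ) := by exact_mod_cast hrel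
      have e : classInner (trunc p (ψ : C → ℂ)) (ψ₀ : C → ℂ) / (ψ₀ : C → ℂ) 1
          = (t : ℂ) * ((N : ℂ))⁻¹ := by
        rw [hz, hd1]
        field_simp
        linear_combination hrel'
      rw [e]
      exact MemLocalRing.mul M (memLocalRing_intCast M t) (memLocalRing_inv_natCast hM hN)
  · exact memLocalIdeal_zero M

end aux

open Cfsg.Agent.Lib.Helper2 Cfsg.Agent.Lib.Helper25 Cfsg.Agent.S4426 in
/-- Let χ be an irreducible character of height zero in the p-block B of the finite group G (relative to a maximal ideal M of the algebraic integers containing p). Let x be a p-element of G with centralizer C, and let b be a block of C that induces B. Form the class function ϑ(c) = χ(x c) on C and its b-part (the sum over ψ ∈ b of the inner product of ϑ with ψ, times ψ). Then the b-part of ϑ does not vanish identically on the p-regular elements of C. (Compare the second main Theorem, which gives vanishing when b does not induce B.) -/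
theorem result {G : Type*} [Group G] [Finite G] (p : ℕ) [Fact p.Prime] (M : Ideal Cfsg.AlgInt) (hM : Cfsg.IsPModular p M) (B : Set (Cfsg.IrrCharacter G)) (hB : Cfsg.IsPBlock M B) (χ : Cfsg.IrrCharacter G) (hχ : χ ∈ B) (h0 : Cfsg.blockHeight p B (χ : G → ℂ) = 0) (x : G) (hx : ∃ k : ℕ, orderOf x = p ^ k) (b : Set (Cfsg.IrrCharacter (Subgroup.centralizer ({x} : Set G)))) (hb : Cfsg.IsInducedBlock M (Subgroup.centralizer ({x} : Set G)) b B) : ∃ y : Subgroup.centralizer ({x} : Set G), ¬ p ∣ orderOf y ∧ Cfsg.blockPart b (fun c : Subgroup.centralizer ({x} : Set G) => (χ : G → ℂ) (x * (c : G))) y ≠ 0 := by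
  classical
  haveI : Fintype G := Fintype.ofFinite G
  haveI : Fintype (IrrCharacter (Subgroup.centralizer ({x} : Set G))) := Fintype.ofFinite _
  obtain ⟨k, hk⟩ := hx
  by_contra hcon
  have hall : ∀ y : Subgroup.centralizer ({x} : Set G), ¬ p ∣ orderOf y →
      Cfsg.blockPart b (fun c : Subgroup.centralizer ({x} : Set G) =>
        (χ : G → ℂ) (x * (c : G))) y = 0 := by
    intro y hy
    by_contra h
    exact hcon ⟨y, hy, h⟩
  obtain ⟨ψ₀, hψ₀⟩ := isPBlock_nonempty hM hb.1
  have hxmem : x ∈ Subgroup.centralizer ({x} : Set G) := by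
    rw [Subgroup.mem_centralizer_iff]
    intro h hh
    rw [Set.mem_singleton_iff.mp hh]
  have hxc : (⟨x, hxmem⟩ : Subgroup.centralizer ({x} : Set G))
      ∈ Subgroup.center (Subgroup.centralizer ({x} : Set G)) := by
    rw [Subgroup.mem_center_iff]
    intro c
    apply Subtype.ext
    have hc := c.2
    rw [Subgroup.mem_centralizer_iff] at hc
    have := hc x rfl
    simp only [Subgroup.coe_mul]
    exact this.symm
  have hord : orderOf (⟨x, hxmem⟩ : Subgroup.centralizer ({x} : Set G)) = p ^ k := by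
    rw [← hk, ← Subgroup.orderOf_coe]
  have hkey := @key p _ M hM (Subgroup.centralizer ({x} : Set G)) _ (Fintype.ofFinite _)
    ⟨x, hxmem⟩ hxc k hord
    (fun c : Subgroup.centralizer ({x} : Set G) => (χ : G → ℂ) c)
    (IsCharacter.restrict (isCharacter_of_isIrrCharacter χ.2) _) b hb.1 ψ₀ hψ₀ _ _
    (by
      intro y hy
      have h1 := hall y hy
      unfold blockPart at h1
      rw [finsum_mem_eq_sum_indicator] at h1
      refine Eq.trans ?_ h1
      apply Finset.sum_congr rfl
      intro ψ _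
      rw [Set.indicator_apply]
      rfl)
  exact (@Cfsg.Agent.S4431.result G _ _ p _ M hM (Subgroup.centralizer ({x} : Set G))
    (Fintype.ofFinite _) b B hb χ ψ₀ hψ₀).2 hχ h0 hkey

end Cfsg.Agent.S4428
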