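import Cfsg.Statements.S0926
import Cfsg.Agent.S4428
import Cfsg.Agent.S0958
import Cfsg.Agent.S0924
import Cfsg.Agent.S0925
import Cfsg.Agent.Lib.Helper25.BrauerPair8

set_option autoImplicit false
open Cfsg

namespace Cfsg.Agent.S0926

open Cfsg.Agent.Lib.Helper2 Cfsg.Agent.Lib.Helper25 in
/-- Let B be a block of the finite group G with defect group D (relative to a maximal ideal M of the algebraic integers containing p), let χ ∈ B have height zero, and let x be a p-element. Then some conjugate of x lies in D if and only if χ does not vanish on the whole p-section of x (the elements whose p-part is conjugate to x). -/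
theorem result {G : Type*} [Group G] [Finite G] (p : ℕ) [Fact p.Prime] (M : Ideal Cfsg.AlgInt) (hM : Cfsg.IsPModular p M) (B : Set (Cfsg.IrrCharacter G)) (hB : Cfsg.IsPBlock M B) (D : Subgroup G) (hD : Cfsg.IsDefectGroup p M B D) (χ : Cfsg.IrrCharacter G) (hχ : χ ∈ B) (h0 : Cfsg.blockHeight p B (χ : G → ℂ) = 0) (x : G) (hx : ∃ k : ℕ, orderOf x = p ^ k) : (∃ g : G, g * x * g⁻¹ ∈ D) ↔ ∃ u : G, (∃ z : G, Cfsg.IsPPart p u z ∧ IsConj x z) ∧ (χ : G → ℂ) u ≠ 0 := by
  classical
  haveI : Fintype G := Fintype.ofFinite G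
  haveI := isPrime_of_isPModular hM
  have hBeq : B = blockOf M (χ : G → ℂ) :=
    isPBlock_eq_of_mem hM hB ⟨χ, rfl⟩ hχ (sameBlock_refl M _)
  have hxmem : x ∈ Subgroup.centralizer ({x} : Set G) := by
    rw [Subgroup.mem_centralizer_iff]
    intro h hh
    rw [Set.mem_singleton_iff.mp hh]
  constructor
  · rintro ⟨g, hg⟩
    have hP : IsPGroup p (Subgroup.zpowers x) := by
      obtain ⟨k, hk⟩ := hx
      exact IsPGroup.of_card (n := k) (by rw [Nat.card_zpowers, hk])
    have hcent : Subgroup.centralizer ({x} : Set G)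
        = Subgroup.centralizer ((Subgroup.zpowers x : Subgroup G) : Set G) :=
      Cfsg.Agent.Lib.Helper8.centralizer_singleton_eq_zpowers x
    have hPH : Subgroup.zpowers x ⊔ Subgroup.centralizer ((Subgroup.zpowers x : Subgroup G) : Set G)
        ≤ Subgroup.centralizer ({x} : Set G) := by
      rw [← hcent]
      apply sup_le _ le_rfl
      rw [Subgroup.zpowers_le]
      exact hxmem
    have hHN : Subgroup.centralizer ({x} : Set G)
        ≤ Subgroup.normalizer ((Subgroup.zpowers x : Subgroup G) : Set G) := by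
      rw [hcent]
      exact Subgroup.centralizer_le_normalizer _
    have hmap : (Subgroup.zpowers x).map (MulAut.conj g).toMonoidHom ≤ D := by
      rw [Subgroup.map_le_iff_le_comap, Subgroup.zpowers_le, Subgroup.mem_comap]
      simpa using hg
    obtain ⟨b, hb⟩ := (Cfsg.Agent.S0958.result p M hM (Subgroup.zpowers x)
      (Subgroup.centralizer ({x} : Set G)) hP hPH hHN B hB).mpr ⟨D, hD, g, hmap⟩
    obtain ⟨y, hy, hne⟩ := Cfsg.Agent.S4428.result p M hM B hB χ hχ h0 x hx b hb
    by_contra hcon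
    have hvan : ∀ c : Subgroup.centralizer ({x} : Set G), ¬ p ∣ orderOf c →
        (χ : G → ℂ) (x * (c : G)) = 0 := by
      intro c hc
      by_contra h
      apply hcon
      refine ⟨x * (c : G), ⟨x, ⟨(c : G), rfl, ?_, hx, ?_⟩, IsConj.refl x⟩, h⟩
      · exact Subgroup.mem_centralizer_iff.mp c.2 x rfl
      · rwa [Subgroup.orderOf_coe]
    apply hne
    have hcf : IsClassFunction (Subgroup.centralizer ({x} : Set G))
        (fun c : Subgroup.centralizer ({x} : Set G) => (χ : G → ℂ) (x * (c : G))) := by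
      intro c h
      have hχc := isClassFunction_of_isIrrCharacter χ.2
      have hcomm : x * (h : G) = (h : G) * x := Subgroup.mem_centralizer_iff.mp h.2 x rfl
      have e : x * ((h * c * h⁻¹ : Subgroup.centralizer ({x} : Set G)) : G)
          = (h : G) * (x * (c : G)) * (h : G)⁻¹ := by
        simp only [Subgroup.coe_mul, Subgroup.coe_inv]
        rw [← mul_assoc, ← mul_assoc, hcomm]
        group
      change (χ : G → ℂ) (x * ((h * c * h⁻¹ : Subgroup.centralizer ({x} : Set G)) : G))
        = (χ : G → ℂ) (x * (c : G))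
      rw [e, hχc]
    exact (Cfsg.Agent.S0925.result (G := Subgroup.centralizer ({x} : Set G)) p M hM).1
      (fun c : Subgroup.centralizer ({x} : Set G) => (χ : G → ℂ) (x * (c : G))) hcf 1
      ⟨0, by simp⟩
      (by
        intro u z hz hconj
        have hz1 : z = 1 := isConj_one_right.mp hconj
        subst hz1
        obtain ⟨w, hw, -, -, hwo⟩ := hz
        rw [one_mul] at hw
        subst hw
        exact hvan w hwo)
      b hb.1 y 1 ⟨y, one_mul y, Commute.one_left y, ⟨0, by simp⟩, hy⟩ (IsConj.refl 1)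
  · rintro ⟨u, ⟨z, hz, hconj⟩, hne⟩
    have hex : ∃ D' : Subgroup G, IsDefectGroup p M (blockOf M (χ : G → ℂ)) D' ∧ z ∈ D' := by
      by_contra hno
      apply hne
      exact Cfsg.Agent.S0924.result p M hM χ u z hz (fun D' hD' hzD' => hno ⟨D', hD', hzD'⟩)
    obtain ⟨D', hD', hzD'⟩ := hex
    rw [← hBeq] at hD'
    obtain ⟨t, ht⟩ := defectGroup_conj hM hB hD' hD
    rw [ht] at hzD'
    obtain ⟨d, hd, hdz⟩ := Subgroup.mem_map.mp hzD'
    obtain ⟨c, hc⟩ := isConj_iff.mp hconj
    refine ⟨t⁻¹ * c, ?_⟩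
    have hdz' : t * d * t⁻¹ = z := by simpa using hdz
    have e : t⁻¹ * c * x * (t⁻¹ * c)⁻¹ = d := by
      have : c * x * c⁻¹ = t * d * t⁻¹ := by rw [hc, hdz']
      calc t⁻¹ * c * x * (t⁻¹ * c)⁻¹ = t⁻¹ * (c * x * c⁻¹) * t := by group
        _ = t⁻¹ * (t * d * t⁻¹) * t := by rw [this]
        _ = d := by group
    rw [e]
    exact hd

end Cfsg.Agent.S0926
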