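import Cfsg.Statements.S0928
import Cfsg.Agent.Lib.Helper8.ThirdMain
import Cfsg.Agent.Lib.Helper8.DefectCentral
import Cfsg.Agent.Lib.Helper8.DefectLocal
import Cfsg.Agent.Lib.Helper8.DefectNum
import Cfsg.Agent.Lib.Helper8.BlockRing
import Cfsg.Agent.Lib.Helper25.Codegree
import Cfsg.Agent.Lib.Helper25.Quot
import Cfsg.Agent.Lib.Helper25.Central
import Cfsg.Agent.S0908
import Cfsg.Agent.S0914

set_option autoImplicit false
open Cfsg

namespace Cfsg.Agent.S0928

open Cfsg Cfsg.Agent.Lib.Helper2 Cfsg.Agent.Lib.Helper25 Cfsg.Agent.Lib.Helper8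


open Classical in
/-- indicator of the elements with `h ^ p = 1` -/
noncomputable def powInd (K : Type*) [Group K] (p : ℕ) : K → ℂ :=
  fun h : K => if h ^ p = 1 then (1 : ℂ) else 0

theorem powInd_of {K : Type*} [Group K] {p : ℕ} {h : K} (hh : h ^ p = 1) : powInd K p h = 1 := by
  unfold powInd
  rw [if_pos hh]

theorem powInd_of_not {K : Type*} [Group K] {p : ℕ} {h : K} (hh : ¬ h ^ p = 1) :
    powInd K p h = 0 := by
  unfold powInd
  rw [if_neg hh]

theorem powInd_congr {K L : Type*} [Group K] [Group L] {p : ℕ} {h : K} {l : L}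
    (e : h ^ p = 1 ↔ l ^ p = 1) : powInd K p h = powInd L p l := by
  by_cases hh : h ^ p = 1
  · rw [powInd_of hh, powInd_of (e.mp hh)]
  · rw [powInd_of_not hh, powInd_of_not (fun h' => hh (e.mpr h'))]

theorem powInd_mem {K : Type*} [Group K] (p : ℕ) (M : Ideal AlgInt) [M.IsPrime] (h : K) :
    MemLocalRing M (powInd K p h) := by
  by_cases hh : h ^ p = 1
  · rw [powInd_of hh]; exact memLocalRing_one M
  · rw [powInd_of_not hh]; exact memLocalRing_zero M

theorem powInd_class (K : Type*) [Group K] (p : ℕ) : IsClassFunction K (powInd K p) := by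
  intro g h
  apply powInd_congr
  rw [conj_pow]
  constructor
  · intro h'
    have : g ^ p = h⁻¹ * (h * g ^ p * h⁻¹) * h := by group
    rw [this, h']; group
  · intro h'
    rw [h']; group

/-- for a central element `x` of order `p`, the central character of an irreducible character
at the sum of the elements with `h ^ p = 1` lies in the local ideal -/
theorem omega_pow_mem {K : Type*} [Group K] [Fintype K] (p : ℕ) [Fact p.Prime]
    (M : Ideal AlgInt) (hM : IsPModular p M) (x : K) (hx : x ∈ Subgroup.center K)
    (hxo : orderOf x = p) (ξ : IrrCharacter K) :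
    MemLocalIdeal M (omegaFun (ξ : K → ℂ) (powInd K p)) := by
  classical
  have hpr := isPrime_of_isPModular hM
  have hp : p.Prime := Fact.out
  set r : K → ℂ := powInd K p with hr
  obtain ⟨n, ρ, hρ, hχ⟩ := ξ.2
  obtain ⟨ω, hω⟩ := central_scalar ρ hρ x hx
  have hxp : x ^ p = 1 := by rw [← hxo]; exact pow_orderOf_eq_one x
  have hcomm : ∀ h : K, Commute x h := fun h => (Subgroup.mem_center_iff.mp hx h).symm
  have hr_mul : ∀ h : K, r (x * h) = r h := by
    intro h
    have e : (x * h) ^ p = h ^ p := by
      rw [(hcomm h).mul_pow, hxp, one_mul]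
    rw [hr]
    apply powInd_congr
    rw [e]
  have hξ_mul : ∀ h : K, (ξ : K → ℂ) (x * h) = ω * (ξ : K → ℂ) h := by
    intro h
    rw [← hχ]
    exact char_scalar_mul ρ hω h
  have hS : ∑ h : K, r h * (ξ : K → ℂ) h = ω * ∑ h : K, r h * (ξ : K → ℂ) h := by
    conv_lhs => rw [← Equiv.sum_comp (Equiv.mulLeft x)]
    rw [Finset.mul_sum]
    apply Finset.sum_congr rfl
    intro h _
    simp only [Equiv.coe_mulLeft]
    rw [hr_mul, hξ_mul]
    ring
  by_cases hω1 : ω = 1
  · -- `x` lies in the kernel: pass to the quotient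
    have hρx : ρ x = 1 := by rw [hω, hω1, one_smul]
    set N : Subgroup K := Subgroup.zpowers x with hN
    have hNc : N ≤ Subgroup.center K := by
      rw [hN, Subgroup.zpowers_le]
      exact hx
    have hNn : N.Normal := by
      constructor
      intro n hn g
      have : g * n * g⁻¹ = n := by
        have := Subgroup.mem_center_iff.mp (hNc hn) g
        rw [this, mul_inv_cancel_right]
      rw [this]
      exact hn
    have hNp : ∀ n ∈ N, n ^ p = 1 := by
      intro n hn
      obtain ⟨k, rfl⟩ := Subgroup.mem_zpowers_iff.mp hn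
      rw [← zpow_natCast, ← zpow_mul, mul_comm, zpow_mul, zpow_natCast, hxp, one_zpow]
    have hker : ∀ n ∈ N, (ξ : K → ℂ) n = (ξ : K → ℂ) 1 := by
      intro n hn
      have hle : N ≤ MonoidHom.ker ρ := by
        rw [hN, Subgroup.zpowers_le]
        exact MonoidHom.mem_ker.mpr hρx
      have hn1 : ρ n = 1 := MonoidHom.mem_ker.mp (hle hn)
      rw [← hχ]
      unfold Representation.character
      have e1 : ρ 1 = 1 := map_one ρ
      rw [hn1, e1]
    obtain ⟨ψ, hψ, hψξ⟩ := deflate_irr N ξ.2 hker
    have : Fintype (K ⧸ N) := Fintype.ofFinite _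
    set rb : K ⧸ N → ℂ := fun t => if ∃ h : K, h ^ p = 1 ∧ (h : K ⧸ N) = t then (1 : ℂ) else 0
      with hrb
    have hrr : ∀ h : K, r h = rb (h : K ⧸ N) := by
      intro h
      by_cases hh : h ^ p = 1
      · have h2 : ∃ h' : K, h' ^ p = 1 ∧ (h' : K ⧸ N) = (h : K ⧸ N) := ⟨h, hh, rfl⟩
        rw [hr, powInd_of hh]
        simp only [hrb, h2, if_true]
      · have h2 : ¬ ∃ h' : K, h' ^ p = 1 ∧ (h' : K ⧸ N) = (h : K ⧸ N) := by
          rintro ⟨h', hh', he⟩
          apply hh
          have hmem : h'⁻¹ * h ∈ N := QuotientGroup.eq.mp he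
          have e : h = h' * (h'⁻¹ * h) := by group
          rw [e, (show Commute h' (h'⁻¹ * h) from Subgroup.mem_center_iff.mp (hNc hmem) h').mul_pow,
            hh', hNp _ hmem, one_mul]
        rw [hr, powInd_of_not hh]
        simp only [hrb, h2, if_false]
    have hcl : IsClassFunction (K ⧸ N) rb := by
      intro t s
      obtain ⟨a, rfl⟩ := QuotientGroup.mk_surjective t
      obtain ⟨b, rfl⟩ := QuotientGroup.mk_surjective s
      have e1 : ((b : K ⧸ N) * (a : K ⧸ N) * (b : K ⧸ N)⁻¹) = ((b * a * b⁻¹ : K) : K ⧸ N) := by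
        simp
      rw [e1, ← hrr, ← hrr, hr]
      exact powInd_class K p a b
    have hsum : ∑ h : K, r h * (ξ : K → ℂ) h
        = (Nat.card N : ℂ) * ∑ t : K ⧸ N, rb t * ψ t := by
      rw [← sum_comp_mk N (fun t => rb t * ψ t)]
      apply Finset.sum_congr rfl
      intro h _
      rw [hrr, hψξ]
    have hcard : Nat.card N = p := by rw [hN, Nat.card_zpowers, hxo]
    have h1 : (ξ : K → ℂ) 1 = ψ 1 := by
      have := hψξ 1
      rw [← this]
      rfl
    have hfin : omegaFun (ξ : K → ℂ) r = (p : ℂ) * omegaFun ψ rb := by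
      unfold omegaFun
      rw [hsum, hcard, h1, mul_div_assoc]
    rw [hfin]
    apply MemLocalIdeal.mul_right M (memLocalIdeal_p hM)
    apply omegaFun_memLocalRing hM ⟨ψ, hψ⟩ rb hcl
    intro t
    simp only [hrb]
    split_ifs
    · exact memLocalRing_one M
    · exact memLocalRing_zero M
  · have h0 : ∑ h : K, r h * (ξ : K → ℂ) h = 0 := by
      have h3 : (1 - ω) * ∑ h : K, r h * (ξ : K → ℂ) h = 0 := by
        rw [sub_mul, one_mul, ← hS, sub_self]
      rcases mul_eq_zero.mp h3 with h | h
      · exact absurd (sub_eq_zero.mp h).symm hω1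
      · exact h
    unfold omegaFun
    rw [h0, zero_div]
    exact memLocalIdeal_zero M

/-- Let χ be an irreducible character of the finite group G and p a prime. If χ g = 0 for every element g of order p, then the exponent of p in the degree χ(1) equals the exponent of p in the order of G (χ has p-defect zero). -/
theorem result {G : Type*} [Group G] [Finite G] (p : ℕ) [Fact p.Prime] (χ : Cfsg.IrrCharacter G) (hvan : ∀ g : G, orderOf g = p → (χ : G → ℂ) g = 0) : (Cfsg.charDegree (χ : G → ℂ)).factorization p = (Nat.card G).factorization p := by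
  classical
  have hp : p.Prime := Fact.out
  have : Fintype G := Fintype.ofFinite G
  obtain ⟨M, hM⟩ := exists_isPModular p hp
  have hpr := isPrime_of_isPModular hM
  set B : Set (IrrCharacter G) := blockOf M (χ : G → ℂ) with hBdef
  have hB : IsPBlock M B := ⟨χ, rfl⟩
  have hχB : χ ∈ B := sameBlock_refl M _
  obtain ⟨D, hD⟩ := exists_defectGroup' hM B hB
  have hcardD := Cfsg.Agent.S0908.result p M hM B hB D hD
  obtain ⟨m, hm1, -, hm3, -⟩ := block_min_data hM hB
  obtain ⟨d, hd, hdeg, hdpos, hdvd, -⟩ := Cfsg.Agent.S0914.irr_degree_data χ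
  have hle : (charDegree (χ : G → ℂ)).factorization p ≤ (Nat.card G).factorization p := by
    rw [hdeg]
    exact (Nat.factorization_le_iff_dvd hdpos.ne' Nat.card_pos.ne').mpr hdvd p
  by_cases hd0 : blockDefect p B = 0
  · have := hm1 χ hχB
    omega
  · exfalso
    -- a central element of order `p` of the defect group
    have hDp : IsPGroup p D := isPGroup_of_isDefectGroup hD
    have hDnt : Nontrivial D := by
      rw [← Finite.one_lt_card_iff_nontrivial, hcardD]
      exact Nat.one_lt_pow hd0 hp.one_lt
    have hZnt : Nontrivial (Subgroup.center D) := hDp.center_nontrivial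
    have hZp : IsPGroup p (Subgroup.center D) := hDp.to_subgroup _
    have hdvdZ : p ∣ Nat.card (Subgroup.center D) := by
      obtain ⟨k, hk⟩ := hZp.exists_card_eq
      have h1 : 1 < Nat.card (Subgroup.center D) := Finite.one_lt_card
      rw [hk] at h1 ⊢
      have hk0 : k ≠ 0 := by
        rintro rfl
        simp at h1
      exact dvd_pow_self p hk0
    obtain ⟨z, hz⟩ := exists_prime_orderOf_dvd_card' p hdvdZ
    set x : G := ((z : D) : G) with hxdef
    have hxo : orderOf x = p := by
      rw [hxdef, Subgroup.orderOf_coe, Subgroup.orderOf_coe]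
      exact hz
    have hxD : x ∈ D := (z : D).2
    set H : Subgroup G := D ⊔ Subgroup.centralizer (D : Set G) with hH
    have : Fintype H := Fintype.ofFinite H
    have hHx : ∀ h ∈ H, h * x = x * h := by
      have hle1 : H ≤ Subgroup.centralizer ({x} : Set G) := by
        rw [hH]
        apply sup_le
        · intro u hu
          rw [Subgroup.mem_centralizer_singleton_iff]
          have := Subgroup.mem_center_iff.mp z.2 ⟨u, hu⟩
          have h2 := congrArg (Subtype.val : D → G) this
          simpa using h2
        · intro u hu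
          rw [Subgroup.mem_centralizer_singleton_iff]
          exact (Subgroup.mem_centralizer_iff.mp hu x hxD).symm
      intro h hh
      exact Subgroup.mem_centralizer_singleton_iff.mp (hle1 hh)
    have hxH : x ∈ H := (le_sup_left : D ≤ H) hxD
    obtain ⟨b, hind, -⟩ := exists_block_sup_centralizer hM B hB D hD
    obtain ⟨ξ, hξ⟩ := isPBlock_nonempty' hM hind.1
    set r : G → ℂ := powInd G p with hr
    have hrcl : IsClassFunction G r := powInd_class G p
    have hrR : ∀ g, MemLocalRing M (r g) := fun g => powInd_mem p M g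
    have h1 := omegaFun_restrict_sub_mem hM H b B hind ξ hξ χ hχB r hrcl hrR
    have h2 : omegaFun (χ : G → ℂ) r = 1 := by
      unfold omegaFun
      have hne := irr_one_ne_zero χ.2
      rw [Finset.sum_eq_single (1 : G)]
      · rw [hr, powInd_of (one_pow p), one_mul]
        exact div_self hne
      · intro g _ hg1
        by_cases hg : g ^ p = 1
        · have hgo : orderOf g = p := by
            have hdvd := orderOf_dvd_of_pow_eq_one hg
            rcases (Nat.dvd_prime hp).mp hdvd with h | h
            · exact absurd (orderOf_eq_one_iff.mp h) hg1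
            · exact h
          rw [hvan g hgo, mul_zero]
        · rw [hr, powInd_of_not hg, zero_mul]
      · intro h
        exact absurd (Finset.mem_univ _) h
    have h3 : (fun h : H => r h) = powInd H p := by
      funext h
      rw [hr]
      apply powInd_congr
      rw [← Subgroup.coe_pow, OneMemClass.coe_eq_one]
    have hxc : (⟨x, hxH⟩ : H) ∈ Subgroup.center H := by
      rw [Subgroup.mem_center_iff]
      intro h
      apply Subtype.ext
      simp only [Subgroup.coe_mul]
      exact hHx h h.2
    have hxo' : orderOf (⟨x, hxH⟩ : H) = p := by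
      rw [← hxo, ← Subgroup.orderOf_coe]
    have h4 := omega_pow_mem p M hM (⟨x, hxH⟩ : H) hxc hxo' ξ
    rw [h3, h2] at h1
    have h5 := MemLocalIdeal.sub M h4 h1
    rw [sub_sub_cancel] at h5
    exact not_memLocalIdeal_one M h5

end Cfsg.Agent.S0928
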