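import Mathlib
import Cfsg.Statements.S0935
import Cfsg.Agent.Lib.Helper8.HeightZero

set_option autoImplicit false
open Cfsg

namespace Cfsg.Agent.S0935

open Cfsg.Agent.Lib.Helper8 Cfsg.Agent.Lib.Helper2 Cfsg.Agent.Lib.Helper25

/-- Let H be a subgroup of the finite group G and χ an irreducible character of G whose restriction to H is irreducible; fix a maximal ideal M of the algebraic integers containing the prime p and suppose χ and its restriction have height zero in their blocks B and b. If e is a block of H whose induced block is defined, then e induces B if and only if e = b. -/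
theorem result {G : Type*} [Group G] [Finite G] (p : ℕ) [Fact p.Prime] (M : Ideal Cfsg.AlgInt) (hM : Cfsg.IsPModular p M) (H : Subgroup G) (χ : Cfsg.IrrCharacter G) (hres : Cfsg.IsIrrCharacter H (fun h : H => (χ : G → ℂ) h)) (hχ0 : Cfsg.blockHeight p (Cfsg.blockOf M (χ : G → ℂ)) (χ : G → ℂ) = 0) (hψ0 : Cfsg.blockHeight p (Cfsg.blockOf M (fun h : H => (χ : G → ℂ) h)) (fun h : H => (χ : G → ℂ) h) = 0) (e : Set (Cfsg.IrrCharacter H)) (he : Cfsg.InducedBlockDefined M H e) : Cfsg.IsInducedBlock M H e (Cfsg.blockOf M (χ : G → ℂ)) ↔ e = Cfsg.blockOf M (fun h : H => (χ : G → ℂ) h) := by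
  classical
  have : Fintype G := Fintype.ofFinite G
  have : Fintype H := Fintype.ofFinite H
  have hpr := isPrime_of_isPModular hM
  let ψ : IrrCharacter H := ⟨fun h : H => (χ : G → ℂ) h, hres⟩
  have hψdef : (ψ : H → ℂ) = fun h : H => (χ : G → ℂ) h := rfl
  have hrcf : IsClassFunction G (regConj p (χ : G → ℂ)) :=
    regConj_isClassFunction (isClassFunction_of_isIrrCharacter χ.2)
  have hrest : (fun h : H => regConj p (χ : G → ℂ) h) = regConj p (ψ : H → ℂ) :=
    regConj_restrict H _
  -- the test function detects the block of `χ`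
  have factG : ∀ χ' : IrrCharacter G, χ' ∈ blockOf M (χ : G → ℂ) ↔
      ¬ MemLocalIdeal M (omegaFun (χ' : G → ℂ) (regConj p (χ : G → ℂ))) := by
    intro χ'
    constructor
    · intro h' hmem
      obtain ⟨e₀, m, h1, h2, h3⟩ := heightZero_data (blockOf M (χ : G → ℂ)) χ hχ0
      apply heightZero_not_mem hM χ e₀ m h1 h2 h3
      have h4 := omegaFun_sub_mem hM χ χ' h' _ hrcf (regConj_memLocalRing hM χ)
      have := MemLocalIdeal.add M h4 hmem
      rwa [sub_add_cancel] at this
    · intro h'
      by_contra hn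
      apply h'
      rw [omegaFun_regConj_eq_zero hM χ χ' hn]
      exact memLocalIdeal_zero M
  have hrHcf : IsClassFunction H (regConj p (ψ : H → ℂ)) :=
    regConj_isClassFunction (isClassFunction_of_isIrrCharacter ψ.2)
  have factH : ∀ ξ : IrrCharacter H, ξ ∈ blockOf M (ψ : H → ℂ) ↔
      ¬ MemLocalIdeal M (omegaFun (ξ : H → ℂ) (regConj p (ψ : H → ℂ))) := by
    intro ξ
    constructor
    · intro h' hmem
      obtain ⟨e₀, m, h1, h2, h3⟩ := heightZero_data (blockOf M (ψ : H → ℂ)) ψ hψ0
      apply heightZero_not_mem hM ψ e₀ m h1 h2 h3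
      have h4 := omegaFun_sub_mem hM ψ ξ h' _ hrHcf (regConj_memLocalRing hM ψ)
      have := MemLocalIdeal.add M h4 hmem
      rwa [sub_add_cancel] at this
    · intro h'
      by_contra hn
      apply h'
      rw [omegaFun_regConj_eq_zero hM ψ ξ hn]
      exact memLocalIdeal_zero M
  have key : ∀ (B : Set (IrrCharacter G)), IsInducedBlock M H e B → ∀ ξ ∈ e, ∀ χ' ∈ B,
      MemLocalIdeal M (omegaFun (ξ : H → ℂ) (regConj p (ψ : H → ℂ))
        - omegaFun (χ' : G → ℂ) (regConj p (χ : G → ℂ))) := by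
    intro B hind ξ hξ χ' hχ'
    have h1 := omegaFun_restrict_sub_mem hM H e B hind ξ hξ χ' hχ' (regConj p (χ : G → ℂ))
      hrcf (regConj_memLocalRing hM χ)
    rwa [hrest] at h1
  have hχself : χ ∈ blockOf M (χ : G → ℂ) := sameBlock_refl M _
  have hψself : ψ ∈ blockOf M (ψ : H → ℂ) := sameBlock_refl M _
  change IsInducedBlock M H e (blockOf M (χ : G → ℂ)) ↔ e = blockOf M (ψ : H → ℂ)
  constructor
  · intro hind
    obtain ⟨ξ₀, hb⟩ := hind.1
    have hξ₀ : ξ₀ ∈ e := by rw [hb]; exact sameBlock_refl M _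
    have h1 := key _ hind ξ₀ hξ₀ χ hχself
    have h2 : ξ₀ ∈ blockOf M (ψ : H → ℂ) := by
      rw [factH]
      intro hmem
      apply (factG χ).mp hχself
      have h3 := MemLocalIdeal.sub M hmem h1
      rwa [sub_sub_cancel] at h3
    rw [hb]
    exact (blockOf_eq_of_mem hM h2).symm
  · intro hb
    obtain ⟨B, hind⟩ := he
    obtain ⟨χ₀, hB⟩ := hind.2.1
    have hχ₀ : χ₀ ∈ B := by rw [hB]; exact sameBlock_refl M _
    have hψe : ψ ∈ e := by rw [hb]; exact hψself
    have h1 := key B hind ψ hψe χ₀ hχ₀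
    have h2 : χ₀ ∈ blockOf M (χ : G → ℂ) := by
      rw [factG]
      intro hmem
      apply (factH ψ).mp hψself
      have h3 := MemLocalIdeal.add M h1 hmem
      rwa [sub_add_cancel] at h3
    have h3 : B = blockOf M (χ : G → ℂ) := by
      rw [hB]
      exact (blockOf_eq_of_mem hM h2).symm
    rw [← h3]
    exact hind

end Cfsg.Agent.S0935
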