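import Mathlib
import Cfsg.Statements.S0937
import Cfsg.Agent.Lib.Helper8.HeightZero

set_option autoImplicit false
open Cfsg

namespace Cfsg.Agent.S0937

open Cfsg.Agent.Lib.Helper8 Cfsg.Agent.Lib.Helper2 Cfsg.Agent.Lib.Helper25

/-- Let H be a subgroup of the finite group G and fix a maximal ideal M of the algebraic integers containing the prime p. If the block b of H induces the block B of G and χ ∈ B has height zero, then there is ξ ∈ b of height zero whose multiplicity in the restriction of χ to H is a natural number not divisible by p. -/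
theorem result {G : Type*} [Group G] [Fintype G] (p : ℕ) [Fact p.Prime] (M : Ideal Cfsg.AlgInt) (hM : Cfsg.IsPModular p M) (H : Subgroup G) [Fintype H] (b : Set (Cfsg.IrrCharacter H)) (B : Set (Cfsg.IrrCharacter G)) (hind : Cfsg.IsInducedBlock M H b B) (χ : Cfsg.IrrCharacter G) (hχ : χ ∈ B) (h0 : Cfsg.blockHeight p B (χ : G → ℂ) = 0) : ∃ ξ ∈ b, Cfsg.blockHeight p b (ξ : H → ℂ) = 0 ∧ ∃ n : ℕ, Cfsg.classInner (fun h : H => (χ : G → ℂ) h) (ξ : H → ℂ) = (n : ℂ) ∧ ¬ p ∣ n := by
  classical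
  have : Fintype (IrrCharacter H) := Fintype.ofFinite _
  have hpr := isPrime_of_isPModular hM
  have hne := card_ne_zero_complex H
  -- the block of `χ`
  obtain ⟨χ₀, hB⟩ := hind.2.1
  have hBχ : B = blockOf M (χ : G → ℂ) := by
    rw [hB]
    rw [hB] at hχ
    exact blockOf_eq_of_mem hM hχ
  obtain ⟨e₀, m, h1, h2, h3⟩ := heightZero_data B χ h0
  have hw₀ : ¬ MemLocalIdeal M (omegaFun (χ : G → ℂ) (regConj p (χ : G → ℂ))) :=
    heightZero_not_mem hM χ e₀ m h1 h2 (fun χ' hχ' => h3 χ' (by rw [hBχ]; exact hχ'))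
  have hrcf : IsClassFunction G (regConj p (χ : G → ℂ)) :=
    regConj_isClassFunction (isClassFunction_of_isIrrCharacter χ.2)
  obtain ⟨ξ₀, hb⟩ := hind.1
  have hξ₀ : ξ₀ ∈ b := by rw [hb]; exact sameBlock_refl M _
  have h4 := omegaFun_restrict_sub_mem hM H b B hind ξ₀ hξ₀ χ hχ (regConj p (χ : G → ℂ))
    hrcf (regConj_memLocalRing hM χ)
  rw [regConj_restrict] at h4
  have h5 : ¬ MemLocalIdeal M (omegaFun (ξ₀ : H → ℂ)
      (regConj p (fun h : H => (χ : G → ℂ) h))) := by
    intro hmem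
    apply hw₀
    have := MemLocalIdeal.sub M hmem h4
    rwa [sub_sub_cancel] at this
  -- multiplicities
  have hres : IsCharacter H (fun h : H => (χ : G → ℂ) h) :=
    IsCharacter.restrict (isCharacter_of_isIrrCharacter χ.2) H
  have hnat : ∀ ξ : IrrCharacter H, ∃ n : ℕ,
      classInner (fun h : H => (χ : G → ℂ) h) (ξ : H → ℂ) = (n : ℂ) :=
    fun ξ => classInner_isCharacter_nat hres (isCharacter_of_isIrrCharacter ξ.2)
  choose n hn using hnat
  have hexp := class_fun_expand (fun h : H => (χ : G → ℂ) h) (isClassFunction_of_isCharacter hres)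
  have e1 : ∀ k : H, regConj p (fun h : H => (χ : G → ℂ) h) k
      = ∑ ξ : IrrCharacter H, (n ξ : ℂ) * regConj p (ξ : H → ℂ) k := by
    intro k
    unfold regConj
    split_ifs with hk
    · simp
    · have e2 := congrFun hexp k
      rw [Finset.sum_apply] at e2
      show (starRingEnd ℂ) ((χ : G → ℂ) (k : G)) = _
      rw [e2, map_sum]
      apply Finset.sum_congr rfl
      intro ξ _
      rw [Pi.smul_apply, smul_eq_mul, map_mul, hn ξ, Complex.conj_natCast]
  have hdecomp : omegaFun (ξ₀ : H → ℂ) (regConj p (fun h : H => (χ : G → ℂ) h))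
      = ∑ ξ : IrrCharacter H, (n ξ : ℂ) * omegaFun (ξ₀ : H → ℂ) (regConj p (ξ : H → ℂ)) := by
    unfold omegaFun
    have hnum : ∑ k : H, regConj p (fun h : H => (χ : G → ℂ) h) k * (ξ₀ : H → ℂ) k
        = ∑ ξ : IrrCharacter H, (n ξ : ℂ) * ∑ k : H, regConj p (ξ : H → ℂ) k * (ξ₀ : H → ℂ) k := by
      simp only [e1, Finset.sum_mul]
      rw [Finset.sum_comm]
      apply Finset.sum_congr rfl
      intro ξ _
      rw [Finset.mul_sum]
      apply Finset.sum_congr rfl
      intro k _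
      ring
    rw [hnum, Finset.sum_div]
    apply Finset.sum_congr rfl
    intro ξ _
    rw [mul_div_assoc]
  rw [hdecomp] at h5
  have h6 : ∃ ξ : IrrCharacter H, ¬ MemLocalIdeal M
      ((n ξ : ℂ) * omegaFun (ξ₀ : H → ℂ) (regConj p (ξ : H → ℂ))) := by
    by_contra hall
    push Not at hall
    exact h5 (memLocalIdeal_sum M _ _ (fun ξ _ => hall ξ))
  obtain ⟨ξ, hξ⟩ := h6
  have hξcf : IsClassFunction H (regConj p (ξ : H → ℂ)) :=
    regConj_isClassFunction (isClassFunction_of_isIrrCharacter ξ.2)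
  have hξb : ξ ∈ b := by
    by_contra hnb
    apply hξ
    have hξ₀' : ξ₀ ∉ blockOf M (ξ : H → ℂ) := by
      intro h'
      apply hnb
      rw [hb]
      exact sameBlock_symm M h'
    rw [omegaFun_regConj_eq_zero hM ξ ξ₀ hξ₀', mul_zero]
    exact memLocalIdeal_zero M
  have hpn : ¬ p ∣ n ξ := by
    intro hdvd
    apply hξ
    exact MemLocalIdeal.mul_right M ((memLocalIdeal_natCast_iff hM _).mpr hdvd)
      (omegaFun_memLocalRing hM ξ₀ _ hξcf (regConj_memLocalRing hM ξ))
  have hω : ¬ MemLocalIdeal M (omegaFun (ξ₀ : H → ℂ) (regConj p (ξ : H → ℂ))) := by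
    intro hmem
    apply hξ
    exact MemLocalIdeal.mul_left M (memLocalRing_natCast M _) hmem
  have hsame : SameBlock M (ξ₀ : H → ℂ) (ξ : H → ℂ) := by
    rw [hb] at hξb; exact hξb
  have hω' : ¬ MemLocalIdeal M (omegaFun (ξ : H → ℂ) (regConj p (ξ : H → ℂ))) := by
    intro hmem
    apply hω
    have h7 := omegaFun_sub_mem hM ξ₀ ξ hsame _ hξcf (regConj_memLocalRing hM ξ)
    have := MemLocalIdeal.add M h7 hmem
    rwa [sub_add_cancel] at this
  refine ⟨ξ, hξb, ?_, n ξ, hn ξ, hpn⟩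
  by_contra hh
  obtain ⟨ξ₁, hξ₁, e, k, k₁, g1, g2, g3⟩ := exists_smaller_of_height_ne_zero b ξ hξb hh
  have hsame₁ : SameBlock M (ξ : H → ℂ) (ξ₁ : H → ℂ) := by
    rw [hb] at hξ₁
    exact sameBlock_trans M (sameBlock_symm M hsame) hξ₁
  exact hω' (not_heightZero_mem hM ξ ξ₁ hsame₁ e k k₁ g1 g2 g3)

end Cfsg.Agent.S0937
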