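import Mathlib
import Cfsg.Statements.S0940
import Cfsg.Agent.Lib.Helper8.PrincipalIdem

set_option autoImplicit false
open Cfsg

namespace Cfsg.Agent.S0940

open Cfsg.Agent.Lib.Helper8 Cfsg.Agent.Lib.Helper2 Cfsg.Agent.Lib.Helper25

/-- Let G be a finite group and M a maximal ideal of the algebraic integers containing the prime p. For every p-regular g, the idempotent coefficient of the principal block at g (the inverse of the group order times the sum over χ in the principal block of χ 1 * conj (χ g)) is congruent modulo the local ideal at M to N / R, where N is the number of pairs (x, y) with x of p-power order, y of order prime to p and x * y = g, and R is the number of elements of G of order prime to p. -/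
theorem result {G : Type*} [Group G] [Finite G] (p : ℕ) [Fact p.Prime] (M : Ideal Cfsg.AlgInt) (hM : Cfsg.IsPModular p M) (g : G) (hg : ¬ p ∣ orderOf g) : Cfsg.MemLocalIdeal M (Cfsg.blockCoeff (Cfsg.principalBlock M G) g - (Nat.card {xy : G × G // (∃ k : ℕ, orderOf xy.1 = p ^ k) ∧ ¬ p ∣ orderOf xy.2 ∧ xy.1 * xy.2 = g} : ℂ) / (Nat.card {y : G // ¬ p ∣ orderOf y} : ℂ)) := by
  classical
  have : Fintype G := Fintype.ofFinite G
  have hpr := isPrime_of_isPModular hM
  have hp : p.Prime := Fact.out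
  obtain ⟨N, hN⟩ := principal_coeff_sub_convPow_mem (G := G) hM
  have hmpos : 0 < orderOf g := orderOf_pos g
  have hφ : 0 < Nat.totient (orderOf g) := Nat.totient_pos.mpr hmpos
  obtain ⟨k, hk⟩ : ∃ k : ℕ, k = Nat.totient (orderOf g) * (Nat.card G + N) := ⟨_, rfl⟩
  have hkge : Nat.card G + N ≤ k := by rw [hk]; exact Nat.le_mul_of_pos_left _ hφ
  have hklt : k < p ^ k := Nat.lt_pow_self hp.one_lt
  have hNle : N ≤ p ^ k := by omega
  have hcop : Nat.Coprime p (orderOf g) := (Nat.Prime.coprime_iff_not_dvd hp).mpr hg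
  have hmod : p ^ k ≡ 1 [MOD orderOf g] := by
    rw [hk, pow_mul]
    have h1 := Nat.ModEq.pow_totient hcop
    have h2 := h1.pow (Nat.card G + N)
    rwa [one_pow] at h2
  have hgpow : g ^ (p ^ k) = g := by
    have := (pow_eq_pow_iff_modEq (x := g) (n := p ^ k) (m := 1)).mpr hmod
    rwa [pow_one] at this
  have hpel : ∀ b : G, b ^ (p ^ k) = 1 ↔ ∃ j : ℕ, orderOf b = p ^ j := by
    intro b
    constructor
    · intro hb
      obtain ⟨j, -, hj⟩ := (Nat.dvd_prime_pow hp).mp (orderOf_dvd_of_pow_eq_one hb)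
      exact ⟨j, hj⟩
    · rintro ⟨j, hj⟩
      have h1 : p ^ j ≤ Nat.card G := by
        rw [← hj]
        exact Nat.le_of_dvd Nat.card_pos (orderOf_dvd_natCard b)
      have h2 : p ^ j < p ^ k := by omega
      have h3 : j < k := (Nat.pow_lt_pow_iff_right hp.one_lt).mp h2
      apply orderOf_dvd_iff_pow_eq_one.mp
      rw [hj]; exact pow_dvd_pow p h3.le
  obtain ⟨T, hT⟩ : ∃ T : Set G, T = {b | ¬ p ∣ orderOf (b * g)} := ⟨_, rfl⟩
  have hTmem : ∀ b : G, b ∈ T ↔ ¬ p ∣ orderOf (b * g) := by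
    intro b; rw [hT]; rfl
  have hγ : (fun b => regInd p G (b * g)) = fun b => if b ∈ T then (1 : ℂ) else 0 := by
    funext b
    unfold regInd
    by_cases hb : p ∣ orderOf (b * g)
    · rw [if_pos hb, if_neg (by rw [hTmem]; exact not_not.mpr hb)]
    · rw [if_neg hb, if_pos ((hTmem b).mpr hb)]
  have hconv : convPow (regInd p G) (p ^ k) g
      = (Nat.card {v : List.Vector G (p ^ k) //
          (∀ y ∈ v.toList, y ∈ T) ∧ v.toList.prod = 1} : ℂ) := by
    have h1 := convPow_translate (regInd_isClassFunction (p := p) (G := G)) g (p ^ k) 1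
    rw [one_mul, hgpow] at h1
    rw [← h1, hγ]
    exact convPow_indicator_one T (p ^ k)
  have hcmod := card_prodOne_modEq T p k
  have hNg : Nat.card {b : G // b ∈ T ∧ b ^ (p ^ k) = 1}
      = Nat.card {xy : G × G // (∃ k : ℕ, orderOf xy.1 = p ^ k) ∧ ¬ p ∣ orderOf xy.2
          ∧ xy.1 * xy.2 = g} := by
    apply Nat.card_congr
    refine
      { toFun := fun b => ⟨(b.1⁻¹, b.1 * g), ?_, ?_, ?_⟩
        invFun := fun q => ⟨q.1.1⁻¹, ?_, ?_⟩
        left_inv := fun b => Subtype.ext (inv_inv _)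
        right_inv := fun q => Subtype.ext (Prod.ext (inv_inv _)
          (inv_mul_eq_iff_eq_mul.mpr q.2.2.2.symm)) }
    · obtain ⟨j, hj⟩ := (hpel b.1).mp b.2.2
      exact ⟨j, by rw [orderOf_inv]; exact hj⟩
    · exact (hTmem _).mp b.2.1
    · simp
    · rw [hTmem]
      have : q.1.1⁻¹ * g = q.1.2 := inv_mul_eq_iff_eq_mul.mpr q.2.2.2.symm
      rw [this]; exact q.2.2.1
    · apply (hpel _).mpr
      obtain ⟨j, hj⟩ := q.2.1
      exact ⟨j, by rw [orderOf_inv]; exact hj⟩
  rw [hNg] at hcmod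
  have hRdvd : ¬ p ∣ Nat.card {y : G // ¬ p ∣ orderOf y} := card_regular_not_dvd (G := G) p
  have hRn0 : Nat.card {y : G // ¬ p ∣ orderOf y} ≠ 0 := by
    intro h0; apply hRdvd; rw [h0]; exact dvd_zero p
  have hmain := hN k hNle g
  rw [hconv] at hmain
  generalize Nat.card {v : List.Vector G (p ^ k) //
          (∀ y ∈ v.toList, y ∈ T) ∧ v.toList.prod = 1} = c at hmain hcmod
  generalize Nat.card {xy : G × G // (∃ k : ℕ, orderOf xy.1 = p ^ k) ∧ ¬ p ∣ orderOf xy.2
          ∧ xy.1 * xy.2 = g} = Ng at hcmod ⊢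
  generalize Nat.card {y : G // ¬ p ∣ orderOf y} = Rn at hRdvd hRn0 hmain ⊢
  have hfermat : Rn ^ (p ^ k) ≡ Rn [MOD p] := by
    apply (ZMod.natCast_eq_natCast_iff _ _ _).mp
    push_cast
    exact ZMod.pow_card_pow _
  have hcong : c * Rn ≡ Rn ^ (p ^ k) * Ng [MOD p] := by
    have h1 : c * Rn ≡ Ng * Rn [MOD p] := hcmod.mul_right _
    have h2 : Rn * Ng ≡ Rn ^ (p ^ k) * Ng [MOD p] := (hfermat.symm).mul_right _
    rw [mul_comm Ng Rn] at h1
    exact h1.trans h2
  obtain ⟨q, hq⟩ := (Nat.modEq_iff_dvd.mp hcong)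
  have hRC : (Rn : ℂ) ≠ 0 := by exact_mod_cast hRn0
  have hq' : ((Rn : ℂ) ^ (p ^ k) * (Ng : ℂ)) - (c : ℂ) * (Rn : ℂ) = (p : ℂ) * (q : ℂ) := by
    have := congrArg (Int.cast : ℤ → ℂ) hq
    push_cast at this
    exact this
  have hsecond : MemLocalIdeal M ((c : ℂ) / (Rn : ℂ) ^ (p ^ k) - (Ng : ℂ) / (Rn : ℂ)) := by
    have e : (c : ℂ) / (Rn : ℂ) ^ (p ^ k) - (Ng : ℂ) / (Rn : ℂ)
        = (p : ℂ) * ((-q : ℤ) : ℂ) * (((1 : ℕ) : ℂ) / ((Rn ^ (p ^ k + 1) : ℕ) : ℂ)) := by
      push_cast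
      field_simp
      linear_combination (-((Rn : ℂ) ^ (p ^ k + 1))) * hq'
    rw [e]
    have h1 : MemLocalIdeal M (p : ℂ) := (memLocalIdeal_natCast_iff hM p).mpr dvd_rfl
    have h2 : MemLocalRing M (((1 : ℕ) : ℂ) / ((Rn ^ (p ^ k + 1) : ℕ) : ℂ)) :=
      rat_memLocalRing hM 1 (Rn ^ (p ^ k + 1)) one_ne_zero (pow_ne_zero _ hRn0) (by
        rw [Nat.factorization_pow]
        simp [Nat.factorization_eq_zero_of_not_dvd hRdvd])
    exact MemLocalIdeal.mul_right M (MemLocalIdeal.mul_right M h1 (memLocalRing_intCast M _)) h2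
  have hfin := MemLocalIdeal.add M hmain hsecond
  rwa [sub_add_sub_cancel] at hfin

end Cfsg.Agent.S0940
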