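import Mathlib
import Cfsg.Statements.S0944

set_option autoImplicit false
open Cfsg

namespace Cfsg.Agent.S0944

theorem trace_invol {n : ℕ} (f : Module.End ℂ (Fin n → ℂ)) (hf : f * f = 1) :
    ∃ r : ℕ, LinearMap.trace ℂ _ f = 2 * (r : ℂ) - (n : ℂ) := by
  set e : Module.End ℂ (Fin n → ℂ) := (1 / 2 : ℂ) • (1 + f) with he
  have hidem : IsIdempotentElem e := by
    unfold IsIdempotentElem
    rw [he, smul_mul_smul_comm]
    have : (1 + f) * (1 + f) = (2 : ℂ) • (1 + f) := by
      rw [mul_add, add_mul, add_mul, hf, one_mul, one_mul, mul_one, two_smul]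
      abel
    rw [this, smul_smul]
    norm_num
  have htr := (LinearMap.IsIdempotentElem.isProj_range e hidem).trace
  refine ⟨Module.finrank ℂ (LinearMap.range e), ?_⟩
  rw [← htr, he, map_smul, map_add, LinearMap.trace_one]
  simp only [Module.finrank_fintype_fun_eq_card, Fintype.card_fin, smul_eq_mul]
  ring

theorem result {G : Type*} [Group G] [Finite G] (χ : Cfsg.IrrCharacter G) (u : G) (hu : orderOf u = 2) : ∃ n : ℤ, (χ : G → ℂ) u = (n : ℂ) ∧ (2 : ℤ) ∣ (Cfsg.charDegree (χ : G → ℂ) : ℤ) - n := by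
  obtain ⟨n, ρ, _, hρ⟩ := χ.2
  have huu : u * u = 1 := by
    have := pow_orderOf_eq_one u
    rw [hu, pow_two] at this
    exact this
  have hf : ρ u * ρ u = 1 := by
    rw [← map_mul, huu, map_one]
  obtain ⟨r, hr⟩ := trace_invol (ρ u) hf
  have hdeg : Cfsg.charDegree (χ : G → ℂ) = n := by
    unfold Cfsg.charDegree
    rw [← hρ, Representation.char_one]
    simp
  refine ⟨2 * (r : ℤ) - (n : ℤ), ?_, ?_⟩
  · rw [← hρ]
    change LinearMap.trace ℂ _ (ρ u) = _
    rw [hr]
    push_cast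
    ring
  · rw [hdeg]
    exact ⟨(n : ℤ) - (r : ℤ), by ring⟩

end Cfsg.Agent.S0944
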