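import Cfsg.Statements.S0956
import Cfsg.Agent.Lib.Helper24.Green
import Cfsg.Agent.Lib.Helper8.DefectLocal
import Cfsg.Agent.Lib.Helper8.BlockRing

set_option autoImplicit false
open Cfsg

namespace Cfsg.Agent.S0956

open Cfsg.Agent.Lib.Helper2 Cfsg.Agent.Lib.Helper25 Cfsg.Agent.Lib.Helper8 Cfsg.Agent.Lib.Helper24 in
/-- Let D be a defect group of a block of the finite group G (relative to a maximal ideal M of the algebraic integers containing the prime p) and P a Sylow p-subgroup containing D. Then there is an element x of order prime to p such that D is a Sylow p-subgroup of the centralizer of x and D = P ∩ x P x⁻¹. -/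
theorem result {G : Type*} [Group G] [Finite G] (p : ℕ) [Fact p.Prime] (M : Ideal Cfsg.AlgInt) (hM : Cfsg.IsPModular p M) (B : Set (Cfsg.IrrCharacter G)) (hB : Cfsg.IsPBlock M B) (D : Subgroup G) (hD : Cfsg.IsDefectGroup p M B D) (P : Sylow p G) (hDP : D ≤ P) : ∃ x : G, ¬ p ∣ orderOf x ∧ (∃ S : Sylow p (Subgroup.centralizer ({x} : Set G)), (S : Subgroup (Subgroup.centralizer ({x} : Set G))).map (Subgroup.centralizer ({x} : Set G)).subtype = D) ∧ (P : Subgroup G) ⊓ (P : Subgroup G).map (MulAut.conj x).toMonoidHom = D := by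
  classical
  have : Fintype G := Fintype.ofFinite G
  haveI hpr := isPrime_of_isPModular hM
  have hDp : IsPGroup p D := isPGroup_of_isDefectGroup hD
  obtain ⟨b₁, hb₁, hb₁D, -, hcong⟩ := fm_down hM D hDp B hB hD
  have : Fintype ↥(Subgroup.normalizer (D : Set G)) := Fintype.ofFinite _
  set Q : Subgroup ↥(Subgroup.normalizer (D : Set G)) :=
    (P : Subgroup G).subgroupOf (Subgroup.normalizer (D : Set G)) with hQ
  have : Fintype Q := Fintype.ofFinite _
  have hQp : IsPGroup p Q := P.isPGroup'.comap_subtype
  obtain ⟨g, hg⟩ := exists_coset_sum_not_mem hM b₁ hb₁ Q hQp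
  have : Fintype (IrrCharacter ↥(Subgroup.normalizer (D : Set G))) := Fintype.ofFinite _
  have : Fintype (IrrCharacter G) := Fintype.ofFinite _
  have hb₁closed := blockClosed_of_isPBlock M hb₁
  obtain ⟨y, hy, hyc⟩ := exists_fixed_of_coset_sum hM Q hQp (blockCoeff b₁)
    (blockCoeff_isClassFunction b₁) (blockCoeff_memLocalRing hM b₁ hb₁closed) g hg
  have hDΓ : D ≤ Subgroup.normalizer (D : Set G) := Subgroup.le_normalizer
  have hyD : (y : G) ∈ Subgroup.centralizer (D : Set G) := by
    rw [Subgroup.mem_centralizer_iff]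
    intro d hd
    have hs : (⟨d, hDΓ hd⟩ : ↥(Subgroup.normalizer (D : Set G))) ∈ Q := by
      rw [hQ, Subgroup.mem_subgroupOf]
      exact hDP hd
    have hs' : y⁻¹ * (⟨d, hDΓ hd⟩ : ↥(Subgroup.normalizer (D : Set G))) * y ∈ Q := by
      rw [hQ, Subgroup.mem_subgroupOf]
      apply hDP
      have hyn := (Subgroup.mem_normalizer_iff.mp (y⁻¹).2 d).mp hd
      simpa using hyn
    have h := congrArg Subtype.val (hyc _ hs hs')
    exact h
  have hBy : ¬ MemLocalIdeal M (blockCoeff B (y : G)) := by
    intro h
    apply hy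
    have h2 := hcong y hyD
    have h3 := MemLocalIdeal.sub M h h2
    rwa [sub_sub_cancel] at h3
  have hBclosed := blockClosed_of_isPBlock M hB
  have hcomm : ∀ d ∈ D, d * (y : G) = (y : G) * d := by
    intro d hd
    exact (Subgroup.mem_centralizer_iff.mp hyD) d hd
  have hDC : D ≤ Subgroup.centralizer ({(y : G)} : Set G) := by
    intro d hd
    rw [Subgroup.mem_centralizer_iff]
    intro h hh
    rw [Set.mem_singleton_iff] at hh
    rw [hh]
    exact (hcomm d hd).symm
  have hSyl : ∃ S : Sylow p (Subgroup.centralizer ({(y : G)} : Set G)),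
      (S : Subgroup (Subgroup.centralizer ({(y : G)} : Set G))).map
        (Subgroup.centralizer ({(y : G)} : Set G)).subtype = D := by
    obtain ⟨g₀, hg₀, P₀, hDeq⟩ := hD
    obtain ⟨c, Q', hQ'⟩ := (Cfsg.Agent.S0911.result p M hM B hB g₀ hg₀ P₀ (y : G)).1
      (blockCoeff_memLocalRing hM B hBclosed (y : G)) hBy
    rw [← hDeq] at hQ'
    have hcard1 : Nat.card Q' ≤ Nat.card D := by
      have h1 := Subgroup.card_le_of_le hQ'
      rw [Subgroup.card_subtype, Subgroup.card_map_of_injective (MulAut.conj c).injective] at h1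
      exact h1
    obtain ⟨S', hS'⟩ := IsPGroup.exists_le_sylow
      (hDp.comap_subtype (K := Subgroup.centralizer ({(y : G)} : Set G)))
    refine ⟨S', ?_⟩
    symm
    apply Subgroup.eq_of_le_of_card_ge
    · exact (Subgroup.map_subgroupOf_eq_of_le hDC).symm.le.trans (Subgroup.map_mono hS')
    · rw [Subgroup.card_subtype, Sylow.card_eq_multiplicity, ← Sylow.card_eq_multiplicity Q']
      exact hcard1
  refine ⟨(y : G), ?_, hSyl, ?_⟩
  · intro hdiv
    apply hBy
    rw [blockCoeff_eq_zero_of_singular hM B hBclosed (y : G) hdiv]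
    exact memLocalIdeal_zero M
  · obtain ⟨S', hS'⟩ := hSyl
    apply le_antisymm
    · by_contra hnot
      set R : Subgroup G := (P : Subgroup G) ⊓ (P : Subgroup G).map (MulAut.conj (y : G)).toMonoidHom
        with hR
      have hDR : D ≤ R := by
        rw [hR]
        apply le_inf hDP
        intro d hd
        rw [mem_map_conj]
        have e : (y : G)⁻¹ * d * (y : G) = d := by
          rw [mul_assoc, hcomm d hd, inv_mul_cancel_left]
        rw [e]
        exact hDP hd
      have hRp : IsPGroup p R := P.isPGroup'.to_le inf_le_left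
      haveI : Group.IsNilpotent R := hRp.isNilpotent
      have hlt : D.subgroupOf R < ⊤ := by
        rw [lt_top_iff_ne_top]
        intro htop
        apply hnot
        intro r hr
        have : (⟨r, hr⟩ : R) ∈ D.subgroupOf R := by rw [htop]; exact Subgroup.mem_top _
        exact Subgroup.mem_subgroupOf.mp this
      have hnc := Group.normalizerCondition_of_isNilpotent (G := R) (D.subgroupOf R) hlt
      obtain ⟨r, hrN, hrD⟩ := SetLike.exists_of_lt hnc
      have hrD' : (r : G) ∉ D := fun h => hrD (Subgroup.mem_subgroupOf.mpr h)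
      have hrΓ : (r : G) ∈ Subgroup.normalizer (D : Set G) := by
        rw [Subgroup.mem_normalizer_iff]
        intro n
        rw [Subgroup.mem_normalizer_iff] at hrN
        constructor
        · intro hn
          have h1 := (hrN ⟨n, hDR hn⟩).mp (Subgroup.mem_subgroupOf.mpr hn)
          exact Subgroup.mem_subgroupOf.mp h1
        · intro hn
          have hnR : n ∈ R := by
            have h1 := R.mul_mem (R.mul_mem (R.inv_mem r.2) (hDR hn)) r.2
            have e : (r : G)⁻¹ * ((r : G) * n * (r : G)⁻¹) * (r : G) = n := by group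
            rwa [e] at h1
          have h1 := (hrN ⟨n, hnR⟩).mpr (Subgroup.mem_subgroupOf.mpr hn)
          exact Subgroup.mem_subgroupOf.mp h1
      have hrP : (r : G) ∈ (P : Subgroup G) := (inf_le_left : R ≤ _) r.2
      have hrP' : (y : G)⁻¹ * (r : G) * (y : G) ∈ (P : Subgroup G) := by
        have h1 : (r : G) ∈ (P : Subgroup G).map (MulAut.conj (y : G)).toMonoidHom :=
          (inf_le_right : R ≤ _) r.2
        rwa [mem_map_conj] at h1
      have hs : (⟨(r : G), hrΓ⟩ : ↥(Subgroup.normalizer (D : Set G))) ∈ Q := by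
        rw [hQ, Subgroup.mem_subgroupOf]
        exact hrP
      have hs' : y⁻¹ * (⟨(r : G), hrΓ⟩ : ↥(Subgroup.normalizer (D : Set G))) * y ∈ Q := by
        rw [hQ, Subgroup.mem_subgroupOf]
        exact hrP'
      have hry : (r : G) * (y : G) = (y : G) * (r : G) := congrArg Subtype.val (hyc _ hs hs')
      have hrC : (r : G) ∈ Subgroup.centralizer ({(y : G)} : Set G) := by
        rw [Subgroup.mem_centralizer_iff]
        intro h hh
        rw [Set.mem_singleton_iff] at hh
        rw [hh]
        exact hry.symm
      have hRCp : IsPGroup p ((R ⊓ Subgroup.centralizer ({(y : G)} : Set G)).subgroupOf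
          (Subgroup.centralizer ({(y : G)} : Set G))) :=
        (hRp.to_le inf_le_left).comap_subtype
      have hle : (S' : Subgroup (Subgroup.centralizer ({(y : G)} : Set G)))
          ≤ (R ⊓ Subgroup.centralizer ({(y : G)} : Set G)).subgroupOf
            (Subgroup.centralizer ({(y : G)} : Set G)) := by
        intro s hs
        rw [Subgroup.mem_subgroupOf]
        have h1 : (s : G) ∈ Subgroup.map (Subgroup.centralizer ({(y : G)} : Set G)).subtype
            (S' : Subgroup (Subgroup.centralizer ({(y : G)} : Set G))) :=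
          Subgroup.mem_map_of_mem _ hs
        rw [hS'] at h1
        exact ⟨hDR h1, s.2⟩
      have heq := S'.is_maximal' hRCp hle
      have hrS : (⟨(r : G), hrC⟩ : Subgroup.centralizer ({(y : G)} : Set G))
          ∈ (S' : Subgroup (Subgroup.centralizer ({(y : G)} : Set G))) := by
        rw [← heq, Subgroup.mem_subgroupOf]
        exact ⟨r.2, hrC⟩
      apply hrD'
      have h1 : (r : G) ∈ Subgroup.map (Subgroup.centralizer ({(y : G)} : Set G)).subtype
          (S' : Subgroup (Subgroup.centralizer ({(y : G)} : Set G))) :=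
        Subgroup.mem_map_of_mem (Subgroup.centralizer ({(y : G)} : Set G)).subtype hrS
      rw [hS'] at h1
      exact h1
    · apply le_inf hDP
      intro d hd
      rw [mem_map_conj]
      have e : (y : G)⁻¹ * d * (y : G) = d := by
        rw [mul_assoc, hcomm d hd, inv_mul_cancel_left]
      rw [e]
      exact hDP hd

end Cfsg.Agent.S0956
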