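import Mathlib
import Cfsg.Statements.S0961
import Cfsg.Agent.Lib.Helper8.ElemAux
import Cfsg.Agent.Lib.Helper8.BlockReg
import Cfsg.Agent.Lib.Helper2.CharClifford
import Cfsg.Agent.S0164

set_option autoImplicit false
open Cfsg

namespace Cfsg.Agent.S0961

open Cfsg.Agent.Lib.Helper2 Cfsg.Agent.Lib.Helper8 in
/-- Let χ be an irreducible character of the finite group G and let p ^ a be the largest power of the prime p dividing the order of G. Then the function equal to p ^ a * χ x at elements x of order prime to p and to 0 elsewhere is a generalized character (a difference of characters). -/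
theorem result {G : Type*} [Group G] [Finite G] (p : ℕ) [Fact p.Prime] (χ : Cfsg.IrrCharacter G) : Cfsg.IsGeneralizedCharacter G (fun x : G => if p ∣ orderOf x then 0 else ((p ^ (Nat.card G).factorization p : ℕ) : ℂ) * (χ : G → ℂ) x) := by
  classical
  have hp : Fact p.Prime := inferInstance
  have : Fintype G := Fintype.ofFinite G
  have hχcf := isClassFunction_of_isIrrCharacter χ.2
  apply Cfsg.Agent.S0164.result
  · intro g h
    have ho : orderOf (h * g * h⁻¹) = orderOf g := (MulAut.conj h).orderOf_eq g
    change (if p ∣ orderOf (h * g * h⁻¹) then (0 : ℂ)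
      else ((p ^ (Nat.card G).factorization p : ℕ) : ℂ) * (χ : G → ℂ) (h * g * h⁻¹))
      = if p ∣ orderOf g then (0 : ℂ)
        else ((p ^ (Nat.card G).factorization p : ℕ) : ℂ) * (χ : G → ℂ) g
    rw [ho, hχcf g h]
  · intro E q hq hE
    have : Fintype E := Fintype.ofFinite E
    obtain ⟨K, hKn, hKp, j, hj⟩ := exists_normal_pComplement_of_isElementary hq hE p
    have : Fintype K := Fintype.ofFinite K
    set a := (Nat.card G).factorization p with ha
    have hja : j ≤ a := by
      have h1 : p ^ j ∣ Nat.card G := by
        rw [← hj]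
        exact (Subgroup.index_dvd_card K).trans (Subgroup.card_subgroup_dvd_card E)
      exact (Nat.Prime.pow_dvd_iff_le_factorization hp.out (Nat.card_pos (α := G)).ne').mp h1
    have hψ : IsCharacter K (fun k : K => (χ : G → ℂ) ((k : E) : G)) :=
      IsCharacter.restrict (IsCharacter.restrict (isCharacter_of_isIrrCharacter χ.2) E) K
    have hind := indFun_isCharacter K hψ
    have hchar := IsCharacter.nsmul (p ^ (a - j)) hind
    refine ⟨(p ^ (a - j)) • indFun K (fun k : K => (χ : G → ℂ) ((k : E) : G)), 0, hchar,
      IsCharacter.zero, ?_⟩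
    rw [sub_zero]
    funext e
    rw [Pi.smul_apply, indFun_apply]
    have hoE : ∀ t : E, orderOf (t⁻¹ * e * t) = orderOf (e : G) := by
      intro t
      have h1 : orderOf (t⁻¹ * e * t) = orderOf e := by
        have := (MulAut.conj t⁻¹).orderOf_eq e
        simpa using this
      rw [h1, Subgroup.orderOf_coe]
    by_cases hsing : p ∣ orderOf (e : G)
    · rw [if_pos hsing]
      have h1 : ∀ t : E, extendByZero K (fun k : K => (χ : G → ℂ) ((k : E) : G))
          (t⁻¹ * e * t) = 0 := by
        intro t
        apply extendByZero_of_not_mem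
        intro hmem
        apply hKp
        have h2 : orderOf (⟨t⁻¹ * e * t, hmem⟩ : K) ∣ Nat.card K := orderOf_dvd_natCard _
        rw [Subgroup.orderOf_mk, hoE t] at h2
        exact dvd_trans hsing h2
      rw [Finset.sum_congr rfl (fun t _ => h1 t)]
      simp
    · rw [if_neg hsing]
      have heK : ∀ t : E, t⁻¹ * e * t ∈ K := by
        intro t
        apply mem_of_regular_of_index K ⟨j, hj⟩
        rw [hoE t]
        exact hsing
      have h1 : ∀ t : E, extendByZero K (fun k : K => (χ : G → ℂ) ((k : E) : G))
          (t⁻¹ * e * t) = (χ : G → ℂ) (e : G) := by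
        intro t
        rw [extendByZero_of_mem K _ (heK t)]
        have := hχcf (e : G) ((t⁻¹ : E) : G)
        simpa using this
      rw [Finset.sum_congr rfl (fun t _ => h1 t), Finset.sum_const, Finset.card_univ,
        nsmul_eq_mul, nsmul_eq_mul]
      have h2 : (Nat.card E : ℂ) = ((p ^ j : ℕ) : ℂ) * (Nat.card K : ℂ) := by
        rw [← hj, ← Nat.cast_mul, Subgroup.index_mul_card]
      rw [← Nat.card_eq_fintype_card, h2]
      have hK0 : (Nat.card K : ℂ) ≠ 0 := card_ne_zero_complex K
      have h3 : ((p ^ a : ℕ) : ℂ) = ((p ^ (a - j) : ℕ) : ℂ) * ((p ^ j : ℕ) : ℂ) := by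
        rw [← Nat.cast_mul, ← pow_add, Nat.sub_add_cancel hja]
      rw [h3]
      field_simp

end Cfsg.Agent.S0961
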