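import Mathlib
import Cfsg.Statements.S0970
import Cfsg.Agent.Lib.Helper8.FongDefect
import Cfsg.Agent.Lib.Helper8.Covering

set_option autoImplicit false
open Cfsg

namespace Cfsg.Agent.S0970

open Cfsg.Agent.Lib.Helper8 Cfsg.Agent.Lib.Helper2 Cfsg.Agent.Lib.Helper25

/-- Let N be a normal subgroup of the finite group G and fix a maximal ideal M of the algebraic integers containing the prime p. Let b be a block of N that is invariant under conjugation by G, and B a block of G covering b (some χ ∈ B has a constituent in b) whose defect is at least that of every block covering b. If P is a defect group of B, then p does not divide the index of P ⊔ N, the subgroup P ∩ N of N is a defect group of b, and the defect of B equals the defect of b plus the exponent of p in the index of N. -/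
theorem result {G : Type*} [Group G] [Fintype G] (p : ℕ) [Fact p.Prime] (M : Ideal Cfsg.AlgInt) (hM : Cfsg.IsPModular p M) (N : Subgroup G) [hN : N.Normal] [Fintype N] (b : Set (Cfsg.IrrCharacter N)) (hb : Cfsg.IsPBlock M b) (hinv : ∀ g : G, ∀ θ ∈ b, ∀ θ' : Cfsg.IrrCharacter N, (∀ n : N, (θ' : N → ℂ) n = (θ : N → ℂ) ⟨g * n * g⁻¹, hN.conj_mem n n.2 g⟩) → θ' ∈ b) (B : Set (Cfsg.IrrCharacter G)) (hB : Cfsg.IsPBlock M B) (hcov : ∃ χ ∈ B, ∃ θ ∈ b, Cfsg.classInner (fun n : N => (χ : G → ℂ) n) (θ : N → ℂ) ≠ 0) (hmax : ∀ B' : Set (Cfsg.IrrCharacter G), Cfsg.IsPBlock M B' → (∃ χ ∈ B', ∃ θ ∈ b, Cfsg.classInner (fun n : N => (χ : G → ℂ) n) (θ : N → ℂ) ≠ 0) → Cfsg.blockDefect p B' ≤ Cfsg.blockDefect p B) (P : Subgroup G) (hP : Cfsg.IsDefectGroup p M B P) : ¬ p ∣ (P ⊔ N).index ∧ Cfsg.IsDefectGroup p M b ((P ⊓ N).subgroupOf N) ∧ Cfsg.blockDefect p B = Cfsg.blockDefect p b + N.index.factorization p := by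
  classical
  have hp : p.Prime := Fact.out
  have hst : ∀ x : G, Cfsg.StabilizesBlock N b x := by
    intro x
    refine ⟨by rw [Subgroup.normalizer_eq_top_iff.mpr hN]; exact Subgroup.mem_top x,
      fun θ hθ => ⟨conjIrr N θ x⁻¹, hinv x⁻¹ θ hθ (conjIrr N θ x⁻¹)
        (fun n => conjIrr_apply N θ x⁻¹ n), ?_⟩⟩
    intro k k' hk
    rw [conjIrr_apply]
    exact congrArg (θ : N → ℂ) (Subtype.ext (by simp [hk, mul_assoc]))
  obtain ⟨h1, h2⟩ := fong_defect hM N b hb hst B hB hcov hmax P hP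
  have h1' : ¬ p ∣ (P ⊔ N).index := by rw [sup_comm]; exact h1
  refine ⟨h1', h2, ?_⟩
  have hcP := Cfsg.Agent.S0908.result p M hM B hB P hP
  have hcb := Cfsg.Agent.S0908.result p M hM b hb _ h2
  have e1 : Nat.card ((P ⊓ N).subgroupOf N) = Nat.card (P ⊓ N : Subgroup G) :=
    Nat.card_congr (Subgroup.subgroupOfEquivOfLe inf_le_right).toEquiv
  rw [e1] at hcb
  have e2 := Subgroup.relIndex_inf_mul_relIndex (⊥ : Subgroup G) N P
  rw [bot_inf_eq, Subgroup.relIndex_bot_left, Subgroup.relIndex_bot_left] at e2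
  rw [inf_comm, hcb, hcP] at e2
  have e3 : N.relIndex (P ⊔ N) * (P ⊔ N).index = N.index :=
    Subgroup.relIndex_mul_index le_sup_right
  rw [Subgroup.relIndex_sup_right] at e3
  have hdle : Cfsg.blockDefect p b ≤ Cfsg.blockDefect p B :=
    (Nat.pow_dvd_pow_iff_le_right hp.one_lt).mp ⟨_, e2.symm⟩
  have hrel : N.relIndex P = p ^ (Cfsg.blockDefect p B - Cfsg.blockDefect p b) := by
    apply Nat.eq_of_mul_eq_mul_left (pow_pos hp.pos (Cfsg.blockDefect p b))
    rw [e2, ← pow_add]
    congr 1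
    omega
  have hidx0 : (P ⊔ N).index ≠ 0 := Subgroup.index_ne_zero_of_finite
  rw [← e3, hrel, Nat.factorization_mul (pow_ne_zero _ hp.ne_zero) hidx0, Finsupp.add_apply,
    Nat.Prime.factorization_pow hp, Finsupp.single_eq_same,
    Nat.factorization_eq_zero_of_not_dvd h1']
  omega

end Cfsg.Agent.S0970
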