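import Cfsg.Statements.S0974
import Mathlib
import Cfsg.Agent.Lib.Helper20.InvPairs

set_option autoImplicit false
open Cfsg

namespace Cfsg.Agent.S0974

set_option linter.style.haveILetI false
set_option linter.unusedVariables false
set_option linter.unusedSectionVars false
set_option maxHeartbeats 1000000

open Cfsg.Agent.Lib.Lead.SimpleSyl Cfsg.Agent.Lib.Helper8 Cfsg.Agent.Lib.Lead.SylowTwoP
  Cfsg.Agent.Lib.Helper20.InvPairs

theorem n19_val (n : ℕ) (hd : n ∣ 192) (hmod : n % 19 = 1) (hne : n ≠ 1) : n = 96 := by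
  have hmem : n ∈ Nat.divisors 192 := Nat.mem_divisors.mpr ⟨hd, by norm_num⟩
  simp only [Nat.divisors_ofNat, Finset.mem_insert, Finset.mem_singleton] at hmem
  omega

theorem n3_val (n c : ℕ) (hd : n ∣ 1216) (hmod : n % 3 = 1) (hne : n ≠ 1) (hc : n * c = 1824)
    (h19 : ¬ 19 ∣ c) (hn19 : n ≠ 19) : c ≤ 24 := by
  have hmem : n ∈ Nat.divisors 1216 := Nat.mem_divisors.mpr ⟨hd, by norm_num⟩
  simp only [Nat.divisors_ofNat, Finset.mem_insert, Finset.mem_singleton] at hmem
  have h7 : n = 4 ∨ n = 16 ∨ n = 64 ∨ n = 76 ∨ n = 304 ∨ n = 1216 := by omega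
  rcases h7 with rfl | rfl | rfl | rfl | rfl | rfl <;> omega

section aux
variable {G : Type*} [Group G] [Finite G] [IsSimpleGroup G]

theorem facts19 (hG : Nat.card G = 3648) [Fact (Nat.Prime 19)] :
    Nat.card (Sylow 19 G) = 96 ∧ ∀ R : Sylow 19 G, Nat.card ↥(R : Subgroup G) = 19 ∧
      Nat.card ↥(Subgroup.normalizer ((R : Subgroup G) : Set G)) = 38 ∧
      Subgroup.centralizer ((R : Subgroup G) : Set G) = R := by
  have hG' : Nat.card G = 19 ^ 1 * 192 := by rw [hG]; norm_num
  obtain ⟨hd, hmod, hne⟩ := sylow_facts (G := G) 19 1 192 le_rfl (by norm_num) (by norm_num) hG'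
  have hn := n19_val _ hd hmod hne
  refine ⟨hn, fun R => ?_⟩
  have hRc : Nat.card ↥(R : Subgroup G) = 19 := by
    have := sylow_card_of_card_eq 1 192 (by norm_num) hG' R
    simpa using this
  have hN : Nat.card ↥(Subgroup.normalizer ((R : Subgroup G) : Set G)) = 38 := by
    have := card_sylow_mul_card_normalizer R
    rw [hG, hn] at this
    omega
  exact ⟨hRc, hN, Cfsg.Agent.S1003.centralizer_sylow_eq (q := 2) Nat.prime_two R hRc
    (by rw [hG]; norm_num) (by rw [hN])⟩

/-- the centralizer of an element of order 19 -/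
theorem cent19 (hG : Nat.card G = 3648) [Fact (Nat.Prime 19)] (y g : G) (hy : orderOf y = 19)
    (hg : Commute y g) : g ∈ Subgroup.zpowers y := by
  obtain ⟨-, hf⟩ := facts19 hG
  exact Cfsg.Agent.S1003.commute_mem_zpowers (q := 2) Nat.prime_two (fun P => (hf P).1)
    (by rw [hG]; norm_num) (fun P => by rw [(hf P).2.1]) y g hy hg

theorem exists_invol (hG : Nat.card G = 3648) [Fact (Nat.Prime 19)] (P : Sylow 19 G) :
    ∃ t : G, t ≠ 1 ∧ t ^ 2 = 1 ∧ ∀ y ∈ (P : Subgroup G), t * y * t⁻¹ = y⁻¹ := by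
  obtain ⟨-, hf⟩ := facts19 hG
  obtain ⟨hPc, hN, hC⟩ := hf P
  haveI : Fact (Nat.Prime 2) := ⟨Nat.prime_two⟩
  obtain ⟨t, ht⟩ := exists_prime_orderOf_dvd_card'
    (G := ↥(Subgroup.normalizer ((P : Subgroup G) : Set G))) 2 (by rw [hN]; norm_num)
  have hto : orderOf (t : G) = 2 := by rw [Subgroup.orderOf_coe]; exact ht
  have ht2 : (t : G) ^ 2 = 1 := by rw [← hto]; exact pow_orderOf_eq_one _
  have ht1 : (t : G) ≠ 1 := by
    intro h
    rw [h, orderOf_one] at hto
    norm_num at hto
  have htC : (t : G) ∉ Subgroup.centralizer ((P : Subgroup G) : Set G) := by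
    rw [hC]
    intro h
    have h1 : orderOf (⟨(t : G), h⟩ : ↥(P : Subgroup G)) ∣ Nat.card ↥(P : Subgroup G) :=
      orderOf_dvd_natCard _
    rw [Subgroup.orderOf_mk, hto, hPc] at h1
    norm_num at h1
  exact ⟨t, ht1, ht2, inverts_of_not_centralizes 19 P hPc t ht2 t.2 htC⟩

theorem class_ge (hG : Nat.card G = 3648) [Fact (Nat.Prime 19)] (hnc : ¬ IsMulCommutative G)
    (P : Sylow 19 G) (t : G) (ht2 : t ^ 2 = 1)
    (hinv : ∀ y ∈ (P : Subgroup G), t * y * t⁻¹ = y⁻¹) : 456 ≤ (conjSet t).ncard := by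
  obtain ⟨hn, hf⟩ := facts19 hG
  have h1 := fx_bound 19 (by norm_num) P (hf P).1 t hinv
  have h2 := fx_invol hnc 19 t ht2
  have h3 := class_mul_fx_ge 19 (by norm_num) P (hf P).1 t hinv
  rw [hn] at h1 h2 h3
  have h4 : (Fx 19 t).ncard ≤ 4 := by omega
  nlinarith

theorem facts3 (hG : Nat.card G = 3648) [Fact (Nat.Prime 19)] [Fact (Nat.Prime 3)]
    (hnc : ¬ IsMulCommutative G) :
    ∃ c : ℕ, c ≤ 24 ∧ Nat.card (Sylow 3 G) * c = 1824 ∧ ∀ R : Sylow 3 G,
      Nat.card ↥(R : Subgroup G) = 3 ∧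
      Nat.card ↥(Subgroup.centralizer ((R : Subgroup G) : Set G)) = c := by
  have hG' : Nat.card G = 3 ^ 1 * 1216 := by rw [hG]; norm_num
  obtain ⟨hd, hmod, hne⟩ := sylow_facts (G := G) 3 1 1216 le_rfl (by norm_num) (by norm_num) hG'
  obtain ⟨hn19, hf19⟩ := facts19 hG
  have hRc : ∀ R : Sylow 3 G, Nat.card ↥(R : Subgroup G) = 3 := by
    intro R
    have := sylow_card_of_card_eq 1 1216 (by norm_num) hG' R
    simpa using this
  have hNmul : ∀ R : Sylow 3 G, Nat.card (Sylow 3 G) *
      Nat.card ↥(Subgroup.normalizer ((R : Subgroup G) : Set G)) = 3648 := by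
    intro R
    have := card_sylow_mul_card_normalizer R
    rw [hG] at this
    exact this
  have hCmul : ∀ R : Sylow 3 G, Nat.card (Sylow 3 G) *
      Nat.card ↥(Subgroup.centralizer ((R : Subgroup G) : Set G)) = 1824 := by
    intro R
    have h1 := relIndex_mul_card_of_le
      (Subgroup.centralizer_le_normalizer ((R : Subgroup G) : Set G))
    haveI : IsCyclic ↥(R : Subgroup G) := isCyclic_of_prime_card (hRc R)
    have h2 := relIndex_centralizer_normalizer_dvd_totient (R : Subgroup G)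
    rw [hRc R] at h2
    have h6 : Nat.totient 3 = 2 := by decide
    rw [h6] at h2
    have h3 : (Subgroup.centralizer ((R : Subgroup G) : Set G)).relIndex
        (Subgroup.normalizer ((R : Subgroup G) : Set G)) ≠ 1 := by
      intro h
      apply not_normalizer_le_centralizer_of_simple R (by rw [hRc R]; norm_num)
        (by rw [hRc R, hG]; norm_num)
      exact Subgroup.relIndex_eq_one.mp h
    have h4 := hNmul R
    generalize (Subgroup.centralizer ((R : Subgroup G) : Set G)).relIndex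
      (Subgroup.normalizer ((R : Subgroup G) : Set G)) = k at h1 h2 h3
    have hk : k ≤ 2 := Nat.le_of_dvd (by norm_num) h2
    have hk0 : k ≠ 0 := by rintro rfl; simp at h2
    have hk2 : k = 2 := by omega
    rw [hk2] at h1
    rw [← h1] at h4
    nlinarith
  obtain ⟨R0⟩ : Nonempty (Sylow 3 G) := inferInstance
  obtain ⟨c, hc⟩ : ∃ c : ℕ, c = Nat.card ↥(Subgroup.centralizer ((R0 : Subgroup G) : Set G)) :=
    ⟨_, rfl⟩
  have hnc0 : Nat.card (Sylow 3 G) * c = 1824 := by rw [hc]; exact hCmul R0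
  have hcR : ∀ R : Sylow 3 G,
      Nat.card ↥(Subgroup.centralizer ((R : Subgroup G) : Set G)) = c := by
    intro R
    have h1 := hCmul R
    rw [← hnc0] at h1
    have hpos : 0 < Nat.card (Sylow 3 G) := Nat.card_pos
    exact Nat.eq_of_mul_eq_mul_left hpos h1
  -- `19` does not divide `c`
  have h19 : ¬ 19 ∣ c := by
    intro hdvd
    rw [hc] at hdvd
    obtain ⟨y, hy⟩ := exists_prime_orderOf_dvd_card'
      (G := ↥(Subgroup.centralizer ((R0 : Subgroup G) : Set G))) 19 hdvd
    have hyo : orderOf (y : G) = 19 := by rw [Subgroup.orderOf_coe]; exact hy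
    obtain ⟨r, hr⟩ := exists_prime_orderOf_dvd_card' (G := ↥(R0 : Subgroup G)) 3
      (by rw [hRc R0])
    have hro : orderOf (r : G) = 3 := by rw [Subgroup.orderOf_coe]; exact hr
    have hcomm : Commute (y : G) (r : G) :=
      (Subgroup.mem_centralizer_iff.mp y.2 (r : G) r.2).symm
    have hmem := cent19 hG (y : G) (r : G) hyo hcomm
    have h1 : orderOf (⟨(r : G), hmem⟩ : ↥(Subgroup.zpowers (y : G))) ∣
        Nat.card ↥(Subgroup.zpowers (y : G)) := orderOf_dvd_natCard _
    rw [Subgroup.orderOf_mk, hro, Nat.card_zpowers, hyo] at h1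
    norm_num at h1
  -- `n_3 ≠ 19`
  have hn3 : Nat.card (Sylow 3 G) ≠ 19 := by
    intro h
    obtain ⟨P⟩ : Nonempty (Sylow 19 G) := inferInstance
    obtain ⟨t, ht1, ht2, hinv⟩ := exists_invol hG P
    have hb := fx_free_bound 19 3 (by norm_num) P (hf19 P).1 t hinv Set.univ
      (fun _ _ _ _ => Set.mem_univ _) (by
        intro x hx R _ hxR
        by_contra hx1
        have hxo : orderOf x = 19 := by
          have h7 : orderOf (⟨x, hx⟩ : ↥(P : Subgroup G)) ∣ Nat.card ↥(P : Subgroup G) :=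
            orderOf_dvd_natCard _
          rw [Subgroup.orderOf_mk, (hf19 P).1] at h7
          rcases (Nat.dvd_prime (by norm_num)).mp h7 with h8 | h8
          · exact absurd (orderOf_eq_one_iff.mp h8) hx1
          · exact h8
        have hxN : x ∈ Subgroup.normalizer ((R : Subgroup G) : Set G) :=
          Sylow.smul_eq_iff_mem_normalizer.mp hxR
        have h9 : orderOf (⟨x, hxN⟩ : ↥(Subgroup.normalizer ((R : Subgroup G) : Set G))) ∣
            Nat.card ↥(Subgroup.normalizer ((R : Subgroup G) : Set G)) := orderOf_dvd_natCard _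
        have h10 := hNmul R
        rw [h] at h10
        have h11 : Nat.card ↥(Subgroup.normalizer ((R : Subgroup G) : Set G)) = 192 := by omega
        rw [Subgroup.orderOf_mk, hxo, h11] at h9
        norm_num at h9)
    have h2 := fx_invol hnc 3 t ht2
    rw [h] at h2
    have h3 : {R : Sylow 3 G | R ∈ Set.univ ∧ t • R = R} = Fx 3 t := by
      ext R; simp [Fx]
    rw [h3, Set.ncard_univ, h] at hb
    omega
  exact ⟨c, n3_val _ c hd hmod hne hnc0 h19 hn3, hnc0, fun R => ⟨hRc R, hcR R⟩⟩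

theorem count3 (hG : Nat.card G = 3648) [Fact (Nat.Prime 19)] [Fact (Nat.Prime 3)]
    (hnc : ¬ IsMulCommutative G) : 1216 ≤ {g : G | 3 ∣ orderOf g}.ncard := by
  obtain ⟨c, hc24, hnc0, hR⟩ := facts3 hG hnc
  have h := card_dvd_order_ge 3 (fun R => (hR R).1) c (fun R => (hR R).2)
  nlinarith

theorem count19 (hG : Nat.card G = 3648) [Fact (Nat.Prime 19)] :
    {g : G | orderOf g = 19}.ncard = 1728 := by
  obtain ⟨hn, hf⟩ := facts19 hG
  rw [Cfsg.Agent.S1003.card_order_eq (p := 19) (fun P => (hf P).1), hn]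

theorem inv19 (hG : Nat.card G = 3648) [Fact (Nat.Prime 19)] (T : Set G) (g : G)
    (hg : orderOf g = 19) : (InvSet T g).ncard ≤ 19 := by
  refine (invSet_le_centralizer T g).trans ?_
  have h1 : Subgroup.centralizer ({g} : Set G) ≤ Subgroup.zpowers g := by
    intro h hh
    apply cent19 hG g h hg
    exact (Subgroup.mem_centralizer_iff.mp hh g (Set.mem_singleton g))
  have h2 := Subgroup.card_le_of_le h1
  rw [Nat.card_zpowers, hg] at h2
  exact h2

theorem inv3 (hG : Nat.card G = 3648) [Fact (Nat.Prime 19)] [Fact (Nat.Prime 3)]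
    (hnc : ¬ IsMulCommutative G) (T : Set G) (g : G)
    (hg : 3 ∣ orderOf g) : (InvSet T g).ncard ≤ 24 := by
  refine (invSet_le_centralizer T g).trans ?_
  obtain ⟨c, hc24, hnc0, hR⟩ := facts3 hG hnc
  obtain ⟨z, hz⟩ : ∃ z : G, z = g ^ (orderOf g / 3) := ⟨_, rfl⟩
  have hzo : orderOf z = 3 := by
    rw [hz]
    exact orderOf_pow_orderOf_div (orderOf_pos g).ne' hg
  have hpg : IsPGroup 3 (Subgroup.zpowers z) :=
    IsPGroup.of_card (n := 1) (by rw [Nat.card_zpowers, hzo, pow_one])
  obtain ⟨Q, hQ⟩ := hpg.exists_le_sylow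
  have hQz : Subgroup.zpowers z = (Q : Subgroup G) :=
    Subgroup.eq_of_le_of_card_ge hQ (by rw [Nat.card_zpowers, hzo, (hR Q).1])
  have h1 : Subgroup.centralizer ({g} : Set G) ≤
      Subgroup.centralizer ((Q : Subgroup G) : Set G) := by
    intro h hh
    have hcomm : Commute g h := (Subgroup.mem_centralizer_iff.mp hh g (Set.mem_singleton g))
    rw [Subgroup.mem_centralizer_iff]
    intro y hy
    rw [SetLike.mem_coe, ← hQz] at hy
    obtain ⟨k, rfl⟩ := Subgroup.mem_zpowers_iff.mp hy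
    rw [hz]
    exact ((hcomm.pow_left _).zpow_left k).eq
  have h2 := Subgroup.card_le_of_le h1
  rw [(hR Q).2] at h2
  omega

theorem invO (hG : Nat.card G = 3648) [Fact (Nat.Prime 19)] (T : Set G) (g : G)
    (hg1 : g ≠ 1) (hg : orderOf g ≠ 19) : (InvSet T g).ncard ≤ 192 := by
  refine (invSet_le_centralizer T g).trans ?_
  have h1 : Nat.card ↥(Subgroup.centralizer ({g} : Set G)) ∣ 19 * 192 := by
    have := Subgroup.card_subgroup_dvd_card (Subgroup.centralizer ({g} : Set G))
    rw [hG] at this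
    exact this
  have h2 : ¬ 19 ∣ Nat.card ↥(Subgroup.centralizer ({g} : Set G)) := by
    intro hdvd
    obtain ⟨y, hy⟩ := exists_prime_orderOf_dvd_card'
      (G := ↥(Subgroup.centralizer ({g} : Set G))) 19 hdvd
    have hyo : orderOf (y : G) = 19 := by rw [Subgroup.orderOf_coe]; exact hy
    have hcomm : Commute (y : G) g :=
      (Subgroup.mem_centralizer_iff.mp y.2 g (Set.mem_singleton g)).symm
    have hmem := cent19 hG (y : G) g hyo hcomm
    have h3 : orderOf (⟨g, hmem⟩ : ↥(Subgroup.zpowers (y : G))) ∣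
        Nat.card ↥(Subgroup.zpowers (y : G)) := orderOf_dvd_natCard _
    rw [Subgroup.orderOf_mk, Nat.card_zpowers, hyo] at h3
    rcases (Nat.dvd_prime (by norm_num)).mp h3 with h8 | h8
    · exact hg1 (orderOf_eq_one_iff.mp h8)
    · exact hg h8
  have h3 : Nat.Coprime (Nat.card ↥(Subgroup.centralizer ({g} : Set G))) 19 :=
    (Nat.Coprime.symm ((Nat.Prime.coprime_iff_not_dvd (by norm_num)).mpr h2))
  exact Nat.le_of_dvd (by norm_num) (h3.dvd_of_dvd_mul_left h1)

end aux

/-- No finite simple group has order 3648 = 2^6 * 3 * 19. -/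
theorem result {G : Type*} [Group G] [Finite G] [IsSimpleGroup G] : Nat.card G ≠ 3648 := by
  intro hG
  classical
  haveI : Fact (Nat.Prime 19) := ⟨by norm_num⟩
  haveI : Fact (Nat.Prime 3) := ⟨by norm_num⟩
  have hnc : ¬ IsMulCommutative G := not_comm_of_not_prime (by rw [hG]; norm_num)
  obtain ⟨P⟩ : Nonempty (Sylow 19 G) := inferInstance
  obtain ⟨t, ht1, ht2, hinv⟩ := exists_invol hG P
  have hT := class_ge hG hnc P t ht2 hinv
  obtain ⟨T, hTdef⟩ : ∃ T : Set G, T = conjSet t := ⟨_, rfl⟩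
  rw [← hTdef] at hT
  have hTinv : ∀ s ∈ T, s ^ 2 = 1 := by
    intro s hs
    rw [hTdef] at hs
    obtain ⟨g, rfl⟩ := hs
    rw [conj_pow, ht2]
    group
  haveI : Fintype G := Fintype.ofFinite G
  have hpairs := pairs_le T hTinv
  have h19 := count19 hG
  have h3 := count3 hG hnc
  have hsum : ∑ g : G, ((InvSet T g).ncard + (if orderOf g = 19 then 173 else 0) +
      (if 3 ∣ orderOf g then 168 else 0)) ≤ ∑ g : G, (192 + if g = 1 then T.ncard else 0) := by
    apply Finset.sum_le_sum
    intro g _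
    by_cases h1 : g = 1
    · subst h1
      have hle : (InvSet T 1).ncard ≤ T.ncard :=
        Set.ncard_le_ncard (fun s hs => hs.1) (Set.toFinite _)
      simp only [orderOf_one, Nat.dvd_one]
      norm_num
      omega
    · by_cases ho : orderOf g = 19
      · have := inv19 hG T g ho
        rw [if_pos ho, if_neg (by rw [ho]; norm_num), if_neg h1]
        omega
      · by_cases hd : 3 ∣ orderOf g
        · have := inv3 hG hnc T g hd
          rw [if_neg ho, if_pos hd, if_neg h1]
          omega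
        · have := invO hG T g h1 ho
          rw [if_neg ho, if_neg hd, if_neg h1]
          omega
  rw [Finset.sum_add_distrib, Finset.sum_add_distrib, Finset.sum_add_distrib] at hsum
  have e1 : ∑ g : G, (if orderOf g = 19 then 173 else 0) = 173 * {g : G | orderOf g = 19}.ncard := by
    rw [Finset.sum_ite, Finset.sum_const, Finset.sum_const_zero, add_zero, smul_eq_mul, mul_comm,
      Set.ncard_eq_toFinset_card']
    congr 2
    ext g
    simp
  have e2 : ∑ g : G, (if 3 ∣ orderOf g then 168 else 0) = 168 * {g : G | 3 ∣ orderOf g}.ncard := by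
    rw [Finset.sum_ite, Finset.sum_const, Finset.sum_const_zero, add_zero, smul_eq_mul, mul_comm,
      Set.ncard_eq_toFinset_card']
    congr 2
    ext g
    simp
  have e3 : ∑ g : G, (192 : ℕ) = 192 * 3648 := by
    rw [Finset.sum_const, Finset.card_univ, ← Nat.card_eq_fintype_card, hG, smul_eq_mul, mul_comm]
  have e4 : ∑ g : G, (if g = 1 then T.ncard else 0) = T.ncard := by
    rw [Finset.sum_ite_eq' Finset.univ (1 : G) (fun _ => T.ncard)]
    simp
  rw [e1, e2, e3, e4, h19] at hsum
  nlinarith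

end Cfsg.Agent.S0974
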