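import Cfsg.Statements.S0981
import Cfsg.Agent.Lib.Helper5.G4080D
import Cfsg.Agent.S0243

set_option autoImplicit false
open Cfsg

namespace Cfsg.Agent.S0981

open Subgroup Cfsg.Agent.Lib.Helper5.G4080
open Cfsg.Agent.Lib.Helper5.G504 (cj cj_smul)

def X0 : Equiv.Perm (Fin 17) := ⟨![1,2,3,4,5,6,7,8,9,10,11,12,13,14,0,15,16], ![14,0,1,2,3,4,5,6,7,8,9,10,11,12,13,15,16], fun x => by revert x; decide, fun x => by revert x; decide⟩
def T0 : Equiv.Perm (Fin 17) := ⟨![0,14,13,12,11,10,9,8,7,6,5,4,3,2,1,16,15], ![0,14,13,12,11,10,9,8,7,6,5,4,3,2,1,16,15], fun x => by revert x; decide, fun x => by revert x; decide⟩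
def A0 : Equiv.Perm (Fin 17) := ⟨![16,4,8,14,1,10,13,9,2,7,5,12,11,6,3,15,0], ![16,4,8,14,1,10,13,9,2,7,5,12,11,6,3,15,0], fun x => by revert x; decide, fun x => by revert x; decide⟩

/-- The explicit group of order 4080 (`PSL(2,16)` on the seventeen Sylow 2-subgroups). -/
def H0 : Subgroup (Equiv.Perm (Fin 17)) := closure {X0, T0, A0}

theorem X0_spec : ∀ j : Fin 17, j ≠ 15 → j ≠ 16 → X0 j = ⟨((j : ℕ) + 1) % 15, by omega⟩ := by
  decide

theorem T0_spec : ∀ j : Fin 17, j ≠ 15 → j ≠ 16 → T0 j = ⟨(14 * (j : ℕ)) % 15, by omega⟩ := by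
  decide

/-- Every simple group of order 4080 is isomorphic to the explicit permutation group `H0`. -/
theorem simple4080_equiv {G : Type*} [Group G] [IsSimpleGroup G] (h : Nat.card G = 4080) :
    Nonempty (G ≃* H0) := by
  have : Finite G := Nat.finite_of_card_ne_zero (by rw [h]; norm_num)
  have : Fact (Nat.Prime 2) := ⟨by norm_num⟩
  have : Fact (Nat.Prime 3) := ⟨by norm_num⟩
  have : Fact (Nat.Prime 5) := ⟨by norm_num⟩
  have : Fact (Nat.Prime 17) := ⟨by norm_num⟩
  obtain ⟨T, T₀, x, a, hT₀, hox, hxT, hxT₀, haT, ha1, h14⟩ := exists_xa h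
  obtain ⟨hsq, hcomm, hC, hTI, hn2, hN2⟩ := sylow2_struct h
  obtain ⟨hQT, hQT₀, hbij⟩ := points4080 h T T₀ x a hT₀ hox hxT hxT₀ haT ha1
  obtain ⟨t, htT, htT₀, htQ, htx⟩ :=
    exists_t4080 h T T₀ (a • T₀) x hT₀ hox hxT hxT₀ hQT hQT₀ hbij
  obtain ⟨h28, h314, h510, h613, h79, h1112⟩ := table4080 h T x a hox hxT haT ha1 h14
  have hrev : ∀ i j : ℕ, a * cj x a i = cj x a j → a * cj x a j = cj x a i := by
    intro i j hij
    rw [← hij, ← mul_assoc, hsq T a haT, one_mul]
  have hcl := closure_top4080 h T T₀ x a t hT₀ hox hxT haT ha1 htT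
  have hx15 : x ^ 15 = 1 := by rw [← hox]; exact pow_orderOf_eq_one x
  have haT' : a • T = T := Sylow.smul_eq_iff_mem_normalizer.mpr (le_normalizer haT)
  obtain ⟨e, he⟩ : ∃ e : Fin 17 ≃ Sylow 2 G, e = Equiv.ofBijective _ hbij := ⟨_, rfl⟩
  have he_app : ∀ j, e j = psi17 T T₀ (a • T₀) x j := fun j => by rw [he]; rfl
  have he7 : e 15 = T := by rw [he_app]; exact if_pos rfl
  have he8 : e 16 = T₀ := by rw [he_app, psi17, if_neg (by decide), if_pos rfl]
  have hpow : ∀ n : ℕ, x ^ n • (a • T₀) = e ⟨n % 15, by omega⟩ := fun n => by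
    rw [he_app]; exact psi17_pow T T₀ (a • T₀) x hx15 n
  let ρ : G →* Equiv.Perm (Fin 17) :=
    e.symm.permCongrHom.toMonoidHom.comp (MulAction.toPermHom G (Sylow 2 G))
  have hρ : ∀ g j, e (ρ g j) = g • e j := by
    intro g j
    simp [ρ, Equiv.permCongrHom]
  have hρ' : ∀ (g : G) (σ : Equiv.Perm (Fin 17)), (∀ j, g • e j = e (σ j)) → ρ g = σ := by
    intro g σ h
    ext j
    have := e.injective ((hρ g j).trans (h j))
    rw [this]
  have hρx : ρ x = X0 := by
    apply hρ'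
    intro j
    by_cases hj7 : j = 15
    · subst hj7
      rw [he7, hxT]; exact he7.symm
    · by_cases hj8 : j = 16
      · subst hj8
        rw [he8, hxT₀]; exact he8.symm
      · rw [he_app j, psi17, if_neg hj7, if_neg hj8, ← mul_smul, ← pow_succ', hpow,
          X0_spec j hj7 hj8]
  have htpow : ∀ n : ℕ, t • (x ^ n • (a • T₀)) = x ^ (14 * n) • (a • T₀) := by
    intro n
    have e1 : t * x ^ n = (x ^ 14) ^ n * t := by
      rw [← htx, conj_pow]; group
    rw [← mul_smul, e1, mul_smul, htQ, ← pow_mul]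
  have hρt : ρ t = T0 := by
    apply hρ'
    intro j
    by_cases hj7 : j = 15
    · subst hj7
      rw [he7, htT]; exact he8.symm
    · by_cases hj8 : j = 16
      · subst hj8
        rw [he8, htT₀]; exact he7.symm
      · rw [he_app j, psi17, if_neg hj7, if_neg hj8, htpow, hpow, T0_spec j hj7 hj8]
  have hcjs : ∀ n : ℕ, x ^ n • (a • T₀) = cj x a n • T₀ :=
    fun n => (cj_smul x a T₀ hxT₀ n).symm
  have hact : ∀ i j : ℕ, a * cj x a i = cj x a j →
      a • (x ^ i • (a • T₀)) = x ^ j • (a • T₀) := by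
    intro i j hij
    rw [hcjs i, ← mul_smul, hij, ← hcjs j]
  have hek : ∀ n : ℕ, e ⟨n % 15, by omega⟩ = x ^ n • (a • T₀) := fun n => (hpow n).symm
  have hρa : ρ a = A0 := by
    apply hρ'
    intro j
    fin_cases j
    · show a • e ⟨0 % 15, by omega⟩ = e 16
      rw [hek 0, he8, pow_zero, one_smul, ← mul_smul, hsq T a haT, one_smul]
    · show a • e ⟨1 % 15, by omega⟩ = e ⟨4 % 15, by omega⟩
      rw [hek 1, hek 4]; exact hact 1 4 h14
    · show a • e ⟨2 % 15, by omega⟩ = e ⟨8 % 15, by omega⟩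
      rw [hek 2, hek 8]; exact hact 2 8 h28
    · show a • e ⟨3 % 15, by omega⟩ = e ⟨14 % 15, by omega⟩
      rw [hek 3, hek 14]; exact hact 3 14 h314
    · show a • e ⟨4 % 15, by omega⟩ = e ⟨1 % 15, by omega⟩
      rw [hek 4, hek 1]; exact hact 4 1 (hrev 1 4 h14)
    · show a • e ⟨5 % 15, by omega⟩ = e ⟨10 % 15, by omega⟩
      rw [hek 5, hek 10]; exact hact 5 10 h510
    · show a • e ⟨6 % 15, by omega⟩ = e ⟨13 % 15, by omega⟩
      rw [hek 6, hek 13]; exact hact 6 13 h613
    · show a • e ⟨7 % 15, by omega⟩ = e ⟨9 % 15, by omega⟩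
      rw [hek 7, hek 9]; exact hact 7 9 h79
    · show a • e ⟨8 % 15, by omega⟩ = e ⟨2 % 15, by omega⟩
      rw [hek 8, hek 2]; exact hact 8 2 (hrev 2 8 h28)
    · show a • e ⟨9 % 15, by omega⟩ = e ⟨7 % 15, by omega⟩
      rw [hek 9, hek 7]; exact hact 9 7 (hrev 7 9 h79)
    · show a • e ⟨10 % 15, by omega⟩ = e ⟨5 % 15, by omega⟩
      rw [hek 10, hek 5]; exact hact 10 5 (hrev 5 10 h510)
    · show a • e ⟨11 % 15, by omega⟩ = e ⟨12 % 15, by omega⟩
      rw [hek 11, hek 12]; exact hact 11 12 h1112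
    · show a • e ⟨12 % 15, by omega⟩ = e ⟨11 % 15, by omega⟩
      rw [hek 12, hek 11]; exact hact 12 11 (hrev 11 12 h1112)
    · show a • e ⟨13 % 15, by omega⟩ = e ⟨6 % 15, by omega⟩
      rw [hek 13, hek 6]; exact hact 13 6 (hrev 6 13 h613)
    · show a • e ⟨14 % 15, by omega⟩ = e ⟨3 % 15, by omega⟩
      rw [hek 14, hek 3]; exact hact 14 3 (hrev 3 14 h314)
    · show a • e 15 = e 15
      rw [he7]; exact haT'
    · show a • e 16 = e ⟨0 % 15, by omega⟩
      rw [he8, hek 0, pow_zero, one_smul]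
  have hinj : Function.Injective ρ := by
    rw [← MonoidHom.ker_eq_bot_iff]
    rcases (MonoidHom.normal_ker ρ).eq_bot_or_eq_top with hk | hk
    · exact hk
    · exfalso
      have h1 : x ∈ ρ.ker := by rw [hk]; trivial
      rw [MonoidHom.mem_ker, hρx] at h1
      exact absurd h1 (by decide)
  have hrange : ρ.range = H0 := by
    rw [MonoidHom.range_eq_map, ← hcl, MonoidHom.map_closure]
    have e1 : (ρ '' {x, t, a}) = {X0, T0, A0} := by
      rw [Set.image_insert_eq, Set.image_insert_eq, Set.image_singleton, hρx, hρt, hρa]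
    rw [e1]; rfl
  exact ⟨(MonoidHom.ofInjective hinj).trans (MulEquiv.subgroupCongr hrange)⟩

/-- `PSL(2,16)` has order 4080. -/
theorem card_psl216 {F : Type*} [Field F] [Fintype F] (hF : Fintype.card F = 16) :
    Nat.card (Matrix.ProjectiveSpecialLinearGroup (Fin 2) F) = 4080 := by
  have h1 := Cfsg.Agent.S0243.result hF 2 (le_refl 2)
  simp only [Fin.prod_univ_two, Fin.val_zero, Fin.val_one, pow_zero, pow_one] at h1
  norm_num at h1
  omega


/-- A simple group of order 4080 is isomorphic to the projective special linear group of dimension 2 over the field with 16 elements. -/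
theorem result {G : Type*} [Group G] [Finite G] [IsSimpleGroup G] (h : Nat.card G = 4080) {F : Type*} [Field F] [Fintype F] (hF : Fintype.card F = 16) : Nonempty (G ≃* Matrix.ProjectiveSpecialLinearGroup (Fin 2) F) := by
  have hs : IsSimpleGroup (Matrix.ProjectiveSpecialLinearGroup (Fin 2) F) :=
    Matrix.ProjectiveSpecialLinearGroup.rank_two_simple
      (by rw [Nat.card_eq_fintype_card, hF]; norm_num)
  obtain ⟨e1⟩ := simple4080_equiv h
  obtain ⟨e2⟩ := simple4080_equiv (card_psl216 hF)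
  exact ⟨e1.trans e2.symm⟩

end Cfsg.Agent.S0981
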