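import Cfsg.Statements.S0995
import Cfsg.Agent.Lib.Helper21.SelfCent

set_option autoImplicit false
open Cfsg

namespace Cfsg.Agent.S0995

open Cfsg.Agent.Lib.Helper21

/-- Let G be a finite perfect group containing an element z of prime order p whose centralizer is the cyclic group it generates. Let t be the number of conjugacy classes of elements of order p. Then t divides p - 1, the number of Sylow p-subgroups has the form 1 + n * p, and |G| * t = (p - 1) * p * (1 + n * p). -/
theorem result {G : Type*} [Group G] [Finite G] (hperf : commutator G = ⊤) (p : ℕ) [Fact p.Prime] (z : G) (hz : orderOf z = p) (hC : Subgroup.centralizer ({z} : Set G) = Subgroup.zpowers z) : ∃ n t : ℕ, t = Nat.card {c : ConjClasses G // ∃ g : G, ConjClasses.mk g = c ∧ orderOf g = p} ∧ t ∣ p - 1 ∧ Nat.card (Sylow p G) = 1 + n * p ∧ Nat.card G * t = (p - 1) * p * (1 + n * p) := by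
  have hp : p.Prime := Fact.out
  have e : Nat.card {c : ConjClasses G // ∃ g : G, ConjClasses.mk g = c ∧ orderOf g = p} =
      Nat.card {C : ConjClasses G // ∃ g ∈ C.carrier, orderOf g = p} := by
    refine Nat.card_congr (Equiv.subtypeEquivRight (fun c => ?_))
    constructor
    · rintro ⟨g, hg, ho⟩
      exact ⟨g, ConjClasses.mem_carrier_iff_mk_eq.2 hg, ho⟩
    · rintro ⟨g, hg, ho⟩
      exact ⟨g, ConjClasses.mem_carrier_iff_mk_eq.1 hg, ho⟩
  have htr := sc_t_mul_relIndex hp hz hC
  have hcc := sc_class_count hp hz hC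
  rw [← e] at htr hcc
  have hmod := card_sylow_modEq_one p G
  obtain ⟨Q, hQ⟩ := Cfsg.Agent.S4496.exists_sylow hz hC
  have hidx : Nat.card (Sylow p G) =
      (Subgroup.normalizer ((Subgroup.zpowers z : Subgroup G) : Set G)).index := by
    rw [Sylow.card_eq_index_normalizer Q, ← hQ]
    rfl
  have hc : Nat.card (Sylow p G) = 1 + Nat.card (Sylow p G) / p * p := by
    have h1 : Nat.card (Sylow p G) % p = 1 := by
      have h0 := hmod
      rw [Nat.ModEq, Nat.mod_eq_of_lt hp.one_lt] at h0
      exact h0
    have h2 := Nat.div_add_mod (Nat.card (Sylow p G)) p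
    rw [h1] at h2
    calc Nat.card (Sylow p G) = p * (Nat.card (Sylow p G) / p) + 1 := h2.symm
      _ = 1 + Nat.card (Sylow p G) / p * p := by ring
  refine ⟨Nat.card (Sylow p G) / p, _, rfl, Dvd.intro _ htr, hc, ?_⟩
  rw [← hc, hidx]
  have h3 := (Subgroup.normalizer ((Subgroup.zpowers z : Subgroup G) : Set G)).index_mul_card
  rw [← h3, mul_assoc, mul_comm (Nat.card _) (Nat.card _), hcc]
  ring

end Cfsg.Agent.S0995
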