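import Cfsg.Statements.S1004
import Cfsg.Agent.S1005
import Cfsg.Agent.S0206

set_option autoImplicit false
open Cfsg

namespace Cfsg.Agent.S1004

open Subgroup Cfsg.Agent.Lib.Helper8 Cfsg.Agent.S1002 Cfsg.Agent.S1003 Cfsg.Agent.S1005

section aux
set_option linter.unusedSectionVars false
variable {G : Type*} [Group G] [Finite G]

theorem order4_card [IsSimpleGroup G] (hG : Nat.card G = 168) [Fact (Nat.Prime 2)]
    [Fact (Nat.Prime 3)] [Fact (Nat.Prime 7)] (T0 : Sylow 2 G) :
    Nat.card {u : G // u ∈ (T0 : Subgroup G) ∧ orderOf u = 4} ≤ 2 := by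
  classical
  obtain ⟨hc7, hc3, hc2, hn7, hn3, hn2, hN7, hN3, hN2, hnc⟩ := facts168 hG
  obtain ⟨hE2, hE4⟩ := counts168 hG
  have : Fintype (Sylow 2 G) := Fintype.ofFinite _
  let f : (Σ T : Sylow 2 G, {u : G // u ∈ (T : Subgroup G) ∧ orderOf u = 4}) →
      {g : G | orderOf g = 4} := fun x => ⟨x.2.1, x.2.2.2⟩
  have hf : Function.Injective f := by
    rintro ⟨T, u, hu, ho⟩ ⟨T', u', hu', ho'⟩ hxy
    have huu : u = u' := congrArg Subtype.val hxy
    subst huu
    have hTT : T = T' := sylow_of_order4 hG T T' u hu hu' ho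
    subst hTT
    rfl
  have h1 := Nat.card_le_card_of_injective f hf
  rw [Nat.card_sigma, Nat.card_coe_set_eq, hE4] at h1
  have h2 : ∀ T : Sylow 2 G,
      2 ≤ Nat.card {u : G // u ∈ (T : Subgroup G) ∧ orderOf u = 4} := by
    intro T
    obtain ⟨u, hu, ho⟩ := exists_order4 hG T
    have hne : u ≠ u⁻¹ := by
      intro h
      have h2 : u ^ 2 = 1 := by
        rw [sq]
        nth_rewrite 2 [h]
        exact mul_inv_cancel u
      have := orderOf_dvd_of_pow_eq_one h2
      rw [ho] at this
      norm_num at this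
    have : Nontrivial {u : G // u ∈ (T : Subgroup G) ∧ orderOf u = 4} :=
      ⟨⟨⟨u, hu, ho⟩, ⟨u⁻¹, inv_mem hu, by rw [orderOf_inv]; exact ho⟩,
        fun h => hne (congrArg Subtype.val h)⟩⟩
    exact Finite.one_lt_card
  have h3 := Finset.add_sum_erase Finset.univ
    (fun T : Sylow 2 G => Nat.card {u : G // u ∈ (T : Subgroup G) ∧ orderOf u = 4})
    (Finset.mem_univ T0)
  have h4 : (Finset.univ.erase T0).card • 2 ≤ ∑ T ∈ Finset.univ.erase T0,
      Nat.card {u : G // u ∈ (T : Subgroup G) ∧ orderOf u = 4} :=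
    Finset.card_nsmul_le_sum _ _ _ (fun T _ => h2 T)
  rw [Finset.card_erase_of_mem (Finset.mem_univ _), Finset.card_univ,
    ← Nat.card_eq_fintype_card, hn2] at h4
  simp only [smul_eq_mul] at h4
  omega

theorem sylow_dihedral [IsSimpleGroup G] (hG : Nat.card G = 168) [Fact (Nat.Prime 2)]
    [Fact (Nat.Prime 3)] [Fact (Nat.Prime 7)] (T : Sylow 2 G) :
    Nonempty (↥(T : Subgroup G) ≃* DihedralGroup 4) := by
  obtain ⟨hc7, hc3, hc2, hn7, hn3, hn2, hN7, hN3, hN2, hnc⟩ := facts168 hG
  obtain ⟨u, hu, ho⟩ := exists_order4 hG T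
  have hle2 := order4_card hG T
  have hne : u ≠ u⁻¹ := by
    intro h
    have h2 : u ^ 2 = 1 := by
      rw [sq]
      nth_rewrite 2 [h]
      exact mul_inv_cancel u
    have := orderOf_dvd_of_pow_eq_one h2
    rw [ho] at this
    norm_num at this
  have h4 : ∀ w ∈ (T : Subgroup G), orderOf w = 4 → w = u ∨ w = u⁻¹ := by
    intro w hw hwo
    by_contra hcon
    push Not at hcon
    have h3 : ({u, u⁻¹, w} : Set G).ncard = 3 :=
      Set.ncard_eq_three.mpr ⟨u, u⁻¹, w, hne, fun h => hcon.1 h.symm, fun h => hcon.2 h.symm, rfl⟩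
    have hsub : ({u, u⁻¹, w} : Set G) ⊆ {u : G | u ∈ (T : Subgroup G) ∧ orderOf u = 4} := by
      rintro x (rfl | rfl | rfl)
      · exact ⟨hu, ho⟩
      · exact ⟨inv_mem hu, by rw [orderOf_inv]; exact ho⟩
      · exact ⟨hw, hwo⟩
    have h5 := Set.ncard_le_ncard hsub
    rw [h3, ← Nat.card_coe_set_eq] at h5
    exact absurd (h5.trans hle2) (by norm_num)
  have hlt : zpowers u < (T : Subgroup G) := by
    apply lt_of_le_of_ne (by rw [zpowers_le]; exact hu)
    intro heq
    have h8 : Nat.card (zpowers u) = 8 := by rw [heq]; exact hc2 T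
    rw [Nat.card_zpowers, ho] at h8
    norm_num at h8
  obtain ⟨s, hsT, hsu⟩ := SetLike.exists_of_lt hlt
  have order2 : ∀ w ∈ (T : Subgroup G), w ∉ zpowers u → orderOf w = 2 := by
    intro w hw hwu
    have hd : orderOf w ∣ 8 := by
      have := Subgroup.orderOf_dvd_natCard (T : Subgroup G) hw
      rwa [hc2 T] at this
    rcases orders168 hG w with h | h | h | h | h
    · exfalso
      rw [orderOf_eq_one_iff] at h
      rw [h] at hwu
      exact hwu (one_mem _)
    · exact h
    · rw [h] at hd; norm_num at hd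
    · exfalso
      rcases h4 w hw h with rfl | rfl
      · exact hwu (mem_zpowers _)
      · exact hwu (inv_mem (mem_zpowers _))
    · rw [h] at hd; norm_num at hd
  have hs2 := order2 s hsT hsu
  have hsu2 := order2 (s * u) (mul_mem hsT hu) (fun hmem => hsu (by
    have := mul_mem hmem (inv_mem (mem_zpowers u))
    simpa using this))
  have hne' : s ≠ s * u := by
    intro h
    have h1 : u = 1 := by
      have := congrArg (fun y => s⁻¹ * y) h
      simpa using this.symm
    rw [h1, orderOf_one] at ho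
    norm_num at ho
  have hss : s * s = 1 := by
    rw [← sq, ← hs2]; exact pow_orderOf_eq_one s
  have hprod : orderOf (s * (s * u)) = 4 := by
    rw [← mul_assoc, hss, one_mul]; exact ho
  obtain ⟨e⟩ := Cfsg.Agent.S0206.result s (s * u) hs2 hsu2 hne'
  rw [hprod] at e
  have hcl : closure ({s, s * u} : Set G) ≤ (T : Subgroup G) := by
    rw [closure_le]
    rintro x (rfl | rfl)
    · exact hsT
    · exact mul_mem hsT hu
  have hcard : Nat.card (closure ({s, s * u} : Set G)) = 8 := by
    rw [Nat.card_congr e.toEquiv, DihedralGroup.nat_card]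
  have heq : closure ({s, s * u} : Set G) = (T : Subgroup G) :=
    Subgroup.eq_of_le_of_card_ge hcl (by rw [hcard, hc2 T])
  exact ⟨(MulEquiv.subgroupCongr heq).symm.trans e⟩

end aux

/-- Let G be a simple group of order 168 and T a Sylow 2-subgroup. Then T is dihedral of order 8, T is its own normalizer, and T is the centralizer of any non-identity element of T that commutes with every element of T. -/
theorem result {G : Type*} [Group G] [Finite G] [IsSimpleGroup G] (h : Nat.card G = 168) (T : Sylow 2 G) : Nonempty (↥(T : Subgroup G) ≃* DihedralGroup 4) ∧ Subgroup.normalizer ((T : Subgroup G) : Set G) = T ∧ ∀ z : G, z ∈ (T : Subgroup G) → z ≠ 1 → (∀ t ∈ (T : Subgroup G), t * z = z * t) → Subgroup.centralizer ({z} : Set G) = T := by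
  have p2 : Fact (Nat.Prime 2) := ⟨Nat.prime_two⟩
  have p3 : Fact (Nat.Prime 3) := ⟨Nat.prime_three⟩
  have p7 : Fact (Nat.Prime 7) := ⟨by norm_num⟩
  obtain ⟨hc7, hc3, hc2, hn7, hn3, hn2, hN7, hN3, hN2, hnc⟩ := facts168 h
  refine ⟨sylow_dihedral h T, ?_, fun z hz hz1 hcen => centralizer_central h T z hz hz1 hcen⟩
  exact (Subgroup.eq_of_le_of_card_ge le_normalizer (by rw [hN2 T, hc2 T])).symm

end Cfsg.Agent.S1004
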