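import Cfsg.Statements.S1006
import Cfsg.Agent.S1004
import Cfsg.Agent.Lib.Helper8.PermSylow

set_option autoImplicit false
open Cfsg

namespace Cfsg.Agent.S1006

open Subgroup Cfsg.Agent.Lib.Helper8 Cfsg.Agent.S1002 Cfsg.Agent.S1003 Cfsg.Agent.S1005
  Cfsg.Agent.S1004

section aux
set_option linter.unusedSectionVars false
variable {G : Type*} [Group G] [Finite G]

theorem class_card_ge (x : G) :
    Nat.card G ≤ Nat.card (centralizer ({x} : Set G)) * Nat.card {g : G // IsConj x g} := by
  let f : G → {g : G // IsConj x g} := fun g => ⟨g * x * g⁻¹, isConj_iff.mpr ⟨g, rfl⟩⟩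
  apply card_le_mul_of_fibers f
  intro b
  by_cases hne : Nonempty {a // f a = b}
  · obtain ⟨a0, ha0⟩ := hne
    let φ : {a // f a = b} → centralizer ({x} : Set G) := fun a => ⟨a0⁻¹ * a.1, by
      rw [Subgroup.mem_centralizer_iff]
      intro h hh
      rw [Set.mem_singleton_iff] at hh
      subst hh
      have h1 : a.1 * h * a.1⁻¹ = a0 * h * a0⁻¹ :=
        (congrArg Subtype.val a.2).trans (congrArg Subtype.val ha0).symm
      calc h * (a0⁻¹ * a.1) = a0⁻¹ * (a0 * h * a0⁻¹) * a.1 := by group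
        _ = a0⁻¹ * (a.1 * h * a.1⁻¹) * a.1 := by rw [h1]
        _ = a0⁻¹ * a.1 * h := by group⟩
    have hφ : Function.Injective φ := by
      intro a a' haa
      have h1 : a0⁻¹ * a.1 = a0⁻¹ * a'.1 := congrArg Subtype.val haa
      exact Subtype.ext (mul_left_cancel h1)
    exact Nat.card_le_card_of_injective φ hφ
  · rw [not_nonempty_iff] at hne
    rw [Nat.card_of_isEmpty]
    exact Nat.zero_le _

theorem conj_of_class_ge {n : ℕ} (s t : G) (hs : orderOf s = n) (ht : orderOf t = n)
    (hcard : {g : G | orderOf g = n}.ncard ≤ Nat.card {g : G // IsConj s g}) : IsConj s t := by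
  have hsub : {g : G | IsConj s g} ⊆ {g : G | orderOf g = n} := by
    intro g hg
    obtain ⟨c, hc⟩ := isConj_iff.mp hg
    have e : c * s * c⁻¹ = (MulAut.conj c).toMonoidHom s := rfl
    show orderOf g = n
    rw [← hc, e, orderOf_injective _ (MulAut.conj c).injective, hs]
  have heq := Set.eq_of_subset_of_ncard_le hsub (by
    rw [← Nat.card_coe_set_eq {g : G | IsConj s g}]; exact hcard)
  have : t ∈ {g : G | IsConj s g} := by rw [heq]; exact ht
  exact this

theorem order2_outside [IsSimpleGroup G] (hG : Nat.card G = 168) [Fact (Nat.Prime 2)]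
    [Fact (Nat.Prime 3)] [Fact (Nat.Prime 7)] (T : Sylow 2 G) (u : G)
    (hu : u ∈ (T : Subgroup G)) (ho : orderOf u = 4) (w : G) (hw : w ∈ (T : Subgroup G))
    (hwu : w ∉ zpowers u) : orderOf w = 2 := by
  obtain ⟨hc7, hc3, hc2, hn7, hn3, hn2, hN7, hN3, hN2, hnc⟩ := facts168 hG
  have hle2 := order4_card hG T
  have hne : u ≠ u⁻¹ := by
    intro h
    have h2 : u ^ 2 = 1 := by
      rw [sq]
      nth_rewrite 2 [h]
      exact mul_inv_cancel u
    have := orderOf_dvd_of_pow_eq_one h2
    rw [ho] at this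
    norm_num at this
  have h4 : ∀ w ∈ (T : Subgroup G), orderOf w = 4 → w = u ∨ w = u⁻¹ := by
    intro w hw hwo
    by_contra hcon
    push Not at hcon
    have h3 : ({u, u⁻¹, w} : Set G).ncard = 3 :=
      Set.ncard_eq_three.mpr ⟨u, u⁻¹, w, hne, fun h => hcon.1 h.symm, fun h => hcon.2 h.symm, rfl⟩
    have hsub : ({u, u⁻¹, w} : Set G) ⊆ {u : G | u ∈ (T : Subgroup G) ∧ orderOf u = 4} := by
      rintro x (rfl | rfl | rfl)
      · exact ⟨hu, ho⟩
      · exact ⟨inv_mem hu, by rw [orderOf_inv]; exact ho⟩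
      · exact ⟨hw, hwo⟩
    have h5 := Set.ncard_le_ncard hsub
    rw [h3, ← Nat.card_coe_set_eq] at h5
    exact absurd (h5.trans hle2) (by norm_num)
  have hd : orderOf w ∣ 8 := by
    have := Subgroup.orderOf_dvd_natCard (T : Subgroup G) hw
    rwa [hc2 T] at this
  rcases orders168 hG w with h | h | h | h | h
  · exfalso
    rw [orderOf_eq_one_iff] at h
    rw [h] at hwu
    exact hwu (one_mem _)
  · exact h
  · rw [h] at hd; norm_num at hd
  · exfalso
    rcases h4 w hw h with rfl | rfl
    · exact hwu (mem_zpowers _)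
    · exact hwu (inv_mem (mem_zpowers _))
  · rw [h] at hd; norm_num at hd

theorem centralizer_order4 [IsSimpleGroup G] (hG : Nat.card G = 168) [Fact (Nat.Prime 2)]
    [Fact (Nat.Prime 3)] [Fact (Nat.Prime 7)] (u : G) (ho : orderOf u = 4) :
    Nat.card (centralizer ({u} : Set G)) ≤ 4 := by
  obtain ⟨hc7, hc3, hc2, hn7, hn3, hn2, hN7, hN3, hN2, hnc⟩ := facts168 hG
  have hpg : IsPGroup 2 (zpowers u) :=
    IsPGroup.of_card (n := 2) (by rw [Nat.card_zpowers, ho]; norm_num)
  obtain ⟨T, hT⟩ := hpg.exists_le_sylow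
  have hu : u ∈ (T : Subgroup G) := hT (mem_zpowers u)
  have hu2 : u ^ 2 ≠ 1 := pow_ne_one_of_lt_orderOf (by norm_num) (by rw [ho]; norm_num)
  have hC2 := centralizer_central hG T (u ^ 2) (pow_mem hu 2) hu2 (sq_central T (hc2 T) u hu ho)
  have hle : centralizer ({u} : Set G) ≤ (T : Subgroup G) := by
    rw [← hC2]
    intro y hy
    rw [Subgroup.mem_centralizer_iff] at hy ⊢
    intro h hh
    rw [Set.mem_singleton_iff] at hh
    subst hh
    have h1 : Commute u y := hy u rfl
    exact (h1.pow_left 2).eq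
  have hne : centralizer ({u} : Set G) ≠ (T : Subgroup G) := by
    intro heq
    have hlt : zpowers u < (T : Subgroup G) := by
      apply lt_of_le_of_ne hT
      intro heq'
      have h8 : Nat.card (zpowers u) = 8 := by rw [heq']; exact hc2 T
      rw [Nat.card_zpowers, ho] at h8
      norm_num at h8
    obtain ⟨s, hsT, hsu⟩ := SetLike.exists_of_lt hlt
    have hs2 := order2_outside hG T u hu ho s hsT hsu
    have hsu2 := order2_outside hG T u hu ho (s * u) (mul_mem hsT hu) (fun hmem => hsu (by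
      have := mul_mem hmem (inv_mem (mem_zpowers u))
      simpa using this))
    have hcomm : u * s = s * u := by
      have : s ∈ centralizer ({u} : Set G) := by rw [heq]; exact hsT
      rw [Subgroup.mem_centralizer_iff] at this
      exact this u rfl
    have hss : s * s = 1 := by
      rw [← sq, ← hs2]; exact pow_orderOf_eq_one s
    have h1 : (s * u) * (s * u) = 1 := by
      rw [← sq, ← hsu2]; exact pow_orderOf_eq_one (s * u)
    apply hu2
    calc u ^ 2 = (s * s) * (u * u) := by rw [hss, one_mul, sq]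
      _ = s * (s * u) * u := by group
      _ = s * (u * s) * u := by rw [hcomm]
      _ = (s * u) * (s * u) := by group
      _ = 1 := h1
  have h1 := Subgroup.card_dvd_of_le hle
  rw [hc2 T] at h1
  have h2 : Nat.card (centralizer ({u} : Set G)) ≠ 8 := by
    intro h
    exact hne (Subgroup.eq_of_le_of_card_ge hle (by rw [h, hc2 T]))
  have h3 := Nat.le_of_dvd (by norm_num) h1
  generalize Nat.card (centralizer ({u} : Set G)) = d at *
  interval_cases d <;> simp_all

theorem centralizer_prime_le [IsSimpleGroup G] {p q : ℕ} [hp : Fact p.Prime] (hq : q.Prime)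
    (hc : ∀ P : Sylow p G, Nat.card P = p) (hPG : p ≠ Nat.card G)
    (hN : ∀ P : Sylow p G, Nat.card (normalizer ((P : Subgroup G) : Set G)) = p * q)
    (t : G) (ht : orderOf t = p) : Nat.card (centralizer ({t} : Set G)) ≤ p := by
  have hle : centralizer ({t} : Set G) ≤ zpowers t := by
    intro y hy
    rw [Subgroup.mem_centralizer_iff] at hy
    exact commute_mem_zpowers hq hc hPG hN t y ht (hy t rfl)
  have := Subgroup.card_le_of_le hle
  rwa [Nat.card_zpowers, ht] at this

theorem not_conj_inv7 [IsSimpleGroup G] (hG : Nat.card G = 168) [Fact (Nat.Prime 2)]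
    [Fact (Nat.Prime 3)] [Fact (Nat.Prime 7)] (x : G) (hx : orderOf x = 7) :
    ¬ IsConj x x⁻¹ := by
  obtain ⟨hc7, hc3, hc2, hn7, hn3, hn2, hN7, hN3, hN2, hnc⟩ := facts168 hG
  intro hconj
  obtain ⟨g, hg⟩ := isConj_iff.mp hconj
  have hpg : IsPGroup 7 (zpowers x) :=
    IsPGroup.of_card (n := 1) (by rw [Nat.card_zpowers, hx, pow_one])
  obtain ⟨P, hP⟩ := hpg.exists_le_sylow
  have hPx : zpowers x = (P : Subgroup G) :=
    Subgroup.eq_of_le_of_card_ge hP (by rw [Nat.card_zpowers, hx, hc7 P])
  have hgN : g ∈ normalizer ((P : Subgroup G) : Set G) := by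
    apply mem_normalizer_of_conj_mem
    intro y hy
    rw [← hPx] at hy ⊢
    obtain ⟨k, rfl⟩ := Subgroup.mem_zpowers_iff.mp hy
    have : g * x ^ k * g⁻¹ = (x⁻¹) ^ k := by
      rw [← hg]
      exact (conj_zpow).symm
    rw [this]
    exact zpow_mem (inv_mem (mem_zpowers x)) k
  have hdvd := Subgroup.orderOf_dvd_natCard _ hgN
  rw [hN7 P] at hdvd
  have hodd : Odd (orderOf g) := by
    have h21 : Odd 21 := by decide
    exact Odd.of_dvd_nat h21 hdvd
  obtain ⟨m, hm⟩ := hodd
  have hg2 : Commute (g ^ 2) x := by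
    show g ^ 2 * x = x * g ^ 2
    have h1 : g * x = x⁻¹ * g := by
      have := congrArg (fun y => y * g) hg
      simpa using this
    have h2 : g * x⁻¹ = x * g := by
      have h3 : g * x⁻¹ * g⁻¹ = x := by
        have := congrArg (fun y => y⁻¹) hg
        simpa [mul_assoc] using this
      have := congrArg (fun y => y * g) h3
      simpa using this
    calc g ^ 2 * x = g * (g * x) := by rw [sq, mul_assoc]
      _ = g * (x⁻¹ * g) := by rw [h1]
      _ = (g * x⁻¹) * g := by rw [mul_assoc]
      _ = x * g * g := by rw [h2]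
      _ = x * g ^ 2 := by rw [sq, mul_assoc]
  have hgm : Commute ((g ^ 2) ^ m) x := hg2.pow_left m
  have h1 : g ^ (2 * m + 1) = 1 := by rw [← hm]; exact pow_orderOf_eq_one g
  have h2 : g ^ (2 * m + 1) = (g ^ 2) ^ m * g := by
    rw [pow_succ, pow_mul]
  have h3 : (g ^ 2) ^ m * g = 1 := h2 ▸ h1
  have h4 : x = x⁻¹ := by
    have h5 : g = ((g ^ 2) ^ m)⁻¹ := eq_inv_of_mul_eq_one_right h3
    have h6 : Commute g x := by
      rw [h5]; exact hgm.inv_left
    have h7 : g * x * g⁻¹ = x := by
      rw [h6.eq, mul_inv_cancel_right]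
    exact h7.symm.trans hg
  have h8 : x ^ 2 = 1 := by
    rw [sq]
    nth_rewrite 2 [h4]
    exact mul_inv_cancel x
  have := orderOf_dvd_of_pow_eq_one h8
  rw [hx] at this
  norm_num at this

end aux

/-- In a simple group of order 168 there are 56 elements of order 3, all conjugate; 42 elements of order 4, all conjugate; and 48 elements of order 7 falling into two conjugacy classes of size 24, an element of order 7 not being conjugate to its inverse. -/
theorem result {G : Type*} [Group G] [Finite G] [IsSimpleGroup G] (h : Nat.card G = 168) : Nat.card {g : G // orderOf g = 3} = 56 ∧ (∀ s t : G, orderOf s = 3 → orderOf t = 3 → IsConj s t) ∧ Nat.card {g : G // orderOf g = 4} = 42 ∧ (∀ s t : G, orderOf s = 4 → orderOf t = 4 → IsConj s t) ∧ Nat.card {g : G // orderOf g = 7} = 48 ∧ ∀ x : G, orderOf x = 7 → Nat.card {g : G // IsConj x g} = 24 ∧ ¬ IsConj x x⁻¹ := by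
  have p2 : Fact (Nat.Prime 2) := ⟨Nat.prime_two⟩
  have p3 : Fact (Nat.Prime 3) := ⟨Nat.prime_three⟩
  have p7 : Fact (Nat.Prime 7) := ⟨by norm_num⟩
  obtain ⟨hc7, hc3, hc2, hn7, hn3, hn2, hN7, hN3, hN2, hnc⟩ := facts168 h
  obtain ⟨hE2, hE4⟩ := counts168 h
  have hE3 : {g : G | orderOf g = 3}.ncard = 56 := by rw [card_order_eq hc3, hn3]
  have hE7 : {g : G | orderOf g = 7}.ncard = 48 := by rw [card_order_eq hc7, hn7]
  have hcl3 : ∀ s : G, orderOf s = 3 → 56 ≤ Nat.card {g : G // IsConj s g} := by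
    intro s hs
    have h1 := class_card_ge s
    have h2 := centralizer_prime_le (p := 3) (q := 2) Nat.prime_two hc3 (by rw [h]; norm_num)
      (fun Q => by rw [hN3 Q]) s hs
    rw [h] at h1
    nlinarith
  have hcl4 : ∀ s : G, orderOf s = 4 → 42 ≤ Nat.card {g : G // IsConj s g} := by
    intro s hs
    have h1 := class_card_ge s
    have h2 := centralizer_order4 h s hs
    rw [h] at h1
    nlinarith
  have hcl7 : ∀ s : G, orderOf s = 7 → 24 ≤ Nat.card {g : G // IsConj s g} := by
    intro s hs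
    have h1 := class_card_ge s
    have h2 := centralizer_prime_le (p := 7) (q := 3) Nat.prime_three hc7 (by rw [h]; norm_num)
      (fun Q => by rw [hN7 Q]) s hs
    rw [h] at h1
    nlinarith
  refine ⟨?_, ?_, ?_, ?_, ?_, ?_⟩
  · rw [← Nat.card_coe_set_eq] at hE3
    exact hE3
  · intro s t hs ht
    exact conj_of_class_ge s t hs ht (by rw [hE3]; exact hcl3 s hs)
  · rw [← Nat.card_coe_set_eq] at hE4
    exact hE4
  · intro s t hs ht
    exact conj_of_class_ge s t hs ht (by rw [hE4]; exact hcl4 s hs)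
  · rw [← Nat.card_coe_set_eq] at hE7
    exact hE7
  · intro x hx
    have hnc7 := not_conj_inv7 h x hx
    refine ⟨?_, hnc7⟩
    have hxi : orderOf x⁻¹ = 7 := by rw [orderOf_inv]; exact hx
    have h1 := hcl7 x hx
    have h2 := hcl7 x⁻¹ hxi
    have hsub : ∀ s : G, orderOf s = 7 → {g : G | IsConj s g} ⊆ {g : G | orderOf g = 7} := by
      intro s hs g hg
      obtain ⟨c, hc⟩ := isConj_iff.mp hg
      have e : c * s * c⁻¹ = (MulAut.conj c).toMonoidHom s := rfl
      show orderOf g = 7
      rw [← hc, e, orderOf_injective _ (MulAut.conj c).injective, hs]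
    have hdisj : Disjoint {g : G | IsConj x g} {g : G | IsConj x⁻¹ g} := by
      rw [Set.disjoint_left]
      intro g hg hg'
      exact hnc7 (IsConj.trans hg (IsConj.symm hg'))
    have h3 := Set.ncard_le_ncard (Set.union_subset (hsub x hx) (hsub x⁻¹ hxi))
    rw [Set.ncard_union_eq hdisj, hE7, ← Nat.card_coe_set_eq, ← Nat.card_coe_set_eq] at h3
    have h1' : 24 ≤ Nat.card ↥{g : G | IsConj x g} := h1
    have h2' : 24 ≤ Nat.card ↥{g : G | IsConj x⁻¹ g} := h2
    have h4 : Nat.card {g : G // IsConj x g} = Nat.card ↥{g : G | IsConj x g} := rfl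
    omega

end Cfsg.Agent.S1006
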