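import Cfsg.Statements.S1011
import Cfsg.Agent.Lib.Helper5.G504D
import Cfsg.Agent.S0243

set_option autoImplicit false
open Cfsg

namespace Cfsg.Agent.S1011

open Subgroup Cfsg.Agent.Lib.Helper5.G504

def X0 : Equiv.Perm (Fin 9) := ⟨![1,2,3,4,5,6,0,7,8], ![6,0,1,2,3,4,5,7,8], fun x => by revert x; decide, fun x => by revert x; decide⟩
def T0 : Equiv.Perm (Fin 9) := ⟨![0,6,5,4,3,2,1,8,7], ![0,6,5,4,3,2,1,8,7], fun x => by revert x; decide, fun x => by revert x; decide⟩
def A0 : Equiv.Perm (Fin 9) := ⟨![8,3,6,1,5,4,2,7,0], ![8,3,6,1,5,4,2,7,0], fun x => by revert x; decide, fun x => by revert x; decide⟩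

/-- The explicit group of order 504 (`PSL(2,8)` on the nine Sylow 2-subgroups). -/
def H0 : Subgroup (Equiv.Perm (Fin 9)) := closure {X0, T0, A0}

theorem X0_spec : ∀ j : Fin 9, j ≠ 7 → j ≠ 8 → X0 j = ⟨((j : ℕ) + 1) % 7, by omega⟩ := by
  decide

theorem T0_spec : ∀ j : Fin 9, j ≠ 7 → j ≠ 8 → T0 j = ⟨(6 * (j : ℕ)) % 7, by omega⟩ := by
  decide

/-- Every simple group of order 504 is isomorphic to the explicit permutation group `H0`. -/
theorem simple504_equiv {G : Type*} [Group G] [IsSimpleGroup G] (h : Nat.card G = 504) :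
    Nonempty (G ≃* H0) := by
  have : Finite G := Nat.finite_of_card_ne_zero (by rw [h]; norm_num)
  have : Fact (Nat.Prime 2) := ⟨by norm_num⟩
  have : Fact (Nat.Prime 3) := ⟨by norm_num⟩
  have : Fact (Nat.Prime 7) := ⟨by norm_num⟩
  obtain ⟨T, T₀, x, a, hT₀, hox, hxT, hxT₀, haT, ha1, h3⟩ := exists_xa h
  obtain ⟨hsq, hcomm, hC, hTI, hn2, hN2⟩ := sylow2_struct h
  obtain ⟨hQT, hQT₀, hbij⟩ := points504 h T T₀ x a hT₀ hox hxT hxT₀ haT ha1
  obtain ⟨t, htT, htT₀, htQ, htx⟩ :=
    exists_t504 h T T₀ (a • T₀) x hT₀ hox hxT hxT₀ hQT hQT₀ hbij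
  obtain ⟨h31, h26, h62, h45, h54⟩ := table504 h T x a hox hxT haT ha1 h3
  have hcl := closure_top504 h T T₀ x a t hT₀ hox hxT haT ha1 htT
  have hx7 : x ^ 7 = 1 := by rw [← hox]; exact pow_orderOf_eq_one x
  have haT' : a • T = T := Sylow.smul_eq_iff_mem_normalizer.mpr (le_normalizer haT)
  obtain ⟨e, he⟩ : ∃ e : Fin 9 ≃ Sylow 2 G, e = Equiv.ofBijective _ hbij := ⟨_, rfl⟩
  have he_app : ∀ j, e j = psi9 T T₀ (a • T₀) x j := fun j => by rw [he]; rfl
  have he7 : e 7 = T := by rw [he_app]; exact if_pos rfl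
  have he8 : e 8 = T₀ := by rw [he_app, psi9, if_neg (by decide), if_pos rfl]
  have hpow : ∀ n : ℕ, x ^ n • (a • T₀) = e ⟨n % 7, by omega⟩ := fun n => by
    rw [he_app]; exact psi9_pow T T₀ (a • T₀) x hx7 n
  let ρ : G →* Equiv.Perm (Fin 9) :=
    e.symm.permCongrHom.toMonoidHom.comp (MulAction.toPermHom G (Sylow 2 G))
  have hρ : ∀ g j, e (ρ g j) = g • e j := by
    intro g j
    simp [ρ, Equiv.permCongrHom]
  have hρ' : ∀ (g : G) (σ : Equiv.Perm (Fin 9)), (∀ j, g • e j = e (σ j)) → ρ g = σ := by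
    intro g σ h
    ext j
    have := e.injective ((hρ g j).trans (h j))
    rw [this]
  have hρx : ρ x = X0 := by
    apply hρ'
    intro j
    by_cases hj7 : j = 7
    · subst hj7
      rw [he7, hxT]; exact he7.symm
    · by_cases hj8 : j = 8
      · subst hj8
        rw [he8, hxT₀]; exact he8.symm
      · rw [he_app j, psi9, if_neg hj7, if_neg hj8, ← mul_smul, ← pow_succ', hpow,
          X0_spec j hj7 hj8]
  have htpow : ∀ n : ℕ, t • (x ^ n • (a • T₀)) = x ^ (6 * n) • (a • T₀) := by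
    intro n
    have e1 : t * x ^ n = (x ^ 6) ^ n * t := by
      rw [← htx, conj_pow]; group
    rw [← mul_smul, e1, mul_smul, htQ, ← pow_mul]
  have hρt : ρ t = T0 := by
    apply hρ'
    intro j
    by_cases hj7 : j = 7
    · subst hj7
      rw [he7, htT]; exact he8.symm
    · by_cases hj8 : j = 8
      · subst hj8
        rw [he8, htT₀]; exact he7.symm
      · rw [he_app j, psi9, if_neg hj7, if_neg hj8, htpow, hpow, T0_spec j hj7 hj8]
  have hcjs : ∀ n : ℕ, x ^ n • (a • T₀) = cj x a n • T₀ :=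
    fun n => (cj_smul x a T₀ hxT₀ n).symm
  have hact : ∀ i j : ℕ, a * cj x a i = cj x a j →
      a • (x ^ i • (a • T₀)) = x ^ j • (a • T₀) := by
    intro i j hij
    rw [hcjs i, ← mul_smul, hij, ← hcjs j]
  have hek : ∀ n : ℕ, e ⟨n % 7, by omega⟩ = x ^ n • (a • T₀) := fun n => (hpow n).symm
  have hρa : ρ a = A0 := by
    apply hρ'
    intro j
    fin_cases j
    · show a • e ⟨0 % 7, by omega⟩ = e 8
      rw [hek 0, he8, pow_zero, one_smul, ← mul_smul, hsq T a haT, one_smul]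
    · show a • e ⟨1 % 7, by omega⟩ = e ⟨3 % 7, by omega⟩
      rw [hek 1, hek 3]; exact hact 1 3 h3
    · show a • e ⟨2 % 7, by omega⟩ = e ⟨6 % 7, by omega⟩
      rw [hek 2, hek 6]; exact hact 2 6 h26
    · show a • e ⟨3 % 7, by omega⟩ = e ⟨1 % 7, by omega⟩
      rw [hek 3, hek 1]; exact hact 3 1 h31
    · show a • e ⟨4 % 7, by omega⟩ = e ⟨5 % 7, by omega⟩
      rw [hek 4, hek 5]; exact hact 4 5 h45
    · show a • e ⟨5 % 7, by omega⟩ = e ⟨4 % 7, by omega⟩
      rw [hek 5, hek 4]; exact hact 5 4 h54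
    · show a • e ⟨6 % 7, by omega⟩ = e ⟨2 % 7, by omega⟩
      rw [hek 6, hek 2]; exact hact 6 2 h62
    · show a • e 7 = e 7
      rw [he7]; exact haT'
    · show a • e 8 = e ⟨0 % 7, by omega⟩
      rw [he8, hek 0, pow_zero, one_smul]
  have hinj : Function.Injective ρ := by
    rw [← MonoidHom.ker_eq_bot_iff]
    rcases (MonoidHom.normal_ker ρ).eq_bot_or_eq_top with hk | hk
    · exact hk
    · exfalso
      have h1 : x ∈ ρ.ker := by rw [hk]; trivial
      rw [MonoidHom.mem_ker, hρx] at h1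
      exact absurd h1 (by decide)
  have hrange : ρ.range = H0 := by
    rw [MonoidHom.range_eq_map, ← hcl, MonoidHom.map_closure]
    have e1 : (ρ '' {x, t, a}) = {X0, T0, A0} := by
      rw [Set.image_insert_eq, Set.image_insert_eq, Set.image_singleton, hρx, hρt, hρa]
    rw [e1]; rfl
  exact ⟨(MonoidHom.ofInjective hinj).trans (MulEquiv.subgroupCongr hrange)⟩

/-- `PSL(2,8)` has order 504. -/
theorem card_psl28 {F : Type*} [Field F] [Fintype F] (hF : Fintype.card F = 8) :
    Nat.card (Matrix.ProjectiveSpecialLinearGroup (Fin 2) F) = 504 := by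
  have h1 := Cfsg.Agent.S0243.result hF 2 (le_refl 2)
  simp only [Fin.prod_univ_two, Fin.val_zero, Fin.val_one, pow_zero, pow_one] at h1
  norm_num at h1
  omega


/-- A simple group of order 504 is isomorphic to the projective special linear group of dimension 2 over the field with 8 elements. -/
theorem result {G : Type*} [Group G] [Finite G] [IsSimpleGroup G] (h : Nat.card G = 504) {F : Type*} [Field F] [Fintype F] (hF : Fintype.card F = 8) : Nonempty (G ≃* Matrix.ProjectiveSpecialLinearGroup (Fin 2) F) := by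
  have hs : IsSimpleGroup (Matrix.ProjectiveSpecialLinearGroup (Fin 2) F) :=
    Matrix.ProjectiveSpecialLinearGroup.rank_two_simple
      (by rw [Nat.card_eq_fintype_card, hF]; norm_num)
  obtain ⟨e1⟩ := simple504_equiv h
  obtain ⟨e2⟩ := simple504_equiv (card_psl28 hF)
  exact ⟨e1.trans e2.symm⟩

end Cfsg.Agent.S1011
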