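import Cfsg.Statements.S1020
import Cfsg.Agent.Lib.Helper20.PSL2Rec
import Cfsg.Agent.S0243

set_option autoImplicit false
open Cfsg

namespace Cfsg.Agent.S1020

open Cfsg.Agent.Lib.Helper20.PSL2Rec

theorem cert : Cert 17 8 2 9 3 1 := by
  constructor <;> decide +kernel

theorem card_psl {F : Type*} [Field F] [Fintype F] (hF : Fintype.card F = 17) :
    Nat.card (Matrix.ProjectiveSpecialLinearGroup (Fin 2) F) = 2448 := by
  have h1 := Cfsg.Agent.S0243.result hF 2 (le_refl 2)
  simp only [Fin.prod_univ_two, Fin.val_zero, Fin.val_one, pow_zero, pow_one] at h1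
  norm_num at h1
  omega

/-- A simple group of order 2448 is isomorphic to the projective special linear group of dimension 2 over the field with 17 elements. -/
theorem result {G : Type*} [Group G] [Finite G] [IsSimpleGroup G] (h : Nat.card G = 2448) {F : Type*} [Field F] [Fintype F] (hF : Fintype.card F = 17) : Nonempty (G ≃* Matrix.ProjectiveSpecialLinearGroup (Fin 2) F) := by
  have hp : Fact (Nat.Prime 17) := ⟨by norm_num⟩
  have hs : IsSimpleGroup (Matrix.ProjectiveSpecialLinearGroup (Fin 2) F) :=
    Matrix.ProjectiveSpecialLinearGroup.rank_two_simple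
      (by rw [Nat.card_eq_fintype_card, hF]; norm_num)
  obtain ⟨e1⟩ := main cert (G := G) (by rw [h])
  obtain ⟨e2⟩ := main cert (G := Matrix.ProjectiveSpecialLinearGroup (Fin 2) F)
    (by rw [card_psl hF])
  exact ⟨e1.trans e2.symm⟩

end Cfsg.Agent.S1020
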