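import Cfsg.Statements.S1129
import Cfsg.Agent.S1128
import Cfsg.Agent.S1122
import Cfsg.Agent.Lib.Helper1.FpfMain

set_option autoImplicit false
open Cfsg

namespace Cfsg.Agent.S1129

open MulAction Cfsg.Agent.Lib.Helper9

/-- In the rank-one set-up (`G` finite and doubly transitive on `Ω`, `t` an involution moving `a`, `Q` normal in `G_a` with `G_a = Q D`, `Q ⊓ D = 1` for the two-point stabiliser `D = G_a ⊓ G_{t • a}`, `|Q|` even, `|D|` odd), with the action faithful and `G` containing two distinct commuting involutions: `Q` is nilpotent. -/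
theorem result {G Ω : Type*} [Group G] [Finite G] [MulAction G Ω] [FaithfulSMul G Ω] {a : Ω} {t : G} {Q : Subgroup G}
    (hS : Cfsg.IsRankOneSetup G Ω a t Q)
    (h2 : ∃ x y : G, x ≠ 1 ∧ y ≠ 1 ∧ x ≠ y ∧ x * x = 1 ∧ y * y = 1 ∧ x * y = y * x) :
    Group.IsNilpotent Q := by
  have h2' := h2
  obtain ⟨x, y, hx1, hy1, hxy, hx2, hy2, hc⟩ := h2
  obtain ⟨c, hxc, -⟩ := ro_invol_exists_fix hS hx1 hx2
  have hyc : y • c = c := ro_comm_invol_fix hS hx1 hx2 hc.symm hxc
  obtain ⟨g, hg⟩ : ∃ g : G, g • c = a := by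
    by_cases hca : c = a
    · exact ⟨1, by rw [one_smul, hca]⟩
    · obtain ⟨g, h1, -⟩ := (MulAction.is_two_pretransitive_iff.mp hS.two_transitive)
        hca (Ne.symm hca)
      exact ⟨g, h1⟩
  have hginv : g⁻¹ • a = c := by rw [← hg, inv_smul_smul]
  have hconj : ∀ z : G, z ≠ 1 → z * z = 1 → z • c = c →
      g * z * g⁻¹ ∈ Cfsg.involutionsIn (stabilizer G a : Set G) := by
    intro z hz1 hz2 hzc
    refine ⟨?_, ?_, ?_⟩
    · show g * z * g⁻¹ ∈ stabilizer G a
      rw [mem_stabilizer_iff, mul_smul, mul_smul, hginv, hzc, hg]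
    · intro h
      apply hz1
      have h3 : z = g⁻¹ * (g * z * g⁻¹) * g := by group
      rw [h3, h]; group
    · have h3 : g * z * g⁻¹ * (g * z * g⁻¹) = g * (z * z) * g⁻¹ := by group
      rw [h3, hz2]; group
  have hs := hconj x hx1 hx2 hxc
  have hs' := hconj y hy1 hy2 hyc
  obtain ⟨k, hk, hks⟩ := Cfsg.Agent.S1122.conj_K hS hs hs'
  have hk1 : k ≠ 1 := by
    intro h
    rw [h] at hks
    apply hxy
    have h3 : g * x * g⁻¹ = g * y * g⁻¹ := by simpa using hks
    have h4 := congrArg (fun w => g⁻¹ * w * g) h3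
    simpa [mul_assoc] using h4
  have hko : orderOf k ≠ 1 := fun h => hk1 (orderOf_eq_one_iff.mp h)
  have hkpos : orderOf k ≠ 0 := (orderOf_pos k).ne'
  obtain ⟨r, hrdef⟩ : ∃ r : ℕ, r = (orderOf k).minFac := ⟨_, rfl⟩
  have hrp : r.Prime := by rw [hrdef]; exact Nat.minFac_prime hko
  have hrd : r ∣ orderOf k := by rw [hrdef]; exact Nat.minFac_dvd _
  obtain ⟨k', hk'⟩ : ∃ k' : G, k' = k ^ (orderOf k / r) := ⟨_, rfl⟩
  have hk'o : orderOf k' = r := by rw [hk']; exact orderOf_pow_orderOf_div hkpos hrd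
  have hk'1 : k' ≠ 1 := by
    intro h
    rw [h, orderOf_one] at hk'o
    exact hrp.one_lt.ne hk'o
  obtain ⟨hkD, hkt⟩ := hk
  have hk'K : k' ∈ Cfsg.invertedBy (stabilizer G a ⊓ stabilizer G (t • a)) t := by
    refine ⟨?_, ?_⟩
    · rw [hk']; exact pow_mem hkD _
    · rw [hk', ← conj_pow, hkt, inv_pow]
  have hbot := Cfsg.Agent.S1128.result hS h2' k' hk'K hk'1
  have hk'a : k' ∈ stabilizer G a := (Subgroup.mem_inf.mp hk'K.1).1
  have hkr : k' ^ r = 1 := by rw [← hk'o]; exact pow_orderOf_eq_one k'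
  let φ : ↥Q →* ↥Q :=
    { toFun := fun q => ⟨k' * (q : G) * k'⁻¹, hS.conj_mem k' hk'a q q.2⟩
      map_one' := by apply Subtype.ext; simp
      map_mul' := by
        intro u v
        apply Subtype.ext
        show k' * ((u : G) * (v : G)) * k'⁻¹ = (k' * (u : G) * k'⁻¹) * (k' * (v : G) * k'⁻¹)
        group }
  have hφ : ∀ q : ↥Q, ((φ q : ↥Q) : G) = k' * (q : G) * k'⁻¹ := fun q => rfl
  have hiter : ∀ (n : ℕ) (q : ↥Q), ((φ^[n] q : ↥Q) : G) = k' ^ n * (q : G) * (k' ^ n)⁻¹ := by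
    intro n
    induction n with
    | zero => intro q; simp
    | succ n ih =>
      intro q
      rw [Function.iterate_succ_apply', hφ, ih, pow_succ']
      group
  have hr : ∀ q : ↥Q, φ^[r] q = q := by
    intro q
    apply Subtype.ext
    rw [hiter, hkr]
    simp
  have hfpf : MonoidHom.FixedPointFree φ := by
    intro q hq
    have h1 : k' * (q : G) * k'⁻¹ = (q : G) := by rw [← hφ, hq]
    have h3 : (q : G) ∈ Q ⊓ Subgroup.centralizer {k'} := by
      refine Subgroup.mem_inf.mpr ⟨q.2, ?_⟩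
      rw [Subgroup.mem_centralizer_singleton_iff, eq_comm, ← mul_inv_eq_iff_eq_mul]
      exact h1
    rw [hbot, Subgroup.mem_bot] at h3
    exact Subtype.ext h3
  exact Cfsg.Agent.Lib.Helper1.fpf_nilpotent_aux hrp (Nat.card ↥Q) ↥Q φ le_rfl hr hfpf

end Cfsg.Agent.S1129
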