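import Cfsg.Statements.S1130
import Cfsg.Agent.S1129

set_option autoImplicit false
open Cfsg

namespace Cfsg.Agent.S1130

open MulAction Cfsg.Agent.Lib.Helper9

/-- A finite nilpotent group of even order has a central involution. -/
theorem exists_central_invol {L : Type*} [Group L] [Finite L] [Group.IsNilpotent L]
    (hev : Even (Nat.card L)) : ∃ z : L, z ≠ 1 ∧ z * z = 1 ∧ ∀ x : L, z * x = x * z := by
  haveI : Fact (Nat.Prime 2) := ⟨Nat.prime_two⟩
  obtain ⟨P⟩ : Nonempty (Sylow 2 L) := inferInstance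
  have hPn : (P : Subgroup L).Normal := inferInstance
  have hPne : (P : Subgroup L) ≠ ⊥ := P.ne_bot_of_dvd_card hev.two_dvd
  have hPp : IsPGroup 2 (P : Subgroup L) := P.isPGroup'
  have hZne := Cfsg.Agent.Lib.Helper1.inf_centralizer_ne_bot hPp hPne
  obtain ⟨Z, hZdef⟩ : ∃ Z : Subgroup L,
      Z = (P : Subgroup L) ⊓ Subgroup.centralizer ((P : Subgroup L) : Set L) := ⟨_, rfl⟩
  rw [← hZdef] at hZne
  have hZp : IsPGroup 2 Z := hPp.to_le (by rw [hZdef]; exact inf_le_left)
  have h2Z : 2 ∣ Nat.card Z := by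
    obtain ⟨n, hn⟩ := IsPGroup.iff_card.mp hZp
    rw [hn]
    have hn0 : n ≠ 0 := by
      rintro rfl
      rw [pow_zero] at hn
      exact hZne (Subgroup.eq_bot_of_card_eq Z hn)
    exact dvd_pow_self 2 hn0
  obtain ⟨z, hz⟩ := exists_prime_orderOf_dvd_card' 2 h2Z
  have hzZ : (z : L) ∈ (P : Subgroup L) ⊓ Subgroup.centralizer ((P : Subgroup L) : Set L) := by
    rw [← hZdef]; exact z.2
  obtain ⟨hzP, hzC⟩ := Subgroup.mem_inf.mp hzZ
  have hz1 : (z : L) ≠ 1 := by
    intro h
    have h3 : z = 1 := Subtype.ext h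
    rw [h3, orderOf_one] at hz
    exact absurd hz (by decide)
  have hz2 : (z : L) * (z : L) = 1 := by
    have h3 := pow_orderOf_eq_one z
    rw [hz, pow_two] at h3
    exact congrArg Subtype.val h3
  refine ⟨(z : L), hz1, hz2, ?_⟩
  have hC : Subgroup.centralizer ({(z : L)} : Set L) = ⊤ := by
    rw [← Subgroup.index_eq_one]
    by_contra hne
    obtain ⟨p, hp, hpd⟩ := Nat.exists_prime_and_dvd hne
    by_cases h2 : p = 2
    · subst h2
      have hle : (P : Subgroup L) ≤ Subgroup.centralizer ({(z : L)} : Set L) := by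
        intro y hy
        rw [Subgroup.mem_centralizer_singleton_iff]
        exact Subgroup.mem_centralizer_iff.mp hzC y hy
      exact P.not_dvd_index (hpd.trans (Subgroup.index_dvd_of_le hle))
    · haveI : Fact p.Prime := ⟨hp⟩
      obtain ⟨Pp⟩ : Nonempty (Sylow p L) := inferInstance
      have hPpn : (Pp : Subgroup L).Normal := inferInstance
      have hdis : Disjoint (Pp : Subgroup L) (P : Subgroup L) :=
        IsPGroup.disjoint_of_ne p 2 h2 _ _ Pp.isPGroup' P.isPGroup'
      have hle : (Pp : Subgroup L) ≤ Subgroup.centralizer ({(z : L)} : Set L) := by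
        intro y hy
        rw [Subgroup.mem_centralizer_singleton_iff]
        exact (Subgroup.commute_of_normal_of_disjoint _ _ hPpn hPn hdis y z hy hzP).eq
      exact Pp.not_dvd_index (hpd.trans (Subgroup.index_dvd_of_le hle))
  intro x
  have hx : x ∈ Subgroup.centralizer ({(z : L)} : Set L) := by rw [hC]; exact Subgroup.mem_top x
  exact (Subgroup.mem_centralizer_singleton_iff.mp hx).symm

/-- In the rank-one set-up (`G` finite and doubly transitive on `Ω`, `t` an involution moving `a`, `Q` normal in `G_a` with `G_a = Q D`, `Q ⊓ D = 1` for the two-point stabiliser `D = G_a ⊓ G_{t • a}`, `|Q|` even, `|D|` odd), with the action faithful and `G` containing two distinct commuting involutions: the involutions of `G_a` lie in `Z(Q)`, and together with `1` they are closed under multiplication (so form an elementary abelian 2-subgroup). -/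
theorem result {G Ω : Type*} [Group G] [Finite G] [MulAction G Ω] [FaithfulSMul G Ω] {a : Ω} {t : G} {Q : Subgroup G}
    (hS : Cfsg.IsRankOneSetup G Ω a t Q)
    (h2 : ∃ x y : G, x ≠ 1 ∧ y ≠ 1 ∧ x ≠ y ∧ x * x = 1 ∧ y * y = 1 ∧ x * y = y * x) :
    (∀ s ∈ Cfsg.involutionsIn (MulAction.stabilizer G a : Set G), s ∈ Q ∧ ∀ x ∈ Q, s * x = x * s) ∧
      ∀ s ∈ Cfsg.involutionsIn (MulAction.stabilizer G a : Set G), ∀ s' ∈ Cfsg.involutionsIn (MulAction.stabilizer G a : Set G),
        s * s' = 1 ∨ s * s' ∈ Cfsg.involutionsIn (MulAction.stabilizer G a : Set G) := by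
  haveI hnil : Group.IsNilpotent ↥Q := Cfsg.Agent.S1129.result hS h2
  obtain ⟨z, hz1, hz2, hzc⟩ := exists_central_invol (L := ↥Q) hS.even_card
  have hzI : (z : G) ∈ Cfsg.involutionsIn (stabilizer G a : Set G) := by
    refine ⟨hS.le z.2, ?_, ?_⟩
    · intro h; exact hz1 (Subtype.ext h)
    · exact congrArg Subtype.val hz2
  have key : ∀ s ∈ Cfsg.involutionsIn (stabilizer G a : Set G),
      s ∈ Q ∧ ∀ x ∈ Q, s * x = x * s := by
    intro s hs
    obtain ⟨k, hk, hks⟩ := Cfsg.Agent.S1122.conj_K hS hzI hs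
    have hka : k ∈ stabilizer G a := (Subgroup.mem_inf.mp hk.1).1
    have hkia : k⁻¹ ∈ stabilizer G a := inv_mem hka
    have hsQ : s ∈ Q := by
      rw [← hks]
      have h3 := hS.conj_mem k⁻¹ hkia (z : G) z.2
      simpa using h3
    refine ⟨hsQ, ?_⟩
    intro x hx
    have hxk : k * x * k⁻¹ ∈ Q := hS.conj_mem k hka x hx
    have h1 : (z : G) * (k * x * k⁻¹) = (k * x * k⁻¹) * (z : G) := by
      have h3 := hzc ⟨k * x * k⁻¹, hxk⟩
      exact congrArg Subtype.val h3
    rw [← hks]
    have h3 : k⁻¹ * (z : G) * k * x = k⁻¹ * ((z : G) * (k * x * k⁻¹)) * k := by group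
    rw [h3, h1]; group
  refine ⟨key, ?_⟩
  intro s hs s' hs'
  obtain ⟨hsQ, hsc⟩ := key s hs
  obtain ⟨hs'Q, -⟩ := key s' hs'
  by_cases h1 : s * s' = 1
  · exact Or.inl h1
  · right
    refine ⟨(show s * s' ∈ stabilizer G a from mul_mem hs.1 hs'.1), h1, ?_⟩
    have hcomm : s * s' = s' * s := hsc s' hs'Q
    calc s * s' * (s * s') = s * (s' * s) * s' := by group
      _ = s * (s * s') * s' := by rw [hcomm]
      _ = (s * s) * (s' * s') := by group
      _ = 1 := by rw [hs.2.2, hs'.2.2, one_mul]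

end Cfsg.Agent.S1130
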