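import Cfsg.Statements.S1135
import Cfsg.Agent.S1130
import Cfsg.Agent.S1122
import Cfsg.Agent.Lib.Helper9.RankOne2

set_option autoImplicit false
open Cfsg

namespace Cfsg.Agent.S1135

open MulAction

/-- If the involution `w` centralises `x` and the involution `s` inverts `x`, with `x² ≠ 1`, then some
involution commutes with both `w` and `s`. -/
theorem dih {G : Type*} [Group G] [Finite G] {w s x : G} (hw : w * w = 1) (hs : s * s = 1)
    (hwx : w * x = x * w) (hsx : s * x * s = x⁻¹) (hxx : x * x ≠ 1) :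
    ∃ z : G, z ≠ 1 ∧ z * z = 1 ∧ z * w = w * z ∧ z * s = s * z := by
  have hwi : w⁻¹ = w := inv_eq_of_mul_eq_one_right hw
  have hsi : s⁻¹ = s := inv_eq_of_mul_eq_one_right hs
  have hwx' : w * x⁻¹ = x⁻¹ * w := (Commute.inv_right (show Commute w x from hwx)).eq
  set r := w * s with hr
  have hrinv : r⁻¹ = s * w := by rw [hr, mul_inv_rev, hsi, hwi]
  have hrx : r * x * r⁻¹ = x⁻¹ := by
    rw [hrinv, hr]
    calc w * s * x * (s * w) = w * (s * x * s) * w := by group
      _ = w * x⁻¹ * w := by rw [hsx]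
      _ = x⁻¹ := by rw [hwx', mul_assoc, hw, mul_one]
  have hsemi : SemiconjBy r x x⁻¹ := by
    show r * x = x⁻¹ * r
    have := congrArg (fun y => y * r) hrx
    simpa [mul_assoc] using this
  have hsemi' : SemiconjBy r x⁻¹ x := by
    have := hsemi.inv_right
    rwa [inv_inv] at this
  have hc2 : Commute (r * r) x := hsemi'.mul_left hsemi
  have hn : Even (orderOf r) := by
    rw [← Nat.not_odd_iff_even]
    rintro ⟨m, hm⟩
    have h1 : (r * r) ^ m * r = 1 := by
      rw [← pow_two, ← pow_mul, ← pow_succ, ← hm]; exact pow_orderOf_eq_one r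
    have hcm : Commute ((r * r) ^ m) x := hc2.pow_left m
    have hr_eq : r = ((r * r) ^ m)⁻¹ := eq_inv_of_mul_eq_one_right h1
    have hcr : Commute r x := by rw [hr_eq]; exact hcm.inv_left
    have h3 : x * r = x⁻¹ * r := hcr.eq.symm.trans hsemi.eq
    have hxinv : x = x⁻¹ := mul_right_cancel h3
    apply hxx
    calc x * x = x * x⁻¹ := congrArg (fun y => x * y) hxinv
      _ = 1 := mul_inv_cancel x
  obtain ⟨k, hk⟩ := hn
  have hkpos : 0 < k := by have := orderOf_pos r; omega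
  have hpk : (r⁻¹) ^ k = r ^ k := by
    rw [inv_pow]; apply inv_eq_of_mul_eq_one_right; rw [← pow_add, ← hk]; exact pow_orderOf_eq_one r
  refine ⟨r ^ k, pow_ne_one_of_lt_orderOf hkpos.ne' (by omega), ?_, ?_, ?_⟩
  · rw [← pow_add, ← hk]; exact pow_orderOf_eq_one r
  · have hsemiw : SemiconjBy w r r⁻¹ := by
      show w * r = r⁻¹ * w
      rw [hrinv, hr, ← mul_assoc, hw, one_mul, mul_assoc, hw, mul_one]
    have h' : w * r ^ k = (r⁻¹) ^ k * w := hsemiw.pow_right k
    rw [hpk] at h'; exact h'.symm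
  · have hsemis : SemiconjBy s r r⁻¹ := by
      show s * r = r⁻¹ * s
      rw [hrinv, hr, mul_assoc]
    have h' : s * r ^ k = (r⁻¹) ^ k * s := hsemis.pow_right k
    rw [hpk] at h'; exact h'.symm

/-- In the rank-one set-up (`G` finite and doubly transitive on `Ω`, `t` an involution moving `a`, `Q` normal in `G_a` with `G_a = Q D`, `Q ⊓ D = 1` for the two-point stabiliser `D = G_a ⊓ G_{t • a}`, `|Q|` even, `|D|` odd), with the action faithful and `G` containing two distinct commuting involutions: if `x = u v` with `u, v` involutions and `x² ≠ 1`, then `x` is conjugate to `u' t` for some involution `u'` of `G_a`, and `|C_G(x)|` is odd. -/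
theorem result {G Ω : Type*} [Group G] [Finite G] [MulAction G Ω] [FaithfulSMul G Ω] {a : Ω} {t : G} {Q : Subgroup G}
    (hS : Cfsg.IsRankOneSetup G Ω a t Q)
    (h2 : ∃ x y : G, x ≠ 1 ∧ y ≠ 1 ∧ x ≠ y ∧ x * x = 1 ∧ y * y = 1 ∧ x * y = y * x)
    (u v : G) (hu1 : u ≠ 1) (hu2 : u * u = 1) (hv1 : v ≠ 1) (hv2 : v * v = 1) (hx : (u * v) * (u * v) ≠ 1) :
    (∃ g : G, ∃ u' ∈ Cfsg.involutionsIn (MulAction.stabilizer G a : Set G), g * (u * v) * g⁻¹ = u' * t) ∧
      Odd (Nat.card ↥(Subgroup.centralizer {u * v})) := by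
  obtain ⟨b, hub, hbu⟩ := Cfsg.Agent.Lib.Helper9.ro_invol_exists_fix hS hu1 hu2
  obtain ⟨c, hvc, hcv⟩ := Cfsg.Agent.Lib.Helper9.ro_invol_exists_fix hS hv1 hv2
  have hui : u⁻¹ = u := inv_eq_of_mul_eq_one_right hu2
  have hvi : v⁻¹ = v := inv_eq_of_mul_eq_one_right hv2
  have htrans : ∀ p : Ω, ∃ g : G, g • a = p := by
    intro p
    by_cases hp : p = a
    · exact ⟨1, by rw [one_smul, hp]⟩
    · obtain ⟨g, -, hg⟩ := Cfsg.Agent.Lib.Helper9.ro_exists_stab hS hp
      exact ⟨g * t, by rw [mul_smul, hg]⟩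
  -- the fixed points of `u` and `v` differ
  have hbc : b ≠ c := by
    intro hbc
    rw [← hbc] at hvc
    obtain ⟨g, hg⟩ := htrans b
    have hga : g⁻¹ • b = a := by rw [← hg, inv_smul_smul]
    have hconj : ∀ y : G, y ≠ 1 → y * y = 1 → y • b = b →
        g⁻¹ * y * g ∈ Cfsg.involutionsIn (MulAction.stabilizer G a : Set G) := by
      intro y hy1 hy2 hyb
      refine ⟨?_, ?_, ?_⟩
      · show g⁻¹ * y * g ∈ MulAction.stabilizer G a
        rw [MulAction.mem_stabilizer_iff, mul_smul, mul_smul, hg, hyb, hga]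
      · intro h
        apply hy1
        have : y = g * (g⁻¹ * y * g) * g⁻¹ := by group
        rw [this, h]; group
      · calc g⁻¹ * y * g * (g⁻¹ * y * g) = g⁻¹ * (y * y) * g := by group
          _ = 1 := by rw [hy2]; group
    have h3 := (Cfsg.Agent.S1130.result hS h2).2 _ (hconj u hu1 hu2 hub) _ (hconj v hv1 hv2 hvc)
    have hsq : (g⁻¹ * u * g * (g⁻¹ * v * g)) * (g⁻¹ * u * g * (g⁻¹ * v * g)) = 1 := by
      rcases h3 with h3 | h3
      · rw [h3, one_mul]
      · exact h3.2.2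
    apply hx
    have : u * v * (u * v) =
        g * ((g⁻¹ * u * g * (g⁻¹ * v * g)) * (g⁻¹ * u * g * (g⁻¹ * v * g))) * g⁻¹ := by group
    rw [this, hsq]; group
  refine ⟨?_, ?_⟩
  · -- conjugate `(u, v)` to `(u', t)`
    obtain ⟨e, hte, -⟩ := Cfsg.Agent.Lib.Helper9.ro_invol_exists_fix hS hS.ne_one hS.mul_self
    have hea : e ≠ a := by
      intro h; rw [h] at hte; exact Cfsg.Agent.Lib.Helper9.ro_ta_ne hS hte
    have h2t : ∀ (a' b' c' d' : Ω), a' ≠ b' → c' ≠ d' → ∃ g : G, g • a' = c' ∧ g • b' = d' :=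
      fun _ _ _ _ h1 h2 => (MulAction.is_two_pretransitive_iff.mp hS.two_transitive) h1 h2
    obtain ⟨g, hgb, hgc⟩ := h2t _ _ _ _ hbc hea.symm
    obtain ⟨g₀, hg₀a, hg₀t⟩ := h2t _ _ _ _ (Cfsg.Agent.Lib.Helper9.ro_ta_ne hS).symm hea
    subst hg₀a
    have hSe := Cfsg.Agent.Lib.Helper9.ro_conj hS g₀
    have hv1I : g * v * g⁻¹ ∈ Cfsg.involutionsIn (MulAction.stabilizer G (g₀ • a) : Set G) := by
      refine ⟨?_, ?_, ?_⟩
      · show g * v * g⁻¹ ∈ MulAction.stabilizer G (g₀ • a)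
        have hginv : g⁻¹ • (g₀ • a) = c := by rw [← hgc, inv_smul_smul]
        rw [MulAction.mem_stabilizer_iff, mul_smul, mul_smul, hginv, hvc, hgc]
      · intro h; apply hv1
        have : v = g⁻¹ * (g * v * g⁻¹) * g := by group
        rw [this, h]; group
      · calc g * v * g⁻¹ * (g * v * g⁻¹) = g * (v * v) * g⁻¹ := by group
          _ = 1 := by rw [hv2]; group
    have htI : t ∈ Cfsg.involutionsIn (MulAction.stabilizer G (g₀ • a) : Set G) :=
      ⟨MulAction.mem_stabilizer_iff.mpr hte, hS.ne_one, hS.mul_self⟩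
    obtain ⟨k, hk, hkv⟩ := (Cfsg.Agent.S1122.result hSe).2 _ hv1I _ htI
    have hka : k • a = a := by
      have h1 := (Subgroup.mem_inf.mp hk.1).2
      rw [MulAction.mem_stabilizer_iff] at h1
      have hpt : (g₀ * t * g₀⁻¹) • (g₀ • a) = a := by
        rw [smul_smul, inv_mul_cancel_right, mul_smul, hg₀t]
      rwa [hpt] at h1
    have hkinv : k⁻¹ • a = a := by
      have := congrArg (fun p => k⁻¹ • p) hka
      simpa using this.symm
    have hu1a : (g * u * g⁻¹) • a = a := by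
      have hginv : g⁻¹ • a = b := by rw [← hgb, inv_smul_smul]
      rw [mul_smul, mul_smul, hginv, hub, hgb]
    refine ⟨k⁻¹ * g, k⁻¹ * (g * u * g⁻¹) * k, ⟨?_, ?_, ?_⟩, ?_⟩
    · show k⁻¹ * (g * u * g⁻¹) * k ∈ MulAction.stabilizer G a
      rw [MulAction.mem_stabilizer_iff, mul_smul, mul_smul, hka, hu1a, hkinv]
    · intro h; apply hu1
      have : u = g⁻¹ * (k * (k⁻¹ * (g * u * g⁻¹) * k) * k⁻¹) * g := by group
      rw [this, h]; group
    · calc k⁻¹ * (g * u * g⁻¹) * k * (k⁻¹ * (g * u * g⁻¹) * k)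
          = k⁻¹ * g * (u * u) * g⁻¹ * k := by group
        _ = 1 := by rw [hu2]; group
    · rw [← hkv]; group
  · -- the centraliser of `u * v` has odd order
    rw [← Nat.not_even_iff_odd]
    intro hev
    haveI : Fact (Nat.Prime 2) := ⟨Nat.prime_two⟩
    obtain ⟨w, hw⟩ := exists_prime_orderOf_dvd_card' 2 hev.two_dvd
    have hw1 : (w : G) ≠ 1 := by
      intro h
      have : w = 1 := Subtype.ext h
      rw [this, orderOf_one] at hw
      exact absurd hw (by decide)
    have hw2 : (w : G) * (w : G) = 1 := by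
      have := pow_orderOf_eq_one w
      rw [hw, pow_two] at this
      exact congrArg Subtype.val this
    have hwx : (w : G) * (u * v) = (u * v) * (w : G) :=
      (Subgroup.mem_centralizer_iff.mp w.2 (u * v) (Set.mem_singleton _)).symm
    have hinv : u * (u * v) * u = (u * v)⁻¹ := by
      rw [mul_inv_rev, hui, hvi, ← mul_assoc, hu2, one_mul]
    obtain ⟨z, hz1, hz2, hzw, hzu⟩ := dih hw2 hu2 hwx hinv hx
    obtain ⟨p, hzp, -⟩ := Cfsg.Agent.Lib.Helper9.ro_invol_exists_fix hS hz1 hz2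
    have hup : u • p = p := Cfsg.Agent.Lib.Helper9.ro_comm_invol_fix hS hz1 hz2 hzu.symm hzp
    have hpb : p = b := hbu p hup
    have hwp : (w : G) • p = p :=
      Cfsg.Agent.Lib.Helper9.ro_comm_invol_fix hS hz1 hz2 hzw.symm hzp
    rw [hpb] at hwp
    have hxb : (u * v) • b = b :=
      Cfsg.Agent.Lib.Helper9.ro_comm_invol_fix hS hw1 hw2 hwx.symm hwp
    have hvb : v • b = b := by
      have := congrArg (fun q => u • q) hxb
      simp only [mul_smul] at this
      rw [Cfsg.Agent.Lib.Helper9.invol_smul_cancel hu2, hub] at this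
      exact this
    exact hbc (hcv b hvb)

end Cfsg.Agent.S1135
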