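import Cfsg.Statements.S1160
-- import your own Cfsg.Agent.* helpers here
import Mathlib
import Cfsg.Agent.Lib.Lead.SimpleSylC
import Cfsg.Agent.Lib.Helper2.CyclicMax

set_option autoImplicit false
open Cfsg

namespace Cfsg.Agent.S1160


set_option linter.style.haveILetI false
set_option linter.unusedVariables false
set_option linter.unusedSectionVars false
set_option maxHeartbeats 1000000

open Cfsg.Agent.Lib.Lead.SimpleSyl

universe u v

section aux

variable {P : Type u} {E : Type v} [Group P] [AddCommGroup E] [DistribMulAction P E]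

/-- The trace of `v` along the powers of `x`. -/
def tr (p : ℕ) (x : P) (v : E) : E := ∑ j ∈ Finset.range p, x ^ j • v

theorem tr_fixed (p : ℕ) (x : P) (hx : x ^ p = 1) (v : E) : x • tr p x v = tr p x v := by
  unfold tr
  rw [Finset.smul_sum]
  have h1 : ∀ j ∈ Finset.range p, x • x ^ j • v = x ^ (j + 1) • v := by
    intro j _
    rw [← mul_smul, ← pow_succ']
  rw [Finset.sum_congr rfl h1]
  have h2 := Finset.sum_range_succ (fun j => x ^ j • v) p
  have h3 := Finset.sum_range_succ' (fun j => x ^ j • v) p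
  rw [h2] at h3
  simp only [hx, pow_zero] at h3
  exact (add_right_cancel h3).symm

theorem tr_of_fixed (p : ℕ) (x : P) (v : E) (h : x • v = v) : tr p x v = p • v := by
  unfold tr
  have h1 : ∀ j : ℕ, x ^ j • v = v := by
    intro j
    induction j with
    | zero => simp
    | succ j ih => rw [pow_succ, mul_smul, h, ih]
  rw [Finset.sum_congr rfl (fun j _ => h1 j), Finset.sum_const, Finset.card_range]

theorem tr_comm (p : ℕ) (x c : P) (hc : c * x = x * c) (v : E) :
    c • tr p x v = tr p x (c • v) := by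
  unfold tr
  rw [Finset.smul_sum]
  apply Finset.sum_congr rfl
  intro j _
  rw [← mul_smul, ← mul_smul]
  congr 1
  exact (Commute.pow_right (show Commute c x from hc) j).eq

theorem tr_add (p : ℕ) (x : P) (v w : E) : tr p x (v + w) = tr p x v + tr p x w := by
  unfold tr
  simp only [smul_add]
  exact Finset.sum_add_distrib

theorem tr_conj (p : ℕ) (g x : P) (v : E) : g • tr p x v = tr p (g * x * g⁻¹) (g • v) := by
  unfold tr
  rw [Finset.smul_sum]
  apply Finset.sum_congr rfl
  intro j _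
  rw [conj_pow, ← mul_smul, ← mul_smul]
  congr 1
  group

theorem sum_pow_mul (p : ℕ) (hp : p.Prime) (z : P) (hz : z ^ p = 1) (j : ℕ) (hj0 : 0 < j)
    (hjp : j < p) (v : E) :
    ∑ i ∈ Finset.range p, z ^ (i * j) • v = ∑ m ∈ Finset.range p, z ^ m • v := by
  have hcop : Nat.Coprime p j :=
    (Nat.Prime.coprime_iff_not_dvd hp).mpr (Nat.not_dvd_of_pos_of_lt hj0 hjp)
  have hmaps : Set.MapsTo (fun i => (i * j) % p) (↑(Finset.range p) : Set ℕ)
      (↑(Finset.range p) : Set ℕ) := by
    intro i _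
    exact Finset.mem_coe.mpr (Finset.mem_range.mpr (Nat.mod_lt _ hp.pos))
  have hinj : Set.InjOn (fun i => (i * j) % p) (↑(Finset.range p) : Set ℕ) := by
    intro i hi i' hi' h
    have h1 : i * j ≡ i' * j [MOD p] := h
    have h2 : i ≡ i' [MOD p] := Nat.ModEq.cancel_right_of_coprime hcop h1
    exact Nat.ModEq.eq_of_lt_of_lt h2 (Finset.mem_range.mp (Finset.mem_coe.mp hi))
      (Finset.mem_range.mp (Finset.mem_coe.mp hi'))
  apply Finset.sum_nbij (fun i => (i * j) % p)
  · intro i hi
    exact Finset.mem_range.mpr (Nat.mod_lt _ hp.pos)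
  · exact hinj
  · exact Finset.surjOn_of_injOn_of_card_le _ hmaps hinj le_rfl
  · intro i _
    show z ^ (i * j) • v = z ^ ((i * j) % p) • v
    rw [pow_eq_pow_mod (i * j) hz]

/-- If the trace along `z` vanishes identically, the traces along `a * z ^ i` add up to
`p • v`. -/
theorem tr_identity (p : ℕ) (hp : p.Prime) (a z : P) (haz : a * z = z * a) (hz : z ^ p = 1)
    (hz0 : ∀ w : E, tr p z w = 0) (v : E) :
    ∑ i ∈ Finset.range p, tr p (a * z ^ i) v = p • v := by
  unfold tr
  rw [Finset.sum_comm]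
  obtain ⟨p', rfl⟩ : ∃ p', p = p' + 1 := ⟨p - 1, by have := hp.pos; omega⟩
  rw [Finset.sum_range_succ' (fun j => ∑ i ∈ Finset.range (p' + 1), (a * z ^ i) ^ j • v) p']
  have h0 : ∑ i ∈ Finset.range (p' + 1), (a * z ^ i) ^ 0 • v = (p' + 1) • v := by
    simp [Finset.sum_const, Finset.card_range]
  rw [h0]
  have h1 : ∀ j ∈ Finset.range p',
      ∑ i ∈ Finset.range (p' + 1), (a * z ^ i) ^ (j + 1) • v = 0 := by
    intro j hj
    have hj' : j + 1 < p' + 1 := by
      have := Finset.mem_range.mp hj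
      omega
    have h2 : ∀ i ∈ Finset.range (p' + 1),
        (a * z ^ i) ^ (j + 1) • v = z ^ (i * (j + 1)) • (a ^ (j + 1) • v) := by
      intro i _
      have hc : Commute a (z ^ i) := Commute.pow_right (show Commute a z from haz) i
      rw [hc.mul_pow, ← pow_mul, ← mul_smul]
      congr 1
      exact ((Commute.pow_right (show Commute a z from haz) (i * (j + 1))).pow_left (j + 1)).eq
    rw [Finset.sum_congr rfl h2, sum_pow_mul (p' + 1) hp z hz (j + 1) (Nat.succ_pos j) hj']
    exact hz0 (a ^ (j + 1) • v)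
  rw [Finset.sum_congr rfl h1, Finset.sum_const_zero, zero_add]

/-- In an elementary abelian group of order `p ^ 2`, a subgroup containing `x ≠ 1` and `y`
contains everything unless `y` is a power of `x`. -/
theorem lemG [Finite P] (p : ℕ) [Fact p.Prime] (A : Subgroup P) (hA : Nat.card A = p ^ 2)
    (hAexp : ∀ x ∈ A, x ^ p = 1) (x y : P) (hx : x ∈ A) (hx1 : x ≠ 1) (hy : y ∈ A)
    (S : Subgroup P) (hxS : x ∈ S) (hyS : y ∈ S) :
    y ∈ Subgroup.zpowers x ∨ A ≤ S := by
  have hp : p.Prime := Fact.out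
  by_cases hyx : y ∈ Subgroup.zpowers x
  · left
    exact hyx
  · right
    have hzD : Subgroup.zpowers x ≤ S ⊓ A := by
      rw [Subgroup.zpowers_le]
      exact ⟨hxS, hx⟩
    have hox : orderOf x = p := orderOf_eq_prime (hAexp x hx) hx1
    have hcz : Nat.card (Subgroup.zpowers x) = p := by rw [Nat.card_zpowers, hox]
    have hlt : Nat.card (Subgroup.zpowers x) < Nat.card ↥(S ⊓ A) := by
      apply lt_of_le_of_ne (Subgroup.card_le_of_le hzD)
      intro heq
      have h1 := Subgroup.eq_of_le_of_card_ge hzD (le_of_eq heq.symm)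
      apply hyx
      rw [h1]
      exact ⟨hyS, hy⟩
    have hdvd : Nat.card ↥(S ⊓ A) ∣ p ^ 2 := by
      rw [← hA]
      exact Subgroup.card_dvd_of_le inf_le_right
    obtain ⟨k, hk, hkeq⟩ := (Nat.dvd_prime_pow hp).mp hdvd
    have hk2 : k = 2 := by
      rw [hcz, hkeq] at hlt
      have h2 := hp.two_le
      interval_cases k
      · rw [pow_zero] at hlt
        omega
      · rw [pow_one] at hlt
        omega
      · rfl
    rw [hk2] at hkeq
    have h3 : S ⊓ A = A := Subgroup.eq_of_le_of_card_ge inf_le_right (by rw [hkeq, hA])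
    rw [← h3]
    exact inf_le_left

/-- Two nontrivial elements of exponent `p`, one a power of the other, generate the same
subgroup. -/
theorem lemH [Finite P] (p : ℕ) [Fact p.Prime] (x y : P) (hx : x ^ p = 1) (hy : y ^ p = 1)
    (hx1 : x ≠ 1) (hy1 : y ≠ 1) (hxy : x ∈ Subgroup.zpowers y) :
    Subgroup.zpowers x = Subgroup.zpowers y := by
  have hox : orderOf x = p := orderOf_eq_prime hx hx1
  have hoy : orderOf y = p := orderOf_eq_prime hy hy1
  apply Subgroup.eq_of_le_of_card_ge (Subgroup.zpowers_le.mpr hxy)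
  rw [Nat.card_zpowers, Nat.card_zpowers, hox, hoy]

theorem conj_pow_mem (h x : P) (hx : h * x * h⁻¹ ∈ Subgroup.zpowers x) (m : ℕ) :
    h ^ m * x * (h ^ m)⁻¹ ∈ Subgroup.zpowers x := by
  induction m with
  | zero => simp
  | succ m ih =>
    obtain ⟨s, hs⟩ := Subgroup.mem_zpowers_iff.mp ih
    have e : h ^ (m + 1) * x * (h ^ (m + 1))⁻¹ = h * (h ^ m * x * (h ^ m)⁻¹) * h⁻¹ := by
      rw [pow_succ']
      group
    rw [e, ← hs, ← conj_zpow]
    exact Subgroup.zpow_mem _ hx s


/-- A central element of order `p` fixes no nonzero vector. -/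
theorem central_fpf [Finite P] (p : ℕ) [Fact p.Prime]
    (hpE : ∀ e : E, p • e = 0 → e = 0)
    (hfaith : ∀ g : P, (∀ v : E, g • v = v) → g = 1)
    (hconst : ∀ a b : E, a ≠ 0 → b ≠ 0 →
      Nat.card (MulAction.stabilizer P a) = Nat.card (MulAction.stabilizer P b))
    (z : P) (hzc : ∀ g : P, g * z = z * g) (hzp : z ^ p = 1) (hz1 : z ≠ 1) :
    ∀ w : E, z • w = w → w = 0 := by
  intro w hw
  by_contra hw0
  obtain ⟨v0, hv0⟩ : ∃ v : E, z • v ≠ v := by
    by_contra h
    push Not at h
    exact hz1 (hfaith z h)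
  obtain ⟨u, hu⟩ : ∃ u : E, u = p • v0 - tr p z v0 := ⟨_, rfl⟩
  have htrtr : tr p z (tr p z v0) = p • tr p z v0 := tr_of_fixed p z _ (tr_fixed p z hzp v0)
  have htru : tr p z u = 0 := by
    have h1 : tr p z (u + tr p z v0) = tr p z (p • v0) := by
      rw [hu, sub_add_cancel]
    rw [tr_add, htrtr] at h1
    have h2 : tr p z (p • v0) = p • tr p z v0 := by
      unfold tr
      rw [Finset.smul_sum]
      apply Finset.sum_congr rfl
      intro j _
      rw [smul_comm]
    rw [h2] at h1
    exact add_right_cancel (b := p • tr p z v0) (by rw [h1, zero_add])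
  have hzu : z • u ≠ u := by
    intro h
    have h1 := tr_of_fixed p z u h
    rw [htru] at h1
    have hu0 : u = 0 := hpE u h1.symm
    rw [hu0] at hu
    have h2 : p • v0 = tr p z v0 := by
      have := sub_eq_zero.mp hu.symm
      exact this
    have h3 : z • (p • v0) = p • v0 := by
      rw [h2]
      exact tr_fixed p z hzp v0
    have h4 : p • (z • v0 - v0) = 0 := by
      rw [smul_sub, ← smul_comm, h3, sub_self]
    exact hv0 (sub_eq_zero.mp (hpE _ h4))
  have hu0 : u ≠ 0 := by
    rintro rfl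
    exact hzu (smul_zero z)
  have hwu : w + u ≠ 0 := by
    intro h
    have h1 : u = -w := by
      rw [add_comm] at h
      exact eq_neg_of_add_eq_zero_left h
    apply hzu
    rw [h1, smul_neg, hw]
  have hle : MulAction.stabilizer P (w + u) ≤ MulAction.stabilizer P w := by
    intro g hg
    rw [MulAction.mem_stabilizer_iff] at hg ⊢
    rw [smul_add] at hg
    obtain ⟨d, hd⟩ : ∃ d : E, d = g • w - w := ⟨_, rfl⟩
    have hd2 : d = u - g • u := by
      rw [hd, sub_eq_sub_iff_add_eq_add]
      rw [add_comm u w]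
      exact hg
    have hzd : z • d = d := by
      rw [hd, smul_sub, ← mul_smul, ← hzc g, mul_smul, hw]
    have htrd : tr p z d = 0 := by
      have h1 : tr p z (d + g • u) = tr p z u := by
        rw [hd2, sub_add_cancel]
      rw [tr_add, htru, ← tr_comm p z g (hzc g) u, htru, smul_zero, add_zero] at h1
      exact h1
    have h2 := tr_of_fixed p z d hzd
    rw [htrd] at h2
    have hd0 : d = 0 := hpE d h2.symm
    rw [hd0] at hd
    exact (sub_eq_zero.mp hd.symm)
  have hzmem : z ∈ MulAction.stabilizer P w := MulAction.mem_stabilizer_iff.mpr hw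
  have hznot : z ∉ MulAction.stabilizer P (w + u) := by
    intro h
    rw [MulAction.mem_stabilizer_iff, smul_add, hw] at h
    exact hzu (add_left_cancel h)
  have heq := Subgroup.eq_of_le_of_card_ge hle (le_of_eq (hconst w (w + u) hw0 hwu))
  rw [heq] at hznot
  exact hznot hzmem


/-- A normal elementary abelian subgroup of order `p ^ 2` is impossible when all nonzero
vectors have stabilizers of the same order (`p` odd). -/
theorem noncyclic_contra [Finite P] (p : ℕ) [Fact p.Prime] (hp2 : p ≠ 2) (hP : IsPGroup p P)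
    (hpE : ∀ e : E, p • e = 0 → e = 0)
    (hfaith : ∀ g : P, (∀ v : E, g • v = v) → g = 1)
    (hconst : ∀ a b : E, a ≠ 0 → b ≠ 0 →
      Nat.card (MulAction.stabilizer P a) = Nat.card (MulAction.stabilizer P b))
    (A : Subgroup P) (hAn : A.Normal) (hA : Nat.card A = p ^ 2) (hAexp : ∀ x ∈ A, x ^ p = 1)
    (hAcomm : ∀ x ∈ A, ∀ y ∈ A, x * y = y * x) : False := by
  classical
  have hp : p.Prime := Fact.out
  have hcent := central_fpf p hpE hfaith hconst
  -- a central element of `A`
  have hmod := gen_modEq (fun (x : P) (a : P) => x * a * x⁻¹) (fun a => by simp)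
    (fun x y a => by simp [mul_assoc]) p (⊤ : Subgroup P) (hP.to_subgroup ⊤) (A : Set P)
    (fun x _ a ha => hAn.conj_mem a ha x)
  obtain ⟨Z, hZ⟩ : ∃ Z : Set P, Z = {a | a ∈ (A : Set P) ∧
      ∀ x ∈ (⊤ : Subgroup P), x * a * x⁻¹ = a} := ⟨_, rfl⟩
  rw [← hZ] at hmod
  have hAn' : (A : Set P).ncard = p ^ 2 := hA
  have hZdvd : p ∣ Z.ncard := by
    have h1 : (p ^ 2) % p = Z.ncard % p := by
      rw [← hAn']
      exact hmod
    have h2 : (p ^ 2) % p = 0 := by
      rw [pow_two]
      exact Nat.mul_mod_right p p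
    rw [h2] at h1
    exact Nat.dvd_of_mod_eq_zero h1.symm
  have h1Z : (1 : P) ∈ Z := by
    rw [hZ]
    exact ⟨A.one_mem, fun x _ => by simp⟩
  have hZ1 : 1 < Z.ncard := by
    have hpos : 0 < Z.ncard := (Set.ncard_pos (Set.toFinite _)).mpr ⟨1, h1Z⟩
    have h3 := Nat.le_of_dvd hpos hZdvd
    have h4 := hp.two_le
    omega
  obtain ⟨z, hzZ, hz1⟩ := Set.exists_ne_of_one_lt_ncard hZ1 1
  rw [hZ] at hzZ
  obtain ⟨hzA, hzfix⟩ := hzZ
  have hzA' : z ∈ A := hzA
  have hzc : ∀ g : P, g * z = z * g := by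
    intro g
    have h := hzfix g (Subgroup.mem_top g)
    calc g * z = (g * z * g⁻¹) * g := by group
      _ = z * g := by rw [h]
  have hzp : z ^ p = 1 := hAexp z hzA'
  have hzfpf := hcent z hzc hzp hz1
  have hz0 : ∀ w : E, tr p z w = 0 := fun w => hzfpf _ (tr_fixed p z hzp w)
  have hoz : orderOf z = p := orderOf_eq_prime hzp hz1
  obtain ⟨a, haA, haz⟩ : ∃ a, a ∈ A ∧ a ∉ Subgroup.zpowers z := by
    by_contra hcon
    push Not at hcon
    have hle : A ≤ Subgroup.zpowers z := hcon
    have h1 := Subgroup.card_le_of_le hle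
    rw [hA, Nat.card_zpowers, hoz] at h1
    have h2 := hp.two_le
    nlinarith
  have hbA : ∀ i : ℕ, a * z ^ i ∈ A := fun i => A.mul_mem haA (A.pow_mem hzA' i)
  have hbp : ∀ i : ℕ, (a * z ^ i) ^ p = 1 := fun i => hAexp _ (hbA i)
  have hb1 : ∀ i : ℕ, a * z ^ i ≠ 1 := by
    intro i h
    apply haz
    have h1 : a = (z ^ i)⁻¹ := eq_inv_of_mul_eq_one_left h
    rw [h1]
    exact Subgroup.inv_mem _ (Subgroup.pow_mem _ (Subgroup.mem_zpowers z) i)
  have hazc : a * z = z * a := hAcomm a haA z hzA'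
  have F1' : ∀ i j : ℕ, i < j → j < p → ∀ v : E, (a * z ^ i) • v = v →
      (a * z ^ j) • v = v → v = 0 := by
    intro i j hij hjp v hi hj
    apply hzfpf
    have h1 : z ^ (j - i) • v = v := by
      have e : a * z ^ j = (a * z ^ i) * z ^ (j - i) := by
        rw [mul_assoc, ← pow_add]
        congr 2
        omega
      rw [e, mul_smul] at hj
      exact MulAction.injective (a * z ^ i) (hj.trans hi.symm)
    have hcop : Nat.Coprime (j - i) p :=
      Nat.Coprime.symm ((Nat.Prime.coprime_iff_not_dvd hp).mpr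
        (Nat.not_dvd_of_pos_of_lt (by omega) (by omega)))
    have h2 := mem_of_pow_mem_coprime (MulAction.stabilizer P v) z (j - i) p hcop
      (MulAction.mem_stabilizer_iff.mpr h1) (by rw [hzp]; exact Subgroup.one_mem _)
    exact MulAction.mem_stabilizer_iff.mp h2
  have F1 : ∀ i j : ℕ, i < p → j < p → i ≠ j → ∀ v : E, (a * z ^ i) • v = v →
      (a * z ^ j) • v = v → v = 0 := by
    intro i j hi hj hij v h1 h2
    rcases Nat.lt_or_gt_of_ne hij with h | h
    · exact F1' i j h hj v h1 h2
    · exact F1' j i h hi v h2 h1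
  have hbcomm : ∀ i j : ℕ, (a * z ^ i) * (a * z ^ j) = (a * z ^ j) * (a * z ^ i) :=
    fun i j => hAcomm _ (hbA i) _ (hbA j)
  have F3 : ∀ i j : ℕ, i < p → j < p → i ≠ j → ∀ v : E, (a * z ^ j) • v = v →
      tr p (a * z ^ i) v = 0 := by
    intro i j hi hj hij v hv
    apply F1 i j hi hj hij
    · exact tr_fixed p _ (hbp i) v
    · rw [tr_comm p _ _ (hbcomm j i) v, hv]
  have hex : ∃ i j : ℕ, i < p ∧ j < p ∧ i ≠ j ∧ (∃ v : E, v ≠ 0 ∧ (a * z ^ i) • v = v) ∧
      (∃ v : E, v ≠ 0 ∧ (a * z ^ j) • v = v) := by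
    by_contra h
    obtain ⟨i0, hi0, hall⟩ : ∃ i0 : ℕ, i0 < p ∧ ∀ j : ℕ, j < p → j ≠ i0 →
        ∀ v : E, (a * z ^ j) • v = v → v = 0 := by
      by_cases h0 : ∃ i : ℕ, i < p ∧ ∃ v : E, v ≠ 0 ∧ (a * z ^ i) • v = v
      · obtain ⟨i0, hi0, v0, hv0, hfix0⟩ := h0
        refine ⟨i0, hi0, fun j hj hji v hv => ?_⟩
        by_contra hv1
        exact h ⟨i0, j, hi0, hj, Ne.symm hji, ⟨v0, hv0, hfix0⟩, ⟨v, hv1, hv⟩⟩
      · push Not at h0
        refine ⟨0, hp.pos, fun j hj _ v hv => ?_⟩
        by_contra hv1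
        exact h0 j hj v hv1 hv
    apply hb1 i0
    apply hfaith
    intro v
    have hid := tr_identity p hp a z hazc hzp hz0 v
    rw [Finset.sum_eq_single i0
      (fun j hj hji => hall j (Finset.mem_range.mp hj) hji _ (tr_fixed p _ (hbp j) v))
      (fun h => absurd (Finset.mem_range.mpr hi0) h)] at hid
    have h3 : (a * z ^ i0) • (p • v) = p • v := by
      rw [← hid]
      exact tr_fixed p _ (hbp i0) v
    have h4 : p • ((a * z ^ i0) • v - v) = 0 := by
      rw [smul_sub, ← smul_comm, h3, sub_self]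
    exact sub_eq_zero.mp (hpE _ h4)
  obtain ⟨i, j, hi, hj, hij, ⟨vi, hvi0, hvi⟩, ⟨vj, hvj0, hvj⟩⟩ := hex
  obtain ⟨bi, hbi⟩ : ∃ bi : P, bi = a * z ^ i := ⟨_, rfl⟩
  obtain ⟨bj, hbj⟩ : ∃ bj : P, bj = a * z ^ j := ⟨_, rfl⟩
  rw [← hbi] at hvi
  rw [← hbj] at hvj
  have hbiA : bi ∈ A := by rw [hbi]; exact hbA i
  have hbjA : bj ∈ A := by rw [hbj]; exact hbA j
  have hbip : bi ^ p = 1 := hAexp bi hbiA
  have hbjp : bj ^ p = 1 := hAexp bj hbjA
  have hbi1 : bi ≠ 1 := by rw [hbi]; exact hb1 i
  have hbj1 : bj ≠ 1 := by rw [hbj]; exact hb1 j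
  have G1 : ∀ v : E, bi • v = v → bj • v = v → v = 0 := by
    intro v h1 h2
    rw [hbi] at h1
    rw [hbj] at h2
    exact F1 i j hi hj hij v h1 h2
  have G3 : ∀ v : E, bj • v = v → tr p bi v = 0 := by
    intro v hv
    rw [hbi]
    rw [hbj] at hv
    exact F3 i j hi hj hij v hv
  have G3' : ∀ v : E, bi • v = v → tr p bj v = 0 := by
    intro v hv
    rw [hbj]
    rw [hbi] at hv
    exact F3 j i hj hi (Ne.symm hij) v hv
  have hw0 : vi + vj ≠ 0 := by
    intro h
    have h1 : vj = -vi := by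
      rw [add_comm] at h
      exact eq_neg_of_add_eq_zero_left h
    apply hvj0
    apply G1 vj _ hvj
    rw [h1, smul_neg, hvi]
  have hnot : bi ∉ MulAction.stabilizer P (vi + vj) := by
    intro h
    rw [MulAction.mem_stabilizer_iff, smul_add, hvi] at h
    exact hvj0 (G1 vj (add_left_cancel h) hvj)
  have hle : MulAction.stabilizer P (vi + vj) ≤ MulAction.stabilizer P vi := by
    intro g hg
    rw [MulAction.mem_stabilizer_iff] at hg ⊢
    rw [smul_add] at hg
    obtain ⟨ci, hci⟩ : ∃ ci : P, ci = g * bi * g⁻¹ := ⟨_, rfl⟩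
    obtain ⟨cj, hcj⟩ : ∃ cj : P, cj = g * bj * g⁻¹ := ⟨_, rfl⟩
    have hciA : ci ∈ A := by rw [hci]; exact hAn.conj_mem bi hbiA g
    have hcjA : cj ∈ A := by rw [hcj]; exact hAn.conj_mem bj hbjA g
    have hci1 : ci ≠ 1 := by
      rw [hci]
      intro h
      apply hbi1
      have e : bi = g⁻¹ * (g * bi * g⁻¹) * g := by group
      rw [e, h]
      group
    have hcj1 : cj ≠ 1 := by
      rw [hcj]
      intro h
      apply hbj1
      have e : bj = g⁻¹ * (g * bj * g⁻¹) * g := by group
      rw [e, h]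
      group
    have hcifix : ci • (g • vi) = g • vi := by
      rw [hci, ← mul_smul, inv_mul_cancel_right, mul_smul, hvi]
    have hcjfix : cj • (g • vj) = g • vj := by
      rw [hcj, ← mul_smul, inv_mul_cancel_right, mul_smul, hvj]
    have key : ∀ (x y : P), x ∈ A → x ≠ 1 → y ∈ A → ∀ v : E, y • v = v →
        y ∈ Subgroup.zpowers x ∨ tr p x v = 0 := by
      intro x y hx hx1 hy v hv
      have hxp := hAexp x hx
      rcases lemG p A hA hAexp x y hx hx1 hy (MulAction.stabilizer P (tr p x v))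
        (MulAction.mem_stabilizer_iff.mpr (tr_fixed p x hxp v))
        (MulAction.mem_stabilizer_iff.mpr (by rw [tr_comm p x y (hAcomm y hy x hx) v, hv]))
        with h | h
      · left
        exact h
      · right
        exact hzfpf _ (MulAction.mem_stabilizer_iff.mp (h hzA'))
    have E1 : tr p bi (g • vi) + tr p bi (g • vj) = p • vi := by
      rw [← tr_add, hg, tr_add, tr_of_fixed p bi vi hvi, G3 vj hvj, add_zero]
    have E2 : tr p bj (g • vi) + tr p bj (g • vj) = p • vj := by
      rw [← tr_add, hg, tr_add, tr_of_fixed p bj vj hvj, G3' vi hvi, zero_add]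
    have hpvi : p • vi ≠ 0 := fun h => hvi0 (hpE vi h)
    have hpvj : p • vj ≠ 0 := fun h => hvj0 (hpE vj h)
    have hstabi : Subgroup.zpowers bi ≤ MulAction.stabilizer P vi :=
      Subgroup.zpowers_le.mpr (MulAction.mem_stabilizer_iff.mpr hvi)
    have hstabj : Subgroup.zpowers bj ≤ MulAction.stabilizer P vj :=
      Subgroup.zpowers_le.mpr (MulAction.mem_stabilizer_iff.mpr hvj)
    have hij_not : bi ∉ Subgroup.zpowers bj := by
      intro h3
      exact hvj0 (G1 vj (MulAction.mem_stabilizer_iff.mp (hstabj h3)) hvj)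
    have hji_not : bj ∉ Subgroup.zpowers bi := by
      intro h3
      exact hvi0 (G1 vi hvi (MulAction.mem_stabilizer_iff.mp (hstabi h3)))
    have N1 : ¬ (ci ∈ Subgroup.zpowers bi ∧ ci ∈ Subgroup.zpowers bj) := by
      rintro ⟨h1, h2⟩
      have e1 := lemH p ci bi (hAexp ci hciA) hbip hci1 hbi1 h1
      have e2 := lemH p ci bj (hAexp ci hciA) hbjp hci1 hbj1 h2
      apply hij_not
      rw [← e2, e1]
      exact Subgroup.mem_zpowers bi
    have N2 : ¬ (cj ∈ Subgroup.zpowers bi ∧ cj ∈ Subgroup.zpowers bj) := by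
      rintro ⟨h1, h2⟩
      have e1 := lemH p cj bi (hAexp cj hcjA) hbip hcj1 hbi1 h1
      have e2 := lemH p cj bj (hAexp cj hcjA) hbjp hcj1 hbj1 h2
      apply hij_not
      rw [← e2, e1]
      exact Subgroup.mem_zpowers bi
    have N3 : ¬ (ci ∈ Subgroup.zpowers bi ∧ cj ∈ Subgroup.zpowers bi) := by
      rintro ⟨h1, h2⟩
      have e1 := lemH p ci bi (hAexp ci hciA) hbip hci1 hbi1 h1
      have e2 := lemH p cj bi (hAexp cj hcjA) hbip hcj1 hbi1 h2
      have h3 : cj ∈ Subgroup.zpowers ci := by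
        rw [e1, ← e2]
        exact Subgroup.mem_zpowers cj
      obtain ⟨k, hk⟩ := Subgroup.mem_zpowers_iff.mp h3
      have h4 : bi ^ k = bj := by
        rw [hci, hcj, conj_zpow] at hk
        exact mul_left_cancel (mul_right_cancel hk)
      apply hji_not
      rw [← h4]
      exact Subgroup.zpow_mem _ (Subgroup.mem_zpowers bi) k
    by_cases hc : ci ∈ Subgroup.zpowers bi
    · have h2 : tr p bi (g • vj) = 0 := by
        rcases key bi cj hbiA hbi1 hcjA (g • vj) hcjfix with h | h
        · exact absurd ⟨hc, h⟩ N3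
        · exact h
      rw [h2, add_zero] at E1
      have e1 := lemH p ci bi (hAexp ci hciA) hbip hci1 hbi1 hc
      have h3 : bi • (g • vi) = g • vi := by
        have h6 : Subgroup.zpowers ci ≤ MulAction.stabilizer P (g • vi) :=
          Subgroup.zpowers_le.mpr (MulAction.mem_stabilizer_iff.mpr hcifix)
        have h7 : bi ∈ Subgroup.zpowers ci := by
          rw [e1]
          exact Subgroup.mem_zpowers bi
        exact MulAction.mem_stabilizer_iff.mp (h6 h7)
      rw [tr_of_fixed p bi (g • vi) h3] at E1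
      have h4 : p • (g • vi - vi) = 0 := by
        rw [smul_sub, E1, sub_self]
      exact sub_eq_zero.mp (hpE _ h4)
    · exfalso
      have h1 : tr p bi (g • vi) = 0 := by
        rcases key bi ci hbiA hbi1 hciA (g • vi) hcifix with h | h
        · exact absurd h hc
        · exact h
      rw [h1, zero_add] at E1
      have h2 : cj ∈ Subgroup.zpowers bi := by
        rcases key bi cj hbiA hbi1 hcjA (g • vj) hcjfix with h | h
        · exact h
        · rw [h] at E1
          exact absurd E1.symm hpvi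
      have h3 : tr p bj (g • vj) = 0 := by
        rcases key bj cj hbjA hbj1 hcjA (g • vj) hcjfix with h | h
        · exact absurd ⟨h2, h⟩ N2
        · exact h
      rw [h3, add_zero] at E2
      have h4 : ci ∈ Subgroup.zpowers bj := by
        rcases key bj ci hbjA hbj1 hciA (g • vi) hcifix with h | h
        · exact h
        · rw [h] at E2
          exact absurd E2.symm hpvj
      apply hc
      obtain ⟨k, hk⟩ := Subgroup.mem_zpowers_iff.mp h4
      have h5 : (g * g) * bi * (g * g)⁻¹ ∈ Subgroup.zpowers bi := by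
        have e : (g * g) * bi * (g * g)⁻¹ = g * ci * g⁻¹ := by
          rw [hci]
          group
        rw [e, ← hk, ← conj_zpow, ← hcj]
        exact Subgroup.zpow_mem _ h2 k
      obtain ⟨n, hn⟩ := hP g
      have hodd : Odd (p ^ n) := (hp.odd_of_ne_two hp2).pow
      obtain ⟨m, hm⟩ := hodd
      have h6 := conj_pow_mem (g * g) bi h5 (m + 1)
      have e2 : (g * g) ^ (m + 1) = g := by
        rw [← pow_two, ← pow_mul]
        have e3 : 2 * (m + 1) = p ^ n + 1 := by omega
        rw [e3, pow_succ, hn, one_mul]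
      rw [e2] at h6
      rw [hci]
      exact h6
  have heq := Subgroup.eq_of_le_of_card_ge hle (le_of_eq (hconst vi (vi + vj) hvi0 hw0))
  apply hnot
  rw [heq]
  exact MulAction.mem_stabilizer_iff.mpr hvi

end aux



/-- Let `p ≠ 2` be prime and `P` a finite `p`-group acting faithfully by additive automorphisms on a finite elementary abelian `q`-group `E` (`q` prime), such that `|P_a|` is the same for all `a ≠ 0`. Then `P` is cyclic and every non-identity element of `P` fixes only `0`. -/
theorem result {P E : Type*} [Group P] [Finite P]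
    [AddCommGroup E] [Finite E] [DistribMulAction P E] [FaithfulSMul P E]
    {p q : ℕ} [Fact p.Prime] (hp2 : p ≠ 2) (hP : IsPGroup p P) (hq : q.Prime) (hE : ∀ e : E, q • e = 0)
    (hconst : ∀ a b : E, a ≠ 0 → b ≠ 0 →
      Nat.card (MulAction.stabilizer P a) = Nat.card (MulAction.stabilizer P b)) :
    IsCyclic P ∧ ∀ g : P, g ≠ 1 → ∀ a : E, g • a = a → a = 0 := by
  classical
  have hp : p.Prime := Fact.out
  by_cases htriv : ∀ g : P, g = 1
  · haveI : Subsingleton P := ⟨fun a b => by rw [htriv a, htriv b]⟩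
    exact ⟨isCyclic_of_subsingleton, fun g hg => absurd (htriv g) hg⟩
  push Not at htriv
  obtain ⟨g0, hg0⟩ := htriv
  have hfaith : ∀ g : P, (∀ v : E, g • v = v) → g = 1 := by
    intro g hg
    apply FaithfulSMul.eq_of_smul_eq_smul (α := E)
    intro v
    rw [hg v, one_smul]
  obtain ⟨v0, hv0⟩ : ∃ v : E, g0 • v ≠ v := by
    by_contra h
    push Not at h
    exact hg0 (hfaith g0 h)
  have hv00 : v0 ≠ 0 := by
    rintro rfl
    exact hv0 (smul_zero g0)
  have hqp : q ≠ p := by
    rintro rfl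
    have h1 := hP.card_modEq_card_fixedPoints E
    have hdiv : q ∣ Nat.card E := by
      have h2 : addOrderOf v0 ∣ q := addOrderOf_dvd_of_nsmul_eq_zero (hE v0)
      have h3 : addOrderOf v0 = q := by
        rcases (Nat.dvd_prime hq).mp h2 with h | h
        · rw [AddMonoid.addOrderOf_eq_one_iff] at h
          exact absurd h hv00
        · exact h
      rw [← h3]
      exact addOrderOf_dvd_natCard v0
    have hdiv2 : q ∣ Nat.card (MulAction.fixedPoints P E) :=
      (Nat.modEq_zero_iff_dvd).mp (h1.symm.trans ((Nat.modEq_zero_iff_dvd).mpr hdiv))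
    obtain ⟨a, ha0, hafix⟩ : ∃ a : E, a ≠ 0 ∧ ∀ g : P, g • a = a := by
      by_contra hcon
      push Not at hcon
      have hsub : Nat.card (MulAction.fixedPoints P E) = 1 := by
        rw [Nat.card_eq_one_iff_unique]
        refine ⟨⟨fun x y => Subtype.ext ?_⟩, ⟨⟨0, fun g => smul_zero g⟩⟩⟩
        have hx : (x : E) = 0 := by
          by_contra h
          obtain ⟨g, hg⟩ := hcon x h
          exact hg (x.2 g)
        have hy : (y : E) = 0 := by
          by_contra h
          obtain ⟨g, hg⟩ := hcon y h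
          exact hg (y.2 g)
        rw [hx, hy]
      rw [hsub] at hdiv2
      exact hq.one_lt.ne' (Nat.dvd_one.mp hdiv2)
    have hs1 : MulAction.stabilizer P a = ⊤ := by
      ext g
      simp [MulAction.mem_stabilizer_iff, hafix g]
    have hs2 := hconst v0 a hv00 ha0
    rw [hs1] at hs2
    have hs3 : MulAction.stabilizer P v0 = ⊤ := by
      apply Subgroup.eq_top_of_card_eq
      rw [hs2]
      exact Subgroup.card_top
    have hmem : g0 ∈ MulAction.stabilizer P v0 := by
      rw [hs3]
      exact Subgroup.mem_top _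
    exact hv0 (MulAction.mem_stabilizer_iff.mp hmem)
  have hpE : ∀ e : E, p • e = 0 → e = 0 := by
    intro e he
    have hcop : Nat.Coprime p q := (Nat.coprime_primes hp hq).mpr (Ne.symm hqp)
    have h1 : ((p : ℤ) * Nat.gcdA p q + (q : ℤ) * Nat.gcdB p q) • e = e := by
      rw [← Nat.gcd_eq_gcd_ab, hcop.gcd_eq_one]
      simp
    rw [← h1, add_smul, mul_comm (p : ℤ), mul_comm (q : ℤ), mul_smul, mul_smul,
      natCast_zsmul, natCast_zsmul, he, hE e, smul_zero, smul_zero, add_zero]
  have hcyc : IsCyclic P := by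
    by_contra hnc
    obtain ⟨A, hAn, ⟨hAc, hAexp⟩, hA⟩ :=
      Cfsg.Agent.Lib.Helper2.exists_normal_elementary_abelian_sq hp2 hP hnc
    exact noncyclic_contra p hp2 hP hpE hfaith hconst A hAn hA hAexp (by
      intro x hx y hy
      have h := (isMulCommutative_iff.mp hAc) ⟨x, hx⟩ ⟨y, hy⟩
      exact congrArg Subtype.val h)
  refine ⟨hcyc, ?_⟩
  intro g hg a hga
  obtain ⟨n, hn⟩ := hP g
  have h1 : orderOf g ∣ p ^ n := orderOf_dvd_of_pow_eq_one hn
  obtain ⟨m, -, hm⟩ := (Nat.dvd_prime_pow hp).mp h1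
  have hm0 : m ≠ 0 := by
    rintro rfl
    rw [pow_zero, orderOf_eq_one_iff] at hm
    exact hg hm
  have ho : orderOf (g ^ (orderOf g / p)) = p :=
    orderOf_pow_orderOf_div (orderOf_pos g).ne' (hm ▸ dvd_pow_self p hm0)
  obtain ⟨y, hy⟩ : ∃ y : P, y = g ^ (orderOf g / p) := ⟨_, rfl⟩
  rw [← hy] at ho
  have hy1 : y ≠ 1 := by
    rintro rfl
    rw [orderOf_one] at ho
    exact hp.one_lt.ne ho
  have hyp : y ^ p = 1 := by
    have h := pow_orderOf_eq_one y
    rw [ho] at h
    exact h
  have hcomm : ∀ a b : P, a * b = b * a := by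
    letI : IsCyclic P := hcyc
    letI := IsCyclic.commGroup (α := P)
    exact fun a b => mul_comm a b
  have hya : y • a = a := by
    rw [hy]
    have hk : ∀ k : ℕ, g ^ k • a = a := by
      intro k
      induction k with
      | zero => simp
      | succ k ih => rw [pow_succ, mul_smul, hga, ih]
    exact hk _
  exact central_fpf p hpE hfaith hconst y (fun g' => hcomm g' y) hyp hy1 a hya

end Cfsg.Agent.S1160
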