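import Mathlib
import Cfsg.Statements.S1312
import Cfsg.Agent.Lib.Helper11.BenderMax

set_option autoImplicit false
open Cfsg

namespace Cfsg.Agent.S1312

open Cfsg.Agent.Lib.Helper11

universe u

theorem normalizer_eq_of_coatom {G : Type u} [Group G] [IsSimpleGroup G] {M S : Subgroup G}
    (hM : IsCoatom M) (hSM : S ≤ M) (hS : S ≠ ⊥)
    (hn : M ≤ Subgroup.normalizer (S : Set G)) : Subgroup.normalizer (S : Set G) = M := by
  rcases hM.le_iff.mp hn with h | h
  · exfalso
    have hnorm : S.Normal := Subgroup.normalizer_eq_top_iff.mp h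
    rcases hnorm.eq_bot_or_eq_top with h' | h'
    · exact hS h'
    · exact hM.1 (eq_top_iff.mpr (h' ▸ hSM))
  · exact h

/-- the facts about one side -/
theorem side_facts {G : Type u} [Group G] [Finite G] [IsSimpleGroup G] (M : Subgroup G)
    (hM : IsCoatom M) (hlay : Cfsg.layer ↥M = ⊥) (q : ℕ) [Fact q.Prime] (hne : fq' q M ≠ ⊥) :
    Subgroup.centralizer (fq' q M : Set G) ≤ M ∧
    Subgroup.centralizer (fq' q M : Set G) ⊓ Subgroup.centralizer (fq q M : Set G) ≤
      fq q M ⊔ fq' q M := by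
  have hnorm := normalizer_eq_of_coatom hM (fq'_le q M) hne (fq'_normalizer q M)
  have hle : Subgroup.centralizer (fq' q M : Set G) ≤ M :=
    (Subgroup.centralizer_le_normalizer (s := (fq' q M : Set G))).trans hnorm.le
  refine ⟨hle, ?_⟩
  intro g hg
  rw [Subgroup.mem_inf] at hg
  have hgM : g ∈ M := hle hg.1
  have hsup : fq q M ⊔ fq' q M ≤ Subgroup.centralizer ({g} : Set G) := by
    apply sup_le
    · intro f hf
      rw [Subgroup.mem_centralizer_iff]
      intro y hy
      rw [Set.mem_singleton_iff] at hy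
      rw [hy]
      exact (Subgroup.mem_centralizer_iff.mp hg.2 f hf).symm
    · intro f hf
      rw [Subgroup.mem_centralizer_iff]
      intro y hy
      rw [Set.mem_singleton_iff] at hy
      rw [hy]
      exact (Subgroup.mem_centralizer_iff.mp hg.1 f hf).symm
  have hgc : (⟨g, hgM⟩ : M) ∈
      Subgroup.centralizer (Cfsg.generalizedFittingSubgroup ↥M : Set ↥M) := by
    rw [Subgroup.mem_centralizer_iff]
    intro y hy
    rw [SetLike.mem_coe, genFitting_eq_fitting_of_layer M hlay] at hy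
    have hy' : (y : G) ∈ fq q M ⊔ fq' q M := by
      rw [fq_sup]; exact ⟨y, hy, rfl⟩
    have := Subgroup.mem_centralizer_iff.mp (hsup hy') g rfl
    exact Subtype.ext this.symm
  have h1 := centralizer_genFitting_le hgc
  rw [genFitting_eq_fitting_of_layer M hlay] at h1
  rw [fq_sup]
  exact ⟨_, h1, rfl⟩

/-- if `F*(M)` is a `p`-group, so is `F*(N)` -/
theorem pgroup_of_pgroup {G : Type u} [Group G] [Finite G] [IsSimpleGroup G] (M N : Subgroup G)
    (h1 : (Cfsg.generalizedFittingSubgroup ↥M).map M.subtype ≤ N)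
    (h2 : (Cfsg.generalizedFittingSubgroup ↥N).map N.subtype ≤ M)
    (hlayN : Cfsg.layer ↥N = ⊥) (p : ℕ) [Fact p.Prime]
    (hMp : IsPGroup p ↥(Cfsg.generalizedFittingSubgroup ↥M)) :
    IsPGroup p ↥(Cfsg.generalizedFittingSubgroup ↥N) := by
  by_contra hNp
  have hK₂ := fq'_ne_bot N hlayN p hNp
  have hK₂F : fq' p N ≤ (Cfsg.generalizedFittingSubgroup ↥N).map N.subtype := by
    unfold fq'
    apply Subgroup.map_mono
    rw [genFitting_eq_fitting_of_layer N hlayN]
    exact inf_le_left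
  have hK₂M : fq' p N ≤ M := hK₂F.trans h2
  obtain ⟨F, hF⟩ : ∃ F, F = (Cfsg.generalizedFittingSubgroup ↥M).map M.subtype := ⟨_, rfl⟩
  have hFp : IsPGroup p F := by rw [hF]; exact hMp.map _
  have hFn : M ≤ Subgroup.normalizer (F : Set G) := by
    rw [hF]; exact le_normalizer_map_subtype' _ genFitting_normal
  have hFN : F ≤ N := by rw [hF]; exact h1
  have hcop : (Nat.card F).Coprime (Nat.card (fq' p N)) := by
    obtain ⟨k, hk⟩ := IsPGroup.iff_card.mp hFp
    rw [hk]
    exact (Nat.Coprime.pow_right k (fq'_coprime p N)).symm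
  have hcomm := comm_of_normalizing_coprime (hFN.trans (fq'_normalizer p N)) (hK₂M.trans hFn) hcop
  apply hK₂
  rw [eq_bot_iff]
  intro x hx
  have hxc : (⟨x, hK₂M hx⟩ : M) ∈
      Subgroup.centralizer (Cfsg.generalizedFittingSubgroup ↥M : Set ↥M) := by
    rw [Subgroup.mem_centralizer_iff]
    intro y hy
    have hyF : (y : G) ∈ F := by rw [hF]; exact ⟨y, hy, rfl⟩
    exact Subtype.ext (hcomm _ hyF x hx)
  have hxF : x ∈ F := by
    rw [hF]; exact ⟨_, centralizer_genFitting_le hxc, rfl⟩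
  have : x ∈ F ⊓ fq' p N := Subgroup.mem_inf.mpr ⟨hxF, hx⟩
  rwa [(Subgroup.disjoint_of_coprime_natCard hcop).eq_bot] at this

/-- Let G be a non-abelian finite simple group and M ≠ N maximal subgroups of G with F*(M) ≤ N and F*(N) ≤ M. Then there is a prime p such that F*(M) and F*(N) are both p-groups. -/
theorem result {G : Type*} [Group G] [Finite G] [IsSimpleGroup G] (hna : ¬ IsMulCommutative G) (M N : Subgroup G) (hM : IsCoatom M) (hN : IsCoatom N) (hMN : M ≠ N) (h1 : (Cfsg.generalizedFittingSubgroup ↥M).map M.subtype ≤ N) (h2 : (Cfsg.generalizedFittingSubgroup ↥N).map N.subtype ≤ M) : ∃ p : ℕ, p.Prime ∧ IsPGroup p ↥(Cfsg.generalizedFittingSubgroup ↥M) ∧ IsPGroup p ↥(Cfsg.generalizedFittingSubgroup ↥N) := by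
  have hsup : M ⊔ N = ⊤ := hM.sup_eq_top_of_ne hN hMN
  -- the layers are trivial
  have hE : layOf M = layOf N :=
    le_antisymm (layOf_le_of_mutual M N h1 h2) (layOf_le_of_mutual N M h2 h1)
  have hn1 : M ≤ Subgroup.normalizer ((layOf M : Subgroup G) : Set G) :=
    le_normalizer_map_subtype' _ layer_normal
  have hn2 : N ≤ Subgroup.normalizer ((layOf M : Subgroup G) : Set G) := by
    rw [hE]; exact le_normalizer_map_subtype' _ layer_normal
  have hnorm : (layOf M).Normal :=
    Subgroup.normalizer_eq_top_iff.mp (eq_top_iff.mpr (hsup ▸ sup_le hn1 hn2))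
  have hEbot : layOf M = ⊥ := by
    rcases hnorm.eq_bot_or_eq_top with h | h
    · exact h
    · exfalso; exact hM.1 (eq_top_iff.mpr (h ▸ layOf_le M))
  have hlayM : Cfsg.layer ↥M = ⊥ :=
    (Subgroup.map_eq_bot_iff_of_injective _ M.subtype_injective).mp hEbot
  have hlayN : Cfsg.layer ↥N = ⊥ :=
    (Subgroup.map_eq_bot_iff_of_injective _ N.subtype_injective).mp
      (show layOf N = ⊥ by rw [← hE]; exact hEbot)
  by_cases hMp : ∃ p : ℕ, p.Prime ∧ IsPGroup p ↥(Cfsg.generalizedFittingSubgroup ↥M)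
  · obtain ⟨p, hp, hMp⟩ := hMp
    haveI : Fact p.Prime := ⟨hp⟩
    exact ⟨p, hp, hMp, pgroup_of_pgroup M N h1 h2 hlayN p hMp⟩
  by_cases hNp : ∃ p : ℕ, p.Prime ∧ IsPGroup p ↥(Cfsg.generalizedFittingSubgroup ↥N)
  · obtain ⟨p, hp, hNp⟩ := hNp
    haveI : Fact p.Prime := ⟨hp⟩
    exact ⟨p, hp, pgroup_of_pgroup N M h2 h1 hlayM p hNp, hNp⟩
  exfalso
  push Not at hMp hNp
  -- a prime dividing |F*(M)|
  have hcard1 : Nat.card ↥(Cfsg.generalizedFittingSubgroup ↥M) ≠ 1 := by
    intro h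
    apply hMp 2 Nat.prime_two
    haveI : Fact (Nat.Prime 2) := ⟨Nat.prime_two⟩
    exact IsPGroup.of_card (n := 0) (by rw [h, pow_zero])
  obtain ⟨q, hq, hqdvd⟩ := Nat.exists_prime_and_dvd hcard1
  haveI : Fact q.Prime := ⟨hq⟩
  have hF₁ne := fq_ne_bot M hlayM q hqdvd
  have hF₂ne := fq'_ne_bot M hlayM q (hMp q hq)
  have hK₂ne := fq'_ne_bot N hlayN q (hNp q hq)
  obtain ⟨hXM, hCXM⟩ := side_facts M hM hlayM q hF₂ne
  obtain ⟨hYN, hCYN⟩ := side_facts N hN hlayN q hK₂ne
  have hFitM : (Cfsg.fittingSubgroup ↥M).map M.subtype ≤ N := by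
    rw [← genFitting_eq_fitting_of_layer M hlayM]; exact h1
  have hFitN : (Cfsg.fittingSubgroup ↥N).map N.subtype ≤ M := by
    rw [← genFitting_eq_fitting_of_layer N hlayN]; exact h2
  have hF₁N : fq q M ≤ N := by
    rw [← fq_sup q M] at hFitM; exact le_sup_left.trans hFitM
  have hF₂N : fq' q M ≤ N := by
    rw [← fq_sup q M] at hFitM; exact le_sup_right.trans hFitM
  have hK₁M : fq q N ≤ M := by
    rw [← fq_sup q N] at hFitN; exact le_sup_left.trans hFitN
  have hK₂M : fq' q N ≤ M := by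
    rw [← fq_sup q N] at hFitN; exact le_sup_right.trans hFitN
  have hcopFK : (Nat.card (fq q M)).Coprime (Nat.card (fq' q N)) := by
    obtain ⟨k, hk⟩ := IsPGroup.iff_card.mp (fq_isPGroup q M)
    rw [hk]; exact (Nat.Coprime.pow_right k (fq'_coprime q N)).symm
  have hcopKF : (Nat.card (fq q N)).Coprime (Nat.card (fq' q M)) := by
    obtain ⟨k, hk⟩ := IsPGroup.iff_card.mp (fq_isPGroup q N)
    rw [hk]; exact (Nat.Coprime.pow_right k (fq'_coprime q M)).symm
  have hF₁K₂ := comm_of_normalizing_coprime (hF₁N.trans (fq'_normalizer q N))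
    (hK₂M.trans (fq_normalizer q M)) hcopFK
  have hK₁F₂ := comm_of_normalizing_coprime (hK₁M.trans (fq'_normalizer q M))
    (hF₂N.trans (fq_normalizer q N)) hcopKF
  -- `q`-elements of `C(F₂)` and of `C(K₂)` coincide
  have hXY : ∀ x ∈ Subgroup.centralizer (fq' q M : Set G), ∀ a : ℕ, x ^ (q ^ a) = 1 →
      x ∈ Subgroup.centralizer (fq' q N : Set G) := by
    intro x hx a hxa
    rw [Subgroup.mem_centralizer_iff]
    intro k hk
    exact q_element_comm q (fq q M) (fq' q M) (fq' q N) (fq_isPGroup q M) (fq'_coprime q M)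
      (fq_comm q M) (hXM.trans (fq_normalizer q M)) hCXM (fq'_coprime q N)
      (hK₂M.trans (fq'_normalizer q M))
      (by
        intro k' hk'
        rw [Subgroup.mem_centralizer_iff]
        intro f hf
        exact hF₁K₂ f hf k' hk') x hx a hxa k hk
  have hYX : ∀ x ∈ Subgroup.centralizer (fq' q N : Set G), ∀ a : ℕ, x ^ (q ^ a) = 1 →
      x ∈ Subgroup.centralizer (fq' q M : Set G) := by
    intro x hx a hxa
    rw [Subgroup.mem_centralizer_iff]
    intro k hk
    exact q_element_comm q (fq q N) (fq' q N) (fq' q M) (fq_isPGroup q N) (fq'_coprime q N)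
      (fq_comm q N) (hYN.trans (fq_normalizer q N)) hCYN (fq'_coprime q M)
      (hF₂N.trans (fq'_normalizer q N))
      (by
        intro k' hk'
        rw [Subgroup.mem_centralizer_iff]
        intro f hf
        exact hK₁F₂ f hf k' hk') x hx a hxa k hk
  obtain ⟨S, hS⟩ : ∃ S : Set G, S = {x | x ∈ Subgroup.centralizer (fq' q M : Set G) ∧
      ∃ a : ℕ, x ^ (q ^ a) = 1} := ⟨_, rfl⟩
  have hS' : S = {x | x ∈ Subgroup.centralizer (fq' q N : Set G) ∧ ∃ a : ℕ, x ^ (q ^ a) = 1} := by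
    rw [hS]
    ext x
    constructor
    · rintro ⟨hx, a, hxa⟩
      exact ⟨hXY x hx a hxa, a, hxa⟩
    · rintro ⟨hx, a, hxa⟩
      exact ⟨hYX x hx a hxa, a, hxa⟩
  have hconj : ∀ (L : Subgroup G) (F : Subgroup G), L ≤ Subgroup.normalizer (F : Set G) →
      L ≤ Subgroup.normalizer ((Subgroup.closure {x | x ∈ Subgroup.centralizer (F : Set G) ∧
        ∃ a : ℕ, x ^ (q ^ a) = 1} : Subgroup G) : Set G) := by
    intro L F hLF
    apply le_normalizer_of_map_conj_le
    intro g hg
    rw [MonoidHom.map_closure]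
    apply Subgroup.closure_mono
    rintro _ ⟨x, ⟨hx, a, hxa⟩, rfl⟩
    refine ⟨conj_mem_centralizer_of_mem_normalizer (hLF hg) hx, a, ?_⟩
    show (g * x * g⁻¹) ^ (q ^ a) = 1
    rw [conj_pow, hxa, mul_one, mul_inv_cancel]
  have hRM : M ≤ Subgroup.normalizer ((Subgroup.closure S : Subgroup G) : Set G) := by
    rw [hS]; exact hconj M (fq' q M) (fq'_normalizer q M)
  have hRN : N ≤ Subgroup.normalizer ((Subgroup.closure S : Subgroup G) : Set G) := by
    rw [hS']; exact hconj N (fq' q N) (fq'_normalizer q N)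
  have hRnorm : (Subgroup.closure S).Normal :=
    Subgroup.normalizer_eq_top_iff.mp (eq_top_iff.mpr (hsup ▸ sup_le hRM hRN))
  have hRle : Subgroup.closure S ≤ M := by
    rw [Subgroup.closure_le]
    intro x hx
    rw [hS] at hx
    exact hXM hx.1
  have hF₁R : fq q M ≤ Subgroup.closure S := by
    intro f hf
    apply Subgroup.subset_closure
    rw [hS]
    refine ⟨?_, ?_⟩
    · rw [Subgroup.mem_centralizer_iff]
      intro f₂ hf₂
      exact (fq_comm q M f hf f₂ hf₂).symm
    · obtain ⟨a, ha⟩ := fq_isPGroup q M ⟨f, hf⟩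
      exact ⟨a, by simpa using congrArg Subtype.val ha⟩
  rcases hRnorm.eq_bot_or_eq_top with h | h
  · apply hF₁ne
    rw [eq_bot_iff, ← h]; exact hF₁R
  · exact hM.1 (eq_top_iff.mpr (h ▸ hRle))

end Cfsg.Agent.S1312
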