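import Mathlib
import Cfsg.Statements.S1313
import Cfsg.Agent.Lib.Helper11.Bender

set_option autoImplicit false
open Cfsg

namespace Cfsg.Agent.S1313

theorem card_prod_mulAut_le {F : Type*} [Group F] [Finite F] :
    Nat.card (F × MulAut F) ≤ Nat.factorial (Nat.card F) := by
  rw [← Nat.card_perm]
  apply Nat.card_le_card_of_injective
    (fun q : F × MulAut F => (q.2.toEquiv.trans (Equiv.mulLeft q.1) : Equiv.Perm F))
  rintro ⟨a, α⟩ ⟨b, β⟩ h
  have h1 : ∀ x : F, a * α x = b * β x := by
    intro x
    have := congrArg (fun e : Equiv.Perm F => e x) h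
    simpa using this
  have hab : a = b := by simpa using h1 1
  subst hab
  have hαβ : α = β := by
    ext x
    exact mul_left_cancel (h1 x)
  rw [hαβ]

open Cfsg.Agent.Lib.Helper11 in
/-- The order of a finite group H is at most the factorial of the order of F*(H). -/
theorem result {H : Type*} [Group H] [Finite H] : Nat.card H ≤ Nat.factorial (Nat.card ↥(Cfsg.generalizedFittingSubgroup H)) := by
  have hn : (Cfsg.generalizedFittingSubgroup H).Normal := genFitting_normal
  have hker : (MulAut.conjNormal (H := Cfsg.generalizedFittingSubgroup H)).ker ≤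
      Cfsg.generalizedFittingSubgroup H := by
    intro g hg
    apply centralizer_genFitting_le
    rw [Subgroup.mem_centralizer_iff]
    intro x hx
    have h1 : MulAut.conjNormal g (⟨x, hx⟩ : Cfsg.generalizedFittingSubgroup H) = ⟨x, hx⟩ := by
      rw [MonoidHom.mem_ker.mp hg]; rfl
    have h2 := congrArg Subtype.val h1
    rw [MulAut.conjNormal_apply] at h2
    calc x * g = (g * x * g⁻¹) * g := by rw [h2]
      _ = g * x := by group
  have h1 : Nat.card H = Nat.card (MulAut.conjNormal (H := Cfsg.generalizedFittingSubgroup H)).ker *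
      Nat.card (MulAut.conjNormal (H := Cfsg.generalizedFittingSubgroup H)).range := by
    rw [← Subgroup.index_ker, Subgroup.card_mul_index]
  have h2 : Nat.card (MulAut.conjNormal (H := Cfsg.generalizedFittingSubgroup H)).ker ≤
      Nat.card (Cfsg.generalizedFittingSubgroup H) := Subgroup.card_le_of_le hker
  have hfin : Finite (MulAut (Cfsg.generalizedFittingSubgroup H)) :=
    Finite.of_injective (fun e : MulAut (Cfsg.generalizedFittingSubgroup H) => (e : _ → _))
      (fun a b hab => DFunLike.coe_injective hab)
  have h3 : Nat.card (MulAut.conjNormal (H := Cfsg.generalizedFittingSubgroup H)).range ≤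
      Nat.card (MulAut (Cfsg.generalizedFittingSubgroup H)) := Subgroup.card_le_card_group _
  calc Nat.card H = _ := h1
    _ ≤ Nat.card (Cfsg.generalizedFittingSubgroup H) *
        Nat.card (MulAut (Cfsg.generalizedFittingSubgroup H)) := Nat.mul_le_mul h2 h3
    _ = Nat.card ((Cfsg.generalizedFittingSubgroup H) × MulAut (Cfsg.generalizedFittingSubgroup H)) :=
      (Nat.card_prod _ _).symm
    _ ≤ _ := card_prod_mulAut_le

end Cfsg.Agent.S1313
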