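import Mathlib
import Cfsg.Statements.S1337
import Cfsg.Agent.Lib.Helper11.NormalFour
import Cfsg.Agent.Lib.Helper2.PChain
import Cfsg.Agent.Lib.Helper6.Thompson

set_option autoImplicit false
open Cfsg

namespace Cfsg.Agent.S1337

theorem ea_mono {P : Type*} [Group P] {p : ℕ} {F W : Subgroup P}
    (hF : Cfsg.IsElementaryAbelian p F) (h : W ≤ F) : Cfsg.IsElementaryAbelian p W := by
  obtain ⟨hFc, hFe⟩ := hF
  refine ⟨⟨⟨fun x y => Subtype.ext ?_⟩⟩, fun a ha => hFe a (h ha)⟩
  have h1 := congrArg Subtype.val (hFc.is_comm.comm ⟨x, h x.2⟩ ⟨y, h y.2⟩)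
  exact h1

theorem ea_le_centralizer {P : Type*} [Group P] {p : ℕ} {F : Subgroup P}
    (hF : Cfsg.IsElementaryAbelian p F) : F ≤ Subgroup.centralizer (F : Set P) := by
  obtain ⟨hFc, -⟩ := hF
  intro x hx
  rw [Subgroup.mem_centralizer_iff]
  intro y hy
  exact congrArg Subtype.val (hFc.is_comm.comm ⟨y, hy⟩ ⟨x, hx⟩)

/-- Let P be a finite p-group of p-rank greater than 2. Then P has a normal elementary abelian subgroup U of order p², and for every elementary abelian X ≤ P with |X| ≥ p²: X is joined to U by a chain of pairwise commuting elementary abelian subgroups of order ≥ p² if and only if C_P(X) has p-rank greater than 2. -/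
theorem result {P : Type*} [Group P] [Finite P] (p : ℕ) [Fact p.Prime] (hP : IsPGroup p P) (hrk : ¬ Cfsg.PRankLE p 2 P) : ∃ U : Subgroup P, U.Normal ∧ Cfsg.IsElementaryAbelian p U ∧ Nat.card ↥U = p ^ 2 ∧ ∀ X : Subgroup P, Cfsg.IsElementaryAbelian p X → p ^ 2 ≤ Nat.card ↥X → (Relation.ReflTransGen (fun A B : Subgroup P => Cfsg.IsElementaryAbelian p A ∧ p ^ 2 ≤ Nat.card ↥A ∧ Cfsg.IsElementaryAbelian p B ∧ p ^ 2 ≤ Nat.card ↥B ∧ ∀ a ∈ A, ∀ b ∈ B, a * b = b * a) X U ↔ ¬ Cfsg.PRankLE p 2 ↥(Subgroup.centralizer (X : Set P))) := by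
  have hp : p.Prime := Fact.out
  have hrk' := hrk
  unfold Cfsg.PRankLE at hrk'
  push Not at hrk'
  obtain ⟨E, hEc, hEe, hEcard⟩ := hrk'
  have hEea : Cfsg.IsElementaryAbelian p E := ⟨hEc, hEe⟩
  -- the normal subgroup U
  have hU : ∃ U : Subgroup P, U.Normal ∧ Cfsg.IsElementaryAbelian p U ∧ Nat.card ↥U = p ^ 2 := by
    by_cases hp2 : p = 2
    · subst hp2
      exact Cfsg.Agent.Lib.Helper11.exists_normal_four hP E hEea (by norm_num at hEcard; exact hEcard)
    · apply Cfsg.Agent.Lib.Helper2.exists_normal_elementary_abelian_sq hp2 hP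
      intro hc
      have hEc' : IsCyclic E := Subgroup.isCyclic E
      obtain ⟨g, hg⟩ := hEc'.exists_generator
      have h1 : orderOf g = Nat.card E := orderOf_eq_card_of_forall_mem_zpowers hg
      have h2 : g ^ p = 1 := Subtype.ext (by simpa using hEe g g.2)
      have h3 : orderOf g ≤ p := Nat.le_of_dvd hp.pos (orderOf_dvd_of_pow_eq_one h2)
      have h4 : p ≤ p ^ 2 := by nlinarith [hp.one_lt]
      omega
  obtain ⟨U, hUn, hUea, hUcard⟩ := hU
  refine ⟨U, hUn, hUea, hUcard, ?_⟩
  obtain ⟨C, hCdef⟩ : ∃ C : Subgroup P, C = Subgroup.centralizer (U : Set P) := ⟨_, rfl⟩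
  have hCn : C.Normal := by rw [hCdef]; infer_instance
  have hCidx : C.index ≤ p := by
    have h1 := Cfsg.Agent.Lib.Helper2.card_le_card_centralizer_mul hP U 2 hUcard
    rw [← hCdef] at h1
    have h2 : Nat.choose 2 2 = 1 := by decide
    rw [h2, pow_one, ← C.card_mul_index] at h1
    exact Nat.le_of_mul_le_mul_left h1 Nat.card_pos
  -- large elementary abelian subgroups meet C in order at least p²
  have hW : ∀ F : Subgroup P, p ^ 2 < Nat.card F → p ^ 2 ≤ Nat.card (C ⊓ F : Subgroup P) := by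
    intro F hF
    have h1 := Cfsg.Agent.Lib.Helper2.card_le_card_inf_mul_index F C
    obtain ⟨j, hj⟩ := IsPGroup.iff_card.mp (hP.to_subgroup (C ⊓ F))
    rw [hj] at h1 ⊢
    have h2 : p ^ 2 < p ^ j * p := lt_of_lt_of_le hF (le_trans h1 (Nat.mul_le_mul_left _ hCidx))
    rw [← pow_succ] at h2
    have h3 : 2 < j + 1 := (Nat.pow_lt_pow_iff_right hp.one_lt).mp h2
    exact Nat.pow_le_pow_right hp.pos (by omega)
  have hUC : U ≤ C := by rw [hCdef]; exact ea_le_centralizer hUea
  -- reformulation of the rank condition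
  have hgood_iff : ∀ X : Subgroup P, (¬ Cfsg.PRankLE p 2 ↥(Subgroup.centralizer (X : Set P))) ↔
      ∃ F : Subgroup P, Cfsg.IsElementaryAbelian p F ∧ p ^ 2 < Nat.card F ∧
        F ≤ Subgroup.centralizer (X : Set P) := by
    intro X
    constructor
    · intro h
      unfold Cfsg.PRankLE at h
      push Not at h
      obtain ⟨A, hAc, hAe, hAcard⟩ := h
      refine ⟨A.map (Subgroup.subtype _), ⟨inferInstance, ?_⟩, ?_, ?_⟩
      · rintro _ ⟨a, ha, rfl⟩
        rw [← map_pow, hAe a ha, map_one]
      · rw [Subgroup.card_map_of_injective (Subgroup.subtype_injective _)]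
        exact hAcard
      · rintro _ ⟨a, -, rfl⟩
        exact a.2
    · rintro ⟨F, ⟨hFc, hFe⟩, hFcard, hFle⟩ h
      have := h (F.subgroupOf (Subgroup.centralizer (X : Set P))) inferInstance
        (fun a ha => Subtype.ext (hFe a (Subgroup.mem_subgroupOf.mp ha)))
      rw [Nat.card_congr (Subgroup.subgroupOfEquivOfLe hFle).toEquiv] at this
      omega
  -- the chain relation
  obtain ⟨Rel, hRel⟩ : ∃ Rel : Subgroup P → Subgroup P → Prop, Rel =
      (fun A B : Subgroup P => Cfsg.IsElementaryAbelian p A ∧ p ^ 2 ≤ Nat.card ↥A ∧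
        Cfsg.IsElementaryAbelian p B ∧ p ^ 2 ≤ Nat.card ↥B ∧ ∀ a ∈ A, ∀ b ∈ B, a * b = b * a) :=
    ⟨_, rfl⟩
  rw [← hRel]
  -- U itself is good
  have hgoodU : ∃ F : Subgroup P, Cfsg.IsElementaryAbelian p F ∧ p ^ 2 < Nat.card F ∧
      F ≤ Subgroup.centralizer (U : Set P) := by
    by_cases hUE : U ≤ E
    · refine ⟨E, hEea, hEcard, ?_⟩
      intro x hx
      rw [Subgroup.mem_centralizer_iff]
      intro u hu
      exact congrArg Subtype.val (hEc.is_comm.comm ⟨u, hUE hu⟩ ⟨x, hx⟩)
    · have hWea : Cfsg.IsElementaryAbelian p (C ⊓ E : Subgroup P) := ea_mono hEea inf_le_right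
      have hWU : ∀ a ∈ (C ⊓ E : Subgroup P), ∀ b ∈ U, a * b = b * a := by
        intro a ha b hb
        have : a ∈ Subgroup.centralizer (U : Set P) := by rw [← hCdef]; exact ha.1
        exact (Subgroup.mem_centralizer_iff.mp this b hb).symm
      refine ⟨(C ⊓ E) ⊔ U, Cfsg.Agent.Lib.Helper6.ea_sup hWea hUea hWU, ?_, ?_⟩
      · by_contra hcon
        push Not at hcon
        have h1 : U = (C ⊓ E) ⊔ U :=
          Subgroup.eq_of_le_of_card_ge le_sup_right (by rw [hUcard]; exact hcon)
        have h2 : C ⊓ E ≤ U := by rw [h1]; exact le_sup_left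
        have h3 : C ⊓ E = U :=
          Subgroup.eq_of_le_of_card_ge h2 (by rw [hUcard]; exact hW E hEcard)
        apply hUE
        rw [← h3]; exact inf_le_right
      · rw [← hCdef]
        exact sup_le inf_le_left hUC
  -- chains give good subgroups
  have hchain : ∀ X : Subgroup P, Relation.ReflTransGen Rel X U →
      ∃ F : Subgroup P, Cfsg.IsElementaryAbelian p F ∧ p ^ 2 < Nat.card F ∧
        F ≤ Subgroup.centralizer (X : Set P) := by
    intro X hch
    induction hch using Relation.ReflTransGen.head_induction_on with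
    | refl => exact hgoodU
    | @head X B hXB hBU ih =>
      rw [hRel] at hXB
      obtain ⟨hXea, hXcard, hBea, hBcard, hcomm⟩ := hXB
      by_cases hBX : B ≤ X
      · by_cases hXB' : X ≤ B
        · have : X = B := le_antisymm hXB' hBX
          rw [this]; exact ih
        · refine ⟨X, hXea, ?_, ea_le_centralizer hXea⟩
          by_contra hcon
          push Not at hcon
          have : B = X := Subgroup.eq_of_le_of_card_ge hBX (le_trans hcon hBcard)
          exact hXB' (this ▸ le_rfl)
      · refine ⟨X ⊔ B, Cfsg.Agent.Lib.Helper6.ea_sup hXea hBea hcomm, ?_, ?_⟩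
        · by_contra hcon
          push Not at hcon
          have h1 : X = X ⊔ B := Subgroup.eq_of_le_of_card_ge le_sup_left (le_trans hcon hXcard)
          apply hBX
          rw [h1]; exact le_sup_right
        · refine sup_le (ea_le_centralizer hXea) ?_
          intro b hb
          rw [Subgroup.mem_centralizer_iff]
          intro x hx
          exact hcomm x hx b hb
  intro X hXea hXcard
  rw [hgood_iff]
  constructor
  · exact hchain X
  · rintro ⟨F, hFea, hFcard, hFle⟩
    have hWea : Cfsg.IsElementaryAbelian p (C ⊓ F : Subgroup P) := ea_mono hFea inf_le_right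
    have hWcard := hW F hFcard
    have h1 : Rel X (C ⊓ F) := by
      rw [hRel]
      refine ⟨hXea, hXcard, hWea, hWcard, ?_⟩
      intro a ha b hb
      exact Subgroup.mem_centralizer_iff.mp (hFle hb.2) a ha
    have h2 : Rel (C ⊓ F) U := by
      rw [hRel]
      refine ⟨hWea, hWcard, hUea, by rw [hUcard], ?_⟩
      intro a ha b hb
      have : a ∈ Subgroup.centralizer (U : Set P) := by rw [← hCdef]; exact ha.1
      exact (Subgroup.mem_centralizer_iff.mp this b hb).symm
    exact Relation.ReflTransGen.head h1 (Relation.ReflTransGen.single h2)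

end Cfsg.Agent.S1337
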