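import Cfsg.Statements.S1445
import Cfsg.Agent.Lib.Helper12.XsFit

set_option autoImplicit false
set_option linter.style.haveILetI false
open Cfsg

namespace Cfsg.Agent.S1445

/-- Let G be a solvable group of odd order, K a normal subgroup and R a subgroup with G = KR and the orders of K and R coprime. Suppose K ∩ C_G(x) = K ∩ C_G(R) for every non-identity x ∈ R, and F(K) ∩ C_G(R) = 1. Then [K, R] is contained in the Fitting subgroup of K. -/
theorem result {G : Type*} [Group G] [Finite G] [Group.IsSolvable G] (hodd : Odd (Nat.card G)) (K R : Subgroup G) [K.Normal] (hKR : K ⊔ R = ⊤) (hcop : (Nat.card K).Coprime (Nat.card R))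
    (hprime : ∀ x ∈ R, x ≠ 1 → K ⊓ Subgroup.centralizer ({x} : Set G) = (K ⊓ Subgroup.centralizer (R : Set G)))
    (hF : Cfsg.fittingOf K ⊓ Subgroup.centralizer (R : Set G) = ⊥) :
    ⁅K, R⁆ ≤ Cfsg.fittingOf K := by
  classical
  by_cases hR1 : R = ⊥
  · rw [hR1, Subgroup.commutator_bot_right]; exact bot_le
  have hRcard : Nat.card R ≠ 1 := fun h => hR1 (Subgroup.eq_bot_of_card_eq _ h)
  obtain ⟨r, hr, hrR⟩ := Nat.exists_prime_and_dvd hRcard
  haveI : Fact r.Prime := ⟨hr⟩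
  obtain ⟨y, hy⟩ := exists_prime_orderOf_dvd_card' r hrR
  obtain ⟨x, hxdef⟩ : ∃ x : G, x = (y : G) := ⟨_, rfl⟩
  have hxR : x ∈ R := hxdef ▸ y.2
  have hx : orderOf x = r := by rw [hxdef, Subgroup.orderOf_coe]; exact hy
  have hx1 : x ≠ 1 := by
    intro h
    rw [h, orderOf_one] at hx
    exact hr.one_lt.ne hx
  have hrK : ¬ r ∣ Nat.card K := by
    intro h
    have h0 := Nat.dvd_gcd h hrR
    rw [Nat.Coprime.gcd_eq_one hcop] at h0
    exact hr.one_lt.ne' (Nat.dvd_one.mp h0)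
  have hKn : ∀ g : G, g ∈ Subgroup.normalizer (K : Set G) := fun g => by
    rw [Subgroup.normalizer_eq_top]; exact Subgroup.mem_top g
  have hKsolv : Group.IsSolvable ↥K := inferInstance
  have hfix : ∀ f ∈ Cfsg.fittingOf K, x * f = f * x → f = 1 := by
    intro f hf hc
    have h1 : f ∈ K ⊓ Subgroup.centralizer ({x} : Set G) := by
      refine ⟨Cfsg.Agent.Lib.Helper12.XsFit.fitOf_le K hf, Subgroup.mem_centralizer_iff.mpr ?_⟩
      intro h hh
      rw [Set.mem_singleton_iff] at hh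
      rw [hh]; exact hc
    rw [hprime x hxR hx1] at h1
    have h2 : f ∈ Cfsg.fittingOf K ⊓ Subgroup.centralizer (R : Set G) := ⟨hf, h1.2⟩
    rw [hF] at h2
    exact Subgroup.mem_bot.mp h2
  have key := Cfsg.Agent.Lib.Helper12.XsFit.fit_main x r hr hx _ K rfl hKsolv
    (hodd.of_dvd_nat (Subgroup.card_subgroup_dvd_card K)) hrK (hKn x) hfix
  have hFK : Cfsg.fittingOf K ≤ K := Cfsg.Agent.Lib.Helper12.XsFit.fitOf_le K
  have hFn : ∀ g : G, g ∈ Subgroup.normalizer (Cfsg.fittingOf K : Set G) :=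
    fun g => Cfsg.Agent.Lib.Helper12.XsFit.fitOf_norm K (hKn g)
  have hZK : Subgroup.zpowers x ≤ Subgroup.normalizer (K : Set G) := fun g _ => hKn g
  have hcopx : (Nat.card (Subgroup.zpowers x)).Coprime (Nat.card K) := by
    rw [Nat.card_zpowers, hx]; exact (Nat.Prime.coprime_iff_not_dvd hr).mpr hrK
  have hZsolv : Group.IsSolvable ↥(Subgroup.zpowers x) := inferInstance
  rw [Subgroup.commutator_le]
  intro k hk y' hy'
  obtain ⟨c, hc, hkc⟩ := Cfsg.Agent.Lib.Helper1.coprime_fixed_quotient (Subgroup.zpowers x) K hZK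
    hcopx (Or.inl hZsolv) (Cfsg.fittingOf K) hFK (fun g _ => hFn g) (fun g _ => hFn g) k hk (by
      intro a ha
      have h1 : k * a * k⁻¹ * a⁻¹ ∈ Cfsg.fittingOf K := by
        have h0 := key (Subgroup.commutator_mem_commutator hk ha)
        rwa [commutatorElement_def] at h0
      have h2 : a * k * a⁻¹ * k⁻¹ = (k * a * k⁻¹ * a⁻¹)⁻¹ := by group
      rw [h2]; exact Subgroup.inv_mem _ h1)
  have hcR : c ∈ K ⊓ Subgroup.centralizer (R : Set G) := by
    rw [← hprime x hxR hx1]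
    refine ⟨hc.1, Subgroup.mem_centralizer_iff.mpr ?_⟩
    intro h hh
    rw [Set.mem_singleton_iff] at hh
    rw [hh]
    exact Subgroup.mem_centralizer_iff.mp hc.2 x (Subgroup.mem_zpowers x)
  have hcy : y' * c = c * y' := Subgroup.mem_centralizer_iff.mp hcR.2 y' hy'
  have hfF : c⁻¹ * k ∈ Cfsg.fittingOf K := by
    have h0 := Subgroup.inv_mem _ hkc
    rwa [mul_inv_rev, inv_inv] at h0
  have hcy' : c⁻¹ * y'⁻¹ = y'⁻¹ * c⁻¹ := by
    rw [← mul_inv_rev, ← mul_inv_rev, hcy]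
  have h3 : k * y' * k⁻¹ * y'⁻¹
      = c * ((c⁻¹ * k) * (y' * (c⁻¹ * k)⁻¹ * y'⁻¹)) * c⁻¹ := by
    calc k * y' * k⁻¹ * y'⁻¹ = c * (c⁻¹ * k) * y' * (c⁻¹ * k)⁻¹ * (c⁻¹ * y'⁻¹) := by group
      _ = c * (c⁻¹ * k) * y' * (c⁻¹ * k)⁻¹ * (y'⁻¹ * c⁻¹) := by rw [hcy']
      _ = c * ((c⁻¹ * k) * (y' * (c⁻¹ * k)⁻¹ * y'⁻¹)) * c⁻¹ := by group
  rw [commutatorElement_def, h3]
  have h4 : y' * (c⁻¹ * k)⁻¹ * y'⁻¹ ∈ Cfsg.fittingOf K :=
    (Subgroup.mem_normalizer_iff.mp (hFn y') _).mp (Subgroup.inv_mem _ hfF)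
  exact (Subgroup.mem_normalizer_iff.mp (hFn c) _).mp (Subgroup.mul_mem _ hfF h4)

end Cfsg.Agent.S1445
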