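import Mathlib
import Cfsg.Statements.S1447
import Cfsg.Agent.Lib.Helper12.MetaCop2
import Cfsg.Agent.Lib.Helper1.Coprime
import Cfsg.Agent.Lib.Helper1.Averaging
import Cfsg.Agent.Lib.Lead.UniqueSubgroup
import Cfsg.Agent.S0638

set_option autoImplicit false
open Cfsg

namespace Cfsg.Agent.S1447
open scoped commutatorElement
open Cfsg.Agent.Lib.Helper1 Cfsg.Agent.Lib.Helper12.MetaCop

theorem cyc_comm {H : Type*} [Group H] [IsCyclic H] (x y : H) : x * y = y * x := by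
  obtain ⟨g, hg⟩ := IsCyclic.exists_generator (α := H)
  obtain ⟨i, rfl⟩ := Subgroup.mem_zpowers_iff.mp (hg x)
  obtain ⟨j, rfl⟩ := Subgroup.mem_zpowers_iff.mp (hg y)
  rw [← zpow_add, ← zpow_add, add_comm]

/-- In a non-cyclic metacyclic `p`-group (`p` odd), a subgroup meeting a nontrivial subgroup
trivially is cyclic. -/
theorem cyc_of_disjoint {G : Type*} [Group G] [Finite G] (p : ℕ) [Fact p.Prime] (hp : p ≠ 2)
    (R X Y : Subgroup G) (hR : IsPGroup p R) (hRm : Cfsg.IsMetacyclic R) (hRnc : ¬ IsCyclic R)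
    (hX : X ≤ R) (hY : Y ≤ R) (hXY : X ⊓ Y = ⊥) (hY1 : Y ≠ ⊥) : IsCyclic X := by
  classical
  have hpp : p.Prime := Fact.out
  obtain ⟨hEA, hcard⟩ := Cfsg.Agent.S0638.result (R := ↥R) hp hR hRm hRnc
  obtain ⟨W, hW⟩ : ∃ W : Subgroup G, W = (Cfsg.omegaOne p (⊤ : Subgroup R)).map R.subtype :=
    ⟨_, rfl⟩
  have hWcard : Nat.card W = p ^ 2 := by
    rw [hW, Subgroup.card_map_of_injective R.subtype_injective]
    exact hcard
  have hWmem : ∀ g ∈ R, g ^ p = 1 → g ∈ W := by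
    intro g hg hgp
    rw [hW]
    refine ⟨⟨g, hg⟩, ?_, rfl⟩
    apply Subgroup.subset_closure
    exact ⟨Subgroup.mem_top _, Subtype.ext (by simpa using hgp)⟩
  have hU : Cfsg.Agent.Lib.Lead.UniqP p X := by
    intro x y hx hy hx1
    by_contra hyx
    have hxG : (x : G) ^ p = 1 := by simpa using congrArg Subtype.val hx
    have hyG : (y : G) ^ p = 1 := by simpa using congrArg Subtype.val hy
    have hx1G : (x : G) ≠ 1 := fun h => hx1 (Subtype.ext h)
    obtain ⟨U, hUdef⟩ : ∃ U : Subgroup G,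
      U = Subgroup.zpowers (x : G) ⊔ Subgroup.zpowers (y : G) := ⟨_, rfl⟩
    have hxU : Subgroup.zpowers (x : G) ≤ U := by rw [hUdef]; exact le_sup_left
    have hyU' : Subgroup.zpowers (y : G) ≤ U := by rw [hUdef]; exact le_sup_right
    have hUW : U ≤ W := by
      rw [hUdef]
      exact sup_le (Subgroup.zpowers_le.mpr (hWmem _ (hX x.2) hxG))
        (Subgroup.zpowers_le.mpr (hWmem _ (hX y.2) hyG))
    have hUX : U ≤ X := by
      rw [hUdef]
      exact sup_le (Subgroup.zpowers_le.mpr x.2) (Subgroup.zpowers_le.mpr y.2)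
    have hyU : (y : G) ∉ Subgroup.zpowers (x : G) := by
      intro h
      obtain ⟨i, hi⟩ := Subgroup.mem_zpowers_iff.mp h
      exact hyx (Subgroup.mem_zpowers_iff.mpr ⟨i, Subtype.ext (by simpa using hi)⟩)
    have hcx : Nat.card (Subgroup.zpowers (x : G)) = p := by
      rw [Nat.card_zpowers]; exact orderOf_eq_prime hxG hx1G
    have hcU1 : p ∣ Nat.card U := by
      rw [← hcx]; exact Subgroup.card_dvd_of_le hxU
    have hcU2 : Nat.card U ∣ p ^ 2 := by
      rw [← hWcard]; exact Subgroup.card_dvd_of_le hUW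
    have hcU3 : Nat.card U ≠ p := by
      intro h
      have : Subgroup.zpowers (x : G) = U :=
        Subgroup.eq_of_le_of_card_ge hxU (by rw [hcx, h])
      apply hyU
      rw [this]
      exact hyU' (Subgroup.mem_zpowers _)
    have hcU : Nat.card U = p ^ 2 := by
      obtain ⟨j, hj, hj2⟩ := (Nat.dvd_prime_pow hpp).mp hcU2
      interval_cases j
      · rw [pow_zero] at hj2; rw [hj2] at hcU1
        exact absurd (Nat.dvd_one.mp hcU1) hpp.one_lt.ne'
      · rw [pow_one] at hj2; exact absurd hj2 hcU3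
      · exact hj2
    have hUeq : U = W := Subgroup.eq_of_le_of_card_ge hUW (by rw [hWcard, hcU])
    have hYp : IsPGroup p Y := hR.to_le hY
    have hYnt : Nontrivial Y := (Subgroup.nontrivial_iff_ne_bot Y).mpr hY1
    obtain ⟨n, hn⟩ := IsPGroup.iff_card.mp hYp
    have hn0 : n ≠ 0 := by
      intro h0
      rw [h0, pow_zero] at hn
      have := Finite.one_lt_card (α := Y)
      omega
    have hpY : p ∣ Nat.card Y := by rw [hn]; exact dvd_pow_self p hn0
    obtain ⟨w, hw⟩ := exists_prime_orderOf_dvd_card' p hpY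
    have hwp : (w : G) ^ p = 1 := by
      have := pow_orderOf_eq_one w
      rw [hw] at this
      simpa using congrArg Subtype.val this
    have hwW : (w : G) ∈ W := hWmem _ (hY w.2) hwp
    rw [← hUeq] at hwW
    have hwXY : (w : G) ∈ X ⊓ Y := ⟨hUX hwW, w.2⟩
    rw [hXY, Subgroup.mem_bot] at hwXY
    have : w = 1 := Subtype.ext hwXY
    rw [this, orderOf_one] at hw
    exact hpp.one_lt.ne' hw.symm
  exact Cfsg.Agent.Lib.Lead.isCyclic_of_uniqP_odd p (hpp.odd_of_ne_two hp) _ X rfl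
    (hR.to_le hX) hU


/-- Let G be a finite group, p an odd prime, R a metacyclic p-subgroup and A a subgroup of order coprime to p normalizing R. Then [R, A] is abelian; R is generated by [R, A] and R ∩ C_G(A), which meet trivially; and if R is non-abelian and A does not centralize R, then [R, A] and R ∩ C_G(A) are nontrivial cyclic groups and [R, R] ≤ [R, A]. -/
theorem result {G : Type*} [Group G] [Finite G] (p : ℕ) [Fact p.Prime] (hp : p ≠ 2) (R A : Subgroup G) (hR : IsPGroup p R) (hRm : Cfsg.IsMetacyclic R)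
    (hA : (A ≤ Subgroup.normalizer (R : Set G))) (hcop : (Nat.card A).Coprime p) :
    IsMulCommutative ↥⁅R, A⁆ ∧ ⁅R, A⁆ ⊔ (R ⊓ Subgroup.centralizer (A : Set G)) = R ∧ ⁅R, A⁆ ⊓ (R ⊓ Subgroup.centralizer (A : Set G)) = ⊥ ∧
      (¬ IsMulCommutative R → ¬ A ≤ Subgroup.centralizer (R : Set G) →
        ⁅R, A⁆ ≠ ⊥ ∧ IsCyclic ↥⁅R, A⁆ ∧ (R ⊓ Subgroup.centralizer (A : Set G)) ≠ ⊥ ∧ IsCyclic ↥(R ⊓ Subgroup.centralizer (A : Set G)) ∧ ⁅R, R⁆ ≤ ⁅R, A⁆) := by
  classical
  have hpp : p.Prime := Fact.out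
  obtain ⟨n, hn⟩ := IsPGroup.iff_card.mp hR
  have hcop' : (Nat.card A).Coprime (Nat.card R) := by
    rw [hn]; exact Nat.Coprime.pow_right n hcop
  have hsolv : Group.IsSolvable R := by
    have := hR.isNilpotent
    infer_instance
  obtain ⟨D, hD⟩ : ∃ D : Subgroup G, D = ⁅R, A⁆ := ⟨_, rfl⟩
  rw [← hD]
  have hDR : D ≤ R := by rw [hD]; exact commutator_le_of_le_normalizer hA
  have hnorm : R ⊔ A ≤ Subgroup.normalizer (D : Set G) := by
    rw [hD]; exact commutator_normalizer hA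
  have hRD : R ≤ Subgroup.normalizer (D : Set G) := le_trans le_sup_left hnorm
  have hAD : A ≤ Subgroup.normalizer (D : Set G) := le_trans le_sup_right hnorm
  have hDD : ⁅D, A⁆ = D := by
    rw [hD]; exact coprime_commutator_commutator A R hA hcop' (Or.inr hsolv)
  have hDp : IsPGroup p D := hR.to_le hDR
  have hDab : ∀ x ∈ D, ∀ y ∈ D, x * y = y * x :=
    key_gen p hp D A hDp (isMC_of_le hRm hDR) hAD hcop hDD
  have hDc : IsMulCommutative D := ⟨⟨fun x y => Subtype.ext (hDab x x.2 y y.2)⟩⟩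
  have h2 : D ⊔ (R ⊓ Subgroup.centralizer (A : Set G)) = R := by
    rw [hD]; exact coprime_commutator_sup A R hA hcop' (Or.inr hsolv)
  have h3 : D ⊓ (R ⊓ Subgroup.centralizer (A : Set G)) = ⊥ := by
    have hcopD : (Nat.card A).Coprime (Nat.card D) :=
      Nat.Coprime.coprime_dvd_right (Subgroup.card_dvd_of_le hDR) hcop'
    have h := coprime_abelian_inf_commutator A D hAD hcopD
    rw [hDD] at h
    rw [eq_bot_iff]
    intro x hx
    rw [← h]
    exact ⟨⟨hx.1, hx.2.2⟩, hx.1⟩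
  refine ⟨hDc, h2, h3, ?_⟩
  intro hRna hAc
  obtain ⟨C, hC⟩ : ∃ C : Subgroup G, C = R ⊓ Subgroup.centralizer (A : Set G) := ⟨_, rfl⟩
  rw [← hC] at h2 h3 ⊢
  have hCR : C ≤ R := by rw [hC]; exact inf_le_left
  have hD1 : D ≠ ⊥ := by
    intro h
    apply hAc
    rw [hD] at h
    have h1 := Subgroup.commutator_eq_bot_iff_le_centralizer.mp h
    intro a ha
    rw [Subgroup.mem_centralizer_iff]
    intro r hr
    exact ((Subgroup.mem_centralizer_iff.mp (h1 hr)) a ha).symm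
  have hC1 : C ≠ ⊥ := by
    intro h
    apply hRna
    rw [h, sup_bot_eq] at h2
    rw [← h2]; exact hDc
  have hRnc : ¬ IsCyclic R := by
    intro h
    apply hRna
    exact ⟨⟨fun x y => cyc_comm x y⟩⟩
  have hDcyc : IsCyclic D := cyc_of_disjoint p hp R D C hR hRm hRnc hDR hCR h3 hC1
  have hCcyc : IsCyclic C :=
    cyc_of_disjoint p hp R C D hR hRm hRnc hCR hDR (by rw [inf_comm]; exact h3) hD1
  refine ⟨hD1, hDcyc, hC1, hCcyc, ?_⟩
  rw [Subgroup.commutator_le]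
  intro r₁ hr₁ r₂ hr₂
  have hdecomp : ∀ r ∈ R, ∃ c ∈ C, ∃ e ∈ D, r = c * e := by
    intro r hr
    obtain ⟨c, hc, hce⟩ := coprime_fixed_quotient A R hA hcop' (Or.inr hsolv) D hDR hRD hAD r hr
      (by
        intro a ha
        have h1 : ⁅r, a⁆ ∈ D := by rw [hD]; exact Subgroup.commutator_mem_commutator hr ha
        have h2 : a * r * a⁻¹ * r⁻¹ = ⁅r, a⁆⁻¹ := by simp only [commutatorElement_def]; group
        rw [h2]; exact D.inv_mem h1)
    exact ⟨c, by rw [hC]; exact hc, (r⁻¹ * c)⁻¹, D.inv_mem hce, by group⟩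
  obtain ⟨c₁, hc₁, e₁, he₁, rfl⟩ := hdecomp r₁ hr₁
  obtain ⟨c₂, hc₂, e₂, he₂, rfl⟩ := hdecomp r₂ hr₂
  have hcc : c₂ * c₁⁻¹ * c₂⁻¹ = c₁⁻¹ := by
    have h1 := congrArg Subtype.val (cyc_comm (⟨c₂, hc₂⟩ : C) ⟨c₁, hc₁⟩⁻¹)
    simp only [Subgroup.coe_mul, Subgroup.coe_inv] at h1
    rw [h1, mul_inv_cancel_right]
  have hconj : ∀ r ∈ R, ∀ d ∈ D, r * d * r⁻¹ ∈ D :=
    fun r hr d hd => (Subgroup.mem_normalizer_iff.mp (hRD hr) d).mp hd
  have e : ⁅c₁ * e₁, c₂ * e₂⁆ = c₁ * (e₁ * (c₂ * (e₂ * e₁⁻¹) * c₂⁻¹) *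
      ((c₂ * c₁⁻¹) * e₂⁻¹ * (c₂ * c₁⁻¹)⁻¹)) * (c₂ * c₁⁻¹ * c₂⁻¹) := by
    simp only [commutatorElement_def]; group
  rw [e, hcc]
  exact hconj c₁ (hCR hc₁) _ (D.mul_mem (D.mul_mem he₁
    (hconj c₂ (hCR hc₂) _ (D.mul_mem he₂ (D.inv_mem he₁))))
    (hconj (c₂ * c₁⁻¹) (R.mul_mem (hCR hc₂) (R.inv_mem (hCR hc₁))) _ (D.inv_mem he₂)))

end Cfsg.Agent.S1447
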