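import Mathlib
import Cfsg.Statements.S1452
import Cfsg.Agent.S0100
import Cfsg.Agent.Lib.Helper2.PChain
import Cfsg.Agent.Lib.Helper12.SCN

set_option autoImplicit false
open Cfsg

namespace Cfsg.Agent.S1452

/-- Let p be an odd prime and R a finite p-group containing an elementary abelian subgroup of order p ^ 3. If E is a normal elementary abelian subgroup of R of order p ^ 2, then E ≤ A for some normal subgroup A of R with C_R(A) = A that contains an elementary abelian subgroup of order p ^ 3. -/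
theorem result {R : Type*} [Group R] [Finite R] (p : ℕ) [Fact p.Prime] (hp : p ≠ 2) (hR : IsPGroup p R) (hr : ¬ Cfsg.PRankLE p 2 R)
    (E : Subgroup R) [E.Normal] (hE : Cfsg.IsElementaryAbelian p E) (hE2 : Nat.card E = p ^ 2) :
    ∃ A : Subgroup R, E ≤ A ∧ A.Normal ∧ Subgroup.centralizer (A : Set R) = A ∧ ¬ Cfsg.PRankLE p 2 A := by
  classical
  have hpp : p.Prime := Fact.out
  obtain ⟨hEc, hEe⟩ := hE
  have hEcomm : ∀ a ∈ E, ∀ b ∈ E, a * b = b * a := fun a ha b hb =>
    congrArg Subtype.val (hEc.is_comm.comm (⟨a, ha⟩ : E) ⟨b, hb⟩)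
  haveI : Group.IsNilpotent R := hR.isNilpotent
  -- a normal elementary abelian subgroup of order p^3
  obtain ⟨A3, hA3n, hA3c, hA3e, hA3card⟩ : ∃ A3 : Subgroup R, A3.Normal ∧ IsMulCommutative A3 ∧
      (∀ a ∈ A3, a ^ p = 1) ∧ Nat.card A3 = p ^ 3 := by
    by_contra hcon
    apply hr
    intro B hBc hBe
    exact Cfsg.Agent.S0100.result hp hR
      (fun A hAn hAc hAe hcard => hcon ⟨A, hAn, hAc, hAe, hcard⟩) B hBc hBe
  haveI := hA3n
  have hA3comm : ∀ a ∈ A3, ∀ b ∈ A3, a * b = b * a := fun a ha b hb =>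
    congrArg Subtype.val (hA3c.is_comm.comm (⟨a, ha⟩ : A3) ⟨b, hb⟩)
  -- the centraliser of E has index at most p
  have hidx : Nat.card R ≤ Nat.card (Subgroup.centralizer (E : Set R)) * p := by
    have := Cfsg.Agent.Lib.Helper2.card_le_card_centralizer_mul hR E 2 hE2
    simpa using this
  have hCidx : (Subgroup.centralizer (E : Set R)).index ≤ p := by
    have h1 := Subgroup.card_mul_index (Subgroup.centralizer (E : Set R))
    rw [← h1] at hidx
    have hpos : 0 < Nat.card (Subgroup.centralizer (E : Set R)) := Nat.card_pos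
    exact Nat.le_of_mul_le_mul_left hidx hpos
  obtain ⟨B, hBdef⟩ : ∃ B : Subgroup R, B = Subgroup.centralizer (E : Set R) ⊓ A3 := ⟨_, rfl⟩
  have hBcard : p ^ 2 ≤ Nat.card B := by
    have h1 := Cfsg.Agent.Lib.Helper2.card_le_card_inf_mul_index A3
      (Subgroup.centralizer (E : Set R))
    rw [hA3card, ← hBdef] at h1
    have h2 : p ^ 3 ≤ Nat.card B * p := le_trans h1 (Nat.mul_le_mul_left _ hCidx)
    have h3 : p ^ 3 = p ^ 2 * p := by ring
    rw [h3] at h2
    exact Nat.le_of_mul_le_mul_right h2 hpp.pos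
  have hBn : B.Normal := by
    rw [hBdef]; infer_instance
  haveI := hBn
  have hBA3 : B ≤ A3 := by rw [hBdef]; exact inf_le_right
  have hBC : B ≤ Subgroup.centralizer (E : Set R) := by rw [hBdef]; exact inf_le_left
  -- D = E B
  have hDdec : ∀ x ∈ E ⊔ B, ∃ e ∈ E, ∃ b ∈ B, e * b = x := by
    intro x hx
    have h1 : x ∈ ((E ⊔ B : Subgroup R) : Set R) := hx
    rw [Subgroup.normal_mul] at h1
    exact Set.mem_mul.mp h1
  have hDcomm : ∀ x ∈ E ⊔ B, ∀ y ∈ E ⊔ B, x * y = y * x := by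
    intro x hx y hy
    obtain ⟨e1, he1, b1, hb1, rfl⟩ := hDdec x hx
    obtain ⟨e2, he2, b2, hb2, rfl⟩ := hDdec y hy
    have c1 : e2 * b1 = b1 * e2 := (Subgroup.mem_centralizer_iff.mp (hBC hb1)) e2 he2
    have c2 : e1 * b2 = b2 * e1 := (Subgroup.mem_centralizer_iff.mp (hBC hb2)) e1 he1
    have c3 := hEcomm e1 he1 e2 he2
    have c4 := hA3comm b1 (hBA3 hb1) b2 (hBA3 hb2)
    calc e1 * b1 * (e2 * b2) = e1 * (b1 * e2) * b2 := by group
      _ = e1 * (e2 * b1) * b2 := by rw [c1]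
      _ = (e1 * e2) * (b1 * b2) := by group
      _ = (e2 * e1) * (b2 * b1) := by rw [c3, c4]
      _ = e2 * (e1 * b2) * b1 := by group
      _ = e2 * (b2 * e1) * b1 := by rw [c2]
      _ = e2 * b2 * (e1 * b1) := by group
  have hDe : ∀ x ∈ E ⊔ B, x ^ p = 1 := by
    intro x hx
    obtain ⟨e1, he1, b1, hb1, rfl⟩ := hDdec x hx
    have c1 : e1 * b1 = b1 * e1 := (Subgroup.mem_centralizer_iff.mp (hBC hb1)) e1 he1
    rw [(show Commute e1 b1 from c1).mul_pow, hEe e1 he1, hA3e b1 (hBA3 hb1), one_mul]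
  have hDcard : p ^ 2 < Nat.card (E ⊔ B : Subgroup R) := by
    by_contra hcon
    have hle : Nat.card (E ⊔ B : Subgroup R) ≤ Nat.card E := by rw [hE2]; exact not_lt.mp hcon
    have hDE : E = E ⊔ B := Subgroup.eq_of_le_of_card_ge le_sup_left hle
    have hBE : B ≤ E := by rw [hDE]; exact le_sup_right
    have hBeqE : B = E := Subgroup.eq_of_le_of_card_ge hBE (by rw [hE2]; exact hBcard)
    have hEA3 : E ≤ A3 := by rw [← hBeqE]; exact hBA3
    have hA3C : A3 ≤ Subgroup.centralizer (E : Set R) := by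
      intro a ha
      rw [Subgroup.mem_centralizer_iff]
      intro e he
      exact hA3comm e (hEA3 he) a ha
    have hBA : B = A3 := by rw [hBdef]; exact inf_eq_right.mpr hA3C
    have : p ^ 2 = p ^ 3 := by rw [← hE2, ← hA3card, ← hBeqE, hBA]
    have h2 : 2 = 3 := Nat.pow_right_injective hpp.two_le this
    omega
  -- a maximal normal abelian subgroup containing D
  have hDc : IsMulCommutative (E ⊔ B : Subgroup R) :=
    ⟨⟨fun a b => Subtype.ext (hDcomm a a.2 b b.2)⟩⟩
  obtain ⟨A, hAn, hAc, -, hDA, hmax⟩ := Cfsg.Agent.Lib.Helper2.exists_max_normal_abelian_exp 0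
    (E ⊔ B : Subgroup R) inferInstance hDc (fun b _ => pow_zero b)
  haveI := hAn
  have hAcomm : ∀ a ∈ A, ∀ b ∈ A, a * b = b * a := fun a ha b hb =>
    congrArg Subtype.val (hAc.is_comm.comm (⟨a, ha⟩ : A) ⟨b, hb⟩)
  have hself := Cfsg.Agent.Lib.Helper12.centralizer_eq_of_max_normal_abelian A hAcomm
    (fun B' hBn' hBc' hAB => hmax B' hBn' ⟨⟨fun a b => Subtype.ext (hBc' a a.2 b b.2)⟩⟩
      (fun b _ => pow_zero b) hAB)
  refine ⟨A, le_trans le_sup_left hDA, hAn, hself, ?_⟩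
  intro hrk
  have h1 := hrk ((E ⊔ B : Subgroup R).subgroupOf A)
    ⟨⟨fun x y => Subtype.ext (Subtype.ext (hDcomm _ (Subgroup.mem_subgroupOf.mp x.2) _
      (Subgroup.mem_subgroupOf.mp y.2)))⟩⟩
    (fun a ha => Subtype.ext (by
      have := hDe _ (Subgroup.mem_subgroupOf.mp ha)
      simpa only [Subgroup.coe_pow, Subgroup.coe_one] using this))
  have h2 : Nat.card ((E ⊔ B : Subgroup R).subgroupOf A) = Nat.card (E ⊔ B : Subgroup R) :=
    Nat.card_congr (Subgroup.subgroupOfEquivOfLe hDA).toEquiv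
  rw [h2] at h1
  omega

end Cfsg.Agent.S1452
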