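import Mathlib
import Cfsg.Statements.S1453
import Cfsg.Agent.Lib.Helper12.Narrow2

set_option autoImplicit false
open Cfsg

namespace Cfsg.Agent.S1453

/-- Let p be an odd prime and R a finite p-group with an elementary abelian subgroup of order p ^ 3 and an elementary abelian subgroup E of order p ^ 2 contained in no larger elementary abelian subgroup. Let Z₂ be the second centre of R, W the subgroup generated by the elements of Z₂ of order dividing p, and T = C_R(W). Then E is not contained in T; the elements of order dividing p of the centre of R generate a group of order p; W is elementary abelian of order p ^ 2; and T is characteristic in R of index p. -/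
theorem result {R : Type*} [Group R] [Finite R] (p : ℕ) [Fact p.Prime] (hp : p ≠ 2) (hR : IsPGroup p R) (hr : ¬ Cfsg.PRankLE p 2 R)
    (E : Subgroup R) (hE : Cfsg.IsElementaryAbelian p E) (hE2 : Nat.card E = p ^ 2)
    (hEmax : ∀ B : Subgroup R, Cfsg.IsElementaryAbelian p B → E ≤ B → B = E) :
    ¬ E ≤ Subgroup.centralizer ((Subgroup.closure {x : R | x ∈ Subgroup.upperCentralSeries R 2 ∧ x ^ p = 1} : Subgroup R) : Set R) ∧
      Nat.card ↥(Subgroup.closure {x : R | x ∈ Subgroup.center R ∧ x ^ p = 1}) = p ∧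
      (Cfsg.IsElementaryAbelian p (Subgroup.closure {x : R | x ∈ Subgroup.upperCentralSeries R 2 ∧ x ^ p = 1}) ∧
        Nat.card ↥(Subgroup.closure {x : R | x ∈ Subgroup.upperCentralSeries R 2 ∧ x ^ p = 1}) = p ^ 2) ∧
      (Subgroup.centralizer ((Subgroup.closure {x : R | x ∈ Subgroup.upperCentralSeries R 2 ∧ x ^ p = 1} : Subgroup R) : Set R)).Characteristic ∧
      (Subgroup.centralizer ((Subgroup.closure {x : R | x ∈ Subgroup.upperCentralSeries R 2 ∧ x ^ p = 1} : Subgroup R) : Set R)).index = p := by
  obtain ⟨Z1, W0, hZ1, hZ1card, hW0, hW0card, hW0n, hW0comm, hEW0⟩ :=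
    Cfsg.Agent.Lib.Helper12.narrow_struct p hp hR hr E hE hE2 hEmax
  have hcl1 : Subgroup.closure {x : R | x ∈ Subgroup.center R ∧ x ^ p = 1} = Z1 := by
    rw [← hZ1]; exact Subgroup.closure_eq Z1
  have hcl2 : Subgroup.closure {x : R | x ∈ Subgroup.upperCentralSeries R 2 ∧ x ^ p = 1} = W0 := by
    rw [← hW0]; exact Subgroup.closure_eq W0
  rw [hcl1, hcl2]
  have hpp : p.Prime := Fact.out
  have h1 : ∀ y : R, y ∈ W0 ↔ y ∈ Subgroup.upperCentralSeries R 2 ∧ y ^ p = 1 := by
    intro y
    have : y ∈ (W0 : Set R) ↔ y ∈ {x : R | x ∈ Subgroup.upperCentralSeries R 2 ∧ x ^ p = 1} := by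
      rw [hW0]
    exact this
  have hW0e : ∀ a ∈ W0, a ^ p = 1 := fun a ha => ((h1 a).mp ha).2
  haveI := hW0n
  have hchar : W0.Characteristic := by
    rw [Subgroup.characteristic_iff_comap_eq]
    intro φ
    ext x
    rw [Subgroup.mem_comap, h1, h1]
    have hZ2 := Subgroup.characteristic_iff_comap_eq.mp
      (inferInstance : (Subgroup.upperCentralSeries R 2).Characteristic) φ
    constructor
    · rintro ⟨ha, hb⟩
      refine ⟨?_, ?_⟩
      · rw [← hZ2]; exact ha
      · have : φ (x ^ p) = φ 1 := by rw [map_pow, map_one]; exact hb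
        exact φ.injective this
    · rintro ⟨ha, hb⟩
      refine ⟨?_, ?_⟩
      · rw [← hZ2] at ha; exact ha
      · show (φ x) ^ p = 1
        rw [← map_pow, hb, map_one]
  refine ⟨hEW0, hZ1card, ⟨⟨⟨⟨fun a b => Subtype.ext (hW0comm a a.2 b b.2)⟩⟩, hW0e⟩, hW0card⟩,
    ?_, ?_⟩
  · haveI := hchar
    infer_instance
  · have hidx : Nat.card R ≤ Nat.card (Subgroup.centralizer (W0 : Set R)) * p := by
      have := Cfsg.Agent.Lib.Helper2.card_le_card_centralizer_mul hR W0 2 hW0card
      simpa using this
    have h2 := Subgroup.card_mul_index (Subgroup.centralizer (W0 : Set R))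
    rw [← h2] at hidx
    have hle : (Subgroup.centralizer (W0 : Set R)).index ≤ p :=
      Nat.le_of_mul_le_mul_left hidx Nat.card_pos
    have hne1 : (Subgroup.centralizer (W0 : Set R)).index ≠ 1 := by
      intro h
      rw [Subgroup.index_eq_one] at h
      apply hEW0
      rw [h]
      exact le_top
    have hdvd : (Subgroup.centralizer (W0 : Set R)).index ∣ Nat.card R :=
      Subgroup.index_dvd_card _
    obtain ⟨n, hn⟩ := hR.exists_card_eq
    rw [hn] at hdvd
    obtain ⟨j, hj, hjc⟩ := (Nat.dvd_prime_pow hpp).mp hdvd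
    rw [hjc] at hle hne1 ⊢
    have hj1 : j = 1 := by
      rcases j with _ | _ | j
      · exact absurd (pow_zero p) hne1
      · rfl
      · exfalso
        have : p ^ 1 < p ^ (j + 1 + 1) := Nat.pow_lt_pow_right hpp.one_lt (by omega)
        rw [pow_one] at this
        exact absurd hle (not_le.mpr this)
    rw [hj1, pow_one]

end Cfsg.Agent.S1453
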