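import Mathlib
import Cfsg.Statements.S1474
import Cfsg.Agent.Lib.Helper12.CN
import Cfsg.Agent.Lib.Helper12.CNMax
import Cfsg.Agent.Lib.Helper11.Hall
import Cfsg.Agent.Lib.Helper24.Fitting
import Cfsg.Agent.S0069

set_option autoImplicit false
open Cfsg

namespace Cfsg.Agent.S1474

open Cfsg.Agent.Lib.Helper12

/-- a nonidentity element of a finite group has a power of prime order -/
theorem exists_prime_pow {G : Type*} [Group G] [Finite G] (e : G) (he : e ≠ 1) :
    ∃ r : ℕ, r.Prime ∧ ∃ a : ℕ, orderOf (e ^ a) = r := by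
  have h1 : orderOf e ≠ 1 := fun h => he (orderOf_eq_one_iff.mp h)
  obtain ⟨r, hr, hdvd⟩ := Nat.exists_prime_and_dvd h1
  exact ⟨r, hr, orderOf e / r, orderOf_pow_orderOf_div (orderOf_pos e).ne' hdvd⟩

/-- in a CN-group, a complement of a normal nilpotent Hall subgroup containing all normal
Sylow subgroups acts on it without fixed points -/
theorem cn_fpf {G : Type*} [Group G] [Finite G] (hCN : Cfsg.IsCNGroup G)
    (H E : Subgroup G) [hHn : H.Normal] (hHnil : Group.IsNilpotent H)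
    (hcop : (Nat.card H).Coprime (Nat.card E))
    (hmax : ∀ (r : ℕ) (_ : Fact r.Prime) (R : Sylow r G), (R : Subgroup G).Normal →
      (R : Subgroup G) ≤ H)
    (e : G) (he : e ∈ E) (he1 : e ≠ 1) (x : G) (hx : x ∈ H) (hxe : x * e = e * x) : x = 1 := by
  classical
  by_contra hx1
  obtain ⟨r, hr, a, ha⟩ := exists_prime_pow e he1
  obtain ⟨q, hq, b, hb⟩ := exists_prime_pow x hx1
  haveI := Fact.mk hr
  haveI := Fact.mk hq
  obtain ⟨e', he'⟩ : ∃ e', e' = e ^ a := ⟨_, rfl⟩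
  obtain ⟨x', hx'⟩ : ∃ x', x' = x ^ b := ⟨_, rfl⟩
  rw [← he'] at ha
  rw [← hx'] at hb
  have he'E : e' ∈ E := by rw [he']; exact E.pow_mem he a
  have hx'H : x' ∈ H := by rw [hx']; exact H.pow_mem hx b
  have hcomm : x' * e' = e' * x' := by
    rw [hx', he']
    exact (Commute.pow_pow (show Commute x e from hxe) b a).eq
  have he'1 : e' ≠ 1 := by
    intro h; rw [h, orderOf_one] at ha; exact hr.ne_one ha.symm
  have hx'1 : x' ≠ 1 := by
    intro h; rw [h, orderOf_one] at hb; exact hq.ne_one hb.symm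
  have he'r : e' ^ r ^ 1 = 1 := by rw [pow_one, ← ha]; exact pow_orderOf_eq_one e'
  have hx'q : x' ^ q ^ 1 = 1 := by rw [pow_one, ← hb]; exact pow_orderOf_eq_one x'
  have hrE : r ∣ Nat.card E := by
    rw [← ha]; exact Subgroup.orderOf_dvd_natCard E he'E
  have hqH : q ∣ Nat.card H := by
    rw [← hb]; exact Subgroup.orderOf_dvd_natCard H hx'H
  have hrH : ¬ r ∣ Nat.card H := fun h =>
    hr.one_lt.ne' (Nat.dvd_one.mp (hcop ▸ Nat.dvd_gcd h hrE))
  have hrq : r ≠ q := by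
    rintro rfl
    exact hrH hqH
  have hHc : ∀ c : G, ∀ h ∈ H, c * h * c⁻¹ ∈ H := fun c h hh => hHn.conj_mem h hh c
  have hx'Q : x' ∈ sylP H q := mem_sylP hHnil q hx'H ⟨1, hx'q⟩
  have hQ1 : sylP H q ≠ ⊥ := fun h => hx'1 (by rw [h] at hx'Q; exact Subgroup.mem_bot.mp hx'Q)
  have hQc : ∀ c : G, ∀ w ∈ sylP H q, c * w * c⁻¹ ∈ sylP H q :=
    fun c => conj_sylP hHnil q c (hHc c)
  obtain ⟨z, hzQ, hz1, hzx, hzc⟩ := exists_central_fixed q (sylP H q) (sylP_isPGroup H q) hQ1 x'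
    ⟨1, hx'q⟩ (fun w hw => hQc x' w hw)
  have hzq : ∃ k : ℕ, z ^ q ^ k = 1 := pelt_of_mem_sylP H q hzQ
  have h4 : e' * z = z * e' := by
    refine nilp_comm_sub (hCN x' hx'1) hr hq hrq e' z ?_ ?_ ⟨1, he'r⟩ hzq
    · exact Subgroup.mem_centralizer_singleton_iff.mpr hcomm.symm
    · exact Subgroup.mem_centralizer_singleton_iff.mpr hzx.symm
  have h5 : ∀ w ∈ sylP H q, e' * w = w * e' := by
    intro w hw
    refine nilp_comm_sub (hCN z hz1) hr hq hrq e' w ?_ ?_ ⟨1, he'r⟩ (pelt_of_mem_sylP H q hw)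
    · exact Subgroup.mem_centralizer_singleton_iff.mpr h4
    · exact Subgroup.mem_centralizer_singleton_iff.mpr (hzc w hw)
  obtain ⟨D, hD⟩ : ∃ D : Subgroup G, D = Subgroup.centralizer ((sylP H q : Subgroup G) : Set G) :=
    ⟨_, rfl⟩
  have hDmem : ∀ d : G, d ∈ D ↔ ∀ w ∈ sylP H q, w * d = d * w := by
    intro d; rw [hD, Subgroup.mem_centralizer_iff]; rfl
  have he'D : e' ∈ D := (hDmem e').mpr (fun w hw => (h5 w hw).symm)
  have hDnil : Group.IsNilpotent D := by
    refine nilp_of_le ?_ (hCN z hz1)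
    intro d hd
    exact Subgroup.mem_centralizer_singleton_iff.mpr (((hDmem d).mp hd z hzQ).symm)
  have hDc : ∀ c : G, ∀ d ∈ D, c * d * c⁻¹ ∈ D := by
    intro c d hd
    rw [hDmem] at hd ⊢
    intro w hw
    have h1 := hd (c⁻¹ * w * c) (by simpa using hQc c⁻¹ w hw)
    calc w * (c * d * c⁻¹) = c * ((c⁻¹ * w * c) * d) * c⁻¹ := by group
      _ = c * (d * (c⁻¹ * w * c)) * c⁻¹ := by rw [h1]
      _ = c * d * c⁻¹ * w := by group
  have he'R0 : e' ∈ sylP D r := mem_sylP hDnil r he'D ⟨1, he'r⟩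
  have hR0c : ∀ c : G, ∀ w ∈ sylP D r, c * w * c⁻¹ ∈ sylP D r :=
    fun c => conj_sylP hDnil r c (hDc c)
  have hR01 : sylP D r ≠ ⊥ := fun h => he'1 (by rw [h] at he'R0; exact Subgroup.mem_bot.mp he'R0)
  obtain ⟨R, hR⟩ := (sylP_isPGroup D r).exists_le_sylow
  haveI : Group.IsNilpotent (R : Subgroup G) := R.isPGroup'.isNilpotent
  have hNn : ((sylP D r).subgroupOf (R : Subgroup G)).Normal := by
    refine ⟨fun n hn g => ?_⟩
    rw [Subgroup.mem_subgroupOf] at hn ⊢
    simpa using hR0c (g : G) _ hn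
  have hN1 : (sylP D r).subgroupOf (R : Subgroup G) ≠ ⊥ := by
    intro h
    rw [Subgroup.subgroupOf_eq_bot] at h
    exact hR01 ((inf_eq_left.mpr hR).symm.trans h.eq_bot)
  have hZ := normal_inf_center_ne_bot' ((sylP D r).subgroupOf (R : Subgroup G)) hN1
  obtain ⟨⟨w', hw'⟩, hw'1⟩ := (Subgroup.ne_bot_iff_exists_ne_one).mp hZ
  obtain ⟨hw'N, hw'Z⟩ := Subgroup.mem_inf.mp hw'
  have hwR0 : (w' : G) ∈ sylP D r := Subgroup.mem_subgroupOf.mp hw'N
  have hw1 : (w' : G) ≠ 1 := by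
    intro h
    apply hw'1
    apply Subtype.ext
    apply Subtype.ext
    exact h
  have hwc : ∀ y ∈ (R : Subgroup G), y * (w' : G) = (w' : G) * y := by
    intro y hy
    have := Subgroup.mem_center_iff.mp hw'Z ⟨y, hy⟩
    exact congrArg Subtype.val this
  have hwD : (w' : G) ∈ D := sylP_le D r hwR0
  have hRp : ∀ y ∈ (R : Subgroup G), ∃ k : ℕ, y ^ r ^ k = 1 := by
    intro y hy
    obtain ⟨k, hk⟩ := R.isPGroup' ⟨y, hy⟩
    exact ⟨k, by simpa only [Subgroup.coe_pow, Subgroup.coe_one] using congrArg Subtype.val hk⟩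
  have hRD : (R : Subgroup G) ≤ D := by
    intro y hy
    rw [hDmem]
    intro v hv
    have hyC : y ∈ Subgroup.centralizer ({(w' : G)} : Set G) :=
      Subgroup.mem_centralizer_singleton_iff.mpr (hwc y hy)
    have hvC : v ∈ Subgroup.centralizer ({(w' : G)} : Set G) :=
      Subgroup.mem_centralizer_singleton_iff.mpr ((hDmem _).mp hwD v hv)
    exact (nilp_comm_sub (hCN (w' : G) hw1) hr hq hrq y v hyC hvC (hRp y hy)
      (pelt_of_mem_sylP H q hv)).symm
  have hRle : (R : Subgroup G) ≤ sylP D r := fun y hy => mem_sylP hDnil r (hRD hy) (hRp y hy)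
  have hReq : (R : Subgroup G) = sylP D r := le_antisymm hRle hR
  have hRn : (R : Subgroup G).Normal := by
    refine ⟨fun n hn g => ?_⟩
    rw [hReq] at hn ⊢
    exact hR0c g n hn
  have hRH := hmax r ⟨hr⟩ R hRn
  have he'H : e' ∈ H := hRH (hR he'R0)
  exact hrH (by rw [← ha]; exact Subgroup.orderOf_dvd_natCard H he'H)

theorem main {G : Type*} [Group G] [Finite G] (hCN : Cfsg.IsCNGroup G)
    (hnn : ¬ Group.IsNilpotent G) (p : ℕ) [Fact p.Prime] (P : Sylow p G)
    (hP1 : (P : Subgroup G) ≠ ⊥) (hPn : (P : Subgroup G).Normal)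
    (H : Subgroup G) [hHn : H.Normal] (hH : H = Cfsg.fittingHall G) :
    H ≠ ⊥ ∧ H ≠ ⊤ ∧
      (∃ E : Subgroup G, Subgroup.IsComplement' H E ∧ Cfsg.IsFrobeniusComplement E ∧
        ∀ e ∈ E, e ≠ 1 → H ⊓ Subgroup.centralizer ({e} : Set G) = ⊥) ∧
      Group.IsNilpotent (G ⧸ H) := by
  classical
  have hHnil : Group.IsNilpotent H := by
    rw [hH]
    have h := Cfsg.Agent.Lib.Helper11.sSup_mem_of_subset_sup_closed
      {N : Subgroup G | N.Normal ∧ Group.IsNilpotent N ∧ (Nat.card N).Coprime N.index}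
      {N : Subgroup G | N.Normal ∧ Group.IsNilpotent N}
      (fun N hN => ⟨hN.1, hN.2.1⟩)
      ⟨Subgroup.normal_bot, inferInstance⟩
      (by
        rintro A ⟨hA, hA'⟩ B ⟨hB, hB'⟩
        haveI := hA
        haveI := hB
        exact ⟨Subgroup.sup_normal A B, Cfsg.Agent.Lib.Helper24.nilpotent_sup A B hA' hB'⟩)
    exact h.2
  have hHhall : (Nat.card H).Coprime H.index := by
    rw [hH]; exact Cfsg.Agent.Lib.Helper11.fittingHall_hall G
  have hmax : ∀ (r : ℕ) (_ : Fact r.Prime) (R : Sylow r G), (R : Subgroup G).Normal →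
      (R : Subgroup G) ≤ H := by
    intro r hr R hRn
    rw [hH]
    apply le_sSup
    exact ⟨hRn, R.isPGroup'.isNilpotent, R.card_coprime_index⟩
  have hPH : (P : Subgroup G) ≤ H := hmax p inferInstance P hPn
  have hH1 : H ≠ ⊥ := fun h => hP1 (le_bot_iff.mp (h ▸ hPH))
  have hHtop : H ≠ ⊤ := by
    intro h
    apply hnn
    rw [h] at hHnil
    exact (Group.isNilpotent_congr Subgroup.topEquiv).mp hHnil
  obtain ⟨E, hE⟩ := Subgroup.exists_right_complement'_of_coprime hHhall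
  have hcard : Nat.card H * Nat.card E = Nat.card G := hE.card_mul_card
  have hEidx : Nat.card E = H.index := by
    have h1 := H.card_mul_index
    have hpos : 0 < Nat.card H := Nat.card_pos
    exact Nat.eq_of_mul_eq_mul_left hpos (hcard.trans h1.symm)
  have hcop : (Nat.card H).Coprime (Nat.card E) := by rw [hEidx]; exact hHhall
  have hdisj : H ⊓ E = ⊥ := hE.disjoint.eq_bot
  have hfpf : ∀ e ∈ E, e ≠ 1 → H ⊓ Subgroup.centralizer ({e} : Set G) = ⊥ := by
    intro e he he1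
    rw [eq_bot_iff]
    intro x hx
    obtain ⟨hxH, hxC⟩ := Subgroup.mem_inf.mp hx
    rw [Subgroup.mem_bot]
    exact cn_fpf hCN H E hHnil hcop hmax e he he1 x hxH
      (Subgroup.mem_centralizer_singleton_iff.mp hxC)
  have hE1 : E ≠ ⊥ := by
    intro h
    apply hHtop
    rw [h, Subgroup.card_bot, mul_one] at hcard
    exact (Subgroup.card_eq_iff_eq_top H).mp hcard
  have hEtop : E ≠ ⊤ := by
    intro h
    apply hH1
    rw [h, inf_top_eq] at hdisj
    exact hdisj
  have hFrob : Cfsg.IsFrobeniusComplement E := by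
    refine ⟨hE1, hEtop, ?_⟩
    intro g hg
    rw [eq_bot_iff]
    intro y hy
    obtain ⟨hyE, hyg⟩ := Subgroup.mem_inf.mp hy
    rw [Subgroup.mem_bot]
    by_contra hy1
    obtain ⟨⟨⟨h, hh⟩, ⟨e', he'⟩⟩, hge⟩ := hE.2 g
    have hge' : h * e' = g := hge
    rw [Subgroup.mem_pointwise_smul_iff_inv_smul_mem] at hyg
    have h1 : g⁻¹ * y * g ∈ E := by simpa [MulAut.smul_def] using hyg
    have h2 : h⁻¹ * y * h ∈ E := by
      have e1 : h⁻¹ * y * h = e' * (g⁻¹ * y * g) * e'⁻¹ := by rw [← hge']; group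
      rw [e1]; exact E.mul_mem (E.mul_mem he' h1) (E.inv_mem he')
    have h3 : y⁻¹ * h⁻¹ * y * h ∈ H ⊓ E := by
      refine Subgroup.mem_inf.mpr ⟨?_, ?_⟩
      · have e1 : y⁻¹ * h⁻¹ * y * h = (y⁻¹ * h⁻¹ * y⁻¹⁻¹) * h := by group
        rw [e1]; exact H.mul_mem (hHn.conj_mem _ (H.inv_mem hh) _) hh
      · have e1 : y⁻¹ * h⁻¹ * y * h = y⁻¹ * (h⁻¹ * y * h) := by group
        rw [e1]; exact E.mul_mem (E.inv_mem hyE) h2
    rw [hdisj, Subgroup.mem_bot] at h3
    have h4 : h * y = y * h := by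
      have e1 : y * h = h * y * (y⁻¹ * h⁻¹ * y * h) := by group
      rw [e1, h3, mul_one]
    have h5 : h ∈ H ⊓ Subgroup.centralizer ({y} : Set G) :=
      Subgroup.mem_inf.mpr ⟨hh, Subgroup.mem_centralizer_singleton_iff.mpr h4⟩
    rw [hfpf y hyE hy1, Subgroup.mem_bot] at h5
    apply hg
    rw [← hge', h5, one_mul]; exact he'
  have hEnil : Group.IsNilpotent E := by
    have hZ := Cfsg.Agent.S0069.result H E hE hH1 hE1 hfpf
    obtain ⟨⟨y, hy⟩, hy1⟩ := (Subgroup.ne_bot_iff_exists_ne_one).mp hZ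
    have hyc := Subgroup.mem_center_iff.mp hy
    have hy1' : (y : G) ≠ 1 := by
      intro h
      apply hy1
      apply Subtype.ext
      apply Subtype.ext
      exact h
    refine nilp_of_le ?_ (hCN (y : G) hy1')
    intro g hg
    rw [Subgroup.mem_centralizer_singleton_iff]
    exact congrArg Subtype.val (hyc ⟨g, hg⟩)
  have hquot : Group.IsNilpotent (G ⧸ H) := by
    haveI := hEnil
    refine Group.nilpotent_of_surjective ((QuotientGroup.mk' H).comp E.subtype) ?_
    intro c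
    obtain ⟨g, rfl⟩ := QuotientGroup.mk_surjective c
    obtain ⟨⟨⟨h, hh⟩, ⟨e', he'⟩⟩, hge⟩ := hE.2 g
    have hge' : h * e' = g := hge
    refine ⟨⟨e', he'⟩, ?_⟩
    show (QuotientGroup.mk e' : G ⧸ H) = QuotientGroup.mk g
    rw [← hge', QuotientGroup.mk_mul, (QuotientGroup.eq_one_iff h).mpr hh, one_mul]
  exact ⟨hH1, hHtop, ⟨E, hE, hFrob, hfpf⟩, hquot⟩


/-- Let G be a finite group in which every non-identity element has nilpotent centralizer, not itself nilpotent, and having a nontrivial normal Sylow p-subgroup for some prime p. Let H be the largest normal nilpotent Hall subgroup of G. Then H is a nontrivial proper normal subgroup with a complement E that is a Frobenius complement in G (no non-identity element of E centralizes a non-identity element of H), and G/H is nilpotent. -/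
theorem result {G : Type*} [Group G] [Finite G] (hCN : Cfsg.IsCNGroup G) (hnn : ¬ Group.IsNilpotent G) (p : ℕ) [Fact p.Prime] (P : Sylow p G)
    (hP1 : (P : Subgroup G) ≠ ⊥) (hPn : (P : Subgroup G).Normal) :
    Cfsg.fittingHall G ≠ ⊥ ∧ Cfsg.fittingHall G ≠ ⊤ ∧
      (∃ E : Subgroup G, Subgroup.IsComplement' (Cfsg.fittingHall G) E ∧ Cfsg.IsFrobeniusComplement E ∧
        ∀ e ∈ E, e ≠ 1 → Cfsg.fittingHall G ⊓ Subgroup.centralizer ({e} : Set G) = ⊥) ∧
      Group.IsNilpotent (G ⧸ Cfsg.fittingHall G) := by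
  exact main hCN hnn p P hP1 hPn (Cfsg.fittingHall G) rfl

end Cfsg.Agent.S1474
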