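import Mathlib
import Cfsg.Statements.S1476
import Cfsg.Agent.Lib.Helper12.CN
import Cfsg.Agent.Lib.Helper12.CNMax
import Cfsg.Agent.Lib.Helper1.SZ
import Cfsg.Agent.Lib.Helper1.Cores
import Cfsg.Agent.Lib.Helper5.MinNormal
import Cfsg.Agent.Lib.Lead.FrobComplement
import Cfsg.Agent.Lib.Lead.UniqueSubgroup
import Cfsg.Agent.S0040
import Cfsg.Agent.S0069
import Cfsg.Agent.S1474

set_option autoImplicit false
open Cfsg

namespace Cfsg.Agent.S1476

open Cfsg.Agent.Lib.Helper12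
open scoped Pointwise

set_option linter.unusedSimpArgs false
set_option linter.style.haveILetI false

theorem card_sup_dvd {G : Type*} [Group G] [Finite G] (Z N : Subgroup G)
    (hLE : Z ≤ Subgroup.normalizer (N : Set G)) :
    Nat.card ↥(Z ⊔ N) ∣ Nat.card Z * Nat.card N := by
  letI := Subgroup.normal_subgroupOf_of_le_normalizer hLE
  letI := Subgroup.normal_subgroupOf_sup_of_le_normalizer hLE
  have e := QuotientGroup.quotientInfEquivProdNormalizerQuotient Z N hLE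
  have h1 : Nat.card (Z ⧸ N.subgroupOf Z) = Nat.card (↥(Z ⊔ N) ⧸ N.subgroupOf (Z ⊔ N)) :=
    Nat.card_congr e.toEquiv
  have h2 := Subgroup.card_eq_card_quotient_mul_card_subgroup (N.subgroupOf (Z ⊔ N))
  have h3 : Nat.card (N.subgroupOf (Z ⊔ N)) = Nat.card N :=
    Nat.card_congr (Subgroup.subgroupOfEquivOfLe le_sup_right).toEquiv
  have h4 : Nat.card (Z ⧸ N.subgroupOf Z) ∣ Nat.card Z := Subgroup.card_quotient_dvd_card _
  rw [h2, ← h1, h3]
  exact Nat.mul_dvd_mul h4 dvd_rfl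

theorem fpf_disjoint {G : Type*} [Group G] (K D : Subgroup G)
    (hfpf : ∀ d ∈ D, d ≠ 1 → K ⊓ Subgroup.centralizer ({d} : Set G) = ⊥) : K ⊓ D = ⊥ := by
  rw [eq_bot_iff]
  intro d hd
  obtain ⟨hdK, hdD⟩ := Subgroup.mem_inf.mp hd
  rw [Subgroup.mem_bot]
  by_contra hd1
  have h : d ∈ K ⊓ Subgroup.centralizer ({d} : Set G) :=
    Subgroup.mem_inf.mpr ⟨hdK, Subgroup.mem_centralizer_singleton_iff.mpr rfl⟩
  rw [hfpf d hdD hd1, Subgroup.mem_bot] at h
  exact hd1 h

/-- a nontrivial subgroup acting without fixed points on a nontrivial normal subgroup has a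
nontrivial central element -/
theorem fpf_center {G : Type*} [Group G] [Finite G] (K D : Subgroup G) [hKn : K.Normal]
    (hK : K ≠ ⊥) (hD : D ≠ ⊥)
    (hfpf : ∀ d ∈ D, d ≠ 1 → K ⊓ Subgroup.centralizer ({d} : Set G) = ⊥) :
    ∃ z ∈ D, z ≠ 1 ∧ ∀ d ∈ D, d * z = z * d := by
  have hKD : K ⊓ D = ⊥ := fpf_disjoint K D hfpf
  have hDK : D ≤ Subgroup.normalizer (K : Set G) := by
    rw [Subgroup.normalizer_eq_top]; exact le_top
  have hc := Cfsg.Agent.Lib.Helper1.isComplement'_subgroupOf_sup hDK hKD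
  have hKL : K ≤ K ⊔ D := le_sup_left
  have hDL : D ≤ K ⊔ D := le_sup_right
  have hK' : K.subgroupOf (K ⊔ D) ≠ ⊥ := by
    intro h
    rw [Subgroup.subgroupOf_eq_bot] at h
    exact hK ((inf_eq_left.mpr hKL).symm.trans h.eq_bot)
  have hD' : D.subgroupOf (K ⊔ D) ≠ ⊥ := by
    intro h
    rw [Subgroup.subgroupOf_eq_bot] at h
    exact hD ((inf_eq_left.mpr hDL).symm.trans h.eq_bot)
  have hfpf' : ∀ h ∈ D.subgroupOf (K ⊔ D), h ≠ 1 →
      K.subgroupOf (K ⊔ D) ⊓ Subgroup.centralizer {h} = ⊥ := by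
    intro d hd hd1
    rw [eq_bot_iff]
    intro x hx
    obtain ⟨hxK, hxC⟩ := Subgroup.mem_inf.mp hx
    have h1 : (x : G) ∈ K ⊓ Subgroup.centralizer ({(d : G)} : Set G) :=
      Subgroup.mem_inf.mpr ⟨Subgroup.mem_subgroupOf.mp hxK,
        Subgroup.mem_centralizer_singleton_iff.mpr
          (congrArg Subtype.val (Subgroup.mem_centralizer_singleton_iff.mp hxC))⟩
    rw [hfpf (d : G) (Subgroup.mem_subgroupOf.mp hd) (fun h => hd1 (Subtype.ext h)),
      Subgroup.mem_bot] at h1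
    exact Subgroup.mem_bot.mpr (Subtype.ext h1)
  have hZ := Cfsg.Agent.S0069.result (K.subgroupOf (K ⊔ D)) (D.subgroupOf (K ⊔ D)) hc hK' hD' hfpf'
  obtain ⟨⟨z, hz⟩, hz1⟩ := (Subgroup.ne_bot_iff_exists_ne_one).mp hZ
  have hzc := Subgroup.mem_center_iff.mp hz
  refine ⟨((z : ↥(K ⊔ D)) : G), Subgroup.mem_subgroupOf.mp z.2, ?_, ?_⟩
  · intro h
    apply hz1
    apply Subtype.ext
    apply Subtype.ext
    apply Subtype.ext
    exact h
  · intro d hd
    have h1 := hzc ⟨⟨d, hDL hd⟩, Subgroup.mem_subgroupOf.mpr hd⟩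
    exact congrArg (fun w : ↥(D.subgroupOf (K ⊔ D)) => ((w : ↥(K ⊔ D)) : G)) h1

theorem fpf_nilp {G : Type*} [Group G] [Finite G] (hCN : Cfsg.IsCNGroup G) (K D : Subgroup G)
    [K.Normal] (hK : K ≠ ⊥)
    (hfpf : ∀ d ∈ D, d ≠ 1 → K ⊓ Subgroup.centralizer ({d} : Set G) = ⊥) :
    Group.IsNilpotent D := by
  by_cases hD : D = ⊥
  · subst hD
    infer_instance
  · obtain ⟨z, hzD, hz1, hzc⟩ := fpf_center K D hK hD hfpf
    refine nilp_of_le ?_ (hCN z hz1)
    intro d hd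
    exact Subgroup.mem_centralizer_singleton_iff.mpr (hzc d hd)

/-- an element all of whose prime-power-order powers lie in a subgroup lies in it -/
theorem mem_of_prime_parts {G : Type*} [Group G] [Finite G] (T : Subgroup G) :
    ∀ (n : ℕ) (g : G), orderOf g = n →
      (∀ (s : ℕ), s.Prime → ∀ j k : ℕ, (g ^ j) ^ s ^ k = 1 → g ^ j ∈ T) → g ∈ T := by
  intro n
  induction n using Nat.strong_induction_on with
  | _ n ih =>
    intro g hg hT
    by_cases h1 : n = 1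
    · rw [h1] at hg
      rw [orderOf_eq_one_iff.mp hg]; exact T.one_mem
    · obtain ⟨s, hs, hsn⟩ := Nat.exists_prime_and_dvd h1
      have hn0 : n ≠ 0 := by rw [← hg]; exact (orderOf_pos g).ne'
      obtain ⟨k, m, hsm, hnm⟩ := Nat.exists_eq_pow_mul_and_not_dvd hn0 s hs.ne_one
      have hk : k ≠ 0 := by
        rintro rfl
        rw [pow_zero, one_mul] at hnm
        exact hsm (hnm ▸ hsn)
      have hm0 : m ≠ 0 := by
        rintro rfl
        rw [mul_zero] at hnm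
        exact hn0 hnm
      have hmlt : m < n := by
        rw [hnm]
        have h2 : 1 < s ^ k := Nat.one_lt_pow hk hs.one_lt
        have h3 : 0 < m := Nat.pos_of_ne_zero hm0
        nlinarith
      have h2 : orderOf (g ^ s ^ k) = m := by
        rw [orderOf_pow_of_dvd (pow_ne_zero k hs.ne_zero) (by rw [hg, hnm]; exact Dvd.intro _ rfl),
          hg, hnm]
        exact Nat.mul_div_cancel_left m (pow_pos hs.pos k)
      have h3 : g ^ s ^ k ∈ T := by
        apply ih m hmlt (g ^ s ^ k) h2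
        intro s' hs' j k' h
        have e : (g ^ s ^ k) ^ j = g ^ (s ^ k * j) := (pow_mul g _ _).symm
        rw [e] at h ⊢
        exact hT s' hs' _ k' h
      have h4 : g ^ m ∈ T := by
        apply hT s hs m k
        rw [← pow_mul, mul_comm, ← hnm, ← hg]; exact pow_orderOf_eq_one g
      have hcop : Nat.Coprime (s ^ k) m :=
        Nat.Coprime.pow_left k ((Nat.Prime.coprime_iff_not_dvd hs).mpr hsm)
      obtain ⟨u, v, huv⟩ := Nat.isCoprime_iff_coprime.mpr hcop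
      have h5 : g = (g ^ s ^ k) ^ u * (g ^ m) ^ v := by
        rw [← zpow_natCast g (s ^ k), ← zpow_natCast g m, ← zpow_mul, ← zpow_mul, ← zpow_add]
        have e : ((s ^ k : ℕ) : ℤ) * u + (m : ℤ) * v = 1 := by rw [← huv]; ring
        rw [e, zpow_one]
      rw [h5]
      exact T.mul_mem (T.zpow_mem h3 u) (T.zpow_mem h4 v)

/-- a nilpotent subgroup of odd order acting without fixed points is cyclic -/
theorem fpf_odd_nilp_cyclic {G : Type*} [Group G] [Finite G] (K A : Subgroup G) [K.Normal]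
    (hK : K ≠ ⊥)
    (hfpf : ∀ a ∈ A, a ≠ 1 → K ⊓ Subgroup.centralizer ({a} : Set G) = ⊥)
    (hnil : Group.IsNilpotent A) (hodd : Odd (Nat.card A)) : IsCyclic A := by
  haveI := hnil
  haveI : IsZGroup A := by
    refine ⟨fun s hs P => ?_⟩
    haveI := Fact.mk hs
    have hP' : IsPGroup s ((P : Subgroup A).map A.subtype) := P.isPGroup'.map _
    have hU' := Cfsg.Agent.Lib.Lead.fpf_pgroup_uniq K hK s _ hP'
      (fun a ha ha1 => hfpf a (Subgroup.map_subtype_le _ ha) ha1)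
    have hU : Cfsg.Agent.Lib.Lead.UniqP s (P : Subgroup A) :=
      Cfsg.Agent.Lib.Lead.uniqP_of_mulEquiv
        ((P : Subgroup A).equivMapOfInjective A.subtype A.subtype_injective).symm hU'
    rcases Cfsg.Agent.Lib.Lead.uniqP_cyclic_or_quaternion s P.isPGroup' hU with h | ⟨-, n, ⟨e⟩⟩
    · exact h
    · exfalso
      have h1 : Nat.card (P : Subgroup A) = 4 * 2 ^ n := by
        rw [Nat.card_congr e.toEquiv, Nat.card_eq_fintype_card, QuaternionGroup.card]
      have h2 : Nat.card (P : Subgroup A) ∣ Nat.card A := Subgroup.card_subgroup_dvd_card _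
      rw [h1] at h2
      have h3 : 2 ∣ Nat.card A := (Dvd.intro (2 * 2 ^ n) (by ring) : 2 ∣ 4 * 2 ^ n).trans h2
      exact (Nat.not_even_iff_odd.mpr hodd) (even_iff_two_dvd.mpr h3)
  infer_instance

theorem caseA {G : Type*} [Group G] [Finite G] (hCN : Cfsg.IsCNGroup G) (H E : Subgroup G)
    [H.Normal] (hH1 : H ≠ ⊥) (hc : Subgroup.IsComplement' H E)
    (hfpf : ∀ e ∈ E, e ≠ 1 → H ⊓ Subgroup.centralizer ({e} : Set G) = ⊥) :
    IsCyclic E ∨ ∃ C Q : Subgroup G, C ⊔ Q = E ∧ (∀ a ∈ C, ∀ b ∈ Q, a * b = b * a) ∧ IsCyclic C ∧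
      Odd (Nat.card C) ∧ ∃ n : ℕ, Nonempty (↥Q ≃* QuaternionGroup (2 ^ n)) := by
  classical
  have hEnil : Group.IsNilpotent E := fpf_nilp hCN H E hH1 hfpf
  haveI := hEnil
  haveI : Fact (Nat.Prime 2) := ⟨Nat.prime_two⟩
  obtain ⟨P2⟩ : Nonempty (Sylow 2 E) := inferInstance
  have hS := fun (s : ℕ) (hs : Fact s.Prime) (P : Sylow s E) =>
    Cfsg.Agent.S0040.result H E hc hH1 hfpf s P
  rcases hS 2 inferInstance P2 with h2 | ⟨n, ⟨e⟩⟩
  · left
    haveI : IsZGroup E := by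
      refine ⟨fun s hs P => ?_⟩
      haveI := Fact.mk hs
      rcases hS s inferInstance P with h | ⟨n, ⟨e⟩⟩
      · exact h
      · have h1 : Nat.card (P : Subgroup E) = 4 * 2 ^ n := by
          rw [Nat.card_congr e.toEquiv, Nat.card_eq_fintype_card, QuaternionGroup.card]
        obtain ⟨k, hk⟩ := IsPGroup.iff_card.mp P.isPGroup'
        have h2' : 2 ∣ s ^ k := by rw [← hk, h1]; exact Dvd.intro (2 * 2 ^ n) (by ring)
        have hs2 : s = 2 :=
          ((Nat.prime_dvd_prime_iff_eq Nat.prime_two hs).mp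
            (Nat.Prime.dvd_of_dvd_pow Nat.prime_two h2')).symm
        subst hs2
        haveI := h2
        exact isCyclic_of_surjective (Sylow.equiv P2 P).toMonoidHom (Sylow.equiv P2 P).surjective
    infer_instance
  · right
    have hP2n : (P2 : Subgroup E).Normal := by
      have h := ((Group.isNilpotent_of_finite_tfae (G := E)).out 0 3 rfl rfl).mp hEnil
      exact h 2 inferInstance P2
    obtain ⟨C', hC'⟩ := Subgroup.exists_right_complement'_of_coprime P2.card_coprime_index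
    have hcardP2 : Nat.card (P2 : Subgroup E) = 4 * 2 ^ n := by
      rw [Nat.card_congr e.toEquiv, Nat.card_eq_fintype_card, QuaternionGroup.card]
    have hoddC' : Odd (Nat.card C') := by
      have h1 := hC'.card_mul_card
      have h2 := (P2 : Subgroup E).card_mul_index
      have h3 : Nat.card C' = (P2 : Subgroup E).index :=
        Nat.eq_of_mul_eq_mul_left Nat.card_pos (h1.trans h2.symm)
      have h4 := P2.card_coprime_index
      rw [← h3, hcardP2] at h4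
      rw [← Nat.coprime_two_left]
      exact Nat.Coprime.coprime_dvd_left (Dvd.intro (2 * 2 ^ n) (by ring)) h4
    have hC'pow : ∀ a ∈ C', a ^ Nat.card C' = 1 := by
      intro a ha
      have h := pow_card_eq_one' (G := C') (x := ⟨a, ha⟩)
      exact congrArg Subtype.val h
    obtain ⟨C, hC⟩ : ∃ C : Subgroup G, C = C'.map E.subtype := ⟨_, rfl⟩
    obtain ⟨Q, hQ⟩ : ∃ Q : Subgroup G, Q = (P2 : Subgroup E).map E.subtype := ⟨_, rfl⟩
    have hCQ : C ⊔ Q = E := by
      rw [hC, hQ, ← Subgroup.map_sup]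
      have h1 : C' ⊔ (P2 : Subgroup E) = ⊤ := by
        rw [sup_comm]; exact hC'.sup_eq_top
      rw [h1, ← MonoidHom.range_eq_map, Subgroup.range_subtype]
    have hCE : C ≤ E := hCQ ▸ le_sup_left
    have hcardC : Nat.card C = Nat.card C' := by
      rw [hC]; exact Subgroup.card_map_of_injective E.subtype_injective
    have hoddC : Odd (Nat.card C) := hcardC ▸ hoddC'
    refine ⟨C, Q, hCQ, ?_, ?_, hoddC, n, ⟨?_⟩⟩
    · intro a ha b hb
      rw [hC] at ha
      rw [hQ] at hb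
      obtain ⟨a', ha', rfl⟩ := ha
      obtain ⟨b', hb', rfl⟩ := hb
      have hmem : a' ∈ Subgroup.centralizer ({b'} : Set E) := by
        apply mem_of_prime_parts (Subgroup.centralizer ({b'} : Set E)) (orderOf a') a' rfl
        intro s hs j k hjk
        rw [Subgroup.mem_centralizer_singleton_iff]
        by_cases hs2 : s = 2
        · have h1 : orderOf (a' ^ j) ∣ 2 ^ k := by
            rw [← hs2]; exact orderOf_dvd_of_pow_eq_one hjk
          have h2 : orderOf (a' ^ j) ∣ Nat.card C' :=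
            orderOf_dvd_of_pow_eq_one (by rw [← pow_mul, mul_comm, pow_mul, hC'pow a' ha', one_pow])
          have hcop : Nat.Coprime (2 ^ k) (Nat.card C') :=
            Nat.Coprime.pow_left k (Nat.coprime_two_left.mpr hoddC')
          have h3 : orderOf (a' ^ j) = 1 := Nat.eq_one_of_dvd_coprimes hcop h1 h2
          rw [orderOf_eq_one_iff.mp h3, one_mul, mul_one]
        · refine nilp_comm hEnil hs Nat.prime_two hs2 (a' ^ j) b' ⟨k, hjk⟩ ?_
          obtain ⟨k', hk'⟩ := P2.isPGroup' ⟨b', hb'⟩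
          exact ⟨k', by simpa using congrArg Subtype.val hk'⟩
      have h := Subgroup.mem_centralizer_singleton_iff.mp hmem
      exact congrArg Subtype.val h
    · exact fpf_odd_nilp_cyclic H C hH1 (fun a ha ha1 => hfpf a (hCE ha) ha1)
        (nilp_of_le hCE hEnil) hoddC
    · rw [hQ]
      exact ((P2 : Subgroup E).equivMapOfInjective E.subtype E.subtype_injective).symm.trans e

section caseB

variable {G : Type*} [Group G] [Finite G] (hCN : Cfsg.IsCNGroup G) (p : ℕ) [Fact p.Prime]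
  (H : Subgroup G) [H.Normal] (hHp : IsPGroup p H) (hH1 : H ≠ ⊥)
  (hmax : ∀ (r : ℕ) (_ : Fact r.Prime) (R : Sylow r G), (R : Subgroup G).Normal →
      (R : Subgroup G) ≤ H)

include hCN hHp hmax in
theorem B_fpf (E : Subgroup G) (hE : (Nat.card E).Coprime p) :
    ∀ e ∈ E, e ≠ 1 → H ⊓ Subgroup.centralizer ({e} : Set G) = ⊥ := by
  intro e he he1
  have hHnil : Group.IsNilpotent H := hHp.isNilpotent
  have hcop : (Nat.card H).Coprime (Nat.card E) := by
    obtain ⟨n, hn⟩ := IsPGroup.iff_card.mp hHp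
    rw [hn]; exact Nat.Coprime.pow_left n hE.symm
  rw [eq_bot_iff]
  intro x hx
  obtain ⟨hxH, hxC⟩ := Subgroup.mem_inf.mp hx
  rw [Subgroup.mem_bot]
  exact Cfsg.Agent.S1474.cn_fpf hCN H E hHnil hcop hmax e he he1 x hxH
    (Subgroup.mem_centralizer_singleton_iff.mp hxC)

include hCN hHp hH1 hmax in
theorem B_P (y a : G) (hy1 : y ≠ 1) (hy : ∃ k : ℕ, y ^ p ^ k = 1) (ha1 : a ≠ 1) (m : ℕ)
    (ham : a ^ m = 1) (hm : m.Coprime p) (hya : y * a = a * y) : False := by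
  obtain ⟨s, hs, j, hj⟩ := Cfsg.Agent.S1474.exists_prime_pow a ha1
  haveI := Fact.mk hs
  have hp : p.Prime := Fact.out
  have hsm : s ∣ m := by
    rw [← hj]
    exact orderOf_dvd_of_pow_eq_one (by rw [← pow_mul, mul_comm, pow_mul, ham, one_pow])
  have hsp : s ≠ p := by
    intro h
    rw [h] at hsm
    have h1 := Nat.dvd_gcd hsm (dvd_refl p)
    rw [Nat.Coprime.gcd_eq_one hm] at h1
    exact hp.one_lt.ne' (Nat.dvd_one.mp h1)
  obtain ⟨a', ha'⟩ : ∃ a', a' = a ^ j := ⟨_, rfl⟩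
  rw [← ha'] at hj
  have ha'1 : a' ≠ 1 := by
    intro h; rw [h, orderOf_one] at hj; exact hs.ne_one hj.symm
  have ha's : a' ^ s ^ 1 = 1 := by rw [pow_one, ← hj]; exact pow_orderOf_eq_one a'
  have hya' : y * a' = a' * y := by
    rw [ha']; exact ((show Commute y a from hya).pow_right j).eq
  obtain ⟨x, hxH, hx1, hyx, -⟩ := exists_central_fixed p H hHp hH1 y hy
    (fun w hw => ‹H.Normal›.conj_mem w hw y)
  obtain ⟨k, hk⟩ := hHp ⟨x, hxH⟩
  have hxp : ∃ k : ℕ, x ^ p ^ k = 1 :=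
    ⟨k, by simpa only [Subgroup.coe_pow, Subgroup.coe_one] using congrArg Subtype.val hk⟩
  have hxa : x * a' = a' * x := by
    refine nilp_comm_sub (hCN y hy1) hp hs hsp.symm x a' ?_ ?_ hxp ⟨1, ha's⟩
    · exact Subgroup.mem_centralizer_singleton_iff.mpr hyx.symm
    · exact Subgroup.mem_centralizer_singleton_iff.mpr hya'.symm
  have hcopE : (Nat.card (Subgroup.zpowers a')).Coprime p := by
    rw [Nat.card_zpowers, hj]
    exact (Nat.coprime_primes hs hp).mpr hsp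
  have h := B_fpf hCN p H hHp hmax (Subgroup.zpowers a') hcopE a' (Subgroup.mem_zpowers a') ha'1
  have hx : x ∈ H ⊓ Subgroup.centralizer ({a'} : Set G) :=
    Subgroup.mem_inf.mpr ⟨hxH, Subgroup.mem_centralizer_singleton_iff.mpr hxa⟩
  rw [h, Subgroup.mem_bot] at hx
  exact hx1 hx

include hCN hHp hH1 hmax in
theorem B_nilp (D : Subgroup G) (hD : (Nat.card D).Coprime p) : Group.IsNilpotent D :=
  fpf_nilp hCN H D hH1 (B_fpf hCN p H hHp hmax D hD)

include hCN hHp hH1 hmax in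
theorem B_cent (a₀ : G) (r : ℕ) (hr : r.Prime) (hrp : r ≠ p) (ha₀ : orderOf a₀ = r)
    (g : G) (hg : g * a₀ * g⁻¹ ∈ Subgroup.zpowers a₀) (m : ℕ) (hgm : g ^ m = 1)
    (hm : m.Coprime p) : g * a₀ = a₀ * g := by
  haveI := Fact.mk hr
  obtain ⟨Z, hZ⟩ : ∃ Z : Subgroup G, Z = Subgroup.zpowers g := ⟨_, rfl⟩
  obtain ⟨A₀, hA₀⟩ : ∃ A₀ : Subgroup G, A₀ = Subgroup.zpowers a₀ := ⟨_, rfl⟩
  have hLE : Z ≤ Subgroup.normalizer (A₀ : Set G) := by
    rw [hZ, Subgroup.zpowers_le]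
    apply mem_normalizer_of_conj
    intro z hz
    rw [hA₀] at hz ⊢
    obtain ⟨i, rfl⟩ := Subgroup.mem_zpowers_iff.mp hz
    have e : g * a₀ ^ i * g⁻¹ = (g * a₀ * g⁻¹) ^ i := conj_zpow.symm
    rw [e]; exact Subgroup.zpow_mem _ hg i
  have hcard : Nat.card ↥(Z ⊔ A₀) ∣ m * r := by
    refine (card_sup_dvd Z A₀ hLE).trans (Nat.mul_dvd_mul ?_ ?_)
    · rw [hZ, Nat.card_zpowers]; exact orderOf_dvd_of_pow_eq_one hgm
    · rw [hA₀, Nat.card_zpowers, ha₀]
  have hDcop : (Nat.card ↥(Z ⊔ A₀)).Coprime p :=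
    Nat.Coprime.coprime_dvd_left hcard
      (Nat.Coprime.mul_left hm ((Nat.coprime_primes hr Fact.out).mpr hrp))
  have hDnil := B_nilp hCN p H hHp hH1 hmax (Z ⊔ A₀) hDcop
  haveI := hDnil
  have hgD : g ∈ Z ⊔ A₀ := (le_sup_left : Z ≤ Z ⊔ A₀) (hZ ▸ Subgroup.mem_zpowers g)
  have hA₀D : A₀ ≤ Z ⊔ A₀ := le_sup_right
  haveI hn : (A₀.subgroupOf (Z ⊔ A₀)).Normal :=
    Subgroup.normal_subgroupOf_sup_of_le_normalizer hLE
  have ha₀1 : a₀ ≠ 1 := by
    intro h; rw [h, orderOf_one] at ha₀; exact hr.ne_one ha₀.symm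
  have hne : A₀.subgroupOf (Z ⊔ A₀) ≠ ⊥ := by
    intro h
    rw [Subgroup.subgroupOf_eq_bot] at h
    have h1 : A₀ = ⊥ := (inf_eq_left.mpr hA₀D).symm.trans h.eq_bot
    have h2 : a₀ ∈ A₀ := hA₀ ▸ Subgroup.mem_zpowers a₀
    rw [h1, Subgroup.mem_bot] at h2
    exact ha₀1 h2
  have hZc := normal_inf_center_ne_bot' (A₀.subgroupOf (Z ⊔ A₀)) hne
  obtain ⟨⟨w, hw⟩, hw1⟩ := (Subgroup.ne_bot_iff_exists_ne_one).mp hZc
  obtain ⟨hwA, hwZ⟩ := Subgroup.mem_inf.mp hw
  have hwA' : (w : G) ∈ Subgroup.zpowers a₀ := hA₀ ▸ Subgroup.mem_subgroupOf.mp hwA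
  have hw1' : (w : G) ≠ 1 := by
    intro h
    apply hw1
    apply Subtype.ext
    apply Subtype.ext
    exact h
  have hwg : g * (w : G) = (w : G) * g :=
    congrArg Subtype.val (Subgroup.mem_center_iff.mp hwZ ⟨g, hgD⟩)
  have hcardA : Nat.card (Subgroup.zpowers a₀) = r := by rw [Nat.card_zpowers, ha₀]
  have hmem := mem_zpowers_of_prime_card (G := Subgroup.zpowers a₀) hcardA
    (g := ⟨(w : G), hwA'⟩) (g' := ⟨a₀, Subgroup.mem_zpowers a₀⟩)
    (fun h => hw1' (congrArg Subtype.val h))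
  obtain ⟨k, hk⟩ := Subgroup.mem_zpowers_iff.mp hmem
  have hk' : (w : G) ^ k = a₀ := by simpa using congrArg Subtype.val hk
  rw [← hk']
  exact ((show Commute g (w : G) from hwg).zpow_right k).eq

end caseB

theorem caseB {G : Type*} [Group G] [Finite G] [Group.IsSolvable G] (hCN : Cfsg.IsCNGroup G)
    (hnil : ¬ Group.IsNilpotent G)
    (hns : ∀ (r : ℕ) (_ : Fact r.Prime) (R : Sylow r G), (R : Subgroup G).Normal →
      (R : Subgroup G) = ⊥) :
    ∃ p : ℕ, p.Prime ∧ Cfsg.IsThreeStepGroup p G := by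
  classical
  haveI : Nontrivial G := by
    by_contra h
    rw [not_nontrivial_iff_subsingleton] at h
    exact hnil inferInstance
  obtain ⟨M, hMn, hM1, -, hMmin⟩ :=
    Cfsg.Agent.Lib.Helper5.exists_minimal_normal (⊤ : Subgroup G) inferInstance top_ne_bot
  haveI := hMn
  obtain ⟨p, hp, hMp⟩ := Cfsg.Agent.Lib.Helper5.minimal_normal_isPGroup hM1 hMmin
  haveI := Fact.mk hp
  obtain ⟨H, hH⟩ : ∃ H : Subgroup G, H = Cfsg.pCore p G := ⟨_, rfl⟩
  haveI hHn : H.Normal := hH ▸ Cfsg.Agent.Lib.Helper1.pCore_normal p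
  have hHp : IsPGroup p H := hH ▸ Cfsg.Agent.Lib.Helper1.pCore_isPGroup p
  have hMH : M ≤ H := hH ▸ Cfsg.Agent.Lib.Helper1.le_pCore p hMn hMp
  have hH1 : H ≠ ⊥ := fun h => hM1 (le_bot_iff.mp (h ▸ hMH))
  have hmax : ∀ (r : ℕ) (_ : Fact r.Prime) (R : Sylow r G), (R : Subgroup G).Normal →
      (R : Subgroup G) ≤ H := by
    intro r hr R hRn; rw [hns r hr R hRn]; exact bot_le
  have hHtop : H ≠ ⊤ := by
    intro h
    apply hnil
    have hG : IsPGroup p G := by
      intro g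
      obtain ⟨k, hk⟩ := hHp ⟨g, h ▸ Subgroup.mem_top g⟩
      exact ⟨k, by simpa only [Subgroup.coe_pow, Subgroup.coe_one] using congrArg Subtype.val hk⟩
    exact hG.isNilpotent
  -- a minimal normal subgroup over `H`
  obtain ⟨K, hKn, hHK, -, hKmin⟩ := Cfsg.Agent.Lib.Helper5.exists_minimal_normal_between H ⊤
    inferInstance (lt_top_iff_ne_top.mpr hHtop)
  haveI := hKn
  obtain ⟨r, hr, hKr⟩ := Cfsg.Agent.Lib.Helper5.minimal_over_isPGroup hHK
    (fun L hL h1 h2 => hKmin L hL h1 h2)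
  haveI := Fact.mk hr
  have hKr' : ∀ x ∈ K, ∃ k : ℕ, x ^ r ^ k ∈ H := by
    intro x hx
    obtain ⟨k, hk⟩ := hKr ⟨QuotientGroup.mk' H x, Subgroup.mem_map_of_mem _ hx⟩
    refine ⟨k, ?_⟩
    have h1 : (QuotientGroup.mk' H x) ^ r ^ k = 1 := by
      simpa only [Subgroup.coe_pow, Subgroup.coe_one] using congrArg Subtype.val hk
    rw [← QuotientGroup.eq_one_iff, QuotientGroup.mk_pow]
    exact h1
  have hrp : r ≠ p := by
    intro h
    have hKp : IsPGroup p K := by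
      rintro ⟨x, hx⟩
      obtain ⟨k, hk⟩ := hKr' x hx
      rw [h] at hk
      obtain ⟨k', hk'⟩ := hHp ⟨x ^ p ^ k, hk⟩
      refine ⟨k + k', Subtype.ext ?_⟩
      have h1 : (x ^ p ^ k) ^ p ^ k' = 1 := by
        simpa only [Subgroup.coe_pow, Subgroup.coe_one] using congrArg Subtype.val hk'
      simp only [Subgroup.coe_pow, Subgroup.coe_one]
      rw [pow_add, pow_mul]; exact h1
    have h1 : K ≤ H := hH ▸ Cfsg.Agent.Lib.Helper1.le_pCore p hKn hKp
    exact (not_le_of_gt hHK) h1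
  have hrpcop : r.Coprime p := (Nat.coprime_primes hr hp).mpr hrp
  -- an `r`-subgroup `R` with `K = H R`
  obtain ⟨Pr⟩ : Nonempty (Sylow r G) := inferInstance
  obtain ⟨R, hR⟩ : ∃ R : Subgroup G, R = K ⊓ (Pr : Subgroup G) := ⟨_, rfl⟩
  have hRK : R ≤ K := hR ▸ inf_le_left
  have hRr : IsPGroup r R := hR ▸ (Pr.isPGroup'.to_le inf_le_right)
  have hKHR : ∀ x ∈ K, ∃ y ∈ R, ∃ h ∈ H, x = y * h := by
    intro x hx
    have hmapn : (K.map (QuotientGroup.mk' H)).Normal :=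
      Subgroup.Normal.map hKn _ (QuotientGroup.mk'_surjective H)
    have hle := Cfsg.Agent.Lib.Helper1.normal_pgroup_le_sylow hmapn hKr
      (Pr.mapSurjective (QuotientGroup.mk'_surjective H))
    have h1 := hle (Subgroup.mem_map_of_mem (QuotientGroup.mk' H) hx)
    rw [Sylow.coe_mapSurjective] at h1
    obtain ⟨y, hy, hyx⟩ := Subgroup.mem_map.mp h1
    have h2 : y⁻¹ * x ∈ H := by
      rw [← QuotientGroup.eq_one_iff, QuotientGroup.mk_mul, QuotientGroup.mk_inv]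
      have h3 : (QuotientGroup.mk y : G ⧸ H) = QuotientGroup.mk x := hyx
      rw [h3, inv_mul_cancel]
    have hyK : y ∈ K := by
      have e : y = x * (y⁻¹ * x)⁻¹ := by group
      rw [e]
      exact K.mul_mem hx (K.inv_mem (hHK.le h2))
    refine ⟨y, ?_, y⁻¹ * x, h2, by group⟩
    rw [hR]; exact Subgroup.mem_inf.mpr ⟨hyK, hy⟩
  have hR1 : R ≠ ⊥ := by
    intro h
    apply not_le_of_gt hHK
    intro x hx
    obtain ⟨y, hy, h', hh', rfl⟩ := hKHR x hx
    rw [h, Subgroup.mem_bot] at hy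
    rw [hy, one_mul]; exact hh'
  have hRcop : (Nat.card R).Coprime p := by
    obtain ⟨n, hn⟩ := IsPGroup.iff_card.mp hRr
    rw [hn]; exact Nat.Coprime.pow_left n hrpcop
  have hfpfR := B_fpf hCN p H hHp hmax R hRcop
  have hHR : H ⊓ R = ⊥ := fpf_disjoint H R hfpfR
  have hrR : r ∣ Nat.card R := by
    obtain ⟨n, hn⟩ := IsPGroup.iff_card.mp hRr
    rw [hn]
    have hn0 : n ≠ 0 := by
      rintro rfl
      rw [pow_zero] at hn
      exact hR1 (Subgroup.card_eq_one.mp hn)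
    exact dvd_pow_self r hn0
  obtain ⟨a₀', ha₀'⟩ := exists_prime_orderOf_dvd_card' r hrR
  obtain ⟨a₀, ha₀def⟩ : ∃ a₀ : G, a₀ = (a₀' : G) := ⟨_, rfl⟩
  have ha₀R : a₀ ∈ R := ha₀def ▸ a₀'.2
  have ha₀ : orderOf a₀ = r := by rw [ha₀def, Subgroup.orderOf_coe]; exact ha₀'
  have ha₀1 : a₀ ≠ 1 := by
    intro h; rw [h, orderOf_one] at ha₀; exact hr.ne_one ha₀.symm
  have ha₀r : a₀ ^ r = 1 := by rw [← ha₀]; exact pow_orderOf_eq_one a₀
  have hUR := Cfsg.Agent.Lib.Lead.fpf_pgroup_uniq H hH1 r R hRr hfpfR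
  obtain ⟨A₀, hA₀⟩ : ∃ A₀ : Subgroup G, A₀ = Subgroup.zpowers a₀ := ⟨_, rfl⟩
  obtain ⟨N, hN⟩ : ∃ N : Subgroup G, N = Subgroup.normalizer (A₀ : Set G) := ⟨_, rfl⟩
  have hNmem : ∀ n ∈ N, n * a₀ * n⁻¹ ∈ Subgroup.zpowers a₀ := by
    intro n hn
    rw [hN, Subgroup.mem_normalizer_iff] at hn
    rw [← hA₀]
    exact (hn a₀).mp (hA₀ ▸ Subgroup.mem_zpowers a₀)
  have hN1 : Subgroup.normalizer (R : Set G) ≤ N := by
    intro n hn
    rw [hN]
    apply mem_normalizer_of_conj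
    intro z hz
    rw [hA₀] at hz ⊢
    obtain ⟨i, rfl⟩ := Subgroup.mem_zpowers_iff.mp hz
    have hc : n * a₀ * n⁻¹ ∈ R := (Subgroup.mem_normalizer_iff.mp hn a₀).mp ha₀R
    have hu := hUR ⟨a₀, ha₀R⟩ ⟨n * a₀ * n⁻¹, hc⟩ (Subtype.ext (by simpa using ha₀r))
      (Subtype.ext (by simp [conj_pow, ha₀r])) (fun h => ha₀1 (congrArg Subtype.val h))
    obtain ⟨k, hk⟩ := Subgroup.mem_zpowers_iff.mp hu
    have hk' : a₀ ^ k = n * a₀ * n⁻¹ := by simpa using congrArg Subtype.val hk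
    have e : n * a₀ ^ i * n⁻¹ = (n * a₀ * n⁻¹) ^ i := conj_zpow.symm
    rw [e, ← hk', ← zpow_mul]
    exact Subgroup.zpow_mem_zpowers a₀ _
  have hcopRH : (Nat.card R).Coprime (Nat.card H) := by
    obtain ⟨n, hn⟩ := IsPGroup.iff_card.mp hHp
    rw [hn]; exact Nat.Coprime.pow_right n hRcop
  -- Frattini argument
  have hfrat : ∀ g : G, ∃ k ∈ H, ∃ n ∈ N, g = k * n := by
    intro g
    obtain ⟨B, hB⟩ : ∃ B : Subgroup G, B = MulAut.conj g • R := ⟨_, rfl⟩
    have hBK : B ≤ H ⊔ R := by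
      intro x hx
      rw [hB, Subgroup.mem_pointwise_smul_iff_inv_smul_mem] at hx
      have h1 : g⁻¹ * x * g ∈ R := by simpa [MulAut.smul_def] using hx
      have h2 : x ∈ K := by
        have h3 := hKn.conj_mem _ (hRK h1) g
        have e : g * (g⁻¹ * x * g) * g⁻¹ = x := by group
        rwa [e] at h3
      obtain ⟨y, hy, h', hh', rfl⟩ := hKHR x h2
      exact Subgroup.mul_mem _ (Subgroup.mem_sup_right hy) (Subgroup.mem_sup_left hh')
    have hBcard : Nat.card B = Nat.card R := by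
      rw [hB]
      exact (Nat.card_congr (Subgroup.equivSMul (MulAut.conj g) R).toEquiv).symm
    obtain ⟨k, hk, hkB⟩ := Cfsg.Agent.Lib.Helper1.sz_conj_rel R H
      (by rw [Subgroup.normalizer_eq_top]; exact le_top) hcopRH (Or.inr inferInstance) B hBK hBcard
    refine ⟨k, hk, k⁻¹ * g, ?_, by group⟩
    apply hN1
    apply mem_normalizer_of_conj
    intro z hz
    have h1 : g * z * g⁻¹ ∈ MulAut.conj k • R := by
      rw [hkB, hB, Subgroup.mem_pointwise_smul_iff_inv_smul_mem]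
      have e : (MulAut.conj g)⁻¹ • (g * z * g⁻¹) = z := by
        simp [MulAut.smul_def, mul_assoc]
      rw [e]; exact hz
    rw [Subgroup.mem_pointwise_smul_iff_inv_smul_mem] at h1
    have h2 : k⁻¹ * (g * z * g⁻¹) * k ∈ R := by simpa [MulAut.smul_def, mul_assoc] using h1
    have e : k⁻¹ * g * z * (k⁻¹ * g)⁻¹ = k⁻¹ * (g * z * g⁻¹) * k := by group
    rw [e]; exact h2
  have hNH : ∀ x ∈ N, x ∈ H → x = 1 := by
    intro x hxN hxH
    have h1 := hNmem x hxN
    have h2 : x * a₀ * x⁻¹ * a₀⁻¹ ∈ H ⊓ R := by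
      refine Subgroup.mem_inf.mpr ⟨?_, ?_⟩
      · have e : x * a₀ * x⁻¹ * a₀⁻¹ = x * (a₀ * x⁻¹ * a₀⁻¹) := by group
        rw [e]; exact H.mul_mem hxH (hHn.conj_mem _ (H.inv_mem hxH) _)
      · exact R.mul_mem ((Subgroup.zpowers_le.mpr ha₀R) h1) (R.inv_mem ha₀R)
    rw [hHR, Subgroup.mem_bot] at h2
    have h3 : x * a₀ = a₀ * x := by
      have e : x * a₀ = (x * a₀ * x⁻¹ * a₀⁻¹) * a₀ * x := by group
      rw [e, h2, one_mul]
    have h4 : x ∈ H ⊓ Subgroup.centralizer ({a₀} : Set G) :=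
      Subgroup.mem_inf.mpr ⟨hxH, Subgroup.mem_centralizer_singleton_iff.mpr h3⟩
    rw [hfpfR a₀ ha₀R ha₀1, Subgroup.mem_bot] at h4
    exact h4
  -- the subgroup `A`
  obtain ⟨A, hA⟩ : ∃ A : Subgroup G, A = Subgroup.centralizer ({a₀} : Set G) := ⟨_, rfl⟩
  have hAmem : ∀ g : G, g ∈ A ↔ g * a₀ = a₀ * g := by
    intro g; rw [hA]; exact Subgroup.mem_centralizer_singleton_iff
  have hAnil : Group.IsNilpotent A := hA ▸ hCN a₀ ha₀1
  have ha₀A : a₀ ∈ A := (hAmem a₀).mpr rfl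
  have hA1 : A ≠ ⊥ := by
    intro h
    rw [h, Subgroup.mem_bot] at ha₀A
    exact ha₀1 ha₀A
  have hAN : A ≤ N := by
    intro g hg
    rw [hN]
    apply mem_normalizer_of_conj
    intro z hz
    rw [hA₀] at hz ⊢
    obtain ⟨i, rfl⟩ := Subgroup.mem_zpowers_iff.mp hz
    have hc : Commute g (a₀ ^ i) := (show Commute g a₀ from (hAmem g).mp hg).zpow_right i
    have e : g * a₀ ^ i * g⁻¹ = a₀ ^ i := by rw [hc.eq]; group
    rw [e]; exact Subgroup.zpow_mem_zpowers a₀ i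
  have hAcop : (Nat.card A).Coprime p := by
    rw [Nat.coprime_comm, Nat.Prime.coprime_iff_not_dvd hp]
    intro hdvd
    obtain ⟨y, hy⟩ := exists_prime_orderOf_dvd_card' p hdvd
    have hy1 : (y : G) ≠ 1 := by
      intro h
      have h1 : y = 1 := Subtype.ext h
      rw [h1, orderOf_one] at hy
      exact hp.ne_one hy.symm
    have hyp : (y : G) ^ p ^ 1 = 1 := by
      rw [pow_one]
      have h1 := pow_orderOf_eq_one y
      rw [hy] at h1
      exact congrArg Subtype.val h1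
    exact B_P hCN p H hHp hH1 hmax (y : G) a₀ hy1 ⟨1, hyp⟩ ha₀1 r ha₀r hrpcop ((hAmem _).mp y.2)
  have hfpfA := B_fpf hCN p H hHp hmax A hAcop
  have hApow : ∀ a ∈ A, a ^ Nat.card A = 1 := by
    intro a ha
    have h := pow_card_eq_one' (G := A) (x := ⟨a, ha⟩)
    exact congrArg Subtype.val h
  have hNA : ∀ n ∈ N, ∀ m : ℕ, n ^ m = 1 → m.Coprime p → n ∈ A := by
    intro n hn m hnm hm
    rw [hAmem]
    exact B_cent hCN p H hHp hH1 hmax a₀ r hr hrp ha₀ n (hNmem n hn) m hnm hm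
  have hAnorm : ∀ n ∈ N, ∀ a ∈ A, n * a * n⁻¹ ∈ A := by
    intro n hn a ha
    have hord : (n * a * n⁻¹) ^ Nat.card A = 1 := by
      rw [conj_pow, hApow a ha]; group
    exact hNA _ (N.mul_mem (N.mul_mem hn (hAN ha)) (N.inv_mem hn)) _ hord hAcop
  -- a nontrivial `p`-element of `N`
  obtain ⟨y₀, hy₀N, hy₀1, hy₀p⟩ : ∃ y₀ ∈ N, y₀ ≠ 1 ∧ ∃ k : ℕ, y₀ ^ p ^ k = 1 := by
    obtain ⟨P⟩ : Nonempty (Sylow p G) := inferInstance
    have hHP : H ≤ (P : Subgroup G) := hH ▸ Cfsg.Agent.Lib.Helper1.pCore_le_sylow P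
    have hPH : ¬ (P : Subgroup G) ≤ H := by
      intro hle
      have heq : (P : Subgroup G) = H := le_antisymm hle hHP
      have hPn : (P : Subgroup G).Normal := heq ▸ hHn
      apply hH1
      rw [← heq]; exact hns p inferInstance P hPn
    obtain ⟨g, hgP, hgH⟩ := SetLike.not_le_iff_exists.mp hPH
    obtain ⟨k, hk, n, hn, rfl⟩ := hfrat g
    have hnP : n ∈ (P : Subgroup G) := by
      have e : n = k⁻¹ * (k * n) := by group
      rw [e]; exact Subgroup.mul_mem _ (Subgroup.inv_mem _ (hHP hk)) hgP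
    refine ⟨n, hn, ?_, ?_⟩
    · rintro rfl; exact hgH (by simpa using hk)
    · obtain ⟨j, hj⟩ := P.isPGroup' ⟨n, hnP⟩
      exact ⟨j, by simpa only [Subgroup.coe_pow, Subgroup.coe_one] using congrArg Subtype.val hj⟩
  -- `A` has odd order
  have hAodd : Odd (Nat.card A) := by
    rw [← Nat.not_even_iff_odd]
    intro heven
    have h2 : 2 ∣ Nat.card A := even_iff_two_dvd.mp heven
    haveI : Fact (Nat.Prime 2) := ⟨Nat.prime_two⟩
    obtain ⟨t', ht'⟩ := exists_prime_orderOf_dvd_card' 2 h2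
    obtain ⟨t, htdef⟩ : ∃ t : G, t = (t' : G) := ⟨_, rfl⟩
    have htA : t ∈ A := htdef ▸ t'.2
    have hto : orderOf t = 2 := by rw [htdef, Subgroup.orderOf_coe]; exact ht'
    have ht1 : t ≠ 1 := by
      intro h; rw [h, orderOf_one] at hto; omega
    have ht2 : t ^ 2 = 1 := by rw [← hto]; exact pow_orderOf_eq_one t
    have hp2 : p ≠ 2 := by
      intro h
      exact B_P hCN p H hHp hH1 hmax t a₀ ht1 ⟨1, by rw [h, pow_one]; exact ht2⟩ ha₀1 r ha₀r
        hrpcop ((hAmem t).mp htA)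
    have h2p : (2 : ℕ).Coprime p := (Nat.coprime_primes Nat.prime_two hp).mpr (Ne.symm hp2)
    have hT2 : IsPGroup 2 (sylP A 2) := sylP_isPGroup A 2
    have hT2cop : (Nat.card (sylP A 2)).Coprime p := by
      obtain ⟨n, hn⟩ := IsPGroup.iff_card.mp hT2
      rw [hn]; exact Nat.Coprime.pow_left n h2p
    have hU2 := Cfsg.Agent.Lib.Lead.fpf_pgroup_uniq H hH1 2 (sylP A 2) hT2
      (B_fpf hCN p H hHp hmax (sylP A 2) hT2cop)
    have htT : t ∈ sylP A 2 := mem_sylP hAnil 2 htA ⟨1, by rw [pow_one]; exact ht2⟩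
    have hconj : y₀ * t * y₀⁻¹ ∈ sylP A 2 :=
      mem_sylP hAnil 2 (hAnorm y₀ hy₀N t htA) ⟨1, by rw [pow_one, conj_pow, ht2]; group⟩
    have hu := hU2 ⟨t, htT⟩ ⟨y₀ * t * y₀⁻¹, hconj⟩ (Subtype.ext (by simpa using ht2))
      (Subtype.ext (by simp [conj_pow, ht2])) (fun h => ht1 (congrArg Subtype.val h))
    obtain ⟨k, hk⟩ := Subgroup.mem_zpowers_iff.mp hu
    have hk' : t ^ k = y₀ * t * y₀⁻¹ := by simpa using congrArg Subtype.val hk
    have ht2z : t ^ (2 : ℤ) = 1 := by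
      have e : t ^ (2 : ℤ) = t ^ 2 := by norm_cast
      rw [e]; exact ht2
    have hcase : t ^ k = 1 ∨ t ^ k = t := by
      obtain ⟨c, hc | hc⟩ := Int.even_or_odd' k
      · left
        rw [hc, zpow_mul, ht2z, one_zpow]
      · right
        rw [hc, zpow_add, zpow_mul, ht2z, one_zpow, one_mul, zpow_one]
    have hcomm : y₀ * t = t * y₀ := by
      rcases hcase with h | h
      · exfalso
        rw [h] at hk'
        apply ht1
        have e : t = y₀⁻¹ * (y₀ * t * y₀⁻¹) * y₀ := by group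
        rw [e, ← hk']; group
      · rw [h] at hk'
        have e : y₀ * t = (y₀ * t * y₀⁻¹) * y₀ := by group
        rw [e, ← hk']
    exact B_P hCN p H hHp hH1 hmax y₀ t hy₀1 hy₀p ht1 2 ht2 h2p hcomm
  have hAcyc : IsCyclic A := fpf_odd_nilp_cyclic H A hH1 hfpfA hAnil hAodd
  have hHAn : (H ⊔ A).Normal := by
    constructor
    intro x hx g
    obtain ⟨h, hh, a, ha, rfl⟩ := Subgroup.mem_sup_of_normal_left.mp hx
    obtain ⟨k, hk, n, hn, rfl⟩ := hfrat g
    have e : k * n * (h * a) * (k * n)⁻¹ =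
        (k * (n * h * n⁻¹) * ((n * a * n⁻¹) * k⁻¹ * (n * a * n⁻¹)⁻¹)) * (n * a * n⁻¹) := by group
    rw [e]
    exact Subgroup.mul_mem _
      (Subgroup.mem_sup_left (H.mul_mem (H.mul_mem hk (hHn.conj_mem h hh n))
        (hHn.conj_mem _ (H.inv_mem hk) _)))
      (Subgroup.mem_sup_right (hAnorm n hn a ha))
  have hHAtop : H ⊔ A ≠ ⊤ := by
    intro h
    have hy : y₀ ∈ H ⊔ A := h ▸ Subgroup.mem_top y₀
    obtain ⟨h', hh', a, ha, hy'⟩ := Subgroup.mem_sup_of_normal_left.mp hy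
    have h1 : h' ∈ N := by
      have e : h' = y₀ * a⁻¹ := by rw [← hy']; group
      rw [e]; exact N.mul_mem hy₀N (N.inv_mem (hAN ha))
    have h2 := hNH h' h1 hh'
    rw [h2, one_mul] at hy'
    exact B_P hCN p H hHp hH1 hmax y₀ a₀ hy₀1 hy₀p ha₀1 r ha₀r hrpcop
      ((hAmem y₀).mp (hy' ▸ ha))
  have hidx : ∃ n : ℕ, (H ⊔ A).index = p ^ n := by
    haveI := hHAn
    have hPq : IsPGroup p (G ⧸ (H ⊔ A)) := by
      intro c
      obtain ⟨g, rfl⟩ := QuotientGroup.mk_surjective c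
      obtain ⟨k, hk, n, hn, rfl⟩ := hfrat g
      obtain ⟨j, m, hpm, hnm⟩ :=
        Nat.exists_eq_pow_mul_and_not_dvd (orderOf_pos n).ne' p hp.ne_one
      refine ⟨j, ?_⟩
      have h1 : n ^ p ^ j ∈ A := by
        apply hNA _ (N.pow_mem hn _) m
        · rw [← pow_mul, ← hnm]; exact pow_orderOf_eq_one n
        · exact ((Nat.Prime.coprime_iff_not_dvd hp).mpr hpm).symm
      have h2 : (QuotientGroup.mk (k * n) : G ⧸ (H ⊔ A)) = QuotientGroup.mk n := by
        rw [QuotientGroup.mk_mul, (QuotientGroup.eq_one_iff k).mpr (Subgroup.mem_sup_left hk),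
          one_mul]
      rw [h2, ← QuotientGroup.mk_pow, QuotientGroup.eq_one_iff]
      exact Subgroup.mem_sup_right h1
    obtain ⟨n, hn⟩ := IsPGroup.iff_card.mp hPq
    exact ⟨n, by rw [Subgroup.index_eq_card]; exact hn⟩
  have hlast : ∀ x : G, x ∉ H ⊔ A → ∀ a ∈ A, a ≠ 1 → x * a * x⁻¹ * a⁻¹ ∉ H := by
    intro x hx a ha ha1 hmem
    obtain ⟨k, hk, n, hn, rfl⟩ := hfrat x
    have hnA : n ∉ A := fun h =>
      hx (Subgroup.mul_mem _ (Subgroup.mem_sup_left hk) (Subgroup.mem_sup_right h))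
    have ha' : n * a * n⁻¹ ∈ A := hAnorm n hn a ha
    have h1 : n * a * n⁻¹ * a⁻¹ ∈ H := by
      have e : n * a * n⁻¹ * a⁻¹ = k⁻¹ * (k * n * a * (k * n)⁻¹ * a⁻¹) * (a * k * a⁻¹) := by
        group
      rw [e]; exact H.mul_mem (H.mul_mem (H.inv_mem hk) hmem) (hHn.conj_mem k hk a)
    have h2 : n * a * n⁻¹ * a⁻¹ = 1 :=
      hNH _ (N.mul_mem (hAN ha') (N.inv_mem (hAN ha))) h1
    have h3 : n * a = a * n := by
      have e : n * a = (n * a * n⁻¹ * a⁻¹) * a * n := by group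
      rw [e, h2, one_mul]
    obtain ⟨j, m, hpm, hnm⟩ := Nat.exists_eq_pow_mul_and_not_dvd (orderOf_pos n).ne' p hp.ne_one
    have h4 : n ^ m = 1 := by
      by_contra hne
      refine B_P hCN p H hHp hH1 hmax (n ^ m) a hne ⟨j, ?_⟩ ha1 (Nat.card A) (hApow a ha) hAcop ?_
      · rw [← pow_mul, mul_comm, ← hnm]; exact pow_orderOf_eq_one n
      · exact ((show Commute n a from h3).pow_left m).eq
    exact hnA (hNA n hn m h4 ((Nat.Prime.coprime_iff_not_dvd hp).mpr hpm).symm)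
  refine ⟨p, hp, ?_⟩
  unfold Cfsg.IsThreeStepGroup
  rw [← hH]
  exact ⟨hH1, A, hA1, hAcyc, hAodd, hAcop, hHAn, hHAtop, hidx, hfpfA, hlast⟩


/-- Let G be a finite solvable group in which every non-identity element has nilpotent centralizer. Then either G is nilpotent; or G has a normal subgroup K with a Frobenius complement E (K E = G, K ∩ E = 1, E meets its conjugates by outside elements trivially) such that E is cyclic or E is generated by two elementwise-commuting subgroups, one cyclic of odd order and one isomorphic to a generalized quaternion group; or G is a three-step group with respect to some prime p. -/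
theorem result {G : Type*} [Group G] [Finite G] [Group.IsSolvable G] (hCN : Cfsg.IsCNGroup G) :
    Group.IsNilpotent G ∨
      (∃ K E : Subgroup G, K.Normal ∧ Subgroup.IsComplement' K E ∧ Cfsg.IsFrobeniusComplement E ∧
        (IsCyclic E ∨ ∃ C Q : Subgroup G, C ⊔ Q = E ∧ (∀ a ∈ C, ∀ b ∈ Q, a * b = b * a) ∧ IsCyclic C ∧ Odd (Nat.card C) ∧
          ∃ n : ℕ, Nonempty (↥Q ≃* QuaternionGroup (2 ^ n)))) ∨
      ∃ p : ℕ, p.Prime ∧ Cfsg.IsThreeStepGroup p G := by
  classical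
  by_cases hnil : Group.IsNilpotent G
  · exact Or.inl hnil
  by_cases hns : ∃ (r : ℕ) (_ : Fact r.Prime) (R : Sylow r G),
      (R : Subgroup G).Normal ∧ (R : Subgroup G) ≠ ⊥
  · obtain ⟨r, hr, R, hRn, hR1⟩ := hns
    right; left
    obtain ⟨hH1, -, ⟨E, hE, hFrob, hfpf⟩, -⟩ :=
      Cfsg.Agent.S1474.main hCN hnil r R hR1 hRn (Cfsg.fittingHall G) rfl
    exact ⟨Cfsg.fittingHall G, E, inferInstance, hE, hFrob, caseA hCN _ E hH1 hE hfpf⟩
  · right; right
    refine caseB hCN hnil ?_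
    intro r hr R hRn
    by_contra h
    exact hns ⟨r, hr, R, hRn, h⟩

end Cfsg.Agent.S1476
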