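import Cfsg.Statements.S1892
import Cfsg.Agent.Lib.Helper6.PSolv
import Cfsg.Agent.Lib.Helper14.ActTriv
import Cfsg.Agent.Lib.Helper11.Stab
import Cfsg.Agent.Lib.Helper1.Coprime
import Cfsg.Agent.Lib.Helper21.Subnormal

set_option autoImplicit false
open Cfsg

namespace Cfsg.Agent.S1892

/-- Let S be a finite p-solvable group with no nontrivial normal subgroup of order prime to p, A a p-subgroup of S, and Q a nontrivial A-invariant subgroup of order prime to p with [A, Q] = Q. Then the commutator [O_p(S), A, Q] is nontrivial. -/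
theorem result {S : Type*} [Group S] [Finite S] {p : ℕ} [Fact p.Prime]
    (hS : Cfsg.IsPSolvable p S) (hred : Cfsg.pPrimeCore p S = ⊥)
    (A Q : Subgroup S) (hA : IsPGroup p A) (hQ : ¬ p ∣ Nat.card Q) (hQ1 : Q ≠ ⊥)
    (hinv : ∀ a ∈ A, ∀ x ∈ Q, a * x * a⁻¹ ∈ Q) (hAQ : ⁅A, Q⁆ = Q) :
    ⁅⁅Cfsg.pCore p S, A⁆, Q⁆ ≠ ⊥ := by
  open scoped commutatorElement in
  intro hbot
  have hp : p.Prime := Fact.out
  have hPn : (Cfsg.pCore p S).Normal := Cfsg.Agent.Lib.Helper21.pCore_normal p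
  have hPp : IsPGroup p (Cfsg.pCore p S) := Cfsg.Agent.Lib.Helper21.pCore_isPGroup p
  have hAP : A ≤ Subgroup.normalizer (Cfsg.pCore p S : Set S) := by
    rw [Subgroup.normalizer_eq_top_iff.mpr hPn]; exact le_top
  have hQP : Q ≤ Subgroup.normalizer (Cfsg.pCore p S : Set S) := by
    rw [Subgroup.normalizer_eq_top_iff.mpr hPn]; exact le_top
  obtain ⟨N, hN⟩ : ∃ N : Subgroup S, N = ⁅Cfsg.pCore p S, A⁆ := ⟨_, rfl⟩
  rw [← hN] at hbot
  have hNP : N ≤ Cfsg.pCore p S := hN ▸ Cfsg.Agent.Lib.Helper1.commutator_le_of_le_normalizer hAP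
  have hNn : Cfsg.pCore p S ⊔ A ≤ Subgroup.normalizer (N : Set S) :=
    hN ▸ Cfsg.Agent.Lib.Helper1.commutator_normalizer hAP
  have hNQ : N ≤ Subgroup.centralizer (Q : Set S) :=
    Subgroup.commutator_eq_bot_iff_le_centralizer.mp hbot
  have hQN : Q ≤ Subgroup.centralizer (N : Set S) := Subgroup.le_centralizer_iff.mp hNQ
  have hQNn : Q ≤ Subgroup.normalizer (N : Set S) :=
    hQN.trans (Subgroup.centralizer_le_normalizer _)
  have hA : A ≤ Cfsg.Agent.Lib.Helper14.actTriv (Cfsg.pCore p S) N := by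
    intro a ha
    refine ⟨hAP ha, hNn (Subgroup.mem_sup_right ha), fun k hk => ?_⟩
    have h1 : ⁅a, k⁆ ∈ ⁅A, Cfsg.pCore p S⁆ := Subgroup.commutator_mem_commutator ha hk
    rw [Subgroup.commutator_comm, ← hN] at h1
    exact h1
  have hQact : Q ≤ Cfsg.Agent.Lib.Helper14.actTriv (Cfsg.pCore p S) N := by
    rw [← hAQ, Subgroup.commutator_le]
    intro a ha q hq
    have h1 : q * a⁻¹ * q⁻¹ ∈ Cfsg.Agent.Lib.Helper14.actTriv (Cfsg.pCore p S) N :=
      Cfsg.Agent.Lib.Helper14.conj_mem_actTriv (inv_mem (hA ha)) (hQP hq) (hQNn hq)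
    have e : ⁅a, q⁆ = a * (q * a⁻¹ * q⁻¹) := by rw [commutatorElement_def]; group
    rw [e]; exact mul_mem (hA ha) h1
  have hcop : (Nat.card Q).Coprime (Nat.card (Cfsg.pCore p S)) := by
    obtain ⟨k, hk⟩ := IsPGroup.iff_card.mp hPp
    rw [hk]
    exact Nat.Coprime.pow_right k ((Nat.Prime.coprime_iff_not_dvd hp).mpr hQ).symm
  have hQc : Q ≤ Subgroup.centralizer (Cfsg.pCore p S : Set S) := by
    intro q hq
    rw [Subgroup.mem_centralizer_iff]
    intro h hh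
    have hst := Cfsg.Agent.Lib.Helper11.stab_step q (Cfsg.pCore p S) N
      (fun k hk => (Subgroup.mem_centralizer_iff.mp (hQN hq) k hk).symm)
      (fun h hh => by
        have h1 := (hQact hq).2.2 h hh
        have h2 : h⁻¹ * (q * h * q⁻¹ * h⁻¹) * h⁻¹⁻¹ ∈ N :=
          (Subgroup.mem_normalizer_iff.mp (hNn (Subgroup.mem_sup_left (inv_mem hh))) _).mp h1
        have e : h⁻¹ * (q * h * q⁻¹) = h⁻¹ * (q * h * q⁻¹ * h⁻¹) * h⁻¹⁻¹ := by group
        rw [e]; exact h2)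
      (Nat.card Q) (Nat.card (Cfsg.pCore p S))
      (Cfsg.Agent.Lib.Helper11.pow_card_subgroup_eq_one hq)
      (fun k hk => Cfsg.Agent.Lib.Helper11.pow_card_subgroup_eq_one (hNP hk)) hcop
    exact (hst h hh).symm
  have hQle : Q ≤ Cfsg.pCore p S :=
    hQc.trans (Cfsg.Agent.Lib.Helper6.centralizer_pCore_le_of_isPSolvable hS hred)
  apply hQ1
  have hinf : Cfsg.pCore p S ⊓ Q = ⊥ := Cfsg.Agent.Lib.Helper1.inf_eq_bot_of_coprime_card hcop
  rw [eq_bot_iff, ← hinf]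
  exact le_inf hQle le_rfl

end Cfsg.Agent.S1892
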