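import Cfsg.Statements.S1898

set_option autoImplicit false
open Cfsg

namespace Cfsg.Agent.S1898

/-- In a group whose commutators are central involutions, the fourth-power map is multiplicative. -/
theorem mul_pow_four {X : Type*} [Group X]
    (h : ∀ a b : X, (a * b * a⁻¹ * b⁻¹) * (a * b * a⁻¹ * b⁻¹) = 1 ∧
      ∀ g : X, (a * b * a⁻¹ * b⁻¹) * g = g * (a * b * a⁻¹ * b⁻¹)) (x y : X) :
    (x * y) ^ 4 = x ^ 4 * y ^ 4 := by
  obtain ⟨hc2, hcz⟩ := h y x
  set c := y * x * y⁻¹ * x⁻¹ with hc
  have hyx : y * x = c * (x * y) := by rw [hc]; group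
  have h1 : (x * y) * (x * y) = c * ((x * x) * (y * y)) := by
    calc (x * y) * (x * y) = x * (y * x) * y := by group
      _ = x * (c * (x * y)) * y := by rw [hyx]
      _ = (x * c) * ((x * y) * y) := by group
      _ = (c * x) * ((x * y) * y) := by rw [hcz x]
      _ = c * ((x * x) * (y * y)) := by group
  have h2 : (y * y) * x = x * (y * y) := by
    calc (y * y) * x = y * (y * x) := by group
      _ = y * (c * (x * y)) := by rw [hyx]
      _ = (y * c) * (x * y) := by group
      _ = (c * y) * (x * y) := by rw [hcz y]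
      _ = c * (y * x) * y := by group
      _ = c * (c * (x * y)) * y := by rw [hyx]
      _ = (c * c) * (x * (y * y)) := by group
      _ = x * (y * y) := by rw [hc2, one_mul]
  have h3 : (y * y) * (x * x) = (x * x) * (y * y) := by
    calc (y * y) * (x * x) = ((y * y) * x) * x := by group
      _ = (x * (y * y)) * x := by rw [h2]
      _ = x * ((y * y) * x) := by group
      _ = x * (x * (y * y)) := by rw [h2]
      _ = (x * x) * (y * y) := by group
  have h4 : (c * ((x * x) * (y * y))) * (c * ((x * x) * (y * y))) =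
      ((x * x) * (y * y)) * ((x * x) * (y * y)) := by
    calc (c * ((x * x) * (y * y))) * (c * ((x * x) * (y * y)))
        = c * ((((x * x) * (y * y)) * c) * ((x * x) * (y * y))) := by simp only [mul_assoc]
      _ = c * ((c * ((x * x) * (y * y))) * ((x * x) * (y * y))) := by rw [← hcz]
      _ = (c * c) * (((x * x) * (y * y)) * ((x * x) * (y * y))) := by simp only [mul_assoc]
      _ = ((x * x) * (y * y)) * ((x * x) * (y * y)) := by rw [hc2, one_mul]
  calc (x * y) ^ 4 = ((x * y) * (x * y)) * ((x * y) * (x * y)) := by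
        simp only [pow_succ, pow_zero, one_mul, mul_assoc]
    _ = (c * ((x * x) * (y * y))) * (c * ((x * x) * (y * y))) := by rw [h1]
    _ = ((x * x) * (y * y)) * ((x * x) * (y * y)) := h4
    _ = (x * x) * (((y * y) * (x * x)) * (y * y)) := by simp only [mul_assoc]
    _ = (x * x) * (((x * x) * (y * y)) * (y * y)) := by rw [h3]
    _ = x ^ 4 * y ^ 4 := by simp only [pow_succ, pow_zero, one_mul, mul_assoc]

/-- Let X be a finite 2-group whose derived subgroup is elementary abelian and central. Then the subgroup generated by the elements of order dividing 4 has exponent dividing 4, and every automorphism of X fixing each element of order dividing 4 has 2-power order. -/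
theorem result {X : Type*} [Group X] [Finite X] (hX : IsPGroup 2 X)
    (hel : Cfsg.IsElementaryAbelian 2 (commutator X)) (hcen : commutator X ≤ Subgroup.center X) :
    (∀ x ∈ Subgroup.closure {g : X | g ^ 4 = 1}, x ^ 4 = 1) ∧
      ∀ φ : MulAut X, (∀ g : X, g ^ 4 = 1 → φ g = g) → ∃ k : ℕ, φ ^ (2 ^ k) = 1 := by
  classical
  have hcomm : ∀ a b : X, (a * b * a⁻¹ * b⁻¹) * (a * b * a⁻¹ * b⁻¹) = 1 ∧
      ∀ g : X, (a * b * a⁻¹ * b⁻¹) * g = g * (a * b * a⁻¹ * b⁻¹) := by
    intro a b
    have hmem : a * b * a⁻¹ * b⁻¹ ∈ commutator X := by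
      rw [commutator_def]
      exact Subgroup.commutator_mem_commutator (Subgroup.mem_top a) (Subgroup.mem_top b)
    constructor
    · have := hel.2 _ hmem
      rwa [pow_two] at this
    · intro g
      exact (Subgroup.mem_center_iff.mp (hcen hmem) g).symm
  have hP4 : ∀ x y : X, (x * y) ^ 4 = x ^ 4 * y ^ 4 := mul_pow_four hcomm
  constructor
  · intro x hx
    refine Subgroup.closure_induction (p := fun x _ => x ^ 4 = 1) ?_ ?_ ?_ ?_ hx
    · intro g hg; exact hg
    · exact one_pow 4
    · intro a b _ _ ha hb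
      rw [hP4, ha, hb, one_mul]
    · intro a _ ha
      rw [inv_pow, ha, inv_one]
  · intro φ hφ
    have hpowfix : ∀ (ψ : MulAut X) (c : X), ψ c = c → ∀ m : ℕ, (ψ ^ m) c = c := by
      intro ψ c hc m
      induction m with
      | zero => simp
      | succ m ih => rw [pow_succ, MulAut.mul_apply, hc, ih]
    have key : ∀ j : ℕ, ∀ x : X, x ^ (4 ^ j) = 1 → (φ ^ (4 ^ j)) x = x := by
      intro j
      induction j with
      | zero =>
        intro x hx
        simp only [pow_zero, pow_one] at hx ⊢
        rw [hx, map_one]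
      | succ j ih =>
        intro x hx
        set ψ := φ ^ (4 ^ j) with hψ
        have hx4 : (x ^ 4) ^ (4 ^ j) = 1 := by
          rw [← pow_mul, ← pow_succ']; exact hx
        have h1 : ψ (x ^ 4) = x ^ 4 := ih _ hx4
        have h2 : (ψ x) ^ 4 = x ^ 4 := by rw [← map_pow]; exact h1
        set c := x⁻¹ * ψ x with hc
        have hc4 : c ^ 4 = 1 := by
          rw [hc, hP4, h2, inv_pow, inv_mul_cancel]
        have hφc : φ c = c := hφ c hc4
        have hψc : ψ c = c := hpowfix φ c hφc _
        have hψx : ψ x = x * c := by rw [hc]; group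
        have hiter : ∀ m : ℕ, (ψ ^ m) x = x * c ^ m := by
          intro m
          induction m with
          | zero => simp
          | succ m ihm =>
            rw [pow_succ', MulAut.mul_apply, ihm, map_mul, map_pow, hψc, hψx, pow_succ', mul_assoc]
        have h4 := hiter 4
        rw [hc4, mul_one] at h4
        have e : φ ^ (4 ^ (j + 1)) = ψ ^ 4 := by
          rw [hψ, ← pow_mul, pow_succ]
        rw [e]; exact h4
    obtain ⟨m, hm⟩ := IsPGroup.iff_card.mp hX
    refine ⟨2 * m, ?_⟩
    have e : 2 ^ (2 * m) = 4 ^ m := by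
      rw [pow_mul]; rfl
    rw [e]
    ext x
    have hx : x ^ (4 ^ m) = 1 := by
      have h1 : x ^ (2 ^ m) = 1 := by rw [← hm]; exact pow_card_eq_one'
      have e2 : 4 ^ m = 2 ^ m * 2 ^ m := by
        rw [← mul_pow]; rfl
      rw [e2, pow_mul, h1, one_pow]
    rw [key m x hx]; rfl

end Cfsg.Agent.S1898
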