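import Cfsg.Statements.S1899
import Cfsg.Agent.Lib.Helper14.CardAux

set_option autoImplicit false
open Cfsg

namespace Cfsg.Agent.S1899

/-- Let a dihedral group of order 2n, n odd and n > 1, act on a finite abelian 2-group A through automorphisms d and t with d^n = 1, t² = 1 and t d t⁻¹ = d⁻¹, and suppose that d fixes only the identity. Then A is the internal direct product of C_A(t) and its image under d. -/
theorem result {A : Type*} [CommGroup A] [Finite A] (hA : IsPGroup 2 A)
    {n : ℕ} (hn : Odd n) (hn1 : 1 < n) (d t : MulAut A) (hd : d ^ n = 1) (ht : t ^ 2 = 1) (hdt : t * d * t⁻¹ = d⁻¹)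
    (hfix : ∀ a : A, d a = a → a = 1) :
    (MulEquiv.toMonoidHom t).eqLocus (MonoidHom.id A) ⊓ ((MulEquiv.toMonoidHom t).eqLocus (MonoidHom.id A)).map d.toMonoidHom = ⊥ ∧
      (MulEquiv.toMonoidHom t).eqLocus (MonoidHom.id A) ⊔ ((MulEquiv.toMonoidHom t).eqLocus (MonoidHom.id A)).map d.toMonoidHom = ⊤ := by
  classical
  set C := (MulEquiv.toMonoidHom t).eqLocus (MonoidHom.id A) with hCdef
  have hCmem : ∀ a : A, a ∈ C ↔ t a = a := by
    intro a; rfl
  have hF1 : ∀ a : A, t (d a) = d⁻¹ (t a) := by
    intro a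
    have h1 : t * d = d⁻¹ * t := by
      have := congrArg (fun φ => φ * t) hdt
      simpa [mul_assoc] using this
    have := congrArg (fun φ : MulAut A => φ a) h1
    simpa [MulAut.mul_apply] using this
  have hF2 : ∀ c : A, d (d c) = c → c = 1 := by
    intro c hc
    apply hfix
    obtain ⟨m, hm⟩ := hn
    have hpow : ∀ k : ℕ, ((d ^ 2) ^ k) c = c := by
      intro k
      induction k with
      | zero => simp
      | succ k ih =>
        rw [pow_succ, MulAut.mul_apply]
        have : (d ^ 2) c = c := by rw [pow_two, MulAut.mul_apply]; exact hc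
        rw [this, ih]
    have hdd : (d ^ 2) ^ (m + 1) = d := by
      rw [← pow_mul]
      have : 2 * (m + 1) = n + 1 := by omega
      rw [this, pow_succ, hd, one_mul]
    have := hpow (m + 1)
    rwa [hdd] at this
  have hdinv : ∀ a b : A, d⁻¹ a = b → a = d b := by
    intro a b h
    rw [← h]; simp
  have hF3 : C ⊓ C.map d.toMonoidHom = ⊥ := by
    rw [eq_bot_iff]
    rintro x ⟨hx1, c, hc, rfl⟩
    have hx1' : t (d c) = d c := (hCmem _).mp hx1
    have hc' : t c = c := (hCmem c).mp hc
    rw [hF1, hc'] at hx1'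
    have h2 : c = d (d c) := hdinv c (d c) hx1'
    have hc1 : c = 1 := hF2 c h2.symm
    rw [Subgroup.mem_bot, hc1]; simp
  let f : A →* A := MonoidHom.id A * t.toMonoidHom
  have hf : ∀ a, f a = a * t a := fun a => rfl
  have hrange : f.range ≤ C := by
    rintro _ ⟨a, rfl⟩
    rw [hCmem, hf, map_mul]
    have htt : t (t a) = a := by
      have := congrArg (fun φ : MulAut A => φ a) ht
      simpa [pow_two, MulAut.mul_apply] using this
    rw [htt, mul_comm]
  have hF4 : f.ker ⊓ f.ker.map d.toMonoidHom = ⊥ := by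
    rw [eq_bot_iff]
    rintro x ⟨hx1, c, hc, rfl⟩
    have hc' : c * t c = 1 := hc
    have hx1' : d c * t (d c) = 1 := hx1
    have htc : t c = c⁻¹ := eq_inv_of_mul_eq_one_right hc'
    rw [hF1, htc, map_inv] at hx1'
    have h1 : d c = d⁻¹ c := mul_inv_eq_one.mp hx1'
    have h2 : c = d (d c) := hdinv c (d c) h1.symm
    have hc1 : c = 1 := hF2 c h2.symm
    rw [Subgroup.mem_bot, hc1]; simp
  have hcardA : Nat.card f.ker * Nat.card f.range = Nat.card A :=
    Cfsg.Agent.Lib.Helper14.card_ker_mul_card_range f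
  have hmapcard : ∀ K : Subgroup A, Nat.card (K.map d.toMonoidHom) = Nat.card K :=
    fun K => Subgroup.card_map_of_injective d.injective
  have hI : Nat.card f.ker * Nat.card f.ker ≤ Nat.card A := by
    have := Cfsg.Agent.Lib.Helper14.card_sup_eq_mul_of_inf_eq_bot f.ker (f.ker.map d.toMonoidHom) hF4
    rw [hmapcard] at this
    rw [← this]; exact Subgroup.card_le_card_group _
  have hCC : Nat.card ↥(C ⊔ C.map d.toMonoidHom) = Nat.card C * Nat.card C := by
    have := Cfsg.Agent.Lib.Helper14.card_sup_eq_mul_of_inf_eq_bot C (C.map d.toMonoidHom) hF3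
    rwa [hmapcard] at this
  have hr : Nat.card f.range ≤ Nat.card C := Subgroup.card_le_of_le hrange
  refine ⟨hF3, ?_⟩
  rw [← Subgroup.card_eq_iff_eq_top, hCC]
  apply le_antisymm
  · rw [← hCC]; exact Subgroup.card_le_card_group _
  · have hpos : 0 < Nat.card A := Nat.card_pos
    have h1 : Nat.card A * Nat.card A ≤ Nat.card A * (Nat.card C * Nat.card C) := by
      calc Nat.card A * Nat.card A
          = (Nat.card f.ker * Nat.card f.ker) * (Nat.card f.range * Nat.card f.range) := by
            rw [← hcardA]; ring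
        _ ≤ Nat.card A * (Nat.card C * Nat.card C) := Nat.mul_le_mul hI (Nat.mul_le_mul hr hr)
    exact Nat.le_of_mul_le_mul_left h1 hpos

end Cfsg.Agent.S1899
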