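import Cfsg.Statements.S1900
import Cfsg.Agent.Lib.Helper14.TwoFix

set_option autoImplicit false
open Cfsg

namespace Cfsg.Agent.S1900

/-- Let S = PQ be a finite group with P a normal Sylow p-subgroup and Q elementary abelian of order q², q a prime different from p. If exactly two subgroups X₁, X₂ of order q in Q have a nontrivial centralizer in P, then P is the internal direct product of C_P(X₁) and C_P(X₂): they commute elementwise, meet trivially and generate P. -/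
theorem result {S : Type*} [Group S] [Finite S] {p q : ℕ} [Fact p.Prime] [Fact q.Prime] (hpq : p ≠ q)
    (P : Sylow p S) [(P : Subgroup S).Normal] (Q : Subgroup S) (hQ : Cfsg.IsElementaryAbelian q Q) (hQc : Nat.card Q = q ^ 2)
    (hS : (P : Subgroup S) ⊔ Q = ⊤)
    (X₁ X₂ : Subgroup S) (h₁ : X₁ ≤ Q) (h₂ : X₂ ≤ Q) (h₁₂ : X₁ ≠ X₂) (hc₁ : Nat.card X₁ = q) (hc₂ : Nat.card X₂ = q)
    (hf₁ : (P : Subgroup S) ⊓ Subgroup.centralizer (X₁ : Set S) ≠ ⊥)
    (hf₂ : (P : Subgroup S) ⊓ Subgroup.centralizer (X₂ : Set S) ≠ ⊥)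
    (honly : ∀ X : Subgroup S, X ≤ Q → Nat.card X = q →
      (P : Subgroup S) ⊓ Subgroup.centralizer (X : Set S) ≠ ⊥ → X = X₁ ∨ X = X₂) :
    ⁅(P : Subgroup S) ⊓ Subgroup.centralizer (X₁ : Set S), (P : Subgroup S) ⊓ Subgroup.centralizer (X₂ : Set S)⁆ = ⊥ ∧
      ((P : Subgroup S) ⊓ Subgroup.centralizer (X₁ : Set S)) ⊓ ((P : Subgroup S) ⊓ Subgroup.centralizer (X₂ : Set S)) = ⊥ ∧
      ((P : Subgroup S) ⊓ Subgroup.centralizer (X₁ : Set S)) ⊔ ((P : Subgroup S) ⊓ Subgroup.centralizer (X₂ : Set S)) = P := by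
  classical
  have hq : q.Prime := Fact.out
  have hPn : IsPGroup p (P : Subgroup S) := P.2
  -- h4
  have h4 : ∀ B : Subgroup S, B ≤ Q → B.relIndex Q ≤ q →
      X₁ ≤ B ∨ X₂ ≤ B ∨ (P : Subgroup S) ⊓ Subgroup.centralizer (B : Set S) = ⊥ := by
    intro B hBQ hBq
    have hmul : B.relIndex Q * Nat.card B = Nat.card Q :=
      Cfsg.Agent.Lib.Helper14.relIndex_mul_card_of_le hBQ
    have hdvd : Nat.card B ∣ q ^ 2 := by rw [← hQc]; exact Dvd.intro_left _ hmul
    obtain ⟨j, hj, hjB⟩ := (Nat.dvd_prime_pow hq).mp hdvd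
    interval_cases j
    · exfalso
      rw [hjB, hQc, pow_zero, mul_one] at hmul
      rw [hmul] at hBq
      have : q * 2 ≤ q * q := Nat.mul_le_mul_left q hq.two_le
      nlinarith [hq.two_le]
    · rw [pow_one] at hjB
      by_cases hbot : (P : Subgroup S) ⊓ Subgroup.centralizer (B : Set S) = ⊥
      · exact Or.inr (Or.inr hbot)
      · rcases honly B hBQ hjB hbot with h | h
        · exact Or.inl h.ge
        · exact Or.inr (Or.inl h.ge)
    · have hBeq : B = Q := Subgroup.eq_of_le_of_card_ge hBQ (by rw [hjB, hQc])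
      exact Or.inl (hBeq ▸ h₁)
  -- h5
  have h5 : (P : Subgroup S) ⊓ Subgroup.centralizer (X₁ : Set S) ⊓
      Subgroup.centralizer (X₂ : Set S) = ⊥ := by
    have hnle₁ : ¬ X₁ ≤ X₂ := fun h =>
      h₁₂ (Subgroup.eq_of_le_of_card_ge h (by rw [hc₁, hc₂]))
    have hnle₂ : ¬ X₂ ≤ X₁ := fun h =>
      h₁₂ (Subgroup.eq_of_le_of_card_ge h (by rw [hc₁, hc₂])).symm
    obtain ⟨x₁, hx₁, hx₁'⟩ := SetLike.not_le_iff_exists.mp hnle₁
    obtain ⟨x₂, hx₂, hx₂'⟩ := SetLike.not_le_iff_exists.mp hnle₂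
    have ht₁ : x₁ * x₂ ∉ X₁ := fun h => hx₂' (by
      have := X₁.mul_mem (X₁.inv_mem hx₁) h
      simpa using this)
    have ht₂ : x₁ * x₂ ∉ X₂ := fun h => hx₁' (by
      have := X₂.mul_mem h (X₂.inv_mem hx₂)
      simpa using this)
    have htQ : x₁ * x₂ ∈ Q := Q.mul_mem (h₁ hx₁) (h₂ hx₂)
    have ht1 : x₁ * x₂ ≠ 1 := fun h => ht₁ (h ▸ X₁.one_mem)
    have hord : orderOf (x₁ * x₂) = q := by
      have h1 : orderOf (x₁ * x₂) ∣ q := orderOf_dvd_of_pow_eq_one (hQ.2 _ htQ)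
      rcases (Nat.dvd_prime hq).mp h1 with h | h
      · exact absurd (orderOf_eq_one_iff.mp h) ht1
      · exact h
    have hX₃c : Nat.card (Subgroup.zpowers (x₁ * x₂)) = q := by
      rw [Nat.card_zpowers, hord]
    have hX₃Q : Subgroup.zpowers (x₁ * x₂) ≤ Q := Subgroup.zpowers_le.mpr htQ
    have hX₃ : (P : Subgroup S) ⊓ Subgroup.centralizer
        ((Subgroup.zpowers (x₁ * x₂) : Subgroup S) : Set S) = ⊥ := by
      by_contra hne
      rcases honly _ hX₃Q hX₃c hne with h | h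
      · exact ht₁ (h ▸ Subgroup.mem_zpowers _)
      · exact ht₂ (h ▸ Subgroup.mem_zpowers _)
    rw [eq_bot_iff, ← hX₃]
    rintro g ⟨⟨hgP, hg₁⟩, hg₂⟩
    refine Subgroup.mem_inf.mpr ⟨hgP, ?_⟩
    rw [Subgroup.mem_centralizer_iff]
    have hle : Subgroup.zpowers (x₁ * x₂) ≤ Subgroup.centralizer ({g} : Set S) := by
      rw [Subgroup.zpowers_le, Subgroup.mem_centralizer_iff]
      intro k hk
      rw [Set.mem_singleton_iff] at hk
      rw [hk]
      have e1 := (Subgroup.mem_centralizer_iff.mp hg₁) x₁ hx₁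
      have e2 := (Subgroup.mem_centralizer_iff.mp hg₂) x₂ hx₂
      calc g * (x₁ * x₂) = (g * x₁) * x₂ := by group
        _ = (x₁ * g) * x₂ := by rw [e1]
        _ = x₁ * (g * x₂) := by group
        _ = x₁ * (x₂ * g) := by rw [e2]
        _ = x₁ * x₂ * g := by group
    intro h hh
    exact ((Subgroup.mem_centralizer_iff.mp (hle hh)) g (Set.mem_singleton g)).symm
  refine ⟨Cfsg.Agent.Lib.Helper14.twoFix_commutator hpq (P : Subgroup S) Q X₁ X₂ hPn hQ h₁ h₂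
    h4 h5, ?_, ?_⟩
  · rw [eq_bot_iff, ← h5]
    rintro g ⟨⟨hgP, hg₁⟩, ⟨_, hg₂⟩⟩
    exact Subgroup.mem_inf.mpr ⟨Subgroup.mem_inf.mpr ⟨hgP, hg₁⟩, hg₂⟩
  · apply le_antisymm (sup_le inf_le_left inf_le_left)
    have hQL : Q ≤ Subgroup.normalizer (((P : Subgroup S) : Subgroup S) : Set S) := by
      intro g _; rw [Subgroup.normalizer_eq_top]; trivial
    exact Cfsg.Agent.Lib.Helper14.twoFix_gen hpq (P : Subgroup S) Q X₁ X₂ (P : Subgroup S) hPn hQ
      h4 le_rfl hQL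

end Cfsg.Agent.S1900
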