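import Cfsg.Statements.S1902
import Cfsg.Agent.S0629
import Cfsg.Agent.S1302
import Cfsg.Agent.S0522
import Cfsg.Agent.Lib.Helper6.PSolv4
import Cfsg.Agent.Lib.Helper21.Basic

set_option autoImplicit false
open Cfsg

namespace Cfsg.Agent.S1902

/-- Let p be an odd prime, G a finite p-solvable group, and B an elementary abelian subgroup of order p² such that B is the subgroup generated by the elements of order p of some Sylow p-subgroup of C_G(b₀), for some nontrivial b₀ ∈ B. Then every B-invariant subgroup of G of order prime to p lies in O_{p'}(G). -/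
theorem result {G : Type*} [Group G] [Finite G] {p : ℕ} [Fact p.Prime] (hp : p ≠ 2)
    (hG : Cfsg.IsPSolvable p G) (B : Subgroup G) (hB : Cfsg.IsElementaryAbelian p B) (hBc : Nat.card B = p ^ 2)
    (b₀ : G) (hb₀ : b₀ ∈ B) (hb₁ : b₀ ≠ 1) (P : Sylow p ↥(Subgroup.centralizer ({b₀} : Set G)))
    (hBP : B = Subgroup.closure {x : G | x ∈ ((P : Subgroup ↥(Subgroup.centralizer ({b₀} : Set G))).map
      (Subgroup.centralizer ({b₀} : Set G)).subtype : Subgroup G) ∧ orderOf x = p})
    (Q : Subgroup G) (hQ : ¬ p ∣ Nat.card Q) (hinv : ∀ b ∈ B, ∀ x ∈ Q, b * x * b⁻¹ ∈ Q) :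
    Q ≤ Cfsg.pPrimeCore p G := by
  classical
  have hpr : p.Prime := Fact.out
  have hcon : Cfsg.IsPConstrained p G :=
    Cfsg.Agent.S0629.result (default : Sylow p ↥(Cfsg.pPrimePCore p G))
      (Cfsg.Agent.Lib.Helper6.isPSolvable_subgroup hpr _ hG)
  have hBp : IsPGroup p B := by
    intro b
    refine ⟨1, ?_⟩
    rw [pow_one]
    exact Subtype.ext (by simpa using hB.2 b b.2)
  have hBcomm : ∀ a ∈ B, ∀ b ∈ B, a * b = b * a :=
    fun a ha b hb => congrArg Subtype.val (hB.1.is_comm.comm ⟨a, ha⟩ ⟨b, hb⟩)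
  obtain ⟨C, hCdef⟩ : ∃ C : Subgroup G, C = Subgroup.centralizer ({b₀} : Set G) := ⟨_, rfl⟩
  subst hCdef
  have hBC : B ≤ Subgroup.centralizer ({b₀} : Set G) := by
    intro b hb
    rw [Subgroup.mem_centralizer_iff]
    intro h hh
    rw [Set.mem_singleton_iff] at hh
    subst hh
    exact hBcomm h hb₀ b hb
  have hΩ : ∀ x ∈ Subgroup.centralizer (B : Set G), orderOf x = p → x ∈ B := by
    intro x hx hxo
    have hxC : x ∈ Subgroup.centralizer ({b₀} : Set G) := by
      rw [Subgroup.mem_centralizer_iff]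
      intro h hh
      rw [Set.mem_singleton_iff] at hh
      subst hh
      exact (Subgroup.mem_centralizer_iff.mp hx) h hb₀
    obtain ⟨H, hHdef⟩ : ∃ H : Subgroup G, H = Subgroup.zpowers x ⊔ B := ⟨_, rfl⟩
    have hzp : IsPGroup p (Subgroup.zpowers x) :=
      IsPGroup.of_card (n := 1) (by rw [Nat.card_zpowers, hxo, pow_one])
    have hzN : Subgroup.zpowers x ≤ Subgroup.normalizer (B : Set G) := by
      rw [Subgroup.zpowers_le]
      exact Subgroup.centralizer_le_normalizer _ hx
    have hHp : IsPGroup p H := by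
      rw [hHdef]
      exact IsPGroup.to_sup_of_normal_right' hzp hBp hzN
    have hHC : H ≤ Subgroup.centralizer ({b₀} : Set G) := by
      rw [hHdef]
      exact sup_le (by rw [Subgroup.zpowers_le]; exact hxC) hBC
    have hHp' : IsPGroup p (H.subgroupOf (Subgroup.centralizer ({b₀} : Set G))) :=
      hHp.comap_of_injective _ (Subgroup.subtype_injective _)
    obtain ⟨P', hP'⟩ := hHp'.exists_le_sylow
    obtain ⟨g, hg⟩ := MulAction.exists_smul_eq ↥(Subgroup.centralizer ({b₀} : Set G)) P P'
    have key : ∀ y ∈ H, orderOf y = p → y ∈ B.map (MulAut.conj (g : G)).toMonoidHom := by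
      intro y hy hyo
      have h1 : (⟨y, hHC hy⟩ : ↥(Subgroup.centralizer ({b₀} : Set G))) ∈
          ((g • P : Sylow p ↥(Subgroup.centralizer ({b₀} : Set G))) : Subgroup _) := by
        rw [hg]
        exact hP' (Subgroup.mem_subgroupOf.mpr hy)
      rw [Sylow.coe_subgroup_smul, Subgroup.mem_pointwise_smul_iff_inv_smul_mem] at h1
      rw [Cfsg.Agent.Lib.Helper21.mem_map_conj]
      have h2 : (g : G)⁻¹ * y * (g : G) ∈ ((P : Subgroup ↥(Subgroup.centralizer ({b₀} : Set G))).map
          (Subgroup.centralizer ({b₀} : Set G)).subtype : Subgroup G) := by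
        rw [Subgroup.mem_map]
        exact ⟨_, h1, by simp [MulAut.smul_def]⟩
      have h3 : orderOf ((g : G)⁻¹ * y * (g : G)) = p := by
        apply orderOf_eq_prime
        · have e : ((g : G)⁻¹ * y * (g : G)) ^ p = (g : G)⁻¹ * y ^ p * (g : G) := by
            have h5 := conj_pow (a := (g : G)⁻¹) (b := y) (i := p)
            rwa [inv_inv] at h5
          rw [e, ← hyo, pow_orderOf_eq_one]
          group
        · intro h
          have hy1 : y = 1 := by
            have e2 : y = (g : G) * ((g : G)⁻¹ * y * (g : G)) * (g : G)⁻¹ := by group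
            rw [e2, h]; group
          rw [hy1, orderOf_one] at hyo
          exact hpr.one_lt.ne hyo
      rw [hBP]
      exact Subgroup.subset_closure ⟨h2, h3⟩
    have hBB' : B ≤ B.map (MulAut.conj (g : G)).toMonoidHom := by
      intro b hb
      by_cases hb1 : b = 1
      · rw [hb1]; exact Subgroup.one_mem _
      · exact key b (hHdef ▸ Subgroup.mem_sup_right hb) (orderOf_eq_prime (hB.2 b hb) hb1)
    have hcard : Nat.card (B.map (MulAut.conj (g : G)).toMonoidHom) ≤ Nat.card B := by
      rw [Subgroup.card_map_of_injective (MulAut.conj (g : G)).injective]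
    have hEq : B = B.map (MulAut.conj (g : G)).toMonoidHom := Subgroup.eq_of_le_of_card_ge hBB' hcard
    rw [hEq]
    exact key x (hHdef ▸ Subgroup.mem_sup_left (Subgroup.mem_zpowers x)) hxo
  exact Cfsg.Agent.S1302.result p hp hcon B hB.1 hBp hΩ Q hQ (Cfsg.Agent.S0522.le_norm_of_conj hinv)

end Cfsg.Agent.S1902
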