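import Cfsg.Statements.S1905
import Cfsg.Agent.Lib.Helper14.InvolCtl

set_option autoImplicit false
open Cfsg

namespace Cfsg.Agent.S1905

/-- Let M be a subgroup of even order of a finite group S such that M contains the centralizer in S of each of its involutions and the normal core of M in S has odd order. Then all involutions of S are conjugate. If moreover N_S(X) ≤ M for a Sylow 2-subgroup X of M and I is an involution in the centre of X, then all involutions of M are conjugate in M and M = M₀ C_M(I) for some subgroup M₀ of M of odd order. -/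
theorem result {S : Type*} [Group S] [Finite S] (M : Subgroup S) (hM : Even (Nat.card M))
    (hC : ∀ i ∈ M, orderOf i = 2 → Subgroup.centralizer ({i} : Set S) ≤ M) (hcore : Odd (Nat.card M.normalCore)) :
    (∀ x y : S, orderOf x = 2 → orderOf y = 2 → IsConj x y) ∧
      ∀ (X : Sylow 2 M) (I : M), I ∈ (Subgroup.center ↥(X : Subgroup ↥M)).map (X : Subgroup ↥M).subtype → orderOf I = 2 →
        Subgroup.normalizer (((X : Subgroup M).map M.subtype : Subgroup S) : Set S) ≤ M →
        (∀ x y : M, orderOf x = 2 → orderOf y = 2 → IsConj x y) ∧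
          ∃ M₀ : Subgroup M, Odd (Nat.card M₀) ∧
            ∀ m : M, ∃ a ∈ M₀, ∃ c ∈ Subgroup.centralizer ({I} : Set M), m = a * c := by
  obtain ⟨hconj, t, ht, htM⟩ := Cfsg.Agent.Lib.Helper14.all_invol_conj hM hC hcore
  refine ⟨hconj, ?_⟩
  intro X I hI hIord hN
  have : Fact (Nat.Prime 2) := ⟨Nat.prime_two⟩
  set X₀ : Subgroup S := (X : Subgroup M).map M.subtype with hX₀
  have hX₀p : IsPGroup 2 X₀ := X.isPGroup'.map _
  have hidx : ¬ 2 ∣ X₀.relIndex M := by
    have h1 : X₀.subgroupOf M = (X : Subgroup M) := by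
      rw [hX₀]
      exact Subgroup.comap_map_eq_self_of_injective M.subtype_injective _
    rw [Subgroup.relIndex, h1]
    exact X.not_dvd_index
  have hI₀ : orderOf (I : S) = 2 := by rw [Subgroup.orderOf_coe]; exact hIord
  have hI₀c : ∀ x ∈ X₀, x * (I : S) = (I : S) * x := by
    rintro _ ⟨y, hy, rfl⟩
    obtain ⟨c, hc, hcI⟩ := hI
    have h1 := Subgroup.mem_center_iff.mp hc ⟨y, hy⟩
    have h2 : y * I = I * y := by
      rw [← hcI]
      exact congrArg (X : Subgroup M).subtype h1
    exact congrArg M.subtype h2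
  have hctl : ∀ u h : S, u ∈ M → orderOf u = 2 → h * u * h⁻¹ ∈ M → h ∈ M :=
    fun u h huM hu hhu =>
      Cfsg.Agent.Lib.Helper14.mem_of_conj_invol_mem hC hX₀p hidx hN hI₀ hI₀c huM hu hhu
  obtain ⟨hodd, htrans⟩ := Cfsg.Agent.Lib.Helper14.inter_conj_transitive hC hctl ht htM
  refine ⟨?_, ?_⟩
  · intro x y hx hy
    have hx' : orderOf (x : S) = 2 := by rw [Subgroup.orderOf_coe]; exact hx
    have hy' : orderOf (y : S) = 2 := by rw [Subgroup.orderOf_coe]; exact hy
    obtain ⟨g, hg⟩ := isConj_iff.mp (hconj x y hx' hy')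
    have hgM : g ∈ M := hctl x g x.2 hx' (by rw [hg]; exact y.2)
    exact isConj_iff.mpr ⟨⟨g, hgM⟩, Subtype.ext hg⟩
  · refine ⟨(M ⊓ M.map (MulAut.conj t).toMonoidHom).subgroupOf M, ?_, ?_⟩
    · rw [Nat.card_congr (Subgroup.subgroupOfEquivOfLe inf_le_left).toEquiv]
      exact hodd
    · intro m
      have hv : orderOf ((m : S) * I * (m : S)⁻¹) = 2 := by
        rw [Cfsg.Agent.Lib.Helper14.orderOf_conj_eq]; exact hI₀
      obtain ⟨a, ha, hau⟩ := htrans (I : S) _ I.2 hI₀
        (mul_mem (mul_mem m.2 I.2) (inv_mem m.2)) hv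
      have haM : a ∈ M := (Subgroup.mem_inf.mp ha).1
      refine ⟨⟨a, haM⟩, Subgroup.mem_subgroupOf.mpr ha, (⟨a, haM⟩ : M)⁻¹ * m, ?_, by group⟩
      rw [Subgroup.mem_centralizer_singleton_iff]
      apply Subtype.ext
      show a⁻¹ * (m : S) * (I : S) = (I : S) * (a⁻¹ * (m : S))
      calc a⁻¹ * (m : S) * (I : S) = a⁻¹ * ((m : S) * I * (m : S)⁻¹) * m := by group
        _ = a⁻¹ * (a * I * a⁻¹) * m := by rw [hau]
        _ = (I : S) * (a⁻¹ * (m : S)) := by group

end Cfsg.Agent.S1905
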