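import Cfsg.Statements.S1907
import Cfsg.Agent.Lib.Helper14.PPrimeFrattini

set_option autoImplicit false
open Cfsg

namespace Cfsg.Agent.S1907

/-- Let P be a Sylow p-subgroup of a finite group G, H = P ∩ O_{p',p}(G), N = N_G(H) and D = O_{p'}(G). (a) If y is an element of p-power order of N and d ∈ D with d⁻¹ y d ∈ N, then d = d₁ d₂ with d₁ ∈ C_D(y) and d₂ ∈ C_D(H). (b) Two elements of P that are conjugate in G are conjugate in N. -/
theorem result {G : Type*} [Group G] [Finite G] {p : ℕ} [Fact p.Prime] (P : Sylow p G) :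
    (∀ y ∈ Subgroup.normalizer (((P : Subgroup G) ⊓ Cfsg.pPrimePCore p G : Subgroup G) : Set G), (∃ k : ℕ, orderOf y = p ^ k) →
      ∀ d ∈ Cfsg.pPrimeCore p G, d⁻¹ * y * d ∈ Subgroup.normalizer (((P : Subgroup G) ⊓ Cfsg.pPrimePCore p G : Subgroup G) : Set G) →
        ∃ d₁ ∈ Cfsg.pPrimeCore p G ⊓ Subgroup.centralizer ({y} : Set G),
          ∃ d₂ ∈ Cfsg.pPrimeCore p G ⊓ Subgroup.centralizer (((P : Subgroup G) ⊓ Cfsg.pPrimePCore p G : Subgroup G) : Set G), d = d₁ * d₂) ∧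
    ∀ x y : G, x ∈ (P : Subgroup G) → y ∈ (P : Subgroup G) → IsConj x y →
      ∃ n ∈ Subgroup.normalizer (((P : Subgroup G) ⊓ Cfsg.pPrimePCore p G : Subgroup G) : Set G), n * x * n⁻¹ = y := by
  set K := Cfsg.pPrimeCore p G with hKdef
  set H := (P : Subgroup G) ⊓ Cfsg.pPrimePCore p G with hHdef
  set N := Subgroup.normalizer ((H : Subgroup G) : Set G) with hNdef
  have hKn : K.Normal := inferInstance
  have hKcop : (Nat.card K).Coprime p := Cfsg.Agent.Lib.Helper14.pPrimeCore_coprime p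
  have hHp : IsPGroup p H := P.isPGroup'.to_le inf_le_left
  have hHK : H ⊓ K = ⊥ := (Subgroup.disjoint_of_coprime_natCard (by
    obtain ⟨a, ha⟩ := IsPGroup.iff_card.mp hHp
    rw [ha]; exact Nat.Coprime.pow_left a hKcop.symm)).eq_bot
  -- elements of `K ∩ N` centralize `H`
  have hcent : ∀ c ∈ K ⊓ N, c ∈ K ⊓ Subgroup.centralizer ((H : Subgroup G) : Set G) := by
    intro c hc
    obtain ⟨hcK, hcN⟩ := Subgroup.mem_inf.mp hc
    refine Subgroup.mem_inf.mpr ⟨hcK, ?_⟩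
    rw [Subgroup.mem_centralizer_iff]
    intro h hh
    have h3 : c * h * c⁻¹ * h⁻¹ ∈ H ⊓ K := by
      refine Subgroup.mem_inf.mpr ⟨mul_mem ((Subgroup.mem_normalizer_iff.mp hcN h).mp hh) (inv_mem hh), ?_⟩
      have : c * h * c⁻¹ * h⁻¹ = c * (h * c⁻¹ * h⁻¹) := by group
      rw [this]
      exact mul_mem hcK (hKn.conj_mem _ (inv_mem hcK) h)
    rw [hHK, Subgroup.mem_bot] at h3
    calc h * c = (c * h * c⁻¹ * h⁻¹) * h * c := by rw [h3, one_mul]
      _ = c * h := by group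
  have hparta : ∀ y ∈ N, (∃ k : ℕ, orderOf y = p ^ k) → ∀ d ∈ K, d⁻¹ * y * d ∈ N →
      ∃ d₁ ∈ K ⊓ Subgroup.centralizer ({y} : Set G),
        ∃ d₂ ∈ K ⊓ Subgroup.centralizer ((H : Subgroup G) : Set G), d = d₁ * d₂ := by
    intro y hyN hyp d hdK hdN
    have hyC : y ∈ Subgroup.normalizer ((K ⊓ N : Subgroup G) : Set G) := by
      rw [Subgroup.mem_normalizer_iff]
      intro c
      rw [Subgroup.mem_inf, Subgroup.mem_inf]
      have h1 : c ∈ K ↔ y * c * y⁻¹ ∈ K := by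
        constructor
        · intro h; exact hKn.conj_mem c h y
        · intro h
          have := hKn.conj_mem _ h y⁻¹
          have e : y⁻¹ * (y * c * y⁻¹) * y⁻¹⁻¹ = c := by group
          rwa [e] at this
      have h2 : c ∈ N ↔ y * c * y⁻¹ ∈ N := by
        constructor
        · intro h; exact mul_mem (mul_mem hyN h) (inv_mem hyN)
        · intro h
          have := mul_mem (mul_mem (inv_mem hyN) h) hyN
          have e : y⁻¹ * (y * c * y⁻¹) * y = c := by group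
          rwa [e] at this
      rw [h1, h2]
    have hCcop : (Nat.card ↥(K ⊓ N)).Coprime p :=
      Nat.Coprime.coprime_dvd_left (Subgroup.card_dvd_of_le inf_le_left) hKcop
    have he : y⁻¹ * (d⁻¹ * y * d) ∈ K ⊓ N := by
      refine Subgroup.mem_inf.mpr ⟨?_, mul_mem (inv_mem hyN) hdN⟩
      have e : y⁻¹ * (d⁻¹ * y * d) = (y⁻¹ * d⁻¹ * y⁻¹⁻¹) * d := by group
      rw [e]
      exact mul_mem (hKn.conj_mem _ (inv_mem hdK) y⁻¹) hdK
    have hye : y * (y⁻¹ * (d⁻¹ * y * d)) = d⁻¹ * y * d := by group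
    have hyp' : ∃ k : ℕ, orderOf (y * (y⁻¹ * (d⁻¹ * y * d))) = p ^ k := by
      obtain ⟨k, hk⟩ := hyp
      refine ⟨k, ?_⟩
      rw [hye]
      have := Cfsg.Agent.Lib.Helper14.orderOf_conj_eq d⁻¹ y
      rw [inv_inv] at this
      rw [this, hk]
    obtain ⟨c, hc, hcy⟩ :=
      Cfsg.Agent.Lib.Helper14.exists_conj_eq_of_coprime (K ⊓ N) hCcop hyC hyp he hyp'
    rw [hye] at hcy
    refine ⟨d * c⁻¹, Subgroup.mem_inf.mpr ⟨mul_mem hdK (inv_mem (Subgroup.mem_inf.mp hc).1), ?_⟩,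
      c, hcent c hc, by group⟩
    rw [Subgroup.mem_centralizer_singleton_iff]
    calc d * c⁻¹ * y = d * c⁻¹ * (c * (d⁻¹ * y * d) * c⁻¹) := by rw [hcy]
      _ = y * (d * c⁻¹) := by group
  refine ⟨hparta, ?_⟩
  intro x y hx hy hxy
  obtain ⟨g, hg⟩ := isConj_iff.mp hxy
  have hPN : (P : Subgroup G) ≤ N := by
    have hLn : (Cfsg.pPrimePCore p G).Normal := Cfsg.Agent.Lib.Helper14.pPrimePCore_normal' p
    intro z hz
    rw [hNdef, Subgroup.mem_normalizer_iff]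
    intro h
    rw [hHdef, Subgroup.mem_inf, Subgroup.mem_inf]
    have h1 : h ∈ (P : Subgroup G) ↔ z * h * z⁻¹ ∈ (P : Subgroup G) := by
      constructor
      · intro hh; exact mul_mem (mul_mem hz hh) (inv_mem hz)
      · intro hh
        have := mul_mem (mul_mem (inv_mem hz) hh) hz
        have e : z⁻¹ * (z * h * z⁻¹) * z = h := by group
        rwa [e] at this
    have h2 : h ∈ Cfsg.pPrimePCore p G ↔ z * h * z⁻¹ ∈ Cfsg.pPrimePCore p G := by
      constructor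
      · intro hh; exact hLn.conj_mem h hh z
      · intro hh
        have := hLn.conj_mem _ hh z⁻¹
        have e : z⁻¹ * (z * h * z⁻¹) * z⁻¹⁻¹ = h := by group
        rwa [e] at this
    rw [h1, h2]
  have hfrat := Cfsg.Agent.Lib.Helper14.normalizer_sylow_inf_sup_pPrimeCore P
  have hgmem : g ∈ N ⊔ K := by rw [hfrat]; trivial
  obtain ⟨n, hn, k, hk, rfl⟩ := Subgroup.mem_sup_of_normal_right.mp hgmem
  have hxp : ∃ j : ℕ, orderOf x = p ^ j := by
    obtain ⟨j, hj⟩ := (IsPGroup.iff_orderOf.mp P.isPGroup') ⟨x, hx⟩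
    exact ⟨j, by rw [← hj, Subgroup.orderOf_mk]⟩
  have hkx : k⁻¹⁻¹ * x * k⁻¹ ∈ N := by
    have h1 : n⁻¹ * y * n ∈ N := mul_mem (mul_mem (inv_mem hn) (hPN hy)) hn
    have e : k⁻¹⁻¹ * x * k⁻¹ = n⁻¹ * y * n := by rw [← hg]; group
    rw [e]; exact h1
  obtain ⟨d₁, hd₁, d₂, hd₂, hd⟩ := hparta x (hPN hx) hxp k⁻¹ (inv_mem hk) hkx
  have hd₁x : d₁ * x = x * d₁ :=
    Subgroup.mem_centralizer_singleton_iff.mp (Subgroup.mem_inf.mp hd₁).2
  have hd₂N : d₂ ∈ N := (Subgroup.centralizer_le_normalizer _) (Subgroup.mem_inf.mp hd₂).2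
  refine ⟨n * d₂⁻¹, mul_mem hn (inv_mem hd₂N), ?_⟩
  have hk' : k = d₂⁻¹ * d₁⁻¹ := by
    have : k = (k⁻¹)⁻¹ := by group
    rw [this, hd]; group
  rw [← hg, hk']
  calc n * d₂⁻¹ * x * (n * d₂⁻¹)⁻¹ = n * d₂⁻¹ * (d₁⁻¹ * (d₁ * x)) * d₂ * n⁻¹ := by group
    _ = n * d₂⁻¹ * (d₁⁻¹ * (x * d₁)) * d₂ * n⁻¹ := by rw [hd₁x]
    _ = n * (d₂⁻¹ * d₁⁻¹) * x * (n * (d₂⁻¹ * d₁⁻¹))⁻¹ := by group

end Cfsg.Agent.S1907
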