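import Cfsg.Statements.S1924
import Cfsg.Agent.Lib.Helper14.Residual

set_option autoImplicit false
open Cfsg

namespace Cfsg.Agent.S1924

open Classical in
/-- The sign of the permutation action on a coset space. -/
noncomputable def sgnHom {H : Type*} [Group H] [Finite H] (X : Subgroup H) : H →* ℤˣ :=
  letI : Fintype (H ⧸ X) := Fintype.ofFinite _
  Equiv.Perm.sign.comp (MulAction.toPermHom H (H ⧸ X))

open Classical in
/-- An element acting freely on a coset space with an odd number of cycles of even length is an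
odd permutation. -/
theorem sgnHom_free {H : Type*} [Group H] [Finite H] (X : Subgroup H) (u : H)
    (hfree : ∀ g : H, ∀ k : ℕ, u ^ k ≠ 1 → g⁻¹ * u ^ k * g ∉ X) (h2 : 2 ∣ orderOf u)
    (m : ℕ) (hm : Odd m) (hidx : X.index = orderOf u * m) : sgnHom X u = -1 := by
  let _ : Fintype (H ⧸ X) := Fintype.ofFinite _
  have hu0 : 0 < orderOf u := orderOf_pos u
  set σ : Equiv.Perm (H ⧸ X) := MulAction.toPermHom H (H ⧸ X) u with hσ
  have hpow : ∀ k : ℕ, σ ^ k = MulAction.toPermHom H (H ⧸ X) (u ^ k) := fun k => by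
    rw [hσ, map_pow]
  have hfix : ∀ (k : ℕ) (ω : H ⧸ X), (σ ^ k) ω = ω → u ^ k = 1 := by
    intro k ω hω
    induction ω using QuotientGroup.induction_on with
    | H g =>
      by_contra hne
      apply hfree g k hne
      rw [hpow] at hω
      have h1 : ((u ^ k * g : H) : H ⧸ X) = (g : H ⧸ X) := hω
      have h2 := QuotientGroup.eq.mp h1.symm
      rwa [← mul_assoc] at h2
  have hord : orderOf σ = orderOf u := by
    rw [orderOf_eq_orderOf_iff]
    intro n
    constructor
    · intro h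
      exact hfix n ((1 : H) : H ⧸ X) (by rw [h]; rfl)
    · intro h
      rw [hpow, h, map_one]
  have hct : ∀ ℓ ∈ σ.cycleType, ℓ = orderOf u := by
    intro ℓ hℓ
    have hdvd : ℓ ∣ orderOf u := hord ▸ Equiv.Perm.dvd_of_mem_cycleType hℓ
    obtain ⟨c, τ, hcτ, hdisj, hcyc, hcard⟩ := Equiv.Perm.mem_cycleType_iff.mp hℓ
    have hcyc' := hcyc
    obtain ⟨x, hx, -⟩ := hcyc'
    have hτx : τ x = x := (hdisj x).resolve_left hx
    have hcℓ : c ^ ℓ = 1 := by
      rw [← hcard, ← hcyc.orderOf]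
      exact pow_orderOf_eq_one c
    have hτℓ : (τ ^ ℓ) x = x := by
      have : ∀ n : ℕ, (τ ^ n) x = x := by
        intro n
        induction n with
        | zero => simp
        | succ n ih => rw [pow_succ, Equiv.Perm.mul_apply, hτx, ih]
      exact this ℓ
    have hσℓ : (σ ^ ℓ) x = x := by
      rw [hcτ, hdisj.commute.mul_pow, hcℓ, one_mul, hτℓ]
    have h1 := hfix ℓ x hσℓ
    exact Nat.dvd_antisymm hdvd (orderOf_dvd_of_pow_eq_one h1)
  have hrep := Multiset.eq_replicate_card.mpr hct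
  have hsupp : σ.support = Finset.univ := by
    ext ω
    simp only [Equiv.Perm.mem_support, Finset.mem_univ, iff_true]
    intro hω
    have h1 := hfix 1 ω (by rw [pow_one]; exact hω)
    rw [pow_one] at h1
    rw [h1, orderOf_one] at h2
    omega
  have hsum : σ.cycleType.sum = orderOf u * m := by
    rw [Equiv.Perm.sum_cycleType, hsupp, Finset.card_univ, ← Nat.card_eq_fintype_card,
      ← Subgroup.index_eq_card, hidx]
  have hcard : Multiset.card σ.cycleType = m := by
    have h1 : σ.cycleType.sum = Multiset.card σ.cycleType * orderOf u := by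
      conv_lhs => rw [hrep]
      rw [Multiset.sum_replicate, smul_eq_mul]
    rw [hsum, mul_comm] at h1
    exact (Nat.eq_of_mul_eq_mul_right hu0 h1).symm
  have hsign : Equiv.Perm.sign σ = -1 := by
    rw [Equiv.Perm.sign_of_cycleType, hsum, hcard]
    apply Odd.neg_one_pow
    obtain ⟨a, ha⟩ := h2
    obtain ⟨b, hb⟩ := hm
    exact ⟨a * m + b, by rw [ha, hb]; ring⟩
  have : sgnHom X u = Equiv.Perm.sign σ := by
    unfold sgnHom
    rw [hσ]
    simp only [MonoidHom.coe_comp, Function.comp_apply]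
  rw [this, hsign]

theorem card_mul_relIndex {G : Type*} [Group G] {A B : Subgroup G} (h : A ≤ B) :
    Nat.card A * A.relIndex B = Nat.card B := by
  have := Subgroup.relIndex_mul_relIndex (⊥ : Subgroup G) A B bot_le h
  rwa [Subgroup.relIndex_bot_left, Subgroup.relIndex_bot_left] at this

/-- Inside a subgroup `H`, the sign character of the action on the cosets of `X` has a kernel `K`
of index at most two containing the elements of odd order and avoiding the elements acting
freely with an odd number of cycles of even length. -/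
theorem exists_half {G : Type*} [Group G] [Finite G] (H X : Subgroup G) :
    ∃ K : Subgroup G, K ≤ H ∧ (∀ a ∈ H, ∀ b ∈ H, a ∉ K → b ∉ K → a * b ∈ K) ∧
      (∀ y ∈ H, Odd (orderOf y) → y ∈ K) ∧
      ∀ u ∈ H, (∀ g ∈ H, ∀ k : ℕ, u ^ k ≠ 1 → g⁻¹ * u ^ k * g ∉ X) → 2 ∣ orderOf u →
        ∀ m : ℕ, Odd m → X.relIndex H = orderOf u * m → u ∉ K := by
  set f : ↥H →* ℤˣ := sgnHom (X.subgroupOf H) with hf
  have hmem : ∀ a : G, a ∈ f.ker.map H.subtype ↔ ∃ h : a ∈ H, f ⟨a, h⟩ = 1 := by
    intro a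
    constructor
    · rintro ⟨⟨b, hb⟩, hbk, rfl⟩
      exact ⟨hb, MonoidHom.mem_ker.mp hbk⟩
    · rintro ⟨h, hk⟩
      exact ⟨⟨a, h⟩, MonoidHom.mem_ker.mpr hk, rfl⟩
  refine ⟨f.ker.map H.subtype, Subgroup.map_subtype_le _, ?_, ?_, ?_⟩
  · intro a ha b hb haK hbK
    rw [hmem] at haK hbK ⊢
    have h1 : f ⟨a, ha⟩ = -1 := (Int.units_eq_one_or _).resolve_left (fun h => haK ⟨ha, h⟩)
    have h2 : f ⟨b, hb⟩ = -1 := (Int.units_eq_one_or _).resolve_left (fun h => hbK ⟨hb, h⟩)
    refine ⟨mul_mem ha hb, ?_⟩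
    have : (⟨a * b, mul_mem ha hb⟩ : ↥H) = ⟨a, ha⟩ * ⟨b, hb⟩ := rfl
    rw [this, map_mul, h1, h2]
    simp
  · intro y hy hodd
    rw [hmem]
    refine ⟨hy, ?_⟩
    rcases Int.units_eq_one_or (f ⟨y, hy⟩) with h | h
    · exact h
    · exfalso
      have h1 : f ⟨y, hy⟩ ^ orderOf y = 1 := by
        rw [← map_pow]
        have : (⟨y, hy⟩ : ↥H) ^ orderOf y = 1 := by
          apply Subtype.ext
          simp [pow_orderOf_eq_one]
        rw [this, map_one]
      rw [h, hodd.neg_one_pow] at h1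
      exact absurd h1 (by decide)
  · intro u hu hfree h2 m hm hidx
    rw [hmem]
    rintro ⟨_, hk⟩
    have h1 : f ⟨u, hu⟩ = -1 := by
      rw [hf]
      apply sgnHom_free (X.subgroupOf H) ⟨u, hu⟩ ?_ ?_ m hm ?_
      · intro g k hne hmemX
        rw [Subgroup.mem_subgroupOf] at hmemX
        apply hfree g g.2 k ?_ (by simpa using hmemX)
        intro h
        apply hne
        apply Subtype.ext
        simpa using h
      · rw [Subgroup.orderOf_mk]; exact h2
      · rw [Subgroup.orderOf_mk]; exact hidx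
    rw [h1] at hk
    exact absurd hk (by decide)

/-- A subgroup meeting the complement of `K` is cut in half by `K`. -/
theorem card_eq_two_mul {G : Type*} [Group G] [Finite G] (A K : Subgroup G)
    (hprod : ∀ a ∈ A, ∀ b ∈ A, a ∉ K → b ∉ K → a * b ∈ K) {u : G} (hu : u ∈ A) (huK : u ∉ K) :
    Nat.card A = 2 * Nat.card ↥(A ⊓ K) := by
  have hidx : ((A ⊓ K).subgroupOf A).index = 2 := by
    rw [Subgroup.index_eq_two_iff]
    refine ⟨⟨u, hu⟩, ?_⟩
    rintro ⟨b, hb⟩
    simp only [Subgroup.mem_subgroupOf, Subgroup.coe_mul, Subgroup.mem_inf]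
    by_cases hbK : b ∈ K
    · refine Or.inr ⟨⟨hb, hbK⟩, ?_⟩
      rintro ⟨-, h⟩
      apply huK
      have e : u = b⁻¹ * (b * u) := by group
      rw [e]
      exact mul_mem (inv_mem hbK) h
    · refine Or.inl ⟨⟨mul_mem hb hu, hprod b hb u hu hbK huK⟩, ?_⟩
      rintro ⟨-, h⟩
      exact hbK h
  have h1 := Subgroup.index_mul_card ((A ⊓ K).subgroupOf A)
  rw [hidx, Nat.card_congr (Subgroup.subgroupOfEquivOfLe (inf_le_left : A ⊓ K ≤ A)).toEquiv] at h1
  exact h1.symm

/-- Stripping a cyclic complement one index-two step at a time. -/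
theorem cyc_strip {G : Type*} [Group G] [Finite G] (L T : Subgroup G)
    (hLodd : L ≤ Subgroup.closure {y : G | y ∈ L ∧ Odd (orderOf y)}) (hTL : T ≤ L) :
    ∀ (n : ℕ) (H S C : Subgroup G), Nat.card C = n → L ≤ H → S ≤ H → T ≤ S → IsPGroup 2 S →
      ¬ 2 ∣ S.relIndex H → C ≤ S → IsCyclic ↥C → T ⊓ C = ⊥ →
      Nat.card T * Nat.card C = Nat.card S →
      (∀ c ∈ C, orderOf c = 2 → ∀ g : G, g * c * g⁻¹ ∈ T → False) →
      ∃ H' : Subgroup G, H' ≤ H ∧ L ≤ H' ∧ (∀ y ∈ H, Odd (orderOf y) → y ∈ H') ∧ S ⊓ H' ≤ T := by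
  intro n
  induction n using Nat.strong_induction_on with
  | _ n ih =>
    intro H S C hn hLH hSH hTS hS2 hSyl hCS hCyc hTC hcard hinv
    by_cases hC1 : C = ⊥
    · refine ⟨H, le_rfl, hLH, fun y hy _ => hy, ?_⟩
      have h1 : Nat.card C = 1 := by rw [hC1]; exact Subgroup.card_bot
      rw [h1, mul_one] at hcard
      have hTSeq : T = S := Subgroup.eq_of_le_of_card_ge hTS hcard.ge
      rw [hTSeq]
      exact inf_le_left
    · obtain ⟨⟨u, huC⟩, hgen⟩ := hCyc.exists_generator
      have hordu : orderOf u = Nat.card C := by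
        rw [← Subgroup.orderOf_mk u huC]
        exact orderOf_eq_card_of_forall_mem_zpowers hgen
      have hC2 : IsPGroup 2 C := hS2.to_le hCS
      have : Fact (Nat.Prime 2) := ⟨Nat.prime_two⟩
      have hCne : Nat.card C ≠ 1 := fun h => hC1 ((Subgroup.card_eq_one).mp h)
      have hu2 : 2 ∣ orderOf u := by
        rw [hordu]
        exact hC2.card_eq_or_dvd.resolve_left hCne
      have hTpos : 0 < Nat.card T := Nat.card_pos
      have hrel : T.relIndex H = orderOf u * S.relIndex H := by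
        have h1 := card_mul_relIndex (hTS.trans hSH)
        have h2 := card_mul_relIndex hSH
        rw [← hcard, ← h1, mul_assoc] at h2
        rw [hordu]
        exact (Nat.eq_of_mul_eq_mul_left hTpos h2).symm
      have hoddm : Odd (S.relIndex H) :=
        Nat.not_even_iff_odd.mp (fun h => hSyl (even_iff_two_dvd.mp h))
      have hfree : ∀ g ∈ H, ∀ k : ℕ, u ^ k ≠ 1 → g⁻¹ * u ^ k * g ∉ T := by
        intro g _ k hne hmemT
        have hyC : u ^ k ∈ C := pow_mem huC k
        obtain ⟨a, ha⟩ := (IsPGroup.iff_orderOf.mp hC2) ⟨u ^ k, hyC⟩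
        rw [Subgroup.orderOf_mk] at ha
        have ha0 : a ≠ 0 := by
          rintro rfl
          rw [pow_zero, orderOf_eq_one_iff] at ha
          exact hne ha
        have h2dvd : 2 ∣ orderOf (u ^ k) := by rw [ha]; exact dvd_pow_self 2 ha0
        have hord2 : orderOf ((u ^ k) ^ (orderOf (u ^ k) / 2)) = 2 :=
          orderOf_pow_orderOf_div (by rw [ha]; positivity) h2dvd
        refine hinv _ (pow_mem hyC _) hord2 g⁻¹ ?_
        rw [← conj_pow]
        apply pow_mem
        simpa using hmemT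
      obtain ⟨K, hKH, hprod, hodd, hout⟩ := exists_half H T
      have huH : u ∈ H := hSH (hCS huC)
      have huK : u ∉ K := hout u huH hfree hu2 _ hoddm hrel
      have hLK : L ≤ K := hLodd.trans ((Subgroup.closure_le K).mpr
        (fun y hy => hodd y (hLH hy.1) hy.2))
      have hH2 : Nat.card H = 2 * Nat.card K := by
        have := card_eq_two_mul H K hprod huH huK
        rwa [inf_eq_right.mpr hKH] at this
      have hS2c : Nat.card S = 2 * Nat.card ↥(S ⊓ K) :=
        card_eq_two_mul S K (fun a ha b hb => hprod a (hSH ha) b (hSH hb)) (hCS huC) huK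
      have hC2c : Nat.card C = 2 * Nat.card ↥(C ⊓ K) :=
        card_eq_two_mul C K (fun a ha b hb => hprod a (hSH (hCS ha)) b (hSH (hCS hb))) huC huK
      have hCKpos : 0 < Nat.card ↥(C ⊓ K) := Nat.card_pos
      have hSKpos : 0 < Nat.card ↥(S ⊓ K) := Nat.card_pos
      have hodd' : ¬ 2 ∣ (S ⊓ K).relIndex K := by
        have h1 := card_mul_relIndex (inf_le_right : S ⊓ K ≤ K)
        have h2 := card_mul_relIndex hSH
        rw [hH2, hS2c, mul_assoc] at h2
        have h3 := Nat.eq_of_mul_eq_mul_left (by norm_num : 0 < 2) h2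
        rw [← h1] at h3
        have h4 := Nat.eq_of_mul_eq_mul_left hSKpos h3
        rw [← h4]
        exact hSyl
      have hcard' : Nat.card T * Nat.card ↥(C ⊓ K) = Nat.card ↥(S ⊓ K) := by
        rw [hC2c, hS2c] at hcard
        apply Nat.eq_of_mul_eq_mul_left (by norm_num : 0 < 2)
        rw [← hcard]
        ring
      have := hCyc
      obtain ⟨H', hH'K, hLH', hoddH', hSH'⟩ := ih (Nat.card ↥(C ⊓ K)) (by omega) K (S ⊓ K)
        (C ⊓ K) rfl hLK inf_le_right (le_inf hTS (hTL.trans hLK)) (hS2.to_le inf_le_left) hodd'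
        (inf_le_inf_right K hCS) (Subgroup.isCyclic_of_le (inf_le_left : C ⊓ K ≤ C))
        (eq_bot_iff.mpr ((inf_le_inf_left T inf_le_left).trans hTC.le)) hcard'
        (fun c hc => hinv c hc.1)
      refine ⟨H', hH'K.trans hKH, hLH', fun y hy ho => hoddH' y (hodd y hy ho) ho, ?_⟩
      exact (le_inf (le_inf inf_le_left (inf_le_right.trans hH'K)) inf_le_right).trans hSH'

/-- In a dihedral group, the elements outside a cyclic subgroup of index two are involutions. -/
theorem dih_aux {n : ℕ} (hn : 2 ≤ n) (C : Subgroup (DihedralGroup n)) (hC : IsCyclic ↥C)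
    (hcard : Nat.card C = n) (d : DihedralGroup n) (hd : d ∉ C) : orderOf d = 2 := by
  have : NeZero n := ⟨by omega⟩
  cases d with
  | sr i => exact DihedralGroup.orderOf_sr i
  | r i =>
    obtain ⟨⟨c, hcC⟩, hgen⟩ := hC.exists_generator
    have hord : orderOf c = n := by
      have h := orderOf_eq_card_of_forall_mem_zpowers hgen
      rw [Subgroup.orderOf_mk] at h
      exact h.trans hcard
    have hri : ∀ j : ZMod n, DihedralGroup.r j ∈ Subgroup.zpowers (DihedralGroup.r (1 : ZMod n)) := by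
      intro j
      refine ⟨(j.val : ℤ), ?_⟩
      simp only [zpow_natCast]
      rw [DihedralGroup.r_one_pow, ZMod.natCast_zmod_val]
    by_cases h2 : n = 2
    · subst h2
      by_cases hi : i = 0
      · exfalso
        apply hd
        rw [hi, ← DihedralGroup.one_def]
        exact one_mem C
      · have key : ∀ i : ZMod 2, i ≠ 0 → i = 1 := by decide
        rw [key i hi]
        exact DihedralGroup.orderOf_r_one
    · exfalso
      cases c with
      | sr j =>
        rw [DihedralGroup.orderOf_sr] at hord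
        exact h2 hord.symm
      | r j =>
        have hle : Subgroup.zpowers (DihedralGroup.r j) ≤
            Subgroup.zpowers (DihedralGroup.r (1 : ZMod n)) :=
          (Subgroup.zpowers_le).mpr (hri j)
        have heq := Subgroup.eq_of_le_of_card_ge hle (by
          rw [Nat.card_zpowers, Nat.card_zpowers, DihedralGroup.orderOf_r_one, hord])
        apply hd
        have h3 : DihedralGroup.r i ∈ Subgroup.zpowers (DihedralGroup.r j) := heq ▸ hri i
        exact (Subgroup.zpowers_le.mpr hcC) h3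

theorem dih_inv {G : Type*} [Group G] [Finite G] (D C : Subgroup G)
    (hDih : ∃ n : ℕ, 2 ≤ n ∧ Nonempty (↥D ≃* DihedralGroup n)) (hCD : C ≤ D)
    (hC : IsCyclic ↥C) (hCi : C.relIndex D = 2) :
    ∀ d ∈ D, d ∉ C → orderOf d = 2 := by
  obtain ⟨n, hn, ⟨e⟩⟩ := hDih
  intro d hdD hdC
  let φ : ↥C ≃* ↥((C.subgroupOf D).map e.toMonoidHom) :=
    (Subgroup.subgroupOfEquivOfLe hCD).symm.trans
      ((C.subgroupOf D).equivMapOfInjective e.toMonoidHom e.injective)
  have := hC
  have hcyc : IsCyclic ↥((C.subgroupOf D).map e.toMonoidHom) :=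
    isCyclic_of_surjective φ φ.surjective
  have hcard : Nat.card ↥((C.subgroupOf D).map e.toMonoidHom) = n := by
    rw [← Nat.card_congr φ.toEquiv]
    have h1 := card_mul_relIndex hCD
    rw [hCi, Nat.card_congr e.toEquiv, DihedralGroup.nat_card] at h1
    omega
  have hnot : e ⟨d, hdD⟩ ∉ (C.subgroupOf D).map e.toMonoidHom := by
    rintro ⟨y, hy, hye⟩
    have hyd : y = ⟨d, hdD⟩ := e.injective hye
    have hy' : (⟨d, hdD⟩ : ↥D) ∈ C.subgroupOf D := hyd ▸ hy
    exact hdC (Subgroup.mem_subgroupOf.mp hy')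
  have := dih_aux hn _ hcyc hcard _ hnot
  rw [MulEquiv.orderOf_eq, Subgroup.orderOf_mk] at this
  exact this

/-- A consequence of Thompson's transfer lemma. Let G be a finite group, L a subgroup with O²(L) = L, T a Sylow 2-subgroup of L and S a Sylow 2-subgroup of G containing T. Suppose D ≤ S is a dihedral subgroup of order at least 4 (the four-group counts) with D ∩ T = 1 and S = TD as a set of products (so |S| = |T|·|D|), and C ≤ D is cyclic of index 2 in D. If no involution of D outside C is G-conjugate to an involution of the subgroup generated by T and C, and the involution of C is not G-conjugate to any involution of T, then G has a normal subgroup K, containing every Sylow 2-subgroup of L as a Sylow 2-subgroup, with G = KD. -/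
theorem result {G : Type*} [Group G] [Finite G] (L T S D C : Subgroup G) (hL : Cfsg.pResidual 2 ↥L = ⊤)
    (hTL : T ≤ L) (hT2 : IsPGroup 2 T) (hTsyl : ¬ 2 ∣ T.relIndex L)
    (hS2 : IsPGroup 2 S) (hSsyl : ¬ 2 ∣ S.index) (hTS : T ≤ S)
    (hDS : D ≤ S) (hDih : ∃ n : ℕ, 2 ≤ n ∧ Nonempty (↥D ≃* DihedralGroup n)) (hDT : D ⊓ T = ⊥) (hTD : T ⊔ D = S) (hTDc : Nat.card T * Nat.card D = Nat.card S)
    (hCD : C ≤ D) (hC : IsCyclic ↥C) (hCi : C.relIndex D = 2)
    (h1 : ∀ x ∈ D, x ∉ C → orderOf x = 2 → ∀ g : G, g * x * g⁻¹ ∈ T ⊔ C → False)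
    (h2 : ∀ c ∈ C, orderOf c = 2 → ∀ g : G, g * c * g⁻¹ ∈ T → False) :
    ∃ K : Subgroup G, K.Normal ∧ K ⊔ D = ⊤ ∧
      ∀ T' : Subgroup G, T' ≤ L → IsPGroup 2 T' → ¬ 2 ∣ T'.relIndex L → T' ≤ K ∧ ¬ 2 ∣ T'.relIndex K := by
  classical
  have hp2 : Fact (Nat.Prime 2) := ⟨Nat.prime_two⟩
  have hinvD := dih_inv D C hDih hCD hC hCi
  have hcardD : Nat.card C * 2 = Nat.card D := by
    have := card_mul_relIndex hCD
    rwa [hCi] at this
  have hCpos : 0 < Nat.card C := Nat.card_pos
  obtain ⟨x, hxD, hxC⟩ : ∃ x ∈ D, x ∉ C := by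
    by_contra hcon
    push Not at hcon
    have hDC : D ≤ C := fun d hd => hcon d hd
    have := Subgroup.card_le_of_le hDC
    omega
  have hx2 : orderOf x = 2 := hinvD x hxD hxC
  have hLodd : L ≤ Subgroup.closure {y : G | y ∈ L ∧ Odd (orderOf y)} := by
    intro l hl
    have h1 : (⟨l, hl⟩ : ↥L) ∈ Cfsg.pResidual 2 ↥L := by rw [hL]; trivial
    unfold Cfsg.pResidual at h1
    have h2 : l ∈ (Subgroup.closure {g : ↥L | Nat.Coprime (orderOf g) 2}).map L.subtype :=
      ⟨⟨l, hl⟩, h1, rfl⟩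
    rw [MonoidHom.map_closure] at h2
    refine (Subgroup.closure_mono ?_) h2
    rintro _ ⟨g, hg, rfl⟩
    refine ⟨g.2, ?_⟩
    have hg' : Nat.Coprime (orderOf g) 2 := hg
    rw [Nat.coprime_two_right] at hg'
    simpa using hg'
  have hxX : x ∉ T ⊔ C := fun h => h1 x hxD hxC hx2 1 (by simpa using h)
  have hXS : T ⊔ C ≤ S := sup_le hTS (hCD.trans hDS)
  have hxS : x ∈ S := hDS hxD
  have hTC : T ⊓ C = ⊥ :=
    eq_bot_iff.mpr (by rw [← hDT]; exact le_inf (inf_le_right.trans hCD) inf_le_left)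
  have hXge : Nat.card T * Nat.card C ≤ Nat.card ↥(T ⊔ C) := by
    let f : ↥T × ↥C → ↥(T ⊔ C) := fun tc =>
      ⟨tc.1.1 * tc.2.1, mul_mem (Subgroup.mem_sup_left tc.1.2) (Subgroup.mem_sup_right tc.2.2)⟩
    have hf : Function.Injective f := by
      rintro ⟨⟨t, ht⟩, ⟨c, hc⟩⟩ ⟨⟨t', ht'⟩, ⟨c', hc'⟩⟩ h
      have h' : t * c = t' * c' := congrArg Subtype.val h
      have h3 : t'⁻¹ * t = c' * c⁻¹ := by
        have e : t = t' * c' * c⁻¹ := by rw [← h']; group
        rw [e]; group
      have h4 : t'⁻¹ * t ∈ T ⊓ C :=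
        Subgroup.mem_inf.mpr ⟨T.mul_mem (T.inv_mem ht') ht, h3 ▸ C.mul_mem hc' (C.inv_mem hc)⟩
      rw [hTC, Subgroup.mem_bot, inv_mul_eq_one] at h4
      subst h4
      have h6 : c = c' := mul_left_cancel h'
      subst h6
      rfl
    have := Nat.card_le_card_of_injective f hf
    rwa [Nat.card_prod] at this
  have hXS2 : Nat.card ↥(T ⊔ C) * (T ⊔ C).relIndex S = Nat.card S := card_mul_relIndex hXS
  have hSpos : 0 < Nat.card S := Nat.card_pos
  have hXrel : 2 ≤ (T ⊔ C).relIndex S := by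
    by_contra hlt
    have h0 : (T ⊔ C).relIndex S ≠ 0 := by
      intro h0
      rw [h0, mul_zero] at hXS2
      omega
    have h1' : (T ⊔ C).relIndex S = 1 := by omega
    rw [Subgroup.relIndex_eq_one] at h1'
    exact hxX (h1' hxS)
  have hXcard : 2 * Nat.card ↥(T ⊔ C) = Nat.card S := by
    have e1 : Nat.card S = 2 * (Nat.card T * Nat.card C) := by
      rw [← hTDc, ← hcardD]; ring
    have e2 : Nat.card ↥(T ⊔ C) * 2 ≤ Nat.card S := by
      rw [← hXS2]
      exact Nat.mul_le_mul_left _ hXrel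
    omega
  have hXpos : 0 < Nat.card ↥(T ⊔ C) := Nat.card_pos
  have hXidx : (T ⊔ C).relIndex ⊤ = 2 * S.index := by
    rw [Subgroup.relIndex_top_right]
    have h3 := Subgroup.index_mul_card (T ⊔ C)
    have h4 := Subgroup.index_mul_card S
    rw [← hXcard, ← h3] at h4
    have h5 : S.index * 2 * Nat.card ↥(T ⊔ C) = (T ⊔ C).index * Nat.card ↥(T ⊔ C) := by
      rw [← h4]; ring
    have h6 := Nat.eq_of_mul_eq_mul_right hXpos h5
    omega
  have hoddS : Odd S.index := Nat.not_even_iff_odd.mp (fun h => hSsyl (even_iff_two_dvd.mp h))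
  obtain ⟨K₁, -, hprod, hodd, hout⟩ := exists_half (⊤ : Subgroup G) (T ⊔ C)
  have hfreeD : ∀ d ∈ D, d ∉ C → d ∉ K₁ := by
    intro d hdD hdC
    have hd2 := hinvD d hdD hdC
    refine hout d (Subgroup.mem_top d) ?_ (by rw [hd2]) S.index hoddS (by rw [hd2]; exact hXidx)
    intro g _ k hne hmem
    have hk : d ^ k = d := by
      rcases Nat.even_or_odd k with ⟨j, hj⟩ | ⟨j, hj⟩
      · exfalso
        apply hne
        rw [hj, ← two_mul, pow_mul, ← hd2, pow_orderOf_eq_one, one_pow]
      · rw [hj, pow_succ, pow_mul, ← hd2, pow_orderOf_eq_one, one_pow, one_mul]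
    rw [hk] at hmem
    exact h1 d hdD hdC hd2 g⁻¹ (by simpa using hmem)
  have hxK : x ∉ K₁ := hfreeD x hxD hxC
  have hprod' : ∀ (A : Subgroup G), ∀ a ∈ A, ∀ b ∈ A, a ∉ K₁ → b ∉ K₁ → a * b ∈ K₁ :=
    fun A a _ b _ => hprod a (Subgroup.mem_top a) b (Subgroup.mem_top b)
  have hD2c : Nat.card D = 2 * Nat.card ↥(D ⊓ K₁) := card_eq_two_mul D K₁ (hprod' D) hxD hxK
  have hDK : D ⊓ K₁ = C := by
    apply Subgroup.eq_of_le_of_card_ge
    · intro d hd
      by_contra hdC
      exact hfreeD d hd.1 hdC hd.2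
    · omega
  have hCK : C ≤ K₁ := by rw [← hDK]; exact inf_le_right
  have hLK : L ≤ K₁ := hLodd.trans ((Subgroup.closure_le K₁).mpr
    (fun y hy => hodd y (Subgroup.mem_top y) hy.2))
  have hS2c : Nat.card S = 2 * Nat.card ↥(S ⊓ K₁) := card_eq_two_mul S K₁ (hprod' S) hxS hxK
  have hG2 : Nat.card G = 2 * Nat.card K₁ := by
    have := card_eq_two_mul ⊤ K₁ (hprod' ⊤) (Subgroup.mem_top x) hxK
    rwa [top_inf_eq, Subgroup.card_top] at this
  have hSKpos : 0 < Nat.card ↥(S ⊓ K₁) := Nat.card_pos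
  have hoddK : ¬ 2 ∣ (S ⊓ K₁).relIndex K₁ := by
    have h3 := card_mul_relIndex (inf_le_right : S ⊓ K₁ ≤ K₁)
    have h4 := Subgroup.index_mul_card S
    rw [hG2, hS2c, ← h3] at h4
    have h5 : Nat.card ↥(S ⊓ K₁) * S.index = Nat.card ↥(S ⊓ K₁) * (S ⊓ K₁).relIndex K₁ := by
      apply Nat.eq_of_mul_eq_mul_left (by norm_num : 0 < 2)
      rw [← h4]; ring
    rw [← Nat.eq_of_mul_eq_mul_left hSKpos h5]
    exact hSsyl
  have hcard' : Nat.card T * Nat.card C = Nat.card ↥(S ⊓ K₁) := by
    have e1 : Nat.card S = 2 * (Nat.card T * Nat.card C) := by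
      rw [← hTDc, ← hcardD]; ring
    omega
  obtain ⟨H', hH'K, hLH', hoddH', hSH'⟩ := cyc_strip L T hLodd hTL (Nat.card C) K₁ (S ⊓ K₁) C rfl
    hLK inf_le_right (le_inf hTS (hTL.trans hLK)) (hS2.to_le inf_le_left) hoddK
    (le_inf (hCD.trans hDS) hCK) hC hTC hcard' (fun c hc ho g hg => h2 c hc ho g hg)
  have hKH' : Cfsg.pResidual 2 G ≤ H' := by
    unfold Cfsg.pResidual
    rw [Subgroup.closure_le]
    intro g hg
    have ho : Odd (orderOf g) := Nat.coprime_two_right.mp hg
    exact hoddH' g (hodd g (Subgroup.mem_top g) ho) ho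
  have hLres : L ≤ Cfsg.pResidual 2 G :=
    hLodd.trans (Subgroup.closure_mono (fun y hy => Nat.coprime_two_right.mpr hy.2))
  have hTK : T ≤ Cfsg.pResidual 2 G := hTL.trans hLres
  have hSK : S ⊓ Cfsg.pResidual 2 G = T := by
    apply le_antisymm _ (le_inf hTS hTK)
    exact (le_inf (le_inf inf_le_left (inf_le_right.trans (hKH'.trans hH'K)))
      (inf_le_right.trans hKH')).trans hSH'
  have hsup : S ⊔ Cfsg.pResidual 2 G = ⊤ :=
    Cfsg.Agent.Lib.Helper14.sup_pResidual_eq_top (K := G) 2 S hSsyl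
  have hKn : (Cfsg.pResidual 2 G).Normal := inferInstance
  have hTpos : 0 < Nat.card T := Nat.card_pos
  have hKcard : Nat.card ↥(Cfsg.pResidual 2 G) = S.index * Nat.card T := by
    have e1 : T.relIndex S = (Cfsg.pResidual 2 G).index := by
      rw [← hSK, inf_comm, Subgroup.inf_relIndex_right,
        ← Subgroup.relIndex_sup_right S (Cfsg.pResidual 2 G), hsup, Subgroup.relIndex_top_right]
    have e2 := card_mul_relIndex hTS
    rw [e1] at e2
    have e3 := Subgroup.index_mul_card (Cfsg.pResidual 2 G)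
    have e4 := Subgroup.index_mul_card S
    have hidx0 : 0 < (Cfsg.pResidual 2 G).index := Nat.pos_of_ne_zero Subgroup.index_ne_zero_of_finite
    rw [← e4, ← e2] at e3
    apply Nat.eq_of_mul_eq_mul_left hidx0
    rw [e3]; ring
  refine ⟨Cfsg.pResidual 2 G, hKn, ?_, ?_⟩
  · apply top_le_iff.mp
    rw [← hsup, ← hTD]
    exact sup_le (sup_le (hTK.trans le_sup_left) le_sup_right) le_sup_left
  · intro T' hT'L hT'2 hT'syl
    refine ⟨hT'L.trans hLres, ?_⟩
    have hT'pos : 0 < Nat.card T' := Nat.card_pos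
    have hTT' : Nat.card T' = Nat.card T := by
      have e1 := card_mul_relIndex hTL
      have e2 := card_mul_relIndex hT'L
      obtain ⟨a, ha⟩ := (IsPGroup.iff_card (p := 2)).mp hT2
      obtain ⟨b, hb⟩ := (IsPGroup.iff_card (p := 2)).mp hT'2
      have c1 : Nat.Coprime (Nat.card T) (T'.relIndex L) := by
        rw [ha]
        exact Nat.Coprime.pow_left a ((Nat.Prime.coprime_iff_not_dvd Nat.prime_two).mpr hT'syl)
      have c2 : Nat.Coprime (Nat.card T') (T.relIndex L) := by
        rw [hb]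
        exact Nat.Coprime.pow_left b ((Nat.Prime.coprime_iff_not_dvd Nat.prime_two).mpr hTsyl)
      have d1 : Nat.card T ∣ Nat.card T' :=
        c1.dvd_of_dvd_mul_right (by rw [e2, ← e1]; exact dvd_mul_right _ _)
      have d2 : Nat.card T' ∣ Nat.card T :=
        c2.dvd_of_dvd_mul_right (by rw [e1, ← e2]; exact dvd_mul_right _ _)
      exact Nat.dvd_antisymm d2 d1
    have e5 := card_mul_relIndex (hT'L.trans hLres)
    rw [hKcard, hTT', mul_comm S.index] at e5
    rw [Nat.eq_of_mul_eq_mul_left hTpos e5]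
    exact hSsyl

end Cfsg.Agent.S1924
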