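import Cfsg.Statements.S1939
import Cfsg.Agent.Lib.Helper14.SylowAux

set_option autoImplicit false
open Cfsg

namespace Cfsg.Agent.S1939

/-- Let S be a Sylow p-subgroup of the finite group G and a an element of S that is the only G-conjugate of a lying in S. Then every power of a has the same property: for every n, the only G-conjugate of a^n lying in S is a^n. -/
theorem result {G : Type*} [Group G] [Finite G] {p : ℕ} [Fact p.Prime] (S : Sylow p G) (a : G)
    (haS : a ∈ (S : Subgroup G)) (hwc : ∀ g : G, g * a * g⁻¹ ∈ (S : Subgroup G) → g * a * g⁻¹ = a) (n : ℕ) :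
    ∀ g : G, g * a ^ n * g⁻¹ ∈ (S : Subgroup G) → g * a ^ n * g⁻¹ = a ^ n := by
  intro g hg
  open scoped Pointwise in
  classical
  -- `a` is central in `S`
  have hcen : ∀ s ∈ (S : Subgroup G), s * a = a * s := by
    intro s hs
    have h1 : s * a * s⁻¹ ∈ (S : Subgroup G) := mul_mem (mul_mem hs haS) (inv_mem hs)
    have h2 := hwc s h1
    calc s * a = s * a * s⁻¹ * s := by group
      _ = a * s := by rw [h2]
  have hcenb : ∀ s ∈ (S : Subgroup G), s * a ^ n = a ^ n * s := by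
    intro s hs
    exact ((Commute.pow_right (hcen s hs) n)).eq
  set b' := g * a ^ n * g⁻¹ with hb'
  let C : Subgroup G := Subgroup.centralizer ({b'} : Set G)
  have hmemC : ∀ x : G, x ∈ C ↔ b' * x = x * b' := by
    intro x
    show x ∈ Subgroup.centralizer ({b'} : Set G) ↔ _
    rw [Subgroup.mem_centralizer_iff]
    simp
  have haC : a ∈ C := by
    rw [hmemC]
    exact hcen b' hg
  -- the conjugate Sylow subgroup `g • S` lies in `C`
  have hmemP : ∀ x : G, x ∈ ((g • S : Sylow p G) : Subgroup G) ↔ g⁻¹ * x * g ∈ (S : Subgroup G) := by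
    intro x
    rw [Sylow.coe_subgroup_smul, Subgroup.mem_pointwise_smul_iff_inv_smul_mem]
    simp [MulAut.smul_def]
  have hPC : ((g • S : Sylow p G) : Subgroup G) ≤ C := by
    intro x hx
    rw [hmemP] at hx
    rw [hmemC]
    have := hcenb _ hx
    calc b' * x = g * (a ^ n * (g⁻¹ * x * g)) * g⁻¹ := by rw [hb']; group
      _ = g * ((g⁻¹ * x * g) * a ^ n) * g⁻¹ := by rw [this]
      _ = x * b' := by rw [hb']; group
  have hQ : IsPGroup p (Subgroup.zpowers a) :=
    S.isPGroup'.to_le ((Subgroup.zpowers_le).mpr haS)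
  have hQC : Subgroup.zpowers a ≤ C := (Subgroup.zpowers_le).mpr haC
  obtain ⟨c, hcC, hc⟩ := Cfsg.Agent.Lib.Helper14.Sylow.exists_conj_mem_of_le (g • S) hPC hQ hQC
  have h1 : g⁻¹ * (c * a * c⁻¹) * g ∈ (S : Subgroup G) :=
    (hmemP _).mp (hc a (Subgroup.mem_zpowers a))
  have h2 : (g⁻¹ * c) * a * (g⁻¹ * c)⁻¹ = a := by
    apply hwc
    have : (g⁻¹ * c) * a * (g⁻¹ * c)⁻¹ = g⁻¹ * (c * a * c⁻¹) * g := by group
    rw [this]; exact h1
  have h3 : (g⁻¹ * c) * a = a * (g⁻¹ * c) := by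
    calc (g⁻¹ * c) * a = (g⁻¹ * c) * a * (g⁻¹ * c)⁻¹ * (g⁻¹ * c) := by group
      _ = a * (g⁻¹ * c) := by rw [h2]
  have h4 : (g⁻¹ * c) * a ^ n = a ^ n * (g⁻¹ * c) := (Commute.pow_right h3 n).eq
  have h5 : c * a ^ n * c⁻¹ = b' := by
    calc c * a ^ n * c⁻¹ = g * ((g⁻¹ * c) * a ^ n) * c⁻¹ := by group
      _ = g * (a ^ n * (g⁻¹ * c)) * c⁻¹ := by rw [h4]
      _ = b' := by rw [hb']; group
  have h6 : b' * c = c * b' := (hmemC c).mp hcC
  calc b' = c⁻¹ * (c * b') := by group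
    _ = c⁻¹ * (b' * c) := by rw [h6]
    _ = c⁻¹ * (c * a ^ n * c⁻¹ * c) := by rw [h5]
    _ = a ^ n := by group

end Cfsg.Agent.S1939
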