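import Cfsg.Statements.S1940

set_option autoImplicit false
open Cfsg

namespace Cfsg.Agent.S1940

/-- Let the finite group L act by automorphisms on the finite abelian group M, and let N be an L-invariant subgroup of M such that M/N is a p-group on which L acts trivially (every l • m lies in the coset mN). If every element of M is a product of an element of N and an element fixed by a Sylow p-subgroup T of L, then every element of M is a product of an element of N and an element fixed by all of L. -/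
theorem result {L : Type*} [Group L] [Finite L] {M : Type*} [CommGroup M] [Finite M] [MulDistribMulAction L M]
    {p : ℕ} [Fact p.Prime] (N : Subgroup M) (hN : ∀ (l : L) (m : M), m ∈ N → l • m ∈ N)
    (hquot : IsPGroup p (M ⧸ N)) (htriv : ∀ (l : L) (m : M), (l • m) * m⁻¹ ∈ N) (T : Sylow p L)
    (hT : ∀ m : M, ∃ n ∈ N, ∃ c : M, (∀ t ∈ (T : Subgroup L), t • c = c) ∧ m = n * c) :
    ∀ m : M, ∃ n ∈ N, ∃ c : M, (∀ l : L, l • c = c) ∧ m = n * c := by
  classical
  have hfin : Fintype (L ⧸ (T : Subgroup L)) := Fintype.ofFinite _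
  intro m
  obtain ⟨n, hn, c, hc, rfl⟩ := hT m
  let f : L ⧸ (T : Subgroup L) → M := Quotient.lift (fun l : L => l • c) (by
    intro a b hab
    have h : a⁻¹ * b ∈ (T : Subgroup L) := QuotientGroup.leftRel_apply.mp hab
    show a • c = b • c
    have hb : b = a * (a⁻¹ * b) := by group
    conv_rhs => rw [hb, mul_smul, hc _ h])
  have hf : ∀ a : L, f (a : L ⧸ (T : Subgroup L)) = a • c := fun a => rfl
  set c' : M := ∏ q, f q with hc'
  have hfix : ∀ l : L, l • c' = c' := by
    intro l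
    have h1 : l • c' = ∏ q, l • f q := by
      rw [hc']
      exact map_prod (MulDistribMulAction.toMonoidHom M l) f Finset.univ
    have h2 : ∀ q, l • f q = f (l • q) := by
      intro q
      induction q using QuotientGroup.induction_on with
      | H a =>
        rw [hf, ← mul_smul]
        rfl
    rw [h1]
    simp_rw [h2]
    exact Equiv.prod_comp (MulAction.toPerm l) f
  have hmod : ∀ q, f q * c⁻¹ ∈ N := by
    intro q
    induction q using QuotientGroup.induction_on with
    | H a => rw [hf]; exact htriv a c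
  set k := Fintype.card (L ⧸ (T : Subgroup L)) with hk
  have hck : c' * (c ^ k)⁻¹ ∈ N := by
    have : c' * (c ^ k)⁻¹ = ∏ q, (f q * c⁻¹) := by
      rw [Finset.prod_mul_distrib, Finset.prod_const, Finset.card_univ, inv_pow]
    rw [this]
    exact Subgroup.prod_mem N (fun q _ => hmod q)
  have hkp : ¬ p ∣ k := by
    have h1 : k = (T : Subgroup L).index := by
      rw [hk, Subgroup.index, Nat.card_eq_fintype_card]
    rw [h1]; exact T.not_dvd_index
  obtain ⟨a, ha⟩ := IsPGroup.iff_card.mp hquot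
  have hcop : Nat.Coprime k (p ^ a) :=
    Nat.Coprime.pow_right a ((Nat.Prime.coprime_iff_not_dvd (Fact.out : p.Prime)).mpr hkp).symm
  have hcpa : c ^ (p ^ a) ∈ N := by
    rw [← QuotientGroup.eq_one_iff, QuotientGroup.mk_pow, ← ha]
    exact pow_card_eq_one'
  have hbez : (1 : ℤ) = (k : ℤ) * Int.gcdA k (p ^ a : ℕ) + ((p ^ a : ℕ) : ℤ) * Int.gcdB k (p ^ a : ℕ) := by
    have := Int.gcd_eq_gcd_ab (k : ℤ) ((p ^ a : ℕ) : ℤ)
    rw [Int.gcd_natCast_natCast, hcop] at this
    exact_mod_cast this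
  set x := Int.gcdA k (p ^ a : ℕ)
  set y := Int.gcdB k (p ^ a : ℕ)
  have hcx : c = ((c' * (c ^ k)⁻¹)⁻¹ ^ x * (c ^ (p ^ a)) ^ y) * c' ^ x := by
    have e1 : (c' * (c ^ k)⁻¹)⁻¹ ^ x * c' ^ x = (c ^ k) ^ x := by
      rw [← mul_zpow]; congr 1; simp
    have e2 : c = (c ^ k) ^ x * (c ^ (p ^ a)) ^ y := by
      rw [← zpow_natCast c k, ← zpow_natCast c (p ^ a), ← zpow_mul, ← zpow_mul, ← zpow_add, ← hbez, zpow_one]
    calc c = (c ^ k) ^ x * (c ^ (p ^ a)) ^ y := e2
      _ = ((c' * (c ^ k)⁻¹)⁻¹ ^ x * c' ^ x) * (c ^ (p ^ a)) ^ y := by rw [e1]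
      _ = ((c' * (c ^ k)⁻¹)⁻¹ ^ x * (c ^ (p ^ a)) ^ y) * c' ^ x := by
        rw [mul_assoc, mul_assoc, mul_comm (c' ^ x)]
  refine ⟨n * ((c' * (c ^ k)⁻¹)⁻¹ ^ x * (c ^ (p ^ a)) ^ y), ?_, c' ^ x, ?_, ?_⟩
  · exact mul_mem hn (mul_mem (zpow_mem (inv_mem hck) x) (zpow_mem hcpa y))
  · intro l
    have := map_zpow (MulDistribMulAction.toMonoidHom M l) c' x
    have h2 : l • c' ^ x = (l • c') ^ x := this
    rw [h2, hfix]
  · rw [mul_assoc, ← hcx]

end Cfsg.Agent.S1940
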