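import Cfsg.Statements.S1941
import Cfsg.Agent.Lib.Helper14.Cocycle
import Cfsg.Agent.Lib.Helper11.Bender
import Cfsg.Agent.Lib.Helper20.SolvCore

set_option autoImplicit false
open Cfsg

namespace Cfsg.Agent.S1941

/-- Let G be a finite group with no nontrivial normal subgroup of order prime to p, T a Sylow p-subgroup of G and E(G) the layer of G (the subgroup generated by its components). An automorphism of G of p-power order that fixes T and E(G) elementwise is inner. -/
theorem result {G : Type*} [Group G] [Finite G] {p : ℕ} [Fact p.Prime] (hcore : Cfsg.pPrimeCore p G = ⊥)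
    (T : Sylow p G) (α : MulAut G) (hα : ∃ j : ℕ, orderOf α = p ^ j) (hfixT : ∀ x ∈ (T : Subgroup G), α x = x)
    (hfixE : ∀ x ∈ Cfsg.layer G, α x = x) : ∃ g : G, ∀ x : G, α x = g * x * g⁻¹ := by
  classical
  set Fs := Cfsg.generalizedFittingSubgroup G with hFs
  have hFsn : Fs.Normal := Cfsg.Agent.Lib.Helper11.genFitting_normal
  have hFT : Cfsg.fittingSubgroup G ≤ (T : Subgroup G) :=
    (Cfsg.Agent.Lib.Helper20.fitting_le_pCore p hcore).trans
      (Cfsg.Agent.Lib.Helper17.pCore_le_sylow T)
  have hfix : ∀ x ∈ Fs, α x = x := by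
    have hle : Fs ≤ (α.toMonoidHom).eqLocus (MonoidHom.id G) := by
      rw [hFs, Cfsg.generalizedFittingSubgroup]
      apply sup_le
      · intro x hx; exact hfixE x hx
      · intro x hx; exact hfixT x (hFT hx)
    intro x hx; exact hle hx
  set A := Subgroup.centralizer (Fs : Set G) with hA
  have hAn : A.Normal := Subgroup.normal_centralizer
  have hAle : A ≤ Fs := Cfsg.Agent.Lib.Helper11.centralizer_genFitting_le
  have hAcomm : ∀ a ∈ A, ∀ b ∈ A, a * b = b * a :=
    fun a ha b hb => Subgroup.mem_centralizer_iff.mp hb a (hAle ha)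
  have hAc : IsMulCommutative A := IsMulCommutative.of_setLike_mul_comm hAcomm
  have hAp : IsPGroup p A := by
    have hAnil : Group.IsNilpotent A := by
      refine (Subgroup.isNilpotent_iff_lowerCentralSeries A).mpr ⟨1, ?_⟩
      rw [Subgroup.lowerCentralSeries_succ, Subgroup.lowerCentralSeries_zero,
        Subgroup.commutator_eq_bot_iff_le_centralizer]
      intro a ha
      rw [Subgroup.mem_centralizer_iff]
      intro b hb
      exact hAcomm b hb a ha
    have := Cfsg.Agent.Lib.Helper24.le_fitting A hAn hAnil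
    exact T.isPGroup'.to_le (this.trans hFT)
  have hdmem : ∀ g : G, α g * g⁻¹ ∈ A := by
    intro g
    rw [hA, Subgroup.mem_centralizer_iff]
    intro x hx
    have h1 : g⁻¹ * x * g ∈ Fs := by
      have := hFsn.conj_mem x hx g⁻¹
      simpa using this
    have h2 := hfix _ h1
    rw [map_mul, map_mul, hfix x hx, map_inv] at h2
    calc x * (α g * g⁻¹) = α g * ((α g)⁻¹ * x * α g) * g⁻¹ := by group
      _ = α g * (g⁻¹ * x * g) * g⁻¹ := by rw [h2]
      _ = α g * g⁻¹ * x := by group
  obtain ⟨w, hw⟩ := Cfsg.Agent.Lib.Helper14.cocycle_coboundary A hAp T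
    (fun g => ⟨α g * g⁻¹, hdmem g⟩) (by
      intro g h
      apply Subtype.ext
      simp only [Subgroup.coe_mul, MulAut.conjNormal_apply, map_mul]
      group) (by
      intro t ht
      apply Subtype.ext
      simp [hfixT t ht])
  refine ⟨(w : G), fun x => ?_⟩
  have := congrArg Subtype.val (hw x)
  simp only [Subgroup.coe_mul, Subgroup.coe_inv, MulAut.conjNormal_apply] at this
  generalize (w : G) = w' at this ⊢
  calc α x = (α x * x⁻¹) * x := by group
    _ = (w' * (x * w' * x⁻¹)⁻¹) * x := by rw [this]
    _ = w' * x * w'⁻¹ := by group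

end Cfsg.Agent.S1941
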