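import Cfsg.Statements.S1944
import Cfsg.Agent.Lib.Helper17.TraceHom
import Cfsg.Agent.Lib.Helper14.PPrimeFrattini
import Cfsg.Agent.Lib.Helper14.Cores
import Cfsg.Agent.Lib.Helper14.TightEmb
import Cfsg.Agent.Lib.Helper14.HatLayer

set_option autoImplicit false
open Cfsg

namespace Cfsg.Agent.S1944

/-- Let S be a Sylow p-subgroup of the finite group G and suppose that the centre Z(S) lies in O_{p',p}(G). The elements of S each of which is its only G-conjugate in S form a subgroup W of Z(S); W is then a direct factor of Z(S): there is a subgroup K of Z(S) with W ∩ K = 1 and WK = Z(S). -/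
theorem result {G : Type*} [Group G] [Finite G] {p : ℕ} [Fact p.Prime] (S : Sylow p G)
    (hZ : ((S : Subgroup G) ⊓ Subgroup.centralizer ((S : Subgroup G) : Set G)) ≤ Cfsg.pPrimePCore p G) :
    ∃ W K : Subgroup G, (∀ x : G, x ∈ W ↔ (x ∈ (S : Subgroup G) ∧ ∀ g : G, g * x * g⁻¹ ∈ (S : Subgroup G) → g * x * g⁻¹ = x)) ∧
      K ≤ ((S : Subgroup G) ⊓ Subgroup.centralizer ((S : Subgroup G) : Set G)) ∧ W ⊓ K = ⊥ ∧ W ⊔ K = ((S : Subgroup G) ⊓ Subgroup.centralizer ((S : Subgroup G) : Set G)) := by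
  classical
  obtain ⟨T, hT⟩ : ∃ T : Subgroup G, T = (S : Subgroup G) ⊓ pPrimePCore p G := ⟨_, rfl⟩
  obtain ⟨N, hN⟩ : ∃ N : Subgroup G, N = Subgroup.normalizer (T : Set G) := ⟨_, rfl⟩
  obtain ⟨V, hV⟩ : ∃ V : Subgroup G, V = T ⊓ Subgroup.centralizer (T : Set G) := ⟨_, rfl⟩
  have hfr : N ⊔ pPrimeCore p G = ⊤ := by
    rw [hN, hT]; exact Cfsg.Agent.Lib.Helper14.normalizer_sylow_inf_sup_pPrimeCore S
  have hTS : T ≤ S := hT ▸ inf_le_left
  have hMn : (pPrimePCore p G).Normal := Cfsg.Agent.Lib.Helper14.pPrimePCore_normal' p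
  have hOn : (pPrimeCore p G).Normal := inferInstance
  have hSN : (S : Subgroup G) ≤ N := by
    rw [hN, hT]; intro s hs
    rw [Subgroup.mem_normalizer_iff]
    intro h
    simp only [Subgroup.mem_inf]
    constructor
    · rintro ⟨h1, h2⟩; exact ⟨mul_mem (mul_mem hs h1) (inv_mem hs), hMn.conj_mem _ h2 _⟩
    · rintro ⟨h1, h2⟩; refine ⟨?_, ?_⟩
      · have := mul_mem (mul_mem (inv_mem hs) h1) hs; simpa [mul_assoc] using this
      · have := hMn.conj_mem _ h2 s⁻¹; simpa [mul_assoc] using this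
  have hZT : (S : Subgroup G) ⊓ Subgroup.centralizer ((S : Subgroup G) : Set G) ≤ T := by
    rw [hT]; exact le_inf inf_le_left hZ
  have hZV : (S : Subgroup G) ⊓ Subgroup.centralizer ((S : Subgroup G) : Set G) ≤ V := by
    rw [hV]; refine le_inf hZT ?_
    exact inf_le_right.trans (Subgroup.centralizer_le hTS)
  have hVT : V ≤ T := hV ▸ inf_le_left
  have hVZ : V ⊓ Subgroup.centralizer ((S : Subgroup G) : Set G) ≤
      (S : Subgroup G) ⊓ Subgroup.centralizer ((S : Subgroup G) : Set G) :=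
    le_inf (inf_le_left.trans (hVT.trans hTS)) inf_le_right
  have hNV : N ≤ Subgroup.normalizer (V : Set G) := by
    intro n hn
    rw [hV]
    rw [hN] at hn
    exact Cfsg.Agent.Lib.Helper14.mem_normalizer_inf hn
      (Cfsg.Agent.Lib.Helper14.normalizer_le_normalizer_centralizer_hat T hn)
  have : IsMulCommutative ↥V := by
    subst hV
    exact ⟨⟨fun a b => Subtype.ext ((Subgroup.mem_centralizer_iff.mp b.2.2) a a.2.1)⟩⟩
  have hSO : (S : Subgroup G) ⊓ pPrimeCore p G = ⊥ := by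
    apply disjoint_iff.mp
    apply Subgroup.disjoint_of_coprime_natCard
    obtain ⟨k, hk⟩ := (IsPGroup.iff_card.mp S.2)
    rw [hk]
    exact Nat.Coprime.pow_left k (Nat.Coprime.symm (Cfsg.Agent.Lib.Helper14.pPrimeCore_coprime p))
  have hm : ((S : Subgroup G).relIndex N).Coprime p := by
    have h1 : (S : Subgroup G).relIndex N ∣ (S : Subgroup G).index :=
      Dvd.intro _ (Subgroup.relIndex_mul_index hSN)
    have h2 : ¬ p ∣ (S : Subgroup G).index := S.not_dvd_index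
    have h3 : ¬ p ∣ (S : Subgroup G).relIndex N := fun h => h2 (h.trans h1)
    exact ((Nat.Prime.coprime_iff_not_dvd Fact.out).mpr h3).symm
  -- p-power order of elements of S
  have hpow : ∀ x ∈ (S : Subgroup G), ∀ m : ℕ, m.Coprime p → x ^ m = 1 → x = 1 := by
    intro x hx m hmp hxm
    obtain ⟨k, hk⟩ := S.2 ⟨x, hx⟩
    have hk' : x ^ (p ^ k) = 1 := by
      have := congrArg Subtype.val hk
      simpa using this
    have h1 := pow_gcd_eq_one.mpr ⟨hxm, hk'⟩
    rw [Nat.Coprime.pow_right k hmp] at h1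
    simpa using h1
  let τ := Cfsg.Agent.Lib.Helper17.relTrace V N (S : Subgroup G) hNV
  have hWchar : ∀ x : G, x ∈ V ⊓ Subgroup.centralizer (N : Set G) ↔
      (x ∈ (S : Subgroup G) ∧ ∀ g : G, g * x * g⁻¹ ∈ (S : Subgroup G) → g * x * g⁻¹ = x) := by
    intro x
    constructor
    · rintro ⟨hxV, hxC⟩
      have hxS : x ∈ (S : Subgroup G) := hTS (hVT hxV)
      refine ⟨hxS, ?_⟩
      intro g hg
      have hgmem : g ∈ pPrimeCore p G ⊔ N := by rw [sup_comm, hfr]; trivial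
      have hgmem' : g ∈ ((pPrimeCore p G ⊔ N : Subgroup G) : Set G) := hgmem
      rw [Subgroup.normal_mul] at hgmem'
      obtain ⟨o, ho, n, hn, rfl⟩ := Set.mem_mul.mp hgmem'
      have hnx : n * x * n⁻¹ = x := by
        have := (Subgroup.mem_centralizer_iff.mp hxC) n hn
        rw [this]; group
      have h1 : o * n * x * (o * n)⁻¹ = o * x * o⁻¹ := by
        calc o * n * x * (o * n)⁻¹ = o * (n * x * n⁻¹) * o⁻¹ := by group
          _ = o * x * o⁻¹ := by rw [hnx]
      rw [h1] at hg ⊢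
      have h2 : o * x * o⁻¹ * x⁻¹ ∈ (S : Subgroup G) ⊓ pPrimeCore p G := by
        refine Subgroup.mem_inf.mpr ⟨mul_mem hg (inv_mem hxS), ?_⟩
        have h3 : o * x * o⁻¹ * x⁻¹ = o * (x * o⁻¹ * x⁻¹) := by group
        rw [h3]
        exact mul_mem ho (hOn.conj_mem _ (inv_mem ho) x)
      rw [hSO, Subgroup.mem_bot] at h2
      exact mul_inv_eq_one.mp h2
    · rintro ⟨hxS, hx⟩
      have hxZ : x ∈ (S : Subgroup G) ⊓ Subgroup.centralizer ((S : Subgroup G) : Set G) := by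
        refine Subgroup.mem_inf.mpr ⟨hxS, ?_⟩
        rw [Subgroup.mem_centralizer_iff]
        intro s hs
        have h1 := hx s (mul_mem (mul_mem hs hxS) (inv_mem hs))
        calc s * x = s * x * s⁻¹ * s := by group
          _ = x * s := by rw [h1]
      refine Subgroup.mem_inf.mpr ⟨hZV hxZ, ?_⟩
      rw [Subgroup.mem_centralizer_iff]
      intro n hn
      have hxT : x ∈ T := hZT hxZ
      have h1 : n * x * n⁻¹ ∈ T := by
        rw [hN] at hn
        exact (Subgroup.mem_normalizer_iff.mp hn x).mp hxT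
      have h2 := hx n (hTS h1)
      calc n * x = n * x * n⁻¹ * n := by group
        _ = x * n := by rw [h2]
  have hWZ : V ⊓ Subgroup.centralizer (N : Set G) ≤
      (S : Subgroup G) ⊓ Subgroup.centralizer ((S : Subgroup G) : Set G) :=
    (inf_le_inf_left V (Subgroup.centralizer_le hSN)).trans hVZ
  refine ⟨V ⊓ Subgroup.centralizer (N : Set G),
    (τ.ker.map V.subtype) ⊓
      ((S : Subgroup G) ⊓ Subgroup.centralizer ((S : Subgroup G) : Set G)), hWchar, inf_le_right,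
    ?_, ?_⟩
  · rw [eq_bot_iff]
    rintro x ⟨⟨hxV, hxC⟩, ⟨⟨v, hv, rfl⟩, hxZ⟩⟩
    rw [Subgroup.mem_bot]
    have h1 : τ v = v ^ (S : Subgroup G).relIndex N :=
      Cfsg.Agent.Lib.Helper17.relTrace_eq_pow hNV
        (fun r hr => (Subgroup.mem_centralizer_iff.mp hxC) r hr)
    have hv' : τ v = 1 := MonoidHom.mem_ker.mp hv
    have hxC' : ((v : ↥V) : G) ∈ Subgroup.centralizer (N : Set G) := hxC
    have hxZ' : ((v : ↥V) : G) ∈ (S : Subgroup G) := hxZ.1
    show ((v : ↥V) : G) = 1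
    rw [hv'] at h1
    have h2 : ((v : ↥V) : G) ^ (S : Subgroup G).relIndex N = 1 := by
      have := congrArg Subtype.val h1.symm
      simpa using this
    exact hpow _ hxZ' _ hm h2
  · apply le_antisymm (sup_le hWZ inf_le_right)
    intro z hz
    have hzV : z ∈ V := hZV hz
    have hvS : ∀ s ∈ (S : Subgroup G), s * ((⟨z, hzV⟩ : ↥V) : G) = ((⟨z, hzV⟩ : ↥V) : G) * s :=
      fun s hs => (Subgroup.mem_centralizer_iff.mp hz.2) s hs
    have hgC := Cfsg.Agent.Lib.Helper17.relTrace_mem_centralizer hNV hvS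
    obtain ⟨g, hg⟩ : ∃ g : ↥V, g = τ ⟨z, hzV⟩ := ⟨_, rfl⟩
    have hgC' : (g : G) ∈ Subgroup.centralizer (N : Set G) := by rw [hg]; exact hgC
    have hcop : ((S : Subgroup G).relIndex N).Coprime (orderOf g) := by
      have h1 : orderOf g = orderOf (g : G) := (Subgroup.orderOf_coe g).symm
      have hgS : (g : G) ∈ (S : Subgroup G) := hTS (hVT g.2)
      have h2 : orderOf (g : G) ∣ Nat.card (S : Subgroup G) := by
        have h3 := orderOf_dvd_natCard (⟨(g : G), hgS⟩ : (S : Subgroup G))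
        rwa [← Subgroup.orderOf_coe] at h3
      obtain ⟨k, hk⟩ := (IsPGroup.iff_card.mp S.2)
      rw [hk] at h2
      rw [h1]
      exact Nat.Coprime.coprime_dvd_right h2 (Nat.Coprime.pow_right k hm)
    obtain ⟨j, hj⟩ := exists_pow_eq_self_of_coprime hcop
    have hwC : ((g ^ j : ↥V) : G) ∈ Subgroup.centralizer (N : Set G) := by
      rw [Subgroup.coe_pow]; exact pow_mem hgC' j
    have hτw : τ (g ^ j) = g := by
      have h1 : τ (g ^ j) = (g ^ j) ^ (S : Subgroup G).relIndex N :=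
        Cfsg.Agent.Lib.Helper17.relTrace_eq_pow hNV
          (fun r hr => (Subgroup.mem_centralizer_iff.mp hwC) r hr)
      rw [h1, ← pow_mul, mul_comm, pow_mul, hj]
    have hwW : ((g ^ j : ↥V) : G) ∈ V ⊓ Subgroup.centralizer (N : Set G) := ⟨(g ^ j).2, hwC⟩
    have hk : ((⟨z, hzV⟩ * (g ^ j)⁻¹ : ↥V) : G) ∈ (τ.ker.map V.subtype) ⊓
        ((S : Subgroup G) ⊓ Subgroup.centralizer ((S : Subgroup G) : Set G)) := by
      refine Subgroup.mem_inf.mpr ⟨⟨⟨z, hzV⟩ * (g ^ j)⁻¹, ?_, rfl⟩, ?_⟩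
      · rw [SetLike.mem_coe, MonoidHom.mem_ker, map_mul, map_inv, hτw, ← hg, mul_inv_cancel]
      · have : ((⟨z, hzV⟩ * (g ^ j)⁻¹ : ↥V) : G) = z * ((g ^ j : ↥V) : G)⁻¹ := rfl
        rw [this]
        exact Subgroup.mul_mem _ hz (Subgroup.inv_mem _ (hWZ hwW))
    have hzeq : z = ((⟨z, hzV⟩ * (g ^ j)⁻¹ : ↥V) : G) * ((g ^ j : ↥V) : G) := by
      have : ((⟨z, hzV⟩ * (g ^ j)⁻¹ : ↥V) : G) = z * ((g ^ j : ↥V) : G)⁻¹ := rfl
      rw [this]; group
    rw [hzeq, sup_comm]
    exact Subgroup.mul_mem_sup hk hwW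

end Cfsg.Agent.S1944
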