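import Cfsg.Statements.S1946
import Cfsg.Agent.Lib.Helper1.FrobPC
import Cfsg.Agent.Lib.Helper1.Stability
import Cfsg.Agent.Lib.Helper21.CoprimeP

set_option autoImplicit false
open Cfsg

namespace Cfsg.Agent.S1946

/-- Let P be a Sylow p-subgroup of the finite group G. Then G has a normal p-complement if and only if P controls the fusion of its elements of order dividing p (dividing 4 when p = 2): whenever such an element a of P has a G-conjugate g a g⁻¹ in P, that conjugate is already x a x⁻¹ for some x in P. -/
theorem result {G : Type*} [Group G] [Finite G] {p : ℕ} [Fact p.Prime] (P : Sylow p G) :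
    Cfsg.HasNormalPComplement p G ↔
      ∀ a ∈ (P : Subgroup G), (a ^ p = 1 ∨ (p = 2 ∧ a ^ 4 = 1)) → ∀ g : G, g * a * g⁻¹ ∈ (P : Subgroup G) →
        ∃ x ∈ (P : Subgroup G), g * a * g⁻¹ = x * a * x⁻¹ := by
  classical
  have hp : p.Prime := Fact.out
  constructor
  · rintro ⟨P', N, hN, hcompl⟩ a ha _ g hg
    -- N is a normal complement of P as well
    have hcardP : Nat.card (P : Subgroup G) = Nat.card (P' : Subgroup G) := by
      rw [Sylow.card_eq_multiplicity, Sylow.card_eq_multiplicity]
    have hmul : Nat.card N * Nat.card (P : Subgroup G) = Nat.card G := by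
      rw [hcardP]; exact hcompl.card_mul_card
    have hcop : (Nat.card N).Coprime (Nat.card (P : Subgroup G)) := by
      have h1 : Nat.card N = (P' : Subgroup G).index := by
        have h2 := (P' : Subgroup G).card_mul_index
        have h3 := hcompl.card_mul_card
        have hpos : 0 < Nat.card (P' : Subgroup G) := Nat.card_pos
        have : Nat.card N * Nat.card (P' : Subgroup G) =
            (P' : Subgroup G).index * Nat.card (P' : Subgroup G) := by
          rw [h3, mul_comm, h2]
        exact Nat.eq_of_mul_eq_mul_right hpos this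
      rw [h1, hcardP]
      exact (Sylow.card_coprime_index P').symm
    have hc2 : N.IsComplement' (P : Subgroup G) := Subgroup.isComplement'_of_coprime hmul hcop
    have htop : N ⊔ (P : Subgroup G) = ⊤ := hc2.sup_eq_top
    have hbot : N ⊓ (P : Subgroup G) = ⊥ := disjoint_iff.mp hc2.disjoint
    have hgm : g ∈ ((N ⊔ (P : Subgroup G) : Subgroup G) : Set G) := by
      rw [htop]; trivial
    rw [Subgroup.normal_mul] at hgm
    obtain ⟨n, hn, x, hx, rfl⟩ := Set.mem_mul.mp hgm
    refine ⟨x, hx, ?_⟩
    have hb : x * a * x⁻¹ ∈ (P : Subgroup G) :=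
      Subgroup.mul_mem _ (Subgroup.mul_mem _ hx ha) (Subgroup.inv_mem _ hx)
    have e1 : n * x * a * (n * x)⁻¹ = n * (x * a * x⁻¹) * n⁻¹ := by group
    rw [e1] at hg ⊢
    have h2 : n * (x * a * x⁻¹) * n⁻¹ * (x * a * x⁻¹)⁻¹ ∈ N ⊓ (P : Subgroup G) := by
      refine Subgroup.mem_inf.mpr ⟨?_, Subgroup.mul_mem _ hg (Subgroup.inv_mem _ hb)⟩
      have e2 : n * (x * a * x⁻¹) * n⁻¹ * (x * a * x⁻¹)⁻¹ =
          n * ((x * a * x⁻¹) * n⁻¹ * (x * a * x⁻¹)⁻¹) := by group
      rw [e2]
      exact Subgroup.mul_mem _ hn (hN.conj_mem _ (Subgroup.inv_mem _ hn) _)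
    rw [hbot, Subgroup.mem_bot] at h2
    exact mul_inv_eq_one.mp h2
  · intro hfus
    have key : ∀ n : ℕ, ∀ Q : Subgroup G, Nat.card Q ≤ n → Q ≤ (P : Subgroup G) →
        ∀ g ∈ Subgroup.normalizer (Q : Set G), (orderOf g).Coprime p →
        g ∈ Subgroup.centralizer (Q : Set G) := by
      intro n
      induction n using Nat.strong_induction_on with
      | _ n ih =>
        intro Q hcard hQP g hg hcop
        by_contra hcon
        have hnt : ⁅Q, Subgroup.zpowers g⁆ ≠ ⊥ := by
          intro h
          rw [Subgroup.commutator_eq_bot_iff_le_centralizer, Subgroup.le_centralizer_iff,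
            Subgroup.zpowers_le] at h
          exact hcon h
        have hmin : ∀ U : Subgroup G, U < Q →
            Subgroup.zpowers g ≤ Subgroup.normalizer (U : Set G) →
            ⁅U, Subgroup.zpowers g⁆ = ⊥ := by
          intro U hU hAU
          have hUcard : Nat.card U < n := lt_of_lt_of_le (by
            rcases (Subgroup.card_le_of_le hU.le).lt_or_eq with h | h
            · exact h
            · exact absurd (Subgroup.eq_of_le_of_card_ge hU.le h.ge) hU.ne) hcard
          have h1 := ih (Nat.card U) hUcard U le_rfl (hU.le.trans hQP) g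
            (hAU (Subgroup.mem_zpowers g)) hcop
          rw [Subgroup.commutator_eq_bot_iff_le_centralizer, Subgroup.le_centralizer_iff,
            Subgroup.zpowers_le]
          exact h1
        have hAp : (Nat.card (Subgroup.zpowers g)).Coprime p := by
          rw [Nat.card_zpowers]; exact hcop
        obtain ⟨-, -, -, -, -, hd⟩ := Cfsg.Agent.Lib.Helper21.minimal_core (Subgroup.zpowers g)
          (Subgroup.zpowers g) Q (P.2.to_le hQP) (Subgroup.zpowers_le.mpr hg) le_rfl
          Subgroup.le_normalizer hAp hnt hmin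
        apply hcon
        apply Cfsg.Agent.Lib.Helper1.centralizes_of_conj_in_nilpotent (P : Subgroup G)
          (P.2.isNilpotent) Q hQP (P.2.to_le hQP) g hg hcop
        intro x hx
        have hx' : x ^ p = 1 ∨ (p = 2 ∧ x ^ 4 = 1) := by
          by_cases h2 : p = 2
          · right
            refine ⟨h2, hd 4 ?_ ?_ x hx⟩
            · rw [h2]; decide
            · rw [h2]; decide
          · left
            refine hd p dvd_rfl ?_ x hx
            have hev : 2 ∣ p - 1 := (hp.even_sub_one h2).two_dvd
            rw [Nat.mul_div_assoc p hev]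
            exact dvd_mul_right _ _
        exact hfus x (hQP hx) hx' g (hQP ((Subgroup.mem_normalizer_iff.mp hg x).mp hx))
    have hF : Cfsg.Agent.Lib.Helper1.FrobCond p G :=
      Cfsg.Agent.Lib.Helper1.frobCond_of_sylow P
        (fun Q hQ g hg hcop => key (Nat.card Q) Q le_rfl hQ g hg hcop)
    exact ⟨P, Cfsg.pResidual p G, Cfsg.Agent.Lib.Helper1.pResidual_normal p,
      Cfsg.Agent.Lib.Helper1.frobCond_isComplement' hF P⟩

end Cfsg.Agent.S1946
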