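import Cfsg.Statements.S1947
import Cfsg.Agent.Lib.Helper1.FrobPC
import Cfsg.Agent.Lib.Helper21.CoprimeP

set_option autoImplicit false
open Cfsg

namespace Cfsg.Agent.S1947

/-- Let G be a finite group and p a prime. If every element of G of order dividing p (dividing 4 when p = 2) lies in some fixed term Z_n(G) of the upper central series, then G has a normal p-complement. -/
theorem result {G : Type*} [Group G] [Finite G] {p : ℕ} [Fact p.Prime] (n : ℕ)
    (h : ∀ a : G, (a ^ p = 1 ∨ (p = 2 ∧ a ^ 4 = 1)) → a ∈ Subgroup.upperCentralSeries G n) : Cfsg.HasNormalPComplement p G := by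
  classical
  have hp : p.Prime := Fact.out
  obtain ⟨P⟩ : Nonempty (Sylow p G) := inferInstance
  have hF : Cfsg.Agent.Lib.Helper1.FrobCond p G := by
    intro Q hQ g hg hcop
    have hc : ∀ i : ℕ, ∀ x ∈ Q, x ∈ Subgroup.upperCentralSeries G i → g * x * g⁻¹ = x := by
      intro i
      induction i with
      | zero =>
        intro x _ hx0
        rw [Subgroup.upperCentralSeries_zero, Subgroup.mem_bot] at hx0
        rw [hx0]; group
      | succ i ih =>
        intro x hx hxi
        have hgx : g * x * g⁻¹ ∈ Q := (Subgroup.mem_normalizer_iff.mp hg x).mp hx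
        have hcQ : g * x * g⁻¹ * x⁻¹ ∈ Q := Q.mul_mem hgx (Q.inv_mem hx)
        have hcZ : g * x * g⁻¹ * x⁻¹ ∈ Subgroup.upperCentralSeries G i := by
          have h1 := (Subgroup.mem_upperCentralSeries_succ_iff).mp hxi g
          have h2 := Subgroup.inv_mem _ h1
          convert h2 using 1
          group
        have hcg := ih _ hcQ hcZ
        obtain ⟨c, hcdef⟩ : ∃ c : G, c = g * x * g⁻¹ * x⁻¹ := ⟨_, rfl⟩
        rw [← hcdef] at hcg hcQ
        have h1 : g * x * g⁻¹ = c * x := by rw [hcdef]; group
        have hcomm : Commute c g := by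
          show c * g = g * c
          calc c * g = (g * c * g⁻¹) * g := by rw [hcg]
            _ = g * c := by group
        have h2 := Cfsg.Agent.Lib.Helper21.conj_pow_of_central h1 hcomm (orderOf g)
        rw [pow_orderOf_eq_one, one_mul, inv_one, mul_one] at h2
        have h3 : c ^ orderOf g = 1 := by
          have : c ^ orderOf g * x = 1 * x := by rw [one_mul]; exact h2.symm
          exact mul_right_cancel this
        obtain ⟨j, hj⟩ := hQ ⟨c, hcQ⟩
        have hj' : c ^ (p ^ j) = 1 := by
          have := congrArg Subtype.val hj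
          simpa using this
        have h4 := pow_gcd_eq_one.mpr ⟨h3, hj'⟩
        rw [Nat.Coprime.pow_right j hcop] at h4
        have hc1 : c = 1 := by simpa using h4
        rw [h1, hc1, one_mul]
    have hm : ∃ m : ℕ, p ∣ m ∧ p ∣ m * (m - 1) / 2 ∧
        ∀ x : G, x ^ m = 1 → (x ^ p = 1 ∨ (p = 2 ∧ x ^ 4 = 1)) := by
      by_cases h2 : p = 2
      · exact ⟨4, by rw [h2]; decide, by rw [h2]; decide, fun x hx => Or.inr ⟨h2, hx⟩⟩
      · refine ⟨p, dvd_rfl, ?_, fun x hx => Or.inl hx⟩
        have hev : 2 ∣ p - 1 := (hp.even_sub_one h2).two_dvd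
        rw [Nat.mul_div_assoc p hev]
        exact dvd_mul_right _ _
    obtain ⟨m, hm1, hm2, hm3⟩ := hm
    have hall := Cfsg.Agent.Lib.Helper21.centralizes_of_centralizes_omega m hm1 hm2 g hcop
      (Nat.card Q) Q le_rfl hQ hg (fun x hx hxm => hc n x hx (h x (hm3 x hxm)))
    rw [Subgroup.mem_centralizer_iff]
    intro x hx
    have h1 := hall x hx
    calc x * g = (g * x * g⁻¹) * g := by rw [h1]
      _ = g * x := by group
  exact ⟨P, Cfsg.pResidual p G, Cfsg.Agent.Lib.Helper1.pResidual_normal p,
    Cfsg.Agent.Lib.Helper1.frobCond_isComplement' hF P⟩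

end Cfsg.Agent.S1947
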