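import Cfsg.Statements.S1948
import Cfsg.Agent.Lib.Helper14.Cores
import Cfsg.Agent.Lib.Helper14.SylowRel

set_option autoImplicit false
open Cfsg

namespace Cfsg.Agent.S1948

/-- Let S be a Sylow p-subgroup of the finite group G. Then G = N_G(S)·O_{p'}(G) if and only if G is p-constrained and N_G(S) controls fusion in S, in the sense that whenever a subgroup Q of S has a conjugate g Q g⁻¹ inside S, the element g is a product n c with n normalizing S and c centralizing Q. -/
theorem result {G : Type*} [Group G] [Finite G] {p : ℕ} [Fact p.Prime] (S : Sylow p G) :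
    Subgroup.normalizer ((S : Subgroup G) : Set G) ⊔ Cfsg.pPrimeCore p G = ⊤ ↔
      (Cfsg.IsPConstrained p G ∧
        ∀ Q : Subgroup G, Q ≤ (S : Subgroup G) → ∀ g : G, Q.map (MulAut.conj g).toMonoidHom ≤ (S : Subgroup G) →
          ∃ n ∈ Subgroup.normalizer ((S : Subgroup G) : Set G), ∃ c ∈ Subgroup.centralizer (Q : Set G), g = n * c) := by
  classical
  set N := Subgroup.normalizer ((S : Subgroup G) : Set G) with hNdef
  set K := pPrimeCore p G with hKdef
  have hKn : K.Normal := inferInstance
  have hHn : (pPrimePCore p G).Normal := Cfsg.Agent.Lib.Helper14.pPrimePCore_normal' p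
  have hKH : K ≤ pPrimePCore p G := Cfsg.Agent.Lib.Helper14.pPrimeCore_le_pPrimePCore p
  have hKcop : (Nat.card K).Coprime p := Cfsg.Agent.Lib.Helper14.pPrimeCore_coprime p
  have hSN : (S : Subgroup G) ≤ N := Subgroup.le_normalizer
  have hSK : (S : Subgroup G) ⊓ K = ⊥ := (Subgroup.disjoint_of_coprime_natCard (by
    obtain ⟨a, ha⟩ := IsPGroup.iff_card.mp S.isPGroup'
    rw [ha]; exact Nat.Coprime.pow_left a hKcop.symm)).eq_bot
  have hHtop : ∀ g : G, g ∈ Subgroup.normalizer ((pPrimePCore p G : Subgroup G) : Set G) := by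
    intro g; rw [Subgroup.normalizer_eq_top]; trivial
  constructor
  · intro hNK
    have hdec : ∀ g : G, ∃ n ∈ N, ∃ k ∈ K, g = n * k := by
      intro g
      have : g ∈ N ⊔ K := by rw [hNK]; trivial
      obtain ⟨n, hn, k, hk, h⟩ := Subgroup.mem_sup_of_normal_right.mp this
      exact ⟨n, hn, k, hk, h.symm⟩
    constructor
    · have hSH : (S : Subgroup G) ≤ pPrimePCore p G := by
        have hnorm : ((S : Subgroup G).map (QuotientGroup.mk' K)).Normal := by
          constructor
          intro x hx y
          obtain ⟨s, hs, rfl⟩ := hx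
          obtain ⟨g, rfl⟩ := QuotientGroup.mk_surjective y
          obtain ⟨n, hn, k, hk, rfl⟩ := hdec g
          have hk1 : (QuotientGroup.mk' K) k = 1 := (QuotientGroup.eq_one_iff k).mpr hk
          refine ⟨n * s * n⁻¹, (Subgroup.mem_normalizer_iff.mp hn s).mp hs, ?_⟩
          show QuotientGroup.mk' K (n * s * n⁻¹) =
            QuotientGroup.mk' K (n * k) * QuotientGroup.mk' K s * (QuotientGroup.mk' K (n * k))⁻¹
          rw [map_mul, map_mul, map_mul, hk1, mul_one, map_inv]
        have hpg : IsPGroup p ((S : Subgroup G).map (QuotientGroup.mk' K)) := S.isPGroup'.map _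
        have := Cfsg.Agent.Lib.Helper14.le_pCore p hnorm hpg
        intro s hs
        exact this ⟨s, hs, rfl⟩
      have hCS : Subgroup.centralizer ((S : Subgroup G) : Set G) ≤ pPrimePCore p G := by
        set C := Subgroup.centralizer ((S : Subgroup G) : Set G) with hCdef
        have hCN : C ≤ N := Subgroup.centralizer_le_normalizer _
        obtain ⟨P⟩ : Nonempty (Sylow p ↥C) := inferInstance
        have hP0S : (P : Subgroup ↥C).map C.subtype ≤ (S : Subgroup G) := by
          have hP0 : IsPGroup p ↥((P : Subgroup ↥C).map C.subtype) := P.isPGroup'.map _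
          have hP0N : (P : Subgroup ↥C).map C.subtype ≤ N := (Subgroup.map_subtype_le _).trans hCN
          obtain ⟨n, hn, hnP⟩ := Cfsg.Agent.Lib.Helper14.Sylow.exists_conj_mem_of_le S hSN hP0 hP0N
          intro x hx
          have h1 := hnP x hx
          have hn' : n⁻¹ ∈ N := inv_mem hn
          have := (Subgroup.mem_normalizer_iff.mp hn' (n * x * n⁻¹)).mp h1
          simpa [mul_assoc] using this
        have hPcen : (P : Subgroup ↥C) ≤ Subgroup.center ↥C := by
          intro x hx
          rw [Subgroup.mem_center_iff]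
          intro y
          have hxS : (x : G) ∈ (S : Subgroup G) := hP0S ⟨x, hx, rfl⟩
          have h5 := Subgroup.mem_centralizer_iff.mp y.2 (x : G) hxS
          apply Subtype.ext
          simpa using h5.symm
        obtain ⟨M, hMn, hMp, hMP, hM⟩ :=
          Cfsg.Agent.Lib.Helper14.exists_normal_compl_of_central_sylow' P hPcen
        set D := M.map C.subtype with hDdef
        have hD : ∀ d : G, d ∈ D ↔ d ∈ C ∧ (orderOf d).Coprime p := by
          intro d
          constructor
          · rintro ⟨m, hm, rfl⟩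
            refine ⟨m.2, ?_⟩
            have := (hM m).mp hm
            rwa [← Subgroup.orderOf_coe] at this
          · rintro ⟨hdC, hd⟩
            refine ⟨⟨d, hdC⟩, (hM _).mpr ?_, rfl⟩
            rw [Subgroup.orderOf_mk]; exact hd
        have hDK : D ≤ K := by
          have hconjC : ∀ n ∈ N, ∀ c ∈ C, n * c * n⁻¹ ∈ C := by
            intro n hn c hc
            exact (Subgroup.normal_subgroupOf_iff hCN).mp
              (Subgroup.normal_subgroupOf_centralizer_normalizer ((S : Subgroup G) : Set G)) c n hc hn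
          have hND : N ≤ Subgroup.normalizer (D : Set G) := by
            intro n hn
            rw [Subgroup.mem_normalizer_iff]
            intro d
            have hord : orderOf (n * d * n⁻¹) = orderOf d := by
              rw [← MulAut.conj_apply]; exact MulEquiv.orderOf_eq _ _
            rw [hD, hD, hord]
            constructor
            · rintro ⟨h1, h2⟩; exact ⟨hconjC n hn d h1, h2⟩
            · rintro ⟨h1, h2⟩
              refine ⟨?_, h2⟩
              have := hconjC n⁻¹ (inv_mem hn) _ h1
              simpa [mul_assoc] using this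
          have hDKn : (D ⊔ K).Normal := by
            have h1 : N ⊔ K ≤ Subgroup.normalizer ((D ⊔ K : Subgroup G) : Set G) := by
              apply sup_le
              · refine le_trans ?_ (Cfsg.Agent.Lib.Helper14.normalizer_inf_le_normalizer_sup D K)
                refine le_inf hND ?_
                rw [Subgroup.normalizer_eq_top]; exact le_top
              · exact le_trans le_sup_right Subgroup.le_normalizer
            rw [hNK] at h1
            exact Subgroup.normalizer_eq_top_iff.mp (top_le_iff.mp h1)
          have hDcop : (Nat.card D).Coprime p := by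
            rw [hDdef, Subgroup.card_map_of_injective C.subtype_injective]
            exact ((Nat.Prime.coprime_iff_not_dvd Fact.out).mpr hMp).symm
          have hcop : (Nat.card ↥(D ⊔ K)).Coprime p :=
            Nat.Coprime.coprime_dvd_left (Cfsg.Agent.Lib.Helper14.card_sup_dvd_mul D K)
              (Nat.Coprime.mul_left hDcop hKcop)
          exact le_trans le_sup_left (Cfsg.Agent.Lib.Helper14.le_pPrimeCore p hDKn hcop)
        intro c hc
        have hmem : (⟨c, hc⟩ : ↥C) ∈ M ⊔ (P : Subgroup ↥C) := by rw [hMP]; trivial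
        obtain ⟨m, hm, s, hs, hms⟩ := Subgroup.mem_sup_of_normal_left.mp hmem
        have hc' : c = (m : G) * (s : G) := by
          have := congrArg Subtype.val hms
          exact this.symm
        rw [hc']
        exact mul_mem (hKH (hDK ⟨m, hm, rfl⟩)) (hSH (hP0S ⟨s, hs, rfl⟩))
      intro P
      have hP0p : IsPGroup p ↥((P : Subgroup ↥(pPrimePCore p G)).map (pPrimePCore p G).subtype) :=
        P.isPGroup'.map _
      have hidx : ¬ p ∣ ((P : Subgroup ↥(pPrimePCore p G)).map (pPrimePCore p G).subtype).index := by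
        rw [Subgroup.index_map_subtype]
        intro hdvd
        rcases (Nat.Prime.dvd_mul Fact.out).mp hdvd with h | h
        · exact P.not_dvd_index h
        · exact S.not_dvd_index (dvd_trans h (Subgroup.index_dvd_of_le hSH))
      obtain ⟨u, hu⟩ := Cfsg.Agent.Lib.Helper14.exists_eq_map_conj_sylow S hP0p hidx
      rw [hu, Cfsg.Agent.Lib.Helper14.centralizer_map_conj]
      have := Subgroup.map_mono (f := (MulAut.conj u).toMonoidHom) hCS
      rwa [Cfsg.Agent.Lib.Helper14.map_conj_eq_self_of_mem_normalizer (hHtop u)] at this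
    · intro Q hQS g hg
      obtain ⟨n, hn, k, hk, rfl⟩ := hdec g
      refine ⟨n, hn, k, ?_, rfl⟩
      rw [Subgroup.mem_centralizer_iff]
      intro q hq
      have h1 : (n * k) * q * (n * k)⁻¹ ∈ (S : Subgroup G) :=
        hg (Cfsg.Agent.Lib.Helper14.conj_mem_map_conj hq)
      have h2 : k * q * k⁻¹ ∈ (S : Subgroup G) := by
        have := (Subgroup.mem_normalizer_iff.mp (inv_mem hn) ((n * k) * q * (n * k)⁻¹)).mp h1
        have e : n⁻¹ * (n * k * q * (n * k)⁻¹) * n⁻¹⁻¹ = k * q * k⁻¹ := by group
        rwa [e] at this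
      have h3 : k * q * k⁻¹ * q⁻¹ ∈ (S : Subgroup G) ⊓ K := by
        refine Subgroup.mem_inf.mpr ⟨mul_mem h2 (inv_mem (hQS hq)), ?_⟩
        have : k * q * k⁻¹ * q⁻¹ = k * (q * k⁻¹ * q⁻¹) := by group
        rw [this]
        exact mul_mem hk (hKn.conj_mem _ (inv_mem hk) q)
      rw [hSK, Subgroup.mem_bot] at h3
      calc q * k = (k * q * k⁻¹ * q⁻¹) * q * k := by rw [h3, one_mul]
        _ = k * q := by group
  · rintro ⟨hcon, hfus⟩
    obtain ⟨P, hP⟩ := IsPGroup.exists_le_sylow
      ((S.isPGroup'.to_le inf_le_left).comap_subtype :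
        IsPGroup p (((S : Subgroup G) ⊓ pPrimePCore p G).subgroupOf (pPrimePCore p G)))
    set P₀ := (P : Subgroup ↥(pPrimePCore p G)).map (pPrimePCore p G).subtype with hP0def
    have hP0H : P₀ ≤ pPrimePCore p G := Subgroup.map_subtype_le _
    have hP0p : IsPGroup p P₀ := P.isPGroup'.map _
    have hSHP : (S : Subgroup G) ⊓ pPrimePCore p G ≤ P₀ := by
      intro x hx
      have hxH : x ∈ pPrimePCore p G := (Subgroup.mem_inf.mp hx).2
      exact ⟨⟨x, hxH⟩, hP (Subgroup.mem_subgroupOf.mpr hx), rfl⟩
    have hP0S : P₀ ≤ (S : Subgroup G) := by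
      obtain ⟨g, hg⟩ := Cfsg.Agent.Lib.Helper14.exists_map_conj_le_sylow S hP0p
      have h1 : P₀.map (MulAut.conj g).toMonoidHom ≤ pPrimePCore p G := by
        have := Subgroup.map_mono (f := (MulAut.conj g).toMonoidHom) hP0H
        rwa [Cfsg.Agent.Lib.Helper14.map_conj_eq_self_of_mem_normalizer (hHtop g)] at this
      have h2 : P₀.map (MulAut.conj g).toMonoidHom ≤ P₀ := le_trans (le_inf hg h1) hSHP
      have h3 : P₀.map (MulAut.conj g).toMonoidHom = P₀ :=
        Subgroup.eq_of_le_of_card_ge h2 (by rw [Cfsg.Agent.Lib.Helper14.card_map_conj])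
      rw [← h3]; exact hg
    have hfrat : Subgroup.normalizer (P₀ : Set G) ⊔ pPrimePCore p G = ⊤ :=
      Sylow.normalizer_sup_eq_top P
    have hHle : pPrimePCore p G ≤ P₀ ⊔ K := by
      rw [← Subgroup.relIndex_eq_one]
      obtain ⟨a, ha⟩ := Cfsg.Agent.Lib.Helper14.relIndex_pPrimeCore_pPrimePCore (G := G) p
      have h1 : (P₀ ⊔ K).relIndex (pPrimePCore p G) ∣ p ^ a :=
        ha ▸ Subgroup.relIndex_dvd_of_le_left (pPrimePCore p G) le_sup_right
      have h2 : (P₀ ⊔ K).relIndex (pPrimePCore p G) ∣ P₀.relIndex (pPrimePCore p G) :=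
        Subgroup.relIndex_dvd_of_le_left (pPrimePCore p G) le_sup_left
      have h3 : P₀.relIndex (pPrimePCore p G) = (P : Subgroup ↥(pPrimePCore p G)).index := by
        rw [Subgroup.relIndex]
        congr 1
        ext x
        rw [Subgroup.mem_subgroupOf]
        constructor
        · rintro ⟨y, hy, hxy⟩
          have : y = x := Subtype.ext hxy
          rw [← this]; exact hy
        · intro hx; exact ⟨x, hx, rfl⟩
      obtain ⟨j, -, hj⟩ := (Nat.dvd_prime_pow Fact.out).mp h1
      rcases Nat.eq_zero_or_pos j with h0 | hpos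
      · rw [hj, h0, pow_zero]
      · exfalso
        apply P.not_dvd_index
        rw [← h3]
        refine dvd_trans ?_ h2
        rw [hj]; exact dvd_pow_self p hpos.ne'
    have hPK : P₀ ⊔ K ≤ N ⊔ K := sup_le (le_trans hP0S (le_trans hSN le_sup_left)) le_sup_right
    have hNP : Subgroup.normalizer (P₀ : Set G) ≤ N ⊔ K := by
      intro g hg
      have hgP : P₀.map (MulAut.conj g).toMonoidHom = P₀ :=
        Cfsg.Agent.Lib.Helper14.map_conj_eq_self_of_mem_normalizer hg
      obtain ⟨n, hn, c, hc, rfl⟩ := hfus P₀ hP0S g (by rw [hgP]; exact hP0S)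
      have hcH : c ∈ pPrimePCore p G := hcon P hc
      exact mul_mem (Subgroup.mem_sup_left hn) (hPK (hHle hcH))
    rw [eq_top_iff, ← hfrat]
    exact sup_le hNP (le_trans hHle hPK)

end Cfsg.Agent.S1948
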