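import Cfsg.Statements.S1949
import Cfsg.Agent.Lib.Helper14.KInfCrit
import Cfsg.Agent.Lib.Helper14.Residual

set_option autoImplicit false
open Cfsg

namespace Cfsg.Agent.S1949

open Cfsg Cfsg.Agent.Lib.Helper14

open scoped commutatorElement

universe u

section aux

variable {P : Type u} [Group P]

/-- The coprime trick: an automorphism of order prime to `p` fixing `x⁻¹ α(x)` fixes `x`. -/
theorem fix_of_comm_fix [Finite P] {p : ℕ} [Fact p.Prime] (hP : IsPGroup p P) (α : MulAut P)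
    (hα : (orderOf α).Coprime p) (x : P) (h : α (x⁻¹ * α x) = x⁻¹ * α x) : α x = x := by
  obtain ⟨c, hc⟩ : ∃ c : P, c = x⁻¹ * α x := ⟨_, rfl⟩
  rw [← hc] at h
  have hαx : α x = x * c := by rw [hc]; group
  have key : ∀ k : ℕ, (α ^ k) x = x * c ^ k := by
    intro k
    induction k with
    | zero => simp
    | succ k ih =>
      rw [pow_succ', MulAut.mul_apply, ih, map_mul, map_pow, h, hαx, pow_succ', mul_assoc]
  have h1 := key (orderOf α)
  rw [pow_orderOf_eq_one, MulAut.one_apply] at h1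
  have h2 : c ^ orderOf α = 1 := by
    have h3 : x * c ^ orderOf α = x * 1 := by rw [mul_one]; exact h1.symm
    exact mul_left_cancel h3
  obtain ⟨a, ha⟩ := hP c
  have h3 : orderOf c ∣ orderOf α := orderOf_dvd_of_pow_eq_one h2
  have h4 : orderOf c ∣ p ^ a := orderOf_dvd_of_pow_eq_one ha
  have h5 : Nat.Coprime (orderOf c) (orderOf c) :=
    Nat.Coprime.coprime_dvd_left h3 (Nat.Coprime.coprime_dvd_right h4 (hα.pow_right a))
  have h6 : c = 1 := orderOf_eq_one_iff.mp ((Nat.coprime_self _).mp h5)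
  rw [hαx, h6, mul_one]

/-- Invariance of a subgroup under a group of automorphisms. -/
def GInv (G : Subgroup (MulAut P)) (D : Subgroup P) : Prop := ∀ α ∈ G, ∀ x ∈ D, α x ∈ D

theorem GInv.normal {G : Subgroup (MulAut P)} (hG : Cfsg.Inn P ≤ G) {D : Subgroup P}
    (h : GInv G D) : D.Normal :=
  ⟨fun x hx g => by
    have h1 : MulAut.conj g ∈ G := hG ⟨g, rfl⟩
    have h2 := h _ h1 x hx
    rwa [MulAut.conj_apply] at h2⟩

theorem GInv.map_eq {G : Subgroup (MulAut P)} {D : Subgroup P} (h : GInv G D) {α : MulAut P}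
    (hα : α ∈ G) : D.map α.toMonoidHom = D := by
  apply le_antisymm
  · rintro _ ⟨x, hx, rfl⟩
    exact h α hα x hx
  · intro x hx
    exact ⟨α⁻¹ x, h α⁻¹ (G.inv_mem hα) x hx, by simp⟩

theorem pow_mul_comm_aux {x y c : P} (hyx : y * x = x * y * c) (hcy : Commute c y) :
    ∀ n : ℕ, y ^ n * x = x * y ^ n * c ^ n := by
  intro n
  induction n with
  | zero => simp
  | succ n ih =>
    have h1 : Commute c (y ^ n) := hcy.pow_right n
    calc y ^ (n + 1) * x = y * (y ^ n * x) := by rw [pow_succ', mul_assoc]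
      _ = y * (x * y ^ n * c ^ n) := by rw [ih]
      _ = (y * x) * y ^ n * c ^ n := by simp only [mul_assoc]
      _ = x * y * c * y ^ n * c ^ n := by rw [hyx]
      _ = x * y * (c * y ^ n) * c ^ n := by simp only [mul_assoc]
      _ = x * y * (y ^ n * c) * c ^ n := by rw [h1.eq]
      _ = x * y ^ (n + 1) * c ^ (n + 1) := by
        rw [pow_succ' y n, pow_succ' c n]; simp only [mul_assoc]

theorem mul_pow_class2 {x y c : P} (hyx : y * x = x * y * c) (hcx : Commute c x)
    (hcy : Commute c y) : ∀ n : ℕ, (x * y) ^ n = x ^ n * y ^ n * c ^ (n.choose 2) := by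
  intro n
  induction n with
  | zero => simp
  | succ n ih =>
    have h1 : Commute (c ^ (n.choose 2)) (x * y) := (hcx.mul_right hcy).pow_left _
    have h2 : Commute (c ^ n) y := hcy.pow_left n
    have h3 : (n + 1).choose 2 = n + n.choose 2 := by
      rw [Nat.choose_succ_succ, Nat.choose_one_right]
    calc (x * y) ^ (n + 1) = (x * y) ^ n * (x * y) := pow_succ _ _
      _ = x ^ n * y ^ n * (c ^ (n.choose 2) * (x * y)) := by rw [ih]; simp only [mul_assoc]
      _ = x ^ n * y ^ n * ((x * y) * c ^ (n.choose 2)) := by rw [h1.eq]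
      _ = x ^ n * (y ^ n * x) * y * c ^ (n.choose 2) := by simp only [mul_assoc]
      _ = x ^ n * (x * y ^ n * c ^ n) * y * c ^ (n.choose 2) := by
        rw [pow_mul_comm_aux hyx hcy n]
      _ = x ^ n * x * y ^ n * (c ^ n * y) * c ^ (n.choose 2) := by simp only [mul_assoc]
      _ = x ^ n * x * y ^ n * (y * c ^ n) * c ^ (n.choose 2) := by rw [h2.eq]
      _ = x ^ (n + 1) * y ^ (n + 1) * c ^ ((n + 1).choose 2) := by
        rw [h3, pow_succ x n, pow_succ y n, pow_add]; simp only [mul_assoc]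

theorem comm_pow_mem (M : Subgroup P) [hM : M.Normal] {y : P} (h : ∀ g : P, ⁅y, g⁆ ∈ M) :
    ∀ (k : ℕ) (g : P), ⁅y ^ k, g⁆ ∈ M := by
  intro k
  induction k with
  | zero => intro g; rw [pow_zero, commutatorElement_one_left]; exact M.one_mem
  | succ k ih =>
    intro g
    have e : ⁅y ^ (k + 1), g⁆ = y * ⁅y ^ k, g⁆ * y⁻¹ * ⁅y, g⁆ := by
      rw [pow_succ']; simp only [commutatorElement_def]; group
    rw [e]
    exact M.mul_mem (hM.conj_mem _ (ih g) y) (h g)

theorem iter_le_self' (N H : Subgroup P) [N.Normal] : ∀ n, iterCommutator N H n ≤ N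
  | 0 => le_rfl
  | n + 1 => (Subgroup.commutator_mono (iter_le_self' N H n) le_rfl).trans
      (Subgroup.commutator_le_left N H)

theorem comm_sup_zpowers (A : Subgroup P) (z : P) (hA : ∀ a ∈ A, ∀ b ∈ A, a * b = b * a)
    (hz : ∀ a ∈ A, z * a = a * z) :
    ∀ u ∈ A ⊔ Subgroup.zpowers z, ∀ v ∈ A ⊔ Subgroup.zpowers z, u * v = v * u := by
  have h1 : A ⊔ Subgroup.zpowers z ≤ Subgroup.centralizer ((A : Set P) ∪ {z}) := by
    refine sup_le (fun a ha => ?_) ?_
    · rw [Subgroup.mem_centralizer_iff]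
      rintro h (hh | hh)
      · exact hA h hh a ha
      · rw [Set.mem_singleton_iff] at hh; rw [hh]; exact hz a ha
    · rw [Subgroup.zpowers_le, Subgroup.mem_centralizer_iff]
      rintro h (hh | hh)
      · exact (hz h hh).symm
      · rw [Set.mem_singleton_iff] at hh; rw [hh]
  intro u hu v hv
  have hu' := Subgroup.mem_centralizer_iff.mp (h1 hu)
  have h2 : A ⊔ Subgroup.zpowers z ≤ Subgroup.centralizer ({u} : Set P) := by
    refine sup_le (fun a ha => ?_) ?_
    · rw [Subgroup.mem_centralizer_iff]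
      intro w hw
      rw [Set.mem_singleton_iff] at hw
      rw [hw]; exact (hu' a (Or.inl ha)).symm
    · rw [Subgroup.zpowers_le, Subgroup.mem_centralizer_iff]
      intro w hw
      rw [Set.mem_singleton_iff] at hw
      rw [hw]; exact (hu' z (Or.inr rfl)).symm
  exact Subgroup.mem_centralizer_iff.mp (h2 hv) u rfl

/-- The subgroup `C`: elements of `P₁` centralizing `M`, central modulo `M`, with `p`-th power
in `M`. -/
def critSub (p : ℕ) (P₁ M : Subgroup P) [hM : M.Normal] : Subgroup P where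
  carrier := {x | x ∈ P₁ ∧ (∀ m ∈ M, m * x = x * m) ∧ (∀ g : P, ⁅x, g⁆ ∈ M) ∧ x ^ p ∈ M}
  one_mem' := ⟨P₁.one_mem, fun m _ => by rw [mul_one, one_mul],
    fun g => by rw [commutatorElement_one_left]; exact M.one_mem,
    by rw [one_pow]; exact M.one_mem⟩
  mul_mem' := by
    rintro x y ⟨hx1, hx2, hx3, hx4⟩ ⟨hy1, hy2, hy3, hy4⟩
    refine ⟨P₁.mul_mem hx1 hy1, fun m hm => ?_, fun g => ?_, ?_⟩
    · rw [← mul_assoc, hx2 m hm, mul_assoc, hy2 m hm, mul_assoc]
    · have e : ⁅x * y, g⁆ = x * ⁅y, g⁆ * x⁻¹ * ⁅x, g⁆ := by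
        simp only [commutatorElement_def]; group
      rw [e]
      exact M.mul_mem (hM.conj_mem _ (hy3 g) x) (hx3 g)
    · have hc : Commute ((x : P) : P ⧸ M) ((y : P) : P ⧸ M) := by
        have h1 : ((x * y * x⁻¹ * y⁻¹ : P) : P ⧸ M) = 1 :=
          (QuotientGroup.eq_one_iff _).mpr (hx3 y)
        simp only [QuotientGroup.mk_mul, QuotientGroup.mk_inv] at h1
        rw [mul_inv_eq_one, mul_inv_eq_iff_eq_mul] at h1
        exact h1
      have h2 : (((x * y) ^ p : P) : P ⧸ M) = 1 := by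
        rw [QuotientGroup.mk_pow, QuotientGroup.mk_mul, hc.mul_pow, ← QuotientGroup.mk_pow,
          ← QuotientGroup.mk_pow, (QuotientGroup.eq_one_iff _).mpr hx4,
          (QuotientGroup.eq_one_iff _).mpr hy4, one_mul]
      exact (QuotientGroup.eq_one_iff _).mp h2
  inv_mem' := by
    rintro x ⟨hx1, hx2, hx3, hx4⟩
    refine ⟨P₁.inv_mem hx1, fun m hm => ?_, fun g => ?_, ?_⟩
    · have h1 := hx2 m hm
      calc m * x⁻¹ = x⁻¹ * (x * m) * x⁻¹ := by group
        _ = x⁻¹ * (m * x) * x⁻¹ := by rw [h1]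
        _ = x⁻¹ * m := by group
    · have e : ⁅x⁻¹, g⁆ = x⁻¹ * ⁅x, g⁆⁻¹ * x⁻¹⁻¹ := by
        simp only [commutatorElement_def]; group
      rw [e]
      exact hM.conj_mem _ (M.inv_mem (hx3 g)) x⁻¹
    · rw [inv_pow]; exact M.inv_mem hx4

/-- The elements of `C` of order dividing `e`, when `x ↦ x ^ e` is multiplicative on `C`. -/
def omegaSub (C : Subgroup P) (e : ℕ) (h : ∀ x ∈ C, ∀ y ∈ C, (x * y) ^ e = x ^ e * y ^ e) :
    Subgroup P where
  carrier := {x | x ∈ C ∧ x ^ e = 1}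
  one_mem' := ⟨C.one_mem, one_pow e⟩
  mul_mem' := fun {x y} hx hy => ⟨C.mul_mem hx.1 hy.1, by rw [h _ hx.1 _ hy.1, hx.2, hy.2, one_mul]⟩
  inv_mem' := fun {x} hx => ⟨C.inv_mem hx.1, by rw [inv_pow, hx.2, inv_one]⟩

theorem resid_inv (G : Subgroup (MulAut P)) (p : ℕ) :
    GInv G (Subgroup.closure {y : P | ∃ α ∈ Cfsg.pResidual p ↥G, ∃ x : P,
      y = x⁻¹ * (α : MulAut P) x}) := by
  intro β hβ x hx
  have hle : Subgroup.closure {y : P | ∃ α ∈ Cfsg.pResidual p ↥G, ∃ x : P,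
      y = x⁻¹ * (α : MulAut P) x} ≤
      (Subgroup.closure {y : P | ∃ α ∈ Cfsg.pResidual p ↥G, ∃ x : P,
        y = x⁻¹ * (α : MulAut P) x}).comap β.toMonoidHom := by
    rw [Subgroup.closure_le]
    rintro _ ⟨α, hα, x, rfl⟩
    rw [SetLike.mem_coe, Subgroup.mem_comap]
    apply Subgroup.subset_closure
    refine ⟨⟨β, hβ⟩ * α * (⟨β, hβ⟩ : ↥G)⁻¹,
      (inferInstance : (Cfsg.pResidual p ↥G).Normal).conj_mem α hα ⟨β, hβ⟩, β x, ?_⟩
    simp
  exact hle hx

theorem resid_detect [Finite P] {p : ℕ} [Fact p.Prime] (hP : IsPGroup p P)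
    (G : Subgroup (MulAut P)) (α : MulAut P) (hαG : α ∈ G) (hα : (orderOf α).Coprime p)
    (hfix : ∀ y ∈ Subgroup.closure {y : P | ∃ α ∈ Cfsg.pResidual p ↥G, ∃ x : P,
      y = x⁻¹ * (α : MulAut P) x}, α y = y) : α = 1 := by
  ext x
  rw [MulAut.one_apply]
  have hmem : (⟨α, hαG⟩ : ↥G) ∈ Cfsg.pResidual p ↥G := by
    apply Subgroup.subset_closure
    show Nat.Coprime (orderOf (⟨α, hαG⟩ : ↥G)) p
    rw [Subgroup.orderOf_mk]
    exact hα
  exact fix_of_comm_fix hP α hα x (hfix _ (Subgroup.subset_closure ⟨⟨α, hαG⟩, hmem, x, rfl⟩))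

end aux

/-- Let P be a finite p-group and G a group of automorphisms of P containing the inner automorphisms. Then there is a G-invariant subgroup D of P, contained in the subgroup generated by the elements x⁻¹α(x) with x in P and α in O^p(G), of exponent dividing p when p is odd and dividing 4 when p = 2, with [D, P] ≤ Z(D), such that every automorphism in G of order prime to p that fixes D elementwise is the identity; moreover every maximal abelian subgroup A of D is normal in P and every automorphism in G fixing A elementwise has p-power order. -/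
theorem result {P : Type*} [Group P] [Finite P] {p : ℕ} [Fact p.Prime] (hP : IsPGroup p P)
    (G : Subgroup (MulAut P)) (hG : Cfsg.Inn P ≤ G) :
    ∃ D : Subgroup P,
      (∀ α ∈ G, D.map α.toMonoidHom = D) ∧
      D ≤ Subgroup.closure {y : P | ∃ α ∈ Cfsg.pResidual p ↥G, ∃ x : P, y = x⁻¹ * (α : MulAut P) x} ∧
      (∀ d ∈ D, d ^ p = 1 ∨ (p = 2 ∧ d ^ 4 = 1)) ∧
      ⁅D, (⊤ : Subgroup P)⁆ ≤ D ⊓ Subgroup.centralizer (D : Set P) ∧
      (∀ α ∈ G, (orderOf α).Coprime p → (∀ d ∈ D, α d = d) → α = 1) ∧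
      ∀ A : Subgroup P, A ≤ D → IsMulCommutative ↥A →
        (∀ B : Subgroup P, A ≤ B → B ≤ D → IsMulCommutative ↥B → B = A) →
        A.Normal ∧ ∀ α ∈ G, (∀ a ∈ A, α a = a) → ∃ k : ℕ, orderOf α = p ^ k := by
  classical
  have hp : p.Prime := Fact.out
  have hP₁inv := resid_inv G p
  have hP₁det : ∀ α ∈ G, (orderOf α).Coprime p →
      (∀ y ∈ Subgroup.closure {y : P | ∃ α ∈ Cfsg.pResidual p ↥G, ∃ x : P,
        y = x⁻¹ * (α : MulAut P) x}, α y = y) → α = 1 :=
    fun α hα hc h => resid_detect hP G α hα hc h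
  generalize Subgroup.closure {y : P | ∃ α ∈ Cfsg.pResidual p ↥G, ∃ x : P,
    y = x⁻¹ * (α : MulAut P) x} = P₁ at hP₁inv hP₁det ⊢
  -- a maximal invariant abelian subgroup of `P₁`
  obtain ⟨M, -, hMmax⟩ := Finite.exists_le_maximal
    (p := fun K : Subgroup P => K ≤ P₁ ∧ GInv G K ∧ ∀ a ∈ K, ∀ b ∈ K, a * b = b * a) (a := ⊥)
    ⟨bot_le, fun α _ x hx => by
      rw [Subgroup.mem_bot] at hx ⊢
      rw [hx, map_one], fun a ha b hb => by
      rw [Subgroup.mem_bot] at ha hb
      rw [ha, hb]⟩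
  obtain ⟨⟨hMP₁, hMinv, hMab⟩, hMmax'⟩ := hMmax
  have hMn : M.Normal := hMinv.normal hG
  obtain ⟨C, hCdef⟩ : ∃ C : Subgroup P, C = critSub p P₁ M := ⟨_, rfl⟩
  have hCmem : ∀ x : P, x ∈ C ↔ x ∈ P₁ ∧ (∀ m ∈ M, m * x = x * m) ∧ (∀ g : P, ⁅x, g⁆ ∈ M) ∧
      x ^ p ∈ M := by
    intro x; rw [hCdef]; exact Iff.rfl
  have hCP₁ : C ≤ P₁ := fun x hx => ((hCmem x).mp hx).1
  have hCM : ∀ x ∈ C, ∀ m ∈ M, m * x = x * m := fun x hx => ((hCmem x).mp hx).2.1
  have hCcomm : ∀ x ∈ C, ∀ g : P, ⁅x, g⁆ ∈ M := fun x hx => ((hCmem x).mp hx).2.2.1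
  have hCpow : ∀ x ∈ C, x ^ p ∈ M := fun x hx => ((hCmem x).mp hx).2.2.2
  have hMC : M ≤ C := by
    intro x hx
    rw [hCmem]
    refine ⟨hMP₁ hx, fun m hm => hMab m hm x hx, fun g => ?_, M.pow_mem hx p⟩
    have e : ⁅x, g⁆ = x * (g * x⁻¹ * g⁻¹) := by
      simp only [commutatorElement_def]; group
    rw [e]
    exact M.mul_mem hx (hMn.conj_mem _ (M.inv_mem hx) g)
  have hCinv : GInv G C := by
    intro α hα x hx
    rw [hCmem]
    refine ⟨hP₁inv α hα x (hCP₁ hx), fun m hm => ?_, fun g => ?_, ?_⟩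
    · have h1 := hCM x hx (α⁻¹ m) (hMinv α⁻¹ (G.inv_mem hα) m hm)
      have h2 := congrArg α h1
      simpa using h2
    · have h1 := hMinv α hα _ (hCcomm x hx (α⁻¹ g))
      have e : α ⁅x, α⁻¹ g⁆ = ⁅α x, g⁆ := by
        simp [commutatorElement_def]
      rwa [e] at h1
    · rw [← map_pow]
      exact hMinv α hα _ (hCpow x hx)
  have hCn : C.Normal := hCinv.normal hG
  -- the centre of `C` is `M`
  have hZC : ∀ z ∈ C, (∀ c ∈ C, c * z = z * c) → z ∈ M := by
    intro z hz hzc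
    have hpred : (C ⊓ Subgroup.centralizer (C : Set P)) ≤ P₁ ∧
        GInv G (C ⊓ Subgroup.centralizer (C : Set P)) ∧
        ∀ a ∈ C ⊓ Subgroup.centralizer (C : Set P), ∀ b ∈ C ⊓ Subgroup.centralizer (C : Set P),
          a * b = b * a := by
      refine ⟨inf_le_left.trans hCP₁, ?_, ?_⟩
      · intro α hα x hx
        have hx' := Subgroup.mem_inf.mp hx
        refine Subgroup.mem_inf.mpr ⟨hCinv α hα x hx'.1, Subgroup.mem_centralizer_iff.mpr ?_⟩
        intro c hc
        have h1 := Subgroup.mem_centralizer_iff.mp hx'.2 (α⁻¹ c) (hCinv α⁻¹ (G.inv_mem hα) c hc)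
        have h2 := congrArg α h1
        simpa using h2
      · intro a ha b hb
        exact Subgroup.mem_centralizer_iff.mp (Subgroup.mem_inf.mp hb).2 a
          (Subgroup.mem_inf.mp ha).1
    have hle : M ≤ C ⊓ Subgroup.centralizer (C : Set P) := by
      intro x hx
      refine Subgroup.mem_inf.mpr ⟨hMC hx, Subgroup.mem_centralizer_iff.mpr ?_⟩
      intro c hc
      exact (hCM c hc x hx).symm
    exact hMmax' hpred hle (Subgroup.mem_inf.mpr ⟨hz, Subgroup.mem_centralizer_iff.mpr hzc⟩)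
  -- the centralizer of `C` in `P₁` is `M`
  have hCcent : ∀ x ∈ P₁, (∀ c ∈ C, c * x = x * c) → x ∈ M := by
    by_contra hcon
    push Not at hcon
    obtain ⟨x₀, hx₀P, hx₀c, hx₀M⟩ := hcon
    have hHinv : GInv G (P₁ ⊓ Subgroup.centralizer (C : Set P)) := by
      intro α hα x hx
      have hx' := Subgroup.mem_inf.mp hx
      refine Subgroup.mem_inf.mpr ⟨hP₁inv α hα x hx'.1, Subgroup.mem_centralizer_iff.mpr ?_⟩
      intro c hc
      have h1 := Subgroup.mem_centralizer_iff.mp hx'.2 (α⁻¹ c) (hCinv α⁻¹ (G.inv_mem hα) c hc)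
      have h2 := congrArg α h1
      simpa using h2
    have hHn : (P₁ ⊓ Subgroup.centralizer (C : Set P)).Normal := hHinv.normal hG
    have hx₀H : x₀ ∈ P₁ ⊓ Subgroup.centralizer (C : Set P) :=
      Subgroup.mem_inf.mpr ⟨hx₀P, Subgroup.mem_centralizer_iff.mpr hx₀c⟩
    have hnil : Group.IsNilpotent P := hP.isNilpotent
    have hnil' : Group.IsNilpotent ↥(⊤ : Subgroup P) := inferInstance
    obtain ⟨n, hn⟩ := iter_eq_bot_of_nilpotent (⊤ : Subgroup P)
      (P₁ ⊓ Subgroup.centralizer (C : Set P)) le_top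
    have hex : ∃ m : ℕ, iterCommutator (P₁ ⊓ Subgroup.centralizer (C : Set P)) ⊤ m ≤ M :=
      ⟨n, by rw [hn]; exact bot_le⟩
    have hm0 : Nat.find hex ≠ 0 := by
      intro h0
      have h1 := Nat.find_spec hex
      rw [h0] at h1
      exact hx₀M (h1 hx₀H)
    obtain ⟨k, hk⟩ := Nat.exists_eq_succ_of_ne_zero hm0
    have hk1 : ¬ iterCommutator (P₁ ⊓ Subgroup.centralizer (C : Set P)) ⊤ k ≤ M :=
      Nat.find_min hex (by omega)
    have hk2 : iterCommutator (P₁ ⊓ Subgroup.centralizer (C : Set P)) ⊤ (k + 1) ≤ M := by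
      have h1 := Nat.find_spec hex
      rwa [hk] at h1
    obtain ⟨y, hy, hyM⟩ := SetLike.not_le_iff_exists.mp hk1
    have hyH : y ∈ P₁ ⊓ Subgroup.centralizer (C : Set P) := iter_le_self' _ _ k hy
    have hyc : ∀ g : P, ⁅y, g⁆ ∈ M := fun g =>
      hk2 (Subgroup.commutator_mem_commutator hy (Subgroup.mem_top g))
    obtain ⟨a, ha⟩ := hP y
    have hex2 : ∃ j : ℕ, y ^ p ^ j ∈ M := ⟨a, by rw [ha]; exact M.one_mem⟩
    have hj0 : Nat.find hex2 ≠ 0 := by
      intro h0
      have h1 := Nat.find_spec hex2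
      rw [h0, pow_zero, pow_one] at h1
      exact hyM h1
    obtain ⟨j, hj⟩ := Nat.exists_eq_succ_of_ne_zero hj0
    have hj1 : ¬ y ^ p ^ j ∈ M := Nat.find_min hex2 (by omega)
    have hj2 : (y ^ p ^ j) ^ p ∈ M := by
      have h1 := Nat.find_spec hex2
      rw [hj, Nat.succ_eq_add_one, pow_succ, pow_mul] at h1
      exact h1
    have hxH := Subgroup.mem_inf.mp
      (Subgroup.pow_mem (P₁ ⊓ Subgroup.centralizer (C : Set P)) hyH (p ^ j))
    have hxC : y ^ p ^ j ∈ C := by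
      rw [hCmem]
      refine ⟨hxH.1, fun m hm => ?_, comm_pow_mem M hyc _, hj2⟩
      exact Subgroup.mem_centralizer_iff.mp hxH.2 m (hMC hm)
    exact hj1 (hZC _ hxC (Subgroup.mem_centralizer_iff.mp hxH.2))
  -- detection: from `C` to `P₁`
  have hdetC : ∀ α ∈ G, (orderOf α).Coprime p → (∀ c ∈ C, α c = c) → ∀ x ∈ P₁, α x = x := by
    intro α hα hcop hfix x hx
    apply fix_of_comm_fix hP α hcop x
    have hc1 : x⁻¹ * α x ∈ P₁ := mul_mem (inv_mem hx) (hP₁inv α hα x hx)
    have hc2 : ∀ c ∈ C, c * (x⁻¹ * α x) = (x⁻¹ * α x) * c := by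
      intro c hc
      have h1 : α (x * c * x⁻¹) = x * c * x⁻¹ := hfix _ (hCn.conj_mem c hc x)
      rw [map_mul, map_mul, map_inv, hfix c hc] at h1
      calc c * (x⁻¹ * α x) = x⁻¹ * (x * c * x⁻¹) * α x := by group
        _ = x⁻¹ * (α x * c * (α x)⁻¹) * α x := by rw [h1]
        _ = x⁻¹ * α x * c := by group
    exact hfix _ (hMC (hCcent _ hc1 hc2))
  -- the exponent
  obtain ⟨e, he⟩ : ∃ e : ℕ, e = if p = 2 then 4 else p := ⟨_, rfl⟩
  have hpe : p ∣ e := by
    by_cases h2 : p = 2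
    · rw [he, if_pos h2, h2]; decide
    · rw [he, if_neg h2]
  have hpT : p ∣ e.choose 2 := by
    by_cases h2 : p = 2
    · rw [he, if_pos h2, h2]; decide
    · rw [he, if_neg h2]
      have h3 : 2 < p := lt_of_le_of_ne hp.two_le (Ne.symm h2)
      exact hp.dvd_choose_self (by norm_num) h3
  have hxe : ∀ x ∈ C, x ^ e ∈ M := by
    intro x hx
    obtain ⟨t, ht⟩ := hpe
    rw [ht, pow_mul]
    exact M.pow_mem (hCpow x hx) t
  have hpow : ∀ x ∈ C, ∀ y ∈ C, (x * y) ^ e = x ^ e * y ^ e := by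
    intro x hx y hy
    obtain ⟨c, hc⟩ : ∃ c : P, c = (x * y)⁻¹ * (y * x) := ⟨_, rfl⟩
    have hyx : y * x = x * y * c := by rw [hc]; group
    have hcM : c ∈ M := by
      have e1 : c = ⁅y⁻¹, x⁻¹⁆ := by
        rw [hc]; simp only [commutatorElement_def]; group
      rw [e1]
      exact hCcomm _ (C.inv_mem hy) _
    have hcx : Commute c x := hCM x hx c hcM
    have hcy : Commute c y := hCM y hy c hcM
    have hcp : c ^ p = 1 := by
      have h1 := pow_mul_comm_aux hyx hcy p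
      have h2 : y ^ p * x = x * y ^ p := hCM x hx _ (hCpow y hy)
      rw [h2] at h1
      have h3 : x * y ^ p * c ^ p = x * y ^ p * 1 := by rw [mul_one]; exact h1.symm
      exact mul_left_cancel h3
    have hcT : c ^ (e.choose 2) = 1 := by
      obtain ⟨t, ht⟩ := hpT
      rw [ht, pow_mul, hcp, one_pow]
    rw [mul_pow_class2 hyx hcx hcy e, hcT, mul_one]
  obtain ⟨D, hDdef⟩ : ∃ D : Subgroup P, D = omegaSub C e hpow := ⟨_, rfl⟩
  have hDmem : ∀ x : P, x ∈ D ↔ x ∈ C ∧ x ^ e = 1 := by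
    intro x; rw [hDdef]; exact Iff.rfl
  have hDC : D ≤ C := fun x hx => ((hDmem x).mp hx).1
  have hDinv : GInv G D := by
    intro α hα x hx
    rw [hDmem] at hx ⊢
    exact ⟨hCinv α hα x hx.1, by rw [← map_pow, hx.2, map_one]⟩
  have hDn : D.Normal := hDinv.normal hG
  -- detection by `D`
  have h5 : ∀ α ∈ G, (orderOf α).Coprime p → (∀ d ∈ D, α d = d) → α = 1 := by
    intro α hα hcop hfix
    have hM1 : ∀ k : ℕ, ∀ x ∈ M, x ^ p ^ k = 1 → α x = x := by
      intro k
      induction k with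
      | zero =>
        intro x _ hx
        rw [pow_zero, pow_one] at hx
        rw [hx, map_one]
      | succ k ih =>
        intro x hx hxk
        apply fix_of_comm_fix hP α hcop x
        have hαx : α x ∈ M := hMinv α hα x hx
        have hcM : x⁻¹ * α x ∈ M := mul_mem (inv_mem hx) hαx
        have hcp : (x⁻¹ * α x) ^ p = 1 := by
          have hcomm : Commute x⁻¹ (α x) := hMab _ (inv_mem hx) _ hαx
          rw [hcomm.mul_pow, inv_pow, ← map_pow,
            ih (x ^ p) (M.pow_mem hx p) (by rw [← pow_mul, ← pow_succ']; exact hxk)]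
          exact inv_mul_cancel _
        apply hfix
        rw [hDmem]
        refine ⟨hMC hcM, ?_⟩
        obtain ⟨t, ht⟩ := hpe
        rw [ht, pow_mul, hcp, one_pow]
    have hM2 : ∀ x ∈ M, α x = x := fun x hx => by
      obtain ⟨k, hk⟩ := hP x
      exact hM1 k x hx hk
    have hC2 : ∀ x ∈ C, α x = x := by
      intro x hx
      apply fix_of_comm_fix hP α hcop x
      have hαx : α x ∈ C := hCinv α hα x hx
      apply hfix
      rw [hDmem]
      refine ⟨mul_mem (inv_mem hx) hαx, ?_⟩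
      rw [hpow _ (inv_mem hx) _ hαx, inv_pow, ← map_pow, hM2 _ (hxe x hx)]
      exact inv_mul_cancel _
    exact hP₁det α hα hcop (hdetC α hα hcop hC2)
  refine ⟨D, fun α hα => hDinv.map_eq hα, hDC.trans hCP₁, ?_, ?_, h5, ?_⟩
  · intro d hd
    have hd' := ((hDmem d).mp hd).2
    by_cases h2 : p = 2
    · right
      rw [he, if_pos h2] at hd'
      exact ⟨h2, hd'⟩
    · left
      rw [he, if_neg h2] at hd'
      exact hd'
  · rw [Subgroup.commutator_le]
    intro d hd g _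
    refine Subgroup.mem_inf.mpr ⟨?_, Subgroup.mem_centralizer_iff.mpr ?_⟩
    · have e1 : ⁅d, g⁆ = d * (g * d⁻¹ * g⁻¹) := by
        simp only [commutatorElement_def]; group
      rw [e1]
      exact D.mul_mem hd (hDn.conj_mem _ (D.inv_mem hd) g)
    · intro h hh
      exact (hCM h (hDC hh) _ (hCcomm d (hDC hd) g)).symm
  · intro A hAD hAab hAmax
    have hAc : ∀ a ∈ A, ∀ b ∈ A, a * b = b * a := fun a ha b hb =>
      setLike_mul_comm (s := A) ha hb
    have hself : ∀ z ∈ D, (∀ a ∈ A, z * a = a * z) → z ∈ A := by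
      intro z hz hza
      have hB : IsMulCommutative ↥(A ⊔ Subgroup.zpowers z) :=
        IsMulCommutative.of_setLike_mul_comm (comm_sup_zpowers A z hAc hza)
      have h1 := hAmax (A ⊔ Subgroup.zpowers z) le_sup_left
        (sup_le hAD (by rw [Subgroup.zpowers_le]; exact hz)) hB
      rw [← h1]
      exact (le_sup_right : Subgroup.zpowers z ≤ A ⊔ Subgroup.zpowers z)
        (Subgroup.mem_zpowers z)
    have hAn : A.Normal := by
      constructor
      intro a ha g
      have e1 : g * a * g⁻¹ = ⁅g, a⁆ * a := by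
        simp only [commutatorElement_def]; group
      rw [e1]
      refine A.mul_mem (hself _ ?_ ?_) ha
      · have e2 : ⁅g, a⁆ = (g * a * g⁻¹) * a⁻¹ := by
          simp only [commutatorElement_def]
        rw [e2]
        exact D.mul_mem (hDn.conj_mem _ (hAD ha) g) (D.inv_mem (hAD ha))
      · intro b hb
        have e2 : ⁅g, a⁆ = ⁅a, g⁆⁻¹ := by
          simp only [commutatorElement_def]; group
        rw [e2]
        exact hCM b (hDC (hAD hb)) _ (M.inv_mem (hCcomm a (hDC (hAD ha)) g))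
    refine ⟨hAn, fun α hα hfixA => ?_⟩
    have hn0 : orderOf α ≠ 0 := (orderOf_pos α).ne'
    obtain ⟨k, r, hr, hkr⟩ := Nat.exists_eq_pow_mul_and_not_dvd hn0 p hp.ne_one
    have hβG : α ^ p ^ k ∈ G := G.pow_mem hα _
    have hβr : (α ^ p ^ k) ^ r = 1 := by rw [← pow_mul, ← hkr, pow_orderOf_eq_one]
    have hβcop : (orderOf (α ^ p ^ k)).Coprime p :=
      Nat.Coprime.coprime_dvd_left (orderOf_dvd_of_pow_eq_one hβr)
        ((Nat.Prime.coprime_iff_not_dvd hp).mpr hr).symm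
    have hpowA : ∀ n : ℕ, ∀ a ∈ A, (α ^ n) a = a := by
      intro n
      induction n with
      | zero => intro a _; simp
      | succ n ih =>
        intro a ha
        rw [pow_succ, MulAut.mul_apply, hfixA a ha, ih a ha]
    have hβA : ∀ a ∈ A, (α ^ p ^ k) a = a := hpowA _
    have hβD : ∀ d ∈ D, (α ^ p ^ k) d = d := by
      intro d hd
      apply fix_of_comm_fix hP _ hβcop d
      have hβd : (α ^ p ^ k) d ∈ D := hDinv _ hβG d hd
      have hcD : d⁻¹ * (α ^ p ^ k) d ∈ D := mul_mem (inv_mem hd) hβd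
      have hcA : d⁻¹ * (α ^ p ^ k) d ∈ A := hself _ hcD (by
        intro a ha
        have h1 : (α ^ p ^ k) (d * a * d⁻¹) = d * a * d⁻¹ := hβA _ (hAn.conj_mem a ha d)
        rw [map_mul, map_mul, map_inv, hβA a ha] at h1
        calc d⁻¹ * (α ^ p ^ k) d * a
            = d⁻¹ * ((α ^ p ^ k) d * a * ((α ^ p ^ k) d)⁻¹) * (α ^ p ^ k) d := by group
          _ = d⁻¹ * (d * a * d⁻¹) * (α ^ p ^ k) d := by rw [h1]
          _ = a * (d⁻¹ * (α ^ p ^ k) d) := by group)
      exact hβA _ hcA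
    have hβ1 : α ^ p ^ k = 1 := h5 _ hβG hβcop hβD
    have hdvd : orderOf α ∣ p ^ k := orderOf_dvd_of_pow_eq_one hβ1
    obtain ⟨j, -, hj⟩ := (Nat.dvd_prime_pow hp).mp hdvd
    exact ⟨j, hj⟩

end Cfsg.Agent.S1949
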