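import Cfsg.Statements.S1954
import Cfsg.Agent.Lib.Helper14.ChainStab

set_option autoImplicit false
open Cfsg

namespace Cfsg.Agent.S1954

open Cfsg.Agent.Lib.Helper14

/-- Let N be a normal subgroup of the finite group G, P a Sylow p-subgroup of G, and V a subgroup of P ∩ N normal in P ∩ N such that N_N(V) controls strong fusion in P ∩ N with respect to N (whenever a subgroup A of P ∩ N has n A n⁻¹ ≤ P ∩ N for some n in N, then n = h c with h in N_N(V) and c in C_N(A)). Let W be the subgroup generated by the conjugates of V under N_G(P ∩ N). Then N_G(W) controls strong fusion in P with respect to G. -/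
theorem result {G : Type*} [Group G] [Finite G] {p : ℕ} [Fact p.Prime] (N : Subgroup G) [N.Normal] (P : Sylow p G) (V : Subgroup G)
    (hV : V ≤ (P : Subgroup G) ⊓ N) (hVn : ∀ x ∈ (P : Subgroup G) ⊓ N, V.map (MulAut.conj x).toMonoidHom = V)
    (hctrl : ∀ A : Subgroup G, A ≤ (P : Subgroup G) ⊓ N → ∀ n ∈ N, A.map (MulAut.conj n).toMonoidHom ≤ (P : Subgroup G) ⊓ N →
      ∃ h ∈ N ⊓ Subgroup.normalizer (V : Set G), ∃ c ∈ N ⊓ Subgroup.centralizer (A : Set G), n = h * c)
    (W : Subgroup G) (hW : W = Subgroup.closure (⋃ x ∈ Subgroup.normalizer (((P : Subgroup G) ⊓ N : Subgroup G) : Set G),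
      ((V.map (MulAut.conj x).toMonoidHom : Subgroup G) : Set G))) :
    ∀ A : Subgroup G, A ≤ (P : Subgroup G) → ∀ g : G, A.map (MulAut.conj g).toMonoidHom ≤ (P : Subgroup G) →
        ∃ h ∈ Subgroup.normalizer (W : Set G), ∃ c ∈ Subgroup.centralizer (A : Set G), g = h * c := by
  classical
  have hPp := P.isPGroup'
  have hNn : ∀ g : G, ∀ z ∈ N, g * z * g⁻¹ ∈ N := fun g z hz => ‹N.Normal›.conj_mem z hz g
  have hNnorm : ∀ g : G, g ∈ Subgroup.normalizer (N : Set G) := by
    intro g
    rw [Subgroup.mem_normalizer_iff]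
    intro z
    refine ⟨fun hz => hNn g z hz, fun hz => ?_⟩
    have := hNn g⁻¹ _ hz
    have e : g⁻¹ * (g * z * g⁻¹) * g⁻¹⁻¹ = z := by group
    rwa [e] at this
  have hKp : IsPGroup p ↥((P : Subgroup G) ⊓ N) := hPp.to_le inf_le_left
  have hKN : (P : Subgroup G) ⊓ N ≤ N := inf_le_right
  -- `P ⊓ N` is a Sylow subgroup of `N`
  have hKidx : ¬ p ∣ ((P : Subgroup G) ⊓ N).relIndex N := by
    obtain ⟨K', hKK', hK'N, hK'p, hK'idx⟩ := exists_relSylow_ge hKp hKN
    obtain ⟨g, hg⟩ := exists_map_conj_le_sylow P hK'p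
    have hle : K'.map (MulAut.conj g).toMonoidHom ≤ (P : Subgroup G) ⊓ N := by
      refine le_inf hg ?_
      intro z hz
      rw [mem_map_conj_iff] at hz
      have := hNn g _ (hK'N hz)
      have e : g * (g⁻¹ * z * g) * g⁻¹ = z := by group
      rwa [e] at this
    have hcard : Nat.card K' ≤ Nat.card ↥((P : Subgroup G) ⊓ N) := by
      have := Subgroup.card_le_of_le hle
      rwa [card_map_conj] at this
    have : (P : Subgroup G) ⊓ N = K' := Subgroup.eq_of_le_of_card_ge hKK' hcard
    rw [this]; exact hK'idx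
  -- Frattini
  have hfrat : ∀ g : G, ∃ m ∈ Subgroup.normalizer ((((P : Subgroup G) ⊓ N : Subgroup G)) : Set G),
      ∃ n ∈ N, g = m * n := by
    intro g
    have h1 : (((P : Subgroup G) ⊓ N).map (MulAut.conj g⁻¹).toMonoidHom) ≤ N := by
      intro z hz
      rw [mem_map_conj_iff] at hz
      have := hNn g⁻¹ _ (hKN hz)
      have e : g⁻¹ * (g⁻¹⁻¹ * z * g⁻¹) * g⁻¹⁻¹ = z := by group
      rwa [e] at this
    obtain ⟨n, hnN, hn⟩ := exists_conj_mem_of_relIndex hKp hKidx (hKp.map _) h1
    have h2 : ((P : Subgroup G) ⊓ N).map (MulAut.conj (n * g⁻¹)).toMonoidHom =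
        (P : Subgroup G) ⊓ N := by
      apply Subgroup.eq_of_le_of_card_ge
      · rw [← map_conj_map_conj]
        intro z hz
        rw [mem_map_conj_iff] at hz
        have h3 := hn _ hz
        have e : n * (n⁻¹ * z * n) * n⁻¹ = z := by group
        rwa [e] at h3
      · rw [card_map_conj]
    have h3 := mem_normalizer_of_map_conj_eq h2
    refine ⟨(n * g⁻¹)⁻¹, inv_mem h3, n, hnN, by group⟩
  have hPM : (P : Subgroup G) ≤ Subgroup.normalizer ((((P : Subgroup G) ⊓ N : Subgroup G)) : Set G) := by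
    intro s hs
    apply mem_normalizer_of_map_conj_eq
    rw [map_conj_inf, map_conj_eq_self_of_mem_normalizer (Subgroup.le_normalizer hs),
      map_conj_eq_self_of_mem_normalizer (hNnorm s)]
  have hVK : ∀ x ∈ Subgroup.normalizer ((((P : Subgroup G) ⊓ N : Subgroup G)) : Set G),
      V.map (MulAut.conj x).toMonoidHom ≤ (P : Subgroup G) ⊓ N := by
    intro x hx
    have := Subgroup.map_mono (f := (MulAut.conj x).toMonoidHom) hV
    rwa [map_conj_eq_self_of_mem_normalizer hx] at this
  have hVW : ∀ x ∈ Subgroup.normalizer ((((P : Subgroup G) ⊓ N : Subgroup G)) : Set G),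
      V.map (MulAut.conj x).toMonoidHom ≤ W := by
    intro x hx z hz
    rw [hW]
    apply Subgroup.subset_closure
    exact Set.mem_iUnion₂.mpr ⟨x, hx, hz⟩
  have hWK : W ≤ (P : Subgroup G) ⊓ N := by
    rw [hW, Subgroup.closure_le]
    intro z hz
    obtain ⟨x, hx, hzx⟩ := Set.mem_iUnion₂.mp hz
    exact hVK x hx hzx
  -- an element normalizing all the conjugates normalizes `W`
  have hnormW : ∀ n : G, (∀ x ∈ Subgroup.normalizer ((((P : Subgroup G) ⊓ N : Subgroup G)) : Set G),
      ∃ x' ∈ Subgroup.normalizer ((((P : Subgroup G) ⊓ N : Subgroup G)) : Set G),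
        (V.map (MulAut.conj x).toMonoidHom).map (MulAut.conj n).toMonoidHom =
          V.map (MulAut.conj x').toMonoidHom) → n ∈ Subgroup.normalizer (W : Set G) := by
    intro n hn
    apply mem_normalizer_of_map_conj_eq
    apply Subgroup.eq_of_le_of_card_ge
    · conv_lhs => rw [hW]
      rw [MonoidHom.map_closure, Subgroup.closure_le]
      rintro _ ⟨y, hy, rfl⟩
      obtain ⟨x, hx, hyx⟩ := Set.mem_iUnion₂.mp hy
      obtain ⟨x', hx', hxx'⟩ := hn x hx
      apply hVW x' hx'
      rw [← hxx']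
      exact Subgroup.mem_map_of_mem _ hyx
    · rw [card_map_conj]
  have hMW : Subgroup.normalizer ((((P : Subgroup G) ⊓ N : Subgroup G)) : Set G) ≤
      Subgroup.normalizer (W : Set G) := by
    intro m hm
    apply hnormW
    intro x hx
    exact ⟨m * x, mul_mem hm hx, map_conj_map_conj V x m⟩
  -- control by each conjugate of `V`
  have hctrlU : ∀ x ∈ Subgroup.normalizer ((((P : Subgroup G) ⊓ N : Subgroup G)) : Set G),
      ∀ A : Subgroup G, A ≤ (P : Subgroup G) ⊓ N → ∀ n ∈ N,
      A.map (MulAut.conj n).toMonoidHom ≤ (P : Subgroup G) ⊓ N →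
      ∃ h ∈ N ⊓ Subgroup.normalizer ((V.map (MulAut.conj x).toMonoidHom : Subgroup G) : Set G),
        ∃ c ∈ N ⊓ Subgroup.centralizer (A : Set G), n = h * c := by
    intro x hx A hA n hn hAn
    have hxi : x⁻¹ ∈ Subgroup.normalizer ((((P : Subgroup G) ⊓ N : Subgroup G)) : Set G) := inv_mem hx
    have hA' : A.map (MulAut.conj x⁻¹).toMonoidHom ≤ (P : Subgroup G) ⊓ N := by
      have := Subgroup.map_mono (f := (MulAut.conj x⁻¹).toMonoidHom) hA
      rwa [map_conj_eq_self_of_mem_normalizer hxi] at this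
    have hn' : x⁻¹ * n * x ∈ N := by
      have := hNn x⁻¹ n hn
      simpa using this
    have hA'n' : (A.map (MulAut.conj x⁻¹).toMonoidHom).map (MulAut.conj (x⁻¹ * n * x)).toMonoidHom ≤
        (P : Subgroup G) ⊓ N := by
      rw [map_conj_map_conj]
      have e : x⁻¹ * n * x * x⁻¹ = x⁻¹ * n := by group
      rw [e, ← map_conj_map_conj]
      have := Subgroup.map_mono (f := (MulAut.conj x⁻¹).toMonoidHom) hAn
      rwa [map_conj_eq_self_of_mem_normalizer hxi] at this
    obtain ⟨h', hh', c', hc', hnhc⟩ := hctrl _ hA' _ hn' hA'n'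
    obtain ⟨hh'N, hh'V⟩ := Subgroup.mem_inf.mp hh'
    obtain ⟨hc'N, hc'C⟩ := Subgroup.mem_inf.mp hc'
    refine ⟨x * h' * x⁻¹, Subgroup.mem_inf.mpr ⟨hNn x h' hh'N, ?_⟩,
      x * c' * x⁻¹, Subgroup.mem_inf.mpr ⟨hNn x c' hc'N, ?_⟩, ?_⟩
    · rw [mem_normalizer_map_conj_iff]
      have e : x⁻¹ * (x * h' * x⁻¹) * x = h' := by group
      rw [e]; exact hh'V
    · have e1 : A = (A.map (MulAut.conj x⁻¹).toMonoidHom).map (MulAut.conj x).toMonoidHom := by
        rw [map_conj_map_conj, mul_inv_cancel, map_conj_one]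
      rw [e1, mem_centralizer_map_conj_iff]
      have e : x⁻¹ * (x * c' * x⁻¹) * x = c' := by group
      rw [e]; exact hc'C
    · have e : n = x * (x⁻¹ * n * x) * x⁻¹ := by group
      rw [e, hnhc]; group
  -- control by `W`
  have hctrlW : ∀ (d : ℕ) (A : Subgroup G), A ≤ (P : Subgroup G) ⊓ N →
      Nat.card ↥((P : Subgroup G) ⊓ N) - Nat.card A = d → ∀ n ∈ N,
      A.map (MulAut.conj n).toMonoidHom ≤ (P : Subgroup G) ⊓ N →
      ∃ h ∈ N ⊓ Subgroup.normalizer (W : Set G),
        ∃ c ∈ N ⊓ Subgroup.centralizer (A : Set G), n = h * c := by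
    intro d
    induction d using Nat.strong_induction_on with
    | _ d ih =>
      intro A hA hd n hn hAn
      by_cases hall : ∀ x ∈ Subgroup.normalizer ((((P : Subgroup G) ⊓ N : Subgroup G)) : Set G),
          V.map (MulAut.conj x).toMonoidHom ≤ A
      · refine ⟨n, Subgroup.mem_inf.mpr ⟨hn, ?_⟩, 1, one_mem _, by simp⟩
        apply hnormW
        intro x hx
        refine ⟨x, hx, ?_⟩
        obtain ⟨h, hh, c, hc, hnhc⟩ := hctrlU x hx A hA n hn hAn
        have hcU : c ∈ Subgroup.normalizer ((V.map (MulAut.conj x).toMonoidHom : Subgroup G) : Set G) :=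
          Subgroup.centralizer_le_normalizer _
            (Subgroup.centralizer_le (SetLike.coe_subset_coe.mpr (hall x hx)) (Subgroup.mem_inf.mp hc).2)
        have hnU : n ∈ Subgroup.normalizer ((V.map (MulAut.conj x).toMonoidHom : Subgroup G) : Set G) := by
          rw [hnhc]; exact mul_mem (Subgroup.mem_inf.mp hh).2 hcU
        exact map_conj_eq_self_of_mem_normalizer hnU
      · push Not at hall
        obtain ⟨x, hx, hxA⟩ := hall
        obtain ⟨h', hh', c', hc', hnhc⟩ := hctrlU x hx A hA n hn hAn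
        obtain ⟨hh'N, hh'U⟩ := Subgroup.mem_inf.mp hh'
        obtain ⟨hc'N, hc'C⟩ := Subgroup.mem_inf.mp hc'
        have hA'K : A ⊔ V.map (MulAut.conj x).toMonoidHom ≤ (P : Subgroup G) ⊓ N :=
          sup_le hA (hVK x hx)
        have hAh' : A.map (MulAut.conj h').toMonoidHom = A.map (MulAut.conj n).toMonoidHom := by
          rw [hnhc, ← map_conj_map_conj,
            map_conj_eq_self_of_mem_normalizer (Subgroup.centralizer_le_normalizer _ hc'C)]
        have hA'h' : (A ⊔ V.map (MulAut.conj x).toMonoidHom).map (MulAut.conj h').toMonoidHom ≤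
            (P : Subgroup G) ⊓ N := by
          rw [Subgroup.map_sup, hAh', map_conj_eq_self_of_mem_normalizer hh'U]
          exact sup_le hAn (hVK x hx)
        have hlt : Nat.card A < Nat.card ↥(A ⊔ V.map (MulAut.conj x).toMonoidHom) := by
          by_contra hcon; push Not at hcon
          have := Subgroup.eq_of_le_of_card_ge (le_sup_left : A ≤ A ⊔ V.map (MulAut.conj x).toMonoidHom) hcon
          apply hxA
          rw [this]; exact le_sup_right
        have hle := Subgroup.card_le_of_le hA'K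
        obtain ⟨h, hh, c'', hc'', hh'eq⟩ := ih _ (by omega) _ hA'K rfl h' hh'N hA'h'
        refine ⟨h, hh, c'' * c', Subgroup.mem_inf.mpr ⟨mul_mem (Subgroup.mem_inf.mp hc'').1 hc'N,
          mul_mem (Subgroup.centralizer_le (SetLike.coe_subset_coe.mpr le_sup_left)
            (Subgroup.mem_inf.mp hc'').2) hc'C⟩, ?_⟩
        rw [hnhc, hh'eq, mul_assoc]
  -- strong closure of the lower central series of `W`
  have hNlcs : ∀ i, Subgroup.normalizer (W : Set G) ≤
      Subgroup.normalizer ((W.lowerCentralSeries i : Subgroup G) : Set G) := by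
    intro i x hx
    apply mem_normalizer_of_map_conj_eq
    rw [Subgroup.map_lowerCentralSeries, map_conj_eq_self_of_mem_normalizer hx]
  have hSC : ∀ i, ∀ x ∈ W.lowerCentralSeries i, ∀ g : G, g * x * g⁻¹ ∈ (P : Subgroup G) →
      g * x * g⁻¹ ∈ W.lowerCentralSeries i := by
    intro i x hx g hgx
    have hxW : x ∈ W := by
      have := Subgroup.lowerCentralSeries_antitone W (Nat.zero_le i) hx
      simpa using this
    have hxK : x ∈ (P : Subgroup G) ⊓ N := hWK hxW
    have hgxK : g * x * g⁻¹ ∈ (P : Subgroup G) ⊓ N :=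
      Subgroup.mem_inf.mpr ⟨hgx, hNn g x (Subgroup.mem_inf.mp hxK).2⟩
    obtain ⟨m, hm, n, hn, hgmn⟩ := hfrat g
    have hnx : n * x * n⁻¹ ∈ (P : Subgroup G) ⊓ N := by
      have h1 := (Subgroup.mem_normalizer_iff.mp (inv_mem hm) (g * x * g⁻¹)).mp hgxK
      have e : m⁻¹ * (g * x * g⁻¹) * m⁻¹⁻¹ = n * x * n⁻¹ := by rw [hgmn]; group
      rwa [e] at h1
    have hA : Subgroup.zpowers x ≤ (P : Subgroup G) ⊓ N := by
      rw [Subgroup.zpowers_le]; exact hxK
    have hAn : (Subgroup.zpowers x).map (MulAut.conj n).toMonoidHom ≤ (P : Subgroup G) ⊓ N := by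
      rw [MonoidHom.map_zpowers, Subgroup.zpowers_le]
      simpa using hnx
    obtain ⟨h, hh, c, hc, hnhc⟩ := hctrlW _ _ hA rfl n hn hAn
    have h1 : n * x * n⁻¹ = h * x * h⁻¹ :=
      conj_eq_of_mem_centralizer (Subgroup.mem_inf.mp hc).2 hnhc (Subgroup.mem_zpowers x)
    have h2 : h * x * h⁻¹ ∈ W.lowerCentralSeries i :=
      (Subgroup.mem_normalizer_iff.mp (hNlcs i (Subgroup.mem_inf.mp hh).2) x).mp hx
    have h3 : m * (n * x * n⁻¹) * m⁻¹ ∈ W.lowerCentralSeries i := by
      rw [h1]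
      exact (Subgroup.mem_normalizer_iff.mp (hNlcs i (hMW hm)) _).mp h2
    have e : g * x * g⁻¹ = m * (n * x * n⁻¹) * m⁻¹ := by rw [hgmn]; group
    rw [e]; exact h3
  intro A hA g hAg
  exact control_of_strongly_closed_lcs P (hWK.trans inf_le_left) hSC _ A hA rfl g hAg

end Cfsg.Agent.S1954
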