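import Cfsg.Statements.S1969
import Cfsg.Agent.Lib.Helper14.SecMain

set_option autoImplicit false
universe u
open Cfsg

namespace Cfsg.Agent.S1969

open Cfsg.Agent.Lib.Helper14 in
theorem chain_mem_normalizer {X : Type u} [Group X] {𝓦 : Set (Subgroup X → Subgroup X)}
    {H T V : Subgroup X} (hV : ∀ W' ∈ 𝓦, W' T = V) {A : Set X} {c : X}
    (h : LChain 𝓦 H T A c) : c ∈ Subgroup.normalizer (V : Set X) := by
  induction h with
  | nil _ => exact one_mem _
  | snoc c₀ y W' _ hW' hy _ ih =>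
    have h1 := (Subgroup.mem_inf.mp hy).2
    rw [hV W' hW'] at h1
    exact mul_mem h1 ih

/-- Let p be a prime, G a finite group and W an isomorphism-invariant p-group functor (W assigns to every group Q a subgroup W(Q), nontrivial whenever Q is a nontrivial finite p-group, and every isomorphism from a finite p-group Q onto a group R carries W(Q) onto W(R)). Suppose that W(S*) is normal in G* whenever G* = K/R is a section of G with C_{G*}(O_p(G*)) ≤ O_p(G*) and S* is a Sylow p-subgroup of G*. Then W controls strong fusion in every section of G: for every section K/R and every Sylow p-subgroup T of K/R, the subgroup W(T) controls strong fusion in K/R. -/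
theorem result {G : Type u} [Group G] [Finite G] {p : ℕ} [Fact p.Prime] (W : ∀ (Q : Type u) [Group Q], Subgroup Q) (hW : Cfsg.IsCharPFunctor.{u} p W) (hloc : ∀ (K R : Subgroup G) [hR : (R.subgroupOf K).Normal], Subgroup.centralizer ((Cfsg.pCore p (↥K ⧸ R.subgroupOf K) : Subgroup (↥K ⧸ R.subgroupOf K)) : Set (↥K ⧸ R.subgroupOf K)) ≤ Cfsg.pCore p (↥K ⧸ R.subgroupOf K) → ∀ T : Sylow p (↥K ⧸ R.subgroupOf K), (Cfsg.inducedFunctor (G := (↥K ⧸ R.subgroupOf K)) W ((T : Subgroup (↥K ⧸ R.subgroupOf K)))).Normal) : ∀ (K R : Subgroup G) [hR : (R.subgroupOf K).Normal], ∀ T : Sylow p (↥K ⧸ R.subgroupOf K), Cfsg.ControlsStrongFusion p (Cfsg.inducedFunctor (G := (↥K ⧸ R.subgroupOf K)) W ((T : Subgroup (↥K ⧸ R.subgroupOf K)))) := by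
  open Cfsg.Agent.Lib.Helper14 in
  have h𝓦 : ∀ W' ∈ ({W} : Set (∀ (Q : Type u) [Group Q], Subgroup Q)),
      Cfsg.IsCharPFunctor.{u} p W' := by
    intro W' hW'
    rw [Set.mem_singleton_iff] at hW'
    exact hW' ▸ hW
  open Cfsg.Agent.Lib.Helper14 in
  have hsf := sf_sections (G := G) h𝓦 (fun X _ _ hX hC _ => by
    obtain ⟨K, R, hR, ⟨e⟩⟩ := hX
    have hC' := constrained_of_equiv e hC
    refine sf_of_equiv h𝓦 e.symm ?_
    intro S B y hB hBy
    have hn := hloc K R hC' S
    exact Reach.step hB ⟨W, rfl, rfl⟩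
      (by rw [Subgroup.normalizer_eq_top_iff.mpr hn]; exact Subgroup.mem_top y) hBy)
  intro K R hR T
  open Cfsg.Agent.Lib.Helper14 in
  refine ⟨T, inducedFunctor_le _, fun A hA => ⟨hA, fun g hg => ?_⟩⟩
  open Cfsg.Agent.Lib.Helper14 in
  obtain ⟨c, hc, hceq⟩ := hsf _ (isSection_literal K R) T A g hA hg
  refine ⟨c, ?_, fun a ha => (hceq a ha).symm⟩
  refine chain_mem_normalizer ?_ hc
  rintro _ ⟨W', hW', rfl⟩
  rw [Set.mem_singleton_iff] at hW'
  rw [hW']

end Cfsg.Agent.S1969
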