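import Cfsg.Statements.S1987
import Cfsg.Agent.S1969
import Cfsg.Agent.Lib.Helper14.KInfStableC
import Cfsg.Agent.Lib.Helper14.SecMain

set_option autoImplicit false
universe u
open Cfsg

namespace Cfsg.Agent.S1987

open Cfsg.Agent.Lib.Helper14 in
/-- Both K-infinity functors control strong fusion in a group all of whose sections are
`p`-stable in the normalizer form. -/
theorem kinf_sf {G : Type u} [Group G] [Finite G] {p : ℕ} [Fact p.Prime]
    (hst : ∀ (K R : Subgroup G) [hR : (R.subgroupOf K).Normal],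
      Cfsg.IsNormalizerPStable p (↥K ⧸ R.subgroupOf K))
    (W : ∀ (Q : Type u) [Group Q], Subgroup Q) (hW : Cfsg.IsCharPFunctor.{u} p W)
    (hWK : W = Cfsg.kInfLower ∨ W = Cfsg.kInfUpper) (S : Sylow p G) :
    Cfsg.ControlsStrongFusion p (Cfsg.inducedFunctor W (S : Subgroup G)) := by
  have h𝓦 : ∀ W' ∈ ({W} : Set (∀ (Q : Type u) [Group Q], Subgroup Q)),
      Cfsg.IsCharPFunctor.{u} p W' := by
    intro W' hW'
    rw [Set.mem_singleton_iff] at hW'
    exact hW' ▸ hW
  have hQG : ∀ (Y : Type u) [Group Y] [Finite Y], IsSection G Y → QStable p Y := by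
    intro Y _ _ hY
    obtain ⟨K, R, hR, ⟨e⟩⟩ := hY
    exact qStable_of_equiv e (qStable_of_nps (hst K R))
  have hsf := sf_sections (G := G) h𝓦 (fun X _ _ hX hC _ => by
    intro T B y hB hBy
    have hQX : ∀ (Y : Type u) [Group Y] [Finite Y], IsSection X Y → QStable p Y := by
      intro Y _ _ hY
      obtain ⟨K', R', hR', ⟨e⟩⟩ := hY
      exact hQG Y (((hX.subgroup K').quotient (R'.subgroupOf K')).of_equiv e)
    have hn2 := kinf_normal_of_qstable T hC hQX
    have hn : (Cfsg.inducedFunctor W (T : Subgroup X)).Normal := by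
      rcases hWK with h | h
      · rw [h]; exact hn2.1
      · rw [h]; exact hn2.2
    exact Reach.step hB ⟨W, rfl, rfl⟩
      (by rw [Subgroup.normalizer_eq_top_iff.mpr hn]; exact Subgroup.mem_top y) hBy)
  refine ⟨S, inducedFunctor_le _, fun A hA => ⟨hA, fun g hg => ?_⟩⟩
  obtain ⟨c, hc, hceq⟩ := hsf G (isSection_self G) S A g hA hg
  refine ⟨c, ?_, fun a ha => (hceq a ha).symm⟩
  refine Cfsg.Agent.S1969.chain_mem_normalizer ?_ hc
  rintro _ ⟨W', hW', rfl⟩
  rw [Set.mem_singleton_iff] at hW'
  rw [hW']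

/-- Let p be an odd prime and G a finite group every section of which is p-stable in the normalizer form (in each section, an element of the normalizer of a p-subgroup Q acting quadratically on Q maps into O_p of N(Q)/C(Q)). Then for every Sylow p-subgroup S of G the lower K-infinity subgroup of S controls strong fusion in G. -/
theorem result {G : Type u} [Group G] [Finite G] {p : ℕ} [Fact p.Prime] (hp : p ≠ 2) (hst : ∀ (K R : Subgroup G) [hR : (R.subgroupOf K).Normal], Cfsg.IsNormalizerPStable p (↥K ⧸ R.subgroupOf K)) (S : Sylow p G) : Cfsg.ControlsStrongFusion p (Cfsg.inducedFunctor Cfsg.kInfLower (S : Subgroup G)) := by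
  exact kinf_sf hst Cfsg.kInfLower (Cfsg.Agent.Lib.Helper14.isCharPFunctor_kInfLower p)
    (Or.inl rfl) S

end Cfsg.Agent.S1987
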