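import Cfsg.Statements.S1989
import Cfsg.Agent.S1987
import Cfsg.Agent.Lib.Helper14.QdRed
import Cfsg.Agent.Lib.Helper14.KInf
import Cfsg.Agent.Lib.Helper17.QdConv
import Cfsg.Agent.Lib.Helper19.QdSylow

set_option autoImplicit false
universe u
open Cfsg

namespace Cfsg.Agent.S1989

open Cfsg.Agent.S2762 Cfsg.Agent.Lib.Helper14.QdRecog Cfsg.Agent.Lib.Helper14.QdIrr
open scoped commutatorElement


theorem class_two_of_card {P : Type*} [Group P] {p : ℕ} [Fact p.Prime] (h : Nat.card P = p ^ 3) :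
    ⁅(⊤ : Subgroup P), ⊤⁆ ≤ Subgroup.centralizer ((⊤ : Subgroup P) : Set P) := by
  have hp : p.Prime := Fact.out
  haveI : Finite P := Nat.finite_of_card_ne_zero (by rw [h]; exact pow_ne_zero _ hp.ne_zero)
  have hP : IsPGroup p P := IsPGroup.of_card h
  haveI : Nontrivial P := by
    rw [← Finite.one_lt_card_iff_nontrivial, h]
    exact Nat.one_lt_pow (by norm_num) hp.one_lt
  have hZ : Nontrivial (Subgroup.center P) := hP.center_nontrivial
  obtain ⟨k, hk⟩ := IsPGroup.exists_card_eq (hP.to_subgroup (Subgroup.center P))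
  have hk1 : 1 ≤ k := by
    by_contra hk0
    have : k = 0 := by omega
    rw [this, pow_zero] at hk
    have h1 := (Finite.one_lt_card_iff_nontrivial (α := ↥(Subgroup.center P))).mpr hZ
    omega
  have hidx : Nat.card (P ⧸ Subgroup.center P) * p ^ k = p ^ 3 := by
    rw [← hk, ← h]; exact (Subgroup.card_eq_card_quotient_mul_card_subgroup _).symm
  have hk3 : k ≤ 3 := by
    by_contra hk4
    have h1 : p ^ k ∣ p ^ 3 := Dvd.intro_left _ hidx
    have := (Nat.pow_dvd_pow_iff_le_right hp.one_lt).mp h1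
    omega
  have hq : Nat.card (P ⧸ Subgroup.center P) = p ^ (3 - k) := by
    have h1 : p ^ 3 = p ^ (3 - k) * p ^ k := by rw [← pow_add]; congr 1; omega
    rw [h1] at hidx
    exact Nat.eq_of_mul_eq_mul_right (pow_pos hp.pos k) hidx
  have hcomm : ∀ a b : P ⧸ Subgroup.center P, a * b = b * a := by
    have hcases : 3 - k = 0 ∨ 3 - k = 1 ∨ 3 - k = 2 := by omega
    rcases hcases with h0 | h0 | h0
    · rw [h0, pow_zero] at hq
      haveI : Subsingleton (P ⧸ Subgroup.center P) := (Nat.card_eq_one_iff_unique.mp hq).1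
      intro a b
      exact Subsingleton.elim _ _
    · rw [h0, pow_one] at hq
      haveI : IsCyclic (P ⧸ Subgroup.center P) := isCyclic_of_prime_card hq
      intro a b
      have hc : IsMulCommutative (P ⧸ Subgroup.center P) := IsCyclic.isMulCommutative
      exact hc.is_comm.comm a b
    · rw [h0] at hq
      intro a b
      have hc : IsMulCommutative (P ⧸ Subgroup.center P) :=
        IsPGroup.isMulCommutative_of_card_eq_prime_sq hq
      exact hc.is_comm.comm a b
  rw [Subgroup.coe_top, Subgroup.centralizer_univ, Subgroup.commutator_le]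
  intro a _ b _
  have h1 := hcomm (a : P ⧸ Subgroup.center P) b
  rw [← QuotientGroup.eq_one_iff, commutatorElement_def]
  simp only [QuotientGroup.mk_mul, QuotientGroup.mk_inv]
  rw [h1]
  group

theorem kInfLower_eq_top {P : Type u} [Group P]
    (h : ⁅(⊤ : Subgroup P), ⊤⁆ ≤ Subgroup.centralizer ((⊤ : Subgroup P) : Set P)) :
    Cfsg.kInfLower P = ⊤ := by
  have h0 : (⊤ : Subgroup P) ∈ Cfsg.kLowerStarFamily (⊤ : Subgroup P) := by
    refine ⟨h, ?_, ?_⟩
    · intro x _
      rw [Subgroup.mem_normalizer_iff]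
      intro y
      simp
    intro A hA _ _ _ _
    exact le_inf le_top ((Subgroup.commutator_mono le_rfl le_top).trans h)
  have h1 : Cfsg.kSeqEven P 0 = ⊤ := by
    rw [eq_top_iff]
    exact le_sSup h0
  rw [eq_top_iff, ← h1]
  exact le_iSup (fun n => Cfsg.kSeqEven P n) 0

theorem cent_le_ker {p : ℕ} [Fact p.Prime] (q : ↥(Cfsg.qdOver (ZMod p)))
    (h : ∀ u : Fin 2 → ZMod p, q * transQ u = transQ u * q) : q ∈ (piHom (ZMod p)).ker := by
  obtain ⟨M, hM⟩ : ∃ M, M = piHom (ZMod p) q := ⟨_, rfl⟩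
  have h1 : q * (iotaHom (ZMod p) M)⁻¹ ∈ (piHom (ZMod p)).ker := by
    rw [MonoidHom.mem_ker, map_mul, map_inv, pi_iota, hM, mul_inv_cancel]
  have h2 := eq_transQ_of_mem_ker h1
  obtain ⟨c, hc⟩ : ∃ c : Fin 2 → ZMod p, q * (iotaHom (ZMod p) M)⁻¹ = transQ c := ⟨_, h2⟩
  have hq : q = transQ c * iotaHom (ZMod p) M := by rw [← hc]; group
  have hM1 : M = 1 := by
    apply Cfsg.Agent.Lib.Helper17.qd_centralizer_trivial
    intro u
    have h3 := h u
    rw [hq] at h3
    have h4 : transQ u * transQ c = transQ c * transQ (F := ZMod p) u := by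
      rw [transQ_mul, transQ_mul, add_comm]
    rw [← mul_assoc, h4, mul_assoc, mul_assoc] at h3
    exact (mul_left_cancel h3).symm
  rw [MonoidHom.mem_ker, ← hM, hM1]

theorem no_ctl {X : Type u} [Group X] [Finite X] {p : ℕ} [Fact p.Prime] (hp2 : p ≠ 2)
    (e : X ≃* ↥(Cfsg.qdOver (ZMod p))) (T : Sylow p X)
    (h : Cfsg.ControlsStrongFusion p
      (Cfsg.inducedFunctor Cfsg.kInfLower (T : Subgroup X))) : False := by
  classical
  have hp : p.Prime := Fact.out
  have hcard : Nat.card ↥(T : Subgroup X) = p ^ 3 := by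
    rw [Sylow.card_eq_multiplicity, Nat.card_congr e.toEquiv]
    exact congrArg _ (Cfsg.Agent.Lib.Helper19.QdSylow.factorization_card_qd p)
  have hU : Cfsg.inducedFunctor Cfsg.kInfLower (T : Subgroup X) = T := by
    unfold Cfsg.inducedFunctor
    rw [kInfLower_eq_top (class_two_of_card hcard), ← MonoidHom.range_eq_map, Subgroup.range_subtype]
  rw [hU] at h
  obtain ⟨T₁, hTT₁, hctl⟩ := h
  have hT1 : (T : Subgroup X) = T₁ := by
    exact (T.is_maximal' T₁.isPGroup' hTT₁).symm
  obtain ⟨V, hV⟩ : ∃ V : Subgroup X, V = (piHom (ZMod p)).ker.comap e.toMonoidHom := ⟨_, rfl⟩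
  have hVn : V.Normal := by rw [hV]; infer_instance
  have hVp : IsPGroup p V := by
    rw [hV]
    exact (ker_isPGroup p).comap_of_injective e.toMonoidHom e.injective
  have hVT : V ≤ T₁ := by
    obtain ⟨Q, hQ⟩ := hVp.exists_le_sylow
    obtain ⟨g, hg⟩ := MulAction.exists_smul_eq X Q T₁
    intro v hv
    rw [← hg, Sylow.coe_subgroup_smul, Subgroup.mem_pointwise_smul_iff_inv_smul_mem]
    apply hQ
    have := hVn.conj_mem v hv g⁻¹
    simpa [MulAut.smul_def] using this
  have hnorm : ∀ g : X, g ∈ Subgroup.normalizer ((T : Subgroup X) : Set X) := by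
    intro g
    obtain ⟨-, h2⟩ := hctl (V : Set X) hVT
    obtain ⟨x, hx, hxa⟩ := h2 g (by
      rintro _ ⟨a, ha, rfl⟩
      exact hVT (hVn.conj_mem a ha g))
    have hc : x⁻¹ * g ∈ V := by
      rw [hV, Subgroup.mem_comap]
      apply cent_le_ker
      intro u
      have hu : e.symm (transQ u) ∈ V := by
        rw [hV, Subgroup.mem_comap]
        show e (e.symm (transQ u)) ∈ _
        rw [MulEquiv.apply_symm_apply]
        exact transQ_mem_ker u
      have h3 := hxa _ hu
      have h4 : (x⁻¹ * g) * e.symm (transQ u) = e.symm (transQ u) * (x⁻¹ * g) := by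
        have h5 : g * e.symm (transQ u) = x * e.symm (transQ u) * x⁻¹ * g := by
          rw [← h3]; group
        calc x⁻¹ * g * e.symm (transQ u) = x⁻¹ * (g * e.symm (transQ u)) := by group
          _ = x⁻¹ * (x * e.symm (transQ u) * x⁻¹ * g) := by rw [h5]
          _ = e.symm (transQ u) * (x⁻¹ * g) := by group
      have h6 := congrArg e h4
      rw [map_mul e (x⁻¹ * g), map_mul e (e.symm _), MulEquiv.apply_symm_apply] at h6
      exact h6
    have h7 : x⁻¹ * g ∈ Subgroup.normalizer ((T : Subgroup X) : Set X) :=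
      Subgroup.le_normalizer (hT1 ▸ hVT hc)
    have h8 := mul_mem hx h7
    rwa [mul_inv_cancel_left] at h8
  have hTn : (T : Subgroup X).Normal :=
    Subgroup.normalizer_eq_top_iff.mp (eq_top_iff.mpr fun g _ => hnorm g)
  have hall : ∀ x : X, x ^ p = 1 → x ∈ (T : Subgroup X) := by
    intro x hx
    have hz : IsPGroup p (Subgroup.zpowers x) := by
      rintro ⟨y, hy⟩
      obtain ⟨i, rfl⟩ := Subgroup.mem_zpowers_iff.mp hy
      refine ⟨1, ?_⟩
      apply Subtype.ext
      simp only [pow_one, Subgroup.coe_pow, Subgroup.coe_one]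
      rw [← zpow_natCast, ← zpow_mul, mul_comm, zpow_mul, zpow_natCast, hx, one_zpow]
    obtain ⟨Q, hQ⟩ := hz.exists_le_sylow
    obtain ⟨g, hg⟩ := MulAction.exists_smul_eq X T Q
    have h1 : x ∈ (Q : Subgroup X) := hQ (Subgroup.mem_zpowers x)
    rw [← hg, Sylow.coe_subgroup_smul, Subgroup.mem_pointwise_smul_iff_inv_smul_mem] at h1
    have h1' : g⁻¹ * x * g ∈ (T : Subgroup X) := by simpa [MulAut.smul_def] using h1
    have h2 := hTn.conj_mem _ h1' g
    have h3 : g * (g⁻¹ * x * g) * g⁻¹ = x := by group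
    rwa [h3] at h2
  have hx := hall (e.symm (iotaHom (ZMod p) (xm p)))
    (by rw [← map_pow, ← map_pow, xm_pow_p, map_one, map_one])
  have hy := hall (e.symm (iotaHom (ZMod p) (ym p)))
    (by rw [← map_pow, ← map_pow, ym_pow_p, map_one, map_one])
  have hz : e.symm (iotaHom (ZMod p) (zm p)) ∈ (T : Subgroup X) := by
    have h1 : zm p ∈ Subgroup.closure ({xm p, ym p} : Set _) := by rw [gen_sl2]; trivial
    have h2 : Subgroup.closure ({xm p, ym p} : Set _) ≤
        (T : Subgroup X).comap (e.symm.toMonoidHom.comp (iotaHom (ZMod p))) := by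
      rw [Subgroup.closure_le]
      rintro _ (rfl | rfl)
      · exact hx
      · exact hy
    exact h2 h1
  have hz2 : (e.symm (iotaHom (ZMod p) (zm p))) ^ 2 = 1 := by
    rw [← map_pow, ← map_pow, pow_two, zm_sq, map_one, map_one]
  have hzne : e.symm (iotaHom (ZMod p) (zm p)) ≠ 1 := by
    intro h1
    have h2 : iotaHom (ZMod p) (zm p) = 1 := by
      have := congrArg e h1
      rwa [MulEquiv.apply_symm_apply, map_one] at this
    have h3 : zm p = 1 := iota_injective (by rw [h2, map_one])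
    exact zm_ne_one p hp2 h3
  obtain ⟨k, hk⟩ := T.isPGroup' ⟨_, hz⟩
  have hk' : (e.symm (iotaHom (ZMod p) (zm p))) ^ (p ^ k) = 1 := by
    have := congrArg Subtype.val hk
    simpa using this
  have ho1 : orderOf (e.symm (iotaHom (ZMod p) (zm p))) ∣ p ^ k := orderOf_dvd_of_pow_eq_one hk'
  have ho2 : orderOf (e.symm (iotaHom (ZMod p) (zm p))) ∣ 2 := orderOf_dvd_of_pow_eq_one hz2
  have hcop : Nat.Coprime (p ^ k) 2 := by
    apply Nat.Coprime.pow_left
    exact (Nat.coprime_primes hp Nat.prime_two).mpr hp2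
  have ho : orderOf (e.symm (iotaHom (ZMod p) (zm p))) = 1 :=
    Nat.eq_one_of_dvd_coprimes hcop ho1 ho2
  exact hzne (orderOf_eq_one_iff.mp ho)

/-- Let p be an odd prime and G a finite group. Then Qd(p) (the natural semidirect product of an elementary abelian group of order p² by SL₂(p)) is not involved in G if and only if, in every section K/R of G and for every Sylow p-subgroup T of K/R, the lower K-infinity subgroup of T controls strong fusion in K/R. -/
theorem result {G : Type u} [Group G] [Finite G] {p : ℕ} [Fact p.Prime] (hp : p ≠ 2) : ¬ Cfsg.Involves ↥(Cfsg.qd p) G ↔ ∀ (K R : Subgroup G) [hR : (R.subgroupOf K).Normal], ∀ T : Sylow p (↥K ⧸ R.subgroupOf K), Cfsg.ControlsStrongFusion p (Cfsg.inducedFunctor (G := (↥K ⧸ R.subgroupOf K)) Cfsg.kInfLower (T : Subgroup (↥K ⧸ R.subgroupOf K))) := by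
  constructor
  · intro hno K R hR T
    haveI := hR
    apply Cfsg.Agent.S1987.result hp _ T
    intro K' R' hR'
    haveI := hR'
    apply Cfsg.Agent.Lib.Helper14.QdRed.qd_stable hp
    intro hinv
    apply hno
    exact Cfsg.Agent.Lib.Helper17.involves_of_subgroup K
      (Cfsg.Agent.Lib.Helper17.involves_of_quotient (R.subgroupOf K)
        (Cfsg.Agent.Lib.Helper17.involves_of_subgroup K'
          (Cfsg.Agent.Lib.Helper17.involves_of_quotient (R'.subgroupOf K') hinv)))
  · intro h
    rintro ⟨K, R, hR, ⟨e⟩⟩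
    haveI := hR
    obtain ⟨T⟩ : Nonempty (Sylow p (↥K ⧸ R.subgroupOf K)) := inferInstance
    exact no_ctl hp e T (h K R T)

end Cfsg.Agent.S1989
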