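import Cfsg.Statements.S2001
import Cfsg.Agent.Lib.Helper14.PairTransfer
import Cfsg.Agent.Lib.Helper11.Misc

set_option autoImplicit false
open Cfsg

namespace Cfsg.Agent.S2001

/-- Let p be a prime dividing the order of the finite group G, P a Sylow p-subgroup, W a conjugacy functor for p on G with Z(H) ≤ W(H) for every nontrivial p-subgroup H, and V a central functor: a conjugacy functor with V(H) ≤ Z(H), and V(H) ≤ V(K) whenever Z(H) ≤ Z(K), for nontrivial p-subgroups H, K. Say that W with V controls transfer in a subgroup L when some Sylow p-subgroup Q of L satisfies Q ∩ L' = (Q ∩ (N_L(W(Q)))')·(Q ∩ (C_L(V(Q)))') as a product of two subgroups. If W with V controls transfer in N_G(H) for every subgroup H with Z(P) ≤ H ≤ P, then W with V controls transfer in G. -/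
theorem result {G : Type*} [Group G] [Finite G] {p : ℕ} [Fact p.Prime] (hdiv : p ∣ Nat.card G) (P : Sylow p G) (W V : Subgroup G → Subgroup G) (hW : Cfsg.IsConjugacyFunctor p W) (hV : Cfsg.IsConjugacyFunctor p V) (hWZ : ∀ H : Subgroup G, IsPGroup p ↥H → H ⊓ Subgroup.centralizer ((H : Subgroup G) : Set G) ≤ W H) (hVZ : ∀ H : Subgroup G, IsPGroup p ↥H → V H ≤ H ⊓ Subgroup.centralizer ((H : Subgroup G) : Set G)) (hVmono : ∀ H K : Subgroup G, IsPGroup p ↥H → IsPGroup p ↥K → H ≠ ⊥ → K ≠ ⊥ → H ⊓ Subgroup.centralizer ((H : Subgroup G) : Set G) ≤ K ⊓ Subgroup.centralizer ((K : Subgroup G) : Set G) → V H ≤ V K) (hloc : ∀ H : Subgroup G, (P : Subgroup G) ⊓ Subgroup.centralizer (((P : Subgroup G) : Subgroup G) : Set G) ≤ H → H ≤ (P : Subgroup G) → ∃ Q : Subgroup G, Q ≤ Subgroup.normalizer ((H : Subgroup G) : Set G) ∧ IsPGroup p ↥Q ∧ ¬ p ∣ (Q).relIndex (Subgroup.normalizer ((H : Subgroup G) : Set G)) ∧ ∀ x : G, x ∈ Q ⊓ ⁅Subgroup.normalizer ((H : Subgroup G) :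 Set G), Subgroup.normalizer ((H : Subgroup G) : Set G)⁆ ↔ ∃ a ∈ Q ⊓ ⁅Subgroup.normalizer ((H : Subgroup G) : Set G) ⊓ Subgroup.normalizer ((W Q : Subgroup G) : Set G), Subgroup.normalizer ((H : Subgroup G) : Set G) ⊓ Subgroup.normalizer ((W Q : Subgroup G) : Set G)⁆, ∃ b ∈ Q ⊓ ⁅Subgroup.normalizer ((H : Subgroup G) : Set G) ⊓ Subgroup.centralizer ((V Q : Subgroup G) : Set G), Subgroup.normalizer ((H : Subgroup G) : Set G) ⊓ Subgroup.centralizer ((V Q : Subgroup G) : Set G)⁆, x = a * b) : ∃ Q : Subgroup G, IsPGroup p ↥Q ∧ ¬ p ∣ Q.index ∧ ∀ x : G, x ∈ Q ⊓ commutator G ↔ ∃ a ∈ Q ⊓ ⁅Subgroup.normalizer ((W Q : Subgroup G) : Set G), Subgroup.normalizer ((W Q : Subgroup G) : Set G)⁆, ∃ b ∈ Q ⊓ ⁅Subgroup.centralizer ((V Q : Subgroup G) : Set G), Subgroup.centralizer ((V Q : Subgroup G) : Set G)⁆, x = a * b := by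
  have hPne : (P : Subgroup G) ≠ ⊥ := by
    intro hbot
    have h1 := P.not_dvd_index
    rw [hbot, Subgroup.index_bot] at h1
    exact h1 hdiv
  have hSp := P.isPGroup'
  refine ⟨P, hSp, P.not_dvd_index, ?_⟩
  intro x
  constructor
  · intro hx
    have hloc' : ∀ T : Subgroup G, (P : Subgroup G) ⊓ Subgroup.centralizer ((P : Subgroup G) : Set G) ≤ T →
        T ≤ (P : Subgroup G) → ∃ Q, Cfsg.Agent.Lib.Helper14.LocTr p W V T Q := by
      intro T hT1 hT2
      obtain ⟨Q, hQN, hQp, hQidx, hctl⟩ := hloc T hT1 hT2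
      refine ⟨Q, hQN, hQp, hQidx, ?_⟩
      intro z hz
      obtain ⟨a, ha, b, hb, rfl⟩ := (hctl z).mp hz
      exact mul_mem (Subgroup.mem_sup_left ha) (Subgroup.mem_sup_right hb)
    have hle : (P : Subgroup G) ⊓ ⁅(⊤ : Subgroup G), ⊤⁆ ≤
        ((P : Subgroup G) ⊓ ⁅Subgroup.normalizer ((W (P : Subgroup G) : Subgroup G) : Set G),
          Subgroup.normalizer ((W (P : Subgroup G) : Subgroup G) : Set G)⁆) ⊔
        ((P : Subgroup G) ⊓ ⁅Subgroup.centralizer ((V (P : Subgroup G) : Subgroup G) : Set G),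
          Subgroup.centralizer ((V (P : Subgroup G) : Subgroup G) : Set G)⁆) := by
      apply Cfsg.Agent.Lib.Helper14.sylow_inf_commutator_le P
      intro x hxS u hux
      have hP : Subgroup.zpowers x ≤ (P : Subgroup G) := by
        rw [Subgroup.zpowers_le]; exact hxS
      have hPu : (Subgroup.zpowers x).map (MulAut.conj u).toMonoidHom ≤ (P : Subgroup G) := by
        rw [MonoidHom.map_zpowers, Subgroup.zpowers_le]
        simpa using hux
      exact Cfsg.Agent.Lib.Helper14.pair_focal_all P hPne hW hWZ hVmono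
        (Cfsg.Agent.Lib.Helper14.loc_at P (Cfsg.Agent.Lib.Helper14.LocTr p W V)
          (fun T Q h => ⟨h.1, h.2.1, h.2.2.1⟩) (fun T Q g h => h.conj hW hV g) hloc')
        _ le_sup_left le_sup_right _ (Subgroup.zpowers x) hP rfl u hPu x (Subgroup.mem_zpowers x)
    have hx' := hle (by rw [← commutator_def]; exact hx)
    have hnorm : (P : Subgroup G) ⊓ ⁅Subgroup.centralizer ((V (P : Subgroup G) : Subgroup G) : Set G),
          Subgroup.centralizer ((V (P : Subgroup G) : Subgroup G) : Set G)⁆ ≤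
        Subgroup.normalizer ((((P : Subgroup G) ⊓
          ⁅Subgroup.normalizer ((W (P : Subgroup G) : Subgroup G) : Set G),
          Subgroup.normalizer ((W (P : Subgroup G) : Subgroup G) : Set G)⁆ : Subgroup G)) : Set G) := by
      intro s hs
      have hsP : s ∈ (P : Subgroup G) := (Subgroup.mem_inf.mp hs).1
      apply Cfsg.Agent.Lib.Helper14.mem_normalizer_of_map_conj_eq
      rw [Cfsg.Agent.Lib.Helper14.map_conj_inf,
        Cfsg.Agent.Lib.Helper14.map_conj_eq_self_of_mem_normalizer (Subgroup.le_normalizer hsP),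
        Cfsg.Agent.Lib.Helper14.map_conj_commutator_self _
          (Cfsg.Agent.Lib.Helper14.normalizer_le_normalizer_functor hW hSp (Subgroup.le_normalizer hsP))]
    obtain ⟨a, ha, b, hb, hab⟩ := Cfsg.Agent.Lib.Helper11.mem_sup_of_le_normalizer hnorm hx'
    exact ⟨a, ha, b, hb, hab⟩
  · rintro ⟨a, ha, b, hb, rfl⟩
    refine Subgroup.mem_inf.mpr ⟨mul_mem (Subgroup.mem_inf.mp ha).1 (Subgroup.mem_inf.mp hb).1, ?_⟩
    rw [commutator_def]
    exact mul_mem (Subgroup.commutator_mono le_top le_top (Subgroup.mem_inf.mp ha).2)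
      (Subgroup.commutator_mono le_top le_top (Subgroup.mem_inf.mp hb).2)

end Cfsg.Agent.S2001
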