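import Cfsg.Statements.S2002
import Cfsg.Agent.Lib.Helper14.PairCtl

set_option autoImplicit false
open Cfsg

namespace Cfsg.Agent.S2002

open Cfsg.Agent.Lib.Helper14 in
theorem main {G : Type*} [Group G] [Finite G] {p : ℕ} [Fact p.Prime] (hdiv : p ∣ Nat.card G) (P : Sylow p G) (W V : Subgroup G → Subgroup G) (hW : Cfsg.IsConjugacyFunctor p W) (hV : Cfsg.IsConjugacyFunctor p V) (hWZ : ∀ H : Subgroup G, IsPGroup p ↥H → H ⊓ Subgroup.centralizer ((H : Subgroup G) : Set G) ≤ W H) (hVmono : ∀ H K : Subgroup G, IsPGroup p ↥H → IsPGroup p ↥K → H ≠ ⊥ → K ≠ ⊥ → H ⊓ Subgroup.centralizer ((H : Subgroup G) : Set G) ≤ K ⊓ Subgroup.centralizer ((K : Subgroup G) : Set G) → V H ≤ V K)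
    (hloc : ∀ T : Subgroup G, (P : Subgroup G) ⊓ Subgroup.centralizer ((P : Subgroup G) : Set G) ≤ T →
      T ≤ (P : Subgroup G) → ∃ Q, LocCtl p W V T Q)
    (X : Set G) (a : G) (hX : X ⊆ ((P : Subgroup G) : Set G))
    (hXa : conjR a X ⊆ ((P : Subgroup G) : Set G)) :
    ∃ c ∈ Subgroup.centralizer X, ∃ (n : ℕ) (b : Fin n → G), (∀ i, b i ∈ stepSet W V ⊤ (P : Subgroup G)) ∧ a = c * (List.ofFn b).prod ∧ ∀ k : ℕ, k ≤ n → conjR ((List.ofFn b).take k).prod (conjR c X) ⊆ ((P : Subgroup G) : Set G) := by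
  have hPne : (P : Subgroup G) ≠ ⊥ := by
    intro hbot
    have h1 := P.not_dvd_index
    rw [hbot, Subgroup.index_bot] at h1
    exact h1 hdiv
  obtain ⟨c, hc, g', hg, hch⟩ := pair_reach_set P hPne hW hV hWZ hVmono hloc X a hX hXa
  obtain ⟨n, b, hb, hprod, himg⟩ := hch.toData
  refine ⟨c, hc, n, b, hb, by rw [hg, hprod], ?_⟩
  intro k hk
  rw [conjR_of_mem_centralizer hc]
  exact himg k hk

/-- Let p be a prime dividing the order of the finite group G, P a Sylow p-subgroup, W a conjugacy functor for p on G with Z(H) ≤ W(H) for every nontrivial p-subgroup H, and V a central functor (a conjugacy functor with V(H) ≤ Z(H), and V(H) ≤ V(K) whenever Z(H) ≤ Z(K)). Say that W with V controls strong fusion in a subgroup L when some Sylow p-subgroup Q of L has the property: whenever X ⊆ Q and a ∈ L with a⁻¹Xa ⊆ Q, then a = c b with c ∈ C_L(X) and b = b₁ ⋯ bₙ a product of elements each in N_L(W(Q))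 or in C_L(V(Q)) such that every partial conjugate (b₁ ⋯ bₖ)⁻¹ X (b₁ ⋯ bₖ) lies in Q. If W with V controls strong fusion in N_G(H) for every subgroup H with Z(P) ≤ H ≤ P, then W with V controls strong fusion in G. -/
theorem result {G : Type*} [Group G] [Finite G] {p : ℕ} [Fact p.Prime] (hdiv : p ∣ Nat.card G) (P : Sylow p G) (W V : Subgroup G → Subgroup G) (hW : Cfsg.IsConjugacyFunctor p W) (hV : Cfsg.IsConjugacyFunctor p V) (hWZ : ∀ H : Subgroup G, IsPGroup p ↥H → H ⊓ Subgroup.centralizer ((H : Subgroup G) : Set G) ≤ W H) (hVZ : ∀ H : Subgroup G, IsPGroup p ↥H → V H ≤ H ⊓ Subgroup.centralizer ((H : Subgroup G) : Set G)) (hVmono : ∀ H K : Subgroup G, IsPGroup p ↥H → IsPGroup p ↥K → H ≠ ⊥ → K ≠ ⊥ → H ⊓ Subgroup.centralizer ((H : Subgroup G) : Set G) ≤ K ⊓ Subgroup.centralizer ((K : Subgroup G) : Set G) → V H ≤ V K) (hloc : ∀ H : Subgroup G, (P : Subgroup G) ⊓ Subgroup.centralizer (((P : Subgroup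 G) : Subgroup G) : Set G) ≤ H → H ≤ (P : Subgroup G) → ∃ Q : Subgroup G, Q ≤ Subgroup.normalizer ((H : Subgroup G) : Set G) ∧ IsPGroup p ↥Q ∧ ¬ p ∣ (Q).relIndex (Subgroup.normalizer ((H : Subgroup G) : Set G)) ∧ ∀ (X : Set G) (a : G), X ⊆ Q → a ∈ Subgroup.normalizer ((H : Subgroup G) : Set G) → (fun x => a⁻¹ * x * a) '' X ⊆ Q → ∃ c ∈ Subgroup.normalizer ((H : Subgroup G) : Set G) ⊓ Subgroup.centralizer X, ∃ (n : ℕ) (b : Fin n → G), (∀ i, b i ∈ Subgroup.normalizer ((H : Subgroup G) : Set G) ⊓ Subgroup.normalizer ((W Q : Subgroup G) : Set G) ∨ b i ∈ Subgroup.normalizer ((H : Subgroup G) : Set G) ⊓ Subgroup.centralizer ((V Q : Subgroup G) : Set G)) ∧ a = c * (List.ofFn b).prod ∧ ∀ k : ℕ, k ≤ n → (fun x => (((List.ofFn b).take k).prod)⁻¹ * x * ((List.ofFn b).take k).prod) '' ((fun x => c⁻¹ * x * c) '' X) ⊆ Q) : ∃ Q : Subgroup G, IsPGroup p ↥Q ∧ ¬ p ∣ Q.index ∧ ∀ (X : Set G) (a : G), X ⊆ Q → (fun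 x => a⁻¹ * x * a) '' X ⊆ Q → ∃ c ∈ Subgroup.centralizer X, ∃ (n : ℕ) (b : Fin n → G), (∀ i, b i ∈ ⊤ ⊓ Subgroup.normalizer ((W Q : Subgroup G) : Set G) ∨ b i ∈ ⊤ ⊓ Subgroup.centralizer ((V Q : Subgroup G) : Set G)) ∧ a = c * (List.ofFn b).prod ∧ ∀ k : ℕ, k ≤ n → (fun x => (((List.ofFn b).take k).prod)⁻¹ * x * ((List.ofFn b).take k).prod) '' ((fun x => c⁻¹ * x * c) '' X) ⊆ Q := by
  refine ⟨P, P.isPGroup', P.not_dvd_index, ?_⟩
  intro X a hX hXa
  refine main hdiv P W V hW hV hWZ hVmono ?_ X a hX hXa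
  intro T hT1 hT2
  obtain ⟨Q, hQN, hQp, hQidx, hctl⟩ := hloc T hT1 hT2
  refine ⟨Q, hQN, hQp, hQidx, ?_⟩
  intro Y y hY hy hYy
  obtain ⟨c, hc, n, b, hb, hyeq, himg⟩ := hctl Y y hY hy hYy
  have hcC : c ∈ Subgroup.centralizer Y := (Subgroup.mem_inf.mp hc).2
  refine ⟨c, hcC, (List.ofFn b).prod, hyeq, ?_⟩
  refine Cfsg.Agent.Lib.Helper14.PChain.ofData n b Y hb ?_
  intro k hk
  have h1 := himg k hk
  have h2 : (fun x => c⁻¹ * x * c) '' Y = Y := Cfsg.Agent.Lib.Helper14.conjR_of_mem_centralizer hcC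
  rw [h2] at h1
  exact h1

end Cfsg.Agent.S2002
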