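import Cfsg.Statements.S2015
import Cfsg.Agent.S1984
import Cfsg.Agent.Lib.Helper14.TransferCtl
import Cfsg.Agent.Lib.Helper14.KInfSubForm

set_option autoImplicit false
universe u
open Cfsg

namespace Cfsg.Agent.S2015

/-- For p ≥ 5, every finite p-group P has a characteristic subgroup K containing Z(P), depending only on P, whose normalizer controls transfer wherever P is a Sylow subgroup: for every finite group G and every embedding ι of P onto a Sylow p-subgroup of G, the intersection of ι(P) with the derived subgroup of G equals its intersection with the derived subgroup of N_G(ι(K)). -/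
theorem result (p : ℕ) [Fact p.Prime] (hp : 5 ≤ p) (P : Type u) [Group P] [Finite P] (hP : IsPGroup p P) : ∃ K : Subgroup P, K.Characteristic ∧ Subgroup.center P ≤ K ∧ ∀ (G : Type u) [Group G] [Finite G] (ι : P →* G), Function.Injective ι → (∃ T : Sylow p G, (T : Subgroup G) = ι.range) → ι.range ⊓ commutator G = ι.range ⊓ (commutator ↥(Subgroup.normalizer ((K.map ι : Subgroup G) : Set G))).map (Subgroup.normalizer ((K.map ι : Subgroup G) : Set G)).subtype := by
  have hW := Cfsg.Agent.Lib.Helper14.isCharPFunctor_kInfLower.{u} p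
  refine ⟨Cfsg.kInfLower P, ?_, (Cfsg.Agent.Lib.Helper14.center_le_kInf P hP).1, ?_⟩
  · rw [Subgroup.characteristic_iff_map_eq]
    intro φ
    exact hW.2 P P hP φ
  · intro G _ _ ι hι ⟨T, hT⟩
    have hctl : Cfsg.ControlsTransferIn p (Cfsg.inducedFunctor (G := G) Cfsg.kInfLower) ⊤ :=
      Cfsg.Agent.S1984.result hp
    have hRp : IsPGroup p ↥ι.range := hT ▸ T.isPGroup'
    have hidx : ¬ p ∣ (ι.range).relIndex ⊤ := by
      rw [Subgroup.relIndex_top_right, ← hT]
      exact T.not_dvd_index
    have h1 := Cfsg.Agent.Lib.Helper14.controlsTransferIn_at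
      (Cfsg.Agent.Lib.Helper14.isConjugacyFunctor_inducedFunctor hW) hctl le_top hRp hidx
    have hWR : Cfsg.inducedFunctor (G := G) Cfsg.kInfLower ι.range = (Cfsg.kInfLower P).map ι := by
      unfold Cfsg.inducedFunctor
      have h2 := hW.2 P ↥ι.range hP (MonoidHom.ofInjective hι)
      rw [← h2, Subgroup.map_map]
      congr 1
    rw [hWR, top_inf_eq] at h1
    rw [Subgroup.map_subtype_commutator, commutator_def]
    apply le_antisymm
    · exact le_inf inf_le_left h1
    · exact inf_le_inf le_rfl (Subgroup.commutator_mono le_top le_top)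

end Cfsg.Agent.S2015
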