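import Cfsg.Statements.S2164
import Cfsg.Agent.Lib.Helper15.HermInvolB
open Cfsg.Agent.Lib.Helper15.HermInvol Matrix

set_option autoImplicit false
open Cfsg

namespace Cfsg.Agent.S2164

/-- Conjugacy of involutions in the special unitary group SU_n(q), q even, n ≥ 3, realised over the field F with q² elements as the matrices of determinant 1 preserving the form Σ u_i v_i^q: for two elements of order 2 of SU_n(q) the following are equivalent — they are conjugate in SU_n(q); they are conjugate in SL_n(F); the matrices a − 1 and b − 1 have the same rank. -/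
theorem result {F : Type*} [Field F] [Fintype F] [CharP F 2] {n q : ℕ} (hF : Fintype.card F = q ^ 2) (hn : 3 ≤ n) (a b : ↥(Cfsg.SU n F q)) (ha : orderOf a = 2) (hb : orderOf b = 2) :
    (IsConj a b ↔ IsConj (a : Matrix.SpecialLinearGroup (Fin n) F) (b : Matrix.SpecialLinearGroup (Fin n) F)) ∧
    (IsConj a b ↔ (((a : Matrix.SpecialLinearGroup (Fin n) F) : Matrix (Fin n) (Fin n) F) - 1).rank = (((b : Matrix.SpecialLinearGroup (Fin n) F) : Matrix (Fin n) (Fin n) F) - 1).rank) := by
  classical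
  -- q is a power of two
  obtain ⟨j, hj⟩ : ∃ j, q = 2 ^ j := by
    obtain ⟨k, hk2, hk⟩ := FiniteField.card F 2
    have hdvd : q ∣ 2 ^ (k : ℕ) := by
      rw [← hk, hF]
      exact Dvd.intro_left (q ^ 1) (by ring)
    obtain ⟨j, -, hj⟩ := (Nat.dvd_prime_pow Nat.prime_two).mp hdvd
    exact ⟨j, hj⟩
  have hq2 : 2 ≤ q := by
    have h1 : 1 < Fintype.card F := Fintype.one_lt_card
    rw [hF] at h1
    by_contra h
    have : q ≤ 1 := by omega
    have : q ^ 2 ≤ 1 ^ 2 := Nat.pow_le_pow_left this 2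
    omega
  have hjpos : j ≠ 0 := by
    rintro rfl
    rw [pow_zero] at hj
    omega
  have hqeven : 2 ∣ q := by
    rw [hj]
    exact dvd_pow_self 2 hjpos
  let σ : F →+* F := iterateFrobenius F 2 j
  have hσq : ∀ x : F, σ x = x ^ q := fun x => by
    rw [hj]
    exact iterateFrobenius_def 2 j x
  have hσ2 : ∀ x : F, σ (σ x) = x := by
    intro x
    rw [hσq, hσq, ← pow_mul, ← sq, ← hF, FiniteField.pow_card]
  have hσ : σ ≠ RingHom.id F := by
    intro h
    obtain ⟨ζ, hζ⟩ := IsCyclic.exists_generator (α := Fˣ)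
    have hord : orderOf ζ = q ^ 2 - 1 := by
      rw [orderOf_eq_card_of_forall_mem_zpowers hζ, Nat.card_eq_fintype_card, Fintype.card_units, hF]
    have h1 : (ζ : F) ^ q = ζ := by
      rw [← hσq, h]
      rfl
    have h2 : ζ ^ (q - 1) = 1 := by
      apply Units.ext
      rw [Units.val_pow_eq_pow_val, Units.val_one]
      have h3 : (ζ : F) ^ (q - 1) * ζ = 1 * ζ := by
        rw [← pow_succ, one_mul, Nat.sub_add_cancel (by omega), h1]
      exact mul_right_cancel₀ ζ.ne_zero h3
    have h4 := orderOf_dvd_of_pow_eq_one h2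
    rw [hord] at h4
    have h5 := Nat.le_of_dvd (by omega) h4
    have h6 : q * 2 ≤ q * q := Nat.mul_le_mul_left q hq2
    have h7 : q ^ 2 = q * q := sq q
    omega
  have hform : ∀ u v : Fin n → F, HermB n σ u v = Cfsg.hermForm n F q v u := fun u v => by
    simp only [HermB_apply, hσq]
    rfl
  have hsq2 : ∀ x : ↥(Cfsg.SU n F q), orderOf x = 2 →
      ((x : Matrix.SpecialLinearGroup (Fin n) F) : Matrix (Fin n) (Fin n) F) *
        ((x : Matrix.SpecialLinearGroup (Fin n) F) : Matrix (Fin n) (Fin n) F) = 1 := by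
    intro x hx
    have h1 : x ^ 2 = 1 := by rw [← hx]; exact pow_orderOf_eq_one x
    have h2 := congrArg (fun y : ↥(Cfsg.SU n F q) =>
      ((y : Matrix.SpecialLinearGroup (Fin n) F) : Matrix (Fin n) (Fin n) F)) h1
    simpa [pow_two] using h2
  have hpres : ∀ x : ↥(Cfsg.SU n F q), ∀ u v : Fin n → F,
      Cfsg.hermForm n F q (((x : Matrix.SpecialLinearGroup (Fin n) F) : Matrix (Fin n) (Fin n) F) *ᵥ u)
        (((x : Matrix.SpecialLinearGroup (Fin n) F) : Matrix (Fin n) (Fin n) F) *ᵥ v) =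
        Cfsg.hermForm n F q u v := fun x u v => x.2 u v
  have hinv : ∀ x : ↥(Cfsg.SU n F q), orderOf x = 2 → HInv (HermB n σ)
      (Matrix.toLin' ((x : Matrix.SpecialLinearGroup (Fin n) F) : Matrix (Fin n) (Fin n) F)) := by
    intro x hx
    refine ⟨fun v => ?_, fun u v => ?_⟩
    · rw [Matrix.toLin'_apply, Matrix.toLin'_apply, Matrix.mulVec_mulVec, hsq2 x hx,
        Matrix.one_mulVec]
    · rw [hform, hform, Matrix.toLin'_apply, Matrix.toLin'_apply, hpres]
  have key : ∀ a b : ↥(Cfsg.SU n F q), orderOf a = 2 → orderOf b = 2 →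
      (((a : Matrix.SpecialLinearGroup (Fin n) F) : Matrix (Fin n) (Fin n) F) - 1).rank =
        (((b : Matrix.SpecialLinearGroup (Fin n) F) : Matrix (Fin n) (Fin n) F) - 1).rank →
      IsConj a b := by
    intro a b ha hb hrank
    set A : Matrix (Fin n) (Fin n) F :=
      ((a : Matrix.SpecialLinearGroup (Fin n) F) : Matrix (Fin n) (Fin n) F) with hAdef
    set Bm : Matrix (Fin n) (Fin n) F :=
      ((b : Matrix.SpecialLinearGroup (Fin n) F) : Matrix (Fin n) (Fin n) F) with hBdef
    have htA := hinv a ha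
    have htB := hinv b hb
    obtain ⟨g, hg1, hg2⟩ := conj_of_rank hσ hσ2 (HermB_symm hσ2) HermB_nondeg
      CharTwo.two_eq_zero htA htB (by rw [rank_eq, rank_eq]; exact hrank)
    set G := LinearMap.toMatrix' g.toLinearMap with hG
    have hGv : ∀ v, G *ᵥ v = g v := fun v => by
      rw [hG, ← Matrix.toLin'_apply, Matrix.toLin'_toMatrix']
      rfl
    have hGpres : ∀ u v, HermB n σ (G *ᵥ u) (G *ᵥ v) = HermB n σ u v := fun u v => by
      rw [hGv, hGv, hg1]
    have hδ : G.det * σ G.det = 1 := det_norm G hGpres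
    have hAne : Matrix.toLin' A ≠ LinearMap.id := by
      intro h
      have hA1 : A = 1 := by
        apply Matrix.toLin'.injective
        rw [h, Matrix.toLin'_one]
      have ha1 : a = 1 := Subtype.ext (Subtype.ext hA1)
      rw [ha1, orderOf_one] at ha
      omega
    obtain ⟨e, f, hee, hff, hef, hfe, hte, htf⟩ := exists_hyp_pair hσ hσ2 (HermB_symm hσ2)
      HermB_nondeg CharTwo.two_eq_zero htA hAne
    have hδ0 : G.det ≠ 0 := left_ne_zero_of_mul_eq_one hδ
    have hδq : (G.det)⁻¹ ^ (q + 1) = 1 := by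
      rw [inv_pow, pow_succ', ← hσq, hδ, inv_one]
    set μ := (G.det)⁻¹ ^ ((q + 2) / 2) with hμ
    have hμ2 : μ ^ 2 = (G.det)⁻¹ := by
      rw [hμ, ← pow_mul]
      have h1 : (q + 2) / 2 * 2 = q + 1 + 1 := by omega
      rw [h1, pow_succ, hδq, one_mul]
    have hμn : μ * σ μ = 1 := by
      rw [hσq, ← pow_succ', hμ, ← pow_mul, mul_comm, pow_mul, hδq, one_pow]
    set K := LinearMap.toMatrix' (kmap (HermB n σ) μ e f) with hK
    have hKdet : K.det = μ ^ 2 := det_kmap μ hee hff hef hfe
    have hKv : ∀ v, K *ᵥ v = kmap (HermB n σ) μ e f v := fun v => by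
      rw [hK, ← Matrix.toLin'_apply, Matrix.toLin'_toMatrix']
    have hKpres : ∀ u v, HermB n σ (K *ᵥ u) (K *ᵥ v) = HermB n σ u v := fun u v => by
      rw [hKv, hKv, kmap_iso (HermB_symm hσ2) hμn hee hff hef hfe]
    have hKA : K * A = A * K := by
      apply Matrix.toLin'.injective
      apply LinearMap.ext
      intro v
      rw [Matrix.toLin'_mul, Matrix.toLin'_mul, LinearMap.comp_apply, LinearMap.comp_apply,
        hK, Matrix.toLin'_toMatrix']
      exact (kmap_comm htA μ hte htf v).symm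
    have hGA : G * A = Bm * G := by
      apply Matrix.toLin'.injective
      apply LinearMap.ext
      intro v
      rw [Matrix.toLin'_mul, Matrix.toLin'_mul, LinearMap.comp_apply, LinearMap.comp_apply,
        hG, Matrix.toLin'_toMatrix']
      exact hg2 v
    have hCdet : (G * K).det = 1 := by
      rw [Matrix.det_mul, hKdet, hμ2]
      exact mul_inv_cancel₀ hδ0
    have hCA : (G * K) * A = Bm * (G * K) := by
      rw [Matrix.mul_assoc, hKA, ← Matrix.mul_assoc, hGA, Matrix.mul_assoc]
    have hCpres : ∀ u v, Cfsg.hermForm n F q ((G * K) *ᵥ u) ((G * K) *ᵥ v) =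
        Cfsg.hermForm n F q u v := by
      intro u v
      rw [← hform, ← hform, ← Matrix.mulVec_mulVec, ← Matrix.mulVec_mulVec, hGpres, hKpres]
    let c : ↥(Cfsg.SU n F q) := ⟨⟨G * K, hCdet⟩, fun u v => hCpres u v⟩
    rw [isConj_iff]
    refine ⟨c, ?_⟩
    rw [mul_inv_eq_iff_eq_mul]
    apply Subtype.ext
    apply Subtype.ext
    exact hCA
  have hSL : IsConj a b → IsConj (a : Matrix.SpecialLinearGroup (Fin n) F)
      (b : Matrix.SpecialLinearGroup (Fin n) F) := by
    intro h
    obtain ⟨c, hc⟩ := isConj_iff.mp h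
    rw [isConj_iff]
    exact ⟨c, by rw [← hc]; rfl⟩
  have hrk : IsConj (a : Matrix.SpecialLinearGroup (Fin n) F)
      (b : Matrix.SpecialLinearGroup (Fin n) F) →
      (((a : Matrix.SpecialLinearGroup (Fin n) F) : Matrix (Fin n) (Fin n) F) - 1).rank =
        (((b : Matrix.SpecialLinearGroup (Fin n) F) : Matrix (Fin n) (Fin n) F) - 1).rank := by
    intro h
    obtain ⟨c, hc⟩ := isConj_iff.mp h
    set A : Matrix (Fin n) (Fin n) F :=
      ((a : Matrix.SpecialLinearGroup (Fin n) F) : Matrix (Fin n) (Fin n) F) with hAdef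
    set Bm : Matrix (Fin n) (Fin n) F :=
      ((b : Matrix.SpecialLinearGroup (Fin n) F) : Matrix (Fin n) (Fin n) F) with hBdef
    set C : Matrix (Fin n) (Fin n) F := (c : Matrix (Fin n) (Fin n) F) with hCdef
    set C' : Matrix (Fin n) (Fin n) F := ((c⁻¹ : Matrix.SpecialLinearGroup (Fin n) F) :
      Matrix (Fin n) (Fin n) F) with hC'def
    have hCC' : C * C' = 1 := by
      have h := congrArg (fun y : Matrix.SpecialLinearGroup (Fin n) F =>
        (y : Matrix (Fin n) (Fin n) F)) (mul_inv_cancel c)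
      exact h
    have hC'C : C' * C = 1 := by
      have h := congrArg (fun y : Matrix.SpecialLinearGroup (Fin n) F =>
        (y : Matrix (Fin n) (Fin n) F)) (inv_mul_cancel c)
      exact h
    have hB : Bm = C * A * C' := by
      have h := congrArg (fun y : Matrix.SpecialLinearGroup (Fin n) F =>
        (y : Matrix (Fin n) (Fin n) F)) hc
      exact h.symm
    have hsub : Bm - 1 = C * (A - 1) * C' := by
      rw [hB, Matrix.mul_sub, Matrix.sub_mul, Matrix.mul_one, hCC']
    have hCu : IsUnit C.det :=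
      (Matrix.isUnit_iff_isUnit_det C).mp ⟨⟨C, C', hCC', hC'C⟩, rfl⟩
    have hC'u : IsUnit C'.det :=
      (Matrix.isUnit_iff_isUnit_det C').mp ⟨⟨C', C, hC'C, hCC'⟩, rfl⟩
    rw [hsub, Matrix.rank_mul_eq_left_of_isUnit_det _ _ hC'u,
      Matrix.rank_mul_eq_right_of_isUnit_det _ _ hCu]
  exact ⟨⟨hSL, fun h => key a b ha hb (hrk h)⟩, ⟨fun h => hrk (hSL h), key a b ha hb⟩⟩

end Cfsg.Agent.S2164
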