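import Cfsg.Statements.S2167
import Cfsg.Agent.Lib.Helper15.SpInvol
open Cfsg.Agent.Lib.Helper15.SpInvol Matrix

set_option autoImplicit false
open Cfsg

namespace Cfsg.Agent.S2167

/-- For an involution t of the symplectic group Sp_{2m}(F), m ≥ 2, F a finite field of characteristic two (matrices A with A J Aᵀ = J acting on column vectors, alternating form f(u, v) = u ⬝ (J v)): the set V(t) of vectors v with f(v, t v) = 0 has either q^{2m} or q^{2m−1} elements, q the order of F (it is a subspace of codimension at most 1), and if it is the whole space then t − 1 has even rank. -/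
theorem result {F : Type*} [Field F] [Fintype F] [CharP F 2] {m : ℕ} (hm : 2 ≤ m) (a : ↥(Matrix.symplecticGroup (Fin m) F)) (ha : orderOf a = 2) :
    (Nat.card {v : Fin m ⊕ Fin m → F // Cfsg.sympForm m F v (Matrix.mulVec ((a : ↥(Matrix.symplecticGroup (Fin m) F)) : Matrix (Fin m ⊕ Fin m) (Fin m ⊕ Fin m) F) v) = 0} = Fintype.card F ^ (2 * m) ∨ Nat.card {v : Fin m ⊕ Fin m → F // Cfsg.sympForm m F v (Matrix.mulVec ((a : ↥(Matrix.symplecticGroup (Fin m) F)) : Matrix (Fin m ⊕ Fin m) (Fin m ⊕ Fin m) F) v) = 0} * Fintype.card F = Fintype.card F ^ (2 * m)) ∧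
    ((∀ v : Fin m ⊕ Fin m → F, Cfsg.sympForm m F v (Matrix.mulVec ((a : ↥(Matrix.symplecticGroup (Fin m) F)) : Matrix (Fin m ⊕ Fin m) (Fin m ⊕ Fin m) F) v) = 0) → Even (((a : ↥(Matrix.symplecticGroup (Fin m) F)) : Matrix (Fin m ⊕ Fin m) (Fin m ⊕ Fin m) F) - 1).rank) := by
  classical
  set A : Matrix (Fin m ⊕ Fin m) (Fin m ⊕ Fin m) F :=
    ((a : ↥(Matrix.symplecticGroup (Fin m) F)) : Matrix (Fin m ⊕ Fin m) (Fin m ⊕ Fin m) F) with hAdef
  have hAmem : A ∈ Matrix.symplecticGroup (Fin m) F := a.2
  have hA2 : A * A = 1 := by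
    have h1 : a ^ 2 = 1 := by rw [← ha]; exact pow_orderOf_eq_one a
    have h2 := congrArg (fun x : ↥(Matrix.symplecticGroup (Fin m) F) =>
      (x : Matrix (Fin m ⊕ Fin m) (Fin m ⊕ Fin m) F)) h1
    simpa [pow_two] using h2
  have hsym : ∀ u v : Fin m ⊕ Fin m → F, Cfsg.sympForm m F u v = Cfsg.sympForm m F v u := by
    intro u v
    rw [form_skew, CharTwo.neg_eq]
  have hcross : ∀ u v : Fin m ⊕ Fin m → F,
      Cfsg.sympForm m F v (A *ᵥ u) = Cfsg.sympForm m F u (A *ᵥ v) := by
    intro u v
    rw [← form_invariant A hAmem v (A *ᵥ u), Matrix.mulVec_mulVec, hA2, Matrix.one_mulVec, hsym]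
  have hQadd : ∀ u v : Fin m ⊕ Fin m → F,
      Cfsg.sympForm m F (u + v) (A *ᵥ (u + v)) =
        Cfsg.sympForm m F u (A *ᵥ u) + Cfsg.sympForm m F v (A *ᵥ v) := by
    intro u v
    rw [Matrix.mulVec_add, form_add_left, form_add_right, form_add_right, hcross u v]
    have := CharTwo.add_self_eq_zero (Cfsg.sympForm m F u (A *ᵥ v))
    linear_combination this
  have hQsmul : ∀ (c : F) (v : Fin m ⊕ Fin m → F),
      Cfsg.sympForm m F (c • v) (A *ᵥ (c • v)) = c * c * Cfsg.sympForm m F v (A *ᵥ v) := by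
    intro c v
    rw [Matrix.mulVec_smul, form_smul_left, form_smul_right, mul_assoc]
  have hcardV : Nat.card (Fin m ⊕ Fin m → F) = Fintype.card F ^ (2 * m) := by
    rw [Nat.card_eq_fintype_card, Fintype.card_fun, Fintype.card_sum, Fintype.card_fin, two_mul]
  refine ⟨?_, ?_⟩
  · by_cases hall : ∀ v : Fin m ⊕ Fin m → F, Cfsg.sympForm m F v (A *ᵥ v) = 0
    · left
      rw [← hcardV]
      exact Nat.card_congr (Equiv.subtypeUnivEquiv hall)
    · right
      push Not at hall
      obtain ⟨v₀, hv₀⟩ := hall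
      let φ : (Fin m ⊕ Fin m → F) →+ F :=
        AddMonoidHom.mk' (fun v => Cfsg.sympForm m F v (A *ᵥ v)) hQadd
      have hsurj : Function.Surjective φ := by
        intro x
        have hr : ringChar F = 2 := (ringChar.eq F 2)
        obtain ⟨c, hc⟩ := FiniteField.isSquare_of_char_two hr (x / Cfsg.sympForm m F v₀ (A *ᵥ v₀))
        refine ⟨c • v₀, ?_⟩
        show Cfsg.sympForm m F (c • v₀) (A *ᵥ (c • v₀)) = x
        rw [hQsmul, ← hc, div_mul_cancel₀ _ hv₀]
      have h1 := AddSubgroup.card_mul_index φ.ker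
      rw [AddSubgroup.index_ker, AddMonoidHom.range_eq_top.mpr hsurj, AddSubgroup.card_top, hcardV,
        Nat.card_eq_fintype_card (α := F)] at h1
      have hk : Nat.card {v : Fin m ⊕ Fin m → F // Cfsg.sympForm m F v (A *ᵥ v) = 0} =
          Nat.card ↥φ.ker := by
        apply Nat.card_congr
        exact Equiv.subtypeEquivRight (fun v => (AddMonoidHom.mem_ker (f := φ)).symm)
      rw [hk, h1]
  · intro hall
    let α : LinearMap.BilinForm F (Fin m ⊕ Fin m → F) :=
      LinearMap.mk₂ F (fun u v => Cfsg.sympForm m F ((A - 1) *ᵥ u) v)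
        (fun u u' v => by rw [Matrix.mulVec_add, form_add_left])
        (fun c u v => by rw [Matrix.mulVec_smul, form_smul_left, smul_eq_mul])
        (fun u v v' => by rw [form_add_right])
        (fun c u v => by rw [form_smul_right, smul_eq_mul])
    have hα : ∀ u v, α u v = Cfsg.sympForm m F ((A - 1) *ᵥ u) v := fun u v => rfl
    have halt : α.IsAlt := by
      intro v
      rw [hα, Matrix.sub_mulVec, Matrix.one_mulVec, form_sub_left, form_self, hsym, hall, sub_zero]
    obtain ⟨c, hc⟩ := alt_even α halt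
    have hker : LinearMap.ker α = LinearMap.ker (A - 1).mulVecLin := by
      ext x
      rw [LinearMap.mem_ker, LinearMap.mem_ker]
      constructor
      · intro hx
        apply form_nondeg
        intro v
        have h9 : α x v = 0 := by rw [hx]; rfl
        rw [hα] at h9
        exact h9
      · intro hx
        apply LinearMap.ext
        intro v
        rw [hα]
        have hx' : (A - 1) *ᵥ x = 0 := hx
        rw [hx']
        simp [Cfsg.sympForm]
    have hrn := LinearMap.finrank_range_add_finrank_ker (A - 1).mulVecLin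
    rw [hker] at hc
    have hrank : (A - 1).rank = Module.finrank F (LinearMap.range (A - 1).mulVecLin) := rfl
    refine ⟨c, ?_⟩
    rw [hrank]
    omega

end Cfsg.Agent.S2167
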