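import Cfsg.Statements.S2166
import Cfsg.Agent.Lib.Helper15.SpInvolB
import Cfsg.Agent.S2167
open Cfsg.Agent.Lib.Helper15.SpInvol Cfsg.Agent.Lib.Helper15.InvolCls Matrix

set_option autoImplicit false
open Cfsg

namespace Cfsg.Agent.S2166

/-- Conjugacy of involutions in the symplectic group Sp_{2m}(F), F a finite field of characteristic two, m ≥ 2 (Sp taken as the matrices A with A J Aᵀ = J, acting on column vectors, with the alternating form f(u, v) = u ⬝ (J v)). For an involution t write V(t) for the set of vectors v with f(v, t v) = 0 (a subspace). Two involutions a, b are conjugate in Sp_{2m}(F) exactly when a − 1 and b − 1 have the same rank and, in case that rank is even, V(a) and V(b) have the same number of elements. -/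
theorem result {F : Type*} [Field F] [Fintype F] [CharP F 2] {m : ℕ} (hm : 2 ≤ m) (a b : ↥(Matrix.symplecticGroup (Fin m) F)) (ha : orderOf a = 2) (hb : orderOf b = 2) :
    IsConj a b ↔ ((((a : ↥(Matrix.symplecticGroup (Fin m) F)) : Matrix (Fin m ⊕ Fin m) (Fin m ⊕ Fin m) F) - 1).rank = (((b : ↥(Matrix.symplecticGroup (Fin m) F)) : Matrix (Fin m ⊕ Fin m) (Fin m ⊕ Fin m) F) - 1).rank ∧
      (Even (((a : ↥(Matrix.symplecticGroup (Fin m) F)) : Matrix (Fin m ⊕ Fin m) (Fin m ⊕ Fin m) F) - 1).rank → Nat.card {v : Fin m ⊕ Fin m → F // Cfsg.sympForm m F v (Matrix.mulVec ((a : ↥(Matrix.symplecticGroup (Fin m) F)) : Matrix (Fin m ⊕ Fin m) (Fin m ⊕ Fin m) F) v) = 0} = Nat.card {v : Fin m ⊕ Fin m → F // Cfsg.sympForm m F v (Matrix.mulVec ((b : ↥(Matrix.symplecticGroup (Fin m) F)) : Matrix (Fin m ⊕ Fin m) (Fin m ⊕ Fin m) F) v) = 0})) := by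
  classical
  set A : Matrix (Fin m ⊕ Fin m) (Fin m ⊕ Fin m) F :=
    ((a : ↥(Matrix.symplecticGroup (Fin m) F)) : Matrix (Fin m ⊕ Fin m) (Fin m ⊕ Fin m) F) with hAdef
  set Bm : Matrix (Fin m ⊕ Fin m) (Fin m ⊕ Fin m) F :=
    ((b : ↥(Matrix.symplecticGroup (Fin m) F)) : Matrix (Fin m ⊕ Fin m) (Fin m ⊕ Fin m) F) with hBdef
  have hsq2 : ∀ x : ↥(Matrix.symplecticGroup (Fin m) F), orderOf x = 2 →
      (x : Matrix (Fin m ⊕ Fin m) (Fin m ⊕ Fin m) F) * (x : Matrix (Fin m ⊕ Fin m) (Fin m ⊕ Fin m) F) = 1 := by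
    intro x hx
    have h1 : x ^ 2 = 1 := by rw [← hx]; exact pow_orderOf_eq_one x
    have h2 := congrArg (fun y : ↥(Matrix.symplecticGroup (Fin m) F) =>
      (y : Matrix (Fin m ⊕ Fin m) (Fin m ⊕ Fin m) F)) h1
    simpa [pow_two] using h2
  have hA2 : A * A = 1 := hsq2 a ha
  have hB2 : Bm * Bm = 1 := hsq2 b hb
  have htypeA : (∀ v : Fin m ⊕ Fin m → F, Cfsg.sympForm m F v (A *ᵥ v) = 0) → Even (A - 1).rank :=
    (Cfsg.Agent.S2167.result hm a ha).2
  have htypeB : (∀ v : Fin m ⊕ Fin m → F, Cfsg.sympForm m F v (Bm *ᵥ v) = 0) → Even (Bm - 1).rank :=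
    (Cfsg.Agent.S2167.result hm b hb).2
  constructor
  · intro hconj
    obtain ⟨c, hc⟩ := isConj_iff.mp hconj
    set C : Matrix (Fin m ⊕ Fin m) (Fin m ⊕ Fin m) F :=
      ((c : ↥(Matrix.symplecticGroup (Fin m) F)) : Matrix (Fin m ⊕ Fin m) (Fin m ⊕ Fin m) F) with hCdef
    set C' : Matrix (Fin m ⊕ Fin m) (Fin m ⊕ Fin m) F :=
      ((c⁻¹ : ↥(Matrix.symplecticGroup (Fin m) F)) : Matrix (Fin m ⊕ Fin m) (Fin m ⊕ Fin m) F) with hC'def
    have hCC' : C * C' = 1 := by
      have h := congrArg (fun y : ↥(Matrix.symplecticGroup (Fin m) F) =>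
        (y : Matrix (Fin m ⊕ Fin m) (Fin m ⊕ Fin m) F)) (mul_inv_cancel c)
      exact h
    have hC'C : C' * C = 1 := by
      have h := congrArg (fun y : ↥(Matrix.symplecticGroup (Fin m) F) =>
        (y : Matrix (Fin m ⊕ Fin m) (Fin m ⊕ Fin m) F)) (inv_mul_cancel c)
      exact h
    have hB : Bm = C * A * C' := by
      have h := congrArg (fun y : ↥(Matrix.symplecticGroup (Fin m) F) =>
        (y : Matrix (Fin m ⊕ Fin m) (Fin m ⊕ Fin m) F)) hc
      exact h.symm
    have hsub : Bm - 1 = C * (A - 1) * C' := by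
      rw [hB, Matrix.mul_sub, Matrix.sub_mul, Matrix.mul_one, hCC']
    have hCu : IsUnit C.det :=
      (Matrix.isUnit_iff_isUnit_det C).mp ⟨⟨C, C', hCC', hC'C⟩, rfl⟩
    have hC'u : IsUnit C'.det :=
      (Matrix.isUnit_iff_isUnit_det C').mp ⟨⟨C', C, hC'C, hCC'⟩, rfl⟩
    refine ⟨?_, fun _ => ?_⟩
    · rw [hsub, Matrix.rank_mul_eq_left_of_isUnit_det _ _ hC'u,
        Matrix.rank_mul_eq_right_of_isUnit_det _ _ hCu]
    · apply Nat.card_congr
      let e : (Fin m ⊕ Fin m → F) ≃ (Fin m ⊕ Fin m → F) :=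
        { toFun := fun v => C *ᵥ v
          invFun := fun v => C' *ᵥ v
          left_inv := fun v => by
            show C' *ᵥ (C *ᵥ v) = v
            rw [Matrix.mulVec_mulVec, hC'C, Matrix.one_mulVec]
          right_inv := fun v => by
            show C *ᵥ (C' *ᵥ v) = v
            rw [Matrix.mulVec_mulVec, hCC', Matrix.one_mulVec] }
      refine e.subtypeEquiv (fun v => ?_)
      show _ ↔ Cfsg.sympForm m F (C *ᵥ v) (Bm *ᵥ (C *ᵥ v)) = 0
      have h1 : Bm *ᵥ (C *ᵥ v) = C *ᵥ (A *ᵥ v) := by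
        rw [hB, Matrix.mulVec_mulVec, Matrix.mulVec_mulVec, Matrix.mul_assoc, Matrix.mul_assoc,
          hC'C, Matrix.mul_one]
      rw [h1, form_invariant C c.2]
  · rintro ⟨hrank, hcard⟩
    have hS := Bf_setup (F := F) (m := m)
    have htA := invIso_of A a.2 hA2
    have htB := invIso_of Bm b.2 hB2
    have hsq : ∀ x : F, ∃ c : F, c * c = x := fun x => by
      obtain ⟨c, hc⟩ := FiniteField.isSquare_of_char_two (ringChar.eq F 2) x
      exact ⟨c, hc.symm⟩
    have hlt : ∀ (M : Matrix (Fin m ⊕ Fin m) (Fin m ⊕ Fin m) F) (v : Fin m ⊕ Fin m → F),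
        Cfsg.sympForm m F v (M *ᵥ v) ≠ 0 →
        Nat.card {v : Fin m ⊕ Fin m → F // Cfsg.sympForm m F v (M *ᵥ v) = 0} <
          Nat.card (Fin m ⊕ Fin m → F) := by
      intro M v hv
      rw [Nat.card_eq_fintype_card, Nat.card_eq_fintype_card]
      exact Fintype.card_subtype_lt hv
    have hall : ∀ (M : Matrix (Fin m ⊕ Fin m) (Fin m ⊕ Fin m) F),
        (∀ v : Fin m ⊕ Fin m → F, Cfsg.sympForm m F v (M *ᵥ v) = 0) →
        Nat.card {v : Fin m ⊕ Fin m → F // Cfsg.sympForm m F v (M *ᵥ v) = 0} =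
          Nat.card (Fin m ⊕ Fin m → F) := by
      intro M h
      exact Nat.card_congr (Equiv.subtypeUnivEquiv h)
    have htype : (∀ v, Bf m F v (Matrix.toLin' A v) = 0) ↔ (∀ v, Bf m F v (Matrix.toLin' Bm v) = 0) := by
      simp only [Bf_apply, Matrix.toLin'_apply]
      constructor
      · intro h
        have hc := hcard (htypeA h)
        by_contra hne
        push Not at hne
        obtain ⟨v, hv⟩ := hne
        have h1 := hall A h
        have h2 := hlt Bm v hv
        omega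
      · intro h
        have hev : Even (A - 1).rank := by rw [hrank]; exact htypeB h
        have hc := hcard hev
        by_contra hne
        push Not at hne
        obtain ⟨v, hv⟩ := hne
        have h1 := hall Bm h
        have h2 := hlt A v hv
        omega
    obtain ⟨g, hg1, hg2⟩ := conj_generic hS Bf_nondeg hsq htA htB
      (by rw [rank_eq, rank_eq, hrank]) htype
    have hmem := mem_symp_of_isometry g.toLinearMap (fun u v => hg1 u v)
    rw [isConj_iff]
    refine ⟨⟨LinearMap.toMatrix' g.toLinearMap, hmem⟩, ?_⟩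
    rw [mul_inv_eq_iff_eq_mul]
    apply Subtype.ext
    show LinearMap.toMatrix' g.toLinearMap * A = Bm * LinearMap.toMatrix' g.toLinearMap
    apply Matrix.toLin'.injective
    apply LinearMap.ext
    intro v
    rw [Matrix.toLin'_mul, Matrix.toLin'_mul, LinearMap.comp_apply, LinearMap.comp_apply,
      Matrix.toLin'_toMatrix']
    exact hg2 v

end Cfsg.Agent.S2166
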