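import Mathlib
import Cfsg.Statements.S5678
import Cfsg.Agent.S5676

set_option autoImplicit false
open Cfsg

namespace Cfsg.Agent.S5678

open Matrix
open Cfsg.Agent.Lib.Helper16 (qfOdd qfOdd_coe qfOdd_nondeg)
open Cfsg.Agent.S5676 (rr rr_mem rr_mulVec omega_isom ginj)

section field3

variable {F : Type*} [Field F] [Fintype F]

theorem three_zero (hq : Fintype.card F = 3) : (3 : F) = 0 := by
  have h := FiniteField.cast_card_eq_zero F
  rw [hq] at h
  exact_mod_cast h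

theorem el3 (hq : Fintype.card F = 3) (c : F) : c = 0 ∨ c = 1 ∨ c = -1 := by
  by_cases hc : c = 0
  · exact Or.inl hc
  have h := FiniteField.pow_card_sub_one_eq_one c hc
  rw [hq] at h
  have h1 : c ^ 2 = 1 := by simpa using h
  have h2 : (c - 1) * (c + 1) = 0 := by linear_combination h1
  rcases mul_eq_zero.mp h2 with h' | h'
  · exact Or.inr (Or.inl (sub_eq_zero.mp h'))
  · exact Or.inr (Or.inr (eq_neg_of_add_eq_zero_left h'))

theorem two_sq (hq : Fintype.card F = 3) (a b : F) (h : a * a + b * b = 1) :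
    (b = 0 ∧ (a = 1 ∨ a = -1)) ∨ (a = 0 ∧ (b = 1 ∨ b = -1)) := by
  have h3 : (3 : F) = 0 := three_zero hq
  rcases el3 hq a with rfl | rfl | rfl <;> rcases el3 hq b with rfl | rfl | rfl <;>
    first
    | exact absurd (by linear_combination h : (1 : F) = 0) one_ne_zero
    | exact absurd (by linear_combination -h : (1 : F) = 0) one_ne_zero
    | exact absurd (by linear_combination h3 - h : (1 : F) = 0) one_ne_zero
    | simp

theorem three_sq (hq : Fintype.card F = 3) (a b c : F) (h : a * a + b * b + c * c = 1) :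
    (b = 0 ∧ c = 0 ∧ (a = 1 ∨ a = -1)) ∨ (a = 0 ∧ c = 0 ∧ (b = 1 ∨ b = -1)) ∨
      (a = 0 ∧ b = 0 ∧ (c = 1 ∨ c = -1)) := by
  have h3 : (3 : F) = 0 := three_zero hq
  rcases el3 hq a with rfl | rfl | rfl <;> rcases el3 hq b with rfl | rfl | rfl <;>
    rcases el3 hq c with rfl | rfl | rfl <;>
    first
    | exact absurd (by linear_combination h : (1 : F) = 0) one_ne_zero
    | exact absurd (by linear_combination -h : (1 : F) = 0) one_ne_zero
    | exact absurd (by linear_combination h3 - h : (1 : F) = 0) one_ne_zero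
    | simp

end field3

section frame

variable {ι : Type} [Fintype ι] [DecidableEq ι] {F : Type*} [Field F] [Fintype F]
  (Q : QuadraticForm F (ι → F)) (hQ : (QuadraticMap.polarBilin Q).Nondegenerate)

local notation "Bp" => QuadraticMap.polar (DFunLike.coe Q)

/-- the block `W` carries a frame of vectors of norm `ε`: two orthogonal vectors of norm `ε`,
and any two vectors of norm `ε` are orthogonal or equal up to sign -/
def Good (ε : F) (W : Submodule F (ι → F)) : Prop :=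
  (∃ v₁ ∈ W, ∃ v₂ ∈ W, Q v₁ = ε ∧ Q v₂ = ε ∧ Bp v₁ v₂ = 0) ∧
  (∀ x ∈ W, ∀ y ∈ W, Q x = ε → Q y = ε → Bp x y = 0 ∨ y = x ∨ y = -x)

omit [Fintype F] in
/-- a matrix mapping a set of vectors into itself stabilises it (finiteness) -/
theorem stab_of_maps [Finite F] (g : Matrix.GeneralLinearGroup ι F) (S : Set (ι → F))
    (h : ∀ x ∈ S, (g : Matrix ι ι F) *ᵥ x ∈ S) :
    g ∈ Cfsg.stabilizing (Cfsg.glToMat ι F) S := by
  intro x
  show x ∈ S ↔ (g : Matrix ι ι F) *ᵥ x ∈ S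
  refine ⟨h x, fun hx => ?_⟩
  let φ : S → S := fun y => ⟨(g : Matrix ι ι F) *ᵥ y.1, h y.1 y.2⟩
  have hinj : Function.Injective φ := by
    intro y z hyz
    exact Subtype.ext (ginj g (congrArg Subtype.val hyz))
  have hsurj : Function.Surjective φ := Finite.injective_iff_surjective.mp hinj
  obtain ⟨y, hy⟩ := hsurj ⟨_, hx⟩
  have e : y.1 = x := ginj g (congrArg Subtype.val hy)
  rw [← e]
  exact y.2

include hQ in
theorem frame_not_max (hq : Fintype.card F = 3) {t : ℕ} (D : Fin t → Submodule F (ι → F))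
    (hnd : ∀ i, Geo.IsNondegenerateOn (QuadraticMap.polar (⇑Q)) (D i))
    (horth : ∀ i j, i ≠ j → Geo.AreOrthogonalFor (QuadraticMap.polar (⇑Q)) (D i) (D j))
    (ε : F) (hε : ε = 1 ∨ ε = -1) (hgood : ∀ i, Good Q ε (D i)) (ht : 3 ≤ t) :
    ∃ K : Subgroup (Matrix.GeneralLinearGroup ι F),
      Geo.decompositionStabilizer D ⊓ Geo.omegaGL (⇑Q) < K ∧ K < Geo.omegaGL (⇑Q) := by
  classical
  have h3 : (3 : F) = 0 := three_zero hq
  have hε0 : ε ≠ 0 := by
    rcases hε with rfl | rfl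
    · exact one_ne_zero
    · exact neg_ne_zero.mpr one_ne_zero
  have hεε : ε * ε = 1 := by rcases hε with rfl | rfl <;> ring
  have h2 : (2 : F) ≠ 0 := by
    intro h
    exact one_ne_zero (by linear_combination h3 - h : (1 : F) = 0)
  have h2ε : 2 * ε ≠ 0 := mul_ne_zero h2 hε0
  have hadd : ∀ x y : ι → F, Q (x + y) = Q x + Q y + Bp x y := fun x y =>
    QuadraticMap.map_add (⇑Q) x y
  have hBxx : ∀ x : ι → F, Bp x x = 2 * Q x := fun x => by
    rw [QuadraticMap.polar_self]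
    simp
  have hBc : ∀ x y : ι → F, Bp x y = Bp y x := fun x y => QuadraticMap.polar_comm _ x y
  have hBl : ∀ x y : ι → F, Bp x y = QuadraticMap.polarBilin Q x y := fun _ _ => rfl
  have hex : Fintype.card F ≠ 2 ∨ Fintype.card ι ≠ 4 := Or.inl (by omega)
  have hneg : ∀ x : ι → F, Q (-x) = Q x := fun x => QuadraticMap.map_neg Q x
  have hsub : ∀ x y : ι → F, Q (x - y) = Q x + Q y - Bp x y := by
    intro x y
    rw [sub_eq_add_neg, hadd, hneg, hBl, map_neg, ← hBl]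
    ring
  have hBsub : ∀ x y z : ι → F, Bp (x - y) z = Bp x z - Bp y z := by
    intro x y z
    rw [hBl, map_sub, LinearMap.sub_apply, ← hBl, ← hBl]
  have hBadd : ∀ x y z : ι → F, Bp (x + y) z = Bp x z + Bp y z := by
    intro x y z
    rw [hBl, map_add, LinearMap.add_apply, ← hBl, ← hBl]
  have hBnr : ∀ x y : ι → F, Bp x (-y) = -Bp x y := by
    intro x y
    rw [hBl, map_neg, ← hBl]
  obtain ⟨S, hS⟩ : ∃ S : Set (ι → F), S = {x | Q x = ε ∧ ∃ i, x ∈ D i} := ⟨_, rfl⟩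
  have hSmem : ∀ x, x ∈ S ↔ (Q x = ε ∧ ∃ i, x ∈ D i) := by
    intro x
    rw [hS]
    rfl
  have hdisj : ∀ i j, i ≠ j → ∀ x, x ∈ D i → x ∈ D j → x = 0 := by
    intro i j hij x hxi hxj
    by_contra hx0
    obtain ⟨⟨y, hy, hy0⟩, -⟩ := hnd i x hxi hx0
    exact hy0 (horth i j hij y hy x hxj)
  -- the reflection in `v - w`
  have hR : ∀ i j, i ≠ j → ∀ v ∈ D i, ∀ w ∈ D j, Q v = ε → Q w = ε → ∀ x : ι → F,
      x - ((Q (v - w))⁻¹ * Bp (v - w) x) • (v - w) = x + (ε * (Bp v x - Bp w x)) • (v - w) := by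
    intro i j hij v hv w hw hQv hQw x
    have hvw : Bp v w = 0 := horth i j hij v hv w hw
    have hQa : Q (v - w) = -ε := by
      rw [hsub, hQv, hQw, hvw]
      linear_combination ε * h3
    have hinv : (Q (v - w))⁻¹ = -ε := by
      rw [hQa]
      symm
      apply eq_inv_of_mul_eq_one_left
      linear_combination hεε
    rw [hinv, hBsub, sub_eq_add_neg, ← neg_smul, neg_mul, neg_neg]
  have hQa0 : ∀ i j, i ≠ j → ∀ v ∈ D i, ∀ w ∈ D j, Q v = ε → Q w = ε → Q (v - w) = -ε := by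
    intro i j hij v hv w hw hQv hQw
    have hvw : Bp v w = 0 := horth i j hij v hv w hw
    rw [hsub, hQv, hQw, hvw]
    linear_combination ε * h3
  have hrefl : ∀ i j, i ≠ j → ∀ v ∈ D i, ∀ w ∈ D j, Q v = ε → Q w = ε → ∀ x ∈ S,
      x - ((Q (v - w))⁻¹ * Bp (v - w) x) • (v - w) ∈ S := by
    intro i j hij v hv w hw hQv hQw x hx
    have hvw : Bp v w = 0 := horth i j hij v hv w hw
    have hwv : Bp w v = 0 := by rw [hBc, hvw]
    obtain ⟨hQx, l, hxl⟩ := (hSmem x).mp hx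
    rw [hR i j hij v hv w hw hQv hQw x]
    by_cases hli : l = i
    · rw [hli] at hxl
      have hwx : Bp w x = 0 := by
        rw [hBc]
        exact horth i j hij x hxl w hw
      rcases (hgood i).2 v hv x hxl hQv hQx with h0 | h1 | h1
      · rw [h0, hwx, sub_zero, mul_zero, zero_smul, add_zero]
        exact hx
      · have e : x + (ε * (Bp v x - Bp w x)) • (v - w) = w := by
          rw [h1, hBxx, hQv, hwv, sub_zero,
            show ε * (2 * ε) = -1 by linear_combination 2 * hεε + h3, neg_one_smul]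
          abel
        rw [e]
        exact (hSmem w).mpr ⟨hQw, j, hw⟩
      · have e : x + (ε * (Bp v x - Bp w x)) • (v - w) = -w := by
          rw [h1, hBnr, hBnr, hBxx, hQv, hwv, neg_zero, sub_zero,
            show ε * (-(2 * ε)) = 1 by linear_combination (-2) * hεε - h3, one_smul]
          abel
        rw [e]
        exact (hSmem (-w)).mpr ⟨by rw [hneg, hQw], j, (D j).neg_mem hw⟩
    by_cases hlj : l = j
    · rw [hlj] at hxl
      have hvx : Bp v x = 0 := horth i j hij v hv x hxl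
      rcases (hgood j).2 w hw x hxl hQw hQx with h0 | h1 | h1
      · rw [h0, hvx, sub_zero, mul_zero, zero_smul, add_zero]
        exact hx
      · have e : x + (ε * (Bp v x - Bp w x)) • (v - w) = v := by
          rw [h1, hBxx, hQw, hvw, zero_sub,
            show ε * (-(2 * ε)) = 1 by linear_combination (-2) * hεε - h3, one_smul]
          abel
        rw [e]
        exact (hSmem v).mpr ⟨hQv, i, hv⟩
      · have e : x + (ε * (Bp v x - Bp w x)) • (v - w) = -v := by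
          rw [h1, hBnr, hBnr, hBxx, hQw, hvw, neg_zero, zero_sub, neg_neg,
            show ε * (2 * ε) = -1 by linear_combination 2 * hεε + h3, neg_one_smul]
          abel
        rw [e]
        exact (hSmem (-v)).mpr ⟨by rw [hneg, hQv], i, (D i).neg_mem hv⟩
    · have hvx : Bp v x = 0 := horth i l (Ne.symm hli) v hv x hxl
      have hwx : Bp w x = 0 := horth j l (Ne.symm hlj) w hw x hxl
      rw [hvx, hwx, sub_zero, mul_zero, zero_smul, add_zero]
      exact hx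
  -- three distinct blocks
  obtain ⟨i₁, hi₁⟩ : ∃ i : Fin t, i = ⟨0, by omega⟩ := ⟨_, rfl⟩
  obtain ⟨i₂, hi₂⟩ : ∃ i : Fin t, i = ⟨1, by omega⟩ := ⟨_, rfl⟩
  obtain ⟨i₃, hi₃⟩ : ∃ i : Fin t, i = ⟨2, by omega⟩ := ⟨_, rfl⟩
  have h12 : i₁ ≠ i₂ := by
    rw [hi₁, hi₂]
    intro h
    simp [Fin.ext_iff] at h
  have h13 : i₁ ≠ i₃ := by
    rw [hi₁, hi₃]
    intro h
    simp [Fin.ext_iff] at h
  have h23 : i₂ ≠ i₃ := by
    rw [hi₂, hi₃]
    intro h
    simp [Fin.ext_iff] at h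
  obtain ⟨⟨v₁, hv₁, v₂, hv₂, hQv₁, hQv₂, hv12⟩, -⟩ := hgood i₁
  obtain ⟨⟨w₁, hw₁, -, -, hQw₁, -, -⟩, -⟩ := hgood i₂
  obtain ⟨⟨u₂, hu₂, -, -, hQu₂, -, -⟩, -⟩ := hgood i₃
  have hv21 : Bp v₂ v₁ = 0 := by rw [hBc, hv12]
  have hv₁w₁ : Bp v₁ w₁ = 0 := horth i₁ i₂ h12 v₁ hv₁ w₁ hw₁
  have hv₂w₁ : Bp v₂ w₁ = 0 := horth i₁ i₂ h12 v₂ hv₂ w₁ hw₁
  have hv₁u₂ : Bp v₁ u₂ = 0 := horth i₁ i₃ h13 v₁ hv₁ u₂ hu₂
  have hv₂u₂ : Bp v₂ u₂ = 0 := horth i₁ i₃ h13 v₂ hv₂ u₂ hu₂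
  have hw₁u₂ : Bp w₁ u₂ = 0 := horth i₂ i₃ h23 w₁ hw₁ u₂ hu₂
  have hw₁v₁ : Bp w₁ v₁ = 0 := by rw [hBc, hv₁w₁]
  have hw₁v₂ : Bp w₁ v₂ = 0 := by rw [hBc, hv₂w₁]
  have hu₂v₁ : Bp u₂ v₁ = 0 := by rw [hBc, hv₁u₂]
  have hu₂v₂ : Bp u₂ v₂ = 0 := by rw [hBc, hv₂u₂]
  have hu₂w₁ : Bp u₂ w₁ = 0 := by rw [hBc, hw₁u₂]
  have hw₁0 : w₁ ≠ 0 := by
    intro h
    rw [h, map_zero] at hQw₁
    exact hε0 hQw₁.symm
  have hv₁S : v₁ ∈ S := (hSmem v₁).mpr ⟨hQv₁, i₁, hv₁⟩
  -- the two subgroups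
  have hQa : Q (v₁ - w₁) = -ε := hQa0 i₁ i₂ h12 v₁ hv₁ w₁ hw₁ hQv₁ hQw₁
  have hQb : Q (v₂ - u₂) = -ε := hQa0 i₁ i₃ h13 v₂ hv₂ u₂ hu₂ hQv₂ hQu₂
  have hQa0' : Q (v₁ - w₁) ≠ 0 := by
    rw [hQa]
    exact neg_ne_zero.mpr hε0
  have hQb0' : Q (v₂ - u₂) ≠ 0 := by
    rw [hQb]
    exact neg_ne_zero.mpr hε0
  have hkΩ : rr Q (v₁ - w₁) (v₂ - u₂) hQa0' hQb0' ∈ Geo.omegaGL (⇑Q) := by
    apply rr_mem Q hQ hex
    rw [hQa, hQb]
    exact ⟨ε, by ring⟩
  have hkS : rr Q (v₁ - w₁) (v₂ - u₂) hQa0' hQb0' ∈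
      Cfsg.stabilizing (Cfsg.glToMat ι F) S := by
    apply stab_of_maps
    intro x hx
    rw [rr_mulVec]
    exact hrefl i₁ i₂ h12 v₁ hv₁ w₁ hw₁ hQv₁ hQw₁ _
      (hrefl i₁ i₃ h13 v₂ hv₂ u₂ hu₂ hQv₂ hQu₂ x hx)
  have hkv₁ : ((rr Q (v₁ - w₁) (v₂ - u₂) hQa0' hQb0' : Matrix.GeneralLinearGroup ι F) :
      Matrix ι ι F) *ᵥ v₁ = w₁ := by
    rw [rr_mulVec, hR i₁ i₃ h13 v₂ hv₂ u₂ hu₂ hQv₂ hQu₂ v₁, hv21, hu₂v₁, sub_zero, mul_zero,
      zero_smul, add_zero, hR i₁ i₂ h12 v₁ hv₁ w₁ hw₁ hQv₁ hQw₁ v₁, hBxx, hQv₁, hw₁v₁, sub_zero,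
      show ε * (2 * ε) = -1 by linear_combination 2 * hεε + h3, neg_one_smul]
    abel
  have hkv₂ : ((rr Q (v₁ - w₁) (v₂ - u₂) hQa0' hQb0' : Matrix.GeneralLinearGroup ι F) :
      Matrix ι ι F) *ᵥ v₂ = u₂ := by
    have e1 : v₂ + (ε * (Bp v₂ v₂ - Bp u₂ v₂)) • (v₂ - u₂) = u₂ := by
      rw [hBxx, hQv₂, hu₂v₂, sub_zero,
        show ε * (2 * ε) = -1 by linear_combination 2 * hεε + h3, neg_one_smul]
      abel
    rw [rr_mulVec, hR i₁ i₃ h13 v₂ hv₂ u₂ hu₂ hQv₂ hQu₂ v₂, e1,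
      hR i₁ i₂ h12 v₁ hv₁ w₁ hw₁ hQv₁ hQw₁ u₂, hv₁u₂, hw₁u₂, sub_zero, mul_zero, zero_smul,
      add_zero]
  -- the element outside the frame stabiliser
  have hQc : Q (v₁ + v₂ + w₁ + u₂) = ε := by
    rw [hadd, hadd, hadd, hBadd, hBadd, hBadd, hQv₁, hQv₂, hQw₁, hQu₂, hv12, hv₁w₁, hv₂w₁,
      hv₁u₂, hv₂u₂, hw₁u₂]
    linear_combination ε * h3
  have hQc0 : Q (v₁ + v₂ + w₁ + u₂) ≠ 0 := by
    rw [hQc]
    exact hε0
  have hQw₁0 : Q w₁ ≠ 0 := by
    rw [hQw₁]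
    exact hε0
  have hωΩ : rr Q (v₁ + v₂ + w₁ + u₂) w₁ hQc0 hQw₁0 ∈ Geo.omegaGL (⇑Q) := by
    apply rr_mem Q hQ hex
    rw [hQc, hQw₁]
    exact ⟨ε, rfl⟩
  have hωv₁ : ((rr Q (v₁ + v₂ + w₁ + u₂) w₁ hQc0 hQw₁0 : Matrix.GeneralLinearGroup ι F) :
      Matrix ι ι F) *ᵥ v₁ = v₁ + (v₁ + v₂ + w₁ + u₂) := by
    have hinv : ε⁻¹ = ε := by
      symm
      apply eq_inv_of_mul_eq_one_left
      exact hεε
    rw [rr_mulVec, hw₁v₁, mul_zero, zero_smul, sub_zero, hQc, hBadd, hBadd, hBadd, hBxx, hQv₁,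
      hv21, hw₁v₁, hu₂v₁, add_zero, add_zero, add_zero, hinv,
      show ε * (2 * ε) = -1 by linear_combination 2 * hεε + h3, neg_one_smul, sub_neg_eq_add]
  refine ⟨Cfsg.stabilizing (Cfsg.glToMat ι F) S ⊓ Geo.omegaGL (⇑Q), ?_, ?_⟩
  · refine lt_iff_le_not_ge.mpr ⟨?_, fun hle => ?_⟩
    · intro g hg
      refine ⟨?_, hg.2⟩
      obtain ⟨σ, hσ⟩ := hg.1
      apply stab_of_maps
      intro x hx
      obtain ⟨hQx, l, hxl⟩ := (hSmem x).mp hx
      refine (hSmem _).mpr ⟨?_, σ l, ?_⟩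
      · rw [omega_isom Q hg.2, hQx]
      · rw [← hσ l, ← Matrix.toLin'_apply]
        exact Submodule.mem_map_of_mem hxl
    · obtain ⟨σ, hσ⟩ := (hle ⟨hkS, hkΩ⟩).1
      have hw : w₁ ∈ D (σ i₁) := by
        have hm := Submodule.mem_map_of_mem (f := Matrix.toLin'
          ((rr Q (v₁ - w₁) (v₂ - u₂) hQa0' hQb0' : Matrix.GeneralLinearGroup ι F) :
            Matrix ι ι F)) hv₁
        rw [hσ i₁, Matrix.toLin'_apply, hkv₁] at hm
        exact hm
      have hu : u₂ ∈ D (σ i₁) := by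
        have hm := Submodule.mem_map_of_mem (f := Matrix.toLin'
          ((rr Q (v₁ - w₁) (v₂ - u₂) hQa0' hQb0' : Matrix.GeneralLinearGroup ι F) :
            Matrix ι ι F)) hv₂
        rw [hσ i₁, Matrix.toLin'_apply, hkv₂] at hm
        exact hm
      have hu₂0 : u₂ ≠ 0 := by
        intro h
        rw [h, map_zero] at hQu₂
        exact hε0 hQu₂.symm
      have e2 : σ i₁ = i₂ := by
        by_contra hne
        exact hw₁0 (hdisj _ _ hne w₁ hw hw₁)
      have e3 : σ i₁ = i₃ := by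
        by_contra hne
        exact hu₂0 (hdisj _ _ hne u₂ hu hu₂)
      exact h23 (e2.symm.trans e3)
  · refine lt_iff_le_not_ge.mpr ⟨inf_le_right, fun hle => ?_⟩
    have h1 := ((hle hωΩ).1 v₁).mp hv₁S
    have h1' : ((rr Q (v₁ + v₂ + w₁ + u₂) w₁ hQc0 hQw₁0 : Matrix.GeneralLinearGroup ι F) :
        Matrix ι ι F) *ᵥ v₁ ∈ S := h1
    rw [hωv₁] at h1'
    obtain ⟨-, l, hl⟩ := (hSmem _).mp h1'
    by_cases hl2 : l = i₂
    · have hl3 : l ≠ i₃ := by
        rw [hl2]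
        exact h23
      have h0 := horth l i₃ hl3 _ hl u₂ hu₂
      rw [hBadd, hBadd, hBadd, hBadd, hv₁u₂, hv₂u₂, hw₁u₂, hBxx, hQu₂] at h0
      apply h2ε
      linear_combination h0
    · have h0 := horth l i₂ hl2 _ hl w₁ hw₁
      rw [hBadd, hBadd, hBadd, hBadd, hv₁w₁, hv₂w₁, hu₂w₁, hBxx, hQw₁] at h0
      apply h2ε
      linear_combination h0

omit [Fintype F] [DecidableEq ι] in
/-- an orthogonal basis of non-singular vectors of a non-degenerate subspace -/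
theorem orth_basis (h2 : (2 : F) ≠ 0) (W : Submodule F (ι → F))
    (hW : Geo.IsNondegenerateOn (QuadraticMap.polar (⇑Q)) W) (k : ℕ)
    (hk : Module.finrank F W = k) :
    ∃ v : Fin k → (ι → F), (∀ j, v j ∈ W) ∧ (∀ j, Q (v j) ≠ 0) ∧
      (∀ j l, j ≠ l → Bp (v j) (v l) = 0) ∧
      (∀ x ∈ W, ∃ c : Fin k → F, x = ∑ j, c j • v j) := by
  subst hk
  have hinv2 : Invertible (2 : F) := invertibleOfNonzero h2
  have hBxx : ∀ x : ι → F, Bp x x = 2 * Q x := fun x => by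
    rw [QuadraticMap.polar_self]
    simp
  have hBl : ∀ x y : ι → F, Bp x y = QuadraticMap.polarBilin Q x y := fun _ _ => rfl
  obtain ⟨b, hb⟩ := LinearMap.BilinForm.exists_orthogonal_basis
    (B := LinearMap.BilinForm.restrict (QuadraticMap.polarBilin Q) W)
    ⟨fun x y => QuadraticMap.polar_comm (⇑Q) (x : ι → F) (y : ι → F)⟩
  have hsum : ∀ x (hx : x ∈ W), x = ∑ l, (b.repr ⟨x, hx⟩ l) • (b l : ι → F) := by
    intro x hx
    have h1 := congrArg Subtype.val (b.sum_repr ⟨x, hx⟩)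
    have h1' : x = ((∑ i, (b.repr ⟨x, hx⟩) i • b i : W) : ι → F) := h1.symm
    refine h1'.trans ?_
    rw [Submodule.coe_sum]
    rfl
  refine ⟨fun j => (b j : ι → F), fun j => (b j).2, ?_, ?_, ?_⟩
  · intro j hj
    have h0 : (b j : ι → F) ≠ 0 := fun h => b.ne_zero j (Subtype.ext h)
    obtain ⟨-, ⟨x, hx, hx0⟩⟩ := hW (b j) (b j).2 h0
    apply hx0
    rw [hsum x hx, hBl, map_sum]
    apply Finset.sum_eq_zero
    intro l _
    rw [map_smul, smul_eq_mul]
    by_cases hjl : j = l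
    · subst hjl
      rw [← hBl, hBxx, hj, mul_zero, mul_zero]
    · rw [show QuadraticMap.polarBilin Q (b j : ι → F) (b l : ι → F) = 0 from hb hjl, mul_zero]
  · intro j l hjl
    exact hb hjl
  · intro x hx
    exact ⟨fun l => b.repr ⟨x, hx⟩ l, hsum x hx⟩

omit [Fintype ι] [DecidableEq ι] in
/-- three orthogonal vectors of norm `ε` spanning a block form a frame -/
theorem good_of_frame3 (hq : Fintype.card F = 3) (W : Submodule F (ι → F)) (ε : F)
    (hε : ε = 1 ∨ ε = -1) (v₁ v₂ v₃ : ι → F) (h₁ : v₁ ∈ W) (h₂ : v₂ ∈ W)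
    (hQ₁ : Q v₁ = ε) (hQ₂ : Q v₂ = ε) (hQ₃ : Q v₃ = ε) (h12 : Bp v₁ v₂ = 0)
    (h13 : Bp v₁ v₃ = 0) (h23 : Bp v₂ v₃ = 0)
    (hsp : ∀ x ∈ W, ∃ a b c : F, x = a • v₁ + b • v₂ + c • v₃) : Good Q ε W := by
  have hε0 : ε ≠ 0 := by
    rcases hε with rfl | rfl
    · exact one_ne_zero
    · exact neg_ne_zero.mpr one_ne_zero
  have hadd : ∀ x y : ι → F, Q (x + y) = Q x + Q y + Bp x y := fun x y =>
    QuadraticMap.map_add (⇑Q) x y
  have hBc : ∀ x y : ι → F, Bp x y = Bp y x := fun x y => QuadraticMap.polar_comm _ x y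
  have h21 : Bp v₂ v₁ = 0 := by rw [hBc, h12]
  have h31 : Bp v₃ v₁ = 0 := by rw [hBc, h13]
  have h32 : Bp v₃ v₂ = 0 := by rw [hBc, h23]
  have hcases : ∀ x ∈ W, Q x = ε →
      x = v₁ ∨ x = -v₁ ∨ x = v₂ ∨ x = -v₂ ∨ x = v₃ ∨ x = -v₃ := by
    intro x hx hQx
    obtain ⟨a, b, c, rfl⟩ := hsp x hx
    have e1 : ε * (a * a + b * b + c * c) = ε * 1 := by
      have h := hQx
      simp only [hadd, QuadraticMap.map_smul, QuadraticMap.polar_add_left,
        QuadraticMap.polar_smul_left, QuadraticMap.polar_smul_right, hQ₁, hQ₂, hQ₃, h12, h13,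
        h23, smul_eq_mul] at h
      linear_combination h
    have e2 := mul_left_cancel₀ hε0 e1
    rcases three_sq hq a b c e2 with ⟨rfl, rfl, rfl | rfl⟩ | ⟨rfl, rfl, rfl | rfl⟩ |
      ⟨rfl, rfl, rfl | rfl⟩
    · left
      simp
    · right; left
      simp
    · right; right; left
      simp
    · right; right; right; left
      simp
    · right; right; right; right; left
      simp
    · right; right; right; right; right
      simp
  refine ⟨⟨v₁, h₁, v₂, h₂, hQ₁, hQ₂, h12⟩, ?_⟩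
  intro x hx y hy hQx hQy
  rcases hcases x hx hQx with h | h | h | h | h | h <;>
    rcases hcases y hy hQy with h' | h' | h' | h' | h' | h' <;>
    rw [h, h'] <;>
    simp [QuadraticMap.polar_neg_left, QuadraticMap.polar_neg_right, h12, h13, h23, h21, h31,
      h32]

omit [Fintype ι] [DecidableEq ι] in
/-- two orthogonal vectors of norm `ε` spanning a block form a frame -/
theorem good_of_frame2 (hq : Fintype.card F = 3) (W : Submodule F (ι → F)) (ε : F)
    (hε : ε = 1 ∨ ε = -1) (v₁ v₂ : ι → F) (h₁ : v₁ ∈ W) (h₂ : v₂ ∈ W)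
    (hQ₁ : Q v₁ = ε) (hQ₂ : Q v₂ = ε) (h12 : Bp v₁ v₂ = 0)
    (hsp : ∀ x ∈ W, ∃ a b : F, x = a • v₁ + b • v₂) : Good Q ε W := by
  have hε0 : ε ≠ 0 := by
    rcases hε with rfl | rfl
    · exact one_ne_zero
    · exact neg_ne_zero.mpr one_ne_zero
  have hadd : ∀ x y : ι → F, Q (x + y) = Q x + Q y + Bp x y := fun x y =>
    QuadraticMap.map_add (⇑Q) x y
  have hBc : ∀ x y : ι → F, Bp x y = Bp y x := fun x y => QuadraticMap.polar_comm _ x y
  have h21 : Bp v₂ v₁ = 0 := by rw [hBc, h12]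
  have hcases : ∀ x ∈ W, Q x = ε → x = v₁ ∨ x = -v₁ ∨ x = v₂ ∨ x = -v₂ := by
    intro x hx hQx
    obtain ⟨a, b, rfl⟩ := hsp x hx
    have e1 : ε * (a * a + b * b) = ε * 1 := by
      have h := hQx
      simp only [hadd, QuadraticMap.map_smul, QuadraticMap.polar_smul_left,
        QuadraticMap.polar_smul_right, hQ₁, hQ₂, h12, smul_eq_mul] at h
      linear_combination h
    have e2 := mul_left_cancel₀ hε0 e1
    rcases two_sq hq a b e2 with ⟨rfl, rfl | rfl⟩ | ⟨rfl, rfl | rfl⟩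
    · left
      simp
    · right; left
      simp
    · right; right; left
      simp
    · right; right; right
      simp
  refine ⟨⟨v₁, h₁, v₂, h₂, hQ₁, hQ₂, h12⟩, ?_⟩
  intro x hx y hy hQx hQy
  rcases hcases x hx hQx with h | h | h | h <;>
    rcases hcases y hy hQy with h' | h' | h' | h' <;>
    rw [h, h'] <;>
    simp [QuadraticMap.polar_neg_left, QuadraticMap.polar_neg_right, h12, h21]

/-- a non-degenerate three-dimensional space over the field with three elements has a frame -/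
theorem good3 (hq : Fintype.card F = 3) (W : Submodule F (ι → F))
    (hdim : Module.finrank F W = 3)
    (hW : Geo.IsNondegenerateOn (QuadraticMap.polar (⇑Q)) W) :
    ∃ ε : F, (ε = 1 ∨ ε = -1) ∧ Good Q ε W := by
  have h3 : (3 : F) = 0 := three_zero hq
  have h2 : (2 : F) ≠ 0 := by
    intro h
    exact one_ne_zero (by linear_combination h3 - h : (1 : F) = 0)
  have hadd : ∀ x y : ι → F, Q (x + y) = Q x + Q y + Bp x y := fun x y =>
    QuadraticMap.map_add (⇑Q) x y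
  have hBxx : ∀ x : ι → F, Bp x x = 2 * Q x := fun x => by
    rw [QuadraticMap.polar_self]
    simp
  have hBc : ∀ x y : ι → F, Bp x y = Bp y x := fun x y => QuadraticMap.polar_comm _ x y
  have hBl : ∀ x y : ι → F, Bp x y = QuadraticMap.polarBilin Q x y := fun _ _ => rfl
  have hneg : ∀ x : ι → F, Q (-x) = Q x := fun x => QuadraticMap.map_neg Q x
  have hsub : ∀ x y : ι → F, Q (x - y) = Q x + Q y - Bp x y := by
    intro x y
    rw [sub_eq_add_neg, hadd, hneg, hBl, map_neg, ← hBl]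
    ring
  obtain ⟨v, hvW, hvQ, hvo, hvsp⟩ := orth_basis Q h2 W hW 3 hdim
  have hsp : ∀ x ∈ W, ∃ a b c : F, x = a • v 0 + b • v 1 + c • v 2 := by
    intro x hx
    obtain ⟨c, hc⟩ := hvsp x hx
    exact ⟨c 0, c 1, c 2, by rw [hc, Fin.sum_univ_three]⟩
  have key : ∀ (δ : F), (δ = 1 ∨ δ = -1) → ∀ (v₁ v₂ v₃ : ι → F), v₁ ∈ W → v₂ ∈ W →
      Q v₁ = δ → Q v₂ = δ → Q v₃ = -δ → Bp v₁ v₂ = 0 → Bp v₁ v₃ = 0 → Bp v₂ v₃ = 0 →
      (∀ x ∈ W, ∃ a b c : F, x = a • v₁ + b • v₂ + c • v₃) → Good Q (-δ) W := by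
    intro δ hδ v₁ v₂ v₃ h₁ h₂ hQ₁ hQ₂ hQ₃ h12 h13 h23 hsp'
    have h21 : Bp v₂ v₁ = 0 := by rw [hBc, h12]
    have hδ' : -δ = 1 ∨ -δ = -1 := by
      rcases hδ with rfl | rfl
      · exact Or.inr rfl
      · exact Or.inl (neg_neg 1)
    refine good_of_frame3 Q hq W (-δ) hδ' (v₁ + v₂) (v₁ - v₂) v₃ (W.add_mem h₁ h₂)
      (W.sub_mem h₁ h₂) ?_ ?_ hQ₃ ?_ ?_ ?_ ?_
    · rw [hadd, hQ₁, hQ₂, h12]
      linear_combination δ * h3
    · rw [hsub, hQ₁, hQ₂, h12]
      linear_combination δ * h3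
    · rw [hBl, map_add, LinearMap.add_apply, map_sub, map_sub, ← hBl, ← hBl, ← hBl, ← hBl,
        hBxx, hBxx, h12, h21, hQ₁, hQ₂]
      ring
    · rw [hBl, map_add, LinearMap.add_apply, ← hBl, ← hBl, h13, h23, add_zero]
    · rw [hBl, map_sub, LinearMap.sub_apply, ← hBl, ← hBl, h13, h23, sub_zero]
    · intro x hx
      obtain ⟨a, b, c, rfl⟩ := hsp' x hx
      refine ⟨-(a + b), -(a - b), c, ?_⟩
      have e1 : -(a + b) - (a - b) = a := by linear_combination (-a) * h3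
      have e2 : -(a + b) + (a - b) = b := by linear_combination (-b) * h3
      calc a • v₁ + b • v₂ + c • v₃
          = (-(a + b) - (a - b)) • v₁ + (-(a + b) + (a - b)) • v₂ + c • v₃ := by rw [e1, e2]
        _ = (-(a + b)) • (v₁ + v₂) + (-(a - b)) • (v₁ - v₂) + c • v₃ := by module
  have hpm : ∀ j, Q (v j) = 1 ∨ Q (v j) = -1 := by
    intro j
    rcases el3 hq (Q (v j)) with h | h | h
    · exact absurd h (hvQ j)
    · exact Or.inl h
    · exact Or.inr h
  have o01 : Bp (v 0) (v 1) = 0 := hvo 0 1 (by decide)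
  have o02 : Bp (v 0) (v 2) = 0 := hvo 0 2 (by decide)
  have o12 : Bp (v 1) (v 2) = 0 := hvo 1 2 (by decide)
  have o10 : Bp (v 1) (v 0) = 0 := hvo 1 0 (by decide)
  have o20 : Bp (v 2) (v 0) = 0 := hvo 2 0 (by decide)
  have o21 : Bp (v 2) (v 1) = 0 := hvo 2 1 (by decide)
  have hsp021 : ∀ x ∈ W, ∃ a b c : F, x = a • v 0 + b • v 2 + c • v 1 := by
    intro x hx
    obtain ⟨a, b, c, rfl⟩ := hsp x hx
    exact ⟨a, c, b, by abel⟩
  have hsp120 : ∀ x ∈ W, ∃ a b c : F, x = a • v 1 + b • v 2 + c • v 0 := by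
    intro x hx
    obtain ⟨a, b, c, rfl⟩ := hsp x hx
    exact ⟨b, c, a, by abel⟩
  rcases hpm 0 with a | a <;> rcases hpm 1 with b | b <;> rcases hpm 2 with c | c
  · exact ⟨1, Or.inl rfl, good_of_frame3 Q hq W 1 (Or.inl rfl) (v 0) (v 1) (v 2) (hvW 0)
      (hvW 1) a b c o01 o02 o12 hsp⟩
  · exact ⟨-1, Or.inr rfl, key 1 (Or.inl rfl) (v 0) (v 1) (v 2) (hvW 0) (hvW 1) a b c o01 o02
      o12 hsp⟩
  · exact ⟨-1, Or.inr rfl, key 1 (Or.inl rfl) (v 0) (v 2) (v 1) (hvW 0) (hvW 2) a c b o02 o01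
      o21 hsp021⟩
  · refine ⟨1, Or.inl rfl, ?_⟩
    have h := key (-1) (Or.inr rfl) (v 1) (v 2) (v 0) (hvW 1) (hvW 2) b c
      (by rw [a, neg_neg]) o12 o10 o20 hsp120
    rwa [neg_neg] at h
  · exact ⟨-1, Or.inr rfl, key 1 (Or.inl rfl) (v 1) (v 2) (v 0) (hvW 1) (hvW 2) b c a o12 o10
      o20 hsp120⟩
  · refine ⟨1, Or.inl rfl, ?_⟩
    have h := key (-1) (Or.inr rfl) (v 0) (v 2) (v 1) (hvW 0) (hvW 2) a c
      (by rw [b, neg_neg]) o02 o01 o21 hsp021
    rwa [neg_neg] at h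
  · refine ⟨1, Or.inl rfl, ?_⟩
    have h := key (-1) (Or.inr rfl) (v 0) (v 1) (v 2) (hvW 0) (hvW 1) a b
      (by rw [c, neg_neg]) o01 o02 o12 hsp
    rwa [neg_neg] at h
  · exact ⟨-1, Or.inr rfl, good_of_frame3 Q hq W (-1) (Or.inr rfl) (v 0) (v 1) (v 2) (hvW 0)
      (hvW 1) a b c o01 o02 o12 hsp⟩

/-- a non-degenerate anisotropic plane over the field with three elements has a frame of
vectors of norm one -/
theorem good2 (hq : Fintype.card F = 3) (W : Submodule F (ι → F))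
    (hdim : Module.finrank F W = 2)
    (hW : Geo.IsNondegenerateOn (QuadraticMap.polar (⇑Q)) W)
    (hnp : ¬ Geo.IsPlusTypeOn (⇑Q) W) : Good Q 1 W := by
  have h3 : (3 : F) = 0 := three_zero hq
  have h2 : (2 : F) ≠ 0 := by
    intro h
    exact one_ne_zero (by linear_combination h3 - h : (1 : F) = 0)
  have hadd : ∀ x y : ι → F, Q (x + y) = Q x + Q y + Bp x y := fun x y =>
    QuadraticMap.map_add (⇑Q) x y
  have hBxx : ∀ x : ι → F, Bp x x = 2 * Q x := fun x => by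
    rw [QuadraticMap.polar_self]
    simp
  have hBc : ∀ x y : ι → F, Bp x y = Bp y x := fun x y => QuadraticMap.polar_comm _ x y
  have hBl : ∀ x y : ι → F, Bp x y = QuadraticMap.polarBilin Q x y := fun _ _ => rfl
  have hneg : ∀ x : ι → F, Q (-x) = Q x := fun x => QuadraticMap.map_neg Q x
  have hsub : ∀ x y : ι → F, Q (x - y) = Q x + Q y - Bp x y := by
    intro x y
    rw [sub_eq_add_neg, hadd, hneg, hBl, map_neg, ← hBl]
    ring
  have haniso : ∀ x ∈ W, x ≠ 0 → Q x ≠ 0 := by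
    intro x hx hx0 hQx
    apply hnp
    refine ⟨Submodule.span F {x}, ?_, ?_, ?_⟩
    · rw [Submodule.span_le]
      intro y hy
      rw [Set.mem_singleton_iff] at hy
      rw [hy]
      exact hx
    · intro y hy
      obtain ⟨c, rfl⟩ := Submodule.mem_span_singleton.mp hy
      rw [QuadraticMap.map_smul, hQx, smul_zero]
    · rw [finrank_span_singleton hx0, hdim]
  obtain ⟨v, hvW, hvQ, hvo, hvsp⟩ := orth_basis Q h2 W hW 2 hdim
  have hsp : ∀ x ∈ W, ∃ a b : F, x = a • v 0 + b • v 1 := by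
    intro x hx
    obtain ⟨c, hc⟩ := hvsp x hx
    exact ⟨c 0, c 1, by rw [hc, Fin.sum_univ_two]⟩
  have hpm : ∀ j, Q (v j) = 1 ∨ Q (v j) = -1 := by
    intro j
    rcases el3 hq (Q (v j)) with h | h | h
    · exact absurd h (hvQ j)
    · exact Or.inl h
    · exact Or.inr h
  have o01 : Bp (v 0) (v 1) = 0 := hvo 0 1 (by decide)
  have o10 : Bp (v 1) (v 0) = 0 := hvo 1 0 (by decide)
  have hmix : ∀ δ : F, δ ≠ 0 → Q (v 0) = δ → Q (v 1) = -δ → False := by
    intro δ hδ a b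
    have hx0 : v 0 + v 1 ≠ 0 := by
      intro h
      have h1 : Bp (v 0) (v 0 + v 1) = 0 := by rw [h, hBl, map_zero]
      rw [hBl, map_add, ← hBl, ← hBl, hBxx, o01, a, add_zero] at h1
      exact mul_ne_zero h2 hδ h1
    apply haniso _ (W.add_mem (hvW 0) (hvW 1)) hx0
    rw [hadd, a, b, o01]
    ring
  rcases hpm 0 with a | a <;> rcases hpm 1 with b | b
  · exact good_of_frame2 Q hq W 1 (Or.inl rfl) (v 0) (v 1) (hvW 0) (hvW 1) a b o01 hsp
  · exact (hmix 1 one_ne_zero a b).elim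
  · exact (hmix (-1) (neg_ne_zero.mpr one_ne_zero) a (by rw [b, neg_neg])).elim
  · refine good_of_frame2 Q hq W 1 (Or.inl rfl) (v 0 + v 1) (v 0 - v 1)
      (W.add_mem (hvW 0) (hvW 1)) (W.sub_mem (hvW 0) (hvW 1)) ?_ ?_ ?_ ?_
    · rw [hadd, a, b, o01]
      linear_combination (-1 : F) * h3
    · rw [hsub, a, b, o01]
      linear_combination (-1 : F) * h3
    · rw [hBl, map_add, LinearMap.add_apply, map_sub, map_sub, ← hBl, ← hBl, ← hBl, ← hBl,
        hBxx, hBxx, o01, o10, a, b]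
      ring
    · intro x hx
      obtain ⟨p, r, rfl⟩ := hsp x hx
      refine ⟨-(p + r), -(p - r), ?_⟩
      have e1 : -(p + r) - (p - r) = p := by linear_combination (-p) * h3
      have e2 : -(p + r) + (p - r) = r := by linear_combination (-r) * h3
      calc p • v 0 + r • v 1
          = (-(p + r) - (p - r)) • v 0 + (-(p + r) + (p - r)) • v 1 := by rw [e1, e2]
        _ = (-(p + r)) • (v 0 + v 1) + (-(p - r)) • (v 0 - v 1) := by module

omit [Fintype F] [Fintype ι] [DecidableEq ι] in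
/-- frames are transported by isometries -/
theorem good_transport {W W' : Submodule F (ι → F)} (h : Geo.AreIsometricFor (⇑Q) W W')
    {ε : F} (hg : Good Q ε W) : Good Q ε W' := by
  obtain ⟨e, he⟩ := h
  have hB : ∀ x y : W, Bp ((e x : W') : ι → F) ((e y : W') : ι → F) =
      Bp (x : ι → F) (y : ι → F) := by
    intro x y
    have h1 := he (x + y)
    rw [map_add] at h1
    simp only [Submodule.coe_add] at h1
    unfold QuadraticMap.polar
    rw [h1, he x, he y]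
  obtain ⟨⟨v₁, hv₁, v₂, hv₂, hQ₁, hQ₂, h12⟩, hFP⟩ := hg
  refine ⟨⟨e ⟨v₁, hv₁⟩, (e ⟨v₁, hv₁⟩).2, e ⟨v₂, hv₂⟩, (e ⟨v₂, hv₂⟩).2, ?_, ?_, ?_⟩, ?_⟩
  · rw [he]
    exact hQ₁
  · rw [he]
    exact hQ₂
  · rw [hB]
    exact h12
  intro x hx y hy hQx hQy
  have hx' : ((e (e.symm ⟨x, hx⟩) : W') : ι → F) = x := by rw [LinearEquiv.apply_symm_apply]
  have hy' : ((e (e.symm ⟨y, hy⟩) : W') : ι → F) = y := by rw [LinearEquiv.apply_symm_apply]
  have hh := hFP (e.symm ⟨x, hx⟩ : W) (e.symm ⟨x, hx⟩).2 (e.symm ⟨y, hy⟩ : W)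
    (e.symm ⟨y, hy⟩).2 (by rw [← he, hx']; exact hQx) (by rw [← he, hy']; exact hQy)
  rcases hh with h0 | h1 | h1
  · left
    rw [← hx', ← hy', hB]
    exact h0
  · right; left
    have h2 := e.symm.injective (Subtype.ext h1)
    exact congrArg Subtype.val h2
  · right; right
    have h2 : e.symm ⟨y, hy⟩ = e.symm (-⟨x, hx⟩) := by
      rw [map_neg]
      exact Subtype.ext h1
    have h3 := e.symm.injective h2
    exact congrArg Subtype.val h3

omit [Fintype F] [DecidableEq ι] in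
theorem three_le_t {t k : ℕ} (D : Fin t → Submodule F (ι → F)) (hD : Geo.IsMDecomposition k D)
    (hk : k ≤ 3) (hn : 7 ≤ Fintype.card ι) : 3 ≤ t := by
  by_contra hlt
  have ht2 : t = 2 := by
    have := hD.two_le
    omega
  subst ht2
  have h1 : (⊤ : Submodule F (ι → F)) ≤ D 0 ⊔ D 1 := by
    rw [← hD.iSup_eq_top]
    apply iSup_le
    intro i
    fin_cases i
    · exact le_sup_left
    · exact le_sup_right
  have h2 := Submodule.finrank_mono h1
  have h3 := Submodule.finrank_add_le_finrank_add_finrank (D 0) (D 1)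
  rw [finrank_top, Module.finrank_fintype_fun_eq_card] at h2
  rw [hD.finrank_eq, hD.finrank_eq] at h3
  omega

include hQ in
/-- the stabiliser in Ω of an isometric decomposition into non-degenerate three-dimensional
blocks over the field with three elements is not maximal -/
theorem k3_not_max (hq : Fintype.card F = 3) (hn : 7 ≤ Fintype.card ι) {t : ℕ}
    (D : Fin t → Submodule F (ι → F)) (hD : Geo.IsOrthogonalMDecomposition (⇑Q) 3 D) :
    ∃ K : Subgroup (Matrix.GeneralLinearGroup ι F),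
      Geo.decompositionStabilizer D ⊓ Geo.omegaGL (⇑Q) < K ∧ K < Geo.omegaGL (⇑Q) := by
  have ht : 3 ≤ t := three_le_t D hD.decomp.decomp (le_refl 3) hn
  obtain ⟨ε, hε, hg⟩ := good3 Q hq (D ⟨0, by omega⟩) (hD.decomp.decomp.finrank_eq _)
    (hD.decomp.nondegenerate _)
  exact frame_not_max Q hQ hq D hD.decomp.nondegenerate hD.decomp.orthogonal ε hε
    (fun i => good_transport Q (hD.isometric _ i) hg) ht

include hQ in
/-- the stabiliser in Ω of a decomposition into anisotropic planes over the field with three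
elements is not maximal -/
theorem k2_not_max (hq : Fintype.card F = 3) (hn : 7 ≤ Fintype.card ι) {t : ℕ}
    (D : Fin t → Submodule F (ι → F)) (hD : Geo.IsOrthogonalMDecomposition (⇑Q) 2 D)
    (hnp : ∀ i, ¬ Geo.IsPlusTypeOn (⇑Q) (D i)) :
    ∃ K : Subgroup (Matrix.GeneralLinearGroup ι F),
      Geo.decompositionStabilizer D ⊓ Geo.omegaGL (⇑Q) < K ∧ K < Geo.omegaGL (⇑Q) := by
  have ht : 3 ≤ t := three_le_t D hD.decomp.decomp (by omega) hn
  exact frame_not_max Q hQ hq D hD.decomp.nondegenerate hD.decomp.orthogonal 1 (Or.inl rfl)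
    (fun i => good2 Q hq (D i) (hD.decomp.decomp.finrank_eq i) (hD.decomp.nondegenerate i)
      (hnp i)) ht

end frame

/-- Let F be the field with 3 elements, m ≥ 6, Q the standard quadratic form on F^(2m+1) and Ω the commutator subgroup of its isometry group. Let D be a decomposition of F^(2m+1) into t pairwise orthogonal, pairwise Q-isometric 3-dimensional subspaces on which the polar form is non-degenerate. Then the elements of Ω permuting the members of D form a subgroup that is not maximal: some subgroup lies strictly between it and Ω. -/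
theorem result {F : Type*} [Field F] [Fintype F] (hq : Fintype.card F = 3) (m : ℕ) (hm : 6 ≤ m) {t : ℕ} (D : Fin t → Submodule F (Unit ⊕ (Fin m ⊕ Fin m) → F)) (hD : Cfsg.Geo.IsOrthogonalMDecomposition (Cfsg.quadFormOdd m F) 3 D) : ∃ K : Subgroup (Matrix.GeneralLinearGroup (Unit ⊕ (Fin m ⊕ Fin m)) F), Cfsg.Geo.decompositionStabilizer D ⊓ Cfsg.Geo.omegaGL (Cfsg.quadFormOdd m F) < K ∧ K < Cfsg.Geo.omegaGL (Cfsg.quadFormOdd m F) := by
  have hodd : Odd (Fintype.card F) := by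
    rw [hq]
    decide
  have h2 : (2 : F) ≠ 0 := Cfsg.Agent.S5644.two_ne hodd
  exact k3_not_max (qfOdd m F) (qfOdd_nondeg m F h2) hq
    (by simp only [Fintype.card_sum, Fintype.card_unit, Fintype.card_fin]; omega) D hD

end Cfsg.Agent.S5678
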