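import Mathlib
import Cfsg.Statements.S5653
import Cfsg.Agent.S0780
import Cfsg.Agent.S0781

set_option autoImplicit false
open Cfsg

namespace Cfsg.Agent.S5653

open Matrix
open Cfsg.Agent.S0837 (Bh Bh_apply hf Bh_symm Bh_nondeg)
open Cfsg.Agent.S0780 (IsSUm tv_isSUm)

section lib

variable {F : Type*} [Field F] (φ : F →+* F) {n q : ℕ}

local notation "B" => Bh φ n

theorem herm_B (hφq : ∀ a : F, φ a = a ^ q) (u v : Fin n → F) :
    Cfsg.hermForm n F q u v = B v u := by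
  rw [Cfsg.Agent.S0837.herm_eq φ hφq, Bh_apply]

theorem mem_G_iff (hφq : ∀ a : F, φ a = a ^ q) (g : Matrix.GeneralLinearGroup (Fin n) F) :
    g ∈ Cfsg.GU n F q ⊓ Cfsg.Geo.specialLinear (Fin n) F ↔
      IsSUm φ (g : Matrix (Fin n) (Fin n) F) := by
  constructor
  · rintro ⟨h1, h2⟩
    refine ⟨?_, fun x y => ?_⟩
    · have h3 : Matrix.GeneralLinearGroup.det g = 1 := h2
      have h4 := congrArg Units.val h3
      rwa [Matrix.GeneralLinearGroup.val_det_apply, Units.val_one] at h4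
    · have h3 : Cfsg.hermForm n F q ((g : Matrix (Fin n) (Fin n) F) *ᵥ y)
          ((g : Matrix (Fin n) (Fin n) F) *ᵥ x) = Cfsg.hermForm n F q y x := h1 y x
      rw [herm_B φ hφq, herm_B φ hφq] at h3
      exact h3
  · rintro ⟨h1, h2⟩
    refine ⟨fun u v => ?_, ?_⟩
    · show Cfsg.hermForm n F q ((g : Matrix (Fin n) (Fin n) F) *ᵥ u)
        ((g : Matrix (Fin n) (Fin n) F) *ᵥ v) = _
      rw [herm_B φ hφq, herm_B φ hφq]
      exact h2 v u
    · show Matrix.GeneralLinearGroup.det g = 1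
      apply Units.ext
      rw [Matrix.GeneralLinearGroup.val_det_apply, Units.val_one]
      exact h1

open Classical in
/-- a matrix of determinant one as an element of the general linear group -/
noncomputable def toG (M : Matrix (Fin n) (Fin n) F) : Matrix.GeneralLinearGroup (Fin n) F :=
  if h : M.det = 1 then Matrix.GeneralLinearGroup.mkOfDetNeZero M (by rw [h]; exact one_ne_zero)
  else 1

theorem toG_coe (M : Matrix (Fin n) (Fin n) F) (h : M.det = 1) :
    ((toG M : Matrix.GeneralLinearGroup (Fin n) F) : Matrix (Fin n) (Fin n) F) = M := by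
  rw [toG, dif_pos h]; rfl

theorem toG_mem (hφq : ∀ a : F, φ a = a ^ q) (M : Matrix (Fin n) (Fin n) F) (hM : IsSUm φ M) :
    toG M ∈ Cfsg.GU n F q ⊓ Cfsg.Geo.specialLinear (Fin n) F := by
  rw [mem_G_iff φ hφq, toG_coe M hM.1]; exact hM

/-- unitary transvections as elements of the general linear group -/
noncomputable def tv (q : ℕ) (v : Fin n → F) (c : F) : Matrix.GeneralLinearGroup (Fin n) F :=
  toG (Cfsg.unitaryTransvection n q v c)

variable (hφq : ∀ a : F, φ a = a ^ q) (hφ2 : ∀ a : F, φ (φ a) = a)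

include hφq hφ2 in
theorem tv_coe (v : Fin n → F) (c : F) (hv : B v v = 0) (hc : φ c = -c) :
    ((tv q v c : Matrix.GeneralLinearGroup (Fin n) F) : Matrix (Fin n) (Fin n) F)
      = Cfsg.unitaryTransvection n q v c :=
  toG_coe _ (tv_isSUm φ hφq hφ2 v c hv hc).1

include hφq hφ2 in
theorem tv_mulVec (v : Fin n → F) (c : F) (hv : B v v = 0) (hc : φ c = -c) (x : Fin n → F) :
    ((tv q v c : Matrix.GeneralLinearGroup (Fin n) F) : Matrix (Fin n) (Fin n) F) *ᵥ x
      = x + (c * B v x) • v := by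
  rw [tv_coe φ hφq hφ2 v c hv hc]
  exact Cfsg.Agent.S0780.tv_mulVec φ hφq v c x

include hφq hφ2 in
theorem tv_mem (v : Fin n → F) (c : F) (hv : B v v = 0) (hc : φ c = -c) :
    tv q v c ∈ Cfsg.GU n F q ⊓ Cfsg.Geo.specialLinear (Fin n) F :=
  toG_mem φ hφq _ (tv_isSUm φ hφq hφ2 v c hv hc)

omit φ in
theorem gl_ext (g h : Matrix.GeneralLinearGroup (Fin n) F)
    (H : ∀ x, (g : Matrix (Fin n) (Fin n) F) *ᵥ x = (h : Matrix (Fin n) (Fin n) F) *ᵥ x) :
    g = h :=
  Units.ext (Cfsg.Agent.S0780.mat_ext' H)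

omit φ in
theorem gl_inv_mulVec (g : Matrix.GeneralLinearGroup (Fin n) F) (x : Fin n → F) :
    (g : Matrix (Fin n) (Fin n) F) *ᵥ
      (((g⁻¹ : Matrix.GeneralLinearGroup (Fin n) F) : Matrix (Fin n) (Fin n) F) *ᵥ x) = x := by
  rw [Matrix.mulVec_mulVec, ← Units.val_mul, mul_inv_cancel, Units.val_one, Matrix.one_mulVec]

omit φ in
theorem gl_inv_mulVec' (g : Matrix.GeneralLinearGroup (Fin n) F) (x : Fin n → F) :
    ((g⁻¹ : Matrix.GeneralLinearGroup (Fin n) F) : Matrix (Fin n) (Fin n) F) *ᵥ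
      ((g : Matrix (Fin n) (Fin n) F) *ᵥ x) = x := by
  rw [Matrix.mulVec_mulVec, ← Units.val_mul, inv_mul_cancel, Units.val_one, Matrix.one_mulVec]

omit φ in
theorem gl_inj (g : Matrix.GeneralLinearGroup (Fin n) F) :
    Function.Injective (fun x : Fin n → F => (g : Matrix (Fin n) (Fin n) F) *ᵥ x) := by
  intro x y hxy
  have := congrArg (fun z => ((g⁻¹ : Matrix.GeneralLinearGroup (Fin n) F) :
    Matrix (Fin n) (Fin n) F) *ᵥ z) hxy
  simpa [gl_inv_mulVec'] using this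

include hφq hφ2 in
theorem conj_tv (g : Matrix.GeneralLinearGroup (Fin n) F)
    (hg : IsSUm φ (g : Matrix (Fin n) (Fin n) F)) (v : Fin n → F) (c : F) (hv : B v v = 0)
    (hc : φ c = -c) :
    g * tv q v c * g⁻¹ = tv q ((g : Matrix (Fin n) (Fin n) F) *ᵥ v) c := by
  have hv' : B ((g : Matrix (Fin n) (Fin n) F) *ᵥ v) ((g : Matrix (Fin n) (Fin n) F) *ᵥ v) = 0 := by
    rw [hg.2]; exact hv
  rw [mul_inv_eq_iff_eq_mul]
  apply gl_ext
  intro x
  rw [Units.val_mul, Units.val_mul, ← Matrix.mulVec_mulVec, ← Matrix.mulVec_mulVec,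
    tv_mulVec φ hφq hφ2 v c hv hc, tv_mulVec φ hφq hφ2 _ c hv' hc, Matrix.mulVec_add,
    Matrix.mulVec_smul, hg.2]

/-- The isotropic vectors all of whose transvections lie in `M`. -/
def Sset (q : ℕ) (M : Subgroup (Matrix.GeneralLinearGroup (Fin n) F)) : Set (Fin n → F) :=
  {v | B v v = 0 ∧ ∀ c, φ c = -c → tv q v c ∈ M}

include hφq hφ2 in
theorem Sset_gl (M : Subgroup (Matrix.GeneralLinearGroup (Fin n) F))
    (hM : M ≤ Cfsg.GU n F q ⊓ Cfsg.Geo.specialLinear (Fin n) F)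
    (g : Matrix.GeneralLinearGroup (Fin n) F) (hg : g ∈ M) (v : Fin n → F)
    (hv : v ∈ Sset φ q M) : (g : Matrix (Fin n) (Fin n) F) *ᵥ v ∈ Sset φ q M := by
  have hgS := (mem_G_iff φ hφq g).1 (hM hg)
  refine ⟨by rw [hgS.2]; exact hv.1, fun c hc => ?_⟩
  rw [← conj_tv φ hφq hφ2 g hgS v c hv.1 hc]
  exact M.mul_mem (M.mul_mem hg (hv.2 c hc)) (M.inv_mem hg)

include hφq hφ2 in
theorem Sset_tv (M : Subgroup (Matrix.GeneralLinearGroup (Fin n) F))
    (hM : M ≤ Cfsg.GU n F q ⊓ Cfsg.Geo.specialLinear (Fin n) F) (u v : Fin n → F)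
    (hu : u ∈ Sset φ q M) (hv : v ∈ Sset φ q M) (c : F) (hc : φ c = -c) :
    v + (c * B u v) • u ∈ Sset φ q M := by
  have := Sset_gl φ hφq hφ2 M hM (tv q u c) (hu.2 c hc) v hv
  rwa [tv_mulVec φ hφq hφ2 u c hu.1 hc] at this

include hφq hφ2 in
theorem Sset_smul (M : Subgroup (Matrix.GeneralLinearGroup (Fin n) F)) (v : Fin n → F)
    (hv : v ∈ Sset φ q M) (a : F) : a • v ∈ Sset φ q M := by
  have hv' : B (a • v) (a • v) = 0 := by
    simp only [LinearMap.map_smulₛₗ, LinearMap.smul_apply, map_smul, smul_eq_mul, hv.1, mul_zero]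
  refine ⟨hv', fun c hc => ?_⟩
  have hc' : φ (a * φ a * c) = -(a * φ a * c) := by
    rw [map_mul, map_mul, hφ2, hc]; ring
  have : tv q (a • v) c = tv q v (a * φ a * c) := by
    apply gl_ext
    intro x
    rw [tv_mulVec φ hφq hφ2 _ c hv' hc, tv_mulVec φ hφq hφ2 v _ hv.1 hc', LinearMap.map_smulₛₗ,
      LinearMap.smul_apply, smul_smul, smul_eq_mul]
    congr 2
    ring
  rw [this]
  exact hv.2 _ hc'

omit φ in
theorem mem_stab_of_forall (W : Submodule F (Fin n → F))
    (g : Matrix.GeneralLinearGroup (Fin n) F)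
    (h : ∀ w ∈ W, (g : Matrix (Fin n) (Fin n) F) *ᵥ w ∈ W) :
    g ∈ Geo.subspaceStabilizer W := by
  intro v
  refine ⟨fun hv => h v hv, fun hv => ?_⟩
  change (g : Matrix (Fin n) (Fin n) F) *ᵥ v ∈ W at hv
  let f : W →ₗ[F] W := (Matrix.toLin' (g : Matrix (Fin n) (Fin n) F)).restrict
    (fun w hw => by rw [Matrix.toLin'_apply]; exact h w hw)
  have hf : Function.Injective f := by
    intro x y hxy
    apply Subtype.ext
    apply gl_inj g
    have := congrArg Subtype.val hxy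
    simpa [f, LinearMap.restrict_apply, Matrix.toLin'_apply] using this
  obtain ⟨w, hw⟩ := (LinearMap.injective_iff_surjective.mp hf) ⟨_, hv⟩
  have h2 : (g : Matrix (Fin n) (Fin n) F) *ᵥ (w : Fin n → F)
      = (g : Matrix (Fin n) (Fin n) F) *ᵥ v := by
    have := congrArg Subtype.val hw
    simpa [f, LinearMap.restrict_apply, Matrix.toLin'_apply] using this
  rw [← gl_inj g h2]
  exact w.2

omit φ in
theorem stab_mulVec (W : Submodule F (Fin n → F)) (g : Matrix.GeneralLinearGroup (Fin n) F)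
    (hg : g ∈ Geo.subspaceStabilizer W) (w : Fin n → F) (hw : w ∈ W) :
    (g : Matrix (Fin n) (Fin n) F) *ᵥ w ∈ W := (hg w).mp hw

/-- generation by unitary transvections, inside the general linear group -/
theorem gen [Fintype F] (hφq : ∀ a : F, φ a = a ^ q) (hφ2 : ∀ a : F, φ (φ a) = a)
    (hF : Fintype.card F = q ^ 2) (hn : 3 ≤ n) (h32 : ¬ (n = 3 ∧ q = 2))
    (M : Subgroup (Matrix.GeneralLinearGroup (Fin n) F))
    (h : ∀ v c, B v v = 0 → φ c = -c → tv q v c ∈ M) :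
    Cfsg.GU n F q ⊓ Cfsg.Geo.specialLinear (Fin n) F ≤ M := by
  classical
  intro g hg
  have hgS := (mem_G_iff φ hφq g).1 hg
  obtain ⟨ψ, hψ⟩ : ∃ ψ : ↥(Cfsg.SU n F q) →* Matrix.GeneralLinearGroup (Fin n) F,
      ∀ A : ↥(Cfsg.SU n F q), ((ψ A : Matrix.GeneralLinearGroup (Fin n) F) :
        Matrix (Fin n) (Fin n) F) = ((A : Matrix.SpecialLinearGroup (Fin n) F) :
          Matrix (Fin n) (Fin n) F) :=
    ⟨Matrix.SpecialLinearGroup.toGL.comp (Cfsg.SU n F q).subtype, fun A => rfl⟩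
  have hA0 : (⟨(g : Matrix (Fin n) (Fin n) F), hgS.1⟩ : Matrix.SpecialLinearGroup (Fin n) F)
      ∈ Cfsg.SU n F q := by
    intro u v
    show Cfsg.hermForm n F q ((g : Matrix (Fin n) (Fin n) F) *ᵥ u)
      ((g : Matrix (Fin n) (Fin n) F) *ᵥ v) = _
    rw [herm_B φ hφq, herm_B φ hφq]
    exact hgS.2 v u
  have hgA : g = ψ ⟨_, hA0⟩ := Units.ext (hψ ⟨_, hA0⟩).symm
  have hcl := Cfsg.Agent.S0780.result hF n hn h32
  have hle : Subgroup.closure {A : ↥(Cfsg.SU n F q) | ∃ (v : Fin n → F) (c : F),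
      Cfsg.hermForm n F q v v = 0 ∧ ((A : Matrix.SpecialLinearGroup (Fin n) F) :
        Matrix (Fin n) (Fin n) F) = Cfsg.unitaryTransvection n q v c} ≤ M.comap ψ := by
    rw [Subgroup.closure_le]
    rintro A ⟨v, c, hv0, hA⟩
    show ψ A ∈ M
    have hvv : B v v = 0 := by rw [← herm_B φ hφq]; exact hv0
    by_cases htriv : v = 0 ∨ c = 0
    · have : ψ A = 1 := by
        apply Units.ext
        rw [hψ, hA]
        rcases htriv with rfl | rfl
        · simp [Cfsg.unitaryTransvection]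
        · simp [Cfsg.unitaryTransvection]
      rw [this]
      exact M.one_mem
    · push Not at htriv
      obtain ⟨hv, hc0⟩ := htriv
      have hcs : φ c = -c := by
        have h1 := (Cfsg.Agent.S0779.result hF n v hv hv0 c).mp (fun x y => by
          have h2 := A.2 x y
          rw [← hA]
          exact h2)
        rcases h1 with h1 | h1
        · exact absurd h1 hc0
        · rw [hφq]
          have hq0 : q ≠ 0 := by
            have := Cfsg.Agent.S0829.two_le_q hF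
            omega
          calc c ^ q = c ^ (q - 1) * c := by
                rw [← pow_succ, Nat.sub_add_cancel (Nat.one_le_iff_ne_zero.mpr hq0)]
            _ = -c := by rw [h1]; ring
      have : ψ A = tv q v c := by
        apply Units.ext
        rw [hψ, hA, tv_coe φ hφq hφ2 v c hvv hcs]
      rw [this]
      exact h v c hvv hcs
  rw [hgA]
  have : (⟨_, hA0⟩ : ↥(Cfsg.SU n F q)) ∈ Subgroup.closure {A : ↥(Cfsg.SU n F q) |
      ∃ (v : Fin n → F) (c : F), Cfsg.hermForm n F q v v = 0 ∧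
        ((A : Matrix.SpecialLinearGroup (Fin n) F) : Matrix (Fin n) (Fin n) F)
          = Cfsg.unitaryTransvection n q v c} := by
    rw [hcl]; trivial
  exact hle this

/-- making a vector isotropic by adding a multiple of an isotropic vector -/
theorem exists_iso_add (hφ : φ ≠ RingHom.id F) (hφ2 : ∀ a : F, φ (φ a) = a)
    (u z : Fin n → F) (hz : B z z = 0) (huz : B z u ≠ 0) :
    ∃ l : F, B (u + l • z) (u + l • z) = 0 := by
  have hS := Bh_symm φ hφ2 n
  have hfix : φ (-(B u u)) = -(B u u) := by rw [map_neg, hS.eq u u]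
  obtain ⟨κ, hκ⟩ := Cfsg.Agent.S0751.trace_surj φ hφ hφ2 (-(B u u)) hfix
  have huz' : B u z = φ (B z u) := (hS.eq z u).symm
  have hne : φ (B z u) ≠ 0 := by rwa [Ne, map_eq_zero]
  refine ⟨κ / φ (B z u), ?_⟩
  have e : ∀ l : F, B (u + l • z) (u + l • z) = B u u + l * φ (B z u) + φ l * B z u := by
    intro l
    simp only [map_add, LinearMap.add_apply, LinearMap.map_smulₛₗ, LinearMap.smul_apply, map_smul,
      smul_eq_mul, hz, huz']
    ring
  have h1 : κ / φ (B z u) * φ (B z u) = κ := div_mul_cancel₀ _ hne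
  have h2 : φ (κ / φ (B z u)) * B z u = φ κ := by
    rw [map_div₀, hφ2]; exact div_mul_cancel₀ _ huz
  rw [e]
  linear_combination h1 + h2 + hκ

/-- a vector outside `W` is not orthogonal to the orthogonal complement of `W` -/
theorem exists_perp_not (hφ2 : ∀ a : F, φ (φ a) = a) (W : Submodule F (Fin n → F))
    (z : Fin n → F) (hz : z ∉ W) :
    ∃ u : Fin n → F, (∀ w ∈ W, B u w = 0) ∧ B u z ≠ 0 := by
  obtain ⟨f, hfz, hfmap⟩ := Submodule.exists_dual_map_eq_bot_of_notMem hz inferInstance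
  have hfW : ∀ w ∈ W, f w = 0 := by
    intro w hw
    have : f w ∈ W.map f := ⟨w, hw, rfl⟩
    rw [hfmap] at this
    simpa using this
  have hrep : ∀ x : Fin n → F, f x = ∑ i, x i * f (Pi.single i 1) := by
    intro x
    have hx : x = ∑ i, x i • (Pi.single i (1 : F) : Fin n → F) := by
      ext j
      simp [Finset.sum_apply, Pi.single_apply]
    conv_lhs => rw [hx]
    rw [map_sum]
    apply Finset.sum_congr rfl
    intro i _
    rw [map_smul, smul_eq_mul]
  refine ⟨fun i => φ (f (Pi.single i 1)), ?_, ?_⟩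
  · intro w hw
    rw [Bh_apply]
    unfold Cfsg.Agent.S0837.hf
    simp only [hφ2]
    rw [← hrep]
    exact hfW w hw
  · rw [Bh_apply]
    unfold Cfsg.Agent.S0837.hf
    simp only [hφ2]
    rw [← hrep]
    exact hfz

end lib

/-- Let F be the field with q² elements and n ≥ 13, and let SU_n(q) be the group of matrices of determinant one preserving the standard unitary form Σ u_i v_i^q on F^n (the intersection of the unitary group GU_n with the kernel of the determinant). The elements of SU_n(q) stabilising a non-zero subspace on which the form vanishes identically form a maximal subgroup of SU_n(q). -/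
theorem result {F : Type*} [Field F] [Fintype F] (n q : ℕ) (hF : Fintype.card F = q ^ 2) (hn : 13 ≤ n) (W : Submodule F (Fin n → F)) (hW0 : W ≠ ⊥) (hW : Cfsg.Geo.IsTotallySingularFor (Cfsg.hermForm n F q) W) : Cfsg.Geo.IsMaximalIn (Cfsg.GU n F q ⊓ Cfsg.Geo.specialLinear (Fin n) F) (Cfsg.Geo.subspaceStabilizer W ⊓ (Cfsg.GU n F q ⊓ Cfsg.Geo.specialLinear (Fin n) F)) := by
  classical
  obtain ⟨φ, hφq, hφ2⟩ := Cfsg.Agent.S0779.exists_frob hF
  have hφ := Cfsg.Agent.S0829.phi_ne_id hF φ hφq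
  have hS := Bh_symm φ hφ2 n
  have hnd := Bh_nondeg φ hφ2 n
  have hWB : ∀ u ∈ W, ∀ v ∈ W, Bh φ n u v = 0 := fun u hu v hv => by
    rw [← herm_B φ hφq]; exact hW v hv u hu
  obtain ⟨s, hs0, hs⟩ := Cfsg.Agent.S0780.exists_skew φ hφ hφ2
  refine ⟨lt_of_le_of_ne inf_le_right ?_, ?_⟩
  · intro heq
    obtain ⟨w, hwW, hw0⟩ := (Submodule.ne_bot_iff W).mp hW0
    obtain ⟨u, hu⟩ : ∃ u, Bh φ n w u ≠ 0 := by
      by_contra hcon
      push Not at hcon
      exact hw0 (hnd.1 w hcon)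
    obtain ⟨l, hl⟩ := exists_iso_add φ hφ hφ2 u w (hWB w hwW w hwW) hu
    obtain ⟨v, hv⟩ : ∃ v, v = u + l • w := ⟨_, rfl⟩
    rw [← hv] at hl
    have hwv : Bh φ n w v ≠ 0 := by
      rw [hv, map_add, map_smul, hWB w hwW w hwW, smul_zero, add_zero]
      exact hu
    have ht : tv q v s ∈ Geo.subspaceStabilizer W ⊓
        (Cfsg.GU n F q ⊓ Cfsg.Geo.specialLinear (Fin n) F) := by
      rw [heq]
      exact tv_mem φ hφq hφ2 v s hl hs
    have h1 := stab_mulVec W _ ht.1 w hwW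
    rw [tv_mulVec φ hφq hφ2 v s hl hs] at h1
    have h2 : (s * Bh φ n v w) • v ∈ W := by
      have := W.sub_mem h1 hwW
      rwa [add_sub_cancel_left] at this
    have hvw : Bh φ n v w ≠ 0 := by
      rw [← hS.eq w v]
      rwa [Ne, map_eq_zero]
    have hvW : v ∈ W := (W.smul_mem_iff (mul_ne_zero hs0 hvw)).mp h2
    exact hwv (hWB w hwW v hvW)
  · intro M hHM hMK
    by_cases hMH : M = Geo.subspaceStabilizer W ⊓
        (Cfsg.GU n F q ⊓ Cfsg.Geo.specialLinear (Fin n) F)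
    · left
      exact hMH
    right
    obtain ⟨g, hgM, hgH⟩ : ∃ g ∈ M, g ∉ Geo.subspaceStabilizer W ⊓
        (Cfsg.GU n F q ⊓ Cfsg.Geo.specialLinear (Fin n) F) := by
      by_contra hcon
      push Not at hcon
      exact hMH (le_antisymm hcon hHM)
    apply le_antisymm hMK
    apply gen φ hφq hφ2 hF (by omega) (by omega) M
    have hperp : ∀ u, Bh φ n u u = 0 → (∀ w ∈ W, Bh φ n u w = 0) → u ∈ Sset φ q M := by
      intro u huu hu
      refine ⟨huu, fun c hc => hHM ⟨mem_stab_of_forall W _ ?_, tv_mem φ hφq hφ2 u c huu hc⟩⟩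
      intro w hw
      rw [tv_mulVec φ hφq hφ2 u c huu hc, hu w hw, mul_zero, zero_smul, add_zero]
      exact hw
    have hWS : ∀ w ∈ W, w ∈ Sset φ q M := fun w hw =>
      hperp w (hWB w hw w hw) (fun w' hw' => hWB w hw w' hw')
    have hgK := hMK hgM
    have hgS := (mem_G_iff φ hφq g).1 hgK
    have hgstab : g ∉ Geo.subspaceStabilizer W := fun h => hgH ⟨h, hgK⟩
    obtain ⟨w₀, hw₀W, hgw₀⟩ : ∃ w ∈ W, (g : Matrix (Fin n) (Fin n) F) *ᵥ w ∉ W := by
      by_contra hcon
      push Not at hcon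
      exact hgstab (mem_stab_of_forall W _ hcon)
    -- a vector of `Sset` not orthogonal to `W`
    obtain ⟨v₀, w, hv₀S, hwW, hv₀w⟩ : ∃ v₀ w, v₀ ∈ Sset φ q M ∧ w ∈ W ∧ Bh φ n w v₀ ≠ 0 := by
      obtain ⟨z, hz⟩ : ∃ z, z = (g : Matrix (Fin n) (Fin n) F) *ᵥ w₀ := ⟨_, rfl⟩
      rw [← hz] at hgw₀
      have hzS : z ∈ Sset φ q M := by
        rw [hz]; exact Sset_gl φ hφq hφ2 M hMK g hgM w₀ (hWS w₀ hw₀W)
      by_cases hcase : ∀ w ∈ W, Bh φ n w z = 0
      · obtain ⟨u, huW, huz⟩ := exists_perp_not φ hφ2 W z hgw₀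
        have hzu : Bh φ n z u ≠ 0 := by
          rw [← hS.eq u z]
          rwa [Ne, map_eq_zero]
        obtain ⟨l, hl⟩ := exists_iso_add φ hφ hφ2 u z hzS.1 hzu
        obtain ⟨y, hy⟩ : ∃ y, y = u + l • z := ⟨_, rfl⟩
        rw [← hy] at hl
        have hyW : ∀ w ∈ W, Bh φ n y w = 0 := by
          intro w hw
          have h1 : Bh φ n z w = 0 := by rw [← hS.eq w z, hcase w hw, map_zero]
          rw [hy, map_add, LinearMap.add_apply, LinearMap.map_smulₛₗ, LinearMap.smul_apply, huW w hw,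
            h1, smul_zero, add_zero]
        have hyS := hperp y hl hyW
        refine ⟨((g⁻¹ : Matrix.GeneralLinearGroup (Fin n) F) : Matrix (Fin n) (Fin n) F) *ᵥ y, w₀,
          Sset_gl φ hφq hφ2 M hMK g⁻¹ (M.inv_mem hgM) y hyS, hw₀W, ?_⟩
        have h1 : Bh φ n w₀ (((g⁻¹ : Matrix.GeneralLinearGroup (Fin n) F) :
            Matrix (Fin n) (Fin n) F) *ᵥ y) = Bh φ n z y := by
          rw [hz, ← hgS.2 w₀, gl_inv_mulVec]
        rw [h1, hy, map_add, map_smul, hzS.1, smul_zero, add_zero]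
        exact hzu
      · push Not at hcase
        obtain ⟨w, hw, hwz⟩ := hcase
        exact ⟨z, w, hzS, hw, hwz⟩
    intro y c hyy hc
    suffices hy : y ∈ Sset φ q M from hy.2 c hc
    by_cases hyperp : ∀ w ∈ W, Bh φ n y w = 0
    · exact hperp y hyy hyperp
    push Not at hyperp
    obtain ⟨w₁, hw₁W, hw₁⟩ := hyperp
    have hw₁' : Bh φ n w₁ y ≠ 0 := by
      rw [← hS.eq y w₁]
      rwa [Ne, map_eq_zero]
    obtain ⟨u, huW, hu1, hu2⟩ : ∃ u ∈ W, Bh φ n u v₀ ≠ 0 ∧ Bh φ n u y ≠ 0 := by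
      by_cases h1 : Bh φ n w₁ v₀ = 0
      · by_cases h2 : Bh φ n w y = 0
        · refine ⟨w + w₁, W.add_mem hwW hw₁W, ?_, ?_⟩
          · rw [map_add, LinearMap.add_apply, h1, add_zero]
            exact hv₀w
          · rw [map_add, LinearMap.add_apply, h2, zero_add]
            exact hw₁'
        · exact ⟨w, hwW, hv₀w, h2⟩
      · exact ⟨w₁, hw₁W, h1, hw₁'⟩
    have huu : Bh φ n u u = 0 := hWB u huW u huW
    have huS : u ∈ Sset φ q M := hWS u huW
    obtain ⟨b, hb⟩ : ∃ b, b = Bh φ n u v₀ := ⟨_, rfl⟩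
    obtain ⟨b', hb'⟩ : ∃ b', b' = Bh φ n u y := ⟨_, rfl⟩
    rw [← hb] at hu1
    rw [← hb'] at hu2
    obtain ⟨y', hy'⟩ : ∃ y', y' = (b / b') • y := ⟨_, rfl⟩
    have hy'u : Bh φ n u y' = b := by
      rw [hy', map_smul, ← hb', smul_eq_mul]
      field_simp
    have hy'y' : Bh φ n y' y' = 0 := by
      rw [hy']
      simp only [LinearMap.map_smulₛₗ, LinearMap.smul_apply, map_smul, smul_eq_mul, hyy, mul_zero]
    obtain ⟨y'', hy''⟩ : ∃ y'', y'' = b⁻¹ • (y' - v₀) := ⟨_, rfl⟩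
    have huy'' : Bh φ n u y'' = 0 := by
      rw [hy'', map_smul, map_sub, hy'u, ← hb, sub_self, smul_zero]
    have hfix : φ (-(Bh φ n y'' y'')) = -(Bh φ n y'' y'') := by rw [map_neg, hS.eq y'' y'']
    obtain ⟨κ, hκ⟩ := Cfsg.Agent.S0751.trace_surj φ hφ hφ2 _ hfix
    have hE := Cfsg.Agent.S0781.EE_isSUm φ hφ2 u y'' κ huu huy'' hκ
    have hEM : toG (Cfsg.Agent.S0781.EE φ u y'' κ) ∈ M := by
      apply hHM
      refine ⟨mem_stab_of_forall W _ ?_, toG_mem φ hφq _ hE⟩
      intro w' hw'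
      rw [toG_coe _ hE.1, Cfsg.Agent.S0781.EE_mulVec, hWB u huW w' hw', zero_smul, add_zero]
      exact W.add_mem hw' (W.smul_mem _ (W.neg_mem huW))
    have h1 := Sset_gl φ hφq hφ2 M hMK _ hEM v₀ hv₀S
    rw [toG_coe _ hE.1, Cfsg.Agent.S0781.EE_mulVec, ← hb] at h1
    obtain ⟨μ, hμ⟩ : ∃ μ, μ = b * κ - Bh φ n y'' v₀ := ⟨_, rfl⟩
    have e1 : v₀ + b • (y'' + κ • u) + Bh φ n y'' v₀ • -u = y' + μ • u := by
      rw [hμ, hy'', smul_add, smul_smul, smul_smul, mul_inv_cancel₀ hu1, one_smul]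
      module
    rw [e1] at h1
    -- `μ / b` is skew
    have hiso := h1.1
    have hyu' : Bh φ n y' u = φ b := by rw [← hS.eq u y', hy'u]
    have hskew : μ * φ b + φ μ * b = 0 := by
      have := hiso
      simp only [map_add, LinearMap.add_apply, LinearMap.map_smulₛₗ, LinearMap.smul_apply, map_smul,
        smul_eq_mul, hy'y', hyu', hy'u, huu] at this
      linear_combination this
    have hφb : φ b ≠ 0 := by rwa [Ne, map_eq_zero]
    have hc' : φ (-μ / b) = -(-μ / b) := by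
      have h5 : φ (-μ / b) = μ / b := by
        rw [map_div₀, map_neg, div_eq_div_iff hφb hu1]
        linear_combination -hskew
      rw [h5]
      ring
    have h2 := Sset_tv φ hφq hφ2 M hMK u _ huS h1 (-μ / b) hc'
    have e2 : Bh φ n u (y' + μ • u) = b := by
      rw [map_add, map_smul, hy'u, huu, smul_zero, add_zero]
    have e3 : y' + μ • u + (-μ / b * b) • u = y' := by
      have e4 : -μ / b * b = -μ := by field_simp
      rw [e4]
      module
    rw [e2, e3] at h2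
    have h4 := Sset_smul φ hφq hφ2 M y' h2 (b' / b)
    rw [hy', smul_smul] at h4
    have e5 : b' / b * (b / b') = 1 := by field_simp
    rwa [e5, one_smul] at h4

end Cfsg.Agent.S5653
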