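import Mathlib
import Cfsg.Statements.S5698
import Cfsg.Agent.S5676
import Cfsg.Agent.S5653
import Cfsg.Agent.S0752
import Cfsg.Agent.Lib.Helper3.DicksonRank

set_option autoImplicit false
open Cfsg

namespace Cfsg.Agent.S5698

open Matrix
open Cfsg.Agent.Lib.Helper16 (reflG refl_mulVec reflG_coe isomG_map cdR isomG_ext isomG_mul_coe
  isomG_one_coe isomG_polar)
open Cfsg.Agent.Lib.Helper17 (fin_cartan_dieudonne)
open Cfsg.Agent.Lib.Helper3 (rank_refl_mul_parity rank_add_ker)

section parity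

variable {ι : Type} [Fintype ι] [DecidableEq ι] {F : Type*} [Field F]
  (Q : QuadraticForm F (ι → F)) (hQ : (QuadraticMap.polarBilin Q).Nondegenerate)

/-- the parity of `rank (g - 1)` -/
noncomputable def par (g : ↥(Cfsg.isometryGroup F (⇑Q))) : ZMod 2 :=
  ((((g : Matrix.GeneralLinearGroup ι F) : Matrix ι ι F) - 1).rank : ℕ)

include hQ in
theorem par_refl_mul (v : ι → F) (hv : Q v ≠ 0) (y : ↥(Cfsg.isometryGroup F (⇑Q))) :
    par Q (reflG Q v hv * y) = par Q y + 1 := by
  unfold par
  rw [isomG_mul_coe, reflG_coe]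
  have hp := rank_refl_mul_parity Q hQ y v hv
  by_cases he : Even (((y : Matrix.GeneralLinearGroup ι F) : Matrix ι ι F) - 1).rank
  · have h1 : ¬ Even (Cfsg.reflectionMatrix (⇑Q) v *
        ((y : Matrix.GeneralLinearGroup ι F) : Matrix ι ι F) - 1).rank := by
      rw [hp]
      exact not_not.2 he
    rw [ZMod.natCast_eq_zero_iff_even.mpr he,
      ZMod.natCast_eq_one_iff_odd.mpr (Nat.not_even_iff_odd.mp h1), zero_add]
  · have h1 := hp.2 he
    rw [ZMod.natCast_eq_zero_iff_even.mpr h1,
      ZMod.natCast_eq_one_iff_odd.mpr (Nat.not_even_iff_odd.mp he)]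
    rfl

include hQ in
theorem par_mul [Fintype F] (hex : Fintype.card F ≠ 2 ∨ Fintype.card ι ≠ 4)
    (g y : ↥(Cfsg.isometryGroup F (⇑Q))) : par Q (g * y) = par Q g + par Q y := by
  have hg := fin_cartan_dieudonne Q hQ hex g
  induction hg using Subgroup.closure_induction_left with
  | one =>
    rw [one_mul]
    unfold par
    rw [isomG_one_coe, sub_self, Matrix.rank_zero, Nat.cast_zero, zero_add]
  | mul_left r hr y' hy' ih =>
    obtain ⟨v, hv, hrv⟩ := hr
    have e1 : r = reflG Q v hv := isomG_ext Q hrv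
    rw [e1, mul_assoc, par_refl_mul Q hQ, par_refl_mul Q hQ, ih]
    ring
  | inv_mul_cancel r hr y' hy' ih =>
    obtain ⟨v, hv, hrv⟩ := hr
    have e1 : r = reflG Q v hv := isomG_ext Q hrv
    have e2 : (reflG Q v hv)⁻¹ = reflG Q v hv := isomG_ext Q rfl
    rw [e1, e2, mul_assoc, par_refl_mul Q hQ, par_refl_mul Q hQ, ih]
    ring

include hQ in
/-- elements of the commutator subgroup have `rank (g - 1)` even, in every characteristic -/
theorem omega_even_rank [Fintype F] (hex : Fintype.card F ≠ 2 ∨ Fintype.card ι ≠ 4)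
    {g : Matrix.GeneralLinearGroup ι F} (hg : g ∈ Geo.omegaGL (⇑Q)) :
    Even ((g : Matrix ι ι F) - 1).rank := by
  obtain ⟨g', hg', rfl⟩ := Subgroup.mem_map.mp hg
  let φ : ↥(Cfsg.isometryGroup F (⇑Q)) →* Multiplicative (ZMod 2) :=
    MonoidHom.mk' (fun x => Multiplicative.ofAdd (par Q x))
      (fun a b => by rw [par_mul Q hQ hex, ofAdd_add])
  have h1 := Abelianization.commutator_subset_ker φ hg'
  rw [MonoidHom.mem_ker] at h1
  have h2 : par Q g' = 0 := congrArg Multiplicative.toAdd h1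
  exact ZMod.natCast_eq_zero_iff_even.mp h2

end parity

section alt

variable {F : Type*} [Field F]

/-- an alternating form has even rank -/
theorem alt_even {V : Type*} [AddCommGroup V] [Module F V] [FiniteDimensional F V]
    (α : LinearMap.BilinForm F V) (hA : α.IsAlt) :
    ∃ c : ℕ, Module.finrank F V = 2 * c + Module.finrank F (LinearMap.ker α) := by
  classical
  obtain ⟨m, k, b, hef, hee, hff, hr⟩ := Cfsg.Agent.S0752.result α hA
  have hskew : ∀ x y, α x y = - α y x := fun x y => (hA.neg_eq y x).symm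
  have hdim : Module.finrank F V = 2 * m + k := by
    rw [Module.finrank_eq_card_basis b]
    simp only [Fintype.card_sum, Fintype.card_fin]
    ring
  have hker : LinearMap.ker α = Submodule.span F (Set.range (fun j : Fin k => b (Sum.inr j))) := by
    apply le_antisymm
    · intro x hx
      rw [LinearMap.mem_ker] at hx
      have hx' : ∀ y, α x y = 0 := fun y => by rw [hx]; rfl
      have hrepr := b.sum_repr x
      have hcoef_e : ∀ i : Fin m, b.repr x (Sum.inl (Sum.inl i)) = 0 := by
        intro i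
        have h := hx' (b (Sum.inl (Sum.inr i)))
        rw [← hrepr] at h
        simp only [map_sum, map_smul, map_add, LinearMap.sum_apply, LinearMap.smul_apply,
          LinearMap.add_apply, smul_eq_mul, Fintype.sum_sum_type] at h
        simp only [hef, hff, hr, mul_zero, Finset.sum_const_zero, add_zero, mul_ite, mul_one,
          Finset.sum_ite_eq', Finset.mem_univ, if_true] at h
        exact h
      have hcoef_f : ∀ i : Fin m, b.repr x (Sum.inl (Sum.inr i)) = 0 := by
        intro i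
        have h := hx' (b (Sum.inl (Sum.inl i)))
        rw [← hrepr] at h
        simp only [map_sum, map_smul, map_add, LinearMap.sum_apply, LinearMap.smul_apply,
          LinearMap.add_apply, smul_eq_mul, Fintype.sum_sum_type] at h
        have hfe : ∀ j : Fin m, α (b (Sum.inl (Sum.inr j))) (b (Sum.inl (Sum.inl i)))
            = if j = i then -1 else 0 := by
          intro j
          rw [hskew, hef]
          by_cases hji : j = i
          · simp [hji]
          · simp [hji, Ne.symm hji]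
        simp only [hee, hfe, hr, mul_zero, Finset.sum_const_zero, add_zero, zero_add, mul_ite,
          Finset.sum_ite_eq', Finset.mem_univ, if_true] at h
        simpa using h
      rw [← hrepr]
      simp only [Fintype.sum_sum_type, hcoef_e, hcoef_f, zero_smul, Finset.sum_const_zero,
        zero_add]
      exact Submodule.sum_mem _ (fun j _ => Submodule.smul_mem _ _
        (Submodule.subset_span ⟨j, rfl⟩))
    · rw [Submodule.span_le]
      rintro _ ⟨j, rfl⟩
      rw [SetLike.mem_coe, LinearMap.mem_ker]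
      ext y
      exact hr j y
  have hli : LinearIndependent F (fun j : Fin k => b (Sum.inr j)) :=
    b.linearIndependent.comp _ Sum.inr_injective
  refine ⟨m, ?_⟩
  rw [hdim, hker, finrank_span_eq_card hli, Fintype.card_fin]

end alt

section swap

variable {ι : Type} [Fintype ι] [DecidableEq ι] {F : Type*} [Field F]
  (Q : QuadraticForm F (ι → F)) (hQ : (QuadraticMap.polarBilin Q).Nondegenerate)

local notation "Bp" => QuadraticMap.polar (DFunLike.coe Q)

omit [Fintype ι] [DecidableEq ι] in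
theorem ts_polar (U : Submodule F (ι → F)) (hU : ∀ x ∈ U, Q x = 0) {x y : ι → F}
    (hx : x ∈ U) (hy : y ∈ U) : Bp x y = 0 := by
  unfold QuadraticMap.polar
  rw [hU _ (U.add_mem hx hy), hU x hx, hU y hy]
  ring

include hQ in
/-- an isometry interchanging two complementary totally singular subspaces `U`, `W` has
`rank (g - 1)` of the parity of `dim U` -/
theorem swap_odd (U W : Submodule F (ι → F)) (hUW : Disjoint U W) (hsup : U ⊔ W = ⊤)
    (hU : ∀ x ∈ U, Q x = 0) (hn : Fintype.card ι = 2 * Module.finrank F U)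
    (g : ↥(Cfsg.isometryGroup F (⇑Q)))
    (hgU : ∀ x ∈ U, ((g : Matrix.GeneralLinearGroup ι F) : Matrix ι ι F) *ᵥ x ∈ W)
    (hgW : ∀ x ∈ W, ((g : Matrix.GeneralLinearGroup ι F) : Matrix ι ι F) *ᵥ x ∈ U)
    (hgW' : ∀ y ∈ W, ∃ x ∈ U, ((g : Matrix.GeneralLinearGroup ι F) : Matrix ι ι F) *ᵥ x = y) :
    Even (Module.finrank F U +
      (((g : Matrix.GeneralLinearGroup ι F) : Matrix ι ι F) - 1).rank) := by
  classical
  set M : Matrix ι ι F := ((g : Matrix.GeneralLinearGroup ι F) : Matrix ι ι F) with hM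
  let f : (ι → F) →ₗ[F] (ι → F) := M.mulVecLin
  let B := QuadraticMap.polarBilin Q
  have hBf : ∀ x y, B (f x) (f y) = B x y := fun x y => isomG_polar Q g x y
  have hBs : ∀ x y, B x y = B y x := fun x y => QuadraticMap.polar_comm _ x y
  have hBU : ∀ x ∈ U, ∀ y ∈ U, B x y = 0 := fun x hx y hy => ts_polar Q U hU hx hy
  let β : ↥U →ₗ[F] ↥U →ₗ[F] F := B.compl₁₂ U.subtype (f ∘ₗ U.subtype)
  let α : LinearMap.BilinForm F ↥U := β - β.flip
  have hα : ∀ u u' : ↥U, α u u' = B (u : ι → F) (f u') - B (u' : ι → F) (f u) :=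
    fun u u' => rfl
  have hA : α.IsAlt := fun u => by rw [hα, sub_self]
  have key : ∀ u : ↥U, α u = 0 ↔ f (f (u : ι → F)) = u := by
    intro u
    constructor
    · intro h0
      have hd : ∀ z, B ((u : ι → F) - f (f u)) z = 0 := by
        have hdW : ∀ y ∈ W, B ((u : ι → F) - f (f u)) y = 0 := by
          intro y hy
          obtain ⟨x, hx, rfl⟩ := hgW' y hy
          have h1 : α u ⟨x, hx⟩ = 0 := by rw [h0]; rfl
          rw [hα] at h1
          rw [map_sub, LinearMap.sub_apply]
          show B (u : ι → F) (f x) - B (f (f u)) (f x) = 0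
          rw [hBf, hBs (f u) x]
          exact h1
        have hdU : ∀ x ∈ U, B ((u : ι → F) - f (f u)) x = 0 := by
          intro x hx
          exact hBU _ (U.sub_mem u.2 (hgW _ (hgU _ u.2))) x hx
        intro z
        have hz : z ∈ U ⊔ W := by rw [hsup]; exact Submodule.mem_top
        obtain ⟨a, ha, b, hb, rfl⟩ := Submodule.mem_sup.mp hz
        rw [map_add, hdU a ha, hdW b hb, add_zero]
      have h3 := hQ.1 _ hd
      exact (sub_eq_zero.mp h3).symm
    · intro h1
      ext u'
      rw [hα]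
      show B (u : ι → F) (f u') - B (u' : ι → F) (f u) = 0
      rw [← hBf (u' : ι → F) (f u), h1, hBs (f u') u, sub_self]
  let φ : ↥(LinearMap.ker α) →ₗ[F] (ι → F) :=
    (LinearMap.id + f) ∘ₗ U.subtype ∘ₗ (LinearMap.ker α).subtype
  have hφ : ∀ u : ↥(LinearMap.ker α),
      φ u = ((u : ↥U) : ι → F) + f ((u : ↥U) : ι → F) := fun u => rfl
  have hinj : Function.Injective φ := by
    intro u u' h
    rw [hφ, hφ] at h
    have h0 : ((u : ↥U) : ι → F) - ((u' : ↥U) : ι → F)
        = M *ᵥ ((u' : ↥U) : ι → F) - M *ᵥ ((u : ↥U) : ι → F) := by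
      rw [sub_eq_sub_iff_add_eq_add]
      exact h.trans (add_comm _ _)
    have h1 : ((u : ↥U) : ι → F) - ((u' : ↥U) : ι → F) ∈ W := by
      rw [h0]
      exact W.sub_mem (hgU _ (u' : ↥U).2) (hgU _ (u : ↥U).2)
    have h2 := Submodule.disjoint_def.mp hUW _ (U.sub_mem (u : ↥U).2 (u' : ↥U).2) h1
    exact Subtype.ext (Subtype.ext (sub_eq_zero.mp h2))
  have hrange : LinearMap.range φ = LinearMap.ker (M - 1).mulVecLin := by
    apply le_antisymm
    · rintro _ ⟨u, rfl⟩
      rw [LinearMap.mem_ker, Matrix.mulVecLin_apply, Matrix.sub_mulVec, Matrix.one_mulVec, hφ]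
      have h1 := (key (u : ↥U)).mp (LinearMap.mem_ker.mp u.2)
      rw [Matrix.mulVec_add]
      show f ((u : ↥U) : ι → F) + f (f ((u : ↥U) : ι → F))
        - (((u : ↥U) : ι → F) + f ((u : ↥U) : ι → F)) = 0
      rw [h1]
      abel
    · intro x hx
      rw [LinearMap.mem_ker, Matrix.mulVecLin_apply, Matrix.sub_mulVec, Matrix.one_mulVec,
        sub_eq_zero] at hx
      have hz : x ∈ U ⊔ W := by rw [hsup]; exact Submodule.mem_top
      obtain ⟨a, ha, b, hb, rfl⟩ := Submodule.mem_sup.mp hz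
      rw [Matrix.mulVec_add] at hx
      have h1 : M *ᵥ b - a = b - M *ᵥ a := by
        rw [sub_eq_sub_iff_add_eq_add, add_comm (M *ᵥ b), hx, add_comm]
      have h2 : M *ᵥ b - a ∈ U := U.sub_mem (hgW b hb) ha
      have h3 : M *ᵥ b - a ∈ W := by
        rw [h1]
        exact W.sub_mem hb (hgU a ha)
      have h4 := Submodule.disjoint_def.mp hUW _ h2 h3
      have hb' : M *ᵥ b = a := sub_eq_zero.mp h4
      have ha' : M *ᵥ a = b := by
        rw [h4] at h1
        exact (sub_eq_zero.mp h1.symm).symm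
      have hk : (⟨a, ha⟩ : ↥U) ∈ LinearMap.ker α := by
        rw [LinearMap.mem_ker, key]
        show M *ᵥ (M *ᵥ a) = a
        rw [ha', hb']
      refine ⟨⟨⟨a, ha⟩, hk⟩, ?_⟩
      rw [hφ]
      show a + M *ᵥ a = a + b
      rw [ha']
  have hfin : Module.finrank F (LinearMap.ker (M - 1).mulVecLin)
      = Module.finrank F (LinearMap.ker α) := by
    rw [← hrange, LinearMap.finrank_range_of_inj hinj]
  obtain ⟨c, hc⟩ := alt_even α hA
  have hrk := rank_add_ker (M - 1)
  rw [hfin, hn] at hrk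
  refine ⟨Module.finrank F U + c, ?_⟩
  omega

end swap

theorem fin2 (a : Fin 2) : a = 0 ∨ a = 1 := by
  fin_cases a <;> simp

section eichler

variable {ι : Type} [Fintype ι] [DecidableEq ι] {F : Type*} [Field F] [Fintype F]
  (Q : QuadraticForm F (ι → F)) (hQ : (QuadraticMap.polarBilin Q).Nondegenerate)

local notation "Bp" => QuadraticMap.polar (DFunLike.coe Q)

omit [Fintype ι] [DecidableEq ι] [Fintype F] in
include hQ in
theorem pair_ne (U W : Submodule F (ι → F)) (hsup : U ⊔ W = ⊤) (hU : ∀ x ∈ U, Q x = 0)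
    {a : ι → F} (ha : a ∈ U) (ha0 : a ≠ 0) : ∃ y ∈ W, Bp a y ≠ 0 := by
  by_contra hcon
  push Not at hcon
  apply ha0
  apply hQ.1
  intro z
  have hz : z ∈ U ⊔ W := by rw [hsup]; exact Submodule.mem_top
  obtain ⟨x, hx, y, hy, rfl⟩ := Submodule.mem_sup.mp hz
  rw [map_add]
  show Bp a x + Bp a y = 0
  rw [ts_polar Q U hU ha hx, hcon y hy, add_zero]

include hQ in
/-- an element of the commutator subgroup stabilising `U` and moving `W` -/
theorem eich (hex : Fintype.card F ≠ 2 ∨ Fintype.card ι ≠ 4) (U W : Submodule F (ι → F))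
    (hUW : Disjoint U W) (hsup : U ⊔ W = ⊤) (hU : ∀ x ∈ U, Q x = 0) (hW : ∀ x ∈ W, Q x = 0)
    (hU0 : U ≠ ⊥) (hW2 : 2 ≤ Module.finrank F W) :
    ∃ g ∈ Geo.omegaGL (⇑Q), (∀ x ∈ U, (g : Matrix ι ι F) *ᵥ x ∈ U) ∧
      ∃ x ∈ W, (g : Matrix ι ι F) *ᵥ x ∉ W := by
  classical
  let B := QuadraticMap.polarBilin Q
  have hBs : ∀ x y, B x y = B y x := fun x y => QuadraticMap.polar_comm _ x y
  have hadd : ∀ x y : ι → F, Q (x + y) = Q x + Q y + B x y := fun x y => by
    show Q (x + y) = Q x + Q y + Bp x y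
    unfold QuadraticMap.polar
    ring
  obtain ⟨u, hu, hu0⟩ := Submodule.exists_mem_ne_zero_of_ne_bot hU0
  obtain ⟨v₁, hv₁, hv₁0, huv₁⟩ : ∃ v₁ ∈ W, v₁ ≠ 0 ∧ B u v₁ = 0 := by
    let ℓ : ↥W →ₗ[F] F := (B u) ∘ₗ W.subtype
    have h1 := LinearMap.finrank_range_add_finrank_ker ℓ
    have h2 : Module.finrank F (LinearMap.range ℓ) ≤ 1 := by
      have h := Submodule.finrank_le (LinearMap.range ℓ)
      rwa [Module.finrank_self] at h
    have h3 : 0 < Module.finrank F (LinearMap.ker ℓ) := by omega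
    have h4 : LinearMap.ker ℓ ≠ ⊥ := by
      intro h
      rw [h, finrank_bot] at h3
      exact lt_irrefl _ h3
    obtain ⟨x, hx, hx0⟩ := Submodule.exists_mem_ne_zero_of_ne_bot h4
    refine ⟨(x : ι → F), x.2, ?_, ?_⟩
    · intro h
      exact hx0 (Subtype.ext h)
    · exact LinearMap.mem_ker.mp hx
  obtain ⟨x₁, hx₁, hx₁v⟩ := pair_ne Q hQ W U (by rw [sup_comm]; exact hsup) hW hv₁ hv₁0
  set v₀ : ι → F := (B v₁ x₁)⁻¹ • x₁ with hv₀def
  have hv₀ : v₀ ∈ U := U.smul_mem _ hx₁
  have hv₀v₁ : B v₀ v₁ = 1 := by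
    rw [hv₀def, map_smul, LinearMap.smul_apply, smul_eq_mul, hBs x₁ v₁]
    exact inv_mul_cancel₀ hx₁v
  obtain ⟨x₀, hx₀, hux₀⟩ := pair_ne Q hQ U W hsup hU hu hu0
  set v : ι → F := v₀ + v₁ with hvdef
  have hQv : Q v = 1 := by
    rw [hvdef, hadd, hU _ hv₀, hW _ hv₁, hv₀v₁]
    ring
  have hvu : B v u = 0 := by
    rw [hvdef, map_add, LinearMap.add_apply,
      show B v₀ u = 0 from ts_polar Q U hU hv₀ hu, hBs v₁ u, huv₁, add_zero]
  set w : ι → F := v + u with hwdef
  have hQw : Q w = 1 := by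
    rw [hwdef, hadd, hQv, hU _ hu, hvu]
    ring
  have hvne : Q v ≠ 0 := by rw [hQv]; exact one_ne_zero
  have hwne : Q w ≠ 0 := by rw [hQw]; exact one_ne_zero
  let g := Cfsg.Agent.S5676.rr Q v w hvne hwne
  have hg : g ∈ Geo.omegaGL (⇑Q) :=
    Cfsg.Agent.S5676.rr_mem Q hQ hex hvne hwne (by rw [hQv, hQw]; exact ⟨1, by ring⟩)
  have hformula : ∀ z, (g : Matrix ι ι F) *ᵥ z = z + (B u z) • v - (B w z) • u := by
    intro z
    rw [Cfsg.Agent.S5676.rr_mulVec, hQv, hQw, inv_one, one_mul, one_mul]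
    have e1 : B w z = B v z + B u z := by rw [hwdef, map_add, LinearMap.add_apply]
    have e2 : B v w = 2 := by
      rw [hwdef, map_add, hvu, add_zero]
      show Bp v v = 2
      rw [QuadraticMap.polar_self, hQv]
      simp
    show z - (B w z) • w - (B v (z - (B w z) • w)) • v = _
    rw [map_sub, map_smul, smul_eq_mul, e2, e1, hwdef]
    module
  refine ⟨g, hg, ?_, x₀, hx₀, ?_⟩
  · intro z hz
    rw [hformula, show B u z = 0 from ts_polar Q U hU hu hz, zero_smul, add_zero]
    exact U.sub_mem hz (U.smul_mem _ hu)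
  · intro hcon
    rw [hformula] at hcon
    have h1 : (B u x₀) • v₀ - (B w x₀) • u ∈ W := by
      have h2 : (B u x₀) • v₀ - (B w x₀) • u
          = (x₀ + (B u x₀) • v - (B w x₀) • u) - x₀ - (B u x₀) • v₁ := by
        rw [hvdef]
        module
      rw [h2]
      exact W.sub_mem (W.sub_mem hcon hx₀) (W.smul_mem _ hv₁)
    have h3 : (B u x₀) • v₀ - (B w x₀) • u ∈ U :=
      U.sub_mem (U.smul_mem _ hv₀) (U.smul_mem _ hu)
    have h4 := Submodule.disjoint_def.mp hUW _ h3 h1
    have h5 := congrArg (fun t => B t v₁) h4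
    simp only [map_sub, map_smul, LinearMap.sub_apply, LinearMap.smul_apply, smul_eq_mul,
      hv₀v₁, huv₁, mul_one, mul_zero, sub_zero, map_zero, LinearMap.zero_apply] at h5
    exact hux₀ h5

end eichler

/-- Let F be a finite field with q elements, n ≥ 13 even, Q a non-degenerate quadratic form on F^n of plus type (some subspace of dimension n/2 is totally singular), and Ω the commutator subgroup of the isometry group of Q, viewed inside GL_n(F). Suppose n/2 is odd and let D be a decomposition of F^n into two complementary subspaces of dimension n/2 on each of which Q vanishes. Then the elements of Ω preserving or interchanging the two subspaces form a subgroup that is not maximal: some subgroup lies strictly between it and Ω. -/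
theorem result {F : Type*} [Field F] [Fintype F] {n : ℕ} (hn : 13 ≤ n) (heven : Even n) (Q : (Fin n → F) → F) (hQ : Cfsg.Geo.IsNondegenerateQuadraticForm Q) (hplus : Cfsg.Geo.IsPlusTypeOn Q ⊤) (k : ℕ) (hk : 2 * k = n) (hko : Odd k) (D : Fin 2 → Submodule F (Fin n → F)) (hD : Cfsg.Geo.IsMDecomposition k D) (hts : ∀ i, Cfsg.Geo.IsTotallySingularQuad Q (D i)) : ∃ K : Subgroup (Matrix.GeneralLinearGroup (Fin n) F), Cfsg.Geo.decompositionStabilizer D ⊓ Cfsg.Geo.omegaGL Q < K ∧ K < Cfsg.Geo.omegaGL Q := by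
  classical
  let Q' := Cfsg.Agent.S5676.toQF Q hQ
  have hQ' := Cfsg.Agent.S5676.toQF_nondeg Q hQ
  have hex : Fintype.card F ≠ 2 ∨ Fintype.card (Fin n) ≠ 4 :=
    Or.inr (by rw [Fintype.card_fin]; omega)
  have hdis : Disjoint (D 0) (D 1) := hD.indep.pairwiseDisjoint (by decide)
  have hsup : D 0 ⊔ D 1 = ⊤ := by
    rw [eq_top_iff, ← hD.iSup_eq_top]
    refine iSup_le (fun i => ?_)
    fin_cases i
    · exact le_sup_left
    · exact le_sup_right
  have hk7 : 7 ≤ k := by omega
  have hf0 : Module.finrank F (D 0) = k := hD.finrank_eq 0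
  have hf1 : Module.finrank F (D 1) = k := hD.finrank_eq 1
  have hne0 : D 0 ≠ ⊥ := by
    intro h
    rw [h, finrank_bot] at hf0
    omega
  have hne1 : D 1 ≠ ⊥ := by
    intro h
    rw [h, finrank_bot] at hf1
    omega
  have hts0 : ∀ x ∈ D 0, Q' x = 0 := hts 0
  have hts1 : ∀ x ∈ D 1, Q' x = 0 := hts 1
  refine ⟨Geo.subspaceStabilizer (D 0) ⊓ Geo.omegaGL Q, ?_, ?_⟩
  · have hle : Geo.decompositionStabilizer D ⊓ Geo.omegaGL Q
        ≤ Geo.subspaceStabilizer (D 0) ⊓ Geo.omegaGL Q := by
      intro g hg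
      obtain ⟨⟨σ, hσ⟩, hgΩ⟩ := hg
      refine ⟨?_, hgΩ⟩
      by_cases h0 : σ 0 = 0
      · apply Cfsg.Agent.S5653.mem_stab_of_forall
        intro w hw
        have h1 : Matrix.toLin' (g : Matrix (Fin n) (Fin n) F) w
            ∈ (D 0).map (Matrix.toLin' (g : Matrix (Fin n) (Fin n) F)) :=
          Submodule.mem_map_of_mem hw
        rw [hσ 0, h0, Matrix.toLin'_apply] at h1
        exact h1
      · exfalso
        have h01 : σ 0 = 1 := (fin2 (σ 0)).resolve_left h0
        have h10 : σ 1 = 0 := by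
          rcases fin2 (σ 1) with h | h
          · exact h
          · exact absurd (σ.injective (h.trans h01.symm)) (by decide)
        have hev := omega_even_rank Q' hQ' hex hgΩ
        have hU' : ∀ x ∈ D 0, (g : Matrix (Fin n) (Fin n) F) *ᵥ x ∈ D 1 := by
          intro x hx
          have h1 : Matrix.toLin' (g : Matrix (Fin n) (Fin n) F) x
              ∈ (D 0).map (Matrix.toLin' (g : Matrix (Fin n) (Fin n) F)) :=
            Submodule.mem_map_of_mem hx
          rw [hσ 0, h01, Matrix.toLin'_apply] at h1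
          exact h1
        have hW' : ∀ x ∈ D 1, (g : Matrix (Fin n) (Fin n) F) *ᵥ x ∈ D 0 := by
          intro x hx
          have h1 : Matrix.toLin' (g : Matrix (Fin n) (Fin n) F) x
              ∈ (D 1).map (Matrix.toLin' (g : Matrix (Fin n) (Fin n) F)) :=
            Submodule.mem_map_of_mem hx
          rw [hσ 1, h10, Matrix.toLin'_apply] at h1
          exact h1
        have hW'' : ∀ y ∈ D 1, ∃ x ∈ D 0, (g : Matrix (Fin n) (Fin n) F) *ᵥ x = y := by
          intro y hy
          rw [← h01, ← hσ 0] at hy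
          obtain ⟨x, hx, hxy⟩ := Submodule.mem_map.mp hy
          rw [Matrix.toLin'_apply] at hxy
          exact ⟨x, hx, hxy⟩
        obtain ⟨g', hg', hgg'⟩ := Subgroup.mem_map.mp hgΩ
        have e : (((g' : Matrix.GeneralLinearGroup (Fin n) F)) : Matrix (Fin n) (Fin n) F)
            = (g : Matrix (Fin n) (Fin n) F) := by
          rw [← hgg']
          rfl
        have hsw := swap_odd Q' hQ' (D 0) (D 1) hdis hsup hts0
          (by rw [Fintype.card_fin, hf0]; omega) g'
          (by rw [e]; exact hU') (by rw [e]; exact hW') (by rw [e]; exact hW'')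
        rw [e] at hsw
        have hkev : Even (Module.finrank F (D 0)) := (Nat.even_add.mp hsw).mpr hev
        rw [hf0] at hkev
        exact (Nat.not_even_iff_odd.mpr hko) hkev
    apply lt_of_le_of_ne hle
    intro heq
    obtain ⟨g, hgΩ, hgU, x, hx, hgx⟩ := eich Q' hQ' hex (D 0) (D 1) hdis hsup hts0 hts1 hne0
      (by rw [hf1]; omega)
    have hgK : g ∈ Geo.subspaceStabilizer (D 0) ⊓ Geo.omegaGL Q :=
      ⟨Cfsg.Agent.S5653.mem_stab_of_forall (D 0) g hgU, hgΩ⟩
    rw [← heq] at hgK
    obtain ⟨⟨σ, hσ⟩, -⟩ := hgK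
    rcases fin2 (σ 1) with h | h
    · have h01 : σ 0 = 1 := by
        rcases fin2 (σ 0) with h' | h'
        · exact absurd (σ.injective (h'.trans h.symm)) (by decide)
        · exact h'
      obtain ⟨u, hu, hu0⟩ := Submodule.exists_mem_ne_zero_of_ne_bot hne0
      have h1 : Matrix.toLin' (g : Matrix (Fin n) (Fin n) F) u
          ∈ (D 0).map (Matrix.toLin' (g : Matrix (Fin n) (Fin n) F)) :=
        Submodule.mem_map_of_mem hu
      rw [hσ 0, h01, Matrix.toLin'_apply] at h1
      have h2 := Submodule.disjoint_def.mp hdis _ (hgU u hu) h1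
      apply hu0
      apply Cfsg.Agent.S5676.ginj g
      rw [h2, Matrix.mulVec_zero]
    · have h1 : Matrix.toLin' (g : Matrix (Fin n) (Fin n) F) x
          ∈ (D 1).map (Matrix.toLin' (g : Matrix (Fin n) (Fin n) F)) :=
        Submodule.mem_map_of_mem hx
      rw [hσ 1, h, Matrix.toLin'_apply] at h1
      exact hgx h1
  · apply lt_of_le_of_ne inf_le_right
    intro heq
    obtain ⟨g, hgΩ, hgU, x, hx, hgx⟩ := eich Q' hQ' hex (D 1) (D 0) hdis.symm
      (by rw [sup_comm]; exact hsup) hts1 hts0 hne1 (by rw [hf0]; omega)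
    have hgK : g ∈ Geo.subspaceStabilizer (D 0) ⊓ Geo.omegaGL Q := by
      rw [heq]
      exact hgΩ
    exact hgx (Cfsg.Agent.S5653.stab_mulVec (D 0) g hgK.1 x hx)

end Cfsg.Agent.S5698
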