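import Mathlib
import Cfsg.Statements.S5686
import Cfsg.Agent.S5698

set_option autoImplicit false
open Cfsg

namespace Cfsg.Agent.S5686

open Matrix
open Cfsg.Agent.Lib.Helper16 (reflG refl_mulVec reflG_coe isomG_map isomG_polar isomG_mul_coe)
open Cfsg.Agent.Lib.Helper3 (rank_refl_mul_parity rank_add_ker)
open Cfsg.Agent.S5698 (omega_even_rank alt_even ts_polar)

theorem finrank_of_ker_le {F V V' : Type*} [Field F] [AddCommGroup V] [Module F V]
    [FiniteDimensional F V] [AddCommGroup V'] [Module F V']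
    (N : V →ₗ[F] V') (S : Submodule F V) (hS : LinearMap.ker N ≤ S) :
    Module.finrank F S = Module.finrank F (LinearMap.ker N) + Module.finrank F (S.map N) := by
  have h := LinearMap.finrank_range_add_finrank_ker (N.domRestrict S)
  rw [LinearMap.range_domRestrict, LinearMap.ker_domRestrict] at h
  rw [← h, (Submodule.comapSubtypeEquivOfLe hS).finrank_eq]
  ring

section parab

variable {ι : Type} [Fintype ι] [DecidableEq ι] {F : Type*} [Field F]
  (Q : QuadraticForm F (ι → F)) (hQ : (QuadraticMap.polarBilin Q).Nondegenerate)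

include hQ in
/-- a totally singular subspace of half the dimension is its own orthogonal complement -/
theorem max_ts_orth (U : Submodule F (ι → F)) (hU : ∀ x ∈ U, Q x = 0)
    (hn : Fintype.card ι = 2 * Module.finrank F U) :
    LinearMap.BilinForm.orthogonal (QuadraticMap.polarBilin Q) U = U := by
  symm
  apply Submodule.eq_of_le_of_finrank_eq
  · intro x hx y hy
    exact ts_polar Q U hU hy hx
  · rw [LinearMap.BilinForm.finrank_orthogonal hQ, Module.finrank_fintype_fun_eq_card, hn]
    omega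

include hQ in
/-- an isometry stabilising a totally singular subspace of half the dimension has
`rank (g - 1)` even -/
theorem parab_even (U : Submodule F (ι → F)) (hU : ∀ x ∈ U, Q x = 0)
    (hn : Fintype.card ι = 2 * Module.finrank F U)
    (g : ↥(Cfsg.isometryGroup F (⇑Q)))
    (hgU : ∀ x ∈ U, ((g : Matrix.GeneralLinearGroup ι F) : Matrix ι ι F) *ᵥ x ∈ U) :
    Even ((((g : Matrix.GeneralLinearGroup ι F) : Matrix ι ι F) - 1).rank) := by
  classical
  set M : Matrix ι ι F := ((g : Matrix.GeneralLinearGroup ι F) : Matrix ι ι F) with hM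
  let B := QuadraticMap.polarBilin Q
  have hBs : ∀ x y, B x y = B y x := fun x y => QuadraticMap.polar_comm _ x y
  have hrefl : LinearMap.BilinForm.IsRefl B := fun x y h => by rw [hBs]; exact h
  have hBf : ∀ x y, B (M *ᵥ x) (M *ᵥ y) = B x y := fun x y => isomG_polar Q g x y
  have hBU : ∀ x ∈ U, ∀ y ∈ U, B x y = 0 := fun x hx y hy => ts_polar Q U hU hx hy
  have hgU' : ∀ y ∈ U, ∃ x ∈ U, M *ᵥ x = y := by
    let f : ↥U →ₗ[F] ↥U := (Matrix.toLin' M).restrict
      (fun w hw => by rw [Matrix.toLin'_apply]; exact hgU w hw)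
    have hf : Function.Injective f := by
      intro x y hxy
      apply Subtype.ext
      apply Cfsg.Agent.S5676.ginj (g : Matrix.GeneralLinearGroup ι F)
      have h := congrArg Subtype.val hxy
      simpa [f, LinearMap.restrict_apply, Matrix.toLin'_apply] using h
    intro y hy
    obtain ⟨w, hw⟩ := (LinearMap.injective_iff_surjective.mp hf) ⟨y, hy⟩
    refine ⟨w, w.2, ?_⟩
    have h := congrArg Subtype.val hw
    simpa [f, LinearMap.restrict_apply, Matrix.toLin'_apply] using h
  have horth : LinearMap.BilinForm.orthogonal B U = U := max_ts_orth Q hQ U hU hn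
  let N : (ι → F) →ₗ[F] (ι → F) := (M - 1).mulVecLin
  have hN : ∀ x, N x = M *ᵥ x - x := fun x => by
    show (M - 1) *ᵥ x = _
    rw [Matrix.sub_mulVec, Matrix.one_mulVec]
  have hMN : ∀ x, M *ᵥ x = x + N x := fun x => by rw [hN]; abel
  have hid : ∀ u y, B (N u) y = - B (M *ᵥ u) (N y) := by
    intro u y
    rw [hN, hN, map_sub, LinearMap.sub_apply, map_sub, hBf]
    ring
  let E : Submodule F (ι → F) := U.comap N
  have hE : ∀ x, x ∈ E ↔ N x ∈ U := fun x => Iff.rfl
  have hUE : U ≤ E := by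
    intro u hu
    rw [hE, hN]
    exact U.sub_mem (hgU u hu) hu
  have hEorth : E = LinearMap.BilinForm.orthogonal B (U.map N) := by
    ext y
    rw [hE, LinearMap.BilinForm.mem_orthogonal_iff]
    constructor
    · intro hy z hz
      obtain ⟨u, hu, rfl⟩ := Submodule.mem_map.mp hz
      show B (N u) y = 0
      rw [hid, hBU _ (hgU u hu) _ hy, neg_zero]
    · intro hy
      rw [← horth, LinearMap.BilinForm.mem_orthogonal_iff]
      intro u' hu'
      obtain ⟨u, hu, rfl⟩ := hgU' u' hu'
      have h := hy (N u) (Submodule.mem_map_of_mem hu)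
      have h' : B (N u) y = 0 := h
      rw [hid] at h'
      exact neg_eq_zero.mp h'
  let ω : LinearMap.BilinForm F ↥E := B.compl₁₂ (N ∘ₗ E.subtype) E.subtype
  have hω : ∀ x y : ↥E, ω x y = B (N (x : ι → F)) (y : ι → F) := fun x y => rfl
  have hA : ω.IsAlt := by
    intro x
    rw [hω]
    have h1 := isomG_map Q g (x : ι → F)
    rw [show ((g : Matrix.GeneralLinearGroup ι F) : Matrix ι ι F) *ᵥ (x : ι → F)
      = (x : ι → F) + N x from hMN _] at h1
    have h2 : Q ((x : ι → F) + N x) = Q (x : ι → F) + Q (N x) + B (x : ι → F) (N x) := by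
      show _ = _ + _ + QuadraticMap.polar (⇑Q) _ _
      unfold QuadraticMap.polar
      ring
    rw [h2, hU _ ((hE _).mp x.2)] at h1
    rw [hBs]
    linear_combination h1
  have hker : ∀ x : ↥E, x ∈ LinearMap.ker ω ↔ ∃ u ∈ U, N (x : ι → F) = N u := by
    intro x
    rw [LinearMap.mem_ker]
    constructor
    · intro h0
      have h1 : N (x : ι → F) ∈ LinearMap.BilinForm.orthogonal B E := by
        rw [LinearMap.BilinForm.mem_orthogonal_iff]
        intro y hy
        show B y (N (x : ι → F)) = 0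
        rw [hBs]
        have h3 : ω x ⟨y, hy⟩ = 0 := by rw [h0]; rfl
        exact h3
      have e : LinearMap.BilinForm.orthogonal B E = LinearMap.BilinForm.orthogonal B
          (LinearMap.BilinForm.orthogonal B (U.map N)) :=
        congrArg (LinearMap.BilinForm.orthogonal B) hEorth
      have h1' : N (x : ι → F) ∈ LinearMap.BilinForm.orthogonal B
          (LinearMap.BilinForm.orthogonal B (U.map N)) := e ▸ h1
      rw [LinearMap.BilinForm.orthogonal_orthogonal hQ hrefl] at h1'
      obtain ⟨u, hu, hu'⟩ := Submodule.mem_map.mp h1'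
      exact ⟨u, hu, hu'.symm⟩
    · rintro ⟨u, hu, hxu⟩
      ext y
      rw [hω, hxu, hid]
      show - B (M *ᵥ u) (N (y : ι → F)) = 0
      rw [hBU _ (hgU u hu) _ ((hE _).mp y.2), neg_zero]
  have hcardV : Module.finrank F (ι → F) = Fintype.card ι := Module.finrank_fintype_fun_eq_card F
  have h1 : Module.finrank F ↥E = Fintype.card ι - Module.finrank F (U.map N) := by
    rw [hEorth, LinearMap.BilinForm.finrank_orthogonal hQ, hcardV]
  have h2 : (LinearMap.ker ω).map E.subtype = U ⊔ LinearMap.ker N := by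
    ext z
    constructor
    · rintro ⟨x, hx, rfl⟩
      obtain ⟨u, hu, hxu⟩ := (hker x).mp hx
      have h3 : E.subtype x = u + ((x : ι → F) - u) := by
        rw [Submodule.subtype_apply]
        abel
      rw [h3]
      exact Submodule.add_mem_sup hu (by rw [LinearMap.mem_ker, map_sub, hxu, sub_self])
    · intro hz
      obtain ⟨u, hu, k, hk, rfl⟩ := Submodule.mem_sup.mp hz
      have hNk : N k = 0 := LinearMap.mem_ker.mp hk
      have hzE : u + k ∈ E := by
        rw [hE, map_add, hNk, add_zero]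
        exact (hE u).mp (hUE hu)
      refine ⟨⟨u + k, hzE⟩, (hker _).mpr ⟨u, hu, ?_⟩, rfl⟩
      show N (u + k) = N u
      rw [map_add, hNk, add_zero]
  have h3 : Module.finrank F (LinearMap.ker ω) = Module.finrank F ↥(U ⊔ LinearMap.ker N) := by
    rw [← h2, Submodule.finrank_map_subtype_eq]
  have h4 := finrank_of_ker_le N (U ⊔ LinearMap.ker N) le_sup_right
  have h5 : (U ⊔ LinearMap.ker N).map N = U.map N := by
    apply le_antisymm
    · rintro _ ⟨z, hz, rfl⟩
      obtain ⟨u, hu, k, hk, rfl⟩ := Submodule.mem_sup.mp hz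
      exact ⟨u, hu, by rw [map_add, LinearMap.mem_ker.mp hk, add_zero]⟩
    · exact Submodule.map_mono le_sup_left
  rw [h5] at h4
  obtain ⟨c, hc⟩ := alt_even ω hA
  have hrk := rank_add_ker (M - 1)
  have hr_le : Module.finrank F (U.map N) ≤ Fintype.card ι := by
    have h := Submodule.finrank_le (U.map N)
    rwa [hcardV] at h
  have hkerN : Module.finrank F (LinearMap.ker (M - 1).mulVecLin)
      = Module.finrank F (LinearMap.ker N) := rfl
  refine ⟨Module.finrank F (U.map N) + c, ?_⟩
  omega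

end parab

section tools

variable {ι : Type} [Fintype ι] [DecidableEq ι] {F : Type*} [Field F] [Fintype F]
  (Q : QuadraticForm F (ι → F)) (hQ : (QuadraticMap.polarBilin Q).Nondegenerate)

local notation "Bp" => QuadraticMap.polar (DFunLike.coe Q)

omit [Fintype F] in
theorem omega_polar {g : Matrix.GeneralLinearGroup ι F} (hg : g ∈ Geo.omegaGL (⇑Q))
    (a b : ι → F) :
    Bp ((g : Matrix ι ι F) *ᵥ a) ((g : Matrix ι ι F) *ᵥ b) = Bp a b := by
  unfold QuadraticMap.polar
  rw [← Matrix.mulVec_add, Cfsg.Agent.S5676.omega_isom Q hg, Cfsg.Agent.S5676.omega_isom Q hg,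
    Cfsg.Agent.S5676.omega_isom Q hg]

omit [Fintype F] [DecidableEq ι] in
include hQ in
theorem two_fun (u z₀ : ι → F) (h : ∀ c : F, z₀ ≠ c • u) :
    ∃ y, Bp y z₀ = 1 ∧ Bp y u = 0 := by
  let B := QuadraticMap.polarBilin Q
  have hBs : ∀ x y, B x y = B y x := fun x y => QuadraticMap.polar_comm _ x y
  have hrefl : LinearMap.BilinForm.IsRefl B := fun x y h => by rw [hBs]; exact h
  have hex : ∃ y₀, B y₀ u = 0 ∧ B y₀ z₀ ≠ 0 := by
    by_contra hcon
    push Not at hcon
    have h1 : z₀ ∈ LinearMap.BilinForm.orthogonal B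
        (LinearMap.BilinForm.orthogonal B (Submodule.span F {u})) := by
      rw [LinearMap.BilinForm.mem_orthogonal_iff]
      intro y hy
      rw [LinearMap.BilinForm.mem_orthogonal_iff] at hy
      have h2 : B u y = 0 := hy u (Submodule.mem_span_singleton_self u)
      exact hcon y (by rw [hBs]; exact h2)
    rw [LinearMap.BilinForm.orthogonal_orthogonal hQ hrefl] at h1
    obtain ⟨c, hc⟩ := Submodule.mem_span_singleton.mp h1
    exact h c hc.symm
  obtain ⟨y₀, hy₀u, hy₀z⟩ := hex
  refine ⟨(B y₀ z₀)⁻¹ • y₀, ?_, ?_⟩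
  · show B ((B y₀ z₀)⁻¹ • y₀) z₀ = 1
    rw [map_smul, LinearMap.smul_apply, smul_eq_mul, inv_mul_cancel₀ hy₀z]
  · show B ((B y₀ z₀)⁻¹ • y₀) u = 0
    rw [map_smul, LinearMap.smul_apply, hy₀u, smul_zero]

omit [Fintype F] in
theorem eich_formula {u v : ι → F} (hQv : Q v = 1) (hQu : Q u = 0) (hvu : Bp v u = 0)
    (hvne : Q v ≠ 0) (hwne : Q (v + u) ≠ 0) (z : ι → F) :
    ((Cfsg.Agent.S5676.rr Q v (v + u) hvne hwne : Matrix.GeneralLinearGroup ι F) :
        Matrix ι ι F) *ᵥ z = z + (Bp u z) • v - (Bp (v + u) z) • u := by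
  let B := QuadraticMap.polarBilin Q
  have hQw : Q (v + u) = 1 := by
    have h : Q (v + u) = Q v + Q u + Bp v u := by
      unfold QuadraticMap.polar
      ring
    rw [h, hQv, hQu, hvu]
    ring
  rw [Cfsg.Agent.S5676.rr_mulVec, hQv, hQw, inv_one, one_mul, one_mul]
  have e1 : B (v + u) z = B v z + B u z := by rw [map_add, LinearMap.add_apply]
  have e2 : B v (v + u) = 2 := by
    rw [map_add]
    show Bp v v + Bp v u = 2
    rw [hvu, add_zero, QuadraticMap.polar_self, hQv]
    simp
  show z - (B (v + u) z) • (v + u) - (B v (z - (B (v + u) z) • (v + u))) • v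
    = z + (B u z) • v - (B (v + u) z) • u
  rw [map_sub, map_smul, smul_eq_mul, e2, e1]
  module

end tools

/-- Let F be a finite field with q elements, n ≥ 13 even, Q a non-degenerate quadratic form on F^n of plus type (some subspace of dimension n/2 is totally singular), and Ω the commutator subgroup of the isometry group of Q, viewed inside GL_n(F). The elements of Ω stabilising a subspace of dimension n/2 − 1 on which Q vanishes form a subgroup that is not maximal: some subgroup lies strictly between it and Ω. -/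
theorem result {F : Type*} [Field F] [Fintype F] {n : ℕ} (hn : 13 ≤ n) (heven : Even n) (Q : (Fin n → F) → F) (hQ : Cfsg.Geo.IsNondegenerateQuadraticForm Q) (hplus : Cfsg.Geo.IsPlusTypeOn Q ⊤) (W : Submodule F (Fin n → F)) (hW : Cfsg.Geo.IsTotallySingularQuad Q W) (hdim : 2 * (Module.finrank F W + 1) = n) : ∃ K : Subgroup (Matrix.GeneralLinearGroup (Fin n) F), Cfsg.Geo.subspaceStabilizer W ⊓ Cfsg.Geo.omegaGL Q < K ∧ K < Cfsg.Geo.omegaGL Q := by
  classical
  let Q' := Cfsg.Agent.S5676.toQF Q hQ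
  have hQ' := Cfsg.Agent.S5676.toQF_nondeg Q hQ
  have hex : Fintype.card F ≠ 2 ∨ Fintype.card (Fin n) ≠ 4 :=
    Or.inr (by rw [Fintype.card_fin]; omega)
  let B := QuadraticMap.polarBilin Q'
  have hBs : ∀ x y, B x y = B y x := fun x y => QuadraticMap.polar_comm _ x y
  have hadd : ∀ x y : Fin n → F, Q' (x + y) = Q' x + Q' y + B x y := fun x y => by
    show Q' (x + y) = Q' x + Q' y + QuadraticMap.polar (⇑Q') x y
    unfold QuadraticMap.polar
    ring
  have hW' : ∀ x ∈ W, Q' x = 0 := hW
  have hcard : Module.finrank F (Fin n → F) = n := by simp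
  -- a totally singular subspace of half the dimension containing `W`
  obtain ⟨U, -, hUts, hUdim⟩ := hplus
  rw [finrank_top, hcard] at hUdim
  have hUts' : ∀ x ∈ U, Q' x = 0 := hUts
  have hUorth : LinearMap.BilinForm.orthogonal B U = U :=
    max_ts_orth Q' hQ' U hUts' (by rw [Fintype.card_fin]; omega)
  have hinf : U ⊓ LinearMap.BilinForm.orthogonal B W
      = LinearMap.BilinForm.orthogonal B (U ⊔ W) := by
    ext x
    simp only [Submodule.mem_inf, LinearMap.BilinForm.mem_orthogonal_iff]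
    constructor
    · rintro ⟨hxU, hxW⟩ z hz
      obtain ⟨u, hu, w, hw, rfl⟩ := Submodule.mem_sup.mp hz
      rw [map_add, LinearMap.add_apply, hxW w hw, add_zero]
      exact ts_polar Q' U hUts' hu hxU
    · intro hx
      refine ⟨?_, fun w hw => hx w (Submodule.mem_sup_right hw)⟩
      rw [← hUorth, LinearMap.BilinForm.mem_orthogonal_iff]
      exact fun u hu => hx u (Submodule.mem_sup_left hu)
  have hdim1 : Module.finrank F ↥(U ⊓ LinearMap.BilinForm.orthogonal B W)
      = Module.finrank F ↥(U ⊓ W) + 1 := by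
    rw [hinf, LinearMap.BilinForm.finrank_orthogonal hQ', hcard]
    have h1 := Submodule.finrank_sup_add_finrank_inf_eq U W
    have hle : Module.finrank F ↥(U ⊔ W) ≤ n := by
      have h2 := Submodule.finrank_le (U ⊔ W)
      rwa [hcard] at h2
    omega
  obtain ⟨x, hx, hxW⟩ : ∃ x ∈ U ⊓ LinearMap.BilinForm.orthogonal B W, x ∉ W := by
    by_contra hcon
    push Not at hcon
    have hle : U ⊓ LinearMap.BilinForm.orthogonal B W ≤ U ⊓ W := fun z hz => ⟨hz.1, hcon z hz⟩
    have h1 := Submodule.finrank_mono hle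
    omega
  have hxU : x ∈ U := hx.1
  have hxorth : ∀ w ∈ W, B w x = 0 := fun w hw => hx.2 w hw
  have hQx : Q' x = 0 := hUts' x hxU
  have hx0 : x ≠ 0 := fun h => hxW (h ▸ W.zero_mem)
  let U₁ : Submodule F (Fin n → F) := W ⊔ Submodule.span F {x}
  have hU₁mem : ∀ z, z ∈ U₁ ↔ ∃ w ∈ W, ∃ c : F, z = w + c • x := by
    intro z
    rw [Submodule.mem_sup]
    constructor
    · rintro ⟨w, hw, y, hy, rfl⟩
      obtain ⟨c, rfl⟩ := Submodule.mem_span_singleton.mp hy
      exact ⟨w, hw, c, rfl⟩
    · rintro ⟨w, hw, c, rfl⟩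
      exact ⟨w, hw, c • x, Submodule.smul_mem _ _ (Submodule.mem_span_singleton_self x), rfl⟩
  have hU₁ts : ∀ z ∈ U₁, Q' z = 0 := by
    intro z hz
    obtain ⟨w, hw, c, rfl⟩ := (hU₁mem z).mp hz
    rw [hadd, hW' w hw, QuadraticMap.map_smul, hQx, map_smul, smul_eq_mul, hxorth w hw]
    simp
  have hU₁dim : Module.finrank F U₁ = Module.finrank F W + 1 := by
    have h := Submodule.finrank_sup_add_finrank_inf_eq W (Submodule.span F {x})
    have hdisj : W ⊓ Submodule.span F {x} = ⊥ := by
      rw [eq_bot_iff]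
      rintro z ⟨hzW, hzx⟩
      obtain ⟨c, rfl⟩ := Submodule.mem_span_singleton.mp hzx
      by_cases hc : c = 0
      · rw [hc, zero_smul]
        exact Submodule.zero_mem _
      · exfalso
        apply hxW
        have h1 := W.smul_mem c⁻¹ hzW
        rwa [smul_smul, inv_mul_cancel₀ hc, one_smul] at h1
    rw [hdisj, finrank_bot, add_zero, finrank_span_singleton hx0] at h
    exact h
  have hWU₁ : W ≤ U₁ := le_sup_left
  have hxU₁ : x ∈ U₁ := Submodule.mem_sup_right (Submodule.mem_span_singleton_self x)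
  have hcardU₁ : Fintype.card (Fin n) = 2 * Module.finrank F U₁ := by
    rw [Fintype.card_fin, hU₁dim]
    omega
  have hU₁orth : LinearMap.BilinForm.orthogonal B U₁ = U₁ := max_ts_orth Q' hQ' U₁ hU₁ts hcardU₁
  have hBU₁ : ∀ a ∈ U₁, ∀ b ∈ U₁, B a b = 0 := fun a ha b hb => ts_polar Q' U₁ hU₁ts ha hb
  refine ⟨Geo.subspaceStabilizer U₁ ⊓ Geo.omegaGL Q, ?_, ?_⟩
  · have hle : Geo.subspaceStabilizer W ⊓ Geo.omegaGL Q
        ≤ Geo.subspaceStabilizer U₁ ⊓ Geo.omegaGL Q := by
      intro g hg
      obtain ⟨hgW, hgΩ⟩ := hg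
      refine ⟨?_, hgΩ⟩
      have hgW1 : ∀ w ∈ W, (g : Matrix (Fin n) (Fin n) F) *ᵥ w ∈ W :=
        fun w hw => Cfsg.Agent.S5653.stab_mulVec W g hgW w hw
      have hgW2 : ∀ w ∈ W, ∃ w' ∈ W, (g : Matrix (Fin n) (Fin n) F) *ᵥ w' = w := by
        intro w hw
        refine ⟨((g⁻¹ : Matrix.GeneralLinearGroup (Fin n) F) : Matrix (Fin n) (Fin n) F) *ᵥ w,
          ?_, Cfsg.Agent.S5653.gl_inv_mulVec g w⟩
        apply (hgW _).mpr
        show (g : Matrix (Fin n) (Fin n) F) *ᵥ _ ∈ W
        rw [Cfsg.Agent.S5653.gl_inv_mulVec g w]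
        exact hw
      have hgpol : ∀ a b : Fin n → F, B ((g : Matrix (Fin n) (Fin n) F) *ᵥ a)
          ((g : Matrix (Fin n) (Fin n) F) *ᵥ b) = B a b := fun a b => omega_polar Q' hgΩ a b
      set f : Fin n → F := (g : Matrix (Fin n) (Fin n) F) *ᵥ x with hfdef
      have hQf : Q' f = 0 := by
        rw [hfdef, Cfsg.Agent.S5676.omega_isom Q' hgΩ]
        exact hQx
      have hfW : ∀ w ∈ W, B f w = 0 := by
        intro w hw
        obtain ⟨w', hw', rfl⟩ := hgW2 w hw
        rw [hfdef, hgpol, hBs]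
        exact hxorth w' hw'
      by_cases hfU : f ∈ U₁
      · apply Cfsg.Agent.S5653.mem_stab_of_forall
        intro z hz
        obtain ⟨w, hw, c, rfl⟩ := (hU₁mem z).mp hz
        rw [Matrix.mulVec_add, Matrix.mulVec_smul]
        exact U₁.add_mem (hWU₁ (hgW1 w hw)) (U₁.smul_mem c hfU)
      · exfalso
        have hxf : B x f ≠ 0 := by
          intro h0
          apply hfU
          rw [← hU₁orth, LinearMap.BilinForm.mem_orthogonal_iff]
          intro z hz
          obtain ⟨w, hw, c, rfl⟩ := (hU₁mem z).mp hz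
          show B (w + c • x) f = 0
          rw [map_add, LinearMap.add_apply, map_smul, LinearMap.smul_apply, h0, smul_zero,
            add_zero, hBs]
          exact hfW w hw
        set v : Fin n → F := x - f with hvdef
        have hQv : Q' v = - B x f := by
          have h1 : v = x + (-1 : F) • f := by rw [hvdef]; module
          rw [h1, hadd, QuadraticMap.map_smul, hQx, hQf, map_smul, smul_eq_mul]
          ring
        have hvne : Q' v ≠ 0 := by
          rw [hQv]
          exact neg_ne_zero.mpr hxf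
        obtain ⟨g', hg', hgg'⟩ : ∃ g' : ↥(Cfsg.isometryGroup F (⇑Q')),
            g' ∈ Cfsg.Omega F (⇑Q') ∧ (Cfsg.isometryGroup F (⇑Q')).subtype g' = g :=
          Subgroup.mem_map.mp hgΩ
        have e : (((g' : Matrix.GeneralLinearGroup (Fin n) F)) : Matrix (Fin n) (Fin n) F)
            = (g : Matrix (Fin n) (Fin n) F) := by
          rw [← hgg']
          rfl
        have hev := omega_even_rank Q' hQ' hex hgΩ
        have hpar := rank_refl_mul_parity Q' hQ' g' v hvne
        rw [e] at hpar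
        have hh : ∀ z ∈ U₁, (((reflG Q' v hvne * g' : ↥(Cfsg.isometryGroup F (⇑Q'))) :
            Matrix.GeneralLinearGroup (Fin n) F) : Matrix (Fin n) (Fin n) F) *ᵥ z ∈ U₁ := by
          intro z hz
          obtain ⟨w, hw, c, rfl⟩ := (hU₁mem z).mp hz
          rw [isomG_mul_coe, reflG_coe, e, ← Matrix.mulVec_mulVec, refl_mulVec,
            Matrix.mulVec_add, Matrix.mulVec_smul, ← hfdef]
          have hvw : B v ((g : Matrix (Fin n) (Fin n) F) *ᵥ w) = 0 := by
            rw [hvdef, map_sub, LinearMap.sub_apply, hfW _ (hgW1 w hw), sub_zero, hBs]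
            exact hxorth _ (hgW1 w hw)
          have hvf : B v f = B x f := by
            rw [hvdef, map_sub, LinearMap.sub_apply]
            show B x f - QuadraticMap.polar (⇑Q') f f = B x f
            rw [QuadraticMap.polar_self, hQf]
            ring
          have h2 : QuadraticMap.polar (⇑Q') v ((g : Matrix (Fin n) (Fin n) F) *ᵥ w + c • f)
              = c * B x f := by
            show B v ((g : Matrix (Fin n) (Fin n) F) *ᵥ w + c • f) = c * B x f
            rw [map_add, map_smul, hvw, hvf, zero_add, smul_eq_mul]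
          rw [h2, hQv]
          have h3 : (g : Matrix (Fin n) (Fin n) F) *ᵥ w + c • f
              - ((- B x f)⁻¹ * (c * B x f)) • v
              = (g : Matrix (Fin n) (Fin n) F) *ᵥ w + c • x := by
            have h4 : (- B x f)⁻¹ * (c * B x f) = -c := by
              field_simp
            rw [h4, hvdef]
            module
          rw [h3]
          exact U₁.add_mem (hWU₁ (hgW1 w hw)) (U₁.smul_mem c hxU₁)
        have hpe := parab_even Q' hQ' U₁ hU₁ts hcardU₁ (reflG Q' v hvne * g') hh
        rw [isomG_mul_coe, reflG_coe, e] at hpe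
        exact (hpar.mp hpe) hev
    apply lt_of_le_of_ne hle
    intro heq
    -- an element stabilising `U₁` and moving `W`
    obtain ⟨z₀, hz₀, hz₀0⟩ : ∃ z₀ ∈ W, z₀ ≠ 0 := by
      have hWne : W ≠ ⊥ := by
        intro h
        rw [h, finrank_bot] at hdim
        omega
      exact Submodule.exists_mem_ne_zero_of_ne_bot hWne
    obtain ⟨y, hyz, hyx⟩ := two_fun Q' hQ' x z₀ (by
      intro c hc
      by_cases hc0 : c = 0
      · rw [hc0, zero_smul] at hc
        exact hz₀0 hc
      · apply hxW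
        have h1 := W.smul_mem c⁻¹ hz₀
        rwa [hc, smul_smul, inv_mul_cancel₀ hc0, one_smul] at h1)
    have hyz' : B y z₀ = 1 := hyz
    have hyx' : B y x = 0 := hyx
    set v : Fin n → F := y + (1 - Q' y) • z₀ with hvdef
    have hQz₀ : Q' z₀ = 0 := hW' z₀ hz₀
    have hQv : Q' v = 1 := by
      rw [hvdef, hadd, QuadraticMap.map_smul, hQz₀, map_smul, smul_eq_mul, hyz']
      ring
    have hvx : B v x = 0 := by
      rw [hvdef, map_add, LinearMap.add_apply, map_smul, LinearMap.smul_apply, hyx',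
        hBU₁ z₀ (hWU₁ hz₀) x hxU₁, smul_zero, add_zero]
    have hvz : B v z₀ = 1 := by
      rw [hvdef, map_add, LinearMap.add_apply, map_smul, LinearMap.smul_apply, hyz',
        hBU₁ z₀ (hWU₁ hz₀) z₀ (hWU₁ hz₀), smul_zero, add_zero]
    have hvne : Q' v ≠ 0 := by rw [hQv]; exact one_ne_zero
    have hQw : Q' (v + x) = 1 := by
      rw [hadd, hQv, hQx, hvx]
      ring
    have hwne : Q' (v + x) ≠ 0 := by rw [hQw]; exact one_ne_zero
    let g := Cfsg.Agent.S5676.rr Q' v (v + x) hvne hwne
    have hgΩ : g ∈ Geo.omegaGL Q :=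
      Cfsg.Agent.S5676.rr_mem Q' hQ' hex hvne hwne (by rw [hQv, hQw]; exact ⟨1, by ring⟩)
    have hform : ∀ z, (g : Matrix (Fin n) (Fin n) F) *ᵥ z = z + (B x z) • v - (B (v + x) z) • x :=
      fun z => eich_formula Q' hQv hQx hvx hvne hwne z
    have hgU₁ : g ∈ Geo.subspaceStabilizer U₁ := by
      apply Cfsg.Agent.S5653.mem_stab_of_forall
      intro z hz
      rw [hform, hBU₁ x hxU₁ z hz, zero_smul, add_zero]
      exact U₁.sub_mem hz (U₁.smul_mem _ hxU₁)
    have hgK : g ∈ Geo.subspaceStabilizer U₁ ⊓ Geo.omegaGL Q := ⟨hgU₁, hgΩ⟩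
    rw [← heq] at hgK
    have h1 := Cfsg.Agent.S5653.stab_mulVec W g hgK.1 z₀ hz₀
    rw [hform, hBU₁ x hxU₁ z₀ (hWU₁ hz₀), zero_smul, add_zero, map_add, LinearMap.add_apply,
      hvz, hBU₁ x hxU₁ z₀ (hWU₁ hz₀), add_zero, one_smul] at h1
    apply hxW
    have h2 := W.sub_mem hz₀ h1
    rwa [sub_sub_cancel] at h2
  · apply lt_of_le_of_ne inf_le_right
    intro heq
    -- an element moving `U₁`
    obtain ⟨b, hb, hbx⟩ := Cfsg.Agent.S5676.gns Q' hQ' (fun _ : Fin 1 => x)
      (by rw [Fintype.card_fin]; omega)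
    have hbx' : B x b = 0 := hbx 0
    obtain ⟨y₀, hy₀⟩ : ∃ y₀, B x y₀ ≠ 0 := by
      by_contra hcon
      push Not at hcon
      exact hx0 (hQ'.1 x hcon)
    obtain ⟨y, hxy⟩ : ∃ y : Fin n → F, B y x = 1 := by
      refine ⟨(B x y₀)⁻¹ • y₀, ?_⟩
      rw [hBs, map_smul, smul_eq_mul, inv_mul_cancel₀ hy₀]
    set a : Fin n → F := y + (Q' b - Q' y) • x with hadef
    have hQa : Q' a = Q' b := by
      rw [hadef, hadd, QuadraticMap.map_smul, hQx, map_smul, smul_eq_mul, hxy]
      ring
    have hane : Q' a ≠ 0 := by rw [hQa]; exact hb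
    have hax : B a x = 1 := by
      rw [hadef, map_add, LinearMap.add_apply, map_smul, LinearMap.smul_apply, hxy,
        hBU₁ x hxU₁ x hxU₁, smul_zero, add_zero]
    let g := Cfsg.Agent.S5676.rr Q' a b hane hb
    have hgΩ : g ∈ Geo.omegaGL Q :=
      Cfsg.Agent.S5676.rr_mem Q' hQ' hex hane hb (by rw [hQa]; exact ⟨Q' b, rfl⟩)
    have hgK : g ∈ Geo.subspaceStabilizer U₁ ⊓ Geo.omegaGL Q := by
      rw [heq]
      exact hgΩ
    have h1 := Cfsg.Agent.S5653.stab_mulVec U₁ g hgK.1 x hxU₁
    rw [Cfsg.Agent.S5676.rr_mulVec] at h1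
    have hbx2 : QuadraticMap.polar (⇑Q') b x = 0 := by
      show B b x = 0
      rw [hBs]
      exact hbx'
    rw [hbx2, mul_zero, zero_smul, sub_zero] at h1
    have hax2 : QuadraticMap.polar (⇑Q') a x = 1 := hax
    rw [hax2, mul_one] at h1
    have h2 : (Q' a)⁻¹ • a ∈ U₁ := by
      have h3 := U₁.sub_mem hxU₁ h1
      rwa [sub_sub_cancel] at h3
    have h4 : a ∈ U₁ := by
      have h5 := U₁.smul_mem (Q' a) h2
      rwa [smul_smul, mul_inv_cancel₀ hane, one_smul] at h5
    exact hane (hU₁ts a h4)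

end Cfsg.Agent.S5686
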