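import Mathlib
import Cfsg.Statements.S5685
import Cfsg.Agent.S5678
import Cfsg.Agent.S5686
import Cfsg.Agent.Lib.Helper3.SiegelChar2

set_option autoImplicit false
open Cfsg

namespace Cfsg.Agent.S5685

open Matrix
open Cfsg.Agent.Lib.Helper16 (reflG refl_mulVec reflG_coe isomG_map isomG_polar isomG_mul_coe
  isomG_inv_mulVec isomG_inv_mulVec' isomG_ext_mulVec isomG_one_coe)
open Cfsg.Agent.Lib.Helper3 (eichF eich_add refl_pair_eich quad_pair_eq siegel_eq_eich siegelSet
  siegelSub omega_le_siegelSub omega_le_siegelSub_char2 exists_perp_ns_small refl_pair_mem_omega)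

section gen

variable {ι : Type} [Fintype ι] [DecidableEq ι] {F : Type*} [Field F] [Fintype F]
  (Q : QuadraticForm F (ι → F)) (hQ : (QuadraticMap.polarBilin Q).Nondegenerate)

local notation "Bp" => QuadraticMap.polar (DFunLike.coe Q)

/-- the subgroup `M` contains the Eichler map with centre `u` and parameter `a` -/
def Has (M : Subgroup ↥(Cfsg.isometryGroup F (⇑Q))) (u a : ι → F) : Prop :=
  ∃ g ∈ M, ∀ x, ((g : Matrix.GeneralLinearGroup ι F) : Matrix ι ι F) *ᵥ x = eichF Q u a x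

/-- the singular vectors all of whose Eichler maps lie in `M` -/
def Sc (M : Subgroup ↥(Cfsg.isometryGroup F (⇑Q))) : Set (ι → F) :=
  {u | Q u = 0 ∧ ∀ (l : F) (a : ι → F), Q a ≠ 0 → Bp a u = 0 → Has Q M (l • u) a}

include hQ in
/-- Eichler maps with nonsingular parameter are in the commutator subgroup -/
theorem eich_exists (hex : Fintype.card F ≠ 2 ∨ Fintype.card ι ≠ 4) (u a : ι → F)
    (hu : Q u = 0) (ha : Q a ≠ 0) (hau : Bp a u = 0) :
    ∃ g ∈ Cfsg.Omega F (⇑Q), ∀ x,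
      ((g : Matrix.GeneralLinearGroup ι F) : Matrix ι ι F) *ᵥ x = eichF Q u a x := by
  have hq := quad_pair_eq Q u a hu hau
  have ha' : Q (a + Q a • u) ≠ 0 := by rw [hq]; exact ha
  refine ⟨reflG Q a ha * reflG Q (a + Q a • u) ha',
    refl_pair_mem_omega Q hQ hex ha ha' (by rw [hq]; exact ⟨Q a, rfl⟩), fun x => ?_⟩
  rw [isomG_mul_coe, reflG_coe, reflG_coe, ← Matrix.mulVec_mulVec]
  exact refl_pair_eich Q u a hu ha hau x

omit [Fintype F] in
theorem eich_equiv (g : ↥(Cfsg.isometryGroup F (⇑Q))) (u w y : ι → F) :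
    ((g : Matrix.GeneralLinearGroup ι F) : Matrix ι ι F) *ᵥ (eichF Q u w y)
      = eichF Q (((g : Matrix.GeneralLinearGroup ι F) : Matrix ι ι F) *ᵥ u)
          (((g : Matrix.GeneralLinearGroup ι F) : Matrix ι ι F) *ᵥ w)
          (((g : Matrix.GeneralLinearGroup ι F) : Matrix ι ι F) *ᵥ y) := by
  unfold eichF
  rw [isomG_polar, isomG_polar, isomG_map, Matrix.mulVec_sub, Matrix.mulVec_sub,
    Matrix.mulVec_add, Matrix.mulVec_smul, Matrix.mulVec_smul, Matrix.mulVec_smul]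

omit [Fintype F] in
theorem zero_mem_Sc (M : Subgroup ↥(Cfsg.isometryGroup F (⇑Q))) : (0 : ι → F) ∈ Sc Q M := by
  refine ⟨map_zero _, fun l a _ _ => ⟨1, M.one_mem, fun x => ?_⟩⟩
  rw [isomG_one_coe, Matrix.one_mulVec]
  unfold eichF
  simp

omit [Fintype F] in
/-- `Sc M` is stable under `M` -/
theorem Sc_stable (M : Subgroup ↥(Cfsg.isometryGroup F (⇑Q)))
    (g : ↥(Cfsg.isometryGroup F (⇑Q))) (hg : g ∈ M) {u : ι → F} (hu : u ∈ Sc Q M) :
    ((g : Matrix.GeneralLinearGroup ι F) : Matrix ι ι F) *ᵥ u ∈ Sc Q M := by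
  refine ⟨by rw [isomG_map]; exact hu.1, fun l a ha hau => ?_⟩
  set a₀ : ι → F := (((g⁻¹ : ↥(Cfsg.isometryGroup F (⇑Q))) : Matrix.GeneralLinearGroup ι F) :
    Matrix ι ι F) *ᵥ a with ha₀
  have hga₀ : ((g : Matrix.GeneralLinearGroup ι F) : Matrix ι ι F) *ᵥ a₀ = a :=
    isomG_inv_mulVec Q g a
  have hQa₀ : Q a₀ ≠ 0 := by
    rw [← isomG_map Q g a₀, hga₀]
    exact ha
  have ha₀u : Bp a₀ u = 0 := by
    rw [← isomG_polar Q g a₀ u, hga₀]
    exact hau
  obtain ⟨h, hh, hhx⟩ := hu.2 l a₀ hQa₀ ha₀u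
  refine ⟨g * h * g⁻¹, M.mul_mem (M.mul_mem hg hh) (M.inv_mem hg), fun x => ?_⟩
  rw [isomG_mul_coe, isomG_mul_coe, ← Matrix.mulVec_mulVec, ← Matrix.mulVec_mulVec, hhx,
    eich_equiv, Matrix.mulVec_smul, hga₀, isomG_inv_mulVec]

omit [Fintype F] in
theorem Sc_smul (M : Subgroup ↥(Cfsg.isometryGroup F (⇑Q))) {u : ι → F} (hu : u ∈ Sc Q M)
    (m : F) : m • u ∈ Sc Q M := by
  by_cases hm : m = 0
  · rw [hm, zero_smul]
    exact zero_mem_Sc Q M
  · refine ⟨by rw [QuadraticMap.map_smul, hu.1, smul_zero], fun l a ha hau => ?_⟩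
    rw [smul_smul]
    apply hu.2 (l * m) a ha
    rw [QuadraticMap.polar_smul_right] at hau
    exact (smul_eq_zero.mp hau).resolve_left hm

omit [Fintype F] in
/-- the Eichler map at `u` moving `x` to `x'` -/
theorem move (M : Subgroup ↥(Cfsg.isometryGroup F (⇑Q))) {u x x' : ι → F} (hu : u ∈ Sc Q M)
    (hx : Q x = 0) (hx' : Q x' = 0) (hβ : Bp u x ≠ 0) (hβ' : Bp u x' = Bp u x)
    (hxx' : Bp x x' ≠ 0) :
    ∃ g ∈ M, ((g : Matrix.GeneralLinearGroup ι F) : Matrix ι ι F) *ᵥ x = x' := by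
  obtain ⟨β, hβdef⟩ : ∃ β : F, β = Bp u x := ⟨_, rfl⟩
  rw [← hβdef] at hβ hβ'
  obtain ⟨a, hadef⟩ : ∃ a : ι → F, a = β⁻¹ • (x' - x) := ⟨_, rfl⟩
  have hxx : Bp x x = 0 := by rw [QuadraticMap.polar_self, hx, smul_zero]
  have hQa : Q a = - (β⁻¹ * β⁻¹ * Bp x x') := by
    rw [hadef, QuadraticMap.map_smul, sub_eq_add_neg, QuadraticMap.map_add (⇑Q),
      QuadraticMap.map_neg, hx, hx', QuadraticMap.polar_neg_right,
      QuadraticMap.polar_comm (⇑Q) x' x]
    simp
  have hQa0 : Q a ≠ 0 := by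
    rw [hQa]
    exact neg_ne_zero.mpr (mul_ne_zero (mul_ne_zero (inv_ne_zero hβ) (inv_ne_zero hβ)) hxx')
  have hau : Bp a u = 0 := by
    rw [hadef, QuadraticMap.polar_smul_left, QuadraticMap.polar_sub_left,
      QuadraticMap.polar_comm (⇑Q) x' u, QuadraticMap.polar_comm (⇑Q) x u, hβ', ← hβdef,
      sub_self, smul_zero]
  have hax : Bp a x = β⁻¹ * Bp x x' := by
    rw [hadef, QuadraticMap.polar_smul_left, QuadraticMap.polar_sub_left, hxx, sub_zero,
      QuadraticMap.polar_comm (⇑Q) x' x, smul_eq_mul]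
  obtain ⟨g, hg, hgx⟩ := hu.2 1 a hQa0 hau
  rw [one_smul] at hgx
  refine ⟨g, hg, ?_⟩
  rw [hgx]
  unfold eichF
  rw [← hβdef]
  have h1 : β • a = x' - x := by rw [hadef, smul_smul, mul_inv_cancel₀ hβ, one_smul]
  have hc : Bp a x + Q a * β = 0 := by
    rw [hax, hQa]
    field_simp
    ring
  calc x + β • a - Bp a x • u - (Q a * β) • u = x + β • a - (Bp a x + Q a * β) • u := by module
    _ = x' := by
      rw [hc, zero_smul, h1]
      abel

omit [Fintype F] in
include hQ in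
/-- propagation: from two non-orthogonal members to every singular vector not orthogonal to the
first -/
theorem Sc_prop (hcard : 4 < Fintype.card ι) (M : Subgroup ↥(Cfsg.isometryGroup F (⇑Q)))
    {u x x' : ι → F} (hu : u ∈ Sc Q M) (hx : x ∈ Sc Q M) (hβ : Bp u x ≠ 0) (hx' : Q x' = 0)
    (hβ' : Bp u x' ≠ 0) : x' ∈ Sc Q M := by
  obtain ⟨β, hβdef⟩ : ∃ β : F, β = Bp u x := ⟨_, rfl⟩
  rw [← hβdef] at hβ
  obtain ⟨x₁, hx₁⟩ : ∃ x₁ : ι → F, x₁ = (β / Bp u x') • x' := ⟨_, rfl⟩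
  have hQx₁ : Q x₁ = 0 := by rw [hx₁, QuadraticMap.map_smul, hx', smul_zero]
  have hux₁ : Bp u x₁ = β := by
    rw [hx₁, QuadraticMap.polar_smul_right, smul_eq_mul, div_mul_cancel₀ _ hβ']
  suffices h : x₁ ∈ Sc Q M by
    have e : x' = (Bp u x' / β) • x₁ := by
      rw [hx₁, smul_smul]
      have h1 : Bp u x' / β * (β / Bp u x') = 1 := by
        field_simp
      rw [h1, one_smul]
    rw [e]
    exact Sc_smul Q M h _
  by_cases hxx : Bp x x₁ ≠ 0
  · obtain ⟨g, hg, hgx⟩ := move Q M hu hx.1 hQx₁ (by rw [← hβdef]; exact hβ)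
      (by rw [hux₁, hβdef]) hxx
    rw [← hgx]
    exact Sc_stable Q M g hg hx
  · push Not at hxx
    obtain ⟨w, hw, hwv⟩ := Cfsg.Agent.S5676.gns Q hQ ![u, x₁ - x] (by omega)
    have hwu : Bp u w = 0 := hwv 0
    have hwd : Bp (x₁ - x) w = 0 := hwv 1
    have hwu' : Bp w u = 0 := by rw [QuadraticMap.polar_comm]; exact hwu
    obtain ⟨h, hh, hhx⟩ := hu.2 1 w hw hwu'
    rw [one_smul] at hhx
    obtain ⟨x₂, hx₂⟩ : ∃ x₂ : ι → F,
        x₂ = ((h : Matrix.GeneralLinearGroup ι F) : Matrix ι ι F) *ᵥ x := ⟨_, rfl⟩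
    have hx₂S : x₂ ∈ Sc Q M := by
      rw [hx₂]
      exact Sc_stable Q M h hh hx
    have hx₂e : x₂ = x + β • w - Bp w x • u - (Q w * β) • u := by
      rw [hx₂, hhx, hβdef]
      rfl
    have huu : Bp u u = 0 := by rw [QuadraticMap.polar_self, hu.1, smul_zero]
    have hux₂ : Bp u x₂ = β := by
      rw [hx₂e]
      simp only [QuadraticMap.polar_add_right, QuadraticMap.polar_sub_right,
        QuadraticMap.polar_smul_right, hwu, huu, smul_eq_mul, mul_zero, sub_zero, add_zero]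
      exact hβdef.symm
    have hwx₁ : Bp w x₁ = Bp w x := by
      have h1 : Bp w (x₁ - x) = 0 := by rw [QuadraticMap.polar_comm]; exact hwd
      rw [QuadraticMap.polar_sub_right] at h1
      exact sub_eq_zero.mp h1
    have hx₂x₁ : Bp x₂ x₁ ≠ 0 := by
      have h1 : Bp x₂ x₁ = - (Q w * β * β) := by
        rw [hx₂e]
        simp only [QuadraticMap.polar_add_left, QuadraticMap.polar_sub_left,
          QuadraticMap.polar_smul_left, smul_eq_mul, hxx, hux₁, hwx₁]
        ring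
      rw [h1]
      exact neg_ne_zero.mpr (mul_ne_zero (mul_ne_zero hw hβ) hβ)
    obtain ⟨g, hg, hgx⟩ := move Q M hu hx₂S.1 hQx₁ (by rw [hux₂]; exact hβ)
      (by rw [hux₁, hux₂]) hx₂x₁
    rw [← hgx]
    exact Sc_stable Q M g hg hx₂S

omit [Fintype ι] [DecidableEq ι] [Fintype F] in
include hQ in
theorem sing_partner {u : ι → F} (hu : Q u = 0) (hu0 : u ≠ 0) :
    ∃ p, Q p = 0 ∧ Bp u p = 1 := by
  obtain ⟨y₀, hy₀⟩ : ∃ y₀, Bp u y₀ ≠ 0 := by
    by_contra hcon
    push Not at hcon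
    exact hu0 (hQ.1 u hcon)
  obtain ⟨y, hy⟩ : ∃ y : ι → F, y = (Bp u y₀)⁻¹ • y₀ := ⟨_, rfl⟩
  have huy : Bp u y = 1 := by
    rw [hy, QuadraticMap.polar_smul_right, smul_eq_mul, inv_mul_cancel₀ hy₀]
  have huu : Bp u u = 0 := by rw [QuadraticMap.polar_self, hu, smul_zero]
  refine ⟨y - Q y • u, ?_, ?_⟩
  · rw [sub_eq_add_neg, ← neg_smul, QuadraticMap.map_add (⇑Q), QuadraticMap.map_smul, hu,
      QuadraticMap.polar_smul_right, QuadraticMap.polar_comm (⇑Q) y u, huy]
    simp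
  · rw [QuadraticMap.polar_sub_right, QuadraticMap.polar_smul_right, huu, huy]
    simp

include hQ in
/-- two non-orthogonal members force every singular vector into `Sc M` -/
theorem Sc_all (hcard : 4 < Fintype.card ι) (M : Subgroup ↥(Cfsg.isometryGroup F (⇑Q)))
    {u x : ι → F} (hu : u ∈ Sc Q M) (hx : x ∈ Sc Q M) (hβ : Bp u x ≠ 0) (z : ι → F)
    (hz : Q z = 0) : z ∈ Sc Q M := by
  by_cases hz0 : z = 0
  · rw [hz0]
    exact zero_mem_Sc Q M
  by_cases huz : Bp u z ≠ 0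
  · exact Sc_prop Q hQ hcard M hu hx hβ hz huz
  push Not at huz
  have hu0 : u ≠ 0 := by
    rintro rfl
    exact hβ (QuadraticMap.polar_zero_left _ _)
  obtain ⟨p, hp, hup⟩ := sing_partner Q hQ hu.1 hu0
  obtain ⟨p', hp', hzp'⟩ := sing_partner Q hQ hz hz0
  have huu : Bp u u = 0 := by rw [QuadraticMap.polar_self, hu.1, smul_zero]
  obtain ⟨x', hx', hux', hzx'⟩ : ∃ x', Q x' = 0 ∧ Bp u x' ≠ 0 ∧ Bp z x' ≠ 0 := by
    by_cases h1 : Bp z p ≠ 0
    · exact ⟨p, hp, by rw [hup]; exact one_ne_zero, h1⟩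
    by_cases h2 : Bp u p' ≠ 0
    · exact ⟨p', hp', h2, by rw [hzp']; exact one_ne_zero⟩
    push Not at h1 h2
    refine ⟨p + p' - Bp p p' • u, ?_, ?_, ?_⟩
    · rw [sub_eq_add_neg, ← neg_smul, QuadraticMap.map_add (⇑Q), QuadraticMap.map_add (⇑Q),
        QuadraticMap.map_smul, hp, hp', hu.1, QuadraticMap.polar_smul_right,
        QuadraticMap.polar_add_left, QuadraticMap.polar_comm (⇑Q) p u,
        QuadraticMap.polar_comm (⇑Q) p' u, hup, h2]
      simp
    · rw [QuadraticMap.polar_sub_right, QuadraticMap.polar_add_right,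
        QuadraticMap.polar_smul_right, hup, h2, huu]
      simp
    · rw [QuadraticMap.polar_sub_right, QuadraticMap.polar_add_right,
        QuadraticMap.polar_smul_right, h1, hzp', QuadraticMap.polar_comm (⇑Q) z u, huz]
      simp
  have hx'S := Sc_prop Q hQ hcard M hu hx hβ hx' hux'
  exact Sc_prop Q hQ hcard M hx'S hu (by rw [QuadraticMap.polar_comm]; exact hux') hz
    (by rw [QuadraticMap.polar_comm]; exact hzx')

include hQ in
/-- if every singular vector is in `Sc M` then `M` contains the commutator subgroup -/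
theorem omega_le_of_Sc (h7 : 7 ≤ Fintype.card ι) (M : Subgroup ↥(Cfsg.isometryGroup F (⇑Q)))
    (hall : ∀ z, Q z = 0 → z ∈ Sc Q M) : Cfsg.Omega F (⇑Q) ≤ M := by
  have h1 : Cfsg.Omega F (⇑Q) ≤ siegelSub Q := by
    by_cases h2 : (2 : F) = 0
    · exact omega_le_siegelSub_char2 Q h2 hQ h7
    · exact omega_le_siegelSub Q h2 hQ (by omega)
  refine h1.trans ?_
  unfold siegelSub
  rw [Subgroup.closure_le]
  rintro g ⟨u, v, c, hu, hv, huv, hg⟩
  rw [SetLike.mem_coe]
  obtain ⟨a, ha, hav⟩ := Cfsg.Agent.S5676.gns Q hQ ![u, v] (by omega)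
  have hua : Bp u a = 0 := hav 0
  have hva : Bp v a = 0 := hav 1
  obtain ⟨a', ha'⟩ : ∃ a' : ι → F, a' = c • v - a := ⟨_, rfl⟩
  have hQa' : Q a' ≠ 0 := by
    have h3 : Q a' = Q a := by
      rw [ha', sub_eq_add_neg, QuadraticMap.map_add (⇑Q), QuadraticMap.map_smul, hv,
        QuadraticMap.map_neg, QuadraticMap.polar_smul_left, QuadraticMap.polar_neg_right, hva]
      simp
    rw [h3]
    exact ha
  have hua' : Bp u a' = 0 := by
    rw [ha', QuadraticMap.polar_sub_right, QuadraticMap.polar_smul_right, huv, hua]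
    simp
  obtain ⟨g₁, hg₁, hg₁x⟩ := (hall u hu).2 1 a ha (by rw [QuadraticMap.polar_comm]; exact hua)
  obtain ⟨g₂, hg₂, hg₂x⟩ := (hall u hu).2 1 a' hQa'
    (by rw [QuadraticMap.polar_comm]; exact hua')
  rw [one_smul] at hg₁x hg₂x
  have e : g = g₁ * g₂ := by
    apply isomG_ext_mulVec Q
    intro x
    rw [hg, isomG_mul_coe, ← Matrix.mulVec_mulVec, hg₂x, hg₁x, eich_add Q u a a' hu hua hua',
      siegel_eq_eich Q u v c hv]
    congr 1
    rw [ha']
    abel
  rw [e]
  exact M.mul_mem hg₁ hg₂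

omit [DecidableEq ι] [Fintype F] in
include hQ in
/-- a totally singular subspace has dimension at most half -/
theorem ts_dim_le (U : Submodule F (ι → F)) (hU : ∀ x ∈ U, Q x = 0) :
    2 * Module.finrank F U ≤ Fintype.card ι := by
  have hle : U ≤ LinearMap.BilinForm.orthogonal (QuadraticMap.polarBilin Q) U := by
    intro x hx y hy
    exact Cfsg.Agent.S5698.ts_polar Q U hU hy hx
  have h1 := Submodule.finrank_mono hle
  have h2 := LinearMap.BilinForm.finrank_orthogonal hQ U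
  rw [Module.finrank_fintype_fun_eq_card] at h2
  have h3 := Submodule.finrank_le U
  rw [Module.finrank_fintype_fun_eq_card] at h3
  omega

omit [DecidableEq ι] [Fintype F] in
/-- adjoining a singular vector orthogonal to a totally singular subspace -/
theorem ts_extend (W : Submodule F (ι → F)) (hW : ∀ x ∈ W, Q x = 0) {x : ι → F} (hx : Q x = 0)
    (hxW : ∀ w ∈ W, Bp w x = 0) (hxn : x ∉ W) :
    (∀ z ∈ W ⊔ Submodule.span F {x}, Q z = 0) ∧
      Module.finrank F ↥(W ⊔ Submodule.span F {x}) = Module.finrank F W + 1 := by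
  have hx0 : x ≠ 0 := fun h => hxn (h ▸ W.zero_mem)
  constructor
  · intro z hz
    obtain ⟨w, hw, y, hy, rfl⟩ := Submodule.mem_sup.mp hz
    obtain ⟨c, rfl⟩ := Submodule.mem_span_singleton.mp hy
    rw [QuadraticMap.map_add (⇑Q), hW w hw, QuadraticMap.map_smul, hx,
      QuadraticMap.polar_smul_right, hxW w hw]
    simp
  · have h := Submodule.finrank_sup_add_finrank_inf_eq W (Submodule.span F {x})
    have hdisj : W ⊓ Submodule.span F {x} = ⊥ := by
      rw [eq_bot_iff]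
      rintro z ⟨hzW, hzx⟩
      obtain ⟨c, rfl⟩ := Submodule.mem_span_singleton.mp hzx
      by_cases hc : c = 0
      · rw [hc, zero_smul]
        exact Submodule.zero_mem _
      · exfalso
        apply hxn
        have h1 := W.smul_mem c⁻¹ hzW
        rwa [smul_smul, inv_mul_cancel₀ hc, one_smul] at h1
    rw [hdisj, finrank_bot, add_zero, finrank_span_singleton hx0] at h
    exact h

include hQ in
/-- the stabiliser of a non-zero totally singular subspace `W` is maximal in the commutator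
subgroup, as soon as either `dim W + 1` is less than half the dimension or `W` is a maximal
totally singular subspace -/
theorem parab_max (h7 : 7 ≤ Fintype.card ι) (W : Submodule F (ι → F)) (hW0 : W ≠ ⊥)
    (hW : ∀ x ∈ W, Q x = 0)
    (hcase : 2 * (Module.finrank F W + 1) < Fintype.card ι ∨
      ∀ x, Q x = 0 → (∀ w ∈ W, Bp w x = 0) → x ∈ W) :
    Geo.IsMaximalIn (Geo.omegaGL (⇑Q)) (Geo.subspaceStabilizer W ⊓ Geo.omegaGL (⇑Q)) := by
  classical
  have hex : Fintype.card F ≠ 2 ∨ Fintype.card ι ≠ 4 := Or.inr (by omega)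
  have hBW : ∀ a ∈ W, ∀ b ∈ W, Bp a b = 0 :=
    fun a ha b hb => Cfsg.Agent.S5698.ts_polar Q W hW ha hb
  have hfix : ∀ g : ↥(Cfsg.isometryGroup F (⇑Q)), g ∈ Cfsg.Omega F (⇑Q) →
      (∀ w ∈ W, ((g : Matrix.GeneralLinearGroup ι F) : Matrix ι ι F) *ᵥ w ∈ W) →
      (g : Matrix.GeneralLinearGroup ι F) ∈ Geo.subspaceStabilizer W ⊓ Geo.omegaGL (⇑Q) :=
    fun g hg h => ⟨Cfsg.Agent.S5678.stab_of_maps _ _ h, Subgroup.mem_map.mpr ⟨g, hg, rfl⟩⟩
  refine ⟨lt_of_le_of_ne inf_le_right ?_, ?_⟩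
  · intro heq
    obtain ⟨x₁, hx₁W, hx₁0⟩ := (Submodule.ne_bot_iff W).mp hW0
    obtain ⟨p, hp, hx₁p⟩ := sing_partner Q hQ (hW x₁ hx₁W) hx₁0
    obtain ⟨b, hb, hbv⟩ := Cfsg.Agent.S5676.gns Q hQ ![x₁] (by omega)
    have hx₁b : Bp x₁ b = 0 := hbv 0
    obtain ⟨a, hadef⟩ : ∃ a : ι → F, a = p + Q b • x₁ := ⟨_, rfl⟩
    have hQa : Q a = Q b := by
      rw [hadef, QuadraticMap.map_add (⇑Q), QuadraticMap.map_smul, hp, hW x₁ hx₁W,
        QuadraticMap.polar_smul_right, QuadraticMap.polar_comm (⇑Q) p x₁, hx₁p]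
      simp
    have ha : Q a ≠ 0 := by rw [hQa]; exact hb
    have hin : Cfsg.Agent.S5676.rr Q a b ha hb ∈ Geo.omegaGL (⇑Q) :=
      Cfsg.Agent.S5676.rr_mem Q hQ hex ha hb (by rw [hQa]; exact ⟨Q b, rfl⟩)
    rw [← heq] at hin
    have h1 : ((Cfsg.Agent.S5676.rr Q a b ha hb : Matrix.GeneralLinearGroup ι F) :
        Matrix ι ι F) *ᵥ x₁ ∈ W := (hin.1 x₁).mp hx₁W
    have hxx : Bp x₁ x₁ = 0 := hBW x₁ hx₁W x₁ hx₁W
    have hax : Bp a x₁ = 1 := by
      rw [hadef, QuadraticMap.polar_add_left, QuadraticMap.polar_smul_left, hxx,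
        QuadraticMap.polar_comm (⇑Q) p x₁, hx₁p]
      simp
    rw [Cfsg.Agent.S5676.rr_mulVec, QuadraticMap.polar_comm (⇑Q) b x₁, hx₁b] at h1
    simp only [mul_zero, zero_smul, sub_zero, hax, mul_one] at h1
    have h2 : (Q a)⁻¹ • a ∈ W := by
      have h3 := W.sub_mem hx₁W h1
      rwa [sub_sub_cancel] at h3
    have h4 : a ∈ W := by
      have h3 := W.smul_mem (Q a) h2
      rwa [smul_smul, mul_inv_cancel₀ ha, one_smul] at h3
    exact ha (hW a h4)
  · intro M hHM hMΩ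
    by_cases hMH : M = Geo.subspaceStabilizer W ⊓ Geo.omegaGL (⇑Q)
    · exact Or.inl hMH
    right
    apply le_antisymm hMΩ
    obtain ⟨M', hM'def⟩ : ∃ M' : Subgroup ↥(Cfsg.isometryGroup F (⇑Q)),
        M' = M.comap (Cfsg.isometryGroup F (⇑Q)).subtype := ⟨_, rfl⟩
    have hM' : ∀ g : ↥(Cfsg.isometryGroup F (⇑Q)),
        g ∈ M' ↔ (g : Matrix.GeneralLinearGroup ι F) ∈ M := fun g => by
      rw [hM'def]
      rfl
    have hWS : ∀ u ∈ W, u ∈ Sc Q M' := by
      intro u hu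
      refine ⟨hW u hu, fun l a ha hau => ?_⟩
      have hlu : Q (l • u) = 0 := by rw [QuadraticMap.map_smul, hW u hu, smul_zero]
      have hau' : Bp a (l • u) = 0 := by rw [QuadraticMap.polar_smul_right, hau, smul_zero]
      obtain ⟨g, hg, hgx⟩ := eich_exists Q hQ hex (l • u) a hlu ha hau'
      refine ⟨g, (hM' g).mpr (hHM (hfix g hg (fun w hw => ?_))), hgx⟩
      rw [hgx]
      unfold eichF
      rw [hBW (l • u) (W.smul_mem l hu) w hw]
      simp only [zero_smul, mul_zero, add_zero, sub_zero]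
      exact W.sub_mem hw (W.smul_mem _ (W.smul_mem l hu))
    obtain ⟨g₀, hg₀M, hg₀H⟩ : ∃ g₀ ∈ M, g₀ ∉ Geo.subspaceStabilizer W ⊓ Geo.omegaGL (⇑Q) := by
      by_contra hcon
      push Not at hcon
      exact hMH (le_antisymm hcon hHM)
    obtain ⟨g, hgΩ, rfl⟩ := Subgroup.mem_map.mp (hMΩ hg₀M)
    have hgM' : g ∈ M' := (hM' g).mpr hg₀M
    obtain ⟨w₁, hw₁, hgw₁⟩ : ∃ w₁ ∈ W,
        ((g : Matrix.GeneralLinearGroup ι F) : Matrix ι ι F) *ᵥ w₁ ∉ W := by
      by_contra hcon
      push Not at hcon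
      exact hg₀H (hfix g hgΩ hcon)
    obtain ⟨x, hxdef⟩ : ∃ x : ι → F,
        x = ((g : Matrix.GeneralLinearGroup ι F) : Matrix ι ι F) *ᵥ w₁ := ⟨_, rfl⟩
    rw [← hxdef] at hgw₁
    have hxS : x ∈ Sc Q M' := by
      rw [hxdef]
      exact Sc_stable Q M' g hgM' (hWS w₁ hw₁)
    have hxx : Bp x x = 0 := by rw [QuadraticMap.polar_self, hxS.1, smul_zero]
    have hall : ∀ z, Q z = 0 → z ∈ Sc Q M' := by
      by_cases hA : ∃ w ∈ W, Bp w x ≠ 0
      · obtain ⟨w, hw, hwx⟩ := hA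
        exact fun z hz => Sc_all Q hQ (by omega) M' (hWS w hw) hxS hwx z hz
      · push Not at hA
        rcases hcase with hlt | hmax
        · obtain ⟨hTts, hTdim⟩ := ts_extend Q W hW hxS.1 hA hgw₁
          obtain ⟨b, hb, hbT⟩ := exists_perp_ns_small Q hQ (W ⊔ Submodule.span F {x})
            (by rw [hTdim]; exact hlt)
          have hbW : ∀ w ∈ W, Bp b w = 0 := fun w hw => by
            rw [QuadraticMap.polar_comm]
            exact hbT w (Submodule.mem_sup_left hw)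
          have hbx : Bp b x = 0 := by
            rw [QuadraticMap.polar_comm]
            exact hbT x (Submodule.mem_sup_right (Submodule.mem_span_singleton_self x))
          have hrefl : (QuadraticMap.polarBilin Q).IsRefl :=
            fun a b h => (QuadraticMap.polar_comm (⇑Q) b a).trans h
          obtain ⟨y₀, hy₀W, hy₀x⟩ : ∃ y₀, (∀ w ∈ W, Bp w y₀ = 0) ∧ Bp y₀ x ≠ 0 := by
            by_contra hcon
            push Not at hcon
            apply hgw₁
            rw [← LinearMap.BilinForm.orthogonal_orthogonal hQ hrefl W,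
              LinearMap.BilinForm.mem_orthogonal_iff]
            intro y hy
            exact hcon y (fun w hw => hy w hw)
          obtain ⟨y, hydef⟩ : ∃ y : ι → F, y = (Bp y₀ x)⁻¹ • y₀ := ⟨_, rfl⟩
          have hyx : Bp y x = 1 := by
            rw [hydef, QuadraticMap.polar_smul_left, smul_eq_mul, inv_mul_cancel₀ hy₀x]
          have hyW : ∀ w ∈ W, Bp y w = 0 := fun w hw => by
            rw [hydef, QuadraticMap.polar_smul_left, QuadraticMap.polar_comm (⇑Q) y₀ w,
              hy₀W w hw, smul_zero]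
          obtain ⟨a, hadef⟩ : ∃ a : ι → F, a = y + (Q b - Q y) • x := ⟨_, rfl⟩
          have hQa : Q a = Q b := by
            rw [hadef, QuadraticMap.map_add (⇑Q), QuadraticMap.map_smul, hxS.1,
              QuadraticMap.polar_smul_right, hyx]
            simp
          have ha : Q a ≠ 0 := by rw [hQa]; exact hb
          have haW : ∀ w ∈ W, Bp a w = 0 := fun w hw => by
            rw [hadef, QuadraticMap.polar_add_left, QuadraticMap.polar_smul_left, hyW w hw,
              QuadraticMap.polar_comm (⇑Q) x w, hA w hw]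
            simp
          have hax : Bp a x = 1 := by
            rw [hadef, QuadraticMap.polar_add_left, QuadraticMap.polar_smul_left, hyx, hxx]
            simp
          obtain ⟨h, hhdef⟩ : ∃ h : ↥(Cfsg.isometryGroup F (⇑Q)),
              h = reflG Q a ha * reflG Q b hb := ⟨_, rfl⟩
          have hhΩ : h ∈ Cfsg.Omega F (⇑Q) := by
            rw [hhdef]
            exact refl_pair_mem_omega Q hQ hex ha hb (by rw [hQa]; exact ⟨Q b, rfl⟩)
          have hhv : ∀ z, ((h : Matrix.GeneralLinearGroup ι F) : Matrix ι ι F) *ᵥ z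
              = (z - ((Q b)⁻¹ * Bp b z) • b)
                - ((Q a)⁻¹ * Bp a (z - ((Q b)⁻¹ * Bp b z) • b)) • a := fun z => by
            rw [hhdef]
            exact Cfsg.Agent.S5676.rr_mulVec Q ha hb z
          have hhW : ∀ w ∈ W, ((h : Matrix.GeneralLinearGroup ι F) : Matrix ι ι F) *ᵥ w = w := by
            intro w hw
            rw [hhv, hbW w hw]
            simp only [mul_zero, zero_smul, sub_zero]
            rw [haW w hw]
            simp
          have hhx : ((h : Matrix.GeneralLinearGroup ι F) : Matrix ι ι F) *ᵥ x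
              = x - (Q a)⁻¹ • a := by
            rw [hhv, hbx]
            simp only [mul_zero, zero_smul, sub_zero]
            rw [hax, mul_one]
          have hhM' : h ∈ M' :=
            (hM' h).mpr (hHM (hfix h hhΩ (fun w hw => by rw [hhW w hw]; exact hw)))
          have hβ : Bp x (((h : Matrix.GeneralLinearGroup ι F) : Matrix ι ι F) *ᵥ x) ≠ 0 := by
            rw [hhx, QuadraticMap.polar_sub_right, QuadraticMap.polar_smul_right, hxx,
              QuadraticMap.polar_comm (⇑Q) x a, hax]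
            simp only [zero_sub, smul_eq_mul, mul_one]
            exact neg_ne_zero.mpr (inv_ne_zero ha)
          exact fun z hz => Sc_all Q hQ (by omega) M' hxS (Sc_stable Q M' h hhM' hxS) hβ z hz
        · exact absurd (hmax x hxS.1 hA) hgw₁
    have hΩ := omega_le_of_Sc Q hQ h7 M' hall
    intro k hk
    obtain ⟨k', hk', rfl⟩ := Subgroup.mem_map.mp hk
    exact (hM' k').mp (hΩ hk')

end gen

/-- Let F be a finite field with q elements, n ≥ 13 even, Q a non-degenerate quadratic form on F^n of plus type (some subspace of dimension n/2 is totally singular), and Ω the commutator subgroup of the isometry group of Q, viewed inside GL_n(F). The elements of Ω stabilising a non-zero subspace W on which Q vanishes, with dim W ≠ n/2 − 1, form a maximal subgroup of Ω. -/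
theorem result {F : Type*} [Field F] [Fintype F] {n : ℕ} (hn : 13 ≤ n) (heven : Even n) (Q : (Fin n → F) → F) (hQ : Cfsg.Geo.IsNondegenerateQuadraticForm Q) (hplus : Cfsg.Geo.IsPlusTypeOn Q ⊤) (W : Submodule F (Fin n → F)) (hW0 : W ≠ ⊥) (hW : Cfsg.Geo.IsTotallySingularQuad Q W) (hdim : 2 * (Module.finrank F W + 1) ≠ n) : Cfsg.Geo.IsMaximalIn (Cfsg.Geo.omegaGL Q) (Cfsg.Geo.subspaceStabilizer W ⊓ Cfsg.Geo.omegaGL Q) := by
  classical
  let Q' := Cfsg.Agent.S5676.toQF Q hQ
  have hQ' := Cfsg.Agent.S5676.toQF_nondeg Q hQ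
  have hW' : ∀ x ∈ W, Q' x = 0 := hW
  refine parab_max Q' hQ' (by rw [Fintype.card_fin]; omega) W hW0 hW' ?_
  rw [Fintype.card_fin]
  rcases lt_or_gt_of_ne hdim with h | h
  · exact Or.inl h
  · right
    intro x hx hxW
    by_contra hxn
    obtain ⟨hTts, hTdim⟩ := ts_extend Q' W hW' hx hxW hxn
    have h1 := ts_dim_le Q' hQ' _ hTts
    rw [Fintype.card_fin, hTdim] at h1
    omega

end Cfsg.Agent.S5685
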