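import Mathlib
import Cfsg.Statements.S5697
import Cfsg.Agent.S5685

set_option autoImplicit false
open Cfsg

namespace Cfsg.Agent.S5697

open Matrix
open Cfsg.Agent.Lib.Helper16 (reflG refl_mulVec reflG_coe isomG_map isomG_polar isomG_mul_coe
  isomG_inv_mulVec isomG_inv_mulVec' isomG_ext_mulVec isomG_one_coe)
open Cfsg.Agent.Lib.Helper3 (eichF eich_add refl_pair_mem_omega)
open Cfsg.Agent.S5685 (Has Sc eich_exists eich_equiv zero_mem_Sc Sc_stable Sc_smul Sc_all
  omega_le_of_Sc)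
open Cfsg.Agent.S5698 (ts_polar pair_ne)

section gen

variable {ι : Type} [Fintype ι] [DecidableEq ι] {F : Type*} [Field F] [Fintype F]
  (Q : QuadraticForm F (ι → F)) (hQ : (QuadraticMap.polarBilin Q).Nondegenerate)

local notation "Bp" => QuadraticMap.polar (DFunLike.coe Q)

omit [Fintype ι] [DecidableEq ι] [Fintype F] in
theorem eich_zero (u x : ι → F) : eichF Q u 0 x = x := by
  unfold eichF
  simp

omit [Fintype ι] [DecidableEq ι] [Fintype F] in
theorem eich_smul (u a : ι → F) (l : F) (x : ι → F) :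
    eichF Q (l • u) a x = eichF Q u (l • a) x := by
  unfold eichF
  rw [QuadraticMap.polar_smul_left, QuadraticMap.polar_smul_left, QuadraticMap.map_smul]
  funext i
  simp only [Pi.add_apply, Pi.sub_apply, Pi.smul_apply, smul_eq_mul]
  ring

omit [Fintype F] in
theorem Has_add (M : Subgroup ↥(Cfsg.isometryGroup F (⇑Q))) {u a b : ι → F} (hu : Q u = 0)
    (hua : Bp u a = 0) (hub : Bp u b = 0) (ha : Has Q M u a) (hb : Has Q M u b) :
    Has Q M u (a + b) := by
  obtain ⟨g₁, hg₁, h₁⟩ := ha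
  obtain ⟨g₂, hg₂, h₂⟩ := hb
  refine ⟨g₁ * g₂, M.mul_mem hg₁ hg₂, fun x => ?_⟩
  rw [isomG_mul_coe, ← Matrix.mulVec_mulVec, h₂, h₁, eich_add Q u a b hu hua hub]

omit [Fintype F] in
theorem Has_neg (M : Subgroup ↥(Cfsg.isometryGroup F (⇑Q))) {u a : ι → F} (hu : Q u = 0)
    (hua : Bp u a = 0) (ha : Has Q M u a) : Has Q M u (-a) := by
  obtain ⟨g, hg, h⟩ := ha
  refine ⟨g⁻¹, M.inv_mem hg, fun x => ?_⟩
  have h1 : ((g : Matrix.GeneralLinearGroup ι F) : Matrix ι ι F) *ᵥ (eichF Q u (-a) x) = x := by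
    rw [h, eich_add Q u a (-a) hu hua (by rw [QuadraticMap.polar_neg_right, hua, neg_zero]),
      add_neg_cancel, eich_zero]
  have h2 := isomG_inv_mulVec' Q g (eichF Q u (-a) x)
  rw [h1] at h2
  exact h2

omit [Fintype F] in
theorem Has_conj (M : Subgroup ↥(Cfsg.isometryGroup F (⇑Q)))
    (g : ↥(Cfsg.isometryGroup F (⇑Q))) (hg : g ∈ M) {u a : ι → F} (h : Has Q M u a) :
    Has Q M (((g : Matrix.GeneralLinearGroup ι F) : Matrix ι ι F) *ᵥ u)
      (((g : Matrix.GeneralLinearGroup ι F) : Matrix ι ι F) *ᵥ a) := by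
  obtain ⟨h, hh, hhx⟩ := h
  refine ⟨g * h * g⁻¹, M.mul_mem (M.mul_mem hg hh) (M.inv_mem hg), fun x => ?_⟩
  rw [isomG_mul_coe, isomG_mul_coe, ← Matrix.mulVec_mulVec, ← Matrix.mulVec_mulVec, hhx,
    eich_equiv, isomG_inv_mulVec]

include hQ in
/-- every Eichler map lies in the commutator subgroup -/
theorem eich_exists' (h5 : 5 ≤ Fintype.card ι) (u a : ι → F) (hu : Q u = 0)
    (hau : Bp a u = 0) :
    ∃ g ∈ Cfsg.Omega F (⇑Q), ∀ x,
      ((g : Matrix.GeneralLinearGroup ι F) : Matrix ι ι F) *ᵥ x = eichF Q u a x := by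
  have hex : Fintype.card F ≠ 2 ∨ Fintype.card ι ≠ 4 := Or.inr (by omega)
  by_cases ha : Q a ≠ 0
  · exact eich_exists Q hQ hex u a hu ha hau
  push Not at ha
  obtain ⟨b, hb, hbv⟩ := Cfsg.Agent.S5676.gns Q hQ ![u, a] (by omega)
  have hub : Bp u b = 0 := hbv 0
  have hab : Bp a b = 0 := hbv 1
  have hQab : Q (a - b) ≠ 0 := by
    have h1 : Q (a - b) = Q b := by
      rw [sub_eq_add_neg, QuadraticMap.map_add (⇑Q), QuadraticMap.map_neg,
        QuadraticMap.polar_neg_right, ha, hab]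
      simp
    rw [h1]
    exact hb
  have hua : Bp u a = 0 := by rw [QuadraticMap.polar_comm]; exact hau
  obtain ⟨g₁, hg₁, h₁⟩ := eich_exists Q hQ hex u b hu hb (by rw [QuadraticMap.polar_comm]; exact hub)
  obtain ⟨g₂, hg₂, h₂⟩ := eich_exists Q hQ hex u (a - b) hu hQab
    (by rw [QuadraticMap.polar_sub_left, hau, QuadraticMap.polar_comm (⇑Q) b u, hub, sub_zero])
  refine ⟨g₁ * g₂, mul_mem hg₁ hg₂, fun x => ?_⟩
  rw [isomG_mul_coe, ← Matrix.mulVec_mulVec, h₂, h₁, eich_add Q u b (a - b) hu hub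
    (by rw [QuadraticMap.polar_sub_right, hua, hub, sub_zero])]
  congr 1
  abel

omit [Fintype ι] [DecidableEq ι] [Fintype F] in
/-- a Siegel map with singular vectors in two totally singular subspaces stabilises both -/
theorem eich_maps (A A' : Submodule F (ι → F)) (hA : ∀ x ∈ A, Q x = 0)
    (hA' : ∀ x ∈ A', Q x = 0) {x y : ι → F} (hx : x ∈ A) (hy : y ∈ A') :
    (∀ z ∈ A, eichF Q x y z ∈ A) ∧ (∀ z ∈ A', eichF Q x y z ∈ A') := by
  constructor
  · intro z hz
    unfold eichF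
    rw [ts_polar Q A hA hx hz]
    simp only [zero_smul, mul_zero, add_zero, sub_zero]
    exact A.sub_mem hz (A.smul_mem _ hx)
  · intro z hz
    unfold eichF
    rw [ts_polar Q A' hA' hy hz, hA' y hy]
    simp only [zero_smul, zero_mul, sub_zero]
    exact A'.add_mem hz (A'.smul_mem _ hy)

omit [Fintype F] in
theorem map_eq_of_maps (g : Matrix.GeneralLinearGroup ι F) (W W' : Submodule F (ι → F))
    (h : ∀ x ∈ W, (g : Matrix ι ι F) *ᵥ x ∈ W')
    (hdim : Module.finrank F W = Module.finrank F W') :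
    W.map (Matrix.toLin' (g : Matrix ι ι F)) = W' := by
  have hinj : Function.Injective (Matrix.toLin' (g : Matrix ι ι F)) := by
    intro x y hxy
    rw [Matrix.toLin'_apply, Matrix.toLin'_apply] at hxy
    exact Cfsg.Agent.S5676.ginj g hxy
  apply Submodule.eq_of_le_of_finrank_eq
  · rintro _ ⟨x, hx, rfl⟩
    rw [Matrix.toLin'_apply]
    exact h x hx
  · rw [← hdim]
    exact (LinearEquiv.finrank_eq (Submodule.equivMapOfInjective _ hinj W)).symm

include hQ in
omit [DecidableEq ι] [Fintype F] in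
/-- the pairing between two complementary totally singular subspaces is perfect -/
theorem pair_fun (X X' : Submodule F (ι → F)) (hsup : X ⊔ X' = ⊤) (hX : ∀ x ∈ X, Q x = 0)
    (S : Submodule F (ι → F)) (hS : S ≤ X) {a : ι → F} (ha : a ∈ X) (haS : a ∉ S) :
    ∃ y ∈ X', (∀ s ∈ S, Bp s y = 0) ∧ Bp a y = 1 := by
  let B := QuadraticMap.polarBilin Q
  have hBs : ∀ x y, B x y = B y x := fun x y => QuadraticMap.polar_comm _ x y
  have hrefl : LinearMap.BilinForm.IsRefl B := fun x y h => by rw [hBs]; exact h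
  obtain ⟨y₀, hy₀S, hy₀a⟩ : ∃ y₀, (∀ s ∈ S, B s y₀ = 0) ∧ B a y₀ ≠ 0 := by
    by_contra hcon
    push Not at hcon
    apply haS
    rw [← LinearMap.BilinForm.orthogonal_orthogonal hQ hrefl S,
      LinearMap.BilinForm.mem_orthogonal_iff]
    intro y hy
    show B y a = 0
    rw [hBs]
    exact hcon y (fun s hs => hy s hs)
  have hy₀ : y₀ ∈ X ⊔ X' := by rw [hsup]; exact Submodule.mem_top
  obtain ⟨x₀, hx₀, y₁, hy₁, rfl⟩ := Submodule.mem_sup.mp hy₀
  have hy₁a : Bp a y₁ ≠ 0 := by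
    intro h
    apply hy₀a
    show Bp a (x₀ + y₁) = 0
    rw [QuadraticMap.polar_add_right, ts_polar Q X hX ha hx₀, h, add_zero]
  refine ⟨(Bp a y₁)⁻¹ • y₁, X'.smul_mem _ hy₁, fun s hs => ?_, ?_⟩
  · have h1 : Bp s (x₀ + y₁) = 0 := hy₀S s hs
    rw [QuadraticMap.polar_add_right, ts_polar Q X hX (hS hs) hx₀, zero_add] at h1
    rw [QuadraticMap.polar_smul_right, h1, smul_zero]
  · rw [QuadraticMap.polar_smul_right, smul_eq_mul, inv_mul_cancel₀ hy₁a]

omit [DecidableEq ι] [Fintype F] in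
theorem exists_not_mem (S X : Submodule F (ι → F))
    (h : Module.finrank F S < Module.finrank F X) : ∃ z ∈ X, z ∉ S := by
  by_contra hcon
  push Not at hcon
  have h1 := Submodule.finrank_mono (fun z hz => hcon z hz : X ≤ S)
  omega

omit [DecidableEq ι] [Fintype F] in
theorem finrank_span_pair (a b : ι → F) : Module.finrank F (Submodule.span F {a, b}) ≤ 2 := by
  classical
  have h := finrank_span_finset_le_card (R := F) ({a, b} : Finset (ι → F))
  have h2 : (({a, b} : Finset (ι → F)) : Set (ι → F)) = {a, b} := by simp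
  rw [h2] at h
  exact h.trans Finset.card_le_two

omit [DecidableEq ι] [Fintype F] in
theorem finrank_span_single (a : ι → F) : Module.finrank F (Submodule.span F {a}) ≤ 1 := by
  classical
  have h := finrank_span_finset_le_card (R := F) ({a} : Finset (ι → F))
  have h2 : (({a} : Finset (ι → F)) : Set (ι → F)) = {a} := by simp
  rw [h2, Finset.card_singleton] at h
  exact h

include hQ in
omit [DecidableEq ι] [Fintype F] in
theorem exists_perp2 (X : Submodule F (ι → F)) (p q p₁ q₁ : ι → F)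
    (hX5 : 5 ≤ Module.finrank F X) :
    ∃ u ∈ X, Bp p u = 0 ∧ Bp q u = 0 ∧ u ∉ Submodule.span F {p₁, q₁} := by
  obtain ⟨K, hKdef⟩ : ∃ K : Submodule F (ι → F), K = LinearMap.BilinForm.orthogonal
      (QuadraticMap.polarBilin Q) (Submodule.span F {p, q}) := ⟨_, rfl⟩
  have hK : Module.finrank F K + 2 ≥ Fintype.card ι := by
    have h1 := LinearMap.BilinForm.finrank_orthogonal hQ (Submodule.span F {p, q})
    rw [Module.finrank_fintype_fun_eq_card] at h1
    have h2 := finrank_span_pair p q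
    rw [hKdef]
    omega
  have h3 := Submodule.finrank_sup_add_finrank_inf_eq X K
  have h4 : Module.finrank F ↥(X ⊔ K) ≤ Fintype.card ι := by
    have h := Submodule.finrank_le (X ⊔ K)
    rwa [Module.finrank_fintype_fun_eq_card] at h
  have h5 := finrank_span_pair p₁ q₁
  obtain ⟨u, hu, hun⟩ := exists_not_mem (Submodule.span F {p₁, q₁}) (X ⊓ K) (by omega)
  refine ⟨u, hu.1, ?_, ?_, hun⟩
  · have h6 := hu.2
    rw [hKdef] at h6
    exact h6 p (Submodule.subset_span (by simp))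
  · have h6 := hu.2
    rw [hKdef] at h6
    exact h6 q (Submodule.subset_span (by simp))

include hQ in
/-- the key step: a Siegel element of `M` whose line has independent `X`-components forces
every vector of `X` into `Sc M` -/
theorem pair_Sc (M : Subgroup ↥(Cfsg.isometryGroup F (⇑Q))) (X X' : Submodule F (ι → F))
    (hsup : X ⊔ X' = ⊤) (hX : ∀ x ∈ X, Q x = 0) (hX' : ∀ x ∈ X', Q x = 0)
    (hX5 : 5 ≤ Module.finrank F X)
    (hH : ∀ x ∈ X, ∀ y ∈ X', Bp x y = 0 → Has Q M x y)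
    {p q p₁ p₂ q₁ q₂ : ι → F} (hq : Q q = 0)
    (hpq' : Has Q M p q)
    (hp₁ : p₁ ∈ X) (hp₂ : p₂ ∈ X') (hpd : p = p₁ + p₂) (hq₁ : q₁ ∈ X) (hq₂ : q₂ ∈ X')
    (hqd : q = q₁ + q₂) (hind : ∀ s t : F, s • p₁ + t • q₁ = 0 → s = 0 ∧ t = 0) :
    ∀ x ∈ X, x ∈ Sc Q M := by
  classical
  have hBX : ∀ a ∈ X, ∀ b ∈ X, Bp a b = 0 := fun a ha b hb => ts_polar Q X hX ha hb
  have hBX' : ∀ a ∈ X', ∀ b ∈ X', Bp a b = 0 := fun a ha b hb => ts_polar Q X' hX' ha hb
  obtain ⟨u, huX, hpu, hqu, hun⟩ := exists_perp2 Q hQ X p q p₁ q₁ hX5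
  have hu0 : u ≠ 0 := fun h => hun (h ▸ Submodule.zero_mem _)
  have hQu : Q u = 0 := hX u huX
  obtain ⟨t, htM, htx⟩ := hpq'
  have htu : ((t : Matrix.GeneralLinearGroup ι F) : Matrix ι ι F) *ᵥ u = u := by
    rw [htx]
    unfold eichF
    rw [hpu, hqu]
    simp
  have hSuX : Submodule.span F {u} ≤ X := by
    rw [Submodule.span_le]
    intro z hz
    rw [Set.mem_singleton_iff] at hz
    rw [hz]
    exact huX
  obtain ⟨y, hyX', huy, hy⟩ : ∃ y ∈ X', Bp u y = 0 ∧ (Bp p₁ y ≠ 0 ∨ Bp q₁ y ≠ 0) := by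
    by_cases h1 : p₁ ∈ Submodule.span F {u}
    · by_cases h2 : q₁ ∈ Submodule.span F {u}
      · exfalso
        obtain ⟨l, hl⟩ := Submodule.mem_span_singleton.mp h1
        obtain ⟨m, hm⟩ := Submodule.mem_span_singleton.mp h2
        have h3 := hind m (-l) (by
          rw [← hl, ← hm, smul_smul, smul_smul, ← add_smul]
          have : m * l + -l * m = 0 := by ring
          rw [this, zero_smul])
        have h4 : l = 0 := neg_eq_zero.mp h3.2
        rw [h4, zero_smul] at hl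
        have h5 := hind 1 0 (by rw [← hl]; simp)
        exact one_ne_zero h5.1
      · obtain ⟨y, hy, hyS, hyq⟩ := pair_fun Q hQ X X' hsup hX _ hSuX hq₁ h2
        exact ⟨y, hy, hyS u (Submodule.mem_span_singleton_self u),
          Or.inr (by rw [hyq]; exact one_ne_zero)⟩
    · obtain ⟨y, hy, hyS, hyp⟩ := pair_fun Q hQ X X' hsup hX _ hSuX hp₁ h1
      exact ⟨y, hy, hyS u (Submodule.mem_span_singleton_self u),
        Or.inl (by rw [hyp]; exact one_ne_zero)⟩
  have h1 := hH u huX y hyX' huy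
  have h2 := Has_conj Q M t htM h1
  rw [htu] at h2
  have hpy : Bp p y = Bp p₁ y := by
    rw [hpd, QuadraticMap.polar_add_left, hBX' p₂ hp₂ y hyX', add_zero]
  have hqy : Bp q y = Bp q₁ y := by
    rw [hqd, QuadraticMap.polar_add_left, hBX' q₂ hq₂ y hyX', add_zero]
  obtain ⟨a₁, ha₁def⟩ : ∃ a₁ : ι → F, a₁ = Bp p₁ y • q₁ - Bp q₁ y • p₁ := ⟨_, rfl⟩
  obtain ⟨a₂, ha₂def⟩ : ∃ a₂ : ι → F, a₂ = y + Bp p₁ y • q₂ - Bp q₁ y • p₂ := ⟨_, rfl⟩
  have hty : ((t : Matrix.GeneralLinearGroup ι F) : Matrix ι ι F) *ᵥ y = a₁ + a₂ := by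
    rw [htx]
    unfold eichF
    rw [hpy, hqy, hq, zero_mul, zero_smul, sub_zero, ha₁def, ha₂def, hpd, hqd]
    module
  rw [hty] at h2
  have ha₁X : a₁ ∈ X := by
    rw [ha₁def]
    exact X.sub_mem (X.smul_mem _ hq₁) (X.smul_mem _ hp₁)
  have ha₂X' : a₂ ∈ X' := by
    rw [ha₂def]
    exact X'.sub_mem (X'.add_mem hyX' (X'.smul_mem _ hq₂)) (X'.smul_mem _ hp₂)
  have hup₂ : Bp u p₂ = 0 := by
    have h3 : Bp u p = 0 := by rw [QuadraticMap.polar_comm]; exact hpu
    rw [hpd, QuadraticMap.polar_add_right, hBX u huX p₁ hp₁, zero_add] at h3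
    exact h3
  have huq₂ : Bp u q₂ = 0 := by
    have h3 : Bp u q = 0 := by rw [QuadraticMap.polar_comm]; exact hqu
    rw [hqd, QuadraticMap.polar_add_right, hBX u huX q₁ hq₁, zero_add] at h3
    exact h3
  have hua₂ : Bp u a₂ = 0 := by
    rw [ha₂def, QuadraticMap.polar_sub_right, QuadraticMap.polar_add_right,
      QuadraticMap.polar_smul_right, QuadraticMap.polar_smul_right, huy, hup₂, huq₂]
    simp
  have hua₁ : Bp u a₁ = 0 := hBX u huX a₁ ha₁X
  have h3 : Has Q M u a₂ := hH u huX a₂ ha₂X' hua₂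
  have h4 : Has Q M u a₁ := by
    have h5 := Has_add Q M hQu
      (by rw [QuadraticMap.polar_add_right, hua₁, hua₂, add_zero] : Bp u (a₁ + a₂) = 0)
      (by rw [QuadraticMap.polar_neg_right, hua₂, neg_zero] : Bp u (-a₂) = 0) h2
      (Has_neg Q M hQu hua₂ h3)
    rwa [add_neg_cancel_right] at h5
  have ha₁0 : a₁ ≠ 0 := by
    intro h
    rw [ha₁def, sub_eq_add_neg, ← neg_smul, add_comm] at h
    obtain ⟨h6, h7⟩ := hind _ _ h
    rcases hy with hy | hy
    · exact hy h7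
    · exact hy (neg_eq_zero.mp h6)
  have ha₁u : a₁ ∉ Submodule.span F {u} := by
    intro h
    obtain ⟨c, hc⟩ := Submodule.mem_span_singleton.mp h
    by_cases hc0 : c = 0
    · rw [hc0, zero_smul] at hc
      exact ha₁0 hc.symm
    · apply hun
      have e : u = c⁻¹ • a₁ := by rw [← hc, smul_smul, inv_mul_cancel₀ hc0, one_smul]
      rw [e, ha₁def]
      exact Submodule.smul_mem _ _ (Submodule.sub_mem _
        (Submodule.smul_mem _ _ (Submodule.subset_span (by simp)))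
        (Submodule.smul_mem _ _ (Submodule.subset_span (by simp))))
  have hD : ∀ x' ∈ X, x' ∉ Submodule.span F {u, a₁} → ∀ c : F, Has Q M u (c • x') := by
    intro x' hx' hx'n c
    have ha₁n : a₁ ∉ Submodule.span F {u, x'} := by
      intro h
      obtain ⟨α, β, hαβ⟩ := Submodule.mem_span_pair.mp h
      by_cases hβ : β = 0
      · apply ha₁u
        rw [hβ, zero_smul, add_zero] at hαβ
        rw [← hαβ]
        exact Submodule.smul_mem _ _ (Submodule.mem_span_singleton_self u)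
      · apply hx'n
        have e : x' = β⁻¹ • (a₁ - α • u) := by
          rw [← hαβ, add_sub_cancel_left, smul_smul, inv_mul_cancel₀ hβ, one_smul]
        rw [e]
        exact Submodule.smul_mem _ _ (Submodule.sub_mem _ (Submodule.subset_span (by simp))
          (Submodule.smul_mem _ _ (Submodule.subset_span (by simp))))
    have hSX : Submodule.span F {u, x'} ≤ X := by
      rw [Submodule.span_le]
      intro z hz
      rcases hz with rfl | rfl
      · exact huX
      · exact hx'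
    obtain ⟨y', hy'X', hy'S, hy'a⟩ := pair_fun Q hQ X X' hsup hX _ hSX ha₁X ha₁n
    have huy' : Bp u y' = 0 := hy'S u (Submodule.subset_span (by simp))
    have hx'y' : Bp x' y' = 0 := hy'S x' (Submodule.subset_span (by simp))
    obtain ⟨h, hhM, hhx⟩ := hH x' hx' (c • y') (X'.smul_mem c hy'X')
      (by rw [QuadraticMap.polar_smul_right, hx'y', smul_zero])
    have hhu : ((h : Matrix.GeneralLinearGroup ι F) : Matrix ι ι F) *ᵥ u = u := by
      rw [hhx]
      unfold eichF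
      rw [hBX x' hx' u huX, QuadraticMap.polar_smul_left, QuadraticMap.polar_comm (⇑Q) y' u, huy']
      simp
    have hha : ((h : Matrix.GeneralLinearGroup ι F) : Matrix ι ι F) *ᵥ a₁ = a₁ - c • x' := by
      rw [hhx]
      unfold eichF
      rw [hBX x' hx' a₁ ha₁X, QuadraticMap.polar_smul_left, QuadraticMap.polar_comm (⇑Q) y' a₁,
        hy'a]
      simp
    have h5 := Has_conj Q M h hhM h4
    rw [hhu, hha] at h5
    have hux' : Bp u (a₁ - c • x') = 0 := by
      rw [QuadraticMap.polar_sub_right, hua₁, QuadraticMap.polar_smul_right, hBX u huX x' hx']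
      simp
    have h6 := Has_add Q M hQu hua₁
      (by rw [QuadraticMap.polar_neg_right, hux', neg_zero] : Bp u (-(a₁ - c • x')) = 0) h4
      (Has_neg Q M hQu hux' h5)
    have e : a₁ + -(a₁ - c • x') = c • x' := by abel
    rwa [e] at h6
  obtain ⟨x₀, hx₀X, hx₀n⟩ := exists_not_mem (Submodule.span F {u, a₁}) X
    (by have := finrank_span_pair u a₁; omega)
  have hall : ∀ x ∈ X, Has Q M u x := by
    intro x hx
    by_cases hxs : x ∈ Submodule.span F {u, a₁}
    · have h5 := hD (x + x₀) (X.add_mem hx hx₀X) (fun h => hx₀n (by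
        have h6 := Submodule.sub_mem _ h hxs
        rwa [add_sub_cancel_left] at h6)) 1
      have h6 := hD x₀ hx₀X hx₀n (-1)
      have h7 := Has_add Q M hQu
        (by rw [QuadraticMap.polar_smul_right, hBX u huX _ (X.add_mem hx hx₀X), smul_zero])
        (by rw [QuadraticMap.polar_smul_right, hBX u huX _ hx₀X, smul_zero]) h5 h6
      have e : (1 : F) • (x + x₀) + (-1 : F) • x₀ = x := by module
      rwa [e] at h7
    · have h5 := hD x hx hxs 1
      rwa [one_smul] at h5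
  have hallV : ∀ a, Bp a u = 0 → Has Q M u a := by
    intro a hau
    have ha : a ∈ X ⊔ X' := by rw [hsup]; exact Submodule.mem_top
    obtain ⟨a', ha', a'', ha'', rfl⟩ := Submodule.mem_sup.mp ha
    have h5 : Bp u a' = 0 := hBX u huX a' ha'
    have h6 : Bp u a'' = 0 := by
      rw [QuadraticMap.polar_comm, QuadraticMap.polar_add_right, h5, zero_add] at hau
      exact hau
    exact Has_add Q M hQu h5 h6 (hall a' ha') (hH u huX a'' ha'' h6)
  have huSc : u ∈ Sc Q M := by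
    refine ⟨hQu, fun l a _ hau => ?_⟩
    obtain ⟨g, hg, hgx⟩ := hallV (l • a) (by rw [QuadraticMap.polar_smul_left, hau, smul_zero])
    exact ⟨g, hg, fun x => by rw [hgx, eich_smul]⟩
  intro x hx
  by_cases hx0 : x = 0
  · rw [hx0]
    exact zero_mem_Sc Q M
  by_cases hxu : x ∈ Submodule.span F {u}
  · obtain ⟨c, hc⟩ := Submodule.mem_span_singleton.mp hxu
    rw [← hc]
    exact Sc_smul Q M huSc c
  have hun' : u ∉ Submodule.span F {x - u} := by
    intro h
    obtain ⟨c, hc⟩ := Submodule.mem_span_singleton.mp h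
    by_cases hc0 : c = 0
    · rw [hc0, zero_smul] at hc
      exact hu0 hc.symm
    · apply hxu
      have h5 : c • x = (1 + c) • u := by
        calc c • x = c • (x - u) + c • u := by rw [smul_sub]; abel
          _ = (1 + c) • u := by rw [hc, add_smul, one_smul]
      have e : x = (c⁻¹ * (1 + c)) • u := by
        rw [mul_smul, ← h5, smul_smul, inv_mul_cancel₀ hc0, one_smul]
      rw [e]
      exact Submodule.smul_mem _ _ (Submodule.mem_span_singleton_self u)
  have hSX : Submodule.span F {x - u} ≤ X := by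
    rw [Submodule.span_le]
    intro z hz
    rw [Set.mem_singleton_iff] at hz
    rw [hz]
    exact X.sub_mem hx huX
  obtain ⟨y', hy'X', hy'S, hy'u⟩ := pair_fun Q hQ X X' hsup hX _ hSX huX hun'
  have hxy' : Bp (x - u) y' = 0 := hy'S _ (Submodule.mem_span_singleton_self _)
  obtain ⟨h, hhM, hhx⟩ := hH (x - u) (X.sub_mem hx huX) ((-1 : F) • y') (X'.smul_mem _ hy'X')
    (by rw [QuadraticMap.polar_smul_right, hxy', smul_zero])
  have hhu : ((h : Matrix.GeneralLinearGroup ι F) : Matrix ι ι F) *ᵥ u = x := by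
    rw [hhx]
    unfold eichF
    rw [hBX (x - u) (X.sub_mem hx huX) u huX, QuadraticMap.polar_smul_left,
      QuadraticMap.polar_comm (⇑Q) y' u, hy'u]
    simp
  rw [← hhu]
  exact Sc_stable Q M h hhM huSc

include hQ in
omit [Fintype F] in
/-- an invertible map sending every line spanned by orthogonal vectors `x ∈ X`, `y ∈ X'` to a
line whose components are dependent maps `X` into `X` or into `X'` -/
theorem maps_or (X X' : Submodule F (ι → F)) (hsup : X ⊔ X' = ⊤) (hX : ∀ x ∈ X, Q x = 0)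
    (hX3 : 3 ≤ Module.finrank F X) (g : Matrix.GeneralLinearGroup ι F)
    (hno : ∀ x ∈ X, ∀ y ∈ X', Bp x y = 0 → ∀ a ∈ X, ∀ b ∈ X', ∀ c ∈ X, ∀ d ∈ X',
      (g : Matrix ι ι F) *ᵥ x = a + b → (g : Matrix ι ι F) *ᵥ y = c + d →
      (∃ s t : F, (s ≠ 0 ∨ t ≠ 0) ∧ s • a + t • c = 0) ∧
      (∃ s t : F, (s ≠ 0 ∨ t ≠ 0) ∧ s • b + t • d = 0)) :
    (∀ x ∈ X, (g : Matrix ι ι F) *ᵥ x ∈ X) ∨ (∀ x ∈ X, (g : Matrix ι ι F) *ᵥ x ∈ X') := by
  classical
  have hBX : ∀ a ∈ X, ∀ b ∈ X, Bp a b = 0 := fun a ha b hb => ts_polar Q X hX ha hb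
  have hdec : ∀ v : ι → F, ∃ a ∈ X, ∃ b ∈ X', a + b = v := by
    intro v
    have hv : v ∈ X ⊔ X' := by rw [hsup]; exact Submodule.mem_top
    exact Submodule.mem_sup.mp hv
  have dep : ∀ (a c : ι → F) (s t : F), a ≠ 0 → (s ≠ 0 ∨ t ≠ 0) → s • a + t • c = 0 →
      ∃ l : F, c = l • a := by
    intro a c s t ha0 hst e
    have ht : t ≠ 0 := by
      intro ht
      rw [ht, zero_smul, add_zero] at e
      rcases hst with h | h
      · exact ha0 ((smul_eq_zero.mp e).resolve_left h)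
      · exact h ht
    refine ⟨-(t⁻¹ * s), ?_⟩
    have h1 : t • c = -(s • a) := eq_neg_of_add_eq_zero_right e
    calc c = t⁻¹ • (t • c) := by rw [smul_smul, inv_mul_cancel₀ ht, one_smul]
      _ = -(t⁻¹ * s) • a := by rw [h1, smul_neg, smul_smul, neg_smul]
  have key : ∀ x ∈ X, (g : Matrix ι ι F) *ᵥ x ∈ X ∨ (g : Matrix ι ι F) *ᵥ x ∈ X' := by
    intro x hx
    obtain ⟨a, ha, b, hb, hab⟩ := hdec ((g : Matrix ι ι F) *ᵥ x)
    by_cases ha0 : a = 0
    · right
      rw [← hab, ha0, zero_add]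
      exact hb
    by_cases hb0 : b = 0
    · left
      rw [← hab, hb0, add_zero]
      exact ha
    exfalso
    obtain ⟨z₁, hz₁X, hz₁n⟩ := exists_not_mem (Submodule.span F {x}) X
      (by have := finrank_span_single x; omega)
    obtain ⟨z₂, hz₂X, hz₂n⟩ := exists_not_mem (Submodule.span F {x, z₁}) X
      (by have := finrank_span_pair x z₁; omega)
    have hz₁n' : z₁ ∉ Submodule.span F {x, z₂} := by
      intro h
      obtain ⟨α, β, hαβ⟩ := Submodule.mem_span_pair.mp h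
      by_cases hβ : β = 0
      · apply hz₁n
        rw [hβ, zero_smul, add_zero] at hαβ
        rw [← hαβ]
        exact Submodule.smul_mem _ _ (Submodule.mem_span_singleton_self x)
      · apply hz₂n
        have e : z₂ = β⁻¹ • (z₁ - α • x) := by
          rw [← hαβ, add_sub_cancel_left, smul_smul, inv_mul_cancel₀ hβ, one_smul]
        rw [e]
        exact Submodule.smul_mem _ _ (Submodule.sub_mem _ (Submodule.subset_span (by simp))
          (Submodule.smul_mem _ _ (Submodule.subset_span (by simp))))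
    have hS1 : Submodule.span F {x, z₂} ≤ X := by
      rw [Submodule.span_le]
      intro z hz
      rcases hz with rfl | rfl
      · exact hx
      · exact hz₂X
    have hS2 : Submodule.span F {x, z₁} ≤ X := by
      rw [Submodule.span_le]
      intro z hz
      rcases hz with rfl | rfl
      · exact hx
      · exact hz₁X
    obtain ⟨y₁, hy₁, hy₁S, hy₁z⟩ := pair_fun Q hQ X X' hsup hX _ hS1 hz₁X hz₁n'
    obtain ⟨y₂, hy₂, hy₂S, hy₂z⟩ := pair_fun Q hQ X X' hsup hX _ hS2 hz₂X hz₂n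
    have hxy₁ : Bp x y₁ = 0 := hy₁S x (Submodule.subset_span (by simp))
    have hz₂y₁ : Bp z₂ y₁ = 0 := hy₁S z₂ (Submodule.subset_span (by simp))
    have hxy₂ : Bp x y₂ = 0 := hy₂S x (Submodule.subset_span (by simp))
    have hz₁y₂ : Bp z₁ y₂ = 0 := hy₂S z₁ (Submodule.subset_span (by simp))
    obtain ⟨c₁, hc₁, d₁, hd₁, hcd₁⟩ := hdec ((g : Matrix ι ι F) *ᵥ y₁)
    obtain ⟨c₂, hc₂, d₂, hd₂, hcd₂⟩ := hdec ((g : Matrix ι ι F) *ᵥ y₂)
    obtain ⟨⟨s₁, t₁, hst₁, e₁⟩, ⟨s₁', t₁', hst₁', e₁'⟩⟩ :=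
      hno x hx y₁ hy₁ hxy₁ a ha b hb c₁ hc₁ d₁ hd₁ hab.symm hcd₁.symm
    obtain ⟨⟨s₂, t₂, hst₂, e₂⟩, ⟨s₂', t₂', hst₂', e₂'⟩⟩ :=
      hno x hx y₂ hy₂ hxy₂ a ha b hb c₂ hc₂ d₂ hd₂ hab.symm hcd₂.symm
    obtain ⟨l₁, hl₁⟩ := dep a c₁ s₁ t₁ ha0 hst₁ e₁
    obtain ⟨m₁, hm₁⟩ := dep b d₁ s₁' t₁' hb0 hst₁' e₁'
    obtain ⟨l₂, hl₂⟩ := dep a c₂ s₂ t₂ ha0 hst₂ e₂
    obtain ⟨m₂, hm₂⟩ := dep b d₂ s₂' t₂' hb0 hst₂' e₂'
    have hrel : (g : Matrix ι ι F) *ᵥ
        ((m₂ * l₁ - m₁ * l₂) • x + (l₂ - m₂) • y₁ + (m₁ - l₁) • y₂) = 0 := by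
      rw [Matrix.mulVec_add, Matrix.mulVec_add, Matrix.mulVec_smul, Matrix.mulVec_smul,
        Matrix.mulVec_smul, ← hab, ← hcd₁, ← hcd₂, hl₁, hm₁, hl₂, hm₂]
      module
    have hzero : (m₂ * l₁ - m₁ * l₂) • x + (l₂ - m₂) • y₁ + (m₁ - l₁) • y₂ = 0 := by
      apply Cfsg.Agent.S5676.ginj g
      rw [hrel, Matrix.mulVec_zero]
    have h1 := congrArg (fun w => Bp z₁ w) hzero
    simp only [QuadraticMap.polar_add_right, QuadraticMap.polar_smul_right, hBX z₁ hz₁X x hx,
      hy₁z, hz₁y₂, QuadraticMap.polar_zero_right, smul_eq_mul, mul_zero, mul_one, zero_add,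
      add_zero] at h1
    have h2 := congrArg (fun w => Bp z₂ w) hzero
    simp only [QuadraticMap.polar_add_right, QuadraticMap.polar_smul_right, hBX z₂ hz₂X x hx,
      hz₂y₁, hy₂z, QuadraticMap.polar_zero_right, smul_eq_mul, mul_zero, mul_one, zero_add,
      add_zero] at h2
    have hml : m₁ = l₁ := sub_eq_zero.mp h2
    have h3 : (g : Matrix ι ι F) *ᵥ y₁ = (g : Matrix ι ι F) *ᵥ (l₁ • x) := by
      rw [Matrix.mulVec_smul, ← hab, ← hcd₁, hl₁, hm₁, hml, smul_add]
    have h4 := Cfsg.Agent.S5676.ginj g h3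
    have h5 : Bp z₁ y₁ = 0 := by
      rw [h4, QuadraticMap.polar_smul_right, hBX z₁ hz₁X x hx, smul_zero]
    rw [hy₁z] at h5
    exact one_ne_zero h5
  by_contra hcon
  push Not at hcon
  obtain ⟨⟨x₁, hx₁, hgx₁⟩, ⟨x₂, hx₂, hgx₂⟩⟩ := hcon
  have h1 : (g : Matrix ι ι F) *ᵥ x₁ ∈ X' := (key x₁ hx₁).resolve_left hgx₁
  have h2 : (g : Matrix ι ι F) *ᵥ x₂ ∈ X := (key x₂ hx₂).resolve_right hgx₂
  rcases key (x₁ + x₂) (X.add_mem hx₁ hx₂) with h | h
  · apply hgx₁
    rw [Matrix.mulVec_add] at h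
    have h3 := X.sub_mem h h2
    rwa [add_sub_cancel_right] at h3
  · apply hgx₂
    rw [Matrix.mulVec_add] at h
    have h3 := X'.sub_mem h h1
    rwa [add_sub_cancel_left] at h3

include hQ in
/-- a product of pairs of reflections in pairwise orthogonal vectors of norm `-1` -/
theorem refl_prod (hex : Fintype.card F ≠ 2 ∨ Fintype.card ι ≠ 4) (k : ℕ) :
    ∀ (c d : Fin k → (ι → F)), (∀ i, Q (c i) = -1) → (∀ i, Q (d i) = -1) →
    (∀ i j, Bp (c i) (d j) = 0) → (∀ i j, i ≠ j → Bp (c i) (c j) = 0) →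
    (∀ i j, i ≠ j → Bp (d i) (d j) = 0) →
    ∃ g ∈ Cfsg.Omega F (⇑Q), ∀ x, ((g : Matrix.GeneralLinearGroup ι F) : Matrix ι ι F) *ᵥ x
      = x + ∑ i, (Bp (c i) x • c i + Bp (d i) x • d i) := by
  induction k with
  | zero =>
    intro c d _ _ _ _ _
    exact ⟨1, one_mem _, fun x => by rw [isomG_one_coe, Matrix.one_mulVec]; simp⟩
  | succ k ih =>
    intro c d hc hd hcd hcc hdd
    obtain ⟨g', hg', hg'x⟩ := ih (fun i => c i.succ) (fun i => d i.succ) (fun i => hc _)
      (fun i => hd _) (fun i j => hcd _ _) (fun i j hij => hcc _ _ (fun h => hij (Fin.succ_inj.mp h)))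
      (fun i j hij => hdd _ _ (fun h => hij (Fin.succ_inj.mp h)))
    have hc0 : Q (c 0) ≠ 0 := by rw [hc]; exact neg_ne_zero.mpr one_ne_zero
    have hd0 : Q (d 0) ≠ 0 := by rw [hd]; exact neg_ne_zero.mpr one_ne_zero
    refine ⟨reflG Q (c 0) hc0 * reflG Q (d 0) hd0 * g',
      mul_mem (refl_pair_mem_omega Q hQ hex hc0 hd0 (by rw [hc, hd]; exact ⟨1, by ring⟩)) hg',
      fun x => ?_⟩
    have key : ∀ w, (∀ i : Fin k, Bp w (c i.succ) = 0) → (∀ i : Fin k, Bp w (d i.succ) = 0) →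
        Bp w (x + ∑ i : Fin k, (Bp (c i.succ) x • c i.succ + Bp (d i.succ) x • d i.succ))
          = Bp w x := by
      intro w h1 h2
      have e : ∀ y, Bp w y = QuadraticMap.polarBilin Q w y := fun y => rfl
      rw [e, map_add, map_sum, Finset.sum_eq_zero, add_zero]
      · rfl
      · intro i _
        rw [map_add, map_smul, map_smul]
        show _ • Bp w (c i.succ) + _ • Bp w (d i.succ) = 0
        rw [h1, h2]
        simp
    rw [isomG_mul_coe, isomG_mul_coe, reflG_coe, reflG_coe, ← Matrix.mulVec_mulVec,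
      ← Matrix.mulVec_mulVec, hg'x, refl_mulVec, refl_mulVec, hc, hd]
    have hd0z := key (d 0) (fun i => by rw [QuadraticMap.polar_comm]; exact hcd _ _)
      (fun i => hdd _ _ (Fin.succ_ne_zero i).symm)
    rw [hd0z]
    have hc0z : Bp (c 0) (x + ∑ i : Fin k, (Bp (c i.succ) x • c i.succ
        + Bp (d i.succ) x • d i.succ) - ((-1 : F)⁻¹ * Bp (d 0) x) • d 0) = Bp (c 0) x := by
      rw [QuadraticMap.polar_sub_right, QuadraticMap.polar_smul_right, hcd, smul_zero, sub_zero]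
      exact key (c 0) (fun i => hcc _ _ (Fin.succ_ne_zero i).symm) (fun i => hcd _ _)
    rw [hc0z, Fin.sum_univ_succ, inv_neg_one]
    module

include hQ in
/-- an element of the commutator subgroup interchanging two complementary totally singular
subspaces of even dimension -/
theorem swap_exists (hex : Fintype.card F ≠ 2 ∨ Fintype.card ι ≠ 4) (U U' : Submodule F (ι → F))
    (hsup : U ⊔ U' = ⊤) (hU : ∀ x ∈ U, Q x = 0) (hU' : ∀ x ∈ U', Q x = 0) (k : ℕ)
    (hk : Module.finrank F U = k + k) :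
    ∃ g ∈ Cfsg.Omega F (⇑Q),
      (∀ x ∈ U, ((g : Matrix.GeneralLinearGroup ι F) : Matrix ι ι F) *ᵥ x ∈ U') ∧
      (∀ y ∈ U', ((g : Matrix.GeneralLinearGroup ι F) : Matrix ι ι F) *ᵥ y ∈ U) := by
  classical
  have hBU : ∀ a ∈ U, ∀ b ∈ U, Bp a b = 0 := fun a ha b hb => ts_polar Q U hU ha hb
  let b₀ : Module.Basis (Fin (k + k)) F U := Module.finBasisOfFinrankEq F U hk
  let b : Module.Basis (Fin k ⊕ Fin k) F U := b₀.reindex finSumFinEquiv.symm
  obtain ⟨v, hvdef⟩ : ∃ v : Fin k ⊕ Fin k → (ι → F), v = fun i => (b i : ι → F) := ⟨_, rfl⟩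
  have hvU : ∀ i, v i ∈ U := fun i => by rw [hvdef]; exact (b i).2
  have hvli : LinearIndependent F v := by
    rw [hvdef]
    exact b.linearIndependent.map' U.subtype (Submodule.ker_subtype U)
  have hrepr : ∀ x ∈ U, ∃ r : Fin k ⊕ Fin k → F, x = ∑ i, r i • v i := by
    intro x hx
    refine ⟨fun i => b.repr ⟨x, hx⟩ i, ?_⟩
    have h1 := b.sum_repr ⟨x, hx⟩
    have h2 := congrArg (fun z : U => (z : ι → F)) h1
    simp only [Submodule.coe_sum, Submodule.coe_smul] at h2
    rw [hvdef]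
    exact h2.symm
  have hdual : ∀ i, ∃ f ∈ U', (∀ j, j ≠ i → Bp (v j) f = 0) ∧ Bp (v i) f = 1 := by
    intro i
    have hn : v i ∉ Submodule.span F (v '' {j | j ≠ i}) := hvli.notMem_span_image (by simp)
    have hS : Submodule.span F (v '' {j | j ≠ i}) ≤ U := by
      rw [Submodule.span_le]
      rintro _ ⟨j, _, rfl⟩
      exact hvU j
    obtain ⟨f, hf, hfS, hfi⟩ := pair_fun Q hQ U U' hsup hU _ hS (hvU i) hn
    exact ⟨f, hf, fun j hj => hfS _ (Submodule.subset_span ⟨j, hj, rfl⟩), hfi⟩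
  choose f hfU' hfne hfeq using hdual
  have hQa : ∀ i, Q (v i - f i) = -1 := by
    intro i
    rw [sub_eq_add_neg, QuadraticMap.map_add (⇑Q), QuadraticMap.map_neg,
      QuadraticMap.polar_neg_right, hU _ (hvU i), hU' _ (hfU' i), hfeq]
    ring
  have hBa : ∀ i j, i ≠ j → Bp (v i - f i) (v j - f j) = 0 := by
    intro i j hij
    rw [QuadraticMap.polar_sub_left, QuadraticMap.polar_sub_right, QuadraticMap.polar_sub_right,
      hBU _ (hvU i) _ (hvU j), hfne j i hij, QuadraticMap.polar_comm (⇑Q) (f i) (v j),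
      hfne i j (Ne.symm hij), ts_polar Q U' hU' (hfU' i) (hfU' j)]
    ring
  obtain ⟨g, hg, hgx⟩ := refl_prod Q hQ hex k (fun j => v (Sum.inl j) - f (Sum.inl j))
    (fun j => v (Sum.inr j) - f (Sum.inr j)) (fun j => hQa _) (fun j => hQa _)
    (fun i j => hBa _ _ (by simp)) (fun i j hij => hBa _ _ (by simpa using hij))
    (fun i j hij => hBa _ _ (by simpa using hij))
  have hgx' : ∀ x, ((g : Matrix.GeneralLinearGroup ι F) : Matrix ι ι F) *ᵥ x
      = x + ∑ i : Fin k ⊕ Fin k, Bp (v i - f i) x • (v i - f i) := by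
    intro x
    rw [hgx, Fintype.sum_sum_type, Finset.sum_add_distrib]
  refine ⟨g, hg, ?_, ?_⟩
  · intro x hx
    obtain ⟨r, hr⟩ := hrepr x hx
    have hBf : ∀ i, Bp x (f i) = r i := by
      intro i
      have e : ∀ y, Bp y (f i) = QuadraticMap.polarBilin Q y (f i) := fun y => rfl
      rw [hr, e, map_sum, LinearMap.sum_apply, Finset.sum_eq_single i]
      · rw [map_smul, LinearMap.smul_apply]
        show r i • Bp (v i) (f i) = r i
        rw [hfeq]
        simp
      · intro j _ hj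
        rw [map_smul, LinearMap.smul_apply]
        show r j • Bp (v j) (f i) = 0
        rw [hfne i j hj, smul_zero]
      · intro h
        exact absurd (Finset.mem_univ i) h
    have hBa' : ∀ i, Bp (v i - f i) x = - r i := by
      intro i
      rw [QuadraticMap.polar_sub_left, hBU _ (hvU i) x hx, QuadraticMap.polar_comm (⇑Q) (f i) x,
        hBf, zero_sub]
    rw [hgx']
    have e : x + ∑ i, Bp (v i - f i) x • (v i - f i) = ∑ i, r i • f i := by
      simp only [hBa']
      conv_lhs => lhs; rw [hr]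
      rw [← Finset.sum_add_distrib]
      apply Finset.sum_congr rfl
      intro i _
      module
    rw [e]
    exact Submodule.sum_mem _ (fun i _ => U'.smul_mem _ (hfU' i))
  · intro y hy
    have hBa' : ∀ i, Bp (v i - f i) y = Bp (v i) y := by
      intro i
      rw [QuadraticMap.polar_sub_left, ts_polar Q U' hU' (hfU' i) hy, sub_zero]
    rw [hgx']
    simp only [hBa']
    have hz : y - ∑ i, Bp (v i) y • f i = 0 := by
      by_contra hne
      have hzU' : y - ∑ i, Bp (v i) y • f i ∈ U' :=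
        U'.sub_mem hy (Submodule.sum_mem _ (fun i _ => U'.smul_mem _ (hfU' i)))
      obtain ⟨x, hx, hxz⟩ := pair_ne Q hQ U' U (by rw [sup_comm]; exact hsup) hU' hzU' hne
      apply hxz
      have hzv : ∀ j, Bp (v j) (y - ∑ i, Bp (v i) y • f i) = 0 := by
        intro j
        have e : ∀ w, Bp (v j) w = QuadraticMap.polarBilin Q (v j) w := fun w => rfl
        rw [e, map_sub, map_sum, Finset.sum_eq_single j]
        · rw [map_smul]
          show Bp (v j) y - Bp (v j) y • Bp (v j) (f j) = 0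
          rw [hfeq]
          simp
        · intro i _ hi
          rw [map_smul]
          show Bp (v i) y • Bp (v j) (f i) = 0
          rw [hfne i j (Ne.symm hi), smul_zero]
        · intro h
          exact absurd (Finset.mem_univ j) h
      obtain ⟨r, hr⟩ := hrepr x hx
      rw [QuadraticMap.polar_comm, hr]
      have e : ∀ w, Bp w (y - ∑ i, Bp (v i) y • f i)
          = QuadraticMap.polarBilin Q w (y - ∑ i, Bp (v i) y • f i) := fun w => rfl
      rw [e, map_sum, LinearMap.sum_apply]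
      apply Finset.sum_eq_zero
      intro j _
      rw [map_smul, LinearMap.smul_apply]
      show r j • Bp (v j) _ = 0
      rw [hzv, smul_zero]
    have e : y + ∑ i, Bp (v i) y • (v i - f i) = ∑ i, Bp (v i) y • v i := by
      have h1 : y = ∑ i, Bp (v i) y • f i := sub_eq_zero.mp hz
      conv_lhs => lhs; rw [h1]
      rw [← Finset.sum_add_distrib]
      apply Finset.sum_congr rfl
      intro i _
      module
    rw [e]
    exact Submodule.sum_mem _ (fun i _ => U.smul_mem _ (hvU i))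

omit [Fintype F] in
theorem gl_mulVec_inv (g : Matrix.GeneralLinearGroup ι F) (x : ι → F) :
    (g : Matrix ι ι F) *ᵥ (((g⁻¹ : Matrix.GeneralLinearGroup ι F) : Matrix ι ι F) *ᵥ x) = x := by
  rw [Matrix.mulVec_mulVec, ← Units.val_mul, mul_inv_cancel, Units.val_one, Matrix.one_mulVec]

include hQ in
/-- the stabiliser of a pair of complementary totally singular subspaces of even dimension is
maximal in the commutator subgroup -/
theorem pair_max (D : Fin 2 → Submodule F (ι → F)) (k : ℕ)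
    (hk5 : 5 ≤ k) (hke : Even k) (hD : Geo.IsMDecomposition k D)
    (hts : ∀ i, ∀ x ∈ D i, Q x = 0) :
    Geo.IsMaximalIn (Geo.omegaGL (⇑Q)) (Geo.decompositionStabilizer D ⊓ Geo.omegaGL (⇑Q)) := by
  classical
  have hdis : Disjoint (D 0) (D 1) := hD.indep.pairwiseDisjoint (by decide)
  have hsup : D 0 ⊔ D 1 = ⊤ := by
    rw [eq_top_iff, ← hD.iSup_eq_top]
    refine iSup_le (fun i => ?_)
    fin_cases i
    · exact le_sup_left
    · exact le_sup_right
  have hsup' : D 1 ⊔ D 0 = ⊤ := by rw [sup_comm]; exact hsup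
  have hf0 : Module.finrank F (D 0) = k := hD.finrank_eq 0
  have hf1 : Module.finrank F (D 1) = k := hD.finrank_eq 1
  have hcard : Fintype.card ι = k + k := by
    have h := Submodule.finrank_sup_add_finrank_inf_eq (D 0) (D 1)
    rw [hsup, hdis.eq_bot, finrank_top, finrank_bot, Module.finrank_fintype_fun_eq_card, hf0,
      hf1] at h
    omega
  have hex : Fintype.card F ≠ 2 ∨ Fintype.card ι ≠ 4 := Or.inr (by omega)
  have hts0 : ∀ x ∈ D 0, Q x = 0 := hts 0
  have hts1 : ∀ x ∈ D 1, Q x = 0 := hts 1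
  have hne0 : D 0 ≠ ⊥ := by
    intro h
    rw [h, finrank_bot] at hf0
    omega
  have dS1 : ∀ g : Matrix.GeneralLinearGroup ι F, (∀ x ∈ D 0, (g : Matrix ι ι F) *ᵥ x ∈ D 0) →
      (∀ y ∈ D 1, (g : Matrix ι ι F) *ᵥ y ∈ D 1) → g ∈ Geo.decompositionStabilizer D := by
    intro g h0 h1
    refine ⟨1, fun i => ?_⟩
    fin_cases i
    · exact map_eq_of_maps g (D 0) (D 0) h0 rfl
    · exact map_eq_of_maps g (D 1) (D 1) h1 rfl
  have dS2 : ∀ g : Matrix.GeneralLinearGroup ι F, (∀ x ∈ D 0, (g : Matrix ι ι F) *ᵥ x ∈ D 1) →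
      (∀ y ∈ D 1, (g : Matrix ι ι F) *ᵥ y ∈ D 0) → g ∈ Geo.decompositionStabilizer D := by
    intro g h0 h1
    refine ⟨Equiv.swap 0 1, fun i => ?_⟩
    fin_cases i
    · show (D 0).map _ = D (Equiv.swap 0 1 0)
      rw [Equiv.swap_apply_left]
      exact map_eq_of_maps g (D 0) (D 1) h0 (by rw [hf0, hf1])
    · show (D 1).map _ = D (Equiv.swap 0 1 1)
      rw [Equiv.swap_apply_right]
      exact map_eq_of_maps g (D 1) (D 0) h1 (by rw [hf0, hf1])
  refine ⟨lt_of_le_of_ne inf_le_right ?_, ?_⟩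
  · intro heq
    obtain ⟨g, hgΩ, hgU, x, hx, hgx⟩ := Cfsg.Agent.S5698.eich Q hQ hex (D 0) (D 1) hdis hsup
      hts0 hts1 hne0 (by rw [hf1]; omega)
    rw [← heq] at hgΩ
    obtain ⟨σ, hσ⟩ := hgΩ.1
    have hmap : ∀ i, ∀ z ∈ D i, (g : Matrix ι ι F) *ᵥ z ∈ D (σ i) := by
      intro i z hz
      have h1 : Matrix.toLin' (g : Matrix ι ι F) z
          ∈ (D i).map (Matrix.toLin' (g : Matrix ι ι F)) := Submodule.mem_map_of_mem hz
      rw [hσ i, Matrix.toLin'_apply] at h1
      exact h1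
    rcases Cfsg.Agent.S5698.fin2 (σ 1) with h | h
    · have h01 : σ 0 = 1 := by
        rcases Cfsg.Agent.S5698.fin2 (σ 0) with h' | h'
        · exact absurd (σ.injective (h'.trans h.symm)) (by decide)
        · exact h'
      obtain ⟨z, hz, hz0⟩ := Submodule.exists_mem_ne_zero_of_ne_bot hne0
      have h1 := hmap 0 z hz
      rw [h01] at h1
      have h2 := hgU z hz
      have h3 := Submodule.disjoint_def.mp hdis _ h2 h1
      apply hz0
      apply Cfsg.Agent.S5676.ginj g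
      rw [h3, Matrix.mulVec_zero]
    · have h1 := hmap 1 x hx
      rw [h] at h1
      exact hgx h1
  · intro M hHM hMΩ
    by_cases hMH : M = Geo.decompositionStabilizer D ⊓ Geo.omegaGL (⇑Q)
    · exact Or.inl hMH
    right
    apply le_antisymm hMΩ
    obtain ⟨M', hM'def⟩ : ∃ M' : Subgroup ↥(Cfsg.isometryGroup F (⇑Q)),
        M' = M.comap (Cfsg.isometryGroup F (⇑Q)).subtype := ⟨_, rfl⟩
    have hM' : ∀ g : ↥(Cfsg.isometryGroup F (⇑Q)),
        g ∈ M' ↔ (g : Matrix.GeneralLinearGroup ι F) ∈ M := fun g => by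
      rw [hM'def]
      rfl
    have hH : ∀ x ∈ D 0, ∀ y ∈ D 1, Bp x y = 0 → Has Q M' x y := by
      intro x hx y hy hxy
      obtain ⟨g, hg, hgx⟩ := eich_exists' Q hQ (by omega) x y (hts0 x hx)
        (by rw [QuadraticMap.polar_comm]; exact hxy)
      obtain ⟨e1, e2⟩ := eich_maps Q (D 0) (D 1) hts0 hts1 hx hy
      exact ⟨g, (hM' g).mpr (hHM ⟨dS1 _ (fun z hz => by rw [hgx]; exact e1 z hz)
        (fun z hz => by rw [hgx]; exact e2 z hz), Subgroup.mem_map.mpr ⟨g, hg, rfl⟩⟩), hgx⟩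
    have hH' : ∀ x ∈ D 1, ∀ y ∈ D 0, Bp x y = 0 → Has Q M' x y := by
      intro x hx y hy hxy
      obtain ⟨g, hg, hgx⟩ := eich_exists' Q hQ (by omega) x y (hts1 x hx)
        (by rw [QuadraticMap.polar_comm]; exact hxy)
      obtain ⟨e1, e2⟩ := eich_maps Q (D 1) (D 0) hts1 hts0 hx hy
      exact ⟨g, (hM' g).mpr (hHM ⟨dS1 _ (fun z hz => by rw [hgx]; exact e2 z hz)
        (fun z hz => by rw [hgx]; exact e1 z hz), Subgroup.mem_map.mpr ⟨g, hg, rfl⟩⟩), hgx⟩
    obtain ⟨g₀, hg₀M, hg₀H⟩ : ∃ g₀ ∈ M,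
        g₀ ∉ Geo.decompositionStabilizer D ⊓ Geo.omegaGL (⇑Q) := by
      by_contra hcon
      push Not at hcon
      exact hMH (le_antisymm hcon hHM)
    obtain ⟨g, hgΩ, rfl⟩ := Subgroup.mem_map.mp (hMΩ hg₀M)
    have hgM' : g ∈ M' := (hM' g).mpr hg₀M
    have hline : ∃ x ∈ D 0, ∃ y ∈ D 1, Bp x y = 0 ∧ ∃ a ∈ D 0, ∃ b ∈ D 1, ∃ c ∈ D 0, ∃ d ∈ D 1,
        ((g : Matrix.GeneralLinearGroup ι F) : Matrix ι ι F) *ᵥ x = a + b ∧
        ((g : Matrix.GeneralLinearGroup ι F) : Matrix ι ι F) *ᵥ y = c + d ∧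
        ((∀ s t : F, s • a + t • c = 0 → s = 0 ∧ t = 0) ∨
          (∀ s t : F, s • b + t • d = 0 → s = 0 ∧ t = 0)) := by
      by_contra hcon
      have hno : ∀ x ∈ D 0, ∀ y ∈ D 1, Bp x y = 0 → ∀ a ∈ D 0, ∀ b ∈ D 1, ∀ c ∈ D 0, ∀ d ∈ D 1,
          ((g : Matrix.GeneralLinearGroup ι F) : Matrix ι ι F) *ᵥ x = a + b →
          ((g : Matrix.GeneralLinearGroup ι F) : Matrix ι ι F) *ᵥ y = c + d →
          (∃ s t : F, (s ≠ 0 ∨ t ≠ 0) ∧ s • a + t • c = 0) ∧
          (∃ s t : F, (s ≠ 0 ∨ t ≠ 0) ∧ s • b + t • d = 0) := by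
        intro x hx y hy hxy a ha b hb c hc d hd e1 e2
        by_contra h
        apply hcon
        refine ⟨x, hx, y, hy, hxy, a, ha, b, hb, c, hc, d, hd, e1, e2, ?_⟩
        by_cases hP : ∃ s t : F, (s ≠ 0 ∨ t ≠ 0) ∧ s • a + t • c = 0
        · right
          intro s t hst
          by_contra hne
          apply h
          refine ⟨hP, s, t, ?_, hst⟩
          by_contra hne2
          push Not at hne2
          exact hne hne2
        · left
          intro s t hst
          by_contra hne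
          apply hP
          refine ⟨s, t, ?_, hst⟩
          by_contra hne2
          push Not at hne2
          exact hne hne2
      have hno' : ∀ x ∈ D 1, ∀ y ∈ D 0, Bp x y = 0 → ∀ a ∈ D 1, ∀ b ∈ D 0, ∀ c ∈ D 1, ∀ d ∈ D 0,
          ((g : Matrix.GeneralLinearGroup ι F) : Matrix ι ι F) *ᵥ x = a + b →
          ((g : Matrix.GeneralLinearGroup ι F) : Matrix ι ι F) *ᵥ y = c + d →
          (∃ s t : F, (s ≠ 0 ∨ t ≠ 0) ∧ s • a + t • c = 0) ∧
          (∃ s t : F, (s ≠ 0 ∨ t ≠ 0) ∧ s • b + t • d = 0) := by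
        intro x hx y hy hxy a ha b hb c hc d hd e1 e2
        obtain ⟨⟨s, t, hst, e⟩, ⟨s', t', hst', e'⟩⟩ := hno y hy x hx
          (by rw [QuadraticMap.polar_comm]; exact hxy) d hd c hc b hb a ha
          (by rw [e2, add_comm]) (by rw [e1, add_comm])
        exact ⟨⟨t', s', hst'.symm, by rw [add_comm]; exact e'⟩,
          ⟨t, s, hst.symm, by rw [add_comm]; exact e⟩⟩
      have h0 := maps_or Q hQ (D 0) (D 1) hsup hts0 (by rw [hf0]; omega)
        (g : Matrix.GeneralLinearGroup ι F) hno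
      have h1 := maps_or Q hQ (D 1) (D 0) hsup' hts1 (by rw [hf1]; omega)
        (g : Matrix.GeneralLinearGroup ι F) hno'
      apply hg₀H
      refine ⟨?_, hMΩ hg₀M⟩
      have hsurj : ∀ W : Submodule F (ι → F),
          (∀ v, ((g : Matrix.GeneralLinearGroup ι F) : Matrix ι ι F) *ᵥ v ∈ W) → W = ⊤ := by
        intro W hW
        rw [eq_top_iff]
        intro w _
        have h3 := hW ((((g : Matrix.GeneralLinearGroup ι F)⁻¹ : Matrix.GeneralLinearGroup ι F)
          : Matrix ι ι F) *ᵥ w)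
        rwa [gl_mulVec_inv] at h3
      have hlt : ∀ i, D i ≠ ⊤ := by
        intro i h
        have h3 := hD.finrank_eq i
        rw [h, finrank_top, Module.finrank_fintype_fun_eq_card] at h3
        omega
      have hdec : ∀ v : ι → F, ∃ a ∈ D 0, ∃ b ∈ D 1, a + b = v := by
        intro v
        have hv : v ∈ D 0 ⊔ D 1 := by rw [hsup]; exact Submodule.mem_top
        exact Submodule.mem_sup.mp hv
      rcases h0 with h0 | h0 <;> rcases h1 with h1 | h1
      · exact dS1 _ h0 h1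
      · exfalso
        apply hlt 0
        apply hsurj
        intro v
        obtain ⟨a, ha, b, hb, rfl⟩ := hdec v
        rw [Matrix.mulVec_add]
        exact (D 0).add_mem (h0 a ha) (h1 b hb)
      · exfalso
        apply hlt 1
        apply hsurj
        intro v
        obtain ⟨a, ha, b, hb, rfl⟩ := hdec v
        rw [Matrix.mulVec_add]
        exact (D 1).add_mem (h0 a ha) (h1 b hb)
      · exact dS2 _ h0 h1
    obtain ⟨x, hx, y, hy, hxy, a, ha, b, hb, c, hc, d, hd, e1, e2, hind⟩ := hline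
    have hpq : Has Q M' (((g : Matrix.GeneralLinearGroup ι F) : Matrix ι ι F) *ᵥ x)
        (((g : Matrix.GeneralLinearGroup ι F) : Matrix ι ι F) *ᵥ y) :=
      Has_conj Q M' g hgM' (hH x hx y hy hxy)
    have hq : Q (((g : Matrix.GeneralLinearGroup ι F) : Matrix ι ι F) *ᵥ y) = 0 := by
      rw [isomG_map]
      exact hts1 y hy
    obtain ⟨k', hk'⟩ := hke
    obtain ⟨s, hsΩ, hs0, hs1⟩ := swap_exists Q hQ hex (D 0) (D 1) hsup hts0 hts1 k'
      (by rw [hf0, hk'])
    have hsM' : s ∈ M' :=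
      (hM' s).mpr (hHM ⟨dS2 _ hs0 hs1, Subgroup.mem_map.mpr ⟨s, hsΩ, rfl⟩⟩)
    have hboth : (∀ z ∈ D 0, z ∈ Sc Q M') ∧ (∀ z ∈ D 1, z ∈ Sc Q M') := by
      rcases hind with hind | hind
      · have h0 := pair_Sc Q hQ M' (D 0) (D 1) hsup hts0 hts1 (by rw [hf0]; exact hk5) hH hq hpq
          ha hb e1 hc hd e2 hind
        refine ⟨h0, fun z hz => ?_⟩
        have h1 := Sc_stable Q M' s⁻¹ (M'.inv_mem hsM') (h0 _ (hs1 z hz))
        rwa [isomG_inv_mulVec'] at h1
      · have h1 := pair_Sc Q hQ M' (D 1) (D 0) hsup' hts1 hts0 (by rw [hf1]; exact hk5) hH' hq hpq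
          hb ha (by rw [e1, add_comm]) hd hc (by rw [e2, add_comm]) hind
        refine ⟨fun z hz => ?_, h1⟩
        have h0 := Sc_stable Q M' s⁻¹ (M'.inv_mem hsM') (h1 _ (hs0 z hz))
        rwa [isomG_inv_mulVec'] at h0
    obtain ⟨u, hu, hu0⟩ := Submodule.exists_mem_ne_zero_of_ne_bot hne0
    obtain ⟨y', hy', huy'⟩ := pair_ne Q hQ (D 0) (D 1) hsup hts0 hu hu0
    have hall : ∀ z, Q z = 0 → z ∈ Sc Q M' := fun z hz =>
      Sc_all Q hQ (by omega) M' (hboth.1 u hu) (hboth.2 y' hy') huy' z hz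
    have hΩ := omega_le_of_Sc Q hQ (by omega) M' hall
    intro k₁ hk₁
    obtain ⟨k₂, hk₂, rfl⟩ := Subgroup.mem_map.mp hk₁
    exact (hM' k₂).mp (hΩ hk₂)

end gen

/-- Let F be a finite field with q elements, n ≥ 13 even, Q a non-degenerate quadratic form on F^n of plus type (some subspace of dimension n/2 is totally singular), and Ω the commutator subgroup of the isometry group of Q, viewed inside GL_n(F). Suppose n/2 is even and let D be a decomposition of F^n into two complementary subspaces of dimension n/2 on each of which Q vanishes. Then the elements of Ω preserving or interchanging the two subspaces form a maximal subgroup of Ω. -/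
theorem result {F : Type*} [Field F] [Fintype F] {n : ℕ} (hn : 13 ≤ n) (heven : Even n) (Q : (Fin n → F) → F) (hQ : Cfsg.Geo.IsNondegenerateQuadraticForm Q) (hplus : Cfsg.Geo.IsPlusTypeOn Q ⊤) (k : ℕ) (hk : 2 * k = n) (hke : Even k) (D : Fin 2 → Submodule F (Fin n → F)) (hD : Cfsg.Geo.IsMDecomposition k D) (hts : ∀ i, Cfsg.Geo.IsTotallySingularQuad Q (D i)) : Cfsg.Geo.IsMaximalIn (Cfsg.Geo.omegaGL Q) (Cfsg.Geo.decompositionStabilizer D ⊓ Cfsg.Geo.omegaGL Q) := by
  classical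
  exact pair_max (Cfsg.Agent.S5676.toQF Q hQ) (Cfsg.Agent.S5676.toQF_nondeg Q hQ) D k (by omega)
    hke hD hts

end Cfsg.Agent.S5697
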