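import Mathlib
import Cfsg.Statements.S5699
import Cfsg.Agent.S5697

set_option autoImplicit false
open Cfsg

namespace Cfsg.Agent.S5699

open Matrix
open Cfsg.Agent.Lib.Helper16 (reflG refl_mulVec reflG_coe isomG_map isomG_polar isomG_mul_coe
  isomG_inv_mulVec isomG_inv_mulVec' isomG_ext_mulVec isomG_one_coe)
open Cfsg.Agent.Lib.Helper3 (eichF eich_add refl_pair_mem_omega)
open Cfsg.Agent.S5685 (Has Sc eich_exists eich_equiv zero_mem_Sc Sc_stable Sc_smul Sc_all
  omega_le_of_Sc)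
open Cfsg.Agent.S5697 (Has_add Has_neg Has_conj eich_smul eich_zero eich_exists' exists_not_mem
  finrank_span_pair finrank_span_single gl_mulVec_inv map_eq_of_maps)
open Cfsg.Agent.S5686 (two_fun)

section gen

variable {ι : Type} [Fintype ι] [DecidableEq ι] {F : Type*} [Field F] [Fintype F]
  (Q : QuadraticForm F (ι → F)) (hQ : (QuadraticMap.polarBilin Q).Nondegenerate)

local notation "Bp" => QuadraticMap.polar (DFunLike.coe Q)

omit [Fintype ι] [DecidableEq ι] in
theorem odd_of_two_ne (h2 : (2 : F) ≠ 0) : Odd (Fintype.card F) := by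
  have h : ringChar F ≠ 2 := by
    intro h
    apply h2
    have h3 := ringChar.Nat.cast_ringChar (R := F)
    rw [h] at h3
    exact_mod_cast h3
  exact Nat.odd_iff.mpr (FiniteField.odd_card_of_char_ne_two h)

include hQ in
/-- a nonzero singular vector orthogonal to a family, in any characteristic -/
theorem usin {k : ℕ} (v : Fin k → (ι → F)) (hk : k + 2 < Fintype.card ι) :
    ∃ x : ι → F, x ≠ 0 ∧ Q x = 0 ∧ ∀ i, Bp (v i) x = 0 := by
  by_cases h2 : (2 : F) = 0
  · exact Cfsg.Agent.Lib.Helper3.exists_sing_char2 Q h2 hQ v hk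
  · exact Cfsg.Agent.S5676.gsing Q hQ (odd_of_two_ne h2) v hk

include hQ in
/-- a vector of prescribed norm orthogonal to a family, in any characteristic -/
theorem urep {k : ℕ} (v : Fin k → (ι → F)) (hk : 2 * (k + 1) < Fintype.card ι) (c : F) :
    ∃ x : ι → F, Q x = c ∧ ∀ i, Bp (v i) x = 0 := by
  by_cases h2 : (2 : F) = 0
  · exact Cfsg.Agent.Lib.Helper3.exists_rep_char2 Q h2 hQ v (by omega) c
  · exact Cfsg.Agent.S5676.grep Q hQ (odd_of_two_ne h2) v hk c

include hQ in
omit [DecidableEq ι] [Fintype F] in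
/-- separating a vector from a subspace by a functional -/
theorem span_fun (S : Submodule F (ι → F)) {a : ι → F} (haS : a ∉ S) :
    ∃ y, (∀ s ∈ S, Bp s y = 0) ∧ Bp a y = 1 := by
  let B := QuadraticMap.polarBilin Q
  have hBs : ∀ x y, B x y = B y x := fun x y => QuadraticMap.polar_comm _ x y
  have hrefl : LinearMap.BilinForm.IsRefl B := fun x y h => by rw [hBs]; exact h
  obtain ⟨y₀, hy₀S, hy₀a⟩ : ∃ y₀, (∀ s ∈ S, B s y₀ = 0) ∧ B a y₀ ≠ 0 := by
    by_contra hcon
    push Not at hcon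
    apply haS
    rw [← LinearMap.BilinForm.orthogonal_orthogonal hQ hrefl S,
      LinearMap.BilinForm.mem_orthogonal_iff]
    intro y hy
    show B y a = 0
    rw [hBs]
    exact hcon y (fun s hs => hy s hs)
  refine ⟨(Bp a y₀)⁻¹ • y₀, fun s hs => ?_, ?_⟩
  · rw [QuadraticMap.polar_smul_right]
    have h1 : Bp s y₀ = 0 := hy₀S s hs
    rw [h1, smul_zero]
  · have h1 : Bp a y₀ ≠ 0 := hy₀a
    rw [QuadraticMap.polar_smul_right, smul_eq_mul, inv_mul_cancel₀ h1]

end gen

section pair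

variable {ι : Type} [Fintype ι] [DecidableEq ι] {F : Type*} [Field F] [Fintype F]
  (Q : QuadraticForm F (ι → F)) (hQ : (QuadraticMap.polarBilin Q).Nondegenerate)
  (W W' : Submodule F (ι → F))
  (hperp : ∀ w ∈ W, ∀ w' ∈ W', QuadraticMap.polar (DFunLike.coe Q) w w' = 0)
  (hsup : W ⊔ W' = ⊤)

local notation "Bp" => QuadraticMap.polar (DFunLike.coe Q)

include hsup in
omit [Fintype ι] [DecidableEq ι] [Fintype F] in
theorem dec (v : ι → F) : ∃ a ∈ W, ∃ b ∈ W', a + b = v := by
  have hv : v ∈ W ⊔ W' := by rw [hsup]; exact Submodule.mem_top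
  exact Submodule.mem_sup.mp hv

include hQ hperp hsup in
omit [Fintype ι] [DecidableEq ι] [Fintype F] in
/-- the second summand is nondegenerate -/
theorem nd' : ∀ x ∈ W', (∀ y ∈ W', Bp x y = 0) → x = 0 := by
  intro x hx h
  apply hQ.1
  intro v
  obtain ⟨a, ha, b, hb, rfl⟩ := dec W W' hsup v
  show Bp x (a + b) = 0
  rw [QuadraticMap.polar_add_right, h b hb, QuadraticMap.polar_comm, hperp a ha x hx, add_zero]

include hQ hperp hsup in
omit [Fintype ι] [DecidableEq ι] [Fintype F] in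
/-- the first summand is nondegenerate -/
theorem nd : ∀ x ∈ W, (∀ y ∈ W, Bp x y = 0) → x = 0 := by
  intro x hx h
  apply hQ.1
  intro v
  obtain ⟨a, ha, b, hb, rfl⟩ := dec W W' hsup v
  show Bp x (a + b) = 0
  rw [QuadraticMap.polar_add_right, h a ha, hperp x hx b hb, add_zero]

include hQ hperp hsup in
omit [Fintype ι] [DecidableEq ι] [Fintype F] in
theorem disj : ∀ x, x ∈ W → x ∈ W' → x = 0 := by
  intro x hx hx'
  exact nd' Q hQ W W' hperp hsup x hx' (fun y hy => hperp x hx y hy)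

include hQ hperp hsup in
omit [Fintype ι] [DecidableEq ι] [Fintype F] in
/-- a vector orthogonal to the second summand lies in the first -/
theorem perp_mem (x : ι → F) (h : ∀ y ∈ W', Bp x y = 0) : x ∈ W := by
  obtain ⟨a, ha, b, hb, rfl⟩ := dec W W' hsup x
  have hb0 : b = 0 := by
    apply nd' Q hQ W W' hperp hsup b hb
    intro y hy
    have h1 := h y hy
    rw [QuadraticMap.polar_add_left, hperp a ha y hy, zero_add] at h1
    exact h1
  rw [hb0, add_zero]
  exact ha

include hQ hperp hsup in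
omit [DecidableEq ι] [Fintype F] in
/-- a functional on the second summand separating a vector from a subspace -/
theorem sub_span_fun (S : Submodule F (ι → F)) (hS : S ≤ W') {a : ι → F} (ha : a ∈ W')
    (haS : a ∉ S) : ∃ y ∈ W', (∀ s ∈ S, Bp s y = 0) ∧ Bp a y = 1 := by
  obtain ⟨y, hyS, hya⟩ := span_fun Q hQ S haS
  obtain ⟨y₁, hy₁, y₂, hy₂, rfl⟩ := dec W W' hsup y
  refine ⟨y₂, hy₂, fun s hs => ?_, ?_⟩
  · have h1 := hyS s hs
    rw [QuadraticMap.polar_add_right, QuadraticMap.polar_comm (⇑Q) s y₁, hperp y₁ hy₁ s (hS hs),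
      zero_add] at h1
    exact h1
  · rw [QuadraticMap.polar_add_right, QuadraticMap.polar_comm (⇑Q) a y₁, hperp y₁ hy₁ a ha,
      zero_add] at hya
    exact hya

include hQ hperp hsup in
omit [DecidableEq ι] in
/-- transfer of the second summand to a coordinate space -/
theorem transfer : ∃ (d : ℕ) (φ : (Fin d → F) →ₗ[F] (ι → F)), d = Module.finrank F W' ∧
    Function.Injective φ ∧ (∀ c, φ c ∈ W') ∧ (∀ x ∈ W', ∃ c, φ c = x) ∧
    (QuadraticMap.polarBilin (Q.comp φ)).Nondegenerate := by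
  classical
  let b : Module.Basis (Fin (Module.finrank F W')) F W' := Module.finBasisOfFinrankEq F W' rfl
  let φ : (Fin (Module.finrank F W') → F) →ₗ[F] (ι → F) :=
    W'.subtype ∘ₗ (b.equivFun.symm : (Fin (Module.finrank F W') → F) ≃ₗ[F] W').toLinearMap
  have hφmem : ∀ c, φ c ∈ W' := fun c => (b.equivFun.symm c).2
  have hφinj : Function.Injective φ := by
    intro c c' h
    have h1 : (b.equivFun.symm c : ι → F) = (b.equivFun.symm c' : ι → F) := h
    exact b.equivFun.symm.injective (Subtype.ext h1)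
  have hφsurj : ∀ x ∈ W', ∃ c, φ c = x := by
    intro x hx
    refine ⟨b.equivFun ⟨x, hx⟩, ?_⟩
    show ((b.equivFun.symm (b.equivFun ⟨x, hx⟩) : W') : ι → F) = x
    rw [LinearEquiv.symm_apply_apply]
  have hpol : ∀ c c', QuadraticMap.polar (⇑(Q.comp φ)) c c' = Bp (φ c) (φ c') := by
    intro c c'
    unfold QuadraticMap.polar
    simp only [QuadraticMap.comp_apply, map_add]
  refine ⟨Module.finrank F W', φ, rfl, hφinj, hφmem, hφsurj, ?_, ?_⟩
  · intro c hc
    apply hφinj
    rw [map_zero]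
    apply nd' Q hQ W W' hperp hsup (φ c) (hφmem c)
    intro y hy
    obtain ⟨c', rfl⟩ := hφsurj y hy
    rw [← hpol]
    exact hc c'
  · intro c hc
    apply hφinj
    rw [map_zero]
    apply nd' Q hQ W W' hperp hsup (φ c) (hφmem c)
    intro y hy
    obtain ⟨c', rfl⟩ := hφsurj y hy
    rw [QuadraticMap.polar_comm, ← hpol]
    exact hc c'

include hQ hperp hsup in
/-- nonzero singular vectors in the second summand orthogonal to a family -/
theorem sub_sing {k : ℕ} (v : Fin k → (ι → F)) (hk : k + 2 < Module.finrank F W') :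
    ∃ x ∈ W', x ≠ 0 ∧ Q x = 0 ∧ ∀ i, Bp (v i) x = 0 := by
  classical
  obtain ⟨d, φ, hd, hφinj, hφmem, hφsurj, hnd⟩ := transfer Q hQ W W' hperp hsup
  have hpol : ∀ c c', QuadraticMap.polar (⇑(Q.comp φ)) c c' = Bp (φ c) (φ c') := by
    intro c c'
    unfold QuadraticMap.polar
    simp only [QuadraticMap.comp_apply, map_add]
  have hv : ∀ i, ∃ c, ∀ x ∈ W', Bp (v i) x = Bp (φ c) x := by
    intro i
    obtain ⟨a, ha, b, hb, hab⟩ := dec W W' hsup (v i)
    obtain ⟨c, hc⟩ := hφsurj b hb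
    refine ⟨c, fun x hx => ?_⟩
    rw [hc, ← hab, QuadraticMap.polar_add_left, hperp a ha x hx, zero_add]
  choose c hc using hv
  obtain ⟨x, hx0, hxQ, hxv⟩ := usin (Q.comp φ) hnd c (by rw [Fintype.card_fin, hd]; exact hk)
  refine ⟨φ x, hφmem x, ?_, ?_, fun i => ?_⟩
  · intro h
    apply hx0
    apply hφinj
    rw [h, map_zero]
  · rw [← QuadraticMap.comp_apply]
    exact hxQ
  · rw [hc i (φ x) (hφmem x), ← hpol]
    exact hxv i

include hQ hperp hsup in
/-- vectors of prescribed norm in the second summand orthogonal to a family -/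
theorem sub_rep {k : ℕ} (v : Fin k → (ι → F)) (hk : 2 * (k + 1) < Module.finrank F W') (α : F) :
    ∃ x ∈ W', Q x = α ∧ ∀ i, Bp (v i) x = 0 := by
  classical
  obtain ⟨d, φ, hd, hφinj, hφmem, hφsurj, hnd⟩ := transfer Q hQ W W' hperp hsup
  have hpol : ∀ c c', QuadraticMap.polar (⇑(Q.comp φ)) c c' = Bp (φ c) (φ c') := by
    intro c c'
    unfold QuadraticMap.polar
    simp only [QuadraticMap.comp_apply, map_add]
  have hv : ∀ i, ∃ c, ∀ x ∈ W', Bp (v i) x = Bp (φ c) x := by
    intro i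
    obtain ⟨a, ha, b, hb, hab⟩ := dec W W' hsup (v i)
    obtain ⟨c, hc⟩ := hφsurj b hb
    refine ⟨c, fun x hx => ?_⟩
    rw [hc, ← hab, QuadraticMap.polar_add_left, hperp a ha x hx, zero_add]
  choose c hc using hv
  obtain ⟨x, hxQ, hxv⟩ := urep (Q.comp φ) hnd c (by rw [Fintype.card_fin, hd]; exact hk) α
  refine ⟨φ x, hφmem x, ?_, fun i => ?_⟩
  · rw [← QuadraticMap.comp_apply]
    exact hxQ
  · rw [hc i (φ x) (hφmem x), ← hpol]
    exact hxv i

include hQ in
omit [Fintype ι] [DecidableEq ι] [Fintype F] in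
theorem dual1 {m : ι → F} (hm : m ≠ 0) : ∃ z, Bp z m = 1 := by
  obtain ⟨z, hz⟩ : ∃ z, Bp z m ≠ 0 := by
    by_contra hcon
    push Not at hcon
    exact hm (hQ.1 m (fun y => by
      show Bp m y = 0
      rw [QuadraticMap.polar_comm]
      exact hcon y))
  exact ⟨(Bp z m)⁻¹ • z, by rw [QuadraticMap.polar_smul_left, smul_eq_mul, inv_mul_cancel₀ hz]⟩

include hQ hperp hsup in
/-- a hyperbolic pair of the second summand orthogonal to two given vectors -/
theorem sub_hyp (h7 : 7 ≤ Module.finrank F W') (m₁ m₂ : ι → F) (hm₁ : m₁ ∈ W') (hm₂ : m₂ ∈ W') :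
    ∃ u ∈ W', ∃ u' ∈ W', Q u = 0 ∧ Q u' = 0 ∧ Bp u u' = 1 ∧ Bp u m₁ = 0 ∧ Bp u m₂ = 0 ∧
      Bp u' m₁ = 0 ∧ Bp u' m₂ = 0 := by
  classical
  obtain ⟨u, huW', hu0, hQu, hum₁, hum₂, hun⟩ : ∃ u ∈ W', u ≠ 0 ∧ Q u = 0 ∧ Bp m₁ u = 0 ∧
      Bp m₂ u = 0 ∧ u ∉ Submodule.span F {m₁, m₂} := by
    have hz : ∃ z₁ z₂ : ι → F, ∀ x ∈ Submodule.span F {m₁, m₂},
        Bp z₁ x = 0 → Bp z₂ x = 0 → x = 0 := by
      by_cases h1 : m₁ = 0
      · by_cases h2 : m₂ = 0
        · refine ⟨0, 0, fun x hx _ _ => ?_⟩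
          obtain ⟨α, β, hαβ⟩ := Submodule.mem_span_pair.mp hx
          rw [← hαβ, h1, h2]
          simp
        · obtain ⟨z, hz⟩ := dual1 Q hQ h2
          refine ⟨z, 0, fun x hx hzx _ => ?_⟩
          obtain ⟨α, β, hαβ⟩ := Submodule.mem_span_pair.mp hx
          rw [h1, smul_zero, zero_add] at hαβ
          rw [← hαβ, QuadraticMap.polar_smul_right, hz, smul_eq_mul, mul_one] at hzx
          rw [← hαβ, hzx, zero_smul]
      · obtain ⟨z₁, hz₁⟩ := dual1 Q hQ h1
        by_cases h2 : m₂ - Bp z₁ m₂ • m₁ = 0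
        · refine ⟨z₁, 0, fun x hx hzx _ => ?_⟩
          obtain ⟨α, β, hαβ⟩ := Submodule.mem_span_pair.mp hx
          have hm₂e : m₂ = Bp z₁ m₂ • m₁ := sub_eq_zero.mp h2
          have hx' : x = (α + β * Bp z₁ m₂) • m₁ := by
            rw [← hαβ]
            conv_lhs => rw [hm₂e]
            module
          rw [hx', QuadraticMap.polar_smul_right, hz₁, smul_eq_mul, mul_one] at hzx
          rw [hx', hzx, zero_smul]
        · obtain ⟨z₂, hz₂⟩ := dual1 Q hQ h2
          refine ⟨z₁, z₂, fun x hx hz₁x hz₂x => ?_⟩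
          obtain ⟨α, β, hαβ⟩ := Submodule.mem_span_pair.mp hx
          have hx' : x = (α + β * Bp z₁ m₂) • m₁ + β • (m₂ - Bp z₁ m₂ • m₁) := by
            rw [← hαβ]
            module
          have e1 : Bp z₁ (m₂ - Bp z₁ m₂ • m₁) = 0 := by
            rw [QuadraticMap.polar_sub_right, QuadraticMap.polar_smul_right, hz₁]
            simp
          have e2 : α + β * Bp z₁ m₂ = 0 := by
            rw [hx', QuadraticMap.polar_add_right, QuadraticMap.polar_smul_right,
              QuadraticMap.polar_smul_right, hz₁, e1] at hz₁x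
            simpa using hz₁x
          have e3 : β = 0 := by
            rw [hx', e2, zero_smul, zero_add, QuadraticMap.polar_smul_right, hz₂] at hz₂x
            simpa using hz₂x
          rw [hx', e2, e3]
          simp
    obtain ⟨z₁, z₂, hz⟩ := hz
    obtain ⟨u, huW', hu0, hQu, huv⟩ := sub_sing Q hQ W W' hperp hsup ![m₁, m₂, z₁, z₂] (by omega)
    exact ⟨u, huW', hu0, hQu, huv 0, huv 1, fun hmem => hu0 (hz u hmem (huv 2) (huv 3))⟩
  have hSW' : Submodule.span F {m₁, m₂} ≤ W' := by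
    rw [Submodule.span_le]
    intro z hz
    rcases hz with rfl | rfl
    · exact hm₁
    · exact hm₂
  obtain ⟨y, hyW', hyS, hyu⟩ := sub_span_fun Q hQ W W' hperp hsup _ hSW' huW' hun
  have hym₁ : Bp m₁ y = 0 := hyS m₁ (Submodule.subset_span (by simp))
  have hym₂ : Bp m₂ y = 0 := hyS m₂ (Submodule.subset_span (by simp))
  have huu : Bp u u = 0 := Cfsg.Agent.Lib.Helper3.polar_self_zero Q hQu
  refine ⟨u, huW', y - Q y • u, W'.sub_mem hyW' (W'.smul_mem _ huW'), hQu, ?_, ?_,
    by rw [QuadraticMap.polar_comm]; exact hum₁, by rw [QuadraticMap.polar_comm]; exact hum₂,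
    ?_, ?_⟩
  · rw [sub_eq_add_neg, ← neg_smul, QuadraticMap.map_add (⇑Q), QuadraticMap.map_smul, hQu,
      QuadraticMap.polar_smul_right, QuadraticMap.polar_comm (⇑Q) y u, hyu]
    simp
  · rw [QuadraticMap.polar_sub_right, QuadraticMap.polar_smul_right, hyu, huu]
    simp
  · rw [QuadraticMap.polar_sub_left, QuadraticMap.polar_smul_left,
      QuadraticMap.polar_comm (⇑Q) y m₁, hym₁, QuadraticMap.polar_comm (⇑Q) u m₁, hum₁]
    simp
  · rw [QuadraticMap.polar_sub_left, QuadraticMap.polar_smul_left,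
      QuadraticMap.polar_comm (⇑Q) y m₂, hym₂, QuadraticMap.polar_comm (⇑Q) u m₂, hum₂]
    simp

include hQ hperp hsup in
/-- an invertible map sending totally singular lines of the second summand into one of the two
summands maps the second summand into one of them -/
theorem sides (h7 : 7 ≤ Module.finrank F W') (g : Matrix.GeneralLinearGroup ι F)
    (hg : ∀ x ∈ W', ∀ y ∈ W', Q x = 0 → Q y = 0 → Bp x y = 0 → x ≠ 0 → (∀ c : F, y ≠ c • x) →
      (((g : Matrix ι ι F) *ᵥ x ∈ W ∧ (g : Matrix ι ι F) *ᵥ y ∈ W) ∨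
       ((g : Matrix ι ι F) *ᵥ x ∈ W' ∧ (g : Matrix ι ι F) *ᵥ y ∈ W'))) :
    (∀ x ∈ W', (g : Matrix ι ι F) *ᵥ x ∈ W) ∨ (∀ x ∈ W', (g : Matrix ι ι F) *ᵥ x ∈ W') := by
  classical
  have hgne : ∀ x : ι → F, x ≠ 0 → (g : Matrix ι ι F) *ᵥ x ≠ 0 := fun x hx h =>
    hx (Cfsg.Agent.S5676.ginj g (by rw [h, Matrix.mulVec_zero]))
  have hdj := disj Q hQ W W' hperp hsup
  have hcomp : ∀ x₁ ∈ W', ∀ x₂ ∈ W', x₁ ≠ 0 → x₂ ≠ 0 → ∃ x₃ ∈ W', x₃ ≠ 0 ∧ Q x₃ = 0 ∧
      Bp x₁ x₃ = 0 ∧ Bp x₂ x₃ = 0 ∧ (∀ c : F, x₃ ≠ c • x₁) ∧ (∀ c : F, x₃ ≠ c • x₂) := by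
    intro x₁ hx₁ x₂ hx₂ h1 h2
    obtain ⟨z₁, hz₁⟩ := dual1 Q hQ h1
    obtain ⟨z₂, hz₂⟩ := dual1 Q hQ h2
    obtain ⟨x₃, hx₃W', hx₃0, hQx₃, hv⟩ := sub_sing Q hQ W W' hperp hsup ![x₁, x₂, z₁, z₂]
      (by omega)
    refine ⟨x₃, hx₃W', hx₃0, hQx₃, hv 0, hv 1, fun c hc => ?_, fun c hc => ?_⟩
    · have h3 : Bp z₁ x₃ = 0 := hv 2
      rw [hc, QuadraticMap.polar_smul_right, hz₁, smul_eq_mul, mul_one] at h3
      rw [h3, zero_smul] at hc
      exact hx₃0 hc
    · have h3 : Bp z₂ x₃ = 0 := hv 3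
      rw [hc, QuadraticMap.polar_smul_right, hz₂, smul_eq_mul, mul_one] at h3
      rw [h3, zero_smul] at hc
      exact hx₃0 hc
  obtain ⟨x₀, hx₀W', hx₀0, hQx₀, -⟩ := sub_sing Q hQ W W' hperp hsup
    (![] : Fin 0 → (ι → F)) (by omega)
  have key : ∀ x ∈ W', Q x = 0 → x ≠ 0 →
      ((g : Matrix ι ι F) *ᵥ x₀ ∈ W → (g : Matrix ι ι F) *ᵥ x ∈ W) ∧
      ((g : Matrix ι ι F) *ᵥ x₀ ∈ W' → (g : Matrix ι ι F) *ᵥ x ∈ W') := by
    intro x hx hQx hx0
    obtain ⟨x₃, hx₃W', hx₃0, hQx₃, h03, hx3, hn0, hnx⟩ := hcomp x₀ hx₀W' x hx hx₀0 hx0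
    have hA := hg x₀ hx₀W' x₃ hx₃W' hQx₀ hQx₃ h03 hx₀0 hn0
    have hB := hg x hx x₃ hx₃W' hQx hQx₃ hx3 hx0 hnx
    constructor
    · intro h0
      have h3 : (g : Matrix ι ι F) *ᵥ x₃ ∈ W := by
        rcases hA with hA | hA
        · exact hA.2
        · exact absurd (hdj _ h0 hA.1) (hgne x₀ hx₀0)
      rcases hB with hB | hB
      · exact hB.1
      · exact absurd (hdj _ h3 hB.2) (hgne x₃ hx₃0)
    · intro h0
      have h3 : (g : Matrix ι ι F) *ᵥ x₃ ∈ W' := by
        rcases hA with hA | hA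
        · exact absurd (hdj _ hA.1 h0) (hgne x₀ hx₀0)
        · exact hA.2
      rcases hB with hB | hB
      · exact absurd (hdj _ hB.2 h3) (hgne x₃ hx₃0)
      · exact hB.1
  have h0 : (g : Matrix ι ι F) *ᵥ x₀ ∈ W ∨ (g : Matrix ι ι F) *ᵥ x₀ ∈ W' := by
    obtain ⟨x₃, hx₃W', hx₃0, hQx₃, h03, -, hn0, -⟩ := hcomp x₀ hx₀W' x₀ hx₀W' hx₀0 hx₀0
    rcases hg x₀ hx₀W' x₃ hx₃W' hQx₀ hQx₃ h03 hx₀0 hn0 with h | h
    · exact Or.inl h.1
    · exact Or.inr h.1
  have hdecomp : ∀ a ∈ W', ∃ s ∈ W', ∃ e ∈ W', ∃ f ∈ W', ∃ c : F,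
      Q s = 0 ∧ Q e = 0 ∧ Q f = 0 ∧ a = s - e + c • f := by
    intro a ha
    by_cases hQa : Q a = 0
    · exact ⟨a, ha, 0, W'.zero_mem, 0, W'.zero_mem, 0, hQa, map_zero _, map_zero _, by simp⟩
    obtain ⟨e, heW', he0, hQe, hev⟩ := sub_sing Q hQ W W' hperp hsup ![a] (by omega)
    have hae : Bp a e = 0 := hev 0
    have hen : e ∉ Submodule.span F {a} := by
      intro h
      obtain ⟨c, hc⟩ := Submodule.mem_span_singleton.mp h
      rw [← hc, QuadraticMap.map_smul, smul_eq_mul] at hQe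
      rcases mul_eq_zero.mp hQe with h | h
      · have hc0 : c = 0 := by simpa using h
        rw [hc0, zero_smul] at hc
        exact he0 hc.symm
      · exact hQa h
    have hSW' : Submodule.span F {a} ≤ W' := by
      rw [Submodule.span_le]
      intro z hz
      rw [Set.mem_singleton_iff] at hz
      rw [hz]
      exact ha
    obtain ⟨y, hyW', hyS, hye⟩ := sub_span_fun Q hQ W W' hperp hsup _ hSW' heW' hen
    have hay : Bp a y = 0 := hyS a (Submodule.mem_span_singleton_self a)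
    have hee : Bp e e = 0 := Cfsg.Agent.Lib.Helper3.polar_self_zero Q hQe
    obtain ⟨f, hfdef⟩ : ∃ f : ι → F, f = y - Q y • e := ⟨_, rfl⟩
    have hfW' : f ∈ W' := by
      rw [hfdef]
      exact W'.sub_mem hyW' (W'.smul_mem _ heW')
    have hQf : Q f = 0 := by
      rw [hfdef, sub_eq_add_neg, ← neg_smul, QuadraticMap.map_add (⇑Q), QuadraticMap.map_smul,
        hQe, QuadraticMap.polar_smul_right, QuadraticMap.polar_comm (⇑Q) y e, hye]
      simp
    have hef : Bp e f = 1 := by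
      rw [hfdef, QuadraticMap.polar_sub_right, QuadraticMap.polar_smul_right, hye, hee]
      simp
    have haf : Bp a f = 0 := by
      rw [hfdef, QuadraticMap.polar_sub_right, QuadraticMap.polar_smul_right, hay, hae]
      simp
    refine ⟨a + e - Q a • f, W'.sub_mem (W'.add_mem ha heW') (W'.smul_mem _ hfW'), e, heW', f,
      hfW', Q a, ?_, hQe, hQf, by abel⟩
    rw [sub_eq_add_neg, ← neg_smul, QuadraticMap.map_add (⇑Q), QuadraticMap.map_add (⇑Q),
      QuadraticMap.map_smul, hQe, hQf, hae, QuadraticMap.polar_smul_right,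
      QuadraticMap.polar_add_left, haf, hef]
    simp
  rcases h0 with h0 | h0
  · left
    intro a ha
    obtain ⟨s, hs, e, he, f, hf, c, hQs, hQe, hQf, hae⟩ := hdecomp a ha
    have hsing : ∀ x ∈ W', Q x = 0 → (g : Matrix ι ι F) *ᵥ x ∈ W := fun x hx hQx => by
      by_cases hx0 : x = 0
      · rw [hx0, Matrix.mulVec_zero]
        exact W.zero_mem
      · exact (key x hx hQx hx0).1 h0
    rw [hae, Matrix.mulVec_add, Matrix.mulVec_sub, Matrix.mulVec_smul]
    exact W.add_mem (W.sub_mem (hsing s hs hQs) (hsing e he hQe)) (W.smul_mem _ (hsing f hf hQf))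
  · right
    intro a ha
    obtain ⟨s, hs, e, he, f, hf, c, hQs, hQe, hQf, hae⟩ := hdecomp a ha
    have hsing : ∀ x ∈ W', Q x = 0 → (g : Matrix ι ι F) *ᵥ x ∈ W' := fun x hx hQx => by
      by_cases hx0 : x = 0
      · rw [hx0, Matrix.mulVec_zero]
        exact W'.zero_mem
      · exact (key x hx hQx hx0).2 h0
    rw [hae, Matrix.mulVec_add, Matrix.mulVec_sub, Matrix.mulVec_smul]
    exact W'.add_mem (W'.sub_mem (hsing s hs hQs) (hsing e he hQe))
      (W'.smul_mem _ (hsing f hf hQf))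

include hQ hperp in
/-- Eichler maps with both vectors in the second summand fix the first summand pointwise -/
theorem HasW' (M' : Subgroup ↥(Cfsg.isometryGroup F (⇑Q))) (h5 : 5 ≤ Fintype.card ι)
    (hH : ∀ g ∈ Cfsg.Omega F (⇑Q),
      (∀ w ∈ W, ((g : Matrix.GeneralLinearGroup ι F) : Matrix ι ι F) *ᵥ w ∈ W) → g ∈ M') :
    ∀ x ∈ W', ∀ y ∈ W', Q x = 0 → Bp y x = 0 → Has Q M' x y := by
  intro x hx y hy hQx hyx
  obtain ⟨g, hg, hgx⟩ := eich_exists' Q hQ h5 x y hQx hyx
  refine ⟨g, hH g hg (fun w hw => ?_), hgx⟩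
  rw [hgx]
  unfold eichF
  rw [QuadraticMap.polar_comm (⇑Q) x w, hperp w hw x hx, QuadraticMap.polar_comm (⇑Q) y w,
    hperp w hw y hy]
  simp only [zero_smul, mul_zero, add_zero, sub_zero]
  exact hw

include hQ in
/-- Eichler maps with both vectors in the first summand stabilise it -/
theorem HasW (M' : Subgroup ↥(Cfsg.isometryGroup F (⇑Q))) (h5 : 5 ≤ Fintype.card ι)
    (hH : ∀ g ∈ Cfsg.Omega F (⇑Q),
      (∀ w ∈ W, ((g : Matrix.GeneralLinearGroup ι F) : Matrix ι ι F) *ᵥ w ∈ W) → g ∈ M') :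
    ∀ x ∈ W, ∀ y ∈ W, Q x = 0 → Bp y x = 0 → Has Q M' x y := by
  intro x hx y hy hQx hyx
  obtain ⟨g, hg, hgx⟩ := eich_exists' Q hQ h5 x y hQx hyx
  refine ⟨g, hH g hg (fun w hw => ?_), hgx⟩
  rw [hgx]
  unfold eichF
  exact W.sub_mem (W.sub_mem (W.add_mem hw (W.smul_mem _ hy)) (W.smul_mem _ hx))
    (W.smul_mem _ hx)

include hperp in
omit [Fintype F] in
/-- conjugating an Eichler map of the second summand by an Eichler map of a mixed line -/
theorem core (M' : Subgroup ↥(Cfsg.isometryGroup F (⇑Q)))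
    (hHa : ∀ x ∈ W', ∀ y ∈ W', Q x = 0 → Bp y x = 0 → Has Q M' x y)
    {pW p' qW q' u y : ι → F} (hpW : pW ∈ W) (hp' : p' ∈ W') (hqW : qW ∈ W) (hq' : q' ∈ W')
    (hQq : Q (qW + q') = 0) (hHas : Has Q M' (pW + p') (qW + q'))
    (hu : u ∈ W') (hQu : Q u = 0) (hup : Bp u p' = 0) (huq : Bp u q' = 0) (hy : y ∈ W')
    (hyu : Bp u y = 0) (c : F) :
    Has Q M' u (c • (Bp p' y • qW - Bp q' y • pW)) := by
  obtain ⟨g, hg, hgx⟩ := hHas
  have hupW : Bp u pW = 0 := by rw [QuadraticMap.polar_comm]; exact hperp pW hpW u hu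
  have huqW : Bp u qW = 0 := by rw [QuadraticMap.polar_comm]; exact hperp qW hqW u hu
  have hpu : Bp (pW + p') u = 0 := by
    rw [QuadraticMap.polar_add_left, hperp pW hpW u hu, QuadraticMap.polar_comm (⇑Q) p' u, hup,
      add_zero]
  have hqu : Bp (qW + q') u = 0 := by
    rw [QuadraticMap.polar_add_left, hperp qW hqW u hu, QuadraticMap.polar_comm (⇑Q) q' u, huq,
      add_zero]
  have hpy : Bp (pW + p') y = Bp p' y := by
    rw [QuadraticMap.polar_add_left, hperp pW hpW y hy, zero_add]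
  have hqy : Bp (qW + q') y = Bp q' y := by
    rw [QuadraticMap.polar_add_left, hperp qW hqW y hy, zero_add]
  obtain ⟨a₂, ha₂def⟩ : ∃ a₂ : ι → F, a₂ = y + Bp p' y • q' - Bp q' y • p' := ⟨_, rfl⟩
  have ha₂W' : a₂ ∈ W' := by
    rw [ha₂def]
    exact W'.sub_mem (W'.add_mem hy (W'.smul_mem _ hq')) (W'.smul_mem _ hp')
  have hua₂ : Bp u a₂ = 0 := by
    rw [ha₂def, QuadraticMap.polar_sub_right, QuadraticMap.polar_add_right,
      QuadraticMap.polar_smul_right, QuadraticMap.polar_smul_right, hyu, huq, hup]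
    simp
  have h1 := Has_conj Q M' g hg (hHa u hu (c • y) (W'.smul_mem _ hy) hQu
    (by rw [QuadraticMap.polar_smul_left, QuadraticMap.polar_comm (⇑Q) y u, hyu, smul_zero]))
  have e1 : ((g : Matrix.GeneralLinearGroup ι F) : Matrix ι ι F) *ᵥ u = u := by
    rw [hgx]
    unfold eichF
    rw [hpu, hqu]
    simp
  have e2 : ((g : Matrix.GeneralLinearGroup ι F) : Matrix ι ι F) *ᵥ (c • y)
      = c • (Bp p' y • qW - Bp q' y • pW) + c • a₂ := by
    rw [hgx]
    unfold eichF
    rw [hQq, QuadraticMap.polar_smul_right, QuadraticMap.polar_smul_right, hpy, hqy, ha₂def]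
    simp only [smul_eq_mul, zero_mul, zero_smul, sub_zero]
    module
  rw [e1, e2] at h1
  have h2 : Has Q M' u (c • a₂) := hHa u hu (c • a₂) (W'.smul_mem _ ha₂W') hQu
    (by rw [QuadraticMap.polar_smul_left, QuadraticMap.polar_comm (⇑Q) a₂ u, hua₂, smul_zero])
  have hua₂' : Bp u (c • a₂) = 0 := by rw [QuadraticMap.polar_smul_right, hua₂, smul_zero]
  have h3 := Has_neg Q M' hQu hua₂' h2
  have hua₁ : Bp u (c • (Bp p' y • qW - Bp q' y • pW)) = 0 := by
    rw [QuadraticMap.polar_smul_right, QuadraticMap.polar_sub_right,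
      QuadraticMap.polar_smul_right, QuadraticMap.polar_smul_right, huqW, hupW]
    simp
  have h4 := Has_add Q M' hQu
    (by rw [QuadraticMap.polar_add_right, hua₁, hua₂', add_zero])
    (by rw [QuadraticMap.polar_neg_right, hua₂', neg_zero]) h1 h3
  rwa [add_neg_cancel_right] at h4

include hQ hperp hsup in
/-- two hyperbolic partners of the second summand with Eichler maps along a vector of the first -/
theorem core2 (M' : Subgroup ↥(Cfsg.isometryGroup F (⇑Q))) (h7 : 7 ≤ Module.finrank F W')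
    (hHa : ∀ x ∈ W', ∀ y ∈ W', Q x = 0 → Bp y x = 0 → Has Q M' x y)
    {pW p' qW q' : ι → F} (hpW : pW ∈ W) (hp' : p' ∈ W') (hqW : qW ∈ W) (hq' : q' ∈ W')
    (hQq : Q (qW + q') = 0) (hHas : Has Q M' (pW + p') (qW + q')) (hp'0 : p' ≠ 0)
    (hne : ∀ β : F, qW - β • pW ≠ 0) :
    ∃ u ∈ W', ∃ u' ∈ W', Q u = 0 ∧ Q u' = 0 ∧ Bp u u' ≠ 0 ∧
      (∃ a ∈ W, a ≠ 0 ∧ ∀ c : F, Has Q M' u (c • a)) ∧
      (∃ a ∈ W, a ≠ 0 ∧ ∀ c : F, Has Q M' u' (c • a)) := by
  classical
  obtain ⟨u, hu, u', hu', hQu, hQu', huu', hup, huq, hu'p, hu'q⟩ :=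
    sub_hyp Q hQ W W' hperp hsup h7 p' q' hp' hq'
  have key : ∀ v ∈ W', ∀ v' : ι → F, Q v = 0 → Bp v' v = 1 → Bp v p' = 0 → Bp v q' = 0 →
      Bp v' p' = 0 → ∃ a ∈ W, a ≠ 0 ∧ ∀ c : F, Has Q M' v (c • a) := by
    intro v hv v' hQv hv'v hvp hvq hv'p
    have hn : p' ∉ Submodule.span F {v} := by
      intro h
      obtain ⟨c, hc⟩ := Submodule.mem_span_singleton.mp h
      rw [← hc, QuadraticMap.polar_smul_right, hv'v, smul_eq_mul, mul_one] at hv'p
      rw [hv'p, zero_smul] at hc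
      exact hp'0 hc.symm
    have hS : Submodule.span F {v} ≤ W' := by
      rw [Submodule.span_le]
      intro z hz
      rw [Set.mem_singleton_iff] at hz
      rw [hz]
      exact hv
    obtain ⟨y, hy, hyS, hyp⟩ := sub_span_fun Q hQ W W' hperp hsup _ hS hp' hn
    have hvy : Bp v y = 0 := hyS v (Submodule.mem_span_singleton_self v)
    refine ⟨qW - Bp q' y • pW, W.sub_mem hqW (W.smul_mem _ hpW), hne _, fun c => ?_⟩
    have h := core Q W W' hperp M' hHa hpW hp' hqW hq' hQq hHas hv hQv hvp hvq hy hvy c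
    rw [hyp, one_smul] at h
    exact h
  exact ⟨u, hu, u', hu', hQu, hQu', by rw [huu']; exact one_ne_zero,
    key u hu u' hQu (by rw [QuadraticMap.polar_comm]; exact huu') hup huq hu'p,
    key u' hu' u hQu' huu' hu'p hu'q hup⟩

include hQ hperp hsup in
/-- a mixed totally singular line whose Eichler maps lie in `M'` yields a hyperbolic pair of the
second summand with Eichler maps along vectors of the first summand in `M'` -/
theorem progress (M' : Subgroup ↥(Cfsg.isometryGroup F (⇑Q))) (h7 : 7 ≤ Module.finrank F W')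
    (hHa : ∀ x ∈ W', ∀ y ∈ W', Q x = 0 → Bp y x = 0 → Has Q M' x y)
    {p q : ι → F} (hQp : Q p = 0) (hQq : Q q = 0)
    (hind : ∀ s t : F, s • p + t • q = 0 → s = 0 ∧ t = 0)
    (hM : ∀ s t s' t' : F, Has Q M' (s • p + t • q) (s' • p + t' • q))
    (hnW : ¬ (p ∈ W ∧ q ∈ W)) (hnW' : ¬ (p ∈ W' ∧ q ∈ W')) :
    ∃ u ∈ W', ∃ u' ∈ W', Q u = 0 ∧ Q u' = 0 ∧ Bp u u' ≠ 0 ∧
      (∃ a ∈ W, a ≠ 0 ∧ ∀ c : F, Has Q M' u (c • a)) ∧
      (∃ a ∈ W, a ≠ 0 ∧ ∀ c : F, Has Q M' u' (c • a)) := by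
  classical
  obtain ⟨pW, hpW, p', hp', hp⟩ := dec W W' hsup p
  obtain ⟨qW, hqW, q', hq', hq⟩ := dec W W' hsup q
  subst hp
  subst hq
  have hMpq : Has Q M' (pW + p') (qW + q') := by
    have h := hM 1 0 0 1
    rw [one_smul, zero_smul, add_zero, zero_smul, one_smul, zero_add] at h
    exact h
  have hMqp : Has Q M' (qW + q') (pW + p') := by
    have h := hM 0 1 1 0
    rw [zero_smul, one_smul, zero_add, one_smul, zero_smul, add_zero] at h
    exact h
  by_cases hI : ∀ s t : F, s • pW + t • qW = 0 → s = 0 ∧ t = 0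
  · by_cases hp'0 : p' = 0
    · have hq'0 : q' ≠ 0 := by
        intro h
        apply hnW
        rw [hp'0, h, add_zero, add_zero]
        exact ⟨hpW, hqW⟩
      refine core2 Q hQ W W' hperp hsup M' h7 hHa hqW hq' hpW hp' hQp hMqp hq'0 ?_
      intro β h
      have h1 := hI 1 (-β) (by rw [one_smul, neg_smul, ← sub_eq_add_neg]; exact h)
      exact one_ne_zero h1.1
    · refine core2 Q hQ W W' hperp hsup M' h7 hHa hpW hp' hqW hq' hQq hMpq hp'0 ?_
      intro β h
      have h1 := hI (-β) 1 (by rw [one_smul, neg_smul, neg_add_eq_sub]; exact h)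
      exact one_ne_zero h1.2
  · push Not at hI
    obtain ⟨s, t, hst, hne⟩ := hI
    have e : s • (pW + p') + t • (qW + q') = 0 + (s • p' + t • q') := by
      have e1 : s • (pW + p') + t • (qW + q') = (s • pW + t • qW) + (s • p' + t • q') := by
        module
      rw [e1, hst]
    have hmix0 : s • p' + t • q' ≠ 0 := by
      intro h
      rw [h, add_zero] at e
      obtain ⟨h1, h2⟩ := hind s t e
      exact hne h1 h2
    have hmixW' : s • p' + t • q' ∈ W' := W'.add_mem (W'.smul_mem _ hp') (W'.smul_mem _ hq')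
    by_cases hpW0 : pW = 0
    · have hqW0 : qW ≠ 0 := by
        intro h
        apply hnW'
        rw [hpW0, h, zero_add, zero_add]
        exact ⟨hp', hq'⟩
      refine core2 Q hQ W W' hperp hsup M' h7 hHa W.zero_mem hmixW' hqW hq' hQq ?_ hmix0 ?_
      · have h := hM s t 0 1
        rw [zero_smul, one_smul, zero_add, e] at h
        exact h
      · intro β h
        rw [smul_zero, sub_zero] at h
        exact hqW0 h
    · refine core2 Q hQ W W' hperp hsup M' h7 hHa W.zero_mem hmixW' hpW hp' hQp ?_ hmix0 ?_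
      · have h := hM s t 1 0
        rw [one_smul, zero_smul, add_zero, e] at h
        exact h
      · intro β h
        rw [smul_zero, sub_zero] at h
        exact hpW0 h

include hQ hperp hsup in
omit [DecidableEq ι] [Fintype F] in
/-- a nonzero vector of the second summand has a partner there -/
theorem partner : ∀ x ∈ W', x ≠ 0 → ∃ y ∈ W', Bp y x = 1 := by
  intro x hx hx0
  obtain ⟨y₀, hy₀, hxy₀⟩ : ∃ y₀ ∈ W', Bp x y₀ ≠ 0 := by
    by_contra hcon
    push Not at hcon
    exact hx0 (nd' Q hQ W W' hperp hsup x hx hcon)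
  refine ⟨(Bp x y₀)⁻¹ • y₀, W'.smul_mem _ hy₀, ?_⟩
  rw [QuadraticMap.polar_smul_left, QuadraticMap.polar_comm (⇑Q) y₀ x, smul_eq_mul,
    inv_mul_cancel₀ hxy₀]

include hQ hperp hsup in
omit [Fintype F] in
/-- a nonzero singular vector of the second summand has a partner of norm one there -/
theorem partner_ns : ∀ x ∈ W', x ≠ 0 → Q x = 0 → ∃ c ∈ W', Q c = 1 ∧ Bp c x = 1 := by
  intro x hx hx0 hQx
  obtain ⟨b, hb, hbx⟩ := partner Q hQ W W' hperp hsup x hx hx0
  have hxx : Bp x x = 0 := Cfsg.Agent.Lib.Helper3.polar_self_zero Q hQx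
  refine ⟨b + (1 - Q b) • x, W'.add_mem hb (W'.smul_mem _ hx), ?_, ?_⟩
  · rw [QuadraticMap.map_add (⇑Q), QuadraticMap.map_smul, hQx, QuadraticMap.polar_smul_right, hbx]
    simp
  · rw [QuadraticMap.polar_add_left, QuadraticMap.polar_smul_left, hbx, hxx]
    simp

include hQ hperp hsup in
/-- a nonzero subspace of the second summand invariant under its reflections and Eichler maps is
everything, with small exceptions -/
theorem irr (A : Submodule F (ι → F)) (hAW : A ≤ W') (hA0 : A ≠ ⊥)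
    (hrefl : ∀ c ∈ W', Q c ≠ 0 → ∀ w ∈ A, w - ((Q c)⁻¹ * Bp c w) • c ∈ A)
    (heich : ∀ x ∈ W', ∀ y ∈ W', Q x = 0 → Bp y x = 0 → ∀ w ∈ A, eichF Q x y w ∈ A)
    (hex : ¬ (Fintype.card F ≤ 3 ∧ Module.finrank F W' ≤ 2 ∧ ∃ x ∈ W', x ≠ 0 ∧ Q x = 0)) :
    W' ≤ A := by
  classical
  have link : ∀ a ∈ A, ∀ c ∈ W', Q c ≠ 0 → Bp c a ≠ 0 → c ∈ A := by
    intro a ha c hc hQc hca
    have h1 := hrefl c hc hQc a ha
    have h2 : ((Q c)⁻¹ * Bp c a) • c ∈ A := by
      have h3 := A.sub_mem ha h1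
      rwa [sub_sub_cancel] at h3
    have h3 := A.smul_mem ((Q c)⁻¹ * Bp c a)⁻¹ h2
    rwa [smul_smul, inv_mul_cancel₀ (mul_ne_zero (inv_ne_zero hQc) hca), one_smul] at h3
  have hsingle : ∀ v ∈ W', Submodule.span F {v} ≤ W' := by
    intro v hv
    rw [Submodule.span_le]
    intro z hz
    rw [Set.mem_singleton_iff] at hz
    rw [hz]
    exact hv
  -- a nonsingular vector of `A`
  obtain ⟨a, haA, hQa⟩ : ∃ a ∈ A, Q a ≠ 0 := by
    obtain ⟨a₁, ha₁, ha₁0⟩ := Submodule.exists_mem_ne_zero_of_ne_bot hA0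
    by_cases hQa₁ : Q a₁ ≠ 0
    · exact ⟨a₁, ha₁, hQa₁⟩
    push Not at hQa₁
    obtain ⟨c, hc, hQc, hca⟩ := partner_ns Q hQ W W' hperp hsup a₁ (hAW ha₁) ha₁0 hQa₁
    exact ⟨c, link a₁ ha₁ c hc (by rw [hQc]; exact one_ne_zero) (by rw [hca]; exact one_ne_zero),
      by rw [hQc]; exact one_ne_zero⟩
  have haW' : a ∈ W' := hAW haA
  -- all nonsingular vectors
  have hns : ∀ b ∈ W', Q b ≠ 0 → b ∈ A := by
    intro b hb hQb
    by_cases hab : Bp a b ≠ 0
    · exact link a haA b hb hQb (by rw [QuadraticMap.polar_comm]; exact hab)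
    push Not at hab
    have hba : Bp b a = 0 := by rw [QuadraticMap.polar_comm]; exact hab
    have via : ∀ d ∈ W', Q d ≠ 0 → Bp d a ≠ 0 → Bp b d ≠ 0 → b ∈ A := fun d hd hQd hda hbd =>
      link d (link a haA d hd hQd hda) b hb hQb hbd
    by_cases h2 : (2 : F) = 0
    · by_cases hdep : ∃ l : F, b = l • a
      · obtain ⟨l, rfl⟩ := hdep
        exact A.smul_mem _ haA
      push Not at hdep
      obtain ⟨y, hy, hay, hby⟩ : ∃ y ∈ W', Bp a y = 1 ∧ Bp b y = 1 := by
        have hna : a ∉ Submodule.span F {b} := by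
          intro h
          obtain ⟨c, hc⟩ := Submodule.mem_span_singleton.mp h
          have hc0 : c ≠ 0 := by
            intro h0
            rw [h0, zero_smul] at hc
            rw [← hc, map_zero] at hQa
            exact hQa rfl
          exact hdep c⁻¹ (by rw [← hc, smul_smul, inv_mul_cancel₀ hc0, one_smul])
        have hnb : b ∉ Submodule.span F {a} := by
          intro h
          obtain ⟨c, hc⟩ := Submodule.mem_span_singleton.mp h
          exact hdep c hc.symm
        obtain ⟨y₁, hy₁, hy₁S, hy₁a⟩ :=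
          sub_span_fun Q hQ W W' hperp hsup _ (hsingle b hb) haW' hna
        obtain ⟨y₂, hy₂, hy₂S, hy₂b⟩ :=
          sub_span_fun Q hQ W W' hperp hsup _ (hsingle a haW') hb hnb
        refine ⟨y₁ + y₂, W'.add_mem hy₁ hy₂, ?_, ?_⟩
        · rw [QuadraticMap.polar_add_right, hy₁a, hy₂S a (Submodule.mem_span_singleton_self a),
            add_zero]
        · rw [QuadraticMap.polar_add_right, hy₁S b (Submodule.mem_span_singleton_self b), hy₂b,
            zero_add]
      have haa : Bp a a = 0 := by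
        rw [QuadraticMap.polar_self, two_smul, ← two_mul, h2, zero_mul]
      by_cases hQab : Q a = Q b
      · have hQx : Q (a + b) = 0 := by
          rw [QuadraticMap.map_add (⇑Q), hab, ← hQab, add_zero, ← two_mul, h2, zero_mul]
        have hyx : Bp y (a + b) = 0 := by
          rw [QuadraticMap.polar_add_right, QuadraticMap.polar_comm (⇑Q) y a,
            QuadraticMap.polar_comm (⇑Q) y b, hay, hby, one_add_one_eq_two, h2]
        have h1 := heich (a + b) (W'.add_mem haW' hb) y hy hQx hyx a haA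
        have e : eichF Q (a + b) y a = -b := by
          unfold eichF
          rw [QuadraticMap.polar_add_left, haa, hba, QuadraticMap.polar_comm (⇑Q) y a, hay]
          simp
        rw [e] at h1
        have h3 := A.neg_mem h1
        rwa [neg_neg] at h3
      · by_cases hQy : Q y ≠ 0
        · exact via y hy hQy (by rw [QuadraticMap.polar_comm, hay]; exact one_ne_zero)
            (by rw [hby]; exact one_ne_zero)
        push Not at hQy
        refine via (y + (Q b)⁻¹ • a) (W'.add_mem hy (W'.smul_mem _ haW')) ?_ ?_ ?_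
        · rw [QuadraticMap.map_add (⇑Q), QuadraticMap.map_smul, hQy,
            QuadraticMap.polar_smul_right, QuadraticMap.polar_comm (⇑Q) y a, hay, zero_add,
            smul_eq_mul, smul_eq_mul, mul_one]
          intro h
          apply hQab
          have h3 : Q a + Q b = 0 := by
            have h4 : Q b * Q b * ((Q b)⁻¹ * (Q b)⁻¹ * Q a + (Q b)⁻¹) = 0 := by
              rw [h, mul_zero]
            have h5 : Q b * Q b * ((Q b)⁻¹ * (Q b)⁻¹ * Q a + (Q b)⁻¹) = Q a + Q b := by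
              field_simp
            rw [h5] at h4
            exact h4
          have h4 : Q b + Q b = 0 := by rw [← two_mul, h2, zero_mul]
          linear_combination h3 - h4
        · rw [QuadraticMap.polar_add_left, QuadraticMap.polar_smul_left, haa,
            QuadraticMap.polar_comm (⇑Q) y a, hay]
          simp
        · rw [QuadraticMap.polar_add_right, QuadraticMap.polar_smul_right, hba, hby]
          simp
    · have haa : Bp a a = 2 * Q a := Cfsg.Agent.Lib.Helper16.cd_polar_self Q a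
      have hbb : Bp b b = 2 * Q b := Cfsg.Agent.Lib.Helper16.cd_polar_self Q b
      have h2a : (2 : F) * Q a ≠ 0 := mul_ne_zero h2 hQa
      have h2b : (2 : F) * Q b ≠ 0 := mul_ne_zero h2 hQb
      have try_mu : ∀ μ : F, μ ≠ 0 → Q a + μ * μ * Q b ≠ 0 → b ∈ A := by
        intro μ hμ hne
        refine via (a + μ • b) (W'.add_mem haW' (W'.smul_mem _ hb)) ?_ ?_ ?_
        · rw [QuadraticMap.map_add (⇑Q), QuadraticMap.map_smul, QuadraticMap.polar_smul_right,
            hab, smul_zero, add_zero, smul_eq_mul]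
          exact hne
        · rw [QuadraticMap.polar_add_left, QuadraticMap.polar_smul_left, hba, haa, smul_zero,
            add_zero]
          exact h2a
        · rw [QuadraticMap.polar_add_right, QuadraticMap.polar_smul_right, hba, hbb, zero_add,
            smul_eq_mul]
          exact mul_ne_zero hμ h2b
      by_cases h1 : Q a + Q b ≠ 0
      · exact try_mu 1 one_ne_zero (by rw [mul_one, one_mul]; exact h1)
      push Not at h1
      by_cases hmu : ∃ μ : F, μ ≠ 0 ∧ μ * μ ≠ 1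
      · obtain ⟨μ, hμ0, hμ1⟩ := hmu
        refine try_mu μ hμ0 ?_
        intro h
        have h3 : (μ * μ - 1) * Q b = 0 := by linear_combination h - h1
        rcases mul_eq_zero.mp h3 with h' | h'
        · exact hμ1 (sub_eq_zero.mp h')
        · exact hQb h'
      push Not at hmu
      have hcard : Fintype.card F ≤ 3 := by
        have hsub : (Finset.univ : Finset F) ⊆ {0, 1, -1} := by
          intro μ _
          by_cases hμ : μ = 0
          · simp [hμ]
          · have h := hmu μ hμ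
            have h' : (μ - 1) * (μ + 1) = 0 := by linear_combination h
            rcases mul_eq_zero.mp h' with h'' | h''
            · have h3 : μ = 1 := sub_eq_zero.mp h''
              simp [h3]
            · have h3 : μ = -1 := eq_neg_of_add_eq_zero_left h''
              simp [h3]
        calc Fintype.card F = (Finset.univ : Finset F).card := Finset.card_univ.symm
          _ ≤ ({0, 1, -1} : Finset F).card := Finset.card_le_card hsub
          _ ≤ 3 := Finset.card_le_three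
      by_cases hc₀ : ∃ c₀ ∈ W', Q c₀ ≠ 0 ∧ Bp a c₀ = 0 ∧ Bp b c₀ = 0
      · obtain ⟨c₀, hc₀W, hQc₀, hac₀, hbc₀⟩ := hc₀
        refine via (a + b + c₀) (W'.add_mem (W'.add_mem haW' hb) hc₀W) ?_ ?_ ?_
        · rw [QuadraticMap.map_add (⇑Q), QuadraticMap.map_add (⇑Q) a b, hab, h1,
            QuadraticMap.polar_add_left, hac₀, hbc₀]
          simpa using hQc₀
        · rw [QuadraticMap.polar_add_left, QuadraticMap.polar_add_left, haa, hba,
            QuadraticMap.polar_comm (⇑Q) c₀ a, hac₀, add_zero, add_zero]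
          exact h2a
        · rw [QuadraticMap.polar_add_right, QuadraticMap.polar_add_right, hba, hbb, hbc₀,
            zero_add, add_zero]
          exact h2b
      · exfalso
        push Not at hc₀
        have hsing : ∀ z ∈ W', Bp a z = 0 → Bp b z = 0 → Q z = 0 := by
          intro z hz haz hbz
          by_contra hne
          exact hc₀ z hz hne haz hbz
        have proj : ∀ z ∈ W', ∃ z₀ ∈ W', ∃ α β : F, z = z₀ + α • a + β • b ∧ Bp a z₀ = 0 ∧
            Bp b z₀ = 0 := by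
          intro z hz
          refine ⟨z - ((2 * Q a)⁻¹ * Bp a z) • a - ((2 * Q b)⁻¹ * Bp b z) • b,
            W'.sub_mem (W'.sub_mem hz (W'.smul_mem _ haW')) (W'.smul_mem _ hb),
            (2 * Q a)⁻¹ * Bp a z, (2 * Q b)⁻¹ * Bp b z, by abel, ?_, ?_⟩
          · rw [QuadraticMap.polar_sub_right, QuadraticMap.polar_sub_right,
              QuadraticMap.polar_smul_right, QuadraticMap.polar_smul_right, haa, hab, smul_zero,
              sub_zero, smul_eq_mul, mul_comm ((2 * Q a)⁻¹) _, mul_assoc, inv_mul_cancel₀ h2a,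
              mul_one, sub_self]
          · rw [QuadraticMap.polar_sub_right, QuadraticMap.polar_sub_right,
              QuadraticMap.polar_smul_right, QuadraticMap.polar_smul_right, hbb, hba, smul_zero,
              sub_zero, smul_eq_mul, mul_comm ((2 * Q b)⁻¹) _, mul_assoc, inv_mul_cancel₀ h2b,
              mul_one, sub_self]
        apply hex
        refine ⟨hcard, ?_, a + b, W'.add_mem haW' hb, ?_, ?_⟩
        · have hle : W' ≤ Submodule.span F {a, b} := by
            intro w hw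
            obtain ⟨w₀, hw₀W, α, β, hw, haw₀, hbw₀⟩ := proj w hw
            have hw₀0 : w₀ = 0 := by
              apply nd' Q hQ W W' hperp hsup w₀ hw₀W
              intro z hz
              obtain ⟨z₀, hz₀W, α', β', hz, haz₀, hbz₀⟩ := proj z hz
              rw [hz, QuadraticMap.polar_add_right, QuadraticMap.polar_add_right,
                QuadraticMap.polar_smul_right, QuadraticMap.polar_smul_right,
                QuadraticMap.polar_comm (⇑Q) w₀ a, haw₀, QuadraticMap.polar_comm (⇑Q) w₀ b, hbw₀,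
                smul_zero, smul_zero, add_zero, add_zero]
              have h3 : Q (w₀ + z₀) = 0 := hsing _ (W'.add_mem hw₀W hz₀W)
                (by rw [QuadraticMap.polar_add_right, haw₀, haz₀, add_zero])
                (by rw [QuadraticMap.polar_add_right, hbw₀, hbz₀, add_zero])
              have h4 := QuadraticMap.map_add (⇑Q) w₀ z₀
              rw [h3, hsing w₀ hw₀W haw₀ hbw₀, hsing z₀ hz₀W haz₀ hbz₀, zero_add, zero_add] at h4
              exact h4.symm
            rw [hw, hw₀0, zero_add]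
            exact Submodule.add_mem _ (Submodule.smul_mem _ _ (Submodule.subset_span (by simp)))
              (Submodule.smul_mem _ _ (Submodule.subset_span (by simp)))
          exact (Submodule.finrank_mono hle).trans (finrank_span_pair a b)
        · intro h
          have hb' : b = -a := eq_neg_of_add_eq_zero_right h
          rw [hb', QuadraticMap.polar_neg_right, haa] at hab
          exact h2a (neg_eq_zero.mp hab)
        · rw [QuadraticMap.map_add (⇑Q), hab, add_zero]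
          exact h1
  -- all singular vectors
  have hsg : ∀ x ∈ W', Q x = 0 → x ∈ A := by
    intro x hx hQx
    by_cases hx0 : x = 0
    · rw [hx0]
      exact A.zero_mem
    have hxx : Bp x x = 0 := Cfsg.Agent.Lib.Helper3.polar_self_zero Q hQx
    obtain ⟨y₀, hy₀, hy₀x⟩ := partner Q hQ W W' hperp hsup x hx hx0
    by_cases h3 : 2 < Fintype.card F
    · obtain ⟨l₁, l₂, l₃, h12, h13, h23⟩ := Fintype.two_lt_card_iff.mp h3
      have hl : ∀ l : F, l + Q y₀ ≠ 0 → l • x + y₀ ∈ A := by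
        intro l hl
        apply hns _ (W'.add_mem (W'.smul_mem _ hx) hy₀)
        rw [QuadraticMap.map_add (⇑Q), QuadraticMap.map_smul, hQx, QuadraticMap.polar_smul_left,
          QuadraticMap.polar_comm (⇑Q) x y₀, hy₀x]
        intro h
        apply hl
        rw [← h]
        simp [add_comm]
      have hfin : ∀ l l' : F, l ≠ l' → l + Q y₀ ≠ 0 → l' + Q y₀ ≠ 0 → x ∈ A := by
        intro l l' hll h h'
        have h1 := A.sub_mem (hl l h) (hl l' h')
        have e : l • x + y₀ - (l' • x + y₀) = (l - l') • x := by module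
        rw [e] at h1
        have h2 := A.smul_mem (l - l')⁻¹ h1
        rwa [smul_smul, inv_mul_cancel₀ (sub_ne_zero.mpr hll), one_smul] at h2
      by_cases e1 : l₁ + Q y₀ = 0
      · have e2 : l₂ + Q y₀ ≠ 0 := fun h => h12 (by linear_combination e1 - h)
        have e3 : l₃ + Q y₀ ≠ 0 := fun h => h13 (by linear_combination e1 - h)
        exact hfin l₂ l₃ h23 e2 e3
      · by_cases e2 : l₂ + Q y₀ = 0
        · have e3 : l₃ + Q y₀ ≠ 0 := fun h => h23 (by linear_combination e2 - h)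
          exact hfin l₁ l₃ h13 e1 e3
        · exact hfin l₁ l₂ h12 e1 e2
    · have hfr : 2 < Module.finrank F W' := by
        by_contra hcon
        exact hex ⟨by omega, by omega, x, hx, hx0, hQx⟩
      -- a singular partner
      obtain ⟨y, hy, hQy, hyx⟩ : ∃ y ∈ W', Q y = 0 ∧ Bp y x = 1 := by
        refine ⟨y₀ - Q y₀ • x, W'.sub_mem hy₀ (W'.smul_mem _ hx), ?_, ?_⟩
        · rw [sub_eq_add_neg, ← neg_smul, QuadraticMap.map_add (⇑Q), QuadraticMap.map_smul, hQx,
            QuadraticMap.polar_smul_right, hy₀x]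
          simp
        · rw [QuadraticMap.polar_sub_left, QuadraticMap.polar_smul_left, hy₀x, hxx]
          simp
      have hyy : Bp y y = 0 := Cfsg.Agent.Lib.Helper3.polar_self_zero Q hQy
      have hxy : Bp x y = 1 := by rw [QuadraticMap.polar_comm]; exact hyx
      have proj : ∀ z ∈ W', ∃ z₀ ∈ W', Bp x z₀ = 0 ∧ Bp y z₀ = 0 ∧
          z₀ = z - Bp y z • x - Bp x z • y := by
        intro z hz
        refine ⟨z - Bp y z • x - Bp x z • y,
          W'.sub_mem (W'.sub_mem hz (W'.smul_mem _ hx)) (W'.smul_mem _ hy), ?_, ?_, rfl⟩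
        · rw [QuadraticMap.polar_sub_right, QuadraticMap.polar_sub_right,
            QuadraticMap.polar_smul_right, QuadraticMap.polar_smul_right, hxx, hxy]
          simp
        · rw [QuadraticMap.polar_sub_right, QuadraticMap.polar_sub_right,
            QuadraticMap.polar_smul_right, QuadraticMap.polar_smul_right, hyy, hyx]
          simp
      obtain ⟨z, hzW, hzn⟩ := exists_not_mem (Submodule.span F {x, y}) W'
        (lt_of_le_of_lt (finrank_span_pair x y) hfr)
      obtain ⟨z₀, hz₀W, hxz₀, hyz₀, hz₀def⟩ := proj z hzW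
      have hz₀0 : z₀ ≠ 0 := by
        intro h
        apply hzn
        rw [h] at hz₀def
        have e : z = Bp y z • x + Bp x z • y := by
          have h4 : z - Bp y z • x - Bp x z • y + (Bp y z • x + Bp x z • y) = z := by abel
          rw [← hz₀def, zero_add] at h4
          exact h4.symm
        rw [e]
        exact Submodule.add_mem _ (Submodule.smul_mem _ _ (Submodule.subset_span (by simp)))
          (Submodule.smul_mem _ _ (Submodule.subset_span (by simp)))
      obtain ⟨c, hcW, hQc, hxc⟩ : ∃ c ∈ W', Q c ≠ 0 ∧ Bp x c = 0 := by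
        by_cases hQz₀ : Q z₀ ≠ 0
        · exact ⟨z₀, hz₀W, hQz₀, hxz₀⟩
        push Not at hQz₀
        obtain ⟨z₁, hz₁W, hz₁z₀⟩ := partner Q hQ W W' hperp hsup z₀ hz₀W hz₀0
        obtain ⟨z₂, hz₂W, hxz₂, hyz₂, hz₂def⟩ := proj z₁ hz₁W
        have hz₂z₀ : Bp z₂ z₀ = 1 := by
          rw [hz₂def, QuadraticMap.polar_sub_left, QuadraticMap.polar_sub_left,
            QuadraticMap.polar_smul_left, QuadraticMap.polar_smul_left, hz₁z₀, hxz₀, hyz₀]
          simp
        refine ⟨z₂ + (1 - Q z₂) • z₀, W'.add_mem hz₂W (W'.smul_mem _ hz₀W), ?_, ?_⟩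
        · have h4 : Q (z₂ + (1 - Q z₂) • z₀) = 1 := by
            rw [QuadraticMap.map_add (⇑Q), QuadraticMap.map_smul, hQz₀,
              QuadraticMap.polar_smul_right, hz₂z₀]
            simp
          rw [h4]
          exact one_ne_zero
        · rw [QuadraticMap.polar_add_right, QuadraticMap.polar_smul_right, hxz₂, hxz₀]
          simp
      have h5 : x + c ∈ A := by
        apply hns _ (W'.add_mem hx hcW)
        rw [QuadraticMap.map_add (⇑Q), hQx, hxc, zero_add, add_zero]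
        exact hQc
      have h6 := A.sub_mem h5 (hns c hcW hQc)
      rwa [add_sub_cancel_right] at h6
  intro w hw
  by_cases hQw : Q w = 0
  · exact hsg w hw hQw
  · exact hns w hw hQw

include hQ hperp hsup in
/-- a singular vector of the second summand with Eichler maps along a nonzero vector of the
first summand has all its Eichler maps in `M'` -/
theorem sc_of_has (M' : Subgroup ↥(Cfsg.isometryGroup F (⇑Q))) (h7 : 7 ≤ Module.finrank F W')
    (hH : ∀ g ∈ Cfsg.Omega F (⇑Q),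
      (∀ w ∈ W, ((g : Matrix.GeneralLinearGroup ι F) : Matrix ι ι F) *ᵥ w ∈ W) → g ∈ M')
    (hexW : ¬ (Fintype.card F ≤ 3 ∧ Module.finrank F W ≤ 2 ∧ ∃ x ∈ W, x ≠ 0 ∧ Q x = 0))
    {u a₁ : ι → F} (hu : u ∈ W') (hQu : Q u = 0) (ha₁ : a₁ ∈ W) (ha₁0 : a₁ ≠ 0)
    (hHas : ∀ c : F, Has Q M' u (c • a₁)) : u ∈ Sc Q M' := by
  classical
  have hcard : 7 ≤ Fintype.card ι := by
    have h := Submodule.finrank_le W'
    rw [Module.finrank_fintype_fun_eq_card] at h
    omega
  have hex : Fintype.card F ≠ 2 ∨ Fintype.card ι ≠ 4 := Or.inr (by omega)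
  have hperp' : ∀ w' ∈ W', ∀ w ∈ W, Bp w' w = 0 := fun w' hw' w hw => by
    rw [QuadraticMap.polar_comm]
    exact hperp w hw w' hw'
  have hsup' : W' ⊔ W = ⊤ := by rw [sup_comm]; exact hsup
  have hHa := HasW' Q hQ W W' hperp M' (by omega) hH
  have hHw := HasW Q hQ W M' (by omega) hH
  have huW : ∀ w ∈ W, Bp u w = 0 := fun w hw => hperp' u hu w hw
  let A : Submodule F (ι → F) :=
    { carrier := {w | w ∈ W ∧ ∀ c : F, Has Q M' u (c • w)}
      add_mem' := by
        intro x y hx hy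
        refine ⟨W.add_mem hx.1 hy.1, fun c => ?_⟩
        rw [smul_add]
        exact Has_add Q M' hQu (by rw [QuadraticMap.polar_smul_right, huW x hx.1, smul_zero])
          (by rw [QuadraticMap.polar_smul_right, huW y hy.1, smul_zero]) (hx.2 c) (hy.2 c)
      zero_mem' := by
        refine ⟨W.zero_mem, fun c => ⟨1, M'.one_mem, fun x => ?_⟩⟩
        rw [isomG_one_coe, Matrix.one_mulVec, smul_zero, eich_zero]
      smul_mem' := by
        intro l x hx
        refine ⟨W.smul_mem _ hx.1, fun c => ?_⟩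
        rw [smul_smul]
        exact hx.2 (c * l) }
  have hAmem : ∀ w, w ∈ A ↔ (w ∈ W ∧ ∀ c : F, Has Q M' u (c • w)) := fun w => Iff.rfl
  have hAW : A ≤ W := fun w hw => ((hAmem w).mp hw).1
  have hA0 : A ≠ ⊥ := by
    intro h
    have h1 : a₁ ∈ A := (hAmem a₁).mpr ⟨ha₁, hHas⟩
    rw [h] at h1
    exact ha₁0 ((Submodule.mem_bot F).mp h1)
  have hrefl : ∀ c ∈ W, Q c ≠ 0 → ∀ w ∈ A, w - ((Q c)⁻¹ * Bp c w) • c ∈ A := by
    intro c₀ hc₀ hQc₀ w hw
    obtain ⟨hwW, hwH⟩ := (hAmem w).mp hw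
    obtain ⟨d, hd, hQd, hdv⟩ := sub_rep Q hQ W W' hperp hsup ![u] (by omega) (Q c₀)
    have hud : Bp u d = 0 := hdv 0
    have hQd' : Q d ≠ 0 := by rw [hQd]; exact hQc₀
    obtain ⟨g, hgdef⟩ : ∃ g : ↥(Cfsg.isometryGroup F (⇑Q)),
        g = reflG Q c₀ hQc₀ * reflG Q d hQd' := ⟨_, rfl⟩
    have hmem : g ∈ Cfsg.Omega F (⇑Q) := by
      rw [hgdef]
      exact refl_pair_mem_omega Q hQ hex hQc₀ hQd' ⟨Q c₀, by rw [hQd]⟩
    have hact : ∀ x : ι → F, ((g : Matrix.GeneralLinearGroup ι F) : Matrix ι ι F) *ᵥ x =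
        (x - ((Q d)⁻¹ * Bp d x) • d) - ((Q c₀)⁻¹ * Bp c₀ (x - ((Q d)⁻¹ * Bp d x) • d)) • c₀ := by
      intro x
      rw [hgdef]
      exact Cfsg.Agent.S5676.rr_mulVec Q hQc₀ hQd' x
    have hactW : ∀ x ∈ W, ((g : Matrix.GeneralLinearGroup ι F) : Matrix ι ι F) *ᵥ x =
        x - ((Q c₀)⁻¹ * Bp c₀ x) • c₀ := by
      intro x hx
      rw [hact, hperp' d hd x hx]
      simp
    have hgM : g ∈ M' := hH g hmem (fun x hx => by
      rw [hactW x hx]
      exact W.sub_mem hx (W.smul_mem _ hc₀))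
    have hactu : ((g : Matrix.GeneralLinearGroup ι F) : Matrix ι ι F) *ᵥ u = u := by
      rw [hact, QuadraticMap.polar_comm (⇑Q) d u, hud]
      simp only [mul_zero, zero_smul, sub_zero]
      rw [hperp c₀ hc₀ u hu]
      simp
    refine (hAmem _).mpr ⟨W.sub_mem hwW (W.smul_mem _ hc₀), fun c => ?_⟩
    have h1 := Has_conj Q M' g hgM (hwH c)
    rw [hactu, Matrix.mulVec_smul, hactW w hwW] at h1
    exact h1
  have heich : ∀ x ∈ W, ∀ y ∈ W, Q x = 0 → Bp y x = 0 → ∀ w ∈ A, eichF Q x y w ∈ A := by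
    intro x hx y hy hQx hyx w hw
    obtain ⟨hwW, hwH⟩ := (hAmem w).mp hw
    obtain ⟨g, hg, hgx⟩ := hHw x hx y hy hQx hyx
    have hgu : ((g : Matrix.GeneralLinearGroup ι F) : Matrix ι ι F) *ᵥ u = u := by
      rw [hgx]
      unfold eichF
      rw [hperp x hx u hu, hperp y hy u hu]
      simp
    refine (hAmem _).mpr ⟨?_, fun c => ?_⟩
    · unfold eichF
      exact W.sub_mem (W.sub_mem (W.add_mem hwW (W.smul_mem _ hy)) (W.smul_mem _ hx))
        (W.smul_mem _ hx)
    · have h1 := Has_conj Q M' g hg (hwH c)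
      rw [hgu, Matrix.mulVec_smul, hgx] at h1
      exact h1
  have hall := irr Q hQ W' W hperp' hsup' A hAW hA0 hrefl heich hexW
  refine ⟨hQu, fun l a hQa hau => ?_⟩
  obtain ⟨aW, haW, a', ha', rfl⟩ := dec W W' hsup a
  have hua' : Bp u a' = 0 := by
    rw [QuadraticMap.polar_add_left, hperp aW haW u hu, zero_add] at hau
    rw [QuadraticMap.polar_comm]
    exact hau
  have h1 : Has Q M' u (l • aW) := ((hAmem aW).mp (hall haW)).2 l
  have h2 : Has Q M' u (l • a') := hHa u hu (l • a') (W'.smul_mem _ ha') hQu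
    (by rw [QuadraticMap.polar_smul_left, QuadraticMap.polar_comm (⇑Q) a' u, hua', smul_zero])
  have h3 := Has_add Q M' hQu (by rw [QuadraticMap.polar_smul_right, huW aW haW, smul_zero])
    (by rw [QuadraticMap.polar_smul_right, hua', smul_zero]) h1 h2
  rw [← smul_add] at h3
  obtain ⟨g, hg, hgx⟩ := h3
  exact ⟨g, hg, fun x => by rw [hgx, eich_smul]⟩

include hQ hperp hsup in
/-- the stabiliser of a nondegenerate subspace is maximal in the commutator subgroup, provided
the orthogonal complement is large and is not mapped into the subspace -/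
theorem ns_max (hW0 : W ≠ ⊥) (h7 : 7 ≤ Module.finrank F W')
    (hexW : ¬ (Fintype.card F ≤ 3 ∧ Module.finrank F W ≤ 2 ∧ ∃ x ∈ W, x ≠ 0 ∧ Q x = 0))
    (hns : ∀ g : Matrix.GeneralLinearGroup ι F, g ∈ Geo.omegaGL (⇑Q) →
      ¬ ∀ x ∈ W', (g : Matrix ι ι F) *ᵥ x ∈ W) :
    Geo.IsMaximalIn (Geo.omegaGL (⇑Q)) (Geo.subspaceStabilizer W ⊓ Geo.omegaGL (⇑Q)) := by
  classical
  have hcard : 7 ≤ Fintype.card ι := by
    have h := Submodule.finrank_le W'
    rw [Module.finrank_fintype_fun_eq_card] at h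
    omega
  have hex : Fintype.card F ≠ 2 ∨ Fintype.card ι ≠ 4 := Or.inr (by omega)
  have hperp' : ∀ w' ∈ W', ∀ w ∈ W, Bp w' w = 0 := fun w' hw' w hw => by
    rw [QuadraticMap.polar_comm]
    exact hperp w hw w' hw'
  have hsup' : W' ⊔ W = ⊤ := by rw [sup_comm]; exact hsup
  have hfix : ∀ g : ↥(Cfsg.isometryGroup F (⇑Q)), g ∈ Cfsg.Omega F (⇑Q) →
      (∀ w ∈ W, ((g : Matrix.GeneralLinearGroup ι F) : Matrix ι ι F) *ᵥ w ∈ W) →
      (g : Matrix.GeneralLinearGroup ι F) ∈ Geo.subspaceStabilizer W ⊓ Geo.omegaGL (⇑Q) :=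
    fun g hg h => ⟨Cfsg.Agent.S5678.stab_of_maps _ _ h, Subgroup.mem_map.mpr ⟨g, hg, rfl⟩⟩
  refine ⟨lt_of_le_of_ne inf_le_right ?_, ?_⟩
  · intro heq
    obtain ⟨u, huW', hu0, hQu, -⟩ := sub_sing Q hQ W W' hperp hsup (![] : Fin 0 → (ι → F))
      (by omega)
    obtain ⟨a, haW, hQa⟩ : ∃ a ∈ W, Q a ≠ 0 := by
      obtain ⟨w₁, hw₁, hw₁0⟩ := Submodule.exists_mem_ne_zero_of_ne_bot hW0
      by_cases hQw : Q w₁ ≠ 0
      · exact ⟨w₁, hw₁, hQw⟩
      push Not at hQw
      obtain ⟨c, hc, hQc, -⟩ := partner_ns Q hQ W' W hperp' hsup' w₁ hw₁ hw₁0 hQw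
      exact ⟨c, hc, by rw [hQc]; exact one_ne_zero⟩
    have ha0 : a ≠ 0 := by
      intro h
      rw [h, map_zero] at hQa
      exact hQa rfl
    obtain ⟨w₀, hw₀, hw₀a⟩ := partner Q hQ W' W hperp' hsup' a haW ha0
    have hau : Bp a u = 0 := hperp a haW u huW'
    obtain ⟨g, hg, hgx⟩ := eich_exists' Q hQ (by omega) u a hQu hau
    have hin : (g : Matrix.GeneralLinearGroup ι F) ∈ Geo.omegaGL (⇑Q) :=
      Subgroup.mem_map.mpr ⟨g, hg, rfl⟩
    rw [← heq] at hin
    have h1 : ((g : Matrix.GeneralLinearGroup ι F) : Matrix ι ι F) *ᵥ w₀ ∈ W :=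
      (hin.1 w₀).mp hw₀
    rw [hgx] at h1
    unfold eichF at h1
    rw [QuadraticMap.polar_comm (⇑Q) u w₀, hperp w₀ hw₀ u huW',
      QuadraticMap.polar_comm (⇑Q) a w₀, hw₀a] at h1
    simp only [zero_smul, mul_zero, add_zero, sub_zero, one_smul] at h1
    have h2 : u ∈ W := by
      have h3 := W.sub_mem hw₀ h1
      rwa [sub_sub_cancel] at h3
    exact hu0 (disj Q hQ W W' hperp hsup u h2 huW')
  · intro M hHM hMΩ
    by_cases hMH : M = Geo.subspaceStabilizer W ⊓ Geo.omegaGL (⇑Q)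
    · exact Or.inl hMH
    right
    apply le_antisymm hMΩ
    obtain ⟨M', hM'def⟩ : ∃ M' : Subgroup ↥(Cfsg.isometryGroup F (⇑Q)),
        M' = M.comap (Cfsg.isometryGroup F (⇑Q)).subtype := ⟨_, rfl⟩
    have hM' : ∀ g : ↥(Cfsg.isometryGroup F (⇑Q)),
        g ∈ M' ↔ (g : Matrix.GeneralLinearGroup ι F) ∈ M := fun g => by
      rw [hM'def]
      rfl
    have hH : ∀ g ∈ Cfsg.Omega F (⇑Q),
        (∀ w ∈ W, ((g : Matrix.GeneralLinearGroup ι F) : Matrix ι ι F) *ᵥ w ∈ W) → g ∈ M' :=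
      fun g hg h => (hM' g).mpr (hHM (hfix g hg h))
    have hHa := HasW' Q hQ W W' hperp M' (by omega) hH
    obtain ⟨g₀, hg₀M, hg₀H⟩ : ∃ g₀ ∈ M, g₀ ∉ Geo.subspaceStabilizer W ⊓ Geo.omegaGL (⇑Q) := by
      by_contra hcon
      push Not at hcon
      exact hMH (le_antisymm hcon hHM)
    obtain ⟨g, hgΩ, rfl⟩ := Subgroup.mem_map.mp (hMΩ hg₀M)
    have hgM' : g ∈ M' := (hM' g).mpr hg₀M
    have hgW : ¬ ∀ w ∈ W, ((g : Matrix.GeneralLinearGroup ι F) : Matrix ι ι F) *ᵥ w ∈ W :=
      fun h => hg₀H (hfix g hgΩ h)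
    have hgW' : ¬ ∀ x ∈ W', ((g : Matrix.GeneralLinearGroup ι F) : Matrix ι ι F) *ᵥ x ∈ W' := by
      intro h
      apply hgW
      intro w hw
      apply perp_mem Q hQ W W' hperp hsup
      intro y hy
      have hmap := map_eq_of_maps (g : Matrix.GeneralLinearGroup ι F) W' W' h rfl
      have hy' : y ∈ W'.map (Matrix.toLin' ((g : Matrix.GeneralLinearGroup ι F) :
          Matrix ι ι F)) := by
        rw [hmap]
        exact hy
      obtain ⟨x, hx, rfl⟩ := Submodule.mem_map.mp hy'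
      rw [Matrix.toLin'_apply, isomG_polar]
      exact hperp w hw x hx
    have hgWW : ¬ ∀ x ∈ W', ((g : Matrix.GeneralLinearGroup ι F) : Matrix ι ι F) *ᵥ x ∈ W :=
      hns _ (hMΩ hg₀M)
    obtain ⟨x₀, hx₀, y₀, hy₀, hQx₀, hQy₀, hxy₀, hx₀0, hind₀, hmix⟩ : ∃ x₀ ∈ W', ∃ y₀ ∈ W',
        Q x₀ = 0 ∧ Q y₀ = 0 ∧ Bp x₀ y₀ = 0 ∧ x₀ ≠ 0 ∧ (∀ c : F, y₀ ≠ c • x₀) ∧
        ¬ ((((g : Matrix.GeneralLinearGroup ι F) : Matrix ι ι F) *ᵥ x₀ ∈ W ∧
            ((g : Matrix.GeneralLinearGroup ι F) : Matrix ι ι F) *ᵥ y₀ ∈ W) ∨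
          (((g : Matrix.GeneralLinearGroup ι F) : Matrix ι ι F) *ᵥ x₀ ∈ W' ∧
            ((g : Matrix.GeneralLinearGroup ι F) : Matrix ι ι F) *ᵥ y₀ ∈ W')) := by
      by_contra hcon
      have h3 := sides Q hQ W W' hperp hsup h7 (g : Matrix.GeneralLinearGroup ι F)
        (fun x hx y hy hQx hQy hxy hx0 hc => by
          by_contra h
          exact hcon ⟨x, hx, y, hy, hQx, hQy, hxy, hx0, hc, h⟩)
      rcases h3 with h | h
      · exact hgWW h
      · exact hgW' h
    obtain ⟨p, hpdef⟩ : ∃ p : ι → F,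
        p = ((g : Matrix.GeneralLinearGroup ι F) : Matrix ι ι F) *ᵥ x₀ := ⟨_, rfl⟩
    obtain ⟨q, hqdef⟩ : ∃ q : ι → F,
        q = ((g : Matrix.GeneralLinearGroup ι F) : Matrix ι ι F) *ᵥ y₀ := ⟨_, rfl⟩
    rw [← hpdef, ← hqdef] at hmix
    have hQp : Q p = 0 := by rw [hpdef, isomG_map]; exact hQx₀
    have hQq : Q q = 0 := by rw [hqdef, isomG_map]; exact hQy₀
    have hind : ∀ s t : F, s • p + t • q = 0 → s = 0 ∧ t = 0 := by
      intro s t h
      have h1 : ((g : Matrix.GeneralLinearGroup ι F) : Matrix ι ι F) *ᵥ (s • x₀ + t • y₀) = 0 := by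
        rw [Matrix.mulVec_add, Matrix.mulVec_smul, Matrix.mulVec_smul, ← hpdef, ← hqdef]
        exact h
      have h2 : s • x₀ + t • y₀ = 0 :=
        Cfsg.Agent.S5676.ginj (g : Matrix.GeneralLinearGroup ι F)
          (by rw [h1, Matrix.mulVec_zero])
      have ht : t = 0 := by
        by_contra ht
        apply hind₀ (-(t⁻¹ * s))
        have h3 : t • y₀ = -(s • x₀) := eq_neg_of_add_eq_zero_right h2
        calc y₀ = t⁻¹ • (t • y₀) := by rw [smul_smul, inv_mul_cancel₀ ht, one_smul]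
          _ = -(t⁻¹ * s) • x₀ := by rw [h3, smul_neg, smul_smul, neg_smul]
      rw [ht, zero_smul, add_zero] at h2
      rcases smul_eq_zero.mp h2 with h3 | h3
      · exact ⟨h3, ht⟩
      · exact absurd h3 hx₀0
    have hxx : Bp x₀ x₀ = 0 := Cfsg.Agent.Lib.Helper3.polar_self_zero Q hQx₀
    have hyy : Bp y₀ y₀ = 0 := Cfsg.Agent.Lib.Helper3.polar_self_zero Q hQy₀
    have hyx : Bp y₀ x₀ = 0 := by rw [QuadraticMap.polar_comm]; exact hxy₀
    have hM : ∀ s t s' t' : F, Has Q M' (s • p + t • q) (s' • p + t' • q) := by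
      intro s t s' t'
      have hQs : Q (s • x₀ + t • y₀) = 0 := by
        rw [QuadraticMap.map_add (⇑Q), QuadraticMap.map_smul, QuadraticMap.map_smul, hQx₀, hQy₀,
          QuadraticMap.polar_smul_left, QuadraticMap.polar_smul_right, hxy₀]
        simp
      have hBs : Bp (s' • x₀ + t' • y₀) (s • x₀ + t • y₀) = 0 := by
        simp only [QuadraticMap.polar_add_left, QuadraticMap.polar_add_right,
          QuadraticMap.polar_smul_left, QuadraticMap.polar_smul_right, hxx, hyy, hxy₀, hyx]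
        simp
      have h1 := Has_conj Q M' g hgM' (hHa (s • x₀ + t • y₀)
        (W'.add_mem (W'.smul_mem _ hx₀) (W'.smul_mem _ hy₀)) (s' • x₀ + t' • y₀)
        (W'.add_mem (W'.smul_mem _ hx₀) (W'.smul_mem _ hy₀)) hQs hBs)
      rw [Matrix.mulVec_add, Matrix.mulVec_smul, Matrix.mulVec_smul, Matrix.mulVec_add,
        Matrix.mulVec_smul, Matrix.mulVec_smul, ← hpdef, ← hqdef] at h1
      exact h1
    obtain ⟨u, hu, u', hu', hQu, hQu', huu', ⟨a, ha, ha0, hHasu⟩, ⟨a', ha', ha'0, hHasu'⟩⟩ :=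
      progress Q hQ W W' hperp hsup M' h7 hHa hQp hQq hind hM (fun h => hmix (Or.inl h))
        (fun h => hmix (Or.inr h))
    have huS := sc_of_has Q hQ W W' hperp hsup M' h7 hH hexW hu hQu ha ha0 hHasu
    have hu'S := sc_of_has Q hQ W W' hperp hsup M' h7 hH hexW hu' hQu' ha' ha'0 hHasu'
    have hall : ∀ z, Q z = 0 → z ∈ Sc Q M' := fun z hz =>
      Sc_all Q hQ (by omega) M' huS hu'S huu' z hz
    have hΩ := omega_le_of_Sc Q hQ hcard M' hall
    intro k₁ hk₁
    obtain ⟨k₂, hk₂, rfl⟩ := Subgroup.mem_map.mp hk₁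
    exact (hM' k₂).mp (hΩ hk₂)

end pair

section inst

variable {ι : Type} [Fintype ι] [DecidableEq ι] {F : Type*} [Field F] [Fintype F]
  (Q : QuadraticForm F (ι → F)) (hQ : (QuadraticMap.polarBilin Q).Nondegenerate)

local notation "Bp" => QuadraticMap.polar (DFunLike.coe Q)

omit [Fintype F] in
/-- an invertible map carrying one subspace into another of the same dimension, preserving a
function, gives an isometry backwards -/
theorem isom_of_maps (g : Matrix.GeneralLinearGroup ι F) (A B : Submodule F (ι → F))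
    (h : ∀ x ∈ A, (g : Matrix ι ι F) *ᵥ x ∈ B) (hdim : Module.finrank F A = Module.finrank F B)
    (hg : ∀ x, Q ((g : Matrix ι ι F) *ᵥ x) = Q x) : Geo.AreIsometricFor (⇑Q) B A := by
  classical
  let f : A →ₗ[F] B := (Matrix.toLin' (g : Matrix ι ι F)).restrict
    (fun x hx => by rw [Matrix.toLin'_apply]; exact h x hx)
  have hf : ∀ x : A, ((f x : B) : ι → F) = (g : Matrix ι ι F) *ᵥ (x : ι → F) := fun x => by
    show Matrix.toLin' (g : Matrix ι ι F) (x : ι → F) = _
    rw [Matrix.toLin'_apply]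
  have hfinj : Function.Injective f := by
    intro x y hxy
    have h1 : (g : Matrix ι ι F) *ᵥ (x : ι → F) = (g : Matrix ι ι F) *ᵥ (y : ι → F) := by
      rw [← hf, ← hf, hxy]
    exact Subtype.ext (Cfsg.Agent.S5676.ginj g h1)
  let φ : A ≃ₗ[F] B := LinearMap.linearEquivOfInjective f hfinj hdim
  have hφ : ∀ x : A, φ x = f x := fun x => rfl
  refine ⟨φ.symm, fun w => ?_⟩
  have h1 : ((φ (φ.symm w) : B) : ι → F)
      = (g : Matrix ι ι F) *ᵥ ((φ.symm w : A) : ι → F) := by
    rw [hφ, hf]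
  rw [LinearEquiv.apply_symm_apply] at h1
  rw [h1, hg]

end inst

/-- Let F be a finite field with q elements, n ≥ 13 even, Q a non-degenerate quadratic form on F^n (of either type), and Ω the commutator subgroup of the isometry group of Q, viewed inside GL_n(F). Let D be a decomposition of F^n into two orthogonal subspaces of odd dimension n/2 on which the polar form is non-degenerate and which are not Q-isometric to each other. Then the elements of Ω permuting (necessarily fixing) the two subspaces form a maximal subgroup of Ω. -/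
theorem result {F : Type*} [Field F] [Fintype F] {n : ℕ} (hn : 13 ≤ n) (heven : Even n) (Q : (Fin n → F) → F) (hQ : Cfsg.Geo.IsNondegenerateQuadraticForm Q) (k : ℕ) (hk : 2 * k = n) (hko : Odd k) (D : Fin 2 → Submodule F (Fin n → F)) (hD : Cfsg.Geo.IsNondegenerateMDecomposition (QuadraticMap.polar Q) k D) (hni : ¬ Cfsg.Geo.AreIsometricFor Q (D 0) (D 1)) : Cfsg.Geo.IsMaximalIn (Cfsg.Geo.omegaGL Q) (Cfsg.Geo.decompositionStabilizer D ⊓ Cfsg.Geo.omegaGL Q) := by
  classical
  obtain ⟨Q', hQ'def⟩ : ∃ Q' : QuadraticForm F (Fin n → F), Q' = Cfsg.Agent.S5676.toQF Q hQ :=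
    ⟨_, rfl⟩
  have hQ' : (QuadraticMap.polarBilin Q').Nondegenerate := by
    rw [hQ'def]
    exact Cfsg.Agent.S5676.toQF_nondeg Q hQ
  have hcoe : ⇑Q' = Q := by rw [hQ'def]; rfl
  rw [← hcoe] at hD hni ⊢
  have hperp : ∀ w ∈ D 0, ∀ w' ∈ D 1, QuadraticMap.polar (⇑Q') w w' = 0 :=
    hD.orthogonal 0 1 (by decide)
  have hperp' : ∀ w ∈ D 1, ∀ w' ∈ D 0, QuadraticMap.polar (⇑Q') w w' = 0 :=
    hD.orthogonal 1 0 (by decide)
  have hsup : D 0 ⊔ D 1 = ⊤ := by
    rw [eq_top_iff, ← hD.decomp.iSup_eq_top]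
    refine iSup_le (fun i => ?_)
    fin_cases i
    · exact le_sup_left
    · exact le_sup_right
  have hsup' : D 1 ⊔ D 0 = ⊤ := by rw [sup_comm]; exact hsup
  have hf0 : Module.finrank F (D 0) = k := hD.decomp.finrank_eq 0
  have hf1 : Module.finrank F (D 1) = k := hD.decomp.finrank_eq 1
  have hW0 : D 0 ≠ ⊥ := by
    intro h
    rw [h, finrank_bot] at hf0
    omega
  have hns : ∀ g : Matrix.GeneralLinearGroup (Fin n) F, g ∈ Geo.omegaGL (⇑Q') →
      ¬ ∀ x ∈ D 1, (g : Matrix (Fin n) (Fin n) F) *ᵥ x ∈ D 0 := by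
    intro g hg h
    exact hni (isom_of_maps Q' g (D 1) (D 0) h (by rw [hf0, hf1])
      (fun x => Cfsg.Agent.S5676.omega_isom Q' hg x))
  have key := ns_max Q' hQ' (D 0) (D 1) hperp hsup hW0 (by rw [hf1]; omega)
    (fun h => by rw [hf0] at h; omega) hns
  have heq : Geo.decompositionStabilizer D ⊓ Geo.omegaGL (⇑Q')
      = Geo.subspaceStabilizer (D 0) ⊓ Geo.omegaGL (⇑Q') := by
    ext g
    constructor
    · rintro ⟨⟨σ, hσ⟩, hgΩ⟩
      refine ⟨?_, hgΩ⟩
      have hmap : ∀ i, ∀ z ∈ D i, (g : Matrix (Fin n) (Fin n) F) *ᵥ z ∈ D (σ i) := by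
        intro i z hz
        have h1 : Matrix.toLin' (g : Matrix (Fin n) (Fin n) F) z
            ∈ (D i).map (Matrix.toLin' (g : Matrix (Fin n) (Fin n) F)) :=
          Submodule.mem_map_of_mem hz
        rw [hσ i, Matrix.toLin'_apply] at h1
        exact h1
      rcases Cfsg.Agent.S5698.fin2 (σ 0) with h | h
      · apply Cfsg.Agent.S5678.stab_of_maps
        intro x hx
        have h3 := hmap 0 x hx
        rwa [h] at h3
      · exfalso
        have h10 : σ 1 = 0 := by
          rcases Cfsg.Agent.S5698.fin2 (σ 1) with h' | h'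
          · exact h'
          · exact absurd (σ.injective (h.trans h'.symm)) (by decide)
        apply hns g hgΩ
        intro x hx
        have h3 := hmap 1 x hx
        rwa [h10] at h3
    · rintro ⟨hgS, hgΩ⟩
      refine ⟨⟨1, fun i => ?_⟩, hgΩ⟩
      have h0 : ∀ x ∈ D 0, (g : Matrix (Fin n) (Fin n) F) *ᵥ x ∈ D 0 :=
        fun x hx => (hgS x).mp hx
      have h1 : ∀ y ∈ D 1, (g : Matrix (Fin n) (Fin n) F) *ᵥ y ∈ D 1 := by
        intro y hy
        apply perp_mem Q' hQ' (D 1) (D 0) hperp' hsup'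
        intro z hz
        have hmap := map_eq_of_maps g (D 0) (D 0) h0 rfl
        have hz' : z ∈ (D 0).map (Matrix.toLin' (g : Matrix (Fin n) (Fin n) F)) := by
          rw [hmap]
          exact hz
        obtain ⟨x, hx, rfl⟩ := Submodule.mem_map.mp hz'
        obtain ⟨g', hg', rfl⟩ := Subgroup.mem_map.mp hgΩ
        rw [Matrix.toLin'_apply]
        have h3 := isomG_polar Q' g' y x
        exact h3.trans (hperp' y hy x hx)
      fin_cases i
      · exact map_eq_of_maps g (D 0) (D 0) h0 rfl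
      · exact map_eq_of_maps g (D 1) (D 1) h1 rfl
  rw [heq]
  exact key

end Cfsg.Agent.S5699
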