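import Mathlib
import Cfsg.Statements.S2173
import Cfsg.Agent.S5699

set_option autoImplicit false
open Cfsg

namespace Cfsg.Agent.S2173

open Matrix
open Cfsg.Agent.Lib.Helper16 (reflG refl_mulVec reflG_coe isomG_map isomG_polar isomG_mul_coe
  isomG_one_coe isomG_ext_mulVec qfMinus qfMinus_polar_inl qfMinus_polar_inr qfMinus_polar_zero
  qfMinus_polar_one nondeg_of_sepLeft)

section gen

variable {ι : Type} [Fintype ι] [DecidableEq ι] {F : Type*} [Field F] [Fintype F]
  (Q : QuadraticForm F (ι → F)) (hQ : (QuadraticMap.polarBilin Q).Nondegenerate)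

local notation "Bp" => QuadraticMap.polar (DFunLike.coe Q)

include hQ in
omit [DecidableEq ι] [Fintype F] in
/-- a totally singular subspace outside of whose perp-singular vectors nothing is singular bounds
the dimension of all totally singular subspaces -/
theorem ts_le_of_max (X U : Submodule F (ι → F)) (hX : ∀ x ∈ X, Q x = 0)
    (hmax : ∀ x, Q x = 0 → (∀ w ∈ X, Bp w x = 0) → x ∈ X) (hU : ∀ u ∈ U, Q u = 0) :
    Module.finrank F U ≤ Module.finrank F X := by
  obtain ⟨Xp, hXp⟩ : ∃ Xp : Submodule F (ι → F),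
      Xp = LinearMap.BilinForm.orthogonal (QuadraticMap.polarBilin Q) X := ⟨_, rfl⟩
  have hU₁X : U ⊓ Xp ≤ X := by
    intro z hz
    have hz2 := hz.2
    rw [hXp] at hz2
    exact hmax z (hU z hz.1) (fun w hw => hz2 w hw)
  have hle : U ⊔ Xp ≤ LinearMap.BilinForm.orthogonal (QuadraticMap.polarBilin Q) (U ⊓ Xp) := by
    apply sup_le
    · intro u hu z hz
      exact Cfsg.Agent.S5698.ts_polar Q U hU hz.1 hu
    · intro y hy z hz
      rw [hXp] at hy
      exact hy z (hU₁X hz)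
  have h1 := Submodule.finrank_mono hle
  have h2 := LinearMap.BilinForm.finrank_orthogonal hQ (U ⊓ Xp)
  have h3 := LinearMap.BilinForm.finrank_orthogonal hQ X
  rw [← hXp] at h3
  have h4 := Submodule.finrank_sup_add_finrank_inf_eq U Xp
  have h5 := Submodule.finrank_le X
  have h6 := Submodule.finrank_le (U ⊓ Xp)
  have h7 := Submodule.finrank_mono hU₁X
  rw [Module.finrank_fintype_fun_eq_card] at h2 h3 h5 h6
  omega

omit [Fintype F] in
/-- an involution in characteristic two fixes a nonsingular vector when totally singular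
subspaces have less than half the dimension -/
theorem invol_fix_ns (h2 : (2 : F) = 0)
    (hwitt : ∀ U : Submodule F (ι → F), (∀ u ∈ U, Q u = 0) →
      2 * Module.finrank F U < Fintype.card ι)
    (t : ↥(Cfsg.isometryGroup F (⇑Q))) (ht : t * t = 1) :
    ∃ v, ((t : Matrix.GeneralLinearGroup ι F) : Matrix ι ι F) *ᵥ v = v ∧ Q v ≠ 0 := by
  by_contra hcon
  push Not at hcon
  obtain ⟨N, hNdef⟩ : ∃ N : (ι → F) →ₗ[F] (ι → F),
      N = Matrix.toLin' (((t : Matrix.GeneralLinearGroup ι F) : Matrix ι ι F) - 1) := ⟨_, rfl⟩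
  have hN : ∀ x, N x = ((t : Matrix.GeneralLinearGroup ι F) : Matrix ι ι F) *ᵥ x - x := by
    intro x
    rw [hNdef, Matrix.toLin'_apply, Matrix.sub_mulVec, Matrix.one_mulVec]
  have hNN : ∀ x, N (N x) = 0 := by
    intro x
    rw [hN, hN, Matrix.mulVec_sub, Matrix.mulVec_mulVec, ← isomG_mul_coe, ht, isomG_one_coe,
      Matrix.one_mulVec]
    have e : x - ((t : Matrix.GeneralLinearGroup ι F) : Matrix ι ι F) *ᵥ x
        - (((t : Matrix.GeneralLinearGroup ι F) : Matrix ι ι F) *ᵥ x - x)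
        = (2 : F) • (x - ((t : Matrix.GeneralLinearGroup ι F) : Matrix ι ι F) *ᵥ x) := by
      rw [two_smul]
      abel
    rw [e, h2, zero_smul]
  have hrange : LinearMap.range N ≤ LinearMap.ker N := by
    rintro _ ⟨x, rfl⟩
    exact LinearMap.mem_ker.mpr (hNN x)
  have hker_ts : ∀ u ∈ LinearMap.ker N, Q u = 0 := by
    intro u hu
    apply hcon
    have h3 := LinearMap.mem_ker.mp hu
    rw [hN] at h3
    exact sub_eq_zero.mp h3
  have h1 := hwitt _ hker_ts
  have h3 := LinearMap.finrank_range_add_finrank_ker N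
  have h4 := Submodule.finrank_mono hrange
  rw [Module.finrank_fintype_fun_eq_card] at h3
  omega

omit [Fintype F] in
theorem refl_comm_of_fix (t : ↥(Cfsg.isometryGroup F (⇑Q))) (v : ι → F) (hv : Q v ≠ 0)
    (htv : ((t : Matrix.GeneralLinearGroup ι F) : Matrix ι ι F) *ᵥ v = v) :
    reflG Q v hv * t = t * reflG Q v hv := by
  apply isomG_ext_mulVec
  intro x
  have h3 := isomG_polar Q t v x
  rw [htv] at h3
  rw [isomG_mul_coe, isomG_mul_coe, ← Matrix.mulVec_mulVec, ← Matrix.mulVec_mulVec, reflG_coe,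
    refl_mulVec, refl_mulVec, Matrix.mulVec_sub, Matrix.mulVec_smul, htv, h3]

include hQ in
theorem refl_not_mem [Nonempty ι] (h2 : (2 : F) = 0)
    (hex : Fintype.card F ≠ 2 ∨ Fintype.card ι ≠ 4) (v : ι → F) (hv : Q v ≠ 0) :
    reflG Q v hv ∉ Cfsg.Omega F (⇑Q) := by
  intro hmem
  have h1 := (Cfsg.Agent.Lib.Helper3.mem_omega_iff_even_rank Q h2 hQ hex (reflG Q v hv)).mp hmem
  have h3 := Cfsg.Agent.Lib.Helper3.rank_refl_mul_parity Q hQ
    (1 : ↥(Cfsg.isometryGroup F (⇑Q))) v hv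
  rw [isomG_one_coe, Matrix.mul_one] at h3
  rw [reflG_coe] at h1
  apply h3.mp h1
  rw [sub_self, Matrix.rank_zero]
  exact ⟨0, rfl⟩

include hQ in
/-- characteristic two, no totally singular subspace of half dimension: involutions conjugate
in the isometry group are conjugate under the commutator subgroup -/
theorem conj_in_omega [Nonempty ι] (h2 : (2 : F) = 0)
    (hex : Fintype.card F ≠ 2 ∨ Fintype.card ι ≠ 4)
    (hwitt : ∀ U : Submodule F (ι → F), (∀ u ∈ U, Q u = 0) →
      2 * Module.finrank F U < Fintype.card ι)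
    (t s : ↥(Cfsg.isometryGroup F (⇑Q))) (ht : t * t = 1) (hconj : IsConj t s) :
    ∃ g ∈ Cfsg.Omega F (⇑Q), g * t * g⁻¹ = s := by
  obtain ⟨g₀, hg₀⟩ := isConj_iff.mp hconj
  by_cases hg : g₀ ∈ Cfsg.Omega F (⇑Q)
  · exact ⟨g₀, hg, hg₀⟩
  obtain ⟨v, htv, hv⟩ := invol_fix_ns Q h2 hwitt t ht
  have hr := refl_not_mem Q hQ h2 hex v hv
  have hidx := Cfsg.Agent.Lib.Helper3.omega_index_char_two Q h2 hQ hex
  have hmem : g₀ * reflG Q v hv ∈ Cfsg.Omega F (⇑Q) :=
    (Subgroup.mul_mem_iff_of_index_two hidx).mpr ⟨fun h => absurd h hg, fun h => absurd h hr⟩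
  refine ⟨g₀ * reflG Q v hv, hmem, ?_⟩
  have hc := refl_comm_of_fix Q t v hv htv
  have h3 : reflG Q v hv * t * (reflG Q v hv)⁻¹ = t := by rw [hc, mul_inv_cancel_right]
  rw [← hg₀]
  calc g₀ * reflG Q v hv * t * (g₀ * reflG Q v hv)⁻¹
      = g₀ * (reflG Q v hv * t * (reflG Q v hv)⁻¹) * g₀⁻¹ := by group
    _ = g₀ * t * g₀⁻¹ := by rw [h3]

end gen

section minus

variable (k : ℕ) {F : Type*} [Field F] [Fintype F] (c d : F)

theorem minus_c_ne [CharP F 2]
    (hcd : ∀ z₁ z₂ : F, z₁ ^ 2 + c * z₁ * z₂ + d * z₂ ^ 2 = 0 → z₁ = 0 ∧ z₂ = 0) : c ≠ 0 := by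
  intro hc
  obtain ⟨b, hb⟩ := Cfsg.Agent.Lib.Helper17.c2_fin_hsq d
  have h1 := hcd b 1 (by
    rw [hc, sq, hb]
    have h2 : d + d = 0 := CharTwo.add_self_eq_zero d
    linear_combination h2)
  exact one_ne_zero h1.2

theorem minus_nondeg2 [CharP F 2]
    (hcd : ∀ z₁ z₂ : F, z₁ ^ 2 + c * z₁ * z₂ + d * z₂ ^ 2 = 0 → z₁ = 0 ∧ z₂ = 0) :
    (QuadraticMap.polarBilin (qfMinus k F c d)).Nondegenerate := by
  have h2 : (2 : F) = 0 := CharTwo.two_eq_zero
  have hc := minus_c_ne c d hcd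
  apply nondeg_of_sepLeft
  intro x hx
  have h0 := hx (Pi.single (Sum.inr 0) 1)
  have h1 := hx (Pi.single (Sum.inr 1) 1)
  rw [qfMinus_polar_zero, h2, zero_mul, zero_add] at h0
  rw [qfMinus_polar_one, h2, zero_mul, zero_mul, add_zero] at h1
  funext i
  rcases i with (j | j) | j
  · have h3 := hx (Pi.single (Sum.inl (Sum.inr j)) 1)
    rw [qfMinus_polar_inr] at h3
    exact h3
  · have h3 := hx (Pi.single (Sum.inl (Sum.inl j)) 1)
    rw [qfMinus_polar_inl] at h3
    exact h3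
  · fin_cases j
    · exact (mul_eq_zero.mp h1).resolve_left hc
    · exact (mul_eq_zero.mp h0).resolve_left hc

omit [Fintype F] in
/-- totally singular subspaces of the minus-type form have dimension at most `k` -/
theorem minus_ts
    (hcd : ∀ z₁ z₂ : F, z₁ ^ 2 + c * z₁ * z₂ + d * z₂ ^ 2 = 0 → z₁ = 0 ∧ z₂ = 0)
    (hQ : (QuadraticMap.polarBilin (qfMinus k F c d)).Nondegenerate)
    (U : Submodule F ((Fin k ⊕ Fin k) ⊕ Fin 2 → F)) (hU : ∀ u ∈ U, qfMinus k F c d u = 0) :
    Module.finrank F U ≤ k := by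
  classical
  let X : Submodule F ((Fin k ⊕ Fin k) ⊕ Fin 2 → F) :=
    { carrier := {v | (∀ j, v (Sum.inl (Sum.inr j)) = 0) ∧ ∀ i, v (Sum.inr i) = 0}
      add_mem' := by
        intro x y hx hy
        refine ⟨fun j => ?_, fun i => ?_⟩
        · rw [Pi.add_apply, hx.1 j, hy.1 j, add_zero]
        · rw [Pi.add_apply, hx.2 i, hy.2 i, add_zero]
      zero_mem' := ⟨fun j => rfl, fun i => rfl⟩
      smul_mem' := by
        intro l x hx
        refine ⟨fun j => ?_, fun i => ?_⟩
        · rw [Pi.smul_apply, hx.1 j, smul_zero]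
        · rw [Pi.smul_apply, hx.2 i, smul_zero] }
  have hXmem : ∀ v, v ∈ X ↔ ((∀ j, v (Sum.inl (Sum.inr j)) = 0) ∧ ∀ i, v (Sum.inr i) = 0) :=
    fun v => Iff.rfl
  have hX : ∀ x ∈ X, qfMinus k F c d x = 0 := by
    intro x hx
    obtain ⟨h1, h2⟩ := (hXmem x).mp hx
    show Cfsg.quadFormMinus k F c d x = 0
    unfold Cfsg.quadFormMinus
    rw [h2 0, h2 1]
    simp [h1]
  have hmax : ∀ x, qfMinus k F c d x = 0 →
      (∀ w ∈ X, QuadraticMap.polar (⇑(qfMinus k F c d)) w x = 0) → x ∈ X := by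
    intro x hQx hxX
    have h1 : ∀ j, x (Sum.inl (Sum.inr j)) = 0 := by
      intro j
      have h3 := hxX (Pi.single (Sum.inl (Sum.inl j)) 1)
        ((hXmem _).mpr ⟨fun j' => by simp, fun i => by simp⟩)
      rw [qfMinus_polar_inl] at h3
      exact h3
    have h3 : x (Sum.inr 0) ^ 2 + c * x (Sum.inr 0) * x (Sum.inr 1) + d * x (Sum.inr 1) ^ 2
        = 0 := by
      have h4 : Cfsg.quadFormMinus k F c d x = 0 := hQx
      unfold Cfsg.quadFormMinus at h4
      simpa [h1] using h4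
    obtain ⟨e0, e1⟩ := hcd _ _ h3
    refine (hXmem x).mpr ⟨h1, fun i => ?_⟩
    fin_cases i
    · exact e0
    · exact e1
  have hfX : Module.finrank F X ≤ k := by
    let φ : X →ₗ[F] (Fin k → F) :=
      { toFun := fun v j => (v : (Fin k ⊕ Fin k) ⊕ Fin 2 → F) (Sum.inl (Sum.inl j))
        map_add' := fun v w => rfl
        map_smul' := fun l v => rfl }
    have hinj : Function.Injective φ := by
      intro v w hvw
      apply Subtype.ext
      funext i
      obtain ⟨v1, v2⟩ := (hXmem _).mp v.2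
      obtain ⟨w1, w2⟩ := (hXmem _).mp w.2
      rcases i with (j | j) | j
      · exact congrFun hvw j
      · rw [v1 j, w1 j]
      · rw [v2 j, w2 j]
    have h5 := LinearMap.finrank_le_finrank_of_injective hinj
    rwa [Module.finrank_fintype_fun_eq_card, Fintype.card_fin] at h5
  exact (ts_le_of_max (qfMinus k F c d) hQ X U hX hmax hU).trans hfX

end minus

/-- For the quadratic form Σ x_i y_i + (z₁² + c z₁ z₂ + d z₂²) in dimension 2m with anisotropic binary part over a finite field F of characteristic two, m ≥ 4 (minus type): two involutions of the commutator subgroup Ω that are conjugate in the full isometry group O are conjugate by an element of Ω (no class of involutions of O inside Ω splits). -/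
theorem result {F : Type*} [Field F] [Fintype F] [CharP F 2] {m : ℕ} (hm : 4 ≤ m) (c d : F) (hcd : ∀ z₁ z₂ : F, z₁ ^ 2 + c * z₁ * z₂ + d * z₂ ^ 2 = 0 → z₁ = 0 ∧ z₂ = 0) (t s : ↥(Cfsg.isometryGroup F (Cfsg.quadFormMinus (m - 1) F c d))) (ht : orderOf t = 2) (hs : orderOf s = 2) (htO : t ∈ Cfsg.Omega F (Cfsg.quadFormMinus (m - 1) F c d)) (hsO : s ∈ Cfsg.Omega F (Cfsg.quadFormMinus (m - 1) F c d)) (hconj : IsConj t s) :
    ∃ g ∈ Cfsg.Omega F (Cfsg.quadFormMinus (m - 1) F c d), g * t * g⁻¹ = s := by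
  classical
  have h2 : (2 : F) = 0 := CharTwo.two_eq_zero
  have hQ := minus_nondeg2 (m - 1) c d hcd
  have hcard : Fintype.card ((Fin (m - 1) ⊕ Fin (m - 1)) ⊕ Fin 2) = 2 * m := by
    simp only [Fintype.card_sum, Fintype.card_fin]
    omega
  haveI : Nonempty ((Fin (m - 1) ⊕ Fin (m - 1)) ⊕ Fin 2) := ⟨Sum.inr 0⟩
  have ht2 : t * t = 1 := by
    have h := pow_orderOf_eq_one t
    rw [ht, sq] at h
    exact h
  exact conj_in_omega (qfMinus (m - 1) F c d) hQ h2 (Or.inr (by rw [hcard]; omega))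
    (fun U hU => by
      have h3 := minus_ts (m - 1) c d hcd hQ U hU
      rw [hcard]
      omega) t s ht2 hconj

end Cfsg.Agent.S2173
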