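import Mathlib
import Cfsg.Statements.S2172
import Cfsg.Agent.S2173
import Cfsg.Agent.Lib.Helper17.PlusClass

set_option autoImplicit false
open Cfsg

namespace Cfsg.Agent.S2172

open Matrix
open Cfsg.Agent.Lib.Helper16 (reflG refl_mulVec reflG_coe isomG_map isomG_polar isomG_mul_coe
  isomG_one_coe isomG_ext_mulVec qfPlus qfPlus_nondeg)
open Cfsg.Agent.Lib.Helper17 (actLin actLin_apply actLin_mul actLin_injective finrank_map_actLin
  plusU0 plusU0_ts plusU0_max plusU0_finrank mts reflT plus_class_char2)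
open Cfsg.Agent.S2173 (refl_comm_of_fix refl_not_mem)

section gen

variable {ι : Type} [Fintype ι] [DecidableEq ι] {F : Type*} [Field F] [Fintype F]
  (Q : QuadraticForm F (ι → F)) (hQ : (QuadraticMap.polarBilin Q).Nondegenerate)

include hQ in
/-- characteristic two: an involution fixing a nonsingular vector has the same conjugates under
the isometry group and under its commutator subgroup -/
theorem conj_of_fix [Nonempty ι] (h2 : (2 : F) = 0)
    (hex : Fintype.card F ≠ 2 ∨ Fintype.card ι ≠ 4)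
    (t s g₀ : ↥(Cfsg.isometryGroup F (⇑Q))) (hg₀ : g₀ * t * g₀⁻¹ = s) (v : ι → F)
    (htv : ((t : Matrix.GeneralLinearGroup ι F) : Matrix ι ι F) *ᵥ v = v) (hv : Q v ≠ 0) :
    ∃ g ∈ Cfsg.Omega F (⇑Q), g * t * g⁻¹ = s := by
  by_cases hg : g₀ ∈ Cfsg.Omega F (⇑Q)
  · exact ⟨g₀, hg, hg₀⟩
  have hr := refl_not_mem Q hQ h2 hex v hv
  have hidx := Cfsg.Agent.Lib.Helper3.omega_index_char_two Q h2 hQ hex
  have hmem : g₀ * reflG Q v hv ∈ Cfsg.Omega F (⇑Q) :=
    (Subgroup.mul_mem_iff_of_index_two hidx).mpr ⟨fun h => absurd h hg, fun h => absurd h hr⟩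
  refine ⟨g₀ * reflG Q v hv, hmem, ?_⟩
  have hc := refl_comm_of_fix Q t v hv htv
  have h3 : reflG Q v hv * t * (reflG Q v hv)⁻¹ = t := by rw [hc, mul_inv_cancel_right]
  rw [← hg₀]
  calc g₀ * reflG Q v hv * t * (g₀ * reflG Q v hv)⁻¹
      = g₀ * (reflG Q v hv * t * (reflG Q v hv)⁻¹) * g₀⁻¹ := by group
    _ = g₀ * t * g₀⁻¹ := by rw [h3]

end gen

section plus

variable {m : ℕ} {F : Type*} [Field F] [Fintype F] [CharP F 2]

/-- the class of a maximal totally singular subspace is preserved exactly by the commutator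
subgroup -/
theorem family (hm : 1 ≤ m) (h : Fintype.card F ≠ 2 ∨ m ≠ 2)
    (U : Submodule F (Fin m ⊕ Fin m → F)) (hUf : Module.finrank F U = m)
    (hU0 : ∀ u ∈ U, qfPlus m F u = 0) (g : ↥(Cfsg.isometryGroup F ⇑(qfPlus m F))) :
    Even (m - Module.finrank F ↥(U ⊓ U.map (actLin (qfPlus m F) g))) ↔
      g ∈ Cfsg.Omega F ⇑(qfPlus m F) := by
  have hUm : ∀ x, (∀ u ∈ U, QuadraticMap.polar ⇑(qfPlus m F) u x = 0) → x ∈ U := by
    intro x hx
    have hle : U ≤ LinearMap.BilinForm.orthogonal (QuadraticMap.polarBilin (qfPlus m F)) U := by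
      intro w hw
      rw [LinearMap.BilinForm.mem_orthogonal_iff]
      intro n hn
      exact Cfsg.Agent.Lib.Helper17.ts_polar (qfPlus m F) U hU0 n w hn hw
    have hfr := LinearMap.BilinForm.finrank_orthogonal (qfPlus_nondeg m F) U
    rw [Module.finrank_fintype_fun_eq_card, Fintype.card_sum, Fintype.card_fin, hUf] at hfr
    have heq : U = LinearMap.BilinForm.orthogonal (QuadraticMap.polarBilin (qfPlus m F)) U :=
      Submodule.eq_of_le_of_finrank_eq hle (by rw [hfr, hUf]; omega)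
    rw [heq, LinearMap.BilinForm.mem_orthogonal_iff]
    exact hx
  have hle' : Module.finrank F ↥(U ⊓ plusU0 m F) ≤ m :=
    (Submodule.finrank_mono inf_le_left).trans hUf.le
  obtain ⟨vs, hlen, hvs, hmap⟩ := mts (qfPlus m F) U hU0 hUm
    (m - Module.finrank F ↥(U ⊓ plusU0 m F)) (plusU0 m F) plusU0_ts
    (plusU0_finrank.trans hUf.symm) (by omega)
  obtain ⟨h₀, hh₀⟩ : ∃ h₀ : ↥(Cfsg.isometryGroup F ⇑(qfPlus m F)),
      h₀ = (vs.map (reflT (qfPlus m F))).prod := ⟨_, rfl⟩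
  rw [← hh₀] at hmap
  obtain ⟨k, hk⟩ : ∃ k : ↥(Cfsg.isometryGroup F ⇑(qfPlus m F)), k = h₀⁻¹ * g * h₀ := ⟨_, rfl⟩
  have e2 : ((plusU0 m F).map (actLin (qfPlus m F) k)).map (actLin (qfPlus m F) h₀)
      = U.map (actLin (qfPlus m F) g) := by
    have e3 : h₀ * k = g * h₀ := by
      rw [hk]
      group
    rw [← Submodule.map_comp, ← actLin_mul, e3, actLin_mul, Submodule.map_comp, hmap]
  have e1 : U ⊓ U.map (actLin (qfPlus m F) g)
      = (plusU0 m F ⊓ (plusU0 m F).map (actLin (qfPlus m F) k)).map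
        (actLin (qfPlus m F) h₀) := by
    rw [Submodule.map_inf _ (actLin_injective _ h₀), e2, hmap]
  rw [e1, finrank_map_actLin, plus_class_char2 hm h]
  have hN : (Cfsg.Omega F ⇑(qfPlus m F)).Normal := inferInstance
  constructor
  · intro hmem
    have h3 := hN.conj_mem _ hmem h₀
    have e4 : h₀ * k * h₀⁻¹ = g := by
      rw [hk]
      group
    rwa [e4] at h3
  · intro hmem
    have h3 := hN.conj_mem _ hmem h₀⁻¹
    have e4 : h₀⁻¹ * g * h₀⁻¹⁻¹ = k := by
      rw [hk]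
      group
    rwa [e4] at h3

omit [Fintype F] in
/-- an involution fixes a nonsingular vector, or its commutator space is a maximal totally
singular subspace -/
theorem fix_or_ts (t : ↥(Cfsg.isometryGroup F ⇑(qfPlus m F))) (ht : t * t = 1) :
    (∃ v, ((t : Matrix.GeneralLinearGroup (Fin m ⊕ Fin m) F) :
        Matrix (Fin m ⊕ Fin m) (Fin m ⊕ Fin m) F) *ᵥ v = v ∧ qfPlus m F v ≠ 0) ∨
    ((((t : Matrix.GeneralLinearGroup (Fin m ⊕ Fin m) F) :
        Matrix (Fin m ⊕ Fin m) (Fin m ⊕ Fin m) F) - 1).rank = m ∧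
      ∀ v, qfPlus m F (v + ((t : Matrix.GeneralLinearGroup (Fin m ⊕ Fin m) F) :
        Matrix (Fin m ⊕ Fin m) (Fin m ⊕ Fin m) F) *ᵥ v) = 0) := by
  classical
  have h2 : (2 : F) = 0 := CharTwo.two_eq_zero
  by_cases hfix : ∃ v, ((t : Matrix.GeneralLinearGroup (Fin m ⊕ Fin m) F) :
        Matrix (Fin m ⊕ Fin m) (Fin m ⊕ Fin m) F) *ᵥ v = v ∧ qfPlus m F v ≠ 0
  · exact Or.inl hfix
  right
  push Not at hfix
  obtain ⟨N, hNdef⟩ : ∃ N : (Fin m ⊕ Fin m → F) →ₗ[F] (Fin m ⊕ Fin m → F),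
      N = Matrix.mulVecLin (((t : Matrix.GeneralLinearGroup (Fin m ⊕ Fin m) F) :
        Matrix (Fin m ⊕ Fin m) (Fin m ⊕ Fin m) F) - 1) := ⟨_, rfl⟩
  have hN : ∀ x, N x = ((t : Matrix.GeneralLinearGroup (Fin m ⊕ Fin m) F) :
      Matrix (Fin m ⊕ Fin m) (Fin m ⊕ Fin m) F) *ᵥ x - x := by
    intro x
    rw [hNdef, Matrix.mulVecLin_apply, Matrix.sub_mulVec, Matrix.one_mulVec]
  have hchar : ∀ x y : Fin m ⊕ Fin m → F, y - x = x + y := by
    intro x y
    have e : x + y - (y - x) = (2 : F) • x := by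
      rw [two_smul]
      abel
    rw [h2, zero_smul] at e
    exact (sub_eq_zero.mp e).symm
  have hNN : ∀ x, N (N x) = 0 := by
    intro x
    rw [hN, hN, Matrix.mulVec_sub, Matrix.mulVec_mulVec, ← isomG_mul_coe, ht, isomG_one_coe,
      Matrix.one_mulVec, hchar, sub_add_sub_cancel, sub_self]
  have hrange : LinearMap.range N ≤ LinearMap.ker N := by
    rintro _ ⟨x, rfl⟩
    exact LinearMap.mem_ker.mpr (hNN x)
  have hker_ts : ∀ u ∈ LinearMap.ker N, qfPlus m F u = 0 := by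
    intro u hu
    apply hfix
    have h3 := LinearMap.mem_ker.mp hu
    rw [hN] at h3
    exact sub_eq_zero.mp h3
  have h1 := Cfsg.Agent.S5685.ts_dim_le (qfPlus m F) (qfPlus_nondeg m F) _ hker_ts
  have h3 := LinearMap.finrank_range_add_finrank_ker N
  have h4 := Submodule.finrank_mono hrange
  rw [Module.finrank_fintype_fun_eq_card] at h3
  rw [Fintype.card_sum, Fintype.card_fin] at h1 h3
  have heq : LinearMap.range N = LinearMap.ker N :=
    Submodule.eq_of_le_of_finrank_eq hrange (by omega)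
  constructor
  · show Module.finrank F ↥(LinearMap.range (Matrix.mulVecLin
      (((t : Matrix.GeneralLinearGroup (Fin m ⊕ Fin m) F) :
        Matrix (Fin m ⊕ Fin m) (Fin m ⊕ Fin m) F) - 1))) = m
    rw [← hNdef]
    omega
  · intro v
    apply hker_ts
    rw [← heq]
    exact ⟨v, by rw [hN, hchar]⟩

end plus

/-- Splitting of involution classes from O to Ω for the hyperbolic quadratic form Q = Σ x_i y_i in dimension 2m over a finite field F of characteristic two, m ≥ 4. Let t, s be involutions of the commutator subgroup Ω that are conjugate in the full isometry group O. If it is not the case that t − 1 has rank m and Q(v + t v) = 0 for every vector v, then t and s are conjugate by an element of Ω. If t − 1 has rank m and Q(v + t v) = 0 for all v, then t and s are conjugate by an element of Ω exactly when the intersection of the images of t − 1 and s − 1 has even dimension (so the class of t in O meets at most two classes of Ω).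 -/
theorem result {F : Type*} [Field F] [Fintype F] [CharP F 2] {m : ℕ} (hm : 4 ≤ m) (t s : ↥(Cfsg.isometryGroup F (Cfsg.quadFormPlus m F))) (ht : orderOf t = 2) (hs : orderOf s = 2) (htO : t ∈ Cfsg.Omega F (Cfsg.quadFormPlus m F)) (hsO : s ∈ Cfsg.Omega F (Cfsg.quadFormPlus m F)) (hconj : IsConj t s) :
    (¬ (((((t : ↥(Cfsg.isometryGroup F (Cfsg.quadFormPlus m F))) : GL (Fin m ⊕ Fin m) F) : Matrix (Fin m ⊕ Fin m) (Fin m ⊕ Fin m) F) - 1).rank = m ∧ ∀ v : Fin m ⊕ Fin m → F, Cfsg.quadFormPlus m F (v + Matrix.mulVec (((t : ↥(Cfsg.isometryGroup F (Cfsg.quadFormPlus m F))) : GL (Fin m ⊕ Fin m) F) : Matrix (Fin m ⊕ Fin m) (Fin m ⊕ Fin m) F) v) = 0) →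
      ∃ g ∈ Cfsg.Omega F (Cfsg.quadFormPlus m F), g * t * g⁻¹ = s) ∧
    ((((((t : ↥(Cfsg.isometryGroup F (Cfsg.quadFormPlus m F))) : GL (Fin m ⊕ Fin m) F) : Matrix (Fin m ⊕ Fin m) (Fin m ⊕ Fin m) F) - 1).rank = m ∧ ∀ v : Fin m ⊕ Fin m → F, Cfsg.quadFormPlus m F (v + Matrix.mulVec (((t : ↥(Cfsg.isometryGroup F (Cfsg.quadFormPlus m F))) : GL (Fin m ⊕ Fin m) F) : Matrix (Fin m ⊕ Fin m) (Fin m ⊕ Fin m) F) v) = 0) →
      ((∃ g ∈ Cfsg.Omega F (Cfsg.quadFormPlus m F), g * t * g⁻¹ = s) ↔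
        Even (Module.finrank F ↥(LinearMap.range (Matrix.toLin' ((((t : ↥(Cfsg.isometryGroup F (Cfsg.quadFormPlus m F))) : GL (Fin m ⊕ Fin m) F) : Matrix (Fin m ⊕ Fin m) (Fin m ⊕ Fin m) F) - 1)) ⊓ LinearMap.range (Matrix.toLin' ((((s : ↥(Cfsg.isometryGroup F (Cfsg.quadFormPlus m F))) : GL (Fin m ⊕ Fin m) F) : Matrix (Fin m ⊕ Fin m) (Fin m ⊕ Fin m) F) - 1)))))) := by
  classical
  have h2 : (2 : F) = 0 := CharTwo.two_eq_zero
  have hQ := qfPlus_nondeg m F
  have hcard : Fintype.card (Fin m ⊕ Fin m) = m + m := by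
    rw [Fintype.card_sum, Fintype.card_fin]
  have hex : Fintype.card F ≠ 2 ∨ Fintype.card (Fin m ⊕ Fin m) ≠ 4 :=
    Or.inr (by rw [hcard]; omega)
  haveI : Nonempty (Fin m ⊕ Fin m) := ⟨Sum.inl ⟨0, by omega⟩⟩
  have ht2 : t * t = 1 := by
    have h := pow_orderOf_eq_one t
    rw [ht, sq] at h
    exact h
  obtain ⟨g₀, hg₀⟩ := isConj_iff.mp hconj
  constructor
  · intro hneg
    rcases fix_or_ts t ht2 with ⟨v, htv, hv⟩ | hA
    · exact conj_of_fix (qfPlus m F) hQ h2 hex t s g₀ hg₀ v htv hv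
    · exact absurd hA hneg
  · intro hA
    obtain ⟨hrk, hts⟩ := hA
    obtain ⟨Ut, hUt⟩ : ∃ Ut : Submodule F (Fin m ⊕ Fin m → F),
        Ut = LinearMap.range (Matrix.toLin' ((((t : ↥(Cfsg.isometryGroup F
          (Cfsg.quadFormPlus m F))) : GL (Fin m ⊕ Fin m) F) :
          Matrix (Fin m ⊕ Fin m) (Fin m ⊕ Fin m) F) - 1)) := ⟨_, rfl⟩
    rw [← hUt]
    have hchar : ∀ x y : Fin m ⊕ Fin m → F, y - x = x + y := by
      intro x y
      have e : x + y - (y - x) = (2 : F) • x := by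
        rw [two_smul]
        abel
      rw [h2, zero_smul] at e
      exact (sub_eq_zero.mp e).symm
    have hUtf : Module.finrank F Ut = m := by
      rw [hUt]
      exact hrk
    have hUt0 : ∀ u ∈ Ut, qfPlus m F u = 0 := by
      intro u hu
      rw [hUt] at hu
      obtain ⟨x, rfl⟩ := hu
      rw [Matrix.toLin'_apply, Matrix.sub_mulVec, Matrix.one_mulVec, hchar]
      exact hts x
    have hmeven : Even m := by
      have h3 := (Cfsg.Agent.Lib.Helper3.mem_omega_iff_even_rank (qfPlus m F) h2 hQ hex t).mp htO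
      have h4 : ((((t : ↥(Cfsg.isometryGroup F (⇑(qfPlus m F)))) :
          Matrix.GeneralLinearGroup (Fin m ⊕ Fin m) F) :
          Matrix (Fin m ⊕ Fin m) (Fin m ⊕ Fin m) F) - 1).rank = m := hrk
      rw [h4] at h3
      exact h3
    -- the commutator space of a conjugate
    obtain ⟨T, hT⟩ : ∃ T : Matrix (Fin m ⊕ Fin m) (Fin m ⊕ Fin m) F,
        T = (((t : ↥(Cfsg.isometryGroup F (Cfsg.quadFormPlus m F))) : GL (Fin m ⊕ Fin m) F) :
          Matrix (Fin m ⊕ Fin m) (Fin m ⊕ Fin m) F) := ⟨_, rfl⟩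
    obtain ⟨S, hS⟩ : ∃ S : Matrix (Fin m ⊕ Fin m) (Fin m ⊕ Fin m) F,
        S = (((s : ↥(Cfsg.isometryGroup F (Cfsg.quadFormPlus m F))) : GL (Fin m ⊕ Fin m) F) :
          Matrix (Fin m ⊕ Fin m) (Fin m ⊕ Fin m) F) := ⟨_, rfl⟩
    rw [← hT] at hUt
    rw [← hS]
    have hmapU : ∀ g : ↥(Cfsg.isometryGroup F (Cfsg.quadFormPlus m F)), g * t * g⁻¹ = s →
        LinearMap.range (Matrix.toLin' (S - 1)) = Ut.map (actLin (qfPlus m F) g) := by
      intro g hg
      obtain ⟨G, hG⟩ : ∃ G : Matrix (Fin m ⊕ Fin m) (Fin m ⊕ Fin m) F,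
          G = (((g : ↥(Cfsg.isometryGroup F (Cfsg.quadFormPlus m F))) : GL (Fin m ⊕ Fin m) F) :
            Matrix (Fin m ⊕ Fin m) (Fin m ⊕ Fin m) F) := ⟨_, rfl⟩
      have hact : ∀ x, actLin (qfPlus m F) g x = G *ᵥ x := by
        intro x
        rw [hG]
        rfl
      have hsg : ∀ x : Fin m ⊕ Fin m → F, S *ᵥ (G *ᵥ x) = G *ᵥ (T *ᵥ x) := by
        intro x
        have e : s * g = g * t := by
          rw [← hg]
          group
        have e' := congrArg (fun z : ↥(Cfsg.isometryGroup F (Cfsg.quadFormPlus m F)) =>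
          ((z : GL (Fin m ⊕ Fin m) F) : Matrix (Fin m ⊕ Fin m) (Fin m ⊕ Fin m) F)) e
        rw [Matrix.mulVec_mulVec, Matrix.mulVec_mulVec, hS, hG, hT]
        exact congrArg (fun M : Matrix (Fin m ⊕ Fin m) (Fin m ⊕ Fin m) F => M *ᵥ x) e'
      have hinv : ∀ x : Fin m ⊕ Fin m → F, ∃ y : Fin m ⊕ Fin m → F, G *ᵥ y = x := by
        intro x
        refine ⟨(((g⁻¹ : ↥(Cfsg.isometryGroup F (Cfsg.quadFormPlus m F))) :
          GL (Fin m ⊕ Fin m) F) : Matrix (Fin m ⊕ Fin m) (Fin m ⊕ Fin m) F) *ᵥ x, ?_⟩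
        rw [hG]
        exact Cfsg.Agent.Lib.Helper16.isomG_inv_mulVec (qfPlus m F) g x
      apply le_antisymm
      · rintro _ ⟨x, rfl⟩
        obtain ⟨y, hy⟩ := hinv x
        rw [Matrix.toLin'_apply, Matrix.sub_mulVec, Matrix.one_mulVec]
        refine Submodule.mem_map.mpr ⟨T *ᵥ y - y, ?_, ?_⟩
        · rw [hUt]
          refine ⟨y, ?_⟩
          rw [Matrix.toLin'_apply, Matrix.sub_mulVec, Matrix.one_mulVec]
        · rw [hact, Matrix.mulVec_sub, ← hsg, hy]
      · rintro _ ⟨u, hu, rfl⟩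
        rw [hUt] at hu
        obtain ⟨x, rfl⟩ := hu
        refine ⟨G *ᵥ x, ?_⟩
        rw [Matrix.toLin'_apply, Matrix.sub_mulVec, Matrix.one_mulVec, hsg,
          Matrix.toLin'_apply, Matrix.sub_mulVec, Matrix.one_mulVec, hact, Matrix.mulVec_sub]
    have hpar : ∀ g : ↥(Cfsg.isometryGroup F (Cfsg.quadFormPlus m F)),
        (Even (Module.finrank F ↥(Ut ⊓ Ut.map (actLin (qfPlus m F) g))) ↔
          g ∈ Cfsg.Omega F (Cfsg.quadFormPlus m F)) := by
      intro g
      have hfam := family (by omega) (Or.inr (by omega)) Ut hUtf hUt0 g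
      have hle : Module.finrank F ↥(Ut ⊓ Ut.map (actLin (qfPlus m F) g)) ≤ m :=
        (Submodule.finrank_mono inf_le_left).trans hUtf.le
      rw [Nat.even_sub hle] at hfam
      constructor
      · intro h
        exact hfam.mp ⟨fun _ => h, fun _ => hmeven⟩
      · intro h
        exact (hfam.mpr h).mp hmeven
    constructor
    · rintro ⟨g, hgΩ, hg⟩
      rw [hmapU g hg]
      exact (hpar g).mpr hgΩ
    · intro he
      rw [hmapU g₀ hg₀] at he
      exact ⟨g₀, (hpar g₀).mp he, hg₀⟩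

end Cfsg.Agent.S2172
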