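import Cfsg.Statements.S2241
import Cfsg.Agent.Lib.Helper15.SzG3

set_option autoImplicit false
open Cfsg

namespace Cfsg.Agent.S2241

/-- Real 2-elements of the Suzuki group: with q = 2^(2m+1), m ≥ 1, and the group realised as the stabiliser in SL₄ of the Suzuki–Tits ovoid, a non-identity element of a Sylow 2-subgroup is conjugate to its inverse if and only if it is an involution; in particular no element of order 4 is conjugate to its inverse. -/
theorem result {F : Type*} [Field F] [Fintype F] {m : ℕ} (hm : 1 ≤ m) (hF : Fintype.card F = 2 ^ (2 * m + 1)) (P : Sylow 2 ↥(Cfsg.Sz F m)) (g : ↥(Cfsg.Sz F m)) (hg : g ∈ (P : Subgroup ↥(Cfsg.Sz F m))) (h1 : g ≠ 1) :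
    IsConj g g⁻¹ ↔ orderOf g = 2 := by
  have key : ∀ S : Subgroup (Matrix.SpecialLinearGroup (Fin 4) F),
      S = (Cfsg.Agent.Lib.Helper4.Suz.dat hF).G → ∀ (P : Sylow 2 ↥S) (g : ↥S),
      g ∈ (P : Subgroup ↥S) → g ≠ 1 → (IsConj g g⁻¹ ↔ orderOf g = 2) := by
    intro S hS
    subst hS
    intro P g hg h1
    exact Cfsg.Agent.Lib.Helper15.SzG.real_iff _ (Cfsg.Agent.Lib.Helper4.Suz.dat_indep hm hF)
      (2 * m) hF P g hg h1
  exact key _ (Cfsg.Agent.Lib.Helper4.Suz.Sz_eq hF) P g hg h1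

end Cfsg.Agent.S2241
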