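import Cfsg.Statements.S2254
import Cfsg.Agent.Lib.Helper21.NilSym3

set_option autoImplicit false
open Cfsg

namespace Cfsg.Agent.S2254

open Cfsg.Agent.Lib.Helper21 in

/-- Let n ≡ 3 (mod 4). Then every nilpotent subgroup of the symmetric group on n letters has order at most 3 times the order of a Sylow 2-subgroup of the symmetric group on n − 3 letters; the bound is attained by a nilpotent subgroup isomorphic to the direct product of such a Sylow 2-subgroup with a cyclic group of order 3; and any two nilpotent subgroups attaining the bound are conjugate. -/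
theorem result  (n : ℕ) (hn : n % 4 = 3)
    (P : Sylow 2 (Equiv.Perm (Fin (n - 3)))) :
    (∀ N : Subgroup (Equiv.Perm (Fin n)), Group.IsNilpotent N → Nat.card N ≤ 3 * Nat.card P) ∧
    (∃ M : Subgroup (Equiv.Perm (Fin n)), Group.IsNilpotent M ∧ Nat.card M = 3 * Nat.card P ∧
      Nonempty (M ≃* (↥(P : Subgroup (Equiv.Perm (Fin (n - 3)))) × Multiplicative (ZMod 3)))) ∧
    (∀ N₁ N₂ : Subgroup (Equiv.Perm (Fin n)), Group.IsNilpotent N₁ → Group.IsNilpotent N₂ →
      Nat.card N₁ = 3 * Nat.card P → Nat.card N₂ = 3 * Nat.card P →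
      ∃ g : Equiv.Perm (Fin n), N₂ = N₁.map (MulAut.conj g).toMonoidHom) := by
  have hP : Nat.card P = nsB (n - 3) := by
    rw [Sylow.card_eq_multiplicity, Nat.card_perm, Nat.card_fin]
    unfold nsB nsE
    rw [Nat.factorization_def _ Nat.prime_two]
  have hG : nsG n = 3 * nsB (n - 3) := by unfold nsG; rw [if_pos hn]
  refine ⟨?_, ?_, ?_⟩
  · intro N hN
    have h := ns_general n (Fin n) N hN (by simp)
    rw [hG] at h
    rw [hP]; exact h
  · exact ns_exists n hn P
  · intro N₁ N₂ h1 h2 hc1 hc2
    rw [hP] at hc1 hc2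
    exact ns_conj n hn N₁ N₂ h1 h2 hc1 hc2

end Cfsg.Agent.S2254
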