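import Cfsg.Statements.S2255
import Cfsg.Agent.Lib.Helper21.NilSym5

set_option autoImplicit false
open Cfsg

namespace Cfsg.Agent.S2255

open Cfsg.Agent.Lib.Helper21 in

/-- Let n be a natural number not congruent to 3 modulo 4, with n ∉ {5, 6, 9}. Then every nilpotent subgroup of the alternating group on n letters has order at most the order of a Sylow 2-subgroup of the alternating group (so the nilpotent subgroups of largest order are exactly the Sylow 2-subgroups). -/
theorem result  (n : ℕ) (hn : n % 4 ≠ 3)
    (h5 : n ≠ 5) (h6 : n ≠ 6) (h9 : n ≠ 9)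
    (N : Subgroup (alternatingGroup (Fin n))) (hN : Group.IsNilpotent N)
    (P : Sylow 2 (alternatingGroup (Fin n))) :
    Nat.card N ≤ Nat.card P := by
  rcases Nat.lt_or_ge n 2 with hn2 | hn2
  · have h1 : Nat.card (alternatingGroup (Fin n)) = 1 := by
      have hdvd := Subgroup.card_subgroup_dvd_card (alternatingGroup (Fin n))
      rw [Nat.card_perm, Nat.card_fin] at hdvd
      have hf : Nat.factorial n = 1 := by interval_cases n <;> rfl
      rw [hf] at hdvd; exact Nat.dvd_one.mp hdvd
    have h2 : Nat.card N = 1 := by
      have := Subgroup.card_subgroup_dvd_card N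
      rw [h1] at this
      exact Nat.dvd_one.mp this
    rw [h2]; exact Nat.card_pos
  · haveI : Nontrivial (Fin n) := Fin.nontrivial_iff_two_le.mpr hn2
    haveI : Fact (Nat.Prime 2) := ⟨Nat.prime_two⟩
    obtain ⟨N', hN'⟩ : ∃ N' : Subgroup (Equiv.Perm (Fin n)),
        N' = N.map (alternatingGroup (Fin n)).subtype := ⟨_, rfl⟩
    have hinj := Subgroup.subtype_injective (alternatingGroup (Fin n))
    have hcard' : Nat.card N' = Nat.card N := by
      rw [hN']; exact Subgroup.card_map_of_injective hinj
    have hnil' : Group.IsNilpotent N' := by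
      rw [hN']; haveI := hN
      exact Group.nilpotent_of_mulEquiv (N.equivMapOfInjective _ hinj)
    have heven : ∀ g ∈ N', Equiv.Perm.sign g = 1 := by
      intro g hg; rw [hN'] at hg
      obtain ⟨x, -, rfl⟩ := hg
      exact Equiv.Perm.mem_alternatingGroup.mp x.2
    have hmain := ns_alt n (Fin n) N' hnil' heven (by simp)
    rw [nsH_good n hn2 hn h5 h6 h9, hcard'] at hmain
    have hP : 2 * Nat.card P = nsB n := by
      rw [Sylow.card_eq_multiplicity]
      have h2A := two_mul_nat_card_alternatingGroup (α := Fin n)
      rw [Nat.card_perm, Nat.card_fin] at h2A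
      have hA0 : Nat.card (alternatingGroup (Fin n)) ≠ 0 := Nat.card_pos.ne'
      have hv : padicValNat 2 (Nat.factorial n) =
          1 + padicValNat 2 (Nat.card (alternatingGroup (Fin n))) := by
        rw [← h2A, padicValNat.mul (by norm_num) hA0, padicValNat_self]
      unfold nsB nsE
      rw [hv, Nat.factorization_def _ Nat.prime_two, pow_add, pow_one]
    omega

end Cfsg.Agent.S2255
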