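import Cfsg.Statements.S2256
import Cfsg.Agent.Lib.Helper21.NilSym6

set_option autoImplicit false
open Cfsg

namespace Cfsg.Agent.S2256

open Cfsg.Agent.Lib.Helper21 in

/-- Let n ≡ 3 (mod 4) with n ≥ 7. Then every nilpotent subgroup of the alternating group on n letters has order at most 3 times the order of a Sylow 2-subgroup of the alternating group on n − 3 letters; the bound is attained by a nilpotent subgroup isomorphic to the direct product of such a Sylow 2-subgroup with a cyclic group of order 3; and any two nilpotent subgroups of the alternating group attaining the bound are conjugate in it. -/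
theorem result  (n : ℕ) (hn : n % 4 = 3) (h7 : 7 ≤ n)
    (P : Sylow 2 (alternatingGroup (Fin (n - 3)))) :
    (∀ N : Subgroup (alternatingGroup (Fin n)), Group.IsNilpotent N → Nat.card N ≤ 3 * Nat.card P) ∧
    (∃ M : Subgroup (alternatingGroup (Fin n)), Group.IsNilpotent M ∧ Nat.card M = 3 * Nat.card P ∧
      Nonempty (M ≃* (↥(P : Subgroup (alternatingGroup (Fin (n - 3)))) × Multiplicative (ZMod 3)))) ∧
    (∀ N₁ N₂ : Subgroup (alternatingGroup (Fin n)), Group.IsNilpotent N₁ → Group.IsNilpotent N₂ →
      Nat.card N₁ = 3 * Nat.card P → Nat.card N₂ = 3 * Nat.card P →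
      ∃ g : alternatingGroup (Fin n), N₂ = N₁.map (MulAut.conj g).toMonoidHom) := by
  haveI : Fact (Nat.Prime 2) := ⟨Nat.prime_two⟩
  have hP : 2 * Nat.card P = nsB (n - 3) := by
    haveI : Nontrivial (Fin (n - 3)) := Fin.nontrivial_iff_two_le.mpr (by omega)
    rw [Sylow.card_eq_multiplicity]
    have h2A := two_mul_nat_card_alternatingGroup (α := Fin (n - 3))
    rw [Nat.card_perm, Nat.card_fin] at h2A
    have hA0 : Nat.card (alternatingGroup (Fin (n - 3))) ≠ 0 := Nat.card_pos.ne'
    have hv : padicValNat 2 (Nat.factorial (n - 3)) =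
        1 + padicValNat 2 (Nat.card (alternatingGroup (Fin (n - 3)))) := by
      rw [← h2A, padicValNat.mul (by norm_num) hA0, padicValNat_self]
    unfold nsB nsE
    rw [hv, Nat.factorization_def _ Nat.prime_two, pow_add, pow_one]
  have hinj := Subgroup.subtype_injective (alternatingGroup (Fin n))
  have key : ∀ N : Subgroup (alternatingGroup (Fin n)), Group.IsNilpotent N →
      ∃ N' : Subgroup (Equiv.Perm (Fin n)), N' = N.map (alternatingGroup (Fin n)).subtype ∧
        Nat.card N' = Nat.card N ∧ Group.IsNilpotent N' ∧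
        ∀ g ∈ N', Equiv.Perm.sign g = 1 := by
    intro N hN
    refine ⟨_, rfl, Subgroup.card_map_of_injective hinj, ?_, ?_⟩
    · haveI := hN
      exact Group.nilpotent_of_mulEquiv (N.equivMapOfInjective _ hinj)
    · rintro _ ⟨x, -, rfl⟩
      exact Equiv.Perm.mem_alternatingGroup.mp x.2
  refine ⟨?_, ns_exists_alt n hn h7 P, ?_⟩
  · intro N hN
    obtain ⟨N', -, hc, hnil, hev⟩ := key N hN
    have hmain := ns_alt n (Fin n) N' hnil hev (by simp)
    have hH : nsH n = 3 * nsB (n - 3) := by
      unfold nsH nsG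
      rw [if_neg (by omega), if_neg (by omega), if_neg (by omega), if_neg (by omega),
        if_neg (by omega), if_neg (by omega), if_pos hn]
    rw [hH, hc] at hmain
    omega
  · intro N₁ N₂ h1 h2 hc1 hc2
    obtain ⟨N₁', hd1, hc1', hnil1, hev1⟩ := key N₁ h1
    obtain ⟨N₂', hd2, hc2', hnil2, hev2⟩ := key N₂ h2
    obtain ⟨g, hg, hgN⟩ := ns_conj_alt n hn h7 N₁' N₂' hnil1 hnil2 hev1 hev2
      (by rw [hc1', hc1]; omega) (by rw [hc2', hc2]; omega)
    refine ⟨⟨g, Equiv.Perm.mem_alternatingGroup.mpr hg⟩, ?_⟩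
    apply Subgroup.map_injective hinj
    rw [← hd2, hgN, hd1, Subgroup.map_map, Subgroup.map_map]
    congr 1

end Cfsg.Agent.S2256
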