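import Cfsg.Statements.S2268

set_option autoImplicit false
open Cfsg

namespace Cfsg.Agent.S2268

/-- Let G be a finite group with an abelian Sylow p-subgroup P and let Q ≤ P. Then N_G(Q) = (N_G(Q) ∩ N_G(P))·C_G(Q), so that N_G(Q)/C_G(Q) is a homomorphic image of the subgroup (N_G(Q) ∩ N_G(P))/C_G(P) of N_G(P)/C_G(P); in particular the order of N_G(Q)/C_G(Q) divides the order of N_G(P)/C_G(P). -/
theorem result {G : Type*} [Group G] [Finite G] {p : ℕ} [Fact p.Prime]
    (P : Sylow p G) (hP : IsMulCommutative (P : Subgroup G)) (Q : Subgroup G) (hQ : Q ≤ (P : Subgroup G)) :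
    Subgroup.normalizer (Q : Set G) =
      (Subgroup.normalizer (Q : Set G) ⊓ Subgroup.normalizer ((P : Subgroup G) : Set G)) ⊔ Subgroup.centralizer (Q : Set G) ∧
    ((Subgroup.centralizer (Q : Set G)).subgroupOf (Subgroup.normalizer (Q : Set G))).index ∣ ((Subgroup.centralizer ((P : Subgroup G) : Set G)).subgroupOf (Subgroup.normalizer ((P : Subgroup G) : Set G))).index := by
  classical
  set N := Subgroup.normalizer (Q : Set G) with hN
  set C := Subgroup.centralizer (Q : Set G) with hC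
  set NP := Subgroup.normalizer ((P : Subgroup G) : Set G) with hNP
  set CP := Subgroup.centralizer ((P : Subgroup G) : Set G) with hCP
  have hCN : C ≤ N := Subgroup.centralizer_le_normalizer _
  -- P is abelian, so P ≤ C_G(P) ≤ C_G(Q)
  have hPCP : (P : Subgroup G) ≤ CP := by
    intro x hx
    rw [hCP, Subgroup.mem_centralizer_iff]
    intro y hy
    have := hP.is_comm.comm (⟨y, hy⟩ : (P : Subgroup G)) ⟨x, hx⟩
    exact congrArg Subtype.val this
  have hCPC : CP ≤ C := Subgroup.centralizer_le (by exact_mod_cast hQ)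
  have hPC : (P : Subgroup G) ≤ C := hPCP.trans hCPC
  have hPN : (P : Subgroup G) ≤ N := hPC.trans hCN
  -- C is normal in N
  have hnormal : (C.subgroupOf N).Normal := by
    refine ⟨?_⟩
    rintro ⟨c, hcN⟩ hc ⟨g, hg⟩
    rw [Subgroup.mem_subgroupOf] at hc ⊢
    simp only [Subgroup.coe_mul, Subgroup.coe_inv] at hc ⊢
    rw [hC, Subgroup.mem_centralizer_iff] at hc ⊢
    intro h hh
    have hg' := (Subgroup.mem_normalizer_iff.mp hg)
    -- g⁻¹ h g ∈ Q
    have h1 : g⁻¹ * h * g ∈ Q := by
      have := (hg' (g⁻¹ * h * g)).mpr (by simpa [mul_assoc] using hh)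
      exact this
    have h2 := hc (g⁻¹ * h * g) h1
    calc h * (g * c * g⁻¹) = g * ((g⁻¹ * h * g) * c) * g⁻¹ := by group
      _ = g * (c * (g⁻¹ * h * g)) * g⁻¹ := by rw [h2]
      _ = g * c * g⁻¹ * h := by group
  -- Frattini argument inside N
  have hfr := @Sylow.normalizer_sup_eq_top' N _ p _ (C.subgroupOf N) hnormal _ (P.subtype hPN)
    (by
      intro x hx
      rw [Subgroup.mem_subgroupOf]
      have : (x : G) ∈ (P : Subgroup G) := by
        simpa [Sylow.coe_subtype, Subgroup.mem_subgroupOf] using hx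
      exact hPC this)
  have hA : (Subgroup.normalizer ((P.subtype hPN : Sylow p N) : Set N)).map N.subtype ≤ N ⊓ NP := by
    rintro _ ⟨⟨x, hxN⟩, hx, rfl⟩
    refine ⟨hxN, ?_⟩
    show x ∈ Subgroup.normalizer ((P : Subgroup G) : Set G)
    rw [Subgroup.mem_normalizer_iff]
    have hx' := Subgroup.mem_normalizer_iff.mp hx
    intro h
    constructor
    · intro hh
      have := (hx' ⟨h, hPN hh⟩).mp (by simpa [Sylow.coe_subtype, Subgroup.mem_subgroupOf] using hh)
      simpa [Sylow.coe_subtype, Subgroup.mem_subgroupOf] using this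
    · intro hh
      -- h = x⁻¹ (x h x⁻¹) x ∈ N
      have hhN : h ∈ N := by
        have h1 : x * h * x⁻¹ ∈ N := hPN hh
        have : h = x⁻¹ * (x * h * x⁻¹) * x := by group
        rw [this]
        exact N.mul_mem (N.mul_mem (N.inv_mem hxN) h1) hxN
      have := (hx' ⟨h, hhN⟩).mpr (by simpa [Sylow.coe_subtype, Subgroup.mem_subgroupOf] using hh)
      simpa [Sylow.coe_subtype, Subgroup.mem_subgroupOf] using this
  have key : (N ⊓ NP).subgroupOf N ⊔ C.subgroupOf N = ⊤ := by
    rw [eq_top_iff, ← hfr]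
    refine sup_le_sup_right ?_ _
    intro x hx
    rw [Subgroup.mem_subgroupOf]
    exact hA ⟨x, hx, rfl⟩
  constructor
  · apply le_antisymm
    · intro x hx
      have : (⟨x, hx⟩ : N) ∈ (N ⊓ NP).subgroupOf N ⊔ C.subgroupOf N := by rw [key]; trivial
      have h2 : N.subtype ⟨x, hx⟩ ∈ ((N ⊓ NP).subgroupOf N ⊔ C.subgroupOf N).map N.subtype :=
        Subgroup.mem_map_of_mem _ this
      rw [Subgroup.map_sup, Subgroup.subgroupOf_map_subtype, Subgroup.subgroupOf_map_subtype] at h2
      exact (sup_le_sup (inf_le_left : (N ⊓ NP) ⊓ N ≤ N ⊓ NP) (inf_le_left : C ⊓ N ≤ C)) h2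
    · exact sup_le inf_le_left hCN
  · -- index computation
    have h1 : (C.subgroupOf N).index = C.relIndex (N ⊓ NP) := by
      have := Subgroup.relIndex_sup_right ((N ⊓ NP).subgroupOf N) (C.subgroupOf N)
      rw [key, Subgroup.relIndex_top_right] at this
      rw [this, Subgroup.relIndex_subgroupOf inf_le_left]
    have hCPN : CP ≤ N := hCPC.trans hCN
    have hCPNP : CP ≤ NP := Subgroup.centralizer_le_normalizer _
    have hCPA : CP ≤ N ⊓ NP := le_inf hCPN hCPNP
    have h2 : C.relIndex (N ⊓ NP) ∣ CP.relIndex (N ⊓ NP) := by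
      rw [← Subgroup.inf_relIndex_right]
      exact Subgroup.relIndex_dvd_of_le_left _ (le_inf hCPC hCPA)
    have h3 : CP.relIndex (N ⊓ NP) * (N ⊓ NP).relIndex NP = CP.relIndex NP :=
      Subgroup.relIndex_mul_relIndex _ _ _ hCPA inf_le_right
    rw [h1]
    exact h2.trans (Dvd.intro _ h3)

end Cfsg.Agent.S2268
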