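import Cfsg.Statements.S2269
import Cfsg.Agent.Lib.Helper15.AltAutomizer
import Cfsg.Agent.S5164

set_option autoImplicit false
open Cfsg

namespace Cfsg.Agent.S2269

/-- Let n ≥ 5 and let P be an abelian Sylow p-subgroup of the alternating group A_n. Then N(P)/C(P) (taken in A_n) has even order, or P is cyclic, except when n = 5 and p = 2, where P is a four-group and N(P)/C(P) has order 3. -/
theorem result (n : ℕ) (hn : 5 ≤ n) {p : ℕ} [Fact p.Prime]
    (P : Sylow p (alternatingGroup (Fin n))) (hP : IsMulCommutative (P : Subgroup (alternatingGroup (Fin n)))) :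
    (¬ (n = 5 ∧ p = 2) → 2 ∣ ((Subgroup.centralizer ((P : Subgroup (alternatingGroup (Fin n))) : Set (alternatingGroup (Fin n)))).subgroupOf (Subgroup.normalizer ((P : Subgroup (alternatingGroup (Fin n))) : Set (alternatingGroup (Fin n))))).index ∨ IsCyclic (P : Subgroup (alternatingGroup (Fin n)))) ∧
    ((n = 5 ∧ p = 2) → ((Subgroup.centralizer ((P : Subgroup (alternatingGroup (Fin n))) : Set (alternatingGroup (Fin n)))).subgroupOf (Subgroup.normalizer ((P : Subgroup (alternatingGroup (Fin n))) : Set (alternatingGroup (Fin n))))).index = 3 ∧ IsKleinFour (P : Subgroup (alternatingGroup (Fin n)))) := by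
  constructor
  · intro hne
    by_cases hp : p = 2
    · subst hp
      have hn6 : 6 ≤ n := by
        rcases Nat.lt_or_ge n 6 with h | h
        · exact absurd ⟨by omega, rfl⟩ hne
        · exact h
      exfalso
      have hPne : (P : Subgroup (alternatingGroup (Fin n))) ≠ ⊥ := by
        intro hbot
        have hc := Sylow.card_eq_multiplicity P
        rw [hbot, Subgroup.card_bot] at hc
        have h2 : 2 ∣ Nat.card (alternatingGroup (Fin n)) := by
          have h := Cfsg.Agent.Lib.Helper15.AltAut.card_alt n (by omega)
          have h4 : 4 ∣ n.factorial := Nat.dvd_factorial (by norm_num) (by omega)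
          obtain ⟨m, hm⟩ := h4
          exact ⟨m, by omega⟩
        have hv : 0 < (Nat.card (alternatingGroup (Fin n))).factorization 2 :=
          Nat.Prime.factorization_pos_of_dvd Nat.prime_two Nat.card_pos.ne' h2
        have h3 : 2 ^ 1 ≤ 2 ^ (Nat.card (alternatingGroup (Fin n))).factorization 2 :=
          Nat.pow_le_pow_right (by norm_num) hv
        omega
      have h := (Cfsg.Agent.S5164.result n 2 hn6 P hPne).1 hP
      norm_num at h
      omega
    · by_cases hbot : (P : Subgroup (alternatingGroup (Fin n))) = ⊥
      · right
        have hsub : Subsingleton (P : Subgroup (alternatingGroup (Fin n))) := by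
          rw [hbot]
          infer_instance
        exact isCyclic_of_subsingleton
      · have hnp : n < p ^ 2 := by
          rcases Nat.lt_or_ge n 6 with h | h
          · have h2 := (Fact.out : p.Prime).two_le
            have hp3 : 3 ≤ p := by omega
            nlinarith
          · exact (Cfsg.Agent.S5164.result n p h P hbot).1 hP
        exact Cfsg.Agent.Lib.Helper15.AltAut.odd_case n p hp (by omega) hnp P
  · rintro ⟨rfl, rfl⟩
    exact Cfsg.Agent.Lib.Helper15.AltAut.sylow_two_A5 P

end Cfsg.Agent.S2269
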