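import Cfsg.Statements.S2270

set_option autoImplicit false
open Cfsg

namespace Cfsg.Agent.S2270

/-- Let n ≥ 3, p an odd prime, and P an abelian Sylow p-subgroup of the symmetric group S_n (with p dividing n!, so that P ≠ 1). Then N(P)/C(P) has even order. -/
theorem result (n : ℕ) (hn : 3 ≤ n) {p : ℕ} [Fact p.Prime] (hp : p ≠ 2) (hpn : p ≤ n)
    (P : Sylow p (Equiv.Perm (Fin n))) (hP : IsMulCommutative (P : Subgroup (Equiv.Perm (Fin n)))) :
    2 ∣ ((Subgroup.centralizer ((P : Subgroup (Equiv.Perm (Fin n))) : Set (Equiv.Perm (Fin n)))).subgroupOf (Subgroup.normalizer ((P : Subgroup (Equiv.Perm (Fin n))) : Set (Equiv.Perm (Fin n))))).index := by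
  classical
  have hpr : p.Prime := Fact.out
  set G := Equiv.Perm (Fin n)
  set N := Subgroup.normalizer ((P : Subgroup G) : Set G) with hN
  set C := Subgroup.centralizer ((P : Subgroup G) : Set G) with hC
  -- p divides the order of the group
  have hdvd : p ∣ Nat.card G := by
    rw [Nat.card_eq_fintype_card, Fintype.card_perm, Fintype.card_fin]
    exact (Nat.Prime.dvd_factorial hpr).mpr hpn
  have hne : (P : Subgroup G) ≠ ⊥ := P.ne_bot_of_dvd_card hdvd
  obtain ⟨g, hgP, hg1⟩ : ∃ g : G, g ∈ (P : Subgroup G) ∧ g ≠ 1 := by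
    obtain ⟨x, hx⟩ := (Subgroup.ne_bot_iff_exists_ne_one).mp hne
    exact ⟨(x : G), x.2, fun h => hx (Subtype.ext h)⟩
  -- g and g⁻¹ are conjugate
  have hconj : IsConj g g⁻¹ := by
    rw [Equiv.Perm.isConj_iff_cycleType_eq, Equiv.Perm.cycleType_inv]
  obtain ⟨c, hc⟩ := isConj_iff.mp hconj
  have hy : (c⁻¹)⁻¹ * g * c⁻¹ ∈ (P : Subgroup G) := by
    rw [inv_inv, hc]; exact (P : Subgroup G).inv_mem hgP
  obtain ⟨m, hmN, hm⟩ := Sylow.conj_eq_normalizer_conj_of_mem P g c⁻¹ hgP hy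
  rw [inv_inv, hc] at hm
  -- m⁻¹ g m = g⁻¹
  have hpow : ∀ k : ℕ, (m ^ k)⁻¹ * g * m ^ k = g ^ ((-1 : ℤ) ^ k) := by
    intro k
    induction k with
    | zero => simp
    | succ k ih =>
      have : (m ^ (k + 1))⁻¹ * g * m ^ (k + 1) = m⁻¹ * ((m ^ k)⁻¹ * g * m ^ k) * m := by
        rw [pow_succ]; group
      rw [this, ih]
      have h2 : m⁻¹ * g ^ ((-1 : ℤ) ^ k) * m = (m⁻¹ * g * m) ^ ((-1 : ℤ) ^ k) := by
        have := (MulAut.conj m⁻¹).toMonoidHom.map_zpow g ((-1 : ℤ) ^ k)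
        simpa [MulAut.conj_apply] using this
      rw [h2, ← hm, ← zpow_neg_one, ← zpow_mul, pow_succ, mul_comm]
  -- the image of m in N/C has even order
  let mbar : N ⧸ C.subgroupOf N := QuotientGroup.mk ⟨m, hmN⟩
  have hfin : Finite (N ⧸ C.subgroupOf N) := inferInstance
  have hord : orderOf mbar ∣ (C.subgroupOf N).index := by
    rw [Subgroup.index_eq_card]
    exact orderOf_dvd_natCard mbar
  refine Dvd.dvd.trans ?_ hord
  by_contra h2
  have hodd : Odd (orderOf mbar) := Nat.not_even_iff_odd.mp (fun h => h2 (even_iff_two_dvd.mp h))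
  have h1 : mbar ^ orderOf mbar = 1 := pow_orderOf_eq_one mbar
  have h3 : (⟨m, hmN⟩ : N) ^ orderOf mbar ∈ C.subgroupOf N := by
    rw [← QuotientGroup.eq_one_iff]
    exact h1
  rw [Subgroup.mem_subgroupOf] at h3
  have h4 := (Subgroup.mem_centralizer_iff.mp h3) g hgP
  simp only [Subgroup.coe_pow] at h4
  have h5 := hpow (orderOf mbar)
  rw [hodd.neg_one_pow, zpow_neg_one] at h5
  have h6 : g⁻¹ = g := by
    rw [← h5, mul_assoc, h4, ← mul_assoc, inv_mul_cancel, one_mul]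
  have h7 : g ^ 2 = 1 := by
    rw [pow_two]; nth_rewrite 1 [← h6]; exact inv_mul_cancel g
  -- g is a p-element, p odd
  obtain ⟨k, hk⟩ := P.2 ⟨g, hgP⟩
  have hk' : g ^ (p ^ k) = 1 := by
    have := congrArg Subtype.val hk
    simpa using this
  have hcop : Nat.Coprime (p ^ k) 2 := by
    apply Nat.Coprime.pow_left
    rw [Nat.coprime_primes hpr Nat.prime_two]
    exact hp
  have h8 : orderOf g ∣ 1 := by
    have ha := orderOf_dvd_of_pow_eq_one hk'
    have hb := orderOf_dvd_of_pow_eq_one h7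
    have := Nat.dvd_gcd ha hb
    rwa [hcop.gcd_eq_one] at this
  exact hg1 (orderOf_eq_one_iff.mp (Nat.dvd_one.mp h8))

end Cfsg.Agent.S2270
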