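import Cfsg.Statements.S2280
import Mathlib
import Cfsg.Agent.Lib.Helper3.SLn

set_option autoImplicit false
open Cfsg

namespace Cfsg.Agent.S2280

set_option linter.unusedSectionVars false
set_option linter.unusedVariables false
set_option linter.unnecessarySeqFocus false

open Matrix

section Gen

variable {F : Type*} [Field F] {n : ℕ}

/-- Basis vectors indexed by natural numbers (zero beyond the range). -/
def bv (k : ℕ) : Fin n → F := fun i => if i.val = k then 1 else 0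

theorem bv_apply (k : ℕ) (i : Fin n) : (bv k : Fin n → F) i = if i.val = k then 1 else 0 := rfl

theorem bv_of_le (k : ℕ) (hk : n ≤ k) : (bv k : Fin n → F) = 0 := by
  funext i
  have := i.2
  rw [bv_apply, if_neg (by omega)]
  rfl

theorem bv_dot (k : ℕ) (hk : k < n) (x : Fin n → F) : bv k ⬝ᵥ x = x ⟨k, hk⟩ := by
  unfold dotProduct
  rw [Finset.sum_eq_single ⟨k, hk⟩]
  · rw [bv_apply, if_pos rfl, one_mul]
  · intro j _ hj
    rw [bv_apply, if_neg (fun e => hj (Fin.ext e)), zero_mul]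
  · intro h
    exact absurd (Finset.mem_univ _) h

theorem dot_bv (k : ℕ) (hk : k < n) (x : Fin n → F) : x ⬝ᵥ bv k = x ⟨k, hk⟩ := by
  rw [dotProduct_comm, bv_dot k hk]

theorem bv_dot_bv_ne (a b : ℕ) (hab : a ≠ b) : (bv a : Fin n → F) ⬝ᵥ bv b = 0 := by
  unfold dotProduct
  apply Finset.sum_eq_zero
  intro i _
  rw [bv_apply, bv_apply]
  by_cases h : i.val = a
  · rw [if_pos h, if_neg (by omega : ¬ i.val = b), mul_zero]
  · rw [if_neg h, zero_mul]

theorem bv_dot_bv_self (a : ℕ) (ha : a < n) : (bv a : Fin n → F) ⬝ᵥ bv a = 1 := by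
  rw [bv_dot a ha, bv_apply, if_pos rfl]

theorem mulVec_bv (M : Matrix (Fin n) (Fin n) F) (k : ℕ) (hk : k < n) (i : Fin n) :
    (M *ᵥ bv k) i = M i ⟨k, hk⟩ := dot_bv k hk _

theorem bv_vecMul (M : Matrix (Fin n) (Fin n) F) (k : ℕ) (hk : k < n) (j : Fin n) :
    (bv k ᵥ* M) j = M ⟨k, hk⟩ j := bv_dot k hk _

theorem ext_bv (A B : Matrix (Fin n) (Fin n) F)
    (h : ∀ k (hk : k < n), A *ᵥ bv k = B *ᵥ bv k) : A = B := by
  ext i j
  have := congrFun (h j.val j.2) i
  rw [mulVec_bv, mulVec_bv] at this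
  exact this

theorem vmv_mulVec (a b x : Fin n → F) : vecMulVec a b *ᵥ x = (b ⬝ᵥ x) • a := by
  funext i
  simp only [Matrix.mulVec, dotProduct, vecMulVec_apply, Pi.smul_apply, smul_eq_mul,
    Finset.sum_mul]
  apply Finset.sum_congr rfl
  intro j _
  ring

/-- The matrix `1 + v φᵀ`. -/
def tm (v φ : Fin n → F) : Matrix (Fin n) (Fin n) F := 1 + vecMulVec v φ

theorem tm_mulVec (v φ x : Fin n → F) : tm v φ *ᵥ x = x + (φ ⬝ᵥ x) • v := by
  unfold tm
  rw [Matrix.add_mulVec, Matrix.one_mulVec, vmv_mulVec]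

theorem vecMul_tm (x v φ : Fin n → F) : x ᵥ* tm v φ = x + (x ⬝ᵥ v) • φ := by
  unfold tm
  rw [Matrix.vecMul_add, Matrix.vecMul_one, vecMul_vecMulVec]

theorem tm_zero_right (v : Fin n → F) : tm v (0 : Fin n → F) = 1 := by
  unfold tm
  ext i j
  simp

theorem tm_zero_left (φ : Fin n → F) : tm (0 : Fin n → F) φ = 1 := by
  unfold tm
  ext i j
  simp

theorem tm_mul_same (v φ φ' : Fin n → F) (h : φ ⬝ᵥ v = 0) :
    tm v φ * tm v φ' = tm v (φ + φ') := by
  unfold tm
  simp only [Matrix.add_mul, Matrix.mul_add, Matrix.one_mul, Matrix.mul_one]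
  rw [vecMulVec_mul_vecMulVec, h, zero_smul]
  ext i j
  simp [vecMulVec_apply]
  ring

theorem tm_mul_same' (v v' φ : Fin n → F) (h : φ ⬝ᵥ v' = 0) :
    tm v φ * tm v' φ = tm (v + v') φ := by
  unfold tm
  simp only [Matrix.add_mul, Matrix.mul_add, Matrix.one_mul, Matrix.mul_one]
  rw [vecMulVec_mul_vecMulVec, h, zero_smul]
  ext i j
  simp [vecMulVec_apply]
  ring

theorem conj_tm (g gi : Matrix (Fin n) (Fin n) F) (v φ : Fin n → F) (h : g * gi = 1) :
    g * tm v φ * gi = tm (g *ᵥ v) (φ ᵥ* gi) := by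
  unfold tm
  rw [Matrix.mul_add, Matrix.add_mul, Matrix.mul_one, h, mul_vecMulVec, vecMulVec_mul]

theorem tm_neg_left (v φ : Fin n → F) : tm (-v) φ = tm v (-φ) := by
  unfold tm
  ext i j
  simp [vecMulVec_apply]

theorem tm_smul_left (t : F) (v φ : Fin n → F) : tm (t • v) φ = tm v (t • φ) := by
  unfold tm
  ext i j
  simp only [Matrix.add_apply, vecMulVec_apply, Pi.smul_apply, smul_eq_mul]
  ring

theorem det_tm (v φ : Fin n → F) (h : φ ⬝ᵥ v = 0) : (tm v φ).det = 1 := by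
  unfold tm
  rw [Matrix.vecMulVec_eq Unit, Matrix.det_one_add_replicateCol_mul_replicateRow, h, add_zero]

theorem transv_eq_tm (i j : Fin n) (t : F) :
    Matrix.transvection i j t = tm (t • bv i.val) (bv j.val) := by
  unfold tm Matrix.transvection
  congr 1
  ext a b
  rw [Matrix.single_apply, vecMulVec_apply, Pi.smul_apply, bv_apply, bv_apply, smul_eq_mul]
  by_cases h1 : a = i
  · by_cases h2 : b = j
    · subst h1 h2
      simp
    · have : b.val ≠ j.val := fun e => h2 (Fin.ext e)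
      simp [this, Ne.symm h2]
  · have : a.val ≠ i.val := fun e => h1 (Fin.ext e)
    simp [this, Ne.symm h1]

/-- Conjugating a unipotent `1 + N` by a transvection whose centre is killed by `N`. -/
theorem conj_unip (N : Matrix (Fin n) (Fin n) F) (e ψ φ : Fin n → F) (hNe : N *ᵥ e = 0)
    (hψ : ψ ᵥ* N = φ) (hφe : φ ⬝ᵥ e = 0) :
    tm e ψ * (1 + N) = (1 + N) * tm e φ * tm e ψ := by
  unfold tm
  have h1 : vecMulVec e ψ * N = vecMulVec e φ := by rw [vecMulVec_mul, hψ]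
  have h2 : N * vecMulVec e φ = 0 := by
    rw [mul_vecMulVec, hNe]
    ext i j
    simp [vecMulVec_apply]
  have h3 : N * vecMulVec e ψ = 0 := by
    rw [mul_vecMulVec, hNe]
    ext i j
    simp [vecMulVec_apply]
  have h4 : vecMulVec e φ * vecMulVec e ψ = 0 := by
    rw [vecMulVec_mul_vecMulVec, hφe, zero_smul]
    ext i j
    simp [vecMulVec_apply]
  have e1 : (1 + N) * (1 + vecMulVec e φ) = 1 + N + vecMulVec e φ := by
    rw [Matrix.add_mul, Matrix.one_mul, Matrix.mul_add, Matrix.mul_one, h2, add_zero]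
    abel
  rw [e1]
  simp only [Matrix.add_mul, Matrix.mul_add, Matrix.one_mul, Matrix.mul_one]
  rw [h1, h3, h4]
  abel

/-- The set of matrices of the elements of a subgroup. -/
def MG (G : Subgroup (Matrix.SpecialLinearGroup (Fin n) F)) : Set (Matrix (Fin n) (Fin n) F) :=
  {M | ∃ g ∈ G, (g : Matrix (Fin n) (Fin n) F) = M}

variable {G : Subgroup (Matrix.SpecialLinearGroup (Fin n) F)}

theorem MG_coe {g : Matrix.SpecialLinearGroup (Fin n) F} (hg : g ∈ G) :
    (g : Matrix (Fin n) (Fin n) F) ∈ MG G := ⟨g, hg, rfl⟩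

theorem mem_of_MG {g : Matrix.SpecialLinearGroup (Fin n) F}
    (h : (g : Matrix (Fin n) (Fin n) F) ∈ MG G) : g ∈ G := by
  obtain ⟨g', hg', e⟩ := h
  have : g' = g := Subtype.ext e
  rw [← this]
  exact hg'

theorem MG_mul {A B : Matrix (Fin n) (Fin n) F} (hA : A ∈ MG G) (hB : B ∈ MG G) :
    A * B ∈ MG G := by
  obtain ⟨a, ha, rfl⟩ := hA
  obtain ⟨b, hb, rfl⟩ := hB
  exact ⟨a * b, G.mul_mem ha hb, Matrix.SpecialLinearGroup.coe_mul a b⟩

theorem MG_one : (1 : Matrix (Fin n) (Fin n) F) ∈ MG G := ⟨1, G.one_mem, rfl⟩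

theorem MG_inv {A B : Matrix (Fin n) (Fin n) F} (hA : A ∈ MG G) (h : A * B = 1) :
    B ∈ MG G := by
  obtain ⟨a, ha, rfl⟩ := hA
  refine ⟨a⁻¹, G.inv_mem ha, ?_⟩
  have h1 : ((a⁻¹ : Matrix.SpecialLinearGroup (Fin n) F) : Matrix (Fin n) (Fin n) F) *
      (a : Matrix (Fin n) (Fin n) F) = 1 := by
    rw [← Matrix.SpecialLinearGroup.coe_mul, inv_mul_cancel, Matrix.SpecialLinearGroup.coe_one]
  calc ((a⁻¹ : Matrix.SpecialLinearGroup (Fin n) F) : Matrix (Fin n) (Fin n) F)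
      = ((a⁻¹ : Matrix.SpecialLinearGroup (Fin n) F) : Matrix (Fin n) (Fin n) F) *
          ((a : Matrix (Fin n) (Fin n) F) * B) := by rw [h, Matrix.mul_one]
    _ = B := by rw [← Matrix.mul_assoc, h1, Matrix.one_mul]

theorem MG_exists_inv {A : Matrix (Fin n) (Fin n) F} (hA : A ∈ MG G) :
    ∃ B, B ∈ MG G ∧ A * B = 1 ∧ B * A = 1 := by
  obtain ⟨a, ha, rfl⟩ := hA
  refine ⟨((a⁻¹ : Matrix.SpecialLinearGroup (Fin n) F) : Matrix (Fin n) (Fin n) F),
    MG_coe (G.inv_mem ha), ?_, ?_⟩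
  · rw [← Matrix.SpecialLinearGroup.coe_mul, mul_inv_cancel, Matrix.SpecialLinearGroup.coe_one]
  · rw [← Matrix.SpecialLinearGroup.coe_mul, inv_mul_cancel, Matrix.SpecialLinearGroup.coe_one]

theorem MG_left_cancel {A B : Matrix (Fin n) (Fin n) F} (hA : A ∈ MG G)
    (hAB : A * B ∈ MG G) : B ∈ MG G := by
  obtain ⟨Ai, hAi, h1, h2⟩ := MG_exists_inv hA
  have : B = Ai * (A * B) := by rw [← Matrix.mul_assoc, h2, Matrix.one_mul]
  rw [this]
  exact MG_mul hAi hAB

theorem conj_coe (k u : Matrix.SpecialLinearGroup (Fin n) F) (Y : Matrix (Fin n) (Fin n) F)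
    (h : (k : Matrix (Fin n) (Fin n) F) * (u : Matrix (Fin n) (Fin n) F)
      = Y * (k : Matrix (Fin n) (Fin n) F)) :
    ((k * u * k⁻¹ : Matrix.SpecialLinearGroup (Fin n) F) : Matrix (Fin n) (Fin n) F) = Y := by
  rw [Matrix.SpecialLinearGroup.coe_mul, Matrix.SpecialLinearGroup.coe_mul, h, Matrix.mul_assoc,
    ← Matrix.SpecialLinearGroup.coe_mul, mul_inv_cancel, Matrix.SpecialLinearGroup.coe_one, Matrix.mul_one]

/-- Transvections in the subgroup with a fixed centre `c`. -/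
def PhiS (G : Subgroup (Matrix.SpecialLinearGroup (Fin n) F)) (c φ : Fin n → F) : Prop :=
  φ ⬝ᵥ c = 0 ∧ tm c φ ∈ MG G

theorem PhiS_add {c φ φ' : Fin n → F} (h1 : PhiS G c φ) (h2 : PhiS G c φ') :
    PhiS G c (φ + φ') := by
  refine ⟨by rw [add_dotProduct, h1.1, h2.1, add_zero], ?_⟩
  rw [← tm_mul_same c φ φ' h1.1]
  exact MG_mul h1.2 h2.2

theorem PhiS_neg {c φ : Fin n → F} (h1 : PhiS G c φ) : PhiS G c (-φ) := by
  refine ⟨by rw [neg_dotProduct, h1.1, neg_zero], ?_⟩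
  apply MG_inv h1.2
  rw [tm_mul_same c φ (-φ) h1.1, add_neg_cancel, tm_zero_right]

theorem PhiS_sub {c φ φ' : Fin n → F} (h1 : PhiS G c φ) (h2 : PhiS G c φ') :
    PhiS G c (φ - φ') := by
  rw [sub_eq_add_neg]
  exact PhiS_add h1 (PhiS_neg h2)

theorem PhiS_vecMul {c φ : Fin n → F} (M : Matrix (Fin n) (Fin n) F) (hM : M ∈ MG G)
    (hMc : M *ᵥ c = c) (h : PhiS G c φ) : PhiS G c (φ ᵥ* M) := by
  obtain ⟨Mi, hMi, h1, h2⟩ := MG_exists_inv hM
  have hMic : Mi *ᵥ c = c := by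
    calc Mi *ᵥ c = Mi *ᵥ (M *ᵥ c) := by rw [hMc]
      _ = c := by rw [Matrix.mulVec_mulVec, h2, Matrix.one_mulVec]
  refine ⟨by rw [← Matrix.dotProduct_mulVec, hMc, h.1], ?_⟩
  have := conj_tm Mi M c φ h2
  rw [hMic] at this
  rw [← this]
  exact MG_mul (MG_mul hMi h.2) hM

/-- Transvections in the subgroup with a fixed axis `a`. -/
def WS (G : Subgroup (Matrix.SpecialLinearGroup (Fin n) F)) (a w : Fin n → F) : Prop :=
  a ⬝ᵥ w = 0 ∧ tm w a ∈ MG G

theorem WS_add {a w w' : Fin n → F} (h1 : WS G a w) (h2 : WS G a w') :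
    WS G a (w + w') := by
  refine ⟨by rw [dotProduct_add, h1.1, h2.1, add_zero], ?_⟩
  rw [← tm_mul_same' w w' a h2.1]
  exact MG_mul h1.2 h2.2

theorem WS_neg {a w : Fin n → F} (h1 : WS G a w) : WS G a (-w) := by
  refine ⟨by rw [dotProduct_neg, h1.1, neg_zero], ?_⟩
  apply MG_inv h1.2
  rw [tm_mul_same' w (-w) a (by rw [dotProduct_neg, h1.1, neg_zero]), add_neg_cancel,
    tm_zero_left]

theorem WS_sub {a w w' : Fin n → F} (h1 : WS G a w) (h2 : WS G a w') :
    WS G a (w - w') := by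
  rw [sub_eq_add_neg]
  exact WS_add h1 (WS_neg h2)

theorem WS_mulVec {a w : Fin n → F} (M : Matrix (Fin n) (Fin n) F) (hM : M ∈ MG G)
    (hMa : a ᵥ* M = a) (h : WS G a w) : WS G a (M *ᵥ w) := by
  obtain ⟨Mi, hMi, h1, h2⟩ := MG_exists_inv hM
  have hMia : a ᵥ* Mi = a := by
    calc a ᵥ* Mi = (a ᵥ* M) ᵥ* Mi := by rw [hMa]
      _ = a := by rw [Matrix.vecMul_vecMul, h1, Matrix.vecMul_one]
  refine ⟨by rw [Matrix.dotProduct_mulVec, hMa, h.1], ?_⟩
  have := conj_tm M Mi w a h1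
  rw [hMia] at this
  rw [← this]
  exact MG_mul (MG_mul hM h.2) hMi

theorem tv_mem {i j : Fin n} (hij : i ≠ j) (t : F)
    (h : tm (t • bv i.val) (bv j.val) ∈ MG G) : Matrix.SpecialLinearGroup.transvection hij t ∈ G := by
  apply mem_of_MG
  rw [← transv_eq_tm] at h
  exact h

theorem tv_MG {i j : Fin n} (hij : i ≠ j) (t : F)
    (h : Matrix.SpecialLinearGroup.transvection hij t ∈ G) : tm (t • bv i.val) (bv j.val) ∈ MG G := by
  rw [← transv_eq_tm]
  exact MG_coe h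

theorem comm_mem {i j k : Fin n} (hij : i ≠ j) (hik : i ≠ k) (hkj : k ≠ j) (a b : F)
    (h1 : Matrix.SpecialLinearGroup.transvection hik a ∈ G)
    (h2 : Matrix.SpecialLinearGroup.transvection hkj b ∈ G) :
    Matrix.SpecialLinearGroup.transvection hij (a * b) ∈ G := by
  rw [← Cfsg.Agent.Lib.Helper3.transvection_commutator hij hik hkj a b, commutatorElement_def]
  exact G.mul_mem (G.mul_mem (G.mul_mem h1 h2) (G.inv_mem h1)) (G.inv_mem h2)

end Gen

section Ring

variable {F : Type*} [Field F] {n : ℕ}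

theorem tv_add {i j : Fin n} (hij : i ≠ j) (a b : F) :
    Matrix.SpecialLinearGroup.transvection hij (a + b) =
      Matrix.SpecialLinearGroup.transvection hij a *
        Matrix.SpecialLinearGroup.transvection hij b := by
  apply Subtype.ext
  exact (Matrix.transvection_mul_transvection_same i j hij a b).symm

theorem tv_neg {i j : Fin n} (hij : i ≠ j) (a : F) :
    Matrix.SpecialLinearGroup.transvection hij (-a) =
      (Matrix.SpecialLinearGroup.transvection hij a)⁻¹ := by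
  rw [eq_inv_iff_mul_eq_one, ← tv_add, neg_add_cancel,
    Matrix.SpecialLinearGroup.transvection_coeff_zero]

theorem ring_trick (G : Subgroup (Matrix.SpecialLinearGroup (Fin n) F)) (hn : 3 ≤ n)
    (h1 : ∀ (i j : Fin n) (hij : i ≠ j),
      Matrix.SpecialLinearGroup.transvection hij (1 : F) ∈ G)
    (θ : F) (i₀ j₀ : Fin n) (h₀ : i₀ ≠ j₀)
    (hθ : Matrix.SpecialLinearGroup.transvection h₀ θ ∈ G)
    (hgen : ∀ x : F, x ∈ Subring.closure ({θ} : Set F)) : G = ⊤ := by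
  classical
  have hex : ∀ i j : Fin n, ∃ k : Fin n, k ≠ i ∧ k ≠ j := by
    intro i j
    by_cases c0 : (⟨0, by omega⟩ : Fin n) ≠ i ∧ (⟨0, by omega⟩ : Fin n) ≠ j
    · exact ⟨_, c0⟩
    by_cases c1 : (⟨1, by omega⟩ : Fin n) ≠ i ∧ (⟨1, by omega⟩ : Fin n) ≠ j
    · exact ⟨_, c1⟩
    simp only [ne_eq, not_and_or, not_not, Fin.ext_iff] at c0 c1
    refine ⟨⟨2, by omega⟩, ?_, ?_⟩
    · intro h
      rw [Fin.ext_iff] at h
      simp only at h
      omega
    · intro h
      rw [Fin.ext_iff] at h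
      simp only at h
      omega
  have M1 : ∀ (i j k : Fin n) (hij : i ≠ j) (hik : i ≠ k) (hjk : j ≠ k) (t : F),
      Matrix.SpecialLinearGroup.transvection hij t ∈ G →
      Matrix.SpecialLinearGroup.transvection hik t ∈ G := by
    intro i j k hij hik hjk t ht
    have := comm_mem (G := G) hik hij hjk t 1 ht (h1 j k hjk)
    rwa [mul_one] at this
  have M2 : ∀ (i j k : Fin n) (hij : i ≠ j) (hki : k ≠ i) (hkj : k ≠ j) (t : F),
      Matrix.SpecialLinearGroup.transvection hij t ∈ G →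
      Matrix.SpecialLinearGroup.transvection hkj t ∈ G := by
    intro i j k hij hki hkj t ht
    have := comm_mem (G := G) hkj hki hij 1 t (h1 k i hki) ht
    rwa [one_mul] at this
  have hθall : ∀ (k l : Fin n) (hkl : k ≠ l),
      Matrix.SpecialLinearGroup.transvection hkl θ ∈ G := by
    intro k l hkl
    by_cases hki : k = i₀
    · subst hki
      by_cases hlj : l = j₀
      · subst hlj
        exact hθ
      · exact M1 k j₀ l h₀ hkl (fun e => hlj e.symm) θ hθ
    · by_cases hkj : k = j₀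
      · subst hkj
        by_cases hli : l = i₀
        · subst hli
          obtain ⟨m, hm1, hm2⟩ := hex l k
          have a1 := M1 l k m h₀ (Ne.symm hm1) (Ne.symm hm2) θ hθ
          have a2 := M2 l m k (Ne.symm hm1) hkl (Ne.symm hm2) θ a1
          exact M1 k m l (Ne.symm hm2) hkl hm1 θ a2
        · have a1 := M1 i₀ k l h₀ (fun e => hli e.symm) hkl θ hθ
          exact M2 i₀ l k (fun e => hli e.symm) hki hkl θ a1
      · have a1 := M2 i₀ j₀ k h₀ hki hkj θ hθ
        by_cases hlj : l = j₀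
        · subst hlj
          exact a1
        · exact M1 k j₀ l hkj hkl (fun e => hlj e.symm) θ a1
  have hall : ∀ x : F, ∀ (i j : Fin n) (hij : i ≠ j),
      Matrix.SpecialLinearGroup.transvection hij x ∈ G := by
    intro x
    refine Subring.closure_induction (s := ({θ} : Set F))
      (p := fun x _ => ∀ (i j : Fin n) (hij : i ≠ j),
        Matrix.SpecialLinearGroup.transvection hij x ∈ G) ?_ ?_ ?_ ?_ ?_ ?_ (hgen x)
    · intro y hy i j hij
      rw [Set.mem_singleton_iff] at hy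
      rw [hy]
      exact hθall i j hij
    · intro i j hij
      rw [Matrix.SpecialLinearGroup.transvection_coeff_zero]
      exact G.one_mem
    · intro i j hij
      exact h1 i j hij
    · intro a b _ _ ha hb i j hij
      rw [tv_add]
      exact G.mul_mem (ha i j hij) (hb i j hij)
    · intro a _ ha i j hij
      rw [tv_neg]
      exact G.inv_mem (ha i j hij)
    · intro a b _ _ ha hb i j hij
      obtain ⟨k, hk1, hk2⟩ := hex i j
      exact comm_mem hij (Ne.symm hk1) hk2 a b (ha i k (Ne.symm hk1)) (hb k j hk2)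
  have : Nontrivial (Fin n) := Fin.nontrivial_iff_two_le.2 (by omega)
  exact eq_top_iff.2 (fun g _ => Cfsg.Agent.Lib.Helper3.sl_transvection_induction
    (fun g => g ∈ G) (fun i j hij a => hall a i j hij) (fun _ _ => G.mul_mem) g)

theorem exists_gen (F : Type*) [Field F] [Fintype F] :
    ∃ θ : F, θ ≠ 0 ∧ ∀ x : F, x ≠ 0 → ∃ k : ℕ, x = θ ^ k := by
  obtain ⟨g, hg⟩ := IsCyclic.exists_generator (α := Fˣ)
  refine ⟨(g : F), g.ne_zero, fun x hx => ?_⟩
  have h1 : Units.mk0 x hx ∈ Subgroup.zpowers g := hg _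
  rw [← mem_powers_iff_mem_zpowers] at h1
  obtain ⟨k, hk⟩ := h1
  refine ⟨k, ?_⟩
  have := congrArg (fun u : Fˣ => (u : F)) hk
  simp only [Units.val_pow_eq_pow_val, Units.val_mk0] at this
  exact this.symm

theorem gen_closure {F : Type*} [Field F] (θ : F)
    (h : ∀ x : F, x ≠ 0 → ∃ k : ℕ, x = θ ^ k) (x : F) :
    x ∈ Subring.closure ({θ} : Set F) := by
  by_cases hx : x = 0
  · rw [hx]
    exact Subring.zero_mem _
  · obtain ⟨k, rfl⟩ := h x hx
    exact Subring.pow_mem _ (Subring.subset_closure (Set.mem_singleton θ)) k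

end Ring

section Concrete

variable (F : Type*) [Field F] (n : ℕ)

/-- The upper shift. -/
def nN : Matrix (Fin n) (Fin n) F := Matrix.of fun i j => if i.val + 1 = j.val then 1 else 0

/-- The signed cyclic monomial matrix. -/
def hM : Matrix (Fin n) (Fin n) F :=
  Matrix.of fun i j => if i.val = j.val + 1 then -1 else if i.val = 0 ∧ j.val + 1 = n then 1 else 0

/-- The regular unipotent of the lower right block. -/
def vM : Matrix (Fin n) (Fin n) F := 1 + nN F n - vecMulVec (bv 0) (bv 1)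

/-- The third generator. -/
def U3 : Matrix (Fin n) (Fin n) F := tm (bv (n - 1)) (-bv 0) * vM F n

variable {F} {n}

theorem nN_mulVec_bv_zero (hn : 0 < n) : nN F n *ᵥ (bv 0) = 0 := by
  funext i
  rw [mulVec_bv _ 0 hn]
  simp [nN]

theorem nN_mulVec_bv_succ (k : ℕ) (hk : k + 1 < n) : nN F n *ᵥ bv (k + 1) = bv k := by
  funext i
  rw [mulVec_bv _ (k + 1) hk, bv_apply]
  simp [nN]

theorem bv_vecMul_nN (k : ℕ) : (bv k : Fin n → F) ᵥ* nN F n = bv (k + 1) := by
  by_cases hk : k < n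
  · funext j
    rw [bv_vecMul _ k hk, bv_apply]
    simp [nN, eq_comm]
  · rw [bv_of_le k (by omega), bv_of_le (k + 1) (by omega), Matrix.zero_vecMul]

theorem nN_pow_mulVec (j k : ℕ) (hjk : j ≤ k) (hk : k < n) :
    (nN F n ^ j) *ᵥ bv k = bv (k - j) := by
  induction j generalizing k with
  | zero => rw [pow_zero, Matrix.one_mulVec, Nat.sub_zero]
  | succ j ih =>
    obtain ⟨k', rfl⟩ : ∃ k', k = k' + 1 := ⟨k - 1, by omega⟩
    rw [pow_succ, ← Matrix.mulVec_mulVec, nN_mulVec_bv_succ k' hk, ih k' (by omega) (by omega)]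
    congr 1
    omega

theorem nN_pow_ne (hn : 1 ≤ n) : nN F n ^ (n - 1) ≠ 0 := by
  intro h
  have h1 := nN_pow_mulVec (F := F) (n := n) (n - 1) (n - 1) le_rfl (by omega)
  rw [h, Matrix.zero_mulVec, Nat.sub_self] at h1
  have h2 := congrFun h1 ⟨0, by omega⟩
  rw [bv_apply, if_pos rfl] at h2
  exact zero_ne_one h2

theorem nN_pow_zero : nN F n ^ n = 0 := by
  apply ext_bv
  intro k hk
  rw [Matrix.zero_mulVec]
  have h1 : nN F n ^ n = nN F n ^ (n - (k + 1)) * (nN F n * nN F n ^ k) := by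
    rw [← pow_succ', ← pow_add]
    congr 1
    omega
  rw [h1, ← Matrix.mulVec_mulVec, ← Matrix.mulVec_mulVec, nN_pow_mulVec k k le_rfl hk,
    Nat.sub_self, nN_mulVec_bv_zero (by omega), Matrix.mulVec_zero]

theorem det_u1 : (1 + nN F n).det = 1 := by
  rw [Matrix.det_of_isUpperTriangular]
  · apply Finset.prod_eq_one
    intro i _
    simp [nN]
  · intro i j hij
    simp only [id] at hij
    have h1 : i ≠ j := ne_of_gt hij
    have h2 : ¬ (i.val + 1 = j.val) := by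
      have := Fin.lt_def.1 hij
      omega
    simp [nN, h1, h2]

theorem u1_mulVec (x : Fin n → F) : (1 + nN F n) *ᵥ x = x + nN F n *ᵥ x := by
  rw [Matrix.add_mulVec, Matrix.one_mulVec]

theorem vecMul_u1 (x : Fin n → F) : x ᵥ* (1 + nN F n) = x + x ᵥ* nN F n := by
  rw [Matrix.vecMul_add, Matrix.vecMul_one]

theorem vM_mulVec (x : Fin n → F) :
    vM F n *ᵥ x = x + nN F n *ᵥ x - (bv 1 ⬝ᵥ x) • bv 0 := by
  unfold vM
  rw [Matrix.sub_mulVec, Matrix.add_mulVec, Matrix.one_mulVec, vmv_mulVec]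

theorem vecMul_vM (x : Fin n → F) :
    x ᵥ* vM F n = x + x ᵥ* nN F n - (x ⬝ᵥ bv 0) • bv 1 := by
  unfold vM
  rw [Matrix.vecMul_sub, Matrix.vecMul_add, Matrix.vecMul_one, vecMul_vecMulVec]

theorem hM_mulVec_bv (k : ℕ) (hk : k + 1 < n) : hM F n *ᵥ bv k = -bv (k + 1) := by
  funext i
  rw [mulVec_bv _ k (by omega), Pi.neg_apply, bv_apply]
  simp only [hM, Matrix.of_apply]
  by_cases h : i.val = k + 1
  · rw [if_pos h, if_pos h]
  · rw [if_neg h, if_neg h, if_neg (by omega), neg_zero]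

theorem hM_mulVec_bv_last (hn : 2 ≤ n) : hM F n *ᵥ bv (n - 1) = bv 0 := by
  funext i
  rw [mulVec_bv _ (n - 1) (by omega), bv_apply]
  simp only [hM, Matrix.of_apply]
  have := i.2
  by_cases h : i.val = 0
  · rw [if_neg (by omega), if_pos ⟨h, by omega⟩, if_pos h]
  · rw [if_neg (by omega), if_neg (by omega), if_neg h]

theorem det_hM (m : ℕ) : (hM F (m + 1)).det = 1 := by
  rw [Matrix.det_succ_row_zero, Finset.sum_eq_single (Fin.last m)]
  · have hsub : (hM F (m + 1)).submatrix Fin.succ (Fin.last m).succAbove = -1 := by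
      ext i j
      simp only [Matrix.submatrix_apply, hM, Matrix.of_apply, Fin.succAbove_last, Fin.val_succ,
        Fin.val_castSucc, Matrix.neg_apply, Matrix.one_apply]
      by_cases h : i = j
      · subst h
        simp
      · have : i.val ≠ j.val := fun e => h (Fin.ext e)
        simp [h, this]
    rw [hsub, Matrix.det_neg, Matrix.det_one, Fintype.card_fin, mul_one]
    have h0 : hM F (m + 1) 0 (Fin.last m) = 1 := by
      simp [hM]
    rw [h0, mul_one, Fin.val_last, ← pow_add, ← two_mul, pow_mul, neg_one_sq, one_pow]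
  · intro j _ hj
    have : hM F (m + 1) 0 j = 0 := by
      simp only [hM, Matrix.of_apply, Fin.val_zero]
      rw [if_neg (by omega), if_neg]
      rintro ⟨_, h⟩
      apply hj
      apply Fin.ext
      rw [Fin.val_last]
      omega
    rw [this, mul_zero, zero_mul]
  · intro h
    exact absurd (Finset.mem_univ _) h

theorem hM_u1 (hn : 3 ≤ n) : hM F n * (1 + nN F n) = U3 F n * hM F n := by
  apply ext_bv
  intro k hk
  rw [← Matrix.mulVec_mulVec, ← Matrix.mulVec_mulVec, u1_mulVec]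
  unfold U3
  rw [← Matrix.mulVec_mulVec, tm_mulVec]
  rcases Nat.eq_zero_or_pos k with rfl | hkpos
  · rw [nN_mulVec_bv_zero (by omega), add_zero, hM_mulVec_bv 0 (by omega)]
    have e1 : vM F n *ᵥ (-bv (0 + 1)) = -bv 1 := by
      rw [Matrix.mulVec_neg, vM_mulVec, nN_mulVec_bv_succ 0 (by omega),
        bv_dot_bv_self 1 (by omega), one_smul, add_sub_cancel_right]
    rw [e1, neg_dotProduct, dotProduct_neg, bv_dot_bv_ne 0 1 (by omega), neg_zero, neg_zero,
      zero_smul, add_zero]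
  · obtain ⟨k', rfl⟩ : ∃ k', k = k' + 1 := ⟨k - 1, by omega⟩
    rw [nN_mulVec_bv_succ k' hk, Matrix.mulVec_add, hM_mulVec_bv k' (by omega)]
    by_cases hlast : k' + 2 < n
    · rw [hM_mulVec_bv (k' + 1) hlast]
      have e1 : vM F n *ᵥ (-bv (k' + 1 + 1)) = -bv (k' + 1 + 1) + -bv (k' + 1) := by
        rw [Matrix.mulVec_neg, vM_mulVec, nN_mulVec_bv_succ (k' + 1) hlast,
          bv_dot_bv_ne 1 (k' + 1 + 1) (by omega), zero_smul, sub_zero, neg_add]
      rw [e1, neg_dotProduct, dotProduct_add, dotProduct_neg, dotProduct_neg,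
        bv_dot_bv_ne 0 (k' + 1 + 1) (by omega), bv_dot_bv_ne 0 (k' + 1) (by omega), neg_zero,
        add_zero, neg_zero, zero_smul, add_zero]
    · have hk'n : k' + 1 = n - 1 := by omega
      rw [hk'n, hM_mulVec_bv_last (by omega)]
      have e1 : vM F n *ᵥ (bv 0) = bv 0 := by
        rw [vM_mulVec, nN_mulVec_bv_zero (by omega), add_zero, bv_dot_bv_ne 1 0 (by omega),
          zero_smul, sub_zero]
      rw [e1, neg_dotProduct, bv_dot_bv_self 0 (by omega), neg_one_smul]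

end Concrete

theorem main4 {F : Type*} [Field F] [Fintype F] (n : ℕ) (hn : 4 ≤ n) :
    ∃ u g h : Matrix.SpecialLinearGroup (Fin n) F,
      (IsNilpotent ((u : Matrix (Fin n) (Fin n) F) - 1) ∧
        ((u : Matrix (Fin n) (Fin n) F) - 1) ^ (n - 1) ≠ 0) ∧
      Subgroup.closure ({u, g * u * g⁻¹, h * u * h⁻¹} :
        Set (Matrix.SpecialLinearGroup (Fin n) F)) = ⊤ := by
  classical
  obtain ⟨θ, hθ0, hθgen⟩ := exists_gen F
  obtain ⟨uS, huS⟩ : ∃ uS : Matrix.SpecialLinearGroup (Fin n) F,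
      (uS : Matrix (Fin n) (Fin n) F) = 1 + nN F n := ⟨⟨_, det_u1⟩, rfl⟩
  have hψe : (bv (n - 3) + θ • bv (n - 2)) ⬝ᵥ (bv 0 : Fin n → F) = 0 := by
    rw [add_dotProduct, smul_dotProduct, bv_dot_bv_ne _ _ (by omega),
      bv_dot_bv_ne _ _ (by omega), smul_zero, add_zero]
  obtain ⟨kS, hkS⟩ : ∃ kS : Matrix.SpecialLinearGroup (Fin n) F,
      (kS : Matrix (Fin n) (Fin n) F) = tm (bv 0) (bv (n - 3) + θ • bv (n - 2)) :=
    ⟨⟨_, det_tm _ _ hψe⟩, rfl⟩
  obtain ⟨hS, hhS⟩ : ∃ hS : Matrix.SpecialLinearGroup (Fin n) F,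
      (hS : Matrix (Fin n) (Fin n) F) = hM F n := by
    obtain ⟨m, rfl⟩ : ∃ m, n = m + 1 := ⟨n - 1, by omega⟩
    exact ⟨⟨_, det_hM m⟩, rfl⟩
  refine ⟨uS, kS, hS, ⟨?_, ?_⟩, ?_⟩
  · rw [huS, add_sub_cancel_left]
    exact ⟨n, nN_pow_zero⟩
  · rw [huS, add_sub_cancel_left]
    exact nN_pow_ne (by omega)
  obtain ⟨G, hGdef⟩ : ∃ G : Subgroup (Matrix.SpecialLinearGroup (Fin n) F),
      G = Subgroup.closure {uS, kS * uS * kS⁻¹, hS * uS * hS⁻¹} := ⟨_, rfl⟩
  rw [← hGdef]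
  have hu : uS ∈ G := by
    rw [hGdef]
    exact Subgroup.subset_closure (by simp)
  have hk : kS * uS * kS⁻¹ ∈ G := by
    rw [hGdef]
    exact Subgroup.subset_closure (by simp)
  have hh : hS * uS * hS⁻¹ ∈ G := by
    rw [hGdef]
    exact Subgroup.subset_closure (by simp)
  have hu1 : (1 + nN F n) ∈ MG G := by
    rw [← huS]
    exact MG_coe hu
  have hφe : (bv (n - 2) + θ • bv (n - 1)) ⬝ᵥ (bv 0 : Fin n → F) = 0 := by
    rw [add_dotProduct, smul_dotProduct, bv_dot_bv_ne _ _ (by omega),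
      bv_dot_bv_ne _ _ (by omega), smul_zero, add_zero]
  have hψN : (bv (n - 3) + θ • bv (n - 2)) ᵥ* nN F n = bv (n - 2) + θ • bv (n - 1) := by
    rw [Matrix.add_vecMul, Matrix.smul_vecMul, bv_vecMul_nN, bv_vecMul_nN]
    have e1 : n - 3 + 1 = n - 2 := by omega
    have e2 : n - 2 + 1 = n - 1 := by omega
    rw [e1, e2]
  have hT0 : tm (bv 0) (bv (n - 2) + θ • bv (n - 1)) ∈ MG G := by
    have h1 := conj_coe kS uS ((1 + nN F n) * tm (bv 0) (bv (n - 2) + θ • bv (n - 1))) (by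
      rw [hkS, huS]
      exact conj_unip (nN F n) (bv 0) _ _ (nN_mulVec_bv_zero (by omega)) hψN hφe)
    have h2 : (1 + nN F n) * tm (bv 0) (bv (n - 2) + θ • bv (n - 1)) ∈ MG G := by
      rw [← h1]
      exact MG_coe hk
    exact MG_left_cancel hu1 h2
  have hU3 : U3 F n ∈ MG G := by
    have h1 := conj_coe hS uS (U3 F n) (by
      rw [hhS, huS]
      exact hM_u1 (by omega))
    rw [← h1]
    exact MG_coe hh
  -- Step 0
  have hu1e : (1 + nN F n) *ᵥ (bv 0 : Fin n → F) = bv 0 := by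
    rw [u1_mulVec, nN_mulVec_bv_zero (by omega), add_zero]
  have hΦ0 : PhiS G (bv 0) (bv (n - 2) + θ • bv (n - 1)) := ⟨hφe, hT0⟩
  have hΦlast : PhiS G (bv 0) (bv (n - 1)) := by
    have h1 := PhiS_sub (PhiS_vecMul _ hu1 hu1e hΦ0) hΦ0
    have e : (bv (n - 2) + θ • bv (n - 1)) ᵥ* (1 + nN F n) - (bv (n - 2) + θ • bv (n - 1))
        = (bv (n - 1) : Fin n → F) := by
      rw [vecMul_u1, add_sub_cancel_left, Matrix.add_vecMul, Matrix.smul_vecMul, bv_vecMul_nN,
        bv_vecMul_nN]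
      have e2 : n - 2 + 1 = n - 1 := by omega
      rw [e2, bv_of_le (n - 1 + 1) (by omega), smul_zero, add_zero]
    rwa [e] at h1
  -- Step A
  obtain ⟨U3i, hU3i, hU3a, hU3b⟩ := MG_exists_inv hU3
  have hvMe : vM F n *ᵥ (bv 0 : Fin n → F) = bv 0 := by
    rw [vM_mulVec, nN_mulVec_bv_zero (by omega), add_zero, bv_dot_bv_ne 1 0 (by omega),
      zero_smul, sub_zero]
  have hU3e : U3 F n *ᵥ (bv 0 : Fin n → F) = bv 0 - bv (n - 1) := by
    unfold U3
    rw [← Matrix.mulVec_mulVec, hvMe, tm_mulVec, neg_dotProduct, bv_dot_bv_self 0 (by omega),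
      neg_one_smul, sub_eq_add_neg]
  have hrowU3 : ((bv (n - 1) : Fin n → F) + bv 0) ᵥ* U3 F n = bv (n - 1) := by
    unfold U3
    rw [← Matrix.vecMul_vecMul, vecMul_tm, add_dotProduct, bv_dot_bv_self (n - 1) (by omega),
      bv_dot_bv_ne 0 (n - 1) (by omega), add_zero, one_smul, add_neg_cancel_right, vecMul_vM,
      bv_vecMul_nN, bv_of_le (n - 1 + 1) (by omega), add_zero,
      bv_dot_bv_ne (n - 1) 0 (by omega), zero_smul, sub_zero]
  have hrowU3i : (bv (n - 1) : Fin n → F) ᵥ* U3i = bv (n - 1) + bv 0 := by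
    calc (bv (n - 1) : Fin n → F) ᵥ* U3i
        = (((bv (n - 1) : Fin n → F) + bv 0) ᵥ* U3 F n) ᵥ* U3i := by rw [hrowU3]
      _ = bv (n - 1) + bv 0 := by rw [Matrix.vecMul_vecMul, hU3a, Matrix.vecMul_one]
  have hm : tm ((bv 0 : Fin n → F) - bv (n - 1)) (bv (n - 1) + bv 0) ∈ MG G := by
    have := conj_tm (U3 F n) U3i (bv 0) (bv (n - 1)) hU3a
    rw [hU3e, hrowU3i] at this
    rw [← this]
    exact MG_mul (MG_mul hU3 hΦlast.2) hU3i
  have hzi : tm (bv 0) (-(bv (n - 1) : Fin n → F)) ∈ MG G := (PhiS_neg hΦlast).2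
  have hzzi : tm (bv 0) (bv (n - 1) : Fin n → F) * tm (bv 0) (-bv (n - 1)) = 1 := by
    rw [tm_mul_same _ _ _ hΦlast.1, add_neg_cancel, tm_zero_right]
  have hyneg : tm (-(bv (n - 1) : Fin n → F)) (bv 0) ∈ MG G := by
    have := conj_tm (tm (bv 0) (bv (n - 1) : Fin n → F)) (tm (bv 0) (-bv (n - 1)))
      (bv 0 - bv (n - 1)) (bv (n - 1) + bv 0) hzzi
    have e1 : tm (bv 0) (bv (n - 1) : Fin n → F) *ᵥ (bv 0 - bv (n - 1)) = -bv (n - 1) := by
      rw [tm_mulVec, dotProduct_sub, bv_dot_bv_ne (n - 1) 0 (by omega),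
        bv_dot_bv_self (n - 1) (by omega), zero_sub, neg_one_smul]
      abel
    have e2 : ((bv (n - 1) : Fin n → F) + bv 0) ᵥ* tm (bv 0) (-bv (n - 1)) = bv 0 := by
      rw [vecMul_tm, add_dotProduct, bv_dot_bv_ne (n - 1) 0 (by omega),
        bv_dot_bv_self 0 (by omega), zero_add, one_smul]
      abel
    rw [e1, e2] at this
    rw [← this]
    exact MG_mul (MG_mul hΦlast.2 hm) hzi
  have hypos : tm (bv (n - 1) : Fin n → F) (bv 0) ∈ MG G := by
    apply MG_inv hyneg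
    rw [tm_mul_same' _ _ _ (bv_dot_bv_ne 0 (n - 1) (by omega)), neg_add_cancel, tm_zero_left]
  -- Step A'
  have hvM : vM F n ∈ MG G := by
    have e : tm (bv (n - 1) : Fin n → F) (bv 0) * U3 F n = vM F n := by
      unfold U3
      rw [← Matrix.mul_assoc, tm_mul_same _ _ _ (bv_dot_bv_ne 0 (n - 1) (by omega)),
        add_neg_cancel, tm_zero_right, Matrix.one_mul]
    rw [← e]
    exact MG_mul hypos hU3
  -- Step B
  have hΦ1 : PhiS G (bv 0) (bv 1) := by
    refine ⟨bv_dot_bv_ne 1 0 (by omega), ?_⟩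
    apply MG_left_cancel hvM
    have e : vM F n * tm (bv 0) (bv 1) = 1 + nN F n := by
      unfold tm
      rw [Matrix.mul_add, Matrix.mul_one, mul_vecMulVec, hvMe]
      unfold vM
      abel
    rw [e]
    exact hu1
  have hΦall : ∀ j, 1 ≤ j → PhiS G (bv 0) (bv j) := by
    intro j hj
    induction j, hj using Nat.le_induction with
    | base => exact hΦ1
    | succ j hj ih =>
      have h1 := PhiS_sub (PhiS_vecMul _ hvM hvMe ih) ih
      have e : (bv j : Fin n → F) ᵥ* vM F n - bv j = bv (j + 1) := by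
        rw [vecMul_vM, bv_vecMul_nN, bv_dot_bv_ne j 0 (by omega), zero_smul, sub_zero,
          add_sub_cancel_left]
      rwa [e] at h1
  -- Step B'
  have hΦθ : PhiS G (bv 0) (θ • bv (n - 1)) := by
    have := PhiS_sub hΦ0 (hΦall (n - 2) (by omega))
    rwa [add_sub_cancel_left] at this
  -- Step C
  obtain ⟨i0, hi0⟩ : ∃ i0 : Fin n, i0.val = 0 := ⟨⟨0, by omega⟩, rfl⟩
  obtain ⟨il, hil⟩ : ∃ il : Fin n, il.val = n - 1 := ⟨⟨n - 1, by omega⟩, rfl⟩
  have hne0l : i0 ≠ il := by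
    intro e
    rw [Fin.ext_iff, hi0, hil] at e
    omega
  have row0 : ∀ (j : Fin n) (hj : i0 ≠ j),
      Matrix.SpecialLinearGroup.transvection hj (1 : F) ∈ G := by
    intro j hj
    apply tv_mem
    rw [one_smul, hi0]
    refine (hΦall j.val ?_).2
    by_contra hcon
    apply hj
    rw [Fin.ext_iff, hi0]
    omega
  have hyl : Matrix.SpecialLinearGroup.transvection hne0l.symm (1 : F) ∈ G := by
    apply tv_mem
    rw [one_smul, hi0, hil]
    exact hypos
  have rowl : ∀ (j : Fin n) (hj : il ≠ j),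
      Matrix.SpecialLinearGroup.transvection hj (1 : F) ∈ G := by
    intro j hj
    by_cases hj0 : j = i0
    · subst hj0
      exact hyl
    · have := comm_mem (G := G) hj hne0l.symm (fun e => hj0 e.symm) 1 1 hyl
        (row0 j (fun e => hj0 e.symm))
      rwa [mul_one] at this
  obtain ⟨ip, hip⟩ : ∃ ip : Fin n, ip.val = n - 2 := ⟨⟨n - 2, by omega⟩, rfl⟩
  have hnelp : il ≠ ip := by
    intro e
    rw [Fin.ext_iff, hip, hil] at e
    omega
  have hy' : tm (bv (n - 1) : Fin n → F) (bv (n - 2)) ∈ MG G := by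
    have := tv_MG hnelp 1 (rowl ip hnelp)
    rwa [one_smul, hil, hip] at this
  obtain ⟨vMi, hvMi, hvMa, hvMb⟩ := MG_exists_inv hvM
  have hrowv : ((bv (n - 2) : Fin n → F) - bv (n - 1)) ᵥ* vM F n = bv (n - 2) := by
    rw [vecMul_vM, Matrix.sub_vecMul, bv_vecMul_nN, bv_vecMul_nN, sub_dotProduct,
      bv_dot_bv_ne (n - 2) 0 (by omega), bv_dot_bv_ne (n - 1) 0 (by omega), sub_zero, zero_smul,
      sub_zero, bv_of_le (n - 1 + 1) (by omega), sub_zero]
    have e2 : n - 2 + 1 = n - 1 := by omega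
    rw [e2, sub_add_cancel]
  have hrowvi : (bv (n - 2) : Fin n → F) ᵥ* vMi = bv (n - 2) - bv (n - 1) := by
    calc (bv (n - 2) : Fin n → F) ᵥ* vMi
        = (((bv (n - 2) : Fin n → F) - bv (n - 1)) ᵥ* vM F n) ᵥ* vMi := by rw [hrowv]
      _ = bv (n - 2) - bv (n - 1) := by rw [Matrix.vecMul_vecMul, hvMa, Matrix.vecMul_one]
  have hvl : vM F n *ᵥ (bv (n - 1) : Fin n → F) = bv (n - 1) + bv (n - 2) := by
    have e2 : n - 2 + 1 = n - 1 := by omega
    have h9 := nN_mulVec_bv_succ (F := F) (n := n) (n - 2) (by omega)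
    rw [e2] at h9
    rw [vM_mulVec, bv_dot_bv_ne 1 (n - 1) (by omega), zero_smul, sub_zero, h9]
  have hm' : tm ((bv (n - 1) : Fin n → F) + bv (n - 2)) (bv (n - 2) - bv (n - 1)) ∈ MG G := by
    have := conj_tm (vM F n) vMi (bv (n - 1)) (bv (n - 2)) hvMa
    rw [hvl, hrowvi] at this
    rw [← this]
    exact MG_mul (MG_mul hvM hy') hvMi
  have hd21 : (bv (n - 2) : Fin n → F) ⬝ᵥ bv (n - 1) = 0 := bv_dot_bv_ne _ _ (by omega)
  have hy'i : tm (bv (n - 1) : Fin n → F) (-bv (n - 2)) ∈ MG G := by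
    apply MG_inv hy'
    rw [tm_mul_same _ _ _ hd21, add_neg_cancel, tm_zero_right]
  have hy'iy' : tm (bv (n - 1) : Fin n → F) (-bv (n - 2)) * tm (bv (n - 1)) (bv (n - 2)) = 1 := by
    rw [tm_mul_same _ _ _ (by rw [neg_dotProduct, hd21, neg_zero]), neg_add_cancel,
      tm_zero_right]
  have hW0 : WS G (bv (n - 1)) (bv (n - 2)) := by
    have := conj_tm (tm (bv (n - 1) : Fin n → F) (-bv (n - 2))) (tm (bv (n - 1)) (bv (n - 2)))
      (bv (n - 1) + bv (n - 2)) (bv (n - 2) - bv (n - 1)) hy'iy'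
    have e1 : tm (bv (n - 1) : Fin n → F) (-bv (n - 2)) *ᵥ (bv (n - 1) + bv (n - 2))
        = bv (n - 2) := by
      rw [tm_mulVec, neg_dotProduct, dotProduct_add, hd21, bv_dot_bv_self (n - 2) (by omega),
        zero_add, neg_one_smul]
      abel
    have e2 : ((bv (n - 2) : Fin n → F) - bv (n - 1)) ᵥ* tm (bv (n - 1)) (bv (n - 2))
        = -bv (n - 1) := by
      rw [vecMul_tm, sub_dotProduct, hd21, bv_dot_bv_self (n - 1) (by omega), zero_sub,
        neg_one_smul]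
      abel
    rw [e1, e2] at this
    have h3 : tm (bv (n - 2) : Fin n → F) (-bv (n - 1)) ∈ MG G := by
      rw [← this]
      exact MG_mul (MG_mul hy'i hm') hy'
    have h4 : WS G (bv (n - 1)) (-(bv (n - 2) : Fin n → F)) := by
      refine ⟨by rw [dotProduct_neg, bv_dot_bv_ne (n - 1) (n - 2) (by omega), neg_zero], ?_⟩
      rw [tm_neg_left]
      exact h3
    have := WS_neg h4
    rwa [neg_neg] at this
  have hrowu : (bv (n - 1) : Fin n → F) ᵥ* (1 + nN F n) = bv (n - 1) := by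
    rw [vecMul_u1, bv_vecMul_nN, bv_of_le (n - 1 + 1) (by omega), add_zero]
  have hW : ∀ j, j ≤ n - 2 → WS G (bv (n - 1)) (bv (n - 2 - j) : Fin n → F) := by
    intro j
    induction j with
    | zero =>
      intro _
      exact hW0
    | succ j ih =>
      intro hj
      have h1 := WS_sub (WS_mulVec _ hu1 hrowu (ih (by omega))) (ih (by omega))
      have e : (1 + nN F n) *ᵥ (bv (n - 2 - j) : Fin n → F) - bv (n - 2 - j)
          = bv (n - 2 - (j + 1)) := by
        have e' : (n - 2 - (j + 1)) + 1 = n - 2 - j := by omega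
        have h9 := nN_mulVec_bv_succ (F := F) (n := n) (n - 2 - (j + 1)) (by omega)
        rw [e'] at h9
        rw [u1_mulVec, add_sub_cancel_left, h9]
      rwa [e] at h1
  have coll : ∀ (i : Fin n) (hi : i ≠ il),
      Matrix.SpecialLinearGroup.transvection hi (1 : F) ∈ G := by
    intro i hi
    apply tv_mem
    rw [one_smul, hil]
    have hiv : i.val ≤ n - 2 := by
      have := i.2
      have : i.val ≠ n - 1 := fun e => hi (by rw [Fin.ext_iff, hil]; exact e)
      omega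
    have := (hW (n - 2 - i.val) (by omega)).2
    have e : n - 2 - (n - 2 - i.val) = i.val := by omega
    rwa [e] at this
  have hall1 : ∀ (i j : Fin n) (hij : i ≠ j),
      Matrix.SpecialLinearGroup.transvection hij (1 : F) ∈ G := by
    intro i j hij
    by_cases hjl : j = il
    · subst hjl
      exact coll i hij
    · by_cases hi : i = il
      · subst hi
        exact rowl j hij
      · have := comm_mem (G := G) hij hi (fun e => hjl e.symm) 1 1 (coll i hi)
          (rowl j (fun e => hjl e.symm))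
        rwa [mul_one] at this
  have hθG : Matrix.SpecialLinearGroup.transvection hne0l θ ∈ G := by
    apply tv_mem
    rw [hi0, hil, tm_smul_left]
    exact hΦθ.2
  exact ring_trick G (by omega) hall1 θ i0 il hne0l hθG (gen_closure θ hθgen)

/-- The twisted monomial matrix for `n = 3`. -/
def H3 {F : Type*} [Field F] (θ : F) : Matrix (Fin 3) (Fin 3) F :=
  vecMulVec (bv 0) (bv 2) + vecMulVec (θ • bv 1) (bv 0) + vecMulVec (θ⁻¹ • bv 2) (bv 1)

theorem det_H3 {F : Type*} [Field F] (θ : F) (hθ : θ ≠ 0) : (H3 θ).det = 1 := by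
  rw [Matrix.det_fin_three]
  simp [H3, vecMulVec_apply, bv_apply, hθ]

theorem H3_u1 {F : Type*} [Field F] (θ : F) (hθ : θ ≠ 0) :
    H3 θ * (1 + nN F 3) = tm (bv 2) (θ⁻¹ • bv 0) * tm (bv 1) (θ ^ 2 • bv 2) * H3 θ := by
  ext i j
  fin_cases i <;> fin_cases j <;>
    simp [H3, tm, nN, vecMulVec_apply, bv_apply, Matrix.mul_apply, Fin.sum_univ_three,
      Matrix.one_apply] <;> field_simp

theorem u1_three {F : Type*} [Field F] :
    tm (bv 1 : Fin 3 → F) (bv 2) * tm (bv 0) (bv 1) = 1 + nN F 3 := by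
  ext i j
  fin_cases i <;> fin_cases j <;>
    simp [tm, nN, vecMulVec_apply, bv_apply, Matrix.mul_apply, Fin.sum_univ_three,
      Matrix.one_apply]

theorem tv_iff {F : Type*} [Field F] {n : ℕ} {G : Subgroup (Matrix.SpecialLinearGroup (Fin n) F)}
    {i j : Fin n} (hij : i ≠ j) (a b : ℕ) (hi : i.val = a) (hj : j.val = b) (t : F) :
    Matrix.SpecialLinearGroup.transvection hij t ∈ G ↔ tm (t • bv a) (bv b) ∈ MG G := by
  subst hi hj
  exact ⟨tv_MG hij t, tv_mem hij t⟩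

theorem main3 {F : Type*} [Field F] [Fintype F] :
    ∃ u g h : Matrix.SpecialLinearGroup (Fin 3) F,
      (IsNilpotent ((u : Matrix (Fin 3) (Fin 3) F) - 1) ∧
        ((u : Matrix (Fin 3) (Fin 3) F) - 1) ^ (3 - 1) ≠ 0) ∧
      Subgroup.closure ({u, g * u * g⁻¹, h * u * h⁻¹} :
        Set (Matrix.SpecialLinearGroup (Fin 3) F)) = ⊤ := by
  classical
  obtain ⟨θ, hθ0, hθgen⟩ := exists_gen F
  obtain ⟨uS, huS⟩ : ∃ uS : Matrix.SpecialLinearGroup (Fin 3) F,
      (uS : Matrix (Fin 3) (Fin 3) F) = 1 + nN F 3 := ⟨⟨_, det_u1⟩, rfl⟩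
  have hψe : (θ • bv 1) ⬝ᵥ (bv 0 : Fin 3 → F) = 0 := by
    rw [smul_dotProduct, bv_dot_bv_ne _ _ (by omega), smul_zero]
  obtain ⟨kS, hkS⟩ : ∃ kS : Matrix.SpecialLinearGroup (Fin 3) F,
      (kS : Matrix (Fin 3) (Fin 3) F) = tm (bv 0) (θ • bv 1) :=
    ⟨⟨_, det_tm _ _ hψe⟩, rfl⟩
  obtain ⟨hS, hhS⟩ : ∃ hS : Matrix.SpecialLinearGroup (Fin 3) F,
      (hS : Matrix (Fin 3) (Fin 3) F) = H3 θ := ⟨⟨_, det_H3 θ hθ0⟩, rfl⟩
  refine ⟨uS, kS, hS, ⟨?_, ?_⟩, ?_⟩
  · rw [huS, add_sub_cancel_left]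
    exact ⟨3, nN_pow_zero⟩
  · rw [huS, add_sub_cancel_left]
    exact nN_pow_ne (by omega)
  obtain ⟨G, hGdef⟩ : ∃ G : Subgroup (Matrix.SpecialLinearGroup (Fin 3) F),
      G = Subgroup.closure {uS, kS * uS * kS⁻¹, hS * uS * hS⁻¹} := ⟨_, rfl⟩
  rw [← hGdef]
  have hu : uS ∈ G := by
    rw [hGdef]
    exact Subgroup.subset_closure (by simp)
  have hk : kS * uS * kS⁻¹ ∈ G := by
    rw [hGdef]
    exact Subgroup.subset_closure (by simp)
  have hh : hS * uS * hS⁻¹ ∈ G := by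
    rw [hGdef]
    exact Subgroup.subset_closure (by simp)
  have hu1 : (1 + nN F 3) ∈ MG G := by
    rw [← huS]
    exact MG_coe hu
  have hφe : (θ • bv 2) ⬝ᵥ (bv 0 : Fin 3 → F) = 0 := by
    rw [smul_dotProduct, bv_dot_bv_ne _ _ (by omega), smul_zero]
  have hψN : (θ • bv 1 : Fin 3 → F) ᵥ* nN F 3 = θ • bv 2 := by
    rw [Matrix.smul_vecMul, bv_vecMul_nN]
  have hx : tm (bv 0) (θ • bv 2 : Fin 3 → F) ∈ MG G := by
    have h1 := conj_coe kS uS ((1 + nN F 3) * tm (bv 0) (θ • bv 2)) (by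
      rw [hkS, huS]
      exact conj_unip (nN F 3) (bv 0) _ _ (nN_mulVec_bv_zero (by omega)) hψN hφe)
    have h2 : (1 + nN F 3) * tm (bv 0) (θ • bv 2) ∈ MG G := by
      rw [← h1]
      exact MG_coe hk
    exact MG_left_cancel hu1 h2
  have hU3 : tm (bv 2) (θ⁻¹ • bv 0) * tm (bv 1) (θ ^ 2 • bv 2) ∈ MG G := by
    have h1 := conj_coe hS uS (tm (bv 2) (θ⁻¹ • bv 0) * tm (bv 1) (θ ^ 2 • bv 2)) (by
      rw [hhS, huS]
      exact H3_u1 θ hθ0)
    rw [← h1]
    exact MG_coe hh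
  -- braid
  obtain ⟨U3i, hU3i, hU3a, hU3b⟩ := MG_exists_inv hU3
  have hU3e : (tm (bv 2) (θ⁻¹ • bv 0) * tm (bv 1) (θ ^ 2 • bv 2)) *ᵥ (bv 0 : Fin 3 → F)
      = bv 0 + θ⁻¹ • bv 2 := by
    have a1 : tm (bv 1) (θ ^ 2 • bv 2) *ᵥ (bv 0 : Fin 3 → F) = bv 0 := by
      rw [tm_mulVec, smul_dotProduct, bv_dot_bv_ne 2 0 (by omega), smul_zero, zero_smul,
        add_zero]
    rw [← Matrix.mulVec_mulVec, a1, tm_mulVec, smul_dotProduct, bv_dot_bv_self 0 (by omega),
      smul_eq_mul, mul_one]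
  have hrowU3 : (θ • (bv 2 : Fin 3 → F) - bv 0) ᵥ*
      (tm (bv 2) (θ⁻¹ • bv 0) * tm (bv 1) (θ ^ 2 • bv 2)) = θ • bv 2 := by
    have b1 : (θ • (bv 2 : Fin 3 → F) - bv 0) ᵥ* tm (bv 2) (θ⁻¹ • bv 0) = θ • bv 2 := by
      rw [vecMul_tm, sub_dotProduct, smul_dotProduct,
        bv_dot_bv_self 2 (by omega), bv_dot_bv_ne 0 2 (by omega), smul_eq_mul, mul_one, sub_zero,
        smul_smul, mul_inv_cancel₀ hθ0, one_smul, sub_add_cancel]
    rw [← Matrix.vecMul_vecMul, b1, vecMul_tm, smul_dotProduct,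
      bv_dot_bv_ne 2 1 (by omega), smul_zero, zero_smul, add_zero]
  have hrowU3i : (θ • (bv 2 : Fin 3 → F)) ᵥ* U3i = θ • bv 2 - bv 0 := by
    calc (θ • (bv 2 : Fin 3 → F)) ᵥ* U3i
        = ((θ • (bv 2 : Fin 3 → F) - bv 0) ᵥ*
            (tm (bv 2) (θ⁻¹ • bv 0) * tm (bv 1) (θ ^ 2 • bv 2))) ᵥ* U3i := by rw [hrowU3]
      _ = θ • bv 2 - bv 0 := by rw [Matrix.vecMul_vecMul, hU3a, Matrix.vecMul_one]
  have hm : tm ((bv 0 : Fin 3 → F) + θ⁻¹ • bv 2) (θ • bv 2 - bv 0) ∈ MG G := by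
    have := conj_tm (tm (bv 2) (θ⁻¹ • bv 0) * tm (bv 1) (θ ^ 2 • bv 2)) U3i (bv 0) (θ • bv 2) hU3a
    rw [hU3e, hrowU3i] at this
    rw [← this]
    exact MG_mul (MG_mul hU3 hx) hU3i
  have hxi : tm (bv 0) (-(θ • bv 2 : Fin 3 → F)) ∈ MG G := (PhiS_neg ⟨hφe, hx⟩).2
  have hxix : tm (bv 0) (-(θ • bv 2 : Fin 3 → F)) * tm (bv 0) (θ • bv 2) = 1 := by
    rw [tm_mul_same _ _ _ (by rw [neg_dotProduct, hφe, neg_zero]), neg_add_cancel, tm_zero_right]
  have hyi : tm (θ⁻¹ • bv 2 : Fin 3 → F) (-bv 0) ∈ MG G := by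
    have := conj_tm (tm (bv 0) (-(θ • bv 2 : Fin 3 → F))) (tm (bv 0) (θ • bv 2))
      (bv 0 + θ⁻¹ • bv 2) (θ • bv 2 - bv 0) hxix
    have e1 : tm (bv 0) (-(θ • bv 2 : Fin 3 → F)) *ᵥ (bv 0 + θ⁻¹ • bv 2) = θ⁻¹ • bv 2 := by
      rw [tm_mulVec, neg_dotProduct, smul_dotProduct, dotProduct_add, dotProduct_smul,
        bv_dot_bv_ne 2 0 (by omega), bv_dot_bv_self 2 (by omega), zero_add, smul_eq_mul,
        smul_eq_mul, mul_one, mul_inv_cancel₀ hθ0, neg_one_smul]
      abel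
    have e2 : (θ • (bv 2 : Fin 3 → F) - bv 0) ᵥ* tm (bv 0) (θ • bv 2) = -bv 0 := by
      rw [vecMul_tm, sub_dotProduct, smul_dotProduct, bv_dot_bv_ne 2 0 (by omega),
        bv_dot_bv_self 0 (by omega), smul_zero, zero_sub, neg_one_smul]
      abel
    rw [e1, e2] at this
    rw [← this]
    exact MG_mul (MG_mul hxi hm) hx
  have hy : tm (θ⁻¹ • bv 2 : Fin 3 → F) (bv 0) ∈ MG G := by
    apply MG_inv hyi
    rw [tm_mul_same _ _ _ (by rw [neg_dotProduct, dotProduct_smul, bv_dot_bv_ne 0 2 (by omega),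
      smul_zero, neg_zero]), neg_add_cancel, tm_zero_right]
  have hz : tm (bv 1 : Fin 3 → F) (θ ^ 2 • bv 2) ∈ MG G := by
    apply MG_left_cancel (A := tm (bv 2) (θ⁻¹ • bv 0))
    · rw [← tm_smul_left]
      exact hy
    · exact hU3
  -- transvections
  obtain ⟨i0, hi0⟩ : ∃ i0 : Fin 3, i0.val = 0 := ⟨⟨0, by omega⟩, rfl⟩
  obtain ⟨i1, hi1⟩ : ∃ i1 : Fin 3, i1.val = 1 := ⟨⟨1, by omega⟩, rfl⟩
  obtain ⟨i2, hi2⟩ : ∃ i2 : Fin 3, i2.val = 2 := ⟨⟨2, by omega⟩, rfl⟩
  have h01 : i0 ≠ i1 := by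
    intro e
    rw [Fin.ext_iff, hi0, hi1] at e
    omega
  have h02 : i0 ≠ i2 := by
    intro e
    rw [Fin.ext_iff, hi0, hi2] at e
    omega
  have h12 : i1 ≠ i2 := by
    intro e
    rw [Fin.ext_iff, hi1, hi2] at e
    omega
  have T02θ : Matrix.SpecialLinearGroup.transvection h02 θ ∈ G := by
    rw [tv_iff h02 0 2 hi0 hi2, tm_smul_left]
    exact hx
  have T20 : Matrix.SpecialLinearGroup.transvection h02.symm θ⁻¹ ∈ G := by
    rw [tv_iff h02.symm 2 0 hi2 hi0]
    exact hy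
  have T12 : Matrix.SpecialLinearGroup.transvection h12 (θ ^ 2) ∈ G := by
    rw [tv_iff h12 1 2 hi1 hi2, tm_smul_left]
    exact hz
  have T10 : Matrix.SpecialLinearGroup.transvection h01.symm θ ∈ G := by
    have := comm_mem (G := G) h01.symm h12 h02.symm (θ ^ 2) θ⁻¹ T12 T20
    have e : θ ^ 2 * θ⁻¹ = θ := by field_simp
    rwa [e] at this
  have hrowu : (bv 2 : Fin 3 → F) ᵥ* (1 + nN F 3) = bv 2 := by
    rw [vecMul_u1, bv_vecMul_nN, bv_of_le (2 + 1) (by omega), add_zero]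
  have stepd : ∀ s : F, Matrix.SpecialLinearGroup.transvection h12 s ∈ G →
      Matrix.SpecialLinearGroup.transvection h02 s ∈ G := by
    intro s hs
    rw [tv_iff h12 1 2 hi1 hi2] at hs
    rw [tv_iff h02 0 2 hi0 hi2]
    have hw : WS G (bv 2) (s • bv 1 : Fin 3 → F) :=
      ⟨by rw [dotProduct_smul, bv_dot_bv_ne 2 1 (by omega), smul_zero], hs⟩
    have h1 := WS_sub (WS_mulVec _ hu1 hrowu hw) hw
    have e : (1 + nN F 3) *ᵥ (s • bv 1 : Fin 3 → F) - s • bv 1 = s • bv 0 := by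
      rw [u1_mulVec, add_sub_cancel_left, Matrix.mulVec_smul, nN_mulVec_bv_succ 0 (by omega)]
    rw [e] at h1
    exact h1.2
  have stepe : ∀ s : F, Matrix.SpecialLinearGroup.transvection h02 s ∈ G →
      Matrix.SpecialLinearGroup.transvection h12 (θ * s) ∈ G := by
    intro s hs
    exact comm_mem (G := G) h12 h01.symm h02 θ s T10 hs
  have P : ∀ k : ℕ, Matrix.SpecialLinearGroup.transvection h02 (θ ^ (k + 1)) ∈ G := by
    intro k
    induction k with
    | zero =>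
      rw [zero_add, pow_one]
      exact T02θ
    | succ k ih =>
      have := stepd _ (stepe _ ih)
      rwa [← pow_succ'] at this
  have A02 : ∀ t : F, Matrix.SpecialLinearGroup.transvection h02 t ∈ G := by
    intro t
    by_cases ht : t = 0
    · rw [ht, Matrix.SpecialLinearGroup.transvection_coeff_zero]
      exact G.one_mem
    · obtain ⟨k, hk⟩ := hθgen (t * θ⁻¹) (mul_ne_zero ht (inv_ne_zero hθ0))
      have e : t = θ ^ (k + 1) := by
        rw [pow_succ, ← hk, mul_assoc, inv_mul_cancel₀ hθ0, mul_one]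
      rw [e]
      exact P k
  have A12 : ∀ t : F, Matrix.SpecialLinearGroup.transvection h12 t ∈ G := by
    intro t
    have := stepe (θ⁻¹ * t) (A02 _)
    rwa [← mul_assoc, mul_inv_cancel₀ hθ0, one_mul] at this
  have T01 : Matrix.SpecialLinearGroup.transvection h01 (1 : F) ∈ G := by
    rw [tv_iff h01 0 1 hi0 hi1, one_smul]
    have h12' := (tv_iff h12 1 2 hi1 hi2 1).1 (A12 1)
    rw [one_smul] at h12'
    apply MG_left_cancel h12'
    rw [u1_three]
    exact hu1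
  have T21 : Matrix.SpecialLinearGroup.transvection h12.symm θ⁻¹ ∈ G := by
    have := comm_mem (G := G) h12.symm h02.symm h01 θ⁻¹ 1 T20 T01
    rwa [mul_one] at this
  have A10 : ∀ t : F, Matrix.SpecialLinearGroup.transvection h01.symm t ∈ G := by
    intro t
    have := comm_mem (G := G) h01.symm h12 h02.symm (t * θ) θ⁻¹ (A12 _) T20
    rwa [mul_assoc, mul_inv_cancel₀ hθ0, mul_one] at this
  have A20 : ∀ t : F, Matrix.SpecialLinearGroup.transvection h02.symm t ∈ G := by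
    intro t
    have := comm_mem (G := G) h02.symm h12.symm h01.symm θ⁻¹ (θ * t) T21 (A10 _)
    rwa [← mul_assoc, inv_mul_cancel₀ hθ0, one_mul] at this
  have A21 : ∀ t : F, Matrix.SpecialLinearGroup.transvection h12.symm t ∈ G := by
    intro t
    have := comm_mem (G := G) h12.symm h02.symm h01 t 1 (A20 t) T01
    rwa [mul_one] at this
  have A01 : ∀ t : F, Matrix.SpecialLinearGroup.transvection h01 t ∈ G := by
    intro t
    have := comm_mem (G := G) h01 h02 h12.symm t 1 (A02 t) (A21 1)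
    rwa [mul_one] at this
  have hcases : ∀ i : Fin 3, i = i0 ∨ i = i1 ∨ i = i2 := by
    intro i
    have := i.2
    rcases (by omega : i.val = 0 ∨ i.val = 1 ∨ i.val = 2) with h | h | h
    · left
      rw [Fin.ext_iff, hi0]
      exact h
    · right
      left
      rw [Fin.ext_iff, hi1]
      exact h
    · right
      right
      rw [Fin.ext_iff, hi2]
      exact h
  have hall : ∀ (i j : Fin 3) (hij : i ≠ j) (a : F),
      Matrix.SpecialLinearGroup.transvection hij a ∈ G := by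
    intro i j hij a
    rcases hcases i with h | h | h <;> rcases hcases j with h' | h' | h' <;> subst h <;> subst h'
    · exact absurd rfl hij
    · exact A01 a
    · exact A02 a
    · exact A10 a
    · exact absurd rfl hij
    · exact A12 a
    · exact A20 a
    · exact A21 a
    · exact absurd rfl hij
  have : Nontrivial (Fin 3) := Fin.nontrivial_iff_two_le.2 (by omega)
  exact eq_top_iff.2 (fun g _ => Cfsg.Agent.Lib.Helper3.sl_transvection_induction
    (fun g => g ∈ G) (fun i j hij a => hall i j hij a) (fun _ _ => G.mul_mem) g)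

/-- Let F be a finite field and n ≥ 3. Then SL_n(F) is generated by three conjugate regular unipotent elements: there are u with u − 1 nilpotent and (u − 1)^(n−1) ≠ 0, and g, h, such that u, g u g⁻¹ and h u h⁻¹ generate SL_n(F). -/
theorem result {F : Type*} [Field F] [Fintype F] (n : ℕ) (hn : 3 ≤ n) :
    ∃ u g h : Matrix.SpecialLinearGroup (Fin n) F, (IsNilpotent ((u : Matrix (Fin n) (Fin n) F) - 1) ∧ ((u : Matrix (Fin n) (Fin n) F) - 1) ^ (n - 1) ≠ 0) ∧
      Subgroup.closure ({u, g * u * g⁻¹, h * u * h⁻¹} : Set (Matrix.SpecialLinearGroup (Fin n) F)) = ⊤ := by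
  rcases (by omega : n = 3 ∨ 4 ≤ n) with rfl | h4
  · exact main3
  · exact main4 n h4

end Cfsg.Agent.S2280
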