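import Cfsg.Statements.S2337
import Cfsg.Agent.Lib.Helper15.SzBridge
import Cfsg.Agent.Lib.Helper15.SzRep3

set_option autoImplicit false
open Cfsg

namespace Cfsg.Agent.S2337

/-- For the Suzuki group Sz(q), q = 2^(2m+1) with m ≥ 1 (realised inside Sp₄ over the field with q elements), every irreducible complex representation of degree at least 2 has degree at least 2^m·(q − 1). -/
theorem result {F : Type*} [Field F] [Fintype F] (m : ℕ) (hm : 1 ≤ m) (hF : Fintype.card F = 2 ^ (2 * m + 1)) :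
    (∀ (k : ℕ) (ρ : Representation ℂ (Cfsg.Lie.Sz F (2 ^ (m + 1))) (Fin k → ℂ)), ρ.IsIrreducible → 2 ≤ k → 2 ^ m * (2 ^ (2 * m + 1) - 1) ≤ k) := by
  intro k ρ hirr hk
  have hI := Cfsg.Agent.Lib.Helper4.Suz.dat_indep hm hF
  let φ := Cfsg.Agent.Lib.Helper15.SzBridge.equiv hm hF
  let ρ' : (Cfsg.Agent.Lib.Helper4.Suz.dat hF).G →* Module.End ℂ (Fin k → ℂ) :=
    ρ.comp φ.toMonoidHom
  have key := Cfsg.Agent.Lib.Helper15.SzRep.min_degree (Cfsg.Agent.Lib.Helper4.Suz.dat hF) hI m hF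
    ρ' ?_
  · rw [Module.finrank_fin_fun] at key
    exact key
  · by_contra hcon
    push Not at hcon
    obtain ⟨k0, hk0, hk1⟩ := Cfsg.Agent.Lib.Helper4.Suz.exists_ne01 hm hF
    have hsimple : IsSimpleGroup (Cfsg.Agent.Lib.Helper4.Suz.dat hF).G :=
      (Cfsg.Agent.Lib.Helper4.Suz.dat hF).simple hI k0 hk0 hk1
    have hker : ρ'.ker = ⊤ := by
      rcases (ρ'.normal_ker).eq_bot_or_eq_top with h | h
      · exfalso
        have h1 : Cfsg.Agent.Lib.Helper15.SzG.gu (Cfsg.Agent.Lib.Helper4.Suz.dat hF) 0 1 ∈ ρ'.ker :=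
          MonoidHom.mem_ker.2 (hcon 1)
        rw [h, Subgroup.mem_bot] at h1
        exact Cfsg.Agent.Lib.Helper15.SzG.gu_ne_one _ hI (by simp) h1
      · exact h
    have htriv : ∀ g, ρ g = 1 := by
      intro g
      obtain ⟨g', rfl⟩ := φ.surjective g
      have h1 : g' ∈ ρ'.ker := by
        rw [hker]
        exact Subgroup.mem_top _
      exact MonoidHom.mem_ker.1 h1
    let p : Subrepresentation ρ :=
      ⟨Submodule.span ℂ {Pi.single (⟨0, by omega⟩ : Fin k) (1 : ℂ)}, fun g v hv => by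
        rw [htriv g]
        exact hv⟩
    rcases hirr.eq_bot_or_eq_top p with h | h
    · have h1 : (Pi.single (⟨0, by omega⟩ : Fin k) (1 : ℂ) : Fin k → ℂ) ∈ p.toSubmodule :=
        Submodule.subset_span rfl
      rw [h] at h1
      have h2 : (Pi.single (⟨0, by omega⟩ : Fin k) (1 : ℂ) : Fin k → ℂ) = 0 :=
        (Submodule.mem_bot ℂ).1 h1
      have h3 := congrFun h2 ⟨0, by omega⟩
      simp at h3
    · have h1 : (Pi.single (⟨1, by omega⟩ : Fin k) (1 : ℂ) : Fin k → ℂ) ∈ p.toSubmodule := by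
        rw [h]
        exact Submodule.mem_top
      obtain ⟨c, hc⟩ := Submodule.mem_span_singleton.1 h1
      have h3 := congrFun hc ⟨1, by omega⟩
      simp at h3

end Cfsg.Agent.S2337
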