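import Cfsg.Statements.S2450
import Cfsg.Agent.Lib.Helper16.PSL2Prod

set_option autoImplicit false
open Cfsg

namespace Cfsg.Agent.S2450

open Cfsg.Agent.Lib.Helper16

theorem quad_three_roots {F : Type*} [Field F] (α β δ : F) (hα : α ≠ 0) (r₁ r₂ r₃ : F)
    (h12 : r₁ ≠ r₂) (h13 : r₁ ≠ r₃) (h23 : r₂ ≠ r₃)
    (h1 : α * r₁ ^ 2 + β * r₁ + δ = 0) (h2 : α * r₂ ^ 2 + β * r₂ + δ = 0)
    (h3 : α * r₃ ^ 2 + β * r₃ + δ = 0) : False := by
  have e1 : (r₁ - r₂) * (α * (r₁ + r₂) + β) = 0 := by linear_combination h1 - h2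
  have e2 : (r₁ - r₃) * (α * (r₁ + r₃) + β) = 0 := by linear_combination h1 - h3
  have e1' := (mul_eq_zero.mp e1).resolve_left (sub_ne_zero.mpr h12)
  have e2' := (mul_eq_zero.mp e2).resolve_left (sub_ne_zero.mpr h13)
  have e3 : α * (r₂ - r₃) = 0 := by linear_combination e1' - e2'
  rcases mul_eq_zero.mp e3 with h | h
  · exact hα h
  · exact h23 (sub_eq_zero.mp h)

theorem quad_card_le {F : Type*} [Field F] [Fintype F] [DecidableEq F] (α β δ : F) (hα : α ≠ 0) :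
    (Finset.univ.filter (fun r : F => α * r ^ 2 + β * r + δ = 0)).card ≤ 2 := by
  by_contra h
  push Not at h
  obtain ⟨a, ha, b, hb, c, hc, hab, hac, hbc⟩ := Finset.two_lt_card.mp h
  simp only [Finset.mem_filter, Finset.mem_univ, true_and] at ha hb hc
  exact quad_three_roots α β δ hα a b c hab hac hbc ha hb hc

theorem quad_sq_lemma {F : Type*} [Field F] [Fintype F] (h4 : 4 ≤ Fintype.card F) (α β γ₀ : F)
    (hα : α ≠ 0)
    (h : ∀ r : F, (α * r ^ 2 + β * r) * (α * r ^ 2 + β * r + 2 * γ₀) = 0) : False := by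
  classical
  have hS1 := quad_card_le α β 0 hα
  have hS2 := quad_card_le α β (2 * γ₀) hα
  by_cases h5 : 5 ≤ Fintype.card F
  · have hsub : (Finset.univ : Finset F) ⊆
        (Finset.univ.filter (fun r : F => α * r ^ 2 + β * r + 0 = 0)) ∪
        (Finset.univ.filter (fun r : F => α * r ^ 2 + β * r + 2 * γ₀ = 0)) := by
      intro r _
      rw [Finset.mem_union, Finset.mem_filter, Finset.mem_filter]
      rcases mul_eq_zero.mp (h r) with h' | h'
      · left; exact ⟨Finset.mem_univ _, by rw [add_zero]; exact h'⟩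
      · right; exact ⟨Finset.mem_univ _, h'⟩
    have h1 := Finset.card_le_card hsub
    have h' := Finset.card_union_le (Finset.univ.filter (fun r : F => α * r ^ 2 + β * r + 0 = 0))
      (Finset.univ.filter (fun r : F => α * r ^ 2 + β * r + 2 * γ₀ = 0))
    rw [Finset.card_univ] at h1
    omega
  · have hc4 : Fintype.card F = 4 := by omega
    have h40 : ((4 : ℕ) : F) = 0 := by rw [← hc4]; exact Nat.cast_card_eq_zero F
    have h2 : (2 : F) = 0 := by
      have : (2 : F) * 2 = 0 := by push_cast at h40; linear_combination h40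
      exact mul_self_eq_zero.mp this
    have hsub : (Finset.univ : Finset F) ⊆
        (Finset.univ.filter (fun r : F => α * r ^ 2 + β * r + 0 = 0)) := by
      intro r _
      rw [Finset.mem_filter]
      refine ⟨Finset.mem_univ _, ?_⟩
      have h3 := h r
      rw [h2, zero_mul, add_zero] at h3
      rw [add_zero]
      exact mul_self_eq_zero.mp h3
    have h1 := Finset.card_le_card hsub
    rw [Finset.card_univ] at h1
    omega

/-- The Arad–Herzog conjecture for PSL(2,q): let F be a finite field with q ≥ 4 elements. For any two non-identity elements a, b of PSL(2,F), the set of products of a conjugate of a with a conjugate of b is not a single conjugacy class. -/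
theorem result {F : Type*} [Field F] [Fintype F] (h4 : 4 ≤ Fintype.card F)
    (a b : Matrix.ProjectiveSpecialLinearGroup (Fin 2) F) (ha : a ≠ 1) (hb : b ≠ 1) (c : Matrix.ProjectiveSpecialLinearGroup (Fin 2) F) :
    {g : Matrix.ProjectiveSpecialLinearGroup (Fin 2) F | ∃ u v : Matrix.ProjectiveSpecialLinearGroup (Fin 2) F, g = (u * a * u⁻¹) * (v * b * v⁻¹)} ≠ {g | IsConj c g} := by
  intro heq
  obtain ⟨A, rfl⟩ := pslMk_surjective a
  obtain ⟨B, rfl⟩ := pslMk_surjective b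
  obtain ⟨cA, hcA⟩ := exists_conj_lower A (not_scalar_of_psl A ha)
  obtain ⟨cB, hcB⟩ := exists_conj_lower B (not_scalar_of_psl B hb)
  obtain ⟨A', hA'⟩ : ∃ A' : Matrix.SpecialLinearGroup (Fin 2) F, A' = cA * A * cA⁻¹ := ⟨_, rfl⟩
  obtain ⟨B', hB'⟩ : ∃ B' : Matrix.SpecialLinearGroup (Fin 2) F, B' = cB * B * cB⁻¹ := ⟨_, rfl⟩
  rw [← hA'] at hcA
  rw [← hB'] at hcB
  have hmem : ∀ r : F, IsConj c
      (pslMk F (mkSL 1 r 0 1 (by ring) * A' * (mkSL 1 r 0 1 (by ring))⁻¹ * B')) := by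
    intro r
    have h1 : pslMk F (mkSL 1 r 0 1 (by ring) * A' * (mkSL 1 r 0 1 (by ring))⁻¹ * B') ∈
        {g : Matrix.ProjectiveSpecialLinearGroup (Fin 2) F |
          ∃ u v : Matrix.ProjectiveSpecialLinearGroup (Fin 2) F,
            g = (u * pslMk F A * u⁻¹) * (v * pslMk F B * v⁻¹)} := by
      refine ⟨pslMk F (mkSL 1 r 0 1 (by ring) * cA), pslMk F cB, ?_⟩
      rw [hA', hB']
      simp only [map_mul, map_inv]
      group
    rw [heq] at h1
    exact h1
  have htr : ∀ r : F,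
      ((mkSL 1 r 0 1 (by ring) * A' * (mkSL 1 r 0 1 (by ring))⁻¹ * B' :
        Matrix.SpecialLinearGroup (Fin 2) F) : Matrix (Fin 2) (Fin 2) F).trace =
      (-((A' : Matrix (Fin 2) (Fin 2) F) 1 0 * (B' : Matrix (Fin 2) (Fin 2) F) 1 0)) * r ^ 2 +
      ((A' : Matrix (Fin 2) (Fin 2) F) 1 0 * (B' : Matrix (Fin 2) (Fin 2) F) 0 0 +
        ((A' : Matrix (Fin 2) (Fin 2) F) 1 1 - (A' : Matrix (Fin 2) (Fin 2) F) 0 0) *
          (B' : Matrix (Fin 2) (Fin 2) F) 1 0 -
        (A' : Matrix (Fin 2) (Fin 2) F) 1 0 * (B' : Matrix (Fin 2) (Fin 2) F) 1 1) * r +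
      ((A' : Matrix (Fin 2) (Fin 2) F) 0 0 * (B' : Matrix (Fin 2) (Fin 2) F) 0 0 +
        (A' : Matrix (Fin 2) (Fin 2) F) 0 1 * (B' : Matrix (Fin 2) (Fin 2) F) 1 0 +
        (A' : Matrix (Fin 2) (Fin 2) F) 1 0 * (B' : Matrix (Fin 2) (Fin 2) F) 0 1 +
        (A' : Matrix (Fin 2) (Fin 2) F) 1 1 * (B' : Matrix (Fin 2) (Fin 2) F) 1 1) := by
    intro r
    rw [sl2_trace_mul, sl2_conj_00, sl2_conj_01, sl2_conj_10, sl2_conj_11, mkSL_00, mkSL_01,
      mkSL_10, mkSL_11]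
    ring
  apply quad_sq_lemma h4
    (-((A' : Matrix (Fin 2) (Fin 2) F) 1 0 * (B' : Matrix (Fin 2) (Fin 2) F) 1 0))
    ((A' : Matrix (Fin 2) (Fin 2) F) 1 0 * (B' : Matrix (Fin 2) (Fin 2) F) 0 0 +
        ((A' : Matrix (Fin 2) (Fin 2) F) 1 1 - (A' : Matrix (Fin 2) (Fin 2) F) 0 0) *
          (B' : Matrix (Fin 2) (Fin 2) F) 1 0 -
        (A' : Matrix (Fin 2) (Fin 2) F) 1 0 * (B' : Matrix (Fin 2) (Fin 2) F) 1 1)
    ((A' : Matrix (Fin 2) (Fin 2) F) 0 0 * (B' : Matrix (Fin 2) (Fin 2) F) 0 0 +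
        (A' : Matrix (Fin 2) (Fin 2) F) 0 1 * (B' : Matrix (Fin 2) (Fin 2) F) 1 0 +
        (A' : Matrix (Fin 2) (Fin 2) F) 1 0 * (B' : Matrix (Fin 2) (Fin 2) F) 0 1 +
        (A' : Matrix (Fin 2) (Fin 2) F) 1 1 * (B' : Matrix (Fin 2) (Fin 2) F) 1 1)
    (neg_ne_zero.mpr (mul_ne_zero hcA hcB))
  intro r
  have h0 := psl_isConj_trace_sq _ _ ((hmem 0).symm.trans (hmem r))
  rw [htr, htr] at h0
  linear_combination -h0

end Cfsg.Agent.S2450
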