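import Cfsg.Statements.S2455
import Cfsg.Agent.Lib.Helper16.PSL2Prod

set_option autoImplicit false
open Cfsg

namespace Cfsg.Agent.S2455

open Cfsg.Agent.Lib.Helper16

/-- A strong covering result in the direction of Thompson's conjecture (non-identity elements) for PSL(2,q), q odd: let F be a finite field of odd characteristic p with at least 5 elements and let x ∈ PSL(2,F) have order greater than 2 and not divisible by p (so x is not unipotent). Then every non-identity element of PSL(2,F) is a product of two conjugates of x. -/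
theorem result {F : Type*} [Field F] [Fintype F] (p : ℕ) [Fact p.Prime] [CharP F p] (hp : p ≠ 2) (h5 : 5 ≤ Fintype.card F)
    (x : Matrix.ProjectiveSpecialLinearGroup (Fin 2) F) (hx2 : 2 < orderOf x) (hxp : ¬ p ∣ orderOf x) : ∀ g : Matrix.ProjectiveSpecialLinearGroup (Fin 2) F, g ≠ 1 → ∃ u v : Matrix.ProjectiveSpecialLinearGroup (Fin 2) F, g = (u * x * u⁻¹) * (v * x * v⁻¹) := by
  obtain ⟨X, rfl⟩ := pslMk_surjective x
  have h2 : (2 : F) ≠ 0 := by
    intro h
    have h2' : ((2 : ℕ) : F) = 0 := by exact_mod_cast h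
    have hd : p ∣ 2 := (CharP.cast_eq_zero_iff F p 2).mp h2'
    exact hp ((Nat.prime_dvd_prime_iff_eq Fact.out Nat.prime_two).mp hd)
  have h4 : (4 : F) ≠ 0 := by
    have : (4 : F) = 2 * 2 := by norm_num
    rw [this]; exact mul_ne_zero h2 h2
  have ht4 : (X : Matrix (Fin 2) (Fin 2) F).trace ^ 2 ≠ 4 := by
    intro h
    have hpow := psl_parabolic_pow p X h
    have hdvd := orderOf_dvd_of_pow_eq_one hpow
    rcases (Nat.dvd_prime Fact.out).mp hdvd with h1 | h1
    · omega
    · exact hxp (h1 ▸ dvd_rfl)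
  have ht0 : (X : Matrix (Fin 2) (Fin 2) F).trace ≠ 0 := by
    intro h
    have hsq := sq_of_trace_zero X h
    have h1 : pslMk F X ^ 2 = 1 := by
      rw [pow_two, ← map_mul, hsq]
      exact (pslMk_eq_one_iff _).mpr (Or.inr rfl)
    have := orderOf_le_of_pow_eq_one (by norm_num) h1
    omega
  intro g hg
  obtain ⟨Z, rfl⟩ := pslMk_surjective g
  have hZs := not_scalar_of_psl Z hg
  wlog hτ : (Z : Matrix (Fin 2) (Fin 2) F).trace ≠ -2 generalizing Z
  · push Not at hτ
    have := this (-Z) (by rwa [psl_neg]) (sl2_neg_not_scalar Z hZs)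
      (by
        rw [sl2_trace_neg, hτ]
        intro h
        apply h4
        linear_combination h)
    rwa [psl_neg] at this
  obtain ⟨c, hc0, hc1⟩ := exists_conj_companion Z hZs
  apply psl_prod_conj X Z c
  by_cases hτ2 : (Z : Matrix (Fin 2) (Fin 2) F).trace = 2
  · obtain ⟨d, γ, hdγ⟩ := exists_conic_pt_par (X : Matrix (Fin 2) (Fin 2) F).trace h2 ht0
    exact psl_prod_of_conic X _ ht4 hc0 hc1 (-1) d γ (Or.inr rfl)
      (by rw [sl2_trace_conj, hτ2]; exact hdγ)
  · have hτ4 : (Z : Matrix (Fin 2) (Fin 2) F).trace ^ 2 ≠ 4 := by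
      intro h
      have hfac : ((Z : Matrix (Fin 2) (Fin 2) F).trace - 2) *
          ((Z : Matrix (Fin 2) (Fin 2) F).trace + 2) = 0 := by linear_combination h
      rcases mul_eq_zero.mp hfac with h' | h'
      · exact hτ2 (by linear_combination h')
      · exact hτ (by linear_combination h')
    obtain ⟨d, γ, hdγ⟩ := exists_conic_pt_gen (Z : Matrix (Fin 2) (Fin 2) F).trace
      (X : Matrix (Fin 2) (Fin 2) F).trace hτ4
    exact psl_prod_of_conic X _ ht4 hc0 hc1 1 d γ (Or.inl rfl)
      (by rw [sl2_trace_conj]; exact hdγ)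

end Cfsg.Agent.S2455
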