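import Cfsg.Statements.S2456
import Cfsg.Agent.Lib.Helper16.PSL2Prod

set_option autoImplicit false
open Cfsg

namespace Cfsg.Agent.S2456

open Cfsg.Agent.Lib.Helper16

/-- A strong covering result in the direction of Thompson's conjecture (non-identity elements) for PSL(2,q), q even: let F be a finite field of characteristic 2 with q ≥ 4 elements and let x ∈ PSL(2,F) have order greater than 2 and not dividing q + 1. Then every non-identity element of PSL(2,F) is a product of two conjugates of x. -/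
theorem result {F : Type*} [Field F] [Fintype F] [CharP F 2] (h4 : 4 ≤ Fintype.card F)
    (x : Matrix.ProjectiveSpecialLinearGroup (Fin 2) F) (hx2 : 2 < orderOf x) (hxq : ¬ orderOf x ∣ Fintype.card F + 1) : ∀ g : Matrix.ProjectiveSpecialLinearGroup (Fin 2) F, g ≠ 1 → ∃ u v : Matrix.ProjectiveSpecialLinearGroup (Fin 2) F, g = (u * x * u⁻¹) * (v * x * v⁻¹) := by
  have h2 : (2 : F) = 0 := by
    have := CharP.cast_eq_zero F 2
    exact_mod_cast this
  have h4 : (4 : F) = 0 := by
    have : (4 : F) = 2 * 2 := by norm_num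
    rw [this, h2, mul_zero]
  have hchar : ringChar F = 2 := ringChar.eq F 2
  obtain ⟨X, rfl⟩ := pslMk_surjective x
  have ht0 : (X : Matrix (Fin 2) (Fin 2) F).trace ≠ 0 := by
    intro h
    have hsq := sq_of_trace_zero X h
    have h1 : pslMk F X ^ 2 = 1 := by
      rw [pow_two, ← map_mul, hsq]
      exact (pslMk_eq_one_iff _).mpr (Or.inr rfl)
    have := orderOf_le_of_pow_eq_one (by norm_num) h1
    omega
  have ht4 : (X : Matrix (Fin 2) (Fin 2) F).trace ^ 2 ≠ 4 := by
    rw [h4]
    exact pow_ne_zero 2 ht0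
  have hroot : ∃ s : F, s ^ 2 + (X : Matrix (Fin 2) (Fin 2) F).trace * s + 1 = 0 := by
    by_contra hno
    have hNR : NoRoot (X : Matrix (Fin 2) (Fin 2) F).trace := fun m hm => hno ⟨m, hm⟩
    have hXs := not_scalar_of_trace X ht4
    have hc := Cfsg.Agent.Lib.Helper15.SL2_isConj_of_trace X
      (ellE (X : Matrix (Fin 2) (Fin 2) F).trace) (Or.inl hchar) hXs (ellE_not_scalar _)
      (by rw [ellE_trace])
    obtain ⟨c, hc⟩ := isConj_iff.mp hc
    have hcard := card_nsT_of_noRoot _ hNR
    have h1 : (⟨ellE (X : Matrix (Fin 2) (Fin 2) F).trace, ellE_mem _⟩ :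
        nsT (X : Matrix (Fin 2) (Fin 2) F).trace) ^ Nat.card (nsT (X : Matrix (Fin 2) (Fin 2) F).trace) = 1 :=
      pow_card_eq_one'
    rw [hcard] at h1
    have h3 : ellE (X : Matrix (Fin 2) (Fin 2) F).trace ^ (Fintype.card F + 1) = 1 := by
      have := congrArg Subtype.val h1
      simpa using this
    have h5 : X ^ (Fintype.card F + 1) = 1 := by
      have hX : X = c⁻¹ * ellE (X : Matrix (Fin 2) (Fin 2) F).trace * c := by rw [← hc]; group
      have hpow : ∀ (n : ℕ) (y : Matrix.SpecialLinearGroup (Fin 2) F), (c⁻¹ * y * c) ^ n = c⁻¹ * y ^ n * c := by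
        intro n y
        induction n with
        | zero => simp
        | succ k ih => rw [pow_succ, ih, pow_succ]; group
      rw [hX, hpow, h3]; group
    apply hxq
    apply orderOf_dvd_of_pow_eq_one
    rw [← map_pow, h5, map_one]
  obtain ⟨s, hs⟩ := hroot
  intro g hg
  obtain ⟨Z, rfl⟩ := pslMk_surjective g
  have hZs := not_scalar_of_psl Z hg
  obtain ⟨c, hc0, hc1⟩ := exists_conj_companion Z hZs
  apply psl_prod_conj X Z c
  by_cases hτ : (Z : Matrix (Fin 2) (Fin 2) F).trace = 0
  · obtain ⟨d, γ, hdγ⟩ := exists_conic_pt_two (X : Matrix (Fin 2) (Fin 2) F).trace s h2 hs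
    exact psl_prod_of_conic X _ ht4 hc0 hc1 1 d γ (Or.inl rfl)
      (by rw [sl2_trace_conj, hτ]; exact hdγ)
  · have hτ4 : (Z : Matrix (Fin 2) (Fin 2) F).trace ^ 2 ≠ 4 := by
      rw [h4]
      exact pow_ne_zero 2 hτ
    obtain ⟨d, γ, hdγ⟩ := exists_conic_pt_gen (Z : Matrix (Fin 2) (Fin 2) F).trace
      (X : Matrix (Fin 2) (Fin 2) F).trace hτ4
    exact psl_prod_of_conic X _ ht4 hc0 hc1 1 d γ (Or.inl rfl)
      (by rw [sl2_trace_conj]; exact hdγ)

end Cfsg.Agent.S2456
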