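import Cfsg.Statements.S2466
import Mathlib

set_option autoImplicit false
open Cfsg

namespace Cfsg.Agent.S2466

theorem alt_order_iff (n k : ℕ) :
    (k ∈ Set.range (orderOf : alternatingGroup (Fin n) → ℕ)) ↔
      ∃ m : Multiset ℕ, (∀ a ∈ m, 2 ≤ a) ∧ m.sum ≤ n ∧ Even (m.sum + Multiset.card m) ∧ m.lcm = k := by
  constructor
  · rintro ⟨⟨σ, hσ⟩, rfl⟩
    refine ⟨σ.cycleType, fun a ha => Equiv.Perm.two_le_of_mem_cycleType ha, ?_, ?_, ?_⟩
    · rw [Equiv.Perm.sum_cycleType]
      simpa using Finset.card_le_univ σ.support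
    · rw [Equiv.Perm.mem_alternatingGroup, Equiv.Perm.sign_of_cycleType] at hσ
      exact (neg_one_pow_eq_one_iff_even (by decide)).mp hσ
    · rw [Equiv.Perm.lcm_cycleType, Subgroup.orderOf_mk]
  · rintro ⟨m, h2, hsum, hev, rfl⟩
    obtain ⟨g, hg⟩ := (Equiv.Perm.exists_with_cycleType_iff (α := Fin n)).mpr ⟨by simpa using hsum, h2⟩
    have hmem : g ∈ alternatingGroup (Fin n) := by
      rw [Equiv.Perm.mem_alternatingGroup, Equiv.Perm.sign_of_cycleType, hg]
      exact hev.neg_one_pow
    refine ⟨⟨g, hmem⟩, ?_⟩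
    rw [Subgroup.orderOf_mk, ← Equiv.Perm.lcm_cycleType, hg]

theorem prime_dvd_multiset_lcm {p : ℕ} (hp : p.Prime) (m : Multiset ℕ) (h : p ∣ m.lcm) :
    ∃ a ∈ m, p ∣ a := by
  induction m using Multiset.induction_on with
  | empty =>
    rw [Multiset.lcm_zero] at h
    exact absurd (Nat.dvd_one.mp h) hp.one_lt.ne'
  | cons a s ih =>
    rw [Multiset.lcm_cons, lcm_eq_nat_lcm] at h
    rcases (Nat.Prime.dvd_lcm hp).mp h with h1 | h1
    · exact ⟨a, Multiset.mem_cons_self a s, h1⟩
    · obtain ⟨b, hb, hpb⟩ := ih h1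
      exact ⟨b, Multiset.mem_cons_of_mem hb, hpb⟩

theorem two_mem_sum {m : Multiset ℕ} {a b : ℕ} (ha : a ∈ m) (hb : b ∈ m) (hab : a ≠ b) :
    a + b ≤ m.sum := by
  obtain ⟨m', rfl⟩ := Multiset.exists_cons_of_mem ha
  rw [Multiset.mem_cons] at hb
  rcases hb with hb | hb
  · exact absurd hb.symm hab
  · rw [Multiset.sum_cons]
    exact Nat.add_le_add_left (Multiset.le_sum_of_mem hb) a

/-- Adjacency of odd primes in the prime graph of the alternating groups: let r ≠ s be odd primes at most n. The alternating group of degree n has an element of order r·s if and only if r + s ≤ n. -/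
theorem result (n r s : ℕ) (hr : r.Prime) (hs : s.Prime) (hr2 : r ≠ 2) (hs2 : s ≠ 2) (hrs : r ≠ s) (hrn : r ≤ n) (hsn : s ≤ n) :
    (r * s ∈ Set.range (orderOf : alternatingGroup (Fin n) → ℕ)) ↔ r + s ≤ n := by
  rw [alt_order_iff]
  have hcop : Nat.Coprime r s := (Nat.coprime_primes hr hs).mpr hrs
  constructor
  · rintro ⟨m, h2, hsum, hev, hlcm⟩
    obtain ⟨a, ha, hra⟩ := prime_dvd_multiset_lcm hr m (by rw [hlcm]; exact dvd_mul_right r s)
    obtain ⟨b, hb, hsb⟩ := prime_dvd_multiset_lcm hs m (by rw [hlcm]; exact dvd_mul_left s r)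
    have ha2 := h2 a ha
    have hb2 := h2 b hb
    by_cases hab : a = b
    · subst hab
      have h1 : r * s ∣ a := hcop.mul_dvd_of_dvd_of_dvd hra hsb
      have h2' : r * s ≤ a := Nat.le_of_dvd (by omega) h1
      have h3 : a ≤ m.sum := Multiset.le_sum_of_mem ha
      have h4 : r + s ≤ r * s := Nat.add_le_mul hr.two_le hs.two_le
      omega
    · have h1 := two_mem_sum ha hb hab
      have h2' : r ≤ a := Nat.le_of_dvd (by omega) hra
      have h3 : s ≤ b := Nat.le_of_dvd (by omega) hsb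
      omega
  · intro h
    refine ⟨{r, s}, ?_, ?_, ?_, ?_⟩
    · intro a ha
      simp only [Multiset.insert_eq_cons, Multiset.mem_cons, Multiset.mem_singleton] at ha
      rcases ha with rfl | rfl
      · exact hr.two_le
      · exact hs.two_le
    · simpa using h
    · have hro : Odd r := hr.odd_of_ne_two hr2
      have hso : Odd s := hs.odd_of_ne_two hs2
      simp only [Multiset.insert_eq_cons, Multiset.sum_cons, Multiset.sum_singleton,
        Multiset.card_cons, Multiset.card_singleton]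
      obtain ⟨x, hx⟩ := hro
      obtain ⟨y, hy⟩ := hso
      exact ⟨x + y + 2, by omega⟩
    · simp only [Multiset.insert_eq_cons, Multiset.lcm_cons, Multiset.lcm_singleton, lcm_eq_nat_lcm,
        normalize_eq]
      exact hcop.lcm_eq_mul

end Cfsg.Agent.S2466
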