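import Cfsg.Statements.S2467
import Mathlib

set_option autoImplicit false
open Cfsg

namespace Cfsg.Agent.S2467

theorem alt_order_iff (n k : ℕ) :
    (k ∈ Set.range (orderOf : alternatingGroup (Fin n) → ℕ)) ↔
      ∃ m : Multiset ℕ, (∀ a ∈ m, 2 ≤ a) ∧ m.sum ≤ n ∧ Even (m.sum + Multiset.card m) ∧ m.lcm = k := by
  constructor
  · rintro ⟨⟨σ, hσ⟩, rfl⟩
    refine ⟨σ.cycleType, fun a ha => Equiv.Perm.two_le_of_mem_cycleType ha, ?_, ?_, ?_⟩
    · rw [Equiv.Perm.sum_cycleType]
      simpa using Finset.card_le_univ σ.support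
    · rw [Equiv.Perm.mem_alternatingGroup, Equiv.Perm.sign_of_cycleType] at hσ
      exact (neg_one_pow_eq_one_iff_even (by decide)).mp hσ
    · rw [Equiv.Perm.lcm_cycleType, Subgroup.orderOf_mk]
  · rintro ⟨m, h2, hsum, hev, rfl⟩
    obtain ⟨g, hg⟩ := (Equiv.Perm.exists_with_cycleType_iff (α := Fin n)).mpr ⟨by simpa using hsum, h2⟩
    have hmem : g ∈ alternatingGroup (Fin n) := by
      rw [Equiv.Perm.mem_alternatingGroup, Equiv.Perm.sign_of_cycleType, hg]
      exact hev.neg_one_pow
    refine ⟨⟨g, hmem⟩, ?_⟩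
    rw [Subgroup.orderOf_mk, ← Equiv.Perm.lcm_cycleType, hg]

theorem prime_dvd_multiset_lcm {p : ℕ} (hp : p.Prime) (m : Multiset ℕ) (h : p ∣ m.lcm) :
    ∃ a ∈ m, p ∣ a := by
  induction m using Multiset.induction_on with
  | empty =>
    rw [Multiset.lcm_zero] at h
    exact absurd (Nat.dvd_one.mp h) hp.one_lt.ne'
  | cons a s ih =>
    rw [Multiset.lcm_cons, lcm_eq_nat_lcm] at h
    rcases (Nat.Prime.dvd_lcm hp).mp h with h1 | h1
    · exact ⟨a, Multiset.mem_cons_self a s, h1⟩
    · obtain ⟨b, hb, hpb⟩ := ih h1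
      exact ⟨b, Multiset.mem_cons_of_mem hb, hpb⟩

theorem two_mem_sum {m : Multiset ℕ} {a b : ℕ} (ha : a ∈ m) (hb : b ∈ m) (hab : a ≠ b) :
    a + b ≤ m.sum := by
  obtain ⟨m', rfl⟩ := Multiset.exists_cons_of_mem ha
  rw [Multiset.mem_cons] at hb
  rcases hb with hb | hb
  · exact absurd hb.symm hab
  · rw [Multiset.sum_cons]
    exact Nat.add_le_add_left (Multiset.le_sum_of_mem hb) a

theorem parity_filter_even (m : Multiset ℕ) :
    (m.sum + Multiset.card m) % 2 = (Multiset.card (m.filter (fun a => a % 2 = 0))) % 2 := by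
  induction m using Multiset.induction_on with
  | empty => simp
  | cons a s ih =>
    rw [Multiset.sum_cons, Multiset.card_cons]
    by_cases ha : a % 2 = 0
    · rw [Multiset.filter_cons_of_pos (p := fun a => a % 2 = 0) s ha, Multiset.card_cons]
      omega
    · rw [Multiset.filter_cons_of_neg (p := fun a => a % 2 = 0) s ha]
      omega

theorem sum_filter_le (m : Multiset ℕ) (p : ℕ → Prop) [DecidablePred p] :
    (m.filter p).sum + (m.filter (fun a => ¬ p a)).sum = m.sum := by
  rw [← Multiset.sum_add, Multiset.filter_add_not]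

/-- Adjacency of 2 and an odd prime in the prime graph of the alternating groups: let r be an odd prime at most n, with n ≥ 4. The alternating group of degree n has an element of order 2r if and only if r + 4 ≤ n. -/
theorem result (n r : ℕ) (hn : 4 ≤ n) (hr : r.Prime) (hr2 : r ≠ 2) (hrn : r ≤ n) :
    (2 * r ∈ Set.range (orderOf : alternatingGroup (Fin n) → ℕ)) ↔ r + 4 ≤ n := by
  rw [alt_order_iff]
  have hro : Odd r := hr.odd_of_ne_two hr2
  have hr3 : 3 ≤ r := by
    have := hr.two_le
    omega
  constructor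
  · rintro ⟨m, h2, hsum, hev, hlcm⟩
    have hpar := parity_filter_even m
    have hcardev : (Multiset.card (m.filter (fun a => a % 2 = 0))) % 2 = 0 := by
      rw [← hpar]; exact Nat.even_iff.mp hev
    obtain ⟨e, he, h2e⟩ := prime_dvd_multiset_lcm Nat.prime_two m (by rw [hlcm]; exact dvd_mul_right 2 r)
    have hemem : e ∈ m.filter (fun a => a % 2 = 0) := by
      rw [Multiset.mem_filter]; exact ⟨he, by omega⟩
    have hsplit := sum_filter_le m (fun a => a % 2 = 0)
    obtain ⟨a, ha, hra⟩ := prime_dvd_multiset_lcm hr m (by rw [hlcm]; exact dvd_mul_left r 2)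
    have ha2 := h2 a ha
    have hra' : r ≤ a := Nat.le_of_dvd (by omega) hra
    -- at least two even parts
    obtain ⟨me, hme⟩ := Multiset.exists_cons_of_mem hemem
    have hcard2 : 1 ≤ Multiset.card me := by
      rw [hme, Multiset.card_cons] at hcardev
      omega
    obtain ⟨e', he'⟩ := Multiset.card_pos_iff_exists_mem.mp hcard2
    have he'mem : e' ∈ m.filter (fun a => a % 2 = 0) := by
      rw [hme]; exact Multiset.mem_cons_of_mem he'
    have he'2 : 2 ≤ e' := h2 e' (Multiset.mem_of_mem_filter he'mem)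
    have he2 : 2 ≤ e := h2 e he
    have hsumE : e + e' ≤ (m.filter (fun a => a % 2 = 0)).sum := by
      rw [hme, Multiset.sum_cons]
      exact Nat.add_le_add_left (Multiset.le_sum_of_mem he') e
    by_cases hae : a % 2 = 0
    · -- a is even and divisible by r, so a ≥ 2r
      have h2a : 2 ∣ a := Nat.dvd_of_mod_eq_zero hae
      have hcop : Nat.Coprime 2 r := (Nat.coprime_primes Nat.prime_two hr).mpr (Ne.symm hr2)
      have h2r : 2 * r ∣ a := hcop.mul_dvd_of_dvd_of_dvd h2a hra
      have h2r' : 2 * r ≤ a := Nat.le_of_dvd (by omega) h2r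
      have hamem : a ∈ m.filter (fun a => a % 2 = 0) := by
        rw [Multiset.mem_filter]; exact ⟨ha, hae⟩
      -- another even part besides a
      obtain ⟨ma, hma⟩ := Multiset.exists_cons_of_mem hamem
      have hcard2' : 1 ≤ Multiset.card ma := by
        rw [hma, Multiset.card_cons] at hcardev
        omega
      obtain ⟨e'', he''⟩ := Multiset.card_pos_iff_exists_mem.mp hcard2'
      have he''mem : e'' ∈ m.filter (fun a => a % 2 = 0) := by
        rw [hma]; exact Multiset.mem_cons_of_mem he''
      have he''2 : 2 ≤ e'' := h2 e'' (Multiset.mem_of_mem_filter he''mem)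
      have hsumE' : a + e'' ≤ (m.filter (fun a => a % 2 = 0)).sum := by
        rw [hma, Multiset.sum_cons]
        exact Nat.add_le_add_left (Multiset.le_sum_of_mem he'') a
      omega
    · have hamem : a ∈ m.filter (fun a => ¬ a % 2 = 0) := by
        rw [Multiset.mem_filter]; exact ⟨ha, hae⟩
      have := Multiset.le_sum_of_mem hamem
      omega
  · intro h
    refine ⟨{r, 2, 2}, ?_, ?_, ?_, ?_⟩
    · intro a ha
      simp only [Multiset.insert_eq_cons, Multiset.mem_cons, Multiset.mem_singleton] at ha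
      rcases ha with rfl | rfl | rfl
      · exact hr.two_le
      · exact le_refl 2
      · exact le_refl 2
    · simp only [Multiset.insert_eq_cons, Multiset.sum_cons, Multiset.sum_singleton]
      omega
    · simp only [Multiset.insert_eq_cons, Multiset.sum_cons, Multiset.sum_singleton,
        Multiset.card_cons, Multiset.card_singleton]
      obtain ⟨x, hx⟩ := hro
      exact ⟨x + 4, by omega⟩
    · simp only [Multiset.insert_eq_cons, Multiset.lcm_cons, Multiset.lcm_singleton, lcm_eq_nat_lcm,
        normalize_eq]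
      have hcop : Nat.Coprime r 2 := (Nat.coprime_primes hr Nat.prime_two).mpr hr2
      rw [Nat.lcm_self, hcop.lcm_eq_mul, mul_comm]

end Cfsg.Agent.S2467
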