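import Cfsg.Statements.S2471
import Mathlib

set_option autoImplicit false
open Cfsg

namespace Cfsg.Agent.S2471

/-- In PSL(2,q) with q odd, the characteristic p is isolated from 2 in the prime graph: for F a finite field of odd characteristic p with at least 5 elements, PSL(2,F) has no element of order 2p. -/
theorem result {F : Type*} [Field F] [Fintype F] (p : ℕ) [Fact p.Prime] [CharP F p] (hp : p ≠ 2) (h5 : 5 ≤ Fintype.card F) (g : Matrix.ProjectiveSpecialLinearGroup (Fin 2) F) :
    orderOf g ≠ 2 * p := by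
  classical
  intro hord
  have hpp : p.Prime := Fact.out
  have hp2 := hpp.two_le
  obtain ⟨A, rfl⟩ := QuotientGroup.mk_surjective g
  obtain ⟨f, -, hf⟩ := FiniteField.card F p
  have hfpos : 0 < (f : ℕ) := f.pos
  have hpq : p ∣ Fintype.card F := by rw [hf]; exact dvd_pow_self p hfpos.ne'
  have hg2q : (QuotientGroup.mk A : Matrix.ProjectiveSpecialLinearGroup (Fin 2) F) ^ (2 * Fintype.card F) = 1 :=
    orderOf_dvd_iff_pow_eq_one.mp (by rw [hord]; exact Nat.mul_dvd_mul_left 2 hpq)
  have hgq : (QuotientGroup.mk A : Matrix.ProjectiveSpecialLinearGroup (Fin 2) F) ^ (Fintype.card F) ≠ 1 := by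
    intro h
    have h1 := orderOf_dvd_of_pow_eq_one h
    rw [hord, hf] at h1
    have h2 : 2 ∣ p ^ (f : ℕ) := (dvd_mul_right 2 p).trans h1
    have h3 : 2 ∣ p := Nat.Prime.dvd_of_dvd_pow Nat.prime_two h2
    exact hp ((Nat.prime_dvd_prime_iff_eq Nat.prime_two hpp).mp h3).symm
  have hg2 : (QuotientGroup.mk A : Matrix.ProjectiveSpecialLinearGroup (Fin 2) F) ^ 2 ≠ 1 := by
    intro h
    have h1 := orderOf_dvd_of_pow_eq_one h
    rw [hord] at h1
    have := Nat.le_of_dvd (by norm_num) h1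
    omega
  have hA2q : A ^ (2 * Fintype.card F) ∈ Subgroup.center (Matrix.SpecialLinearGroup (Fin 2) F) := by
    rw [← QuotientGroup.eq_one_iff, QuotientGroup.mk_pow]; exact hg2q
  have hAq : A ^ (Fintype.card F) ∉ Subgroup.center (Matrix.SpecialLinearGroup (Fin 2) F) := by
    rw [← QuotientGroup.eq_one_iff, QuotientGroup.mk_pow]; exact hgq
  have hA2 : A ^ 2 ∉ Subgroup.center (Matrix.SpecialLinearGroup (Fin 2) F) := by
    rw [← QuotientGroup.eq_one_iff, QuotientGroup.mk_pow]; exact hg2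
  have hdet : (A : Matrix (Fin 2) (Fin 2) F).det = 1 := A.2
  have CH : ∀ (N : Matrix (Fin 2) (Fin 2) F), N * N = N.trace • N - N.det • (1 : Matrix (Fin 2) (Fin 2) F) := by
    intro N
    ext i j
    fin_cases i <;> fin_cases j <;>
      simp [Matrix.mul_apply, Fin.sum_univ_two, Matrix.trace, Matrix.det_fin_two] <;> ring
  have htr : ((A : Matrix (Fin 2) (Fin 2) F) ^ Fintype.card F).trace = (A : Matrix (Fin 2) (Fin 2) F).trace := by
    rw [FiniteField.trace_pow_card, FiniteField.pow_card]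
  obtain ⟨r, hr, hrA⟩ := Matrix.SpecialLinearGroup.mem_center_iff.mp hA2q
  have hBB : ((A : Matrix (Fin 2) (Fin 2) F) ^ Fintype.card F) * ((A : Matrix (Fin 2) (Fin 2) F) ^ Fintype.card F)
      = r • (1 : Matrix (Fin 2) (Fin 2) F) := by
    rw [← pow_add, ← two_mul, ← Matrix.SpecialLinearGroup.coe_pow, ← hrA]
    simp [Matrix.smul_one_eq_diagonal]
  have hdetB : ((A : Matrix (Fin 2) (Fin 2) F) ^ Fintype.card F).det = 1 := by
    rw [Matrix.det_pow, hdet, one_pow]
  have h1 : (A : Matrix (Fin 2) (Fin 2) F).trace • ((A : Matrix (Fin 2) (Fin 2) F) ^ Fintype.card F)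
      = (r + 1) • (1 : Matrix (Fin 2) (Fin 2) F) := by
    have h := CH ((A : Matrix (Fin 2) (Fin 2) F) ^ Fintype.card F)
    rw [htr, hdetB, hBB] at h
    rw [add_smul, h]
    simp
  by_cases ht : (A : Matrix (Fin 2) (Fin 2) F).trace = 0
  · apply hA2
    rw [Matrix.SpecialLinearGroup.mem_center_iff]
    refine ⟨-1, by simp, ?_⟩
    have h := CH (A : Matrix (Fin 2) (Fin 2) F)
    rw [ht, hdet] at h
    rw [Matrix.SpecialLinearGroup.coe_pow, pow_two, h]
    ext i j
    fin_cases i <;> fin_cases j <;> simp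
  · apply hAq
    rw [Matrix.SpecialLinearGroup.mem_center_iff]
    have hB : (A : Matrix (Fin 2) (Fin 2) F) ^ Fintype.card F
        = ((r + 1) / (A : Matrix (Fin 2) (Fin 2) F).trace) • (1 : Matrix (Fin 2) (Fin 2) F) := by
      rw [div_eq_inv_mul, mul_smul, ← h1, smul_smul, inv_mul_cancel₀ ht, one_smul]
    refine ⟨(r + 1) / (A : Matrix (Fin 2) (Fin 2) F).trace, ?_, ?_⟩
    · have h := hdetB
      rw [hB] at h
      simpa using h
    · rw [Matrix.SpecialLinearGroup.coe_pow, hB]
      simp [Matrix.smul_one_eq_diagonal]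

end Cfsg.Agent.S2471
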