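import Cfsg.Statements.S2503
import Cfsg.Agent.Lib.Helper16.PSL2Prod

set_option autoImplicit false
open Cfsg

namespace Cfsg.Agent.S2503

open Cfsg.Agent.Lib.Helper16

/-- The upper unitriangular subgroup. -/
def upB (F : Type*) [Field F] : Subgroup (Matrix.SpecialLinearGroup (Fin 2) F) where
  carrier := {g | (g : Matrix (Fin 2) (Fin 2) F) 1 0 = 0 ∧ (g : Matrix (Fin 2) (Fin 2) F) 0 0 = 1}
  mul_mem' := by
    intro a b ha hb
    constructor
    · rw [sl2_mul_entry, ha.1, hb.1]; ring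
    · rw [sl2_mul_entry, ha.2, hb.2, hb.1]; ring
  one_mem' := by
    constructor <;> simp
  inv_mem' := by
    intro a ha
    have hd := sl2_det_eq a
    rw [ha.1, ha.2] at hd
    constructor
    · rw [sl2_inv_10, ha.1, neg_zero]
    · rw [sl2_inv_00]; linear_combination hd

theorem mem_upB {F : Type*} [Field F] (g : Matrix.SpecialLinearGroup (Fin 2) F) :
    g ∈ upB F ↔ ((g : Matrix (Fin 2) (Fin 2) F) 1 0 = 0 ∧ (g : Matrix (Fin 2) (Fin 2) F) 0 0 = 1) :=
  Iff.rfl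

theorem upB_11 {F : Type*} [Field F] (g : Matrix.SpecialLinearGroup (Fin 2) F) (hg : g ∈ upB F) :
    (g : Matrix (Fin 2) (Fin 2) F) 1 1 = 1 := by
  have hd := sl2_det_eq g
  rw [hg.1, hg.2] at hd
  linear_combination hd

theorem upB_comm {F : Type*} [Field F] (a b : Matrix.SpecialLinearGroup (Fin 2) F)
    (ha : a ∈ upB F) (hb : b ∈ upB F) : a * b = b * a := by
  have ha11 := upB_11 a ha
  have hb11 := upB_11 b hb
  apply sl2_ext <;> simp only [sl2_mul_entry, ha.1, ha.2, hb.1, hb.2, ha11, hb11] <;> ring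

theorem upB_sq {F : Type*} [Field F] (h2 : (2 : F) = 0) (a : Matrix.SpecialLinearGroup (Fin 2) F)
    (ha : a ∈ upB F) : a * a = 1 := by
  have ha11 := upB_11 a ha
  apply sl2_ext <;> simp only [sl2_mul_entry, ha.1, ha.2, ha11] <;> simp
  linear_combination (a : Matrix (Fin 2) (Fin 2) F) 0 1 * h2

theorem card_upB {F : Type*} [Field F] [Fintype F] : Nat.card (upB F) = Fintype.card F := by
  rw [← Nat.card_eq_fintype_card]
  apply Nat.card_congr
  refine Equiv.ofBijective (fun g : upB F => ((g : Matrix.SpecialLinearGroup (Fin 2) F) :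
    Matrix (Fin 2) (Fin 2) F) 0 1) ⟨?_, ?_⟩
  · intro a b hab
    apply Subtype.ext
    apply sl2_ext
    · rw [a.2.2, b.2.2]
    · exact hab
    · rw [a.2.1, b.2.1]
    · rw [upB_11 _ a.2, upB_11 _ b.2]
  · intro x
    exact ⟨⟨mkSL 1 x 0 1 (by ring), ⟨rfl, rfl⟩⟩, rfl⟩

theorem sl2_ABA {F : Type*} [Field F] [Fintype F] (hchar : ringChar F = 2) (h2 : (2 : F) = 0) (t : F)
    (ht : NoRoot t) (g : Matrix.SpecialLinearGroup (Fin 2) F) :
    ∃ a ∈ nsT t, ∃ b ∈ upB F, ∃ c ∈ nsT t, g = a * b * c := by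
  have key : ∃ x y : F, x ^ 2 + t * x * y + y ^ 2 = 1 ∧
      ((g : Matrix (Fin 2) (Fin 2) F) 0 0 * x + (g : Matrix (Fin 2) (Fin 2) F) 0 1 * y) ^ 2 +
      t * ((g : Matrix (Fin 2) (Fin 2) F) 0 0 * x + (g : Matrix (Fin 2) (Fin 2) F) 0 1 * y) *
        ((g : Matrix (Fin 2) (Fin 2) F) 1 0 * x + (g : Matrix (Fin 2) (Fin 2) F) 1 1 * y) +
      ((g : Matrix (Fin 2) (Fin 2) F) 1 0 * x + (g : Matrix (Fin 2) (Fin 2) F) 1 1 * y) ^ 2 = 1 := by
    have hd := sl2_det_eq g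
    obtain ⟨p, hp⟩ : ∃ p, p = (g : Matrix (Fin 2) (Fin 2) F) 0 0 := ⟨_, rfl⟩
    obtain ⟨r, hr⟩ : ∃ r, r = (g : Matrix (Fin 2) (Fin 2) F) 0 1 := ⟨_, rfl⟩
    obtain ⟨s, hs⟩ : ∃ s, s = (g : Matrix (Fin 2) (Fin 2) F) 1 0 := ⟨_, rfl⟩
    obtain ⟨u, hu⟩ : ∃ u, u = (g : Matrix (Fin 2) (Fin 2) F) 1 1 := ⟨_, rfl⟩
    rw [← hp, ← hr, ← hs, ← hu] at hd ⊢
    obtain ⟨l, hl⟩ := FiniteField.isSquare_of_char_two hchar (p ^ 2 + t * p * s + s ^ 2 + 1)
    obtain ⟨m, hm⟩ := FiniteField.isSquare_of_char_two hchar (r ^ 2 + t * r * u + u ^ 2 + 1)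
    by_cases h0 : l = 0 ∧ m = 0
    · refine ⟨1, 0, by ring, ?_⟩
      rw [h0.1] at hl
      linear_combination hl - h2
    · have hn : m ^ 2 + t * m * l + l ^ 2 ≠ 0 := by
        intro h
        obtain ⟨h1, h2'⟩ := aniso_of_noRoot t ht m l h
        exact h0 ⟨h2', h1⟩
      obtain ⟨k, hk⟩ := FiniteField.isSquare_of_char_two hchar (m ^ 2 + t * m * l + l ^ 2)⁻¹
      have hk1 : k * k * (m ^ 2 + t * m * l + l ^ 2) = 1 := by
        rw [← hk]; exact inv_mul_cancel₀ hn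
      refine ⟨k * m, k * l, by linear_combination hk1, ?_⟩
      linear_combination (k * k * m ^ 2) * hl + (k * k * l ^ 2) * hm + (k * k * m * l * t) * hd -
        hk1 + (k * k * m * l * (p * r + t * r * s + s * u) + k * k * m * l * t - 1 +
          k * k * m ^ 2 * l ^ 2) * h2
  obtain ⟨x, y, hxy, hxy'⟩ := key
  obtain ⟨x', hx'⟩ : ∃ x', x' = (g : Matrix (Fin 2) (Fin 2) F) 0 0 * x +
    (g : Matrix (Fin 2) (Fin 2) F) 0 1 * y := ⟨_, rfl⟩
  obtain ⟨y', hy'⟩ : ∃ y', y' = (g : Matrix (Fin 2) (Fin 2) F) 1 0 * x +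
    (g : Matrix (Fin 2) (Fin 2) F) 1 1 * y := ⟨_, rfl⟩
  rw [← hx', ← hy'] at hxy'
  have hc : mkSL x (-y) y (x + t * y) (by linear_combination hxy) ∈ nsT t := by
    rw [mem_nsT, mkSL_00, mkSL_01, mkSL_10, mkSL_11]
    exact ⟨rfl, rfl⟩
  have ha : mkSL x' (-y') y' (x' + t * y') (by linear_combination hxy') ∈ nsT t := by
    rw [mem_nsT, mkSL_00, mkSL_01, mkSL_10, mkSL_11]
    exact ⟨rfl, rfl⟩
  refine ⟨_, ha, (mkSL x' (-y') y' (x' + t * y') (by linear_combination hxy'))⁻¹ * g *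
    mkSL x (-y) y (x + t * y) (by linear_combination hxy), ?_, _, inv_mem hc, by group⟩
  rw [mem_upB]
  constructor
  · simp only [sl2_mul_entry, sl2_inv_10, sl2_inv_11, mkSL_00, mkSL_10]
    rw [hx', hy']
    ring
  · simp only [sl2_mul_entry, sl2_inv_00, sl2_inv_01, mkSL_00, mkSL_10, mkSL_01, mkSL_11]
    rw [hx', hy'] at hxy' ⊢
    linear_combination hxy'

/-- Let F be a finite field with q = 2^t ≥ 4 elements and L = PSL(2,F). Then L has a cyclic subgroup A of order q + 1 and an elementary abelian 2-subgroup B of order q such that L = ABA: every element of L is a product a·b·a' with a, a' ∈ A and b ∈ B. -/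
theorem result {F : Type*} [Field F] [Fintype F]
    (h2 : 2 ∣ Fintype.card F) (h4 : 4 ≤ Fintype.card F) :
    ∃ A B : Subgroup (Matrix.ProjectiveSpecialLinearGroup (Fin 2) F),
      IsCyclic A ∧ Nat.card A = Fintype.card F + 1 ∧ IsMulCommutative B ∧ (∀ b ∈ B, b * b = 1) ∧
        Nat.card B = Fintype.card F ∧
        ∀ g : Matrix.ProjectiveSpecialLinearGroup (Fin 2) F, ∃ a ∈ A, ∃ b ∈ B, ∃ c ∈ A, g = a * b * c := by
  have hchar : ringChar F = 2 := FiniteField.even_card_iff_char_two.mpr (Nat.mod_eq_zero_of_dvd h2)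
  have h20 : (2 : F) = 0 := by
    have := CharP.cast_eq_zero F (ringChar F)
    rw [hchar] at this
    exact_mod_cast this
  obtain ⟨t, ht⟩ := exists_noRoot (F := F)
  have hinj := pslMk_injective_of_two h20
  refine ⟨(nsT t).map (pslMk F), (upB F).map (pslMk F), ?_, ?_, ?_, ?_, ?_, ?_⟩
  · have := isCyclic_nsT_of_noRoot t ht
    exact isCyclic_of_surjective ((pslMk F).subgroupMap (nsT t))
      ((pslMk F).subgroupMap_surjective (nsT t))
  · rw [Subgroup.card_map_of_injective hinj, card_nsT_of_noRoot t ht]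
  · refine ⟨⟨?_⟩⟩
    rintro ⟨a, ha⟩ ⟨b, hb⟩
    obtain ⟨a', ha', rfl⟩ := Subgroup.mem_map.mp ha
    obtain ⟨b', hb', rfl⟩ := Subgroup.mem_map.mp hb
    apply Subtype.ext
    change pslMk F a' * pslMk F b' = pslMk F b' * pslMk F a'
    rw [← map_mul, ← map_mul, upB_comm a' b' ha' hb']
  · intro b hb
    obtain ⟨b', hb', rfl⟩ := Subgroup.mem_map.mp hb
    rw [← map_mul, upB_sq h20 b' hb', map_one]
  · rw [Subgroup.card_map_of_injective hinj, card_upB]
  · intro g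
    obtain ⟨g', rfl⟩ := pslMk_surjective g
    obtain ⟨a, ha, b, hb, c, hc, habc⟩ := sl2_ABA hchar h20 t ht g'
    exact ⟨pslMk F a, Subgroup.mem_map_of_mem _ ha, pslMk F b, Subgroup.mem_map_of_mem _ hb,
      pslMk F c, Subgroup.mem_map_of_mem _ hc, by rw [habc, map_mul, map_mul]⟩

end Cfsg.Agent.S2503
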