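import Cfsg.Statements.S2507
import Mathlib
import Cfsg.Agent.Lib.Helper16.SL2Cent

set_option autoImplicit false
open Cfsg

namespace Cfsg.Agent.S2507

open Cfsg.Agent.Lib.Helper16

theorem index_psl {F : Type*} [Field F] (h2 : (2 : F) = 0)
    (g : Matrix.SpecialLinearGroup (Fin 2) F) :
    (Subgroup.centralizer ({pslMk F g} : Set (Matrix.ProjectiveSpecialLinearGroup (Fin 2) F))).index =
      (Subgroup.centralizer ({g} : Set (Matrix.SpecialLinearGroup (Fin 2) F))).index := by
  rw [← index_cpm]
  congr 1
  ext x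
  rw [mem_cpm, mem_centralizer_singleton]
  have : -g = g := by rw [← neg_one_mul, sl2_neg_one_eq_one h2, one_mul]
  rw [this, or_self]

theorem index_cases {F : Type*} [Field F] [Fintype F] (h2 : (2 : F) = 0) (h4 : 4 ≤ Fintype.card F)
    (g : Matrix.SpecialLinearGroup (Fin 2) F) :
    (Subgroup.centralizer ({g} : Set (Matrix.SpecialLinearGroup (Fin 2) F))).index ∈
      ({1, Fintype.card F * (Fintype.card F - 1), Fintype.card F ^ 2 - 1,
        Fintype.card F * (Fintype.card F + 1)} : Set ℕ) := by
  classical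
  simp only [Set.mem_insert_iff, Set.mem_singleton_iff]
  by_cases hs : Cfsg.Agent.Lib.Helper15.IsScalar2 (g : Matrix (Fin 2) (Fin 2) F)
  · left
    rw [centralizer_scalar g (sl2_scalar_cases g hs), Subgroup.index_top]
  · by_cases ht : (g : Matrix (Fin 2) (Fin 2) F).trace ^ 2 = 4
    · right; right; left
      exact index_centralizer_parabolic_two h2 g hs ht
    · by_cases hr : ∃ m : F, m ^ 2 + (g : Matrix (Fin 2) (Fin 2) F).trace * m + 1 = 0
      · obtain ⟨m, hm⟩ := hr
        right; right; right
        exact index_centralizer_split g hs ht m hm (by omega)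
      · right; left
        exact index_centralizer_nonsplit g hs (fun m hm => hr ⟨m, hm⟩)

theorem exists_split {F : Type*} [Field F] [Fintype F] (h2 : (2 : F) = 0) (h4 : 4 ≤ Fintype.card F) :
    ∃ g : Matrix.SpecialLinearGroup (Fin 2) F,
      (Subgroup.centralizer ({g} : Set (Matrix.SpecialLinearGroup (Fin 2) F))).index =
        Fintype.card F * (Fintype.card F + 1) := by
  classical
  have hnt : Nontrivial Fˣ := by
    rw [← Fintype.one_lt_card_iff_nontrivial, Fintype.card_units]
    omega
  obtain ⟨u, hu⟩ := exists_ne (1 : Fˣ)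
  have hu2 : (u : F) ^ 2 ≠ 1 := by
    intro h
    apply hu
    apply Units.ext
    have : ((u : F) - 1) ^ 2 = 0 := by linear_combination h - (u : F) * h2 + h2
    have := pow_eq_zero_iff (two_ne_zero) |>.mp this
    rw [Units.val_one]
    linear_combination this
  exact ⟨diagS u, index_centralizer_split (diagS u) (diagS_not_scalar u hu2) (diagS_trace_sq u hu2)
    (-(u : F)) (diagS_root u) (by omega)⟩

/-- Let F be a finite field with q = 2^f ≥ 4 elements. The conjugacy class sizes of PSL(2,F) are exactly 1, q(q − 1), q² − 1 and q(q + 1). -/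
theorem result {F : Type*} [Field F] [Fintype F]
    (h2 : 2 ∣ Fintype.card F) (h4 : 4 ≤ Fintype.card F) :
    Set.range (fun g : (Matrix.ProjectiveSpecialLinearGroup (Fin 2) F) => (Subgroup.centralizer ({g} : Set (Matrix.ProjectiveSpecialLinearGroup (Fin 2) F))).index) =
      {1, Fintype.card F * (Fintype.card F - 1), Fintype.card F ^ 2 - 1, Fintype.card F * (Fintype.card F + 1)} := by
  have hchar : ringChar F = 2 := FiniteField.even_card_iff_char_two.mpr (Nat.mod_eq_zero_of_dvd h2)
  have h20 : (2 : F) = 0 := by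
    have := CharP.cast_eq_zero F (ringChar F)
    rw [hchar] at this
    exact_mod_cast this
  apply Set.eq_of_subset_of_subset
  · rintro n ⟨gbar, rfl⟩
    obtain ⟨g, rfl⟩ := Cfsg.Agent.Lib.Helper16.pslMk_surjective gbar
    simp only
    rw [index_psl h20]
    exact index_cases h20 h4 g
  · intro n hn
    simp only [Set.mem_insert_iff, Set.mem_singleton_iff] at hn
    rcases hn with rfl | rfl | rfl | rfl
    · refine ⟨Cfsg.Agent.Lib.Helper16.pslMk F 1, ?_⟩
      simp only
      rw [index_psl h20, Cfsg.Agent.Lib.Helper16.centralizer_scalar 1 (Or.inl rfl), Subgroup.index_top]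
    · obtain ⟨t, ht⟩ := Cfsg.Agent.Lib.Helper16.exists_noRoot (F := F)
      refine ⟨Cfsg.Agent.Lib.Helper16.pslMk F (Cfsg.Agent.Lib.Helper16.ellE t), ?_⟩
      simp only
      rw [index_psl h20]
      exact Cfsg.Agent.Lib.Helper16.index_centralizer_nonsplit _
        (Cfsg.Agent.Lib.Helper16.ellE_not_scalar t)
        (by rw [Cfsg.Agent.Lib.Helper16.ellE_trace]; exact ht)
    · refine ⟨Cfsg.Agent.Lib.Helper16.pslMk F (Cfsg.Agent.Lib.Helper16.unipU F), ?_⟩
      simp only
      rw [index_psl h20]
      exact Cfsg.Agent.Lib.Helper16.index_centralizer_parabolic_two h20 _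
        Cfsg.Agent.Lib.Helper16.unipU_not_scalar
        (by rw [Cfsg.Agent.Lib.Helper16.unipU_trace]; norm_num)
    · obtain ⟨g, hg⟩ := exists_split h20 h4
      refine ⟨Cfsg.Agent.Lib.Helper16.pslMk F g, ?_⟩
      simp only
      rw [index_psl h20, hg]

end Cfsg.Agent.S2507
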