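import Cfsg.Statements.S2508
import Mathlib
import Cfsg.Agent.Lib.Helper16.PSL2Class

set_option autoImplicit false
open Cfsg

namespace Cfsg.Agent.S2508

open Cfsg.Agent.Lib.Helper16

theorem psl_index_cases {F : Type*} [Field F] [Fintype F] (h2 : (2 : F) ≠ 0)
    (h7 : 7 ≤ Fintype.card F) (g : Matrix.SpecialLinearGroup (Fin 2) F) :
    (Subgroup.centralizer ({pslMk F g} : Set (Matrix.ProjectiveSpecialLinearGroup (Fin 2) F))).index = 1 ∨
    (Subgroup.centralizer ({pslMk F g} : Set (Matrix.ProjectiveSpecialLinearGroup (Fin 2) F))).index =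
      (Fintype.card F ^ 2 - 1) / 2 ∨
    (Subgroup.centralizer ({pslMk F g} : Set (Matrix.ProjectiveSpecialLinearGroup (Fin 2) F))).index =
      Fintype.card F * (Fintype.card F + 1) ∨
    (Subgroup.centralizer ({pslMk F g} : Set (Matrix.ProjectiveSpecialLinearGroup (Fin 2) F))).index =
      Fintype.card F * (Fintype.card F - 1) ∨
    (IsSquare (-1 : F) ∧
      (Subgroup.centralizer ({pslMk F g} : Set (Matrix.ProjectiveSpecialLinearGroup (Fin 2) F))).index =
        Fintype.card F * (Fintype.card F + 1) / 2) ∨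
    (¬ IsSquare (-1 : F) ∧
      (Subgroup.centralizer ({pslMk F g} : Set (Matrix.ProjectiveSpecialLinearGroup (Fin 2) F))).index =
        Fintype.card F * (Fintype.card F - 1) / 2) := by
  classical
  have h4 : (4 : F) ≠ 0 := by
    have : (4 : F) = 2 * 2 := by norm_num
    rw [this]; exact mul_ne_zero h2 h2
  by_cases hs : Cfsg.Agent.Lib.Helper15.IsScalar2 (g : Matrix (Fin 2) (Fin 2) F)
  · left
    rw [psl_index_of_not_conj g (not_conj_neg_of_scalar h2 g (sl2_scalar_cases g hs)),
      centralizer_scalar g (sl2_scalar_cases g hs), Subgroup.index_top]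
  · by_cases ht0 : (g : Matrix (Fin 2) (Fin 2) F).trace = 0
    · have key := psl_index_trace_zero h2 g hs ht0
      have ht4 : (g : Matrix (Fin 2) (Fin 2) F).trace ^ 2 ≠ 4 := by
        rw [ht0]
        intro h
        apply h4
        linear_combination -h
      by_cases hsq : IsSquare (-1 : F)
      · right; right; right; right; left
        refine ⟨hsq, ?_⟩
        obtain ⟨m, hm⟩ := hsq
        have hC := index_centralizer_split g hs ht4 m (by rw [ht0]; linear_combination -hm) (by omega)
        rw [← hC, ← key, Nat.mul_div_cancel _ (by norm_num)]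
      · right; right; right; right; right
        refine ⟨hsq, ?_⟩
        have hn : NoRoot (g : Matrix (Fin 2) (Fin 2) F).trace := by
          intro m hm
          rw [ht0] at hm
          exact hsq ⟨m, by linear_combination -hm⟩
        have hC := index_centralizer_nonsplit g hs hn
        rw [← hC, ← key, Nat.mul_div_cancel _ (by norm_num)]
    · rw [psl_index_of_not_conj g (not_conj_neg_of_trace h2 g ht0)]
      by_cases ht : (g : Matrix (Fin 2) (Fin 2) F).trace ^ 2 = 4
      · right; left
        have hC := index_centralizer_parabolic_odd h2 g hs ht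
        rw [← hC, Nat.mul_div_cancel _ (by norm_num)]
      · by_cases hr : ∃ m : F, m ^ 2 + (g : Matrix (Fin 2) (Fin 2) F).trace * m + 1 = 0
        · obtain ⟨m, hm⟩ := hr
          right; right; left
          exact index_centralizer_split g hs ht m hm (by omega)
        · right; right; right; left
          exact index_centralizer_nonsplit g hs (fun m hm => hr ⟨m, hm⟩)

theorem ex_one {F : Type*} [Field F] [Fintype F] (h2 : (2 : F) ≠ 0) :
    (Subgroup.centralizer ({pslMk F 1} : Set (Matrix.ProjectiveSpecialLinearGroup (Fin 2) F))).index = 1 := by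
  rw [psl_index_of_not_conj 1 (not_conj_neg_of_scalar h2 1 (Or.inl rfl)),
    centralizer_scalar 1 (Or.inl rfl), Subgroup.index_top]

theorem ex_unip {F : Type*} [Field F] [Fintype F] (h2 : (2 : F) ≠ 0) :
    (Subgroup.centralizer ({pslMk F (unipU F)} :
      Set (Matrix.ProjectiveSpecialLinearGroup (Fin 2) F))).index = (Fintype.card F ^ 2 - 1) / 2 := by
  rw [psl_index_of_not_conj _ (not_conj_neg_of_trace h2 _ (by rw [unipU_trace]; exact h2))]
  have hC := index_centralizer_parabolic_odd h2 (unipU F) unipU_not_scalar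
    (by rw [unipU_trace]; norm_num)
  rw [← hC, Nat.mul_div_cancel _ (by norm_num)]

theorem ex_split {F : Type*} [Field F] [Fintype F] (h2 : (2 : F) ≠ 0) (h7 : 7 ≤ Fintype.card F) :
    ∃ g : Matrix.SpecialLinearGroup (Fin 2) F,
      (Subgroup.centralizer ({pslMk F g} : Set (Matrix.ProjectiveSpecialLinearGroup (Fin 2) F))).index =
        Fintype.card F * (Fintype.card F + 1) := by
  classical
  obtain ⟨u, hu⟩ := IsCyclic.exists_generator (α := Fˣ)
  have hord : orderOf u = Fintype.card F - 1 := by
    rw [orderOf_eq_card_of_forall_mem_zpowers hu, Nat.card_eq_fintype_card, Fintype.card_units]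
  have hu2 : (u : F) ^ 2 ≠ 1 := by
    intro h
    have h' : u ^ 2 = 1 := by
      apply Units.ext
      rw [Units.val_pow_eq_pow_val, h, Units.val_one]
    have := Nat.le_of_dvd (by norm_num) (orderOf_dvd_of_pow_eq_one h')
    omega
  have hu0 : (u : F) ≠ 0 := u.ne_zero
  have htr : (diagS u : Matrix (Fin 2) (Fin 2) F).trace ≠ 0 := by
    rw [diagS_trace, Units.val_inv_eq_inv_val]
    intro h
    have h1 : (u : F) ^ 2 = -1 := by
      field_simp at h
      linear_combination h
    have h' : u ^ 4 = 1 := by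
      apply Units.ext
      rw [Units.val_pow_eq_pow_val, Units.val_one]
      have : (u : F) ^ 4 = ((u : F) ^ 2) ^ 2 := by ring
      rw [this, h1]
      ring
    have := Nat.le_of_dvd (by norm_num) (orderOf_dvd_of_pow_eq_one h')
    omega
  refine ⟨diagS u, ?_⟩
  rw [psl_index_of_not_conj _ (not_conj_neg_of_trace h2 _ htr)]
  exact index_centralizer_split (diagS u) (diagS_not_scalar u hu2) (diagS_trace_sq u hu2)
    (-(u : F)) (diagS_root u) (by omega)

theorem ex_nonsplit {F : Type*} [Field F] [Fintype F] (h2 : (2 : F) ≠ 0) (h7 : 7 ≤ Fintype.card F) :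
    ∃ g : Matrix.SpecialLinearGroup (Fin 2) F,
      (Subgroup.centralizer ({pslMk F g} : Set (Matrix.ProjectiveSpecialLinearGroup (Fin 2) F))).index =
        Fintype.card F * (Fintype.card F - 1) := by
  classical
  obtain ⟨t, ht⟩ := exists_noRoot (F := F)
  have hcyc := isCyclic_nsT_of_noRoot t ht
  obtain ⟨z, hz⟩ := IsCyclic.exists_generator (α := nsT t)
  have hord : orderOf (z : Matrix.SpecialLinearGroup (Fin 2) F) = Fintype.card F + 1 := by
    rw [Subgroup.orderOf_coe, orderOf_eq_card_of_forall_mem_zpowers hz, card_nsT_of_noRoot t ht]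
  have hz10 : ((z : Matrix.SpecialLinearGroup (Fin 2) F) : Matrix (Fin 2) (Fin 2) F) 1 0 ≠ 0 := by
    intro h
    have h' : (z : Matrix.SpecialLinearGroup (Fin 2) F) ^ 2 = 1 := by
      rw [pow_two]
      apply Subtype.ext
      rw [Matrix.SpecialLinearGroup.coe_mul, Matrix.SpecialLinearGroup.coe_one]
      rcases nsT_scalar t z.1 z.2 h with h1 | h1
      · rw [h1, one_mul]
      · rw [h1]; simp
    have := Nat.le_of_dvd (by norm_num) (orderOf_dvd_of_pow_eq_one h')
    omega
  have hns : ¬ Cfsg.Agent.Lib.Helper15.IsScalar2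
      ((z : Matrix.SpecialLinearGroup (Fin 2) F) : Matrix (Fin 2) (Fin 2) F) := fun h => hz10 h.2.1
  have htr : ((z : Matrix.SpecialLinearGroup (Fin 2) F) : Matrix (Fin 2) (Fin 2) F).trace ≠ 0 := by
    intro h
    have hsq := sq_of_trace_zero z.1 h
    have h' : (z : Matrix.SpecialLinearGroup (Fin 2) F) ^ 4 = 1 := by
      have : (z : Matrix.SpecialLinearGroup (Fin 2) F) ^ 4 =
          ((z : Matrix.SpecialLinearGroup (Fin 2) F) * (z : Matrix.SpecialLinearGroup (Fin 2) F)) *
          ((z : Matrix.SpecialLinearGroup (Fin 2) F) * (z : Matrix.SpecialLinearGroup (Fin 2) F)) := by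
        rw [show (4 : ℕ) = 2 + 2 from rfl, pow_add, pow_two]
      rw [this, hsq]
      simp
    have := Nat.le_of_dvd (by norm_num) (orderOf_dvd_of_pow_eq_one h')
    omega
  refine ⟨z.1, ?_⟩
  rw [psl_index_of_not_conj _ (not_conj_neg_of_trace h2 _ htr)]
  exact index_centralizer_nonsplit z.1 hns (noRoot_trace_of_mem_nsT t ht z.1 z.2 hz10)

theorem ex_zero_sq {F : Type*} [Field F] [Fintype F] (h2 : (2 : F) ≠ 0) (h7 : 7 ≤ Fintype.card F)
    (hsq : IsSquare (-1 : F)) :
    (Subgroup.centralizer ({pslMk F (ellE 0)} :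
      Set (Matrix.ProjectiveSpecialLinearGroup (Fin 2) F))).index =
        Fintype.card F * (Fintype.card F + 1) / 2 := by
  have h4 : (4 : F) ≠ 0 := by
    have : (4 : F) = 2 * 2 := by norm_num
    rw [this]; exact mul_ne_zero h2 h2
  have key := psl_index_trace_zero h2 (ellE (0 : F)) (ellE_not_scalar 0) (ellE_trace 0)
  obtain ⟨m, hm⟩ := hsq
  have hC := index_centralizer_split (ellE (0 : F)) (ellE_not_scalar 0)
    (by rw [ellE_trace]; intro h; apply h4; linear_combination -h) m
    (by rw [ellE_trace]; linear_combination -hm) (by omega)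
  rw [← hC, ← key, Nat.mul_div_cancel _ (by norm_num)]

theorem ex_zero_nsq {F : Type*} [Field F] [Fintype F] (h2 : (2 : F) ≠ 0)
    (hsq : ¬ IsSquare (-1 : F)) :
    (Subgroup.centralizer ({pslMk F (ellE 0)} :
      Set (Matrix.ProjectiveSpecialLinearGroup (Fin 2) F))).index =
        Fintype.card F * (Fintype.card F - 1) / 2 := by
  have key := psl_index_trace_zero h2 (ellE (0 : F)) (ellE_not_scalar 0) (ellE_trace 0)
  have hn : NoRoot (ellE (0 : F) : Matrix (Fin 2) (Fin 2) F).trace := by
    intro m hm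
    rw [ellE_trace] at hm
    exact hsq ⟨m, by linear_combination -hm⟩
  have hC := index_centralizer_nonsplit (ellE (0 : F)) (ellE_not_scalar 0) hn
  rw [← hC, ← key, Nat.mul_div_cancel _ (by norm_num)]

/-- Let F be a finite field with q elements, q odd and q ≥ 7. If q ≡ 1 (mod 4) the conjugacy class sizes of PSL(2,F) are exactly 1, (q² − 1)/2, q(q + 1)/2, q(q − 1) and q(q + 1); if q ≡ 3 (mod 4) they are exactly 1, (q² − 1)/2, q(q − 1)/2, q(q + 1) and q(q − 1). -/
theorem result {F : Type*} [Field F] [Fintype F]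
    (hodd : ¬ 2 ∣ Fintype.card F) (h7 : 7 ≤ Fintype.card F) :
    (Fintype.card F % 4 = 1 →
      Set.range (fun g : (Matrix.ProjectiveSpecialLinearGroup (Fin 2) F) => (Subgroup.centralizer ({g} : Set (Matrix.ProjectiveSpecialLinearGroup (Fin 2) F))).index) =
        {1, (Fintype.card F ^ 2 - 1) / 2, Fintype.card F * (Fintype.card F + 1) / 2,
          Fintype.card F * (Fintype.card F - 1), Fintype.card F * (Fintype.card F + 1)}) ∧
    (Fintype.card F % 4 = 3 →
      Set.range (fun g : (Matrix.ProjectiveSpecialLinearGroup (Fin 2) F) => (Subgroup.centralizer ({g} : Set (Matrix.ProjectiveSpecialLinearGroup (Fin 2) F))).index) =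
        {1, (Fintype.card F ^ 2 - 1) / 2, Fintype.card F * (Fintype.card F - 1) / 2,
          Fintype.card F * (Fintype.card F + 1), Fintype.card F * (Fintype.card F - 1)}) := by
  classical
  have hF : ringChar F ≠ 2 := by
    intro h
    exact hodd (Nat.dvd_of_mod_eq_zero (FiniteField.even_card_iff_char_two.mp h))
  have h2 : (2 : F) ≠ 0 := Ring.two_ne_zero hF
  constructor
  · intro h1
    have hsq : IsSquare (-1 : F) := FiniteField.isSquare_neg_one_iff.mpr (by omega)
    apply Set.eq_of_subset_of_subset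
    · rintro n ⟨gbar, rfl⟩
      obtain ⟨g, rfl⟩ := Cfsg.Agent.Lib.Helper16.pslMk_surjective gbar
      simp only [Set.mem_insert_iff, Set.mem_singleton_iff]
      rcases psl_index_cases h2 h7 g with h | h | h | h | h | h
      · exact Or.inl h
      · exact Or.inr (Or.inl h)
      · exact Or.inr (Or.inr (Or.inr (Or.inr h)))
      · exact Or.inr (Or.inr (Or.inr (Or.inl h)))
      · exact Or.inr (Or.inr (Or.inl h.2))
      · exact absurd hsq h.1
    · intro n hn
      simp only [Set.mem_insert_iff, Set.mem_singleton_iff] at hn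
      rcases hn with rfl | rfl | rfl | rfl | rfl
      · exact ⟨_, ex_one h2⟩
      · exact ⟨_, ex_unip h2⟩
      · exact ⟨_, ex_zero_sq h2 h7 hsq⟩
      · obtain ⟨g, hg⟩ := ex_nonsplit h2 h7
        exact ⟨_, hg⟩
      · obtain ⟨g, hg⟩ := ex_split h2 h7
        exact ⟨_, hg⟩
  · intro h1
    have hsq : ¬ IsSquare (-1 : F) := fun h => (FiniteField.isSquare_neg_one_iff.mp h) h1
    apply Set.eq_of_subset_of_subset
    · rintro n ⟨gbar, rfl⟩
      obtain ⟨g, rfl⟩ := Cfsg.Agent.Lib.Helper16.pslMk_surjective gbar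
      simp only [Set.mem_insert_iff, Set.mem_singleton_iff]
      rcases psl_index_cases h2 h7 g with h | h | h | h | h | h
      · exact Or.inl h
      · exact Or.inr (Or.inl h)
      · exact Or.inr (Or.inr (Or.inr (Or.inl h)))
      · exact Or.inr (Or.inr (Or.inr (Or.inr h)))
      · exact absurd h.1 hsq
      · exact Or.inr (Or.inr (Or.inl h.2))
    · intro n hn
      simp only [Set.mem_insert_iff, Set.mem_singleton_iff] at hn
      rcases hn with rfl | rfl | rfl | rfl | rfl
      · exact ⟨_, ex_one h2⟩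
      · exact ⟨_, ex_unip h2⟩
      · exact ⟨_, ex_zero_nsq h2 hsq⟩
      · obtain ⟨g, hg⟩ := ex_split h2 h7
        exact ⟨_, hg⟩
      · obtain ⟨g, hg⟩ := ex_nonsplit h2 h7
        exact ⟨_, hg⟩

end Cfsg.Agent.S2508
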