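import Cfsg.Statements.S2514

set_option autoImplicit false
open Cfsg

namespace Cfsg.Agent.S2514

theorem exists_of_dvd {X : Type*} [Group X] [Finite X] (x : X) {d : ℕ} (hd : d ∣ orderOf x) :
    ∃ y : X, orderOf y = d :=
  ⟨x ^ (orderOf x / d), orderOf_pow_orderOf_div (orderOf_pos x).ne' hd⟩

theorem exists_max {X : Type*} [Group X] [Finite X] :
    ∀ (N : ℕ) (x : X), Nat.card X - orderOf x = N →
      ∃ c, (c ∈ Set.range (orderOf : X → ℕ) ∧ ∀ m ∈ Set.range (orderOf : X → ℕ), c ∣ m → m = c) ∧
        orderOf x ∣ c := by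
  intro N
  induction N using Nat.strong_induction_on with
  | _ N ih =>
    intro x hx
    by_cases hmax : ∀ m ∈ Set.range (orderOf : X → ℕ), orderOf x ∣ m → m = orderOf x
    · exact ⟨orderOf x, ⟨⟨x, rfl⟩, hmax⟩, dvd_rfl⟩
    · push Not at hmax
      obtain ⟨m, ⟨y, rfl⟩, hdvd, hne⟩ := hmax
      have hle : orderOf x ≤ orderOf y := Nat.le_of_dvd (orderOf_pos y) hdvd
      have hlt : orderOf x < orderOf y := lt_of_le_of_ne hle (Ne.symm hne)
      have hcard : orderOf y ≤ Nat.card X := orderOf_le_card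
      obtain ⟨c, hc, hyc⟩ := ih (Nat.card X - orderOf y) (by omega) y rfl
      exact ⟨c, hc, hdvd.trans hyc⟩

theorem orderOf_pi_dvd {ι : Type*} {X : Type*} [Group X] (f : ι → X) (m : ℕ) :
    orderOf f ∣ m ↔ ∀ i, orderOf (f i) ∣ m := by
  rw [orderOf_dvd_iff_pow_eq_one, funext_iff]
  simp only [Pi.pow_apply, Pi.one_apply, orderOf_dvd_iff_pow_eq_one]

theorem orderOf_prod_dvd {X Y : Type*} [Group X] [Group Y] (a : X) (b : Y) (m : ℕ) :
    orderOf (a, b) ∣ m ↔ orderOf a ∣ m ∧ orderOf b ∣ m := by
  rw [orderOf_dvd_iff_pow_eq_one, Prod.ext_iff]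
  simp only [Prod.pow_fst, Prod.pow_snd, Prod.fst_one, Prod.snd_one, orderOf_dvd_iff_pow_eq_one]

theorem eq_of_dvd_iff {a b : ℕ} (h : ∀ m, a ∣ m ↔ b ∣ m) : a = b :=
  Nat.dvd_antisymm ((h b).mpr dvd_rfl) ((h a).mp dvd_rfl)

theorem drop_coord {G H : Type*} [Group G] [Group H] {k : ℕ} (f : Fin (k + 1) → G) (j : Fin (k + 1))
    (h : H) (hh : orderOf h = orderOf (f j)) :
    orderOf ((fun l : Fin k => f (j.succAbove l), h) : (Fin k → G) × H) = orderOf f := by
  apply eq_of_dvd_iff
  intro m
  rw [orderOf_prod_dvd, orderOf_pi_dvd, orderOf_pi_dvd, Fin.forall_iff_succAbove j, hh]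
  tauto

/-- For a finite group X write μ(X) for the set of element orders of X that are maximal under divisibility. Let G and H be finite groups and k ≥ 1 such that μ(H) ⊆ μ(G) and μ(G) has fewer than k elements outside μ(H). Then the direct product of k copies of G has the same set of element orders as the direct product of k − 1 copies of G with H. -/
theorem result {G H : Type*} [Group G] [Finite G] [Group H] [Finite H] (k : ℕ) (hk : 1 ≤ k)
    (hsub : {n : ℕ | n ∈ Set.range (orderOf : H → ℕ) ∧ ∀ m ∈ Set.range (orderOf : H → ℕ), n ∣ m → m = n} ⊆ {n : ℕ | n ∈ Set.range (orderOf : G → ℕ) ∧ ∀ m ∈ Set.range (orderOf : G → ℕ), n ∣ m → m = n})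
    (hfew : ({n : ℕ | n ∈ Set.range (orderOf : G → ℕ) ∧ ∀ m ∈ Set.range (orderOf : G → ℕ), n ∣ m → m = n} \ {n : ℕ | n ∈ Set.range (orderOf : H → ℕ) ∧ ∀ m ∈ Set.range (orderOf : H → ℕ), n ∣ m → m = n}).ncard < k) :
    Set.range (orderOf : (Fin k → G) → ℕ) = Set.range (orderOf : (Fin (k - 1) → G) × H → ℕ) := by
  classical
  obtain ⟨k, rfl⟩ : ∃ k', k = k' + 1 := ⟨k - 1, by omega⟩
  show Set.range (orderOf : (Fin (k + 1) → G) → ℕ) = Set.range (orderOf : (Fin k → G) × H → ℕ)
  apply Set.eq_of_subset_of_subset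
  · rintro n ⟨f, rfl⟩
    have hc : ∀ i, ∃ c, (c ∈ Set.range (orderOf : G → ℕ) ∧ ∀ m ∈ Set.range (orderOf : G → ℕ), c ∣ m → m = c) ∧
        orderOf (f i) ∣ c := fun i => exists_max _ (f i) rfl
    choose c hc1 hc2 using hc
    by_cases hex : ∃ j, c j ∈ {n : ℕ | n ∈ Set.range (orderOf : H → ℕ) ∧ ∀ m ∈ Set.range (orderOf : H → ℕ), n ∣ m → m = n}
    · obtain ⟨j, ⟨⟨h0, hh0⟩, _⟩⟩ := hex
      obtain ⟨h, hh⟩ := exists_of_dvd h0 (d := orderOf (f j)) (by rw [hh0]; exact hc2 j)
      exact ⟨(fun l : Fin k => f (j.succAbove l), h), drop_coord f j h hh⟩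
    · push Not at hex
      set D := {n : ℕ | n ∈ Set.range (orderOf : G → ℕ) ∧ ∀ m ∈ Set.range (orderOf : G → ℕ), n ∣ m → m = n} \ {n : ℕ | n ∈ Set.range (orderOf : H → ℕ) ∧ ∀ m ∈ Set.range (orderOf : H → ℕ), n ∣ m → m = n} with hD
      have hDfin : D.Finite := by
        apply Set.Finite.subset (Set.finite_range (orderOf : G → ℕ))
        intro n hn
        exact hn.1.1
      have hcD : ∀ i, c i ∈ D := fun i => ⟨hc1 i, hex i⟩
      have hninj : ¬ Function.Injective c := by
        intro hinj
        have h1 : Nat.card (Fin (k + 1)) ≤ Nat.card D := by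
          have : Finite D := hDfin
          apply Nat.card_le_card_of_injective (fun i => (⟨c i, hcD i⟩ : D))
          intro a b hab
          exact hinj (congrArg Subtype.val hab)
        rw [Nat.card_coe_set_eq, Nat.card_eq_fintype_card, Fintype.card_fin] at h1
        omega
      rw [Function.Injective] at hninj
      push Not at hninj
      obtain ⟨i, j, hij, hne⟩ := hninj
      obtain ⟨x0, hx0⟩ := (hc1 i).1
      obtain ⟨y, hy⟩ := exists_of_dvd x0 (d := Nat.lcm (orderOf (f i)) (orderOf (f j)))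
        (by rw [hx0]; exact Nat.lcm_dvd (hc2 i) (hij ▸ hc2 j))
      set f'' : Fin (k + 1) → G := Function.update (Function.update f j 1) i y with hf''
      have hfj : f'' j = 1 := by
        rw [hf'', Function.update_of_ne (Ne.symm hne), Function.update_self]
      have hfi : f'' i = y := by rw [hf'', Function.update_self]
      have hfl : ∀ l, l ≠ i → l ≠ j → f'' l = f l := by
        intro l hli hlj
        rw [hf'', Function.update_of_ne hli, Function.update_of_ne hlj]
      have hord : orderOf f'' = orderOf f := by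
        apply eq_of_dvd_iff
        intro m
        rw [orderOf_pi_dvd, orderOf_pi_dvd]
        constructor
        · intro h l
          by_cases hli : l = i
          · subst hli
            have := h l
            rw [hfi, hy] at this
            exact (Nat.dvd_lcm_left _ _).trans this
          · by_cases hlj : l = j
            · subst hlj
              have := h i
              rw [hfi, hy] at this
              exact (Nat.dvd_lcm_right _ _).trans this
            · rw [← hfl l hli hlj]; exact h l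
        · intro h l
          by_cases hli : l = i
          · subst hli
            rw [hfi, hy]
            exact Nat.lcm_dvd (h l) (h j)
          · by_cases hlj : l = j
            · subst hlj
              rw [hfj, orderOf_one]; exact one_dvd _
            · rw [hfl l hli hlj]; exact h l
      refine ⟨(fun l : Fin k => f'' (j.succAbove l), (1 : H)), ?_⟩
      rw [drop_coord f'' j 1 (by rw [hfj, orderOf_one, orderOf_one]), hord]
  · rintro n ⟨⟨f', h⟩, rfl⟩
    obtain ⟨c, hc, hhc⟩ := exists_max _ h rfl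
    obtain ⟨⟨g0, hg0⟩, _⟩ := hsub hc
    obtain ⟨g, hg⟩ := exists_of_dvd g0 (d := orderOf h) (by rw [hg0]; exact hhc)
    refine ⟨Fin.cons g f', ?_⟩
    apply eq_of_dvd_iff
    intro m
    rw [orderOf_prod_dvd, orderOf_pi_dvd, orderOf_pi_dvd, Fin.forall_fin_succ]
    simp only [Fin.cons_zero, Fin.cons_succ, hg]
    tauto

end Cfsg.Agent.S2514
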