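import Cfsg.Statements.S2516

set_option autoImplicit false
open Cfsg

namespace Cfsg.Agent.S2516

theorem phi_apply {F : Type*} [Field F] {V : Type*} [AddCommGroup V] [Module F V]
    {G : Type*} [Group G] (ρ : Representation F G V) (h : G) (v : V) :
    ((MulAutMultiplicative V).symm.toMonoidHom.comp
        ((DistribMulAction.toAddAut ((V →ₗ[F] V)ˣ) V).comp ρ.asGroupHom)) h (Multiplicative.ofAdd v)
      = Multiplicative.ofAdd (ρ h v) := rfl

theorem pow_formula {F : Type*} [Field F] {V : Type*} [AddCommGroup V] [Module F V]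
    {G : Type*} [Group G] (ρ : Representation F G V) (g : G) (v : V) (n : ℕ) :
    ((⟨Multiplicative.ofAdd v, g⟩ : Multiplicative V ⋊[(MulAutMultiplicative V).symm.toMonoidHom.comp
        ((DistribMulAction.toAddAut ((V →ₗ[F] V)ˣ) V).comp ρ.asGroupHom)] G)) ^ n
      = ⟨Multiplicative.ofAdd ((∑ i ∈ Finset.range n, (ρ g) ^ i) v), g ^ n⟩ := by
  induction n with
  | zero =>
    rw [pow_zero]
    apply SemidirectProduct.ext
    · show (1 : Multiplicative V) = Multiplicative.ofAdd ((∑ i ∈ Finset.range 0, (ρ g) ^ i) v)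
      simp
    · show (1 : G) = g ^ 0
      simp
  | succ n ih =>
    rw [pow_succ, ih]
    apply SemidirectProduct.ext
    · rw [SemidirectProduct.mul_left]
      show Multiplicative.ofAdd ((∑ i ∈ Finset.range n, (ρ g) ^ i) v) *
          ((MulAutMultiplicative V).symm.toMonoidHom.comp
            ((DistribMulAction.toAddAut ((V →ₗ[F] V)ˣ) V).comp ρ.asGroupHom)) (g ^ n) (Multiplicative.ofAdd v) = _
      rw [phi_apply, ← ofAdd_add, map_pow, Finset.sum_range_succ, LinearMap.add_apply]
    · rw [SemidirectProduct.mul_right, pow_succ]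

theorem inl_pow_formula {F : Type*} [Field F] {V : Type*} [AddCommGroup V] [Module F V]
    {G : Type*} [Group G] (ρ : Representation F G V) (w : V) (j : ℕ) :
    ((⟨Multiplicative.ofAdd w, 1⟩ : Multiplicative V ⋊[(MulAutMultiplicative V).symm.toMonoidHom.comp
        ((DistribMulAction.toAddAut ((V →ₗ[F] V)ˣ) V).comp ρ.asGroupHom)] G)) ^ j
      = ⟨Multiplicative.ofAdd (j • w), 1⟩ := by
  have h : (⟨Multiplicative.ofAdd w, 1⟩ : Multiplicative V ⋊[(MulAutMultiplicative V).symm.toMonoidHom.comp
        ((DistribMulAction.toAddAut ((V →ₗ[F] V)ˣ) V).comp ρ.asGroupHom)] G)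
      = SemidirectProduct.inl (Multiplicative.ofAdd w) := rfl
  rw [h, ← map_pow, ← ofAdd_nsmul]
  rfl

/-- Let F be a field of characteristic p > 0, V a non-zero finite-dimensional F-vector space, G a finite group and ρ a representation of G on V; form the semidirect product V ⋊ G. For g ∈ G of order k, the coset Vg contains an element of order pk if and only if the minimal polynomial of ρ(g) does not divide 1 + X + ⋯ + X^(k−1). -/
theorem result {F : Type*} [Field F] (p : ℕ) [Fact p.Prime] [CharP F p] {V : Type*} [AddCommGroup V] [Module F V] [FiniteDimensional F V] [Nontrivial V]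
    {G : Type*} [Group G] [Finite G] (ρ : Representation F G V) (g : G) :
    (∃ x : Multiplicative V ⋊[(MulAutMultiplicative V).symm.toMonoidHom.comp
        ((DistribMulAction.toAddAut ((V →ₗ[F] V)ˣ) V).comp ρ.asGroupHom)] G,
        x.right = g ∧ orderOf x = p * orderOf g) ↔
      ¬ (minpoly F (ρ g) ∣ ∑ i ∈ Finset.range (orderOf g), (Polynomial.X : Polynomial F) ^ i) := by
  classical
  have hpp : p.Prime := Fact.out
  have hk : 0 < orderOf g := orderOf_pos g
  set N : V →ₗ[F] V := ∑ i ∈ Finset.range (orderOf g), (ρ g) ^ i with hN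
  have haeval : Polynomial.aeval (ρ g) (∑ i ∈ Finset.range (orderOf g), (Polynomial.X : Polynomial F) ^ i) = N := by
    rw [map_sum]
    simp [hN]
  rw [minpoly.dvd_iff, haeval]
  have hxk : ∀ v : V, ((⟨Multiplicative.ofAdd v, g⟩ : Multiplicative V ⋊[(MulAutMultiplicative V).symm.toMonoidHom.comp
        ((DistribMulAction.toAddAut ((V →ₗ[F] V)ˣ) V).comp ρ.asGroupHom)] G)) ^ orderOf g
      = ⟨Multiplicative.ofAdd (N v), 1⟩ := by
    intro v
    rw [pow_formula, pow_orderOf_eq_one]
  constructor
  · rintro ⟨x, hxg, hxord⟩ hN0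
    have hx : x = ⟨Multiplicative.ofAdd (Multiplicative.toAdd x.left), g⟩ := by
      apply SemidirectProduct.ext
      · rfl
      · exact hxg
    have h1 : x ^ orderOf g = 1 := by
      rw [hx, hxk, hN0]
      rfl
    have h2 := orderOf_dvd_of_pow_eq_one h1
    rw [hxord] at h2
    have h3 := Nat.le_of_dvd hk h2
    have h4 : 2 * orderOf g ≤ p * orderOf g := Nat.mul_le_mul_right _ hpp.two_le
    omega
  · intro hN0
    obtain ⟨v, hv⟩ : ∃ v, N v ≠ 0 := by
      by_contra hcon
      push Not at hcon
      exact hN0 (LinearMap.ext hcon)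
    refine ⟨⟨Multiplicative.ofAdd v, g⟩, rfl, ?_⟩
    apply Nat.dvd_antisymm
    · apply orderOf_dvd_of_pow_eq_one
      rw [mul_comm, pow_mul, hxk, inl_pow_formula]
      have : p • N v = 0 := by
        rw [← Nat.cast_smul_eq_nsmul F, CharP.cast_eq_zero F p, zero_smul]
      rw [this]
      rfl
    · set x : Multiplicative V ⋊[(MulAutMultiplicative V).symm.toMonoidHom.comp
        ((DistribMulAction.toAddAut ((V →ₗ[F] V)ˣ) V).comp ρ.asGroupHom)] G := ⟨Multiplicative.ofAdd v, g⟩ with hx
      have h1 : x ^ orderOf x = 1 := pow_orderOf_eq_one x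
      have h2 : g ^ orderOf x = 1 := by
        have := congrArg SemidirectProduct.right h1
        rw [hx, pow_formula] at this
        exact this
      obtain ⟨j, hj⟩ := orderOf_dvd_of_pow_eq_one h2
      rw [hj, pow_mul, hx, hxk, inl_pow_formula] at h1
      have h3 : j • N v = 0 := by
        have := congrArg SemidirectProduct.left h1
        have h3' : Multiplicative.ofAdd (j • N v) = 1 := this
        exact ofAdd_eq_one.mp h3'
      rw [← Nat.cast_smul_eq_nsmul F, smul_eq_zero] at h3
      have h4 : (j : F) = 0 := by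
        rcases h3 with h3 | h3
        · exact h3
        · exact absurd h3 hv
      have h5 : p ∣ j := (CharP.cast_eq_zero_iff F p j).mp h4
      rw [hj, mul_comm]
      exact Nat.mul_dvd_mul_left _ h5

end Cfsg.Agent.S2516
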