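import Mathlib
import Cfsg.Statements.S2543
import Cfsg.Agent.S0498
import Cfsg.Agent.S1013
import Cfsg.Agent.S1897
import Cfsg.Agent.Lib.Helper20.PrimeDegNorm
import Cfsg.Agent.Lib.Helper20.PrimeDegGalois
import Cfsg.Agent.Lib.Helper8.SimpleAux
import Cfsg.Agent.Lib.Helper20.L211Data

set_option autoImplicit false
open scoped Pointwise
open Cfsg

namespace Cfsg.Agent.S2543

open Cfsg.Agent.S1897 (tableSubgroup mem_tableSubgroup card_tableSubgroup)
open Cfsg.Agent.Lib.Helper20.L211Data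

/-! ## The permutations -/

/-- The ambient group: the permutations of the integers modulo eleven. -/
abbrev Γ : Type := Equiv.Perm (Fin 11)

/-- The automorphisms fixing the point zero, as permutations. -/
def sS (i : Fin 60) : Γ :=
  ⟨fS i, fS (iS i), fun x => by rw [fS_mul, mS_inv', fS_one],
    fun x => by rw [fS_mul, mS_inv, fS_one]⟩

/-- The automorphisms fixing the block of squares, as permutations. -/
def kK (i : Fin 60) : Γ :=
  ⟨fK i, fK (iK i), fun x => by rw [fK_mul, mK_inv', fK_one],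
    fun x => by rw [fK_mul, mK_inv, fK_one]⟩

/-- The translations. -/
def pP (k : Fin 11) : Γ :=
  ⟨fun x => x + k, fun x => x - k, fun x => add_sub_cancel_right x k,
    fun x => sub_add_cancel x k⟩

theorem sS_mul (i j : Fin 60) : sS i * sS j = sS (mS i j) := Equiv.ext fun x => fS_mul i j x

theorem sS_one : sS 0 = 1 := Equiv.ext fun x => fS_one x

theorem sS_inj : Function.Injective sS := fun i j h =>
  fS_inj i j fun x => DFunLike.congr_fun h x

theorem kK_mul (i j : Fin 60) : kK i * kK j = kK (mK i j) := Equiv.ext fun x => fK_mul i j x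

theorem kK_one : kK 0 = 1 := Equiv.ext fun x => fK_one x

theorem kK_inj : Function.Injective kK := fun i j h =>
  fK_inj i j fun x => DFunLike.congr_fun h x

theorem pP_mul (k l : Fin 11) : pP k * pP l = pP (k + l) := Equiv.ext fun x => by
  show x + l + k = x + (k + l)
  rw [add_assoc, add_comm l k]

theorem pP_one : pP 0 = 1 := Equiv.ext fun x => add_zero x

theorem pP_inj : Function.Injective pP := fun k l h => by
  have h1 : (0 : Fin 11) + k = 0 + l := DFunLike.congr_fun h 0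
  rwa [zero_add, zero_add] at h1

theorem pP_inv (k : Fin 11) : (pP k)⁻¹ = pP (-k) :=
  Equiv.ext fun x => show x - k = x + -k from sub_eq_add_neg x k

theorem sS_inv (i : Fin 60) : (sS i)⁻¹ = sS (iS i) := by
  apply inv_eq_of_mul_eq_one_right
  rw [sS_mul, mS_inv, sS_one]

theorem fin11_neg : ∀ k : Fin 11, k + -k = 0 := by decide

/-- The stabiliser of the point zero. -/
def SS : Subgroup Γ := tableSubgroup sS mS iS 0 sS_mul sS_one mS_inv

/-- The stabiliser of the block of squares. -/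
def KK : Subgroup Γ := tableSubgroup kK mK iK 0 kK_mul kK_one mK_inv

/-- The group of translations. -/
def PP : Subgroup Γ := tableSubgroup pP (· + ·) (fun k => -k) 0 pP_mul pP_one fin11_neg

theorem card_SS : Nat.card SS = 60 := card_tableSubgroup _ _ _ _ _ _ _ sS_inj

theorem card_KK : Nat.card KK = 60 := card_tableSubgroup _ _ _ _ _ _ _ kK_inj

theorem card_PP : Nat.card PP = 11 := card_tableSubgroup _ _ _ _ _ _ _ pP_inj

theorem pP_sS (k : Fin 11) (i : Fin 60) : pP k * sS i = sS (jf k i) * pP (kf k i) :=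
  Equiv.ext fun x => perm_tab k i x

/-- The automorphism group of the biplane. -/
def G0 : Subgroup Γ where
  carrier := {g | ∃ i k, g = sS i * pP k}
  mul_mem' := by
    rintro _ _ ⟨i, k, rfl⟩ ⟨i', k', rfl⟩
    refine ⟨mS i (jf k i'), kf k i' + k', ?_⟩
    calc sS i * pP k * (sS i' * pP k') = sS i * (pP k * sS i') * pP k' := by group
      _ = sS i * (sS (jf k i') * pP (kf k i')) * pP k' := by rw [pP_sS]
      _ = (sS i * sS (jf k i')) * (pP (kf k i') * pP k') := by group
      _ = sS (mS i (jf k i')) * pP (kf k i' + k') := by rw [sS_mul, pP_mul]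
  one_mem' := ⟨0, 0, by rw [sS_one, pP_one, one_mul]⟩
  inv_mem' := by
    rintro _ ⟨i, k, rfl⟩
    refine ⟨jf (-k) (iS i), kf (-k) (iS i), ?_⟩
    rw [mul_inv_rev, ← pP_sS, pP_inv, sS_inv]

theorem SS_le : SS ≤ G0 := by
  rintro _ ⟨i, rfl⟩
  exact ⟨i, 0, by rw [pP_one, mul_one]⟩

theorem PP_le : PP ≤ G0 := by
  rintro _ ⟨k, rfl⟩
  exact ⟨0, k, by rw [sS_one, one_mul]⟩

theorem KK_le : KK ≤ G0 := by
  rintro _ ⟨i, rfl⟩
  exact ⟨aK i, bK i, Equiv.ext fun x => fK_tab i x⟩

theorem card_G0 : Nat.card G0 = 660 := by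
  have hS := card_SS
  have hP := card_PP
  let f : Fin 60 × Fin 11 → G0 := fun x => ⟨sS x.1 * pP x.2, x.1, x.2, rfl⟩
  have hf : Function.Surjective f := by
    rintro ⟨_, i, k, rfl⟩
    exact ⟨(i, k), rfl⟩
  have hle : Nat.card G0 ≤ 660 := by
    have h := Nat.card_le_card_of_surjective f hf
    rw [Nat.card_prod, Nat.card_fin, Nat.card_fin] at h
    exact h
  have hd1 : 60 ∣ Nat.card G0 := by
    rw [← hS]; exact Subgroup.card_dvd_of_le SS_le
  have hd2 : 11 ∣ Nat.card G0 := by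
    have h := Subgroup.card_dvd_of_le PP_le
    rw [hP] at h
    exact h
  have hpos : 0 < Nat.card G0 := Nat.card_pos
  have h660 : 60 * 11 ∣ Nat.card G0 :=
    Nat.Coprime.mul_dvd_of_dvd_of_dvd (by norm_num) hd1 hd2
  obtain ⟨c, hc⟩ := h660
  rcases c with _ | _ | c <;> omega

instance G0_trans : MulAction.IsPretransitive G0 (Fin 11) := by
  constructor
  intro a b
  refine ⟨⟨pP (b - a), PP_le ⟨b - a, rfl⟩⟩, ?_⟩
  show a + (b - a) = b
  exact add_sub_cancel a b

theorem simple_G0 : IsSimpleGroup G0 := by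
  have : Fact (Nat.Prime 11) := ⟨by norm_num⟩
  have hα : Fintype.card (Fin 11) = 11 := Fintype.card_fin 11
  have hcG := card_G0
  obtain ⟨P⟩ : Nonempty (Sylow 11 ↥G0) := inferInstance
  have hNd := Cfsg.Agent.Lib.Helper20.PrimeDeg.card_normalizer_dvd hα G0 P
  have hmul := Cfsg.Agent.Lib.Helper8.card_sylow_mul_card_normalizer P
  have hmod : Nat.card (Sylow 11 ↥G0) % 11 = 1 := Cfsg.Agent.Lib.Helper8.card_sylow_mod
  have hcP : Nat.card ↥(P : Subgroup ↥G0) = 11 :=
    Cfsg.Agent.Lib.Helper20.PrimeDeg.card_sylow hα G0 P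
  rw [hcG] at hmul
  have key : Nat.card (Subgroup.normalizer ((P : Subgroup ↥G0) : Set ↥G0)) = 55 ∧
      Nat.card (Sylow 11 ↥G0) = 12 := by
    have hNd' : Nat.card (Subgroup.normalizer ((P : Subgroup ↥G0) : Set ↥G0)) ∣ 110 := by
      simpa using hNd
    generalize Nat.card (Subgroup.normalizer ((P : Subgroup ↥G0) : Set ↥G0)) = N at hNd' hmul
    generalize Nat.card (Sylow 11 ↥G0) = n at hmul hmod
    have hNle : N ≤ 110 := Nat.le_of_dvd (by norm_num) hNd'
    interval_cases N <;> omega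
  have hn : 1 < Nat.card (Sylow 11 ↥G0) := by rw [key.2]; norm_num
  have ht : (((P : Subgroup ↥G0).subgroupOf
      (Subgroup.normalizer ((P : Subgroup ↥G0) : Set ↥G0))).index).Prime := by
    have h1 := Subgroup.card_mul_index ((P : Subgroup ↥G0).subgroupOf
      (Subgroup.normalizer ((P : Subgroup ↥G0) : Set ↥G0)))
    rw [key.1, Nat.card_congr (Subgroup.subgroupOfEquivOfLe Subgroup.le_normalizer).toEquiv,
      hcP] at h1
    have h2 : ((P : Subgroup ↥G0).subgroupOf
      (Subgroup.normalizer ((P : Subgroup ↥G0) : Set ↥G0))).index = 5 := by omega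
    rw [h2]; norm_num
  exact Cfsg.Agent.S1013.result hα G0 P hn ht

/-! ## The two stabilisers are alternating groups -/

theorem table_iso_A5 {Δ : Type*} [Group Δ] (t : Fin 60 → Δ) (m : Fin 60 → Fin 60 → Fin 60)
    (iv : Fin 60 → Fin 60) (e : Fin 60) (hmul : ∀ i j, t i * t j = t (m i j)) (hone : t e = 1)
    (hinv : ∀ i, m i (iv i) = e) (hinv' : ∀ i, m (iv i) i = e) (hinj : Function.Injective t)
    (φ : Fin 60 → Fin 5 → Fin 5) (hφ : ∀ i j x, φ i (φ j x) = φ (m i j) x)
    (hφ1 : ∀ x, φ e x = x) (hφinj : ∀ i j, (∀ x, φ i x = φ j x) → i = j) :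
    Nonempty (tableSubgroup t m iv e hmul hone hinv ≃* alternatingGroup (Fin 5)) := by
  classical
  set H := tableSubgroup t m iv e hmul hone hinv with hH
  let π : Fin 60 → Equiv.Perm (Fin 5) := fun i =>
    ⟨φ i, φ (iv i), fun x => by rw [hφ, hinv', hφ1], fun x => by rw [hφ, hinv, hφ1]⟩
  have hπmul : ∀ i j, π i * π j = π (m i j) := fun i j => Equiv.ext fun x => hφ i j x
  have hπone : π e = 1 := Equiv.ext fun x => hφ1 x
  have hπinj : Function.Injective π := fun i j h =>
    hφinj i j fun x => DFunLike.congr_fun h x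
  have hidx : ∀ x : H, ∃ i, t i = (x : Δ) := fun x => x.2
  choose idx hidxs using hidx
  have hidx_mul : ∀ x y : H, idx (x * y) = m (idx x) (idx y) := by
    intro x y
    apply hinj
    exact (hidxs (x * y)).trans
      ((congrArg₂ (· * ·) (hidxs x) (hidxs y)).symm.trans (hmul _ _))
  have hidx_one : idx 1 = e := by
    apply hinj
    exact (hidxs 1).trans hone.symm
  let f : H →* Equiv.Perm (Fin 5) :=
    { toFun := fun x => π (idx x)
      map_one' := by
        show π (idx 1) = 1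
        rw [hidx_one, hπone]
      map_mul' := fun x y => by
        show π (idx (x * y)) = π (idx x) * π (idx y)
        rw [hidx_mul, hπmul] }
  have hf : Function.Injective f := by
    intro x y hxy
    have h1 : idx x = idx y := hπinj hxy
    apply Subtype.ext
    rw [← hidxs x, ← hidxs y, h1]
  have hcH : Nat.card H = 60 := card_tableSubgroup t m iv e hmul hone hinv hinj
  have hcr : Nat.card f.range = 60 := by
    rw [← hcH]; exact (Nat.card_congr (MonoidHom.ofInjective hf).toEquiv).symm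
  have hindex : f.range.index = 2 := by
    have h := Subgroup.card_mul_index f.range
    rw [hcr, Nat.card_perm, Nat.card_fin] at h
    have h5 : Nat.factorial 5 = 120 := rfl
    omega
  have hr := Equiv.Perm.eq_alternatingGroup_of_index_eq_two hindex
  exact ⟨(MonoidHom.ofInjective hf).trans (MulEquiv.subgroupCongr hr)⟩

theorem SS_iso : Nonempty (SS ≃* alternatingGroup (Fin 5)) :=
  table_iso_A5 sS mS iS 0 sS_mul sS_one mS_inv mS_inv' sS_inj pS pS_mul pS_one pS_inj

theorem KK_iso : Nonempty (KK ≃* alternatingGroup (Fin 5)) :=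
  table_iso_A5 kK mK iK 0 kK_mul kK_one mK_inv mK_inv' kK_inj pK pK_mul pK_one pK_inj

theorem card_A5 : Nat.card (alternatingGroup (Fin 5)) = 60 := by
  rw [nat_card_alternatingGroup, Nat.card_fin]
  rfl

/-! ## Conjugation -/

theorem mem_conj_iff {G : Type*} [Group G] (g x : G) (L : Subgroup G) :
    x ∈ MulAut.conj g • L ↔ g⁻¹ * x * g ∈ L := by
  rw [Subgroup.mem_pointwise_smul_iff_inv_smul_mem, ← map_inv, MulAut.smul_def,
    MulAut.conj_apply, inv_inv]

theorem card_conj {G : Type*} [Group G] (g : G) (L : Subgroup G) :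
    Nat.card (MulAut.conj g • L : Subgroup G) = Nat.card L :=
  (Nat.card_congr (Subgroup.equivSMul (MulAut.conj g) L).toEquiv).symm

theorem conj_mem_conj {G : Type*} [Group G] (a : G) {x : G} {L : Subgroup G} (h : x ∈ L) :
    a * x * a⁻¹ ∈ MulAut.conj a • L := by
  rw [mem_conj_iff]
  have h1 : a⁻¹ * (a * x * a⁻¹) * a = x := by group
  rw [h1]; exact h

theorem map_conj {G H : Type*} [Group G] [Group H] (f : G →* H) (g : G) (L : Subgroup G) :
    (MulAut.conj g • L).map f = MulAut.conj (f g) • L.map f := by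
  ext x
  rw [mem_conj_iff, Subgroup.mem_map, Subgroup.mem_map]
  constructor
  · rintro ⟨y, hy, rfl⟩
    rw [mem_conj_iff] at hy
    exact ⟨g⁻¹ * y * g, hy, by simp⟩
  · rintro ⟨y, hy, hxy⟩
    refine ⟨g * y * g⁻¹, conj_mem_conj g hy, ?_⟩
    rw [map_mul, map_mul, map_inv, hxy]; group

theorem conj_le_G0 {g : Γ} (hg : g ∈ G0) {L : Subgroup Γ} (hL : L ≤ G0) :
    MulAut.conj g • L ≤ G0 := by
  intro x hx
  rw [mem_conj_iff] at hx
  have h6 := G0.mul_mem (G0.mul_mem hg (hL hx)) (G0.inv_mem hg)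
  have h7 : g * (g⁻¹ * x * g) * g⁻¹ = x := by group
  rwa [h7] at h6

/-! ## Subgroups of order sixty -/

theorem perm_inv_apply (σ : Γ) (x : Fin 11) : σ⁻¹ (σ x) = x :=
  Equiv.Perm.inv_eq_iff_eq.mpr rfl

theorem le_SS_of_fix (L : Subgroup Γ) (hL : L ≤ G0) (h : ∀ l ∈ L, l 0 = 0) : L ≤ SS := by
  intro l hl
  obtain ⟨i, k, rfl⟩ := hL hl
  have h1 : fS i (0 + k) = 0 := h _ hl
  have h2 : sS i (0 + k) = sS i 0 := h1.trans (fS_zero i).symm
  have h3 : (0 : Fin 11) + k = 0 := (sS i).injective h2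
  have h4 : k = 0 := by rwa [zero_add] at h3
  exact ⟨i, by rw [h4, pP_one, mul_one]⟩

theorem le_KK_of_pres (L : Subgroup Γ) (hL : L ≤ G0)
    (h : ∀ l ∈ L, ∀ x, o1 x = true → o1 (l x) = true) : L ≤ KK := by
  intro l hl
  obtain ⟨i, k, rfl⟩ := hL hl
  obtain ⟨j, hj⟩ := stab_o1 i k (fun x hx => h _ hl x hx)
  exact ⟨j, Equiv.ext fun x => hj x⟩

theorem no_pres_o2 (L : Subgroup Γ) (hL : L ≤ G0) (hc : Nat.card L = 60)
    (h : ∀ l ∈ L, ∀ x, o2 x = true → o2 (l x) = true) : False := by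
  have : Fact (Nat.Prime 3) := ⟨by norm_num⟩
  obtain ⟨z, hz⟩ := exists_prime_orderOf_dvd_card' (G := L) 3 (by rw [hc]; norm_num)
  have hz3 : (z : Γ) * (z : Γ) * (z : Γ) = 1 := by
    rw [← pow_three', ← Subgroup.coe_pow, ← hz, pow_orderOf_eq_one, Subgroup.coe_one]
  obtain ⟨i, k, hik⟩ := hL z.2
  have h1 : ∀ x : Fin 11, fS i (fS i (fS i (x + k) + k) + k) = x := by
    intro x
    have h0 := DFunLike.congr_fun hz3 x
    rw [hik] at h0
    exact h0
  have h2 : ∀ x : Fin 11, o2 x = true → o2 (fS i (x + k)) = true := by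
    intro x hx
    have h0 := h (z : Γ) z.2 x hx
    rw [hik] at h0
    exact h0
  have h3 := no3 i k h1 h2
  have h4 : (z : Γ) = 1 := by
    rw [hik]; exact Equiv.ext fun x => h3 x
  have h5 : z = 1 := Subtype.ext h4
  rw [h5, orderOf_one] at hz
  norm_num at hz

theorem classify' (L : Subgroup Γ) (hL : L ≤ G0) (hc : Nat.card L = 60) (hx : sS 15 ∈ L) :
    L = SS ∨ L = KK := by
  classical
  set Ω : Fin 11 → Prop := fun a => ∃ l ∈ L, l 0 = a with hΩ
  have Ωinv : ∀ l ∈ L, ∀ a, Ω a → Ω (l a) := by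
    rintro l hl a ⟨l', hl', rfl⟩
    exact ⟨l * l', L.mul_mem hl hl', rfl⟩
  have Ωinv' : ∀ l ∈ L, ∀ a, Ω (l a) → Ω a := by
    intro l hl a h
    have h1 := Ωinv l⁻¹ (L.inv_mem hl) _ h
    rwa [perm_inv_apply] at h1
  have Ω0 : Ω 0 := ⟨1, L.one_mem, rfl⟩
  have hpow : ∀ n : ℕ, ∀ a, Ω a → Ω ((fS 15)^[n] a) := by
    intro n a ha
    have h1 : (sS 15 ^ n) a = (fS 15)^[n] a := by
      rw [← Equiv.Perm.iterate_eq_pow]; rfl
    rw [← h1]
    exact Ωinv _ (L.pow_mem hx n) a ha
  have ΩO1 : (∃ a, o1 a = true ∧ Ω a) → ∀ b, o1 b = true → Ω b := by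
    rintro ⟨a, ha, hΩa⟩ b hb
    obtain ⟨n, hn⟩ := orb1 a b ha hb
    rw [← hn]
    exact hpow n a hΩa
  have ΩO2 : (∃ a, o2 a = true ∧ Ω a) → ∀ b, o2 b = true → Ω b := by
    rintro ⟨a, ha, hΩa⟩ b hb
    obtain ⟨n, hn⟩ := orb2 a b ha hb
    rw [← hn]
    exact hpow n a hΩa
  by_cases h1 : ∃ a, o1 a = true ∧ Ω a
  · by_cases h2 : ∃ a, o2 a = true ∧ Ω a
    · exfalso
      have hall : ∀ a, Ω a := by
        intro a
        rcases tri a with h0 | ha | ha
        · rw [h0]; exact Ω0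
        · exact ΩO1 h1 a ha
        · exact ΩO2 h2 a ha
      have htr : MulAction.IsPretransitive L (Fin 11) := by
        constructor
        intro a b
        obtain ⟨la, hla, rfl⟩ := hall a
        obtain ⟨lb, hlb, rfl⟩ := hall b
        refine ⟨⟨lb * la⁻¹, L.mul_mem hlb (L.inv_mem hla)⟩, ?_⟩
        show (lb * la⁻¹) (la 0) = lb 0
        rw [Equiv.Perm.mul_apply, perm_inv_apply]
      have h11 := Cfsg.Agent.Lib.Helper20.PrimeDeg.dvd_card_of_transitive (M := L) (0 : Fin 11)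
      rw [hc, Fintype.card_fin] at h11
      norm_num at h11
    · exfalso
      apply no_pres_o2 L hL hc
      intro l hl x hx2
      rcases tri (l x) with h0 | h3 | h3
      · exact absurd ⟨x, hx2, Ωinv' l hl x (by rw [h0]; exact Ω0)⟩ h2
      · exact absurd ⟨x, hx2, Ωinv' l hl x (ΩO1 h1 _ h3)⟩ h2
      · exact h3
  · by_cases h2 : ∃ a, o2 a = true ∧ Ω a
    · right
      apply Subgroup.eq_of_le_of_card_ge (le_KK_of_pres L hL ?_)
        (le_of_eq (by rw [hc, card_KK]))
      intro l hl x hx1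
      rcases tri (l x) with h0 | h3 | h3
      · exact absurd ⟨x, hx1, Ωinv' l hl x (by rw [h0]; exact Ω0)⟩ h1
      · exact h3
      · exact absurd ⟨x, hx1, Ωinv' l hl x (ΩO2 h2 _ h3)⟩ h1
    · left
      apply Subgroup.eq_of_le_of_card_ge (le_SS_of_fix L hL ?_)
        (le_of_eq (by rw [hc, card_SS]))
      intro l hl
      rcases tri (l 0) with h0 | h3 | h3
      · exact h0
      · exact absurd ⟨l 0, h3, l, hl, rfl⟩ h1
      · exact absurd ⟨l 0, h3, l, hl, rfl⟩ h2

theorem classify (L : Subgroup Γ) (hL : L ≤ G0) (hc : Nat.card L = 60) :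
    ∃ g ∈ G0, MulAut.conj g • L = SS ∨ MulAut.conj g • L = KK := by
  have : Fact (Nat.Prime 5) := ⟨by norm_num⟩
  obtain ⟨y, hy⟩ := exists_prime_orderOf_dvd_card' (G := L) 5 (by rw [hc]; norm_num)
  have hy5 : (y : Γ) ^ 5 = 1 := by
    rw [← Subgroup.coe_pow, ← hy, pow_orderOf_eq_one, Subgroup.coe_one]
  have hy1 : (y : Γ) ≠ 1 := by
    intro h
    have h5 : y = 1 := Subtype.ext h
    rw [h5, orderOf_one] at hy
    norm_num at hy
  obtain ⟨i, k, hik⟩ := hL y.2
  have hfun : ∀ n : ℕ, ∀ x : Fin 11, ((y : Γ) ^ n) x = (fun z => fS i (z + k))^[n] x := by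
    intro n x
    rw [← Equiv.Perm.iterate_eq_pow, hik]
    rfl
  have h1 : ∀ x : Fin 11, (fun z => fS i (z + k))^[5] x = x := by
    intro x
    have h0 := hfun 5 x
    rw [hy5] at h0
    exact h0.symm
  have h2 : ∃ x : Fin 11, fS i (x + k) ≠ x := by
    by_contra hne
    push Not at hne
    exact hy1 (by rw [hik]; exact Equiv.ext fun x => hne x)
  have h3 := ord5 i k h1 h2
  set c : Γ := sS (ci i k) * pP (ck i k) with hcdef
  have hcG : c ∈ G0 := ⟨ci i k, ck i k, rfl⟩
  have h4 : c * (y : Γ) ^ (ce i k).val = sS 15 * c := by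
    apply Equiv.ext
    intro x
    show fS (ci i k) (((y : Γ) ^ (ce i k).val) x + ck i k) = fS 15 (fS (ci i k) (x + ck i k))
    rw [hfun]
    exact h3 x
  have hx : sS 15 ∈ MulAut.conj c • L := by
    rw [mem_conj_iff]
    have h5 : c⁻¹ * sS 15 * c = (y : Γ) ^ (ce i k).val := by
      rw [mul_assoc, ← h4, inv_mul_cancel_left]
    rw [h5]
    exact L.pow_mem y.2 _
  have hc' : Nat.card (MulAut.conj c • L : Subgroup Γ) = 60 := by rw [card_conj, hc]
  exact ⟨c, hcG, classify' _ (conj_le_G0 hcG hL) hc' hx⟩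

theorem isoA5 (L : Subgroup Γ) (hL : L ≤ G0) (hc : Nat.card L = 60) :
    Nonempty (L ≃* alternatingGroup (Fin 5)) := by
  obtain ⟨g, -, h | h⟩ := classify L hL hc
  · obtain ⟨e⟩ := SS_iso
    exact ⟨((Subgroup.equivSMul (MulAut.conj g) L).trans (MulEquiv.subgroupCongr h)).trans e⟩
  · obtain ⟨e⟩ := KK_iso
    exact ⟨((Subgroup.equivSMul (MulAut.conj g) L).trans (MulEquiv.subgroupCongr h)).trans e⟩

/-! ## The two classes -/

theorem fix_of_mem_conj_SS (a x : Γ) (h : x ∈ MulAut.conj a • SS) : x (a 0) = a 0 := by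
  rw [mem_conj_iff] at h
  obtain ⟨j, hj⟩ := h
  have h1 : (a⁻¹ * x * a) 0 = 0 := by rw [← hj]; exact fS_zero j
  have h2 : a⁻¹ (x (a 0)) = 0 := h1
  rw [Equiv.Perm.inv_eq_iff_eq] at h2
  exact h2

theorem pres_of_mem_conj_KK (a x : Γ) (h : x ∈ MulAut.conj a • KK) :
    ∀ y, o1 y = true → o1 (a⁻¹ (x (a y))) = true := by
  rw [mem_conj_iff] at h
  obtain ⟨j, hj⟩ := h
  intro y hy
  have h1 : a⁻¹ (x (a y)) = fK j y := (DFunLike.congr_fun hj y).symm
  rw [h1]; exact fK_o1 j y hy

theorem SS_ne_KK (a b : Γ) : MulAut.conj a • SS ≠ MulAut.conj b • KK := by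
  intro h
  obtain ⟨i, hi⟩ := fK_nofix (b⁻¹ (a 0))
  have h1 : b * kK i * b⁻¹ ∈ MulAut.conj a • SS := by
    rw [h]; exact conj_mem_conj b ⟨i, rfl⟩
  have h2 := fix_of_mem_conj_SS a _ h1
  have h3 : b (kK i (b⁻¹ (a 0))) = a 0 := h2
  apply hi
  have h4 : kK i (b⁻¹ (a 0)) = b⁻¹ (a 0) := by
    rw [Equiv.Perm.eq_inv_iff_eq]; exact h3
  exact h4

theorem fam_inj_S (k k' : Fin 11)
    (h : MulAut.conj (pP k) • SS = MulAut.conj (pP k') • SS) : k = k' := by
  apply fS_fix k k'
  intro i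
  have h1 : pP k' * sS i * (pP k')⁻¹ ∈ MulAut.conj (pP k) • SS := by
    rw [h]; exact conj_mem_conj _ ⟨i, rfl⟩
  exact fix_of_mem_conj_SS _ _ h1

theorem fam_inj_K (k k' : Fin 11)
    (h : MulAut.conj (pP k) • KK = MulAut.conj (pP k') • KK) : k = k' := by
  apply fK_norm k k'
  intro i x hx
  have h1 : pP k' * kK i * (pP k')⁻¹ ∈ MulAut.conj (pP k) • KK := by
    rw [h]; exact conj_mem_conj _ ⟨i, rfl⟩
  exact pres_of_mem_conj_KK _ _ h1 x hx

theorem fam_surj (L : Subgroup Γ) (hL : L ≤ G0) (hc : Nat.card L = 60) :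
    (∃ k, L = MulAut.conj (pP k) • SS) ∨ (∃ k, L = MulAut.conj (pP k) • KK) := by
  obtain ⟨g, hg, h | h⟩ := classify L hL hc
  · left
    have h1 : L = MulAut.conj g⁻¹ • SS := by
      rw [← h, map_inv, inv_smul_smul]
    obtain ⟨i, k, hik⟩ := hg
    refine ⟨-k, ?_⟩
    rw [h1, hik, mul_inv_rev, map_mul, mul_smul,
      Subgroup.conj_smul_eq_self_of_mem (SS.inv_mem ⟨i, rfl⟩), pP_inv]
  · right
    have h1 : L = MulAut.conj g⁻¹ • KK := by
      rw [← h, map_inv, inv_smul_smul]
    obtain ⟨i, k, hik⟩ := G0.inv_mem hg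
    have h2 : sS i * pP k = pP (uT i k) * kK (wT i k) := Equiv.ext fun x => fact_PK i k x
    refine ⟨uT i k, ?_⟩
    rw [h1, hik, h2, map_mul, mul_smul, Subgroup.conj_smul_eq_self_of_mem (show kK (wT i k) ∈ KK from ⟨wT i k, rfl⟩)]

theorem count22 : Nat.card {L : Subgroup Γ // L ≤ G0 ∧ Nat.card L = 60} = 22 := by
  let ψ : Fin 11 ⊕ Fin 11 → {L : Subgroup Γ // L ≤ G0 ∧ Nat.card L = 60} := fun x =>
    match x with
    | Sum.inl k => ⟨MulAut.conj (pP k) • SS, conj_le_G0 (PP_le ⟨k, rfl⟩) SS_le,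
        by rw [card_conj, card_SS]⟩
    | Sum.inr k => ⟨MulAut.conj (pP k) • KK, conj_le_G0 (PP_le ⟨k, rfl⟩) KK_le,
        by rw [card_conj, card_KK]⟩
  have hψ : Function.Bijective ψ := by
    constructor
    · rintro (k | k) (k' | k') h
      · have h1 : MulAut.conj (pP k) • SS = MulAut.conj (pP k') • SS := congrArg Subtype.val h
        rw [fam_inj_S k k' h1]
      · have h1 : MulAut.conj (pP k) • SS = MulAut.conj (pP k') • KK := congrArg Subtype.val h
        exact absurd h1 (SS_ne_KK _ _)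
      · have h1 : MulAut.conj (pP k) • KK = MulAut.conj (pP k') • SS := congrArg Subtype.val h
        exact absurd h1.symm (SS_ne_KK _ _)
      · have h1 : MulAut.conj (pP k) • KK = MulAut.conj (pP k') • KK := congrArg Subtype.val h
        rw [fam_inj_K k k' h1]
    · rintro ⟨L, hL, hc⟩
      rcases fam_surj L hL hc with ⟨k, rfl⟩ | ⟨k, rfl⟩
      · exact ⟨Sum.inl k, rfl⟩
      · exact ⟨Sum.inr k, rfl⟩
  rw [← Nat.card_congr (Equiv.ofBijective ψ hψ), Nat.card_sum, Nat.card_fin]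

/-! ## The statement -/

/-- Let F be a field with 11 elements. PSL_2(F) has exactly 22 subgroups isomorphic to the alternating group A_5, and they form two conjugacy classes: there are two such subgroups that are not conjugate, and every such subgroup is conjugate to one of these two. -/
theorem result {F : Type*} [Field F] [Fintype F] (hF : Fintype.card F = 11) : Nat.card {H : Subgroup (Matrix.ProjectiveSpecialLinearGroup (Fin 2) F) // Nonempty (H ≃* alternatingGroup (Fin 5))} = 22 ∧ ∃ H K : Subgroup (Matrix.ProjectiveSpecialLinearGroup (Fin 2) F), Nonempty (H ≃* alternatingGroup (Fin 5)) ∧ Nonempty (K ≃* alternatingGroup (Fin 5)) ∧ (∀ g : Matrix.ProjectiveSpecialLinearGroup (Fin 2) F, MulAut.conj g • H ≠ K) ∧ ∀ L : Subgroup (Matrix.ProjectiveSpecialLinearGroup (Fin 2) F), Nonempty (L ≃* alternatingGroup (Fin 5)) → ∃ g : Matrix.ProjectiveSpecialLinearGroup (Fin 2) F, MulAut.conj g • L = H ∨ MulAut.conj g • L = K := by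
  classical
  have hsimple : IsSimpleGroup ↥G0 := simple_G0
  obtain ⟨e⟩ := Cfsg.Agent.S0498.result (G := ↥G0) 11 (Or.inl rfl)
    (by rw [card_G0]; norm_num) hF
  let ι : Matrix.ProjectiveSpecialLinearGroup (Fin 2) F →* Γ :=
    G0.subtype.comp e.symm.toMonoidHom
  have hι : Function.Injective ι := G0.subtype_injective.comp e.symm.injective
  have hrange : ι.range = G0 := by
    ext x
    constructor
    · rintro ⟨y, rfl⟩
      exact (e.symm y).2
    · intro hx
      exact ⟨e ⟨x, hx⟩, by simp [ι]⟩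
  have hmaple : ∀ H : Subgroup (Matrix.ProjectiveSpecialLinearGroup (Fin 2) F),
      H.map ι ≤ G0 := fun H => by
    rw [← hrange]; exact Subgroup.map_le_range ι H
  have hcardmap : ∀ H : Subgroup (Matrix.ProjectiveSpecialLinearGroup (Fin 2) F),
      Nat.card (H.map ι) = Nat.card H := fun H => Subgroup.card_map_of_injective hι
  have hA5card : ∀ H : Subgroup (Matrix.ProjectiveSpecialLinearGroup (Fin 2) F),
      Nonempty (H ≃* alternatingGroup (Fin 5)) → Nat.card H = 60 := by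
    rintro H ⟨e1⟩
    rw [Nat.card_congr e1.toEquiv, card_A5]
  have hmc : ∀ L : Subgroup Γ, L ≤ G0 → (L.comap ι).map ι = L := fun L hL =>
    Subgroup.map_comap_eq_self (by rw [hrange]; exact hL)
  have hcomap : ∀ L : Subgroup Γ, L ≤ G0 → Nat.card L = 60 →
      Nonempty (L.comap ι ≃* alternatingGroup (Fin 5)) := by
    intro L hL hc
    obtain ⟨e1⟩ := isoA5 L hL hc
    exact ⟨((Subgroup.equivMapOfInjective _ ι hι).trans
      (MulEquiv.subgroupCongr (hmc L hL))).trans e1⟩
  have key : Nat.card {H : Subgroup (Matrix.ProjectiveSpecialLinearGroup (Fin 2) F) //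
      Nonempty (H ≃* alternatingGroup (Fin 5))} = 22 := by
    rw [← count22]
    apply Nat.card_congr
    exact
      { toFun := fun H => ⟨H.1.map ι, hmaple H.1, by rw [hcardmap, hA5card H.1 H.2]⟩
        invFun := fun L => ⟨L.1.comap ι, hcomap L.1 L.2.1 L.2.2⟩
        left_inv := fun H => Subtype.ext (Subgroup.comap_map_eq_self_of_injective hι H.1)
        right_inv := fun L => Subtype.ext (hmc L.1 L.2.1) }
  refine ⟨key, SS.comap ι, KK.comap ι, hcomap SS SS_le card_SS, hcomap KK KK_le card_KK, ?_, ?_⟩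
  · intro g h
    have h1 := congrArg (Subgroup.map ι) h
    rw [map_conj, hmc SS SS_le, hmc KK KK_le] at h1
    exact SS_ne_KK (ι g) 1 (by rw [h1, map_one, one_smul])
  · intro L hLA5
    obtain ⟨γ, hγ, h⟩ := classify (L.map ι) (hmaple L) (by rw [hcardmap, hA5card L hLA5])
    rw [← hrange] at hγ
    obtain ⟨g, rfl⟩ := hγ
    refine ⟨g, ?_⟩
    rcases h with h | h
    · left
      apply Subgroup.map_injective hι
      rw [map_conj, h, hmc SS SS_le]
    · right
      apply Subgroup.map_injective hι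
      rw [map_conj, h, hmc KK KK_le]

end Cfsg.Agent.S2543
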