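import Mathlib
import Cfsg.Statements.S2556
import Cfsg.Agent.Lib.Helper15.SzBridge
import Cfsg.Agent.Lib.Helper7.SzAut
import Cfsg.Agent.Lib.Helper7.SzAut2

set_option autoImplicit false
set_option linter.unusedVariables false
open Cfsg

namespace Cfsg.Agent.S2556

open Cfsg.Agent.Lib.Helper4.Suz
open Cfsg.Agent.Lib.Helper7.SzAut Cfsg.Agent.Lib.Helper7.SzAut2

/-- Every Sylow 2-subgroup of the matrix Suzuki group is the explicit group on pairs. -/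
theorem exists_equiv_Sz {F : Type*} [Field F] [Fintype F] {m : ℕ} (hm : 1 ≤ m)
    (hF : Fintype.card F = 2 ^ (2 * m + 1)) (P : Sylow 2 ↥(Cfsg.Lie.Sz F (2 ^ (m + 1)))) :
    Nonempty (↥(P : Subgroup ↥(Cfsg.Lie.Sz F (2 ^ (m + 1)))) ≃* SH (dat hF)) := by
  classical
  have hI := dat_indep hm hF
  obtain ⟨E⟩ : Nonempty ((dat hF).G ≃* Cfsg.Lie.Sz F (2 ^ (m + 1))) :=
    ⟨Cfsg.Agent.Lib.Helper15.SzBridge.equiv hm hF⟩
  let f0 : SH (dat hF) →* ↥(dat hF).G :=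
    MonoidHom.mk' (fun x => ⟨(dat hF).u x.a x.b, (dat hF).u_mem x.a x.b⟩)
      (by
        intro x y
        apply Subtype.ext
        change (dat hF).u (x * y).a (x * y).b = (dat hF).u x.a x.b * (dat hF).u y.a y.b
        rw [(dat hF).u_mul hI]
        rfl)
  have hf0 : Function.Injective f0 := by
    intro x y h
    have h' := congrArg Subtype.val h
    obtain ⟨h1, h2⟩ := (dat hF).u_inj h'
    exact SH.ext h1 h2
  let f : SH (dat hF) →* ↥(Cfsg.Lie.Sz F (2 ^ (m + 1))) := E.toMonoidHom.comp f0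
  have hf : Function.Injective f := E.injective.comp hf0
  let e₀ : SH (dat hF) ≃* ↥f.range := MonoidHom.ofInjective hf
  have hcard0 : Nat.card ↥f.range = (2 ^ (2 * m + 1)) ^ 2 := by
    rw [← Nat.card_congr e₀.toEquiv, card_SH, hF]
  have hP0 : IsPGroup 2 ↥f.range :=
    IsPGroup.of_card (n := 2 * (2 * m + 1)) (by
      rw [hcard0, ← pow_mul]
      congr 1
      ring)
  obtain ⟨S₁, hS₁⟩ := hP0.exists_le_sylow
  have hS₁card : Nat.card ↥(S₁ : Subgroup ↥(Cfsg.Lie.Sz F (2 ^ (m + 1))))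
      ≤ (2 ^ (2 * m + 1)) ^ 2 := by
    obtain ⟨j, hj⟩ := IsPGroup.iff_card.mp S₁.isPGroup'
    have hdvd : Nat.card ↥(S₁ : Subgroup ↥(Cfsg.Lie.Sz F (2 ^ (m + 1))))
        ∣ Nat.card ↥(Cfsg.Lie.Sz F (2 ^ (m + 1))) := Subgroup.card_subgroup_dvd_card _
    rw [hj, ← Nat.card_congr E.toEquiv, (dat hF).card_G hI, hF] at hdvd
    have hodd1 : Odd ((2 ^ (2 * m + 1)) ^ 2 + 1) := ⟨2 * (2 ^ (2 * m)) ^ 2, by ring⟩
    have hodd2 : Odd (2 ^ (2 * m + 1) - 1) := by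
      have h1 : 1 ≤ 2 ^ (2 * m) := Nat.one_le_two_pow
      refine ⟨2 ^ (2 * m) - 1, ?_⟩
      rw [pow_succ]
      omega
    have c1 : Nat.Coprime (2 ^ j) ((2 ^ (2 * m + 1)) ^ 2 + 1) :=
      Nat.Coprime.pow_left j (Nat.coprime_two_left.2 hodd1)
    have c2 : Nat.Coprime (2 ^ j) (2 ^ (2 * m + 1) - 1) :=
      Nat.Coprime.pow_left j (Nat.coprime_two_left.2 hodd2)
    have d1 := c1.dvd_of_dvd_mul_left hdvd
    have d2 := c2.dvd_of_dvd_mul_right d1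
    rw [hj]
    exact Nat.le_of_dvd (by positivity) d2
  have hEq : f.range = (S₁ : Subgroup ↥(Cfsg.Lie.Sz F (2 ^ (m + 1)))) :=
    Subgroup.eq_of_le_of_card_ge hS₁ (by rw [hcard0]; exact hS₁card)
  exact ⟨((Sylow.equiv P S₁).trans (MulEquiv.subgroupCongr hEq).symm).trans e₀.symm⟩

/-- Let S be a Sylow 2-subgroup of the Suzuki group Sz(q), q = 2ⁿ with n = 2m + 1 ≥ 3 (realised as 4 × 4 matrices over the field with q elements). Then the largest normal 2-subgroup of the automorphism group of S is elementary abelian of order 2^(n²), and the automorphism group of S has order 2^(n²) · n · (q − 1). -/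
theorem result {S : Type*} [Group S] [Finite S] (m : ℕ) (hm : 1 ≤ m)
    {F : Type*} [Field F] [Fintype F] (hF : Fintype.card F = 2 ^ (2 * m + 1))
    (P : Sylow 2 ↥(Cfsg.Lie.Sz F (2 ^ (m + 1)))) (hS : Nonempty (S ≃* ↥(P : Subgroup ↥(Cfsg.Lie.Sz F (2 ^ (m + 1)))))) :
    Cfsg.IsElementaryAbelian 2 (Cfsg.pCore 2 (MulAut S)) ∧ Nat.card ↥(Cfsg.pCore 2 (MulAut S)) = 2 ^ ((2 * m + 1) ^ 2) ∧
      Nat.card (MulAut S) = 2 ^ ((2 * m + 1) ^ 2) * ((2 * m + 1) * (2 ^ (2 * m + 1) - 1)) := by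
  classical
  obtain ⟨e₁⟩ := hS
  obtain ⟨e₂⟩ := exists_equiv_Sz hm hF P
  obtain ⟨e, hedef⟩ : ∃ e : S ≃* SH (dat hF), e = e₁.trans e₂ := ⟨_, rfl⟩
  obtain ⟨k0, hk0, hk1⟩ := exists_ne01 hm hF
  have hσe := dat_σ hF
  have hcore := pcore_eq (dat hF) k0 hk0 hk1 e (2 ^ (m + 1)) hσe
  have hcard := card_aut (dat hF) k0 hk0 hk1 e (2 ^ (m + 1)) hσe (2 * m + 1) hF
  have hK : Nat.card ↥(KK (dat hF) e) = (2 ^ (2 * m + 1)) ^ (2 * m + 1) := by
    rw [card_KK_eq (dat hF) e, card_zeta (dat hF) (2 * m + 1) hF]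
  have hpow : (2 ^ (2 * m + 1)) ^ (2 * m + 1) = 2 ^ ((2 * m + 1) ^ 2) := by
    rw [← pow_mul, sq]
  refine ⟨?_, ?_, ?_⟩
  · rw [hcore]
    exact ⟨⟨⟨fun a b => Subtype.ext (KK_comm (dat hF) e a.1 b.1 a.2 b.2)⟩⟩,
      fun a ha => KK_sq (dat hF) e a ha⟩
  · rw [hcore, hK, hpow]
  · rw [hcard, hpow, mul_comm (2 ^ (2 * m + 1) - 1)]
end Cfsg.Agent.S2556
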