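import Cfsg.Statements.S4417
import Mathlib
import Cfsg.Agent.Lib.Helper22.DL4

set_option autoImplicit false
open Cfsg

namespace Cfsg.Agent.S4417

/-- Let F be a field with q elements, p a prime not dividing q, and e the multiplicative order of q modulo p; assume e ≤ n. Then every p-subgroup of GL_n(F) has derived length at most ⌊log₂(n/e)⌋ + 1: that term of its derived series is trivial (n/e is the integer quotient). -/
theorem result {F : Type*} [Field F] [Fintype F] (q : ℕ) (hF : Fintype.card F = q) (p : ℕ) [Fact p.Prime] (hpq : ¬ p ∣ q) (n e : ℕ) (he : e = orderOf (q : ZMod p)) (hen : e ≤ n) (P : Subgroup (GL (Fin n) F)) (hP : IsPGroup p P) : derivedSeries ↥P (Nat.log 2 (n / e) + 1) = ⊥ := by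
  classical
  subst he
  obtain ⟨p₀, hp₀⟩ := CharP.exists F
  haveI := hp₀
  obtain ⟨k, hp₀prime, hqk⟩ := FiniteField.card F p₀
  rw [hF] at hqk
  haveI : Fact p₀.Prime := ⟨hp₀prime⟩
  haveI : CharP (AlgebraicClosure F) p₀ :=
    charP_of_injective_algebraMap (algebraMap F (AlgebraicClosure F)).injective p₀
  haveI : ExpChar (AlgebraicClosure F) p₀ := ExpChar.prime hp₀prime
  have hpK : (p : AlgebraicClosure F) ≠ 0 := by
    intro h
    have hdvd : p₀ ∣ p := (CharP.cast_eq_zero_iff (AlgebraicClosure F) p₀ p).mp h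
    have h2 : p₀ = p := (Nat.prime_dvd_prime_iff_eq hp₀prime (Fact.out : p.Prime)).mp hdvd
    apply hpq
    rw [hqk, ← h2]
    exact dvd_pow_self p₀ (PNat.ne_zero k)
  have hq : 0 < q := by rw [hqk]; exact pow_pos hp₀prime.pos _
  have hρ : Function.Injective
      ((Cfsg.Agent.Lib.Helper22.DL.glToEnd (algebraMap F (AlgebraicClosure F)) n).comp
        P.subtype) :=
    fun x y h => Subtype.ext (Cfsg.Agent.Lib.Helper22.DL.glToEnd_injective _ n h)
  have hσapp : ∀ (v : Fin n → AlgebraicClosure F) (i : Fin n),
      ((iterateFrobenius (AlgebraicClosure F) p₀ k).toAddMonoidHom.compLeft (Fin n)) v i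
        = (v i) ^ q := by
    intro v i
    show iterateFrobenius (AlgebraicClosure F) p₀ k (v i) = _
    rw [iterateFrobenius_def, hqk]
  have hpowF : ∀ x : F, x ^ (p₀ ^ (k : ℕ)) = x := by
    intro x
    rw [← hqk, ← hF]; exact FiniteField.pow_card x
  have key := Cfsg.Agent.Lib.Helper22.DL.frob_case (K := AlgebraicClosure F) p hpK q hq hpq hP n
    (Fin n → AlgebraicClosure F) (Module.finrank_fin_fun _)
    ((Cfsg.Agent.Lib.Helper22.DL.glToEnd (algebraMap F (AlgebraicClosure F)) n).comp P.subtype)
    ((iterateFrobenius (AlgebraicClosure F) p₀ k).toAddMonoidHom.compLeft (Fin n))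
    (by
      intro c v; funext i
      rw [hσapp]
      show (c * v i) ^ q = c ^ q *
        ((iterateFrobenius (AlgebraicClosure F) p₀ k).toAddMonoidHom.compLeft (Fin n)) v i
      rw [hσapp, mul_pow])
    (by
      intro x y hxy; funext i
      have h := congrFun hxy i
      exact iterateFrobenius_inj (AlgebraicClosure F) p₀ k h)
    (by
      intro g v; funext i
      rw [hσapp]
      have h1 : ∀ w : Fin n → AlgebraicClosure F,
          ((Cfsg.Agent.Lib.Helper22.DL.glToEnd (algebraMap F (AlgebraicClosure F)) n).comp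
            P.subtype) g w i
          = ∑ j, algebraMap F (AlgebraicClosure F)
              (((g : GL (Fin n) F) : Matrix (Fin n) (Fin n) F) i j) * w j := fun w => rfl
      rw [h1, h1, hqk, sum_pow_char_pow]
      apply Finset.sum_congr rfl
      intro j _
      rw [hσapp, hqk, mul_pow, ← map_pow, hpowF])
  rw [eq_bot_iff]
  intro d hd
  rw [Subgroup.mem_bot]
  apply hρ
  rw [map_one]
  exact key d hd

end Cfsg.Agent.S4417
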