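import Cfsg.Statements.S2648
import Mathlib
import Cfsg.Agent.Lib.Helper15.SpDL
import Cfsg.Agent.S4417

set_option autoImplicit false
open Cfsg

namespace Cfsg.Agent.S2648

/-- Let q be odd, F a field with q elements and n ≥ 1. A Sylow 2-subgroup R of the symplectic group Sp_{2n}(F) has derived length exactly k + 1, where 2^k ≤ 2n < 2^{k+1}: the (k+1)-st term of its derived series is trivial and the k-th is not. -/
theorem result {F : Type*} [Field F] [Fintype F] [DecidableEq F] (q : ℕ) (hF : Fintype.card F = q) (hq : Odd q) (n : ℕ) (hn : 1 ≤ n) (R : Sylow 2 ↥(Matrix.symplecticGroup (Fin n) F)) : derivedSeries ↥(R : Subgroup ↥(Matrix.symplecticGroup (Fin n) F)) (Nat.log 2 (2 * n) + 1) = ⊥ ∧ derivedSeries ↥(R : Subgroup ↥(Matrix.symplecticGroup (Fin n) F)) (Nat.log 2 (2 * n)) ≠ ⊥ := by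
  have hF' : Odd (Fintype.card F) := by rw [hF]; exact hq
  have hlog : Nat.log 2 (2 * n) = Nat.log 2 n + 1 := by
    rw [mul_comm, Nat.log_mul_base (by norm_num) (by omega)]
  refine ⟨?_, ?_⟩
  · apply Cfsg.Agent.Lib.Helper15.SpDL.upper n (Nat.log 2 (2 * n) + 1) R
    intro P hP
    have h1 : ((q : ℕ) : ZMod 2) = 1 := ZMod.natCast_eq_one_iff_odd.mpr hq
    have he : 1 = orderOf ((q : ℕ) : ZMod 2) := by rw [h1, orderOf_one]
    have h := Cfsg.Agent.S4417.result q hF 2 hq.not_two_dvd_nat (n + n) 1 he (by omega) P hP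
    have h3 : (n + n) / 1 = 2 * n := by omega
    rw [h3] at h
    exact h
  · rw [hlog]
    exact Cfsg.Agent.Lib.Helper15.SpDL.lower hF' n hn R

end Cfsg.Agent.S2648
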