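import Cfsg.Statements.S2898
import Cfsg.Agent.Lib.Helper18.OddCore
import Cfsg.Agent.Lib.Helper18.StrEmb

set_option autoImplicit false
open Cfsg

namespace Cfsg.Agent.S2898

open Cfsg.Agent.Lib.Helper18

/-- Let G be a finite group of even order with parabolic characteristic 2. If the centre of G ⧸ O(G) is trivial, then O(G) = 1. -/
theorem result {G : Type*} [Group G] [Finite G] (h2 : 2 ∣ Nat.card G) (hG : Cfsg.IsOfParabolicCharacteristic 2 G) [hN : (Cfsg.oddCore G).Normal] (hZ : Subgroup.center (G ⧸ Cfsg.oddCore G) = ⊥) : Cfsg.oddCore G = ⊥ := by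
  have hp2 : Fact (Nat.Prime 2) := ⟨Nat.prime_two⟩
  set A := Cfsg.oddCore G with hA
  have hAodd : (Nat.card A).Coprime 2 := pPrimeCore_card_coprime 2
  obtain ⟨S⟩ : Nonempty (Sylow 2 G) := inferInstance
  have hSne : (S : Subgroup G) ≠ ⊥ := S.ne_bot_of_dvd_card h2
  have hINV : ∀ z ∈ (S : Subgroup G), orderOf z = 2 →
      (∀ s ∈ (S : Subgroup G), s * z = z * s) → ∀ a ∈ A, z * a * z⁻¹ = a⁻¹ := by
    intro z hzS hz2 hzc
    have hzz : z * z = 1 := by rw [← pow_two, ← hz2, pow_orderOf_eq_one]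
    set N := Subgroup.normalizer ((Subgroup.zpowers z : Subgroup G) : Set G) with hN'
    have hSN : (S : Subgroup G) ≤ N := by
      intro s hs
      exact centralizer_singleton_le_normalizer_zpowers z
        (mem_centralizer_singleton_iff.mpr (hzc s hs).symm)
    have hchar := hG (Subgroup.zpowers z) (isPGroup_zpowers_of_orderOf hz2)
      (zpowers_ne_bot_of_orderOf hz2) ⟨S, hSN⟩
    have hcp : Cfsg.Agent.Lib.Helper18.CharP 2 N := (charP_iff 2 N).mp hchar
    have hB : A ⊓ N = ⊥ := by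
      apply eq_bot_of_charP_of_coprime hcp inf_le_right
      · have h1 : N ≤ Subgroup.normalizer (A : Set G) := by
          rw [Subgroup.normalizer_eq_top A]; exact le_top
        exact (le_inf h1 Subgroup.le_normalizer).trans (normalizer_inf_le A N)
      · exact Nat.Coprime.coprime_dvd_left (Subgroup.card_dvd_of_le inf_le_left) hAodd
    apply inverts_of_fixedPointFree hzz
    · rw [Subgroup.normalizer_eq_top A]; exact Subgroup.mem_top z
    · intro a ha hfix
      have haN : a ∈ N := by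
        apply centralizer_singleton_le_normalizer_zpowers z
        rw [mem_centralizer_singleton_iff]
        calc z * a = (z * a * z⁻¹) * z := by group
          _ = a * z := by rw [hfix]
      have : a ∈ A ⊓ N := Subgroup.mem_inf.mpr ⟨ha, haN⟩
      rw [hB, Subgroup.mem_bot] at this
      exact this
  set C := Subgroup.centralizer (A : Set G) with hC
  have hCn : C.Normal := Subgroup.normal_centralizer
  by_cases hCS : C ⊓ (S : Subgroup G) = ⊥
  · exfalso
    have hCodd : (Nat.card C).Coprime 2 := by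
      rw [Nat.coprime_comm, Nat.Prime.coprime_iff_not_dvd Nat.prime_two]
      intro hdvd
      obtain ⟨c, hc⟩ := exists_prime_orderOf_dvd_card' 2 hdvd
      have hc2 : orderOf (c : G) = 2 := by rw [Subgroup.orderOf_coe]; exact hc
      obtain ⟨g, hg⟩ := exists_conj_le_sylow (isPGroup_zpowers_of_orderOf hc2) S
      have h1 := hg (Subgroup.mem_zpowers _)
      rw [mem_map_conj_iff] at h1
      have h2 : g⁻¹ * (c : G) * g ∈ C := by
        have := hCn.conj_mem (c : G) c.2 g⁻¹
        simpa using this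
      have h3 : g⁻¹ * (c : G) * g ∈ C ⊓ (S : Subgroup G) := Subgroup.mem_inf.mpr ⟨h2, h1⟩
      rw [hCS, Subgroup.mem_bot] at h3
      have h4 : (c : G) = 1 := by
        have e : (c : G) = g * (g⁻¹ * (c : G) * g) * g⁻¹ := by group
        rw [e, h3]; group
      rw [h4, orderOf_one] at hc2
      exact absurd hc2 (by norm_num)
    have hCA : C ≤ A := le_pPrimeCore hCn hCodd
    obtain ⟨z, hzS, hz2, hzc⟩ := exists_central_orderOf_eq S.isPGroup' hSne
    have hinv := hINV z hzS hz2 hzc
    have hzz : z * z = 1 := by rw [← pow_two, ← hz2, pow_orderOf_eq_one]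
    have hzinv : z⁻¹ = z := inv_eq_of_mul_eq_one_left hzz
    have hcomm : ∀ g : G, z * g * z⁻¹ * g⁻¹ ∈ C := by
      intro g
      rw [hC, Subgroup.mem_centralizer_iff]
      intro a ha
      have h1 : g⁻¹ * a * g ∈ A := by
        have := hN.conj_mem a ha g⁻¹
        simpa using this
      have h2 : z * (g⁻¹ * a * g) * z⁻¹ = (g⁻¹ * a * g)⁻¹ := hinv _ h1
      have h3 : (g * z⁻¹ * g⁻¹) * a * (g * z * g⁻¹) = a⁻¹ := by
        have e : (g * z⁻¹ * g⁻¹) * a * (g * z * g⁻¹) = g * (z⁻¹ * (g⁻¹ * a * g) * z) * g⁻¹ := by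
          group
        have e2 : z⁻¹ * (g⁻¹ * a * g) * z = z * (g⁻¹ * a * g) * z⁻¹ := by rw [hzinv]
        rw [e, e2, h2]; group
      have h4 : z * a⁻¹ * z⁻¹ = a := by
        have := hinv a⁻¹ (A.inv_mem ha)
        rw [this, inv_inv]
      have h5 : (z * g * z⁻¹ * g⁻¹) * a * (z * g * z⁻¹ * g⁻¹)⁻¹ = a := by
        have e : (z * g * z⁻¹ * g⁻¹) * a * (z * g * z⁻¹ * g⁻¹)⁻¹ =
            z * ((g * z⁻¹ * g⁻¹) * a * (g * z * g⁻¹)) * z⁻¹ := by group
        rw [e, h3, h4]
      calc a * (z * g * z⁻¹ * g⁻¹) =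
          ((z * g * z⁻¹ * g⁻¹) * a * (z * g * z⁻¹ * g⁻¹)⁻¹) * (z * g * z⁻¹ * g⁻¹) := by rw [h5]
        _ = (z * g * z⁻¹ * g⁻¹) * a := by group
    have hcen : (QuotientGroup.mk z : G ⧸ A) ∈ Subgroup.center (G ⧸ A) := by
      rw [Subgroup.mem_center_iff]
      intro q
      obtain ⟨g, rfl⟩ := QuotientGroup.mk_surjective q
      have h1 : z * g * z⁻¹ * g⁻¹ ∈ A := hCA (hcomm g)
      have h2 : (QuotientGroup.mk (z * g * z⁻¹ * g⁻¹) : G ⧸ A) = 1 :=
        (QuotientGroup.eq_one_iff _).mpr h1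
      have e : z * g = (z * g * z⁻¹ * g⁻¹) * (g * z) := by group
      have h3 : (QuotientGroup.mk (z * g) : G ⧸ A) = QuotientGroup.mk (g * z) := by
        rw [e, QuotientGroup.mk_mul, h2, one_mul]
      exact h3.symm
    rw [hZ, Subgroup.mem_bot, QuotientGroup.eq_one_iff] at hcen
    have h5 : orderOf z ∣ Nat.card A := Subgroup.orderOf_dvd_natCard A hcen
    rw [hz2] at h5
    have h6 := Nat.Coprime.eq_one_of_dvd hAodd.symm h5
    exact absurd h6 (by norm_num)
  · have hn : (S : Subgroup G) ≤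
        Subgroup.normalizer ((C ⊓ (S : Subgroup G) : Subgroup G) : Set G) := by
      have h1 : (S : Subgroup G) ≤ Subgroup.normalizer (C : Set G) := by
        rw [Subgroup.normalizer_eq_top C]; exact le_top
      exact (le_inf h1 Subgroup.le_normalizer).trans (normalizer_inf_le C S)
    obtain ⟨z, hzM, hz2, hzc⟩ := exists_central_mem_of_normal S.isPGroup' inf_le_right hn hCS
    obtain ⟨hzC, hzS⟩ := Subgroup.mem_inf.mp hzM
    have hinv := hINV z hzS hz2 hzc
    rw [eq_bot_iff]
    intro a ha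
    have h1 : z * a * z⁻¹ = a⁻¹ := hinv a ha
    have h2 : a * z = z * a := Subgroup.mem_centralizer_iff.mp hzC a ha
    have h3 : a⁻¹ = a := by
      rw [← h1, ← h2]; group
    have h4 : a ^ 2 = 1 := by
      rw [pow_two]
      nth_rewrite 1 [← h3]
      exact inv_mul_cancel a
    have h5 : orderOf a ∣ 2 := orderOf_dvd_of_pow_eq_one h4
    have h6 : (orderOf a).Coprime 2 := orderOf_coprime_of_mem hAodd ha
    have h7 : orderOf a = 1 := Nat.Coprime.eq_one_of_dvd h6 h5
    rw [Subgroup.mem_bot]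
    exact orderOf_eq_one_iff.mp h7

end Cfsg.Agent.S2898
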