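import Cfsg.Statements.S2907
import Mathlib.GroupTheory.Index
import Mathlib.GroupTheory.SpecificGroups.Cyclic
import Mathlib.GroupTheory.Abelianization.Defs

set_option autoImplicit false
open Cfsg

namespace Cfsg.Agent.S2907

open scoped commutatorElement

theorem comm_mem_center {X : Type*} [Group X] (hcomm : commutator X = Subgroup.center X)
    (x y : X) : x * y * x⁻¹ * y⁻¹ ∈ Subgroup.center X := by
  rw [← hcomm, commutator_def]
  have h := Subgroup.commutator_mem_commutator (Subgroup.mem_top x) (Subgroup.mem_top y)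
  rwa [commutatorElement_def] at h

/-- The commutator map `y ↦ [x, y]` into the centre, when `X' = Z(X)`. -/
noncomputable def commHom {X : Type*} [Group X] (hcomm : commutator X = Subgroup.center X)
    (x : X) : X →* Subgroup.center X :=
  MonoidHom.mk' (fun y => ⟨x * y * x⁻¹ * y⁻¹, comm_mem_center hcomm x y⟩) (by
    intro y y'
    apply Subtype.ext
    have hc := Subgroup.mem_center_iff.mp (comm_mem_center hcomm x y')
    show x * (y * y') * x⁻¹ * (y * y')⁻¹ = (x * y * x⁻¹ * y⁻¹) * (x * y' * x⁻¹ * y'⁻¹)
    calc x * (y * y') * x⁻¹ * (y * y')⁻¹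
        = x * y * x⁻¹ * ((x * y' * x⁻¹ * y'⁻¹) * y⁻¹) := by group
      _ = x * y * x⁻¹ * (y⁻¹ * (x * y' * x⁻¹ * y'⁻¹)) := by rw [hc y⁻¹]
      _ = (x * y * x⁻¹ * y⁻¹) * (x * y' * x⁻¹ * y'⁻¹) := by group)


/-- Let X be a finite semi-extraspecial p-group and x an element of X outside the centre. Then the index of C_X(x) in X equals the order of Z(X), and the commutators [x, y], y ∈ X, form exactly the centre Z(X). -/
theorem result {X : Type*} [Group X] [Finite X] {p : ℕ} [Fact p.Prime] (hX : Cfsg.IsSemiExtraspecial p X) (x : X) (hx : x ∉ Subgroup.center X) : (Subgroup.centralizer ({x} : Set X)).index = Nat.card ↥(Subgroup.center X) ∧ {z : X | ∃ y : X, z = x * y * x⁻¹ * y⁻¹} = (Subgroup.center X : Set X) := by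
  obtain ⟨⟨hp, hfrat, hcomm⟩, hext⟩ := hX
  have hφ : ∀ y, ((commHom hcomm x) y : X) = x * y * x⁻¹ * y⁻¹ := fun y => rfl
  have hrange : (commHom hcomm x).range = ⊤ := by
    by_contra hne
    obtain ⟨M', hM', hle⟩ := (eq_top_or_exists_le_coatom (commHom hcomm x).range).resolve_left hne
    have hYc : M'.map (Subgroup.center X).subtype ≤ Subgroup.center X := Subgroup.map_subtype_le _
    have hYs : (M'.map (Subgroup.center X).subtype).subgroupOf (Subgroup.center X) = M' :=
      Subgroup.comap_map_eq_self_of_injective (Subgroup.subtype_injective _) _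
    obtain ⟨hYn, hsp, hcard⟩ := hext (M'.map (Subgroup.center X).subtype) hYc
      (by rw [hYs]; exact hM')
    have hxY : ∀ y, x * y * x⁻¹ * y⁻¹ ∈ M'.map (Subgroup.center X).subtype :=
      fun y => ⟨(commHom hcomm x) y, hle ⟨y, rfl⟩, rfl⟩
    have hxc : (QuotientGroup.mk' (M'.map (Subgroup.center X).subtype) x) ∈
        Subgroup.center (X ⧸ M'.map (Subgroup.center X).subtype) := by
      rw [Subgroup.mem_center_iff]
      intro q
      obtain ⟨y, rfl⟩ := QuotientGroup.mk'_surjective _ q
      have h1 : QuotientGroup.mk' (M'.map (Subgroup.center X).subtype) (x * y * x⁻¹ * y⁻¹) = 1 :=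
        (QuotientGroup.eq_one_iff _).mpr (hxY y)
      rw [map_mul, map_mul, map_mul, map_inv, map_inv] at h1
      have h2 := mul_inv_eq_one.mp h1
      have h3 := mul_inv_eq_iff_eq_mul.mp h2
      exact h3.symm
    have : Fact (Nat.card (Subgroup.center (X ⧸ M'.map (Subgroup.center X).subtype))).Prime :=
      ⟨by rw [hcard]; exact Fact.out⟩
    have hmapc : (Subgroup.center X).map (QuotientGroup.mk' (M'.map (Subgroup.center X).subtype)) ≤
        Subgroup.center (X ⧸ M'.map (Subgroup.center X).subtype) := by
      rintro _ ⟨z, hz, rfl⟩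
      rw [Subgroup.mem_center_iff]
      intro q
      obtain ⟨y, rfl⟩ := QuotientGroup.mk'_surjective _ q
      rw [← map_mul, ← map_mul, Subgroup.mem_center_iff.mp hz y]
    rcases Subgroup.eq_bot_or_eq_top_of_prime_card
      (((Subgroup.center X).map (QuotientGroup.mk' (M'.map (Subgroup.center X).subtype))).subgroupOf
        (Subgroup.center (X ⧸ M'.map (Subgroup.center X).subtype))) with hb | ht
    · apply hM'.1
      rw [eq_top_iff]
      intro z _
      have h1 : QuotientGroup.mk' (M'.map (Subgroup.center X).subtype) (z : X) ∈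
          (Subgroup.center X).map (QuotientGroup.mk' (M'.map (Subgroup.center X).subtype)) :=
        Subgroup.mem_map_of_mem _ z.2
      have h2 : (⟨QuotientGroup.mk' (M'.map (Subgroup.center X).subtype) (z : X), hmapc h1⟩ :
          Subgroup.center (X ⧸ M'.map (Subgroup.center X).subtype)) ∈
          ((Subgroup.center X).map (QuotientGroup.mk' (M'.map (Subgroup.center X).subtype))).subgroupOf
            (Subgroup.center (X ⧸ M'.map (Subgroup.center X).subtype)) := h1
      rw [hb, Subgroup.mem_bot] at h2
      have h3 : QuotientGroup.mk' (M'.map (Subgroup.center X).subtype) (z : X) = 1 :=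
        congrArg Subtype.val h2
      have h4 : (z : X) ∈ M'.map (Subgroup.center X).subtype := (QuotientGroup.eq_one_iff _).mp h3
      rw [← hYs]; exact h4
    · have h2 : (⟨QuotientGroup.mk' (M'.map (Subgroup.center X).subtype) x, hxc⟩ :
          Subgroup.center (X ⧸ M'.map (Subgroup.center X).subtype)) ∈
          ((Subgroup.center X).map (QuotientGroup.mk' (M'.map (Subgroup.center X).subtype))).subgroupOf
            (Subgroup.center (X ⧸ M'.map (Subgroup.center X).subtype)) := by
        rw [ht]; exact Subgroup.mem_top _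
      obtain ⟨z, hz, hzx⟩ := h2
      have h3 : z⁻¹ * x ∈ M'.map (Subgroup.center X).subtype := QuotientGroup.eq.mp hzx
      apply hx
      have e : x = z * (z⁻¹ * x) := by group
      rw [e]
      exact Subgroup.mul_mem _ hz (hYc h3)
  constructor
  · have hker : Subgroup.centralizer ({x} : Set X) = (commHom hcomm x).ker := by
      ext y
      rw [Subgroup.mem_centralizer_iff, MonoidHom.mem_ker]
      constructor
      · intro h
        apply Subtype.ext
        rw [hφ]
        have h1 := h x (Set.mem_singleton x)
        show x * y * x⁻¹ * y⁻¹ = 1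
        rw [h1]; group
      · intro h u hu
        rw [Set.mem_singleton_iff] at hu
        subst hu
        have h1 : u * y * u⁻¹ * y⁻¹ = 1 := by rw [← hφ, h]; rfl
        have h2 := mul_inv_eq_one.mp h1
        exact mul_inv_eq_iff_eq_mul.mp h2
    rw [hker, Subgroup.index_ker, hrange, Subgroup.card_top]
  · ext z
    constructor
    · rintro ⟨y, rfl⟩
      exact comm_mem_center hcomm x y
    · intro hz
      have h1 : (⟨z, hz⟩ : Subgroup.center X) ∈ (commHom hcomm x).range := by
        rw [hrange]; exact Subgroup.mem_top _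
      obtain ⟨y, hy⟩ := h1
      refine ⟨y, ?_⟩
      rw [← hφ, hy]

end Cfsg.Agent.S2907
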