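import Cfsg.Statements.S2908
import Cfsg.Agent.Lib.Helper18.Coprime

set_option autoImplicit false
open Cfsg

namespace Cfsg.Agent.S2908

open Cfsg.Agent.Lib.Helper18
open scoped commutatorElement

/-- Let P be a p-subgroup of a finite group, normalized by a p-subgroup A and by a subgroup B of order prime to p that commutes elementwise with A. If [P, B] ≤ [P, A], then B centralizes P. -/
theorem result {G : Type*} [Group G] [Finite G] {p : ℕ} [Fact p.Prime] (P A B : Subgroup G) (hP : IsPGroup p ↥P) (hA : IsPGroup p ↥A) (hB : ¬ p ∣ Nat.card ↥B) (hnA : A ≤ Subgroup.normalizer (P : Set G)) (hnB : B ≤ Subgroup.normalizer (P : Set G)) (hAB : ⁅A, B⁆ = ⊥) (hcomm : ⁅P, B⁆ ≤ ⁅P, A⁆) : ⁅P, B⁆ = ⊥ := by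
  set W := P ⊔ A with hWdef
  have hW : IsPGroup p W := hP.to_sup_of_normal_left' hA hnA
  have hBA : B ≤ Subgroup.normalizer (A : Set G) := by
    have h1 : B ≤ Subgroup.centralizer (A : Set G) := by
      rw [Subgroup.le_centralizer_iff]
      exact Subgroup.commutator_eq_bot_iff_le_centralizer.mp hAB
    exact h1.trans (Subgroup.centralizer_le_normalizer (A : Set G))
  have hBW : B ≤ Subgroup.normalizer (W : Set G) :=
    (le_inf hnB hBA).trans (normalizer_inf_le_normalizer_sup P A)
  have hWD : W ≤ Subgroup.normalizer ((⁅W, W⁆ : Subgroup G) : Set G) :=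
    Subgroup.le_normalizer.trans (normalizer_le_normalizer_commutator_self W)
  have key : ∀ w ∈ W, ∀ x ∈ B, w * x * w⁻¹ * x⁻¹ ∈ ⁅W, W⁆ := by
    intro w hw x hx
    have hle : W ≤ commSub W ⁅W, W⁆ hWD x := by
      apply sup_le
      · intro y hy
        refine ⟨le_sup_left (b := A) hy, ?_⟩
        have h1 : ⁅y, x⁆ ∈ ⁅P, B⁆ := Subgroup.commutator_mem_commutator hy hx
        have h2 := Subgroup.commutator_mono (le_sup_left : P ≤ W) (le_sup_right : A ≤ W) (hcomm h1)
        rw [commutatorElement_def] at h2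
        exact h2
      · intro a ha
        refine ⟨le_sup_right (a := P) ha, ?_⟩
        have h1 : ⁅a, x⁆ ∈ ⁅A, B⁆ := Subgroup.commutator_mem_commutator ha hx
        rw [hAB, Subgroup.mem_bot, commutatorElement_def] at h1
        rw [h1]; exact Subgroup.one_mem _
    exact (hle hw).2
  have hfin := le_centralizer_of_comm_mem_commutator' hW hB hBW key
  rw [Subgroup.commutator_eq_bot_iff_le_centralizer, ← Subgroup.le_centralizer_iff]
  exact hfin.trans (Subgroup.centralizer_le (le_sup_left : P ≤ W))

end Cfsg.Agent.S2908
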