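import Cfsg.Statements.S2909
import Mathlib
import Cfsg.Agent.S2908
import Cfsg.Agent.S0058
import Cfsg.Agent.Lib.Helper11.ThompsonAB
import Cfsg.Agent.Lib.Helper1.Coprime

set_option autoImplicit false
open Cfsg

namespace Cfsg.Agent.S2909

open scoped Pointwise commutatorElement
open Cfsg.Agent.Lib.Helper1

theorem mem_normalizer_inf {G : Type*} [Group G] (H K : Subgroup G) (g : G)
    (hH : g ∈ Subgroup.normalizer (H : Set G)) (hK : g ∈ Subgroup.normalizer (K : Set G)) :
    g ∈ Subgroup.normalizer ((H ⊓ K : Subgroup G) : Set G) := by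
  rw [Subgroup.mem_normalizer_iff] at hH hK ⊢
  intro h
  rw [Subgroup.mem_inf, Subgroup.mem_inf, hH h, hK h]

/-- Let p be a prime, E a normal p-subgroup of the finite group G, and U a non-cyclic elementary abelian p-subgroup of G such that either C_E(U) = C_E(u) for every nontrivial u ∈ U, or [E, U] = [E, ⟨u⟩] for every nontrivial u ∈ U. If R is a subgroup of order prime to p normalized by U, then [R, U] centralizes E. -/
theorem result {G : Type*} [Group G] [Finite G] {p : ℕ} [Fact p.Prime] (E : Subgroup G) [E.Normal] (hE : IsPGroup p ↥E) (U : Subgroup G) (hU : Cfsg.IsElementaryAbelian p U) (hnc : ¬ IsCyclic ↥U) (hcond : (∀ u ∈ U, u ≠ 1 → E ⊓ Subgroup.centralizer (U : Set G) = E ⊓ Subgroup.centralizer ({u} : Set G)) ∨ (∀ u ∈ U, u ≠ 1 → ⁅E, U⁆ = ⁅E, Subgroup.zpowers u⁆)) (R : Subgroup G) (hR : ¬ p ∣ Nat.card ↥R) (hRU : U ≤ Subgroup.normalizer (R : Set G)) : ⁅R, U⁆ ≤ Subgroup.centralizer (E : Set G) := by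
  classical
  have hp : p.Prime := Fact.out
  haveI : IsMulCommutative U := hU.1
  have hUab : ∀ a ∈ U, ∀ b ∈ U, a * b = b * a := by
    intro a ha b hb
    exact congrArg Subtype.val (mul_comm' (⟨a, ha⟩ : U) ⟨b, hb⟩)
  have hUp : IsPGroup p U := by
    intro g
    refine ⟨1, ?_⟩
    rw [pow_one]
    exact Subtype.ext (by simpa using hU.2 g g.2)
  have hcop : (Nat.card U).Coprime (Nat.card R) := by
    obtain ⟨k, hk⟩ := IsPGroup.iff_card.mp hUp
    rw [hk]
    exact Nat.Coprime.pow_left k ((Nat.Prime.coprime_iff_not_dvd hp).mpr hR)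
  have hgen := Cfsg.Agent.S0058.result U R hnc hRU hcop
  obtain ⟨C, hCdef⟩ : ∃ C, C = Subgroup.centralizer (E : Set G) := ⟨_, rfl⟩
  haveI hCn : C.Normal := by rw [hCdef]; exact Subgroup.normal_centralizer
  have hEnorm : ∀ H : Subgroup G, H ≤ Subgroup.normalizer (E : Set G) := fun H => by
    rw [Subgroup.normalizer_eq_top_iff.mpr inferInstance]; exact le_top
  have key : ∀ u ∈ U, u ≠ 1 → ⁅R ⊓ Subgroup.centralizer ({u} : Set G), U⁆ ≤ C := by
    intro u hu hu1
    obtain ⟨X, hXdef⟩ : ∃ X, X = R ⊓ Subgroup.centralizer ({u} : Set G) := ⟨_, rfl⟩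
    rw [← hXdef]
    obtain ⟨Y, hYdef⟩ : ∃ Y, Y = ⁅X, U⁆ := ⟨_, rfl⟩
    rw [← hYdef]
    have hXR : X ≤ R := hXdef ▸ inf_le_left
    have hXu : X ≤ Subgroup.centralizer ({u} : Set G) := hXdef ▸ inf_le_right
    have hUu : U ≤ Subgroup.centralizer ({u} : Set G) := by
      intro v hv
      rw [Subgroup.mem_centralizer_iff]
      intro h hh
      rw [Set.mem_singleton_iff] at hh
      rw [hh]
      exact hUab u hu v hv
    have hUX : U ≤ Subgroup.normalizer (X : Set G) := by
      intro v hv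
      rw [hXdef]
      exact mem_normalizer_inf R _ v (hRU hv) (Subgroup.le_normalizer (hUu hv))
    have hYX : Y ≤ X := hYdef ▸ commutator_le_of_le_normalizer hUX
    have hYp : ¬ p ∣ Nat.card Y :=
      fun h => hR (h.trans (Subgroup.card_dvd_of_le (hYX.trans hXR)))
    have hA : IsPGroup p (Subgroup.zpowers u) := hUp.to_le (Subgroup.zpowers_le.mpr hu)
    have hYcu : Y ≤ Subgroup.centralizer ((Subgroup.zpowers u : Subgroup G) : Set G) := by
      intro y hy
      have h1 := hXu (hYX hy)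
      rw [Subgroup.mem_centralizer_iff] at h1 ⊢
      intro z hz
      obtain ⟨k, rfl⟩ := Subgroup.mem_zpowers_iff.mp hz
      have hc : Commute u y := h1 u rfl
      exact (hc.zpow_left k).eq
    have hAY : ⁅Y, Subgroup.zpowers u⁆ = ⊥ :=
      Subgroup.commutator_eq_bot_iff_le_centralizer.mpr hYcu
    rcases hcond with h1 | h2
    · -- first case
      have hE0 := h1 u hu hu1
      obtain ⟨E0, hE0def⟩ : ∃ E0, E0 = E ⊓ Subgroup.centralizer (U : Set G) := ⟨_, rfl⟩
      have hE0U : ⁅E0, U⁆ = ⊥ := by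
        rw [Subgroup.commutator_eq_bot_iff_le_centralizer, hE0def]
        exact inf_le_right
      have hXE0 : X ≤ Subgroup.normalizer (E0 : Set G) := by
        rw [hE0def, hE0]
        intro x hx
        exact mem_normalizer_inf E _ x (hEnorm X hx) (Subgroup.le_normalizer (hXu hx))
      have h3 : ⁅⁅X, U⁆, E0⁆ = ⊥ := by
        apply Subgroup.commutator_commutator_eq_bot_of_rotate
        · rw [Subgroup.commutator_comm U E0, hE0U]
          exact Subgroup.commutator_bot_left X
        · have h4 : ⁅E0, X⁆ ≤ E0 := commutator_le_of_le_normalizer hXE0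
          exact le_bot_iff.mp (hE0U ▸ Subgroup.commutator_mono h4 le_rfl)
      rw [← hYdef] at h3
      have h6 : E ⊓ Subgroup.centralizer ((Subgroup.zpowers u : Subgroup G) : Set G) ≤
          Subgroup.centralizer (Y : Set G) := by
        have h7 : E ⊓ Subgroup.centralizer ((Subgroup.zpowers u : Subgroup G) : Set G) ≤ E0 := by
          rw [hE0def, hE0]
          refine inf_le_inf le_rfl (Subgroup.centralizer_le ?_)
          intro z hz
          rw [Set.mem_singleton_iff] at hz
          rw [hz]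
          exact Subgroup.mem_zpowers u
        refine h7.trans ?_
        rw [Subgroup.le_centralizer_iff]
        exact Subgroup.commutator_eq_bot_iff_le_centralizer.mp h3
      have h7 := Cfsg.Agent.Lib.Helper11.thompson_AxB p Y (Subgroup.zpowers u) hYp hA hAY
        (Nat.card E) E hE (hEnorm Y) (hEnorm _) h6 le_rfl
      rw [hCdef]
      exact Subgroup.le_centralizer_iff.mp h7
    · -- second case
      have hW := h2 u hu hu1
      obtain ⟨W, hWdef⟩ : ∃ W, W = ⁅E, U⁆ := ⟨_, rfl⟩
      have hEW : E ≤ Subgroup.normalizer (W : Set G) :=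
        hWdef ▸ (le_sup_left.trans (commutator_normalizer (hEnorm U)))
      have hUW : U ≤ Subgroup.normalizer (W : Set G) :=
        hWdef ▸ (le_sup_right.trans (commutator_normalizer (hEnorm U)))
      have hXW : X ≤ Subgroup.normalizer (W : Set G) := by
        rw [hWdef, hW]
        apply Cfsg.Agent.Lib.Helper11.le_normalizer_commutator_of_le (hEnorm X)
        intro x hx
        have h1 := hXu hx
        rw [Subgroup.mem_centralizer_iff] at h1
        have hc : Commute u x := h1 u rfl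
        rw [Subgroup.mem_normalizer_iff]
        intro z
        constructor
        · intro hz
          obtain ⟨k, rfl⟩ := Subgroup.mem_zpowers_iff.mp hz
          have : x * u ^ k * x⁻¹ = u ^ k := by
            rw [← (hc.zpow_left k).eq, mul_assoc, mul_inv_cancel, mul_one]
          rw [this]
          exact hz
        · intro hz
          obtain ⟨k, hk⟩ := Subgroup.mem_zpowers_iff.mp hz
          have : z = u ^ k := by
            have hxu : x * u ^ k * x⁻¹ = u ^ k := by
              rw [← (hc.zpow_left k).eq, mul_assoc, mul_inv_cancel, mul_one]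
            have h5 : x * z * x⁻¹ = x * u ^ k * x⁻¹ := by
              rw [hxu, hk]
            exact mul_left_cancel (mul_right_cancel h5)
          rw [this]
          exact Subgroup.zpow_mem_zpowers u k
      have hconjW : ∀ g : G, g ∈ Subgroup.normalizer (W : Set G) → ∀ w ∈ W, g * w * g⁻¹ ∈ W := by
        intro g hg w hw
        exact ((Subgroup.mem_normalizer_iff.mp hg) w).mp hw
      -- elementwise three subgroups
      have h3 : ∀ x ∈ X, ∀ v ∈ U, ∀ e ∈ E, ⁅e, ⁅x, v⁆⁆ ∈ W := by
        intro x hx y hy z hz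
        have e1 : ⁅z, ⁅x, y⁆⁆ =
            x * z * ⁅y, ⁅z⁻¹, x⁻¹⁆⁆⁻¹ * z⁻¹ * y * ⁅x⁻¹, ⁅y⁻¹, z⁆⁆⁻¹ * y⁻¹ * x⁻¹ := by
          simp only [commutatorElement_def]; group
        have hw1 : ⁅y, ⁅z⁻¹, x⁻¹⁆⁆ ∈ W := by
          have h5 : ⁅z⁻¹, x⁻¹⁆ ∈ E := by
            rw [commutatorElement_def]
            have := ‹E.Normal›.conj_mem z (by simpa using hz) x⁻¹
            simpa [mul_assoc] using E.mul_mem (E.inv_mem hz) this
          have h6 : ⁅⁅z⁻¹, x⁻¹⁆, y⁆ ∈ W := hWdef ▸ Subgroup.commutator_mem_commutator h5 hy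
          have h7 : ⁅y, ⁅z⁻¹, x⁻¹⁆⁆ = ⁅⁅z⁻¹, x⁻¹⁆, y⁆⁻¹ := by
            rw [commutatorElement_inv]
          rw [h7]
          exact W.inv_mem h6
        have hw2 : ⁅x⁻¹, ⁅y⁻¹, z⁆⁆ ∈ W := by
          have h5 : ⁅y⁻¹, z⁆ ∈ W := by
            have h6 : ⁅z, y⁻¹⁆ ∈ W := hWdef ▸ Subgroup.commutator_mem_commutator hz (U.inv_mem hy)
            have h7 : ⁅y⁻¹, z⁆ = ⁅z, y⁻¹⁆⁻¹ := by rw [commutatorElement_inv]
            rw [h7]
            exact W.inv_mem h6
          rw [commutatorElement_def]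
          exact W.mul_mem (hconjW _ (hXW (X.inv_mem hx)) _ h5) (W.inv_mem h5)
        rw [e1]
        have hA1 : z * ⁅y, ⁅z⁻¹, x⁻¹⁆⁆⁻¹ * z⁻¹ ∈ W := hconjW z (hEW hz) _ (W.inv_mem hw1)
        have hA2 : y * ⁅x⁻¹, ⁅y⁻¹, z⁆⁆⁻¹ * y⁻¹ ∈ W := hconjW y (hUW hy) _ (W.inv_mem hw2)
        have hA3 := hconjW x (hXW hx) _ (W.mul_mem hA1 hA2)
        convert hA3 using 1
        group
      -- extend to Y
      let T : Subgroup G :=
        { carrier := {y | y ∈ Subgroup.normalizer (W : Set G) ∧ ∀ e ∈ E, ⁅e, y⁆ ∈ W}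
          one_mem' := ⟨Subgroup.one_mem _, fun e _ => by
            rw [commutatorElement_one_right]; exact W.one_mem⟩
          mul_mem' := by
            rintro a b ⟨ha, ha'⟩ ⟨hb, hb'⟩
            refine ⟨Subgroup.mul_mem _ ha hb, fun e he => ?_⟩
            have e1 : ⁅e, a * b⁆ = ⁅e, a⁆ * (a * ⁅e, b⁆ * a⁻¹) := by
              simp only [commutatorElement_def]; group
            rw [e1]
            exact W.mul_mem (ha' e he) (hconjW a ha _ (hb' e he))
          inv_mem' := by
            rintro a ⟨ha, ha'⟩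
            refine ⟨Subgroup.inv_mem _ ha, fun e he => ?_⟩
            have e1 : ⁅e, a⁻¹⁆ = a⁻¹ * ⁅e, a⁆⁻¹ * a⁻¹⁻¹ := by
              simp only [commutatorElement_def]; group
            rw [e1]
            exact hconjW a⁻¹ (Subgroup.inv_mem _ ha) _ (W.inv_mem (ha' e he)) }
      have hYT : Y ≤ T := by
        rw [hYdef, Subgroup.commutator_le]
        intro x hx v hv
        refine ⟨?_, fun e he => h3 x hx v hv e he⟩
        rw [commutatorElement_def]
        exact Subgroup.mul_mem _ (Subgroup.mul_mem _ (Subgroup.mul_mem _ (hXW hx) (hUW hv))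
          (Subgroup.inv_mem _ (hXW hx))) (Subgroup.inv_mem _ (hUW hv))
      have hcomm : ⁅E, Y⁆ ≤ ⁅E, Subgroup.zpowers u⁆ := by
        rw [← hW, ← hWdef, Subgroup.commutator_le]
        intro e he y hy
        exact (hYT hy).2 e he
      have hAY' : ⁅Subgroup.zpowers u, Y⁆ = ⊥ := by
        rw [Subgroup.commutator_comm]; exact hAY
      have h8 := Cfsg.Agent.S2908.result E (Subgroup.zpowers u) Y hE hA hYp (hEnorm _) (hEnorm _)
        hAY' hcomm
      rw [hCdef]
      rw [Subgroup.commutator_comm] at h8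
      exact Subgroup.commutator_eq_bot_iff_le_centralizer.mp h8
  -- final assembly
  let T' : Subgroup G :=
    { carrier := {r | ∀ v ∈ U, ⁅r, v⁆ ∈ C}
      one_mem' := fun v _ => by rw [commutatorElement_one_left]; exact C.one_mem
      mul_mem' := by
        intro a b ha hb v hv
        have e1 : ⁅a * b, v⁆ = a * ⁅b, v⁆ * a⁻¹ * ⁅a, v⁆ := by
          simp only [commutatorElement_def]; group
        rw [e1]
        exact C.mul_mem (hCn.conj_mem _ (hb v hv) a) (ha v hv)
      inv_mem' := by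
        intro a ha v hv
        have e1 : ⁅a⁻¹, v⁆ = a⁻¹ * ⁅a, v⁆⁻¹ * a⁻¹⁻¹ := by
          simp only [commutatorElement_def]; group
        rw [e1]
        exact hCn.conj_mem _ (C.inv_mem (ha v hv)) a⁻¹ }
  have hRT : R ≤ T' := by
    rw [← hgen]
    refine iSup₂_le ?_
    rintro u ⟨hu, hu1⟩
    intro x hx v hv
    exact key u hu hu1 (Subgroup.commutator_mem_commutator hx hv)
  rw [← hCdef, Subgroup.commutator_le]
  intro r hr v hv
  exact hRT hr v hv

end Cfsg.Agent.S2909
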