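import Cfsg.Statements.S2912
import Cfsg.Agent.Lib.Helper18.ExtW

set_option autoImplicit false
open Cfsg

namespace Cfsg.Agent.S2912

open Cfsg.Agent.Lib.Helper18

/-- Let p and r be distinct primes, let E be an extraspecial subgroup of order p^(2w+1) of a finite group, and let A be an elementary abelian r-subgroup normalized by E on which E acts faithfully (C_E(A) = 1). If n ≥ 1 is least with p dividing rⁿ − 1 (the smallest dimension of a faithful representation of a group of order p over the field with r elements), then the order of A is at least r^(n·p^w). -/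
theorem result {G : Type*} [Group G] [Finite G] {p r : ℕ} [Fact p.Prime] [hr : Fact r.Prime] (hpr : p ≠ r) (E A : Subgroup G) (w : ℕ) (hE : Cfsg.IsExtraspecial p ↥E) (hEcard : Nat.card ↥E = p ^ (2 * w + 1)) (hA : Cfsg.IsElementaryAbelian r A) (hnorm : E ≤ Subgroup.normalizer (A : Set G)) (hfaith : E ⊓ Subgroup.centralizer (A : Set G) = ⊥) (n : ℕ) (hn : 1 ≤ n) (hdiv : p ∣ r ^ n - 1) (hmin : ∀ k : ℕ, 1 ≤ k → p ∣ r ^ k - 1 → n ≤ k) : r ^ (n * p ^ w) ≤ Nat.card ↥A := by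
  have hp : Fact p.Prime := inferInstance
  obtain ⟨Z, hZdef⟩ : ∃ Z : Subgroup G, Z = (Subgroup.center ↥E).map E.subtype := ⟨_, rfl⟩
  have hZcard : Nat.card Z = p := by
    rw [hZdef, Subgroup.card_map_of_injective (Subgroup.subtype_injective E)]
    exact hE.2
  have hZE : Z ≤ E := by
    rw [hZdef]; exact Subgroup.map_subtype_le _
  have hmemZ : ∀ g : G, ∀ hg : g ∈ E, (⟨g, hg⟩ : ↥E) ∈ Subgroup.center ↥E → g ∈ Z := by
    intro g hg h
    rw [hZdef]
    exact Subgroup.mem_map.mpr ⟨⟨g, hg⟩, h, rfl⟩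
  have hExt : ExtW p E Z w := by
    refine ⟨hZcard, hZE, ?_, le_of_eq hEcard.symm, ?_, ?_, ?_⟩
    · intro e he z hz
      rw [hZdef] at hz
      obtain ⟨z', hz', rfl⟩ := Subgroup.mem_map.mp hz
      exact congrArg Subtype.val (Subgroup.mem_center_iff.mp hz' ⟨e, he⟩)
    · intro g hg hcen
      apply hmemZ g hg
      rw [Subgroup.mem_center_iff]
      intro e'
      exact Subtype.ext (hcen e'.1 e'.2).symm
    · intro a ha b hb
      exact hmemZ _ _ (Cfsg.Agent.Lib.Helper19.es_comm_mem_center hE ⟨a, ha⟩ ⟨b, hb⟩)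
    · intro a ha
      exact hmemZ _ _ (Cfsg.Agent.Lib.Helper19.es_pow_mem_center hE ⟨a, ha⟩)
  -- a nontrivial element of Z
  have hZne : Z ≠ ⊥ := by
    intro h0
    rw [h0, Subgroup.card_bot] at hZcard
    exact hp.out.one_lt.ne hZcard
  obtain ⟨z₀', hz₀'⟩ := (Subgroup.ne_bot_iff_exists_ne_one).mp hZne
  obtain ⟨z₀, hz₀, hz₀1⟩ : ∃ z₀ ∈ Z, z₀ ≠ 1 :=
    ⟨z₀'.1, z₀'.2, fun h0 => hz₀' (Subtype.ext h0)⟩
  have hcomm : ∀ a ∈ A, ∀ b ∈ A, a * b = b * a := fun a ha b hb =>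
    congrArg Subtype.val (hA.1.is_comm.comm ⟨a, ha⟩ ⟨b, hb⟩)
  have hrA : IsPGroup r A := by
    intro a
    refine ⟨1, ?_⟩
    apply Subtype.ext
    rw [pow_one]
    exact hA.2 a.1 a.2
  obtain ⟨m, hm⟩ := (IsPGroup.iff_card).mp hrA
  have hcop : (Nat.card A).Coprime p := by
    rw [hm]
    exact Nat.Coprime.pow_left m ((Nat.coprime_primes hr.out hp.out).mpr (Ne.symm hpr))
  have hnc : ∃ a ∈ A, z₀ * a * z₀⁻¹ ≠ a := by
    by_contra hcon
    push Not at hcon
    apply hz₀1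
    have h1 : z₀ ∈ E ⊓ Subgroup.centralizer (A : Set G) := by
      refine Subgroup.mem_inf.mpr ⟨hZE hz₀, ?_⟩
      rw [Subgroup.mem_centralizer_iff]
      intro a ha
      exact (comm_of_conj_eq (hcon a ha)).symm
    rw [hfaith, Subgroup.mem_bot] at h1
    exact h1
  obtain ⟨A₁, hA₁A, hA₁ne, hEA₁, hfix⟩ := exists_fpf_sub A E hcomm hcop z₀ (hnorm (hZE hz₀))
    (hExt.pow_eq_one hz₀) hnc hnorm (fun e he => hExt.2.2.1 e he z₀ hz₀)
  have key := extw_bound hpr n hmin Z z₀ hz₀ w E A₁ hExt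
    (fun a ha b hb => hcomm a (hA₁A ha) b (hA₁A hb)) (hrA.to_le hA₁A) hEA₁ hA₁ne hfix
  exact key.trans (Subgroup.card_le_of_le hA₁A)

end Cfsg.Agent.S2912
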