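import Cfsg.Statements.S2925
import Cfsg.Agent.Lib.Helper11.Components
import Cfsg.Agent.Lib.Helper19.SubnormalSylow
import Cfsg.Agent.Lib.Helper18.Basic

set_option autoImplicit false
open Cfsg

namespace Cfsg.Agent.S2925

open Cfsg.Agent.Lib.Helper11 in
open scoped commutatorElement in
theorem key {X : Type*} [Group X] [Finite X] (K : Subgroup X) (hK : Cfsg.IsComponent K) (y : X)
    (hy : K.map (MulAut.conj y).toMonoidHom ≠ K) (t s : X) (ht : t ∈ K) (hs : s ∈ K)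
    (hc : (t⁻¹ * (y * t * y⁻¹)) * (s⁻¹ * (y * s * y⁻¹)) =
      (s⁻¹ * (y * s * y⁻¹)) * (t⁻¹ * (y * t * y⁻¹))) :
    t * s * t⁻¹ * s⁻¹ ∈ Subgroup.centralizer (K : Set X) := by
  have hK1 : Cfsg.IsComponent (K.map (MulAut.conj y).toMonoidHom) :=
    component_map_equiv hK (MulAut.conj y)
  have hcomm : ⁅K, K.map (MulAut.conj y).toMonoidHom⁆ = ⊥ :=
    components_comm hK hK1 (Ne.symm hy)
  have hel : ∀ a ∈ K, ∀ b ∈ K, a * (y * b * y⁻¹) = (y * b * y⁻¹) * a := by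
    intro a ha b hb
    have hb' : y * b * y⁻¹ ∈ K.map (MulAut.conj y).toMonoidHom :=
      ⟨b, hb, by simp [MulAut.conj_apply]⟩
    have h1 : ⁅a, y * b * y⁻¹⁆ ∈ ⁅K, K.map (MulAut.conj y).toMonoidHom⁆ :=
      Subgroup.commutator_mem_commutator ha hb'
    rw [hcomm, Subgroup.mem_bot, commutatorElement_eq_one_iff_mul_comm] at h1
    exact h1
  have e : t * s * t⁻¹ * s⁻¹ = y * (s * t * s⁻¹ * t⁻¹) * y⁻¹ := by
    have h1 := hel s⁻¹ (K.inv_mem hs) t ht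
    have h2 := hel t⁻¹ (K.inv_mem ht) s hs
    have h3 : t⁻¹ * s⁻¹ * (y * t * y⁻¹) * (y * s * y⁻¹) =
        s⁻¹ * t⁻¹ * (y * s * y⁻¹) * (y * t * y⁻¹) := by
      calc t⁻¹ * s⁻¹ * (y * t * y⁻¹) * (y * s * y⁻¹)
          = t⁻¹ * (s⁻¹ * (y * t * y⁻¹)) * (y * s * y⁻¹) := by group
        _ = t⁻¹ * ((y * t * y⁻¹) * s⁻¹) * (y * s * y⁻¹) := by rw [h1]
        _ = (t⁻¹ * (y * t * y⁻¹)) * (s⁻¹ * (y * s * y⁻¹)) := by group
        _ = (s⁻¹ * (y * s * y⁻¹)) * (t⁻¹ * (y * t * y⁻¹)) := hc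
        _ = s⁻¹ * ((y * s * y⁻¹) * t⁻¹) * (y * t * y⁻¹) := by group
        _ = s⁻¹ * (t⁻¹ * (y * s * y⁻¹)) * (y * t * y⁻¹) := by rw [h2]
        _ = s⁻¹ * t⁻¹ * (y * s * y⁻¹) * (y * t * y⁻¹) := by group
    calc t * s * t⁻¹ * s⁻¹
        = t * s * (t⁻¹ * s⁻¹ * (y * t * y⁻¹) * (y * s * y⁻¹)) * (y * s⁻¹ * t⁻¹ * y⁻¹) := by group
      _ = t * s * (s⁻¹ * t⁻¹ * (y * s * y⁻¹) * (y * t * y⁻¹)) * (y * s⁻¹ * t⁻¹ * y⁻¹) := by
          rw [h3]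
      _ = y * (s * t * s⁻¹ * t⁻¹) * y⁻¹ := by group
  rw [e, Subgroup.mem_centralizer_iff]
  intro k hk
  exact hel k hk _ (K.mul_mem (K.mul_mem (K.mul_mem hs ht) (K.inv_mem hs)) (K.inv_mem ht))


/-- Let K be a component of the finite group X and T a Sylow 2-subgroup of X. If some abelian normal subgroup Y of T does not normalize K, then K ⧸ Z(K) has abelian Sylow 2-subgroups. -/
theorem result {X : Type*} [Group X] [Finite X] (K : Subgroup X) (hK : Cfsg.IsComponent K) (T : Sylow 2 X) (Y : Subgroup X) (hYT : Y ≤ (T : Subgroup X)) (hYn : (Y.subgroupOf (T : Subgroup X)).Normal) (hYab : IsMulCommutative ↥Y) (hnot : ¬ Y ≤ Subgroup.normalizer (K : Set X)) (P : Sylow 2 (↥K ⧸ Subgroup.center ↥K)) : IsMulCommutative ↥(P : Subgroup (↥K ⧸ Subgroup.center ↥K)) := by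
  classical
  obtain ⟨y, hyY, hyN⟩ := SetLike.not_le_iff_exists.mp hnot
  have hy : K.map (MulAut.conj y).toMonoidHom ≠ K := fun h =>
    hyN (Cfsg.Agent.Lib.Helper18.mem_normalizer_of_map_conj_eq _ h)
  have hYn' : ∀ t ∈ (T : Subgroup X), ∀ u ∈ Y, t⁻¹ * u * t ∈ Y := by
    intro t ht u hu
    have h1 := hYn.conj_mem ⟨u, hYT hu⟩ (Subgroup.mem_subgroupOf.mpr hu) ⟨t⁻¹, inv_mem ht⟩
    have h2 := Subgroup.mem_subgroupOf.mp h1
    simpa using h2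
  have hcomY : ∀ a ∈ Y, ∀ b ∈ Y, a * b = b * a := by
    intro a ha b hb
    have := hYab.is_comm.comm ⟨a, ha⟩ ⟨b, hb⟩
    exact congrArg Subtype.val this
  have hinY : ∀ t ∈ (T : Subgroup X), t⁻¹ * (y * t * y⁻¹) ∈ Y := by
    intro t ht
    have := Y.mul_mem (hYn' t ht y hyY) (Y.inv_mem hyY)
    have e : t⁻¹ * (y * t * y⁻¹) = t⁻¹ * y * t * y⁻¹ := by group
    rw [e]; exact this
  have hkey : ∀ t ∈ (T : Subgroup X) ⊓ K, ∀ s ∈ (T : Subgroup X) ⊓ K,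
      t * s * t⁻¹ * s⁻¹ ∈ Subgroup.centralizer (K : Set X) := by
    intro t ht s hs
    exact key K hK y hy t s ht.2 hs.2 (hcomY _ (hinY t ht.1) _ (hinY s hs.1))
  have hcard : Nat.card ↥(((T : Subgroup X) ⊓ K).subgroupOf K) =
      2 ^ (Nat.card ↥K).factorization 2 := by
    rw [← Cfsg.Agent.Lib.Helper19.card_sylow_inf_subnormal T hK.1]
    exact Nat.card_congr (Subgroup.subgroupOfEquivOfLe inf_le_right).toEquiv
  obtain ⟨TK, hTK⟩ : ∃ TK : Sylow 2 ↥K,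
      (TK : Subgroup ↥K) = ((T : Subgroup X) ⊓ K).subgroupOf K :=
    ⟨Sylow.ofCard _ hcard, Sylow.coe_ofCard _ _⟩
  obtain ⟨R, hR⟩ := Sylow.mapSurjective_surjective
    (QuotientGroup.mk'_surjective (Subgroup.center ↥K)) 2 P
  obtain ⟨g, hg⟩ := MulAction.exists_smul_eq ↥K TK R
  have hRmem : ∀ a ∈ (R : Subgroup ↥K), g⁻¹ * a * g ∈ (TK : Subgroup ↥K) := by
    intro a ha
    rw [← hg, Sylow.coe_subgroup_smul, Subgroup.mem_pointwise_smul_iff_inv_smul_mem] at ha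
    simpa [MulAut.smul_def, MulAut.conj_inv_apply] using ha
  have hz : ∀ a0 ∈ (R : Subgroup ↥K), ∀ b0 ∈ (R : Subgroup ↥K),
      a0 * b0 * a0⁻¹ * b0⁻¹ ∈ Subgroup.center ↥K := by
    intro a0 ha0 b0 hb0
    have ht := hRmem a0 ha0
    have hs := hRmem b0 hb0
    rw [hTK, Subgroup.mem_subgroupOf] at ht hs
    have hc := hkey _ ht _ hs
    have hcen : (g⁻¹ * a0 * g) * (g⁻¹ * b0 * g) * (g⁻¹ * a0 * g)⁻¹ * (g⁻¹ * b0 * g)⁻¹ ∈
        Subgroup.center ↥K := by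
      rw [Subgroup.mem_center_iff]
      intro k
      apply Subtype.ext
      have := (Subgroup.mem_centralizer_iff.mp hc) (k : X) k.2
      simpa using this
    have hn : (Subgroup.center ↥K).Normal := inferInstance
    have := hn.conj_mem _ hcen g
    have e : g * ((g⁻¹ * a0 * g) * (g⁻¹ * b0 * g) * (g⁻¹ * a0 * g)⁻¹ * (g⁻¹ * b0 * g)⁻¹) * g⁻¹ =
        a0 * b0 * a0⁻¹ * b0⁻¹ := by group
    rw [e] at this
    exact this
  refine ⟨⟨fun a b => ?_⟩⟩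
  obtain ⟨a, ha⟩ := a
  obtain ⟨b, hb⟩ := b
  apply Subtype.ext
  show a * b = b * a
  rw [← hR, Sylow.coe_mapSurjective] at ha hb
  obtain ⟨a0, ha0, rfl⟩ := ha
  obtain ⟨b0, hb0, rfl⟩ := hb
  have h1 := hz a0 ha0 b0 hb0
  have h2 : (QuotientGroup.mk' (Subgroup.center ↥K)) (a0 * b0 * a0⁻¹ * b0⁻¹) = 1 :=
    (QuotientGroup.eq_one_iff _).mpr h1
  rw [map_mul, map_mul, map_mul, map_inv, map_inv] at h2
  have h3 := mul_inv_eq_one.mp h2
  have h4 := mul_inv_eq_iff_eq_mul.mp h3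
  exact h4

end Cfsg.Agent.S2925
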