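import Cfsg.Statements.S2939
import Cfsg.Agent.Lib.Helper18.SylCtl

set_option autoImplicit false
open Cfsg

namespace Cfsg.Agent.S2939

open Cfsg.Agent.Lib.Helper18

/-- iterated products `x_{k-1} ⋯ x_0`. -/
def wprod {G : Type*} [Group G] {n : ℕ} (x : Fin n → G) : ℕ → G
  | 0 => 1
  | k + 1 => if h : k < n then x ⟨k, h⟩ * wprod x k else wprod x k

theorem wprod_zero {G : Type*} [Group G] {n : ℕ} (x : Fin n → G) : wprod x 0 = 1 := rfl

theorem wprod_succ {G : Type*} [Group G] {n : ℕ} (x : Fin n → G) (k : ℕ) (h : k < n) :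
    wprod x (k + 1) = x ⟨k, h⟩ * wprod x k := by
  show (if h : k < n then x ⟨k, h⟩ * wprod x k else wprod x k) = _
  rw [dif_pos h]

theorem take_prod_eq {G : Type*} [Group G] {n : ℕ} (x : Fin n → G) (k : ℕ) (hk : k ≤ n) :
    ((List.ofFn (fun i : Fin n => (wprod x i.val)⁻¹ * x i * wprod x i.val)).take k).prod
      = wprod x k := by
  induction k with
  | zero => simp [wprod_zero]
  | succ k ih =>
    have hk' : k < n := hk
    rw [List.prod_take_succ _ _ (by rw [List.length_ofFn]; exact hk'), ih (le_of_lt hk'),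
      List.getElem_ofFn, wprod_succ x k hk']
    group

theorem forward {G : Type*} [Group G] [Finite G] {p : ℕ} [Fact p.Prime] (𝓕 : Set (Subgroup G))
    (h𝓕 : Cfsg.IsNormalSet 𝓕) (hc : Cfsg.ControlsSylowIntersections p 𝓕) :
    Cfsg.FamilyStronglyControlsFusion p 𝓕 := by
  intro S A g hAS hA1 hAg
  by_cases hST : S = sylowConj S g
  · refine ⟨0, Fin.elim0, Fin.elim0, g, ?_, fun i => i.elim0, by simp, fun i => i.elim0⟩
    apply mem_normalizer_of_map_conj_eq
    have := congrArg (fun P : Sylow p G => (P : Subgroup G)) hST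
    exact this.symm
  · have hAT : ∀ a ∈ A, a ∈ (S : Subgroup G).map (MulAut.conj g).toMonoidHom := by
      intro a ha
      rw [mem_map_conj_iff]
      exact hAg ⟨a, ha, rfl⟩
    have hint : (S : Subgroup G) ⊓ (sylowConj S g : Subgroup G) ≠ ⊥ := by
      obtain ⟨a, ha, ha1⟩ := hA1
      intro e
      apply ha1
      have : a ∈ (S : Subgroup G) ⊓ (sylowConj S g : Subgroup G) :=
        Subgroup.mem_inf.mpr ⟨hAS ha, hAT a ha⟩
      rw [e] at this
      exact Subgroup.mem_bot.mp this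
    obtain ⟨n, c, X, x, hc0, hcn, hlink⟩ := hc S (sylowConj S g) hST hint
    have hW1 : ∀ k (hk : k ≤ n),
        ((c ⟨k, by omega⟩ : Sylow p G) : Subgroup G).map (MulAut.conj (wprod x k)⁻¹).toMonoidHom
          = (S : Subgroup G) := by
      intro k
      induction k with
      | zero =>
        intro _
        rw [wprod_zero, inv_one, map_conj_one]
        exact congrArg (fun P : Sylow p G => (P : Subgroup G)) hc0
      | succ k ih =>
        intro hk
        have hk' : k < n := hk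
        obtain ⟨-, -, -, hconj, -⟩ := hlink ⟨k, hk'⟩
        unfold Cfsg.subgroupConjRight at hconj
        rw [wprod_succ x k hk', mul_inv_rev, map_conj_mul]
        have e : ((c ⟨k + 1, by omega⟩ : Sylow p G) : Subgroup G).map
            (MulAut.conj (x ⟨k, hk'⟩)⁻¹).toMonoidHom = ((c ⟨k, by omega⟩ : Sylow p G) : Subgroup G) :=
          hconj
        rw [e]
        exact ih (le_of_lt hk')
    refine ⟨n, fun i => (X i).map (MulAut.conj (wprod x i.val)⁻¹).toMonoidHom,
      fun i => (wprod x i.val)⁻¹ * x i * wprod x i.val, (wprod x n)⁻¹ * g, ?_, ?_, ?_, ?_⟩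
    · apply mem_normalizer_of_map_conj_eq
      rw [map_conj_mul]
      have e : (S : Subgroup G).map (MulAut.conj g).toMonoidHom
          = ((c ⟨n, by omega⟩ : Sylow p G) : Subgroup G) :=
        (congrArg (fun P : Sylow p G => (P : Subgroup G)) hcn).symm
      rw [e]
      exact hW1 n le_rfl
    · intro i
      obtain ⟨hX1, -, hx, -, -⟩ := hlink i
      constructor
      · have := sylowMembers_map_conj h𝓕 hX1 (wprod x i.val)⁻¹
        have e := hW1 i.val (le_of_lt i.2)
        have e' : ((c i.castSucc : Sylow p G) : Subgroup G).map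
            (MulAut.conj (wprod x i.val)⁻¹).toMonoidHom = (S : Subgroup G) := e
        rw [e'] at this
        exact this
      · have := conj_mem_map_conj (X i) (wprod x i.val)⁻¹ hx
        rw [inv_inv] at this
        exact this
    · have h1 := take_prod_eq x n le_rfl
      rw [List.take_of_length_le (by rw [List.length_ofFn])] at h1
      rw [h1]; group
    · intro i
      rintro _ ⟨a, ha, rfl⟩
      obtain ⟨-, -, hx, -, hle⟩ := hlink i
      have haST : a ∈ (S : Subgroup G) ⊓ (sylowConj S g : Subgroup G) :=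
        Subgroup.mem_inf.mpr ⟨hAS ha, hAT a ha⟩
      have ha2 := hle haST
      have hpre := take_prod_eq x (i.val + 1) i.2
      have hpre' : ((List.ofFn (fun i : Fin n => (wprod x i.val)⁻¹ * x i * wprod x i.val)).take
          (i.val + 1)).prod = x i * wprod x i.val := by
        rw [hpre, wprod_succ x i.val i.2]
      show (_)⁻¹ * a * _ ∈ _
      rw [hpre']
      constructor
      · have e := hW1 (i.val + 1) i.2
        have e' : ((c i.succ : Sylow p G) : Subgroup G).map
            (MulAut.conj (wprod x (i.val + 1))⁻¹).toMonoidHom = (S : Subgroup G) := e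
        have := conj_mem_map_conj _ (wprod x (i.val + 1))⁻¹ (Subgroup.mem_inf.mp ha2).1
        rw [e', inv_inv, wprod_succ x i.val i.2] at this
        exact this
      · show _ ∈ (X i).map (MulAut.conj (wprod x i.val)⁻¹).toMonoidHom
        rw [mem_map_conj_iff]
        have h3 : (x i)⁻¹ * a * x i ∈ X i :=
          (X i).mul_mem ((X i).mul_mem ((X i).inv_mem hx) (Subgroup.mem_inf.mp ha2).2) hx
        have e : (wprod x i.val)⁻¹⁻¹ * ((x i * wprod x i.val)⁻¹ * a * (x i * wprod x i.val)) *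
            (wprod x i.val)⁻¹ = (x i)⁻¹ * a * x i := by group
        rw [e]; exact h3

theorem backward {G : Type*} [Group G] [Finite G] {p : ℕ} [Fact p.Prime] (𝓕 : Set (Subgroup G))
    (h𝓕 : Cfsg.IsNormalSet 𝓕) (hf : Cfsg.FamilyStronglyControlsFusion p 𝓕) :
    Cfsg.ControlsSylowIntersections p 𝓕 := by
  intro S T hST hint
  obtain ⟨h, hh⟩ : ∃ h : G,
      (T : Subgroup G) = (S : Subgroup G).map (MulAut.conj h⁻¹).toMonoidHom := by
    obtain ⟨c, hc⟩ := MulAction.exists_smul_eq G S T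
    refine ⟨c⁻¹, ?_⟩
    rw [← hc, coe_smul_sylow, inv_inv]
  obtain ⟨b₀, hb₀, hb₀1⟩ : ∃ b ∈ (S : Subgroup G) ⊓ (T : Subgroup G), b ≠ 1 := by
    by_contra hcon
    push Not at hcon
    apply hint
    rw [eq_bot_iff]
    intro x hx
    exact Subgroup.mem_bot.mpr (hcon x hx)
  have hTS : ∀ b ∈ (T : Subgroup G), h * b * h⁻¹ ∈ (S : Subgroup G) := by
    intro b hb
    rw [hh, mem_map_conj_iff, inv_inv] at hb
    exact hb
  have hA1 : {a : G | h⁻¹ * a * h ∈ (S : Subgroup G) ⊓ (T : Subgroup G)} ⊆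
      ((S : Subgroup G) : Set G) := by
    intro a ha
    have h2 := hTS _ (Subgroup.mem_inf.mp ha).2
    have e : h * (h⁻¹ * a * h) * h⁻¹ = a := by group
    rw [e] at h2
    exact h2
  have hmemA : ∀ b ∈ (S : Subgroup G) ⊓ (T : Subgroup G),
      h * b * h⁻¹ ∈ {a : G | h⁻¹ * a * h ∈ (S : Subgroup G) ⊓ (T : Subgroup G)} := by
    intro b hb
    show h⁻¹ * (h * b * h⁻¹) * h ∈ (S : Subgroup G) ⊓ (T : Subgroup G)
    have e : h⁻¹ * (h * b * h⁻¹) * h = b := by group
    rw [e]; exact hb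
  have hA2 : ∃ a ∈ {a : G | h⁻¹ * a * h ∈ (S : Subgroup G) ⊓ (T : Subgroup G)}, a ≠ 1 := by
    refine ⟨h * b₀ * h⁻¹, hmemA b₀ hb₀, ?_⟩
    intro e
    apply hb₀1
    have : b₀ = h⁻¹ * (h * b₀ * h⁻¹) * h := by group
    rw [this, e]; group
  have hA3 : Cfsg.conjRight h {a : G | h⁻¹ * a * h ∈ (S : Subgroup G) ⊓ (T : Subgroup G)} ⊆
      ((S : Subgroup G) : Set G) := by
    rintro _ ⟨a, ha, rfl⟩
    exact (Subgroup.mem_inf.mp ha).1
  obtain ⟨n, Y, y, y₀, hy₀, hY, hprod, hpre⟩ := hf S _ h hA1 hA2 hA3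
  obtain ⟨u, hu⟩ : ∃ u : ℕ → G, ∀ k, u k = (((List.ofFn y).take k).prod)⁻¹ * h :=
    ⟨_, fun _ => rfl⟩
  have hu0 : u 0 = h := by rw [hu]; simp
  have hun : u n = y₀ := by
    rw [hu, List.take_of_length_le (by rw [List.length_ofFn])]
    conv_lhs => rw [hprod]
    group
  have hus : ∀ i : Fin n, u i.val = y i * u (i.val + 1) := by
    intro i
    rw [hu, hu, List.prod_take_succ _ _ (by rw [List.length_ofFn]; exact i.2), List.getElem_ofFn]
    group
  have hF45 : ∀ i : Fin n, ∀ b ∈ (S : Subgroup G) ⊓ (T : Subgroup G),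
      u (i.val + 1) * b * (u (i.val + 1))⁻¹ ∈ (S : Subgroup G) ∧
      u (i.val + 1) * b * (u (i.val + 1))⁻¹ ∈ Y i := by
    intro i b hb
    have h1 := hpre i ⟨h * b * h⁻¹, hmemA b hb, rfl⟩
    have e : (((List.ofFn y).take (i.val + 1)).prod)⁻¹ * (h * b * h⁻¹) *
        ((List.ofFn y).take (i.val + 1)).prod = u (i.val + 1) * b * (u (i.val + 1))⁻¹ := by
      rw [hu]; group
    rw [← e]
    exact h1
  have hF4 : ∀ k, k ≤ n → ∀ b ∈ (S : Subgroup G) ⊓ (T : Subgroup G),
      u k * b * (u k)⁻¹ ∈ (S : Subgroup G) := by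
    intro k hk b hb
    rcases k with _ | k
    · rw [hu0]; exact hTS b (Subgroup.mem_inf.mp hb).2
    · exact (hF45 ⟨k, hk⟩ b hb).1
  refine ⟨n, fun j => sylowConj S (u (n - j.val))⁻¹,
    fun j => (Y (Fin.rev j)).map (MulAut.conj (u ((Fin.rev j).val + 1))⁻¹).toMonoidHom,
    fun j => (u ((Fin.rev j).val + 1))⁻¹ * (y (Fin.rev j))⁻¹ * u ((Fin.rev j).val + 1), ?_, ?_, ?_⟩
  · apply Sylow.ext
    show (S : Subgroup G).map (MulAut.conj (u (n - (0 : Fin (n+1)).val))⁻¹).toMonoidHom = S
    rw [Fin.val_zero, Nat.sub_zero, hun]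
    exact map_conj_eq_of_mem_normalizer _ (Subgroup.inv_mem _ hy₀)
  · apply Sylow.ext
    show (S : Subgroup G).map (MulAut.conj (u (n - (Fin.last n).val))⁻¹).toMonoidHom = T
    rw [Fin.val_last, Nat.sub_self, hu0, hh]
  · intro j
    have e1 : n - (j.castSucc : Fin (n + 1)).val = (Fin.rev j).val + 1 := by
      rw [Fin.val_rev, Fin.val_castSucc]; omega
    have e2 : n - (j.succ : Fin (n + 1)).val = (Fin.rev j).val := by
      rw [Fin.val_rev, Fin.val_succ]
    have hc1 : ((sylowConj S (u (n - (j.castSucc : Fin (n+1)).val))⁻¹ : Sylow p G) : Subgroup G)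
        = (S : Subgroup G).map (MulAut.conj (u ((Fin.rev j).val + 1))⁻¹).toMonoidHom := by
      rw [coe_sylowConj, e1]
    have hc2 : ((sylowConj S (u (n - (j.succ : Fin (n+1)).val))⁻¹ : Sylow p G) : Subgroup G)
        = (S : Subgroup G).map (MulAut.conj (u (Fin.rev j).val)⁻¹).toMonoidHom := by
      rw [coe_sylowConj, e2]
    dsimp only
    rw [hc1, hc2]
    generalize Fin.rev j = i
    obtain ⟨hYi, hyi⟩ := hY i
    have hui := hus i
    refine ⟨sylowMembers_map_conj h𝓕 hYi _, ?_, ?_, ?_, ?_⟩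
    · have h1 := sylowMembers_map_conj h𝓕 hYi (y i)⁻¹
      have h2 : (Y i).map (MulAut.conj (y i)⁻¹).toMonoidHom = Y i :=
        map_conj_eq_of_mem_normalizer _ (Subgroup.le_normalizer ((Y i).inv_mem hyi))
      rw [h2] at h1
      have h3 := sylowMembers_map_conj h𝓕 h1 (u (i.val + 1))⁻¹
      rw [← map_conj_mul] at h3
      have e : (u (i.val + 1))⁻¹ * (y i)⁻¹ = (u i.val)⁻¹ := by rw [hui]; group
      rw [e] at h3
      exact h3
    · have := conj_mem_map_conj (Y i) (u (i.val + 1))⁻¹ ((Y i).inv_mem hyi)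
      rw [inv_inv] at this
      exact this
    · unfold Cfsg.subgroupConjRight
      rw [← map_conj_mul]
      have e : ((u (i.val + 1))⁻¹ * (y i)⁻¹ * u (i.val + 1))⁻¹ * (u i.val)⁻¹
          = (u (i.val + 1))⁻¹ := by rw [hui]; group
      rw [e]
    · intro b hb
      refine Subgroup.mem_inf.mpr ⟨?_, ?_⟩
      · rw [mem_map_conj_iff, inv_inv]
        exact hF4 i.val (le_of_lt i.2) b hb
      · rw [mem_map_conj_iff, inv_inv]
        exact (hF45 i b hb).2

/-- Let p be a prime dividing the order of the finite group G and 𝓕 a family of subgroups of G closed under conjugation, with conjugates taken as X^g = g⁻¹Xg. Then 𝓕 controls Sylow p-intersections in G (any two distinct Sylow p-subgroups S and T with S ∩ T ≠ 1 are joined by a chain S = S₀, S₁, …, Sₙ = T of Sylow p-subgroups where, for each i, some member Xᵢ of 𝓕 meets both S_{i-1} and Sᵢ in Sylow p-subgroups of Xᵢ, satisfies S ∩ T ≤ Sᵢ ∩ Xᵢ, and contains an element xᵢ with Sᵢ^{xᵢ} = S_{i-1}) if and only if 𝓕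 strongly controls p-fusion in G (whenever A is a subset of a Sylow p-subgroup S, A contains an element other than 1, and A^g ⊆ S, the element g factorises as g = y₁⋯yₙy with y ∈ N_G(S) and each yᵢ in a member Yᵢ of 𝓕 that meets S in a Sylow p-subgroup of Yᵢ, with A^{y₁⋯yᵢ} ⊆ S ∩ Yᵢ for each i). -/
theorem result {G : Type*} [Group G] [Finite G] {p : ℕ} [Fact p.Prime] (hdiv : p ∣ Nat.card G) (𝓕 : Set (Subgroup G)) (h𝓕 : Cfsg.IsNormalSet 𝓕) : Cfsg.ControlsSylowIntersections p 𝓕 ↔ Cfsg.FamilyStronglyControlsFusion p 𝓕 := by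
  exact ⟨forward 𝓕 h𝓕, backward 𝓕 h𝓕⟩

end Cfsg.Agent.S2939
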