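import Cfsg.Statements.S2940
import Cfsg.Agent.Lib.Helper18.SylowL

set_option autoImplicit false
open Cfsg

namespace Cfsg.Agent.S2940

open Cfsg.Agent.Lib.Helper18

/-- Let S be a Sylow p-subgroup of the finite group G and G₁, G₂ subgroups containing S with G = G₁G₂. Then for every g ∈ G there is a Sylow p-subgroup U of G with S ∩ S^g ≤ U ≤ G₁ ∩ G₂^g (conjugates taken as X^g = g⁻¹Xg). -/
theorem result {G : Type*} [Group G] [Finite G] {p : ℕ} [Fact p.Prime] (S : Sylow p G) (G₁ G₂ : Subgroup G) (h1 : (S : Subgroup G) ≤ G₁) (h2 : (S : Subgroup G) ≤ G₂) (hfact : ∀ g : G, ∃ g₁ ∈ G₁, ∃ g₂ ∈ G₂, g = g₁ * g₂) (g : G) : ∃ U : Sylow p G, (S : Subgroup G) ⊓ Cfsg.subgroupConjRight g (S : Subgroup G) ≤ (U : Subgroup G) ∧ (U : Subgroup G) ≤ G₁ ⊓ Cfsg.subgroupConjRight g G₂ := by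
  obtain ⟨g₁, hg₁, g₂, hg₂, hg⟩ := hfact g⁻¹
  -- g = g₂⁻¹ * g₁⁻¹
  have hgeq : g⁻¹ = g₁ * g₂ := hg
  have hM1 : (sylowConj S g₁ : Subgroup G) ≤ G₁ := by
    rw [coe_sylowConj]
    rintro x ⟨s, hs, rfl⟩
    simp only [MulEquiv.coe_toMonoidHom, MulAut.conj_apply]
    exact G₁.mul_mem (G₁.mul_mem hg₁ (h1 hs)) (G₁.inv_mem hg₁)
  have hM2 : (sylowConj S g₁ : Subgroup G) ≤ Cfsg.subgroupConjRight g G₂ := by
    rw [coe_sylowConj]
    rintro x ⟨s, hs, rfl⟩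
    unfold Cfsg.subgroupConjRight
    rw [mem_map_conj_iff]
    simp only [MulEquiv.coe_toMonoidHom, MulAut.conj_apply]
    rw [hgeq]
    have e : (g₁ * g₂)⁻¹ * (g₁ * s * g₁⁻¹) * (g₁ * g₂) = g₂⁻¹ * s * g₂ := by group
    rw [e]
    exact G₂.mul_mem (G₂.mul_mem (G₂.inv_mem hg₂) (h2 hs)) hg₂
  have hQ : IsPGroup p ((S : Subgroup G) ⊓ Cfsg.subgroupConjRight g (S : Subgroup G) : Subgroup G) :=
    S.isPGroup'.to_le inf_le_left
  have hQM : (S : Subgroup G) ⊓ Cfsg.subgroupConjRight g (S : Subgroup G) ≤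
      G₁ ⊓ Cfsg.subgroupConjRight g G₂ := by
    apply inf_le_inf h1
    unfold Cfsg.subgroupConjRight
    exact Subgroup.map_mono h2
  obtain ⟨U, hU1, hU2⟩ := exists_sylow_between hQ hQM (sylowConj S g₁) (le_inf hM1 hM2)
  exact ⟨U, hU1, hU2⟩

end Cfsg.Agent.S2940
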