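import Cfsg.Statements.S2955
import Cfsg.Agent.Lib.Helper18.SylCtl

set_option autoImplicit false
open Cfsg

namespace Cfsg.Agent.S2955

open Cfsg.Agent.Lib.Helper18

theorem step {G : Type*} [Group G] {p : ℕ} {𝓕 : Set (Subgroup G)}
    (h𝓕 : Cfsg.IsNormalSet 𝓕) {S K : Subgroup G}
    (hK : ∀ Y ∈ Cfsg.sylowMembers p 𝓕 S, Y ≤ K)
    {T T' X : Subgroup G} {x : G} (hT : ∃ k ∈ K, T = S.map (MulAut.conj k).toMonoidHom)
    (hX : X ∈ Cfsg.sylowMembers p 𝓕 T) (hx : x ∈ X) (hTT' : Cfsg.subgroupConjRight x T' = T) :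
    ∃ k ∈ K, T' = S.map (MulAut.conj k).toMonoidHom := by
  obtain ⟨k, hk, rfl⟩ := hT
  have hY := sylowMembers_map_conj h𝓕 hX k⁻¹
  rw [map_conj_inv_map_conj] at hY
  have hYK := hK _ hY
  have hxk : k⁻¹ * x * k ∈ K :=
    hYK (by have := conj_mem_map_conj X k⁻¹ hx; simpa using this)
  refine ⟨x * k, ?_, ?_⟩
  · have : x * k = k * (k⁻¹ * x * k) := by group
    rw [this]; exact K.mul_mem hk hxk
  · unfold Cfsg.subgroupConjRight at hTT'
    rw [map_conj_eq_iff, inv_inv] at hTT'
    rw [hTT', map_conj_mul]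

/-- Let p be a prime dividing the order of the finite group G and 𝓕 a conjugation-closed family of subgroups that controls Sylow p-intersections in G. Suppose the Sylow p-subgroups of G are chain-connected: any two of them are joined by a chain of Sylow p-subgroups, consecutive ones distinct with nontrivial intersection, all containing the intersection of the two ends (equivalently, the graph on the Sylow p-subgroups whose edges are the distinct pairs meeting nontrivially is connected). Then for every Sylow p-subgroup S, G is generated by N_G(S) together with the members of 𝓕 that meet S in a Sylow p-subgroup of themselves. -/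
theorem result {G : Type*} [Group G] [Finite G] (p : ℕ) [Fact p.Prime] (hdiv : p ∣ Nat.card G)
    (𝓕 : Set (Subgroup G)) (h𝓕 : Cfsg.IsNormalSet 𝓕) (hc : Cfsg.ControlsSylowIntersections p 𝓕)
    (hconn : Cfsg.IsSylowChainConnected p G) (S : Sylow p G) :
    (⨆ X ∈ Cfsg.sylowMembers p 𝓕 (S : Subgroup G), X) ⊔ Subgroup.normalizer ((S : Subgroup G) : Set G) = ⊤ := by
  rw [eq_top_iff]
  intro g _
  have hKm : ∀ Y ∈ Cfsg.sylowMembers p 𝓕 (S : Subgroup G),
      Y ≤ (⨆ X ∈ Cfsg.sylowMembers p 𝓕 (S : Subgroup G), X) ⊔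
        Subgroup.normalizer ((S : Subgroup G) : Set G) :=
    fun Y hY => le_sup_of_le_left (le_iSup₂_of_le Y hY le_rfl)
  have hNK : Subgroup.normalizer ((S : Subgroup G) : Set G) ≤
      (⨆ X ∈ Cfsg.sylowMembers p 𝓕 (S : Subgroup G), X) ⊔
        Subgroup.normalizer ((S : Subgroup G) : Set G) := le_sup_right
  generalize (⨆ X ∈ Cfsg.sylowMembers p 𝓕 (S : Subgroup G), X) ⊔
        Subgroup.normalizer ((S : Subgroup G) : Set G) = K at hKm hNK ⊢
  obtain ⟨n, c, hc0, hcn, -, hstep⟩ := hconn S (sylowConj S g)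
  have hreach : ∀ i : Fin (n + 1), ∃ k ∈ K,
      (c i : Subgroup G) = (S : Subgroup G).map (MulAut.conj k).toMonoidHom := by
    intro i
    induction i using Fin.induction with
    | zero => exact ⟨1, Subgroup.one_mem _, by rw [hc0, map_conj_one]⟩
    | succ i ih =>
      obtain ⟨hne, hint⟩ := hstep i
      obtain ⟨m, d, X, x, hd0, hdm, hd⟩ := hc _ _ hne hint
      have hr : ∀ j : Fin (m + 1), ∃ k ∈ K,
          (d j : Subgroup G) = (S : Subgroup G).map (MulAut.conj k).toMonoidHom := by
        intro j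
        induction j using Fin.induction with
        | zero => rw [hd0]; exact ih
        | succ j ihj =>
          obtain ⟨hX1, -, hx, hconj, -⟩ := hd j
          exact step h𝓕 hKm ihj hX1 hx hconj
      have := hr (Fin.last m)
      rwa [hdm] at this
  obtain ⟨k, hk, e⟩ := hreach (Fin.last n)
  rw [hcn, coe_sylowConj] at e
  have hkg : k⁻¹ * g ∈ Subgroup.normalizer ((S : Subgroup G) : Set G) := by
    apply mem_normalizer_of_map_conj_eq
    rw [map_conj_mul, e, map_conj_inv_map_conj]
  have : g = k * (k⁻¹ * g) := by group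
  rw [this]
  exact Subgroup.mul_mem _ hk (hNK hkg)

end Cfsg.Agent.S2955
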