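import Cfsg.Statements.S2956
import Cfsg.Agent.Lib.Helper18.FReg

set_option autoImplicit false
open Cfsg

namespace Cfsg.Agent.S2956

open Cfsg.Agent.Lib.Helper18

section

variable {G : Type*} [Group G] [Finite G] {p : ℕ} [Fact p.Prime]

theorem card_lt_of_lt' {H K : Subgroup G} (h : H < K) : Nat.card H < Nat.card K := by
  by_contra hcon
  exact h.ne (Subgroup.eq_of_le_of_card_ge h.le (not_lt.mp hcon))

theorem isSylowIn_card_eq {A B K : Subgroup G} (hA : IsSylowIn p A K) (hB : IsSylowIn p B K) :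
    Nat.card A = Nat.card B := by
  obtain ⟨c, -, e⟩ := hA.exists_conj_eq hB
  rw [e, card_map_conj]

theorem isSylowIn_conj_mem {S M : Subgroup G} (hS : IsSylowIn p S M) {x : G} (hx : x ∈ M) :
    IsSylowIn p (S.map (MulAut.conj x).toMonoidHom) M := by
  have := hS.map_conj x
  rwa [map_conj_eq_of_mem_normalizer M (Subgroup.le_normalizer hx)] at this

theorem smul_sylow_le {S : Subgroup G} {A : Sylow p G} (h : S ≤ (A : Subgroup G)) (x : G) :
    S.map (MulAut.conj x).toMonoidHom ≤ ((x • A : Sylow p G) : Subgroup G) := by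
  rw [coe_smul_sylow]; exact Subgroup.map_mono h

theorem exists_maximal_plocal {L₀ : Subgroup G} (h : Cfsg.IsPLocal p L₀) :
    ∃ M, Cfsg.IsMaximalPLocal p M ∧ L₀ ≤ M := by
  obtain ⟨M, hLM, hM⟩ := Set.Finite.exists_le_maximal
    (s := {N : Subgroup G | Cfsg.IsPLocal p N}) (Set.toFinite _) h
  exact ⟨M, ⟨hM.1, fun N hN hMN => le_antisymm (hM.2 hN hMN) hMN⟩, hLM⟩

/-- `Θ(D)`: any two Sylow subgroups containing `D` are linked through `D`. -/
def Theta (p : ℕ) (𝒢 : Set (Subgroup G)) (D : Subgroup G) : Prop :=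
  ∀ A B : Sylow p G, D ≤ (A : Subgroup G) → D ≤ (B : Subgroup G) → Linked p 𝒢 D A B

/-- `Φ_k(D)`. -/
def Phi (p : ℕ) (𝒢 : Set (Subgroup G)) (D : Subgroup G) (k : ℕ) : Prop :=
  ∀ (L₀ : Subgroup G), Cfsg.IsPLocal p L₀ → ∀ A₁ B₁ : Subgroup G, IsSylowIn p A₁ L₀ →
    IsSylowIn p B₁ L₀ → Nat.card A₁ = k → D ≤ A₁ → D ≤ B₁ → Nat.card D < k →
    ∀ A B : Sylow p G, A₁ ≤ (A : Subgroup G) → B₁ ≤ (B : Subgroup G) → Linked p 𝒢 D A B

theorem linkCase {f : Subgroup G → Set (Subgroup G)} {𝒢 : Set (Subgroup G)}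
    (hf : Cfsg.IsNormalizerFunctor p f)
    (hf1 : ∀ P : Subgroup G, IsPGroup p ↥P → P ≠ ⊥ → ∀ F ∈ f P, F ≠ ⊥)
    (G1 : ∀ (A : Sylow p G) (F : Subgroup G), F ∈ f (A : Subgroup G) →
      (⊤ ⊓ Subgroup.normalizer (F : Set G)) ∈ 𝒢)
    {D : Subgroup G}
    (hbig : ∀ D' : Subgroup G, IsPGroup p D' → Nat.card D < Nat.card D' → Theta p 𝒢 D')
    {k : ℕ} (hΦ : ∀ k', k < k' → Phi p 𝒢 D k') (hDk : Nat.card D < k)
    {M S P F : Subgroup G} {x : G} (hS : IsSylowIn p S M) (hSk : Nat.card S = k)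
    (hP : IsSylowIn p P M) (hF : F ∈ f P) (hSF : S ≤ Subgroup.normalizer (F : Set G))
    (hxF : x ∈ Subgroup.normalizer (F : Set G)) (hDS : D ≤ S)
    (hDS' : D ≤ S.map (MulAut.conj x).toMonoidHom) (A : Sylow p G) (hSA : S ≤ (A : Subgroup G)) :
    Linked p 𝒢 D A (x • A : Sylow p G) := by
  have hSp : IsPGroup p S := hS.2.1
  -- `F ∈ f S`
  have hFS : F ∈ f S := by
    have hPF : P ≤ Subgroup.normalizer (F : Set G) :=
      Subgroup.le_normalizer.trans ((hf P hP.2.1).1 F hF).2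
    have hP' : IsSylowIn p P (M ⊓ Subgroup.normalizer (F : Set G)) :=
      ⟨le_inf hP.1 hPF, hP.2.1, fun R hR hle hRK => hP.2.2 R hR hle (hRK.trans inf_le_left)⟩
    have hS' : IsSylowIn p S (M ⊓ Subgroup.normalizer (F : Set G)) :=
      ⟨le_inf hS.1 hSF, hS.2.1, fun R hR hle hRK => hS.2.2 R hR hle (hRK.trans inf_le_left)⟩
    obtain ⟨c, hc, e⟩ := hP'.exists_conj_eq hS'
    rw [e, (hf P hP.2.1).2 c]
    exact ⟨F, hF, map_conj_eq_of_mem_normalizer F (Subgroup.mem_inf.mp hc).2⟩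
  have hSne : S ≠ ⊥ := by
    intro e
    rw [e, Subgroup.card_bot] at hSk
    have : 0 < Nat.card D := Nat.card_pos
    omega
  have hF1 : F ≠ ⊥ := hf1 S hSp hSne F hFS
  have hFle : F ≤ S := ((hf S hSp).1 F hFS).1
  have hNS : Subgroup.normalizer (S : Set G) ≤ Subgroup.normalizer (F : Set G) :=
    ((hf S hSp).1 F hFS).2
  have hCle : ((x • A : Sylow p G) : Subgroup G) =
      (A : Subgroup G).map (MulAut.conj x).toMonoidHom := coe_smul_sylow A x
  by_cases hSAeq : S = (A : Subgroup G)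
  · have hX : (⊤ ⊓ Subgroup.normalizer (F : Set G)) ∈ 𝒢 := G1 A F (hSAeq ▸ hFS)
    have hAF : (A : Subgroup G) ≤ Subgroup.normalizer (F : Set G) := hSAeq ▸ hSF
    refine Linked.step (⊤ ⊓ Subgroup.normalizer (F : Set G)) x
      (mem_sylowMembers_of_le A hX (le_inf le_top hAF))
      (mem_sylowMembers_of_le _ hX (le_inf le_top ?_))
      (Subgroup.mem_inf.mpr ⟨Subgroup.mem_top _, hxF⟩) ?_ ?_ (Linked.refl _)
    · rw [hCle]
      rintro _ ⟨a, ha, rfl⟩
      exact Subgroup.mul_mem _ (Subgroup.mul_mem _ hxF (hAF ha)) (Subgroup.inv_mem _ hxF)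
    · unfold Cfsg.subgroupConjRight
      rw [hCle, map_conj_inv_map_conj]
    · refine le_inf ?_ (le_inf le_top ?_)
      · rw [hCle]; exact hDS'.trans (Subgroup.map_mono hSA)
      · refine hDS'.trans ?_
        rintro _ ⟨a, ha, rfl⟩
        exact Subgroup.mul_mem _ (Subgroup.mul_mem _ hxF (hSF ha)) (Subgroup.inv_mem _ hxF)
  · obtain ⟨y, hyA, hyN, hyS⟩ :=
      exists_mem_normalizer_not_mem A.isPGroup' (lt_of_le_of_ne hSA hSAeq)
    have hSE : S < (A : Subgroup G) ⊓ Subgroup.normalizer (S : Set G) := by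
      refine lt_of_le_of_ne (le_inf hSA Subgroup.le_normalizer) ?_
      intro e
      apply hyS
      rw [e]; exact Subgroup.mem_inf.mpr ⟨hyA, hyN⟩
    have hEp : IsPGroup p ((A : Subgroup G) ⊓ Subgroup.normalizer (S : Set G) : Subgroup G) :=
      A.isPGroup'.to_le inf_le_left
    have hEk : k < Nat.card ((A : Subgroup G) ⊓ Subgroup.normalizer (S : Set G) : Subgroup G) := by
      rw [← hSk]; exact card_lt_of_lt' hSE
    have hEF : (A : Subgroup G) ⊓ Subgroup.normalizer (S : Set G) ≤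
        Subgroup.normalizer (F : Set G) := inf_le_right.trans hNS
    have hloc : Cfsg.IsPLocal p (Subgroup.normalizer (F : Set G)) :=
      ⟨F, hSp.to_le hFle, hF1, rfl⟩
    obtain ⟨A₃, hA₃, hEA₃⟩ := exists_isSylowIn_ge hEp hEF
    obtain ⟨A₃', hA₃'⟩ := hA₃.2.1.exists_le_sylow
    have hk₃ : k < Nat.card A₃ := lt_of_lt_of_le hEk (Subgroup.card_le_of_le hEA₃)
    have hB₃ : IsSylowIn p (A₃.map (MulAut.conj x).toMonoidHom)
        (Subgroup.normalizer (F : Set G)) := isSylowIn_conj_mem hA₃ hxF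
    -- three links
    have T1 : Linked p 𝒢 D A A₃' :=
      (hbig _ hEp (lt_trans hDk hEk) A A₃' inf_le_left (hEA₃.trans hA₃')).mono subset_rfl
        (hDS.trans hSE.le)
    have T2 : Linked p 𝒢 D A₃' (x • A₃' : Sylow p G) :=
      hΦ _ hk₃ _ hloc A₃ _ hA₃ hB₃ rfl (hDS.trans (hSE.le.trans hEA₃))
        (hDS'.trans (Subgroup.map_mono (hSE.le.trans hEA₃))) (lt_trans hDk hk₃) A₃' _ hA₃'
        (smul_sylow_le hA₃' x)
    have hEx : IsPGroup p
        (((A : Subgroup G) ⊓ Subgroup.normalizer (S : Set G)).map (MulAut.conj x).toMonoidHom) :=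
      hEp.map _
    have T3 : Linked p 𝒢 D (x • A₃' : Sylow p G) (x • A : Sylow p G) :=
      (hbig _ hEx (by rw [card_map_conj]; exact lt_trans hDk hEk) _ _
        (smul_sylow_le (hEA₃.trans hA₃') x) (smul_sylow_le inf_le_left x)).mono subset_rfl
        (hDS'.trans (Subgroup.map_mono hSE.le))
    exact (T1.trans T2).trans T3

theorem chainCase {f : Subgroup G → Set (Subgroup G)} {𝒢 : Set (Subgroup G)}
    (hf : Cfsg.IsNormalizerFunctor p f)
    (hf1 : ∀ P : Subgroup G, IsPGroup p ↥P → P ≠ ⊥ → ∀ F ∈ f P, F ≠ ⊥)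
    (G1 : ∀ (A : Sylow p G) (F : Subgroup G), F ∈ f (A : Subgroup G) →
      (⊤ ⊓ Subgroup.normalizer (F : Set G)) ∈ 𝒢)
    {D : Subgroup G}
    (hbig : ∀ D' : Subgroup G, IsPGroup p D' → Nat.card D < Nat.card D' → Theta p 𝒢 D')
    {k : ℕ} (hΦ : ∀ k', k < k' → Phi p 𝒢 D k') (hDk : Nat.card D < k)
    {M A' B' : Subgroup G} (h : RLinked p f M D A' B') :
    IsSylowIn p A' M → Nat.card A' = k → D ≤ A' →
    ∀ A B : Sylow p G, A' ≤ (A : Subgroup G) → B' ≤ (B : Subgroup G) → Linked p 𝒢 D A B := by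
  induction h with
  | refl S =>
    intro hS hSk hDS A B hSA hSB
    exact (hbig S hS.2.1 (by rw [hSk]; exact hDk) A B hSA hSB).mono subset_rfl hDS
  | @step S S' T P F x hP hF hSF hS'F hxM hxF hc hD' h ih =>
    intro hS hSk hDS A B hSA hTB
    have hS'syl : IsSylowIn p S' M := by rw [hc]; exact isSylowIn_conj_mem hS hxM
    have hS'k : Nat.card S' = k := by rw [hc, card_map_conj]; exact hSk
    have hS'C : S' ≤ ((x • A : Sylow p G) : Subgroup G) := by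
      rw [hc]; exact smul_sylow_le hSA x
    have IH := ih hS'syl hS'k hD' (x • A) B hS'C hTB
    have hD'' : D ≤ S.map (MulAut.conj x).toMonoidHom := by rw [← hc]; exact hD'
    have L1 := linkCase hf hf1 G1 hbig hΦ hDk hS hSk hP hF hSF hxF hDS hD'' A hSA
    exact L1.trans IH

theorem maxCase {f : Subgroup G → Set (Subgroup G)} {𝒢 : Set (Subgroup G)}
    (hf : Cfsg.IsNormalizerFunctor p f)
    (hf1 : ∀ P : Subgroup G, IsPGroup p ↥P → P ≠ ⊥ → ∀ F ∈ f P, F ≠ ⊥)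
    (G1 : ∀ (A : Sylow p G) (F : Subgroup G), F ∈ f (A : Subgroup G) →
      (⊤ ⊓ Subgroup.normalizer (F : Set G)) ∈ 𝒢)
    (G2 : ∀ M, Cfsg.IsMaximalPLocal p M → ¬ RegIn p f M → M ∈ 𝒢)
    {D : Subgroup G} (hD1 : D ≠ ⊥)
    (hbig : ∀ D' : Subgroup G, IsPGroup p D' → Nat.card D < Nat.card D' → Theta p 𝒢 D')
    {k : ℕ} (hΦ : ∀ k', k < k' → Phi p 𝒢 D k') (hDk : Nat.card D < k)
    {M A₁ B₁ : Subgroup G} (hM : Cfsg.IsMaximalPLocal p M) (hA₁ : IsSylowIn p A₁ M)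
    (hB₁ : IsSylowIn p B₁ M) (hk : Nat.card A₁ = k) (hDA : D ≤ A₁) (hDB : D ≤ B₁)
    (A B : Sylow p G) (hA : A₁ ≤ (A : Subgroup G)) (hB : B₁ ≤ (B : Subgroup G)) :
    Linked p 𝒢 D A B := by
  have hkB : Nat.card B₁ = k := by rw [← isSylowIn_card_eq hA₁ hB₁]; exact hk
  by_cases hreg : RegIn p f M
  · by_cases e : A₁ = B₁
    · have hB' : A₁ ≤ (B : Subgroup G) := by rw [e]; exact hB
      exact (hbig A₁ hA₁.2.1 (by rw [hk]; exact hDk) A B hA hB').mono subset_rfl hDA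
    · have hne : A₁ ⊓ B₁ ≠ ⊥ := by
        intro e'
        apply hD1
        rw [eq_bot_iff, ← e']; exact le_inf hDA hDB
      have R := (hreg A₁ B₁ hA₁ hB₁ e hne).mono (le_inf hDA hDB)
      exact chainCase hf hf1 G1 hbig hΦ hDk R hA₁ hk hDA A B hA hB
  · have hMG : M ∈ 𝒢 := G2 M hM hreg
    obtain ⟨m, hm, e⟩ := hA₁.exists_conj_eq hB₁
    have hAM : (A : Subgroup G) ⊓ M = A₁ :=
      hA₁.2.2 _ (A.isPGroup'.to_le inf_le_left) (le_inf hA hA₁.1) inf_le_right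
    have hB₁C : B₁ ≤ ((m • A : Sylow p G) : Subgroup G) := by
      rw [e]; exact smul_sylow_le hA m
    have hCM : ((m • A : Sylow p G) : Subgroup G) ⊓ M = B₁ :=
      hB₁.2.2 _ ((m • A : Sylow p G).isPGroup'.to_le inf_le_left) (le_inf hB₁C hB₁.1)
        inf_le_right
    have L1 : Linked p 𝒢 D A (m • A : Sylow p G) := by
      refine Linked.step M m ?_ ?_ hm ?_ (le_inf (hDB.trans hB₁C) (hDB.trans hB₁.1))
        (Linked.refl _)
      · rw [mem_sylowMembers_iff, hAM]; exact ⟨hMG, hA₁⟩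
      · rw [mem_sylowMembers_iff, hCM]; exact ⟨hMG, hB₁⟩
      · unfold Cfsg.subgroupConjRight
        rw [coe_smul_sylow, map_conj_inv_map_conj]
    have L2 : Linked p 𝒢 D (m • A : Sylow p G) B :=
      (hbig B₁ hB₁.2.1 (by rw [hkB]; exact hDk) _ B hB₁C hB).mono subset_rfl hDB
    exact L1.trans L2

theorem phiStep {f : Subgroup G → Set (Subgroup G)} {𝒢 : Set (Subgroup G)}
    (hf : Cfsg.IsNormalizerFunctor p f)
    (hf1 : ∀ P : Subgroup G, IsPGroup p ↥P → P ≠ ⊥ → ∀ F ∈ f P, F ≠ ⊥)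
    (G1 : ∀ (A : Sylow p G) (F : Subgroup G), F ∈ f (A : Subgroup G) →
      (⊤ ⊓ Subgroup.normalizer (F : Set G)) ∈ 𝒢)
    (G2 : ∀ M, Cfsg.IsMaximalPLocal p M → ¬ RegIn p f M → M ∈ 𝒢)
    {D : Subgroup G} (hD1 : D ≠ ⊥)
    (hbig : ∀ D' : Subgroup G, IsPGroup p D' → Nat.card D < Nat.card D' → Theta p 𝒢 D')
    {k : ℕ} (hΦ : ∀ k', k < k' → Phi p 𝒢 D k') : Phi p 𝒢 D k := by
  intro L₀ hL₀ A₁ B₁ hA₁ hB₁ hk hDA hDB hDk A B hA hB
  obtain ⟨M, hM, hLM⟩ := exists_maximal_plocal hL₀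
  obtain ⟨A₂, hA₂, hAA₂⟩ := exists_isSylowIn_ge hA₁.2.1 (hA₁.1.trans hLM)
  obtain ⟨B₂, hB₂, hBB₂⟩ := exists_isSylowIn_ge hB₁.2.1 (hB₁.1.trans hLM)
  obtain ⟨A₂', hA₂'⟩ := hA₂.2.1.exists_le_sylow
  obtain ⟨B₂', hB₂'⟩ := hB₂.2.1.exists_le_sylow
  have hkB : Nat.card B₁ = k := by rw [← isSylowIn_card_eq hA₁ hB₁]; exact hk
  have T1 : Linked p 𝒢 D A A₂' :=
    (hbig A₁ hA₁.2.1 (by rw [hk]; exact hDk) A A₂' hA (hAA₂.trans hA₂')).mono subset_rfl hDA
  have T3 : Linked p 𝒢 D B₂' B :=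
    (hbig B₁ hB₁.2.1 (by rw [hkB]; exact hDk) B₂' B (hBB₂.trans hB₂') hB).mono subset_rfl hDB
  have T2 : Linked p 𝒢 D A₂' B₂' := by
    by_cases hlt : k < Nat.card A₂
    · exact hΦ _ hlt M hM.1 A₂ B₂ hA₂ hB₂ rfl (hDA.trans hAA₂) (hDB.trans hBB₂)
        (lt_trans hDk hlt) A₂' B₂' hA₂' hB₂'
    · have eA : A₁ = A₂ :=
        Subgroup.eq_of_le_of_card_ge hAA₂ (by rw [hk]; exact not_lt.mp hlt)
      have eB : B₁ = B₂ :=
        Subgroup.eq_of_le_of_card_ge hBB₂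
          (by rw [hkB, ← isSylowIn_card_eq hA₂ hB₂]; exact not_lt.mp hlt)
      subst eA
      subst eB
      exact maxCase hf hf1 G1 G2 hD1 hbig hΦ hDk hM hA₂ hB₂ hk hDA hDB A₂' B₂' hA₂' hB₂'
  exact (T1.trans T2).trans T3

theorem phiAll {f : Subgroup G → Set (Subgroup G)} {𝒢 : Set (Subgroup G)}
    (hf : Cfsg.IsNormalizerFunctor p f)
    (hf1 : ∀ P : Subgroup G, IsPGroup p ↥P → P ≠ ⊥ → ∀ F ∈ f P, F ≠ ⊥)
    (G1 : ∀ (A : Sylow p G) (F : Subgroup G), F ∈ f (A : Subgroup G) →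
      (⊤ ⊓ Subgroup.normalizer (F : Set G)) ∈ 𝒢)
    (G2 : ∀ M, Cfsg.IsMaximalPLocal p M → ¬ RegIn p f M → M ∈ 𝒢)
    {D : Subgroup G} (hD1 : D ≠ ⊥)
    (hbig : ∀ D' : Subgroup G, IsPGroup p D' → Nat.card D < Nat.card D' → Theta p 𝒢 D') :
    ∀ k, Phi p 𝒢 D k := by
  have key : ∀ m k, Nat.card G + 1 ≤ k + m → Phi p 𝒢 D k := by
    intro m
    induction m with
    | zero =>
      intro k hk L₀ _ A₁ B₁ _ _ hcard
      exfalso
      have : Nat.card A₁ ≤ Nat.card G := Subgroup.card_le_card_group A₁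
      omega
    | succ m ih =>
      intro k hk
      exact phiStep hf hf1 G1 G2 hD1 hbig (fun k' hk' => ih k' (by omega))
  intro k
  exact key (Nat.card G + 1) k (by omega)

theorem thetaStep {f : Subgroup G → Set (Subgroup G)} {𝒢 : Set (Subgroup G)}
    (hf : Cfsg.IsNormalizerFunctor p f)
    (hf1 : ∀ P : Subgroup G, IsPGroup p ↥P → P ≠ ⊥ → ∀ F ∈ f P, F ≠ ⊥)
    (G1 : ∀ (A : Sylow p G) (F : Subgroup G), F ∈ f (A : Subgroup G) →
      (⊤ ⊓ Subgroup.normalizer (F : Set G)) ∈ 𝒢)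
    (G2 : ∀ M, Cfsg.IsMaximalPLocal p M → ¬ RegIn p f M → M ∈ 𝒢)
    {D : Subgroup G} (hDp : IsPGroup p D) (hD1 : D ≠ ⊥)
    (hbig : ∀ D' : Subgroup G, IsPGroup p D' → Nat.card D < Nat.card D' → Theta p 𝒢 D') :
    Theta p 𝒢 D := by
  intro A B hDA hDB
  by_cases hAB : A = B
  · subst hAB; exact Linked.refl _
  by_cases hlt : Nat.card D < Nat.card ((A : Subgroup G) ⊓ (B : Subgroup G) : Subgroup G)
  · exact (hbig _ (A.isPGroup'.to_le inf_le_left) hlt A B inf_le_left inf_le_right).mono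
      subset_rfl (le_inf hDA hDB)
  · have hDA_lt : D < (A : Subgroup G) := by
      refine lt_of_le_of_ne hDA ?_
      intro e
      apply hAB
      have hle : (A : Subgroup G) ≤ (B : Subgroup G) := by rw [← e]; exact hDB
      exact Sylow.ext (A.is_maximal' B.isPGroup' hle).symm
    have hDB_lt : D < (B : Subgroup G) := by
      refine lt_of_le_of_ne hDB ?_
      intro e
      apply hAB
      have hle : (B : Subgroup G) ≤ (A : Subgroup G) := by rw [← e]; exact hDA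
      exact Sylow.ext (B.is_maximal' A.isPGroup' hle)
    obtain ⟨y, hyA, hyN, hyD⟩ := exists_mem_normalizer_not_mem A.isPGroup' hDA_lt
    obtain ⟨z, hzB, hzN, hzD⟩ := exists_mem_normalizer_not_mem B.isPGroup' hDB_lt
    have hEA : D < (A : Subgroup G) ⊓ Subgroup.normalizer (D : Set G) := by
      refine lt_of_le_of_ne (le_inf hDA Subgroup.le_normalizer) ?_
      intro e; apply hyD; rw [e]; exact Subgroup.mem_inf.mpr ⟨hyA, hyN⟩
    have hEB : D < (B : Subgroup G) ⊓ Subgroup.normalizer (D : Set G) := by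
      refine lt_of_le_of_ne (le_inf hDB Subgroup.le_normalizer) ?_
      intro e; apply hzD; rw [e]; exact Subgroup.mem_inf.mpr ⟨hzB, hzN⟩
    have hEAp : IsPGroup p ((A : Subgroup G) ⊓ Subgroup.normalizer (D : Set G) : Subgroup G) :=
      A.isPGroup'.to_le inf_le_left
    have hEBp : IsPGroup p ((B : Subgroup G) ⊓ Subgroup.normalizer (D : Set G) : Subgroup G) :=
      B.isPGroup'.to_le inf_le_left
    have hloc : Cfsg.IsPLocal p (Subgroup.normalizer (D : Set G)) := ⟨D, hDp, hD1, rfl⟩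
    obtain ⟨A₁, hA₁, hEA₁⟩ := exists_isSylowIn_ge hEAp inf_le_right
    obtain ⟨B₁, hB₁, hEB₁⟩ := exists_isSylowIn_ge hEBp inf_le_right
    obtain ⟨A', hA'⟩ := hA₁.2.1.exists_le_sylow
    obtain ⟨B', hB'⟩ := hB₁.2.1.exists_le_sylow
    have T1 : Linked p 𝒢 D A A' :=
      (hbig _ hEAp (card_lt_of_lt' hEA) A A' inf_le_left (hEA₁.trans hA')).mono subset_rfl hEA.le
    have T3 : Linked p 𝒢 D B' B :=
      (hbig _ hEBp (card_lt_of_lt' hEB) B' B (hEB₁.trans hB') inf_le_left).mono subset_rfl hEB.le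
    have T2 : Linked p 𝒢 D A' B' :=
      phiAll hf hf1 G1 G2 hD1 hbig (Nat.card A₁) _ hloc A₁ B₁ hA₁ hB₁ rfl (hEA.le.trans hEA₁)
        (hEB.le.trans hEB₁)
        (lt_of_lt_of_le (card_lt_of_lt' hEA) (Subgroup.card_le_of_le hEA₁)) A' B' hA' hB'
    exact (T1.trans T2).trans T3

theorem thetaAll {f : Subgroup G → Set (Subgroup G)} {𝒢 : Set (Subgroup G)}
    (hf : Cfsg.IsNormalizerFunctor p f)
    (hf1 : ∀ P : Subgroup G, IsPGroup p ↥P → P ≠ ⊥ → ∀ F ∈ f P, F ≠ ⊥)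
    (G1 : ∀ (A : Sylow p G) (F : Subgroup G), F ∈ f (A : Subgroup G) →
      (⊤ ⊓ Subgroup.normalizer (F : Set G)) ∈ 𝒢)
    (G2 : ∀ M, Cfsg.IsMaximalPLocal p M → ¬ RegIn p f M → M ∈ 𝒢) :
    ∀ (D : Subgroup G), IsPGroup p D → D ≠ ⊥ → Theta p 𝒢 D := by
  have key : ∀ m (D : Subgroup G), Nat.card G ≤ Nat.card D + m → IsPGroup p D → D ≠ ⊥ →
      Theta p 𝒢 D := by
    intro m
    induction m with
    | zero =>
      intro D hcard hDp hD1
      apply thetaStep hf hf1 G1 G2 hDp hD1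
      intro D' _ hlt
      exfalso
      have := Subgroup.card_le_card_group D'
      omega
    | succ m ih =>
      intro D hcard hDp hD1
      apply thetaStep hf hf1 G1 G2 hDp hD1
      intro D' hD'p hlt
      apply ih D' (by omega) hD'p
      intro e
      rw [e, Subgroup.card_bot] at hlt
      have : 0 < Nat.card D := Nat.card_pos
      omega
  intro D hDp hD1
  exact key (Nat.card G) D (by omega) hDp hD1

end

/-- Let p be a prime dividing the order of the finite group G, and f an assignment to every p-subgroup P of a set f(P) of subgroups of P, each normalized by N_G(P), compatible with conjugation, such that for P ≠ 1 the members of f(P) are nontrivial. Let 𝓕 be the family of the normalizers N_G(F) of the members F of f(S) over the Sylow p-subgroups S of G, and 𝓕' the family of the maximal p-local subgroups M of G that are singular for f (the corresponding family of normalizers inside M does not control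 Sylow p-intersections in M). Then 𝓕 ∪ 𝓕' controls Sylow p-intersections in G. -/
theorem result {G : Type*} [Group G] [Finite G] (p : ℕ) [Fact p.Prime] (hdiv : p ∣ Nat.card G)
    (f : Subgroup G → Set (Subgroup G)) (hf : Cfsg.IsNormalizerFunctor p f)
    (hf1 : ∀ P : Subgroup G, IsPGroup p ↥P → P ≠ ⊥ → ∀ F ∈ f P, F ≠ ⊥)
    (𝓕 𝓕' : Set (Subgroup G)) (h𝓕 : 𝓕 = Cfsg.functorFamily p f ⊤)
    (h𝓕' : 𝓕' = {M | Cfsg.IsMaximalPLocal p M ∧ ¬ Cfsg.IsFunctorRegular p f M}) :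
    Cfsg.ControlsSylowIntersections p (𝓕 ∪ 𝓕') := by
  rw [controls_iff_linked]
  intro S T hne hint
  have G1 : ∀ (A : Sylow p G) (F : Subgroup G), F ∈ f (A : Subgroup G) →
      (⊤ ⊓ Subgroup.normalizer (F : Set G)) ∈ 𝓕 ∪ 𝓕' := by
    intro A F hF
    left
    rw [h𝓕, mem_functorFamily_iff]
    exact ⟨A, isSylowIn_of_sylow_le A le_top, F, hF, rfl⟩
  have G2 : ∀ M, Cfsg.IsMaximalPLocal p M → ¬ RegIn p f M → M ∈ 𝓕 ∪ 𝓕' := by
    intro M hM hreg
    right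
    rw [h𝓕']
    exact ⟨hM, fun h => hreg (regIn_of_isFunctorRegular hf h)⟩
  exact thetaAll hf hf1 G1 G2 _ (S.isPGroup'.to_le inf_le_left) hint S T inf_le_left inf_le_right

end Cfsg.Agent.S2956
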