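import Cfsg.Statements.S2957
import Cfsg.Agent.Lib.Helper18.FReg

set_option autoImplicit false
open Cfsg

namespace Cfsg.Agent.S2957

open Cfsg.Agent.Lib.Helper18

/-- Let p be a prime dividing the order of the finite group G, f an equivariant assignment of a set of subgroups f(P) of P to every p-subgroup P, each normalized by N_G(P), and S a Sylow p-subgroup. If G = G₁G₂ for subgroups G₁, G₂ both containing S and both regular for f (in each Gᵢ, the family of normalizers in Gᵢ of the members of f(P), P a Sylow p-subgroup of Gᵢ, controls Sylow p-intersections), then G itself is regular for f. -/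
theorem result {G : Type*} [Group G] [Finite G] (p : ℕ) [Fact p.Prime] (hdiv : p ∣ Nat.card G)
    (f : Subgroup G → Set (Subgroup G)) (hf : Cfsg.IsNormalizerFunctor p f) (S : Sylow p G)
    (G₁ G₂ : Subgroup G) (h₁ : (S : Subgroup G) ≤ G₁) (h₂ : (S : Subgroup G) ≤ G₂)
    (hprod : ∀ g : G, ∃ g₁ ∈ G₁, ∃ g₂ ∈ G₂, g = g₁ * g₂)
    (hr₁ : Cfsg.IsFunctorRegular p f G₁) (hr₂ : Cfsg.IsFunctorRegular p f G₂) :
    Cfsg.IsFunctorRegular p f ⊤ := by
  rw [isFunctorRegular_iff_regIn hf] at hr₁ hr₂ ⊢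
  have hS1 : IsSylowIn p (S : Subgroup G) G₁ := isSylowIn_of_sylow_le S h₁
  have hS2 : IsSylowIn p (S : Subgroup G) G₂ := isSylowIn_of_sylow_le S h₂
  have hST : IsSylowIn p (S : Subgroup G) ⊤ := isSylowIn_of_sylow_le S le_top
  have etop : ∀ c : G, (⊤ : Subgroup G).map (MulAut.conj c).toMonoidHom = ⊤ := by
    intro c
    rw [eq_top_iff]; intro y _; rw [mem_map_conj_iff]; exact Subgroup.mem_top _
  have key : ∀ (K : Subgroup G), (S : Subgroup G) ≤ K → ∀ P, IsSylowIn p P K →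
      IsSylowIn p P ⊤ := by
    intro K hSK P hP
    obtain ⟨c, hc, e⟩ := (isSylowIn_of_sylow_le S hSK).exists_conj_eq hP
    rw [e]
    have := hST.map_conj c
    rwa [etop] at this
  intro A B hA hB hne hint
  obtain ⟨a, -, ea⟩ := hST.exists_conj_eq hA
  obtain ⟨b, -, eb⟩ := hST.exists_conj_eq hB
  obtain ⟨g₁, hg₁, g₂, hg₂, eg⟩ := hprod (a⁻¹ * b)
  obtain ⟨A', hA'def⟩ : ∃ A' : Subgroup G,
      A' = (S : Subgroup G).map (MulAut.conj g₁⁻¹).toMonoidHom := ⟨_, rfl⟩
  obtain ⟨B', hB'def⟩ : ∃ B' : Subgroup G,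
      B' = (S : Subgroup G).map (MulAut.conj g₂).toMonoidHom := ⟨_, rfl⟩
  have eA : A = A'.map (MulAut.conj (a * g₁)).toMonoidHom := by
    rw [hA'def, ← map_conj_mul, ea]
    congr 3
    group
  have eB : B = B'.map (MulAut.conj (a * g₁)).toMonoidHom := by
    rw [hB'def, ← map_conj_mul, eb]
    congr 3
    have : b = a * (a⁻¹ * b) := by group
    rw [this, eg]; group
  have hA' : IsSylowIn p A' G₁ := by
    have := hS1.map_conj g₁⁻¹
    rwa [map_conj_eq_of_mem_normalizer G₁ (Subgroup.le_normalizer (G₁.inv_mem hg₁)),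
      ← hA'def] at this
  have hB' : IsSylowIn p B' G₂ := by
    have := hS2.map_conj g₂
    rwa [map_conj_eq_of_mem_normalizer G₂ (Subgroup.le_normalizer hg₂), ← hB'def] at this
  have hD'ne : A' ⊓ B' ≠ ⊥ := by
    intro e
    apply hint
    rw [eA, eB, ← Subgroup.map_inf _ _ _ (MulAut.conj _).injective, e, Subgroup.map_bot]
  have hD'le : A' ⊓ B' ≤ G₁ ⊓ G₂ := inf_le_inf hA'.1 hB'.1
  have hD'p : IsPGroup p (A' ⊓ B' : Subgroup G) := hA'.2.1.to_le inf_le_left
  obtain ⟨U, hU, hDU⟩ := exists_isSylowIn_ge hD'p hD'le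
  have hUT := key (G₁ ⊓ G₂) (le_inf h₁ h₂) U hU
  have hU1 : IsSylowIn p U G₁ :=
    ⟨hU.1.trans inf_le_left, hU.2.1, fun R hR hle _ => hUT.2.2 R hR hle le_top⟩
  have hU2 : IsSylowIn p U G₂ :=
    ⟨hU.1.trans inf_le_right, hU.2.1, fun R hR hle _ => hUT.2.2 R hR hle le_top⟩
  have L1 : RLinked p f ⊤ (A' ⊓ B') A' U := by
    by_cases e : A' = U
    · rw [← e]; exact RLinked.refl _
    · have hne1 : A' ⊓ U ≠ ⊥ := by
        intro e'
        apply hD'ne
        rw [eq_bot_iff, ← e']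
        exact le_inf inf_le_left hDU
      exact ((hr₁ A' U hA' hU1 e hne1).mono (le_inf inf_le_left hDU)).lift le_top (key G₁ h₁)
  have L2 : RLinked p f ⊤ (A' ⊓ B') U B' := by
    by_cases e : U = B'
    · rw [e]; exact RLinked.refl _
    · have hne2 : U ⊓ B' ≠ ⊥ := by
        intro e'
        apply hD'ne
        rw [eq_bot_iff, ← e']
        exact le_inf hDU inf_le_right
      exact ((hr₂ U B' hU2 hB' e hne2).mono (le_inf hDU inf_le_right)).lift le_top (key G₂ h₂)
  have L := (L1.trans L2).map_conj hf (a * g₁)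
  rw [etop, Subgroup.map_inf _ _ _ (MulAut.conj _).injective, ← eA, ← eB] at L
  exact L

end Cfsg.Agent.S2957
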