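import Cfsg.Statements.S2958

set_option autoImplicit false
open Cfsg

namespace Cfsg.Agent.S2958

theorem mem_conj_iff {G : Type*} [Group G] (X : Subgroup G) (g x : G) :
    x ∈ X.map (MulAut.conj g).toMonoidHom ↔ g⁻¹ * x * g ∈ X := by
  constructor
  · rintro ⟨y, hy, rfl⟩
    simpa [mul_assoc] using hy
  · intro h
    exact ⟨g⁻¹ * x * g, h, by simp [mul_assoc]⟩

/-- Let X, A, B be subgroups of a group G such that G is generated by the conjugates of X and every conjugate of X is contained in A or in B. Then A = G or B = G. -/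
theorem result {G : Type*} [Group G] (X A B : Subgroup G) (hgen : (⨆ g : G, X.map (MulAut.conj g).toMonoidHom) = ⊤) (hcover : ∀ g : G, X.map (MulAut.conj g).toMonoidHom ≤ A ∨ X.map (MulAut.conj g).toMonoidHom ≤ B) : A = ⊤ ∨ B = ⊤ := by
  classical
  by_cases hall : ∀ g : G, X.map (MulAut.conj g).toMonoidHom ≤ A
  · left
    rw [eq_top_iff, ← hgen]
    exact iSup_le hall
  · right
    push Not at hall
    obtain ⟨g₀, hg₀⟩ := hall
    set B₁ : Subgroup G := ⨆ g : {g : G // ¬ X.map (MulAut.conj g).toMonoidHom ≤ A},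
      X.map (MulAut.conj (g : G)).toMonoidHom with hB₁
    have hB₁B : B₁ ≤ B := by
      refine iSup_le ?_
      rintro ⟨g, hg⟩
      exact (hcover g).resolve_left hg
    -- conjugation by elements of A preserves B₁
    have hA : ∀ a ∈ A, ∀ h ∈ B₁, a * h * a⁻¹ ∈ B₁ := by
      intro a ha
      have : B₁ ≤ B₁.comap (MulAut.conj a).toMonoidHom := by
        refine iSup_le ?_
        rintro ⟨g, hg⟩ x hx
        have hag : ¬ X.map (MulAut.conj (a * g)).toMonoidHom ≤ A := by
          intro hle
          apply hg
          intro y hy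
          have h1 : a * y * a⁻¹ ∈ X.map (MulAut.conj (a * g)).toMonoidHom := by
            rw [mem_conj_iff] at hy ⊢
            simpa [mul_assoc] using hy
          have h2 := hle h1
          have h3 : a⁻¹ * (a * y * a⁻¹) * a ∈ A := A.mul_mem (A.mul_mem (A.inv_mem ha) h2) ha
          simpa [mul_assoc] using h3
        have h1 : a * x * a⁻¹ ∈ X.map (MulAut.conj (a * g)).toMonoidHom := by
          rw [mem_conj_iff] at hx ⊢
          simpa [mul_assoc] using hx
        have h2 : X.map (MulAut.conj (a * g)).toMonoidHom ≤ B₁ :=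
          le_iSup (fun g : {g : G // ¬ X.map (MulAut.conj g).toMonoidHom ≤ A} =>
            X.map (MulAut.conj (g : G)).toMonoidHom) ⟨a * g, hag⟩
        simpa using h2 h1
      intro h hh
      simpa using this hh
    have hAN : A ≤ Subgroup.normalizer (B₁ : Set G) := by
      intro a ha
      rw [Subgroup.mem_normalizer_iff]
      intro h
      constructor
      · exact hA a ha h
      · intro hh
        have := hA a⁻¹ (A.inv_mem ha) _ hh
        simpa [mul_assoc] using this
    have hBN : B₁ ≤ Subgroup.normalizer (B₁ : Set G) := Subgroup.le_normalizer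
    have htop : Subgroup.normalizer (B₁ : Set G) = ⊤ := by
      rw [eq_top_iff, ← hgen]
      refine iSup_le ?_
      intro g
      by_cases hg : X.map (MulAut.conj g).toMonoidHom ≤ A
      · exact hg.trans hAN
      · exact le_trans (le_iSup (fun g : {g : G // ¬ X.map (MulAut.conj g).toMonoidHom ≤ A} =>
            X.map (MulAut.conj (g : G)).toMonoidHom) ⟨g, hg⟩) hBN
    have hnormal : B₁.Normal := Subgroup.normalizer_eq_top_iff.mp htop
    have hg₀B : X.map (MulAut.conj g₀).toMonoidHom ≤ B₁ :=
      le_iSup (fun g : {g : G // ¬ X.map (MulAut.conj g).toMonoidHom ≤ A} =>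
            X.map (MulAut.conj (g : G)).toMonoidHom) ⟨g₀, hg₀⟩
    rw [eq_top_iff]
    refine le_trans ?_ hB₁B
    rw [← hgen]
    refine iSup_le ?_
    intro g x hx
    rw [mem_conj_iff] at hx
    have h1 : g₀ * (g⁻¹ * x * g) * g₀⁻¹ ∈ X.map (MulAut.conj g₀).toMonoidHom := by
      rw [mem_conj_iff]
      simpa [mul_assoc] using hx
    have h2 := hg₀B h1
    have h3 := hnormal.conj_mem _ h2 (g * g₀⁻¹)
    simpa [mul_assoc] using h3

end Cfsg.Agent.S2958
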