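import Cfsg.Statements.S2963

set_option autoImplicit false
open Cfsg

namespace Cfsg.Agent.S2963

/-- setwise stabiliser of a set `O`. -/
def setStab {α : Type*} (O : Set α) : Subgroup (Equiv.Perm α) where
  carrier := {g | ∀ a, a ∈ O ↔ g a ∈ O}
  one_mem' := fun _ => Iff.rfl
  mul_mem' := fun {g h} hg hh a => (hh a).trans (hg (h a))
  inv_mem' := fun {g} hg a => by
    have h1 := hg (g⁻¹ a)
    have e : g (g⁻¹ a) = a := Equiv.apply_symm_apply g a
    rw [e] at h1
    exact h1.symm

theorem mem_setStab {α : Type*} {O : Set α} {g : Equiv.Perm α} :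
    g ∈ setStab O ↔ ∀ a, a ∈ O ↔ g a ∈ O := Iff.rfl

theorem sup_eq_top {n : ℕ} (x z : Fin n) (O : Set (Fin n)) (hxO : x ∉ O) (hzO : z ∉ O)
    (hzx : z ≠ x) :
    MulAction.stabilizer (Equiv.Perm (Fin n)) x ⊔ setStab O = ⊤ := by
  rw [eq_top_iff, ← Equiv.Perm.closure_isSwap, Subgroup.closure_le]
  rintro σ ⟨a, b, hab, rfl⟩
  have hA : ∀ a b : Fin n, a ≠ x → b ≠ x →
      Equiv.swap a b ∈ MulAction.stabilizer (Equiv.Perm (Fin n)) x := by
    intro a b ha hb
    rw [MulAction.mem_stabilizer_iff]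
    exact Equiv.swap_apply_of_ne_of_ne (Ne.symm ha) (Ne.symm hb)
  have hB : Equiv.swap x z ∈ setStab O := by
    rw [mem_setStab]
    intro c
    by_cases hcx : c = x
    · rw [hcx, Equiv.swap_apply_left]
      exact ⟨fun h => absurd h hxO, fun h => absurd h hzO⟩
    · by_cases hcz : c = z
      · rw [hcz, Equiv.swap_apply_right]
        exact ⟨fun h => absurd h hzO, fun h => absurd h hxO⟩
      · rw [Equiv.swap_apply_of_ne_of_ne hcx hcz]
  have hxb : ∀ b : Fin n, b ≠ x → Equiv.swap x b ∈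
      MulAction.stabilizer (Equiv.Perm (Fin n)) x ⊔ setStab O := by
    intro b hb
    by_cases hbz : b = z
    · rw [hbz]; exact Subgroup.mem_sup_right hB
    · have e : Equiv.swap z b * Equiv.swap x z * Equiv.swap z b = Equiv.swap b x :=
        Equiv.swap_mul_swap_mul_swap (Ne.symm hzx) (Ne.symm hb)
      rw [Equiv.swap_comm, ← e]
      have h1 : Equiv.swap z b ∈ MulAction.stabilizer (Equiv.Perm (Fin n)) x ⊔ setStab O :=
        Subgroup.mem_sup_left (hA z b hzx hb)
      exact Subgroup.mul_mem _ (Subgroup.mul_mem _ h1 (Subgroup.mem_sup_right hB)) h1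
  by_cases hax : a = x
  · rw [hax] at hab ⊢; exact hxb b (Ne.symm hab)
  · by_cases hbx : b = x
    · rw [hbx, Equiv.swap_comm]; exact hxb a hax
    · exact Subgroup.mem_sup_left (hA a b hax hbx)

/-- Let n be odd. If the symmetric group of degree n is a minimal parabolic group for the prime 2, that is, a Sylow 2-subgroup is not normal and lies in exactly one maximal subgroup, then n = 2^m + 1 for some natural number m. -/
theorem result (n : ℕ) (hn : Odd n) (h : Cfsg.IsPMinimal 2 (Equiv.Perm (Fin n))) : ∃ m : ℕ, n = 2 ^ m + 1 := by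
  have : Fact (Nat.Prime 2) := ⟨Nat.prime_two⟩
  obtain ⟨S⟩ : Nonempty (Sylow 2 (Equiv.Perm (Fin n))) := inferInstance
  obtain ⟨hnn, M, ⟨hMco, hSM⟩, hMuniq⟩ := h S
  have hfix : ∃ x : Fin n, ∀ s ∈ (S : Subgroup (Equiv.Perm (Fin n))), s x = x := by
    have h1 := S.isPGroup'.card_modEq_card_fixedPoints (Fin n)
    rw [Nat.card_fin] at h1
    have h2 : Nat.card (MulAction.fixedPoints ↥(S : Subgroup (Equiv.Perm (Fin n))) (Fin n)) ≠ 0 := by
      intro e
      rw [e] at h1
      have := Nat.odd_iff.mp hn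
      unfold Nat.ModEq at h1
      omega
    have hne : Nonempty (MulAction.fixedPoints ↥(S : Subgroup (Equiv.Perm (Fin n))) (Fin n)) := by
      by_contra hne
      rw [not_nonempty_iff] at hne
      exact h2 Nat.card_of_isEmpty
    obtain ⟨⟨x, hx⟩⟩ := hne
    exact ⟨x, fun s hs => hx ⟨s, hs⟩⟩
  obtain ⟨x, hx⟩ := hfix
  by_cases htr : ∀ y z : Fin n, y ≠ x → z ≠ x →
      ∃ s ∈ (S : Subgroup (Equiv.Perm (Fin n))), s y = z
  · by_cases hy : ∃ y : Fin n, y ≠ x
    · obtain ⟨y, hy⟩ := hy
      obtain ⟨m, hm⟩ := S.isPGroup'.card_orbit y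
      have horb : MulAction.orbit ↥(S : Subgroup (Equiv.Perm (Fin n))) y = ({x}ᶜ : Set (Fin n)) := by
        ext z
        constructor
        · rintro ⟨s, rfl⟩
          intro hzx
          apply hy
          have h1 : (s : Equiv.Perm (Fin n)) y = x := hzx
          have h2 : (s : Equiv.Perm (Fin n)) x = x := hx _ s.2
          exact (s : Equiv.Perm (Fin n)).injective (h1.trans h2.symm)
        · intro hz
          obtain ⟨s, hs, e⟩ := htr y z hy hz
          exact ⟨⟨s, hs⟩, e⟩
      refine ⟨m, ?_⟩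
      rw [horb] at hm
      have hc : Nat.card ↥({x}ᶜ : Set (Fin n)) = n - 1 := by
        rw [Nat.card_coe_set_eq, Set.ncard_compl, Set.ncard_singleton, Nat.card_fin]
      rw [hc] at hm
      have hn1 : 0 < n := x.pos
      omega
    · exfalso
      apply hnn
      push Not at hy
      haveI : Subsingleton (Fin n) := ⟨fun a b => (hy a).trans (hy b).symm⟩
      constructor
      intro a ha g
      have : g * a * g⁻¹ = a := Subsingleton.elim _ _
      rw [this]; exact ha
  · exfalso
    push Not at htr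
    obtain ⟨y, z, hy, hz, hyz⟩ := htr
    have hxO : x ∉ {a : Fin n | ∃ s ∈ (S : Subgroup (Equiv.Perm (Fin n))), s y = a} := by
      rintro ⟨s, hs, e⟩
      apply hy
      exact s.injective (e.trans (hx s hs).symm)
    have hzO : z ∉ {a : Fin n | ∃ s ∈ (S : Subgroup (Equiv.Perm (Fin n))), s y = a} := by
      rintro ⟨s, hs, e⟩
      exact hyz s hs e
    have hsup := sup_eq_top x z _ hxO hzO hz
    have hA_ne : MulAction.stabilizer (Equiv.Perm (Fin n)) x ≠ ⊤ := by
      intro e
      have h1 : Equiv.swap x y ∈ MulAction.stabilizer (Equiv.Perm (Fin n)) x := by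
        rw [e]; exact Subgroup.mem_top _
      rw [MulAction.mem_stabilizer_iff] at h1
      have h2 : Equiv.swap x y x = x := h1
      rw [Equiv.swap_apply_left] at h2
      exact hy h2
    have hB_ne : setStab {a : Fin n | ∃ s ∈ (S : Subgroup (Equiv.Perm (Fin n))), s y = a} ≠ ⊤ := by
      intro e
      have h1 : Equiv.swap y z ∈
          setStab {a : Fin n | ∃ s ∈ (S : Subgroup (Equiv.Perm (Fin n))), s y = a} := by
        rw [e]; exact Subgroup.mem_top _
      have h2 := (mem_setStab.mp h1 y).mp ⟨1, Subgroup.one_mem _, rfl⟩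
      rw [Equiv.swap_apply_left] at h2
      exact hzO h2
    have hSA : (S : Subgroup (Equiv.Perm (Fin n))) ≤ MulAction.stabilizer (Equiv.Perm (Fin n)) x :=
      fun s hs => MulAction.mem_stabilizer_iff.mpr (hx s hs)
    have hSB : (S : Subgroup (Equiv.Perm (Fin n))) ≤
        setStab {a : Fin n | ∃ s ∈ (S : Subgroup (Equiv.Perm (Fin n))), s y = a} := by
      intro s hs
      rw [mem_setStab]
      intro a
      constructor
      · rintro ⟨t, ht, rfl⟩
        exact ⟨s * t, Subgroup.mul_mem _ hs ht, rfl⟩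
      · rintro ⟨t, ht, e⟩
        refine ⟨s⁻¹ * t, Subgroup.mul_mem _ (Subgroup.inv_mem _ hs) ht, ?_⟩
        rw [Equiv.Perm.mul_apply, e]
        exact Equiv.symm_apply_apply s a
    obtain ⟨MA, hMA, hAM⟩ := (eq_top_or_exists_le_coatom _).resolve_left hA_ne
    obtain ⟨MB, hMB, hBM⟩ := (eq_top_or_exists_le_coatom _).resolve_left hB_ne
    have e1 := hMuniq MA ⟨hMA, hSA.trans hAM⟩
    have e2 := hMuniq MB ⟨hMB, hSB.trans hBM⟩
    rw [e1] at hAM
    rw [e2] at hBM
    have hle := sup_le hAM hBM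
    rw [hsup] at hle
    exact hMco.1 (top_le_iff.mp hle)

end Cfsg.Agent.S2963
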