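import Cfsg.Statements.S2998
import Cfsg.Agent.Lib.Helper19.SylowRel

set_option autoImplicit false
open Cfsg

namespace Cfsg.Agent.S2998

open Cfsg.Agent.Lib.Helper19

/-- Let G be a finite group, p a prime, P a Sylow p-subgroup of G and x ∈ P an element such that N_G(R) ≤ C_G(x) for every nontrivial subgroup R of P. Then P ≤ C_G(x); every G-conjugate of x lying in P equals x (so g ∈ C_G(x) whenever g x g⁻¹ ∈ P); and for every normal subgroup N of G, the image of x in G ⧸ N has the same property with respect to the image of P: the normalizer of every nontrivial subgroup of the image of P centralizes the image of x. -/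
theorem result {G : Type*} [Group G] [Finite G] {p : ℕ} [Fact p.Prime] (P : Sylow p G) (x : G) (hxP : x ∈ (P : Subgroup G)) (hlc : ∀ R : Subgroup G, R ≤ (P : Subgroup G) → R ≠ ⊥ → Subgroup.normalizer (R : Set G) ≤ Subgroup.centralizer ({x} : Set G)) : (P : Subgroup G) ≤ Subgroup.centralizer ({x} : Set G) ∧ (∀ g : G, g * x * g⁻¹ ∈ (P : Subgroup G) → g * x * g⁻¹ = x) ∧ ∀ (N : Subgroup G) [N.Normal], ∀ R : Subgroup (G ⧸ N), R ≤ (P : Subgroup G).map (QuotientGroup.mk' N) → R ≠ ⊥ → Subgroup.normalizer (R : Set (G ⧸ N)) ≤ Subgroup.centralizer ({(QuotientGroup.mk x : G ⧸ N)} : Set (G ⧸ N)) := by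
  classical
  have hPC : (P : Subgroup G) ≤ Subgroup.centralizer ({x} : Set G) := by
    by_cases hP : (P : Subgroup G) = ⊥
    · rw [hP]; exact bot_le
    · exact Subgroup.le_normalizer.trans (hlc P le_rfl hP)
  have cx : ∀ a ∈ (P : Subgroup G), a * x = x * a := fun a ha =>
    Subgroup.mem_centralizer_singleton_iff.mp (hPC ha)
  have part2 : ∀ g : G, g * x * g⁻¹ ∈ (P : Subgroup G) → g * x * g⁻¹ = x := by
    intro g hy
    by_cases hx1 : x = 1
    · rw [hx1]; group
    have hPne : (P : Subgroup G) ≠ ⊥ := fun h => hx1 (by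
      rw [h] at hxP; exact Subgroup.mem_bot.mp hxP)
    obtain ⟨y, hydef⟩ : ∃ y, y = g * x * g⁻¹ := ⟨_, rfl⟩
    rw [← hydef] at hy ⊢
    have hP'C : ((g • P : Sylow p G) : Subgroup G) ≤ Subgroup.centralizer ({y} : Set G) := by
      intro b hb
      rw [mem_smul_sylow_iff] at hb
      rw [Subgroup.mem_centralizer_singleton_iff]
      have := cx _ hb
      calc b * y = g * ((g⁻¹ * b * g) * x) * g⁻¹ := by rw [hydef]; group
        _ = g * (x * (g⁻¹ * b * g)) * g⁻¹ := by rw [this]
        _ = y * b := by rw [hydef]; group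
    obtain ⟨D, hD⟩ : ∃ D, D = (P : Subgroup G) ⊓ Subgroup.centralizer ({y} : Set G) := ⟨_, rfl⟩
    have hDP : D ≤ (P : Subgroup G) := hD ▸ inf_le_left
    have hDC : D ≤ Subgroup.centralizer ({y} : Set G) := hD ▸ inf_le_right
    have hDp : IsPGroup p D := P.isPGroup'.to_le hDP
    obtain ⟨k, hkC, R', hR'p, -, hP'R', hkR'⟩ :=
      exists_conj_pgroup_le (Subgroup.centralizer ({y} : Set G)) hP'C hDC (g • P).isPGroup' hDp
    have hR'eq : R' = ((g • P : Sylow p G) : Subgroup G) := (g • P).is_maximal' hR'p hP'R'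
    have hky : k * y = y * k := Subgroup.mem_centralizer_singleton_iff.mp hkC
    obtain ⟨g', hg'⟩ : ∃ g', g' = k⁻¹ * g := ⟨_, rfl⟩
    have hg'x : g' * x * g'⁻¹ = y := by
      calc g' * x * g'⁻¹ = k⁻¹ * (g * x * g⁻¹) * k := by rw [hg']; group
        _ = k⁻¹ * (y * k) := by rw [← hydef]; group
        _ = k⁻¹ * (k * y) := by rw [hky]
        _ = y := by group
    have hDconj : ∀ a ∈ D, g'⁻¹ * a * g' ∈ (P : Subgroup G) := by
      intro a ha
      have h1 := hkR' a ha
      rw [hR'eq, mem_smul_sylow_iff] at h1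
      have e : g'⁻¹ * a * g' = g⁻¹ * (k * a * k⁻¹) * g := by rw [hg']; group
      rw [e]; exact h1
    have hxD : x ∈ D := by
      rw [hD]
      exact ⟨hxP, Subgroup.mem_centralizer_singleton_iff.mpr (cx y hy).symm⟩
    have hND : Subgroup.normalizer (D : Set G) ⊓ (P : Subgroup G) ≤ D := by
      intro n hn
      obtain ⟨hnN, hnP⟩ := Subgroup.mem_inf.mp hn
      rw [hD]
      refine Subgroup.mem_inf.mpr ⟨hnP, ?_⟩
      obtain ⟨D', hD'⟩ : ∃ D', D' = D.map (MulAut.conj g'⁻¹).toMonoidHom := ⟨_, rfl⟩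
      have hD'P : D' ≤ (P : Subgroup G) := by
        rw [hD']
        rintro _ ⟨a, ha, rfl⟩
        have := hDconj a ha
        simpa [MulAut.conj_apply] using this
      have hD'ne : D' ≠ ⊥ := by
        intro h
        rw [hD', Subgroup.map_eq_bot_iff_of_injective D (MulAut.conj g'⁻¹).injective] at h
        rw [h] at hxD
        exact hx1 (Subgroup.mem_bot.mp hxD)
      have hn' : g'⁻¹ * n * g' ∈ Subgroup.normalizer (D' : Set G) := by
        rw [hD', ← Subgroup.map_equiv_normalizer_eq]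
        refine ⟨n, hnN, ?_⟩
        simp [MulAut.conj_apply]
      have h3 := hlc D' hD'P hD'ne hn'
      rw [Subgroup.mem_centralizer_singleton_iff] at h3 ⊢
      calc n * y = g' * ((g'⁻¹ * n * g') * x) * g'⁻¹ := by rw [← hg'x]; group
        _ = g' * (x * (g'⁻¹ * n * g')) * g'⁻¹ := by rw [h3]
        _ = y * n := by rw [← hg'x]; group
    have hPD : (P : Subgroup G) ≤ D := pgroup_le_of_normalizer_inf_le hDP P.isPGroup' hND
    have hmap : (P : Subgroup G).map (MulAut.conj g'⁻¹).toMonoidHom = (P : Subgroup G) := by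
      apply Subgroup.eq_of_le_of_card_ge
      · rintro _ ⟨a, ha, rfl⟩
        have := hDconj a (hPD ha)
        simpa [MulAut.conj_apply] using this
      · exact (Subgroup.card_map_of_injective (MulAut.conj g'⁻¹).injective).ge
    have hg'N : g'⁻¹ ∈ Subgroup.normalizer ((P : Subgroup G) : Set G) :=
      mem_normalizer_of_map_conj_eq hmap
    have hg'C := hlc P le_rfl hPne (inv_mem hg'N)
    rw [inv_inv, Subgroup.mem_centralizer_singleton_iff] at hg'C
    rw [← hg'x, hg'C, mul_inv_cancel_right]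
  refine ⟨hPC, part2, ?_⟩
  intro N _ R hRP hRne nbar hn
  obtain ⟨n, rfl⟩ := QuotientGroup.mk_surjective nbar
  obtain ⟨M, hM⟩ : ∃ M, M = R.comap (QuotientGroup.mk' N) := ⟨_, rfl⟩
  obtain ⟨R₀, hR₀⟩ : ∃ R₀, R₀ = (P : Subgroup G) ⊓ M := ⟨_, rfl⟩
  have memM : ∀ a : G, a ∈ M ↔ (QuotientGroup.mk' N) a ∈ R := by
    intro a; rw [hM]; exact Subgroup.mem_comap
  have hNM : N ≤ M := by
    intro c hc
    rw [memM]
    have : (QuotientGroup.mk' N) c = 1 := (QuotientGroup.eq_one_iff c).mpr hc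
    rw [this]; exact one_mem R
  have hR₀P : R₀ ≤ (P : Subgroup G) := hR₀ ▸ inf_le_left
  have hR₀M : R₀ ≤ M := hR₀ ▸ inf_le_right
  have hsup : R₀ ⊔ N = M := by
    apply le_antisymm (sup_le hR₀M hNM)
    intro m hm
    obtain ⟨a, ha, ham⟩ := hRP ((memM m).mp hm)
    have haM : a ∈ M := by rw [memM, ham]; exact (memM m).mp hm
    have haR₀ : a ∈ R₀ := by rw [hR₀]; exact ⟨ha, haM⟩
    have hamN : a⁻¹ * m ∈ N := by
      have h1 : (QuotientGroup.mk' N) (a⁻¹ * m) = 1 := by
        rw [map_mul, map_inv, ham, inv_mul_cancel]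
      exact (QuotientGroup.eq_one_iff _).mp h1
    have : m = a * (a⁻¹ * m) := by group
    rw [this]
    exact mul_mem (Subgroup.mem_sup_left haR₀) (Subgroup.mem_sup_right hamN)
  have hR₀p : IsPGroup p R₀ := P.isPGroup'.to_le hR₀P
  have hidx : ¬ p ∣ R₀.relIndex M := by
    rw [← hsup, relIndex_sup_of_normal]
    have e1 : R₀.relIndex N = (P : Subgroup G).relIndex N := by
      rw [← Subgroup.inf_relIndex_right R₀ N, ← Subgroup.inf_relIndex_right (P : Subgroup G) N]
      congr 1
      rw [hR₀, inf_assoc, inf_eq_right.mpr hNM]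
    rw [e1, ← relIndex_sup_of_normal]
    intro hdvd
    exact P.not_dvd_index (hdvd.trans (Subgroup.relIndex_dvd_index_of_le le_sup_left))
  have hR₀ne : R₀ ≠ ⊥ := by
    intro h
    apply hRne
    rw [eq_bot_iff]
    intro r hr
    obtain ⟨a, ha, rfl⟩ := hRP hr
    have : a ∈ R₀ := by rw [hR₀]; exact ⟨ha, (memM a).mpr hr⟩
    rw [h] at this
    rw [Subgroup.mem_bot.mp this, map_one]
    exact one_mem _
  have hnM : n ∈ Subgroup.normalizer (M : Set G) := by
    rw [Subgroup.mem_normalizer_iff]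
    intro a
    rw [memM, memM, map_mul, map_mul, map_inv]
    exact Subgroup.mem_normalizer_iff.mp hn ((QuotientGroup.mk' N) a)
  have hQM : R₀.map (MulAut.conj n).toMonoidHom ≤ M := by
    rintro _ ⟨a, ha, rfl⟩
    exact (Subgroup.mem_normalizer_iff.mp hnM a).mp (hR₀M ha)
  have hQp : IsPGroup p (R₀.map (MulAut.conj n).toMonoidHom) := hR₀p.map _
  obtain ⟨m, hmM, hm⟩ := exists_conj_le_of_not_dvd_relIndex hR₀M hR₀p hidx hQM hQp
  have hmn : R₀.map (MulAut.conj (m * n)).toMonoidHom = R₀ := by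
    apply Subgroup.eq_of_le_of_card_ge
    · rintro _ ⟨a, ha, rfl⟩
      have := hm _ ⟨a, ha, rfl⟩
      have e : (MulAut.conj (m * n)).toMonoidHom a = m * ((MulAut.conj n).toMonoidHom a) * m⁻¹ := by
        simp [MulAut.conj_apply, mul_assoc]
      rw [e]; exact this
    · exact (Subgroup.card_map_of_injective (MulAut.conj (m * n)).injective).ge
  have hmnC := hlc R₀ hR₀P hR₀ne (mem_normalizer_of_map_conj_eq hmn)
  obtain ⟨a, ha, ham⟩ := hRP ((memM m).mp hmM)
  rw [Subgroup.mem_centralizer_singleton_iff] at hmnC ⊢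
  have h1 : Commute ((QuotientGroup.mk' N) (m * n)) ((QuotientGroup.mk' N) x) := by
    show (QuotientGroup.mk' N) (m * n) * (QuotientGroup.mk' N) x =
      (QuotientGroup.mk' N) x * (QuotientGroup.mk' N) (m * n)
    rw [← map_mul, ← map_mul, hmnC]
  have h2 : Commute ((QuotientGroup.mk' N) m) ((QuotientGroup.mk' N) x) := by
    show (QuotientGroup.mk' N) m * (QuotientGroup.mk' N) x =
      (QuotientGroup.mk' N) x * (QuotientGroup.mk' N) m
    rw [← ham, ← map_mul, ← map_mul, cx a ha]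
  have h3 : (QuotientGroup.mk' N) n = ((QuotientGroup.mk' N) m)⁻¹ * (QuotientGroup.mk' N) (m * n) := by
    rw [map_mul, inv_mul_cancel_left]
  have h4 : Commute ((QuotientGroup.mk' N) n) ((QuotientGroup.mk' N) x) := by
    rw [h3]; exact h2.inv_left.mul_left h1
  exact h4.eq

end Cfsg.Agent.S2998
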