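import Cfsg.Statements.S3003
import Cfsg.Agent.Lib.Helper19.ElemAbFixed
import Cfsg.Agent.Lib.Helper19.ConjLattice
import Cfsg.Agent.Lib.Helper19.CD

set_option autoImplicit false
open Cfsg

namespace Cfsg.Agent.S3003

open Cfsg.Agent.Lib.Helper19

theorem part1 {G : Type*} [Group G] [Finite G] {p : ℕ} [Fact p.Prime] (Q : Subgroup G)
    (hQp : IsPGroup p ↥Q) (hlarge : Cfsg.IsLarge Q) (G₁ : Subgroup G) (hQG : Q ≤ G₁)
    (R : Subgroup G) (hR : (Nat.card ↥R).Coprime p)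
    (hGR : G₁ ≤ Subgroup.normalizer (R : Set G)) (U : Subgroup G)
    (h : ∃ x ∈ U, x ≠ 1 ∧ ∃ g ∈ G₁, g * x * g⁻¹ ∈ Q ⊓ Subgroup.centralizer (Q : Set G)) :
    R ⊓ Subgroup.centralizer (U : Set G) = ⊥ := by
  obtain ⟨x, hxU, hx1, g, hg, hz⟩ := h
  rw [Subgroup.mem_inf] at hz
  have hQR : Q ⊓ R = ⊥ := by
    apply Disjoint.eq_bot
    apply Subgroup.disjoint_of_coprime_natCard
    obtain ⟨k, hk⟩ := hQp.exists_card_eq
    rw [hk]
    exact Nat.Coprime.pow_left k (Nat.Coprime.symm hR)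
  rw [eq_bot_iff]
  intro r hr
  rw [Subgroup.mem_inf] at hr
  rw [Subgroup.mem_bot]
  have hr'R : g * r * g⁻¹ ∈ R := (Subgroup.mem_normalizer_iff.mp (hGR hg) r).mp hr.1
  have hcomm : x * r = r * x := (Subgroup.mem_centralizer_iff.mp hr.2) x hxU
  have hcomm' : Commute (g * x * g⁻¹) (g * r * g⁻¹) := by
    change (g * x * g⁻¹) * (g * r * g⁻¹) = (g * r * g⁻¹) * (g * x * g⁻¹)
    calc (g * x * g⁻¹) * (g * r * g⁻¹) = g * (x * r) * g⁻¹ := by group
      _ = g * (r * x) * g⁻¹ := by rw [hcomm]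
      _ = (g * r * g⁻¹) * (g * x * g⁻¹) := by group
  have hz1 : g * x * g⁻¹ ≠ 1 := by
    intro h
    apply hx1
    have : x = g⁻¹ * (g * x * g⁻¹) * g := by group
    rw [this, h]; group
  have hZ : Subgroup.zpowers (g * x * g⁻¹) ≤ Subgroup.centralizer (Q : Set G) := by
    rw [Subgroup.zpowers_le]; exact hz.2
  have hZ1 : Subgroup.zpowers (g * x * g⁻¹) ≠ ⊥ := by
    rw [Ne, Subgroup.zpowers_eq_bot]; exact hz1
  have hN := hlarge.2 _ hZ hZ1
  have hr'N : g * r * g⁻¹ ∈ Subgroup.normalizer (Q : Set G) := by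
    apply hN
    apply Subgroup.centralizer_le_normalizer
    rw [Subgroup.mem_centralizer_iff]
    intro h hh
    obtain ⟨k, rfl⟩ := Subgroup.mem_zpowers_iff.mp hh
    exact (Commute.zpow_left hcomm' k).eq
  have hcent : g * r * g⁻¹ ∈ Subgroup.centralizer (Q : Set G) := by
    rw [Subgroup.mem_centralizer_iff]
    intro q hq
    have h1 : (g * r * g⁻¹) * q * (g * r * g⁻¹)⁻¹ * q⁻¹ ∈ Q :=
      Q.mul_mem ((Subgroup.mem_normalizer_iff.mp hr'N q).mp hq) (Q.inv_mem hq)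
    have h2 : (g * r * g⁻¹) * q * (g * r * g⁻¹)⁻¹ * q⁻¹ ∈ R := by
      have h3 : q * (g * r * g⁻¹)⁻¹ * q⁻¹ ∈ R :=
        (Subgroup.mem_normalizer_iff.mp (hGR (hQG hq)) _).mp (R.inv_mem hr'R)
      have h4 := R.mul_mem hr'R h3
      have e : (g * r * g⁻¹) * q * (g * r * g⁻¹)⁻¹ * q⁻¹ =
          (g * r * g⁻¹) * (q * (g * r * g⁻¹)⁻¹ * q⁻¹) := by group
      rw [e]; exact h4
    have h5 : (g * r * g⁻¹) * q * (g * r * g⁻¹)⁻¹ * q⁻¹ ∈ Q ⊓ R := Subgroup.mem_inf.mpr ⟨h1, h2⟩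
    rw [hQR, Subgroup.mem_bot] at h5
    have h6 : (g * r * g⁻¹) * q = q * (g * r * g⁻¹) := by
      calc (g * r * g⁻¹) * q
          = ((g * r * g⁻¹) * q * (g * r * g⁻¹)⁻¹ * q⁻¹) * (q * (g * r * g⁻¹)) := by group
        _ = q * (g * r * g⁻¹) := by rw [h5, one_mul]
    exact h6.symm
  have h7 : g * r * g⁻¹ ∈ Q ⊓ R := Subgroup.mem_inf.mpr ⟨hlarge.1 hcent, hr'R⟩
  rw [hQR, Subgroup.mem_bot] at h7
  have : r = g⁻¹ * (g * r * g⁻¹) * g := by group
  rw [this, h7]; group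

/-- Let G be a finite group, p a prime and Q a large p-subgroup of G: C_G(Q) ≤ Q and N_G(U) ≤ N_G(Q) for every nontrivial subgroup U of C_G(Q). Let Q ≤ G₁ ≤ G, let R be a subgroup of order prime to p normalized by G₁, and let U ≤ G₁ be a p-subgroup. If U contains a nontrivial element which is G₁-conjugate to an element of Z(Q), then C_R(U) = 1. In particular, if U is elementary abelian of order at least p² and every maximal subgroup of U contains a nontrivial element G₁-conjugate into Z(Q), then R = 1. -/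
theorem result {G : Type*} [Group G] [Finite G] {p : ℕ} [Fact p.Prime] (Q : Subgroup G) (hQp : IsPGroup p ↥Q) (hlarge : Cfsg.IsLarge Q) (G₁ : Subgroup G) (hQG : Q ≤ G₁) (R : Subgroup G) (hR : (Nat.card ↥R).Coprime p) (hGR : G₁ ≤ Subgroup.normalizer (R : Set G)) (U : Subgroup G) (hUG : U ≤ G₁) (hUp : IsPGroup p ↥U) : ((∃ x ∈ U, x ≠ 1 ∧ ∃ g ∈ G₁, g * x * g⁻¹ ∈ Q ⊓ Subgroup.centralizer (Q : Set G)) → R ⊓ Subgroup.centralizer (U : Set G) = ⊥) ∧ (Cfsg.IsElementaryAbelian p U → p ^ 2 ≤ Nat.card ↥U → (∀ U₀ : Subgroup G, U₀ ≤ U → IsCoatom (U₀.subgroupOf U) → ∃ x ∈ U₀, x ≠ 1 ∧ ∃ g ∈ G₁, g * x * g⁻¹ ∈ Q ⊓ Subgroup.centralizer (Q : Set G)) → R = ⊥) := by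
  refine ⟨fun h => part1 Q hQp hlarge G₁ hQG R hR hGR U h, ?_⟩
  intro hUel hcard hmax
  by_contra hR1
  have hp : p.Prime := Fact.out
  have hU1 : U ≠ ⊥ := by
    intro h
    rw [h, Subgroup.card_bot] at hcard
    have := hp.two_le
    nlinarith
  obtain ⟨U₀, hU₀, hc, hfix⟩ := exists_index_p_fixed U R hUel hU1 hR (hUG.trans hGR) hR1
  have hco : IsCoatom (U₀.subgroupOf U) := by
    apply isCoatom_subgroupOf_of_prime_relIndex
    have h1 := card_mul_relIndex_of_le hU₀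
    have h2 : Nat.card U₀ * U₀.relIndex U = Nat.card U₀ * p := by rw [h1, ← hc, mul_comm]
    have h3 := Nat.eq_of_mul_eq_mul_left Nat.card_pos h2
    rw [h3]; exact hp
  exact hfix (part1 Q hQp hlarge G₁ hQG R hR hGR U₀ (hmax U₀ hU₀ hco))

end Cfsg.Agent.S3003
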