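import Cfsg.Statements.S3012
import Mathlib

set_option autoImplicit false
open Cfsg

namespace Cfsg.Agent.S3012

/-- Let G be a finite group, V a nontrivial elementary abelian 2-subgroup of G satisfying the Sidki pair condition (every odd-order element inverted by an element of V commutes with a nontrivial element of V), and K a normal subgroup of G with V ∩ K = 1. Then the image of V in G/K satisfies the Sidki pair condition in G/K. -/
theorem result {G : Type*} [Group G] [Finite G] (V K : Subgroup G) [K.Normal] (hV : Cfsg.IsElementaryAbelian 2 V) (hV1 : V ≠ ⊥) (hS : Cfsg.IsSidkiPair V) (hVK : V ⊓ K = ⊥) : Cfsg.IsSidkiPair (V.map (QuotientGroup.mk' K)) := by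
  classical
  intro hbar vbar hvbar hodd hinv
  obtain ⟨v, hv, rfl⟩ := hvbar
  obtain ⟨h, rfl⟩ := QuotientGroup.mk_surjective hbar
  have hv2 : v * v = 1 := by have := hV.2 v hv; rwa [pow_two] at this
  have hvinv : v⁻¹ = v := inv_eq_of_mul_eq_one_left hv2
  set t : G := h * (v * h⁻¹ * v⁻¹) with ht
  have hvt : v * t * v⁻¹ = t⁻¹ := by
    rw [ht, hvinv]
    have e1 : v * (h * (v * h⁻¹ * v)) * v = v * h * v * h⁻¹ * (v * v) := by group
    have e2 : (h * (v * h⁻¹ * v))⁻¹ = v⁻¹ * h * v⁻¹ * h⁻¹ := by group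
    rw [e1, e2, hv2, hvinv, mul_one]
  obtain ⟨a, r, hr, hord⟩ := Nat.exists_eq_two_pow_mul_odd (orderOf_pos t).ne'
  set t' : G := t ^ (2 ^ a) with ht'
  have ht'odd : Odd (orderOf t') := by
    have : t' ^ r = 1 := by
      rw [ht', ← pow_mul, ← hord]; exact pow_orderOf_eq_one t
    exact Odd.of_dvd_nat hr (orderOf_dvd_of_pow_eq_one this)
  have hvt' : v * t' * v⁻¹ = t'⁻¹ := by
    rw [ht', ← conj_pow, hvt, inv_pow]
  obtain ⟨w, hw, hw1, hwt⟩ := hS t' v hv ht'odd hvt'
  refine ⟨QuotientGroup.mk' K w, ⟨w, hw, rfl⟩, ?_, ?_⟩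
  · intro h1
    have hwK : w ∈ K := (QuotientGroup.eq_one_iff w).mp h1
    have : w ∈ V ⊓ K := ⟨hw, hwK⟩
    rw [hVK] at this
    exact hw1 (Subgroup.mem_bot.mp this)
  · -- image of t' is a power of hbar generating the same cyclic group
    set hb : G ⧸ K := (QuotientGroup.mk' K) h with hhb
    set vb : G ⧸ K := (QuotientGroup.mk' K) v with hvb
    have hinv' : vb * hb * vb⁻¹ = hb⁻¹ := hinv
    have himg : (QuotientGroup.mk' K) t' = hb ^ (2 ^ (a + 1)) := by
      rw [ht', map_pow, ht]
      simp only [map_mul, map_inv]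
      have e : vb * hb⁻¹ * vb⁻¹ = hb := by
        have := congrArg (fun z => z⁻¹) hinv'
        simpa [mul_assoc] using this
      rw [← hhb, ← hvb, e, ← pow_two, ← pow_mul, pow_succ, mul_comm]
    have hcomm : Commute ((QuotientGroup.mk' K) w) (hb ^ (2 ^ (a + 1))) := by
      rw [← himg]
      show (QuotientGroup.mk' K) w * (QuotientGroup.mk' K) t' =
        (QuotientGroup.mk' K) t' * (QuotientGroup.mk' K) w
      rw [← map_mul, ← map_mul, hwt]
    -- hb is a power of hb ^ (2 ^ (a+1))
    have hcop : Nat.Coprime (2 ^ (a + 1)) (orderOf hb) :=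
      Nat.Coprime.pow_left _ (Nat.coprime_two_left.mpr hodd)
    obtain ⟨k, hpow⟩ := exists_pow_eq_self_of_coprime hcop
    have := hcomm.pow_right k
    rw [hpow] at this
    exact this

end Cfsg.Agent.S3012
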