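import Cfsg.Statements.S3013
import Mathlib

set_option autoImplicit false
open Cfsg

namespace Cfsg.Agent.S3013

/-- an element commuting with the square of an odd-order element commutes with it -/
theorem commute_of_commute_sq {G : Type*} [Group G] {w x : G} (hx : Odd (orderOf x))
    (h : Commute w (x ^ 2)) : Commute w x := by
  obtain ⟨k, hk⟩ := exists_pow_eq_self_of_coprime (Nat.coprime_two_left.mpr hx)
  have := h.pow_right k
  rwa [hk] at this

/-- Let G be a finite group and V a nontrivial elementary abelian 2-subgroup of G satisfying the Sidki pair condition. Let v ∈ V and let x be an element of odd order inverted by v, and put C = C_G(v) ∩ C_G(x), the centralizer of the dihedral subgroup generated by v and x. Then C ∩ V is nontrivial and satisfies the Sidki pair condition inside C: every odd-order element of C inverted by an element of C ∩ V commutes with a nontrivial element of C ∩ V. -/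
theorem result {G : Type*} [Group G] [Finite G] (V : Subgroup G) (hV : Cfsg.IsElementaryAbelian 2 V) (hV1 : V ≠ ⊥) (hS : Cfsg.IsSidkiPair V) (v x : G) (hv : v ∈ V) (hx : Odd (orderOf x)) (hinv : v * x * v⁻¹ = x⁻¹) (C : Subgroup G) (hC : C = Subgroup.centralizer ({v} : Set G) ⊓ Subgroup.centralizer ({x} : Set G)) : C ⊓ V ≠ ⊥ ∧ Cfsg.IsSidkiPair ((C ⊓ V).subgroupOf C) := by
  classical
  subst hC
  have cV : ∀ a ∈ V, ∀ b ∈ V, Commute a b := fun a ha b hb => by
    have := hV.1
    exact setLike_mul_comm ha hb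
  have hv2 : v * v = 1 := by have := hV.2 v hv; rwa [pow_two] at this
  have hvinv : v⁻¹ = v := inv_eq_of_mul_eq_one_left hv2
  have memC : ∀ g : G, g ∈ Subgroup.centralizer ({v} : Set G) ⊓ Subgroup.centralizer ({x} : Set G) ↔
      Commute g v ∧ Commute g x := by
    intro g
    rw [Subgroup.mem_inf, Subgroup.mem_centralizer_singleton_iff,
      Subgroup.mem_centralizer_singleton_iff]
    rfl
  constructor
  · obtain ⟨w, hw, hw1, hwx⟩ := hS x v hv hx hinv
    intro hbot
    have : w ∈ (Subgroup.centralizer ({v} : Set G) ⊓ Subgroup.centralizer ({x} : Set G)) ⊓ V :=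
      ⟨(memC w).mpr ⟨cV w hw v hv, hwx⟩, hw⟩
    rw [hbot] at this
    exact hw1 (Subgroup.mem_bot.mp this)
  · intro h u hu hodd hinvh
    have huCV : (u : G) ∈ (Subgroup.centralizer ({v} : Set G) ⊓ Subgroup.centralizer ({x} : Set G)) ⊓ V :=
      Subgroup.mem_subgroupOf.mp hu
    have huV : (u : G) ∈ V := huCV.2
    obtain ⟨huv, hux⟩ := (memC u).mp u.2
    obtain ⟨hhv, hhx⟩ := (memC h).mp h.2
    have hodd' : Odd (orderOf (h : G)) := by rwa [Subgroup.orderOf_coe]
    have hinv' : (u : G) * h * (u : G)⁻¹ = (h : G)⁻¹ := by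
      have := congrArg Subtype.val hinvh
      simpa using this
    set h' : G := (h : G) with hh'
    set u' : G := (u : G) with hu'
    have hu2 : u' * u' = 1 := by have := hV.2 u' huV; rwa [pow_two] at this
    have huinv : u'⁻¹ = u' := inv_eq_of_mul_eq_one_left hu2
    -- y = x * h' has odd order
    have hxh : Commute x h' := hhx.symm
    have hyodd : Odd (orderOf (x * h')) := by
      have h1 : orderOf (x * h') ∣ Nat.lcm (orderOf x) (orderOf h') := hxh.orderOf_mul_dvd_lcm
      have h2 : Nat.lcm (orderOf x) (orderOf h') ∣ orderOf x * orderOf h' := Nat.lcm_dvd_mul _ _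
      exact Odd.of_dvd_nat (hx.mul hodd') (h1.trans h2)
    -- conjugates
    have cvx : v * x * v⁻¹ = x⁻¹ := hinv
    have cvh : v * h' * v⁻¹ = h' := by
      rw [← hhv.eq, mul_inv_cancel_right]
    have cux : u' * x * u'⁻¹ = x := by
      rw [hux.eq, mul_inv_cancel_right]
    have cuh : u' * h' * u'⁻¹ = h'⁻¹ := hinv'
    have cvy : v * (x * h') * v⁻¹ = x⁻¹ * h' := by
      calc v * (x * h') * v⁻¹ = (v * x * v⁻¹) * (v * h' * v⁻¹) := by group
        _ = x⁻¹ * h' := by rw [cvx, cvh]
    have cuy : u' * (x * h') * u'⁻¹ = x * h'⁻¹ := by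
      calc u' * (x * h') * u'⁻¹ = (u' * x * u'⁻¹) * (u' * h' * u'⁻¹) := by group
        _ = x * h'⁻¹ := by rw [cux, cuh]
    have cuvy : (u' * v) * (x * h') * (u' * v)⁻¹ = (x * h')⁻¹ := by
      calc (u' * v) * (x * h') * (u' * v)⁻¹ = u' * (v * (x * h') * v⁻¹) * u'⁻¹ := by group
        _ = u' * (x⁻¹ * h') * u'⁻¹ := by rw [cvy]
        _ = (u' * x * u'⁻¹)⁻¹ * (u' * h' * u'⁻¹) := by group
        _ = x⁻¹ * h'⁻¹ := by rw [cux, cuh]
        _ = (h' * x)⁻¹ := by group
        _ = (x * h')⁻¹ := by rw [hxh.eq]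
    obtain ⟨w, hw, hw1, hwy⟩ := hS (x * h') (u' * v) (mul_mem huV hv) hyodd cuvy
    have hwy' : Commute w (x * h') := hwy
    have hwu : Commute w u' := cV w hw u' huV
    have hwv : Commute w v := cV w hw v hv
    have hw_uy : Commute w (x * h'⁻¹) := by
      rw [← cuy]
      exact (hwu.mul_right hwy').mul_right hwu.inv_right
    have hw_vy : Commute w (x⁻¹ * h') := by
      rw [← cvy]
      exact (hwv.mul_right hwy').mul_right hwv.inv_right
    have hwx2 : Commute w (x ^ 2) := by
      have e : x ^ 2 = (x * h') * (x * h'⁻¹) := by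
        calc x ^ 2 = x * x := pow_two x
          _ = x * (h' * x) * h'⁻¹ := by rw [← hxh.eq]; group
          _ = (x * h') * (x * h'⁻¹) := by group
      rw [e]
      exact hwy'.mul_right hw_uy
    have hwh2 : Commute w (h' ^ 2) := by
      have e : h' ^ 2 = (x * h') * (x⁻¹ * h') := by
        calc h' ^ 2 = h' * h' := pow_two h'
          _ = (h' * x) * x⁻¹ * h' := by group
          _ = (x * h') * (x⁻¹ * h') := by rw [← hxh.eq]; group
      rw [e]
      exact hwy'.mul_right hw_vy
    have hwx : Commute w x := commute_of_commute_sq hx hwx2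
    have hwh : Commute w h' := commute_of_commute_sq hodd' hwh2
    have hwC : w ∈ Subgroup.centralizer ({v} : Set G) ⊓ Subgroup.centralizer ({x} : Set G) :=
      (memC w).mpr ⟨hwv, hwx⟩
    refine ⟨⟨w, hwC⟩, ?_, ?_, ?_⟩
    · exact Subgroup.mem_subgroupOf.mpr ⟨hwC, hw⟩
    · intro h1
      exact hw1 (congrArg Subtype.val h1)
    · exact Subtype.ext hwh.eq

end Cfsg.Agent.S3013
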