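import Cfsg.Statements.S3014
import Cfsg.Agent.Lib.Helper19.ThompsonRepl

set_option autoImplicit false
open Cfsg

namespace Cfsg.Agent.S3014

open Cfsg.Agent.Lib.Helper19

/-- Transfer step: if `H` is normal in `M` with cyclic quotient generated by the image of `x`,
conjugates of `H` meet `M` inside `H`, and `M ∩ tMt⁻¹ ≤ H` for `t ∉ M`, then there is a normal
subgroup containing `H` but not `M`. -/
theorem transfer_case {G : Type*} [Group G] [Finite G] (H M : Subgroup G) (hHM : H ≤ M)
    (hMN : M ≤ Subgroup.normalizer (H : Set G))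
    (hFel : ∀ g h : G, h ∈ H → g * h * g⁻¹ ∈ M → g * h * g⁻¹ ∈ H)
    (hmaxH : IsCoatom (H.subgroupOf M))
    (hB : ∀ t : G, t ∉ M → ∀ x : G, x ∈ M → x ∈ M.map (MulAut.conj t).toMonoidHom → x ∈ H)
    (x : G) (hxM : x ∈ M) (hxH : x ∉ H) :
    ∃ K : Subgroup G, K.Normal ∧ H ≤ K ∧ ¬ M ≤ K := by
  classical
  have hHn : (H.subgroupOf M).Normal := Subgroup.normal_subgroupOf_of_le_normalizer hMN
  have hcyc : IsCyclic (↥M ⧸ H.subgroupOf M) := by
    refine ⟨⟨QuotientGroup.mk' (H.subgroupOf M) ⟨x, hxM⟩, ?_⟩⟩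
    intro y
    obtain ⟨m, rfl⟩ := QuotientGroup.mk'_surjective (H.subgroupOf M) y
    have h2 : H.subgroupOf M <
        (Subgroup.zpowers (QuotientGroup.mk' (H.subgroupOf M) ⟨x, hxM⟩)).comap
          (QuotientGroup.mk' (H.subgroupOf M)) := by
      refine lt_of_le_of_ne ?_ ?_
      · intro z hz
        rw [Subgroup.mem_comap]
        have : QuotientGroup.mk' (H.subgroupOf M) z = 1 := (QuotientGroup.eq_one_iff z).mpr hz
        rw [this]; exact Subgroup.one_mem _
      · intro h
        have h3 : (⟨x, hxM⟩ : M) ∈ (Subgroup.zpowers (QuotientGroup.mk' (H.subgroupOf M) ⟨x, hxM⟩)).comap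
            (QuotientGroup.mk' (H.subgroupOf M)) := by
          rw [Subgroup.mem_comap]; exact Subgroup.mem_zpowers _
        rw [← h] at h3
        exact hxH (Subgroup.mem_subgroupOf.mp h3)
    have h3 := hmaxH.2 _ h2
    have h4 : m ∈ (Subgroup.zpowers (QuotientGroup.mk' (H.subgroupOf M) ⟨x, hxM⟩)).comap
        (QuotientGroup.mk' (H.subgroupOf M)) := by rw [h3]; trivial
    exact Subgroup.mem_comap.mp h4
  let : CommGroup (↥M ⧸ H.subgroupOf M) := IsCyclic.commGroup
  let φ : ↥M →* (↥M ⧸ H.subgroupOf M) := QuotientGroup.mk' (H.subgroupOf M)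
  have hφ : ∀ m : ↥M, φ m = 1 ↔ (m : G) ∈ H := by
    intro m
    show QuotientGroup.mk' (H.subgroupOf M) m = 1 ↔ _
    rw [QuotientGroup.mk'_apply, QuotientGroup.eq_one_iff, Subgroup.mem_subgroupOf]
  refine ⟨(MonoidHom.transfer φ).ker, MonoidHom.normal_ker _, ?_, ?_⟩
  · intro h hh
    rw [MonoidHom.mem_ker]
    let : Fintype (Quotient (MulAction.orbitRel (Subgroup.zpowers h) (G ⧸ M))) := Fintype.ofFinite _
    rw [MonoidHom.transfer_eq_prod_quotient_orbitRel_zpowers_quot φ h]
    apply Finset.prod_eq_one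
    intro q _
    rw [hφ]
    obtain ⟨m, hm⟩ : ∃ m, m = Function.minimalPeriod (h • ·) q.out := ⟨_, rfl⟩
    obtain ⟨k, hk⟩ : ∃ k : G, k = q.out.out := ⟨_, rfl⟩
    have hmem : k⁻¹ * h ^ m * k ∈ M := by
      rw [hm, hk]; exact QuotientGroup.out_conj_pow_minimalPeriod_mem M h q.out
    simp only [← hm, ← hk]
    have := hFel k⁻¹ (h ^ m) (H.pow_mem hh m) (by rw [inv_inv]; exact hmem)
    rwa [inv_inv] at this
  · intro hMK
    have hxK := hMK hxM
    rw [MonoidHom.mem_ker] at hxK
    let : Fintype (Quotient (MulAction.orbitRel (Subgroup.zpowers x) (G ⧸ M))) := Fintype.ofFinite _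
    rw [MonoidHom.transfer_eq_prod_quotient_orbitRel_zpowers_quot φ x] at hxK
    obtain ⟨q₀, hq₀⟩ : ∃ q₀ : Quotient (MulAction.orbitRel (Subgroup.zpowers x) (G ⧸ M)),
        q₀ = Quotient.mk _ ((1 : G) : G ⧸ M) := ⟨_, rfl⟩
    have hother : ∀ q : Quotient (MulAction.orbitRel (Subgroup.zpowers x) (G ⧸ M)), q ≠ q₀ →
        φ ⟨q.out.out⁻¹ * x ^ Function.minimalPeriod (x • ·) q.out * q.out.out,
            QuotientGroup.out_conj_pow_minimalPeriod_mem M x q.out⟩ = 1 := by
      intro q hq
      rw [hφ]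
      obtain ⟨m, hm⟩ : ∃ m, m = Function.minimalPeriod (x • ·) q.out := ⟨_, rfl⟩
      obtain ⟨k, hk⟩ : ∃ k : G, k = q.out.out := ⟨_, rfl⟩
      have hmem : k⁻¹ * x ^ m * k ∈ M := by
        rw [hm, hk]; exact QuotientGroup.out_conj_pow_minimalPeriod_mem M x q.out
      simp only [← hm, ← hk]
      have hkM : k ∉ M := by
        intro hkM
        apply hq
        have h1 : q.out = ((1 : G) : G ⧸ M) := by
          rw [← QuotientGroup.out_eq' q.out, ← hk]
          exact QuotientGroup.eq.mpr (by simpa using M.inv_mem hkM)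
        rw [hq₀, ← h1]
        exact (Quotient.out_eq q).symm
      have hxm : x ^ m ∈ H := by
        apply hB k hkM (x ^ m) (M.pow_mem hxM m)
        refine ⟨k⁻¹ * x ^ m * k, hmem, ?_⟩
        simp only [MulEquiv.coe_toMonoidHom, MulAut.conj_apply]
        group
      have := hFel k⁻¹ (x ^ m) hxm (by rw [inv_inv]; exact hmem)
      rwa [inv_inv] at this
    rw [Finset.prod_eq_single q₀ (fun q _ hq => hother q hq) (fun h => absurd (Finset.mem_univ _) h),
      hφ] at hxK
    -- the orbit of the trivial coset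
    have hout : q₀.out = ((1 : G) : G ⧸ M) := by
      have h1 : Quotient.mk (MulAction.orbitRel (Subgroup.zpowers x) (G ⧸ M)) q₀.out =
          Quotient.mk _ ((1 : G) : G ⧸ M) := by rw [Quotient.out_eq, hq₀]
      have h2 := Quotient.exact h1
      obtain ⟨z, hz⟩ := h2
      have hzM : (z : G) ∈ M := (Subgroup.zpowers_le.mpr hxM) z.2
      rw [← hz]
      show ((z : G) • ((1 : G) : G ⧸ M)) = _
      exact QuotientGroup.eq.mpr (by simpa using M.inv_mem hzM)
    obtain ⟨k, hk⟩ : ∃ k : G, k = q₀.out.out := ⟨_, rfl⟩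
    have hkM : k ∈ M := by
      have h1 : ((k : G) : G ⧸ M) = ((1 : G) : G ⧸ M) := by
        rw [hk, QuotientGroup.out_eq', hout]
      have := QuotientGroup.eq.mp h1
      simpa using this
    have hper : Function.minimalPeriod (x • ·) q₀.out = 1 := by
      rw [Function.minimalPeriod_eq_one_iff_isFixedPt, hout]
      show x • ((1 : G) : G ⧸ M) = _
      exact QuotientGroup.eq.mpr (by simpa using M.inv_mem hxM)
    simp only [hper, pow_one, ← hk] at hxK
    apply hxH
    have := (Subgroup.mem_normalizer_iff.mp (hMN hkM) (k⁻¹ * x * k)).mp hxK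
    have e : k * (k⁻¹ * x * k) * k⁻¹ = x := by group
    rwa [e] at this

/-- Let G be a finite group and H ≤ M ≤ G subgroups such that for every g ∈ G the subgroup generated by H and g H g⁻¹ meets M exactly in H. If H is a maximal subgroup of M and M is a maximal subgroup of G, then the normal closure of H in G meets M exactly in H. -/
theorem result {G : Type*} [Group G] [Finite G] (H M : Subgroup G) (hHM : H ≤ M) (hcl : ∀ g : G, (H ⊔ H.map (MulAut.conj g).toMonoidHom) ⊓ M = H) (hmaxH : IsCoatom (H.subgroupOf M)) (hmaxM : IsCoatom M) : Subgroup.normalClosure (H : Set G) ⊓ M = H := by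
  classical
  have hF : ∀ g : G, H.map (MulAut.conj g).toMonoidHom ⊓ M ≤ H := by
    intro g
    calc H.map (MulAut.conj g).toMonoidHom ⊓ M
        ≤ (H ⊔ H.map (MulAut.conj g).toMonoidHom) ⊓ M := inf_le_inf_right _ le_sup_right
      _ = H := hcl g
  have hFel : ∀ g h : G, h ∈ H → g * h * g⁻¹ ∈ M → g * h * g⁻¹ ∈ H := by
    intro g h hh hm
    exact hF g (Subgroup.mem_inf.mpr ⟨⟨h, hh, by simp⟩, hm⟩)
  have hMN : M ≤ Subgroup.normalizer (H : Set G) := by
    intro m hm
    apply mem_normalizer_of_forall_conj_mem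
    intro h hh
    exact hFel m h hh (M.mul_mem (M.mul_mem hm (hHM hh)) (M.inv_mem hm))
  have hred : ∀ K : Subgroup G, K.Normal → H ≤ K → ¬ M ≤ K →
      Subgroup.normalClosure (H : Set G) ⊓ M = H := by
    intro K hKn hHK hMK
    apply le_antisymm
    · have h1 : Subgroup.normalClosure (H : Set G) ≤ K := Subgroup.normalClosure_le_normal hHK
      have h2 : H.subgroupOf M ≤ (K ⊓ M).subgroupOf M := by
        intro x hx
        exact Subgroup.mem_subgroupOf.mpr
          (Subgroup.mem_inf.mpr ⟨hHK (Subgroup.mem_subgroupOf.mp hx), x.2⟩)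
      have h3 : (K ⊓ M).subgroupOf M ≠ ⊤ := by
        intro h
        apply hMK
        intro m hm
        have : (⟨m, hm⟩ : M) ∈ (K ⊓ M).subgroupOf M := by rw [h]; trivial
        exact (Subgroup.mem_inf.mp (Subgroup.mem_subgroupOf.mp this)).1
      have h4 : (K ⊓ M).subgroupOf M = H.subgroupOf M := by
        by_contra hne
        exact h3 (hmaxH.2 _ (lt_of_le_of_ne h2 (Ne.symm hne)))
      intro x hx
      obtain ⟨hx1, hx2⟩ := Subgroup.mem_inf.mp hx
      have : (⟨x, hx2⟩ : M) ∈ (K ⊓ M).subgroupOf M :=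
        Subgroup.mem_subgroupOf.mpr (Subgroup.mem_inf.mpr ⟨h1 hx1, hx2⟩)
      rw [h4] at this
      exact Subgroup.mem_subgroupOf.mp this
    · exact le_inf Subgroup.le_normalClosure hHM
  have hHneM : ¬ M ≤ H := by
    intro h
    apply hmaxH.1
    rw [Subgroup.subgroupOf_eq_top]; exact h
  by_cases hNtop : Subgroup.normalizer (H : Set G) = ⊤
  · exact hred H (Subgroup.normalizer_eq_top_iff.mp hNtop) le_rfl hHneM
  have hNM : Subgroup.normalizer (H : Set G) = M := by
    by_contra hne
    exact hNtop (hmaxM.2 _ (lt_of_le_of_ne hMN (Ne.symm hne)))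
  by_cases hA : ∃ t : G, t ∉ M ∧ ∃ x : G, x ∈ M ∧ x ∈ M.map (MulAut.conj t).toMonoidHom ∧ x ∉ H
  · obtain ⟨t, htM, x, hxM, hxMt, hxH⟩ := hA
    obtain ⟨L, hL⟩ : ∃ L : Subgroup G, L = H ⊔ H.map (MulAut.conj t).toMonoidHom := ⟨_, rfl⟩
    have hxNH : x ∈ Subgroup.normalizer (H : Set G) := hMN hxM
    have hxNHt : x ∈ Subgroup.normalizer
        ((H.map (MulAut.conj t).toMonoidHom : Subgroup G) : Set G) := by
      obtain ⟨m, hm, rfl⟩ := hxMt
      exact Subgroup.le_normalizer_map (MulAut.conj t).toMonoidHom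
        (Subgroup.mem_map_of_mem _ (hMN hm))
    have hxNL : x ∈ Subgroup.normalizer (L : Set G) := by
      rw [Subgroup.mem_normalizer_iff_map_conj_eq] at hxNH hxNHt ⊢
      rw [hL, Subgroup.map_sup, hxNH, hxNHt]
    have hMx : M ≤ H ⊔ Subgroup.zpowers x := by
      have h2 : H.subgroupOf M < (H ⊔ Subgroup.zpowers x).subgroupOf M := by
        refine lt_of_le_of_ne ?_ ?_
        · intro y hy
          exact Subgroup.mem_subgroupOf.mpr (Subgroup.mem_sup_left (Subgroup.mem_subgroupOf.mp hy))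
        · intro h
          have : (⟨x, hxM⟩ : M) ∈ (H ⊔ Subgroup.zpowers x).subgroupOf M :=
            Subgroup.mem_subgroupOf.mpr (Subgroup.mem_sup_right (Subgroup.mem_zpowers x))
          rw [← h] at this
          exact hxH (Subgroup.mem_subgroupOf.mp this)
      have h3 := hmaxH.2 _ h2
      rw [Subgroup.subgroupOf_eq_top] at h3
      exact h3
    have hHL : H ≤ L := by rw [hL]; exact le_sup_left
    have hHtL : H.map (MulAut.conj t).toMonoidHom ≤ L := by rw [hL]; exact le_sup_right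
    have hMNL : M ≤ Subgroup.normalizer (L : Set G) :=
      hMx.trans (sup_le (hHL.trans Subgroup.le_normalizer) (Subgroup.zpowers_le.mpr hxNL))
    have hHtM : ¬ H.map (MulAut.conj t).toMonoidHom ≤ M := by
      intro hle
      apply htM
      rw [← hNM]
      apply mem_normalizer_of_forall_conj_mem
      intro h hh
      exact hFel t h hh (hle ⟨h, hh, by simp⟩)
    have hLtop : Subgroup.normalizer (L : Set G) = ⊤ := by
      by_contra hne
      have hNLM : Subgroup.normalizer (L : Set G) = M := by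
        by_contra hne2
        exact hne (hmaxM.2 _ (lt_of_le_of_ne hMNL (Ne.symm hne2)))
      apply hHtM
      rw [← hNLM]
      exact hHtL.trans Subgroup.le_normalizer
    apply hred L (Subgroup.normalizer_eq_top_iff.mp hLtop) hHL
    intro hML
    apply hHneM
    have := hcl t
    rw [← hL] at this
    rw [← this]
    exact le_inf hML le_rfl
  · push Not at hA
    obtain ⟨x, hxM, hxH⟩ := SetLike.not_le_iff_exists.mp hHneM
    obtain ⟨K, hKn, hHK, hMK⟩ := transfer_case H M hHM hMN hFel hmaxH hA x hxM hxH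
    exact hred K hKn hHK hMK

end Cfsg.Agent.S3014
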