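import Cfsg.Statements.S3015
import Cfsg.Agent.S3014
import Cfsg.Agent.Lib.Helper19.ConjLattice
import Cfsg.Agent.Lib.Helper19.MaxAb

set_option autoImplicit false
open Cfsg

namespace Cfsg.Agent.S3015

open Cfsg.Agent.Lib.Helper19

section

variable {G : Type*} [Group G]

/-- The configuration: `N(H)` is maximal and self-normalizing, `H` has prime index `p` in it, and
no two conjugates of `H` generate `G`. -/
def Cfg (H : Subgroup G) (p : ℕ) : Prop :=
  p.Prime ∧ IsCoatom (Subgroup.normalizer (H : Set G)) ∧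
    H.relIndex (Subgroup.normalizer (H : Set G)) = p ∧
    Subgroup.normalizer ((Subgroup.normalizer (H : Set G) : Subgroup G) : Set G) =
      Subgroup.normalizer (H : Set G) ∧
    ∀ g : G, H ⊔ cj g H ≠ ⊤

def IsConj (H A : Subgroup G) : Prop := ∃ a : G, A = cj a H

def Edge (H A B : Subgroup G) : Prop :=
  IsConj H A ∧ IsConj H B ∧ B ≤ Subgroup.normalizer (A : Set G) ∧ B ≠ A

theorem isConj_cj {H A : Subgroup G} (h : IsConj H A) (x : G) : IsConj H (cj x A) := by
  obtain ⟨a, rfl⟩ := h
  exact ⟨x * a, cj_mul x a H⟩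

theorem isConj_card {H A : Subgroup G} (h : IsConj H A) : Nat.card A = Nat.card H := by
  obtain ⟨a, rfl⟩ := h
  exact card_cj a H

theorem isConj_nogen {H : Subgroup G} {p : ℕ} (hc : Cfg H p) {A B : Subgroup G}
    (hA : IsConj H A) (hB : IsConj H B) : A ⊔ B ≠ ⊤ := by
  obtain ⟨a, rfl⟩ := hA
  obtain ⟨b, rfl⟩ := hB
  intro h
  have e : cj a H ⊔ cj b H = cj a (H ⊔ cj (a⁻¹ * b) H) := by
    rw [cj_sup, cj_mul, mul_inv_cancel_left]
  rw [e, cj_eq_top_iff] at h
  exact hc.2.2.2.2 _ h

theorem isConj_coatom {H : Subgroup G} {p : ℕ} (hc : Cfg H p) {A : Subgroup G}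
    (hA : IsConj H A) : IsCoatom (Subgroup.normalizer (A : Set G)) := by
  obtain ⟨a, rfl⟩ := hA
  rw [cj_normalizer]
  exact cj_isCoatom a hc.2.1

theorem isConj_idx {H : Subgroup G} {p : ℕ} (hc : Cfg H p) {A : Subgroup G}
    (hA : IsConj H A) : A.relIndex (Subgroup.normalizer (A : Set G)) = p := by
  obtain ⟨a, rfl⟩ := hA
  rw [cj_normalizer, cj_relIndex]
  exact hc.2.2.1

theorem isConj_eq_of_normalizer_eq {H : Subgroup G} {p : ℕ} (hc : Cfg H p) {A B : Subgroup G}
    (hA : IsConj H A) (hB : IsConj H B)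
    (h : Subgroup.normalizer (A : Set G) = Subgroup.normalizer (B : Set G)) : A = B := by
  obtain ⟨a, rfl⟩ := hA
  obtain ⟨b, rfl⟩ := hB
  rw [cj_normalizer, cj_normalizer] at h
  have h1 := congrArg (cj a⁻¹) h
  rw [cj_inv_cj, cj_mul] at h1
  have h2 : a⁻¹ * b ∈ Subgroup.normalizer
      ((Subgroup.normalizer (H : Set G) : Subgroup G) : Set G) :=
    (cj_eq_self_iff _ _).mp h1.symm
  rw [hc.2.2.2.1] at h2
  have h3 := (cj_eq_self_iff _ _).mpr h2
  have h4 := congrArg (cj a) h3
  rw [cj_mul, mul_inv_cancel_left] at h4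
  exact h4.symm

theorem edge_cj {H A B : Subgroup G} (h : Edge H A B) (x : G) : Edge H (cj x A) (cj x B) := by
  obtain ⟨hA, hB, hle, hne⟩ := h
  refine ⟨isConj_cj hA x, isConj_cj hB x, ?_, ?_⟩
  · rw [cj_normalizer]; exact cj_mono x hle
  · intro h; exact hne ((cj_inj x).mp h)

theorem edge_stab {H A B : Subgroup G} (h : Edge H A B) {a : G}
    (ha : a ∈ Subgroup.normalizer (A : Set G)) : Edge H A (cj a B) := by
  have h1 := edge_cj h a
  rwa [(cj_eq_self_iff a A).mpr ha] at h1

theorem edge_facts [Finite G] {H : Subgroup G} {p : ℕ} (hc : Cfg H p) {A B : Subgroup G} (h : Edge H A B) :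
    (A ⊓ B).relIndex B = p ∧ (A ⊓ B).relIndex A = p ∧
      Subgroup.normalizer (A : Set G) = A ⊔ B := by
  obtain ⟨hA, hB, hle, hne⟩ := h
  have hp : p.Prime := hc.1
  have hidx := isConj_idx hc hA
  have hsup : A ⊔ B ≤ Subgroup.normalizer (A : Set G) := sup_le Subgroup.le_normalizer hle
  have e1 := Subgroup.relIndex_mul_relIndex A (A ⊔ B) (Subgroup.normalizer (A : Set G))
    le_sup_left hsup
  rw [hidx] at e1
  have hne1 : A.relIndex (A ⊔ B) ≠ 1 := by
    intro h1
    rw [Subgroup.relIndex_eq_one] at h1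
    have hBA : B ≤ A := le_sup_right.trans h1
    apply hne
    apply Subgroup.eq_of_le_of_card_ge hBA
    rw [isConj_card hA, isConj_card hB]
  have hAB : A.relIndex (A ⊔ B) = p := by
    rcases (Nat.dvd_prime hp).mp (Dvd.intro _ e1) with h1 | h1
    · exact absurd h1 hne1
    · exact h1
  have hN : (A ⊔ B).relIndex (Subgroup.normalizer (A : Set G)) = 1 := by
    rw [hAB] at e1
    exact Nat.eq_of_mul_eq_mul_left hp.pos (by rw [e1, mul_one])
  have hB1 : (A ⊓ B).relIndex B = p := by
    rw [Subgroup.inf_relIndex_right, ← relIndex_sup_of_le_normalizer hle, sup_comm]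
    exact hAB
  refine ⟨hB1, ?_, le_antisymm (Subgroup.relIndex_eq_one.mp hN) hsup⟩
  have c1 : Nat.card (A ⊓ B : Subgroup G) * (A ⊓ B).relIndex B = Nat.card B :=
    card_mul_relIndex_of_le inf_le_right
  have c2 : Nat.card (A ⊓ B : Subgroup G) * (A ⊓ B).relIndex A = Nat.card A :=
    card_mul_relIndex_of_le inf_le_left
  rw [isConj_card hB, ← isConj_card hA, ← c2] at c1
  rw [← hB1]
  exact (Nat.eq_of_mul_eq_mul_left Nat.card_pos c1).symm

theorem edge_sup3 [Finite G] {H : Subgroup G} {p : ℕ} (hc : Cfg H p) {A B C : Subgroup G}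
    (h1 : Edge H A B) (h2 : Edge H B C) : A ⊔ B ⊔ C = ⊤ := by
  have n1 := (edge_facts hc h1).2.2
  have n2 := (edge_facts hc h2).2.2
  have hne : Subgroup.normalizer (A : Set G) ≠ Subgroup.normalizer (B : Set G) := by
    intro h
    exact h1.2.2.2 (isConj_eq_of_normalizer_eq hc h1.1 h1.2.1 h).symm
  have hco := isConj_coatom hc h1.1
  have hlt : Subgroup.normalizer (A : Set G) <
      Subgroup.normalizer (A : Set G) ⊔ Subgroup.normalizer (B : Set G) := by
    refine lt_of_le_of_ne le_sup_left ?_
    intro h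
    have hle : Subgroup.normalizer (B : Set G) ≤ Subgroup.normalizer (A : Set G) := by
      rw [h]; exact le_sup_right
    have hcoB := isConj_coatom hc h1.2.1
    rcases eq_or_lt_of_le hle with h3 | h3
    · exact hne h3.symm
    · exact hco.1 (hcoB.2 _ h3)
  have htop := hco.2 _ hlt
  rw [n1, n2] at htop
  rw [eq_top_iff, ← htop]
  exact sup_le (sup_le (le_sup_left.trans le_sup_left) (le_sup_right.trans le_sup_left))
    (sup_le (le_sup_right.trans le_sup_left) le_sup_right)

theorem edge_inf [Finite G] {H : Subgroup G} {p : ℕ} (hc : Cfg H p) {A B C : Subgroup G}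
    (h1 : Edge H A B) (h2 : Edge H B C) : A ⊓ B = B ⊓ C :=
  inf_eq_of_relIndex_prime hc.1 (edge_facts hc h1).1 (edge_facts hc h2).2.1
    (edge_sup3 hc h1 h2) (isConj_nogen hc h1.1 h2.2.1)

theorem no_edge [Finite G] [IsSimpleGroup G] {H : Subgroup G} {p : ℕ} (hc : Cfg H p) {K : Subgroup G}
    (e1 : Edge H H K) : False := by
  have hp : p.Prime := hc.1
  obtain ⟨g, hg⟩ := e1.2.1
  have e2 : Edge H K (cj g K) := by
    have := edge_cj e1 g
    rwa [← hg] at this
  have e0 : Edge H (cj g⁻¹ H) H := by
    have := edge_cj e1 g⁻¹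
    rwa [hg, cj_inv_cj] at this
  obtain ⟨D, hD⟩ : ∃ D : Subgroup G, D = H ⊓ K := ⟨_, rfl⟩
  have hD2 : D = K ⊓ cj g K := by rw [hD]; exact edge_inf hc e1 e2
  have hK : ∀ k ∈ K, cj k D = D := by
    intro k hk
    have e3 := edge_stab e2 (Subgroup.le_normalizer hk)
    have h1 := edge_inf hc e1 e3
    rw [hD2, cj_inf, (cj_eq_self_iff k K).mpr (Subgroup.le_normalizer hk), ← h1, ← hD, hD2]
  have hK2 : ∀ y ∈ cj g K, cj y D = D := by
    intro y hy
    rw [hD2, cj_inf, (cj_eq_self_iff y K).mpr (e2.2.2.1 hy),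
      (cj_eq_self_iff y (cj g K)).mpr (Subgroup.le_normalizer hy)]
  have hH : ∀ h ∈ H, cj h D = D := by
    intro h hh
    have e3 := edge_stab e1 (Subgroup.le_normalizer hh)
    have h1 := edge_inf hc e0 e3
    have h2 := edge_inf hc e0 e1
    rw [hD, cj_inf, (cj_eq_self_iff h H).mpr (Subgroup.le_normalizer hh), ← h1, h2]
  have hND : Subgroup.normalizer (D : Set G) = ⊤ := by
    rw [eq_top_iff, ← edge_sup3 hc e1 e2]
    refine sup_le (sup_le ?_ ?_) ?_
    · intro h hh; exact (cj_eq_self_iff h D).mp (hH h hh)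
    · intro k hk; exact (cj_eq_self_iff k D).mp (hK k hk)
    · intro y hy; exact (cj_eq_self_iff y D).mp (hK2 y hy)
  have hDn : D.Normal := Subgroup.normalizer_eq_top_iff.mp hND
  have hco := hc.2.1
  rcases hDn.eq_bot_or_eq_top with hb | ht
  · obtain ⟨f1, f2, f3⟩ := edge_facts hc e1
    rw [← hD, hb, Subgroup.relIndex_bot_left] at f1 f2
    have hcN : Nat.card (Subgroup.normalizer (H : Set G)) = p ^ 2 := by
      have := card_mul_relIndex_of_le (Subgroup.le_normalizer (H := H))
      rw [f2, hc.2.2.1] at this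
      rw [← this, pow_two]
    have : Fact p.Prime := ⟨hp⟩
    have hcomm := IsPGroup.isMulCommutative_of_card_eq_prime_sq hcN
    have hHK : H ≤ Subgroup.normalizer (K : Set G) := by
      intro h hh
      apply mem_normalizer_of_forall_conj_mem
      intro k' hk'
      have h1 : (⟨h, Subgroup.le_normalizer hh⟩ : Subgroup.normalizer (H : Set G)) *
          ⟨k', e1.2.2.1 hk'⟩ = ⟨k', e1.2.2.1 hk'⟩ * ⟨h, Subgroup.le_normalizer hh⟩ :=
        hcomm.is_comm.comm _ _
      have h2 : h * k' = k' * h := congrArg Subtype.val h1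
      rw [h2, mul_inv_cancel_right]
      exact hk'
    have hle : Subgroup.normalizer (H : Set G) ≤ Subgroup.normalizer (K : Set G) := by
      rw [f3]; exact sup_le hHK Subgroup.le_normalizer
    have hcoK := isConj_coatom hc e1.2.1
    have heq : Subgroup.normalizer (H : Set G) = Subgroup.normalizer (K : Set G) := by
      rcases eq_or_lt_of_le hle with h3 | h3
      · exact h3
      · exact absurd (hco.2 _ h3) hcoK.1
    exact e1.2.2.2 (isConj_eq_of_normalizer_eq hc e1.1 e1.2.1 heq).symm
  · apply hco.1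
    rw [eq_top_iff, ← ht, hD]
    exact inf_le_left.trans Subgroup.le_normalizer

end

/-- Let G be a finite non-abelian simple group, M a maximal subgroup of G and H a normal subgroup of M of prime index in M. Then G is generated by H together with one of its conjugates. -/
theorem result {G : Type*} [Group G] [Finite G] [IsSimpleGroup G] (hG : ¬ IsMulCommutative G) (M H : Subgroup G) (hmaxM : IsCoatom M) (hHM : H ≤ M) (hHn : (H.subgroupOf M).Normal) (hidx : (H.relIndex M).Prime) : ∃ g : G, H ⊔ H.map (MulAut.conj g).toMonoidHom = ⊤ := by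
  classical
  by_contra hno
  push Not at hno
  obtain ⟨p, hpdef⟩ : ∃ p, p = H.relIndex M := ⟨_, rfl⟩
  have hp : p.Prime := by rw [hpdef]; exact hidx
  have hcoH : IsCoatom (H.subgroupOf M) := isCoatom_subgroupOf_of_prime_relIndex hidx
  have hMN : M ≤ Subgroup.normalizer (H : Set G) :=
    (Subgroup.normal_subgroupOf_iff_le_normalizer hHM).mp hHn
  have hNMgen : M ≠ ⊥ → Subgroup.normalizer (M : Set G) = M := by
    intro hMbot
    by_contra hne
    have hNtop := hmaxM.2 _ (lt_of_le_of_ne Subgroup.le_normalizer (Ne.symm hne))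
    have hMnG : M.Normal := Subgroup.normalizer_eq_top_iff.mp hNtop
    rcases hMnG.eq_bot_or_eq_top with h | h
    · exact hMbot h
    · exact hmaxM.1 h
  by_cases hHbot : H = ⊥
  · have hcM : Nat.card M = p := by
      rw [hpdef, hHbot, Subgroup.relIndex_bot_left]
    have : Fact p.Prime := ⟨hp⟩
    have hMp : IsPGroup p M := IsPGroup.of_card (n := 1) (by rw [hcM, pow_one])
    obtain ⟨P, hP⟩ := hMp.exists_le_sylow
    have hPtop : (P : Subgroup G) ≠ ⊤ := by
      intro ht
      apply hG
      have hGp : IsPGroup p G := by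
        have h1 := P.isPGroup'
        rw [ht] at h1
        exact h1.of_equiv Subgroup.topEquiv
      have hcn : Nontrivial (Subgroup.center G) := hGp.center_nontrivial
      have hcne : Subgroup.center G ≠ ⊥ := (Subgroup.nontrivial_iff_ne_bot _).mp hcn
      have hctop : Subgroup.center G = ⊤ := by
        rcases (inferInstance : (Subgroup.center G).Normal).eq_bot_or_eq_top with h | h
        · exact absurd h hcne
        · exact h
      refine ⟨⟨fun a b => ?_⟩⟩
      have hb : b ∈ Subgroup.center G := by rw [hctop]; trivial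
      exact Subgroup.mem_center_iff.mp hb a
    have hPM : (P : Subgroup G) = M := by
      by_contra hne
      exact hPtop (hmaxM.2 _ (lt_of_le_of_ne hP (Ne.symm hne)))
    have hMbot : M ≠ ⊥ := by
      intro h
      rw [h, Subgroup.card_bot] at hcM
      exact hp.one_lt.ne hcM
    have hNM := hNMgen hMbot
    have hMcyc : IsCyclic ↥M := isCyclic_of_prime_card hcM
    have hMcomm : IsMulCommutative ↥M := inferInstance
    have hMC : M ≤ Subgroup.centralizer (M : Set G) := le_centralizer_of_isMulCommutative hMcomm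
    have hPN : Subgroup.normalizer ((P : Subgroup G) : Set G) ≤
        Subgroup.centralizer ((P : Subgroup G) : Set G) := by
      rw [hPM, hNM]; exact hMC
    have hcompl := MonoidHom.ker_transferSylow_isComplement' P hPN
    rcases (MonoidHom.normal_ker (MonoidHom.transferSylow P hPN)).eq_bot_or_eq_top with h | h
    · rw [h] at hcompl
      exact hPtop (Subgroup.isComplement'_bot_left.mp hcompl)
    · rw [h] at hcompl
      have := Subgroup.isComplement'_top_left.mp hcompl
      rw [hPM] at this
      exact hMbot this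
  · have hHtop : H ≠ ⊤ := by
      intro h
      apply hmaxM.1
      rw [eq_top_iff, ← h]; exact hHM
    have hNH : Subgroup.normalizer (H : Set G) = M := by
      by_contra hne
      have hNtop := hmaxM.2 _ (lt_of_le_of_ne hMN (Ne.symm hne))
      have hHnG : H.Normal := Subgroup.normalizer_eq_top_iff.mp hNtop
      rcases hHnG.eq_bot_or_eq_top with h | h
      · exact hHbot h
      · exact hHtop h
    have hMbot : M ≠ ⊥ := by
      intro h
      apply hHbot
      rw [eq_bot_iff, ← h]; exact hHM
    have hNM := hNMgen hMbot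
    have hc : Cfg H p := by
      refine ⟨hp, ?_, ?_, ?_, hno⟩
      · rw [hNH]; exact hmaxM
      · rw [hNH]; exact hpdef.symm
      · rw [hNH]; exact hNM
    have hex : ∃ g : G, (H ⊔ H.map (MulAut.conj g).toMonoidHom) ⊓ M ≠ H := by
      by_contra hall
      push Not at hall
      have h1 := Cfsg.Agent.S3014.result H M hHM hall hcoH hmaxM
      have hncn : (Subgroup.normalClosure (H : Set G)).Normal := Subgroup.normalClosure_normal
      rcases hncn.eq_bot_or_eq_top with h | h
      · apply hHbot
        have h2 := Subgroup.le_normalClosure (H := H)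
        rw [h] at h2
        exact le_bot_iff.mp h2
      · rw [h, top_inf_eq] at h1
        apply hcoH.1
        rw [Subgroup.subgroupOf_eq_top, h1]
    obtain ⟨g, hg⟩ := hex
    have hMle : M ≤ H ⊔ H.map (MulAut.conj g).toMonoidHom := by
      have h2 : H.subgroupOf M <
          ((H ⊔ H.map (MulAut.conj g).toMonoidHom) ⊓ M).subgroupOf M := by
        refine lt_of_le_of_ne ?_ ?_
        · intro y hy
          exact Subgroup.mem_subgroupOf.mpr (Subgroup.mem_inf.mpr
            ⟨Subgroup.mem_sup_left (Subgroup.mem_subgroupOf.mp hy), y.2⟩)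
        · intro h
          apply hg
          apply le_antisymm
          · intro y hy
            have h3 : (⟨y, (Subgroup.mem_inf.mp hy).2⟩ : M) ∈
                ((H ⊔ H.map (MulAut.conj g).toMonoidHom) ⊓ M).subgroupOf M :=
              Subgroup.mem_subgroupOf.mpr hy
            rw [← h] at h3
            exact Subgroup.mem_subgroupOf.mp h3
          · exact le_inf le_sup_left hHM
      have h3 := hcoH.2 _ h2
      rw [Subgroup.subgroupOf_eq_top] at h3
      exact h3.trans inf_le_left
    have hsupM : H ⊔ H.map (MulAut.conj g).toMonoidHom = M := by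
      by_contra hne
      exact hno g (hmaxM.2 _ (lt_of_le_of_ne hMle (Ne.symm hne)))
    have hKM : cj g H ≤ M := by rw [← hsupM]; exact le_sup_right
    have hKH : cj g H ≠ H := by
      intro h
      apply hcoH.1
      rw [Subgroup.subgroupOf_eq_top, ← hsupM]
      exact sup_le le_rfl (le_of_eq h)
    exact no_edge hc ⟨⟨1, (cj_one H).symm⟩, ⟨g, rfl⟩, by rw [hNH]; exact hKM, hKH⟩

end Cfsg.Agent.S3015
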