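import Cfsg.Statements.S3020
import Cfsg.Agent.Lib.Helper19.PPrimeCore
import Cfsg.Agent.Lib.Helper19.RelNorm

set_option autoImplicit false
open Cfsg

namespace Cfsg.Agent.S3020

open Cfsg.Agent.Lib.Helper19

/-- Let G be a finite group, p a prime and H an abelian p-subgroup of G that is extremely closed (for every g, the subgroup generated by H and g H g⁻¹ meets N_G(H) exactly in H). Then for every g ∈ G, the subgroup T generated by H and g H g⁻¹ is the product of H with O_{p'}(T), and H meets O_{p'}(T) trivially; that is, O_{p'}(T) is a normal p-complement of H in T. -/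
theorem result {G : Type*} [Group G] [Finite G] {p : ℕ} [Fact p.Prime] (H : Subgroup G) (hHp : IsPGroup p H) (hHab : IsMulCommutative H) (hcl : Cfsg.IsExtremelyClosed H) (g : G) (T : Subgroup G) (hT : T = H ⊔ H.map (MulAut.conj g).toMonoidHom) : H ⊔ (Cfsg.pPrimeCore p ↥T).map T.subtype = T ∧ H ⊓ (Cfsg.pPrimeCore p ↥T).map T.subtype = ⊥ := by
  classical
  have hp : p.Prime := Fact.out
  have hHT : H ≤ T := hT ▸ le_sup_left
  -- H is self-normalizing in T
  have hNT : Subgroup.normalizer (H : Set G) ⊓ T = H := by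
    rw [inf_comm, hT]; exact hcl g
  -- index prime to p
  have hidx : ¬ p ∣ H.relIndex T := by
    have m := relIndex_normalizer_modEq hHT hHp
    rw [hNT, Subgroup.relIndex_self] at m
    intro hdvd
    have h0 : H.relIndex T ≡ 0 [MOD p] := (Nat.modEq_zero_iff_dvd).mpr hdvd
    have h10 : 1 ≡ 0 [MOD p] := m.trans h0
    exact hp.one_lt.ne' (Nat.dvd_one.mp ((Nat.modEq_zero_iff_dvd).mp h10))
  have hH'p : IsPGroup p (H.subgroupOf T) := hHp.comap_subtype
  -- the Sylow subgroup of T
  let P : Sylow p ↥T := hH'p.toSylow hidx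
  have hPcoe : (P : Subgroup ↥T) = H.subgroupOf T := rfl
  have hnorm : Subgroup.normalizer ((H.subgroupOf T : Subgroup ↥T) : Set ↥T) = H.subgroupOf T := by
    rw [← Subgroup.subgroupOf_normalizer_eq hHT, ← Subgroup.inf_subgroupOf_right, hNT]
  have hPN : Subgroup.normalizer ((P : Subgroup ↥T) : Set ↥T) ≤
      Subgroup.centralizer ((P : Subgroup ↥T) : Set ↥T) := by
    rw [hPcoe, hnorm]
    intro a ha
    rw [Subgroup.mem_centralizer_iff]
    intro b hb
    apply Subtype.ext
    exact setLike_mul_comm (Subgroup.mem_subgroupOf.mp hb) (Subgroup.mem_subgroupOf.mp ha)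
  have hcomp := MonoidHom.ker_transferSylow_isComplement' P hPN
  have hcop : (Nat.card (MonoidHom.transferSylow P hPN).ker).Coprime p :=
    (Nat.coprime_comm.mp ((Nat.Prime.coprime_iff_not_dvd hp).mpr
      (MonoidHom.not_dvd_card_ker_transferSylow P hPN)))
  have hKle : (MonoidHom.transferSylow P hPN).ker ≤ Cfsg.pPrimeCore p ↥T :=
    le_pPrimeCore_of_normal_of_coprime p inferInstance hcop
  have hsup : H.subgroupOf T ⊔ Cfsg.pPrimeCore p ↥T = ⊤ := by
    rw [eq_top_iff, ← hcomp.sup_eq_top, sup_comm]
    exact sup_le_sup le_rfl hKle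
  have hinf : H.subgroupOf T ⊓ Cfsg.pPrimeCore p ↥T = ⊥ := by
    apply Subgroup.inf_eq_bot_of_coprime
    obtain ⟨n, hn⟩ := hH'p.exists_card_eq
    rw [hn]
    exact Nat.Coprime.pow_left n (Nat.coprime_comm.mp (pPrimeCore_normal_and_card_coprime p).2)
  have hmapH : (H.subgroupOf T).map T.subtype = H := Subgroup.map_subgroupOf_eq_of_le hHT
  constructor
  · have := congrArg (Subgroup.map T.subtype) hsup
    rw [Subgroup.map_sup, hmapH, ← MonoidHom.range_eq_map, Subgroup.range_subtype] at this
    exact this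
  · have := congrArg (Subgroup.map T.subtype) hinf
    rw [Subgroup.map_inf _ _ _ T.subtype_injective, hmapH, Subgroup.map_bot] at this
    exact this

end Cfsg.Agent.S3020
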