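import Cfsg.Statements.S3021
import Cfsg.Agent.Lib.Helper19.RelNorm

set_option autoImplicit false
open Cfsg

namespace Cfsg.Agent.S3021

/-- Let G be a finite group, p a prime and H a p-subgroup of G that is extremely closed (for every g, the subgroup generated by H and g H g⁻¹ meets N_G(H) exactly in H). Then every p-subgroup Q of G containing H has N_G(Q) ≤ N_G(H); in particular every Sylow p-subgroup P of G containing H normalizes H, and H is strongly closed in P with respect to G. -/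
theorem result {G : Type*} [Group G] [Finite G] {p : ℕ} [Fact p.Prime] (H : Subgroup G) (hHp : IsPGroup p H) (hcl : Cfsg.IsExtremelyClosed H) : (∀ Q : Subgroup G, IsPGroup p Q → H ≤ Q → Subgroup.normalizer (Q : Set G) ≤ Subgroup.normalizer (H : Set G)) ∧ ∀ P : Sylow p G, H ≤ (P : Subgroup G) → (P : Subgroup G) ≤ Subgroup.normalizer (H : Set G) ∧ Cfsg.IsStronglyClosed H (P : Subgroup G) := by
  classical
  have hp : p.Prime := Fact.out
  have part1 : ∀ Q : Subgroup G, IsPGroup p Q → H ≤ Q →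
      Subgroup.normalizer (Q : Set G) ≤ Subgroup.normalizer (H : Set G) := by
    intro Q hQ hHQ g hg
    set Hg := H.map (MulAut.conj g).toMonoidHom with hHg
    have hHgQ : Hg ≤ Q := by
      rintro _ ⟨a, ha, rfl⟩
      exact (Subgroup.mem_normalizer_iff.mp hg a).mp (hHQ ha)
    have hLQ : H ⊔ Hg ≤ Q := sup_le hHQ hHgQ
    have hLp : IsPGroup p (H ⊔ Hg : Subgroup G) := hQ.to_le hLQ
    have hHL : H ≤ H ⊔ Hg := le_sup_left
    have m := Cfsg.Agent.Lib.Helper19.relIndex_normalizer_modEq hHL hHp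
    have hc := hcl g
    rw [inf_comm] at hc
    rw [hc, Subgroup.relIndex_self] at m
    obtain ⟨k, hk⟩ := hLp.exists_card_eq
    have hdvd : H.relIndex (H ⊔ Hg) ∣ p ^ k := hk ▸ Subgroup.relIndex_dvd_card H (H ⊔ Hg)
    obtain ⟨i, -, hi⟩ := (Nat.dvd_prime_pow hp).mp hdvd
    have hi0 : i = 0 := by
      by_contra hne
      have hpd : p ∣ H.relIndex (H ⊔ Hg) := by
        rw [hi]; exact dvd_pow_self p hne
      have h0 : H.relIndex (H ⊔ Hg) ≡ 0 [MOD p] := (Nat.modEq_zero_iff_dvd).mpr hpd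
      have h10 : 1 ≡ 0 [MOD p] := m.trans h0
      have := (Nat.modEq_zero_iff_dvd).mp h10
      exact hp.one_lt.ne' (Nat.dvd_one.mp this)
    rw [hi0, pow_zero, Subgroup.relIndex_eq_one] at hi
    have hle : Hg ≤ H := le_sup_right.trans hi
    have hcard : Nat.card Hg = Nat.card H :=
      Subgroup.card_map_of_injective (MulAut.conj g).injective
    have heq : Hg = H := Subgroup.eq_of_le_of_card_ge hle hcard.ge
    exact Cfsg.Agent.Lib.Helper19.mem_normalizer_of_map_conj_eq heq
  refine ⟨part1, ?_⟩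
  intro P hHP
  have hPN : (P : Subgroup G) ≤ Subgroup.normalizer (H : Set G) :=
    Subgroup.le_normalizer.trans (part1 P P.isPGroup' hHP)
  refine ⟨hPN, hHP, ?_⟩
  intro x hx g hgP
  have h1 : g * x * g⁻¹ ∈ H ⊔ H.map (MulAut.conj g).toMonoidHom :=
    Subgroup.mem_sup_right ⟨x, hx, rfl⟩
  have h2 : g * x * g⁻¹ ∈ (H ⊔ H.map (MulAut.conj g).toMonoidHom) ⊓ Subgroup.normalizer (H : Set G) :=
    ⟨h1, hPN hgP⟩
  rw [hcl g] at h2
  exact h2

end Cfsg.Agent.S3021
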