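import Cfsg.Statements.S3023
import Cfsg.Agent.Lib.Helper18.CharPSub
import Cfsg.Agent.Lib.Helper18.Large2
import Cfsg.Agent.Lib.Helper19.SubnormalSylow
import Cfsg.Agent.Lib.Helper19.SylowRel
import Cfsg.Agent.Lib.Helper19.CD

set_option autoImplicit false
open Cfsg

namespace Cfsg.Agent.S3023

open Cfsg.Agent.Lib.Helper18 Cfsg.Agent.Lib.Helper19

theorem key {G : Type*} [Group G] [Finite G] {p : ℕ} [Fact p.Prime]
    (hG : Cfsg.IsOfParabolicCharacteristic p G) (G₁ : Subgroup G) (hsn : G₁.IsSubnormal)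
    (T' : Subgroup G) (hT'G₁ : T' ≤ G₁) (hT'p : IsPGroup p T')
    (hT'max : ∀ Q : Subgroup G, Q ≤ G₁ → IsPGroup p Q → T' ≤ Q → Q = T')
    (hZ : ∀ z ∈ T', (∀ t ∈ T', t * z = z * t) →
      ∃ S' : Sylow p G, ∀ s ∈ (S' : Subgroup G), s * z = z * s)
    (R' : Subgroup G) (hR'G₁ : R' ≤ G₁) (hR'p : IsPGroup p R') (hR'1 : R' ≠ ⊥)
    (hT'R' : T' ≤ Subgroup.normalizer (R' : Set G)) :
    Cfsg.Agent.Lib.Helper18.CharP p (G₁ ⊓ Subgroup.normalizer (R' : Set G)) := by
  have hp : p.Prime := Fact.out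
  -- `R' ≤ T'`
  have hR'T' : R' ≤ T' := by
    have h1 : IsPGroup p (T' ⊔ R' : Subgroup G) :=
      IsPGroup.to_sup_of_normal_right' hT'p hR'p hT'R'
    have h2 := hT'max (T' ⊔ R') (sup_le hT'G₁ hR'G₁) h1 le_sup_left
    rw [← h2]; exact le_sup_right
  obtain ⟨z, hzR', hzo, hzc⟩ := exists_fixed_of_le_normalizer hT'p hR'p hR'1 hT'R'
  obtain ⟨S', hS'⟩ := hZ z (hR'T' hzR') hzc
  have hz1 : z ≠ 1 := by
    intro h
    rw [h, orderOf_one] at hzo
    exact hp.one_lt.ne hzo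
  obtain ⟨U, hUdef⟩ : ∃ U : Subgroup G, U = Subgroup.zpowers z := ⟨_, rfl⟩
  have hUp : IsPGroup p U := by
    rw [hUdef]
    exact hR'p.to_le (Subgroup.zpowers_le.mpr hzR')
  have hU1 : U ≠ ⊥ := by
    rw [hUdef, Ne, Subgroup.zpowers_eq_bot]; exact hz1
  have hcentU : ∀ x : G, x * z = z * x → x ∈ Subgroup.normalizer (U : Set G) := by
    intro x hx
    apply Subgroup.centralizer_le_normalizer
    rw [Subgroup.mem_centralizer_iff]
    intro h hh
    rw [SetLike.mem_coe, hUdef] at hh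
    obtain ⟨k, rfl⟩ := Subgroup.mem_zpowers_iff.mp hh
    exact (Commute.zpow_left (show Commute z x from hx.symm) k).eq
  have hpar : Cfsg.IsParabolic p (Subgroup.normalizer (U : Set G)) :=
    ⟨S', fun s hs => hcentU s (hS' s hs)⟩
  have hM : Cfsg.Agent.Lib.Helper18.CharP p (Subgroup.normalizer (U : Set G)) :=
    (Cfsg.Agent.Lib.Helper18.charP_iff p _).mp (hG U hUp hU1 hpar)
  -- `K = G₁ ∩ N(U)` has characteristic `p`
  have hK : Cfsg.Agent.Lib.Helper18.CharP p (G₁ ⊓ Subgroup.normalizer (U : Set G)) := by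
    have h1 : (G₁.subgroupOf (Subgroup.normalizer (U : Set G))).IsSubnormal := hsn.subgroupOf
    have h2 := charP_of_isSubnormal ((Cfsg.Agent.Lib.Helper18.charP_iff p _).mpr hM) h1
    have h3 := (charP_map_subtype_iff p (Subgroup.normalizer (U : Set G)) _).mpr h2
    rwa [Subgroup.subgroupOf_map_subtype] at h3
  -- the centraliser `D` of `O_p(L₁)` in `L₁`
  obtain ⟨L₁, hL₁def⟩ : ∃ L₁ : Subgroup G, L₁ = G₁ ⊓ Subgroup.normalizer (R' : Set G) :=
    ⟨_, rfl⟩
  rw [← hL₁def]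
  have hR'L₁ : R' ≤ L₁ := by rw [hL₁def]; exact le_inf hR'G₁ Subgroup.le_normalizer
  have hT'L₁ : T' ≤ L₁ := by rw [hL₁def]; exact le_inf hT'G₁ hT'R'
  have hR'core : R' ≤ Cfsg.pCoreOf p L₁ :=
    le_pCoreOf hR'L₁ (by rw [hL₁def]; exact inf_le_right) hR'p
  obtain ⟨D, hDdef⟩ : ∃ D : Subgroup G,
      D = L₁ ⊓ Subgroup.centralizer (Cfsg.pCoreOf p L₁ : Set G) := ⟨_, rfl⟩
  have hDL₁ : D ≤ L₁ := by rw [hDdef]; exact inf_le_left
  have hL₁D : L₁ ≤ Subgroup.normalizer (D : Set G) := by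
    rw [hDdef]; exact le_normalizer_inf_centralizer_pCoreOf p L₁
  have hDK : D ≤ G₁ ⊓ Subgroup.normalizer (U : Set G) := by
    intro x hx
    refine Subgroup.mem_inf.mpr ⟨?_, ?_⟩
    · have := hDL₁ hx
      rw [hL₁def] at this
      exact (Subgroup.mem_inf.mp this).1
    · apply hcentU
      rw [hDdef] at hx
      have h1 := (Subgroup.mem_inf.mp hx).2
      exact ((Subgroup.mem_centralizer_iff.mp h1) z (hR'core hzR')).symm
  have hT'K : T' ≤ G₁ ⊓ Subgroup.normalizer (U : Set G) :=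
    le_inf hT'G₁ (fun t ht => hcentU t (hzc t ht))
  have hcoreK : Cfsg.pCoreOf p (G₁ ⊓ Subgroup.normalizer (U : Set G)) ≤ T' := by
    have h0 : T' ≤ Subgroup.normalizer
        (Cfsg.pCoreOf p (G₁ ⊓ Subgroup.normalizer (U : Set G)) : Set G) :=
      hT'K.trans (le_normalizer_pCoreOf p _)
    have h1 : IsPGroup p (T' ⊔ Cfsg.pCoreOf p (G₁ ⊓ Subgroup.normalizer (U : Set G)) :
        Subgroup G) :=
      IsPGroup.to_sup_of_normal_right' hT'p (pCoreOf_isPGroup p _) h0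
    have h2 := hT'max _ (sup_le hT'G₁ ((pCoreOf_le p _).trans inf_le_left)) h1 le_sup_left
    rw [← h2]; exact le_sup_right
  have hD : Cfsg.Agent.Lib.Helper18.CharP p D :=
    charP_of_normalized hK hDK (hcoreK.trans (hT'L₁.trans hL₁D))
  have hcore : Cfsg.pCoreOf p D ≤ Cfsg.pCoreOf p L₁ := pCoreOf_le_pCoreOf_of_normal hDL₁ hL₁D
  intro x hx
  have hxD : x ∈ D := by rw [hDdef]; exact hx
  apply hcore
  apply hD
  refine Subgroup.mem_inf.mpr ⟨hxD, ?_⟩
  exact Subgroup.centralizer_le (SetLike.coe_subset_coe.mpr hcore) (Subgroup.mem_inf.mp hx).2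

/-- Let p be a prime, G a finite group of parabolic characteristic p (every p-local subgroup containing a Sylow p-subgroup of G has characteristic p), S a Sylow p-subgroup of G and G₁ a subnormal subgroup of G. If the centre of S ∩ G₁ is nontrivial and contained in the centre of S, then G₁ has parabolic characteristic p. -/
theorem result {G : Type*} [Group G] [Finite G] {p : ℕ} [Fact p.Prime] (hG : Cfsg.IsOfParabolicCharacteristic p G) (S : Sylow p G) (G₁ : Subgroup G) (hsn : G₁.IsSubnormal) (hne : ((S : Subgroup G) ⊓ G₁) ⊓ Subgroup.centralizer (((S : Subgroup G) ⊓ G₁ : Subgroup G) : Set G) ≠ ⊥) (hle : ((S : Subgroup G) ⊓ G₁) ⊓ Subgroup.centralizer (((S : Subgroup G) ⊓ G₁ : Subgroup G) : Set G) ≤ (S : Subgroup G) ⊓ Subgroup.centralizer ((S : Subgroup G) : Set G)) : Cfsg.IsOfParabolicCharacteristic p ↥G₁ := by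
  have hp : p.Prime := Fact.out
  intro R hRp hR1 hpar
  obtain ⟨T, hT⟩ := hpar
  rw [Cfsg.Agent.Lib.Helper18.charP_iff, ← charP_map_subtype_iff, normalizer_map_subtype]
  obtain ⟨T₁, hT₁def⟩ : ∃ T₁ : Subgroup G, T₁ = (S : Subgroup G) ⊓ G₁ := ⟨_, rfl⟩
  rw [← hT₁def] at hne hle
  have hT₁G₁ : T₁ ≤ G₁ := by rw [hT₁def]; exact inf_le_right
  have hT₁p : IsPGroup p T₁ := by rw [hT₁def]; exact IsPGroup.to_inf_left S.isPGroup'
  have hT₁card : Nat.card T₁ = p ^ (Nat.card G₁).factorization p := by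
    rw [hT₁def]; exact card_sylow_inf_subnormal S hsn
  have hidx : ¬ p ∣ T₁.relIndex G₁ := by
    intro h
    have h1 := card_mul_relIndex_of_le hT₁G₁
    have h2 : p ^ ((Nat.card G₁).factorization p + 1) ∣ Nat.card G₁ := by
      have h3 : p ^ ((Nat.card G₁).factorization p + 1) ∣ Nat.card T₁ * T₁.relIndex G₁ := by
        rw [hT₁card, pow_succ]
        exact Nat.mul_dvd_mul_left _ h
      rwa [h1] at h3
    exact Nat.pow_succ_factorization_not_dvd Nat.card_pos.ne' hp h2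
  obtain ⟨T', hT'def⟩ : ∃ T' : Subgroup G, T' = (T : Subgroup ↥G₁).map G₁.subtype := ⟨_, rfl⟩
  have hT'G₁ : T' ≤ G₁ := by rw [hT'def]; exact Subgroup.map_subtype_le _
  have hT'p : IsPGroup p T' := by rw [hT'def]; exact T.isPGroup'.map _
  have hT'max : ∀ Q : Subgroup G, Q ≤ G₁ → IsPGroup p Q → T' ≤ Q → Q = T' := by
    intro Q hQG₁ hQp hT'Q
    have h1 : IsPGroup p (Q.subgroupOf G₁) := hQp.comap_subtype
    have h2 : (T : Subgroup ↥G₁) ≤ Q.subgroupOf G₁ := by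
      intro x hx
      rw [Subgroup.mem_subgroupOf]
      apply hT'Q
      rw [hT'def]
      exact ⟨x, hx, rfl⟩
    have h3 := T.is_maximal' h1 h2
    rw [hT'def, ← h3]
    exact (Subgroup.map_subgroupOf_eq_of_le hQG₁).symm
  obtain ⟨k, hkG₁, hk⟩ := exists_conj_le_of_not_dvd_relIndex hT₁G₁ hT₁p hidx hT'G₁ hT'p
  -- `T' = k⁻¹ T₁ k`
  have hback : ∀ t ∈ T₁, k⁻¹ * t * k ∈ T' := by
    have h1 : T₁.comap (MulAut.conj k).toMonoidHom = T' := by
      apply hT'max
      · intro x hx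
        have h2 : k * x * k⁻¹ ∈ T₁ := hx
        have h3 := G₁.mul_mem (G₁.mul_mem (G₁.inv_mem hkG₁) (hT₁G₁ h2)) hkG₁
        have e : k⁻¹ * (k * x * k⁻¹) * k = x := by group
        rwa [e] at h3
      · exact hT₁p.comap_of_injective _ (MulAut.conj k).injective
      · intro a ha
        exact hk a ha
    intro t ht
    rw [← h1]
    change k * (k⁻¹ * t * k) * k⁻¹ ∈ T₁
    have e : k * (k⁻¹ * t * k) * k⁻¹ = t := by group
    rw [e]; exact ht
  refine key hG G₁ hsn T' hT'G₁ hT'p hT'max ?_ (R.map G₁.subtype) (Subgroup.map_subtype_le _)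
    (hRp.map _) ?_ ?_
  · intro z hz hzc
    have h1 : k * z * k⁻¹ ∈ T₁ ⊓ Subgroup.centralizer (T₁ : Set G) := by
      refine Subgroup.mem_inf.mpr ⟨hk z hz, ?_⟩
      rw [Subgroup.mem_centralizer_iff]
      intro t ht
      have h2 := hzc _ (hback t ht)
      calc t * (k * z * k⁻¹) = k * ((k⁻¹ * t * k) * z) * k⁻¹ := by group
        _ = k * (z * (k⁻¹ * t * k)) * k⁻¹ := by rw [h2]
        _ = k * z * k⁻¹ * t := by group
    have h2 := (Subgroup.mem_inf.mp (hle h1)).2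
    refine ⟨(k⁻¹ : G) • S, ?_⟩
    intro s hs
    rw [mem_smul_sylow_iff, inv_inv] at hs
    have h3 := (Subgroup.mem_centralizer_iff.mp h2) _ hs
    calc s * z = k⁻¹ * ((k * s * k⁻¹) * (k * z * k⁻¹)) * k := by group
      _ = k⁻¹ * ((k * z * k⁻¹) * (k * s * k⁻¹)) * k := by rw [h3]
      _ = z * s := by group
  · intro h
    apply hR1
    rw [eq_bot_iff]
    intro x hx
    have h1 : (x : G) ∈ R.map G₁.subtype := ⟨x, hx, rfl⟩
    rw [h, Subgroup.mem_bot] at h1
    rw [Subgroup.mem_bot]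
    exact Subtype.ext h1
  · have h1 : T' ≤ (Subgroup.normalizer (R : Set ↥G₁)).map G₁.subtype := by
      rw [hT'def]; exact Subgroup.map_mono hT
    rw [normalizer_map_subtype] at h1
    exact h1.trans inf_le_right

end Cfsg.Agent.S3023
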