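import Cfsg.Statements.S3027
import Cfsg.Agent.Lib.Helper19.ThompsonRepl

set_option autoImplicit false
open Cfsg

namespace Cfsg.Agent.S3027

open Cfsg.Agent.Lib.Helper19
open scoped commutatorElement

theorem subnormal_of_le {G : Type*} [Group G] {S K₁ K₂ : Subgroup G} (h : K₁ ≤ K₂)
    (hS : (S.subgroupOf K₂).IsSubnormal) : (S.subgroupOf K₁).IsSubnormal := by
  have h1 := hS.comap (Subgroup.inclusion h)
  have e : (S.subgroupOf K₂).comap (Subgroup.inclusion h) = S.subgroupOf K₁ := by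
    ext x
    simp [Subgroup.mem_subgroupOf]
  rwa [e] at h1

theorem comm_le_sup {G : Type*} [Group G] (D : Subgroup G) [D.Normal] {K X Y : Subgroup G}
    (hX : K ≤ X ⊔ D) (hY : K ≤ Y ⊔ D) : ⁅K, K⁆ ≤ ⁅X, Y⁆ ⊔ D := by
  rw [Subgroup.commutator_le]
  intro k₁ hk₁ k₂ hk₂
  have h1 := hX hk₁
  have h2 := hY hk₂
  rw [← SetLike.mem_coe, Subgroup.mul_normal] at h1 h2
  obtain ⟨x, hx, d₁, hd₁, rfl⟩ := Set.mem_mul.mp h1
  obtain ⟨y, hy, d₂, hd₂, rfl⟩ := Set.mem_mul.mp h2
  have hq : (QuotientGroup.mk' D) ⁅x * d₁, y * d₂⁆ = (QuotientGroup.mk' D) ⁅x, y⁆ := by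
    rw [map_commutatorElement, map_commutatorElement, map_mul, map_mul]
    have e1 : (QuotientGroup.mk' D) d₁ = 1 := (QuotientGroup.eq_one_iff d₁).mpr hd₁
    have e2 : (QuotientGroup.mk' D) d₂ = 1 := (QuotientGroup.eq_one_iff d₂).mpr hd₂
    rw [e1, e2, mul_one, mul_one]
  have hd : ⁅x, y⁆⁻¹ * ⁅x * d₁, y * d₂⁆ ∈ D := QuotientGroup.eq.mp hq.symm
  have e : ⁅x * d₁, y * d₂⁆ = ⁅x, y⁆ * (⁅x, y⁆⁻¹ * ⁅x * d₁, y * d₂⁆) := by group
  rw [e]
  exact mul_mem (Subgroup.mem_sup_left (Subgroup.commutator_mem_commutator hx hy))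
    (Subgroup.mem_sup_right hd)

theorem main {G : Type*} [Group G] [Finite G] (D : Subgroup G) [hDn : D.Normal] :
    ∀ n : ℕ, ∀ K : Subgroup G, Nat.card K = n → K ≤ ⁅K, K⁆ ⊔ D →
      ∃ B : Subgroup G, B ≤ K ∧ K ≤ Subgroup.normalizer (B : Set G) ∧ K ≤ B ⊔ D ∧
        ∀ T : Subgroup G, T ≤ K → (T.subgroupOf K).IsSubnormal → K ≤ T ⊔ D → B ≤ T := by
  classical
  intro n
  induction n using Nat.strong_induction_on with
  | _ n ih =>
  intro K hKn hKperf
  have hex : ∃ m, ∃ B : Subgroup G, B ≤ K ∧ K ≤ Subgroup.normalizer (B : Set G) ∧ K ≤ B ⊔ D ∧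
      Nat.card B = m :=
    ⟨_, K, le_rfl, Subgroup.le_normalizer, le_sup_left, rfl⟩
  obtain ⟨B, hBK, hBN, hBD, hBc⟩ := Nat.find_spec hex
  have hmin : ∀ B' : Subgroup G, B' ≤ K → K ≤ Subgroup.normalizer (B' : Set G) → K ≤ B' ⊔ D →
      Nat.card B ≤ Nat.card B' := by
    intro B' h1 h2 h3
    rw [hBc]
    exact Nat.find_min' hex ⟨B', h1, h2, h3, rfl⟩
  have hleast : ∀ N : Subgroup G, N ≤ K → K ≤ Subgroup.normalizer (N : Set G) → K ≤ N ⊔ D →
      B ≤ N := by
    intro N hNK hNN hND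
    have h1 : K ≤ Subgroup.normalizer ((B ⊓ N : Subgroup G) : Set G) := by
      intro k hk
      have hb := Subgroup.mem_normalizer_iff.mp (hBN hk)
      have hn := Subgroup.mem_normalizer_iff.mp (hNN hk)
      rw [Subgroup.mem_normalizer_iff]
      intro h
      rw [Subgroup.mem_inf, Subgroup.mem_inf, hb h, hn h]
    have h2 : K ≤ (B ⊓ N) ⊔ D := by
      have hc : ⁅B, N⁆ ≤ B ⊓ N := by
        rw [Subgroup.commutator_le]
        intro b hb c hc
        refine Subgroup.mem_inf.mpr ⟨?_, ?_⟩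
        · have := (Subgroup.mem_normalizer_iff.mp (hBN (hNK hc)) b⁻¹).mp (B.inv_mem hb)
          have e : ⁅b, c⁆ = b * (c * b⁻¹ * c⁻¹) := by rw [commutatorElement_def]; group
          rw [e]; exact B.mul_mem hb this
        · have := (Subgroup.mem_normalizer_iff.mp (hNN (hBK hb)) c).mp hc
          rw [commutatorElement_def]
          exact N.mul_mem this (N.inv_mem hc)
      exact hKperf.trans (sup_le ((comm_le_sup D hBD hND).trans (sup_le_sup_right hc D))
        le_sup_right)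
    have h3 := hmin (B ⊓ N) (inf_le_left.trans hBK) h1 h2
    have h4 : B ⊓ N = B := Subgroup.eq_of_le_of_card_ge inf_le_left h3
    rw [← h4]; exact inf_le_right
  refine ⟨B, hBK, hBN, hBD, ?_⟩
  intro T hTK hTsn hTD
  by_cases hTeq : K ≤ T
  · exact hBK.trans hTeq
  · have hne : T.subgroupOf K ≠ ⊤ := by
      rw [Ne, Subgroup.subgroupOf_eq_top]; exact hTeq
    obtain ⟨N', hN'n, hTN', hN'lt⟩ := hTsn.exists_normal_and_le_and_lt_top_of_ne hne
    obtain ⟨N, hNdef⟩ : ∃ N : Subgroup G, N = N'.map K.subtype := ⟨_, rfl⟩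
    have hNK : N ≤ K := by rw [hNdef]; exact Subgroup.map_subtype_le N'
    have hTN : T ≤ N := by
      intro t ht
      rw [hNdef]
      exact ⟨⟨t, hTK ht⟩, hTN' (Subgroup.mem_subgroupOf.mpr ht), rfl⟩
    have hKN : K ≤ Subgroup.normalizer (N : Set G) := by
      intro k hk
      apply mem_normalizer_of_forall_conj_mem
      intro a ha
      rw [hNdef] at ha ⊢
      obtain ⟨a', ha', rfl⟩ := ha
      exact ⟨⟨k, hk⟩ * a' * ⟨k, hk⟩⁻¹, hN'n.conj_mem a' ha' ⟨k, hk⟩, rfl⟩
    have hNlt : Nat.card N < Nat.card K := by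
      have hNne : N ≠ K := by
        intro h
        apply hN'lt.ne
        rw [eq_top_iff]
        intro x _
        have hx : (x : G) ∈ N := by rw [h]; exact x.2
        rw [hNdef] at hx
        obtain ⟨y, hy, hyx⟩ := hx
        have : y = x := Subtype.ext hyx
        rw [← this]; exact hy
      by_contra hcon
      exact hNne (Subgroup.eq_of_le_of_card_ge hNK (not_lt.mp hcon))
    have hND : K ≤ N ⊔ D := hTD.trans (sup_le_sup_right hTN D)
    have hNperf : N ≤ ⁅N, N⁆ ⊔ D :=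
      hNK.trans (hKperf.trans (sup_le (comm_le_sup D hND hND) le_sup_right))
    obtain ⟨B₁, hB₁N, hB₁n, hB₁D, hB₁least⟩ :=
      ih (Nat.card N) (by rw [← hKn]; exact hNlt) N rfl hNperf
    have hTsnN : (T.subgroupOf N).IsSubnormal := subnormal_of_le hNK hTsn
    have hB₁T : B₁ ≤ T := hB₁least T hTN hTsnN (hNK.trans hTD)
    have hconj : ∀ k ∈ K, ∀ a ∈ B₁, k⁻¹ * a * k ∈ B₁ := by
      intro k hk a ha
      obtain ⟨C, hC⟩ : ∃ C : Subgroup G, C = B₁.map (MulAut.conj k).toMonoidHom := ⟨_, rfl⟩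
      have hCmem : ∀ y, y ∈ C ↔ k⁻¹ * y * k ∈ B₁ := by
        intro y
        rw [hC, Subgroup.mem_map]
        constructor
        · rintro ⟨x, hx, rfl⟩
          simp only [MulEquiv.coe_toMonoidHom, MulAut.conj_apply]
          have : k⁻¹ * (k * x * k⁻¹) * k = x := by group
          rw [this]; exact hx
        · intro h
          exact ⟨k⁻¹ * y * k, h, by
            simp only [MulEquiv.coe_toMonoidHom, MulAut.conj_apply]; group⟩
      have hkN := Subgroup.mem_normalizer_iff.mp (hKN hk)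
      have hkN' := Subgroup.mem_normalizer_iff.mp (hKN (K.inv_mem hk))
      have hCN : C ≤ N := by
        intro y hy
        have h1 : k⁻¹ * y * k ∈ N := hB₁N ((hCmem y).mp hy)
        have h2 := (hkN (k⁻¹ * y * k)).mp h1
        have e : k * (k⁻¹ * y * k) * k⁻¹ = y := by group
        rwa [e] at h2
      have hCn : N ≤ Subgroup.normalizer (C : Set G) := by
        intro m hm
        apply mem_normalizer_of_forall_conj_mem
        intro y hy
        rw [hCmem] at hy ⊢
        have hm' : k⁻¹ * m * k ∈ N := by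
          have := (hkN' m).mp hm
          rwa [inv_inv] at this
        have h3 := (Subgroup.mem_normalizer_iff.mp (hB₁n hm') (k⁻¹ * y * k)).mp hy
        have e : k⁻¹ * (m * y * m⁻¹) * k = (k⁻¹ * m * k) * (k⁻¹ * y * k) * (k⁻¹ * m * k)⁻¹ := by
          group
        rw [e]; exact h3
      have hCsn : (C.subgroupOf N).IsSubnormal :=
        (Subgroup.normal_subgroupOf_of_le_normalizer hCn).isSubnormal
      have hCD : N ≤ C ⊔ D := by
        intro m hm
        have hm' : k⁻¹ * m * k ∈ N := by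
          have := (hkN' m).mp hm
          rwa [inv_inv] at this
        have h1 := hB₁D hm'
        rw [← SetLike.mem_coe, Subgroup.mul_normal] at h1
        obtain ⟨b, hb, d, hd, hbd⟩ := Set.mem_mul.mp h1
        have e : m = (k * b * k⁻¹) * (k * d * k⁻¹) := by
          have : m = k * (k⁻¹ * m * k) * k⁻¹ := by group
          rw [this, ← hbd]; group
        rw [e]
        refine mul_mem (Subgroup.mem_sup_left ((hCmem _).mpr ?_))
          (Subgroup.mem_sup_right (hDn.conj_mem d hd k))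
        have : k⁻¹ * (k * b * k⁻¹) * k = b := by group
        rw [this]; exact hb
      exact (hCmem a).mp (hB₁least C hCN hCsn hCD ha)
    have hB₁K : K ≤ Subgroup.normalizer (B₁ : Set G) := by
      intro k hk
      apply mem_normalizer_of_forall_conj_mem
      intro a ha
      have := hconj k⁻¹ (K.inv_mem hk) a ha
      rwa [inv_inv] at this
    have hB₁KD : K ≤ B₁ ⊔ D := hND.trans (sup_le hB₁D le_sup_right)
    exact (hleast B₁ (hB₁N.trans hNK) hB₁K hB₁KD).trans hB₁T

/-- Let G be a finite group and D a normal subgroup of G such that G/D is perfect (that is, G = G′D). Then among the subnormal subgroups B of G with BD = G there is a least one, and it is normal in G. -/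
theorem result {G : Type*} [Group G] [Finite G] (D : Subgroup G) [D.Normal] (hperf : ⁅(⊤ : Subgroup G), (⊤ : Subgroup G)⁆ ⊔ D = ⊤) :
    ∃ B : Subgroup G, B.Normal ∧ B ⊔ D = ⊤ ∧ ∀ B' : Subgroup G, B'.IsSubnormal → B' ⊔ D = ⊤ → B ≤ B' := by
  obtain ⟨B, -, hBn, hBD, hB⟩ := main D (Nat.card (⊤ : Subgroup G)) ⊤ rfl (by rw [hperf])
  refine ⟨B, Subgroup.normalizer_eq_top_iff.mp (top_le_iff.mp hBn), top_le_iff.mp hBD, ?_⟩
  intro B' hB' hB'D
  exact hB B' le_top hB'.subgroupOf (by rw [hB'D])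

end Cfsg.Agent.S3027
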