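import Cfsg.Statements.S3031
import Cfsg.Agent.Lib.Helper19.HSubMain
import Cfsg.Agent.Lib.Helper1.Burnside

set_option autoImplicit false
open Cfsg

namespace Cfsg.Agent.S3031

/-- Let G be a finite group, p the smallest prime dividing |G| and P a Sylow p-subgroup. Suppose that P is cyclic, or that P has a subgroup D with 1 < |D| < |P| such that every subgroup E of P of order |D|, and also every subgroup E of P of order 4 when |D| = 2, satisfies g E g⁻¹ ∩ N_G(E) ≤ E for all g ∈ G (E is strongly closed in its normalizer with respect to G). Then G has a normal p-complement. -/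
theorem result {G : Type*} [Group G] [Finite G] {p : ℕ} [Fact p.Prime] (hdiv : p ∣ Nat.card G)
    (hmin : ∀ q : ℕ, q.Prime → q ∣ Nat.card G → p ≤ q) (P : Sylow p G)
    (h : IsCyclic ↥(P : Subgroup G) ∨ ∃ D : Subgroup G, D ≤ (P : Subgroup G) ∧ 1 < Nat.card D ∧ Nat.card D < Nat.card (P : Subgroup G) ∧
      ∀ E : Subgroup G, E ≤ (P : Subgroup G) → (Nat.card E = Nat.card D ∨ (Nat.card D = 2 ∧ Nat.card E = 4)) →
        ∀ g : G, E.map (MulAut.conj g).toMonoidHom ⊓ Subgroup.normalizer (E : Set G) ≤ E) :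
    Cfsg.HasNormalPComplement p G := by
  have hpp : p.Prime := Fact.out
  rcases h with hcyc | ⟨D, hDP, hD1, hDlt, hH⟩
  · have hminfac : (Nat.card G).minFac = p := by
      have hne : Nat.card G ≠ 1 := by
        intro h1
        rw [h1] at hdiv
        exact hpp.one_lt.ne' (Nat.dvd_one.mp hdiv)
      apply le_antisymm (Nat.minFac_le_of_dvd hpp.two_le hdiv)
      exact hmin _ (Nat.minFac_prime hne) (Nat.minFac_dvd _)
    exact ⟨P, _, inferInstance, hcyc.isComplement' hminfac⟩
  · have hPp : IsPGroup p (P : Subgroup G) := P.isPGroup'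
    obtain ⟨d, hd⟩ : ∃ d, Nat.card D = p ^ d := IsPGroup.iff_card.mp (hPp.to_le hDP)
    have hd1 : 1 ≤ d := by
      by_contra h0
      have h00 : d = 0 := by omega
      rw [h00, pow_zero] at hd
      omega
    apply Cfsg.Agent.Lib.Helper19.hasNormalPComplement_of_frobCond
    apply Cfsg.Agent.Lib.Helper19.frobCond_main p (Nat.card G) G le_rfl P d hd1 (hd ▸ hDlt) hmin
    · intro E hEP hEc
      exact Cfsg.Agent.Lib.Helper19.scl_of_H hPp hEP (hH E hEP (Or.inl (hEc.trans hd.symm)))
    · intro h2 E hEP hEc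
      exact Cfsg.Agent.Lib.Helper19.scl_of_H hPp hEP (hH E hEP (Or.inr ⟨hd.trans h2, hEc⟩))

end Cfsg.Agent.S3031
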