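import Cfsg.Statements.S3032
import Cfsg.Agent.Lib.Helper19.HSubSS2

set_option autoImplicit false
open Cfsg

namespace Cfsg.Agent.S3032

/-- Let G be a finite group and E a normal subgroup with G/E supersolvable. Suppose that for every prime p and every non-cyclic Sylow p-subgroup P of E there is a subgroup D of P with 1 < |D| < |P| such that every subgroup F of P of order |D|, and also every subgroup F of P of order 4 when |D| = 2, satisfies g F g⁻¹ ∩ N_G(F) ≤ F for all g ∈ G. Then G is supersolvable. -/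
theorem result {G : Type*} [Group G] [Finite G] (E : Subgroup G) [E.Normal] (hGE : Cfsg.IsSupersolvable (G ⧸ E))
    (h : ∀ (p : ℕ), p.Prime → ∀ P : Subgroup G, P ≤ E → IsPGroup p P → ¬ p ∣ P.relIndex E → ¬ IsCyclic ↥P →
      ∃ D : Subgroup G, D ≤ P ∧ 1 < Nat.card D ∧ Nat.card D < Nat.card P ∧
        ∀ F : Subgroup G, F ≤ P → (Nat.card F = Nat.card D ∨ (Nat.card D = 2 ∧ Nat.card F = 4)) →
          ∀ g : G, F.map (MulAut.conj g).toMonoidHom ⊓ Subgroup.normalizer (F : Set G) ≤ F) :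
    Cfsg.IsSupersolvable G := by
  apply Cfsg.Agent.Lib.Helper5.star_imp_ss
  apply Cfsg.Agent.Lib.Helper19.ss_main (Nat.card G) G le_rfl E
    (Cfsg.Agent.Lib.Helper5.ss_imp_star hGE)
  intro p hp P hPE hPp hPidx hPnc
  have hfp : Fact p.Prime := ⟨hp⟩
  obtain ⟨D, hDP, hD1, hDlt, hH⟩ := h p hp P hPE hPp hPidx hPnc
  obtain ⟨d, hd⟩ := IsPGroup.iff_card.mp (hPp.to_le hDP)
  have hd1 : 1 ≤ d := by
    rcases Nat.eq_zero_or_pos d with h0 | h0
    · rw [h0, pow_zero] at hd
      omega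
    · exact h0
  refine ⟨d, hd1, hd ▸ hDlt, fun F hFP hFc => ?_, fun h2 F hFP hFc => ?_⟩
  · exact Cfsg.Agent.Lib.Helper19.scl_of_H hPp hFP (hH F hFP (Or.inl (hFc.trans hd.symm)))
  · exact Cfsg.Agent.Lib.Helper19.scl_of_H hPp hFP (hH F hFP (Or.inr ⟨hd.trans h2, hFc⟩))

end Cfsg.Agent.S3032
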