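import Cfsg.Statements.S3053
import Cfsg.Agent.Lib.Helper19.ExtraP3

set_option autoImplicit false
open Cfsg

namespace Cfsg.Agent.S3053

open Subgroup Cfsg.Agent.Lib.Helper19

/-- Let p be an odd prime and G a finite group with a Sylow p-subgroup P that is extraspecial of order p³ and exponent p². Then the centre of P is strongly closed in P with respect to G: a G-conjugate of an element of Z(P) that lies in P already lies in Z(P). In particular a nontrivial central element of P is conjugate in G to no noncentral element of P. -/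
theorem result {G : Type*} [Group G] [Finite G]
    {p : ℕ} [Fact p.Prime] (hp : p ≠ 2) (P : Sylow p G) (hE : Cfsg.IsExtraspecial p ↥P)
    (hcard : Nat.card P = p ^ 3) (hexp : Monoid.exponent ↥P = p ^ 2) :
    Cfsg.IsStronglyClosed ((Subgroup.center ↥P).map (P : Subgroup G).subtype) (P : Subgroup G) := by
  have hpp : Fact p.Prime := inferInstance
  obtain ⟨Z, hZ⟩ : ∃ Z : Subgroup G, Z = (Subgroup.center ↥P).map (P : Subgroup G).subtype :=
    ⟨_, rfl⟩
  obtain ⟨E, hEd⟩ : ∃ E : Subgroup G, E = (esPowHom hE hp).ker.map (P : Subgroup G).subtype :=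
    ⟨_, rfl⟩
  have hinj : Function.Injective (P : Subgroup G).subtype := Subtype.val_injective
  have hdata : ESData p (P : Subgroup G) Z E := by
    refine ⟨?_, ?_, ?_, ?_, ?_, ?_, ?_, ?_⟩
    · intro g
      rw [hZ]
      constructor
      · rintro ⟨z, hz, rfl⟩
        exact ⟨z.2, fun q hq => congrArg Subtype.val (mem_center_iff.mp hz ⟨q, hq⟩)⟩
      · rintro ⟨hg, hc⟩
        exact ⟨⟨g, hg⟩, mem_center_iff.mpr (fun q => Subtype.ext (hc q.1 q.2)), rfl⟩
    · intro g
      rw [hEd]
      constructor
      · rintro ⟨e, he, rfl⟩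
        have he' : esPowHom hE hp e = 1 := he
        rw [esPowHom_apply] at he'
        exact ⟨e.2, congrArg Subtype.val he'⟩
      · rintro ⟨hg, hc⟩
        refine ⟨⟨g, hg⟩, ?_, rfl⟩
        have h1 : esPowHom hE hp ⟨g, hg⟩ = 1 := by
          rw [esPowHom_apply]
          exact Subtype.ext hc
        exact h1
    · rw [hZ, Subgroup.card_map_of_injective hinj]
      exact hE.2
    · rw [hEd, Subgroup.card_map_of_injective hinj]
      exact es_card_ker hE hp hcard hexp
    · intro x hx y hy
      rw [hZ]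
      exact ⟨_, es_comm_mem_center hE ⟨x, hx⟩ ⟨y, hy⟩, rfl⟩
    · intro x hx y hy
      exact congrArg Subtype.val (es_mul_pow hE hp ⟨x, hx⟩ ⟨y, hy⟩)
    · intro x hx
      rw [hZ]
      exact ⟨_, es_pow_mem_center hE ⟨x, hx⟩, rfl⟩
    · obtain ⟨c, hc⟩ := es_exists_pow_ne (p := p) hexp
      exact ⟨c.1, c.2, fun h => hc (Subtype.ext h)⟩
  rw [← hZ]
  exact ⟨hdata.Z_le_P, fun x hx g hg => hdata.stronglyClosed hp P x hx g hg⟩

end Cfsg.Agent.S3053
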