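import Cfsg.Statements.S3057
import Cfsg.Agent.S3056
import Cfsg.Agent.S1324
import Cfsg.Agent.Lib.Helper19.ThompsonRepl
import Cfsg.Agent.Lib.Helper17.SylowNormal
import Cfsg.Agent.Lib.Lead.UniqueSubgroup

set_option autoImplicit false
open Cfsg

namespace Cfsg.Agent.S3057

open Cfsg.Agent.Lib.Helper19 Cfsg.Agent.Lib.Lead

theorem inf_zpowers_eq_bot {G : Type*} [Group G] [Finite G] {p : ℕ} (hp : p.Prime) {x y : G}
    (hx : orderOf x = p) (hy : orderOf y = p) (h : y ∉ Subgroup.zpowers x) :
    Subgroup.zpowers x ⊓ Subgroup.zpowers y = ⊥ := by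
  rw [eq_bot_iff]
  intro w hw
  obtain ⟨hw1, hw2⟩ := Subgroup.mem_inf.mp hw
  rw [Subgroup.mem_bot]
  by_contra hw0
  have how : orderOf w = p := by
    have h1 : orderOf w ∣ p := by
      rw [← hx]; exact orderOf_dvd_of_mem_zpowers hw1
    rcases (Nat.dvd_prime hp).mp h1 with h2 | h2
    · exact absurd (orderOf_eq_one_iff.mp h2) hw0
    · exact h2
  have e1 : Subgroup.zpowers w = Subgroup.zpowers x := by
    apply Subgroup.eq_of_le_of_card_ge (Subgroup.zpowers_le.mpr hw1)
    rw [Nat.card_zpowers, Nat.card_zpowers, how, hx]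
  have e2 : Subgroup.zpowers w = Subgroup.zpowers y := by
    apply Subgroup.eq_of_le_of_card_ge (Subgroup.zpowers_le.mpr hw2)
    rw [Nat.card_zpowers, Nat.card_zpowers, how, hy]
  apply h
  rw [← e1, e2]
  exact Subgroup.mem_zpowers y

theorem elemAb_of_two {G : Type*} [Group G] [Finite G] {p : ℕ} (hp : p.Prime) {x y : G}
    (hxo : orderOf x = p) (hyo : orderOf y = p) (hxy : x * y = y * x)
    (hinf : Subgroup.zpowers x ⊓ Subgroup.zpowers y = ⊥) :
    Cfsg.IsElementaryAbelian p (Subgroup.zpowers x ⊔ Subgroup.zpowers y) ∧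
      p ^ 2 ≤ Nat.card ↥(Subgroup.zpowers x ⊔ Subgroup.zpowers y) := by
  obtain ⟨A, hA⟩ : ∃ A : Subgroup G, A = Subgroup.zpowers x ⊔ Subgroup.zpowers y := ⟨_, rfl⟩
  rw [← hA]
  have hxc : Subgroup.zpowers x ≤ Subgroup.centralizer (Subgroup.zpowers y : Set G) := by
    rw [Subgroup.zpowers_le, Subgroup.zpowers_eq_closure, Subgroup.centralizer_closure,
      Subgroup.mem_centralizer_iff]
    intro h hh
    rw [Set.mem_singleton_iff] at hh
    rw [hh]; exact hxy.symm
  have hAc : IsMulCommutative A := by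
    rw [hA]
    apply isMulCommutative_of_le_centralizer
    rw [centralizer_sup_eq]
    exact sup_le (le_inf (zpowers_le_centralizer_zpowers x) hxc)
      (le_inf (Subgroup.le_centralizer_iff.mp hxc) (zpowers_le_centralizer_zpowers y))
  have hAcc := le_centralizer_of_isMulCommutative hAc
  have hxp : x ^ p = 1 := by rw [← hxo]; exact pow_orderOf_eq_one x
  have hyp : y ^ p = 1 := by rw [← hyo]; exact pow_orderOf_eq_one y
  refine ⟨⟨hAc, ?_⟩, ?_⟩
  · intro a ha
    have ha' : a ∈ Subgroup.closure ((Subgroup.zpowers x : Set G) ∪ (Subgroup.zpowers y : Set G)) := by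
      rw [Subgroup.closure_union, Subgroup.closure_eq, Subgroup.closure_eq, ← hA]; exact ha
    have hcl : Subgroup.closure ((Subgroup.zpowers x : Set G) ∪ (Subgroup.zpowers y : Set G)) = A := by
      rw [Subgroup.closure_union, Subgroup.closure_eq, Subgroup.closure_eq, ← hA]
    induction ha' using Subgroup.closure_induction with
    | mem z hz =>
      rcases hz with hz | hz
      · obtain ⟨i, rfl⟩ := Subgroup.mem_zpowers_iff.mp hz
        rw [← zpow_natCast, ← zpow_mul, mul_comm, zpow_mul, zpow_natCast, hxp, one_zpow]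
      · obtain ⟨i, rfl⟩ := Subgroup.mem_zpowers_iff.mp hz
        rw [← zpow_natCast, ← zpow_mul, mul_comm, zpow_mul, zpow_natCast, hyp, one_zpow]
    | one => exact one_pow p
    | mul u v hu hv ihu ihv =>
      rw [hcl] at hu hv
      have hcomm : Commute u v := (Subgroup.mem_centralizer_iff.mp (hAcc hu) v hv).symm
      rw [hcomm.mul_pow, ihu hu, ihv hv, one_mul]
    | inv u hu ihu =>
      rw [hcl] at hu
      rw [inv_pow, ihu hu, inv_one]
  · have := card_mul_card_le_sup_inf (Subgroup.zpowers x) (Subgroup.zpowers y)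
    rw [hinf, Subgroup.card_bot, mul_one, Nat.card_zpowers, Nat.card_zpowers, hxo, hyo, ← hA] at this
    rw [pow_two]; exact this

theorem uniqP_of_isCyclic {G : Type*} [Group G] [Finite G] (p : ℕ) (hp : p.Prime) (hc : IsCyclic G) :
    UniqP p G := by
  classical
  have : Fact p.Prime := ⟨hp⟩
  intro x y hx hy hx1
  have : Fintype G := Fintype.ofFinite G
  have hox : orderOf x = p := orderOf_eq_prime hx hx1
  have h1 := IsCyclic.card_pow_eq_one_le (α := G) hp.pos
  by_contra hy'
  have hsub : insert y (Finset.univ.filter (fun a => a ∈ Subgroup.zpowers x)) ⊆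
      Finset.univ.filter (fun a : G => a ^ p = 1) := by
    intro a ha
    rw [Finset.mem_insert] at ha
    rw [Finset.mem_filter]
    refine ⟨Finset.mem_univ _, ?_⟩
    rcases ha with rfl | ha
    · exact hy
    · rw [Finset.mem_filter] at ha
      obtain ⟨k, rfl⟩ := Subgroup.mem_zpowers_iff.mp ha.2
      rw [← zpow_natCast, ← zpow_mul, mul_comm, zpow_mul, zpow_natCast, hx, one_zpow]
  have hcard := Finset.card_le_card hsub
  rw [Finset.card_insert_of_notMem (by simpa using hy')] at hcard
  have hT : (Finset.univ.filter (fun a => a ∈ Subgroup.zpowers x)).card = p := by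
    rw [← hox, ← Nat.card_zpowers, Nat.card_eq_fintype_card, Fintype.card_subtype]
  omega

theorem uniqP_quaternion (n : ℕ) [NeZero n] : UniqP 2 (QuaternionGroup n) := by
  have hn : (n : ZMod (2 * n)) ≠ 0 := by
    intro h
    rw [ZMod.natCast_eq_zero_iff] at h
    have hn0 : n ≠ 0 := NeZero.ne n
    have := Nat.le_of_dvd (Nat.pos_of_ne_zero hn0) h
    omega
  have hinv : ∀ w : QuaternionGroup n, w ^ 2 = 1 → w = 1 ∨ w = QuaternionGroup.a (n : ZMod (2 * n)) := by
    intro w hw
    rcases w with i | i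
    · rw [sq, QuaternionGroup.a_mul_a, QuaternionGroup.one_def] at hw
      have hi : i + i = 0 := by
        injection hw
      have hi2 : ((i.val + i.val : ℕ) : ZMod (2 * n)) = 0 := by
        rw [Nat.cast_add, ZMod.natCast_zmod_val]; exact hi
      rw [ZMod.natCast_eq_zero_iff, ← two_mul] at hi2
      have h3 : n ∣ i.val := (Nat.mul_dvd_mul_iff_left (by norm_num : 0 < 2)).mp hi2
      have h4 : i.val < 2 * n := ZMod.val_lt i
      obtain ⟨c, hc⟩ := h3
      have hn0 : 0 < n := Nat.pos_of_ne_zero (NeZero.ne n)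
      have hc2 : c < 2 := by
        by_contra hcc
        push Not at hcc
        nlinarith
      interval_cases c
      · left
        have : i = 0 := by rw [← ZMod.natCast_zmod_val i, hc]; simp
        rw [this, QuaternionGroup.a_zero]
      · right
        have : i = (n : ZMod (2 * n)) := by rw [← ZMod.natCast_zmod_val i, hc]; simp
        rw [this]
    · rw [QuaternionGroup.xa_sq, QuaternionGroup.one_def] at hw
      exfalso
      apply hn
      injection hw
  intro x y hx hy hx1
  rcases hinv x hx with h | h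
  · exact absurd h hx1
  · rcases hinv y hy with h' | h'
    · rw [h']; exact Subgroup.one_mem _
    · rw [h', ← h]; exact Subgroup.mem_zpowers x

theorem uniqP_of_strongly {G : Type*} [Group G] [Finite G] (p : ℕ) [Fact p.Prime]
    (hdiv : p ∣ Nat.card G) (hsol : Cfsg.IsPSolvable p G) (H : Subgroup G) (hHtop : H ≠ ⊤)
    (hnc : Cfsg.Agent.Lib.Helper17.NormControl p H) (P : Sylow p G)
    (hPH : (P : Subgroup G) ≤ H) (hP1 : (P : Subgroup G) ≠ ⊥) :
    UniqP p ↥(P : Subgroup G) := by
  classical
  have hp : p.Prime := Fact.out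
  by_contra hU
  unfold UniqP at hU
  push Not at hU
  obtain ⟨x, y, hx, hy, hx1, hyx⟩ := hU
  have hox : orderOf x = p := orderOf_eq_prime hx hx1
  have hy1 : y ≠ 1 := fun h => hyx (by rw [h]; exact Subgroup.one_mem _)
  have hoy : orderOf y = p := orderOf_eq_prime hy hy1
  have hPnt : Nontrivial ↥(P : Subgroup G) := (Subgroup.nontrivial_iff_ne_bot _).mpr hP1
  have hcnt : Nontrivial (Subgroup.center ↥(P : Subgroup G)) := P.isPGroup'.center_nontrivial
  have hcp : IsPGroup p (Subgroup.center ↥(P : Subgroup G)) := P.isPGroup'.to_subgroup _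
  have hdz : p ∣ Nat.card (Subgroup.center ↥(P : Subgroup G)) := by
    rcases hcp.card_eq_or_dvd with h | h
    · have := Finite.one_lt_card (α := Subgroup.center ↥(P : Subgroup G))
      omega
    · exact h
  obtain ⟨z, hz⟩ := exists_prime_orderOf_dvd_card' p hdz
  have hoz : orderOf (z : ↥(P : Subgroup G)) = p := by rw [Subgroup.orderOf_coe]; exact hz
  have hzc : ∀ w : ↥(P : Subgroup G), w * (z : ↥(P : Subgroup G)) = (z : ↥(P : Subgroup G)) * w :=
    fun w => Subgroup.mem_center_iff.mp z.2 w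
  obtain ⟨u, v, hou, hov, huv, hvu⟩ : ∃ u v : ↥(P : Subgroup G), orderOf u = p ∧ orderOf v = p ∧
      u * v = v * u ∧ v ∉ Subgroup.zpowers u := by
    by_cases hzx : (z : ↥(P : Subgroup G)) ∈ Subgroup.zpowers x
    · refine ⟨(z : ↥(P : Subgroup G)), y, hoz, hoy, (hzc y).symm, ?_⟩
      have e : Subgroup.zpowers (z : ↥(P : Subgroup G)) = Subgroup.zpowers x := by
        apply Subgroup.eq_of_le_of_card_ge (Subgroup.zpowers_le.mpr hzx)
        rw [Nat.card_zpowers, Nat.card_zpowers, hoz, hox]
      rw [e]; exact hyx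
    · exact ⟨x, (z : ↥(P : Subgroup G)), hox, hoz, hzc x, hzx⟩
  have hou' : orderOf (u : G) = p := by rw [Subgroup.orderOf_coe]; exact hou
  have hov' : orderOf (v : G) = p := by rw [Subgroup.orderOf_coe]; exact hov
  have huv' : (u : G) * (v : G) = (v : G) * (u : G) := by
    have := congrArg Subtype.val huv
    simpa using this
  have hvu' : (v : G) ∉ Subgroup.zpowers (u : G) := by
    intro h
    obtain ⟨k, hk⟩ := Subgroup.mem_zpowers_iff.mp h
    exact hvu (Subgroup.mem_zpowers_iff.mpr ⟨k, Subtype.ext (by simpa using hk)⟩)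
  have hinf := inf_zpowers_eq_bot hp hou' hov' hvu'
  obtain ⟨hAel, hA2⟩ := elemAb_of_two hp hou' hov' huv' hinf
  obtain ⟨A, hA⟩ : ∃ A : Subgroup G, A = Subgroup.zpowers (u : G) ⊔ Subgroup.zpowers (v : G) :=
    ⟨_, rfl⟩
  rw [← hA] at hAel hA2
  have hAP : A ≤ (P : Subgroup G) := by
    rw [hA]; exact sup_le (Subgroup.zpowers_le.mpr u.2) (Subgroup.zpowers_le.mpr v.2)
  have hpr : ∀ D : Subgroup G, D.Normal → ¬ p ∣ Nat.card D → D ≤ H := by
    intro D hDn hD
    have hgen := Cfsg.Agent.S1324.result p A D hAel hA2 hD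
      (Subgroup.le_normalizer_of_normal.trans' le_top)
    rw [hgen, iSup_le_iff]
    rintro ⟨B, hBA, hBidx⟩
    have hB1 : B ≠ ⊥ := by
      intro hb
      rw [hb, Subgroup.relIndex_bot_left] at hBidx
      have : p < p ^ 2 := by
        rw [pow_two]; nlinarith [hp.one_lt]
      omega
    have hBN := hnc B (hBA.trans (hAP.trans hPH)) (P.isPGroup'.to_le (hBA.trans hAP)) hB1
    exact inf_le_right.trans ((Subgroup.centralizer_le_normalizer _).trans hBN)
  obtain ⟨n, S, hS0, hSn, hmono, hSnorm, hstep⟩ := hsol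
  have hall : ∀ j : ℕ, ∀ hj : j < n + 1, ¬ p ∣ Nat.card (S ⟨j, hj⟩) := by
    intro j
    induction j with
    | zero =>
      intro hj hd
      have e : (⟨0, hj⟩ : Fin (n + 1)) = 0 := rfl
      rw [e, hS0, Subgroup.card_bot] at hd
      exact hp.one_lt.ne' (Nat.dvd_one.mp hd)
    | succ j ih =>
      intro hj hd
      have hjn : j < n := by omega
      have hD := ih (by omega)
      have hst := hstep ⟨j, hjn⟩
      obtain ⟨D, hDdef⟩ : ∃ D : Subgroup G, D = S (Fin.castSucc ⟨j, hjn⟩) := ⟨_, rfl⟩
      obtain ⟨E, hEdef⟩ : ∃ E : Subgroup G, E = S (Fin.succ ⟨j, hjn⟩) := ⟨_, rfl⟩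
      rw [← hDdef, ← hEdef] at hst
      have hD' : ¬ p ∣ Nat.card D := by rw [hDdef]; exact hD
      have hE' : p ∣ Nat.card E := by rw [hEdef]; exact hd
      have hDn : D.Normal := by rw [hDdef]; exact hSnorm _
      have hEn : E.Normal := by rw [hEdef]; exact hSnorm _
      have hDE : D ≤ E := by
        rw [hDdef, hEdef]
        apply hmono
        rw [Fin.le_def]
        simp
      have hcard : Nat.card D * D.relIndex E = Nat.card E := card_mul_relIndex_of_le hDE
      have hpidx : p ∣ D.relIndex E := by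
        rw [← hcard] at hE'
        rcases hp.dvd_mul.mp hE' with h | h
        · exact absurd h hD'
        · exact h
      rcases hst with ⟨m, hm⟩ | hco
      · obtain ⟨Q, hQdef⟩ : ∃ Q : Subgroup G, Q = (P : Subgroup G) ⊓ E := ⟨_, rfl⟩
        have hQc : Nat.card Q = p ^ (Nat.card E).factorization p := by
          rw [hQdef]; exact Cfsg.Agent.Lib.Helper17.card_sylow_inf_normal P E
        have hQE : Q ≤ E := by rw [hQdef]; exact inf_le_right
        have hQP : Q ≤ (P : Subgroup G) := by rw [hQdef]; exact inf_le_left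
        have hcardQ : Nat.card Q * Q.relIndex E = Nat.card E := card_mul_relIndex_of_le hQE
        have hQidx : ¬ p ∣ Q.relIndex E := by
          have hE0 : Nat.card E ≠ 0 := Nat.card_pos.ne'
          have h1 := Nat.not_dvd_ordCompl hp hE0
          have h2 : Q.relIndex E = Nat.card E / p ^ (Nat.card E).factorization p := by
            rw [← hQc]
            exact (Nat.div_eq_of_eq_mul_right Nat.card_pos hcardQ.symm).symm
          rw [h2]; exact h1
        have hKE : D ⊔ Q ≤ E := sup_le hDE hQE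
        have h1 : (D ⊔ Q).relIndex E ∣ D.relIndex E := Subgroup.relIndex_dvd_of_le_left E le_sup_left
        have h2 : (D ⊔ Q).relIndex E ∣ Q.relIndex E := Subgroup.relIndex_dvd_of_le_left E le_sup_right
        rw [hm] at h1
        obtain ⟨k, hk, hk'⟩ := (Nat.dvd_prime_pow hp).mp h1
        have hk0 : k = 0 := by
          by_contra hk0
          apply hQidx
          refine dvd_trans ?_ h2
          rw [hk']; exact dvd_pow_self p hk0
        rw [hk0, pow_zero, Subgroup.relIndex_eq_one] at hk'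
        have hEH : E ≤ H := hk'.trans (sup_le (hpr D hDn hD') (hQP.trans hPH))
        have hQ1 : Q ≠ ⊥ := by
          intro hb
          rw [hb, Subgroup.card_bot] at hQc
          have hpos := Nat.Prime.factorization_pos_of_dvd hp Nat.card_pos.ne' hE'
          have : 1 < p ^ (Nat.card E).factorization p := Nat.one_lt_pow hpos.ne' hp.one_lt
          omega
        have hNQ := hnc Q (hQP.trans hPH) (P.isPGroup'.to_le hQP) hQ1
        apply hHtop
        rw [eq_top_iff]
        intro g _
        obtain ⟨a, ha, c, hc, hg⟩ := Cfsg.Agent.Lib.Helper17.frattini_sylow_inf_normal P E g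
        rw [hg]
        rw [← hQdef] at ha
        exact H.mul_mem (hNQ ha) (hEH hc)
      · have := Nat.Coprime.eq_one_of_dvd hco.symm hpidx
        exact hp.one_lt.ne' this
  have hfin := hall n (Nat.lt_succ_self n)
  have e : (⟨n, Nat.lt_succ_self n⟩ : Fin (n + 1)) = Fin.last n := rfl
  rw [e, hSn, Subgroup.card_top] at hfin
  exact hfin hdiv

theorem strongly_of_uniqP {G : Type*} [Group G] [Finite G] (p : ℕ) [Fact p.Prime]
    (hdiv : p ∣ Nat.card G) (P : Sylow p G) (hcore : Cfsg.pCore p G = ⊥)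
    (hU : UniqP p ↥(P : Subgroup G)) :
    ∃ H : Subgroup G, H ≠ ⊤ ∧ p ∣ Nat.card H ∧
      ∀ g : G, g ∉ H → ¬ p ∣ Nat.card ↥(H ⊓ H.map (MulAut.conj g).toMonoidHom) := by
  classical
  have hp : p.Prime := Fact.out
  have hpP : p ∣ Nat.card (P : Subgroup G) := P.dvd_card_of_dvd_card hdiv
  obtain ⟨z, hz⟩ := exists_prime_orderOf_dvd_card' p hpP
  have hoz : orderOf (z : G) = p := by rw [Subgroup.orderOf_coe]; exact hz
  have hz1 : z ≠ 1 := by
    intro h
    rw [h, orderOf_one] at hz
    exact hp.one_lt.ne hz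
  have hzp : z ^ p = 1 := by
    have := pow_orderOf_eq_one z
    rwa [hz] at this
  have hzp' : (z : G) ^ p = 1 := by
    have := pow_orderOf_eq_one (z : G)
    rwa [hoz] at this
  obtain ⟨Z, hZ⟩ : ∃ Z : Subgroup G, Z = Subgroup.zpowers (z : G) := ⟨_, rfl⟩
  have hzZ : (z : G) ∈ Z := by rw [hZ]; exact Subgroup.mem_zpowers _
  have hZcard : Nat.card Z = p := by rw [hZ, Nat.card_zpowers, hoz]
  have hZp : IsPGroup p Z := by
    apply IsPGroup.of_card (n := 1)
    rw [hZcard, pow_one]
  have hZP : Z ≤ (P : Subgroup G) := by rw [hZ]; exact Subgroup.zpowers_le.mpr z.2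
  have hkey : ∀ w : G, w ∈ (P : Subgroup G) → w ^ p = 1 → w ∈ Z := by
    intro w hw hwp
    have := hU z ⟨w, hw⟩ hzp (Subtype.ext (by simpa using hwp)) hz1
    obtain ⟨k, hk⟩ := Subgroup.mem_zpowers_iff.mp this
    rw [hZ]
    refine Subgroup.mem_zpowers_iff.mpr ⟨k, ?_⟩
    have := congrArg Subtype.val hk
    simpa using this
  have hPN : (P : Subgroup G) ≤ Subgroup.normalizer (Z : Set G) := by
    intro g hg
    apply mem_normalizer_of_forall_conj_mem
    intro a ha
    apply hkey
    · exact mul_mem (mul_mem hg (hZP ha)) (inv_mem hg)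
    · have hap : a ^ p = 1 := by
        have := hZp.to_le le_rfl
        obtain ⟨k, hk⟩ := Subgroup.mem_zpowers_iff.mp (hZ ▸ ha)
        rw [← hk, ← zpow_natCast, ← zpow_mul, mul_comm, zpow_mul, zpow_natCast,
          hzp', one_zpow]
      rw [conj_pow, hap, mul_one, mul_inv_cancel]
  have hidx : ¬ p ∣ (P : Subgroup G).relIndex (Subgroup.normalizer (Z : Set G)) := by
    intro hd
    exact P.not_dvd_index (hd.trans (Dvd.intro _ (Subgroup.relIndex_mul_index hPN)))
  have hcl : ∀ t : G, t ∈ Subgroup.normalizer (Z : Set G) → orderOf t = p → t ∈ Z := by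
    intro t ht hto
    have hQ : IsPGroup p (Subgroup.zpowers t) := by
      apply IsPGroup.of_card (n := 1)
      rw [Nat.card_zpowers, hto, pow_one]
    obtain ⟨h, hhN, hh⟩ := exists_conj_le_of_not_dvd_relIndex hPN P.isPGroup' hidx
      (Subgroup.zpowers_le.mpr ht) hQ
    have h1 : h * t * h⁻¹ ∈ Z := by
      apply hkey _ (hh _ (Subgroup.mem_zpowers t))
      rw [conj_pow, ← hto, pow_orderOf_eq_one, mul_one, mul_inv_cancel]
    exact (Subgroup.mem_normalizer_iff.mp hhN t).mpr h1
  refine ⟨Subgroup.normalizer (Z : Set G), ?_, ?_, ?_⟩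
  · intro htop
    have hZn : Z.Normal := Subgroup.normalizer_eq_top_iff.mp htop
    have hle : Z ≤ Cfsg.pCore p G := le_sSup ⟨hZn, hZp⟩
    rw [hcore] at hle
    have := hle hzZ
    rw [Subgroup.mem_bot] at this
    exact hz1 (Subtype.ext this)
  · rw [← hZcard]
    exact Subgroup.card_dvd_of_le Subgroup.le_normalizer
  · intro g hg hdvd
    apply hg
    obtain ⟨x, hx⟩ := exists_prime_orderOf_dvd_card' p hdvd
    have hox : orderOf (x : G) = p := by rw [Subgroup.orderOf_coe]; exact hx
    have hxN := (Subgroup.mem_inf.mp x.2).1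
    obtain ⟨y, hyN, hyx⟩ := (Subgroup.mem_inf.mp x.2).2
    have hyx' : g * y * g⁻¹ = (x : G) := hyx
    have hoy : orderOf y = p := by
      have e : (x : G) = MulAut.conj g y := by rw [MulAut.conj_apply]; exact hyx'.symm
      rw [e, MulEquiv.orderOf_eq] at hox
      exact hox
    have hxZ : (x : G) ∈ Z := hcl _ hxN hox
    have hyZ : y ∈ Z := hcl y hyN hoy
    have hZy : Z = Subgroup.zpowers y := by
      symm
      apply Subgroup.eq_of_le_of_card_ge (Subgroup.zpowers_le.mpr hyZ)
      rw [hZcard, Nat.card_zpowers, hoy]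
    apply mem_normalizer_of_forall_conj_mem
    intro a ha
    rw [hZy] at ha
    obtain ⟨k, hk⟩ := Subgroup.mem_zpowers_iff.mp ha
    have e : g * a * g⁻¹ = (x : G) ^ k := by
      rw [← hk, ← hyx']
      simp [conj_zpow]
    rw [e]
    exact Z.zpow_mem hxZ k

/-- Let p be a prime and G a finite p-solvable group of order divisible by p, with Sylow p-subgroup P. Then the Sylow p-subgroups of G fail to be chain-connected through nontrivial intersections (equivalently, G has a strongly p-embedded subgroup) if and only if O_p(G) = 1 and P is cyclic or, for p = 2, generalized quaternion. -/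
theorem result {G : Type*} [Group G] [Finite G]
    (p : ℕ) [Fact p.Prime] (hdiv : p ∣ Nat.card G) (hsol : Cfsg.IsPSolvable p G) (P : Sylow p G) :
    ¬ Cfsg.IsSylowChainConnected p G ↔
      Cfsg.pCore p G = ⊥ ∧ (IsCyclic ↥P ∨ (p = 2 ∧ ∃ n : ℕ, Nonempty (↥P ≃* QuaternionGroup (2 ^ n)))) := by
  classical
  have hp : p.Prime := Fact.out
  rw [Cfsg.Agent.S3056.result p]
  constructor
  · rintro ⟨H, hHtop, hpH, hse⟩
    have hnc := Cfsg.Agent.Lib.Helper17.normControl_of_inter hse
    obtain ⟨P0, hPH, hP1⟩ := Cfsg.Agent.Lib.Helper17.exists_sylow_le_of_normControl hnc hpH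
    refine ⟨?_, ?_⟩
    · by_contra hne
      have hN := Cfsg.Agent.Lib.Helper1.pCore_normal (G := G) p
      have hNn := hnc (Cfsg.pCore p G) ((Cfsg.Agent.Lib.Helper1.pCore_le_sylow P0).trans hPH)
        (Cfsg.Agent.Lib.Helper1.pCore_isPGroup p) hne
      rw [Subgroup.normalizer_eq_top_iff.mpr hN, top_le_iff] at hNn
      exact hHtop hNn
    · have hU := uniqP_of_strongly p hdiv hsol H hHtop hnc P0 hPH hP1
      have e : ↥(P0 : Subgroup G) ≃* ↥(P : Subgroup G) := Sylow.equiv P0 P
      rcases uniqP_cyclic_or_quaternion p P0.isPGroup' hU with h | ⟨h2, n, ⟨f⟩⟩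
      · left
        exact isCyclic_of_surjective e e.surjective
      · right
        exact ⟨h2, n, ⟨e.symm.trans f⟩⟩
  · rintro ⟨hcore, hP⟩
    apply strongly_of_uniqP p hdiv P hcore
    rcases hP with h | ⟨h2, n, ⟨f⟩⟩
    · exact uniqP_of_isCyclic p hp h
    · subst h2
      have : NeZero (2 ^ n) := ⟨by positivity⟩
      exact uniqP_of_mulEquiv f.symm (uniqP_quaternion (2 ^ n))

end Cfsg.Agent.S3057
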