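import Cfsg.Statements.S3059
import Cfsg.Agent.Lib.Helper17.StronglyEmbedded
import Cfsg.Agent.Lib.Helper17.SylowNormal
import Cfsg.Agent.Lib.Helper19.SylowRel

set_option autoImplicit false
open Cfsg

namespace Cfsg.Agent.S3059

open Cfsg.Agent.Lib.Helper19

/-- `O^p(N)` (generated by the `p'`-elements of a normal `N`) is normal in `G`. -/
theorem opN_normal {G : Type*} [Group G] (p : ℕ) (N : Subgroup G) [hN : N.Normal] :
    (Subgroup.closure {g : G | g ∈ N ∧ (orderOf g).Coprime p}).Normal := by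
  constructor
  intro n hn g
  induction hn using Subgroup.closure_induction with
  | mem x hx =>
    apply Subgroup.subset_closure
    refine ⟨hN.conj_mem x hx.1 g, ?_⟩
    have e : g * x * g⁻¹ = MulAut.conj g x := by rw [MulAut.conj_apply]
    rw [e, MulEquiv.orderOf_eq]
    exact hx.2
  | one => simp
  | mul x y _ _ hx hy =>
    have e : g * (x * y) * g⁻¹ = (g * x * g⁻¹) * (g * y * g⁻¹) := by group
    rw [e]; exact Subgroup.mul_mem _ hx hy
  | inv x _ hx =>
    have e : g * x⁻¹ * g⁻¹ = (g * x * g⁻¹)⁻¹ := by group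
    rw [e]; exact Subgroup.inv_mem _ hx

/-- `N / O^p(N)` is a `p`-group: the index is a power of `p`. -/
theorem opN_relIndex {G : Type*} [Group G] [Finite G] (p : ℕ) [Fact p.Prime] (N : Subgroup G)
    [hN : N.Normal] :
    ∃ j : ℕ, (Subgroup.closure {g : G | g ∈ N ∧ (orderOf g).Coprime p}).relIndex N = p ^ j := by
  have hp : p.Prime := Fact.out
  obtain ⟨K, hK⟩ : ∃ K : Subgroup G, K = Subgroup.closure {g : G | g ∈ N ∧ (orderOf g).Coprime p} :=
    ⟨_, rfl⟩
  rw [← hK]
  have hKn : K.Normal := by rw [hK]; exact opN_normal p N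
  have hpg : IsPGroup p (↥N ⧸ K.subgroupOf N) := by
    intro q
    obtain ⟨n, rfl⟩ := QuotientGroup.mk_surjective q
    have hord : orderOf (n : G) ≠ 0 := (orderOf_pos (n : G)).ne'
    obtain ⟨e, m, hm, hem⟩ := Nat.exists_eq_pow_mul_and_not_dvd hord p hp.ne_one
    refine ⟨e, ?_⟩
    rw [← QuotientGroup.mk_pow, QuotientGroup.eq_one_iff, Subgroup.mem_subgroupOf, hK]
    apply Subgroup.subset_closure
    refine ⟨N.pow_mem n.2 _, ?_⟩
    have h1 : orderOf ((n : G) ^ p ^ e) = m := by
      rw [orderOf_pow, hem, Nat.gcd_eq_right (Dvd.intro _ rfl),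
        Nat.mul_div_cancel_left _ (pow_pos hp.pos e)]
    show (orderOf ((n : G) ^ p ^ e)).Coprime p
    rw [h1]
    exact ((Nat.Prime.coprime_iff_not_dvd hp).mpr hm).symm
  obtain ⟨j, hj⟩ := hpg.exists_card_eq
  exact ⟨j, hj⟩

/-- Let p be a prime and H a strongly p-embedded subgroup of the finite group G in the classical sense: H is proper, p divides the order of H, and H ∩ gHg⁻¹ has order prime to p for every g outside H. Then for every normal subgroup N of G of order divisible by p, G = H · O^p(N), where O^p(N) is the subgroup generated by the elements of N of order prime to p. -/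
theorem result {G : Type*} [Group G] [Finite G]
    (p : ℕ) [Fact p.Prime] (H : Subgroup G) (hH : H ≠ ⊤) (hpH : p ∣ Nat.card H)
    (hse : ∀ g : G, g ∉ H → ¬ p ∣ Nat.card ↥(H ⊓ H.map (MulAut.conj g).toMonoidHom))
    (N : Subgroup G) [N.Normal] (hN : p ∣ Nat.card N) :
    H ⊔ Subgroup.closure {g : G | g ∈ N ∧ (orderOf g).Coprime p} = ⊤ := by
  classical
  have hp : p.Prime := Fact.out
  have hnc := Cfsg.Agent.Lib.Helper17.normControl_of_inter hse
  obtain ⟨P, hPH, hP1⟩ := Cfsg.Agent.Lib.Helper17.exists_sylow_le_of_normControl hnc hpH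
  obtain ⟨j, hj⟩ := opN_relIndex p N
  obtain ⟨K, hK⟩ : ∃ K : Subgroup G, K = Subgroup.closure {g : G | g ∈ N ∧ (orderOf g).Coprime p} :=
    ⟨_, rfl⟩
  rw [← hK] at hj ⊢
  obtain ⟨Q, hQ⟩ : ∃ Q : Subgroup G, Q = (P : Subgroup G) ⊓ N := ⟨_, rfl⟩
  have hQH : Q ≤ H := by rw [hQ]; exact inf_le_left.trans hPH
  have hQN : Q ≤ N := by rw [hQ]; exact inf_le_right
  have hQp : IsPGroup p Q := by rw [hQ]; exact P.isPGroup'.to_le inf_le_left
  have hQcard : Nat.card Q = p ^ (Nat.card N).factorization p := by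
    rw [hQ]; exact Cfsg.Agent.Lib.Helper17.card_sylow_inf_normal P N
  have hfpos : 0 < (Nat.card N).factorization p :=
    Nat.Prime.factorization_pos_of_dvd hp Nat.card_pos.ne' hN
  have hQ1 : Q ≠ ⊥ := by
    intro h
    rw [h, Subgroup.card_bot] at hQcard
    have : 1 < p ^ (Nat.card N).factorization p := Nat.one_lt_pow hfpos.ne' hp.one_lt
    omega
  have hNQ : Subgroup.normalizer (Q : Set G) ≤ H := hnc Q hQH hQp hQ1
  have hKN : K ≤ N := by
    rw [hK, Subgroup.closure_le]
    exact fun g hg => hg.1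
  have hQidx : ¬ p ∣ Q.relIndex N := by
    intro hd
    have h1 := card_mul_relIndex_of_le hQN
    rw [hQcard] at h1
    apply Nat.pow_succ_factorization_not_dvd (Nat.card_pos (α := N)).ne' hp
    have h2 : p ^ ((Nat.card N).factorization p + 1) ∣ p ^ (Nat.card N).factorization p * Q.relIndex N := by
      rw [pow_succ]
      exact Nat.mul_dvd_mul_left _ hd
    rwa [h1] at h2
  have hNle : N ≤ K ⊔ Q := by
    rw [← Subgroup.relIndex_eq_one]
    have d1 : (K ⊔ Q).relIndex N ∣ p ^ j := by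
      rw [← hj]; exact Subgroup.relIndex_dvd_of_le_left N le_sup_left
    have d2 : (K ⊔ Q).relIndex N ∣ Q.relIndex N := Subgroup.relIndex_dvd_of_le_left N le_sup_right
    have hcop : ((K ⊔ Q).relIndex N).Coprime (p ^ j) := by
      apply Nat.Coprime.pow_right
      exact Nat.Coprime.coprime_dvd_left d2 ((Nat.Prime.coprime_iff_not_dvd hp).mpr hQidx).symm
    exact Nat.Coprime.eq_one_of_dvd hcop d1
  rw [eq_top_iff]
  intro g _
  obtain ⟨a, ha, c, hc, rfl⟩ := Cfsg.Agent.Lib.Helper17.frattini_sylow_inf_normal P N g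
  rw [← hQ] at ha
  have hcK : c ∈ H ⊔ K := by
    have := hNle hc
    exact (sup_le le_sup_right (hQH.trans le_sup_left)) this
  exact Subgroup.mul_mem _ (Subgroup.mem_sup_left (hNQ ha)) hcK

end Cfsg.Agent.S3059
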