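import Cfsg.Statements.S3058
import Cfsg.Agent.S3056
import Cfsg.Agent.S3059
import Cfsg.Agent.S1324
import Cfsg.Agent.Lib.Helper19.ThompsonRepl

set_option autoImplicit false
open Cfsg

namespace Cfsg.Agent.S3058

open Cfsg.Agent.Lib.Helper19

/-- Let p be a prime and G a finite group whose Sylow p-subgroups are not chain-connected through nontrivial intersections (so G has a strongly p-embedded subgroup). If N and M are normal subgroups of G whose orders are both divisible by p, then the order of N ∩ M is divisible by p. Consequently, among the normal subgroups of G whose order is divisible by p there is a smallest one (the intersection of all of them). -/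
theorem result {G : Type*} [Group G] [Finite G]
    (p : ℕ) [Fact p.Prime] (hG : ¬ Cfsg.IsSylowChainConnected p G)
    (N M : Subgroup G) [N.Normal] [M.Normal] (hN : p ∣ Nat.card N) (hM : p ∣ Nat.card M) :
    p ∣ Nat.card ↥(N ⊓ M) := by
  classical
  have hp : p.Prime := Fact.out
  obtain ⟨H, hHtop, hpH, hse⟩ := (Cfsg.Agent.S3056.result p).mp hG
  have hnc := Cfsg.Agent.Lib.Helper17.normControl_of_inter hse
  obtain ⟨P, hPH, hP1⟩ := Cfsg.Agent.Lib.Helper17.exists_sylow_le_of_normControl hnc hpH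
  by_contra hD
  obtain ⟨D, hDdef⟩ : ∃ D : Subgroup G, D = N ⊓ M := ⟨_, rfl⟩
  rw [← hDdef] at hD
  have hNn : N.Normal := inferInstance
  have hMn : M.Normal := inferInstance
  have hDn : D.Normal := by rw [hDdef]; infer_instance
  have hDN : D ≤ N := by rw [hDdef]; exact inf_le_left
  have hDM : D ≤ M := by rw [hDdef]; exact inf_le_right
  have hPD : ∀ z ∈ (P : Subgroup G), z ∈ D → z = 1 := by
    intro z hzP hzD
    have h1 : IsPGroup p ((P : Subgroup G) ⊓ D : Subgroup G) := P.isPGroup'.to_le inf_le_left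
    obtain ⟨k, hk⟩ := h1.exists_card_eq
    have h2 : Nat.card ((P : Subgroup G) ⊓ D : Subgroup G) ∣ Nat.card D :=
      Subgroup.card_dvd_of_le inf_le_right
    rw [hk] at h2
    have hk0 : k = 0 := by
      by_contra hk0
      exact hD ((dvd_pow_self p hk0).trans h2)
    rw [hk0, pow_zero, Subgroup.card_eq_one] at hk
    have : z ∈ (P : Subgroup G) ⊓ D := Subgroup.mem_inf.mpr ⟨hzP, hzD⟩
    rw [hk] at this
    exact Subgroup.mem_bot.mp this
  have hex : ∀ L : Subgroup G, L.Normal → p ∣ Nat.card L →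
      ∃ x ∈ (P : Subgroup G), x ∈ L ∧ orderOf x = p := by
    intro L hL hpL
    have hc : Nat.card ((P : Subgroup G) ⊓ L : Subgroup G) = p ^ (Nat.card L).factorization p :=
      Cfsg.Agent.Lib.Helper17.card_sylow_inf_normal P L
    have hpos := Nat.Prime.factorization_pos_of_dvd hp Nat.card_pos.ne' hpL
    have hdvd : p ∣ Nat.card ((P : Subgroup G) ⊓ L : Subgroup G) := by
      rw [hc]; exact dvd_pow_self p hpos.ne'
    obtain ⟨x, hx⟩ := exists_prime_orderOf_dvd_card' p hdvd
    exact ⟨x, (Subgroup.mem_inf.mp x.2).1, (Subgroup.mem_inf.mp x.2).2, by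
      rw [Subgroup.orderOf_coe]; exact hx⟩
  obtain ⟨x, hxP, hxN, hxo⟩ := hex N inferInstance hN
  obtain ⟨y, hyP, hyM, hyo⟩ := hex M inferInstance hM
  have hcommD : ∀ n ∈ N, ∀ m ∈ M, n * m * n⁻¹ * m⁻¹ ∈ D := by
    intro n hn m hm
    rw [hDdef]
    refine Subgroup.mem_inf.mpr ⟨?_, ?_⟩
    · have e : n * m * n⁻¹ * m⁻¹ = n * (m * n⁻¹ * m⁻¹) := by group
      rw [e]
      exact N.mul_mem hn (hNn.conj_mem _ (N.inv_mem hn) m)
    · exact M.mul_mem (hMn.conj_mem _ hm n) (M.inv_mem hm)
  have hxy : x * y = y * x := by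
    have h1 := hcommD x hxN y hyM
    have h2 : x * y * x⁻¹ * y⁻¹ ∈ (P : Subgroup G) :=
      mul_mem (mul_mem (mul_mem hxP hyP) (inv_mem hxP)) (inv_mem hyP)
    have h3 := hPD _ h2 h1
    calc x * y = (x * y * x⁻¹ * y⁻¹) * (y * x) := by group
      _ = y * x := by rw [h3, one_mul]
  obtain ⟨A, hA⟩ : ∃ A : Subgroup G, A = Subgroup.zpowers x ⊔ Subgroup.zpowers y := ⟨_, rfl⟩
  have hAP : A ≤ (P : Subgroup G) := by
    rw [hA]; exact sup_le (Subgroup.zpowers_le.mpr hxP) (Subgroup.zpowers_le.mpr hyP)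
  have hxc : Subgroup.zpowers x ≤ Subgroup.centralizer (Subgroup.zpowers y : Set G) := by
    rw [Subgroup.zpowers_le, Subgroup.zpowers_eq_closure, Subgroup.centralizer_closure,
      Subgroup.mem_centralizer_iff]
    intro h hh
    rw [Set.mem_singleton_iff] at hh
    rw [hh]; exact hxy.symm
  have hAc : IsMulCommutative A := by
    rw [hA]
    apply isMulCommutative_of_le_centralizer
    rw [centralizer_sup_eq]
    exact sup_le (le_inf (zpowers_le_centralizer_zpowers x) hxc)
      (le_inf (Subgroup.le_centralizer_iff.mp hxc) (zpowers_le_centralizer_zpowers y))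
  have hAcc := le_centralizer_of_isMulCommutative hAc
  have hxp : x ^ p = 1 := by rw [← hxo]; exact pow_orderOf_eq_one x
  have hyp : y ^ p = 1 := by rw [← hyo]; exact pow_orderOf_eq_one y
  have hAel : Cfsg.IsElementaryAbelian p A := by
    refine ⟨hAc, ?_⟩
    intro a ha
    have ha' : a ∈ Subgroup.closure ((Subgroup.zpowers x : Set G) ∪ (Subgroup.zpowers y : Set G)) := by
      rw [Subgroup.closure_union, Subgroup.closure_eq, Subgroup.closure_eq, ← hA]; exact ha
    have hcl : Subgroup.closure ((Subgroup.zpowers x : Set G) ∪ (Subgroup.zpowers y : Set G)) = A := by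
      rw [Subgroup.closure_union, Subgroup.closure_eq, Subgroup.closure_eq, ← hA]
    induction ha' using Subgroup.closure_induction with
    | mem z hz =>
      rcases hz with hz | hz
      · obtain ⟨i, rfl⟩ := Subgroup.mem_zpowers_iff.mp hz
        rw [← zpow_natCast, ← zpow_mul, mul_comm, zpow_mul, zpow_natCast, hxp, one_zpow]
      · obtain ⟨i, rfl⟩ := Subgroup.mem_zpowers_iff.mp hz
        rw [← zpow_natCast, ← zpow_mul, mul_comm, zpow_mul, zpow_natCast, hyp, one_zpow]
    | one => exact one_pow p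
    | mul u v hu hv ihu ihv =>
      rw [hcl] at hu hv
      have hcomm : Commute u v := (Subgroup.mem_centralizer_iff.mp (hAcc hu) v hv).symm
      rw [hcomm.mul_pow, ihu hu, ihv hv, one_mul]
    | inv u hu ihu =>
      rw [hcl] at hu
      rw [inv_pow, ihu hu, inv_one]
  have hinf : Subgroup.zpowers x ⊓ Subgroup.zpowers y = ⊥ := by
    rw [eq_bot_iff]
    intro z hz
    obtain ⟨hz1, hz2⟩ := Subgroup.mem_inf.mp hz
    have hzN : z ∈ N := (Subgroup.zpowers_le.mpr hxN) hz1
    have hzM : z ∈ M := (Subgroup.zpowers_le.mpr hyM) hz2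
    have hzP : z ∈ (P : Subgroup G) := (Subgroup.zpowers_le.mpr hxP) hz1
    rw [Subgroup.mem_bot]
    exact hPD z hzP (by rw [hDdef]; exact Subgroup.mem_inf.mpr ⟨hzN, hzM⟩)
  have hA2 : p ^ 2 ≤ Nat.card A := by
    have := card_mul_card_le_sup_inf (Subgroup.zpowers x) (Subgroup.zpowers y)
    rw [hinf, Subgroup.card_bot, mul_one, Nat.card_zpowers, Nat.card_zpowers, hxo, hyo, ← hA] at this
    rw [pow_two]; exact this
  have hgen := Cfsg.Agent.S1324.result p A D hAel hA2 hD (Subgroup.le_normalizer_of_normal.trans' le_top)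
  have hDH : D ≤ H := by
    rw [hgen, iSup_le_iff]
    rintro ⟨B, hBA, hBidx⟩
    have hB1 : B ≠ ⊥ := by
      intro hb
      rw [hb, Subgroup.relIndex_bot_left] at hBidx
      have : p < p ^ 2 := by
        rw [pow_two]; nlinarith [hp.one_lt]
      omega
    have hBN := hnc B (hBA.trans (hAP.trans hPH)) (P.isPGroup'.to_le (hBA.trans hAP)) hB1
    exact inf_le_right.trans ((Subgroup.centralizer_le_normalizer _).trans hBN)
  -- N ≤ H
  obtain ⟨Y, hY⟩ : ∃ Y : Subgroup G, Y = Subgroup.zpowers y := ⟨_, rfl⟩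
  have hYP : Y ≤ (P : Subgroup G) := by rw [hY]; exact Subgroup.zpowers_le.mpr hyP
  have hYM : Y ≤ M := by rw [hY]; exact Subgroup.zpowers_le.mpr hyM
  have hYp : IsPGroup p Y := P.isPGroup'.to_le hYP
  have hY1 : Y ≠ ⊥ := by
    intro h
    have : y ∈ Y := by rw [hY]; exact Subgroup.mem_zpowers y
    rw [h, Subgroup.mem_bot] at this
    rw [this, orderOf_one] at hyo
    exact hp.one_lt.ne hyo
  have hYN : Subgroup.normalizer (Y : Set G) ≤ H := hnc Y (hYP.trans hPH) hYp hY1
  have hidx : ¬ p ∣ Y.relIndex (Y ⊔ D) := by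
    rw [relIndex_sup_of_normal Y D]
    intro hd
    exact hD (hd.trans (Subgroup.relIndex_dvd_card Y D))
  have hLH : Y ⊔ D ≤ H := sup_le (hYP.trans hPH) hDH
  have hNH : N ≤ H := by
    intro n hn
    have hQL : Y.map (MulAut.conj n).toMonoidHom ≤ Y ⊔ D := by
      rintro _ ⟨z, hz, rfl⟩
      simp only [MulEquiv.coe_toMonoidHom, MulAut.conj_apply]
      have e : n * z * n⁻¹ = (n * z * n⁻¹ * z⁻¹) * z := by group
      rw [e]
      exact Subgroup.mul_mem _ (Subgroup.mem_sup_right (hcommD n hn z (hYM hz)))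
        (Subgroup.mem_sup_left hz)
    obtain ⟨k, hkL, hk⟩ := exists_conj_le_of_not_dvd_relIndex (le_sup_left : Y ≤ Y ⊔ D) hYp hidx
      hQL (hYp.map _)
    have hkn : k * n ∈ Subgroup.normalizer (Y : Set G) := by
      apply mem_normalizer_of_forall_conj_mem
      intro a ha
      have := hk (n * a * n⁻¹) ⟨a, ha, rfl⟩
      have e : k * n * a * (k * n)⁻¹ = k * (n * a * n⁻¹) * k⁻¹ := by group
      rw [e]; exact this
    have h1 : k * n ∈ H := hYN hkn
    have e : n = k⁻¹ * (k * n) := by group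
    rw [e]
    exact H.mul_mem (H.inv_mem (hLH hkL)) h1
  have hfin := Cfsg.Agent.S3059.result p H hHtop hpH hse N hN
  apply hHtop
  rw [← hfin]
  symm
  apply sup_eq_left.mpr
  rw [Subgroup.closure_le]
  exact fun g hg => hNH hg.1

end Cfsg.Agent.S3058
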