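import Cfsg.Statements.S3060
import Mathlib
import Cfsg.Agent.Lib.Helper17.PCore

set_option autoImplicit false
open Cfsg

namespace Cfsg.Agent.S3060

open scoped commutatorElement

section fam
variable {G : Type*} [Group G]

/-- the generating family of `D*`, for a subgroup `S` of `G`, as subgroups of `G` -/
def Fam (S : Subgroup G) : Set (Subgroup G) :=
  {A | A ≤ S ∧ (∀ a ∈ A, ∀ b ∈ A, a * b = b * a) ∧ ∀ x ∈ S,
     ⁅⁅A ⊔ Subgroup.zpowers x, A ⊔ Subgroup.zpowers x⁆, A ⊔ Subgroup.zpowers x⁆ = ⊥ →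
       ∀ a ∈ A, a * x = x * a}

theorem cl2_map {H : Type*} [Group H] (f : H →* G) (hf : Function.Injective f) (K : Subgroup H) :
    ⁅⁅K.map f, K.map f⁆, K.map f⁆ = ⊥ ↔ ⁅⁅K, K⁆, K⁆ = ⊥ := by
  rw [← Subgroup.map_commutator, ← Subgroup.map_commutator, Subgroup.map_eq_bot_iff_of_injective _ hf]

theorem cl2_mono {K K' : Subgroup G} (h : K ≤ K') (h2 : ⁅⁅K', K'⁆, K'⁆ = ⊥) : ⁅⁅K, K⁆, K⁆ = ⊥ :=
  le_bot_iff.1 (h2 ▸ Subgroup.commutator_mono (Subgroup.commutator_mono h h) h)

theorem fam_map_iff {H : Type*} [Group H] (f : H →* G) (hf : Function.Injective f) (S A : Subgroup H) :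
    A.map f ∈ Fam (S.map f) ↔ A ∈ Fam S := by
  have hK : ∀ x : H, (A ⊔ Subgroup.zpowers x).map f = A.map f ⊔ Subgroup.zpowers (f x) := by
    intro x
    rw [Subgroup.map_sup, MonoidHom.map_zpowers]
  constructor
  · rintro ⟨h1, h2, h3⟩
    refine ⟨(Subgroup.map_le_map_iff_of_injective hf).1 h1, ?_, ?_⟩
    · intro a ha b hb
      have := h2 _ (Subgroup.mem_map_of_mem f ha) _ (Subgroup.mem_map_of_mem f hb)
      exact hf (by rw [map_mul, map_mul]; exact this)
    · intro x hx hcl a ha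
      have := h3 (f x) (Subgroup.mem_map_of_mem f hx) (by rw [← hK, cl2_map f hf]; exact hcl) (f a)
        (Subgroup.mem_map_of_mem f ha)
      exact hf (by rw [map_mul, map_mul]; exact this)
  · rintro ⟨h1, h2, h3⟩
    refine ⟨Subgroup.map_mono h1, ?_, ?_⟩
    · rintro _ ⟨a, ha, rfl⟩ _ ⟨b, hb, rfl⟩
      rw [← map_mul, ← map_mul, h2 a ha b hb]
    · rintro _ ⟨x, hx, rfl⟩ hcl _ ⟨a, ha, rfl⟩
      rw [← hK, cl2_map f hf] at hcl
      rw [← map_mul, ← map_mul, h3 x hx hcl a ha]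

theorem mem_dStarFamily_iff {S : Type*} [Group S] (A : Subgroup S) :
    A ∈ Cfsg.dStarFamily S ↔ A ∈ Fam (⊤ : Subgroup S) := by
  constructor
  · rintro ⟨h1, h2⟩
    refine ⟨le_top, ?_, fun x _ hx a ha => h2 x hx a ha⟩
    intro a ha b hb
    have := (isMulCommutative_iff.1 h1) ⟨a, ha⟩ ⟨b, hb⟩
    exact congrArg Subtype.val this
  · rintro ⟨-, h2, h3⟩
    refine ⟨isMulCommutative_iff.2 ?_, fun x hx a ha => h3 x (Subgroup.mem_top x) hx a ha⟩
    rintro ⟨a, ha⟩ ⟨b, hb⟩
    exact Subtype.ext (h2 a ha b hb)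

theorem dStarOf_eq (S : Subgroup G) : Cfsg.dStarOf S = sSup (Fam S) := by
  unfold Cfsg.dStarOf Cfsg.dStar
  have htop : (⊤ : Subgroup S).map S.subtype = S := by
    rw [← MonoidHom.range_eq_map, Subgroup.range_subtype]
  apply le_antisymm
  · rw [Subgroup.map_le_iff_le_comap]
    apply sSup_le
    intro A hA
    rw [← Subgroup.map_le_iff_le_comap]
    apply le_sSup
    have := (fam_map_iff S.subtype S.subtype_injective ⊤ A).2 ((mem_dStarFamily_iff A).1 hA)
    rwa [htop] at this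
  · apply sSup_le
    intro A hA
    have hAS : A ≤ S := hA.1
    have h1 : (A.subgroupOf S).map S.subtype = A := Subgroup.map_subgroupOf_eq_of_le hAS
    rw [← h1]
    apply Subgroup.map_mono
    apply le_sSup
    rw [mem_dStarFamily_iff, ← fam_map_iff S.subtype S.subtype_injective, htop, h1]
    exact hA

theorem comm_aux (K Z : Subgroup G) (hZ : ∀ z ∈ Z, ∀ k ∈ K, k * z = z * k) (v : G) (U : Set G)
    (hU : Subgroup.closure U = K) (hb : ∀ u ∈ U, ⁅u, v⁆ ∈ Z) : ∀ g ∈ K, ⁅g, v⁆ ∈ Z := by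
  intro g hg
  rw [← hU] at hg
  induction hg using Subgroup.closure_induction with
  | mem u hu => exact hb u hu
  | one => simp
  | mul g1 g2 h1 h2 ih1 ih2 =>
    rw [hU] at h1 h2
    have e : ⁅g1 * g2, v⁆ = ⁅g2, v⁆ * ⁅g1, v⁆ := by
      have := hZ _ ih2 g1 h1
      calc ⁅g1 * g2, v⁆ = g1 * ⁅g2, v⁆ * g1⁻¹ * ⁅g1, v⁆ := by
            simp only [commutatorElement_def]; group
        _ = ⁅g2, v⁆ * ⁅g1, v⁆ := by rw [this]; group
    rw [e]; exact Z.mul_mem ih2 ih1
  | inv g h ih =>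
    rw [hU] at h
    have e : ⁅g⁻¹, v⁆ = (⁅g, v⁆)⁻¹ := by
      have := hZ _ (Z.inv_mem ih) g h
      calc ⁅g⁻¹, v⁆ = g⁻¹ * ((⁅g, v⁆)⁻¹ * g) := by simp only [commutatorElement_def]; group
        _ = (⁅g, v⁆)⁻¹ := by rw [← this]; group
    rw [e]; exact Z.inv_mem ih

theorem cl2_of_gens (U : Set G)
    (h : ∀ u ∈ U, ∀ v ∈ U, ∀ w ∈ U, w * ⁅u, v⁆ = ⁅u, v⁆ * w) :
    ⁅⁅Subgroup.closure U, Subgroup.closure U⁆, Subgroup.closure U⁆ = ⊥ := by
  obtain ⟨K, hK⟩ : ∃ K, K = Subgroup.closure U := ⟨_, rfl⟩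
  rw [← hK]
  obtain ⟨Z, hZd⟩ : ∃ Z, Z = Subgroup.centralizer (K : Set G) := ⟨_, rfl⟩
  have hZ : ∀ z ∈ Z, ∀ k ∈ K, k * z = z * k := by
    intro z hz k hk
    rw [hZd] at hz
    exact Subgroup.mem_centralizer_iff.1 hz k hk
  have hZU : ∀ z : G, (∀ w ∈ U, w * z = z * w) → z ∈ Z := by
    intro z hz
    rw [hZd, hK, Subgroup.centralizer_closure]
    exact Subgroup.mem_centralizer_iff.2 hz
  have H1 : ∀ g ∈ K, ∀ v ∈ U, ⁅g, v⁆ ∈ Z := by
    intro g hg v hv
    exact comm_aux K Z hZ v U hK.symm (fun u hu => hZU _ (h u hu v hv)) g hg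
  have H2 : ∀ g ∈ K, ∀ k ∈ K, ⁅k, g⁆ ∈ Z := by
    intro g hg k hk
    refine comm_aux K Z hZ g U hK.symm (fun u hu => ?_) k hk
    have := Z.inv_mem (H1 g hg u hu)
    rwa [commutatorElement_inv] at this
  rw [Subgroup.commutator_eq_bot_iff_le_centralizer, ← hZd, Subgroup.commutator_le]
  intro a ha b hb
  exact H2 b hb a ha

/-- an element normalizing a member and acting quadratically on it centralizes it -/
theorem quad {S A : Subgroup G} (hA : A ∈ Fam S) {x : G} (hx : x ∈ S)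
    (hn : ∀ a ∈ A, x * a * x⁻¹ ∈ A) (hq : ∀ a ∈ A, x * ⁅a, x⁆ = ⁅a, x⁆ * x) :
    ∀ a ∈ A, a * x = x * a := by
  obtain ⟨hAS, hAc, hA3⟩ := hA
  apply hA3 x hx
  have hcl : A ⊔ Subgroup.zpowers x = Subgroup.closure ((A : Set G) ∪ {x}) := by
    rw [Subgroup.closure_union, Subgroup.closure_eq, Subgroup.zpowers_eq_closure]
  rw [hcl]
  have hax : ∀ a ∈ A, ⁅a, x⁆ ∈ A := by
    intro a ha
    have : ⁅a, x⁆ = a * (x * a⁻¹ * x⁻¹) := by simp only [commutatorElement_def]; group
    rw [this]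
    exact A.mul_mem ha (hn _ (A.inv_mem ha))
  have key : ∀ u ∈ (A : Set G) ∪ {x}, ∀ v ∈ (A : Set G) ∪ {x},
      ⁅u, v⁆ ∈ A ∧ x * ⁅u, v⁆ = ⁅u, v⁆ * x := by
    intro u hu v hv
    rcases hu with hu | hu <;> rcases hv with hv | hv
    · have : ⁅u, v⁆ = 1 := by rw [commutatorElement_eq_one_iff_mul_comm]; exact hAc u hu v hv
      rw [this]; exact ⟨A.one_mem, by simp⟩
    · rw [Set.mem_singleton_iff] at hv
      rw [hv]
      exact ⟨hax u hu, hq u hu⟩
    · rw [Set.mem_singleton_iff] at hu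
      rw [hu]
      have h1 := hax v hv
      have h2 := hq v hv
      rw [← commutatorElement_inv]
      refine ⟨A.inv_mem h1, ?_⟩
      calc x * (⁅v, x⁆)⁻¹ = (⁅v, x⁆)⁻¹ * (⁅v, x⁆ * x) * (⁅v, x⁆)⁻¹ := by group
        _ = (⁅v, x⁆)⁻¹ * (x * ⁅v, x⁆) * (⁅v, x⁆)⁻¹ := by rw [h2]
        _ = (⁅v, x⁆)⁻¹ * x := by group
    · rw [Set.mem_singleton_iff] at hu hv
      rw [hu, hv, commutatorElement_self]
      exact ⟨A.one_mem, by simp⟩
  apply cl2_of_gens
  intro u hu v hv w hw
  rcases hw with hw | hw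
  · exact hAc w hw _ (key u hu v hv).1
  · rw [Set.mem_singleton_iff] at hw
    rw [hw]
    exact (key u hu v hv).2

theorem comm_closure (W : Set G) (h : ∀ u ∈ W, ∀ v ∈ W, u * v = v * u) :
    ∀ u ∈ Subgroup.closure W, ∀ v ∈ Subgroup.closure W, u * v = v * u := by
  have h1 : Subgroup.closure W ≤ Subgroup.centralizer W := by
    rw [Subgroup.closure_le]
    intro u hu
    exact Subgroup.mem_centralizer_iff.2 (fun v hv => h v hv u hu)
  intro u hu v hv
  have h2 : Subgroup.closure W ≤ Subgroup.centralizer (Subgroup.closure W : Set G) := by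
    rw [Subgroup.centralizer_closure]; exact h1
  exact (Subgroup.mem_centralizer_iff.1 (h2 hv) u hu)

theorem fam_sup {S A B : Subgroup G} (hA : A ∈ Fam S) (hB : B ∈ Fam S)
    (hAB : ∀ a ∈ A, ∀ b ∈ B, a * b = b * a) : A ⊔ B ∈ Fam S := by
  refine ⟨sup_le hA.1 hB.1, ?_, ?_⟩
  · have hcl : A ⊔ B = Subgroup.closure ((A : Set G) ∪ B) := by
      rw [Subgroup.closure_union, Subgroup.closure_eq, Subgroup.closure_eq]
    rw [hcl]
    apply comm_closure
    intro u hu v hv
    rcases hu with hu | hu <;> rcases hv with hv | hv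
    · exact hA.2.1 u hu v hv
    · exact hAB u hu v hv
    · exact (hAB v hv u hu).symm
    · exact hB.2.1 u hu v hv
  · intro x hx hcl
    have h1 := hA.2.2 x hx (cl2_mono (sup_le_sup_right le_sup_left _) hcl)
    have h2 := hB.2.2 x hx (cl2_mono (sup_le_sup_right le_sup_right _) hcl)
    have h3 : A ⊔ B ≤ Subgroup.centralizer {x} := by
      refine sup_le ?_ ?_
      · intro a ha
        exact Subgroup.mem_centralizer_iff.2
          (fun y hy => by rw [Set.mem_singleton_iff.1 hy]; exact (h1 a ha).symm)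
      · intro a ha
        exact Subgroup.mem_centralizer_iff.2
          (fun y hy => by rw [Set.mem_singleton_iff.1 hy]; exact (h2 a ha).symm)
    intro a ha
    exact (Subgroup.mem_centralizer_iff.1 (h3 ha) x rfl).symm

theorem conj_self {S : Subgroup G} {s : G} (hs : s ∈ S) :
    S.map (MulAut.conj s).toMonoidHom = S := by
  ext y
  constructor
  · rintro ⟨z, hz, rfl⟩
    simp only [MulEquiv.coe_toMonoidHom, MulAut.conj_apply]
    exact S.mul_mem (S.mul_mem hs hz) (S.inv_mem hs)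
  · intro hy
    refine ⟨s⁻¹ * y * s, S.mul_mem (S.mul_mem (S.inv_mem hs) hy) hs, ?_⟩
    simp only [MulEquiv.coe_toMonoidHom, MulAut.conj_apply]
    group

theorem mem_normalizer_of_map_le [Finite G] {A : Subgroup G} {s : G}
    (h : A.map (MulAut.conj s).toMonoidHom ≤ A) : s ∈ Subgroup.normalizer (A : Set G) := by
  have hcard : Nat.card (A.map (MulAut.conj s).toMonoidHom) = Nat.card A :=
    Subgroup.card_map_of_injective (MulAut.conj s).injective
  have heq : A.map (MulAut.conj s).toMonoidHom = A :=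
    Subgroup.eq_of_le_of_card_ge h (le_of_eq hcard.symm)
  rw [Subgroup.mem_normalizer_iff]
  intro y
  constructor
  · intro hy
    have : s * y * s⁻¹ ∈ A.map (MulAut.conj s).toMonoidHom := ⟨y, hy, by simp⟩
    rwa [heq] at this
  · intro hy
    rw [← heq] at hy
    obtain ⟨z, hz, hzy⟩ := hy
    simp only [MulEquiv.coe_toMonoidHom, MulAut.conj_apply] at hzy
    have : z = y := by
      have := congrArg (fun t => s⁻¹ * t * s) hzy
      simpa [mul_assoc] using this
    rw [← this]; exact hz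

theorem exists_normal_member [Finite G] {p : ℕ} [Fact p.Prime] {S : Subgroup G} (hS : IsPGroup p S) :
    ∀ n : ℕ, ∀ A ∈ Fam S, Nat.card S - Nat.card A = n →
      ∃ B ∈ Fam S, A ≤ B ∧ S ≤ Subgroup.normalizer (B : Set G) := by
  intro n
  induction n using Nat.strong_induction_on with
  | _ n ih =>
  intro A hA hn
  by_cases hSA : S ≤ Subgroup.normalizer (A : Set G)
  · exact ⟨A, hA, le_refl _, hSA⟩
  have hnil : Group.IsNilpotent S := hS.isNilpotent
  have hNC := Group.normalizerCondition_of_isNilpotent (G := S)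
  obtain ⟨N, hN⟩ : ∃ N : Subgroup S, N = (Subgroup.normalizer (A : Set G)).subgroupOf S := ⟨_, rfl⟩
  have hNlt : N < ⊤ := by
    rw [lt_top_iff_ne_top]
    intro h
    apply hSA
    rw [hN, Subgroup.subgroupOf_eq_top] at h
    exact h
  have h2 := hNC N hNlt
  obtain ⟨s, hs1, hs2⟩ := SetLike.exists_of_lt h2
  have hs2' : (s : G) ∉ Subgroup.normalizer (A : Set G) := by
    intro h
    apply hs2
    rw [hN, Subgroup.mem_subgroupOf]
    exact h
  have hsN : ∀ y : S, y ∈ N ↔ s * y * s⁻¹ ∈ N := Subgroup.mem_normalizer_iff.1 hs1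
  have hsN' : ∀ y : S, y ∈ N → s⁻¹ * y * s ∈ N := by
    intro y hy
    rw [hsN]
    have : s * (s⁻¹ * y * s) * s⁻¹ = y := by group
    rw [this]; exact hy
  have hAS : A ≤ S := hA.1
  have hAN : ∀ a (ha : a ∈ A), (⟨a, hAS ha⟩ : S) ∈ N := by
    intro a ha
    rw [hN, Subgroup.mem_subgroupOf]
    exact Subgroup.le_normalizer ha
  obtain ⟨B, hBd⟩ : ∃ B, B = A.map (MulAut.conj (s : G)).toMonoidHom := ⟨_, rfl⟩
  have hB : B ∈ Fam S := by
    have := (fam_map_iff (MulAut.conj (s : G)).toMonoidHom (MulAut.conj (s : G)).injective S A).2 hA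
    rw [conj_self s.2] at this
    rw [hBd]; exact this
  -- elements of B normalize A, elements of A normalize B
  have h3 : ∀ a ∈ A, (s : G) * a * (s : G)⁻¹ ∈ Subgroup.normalizer (A : Set G) := by
    intro a ha
    have := (hsN ⟨a, hAS ha⟩).1 (hAN a ha)
    rw [hN, Subgroup.mem_subgroupOf] at this
    exact this
  have h4 : ∀ a ∈ A, (s : G)⁻¹ * a * (s : G) ∈ Subgroup.normalizer (A : Set G) := by
    intro a ha
    have := hsN' ⟨a, hAS ha⟩ (hAN a ha)
    rw [hN, Subgroup.mem_subgroupOf] at this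
    exact this
  have hcomm : ∀ a ∈ A, ∀ b ∈ B, a * b = b * a := by
    intro a ha b hb
    have hbS : b ∈ S := hB.1 hb
    have hb' := hb
    rw [hBd] at hb'
    obtain ⟨a', ha', hab⟩ := hb'
    simp only [MulEquiv.coe_toMonoidHom, MulAut.conj_apply] at hab
    have hbn : b ∈ Subgroup.normalizer (A : Set G) := by rw [← hab]; exact h3 a' ha'
    refine quad hA hbS (fun c hc => (Subgroup.mem_normalizer_iff.1 hbn c).1 hc) ?_ a ha
    intro c hc
    have h5 : ((s : G)⁻¹ * c * (s : G)) * a' * ((s : G)⁻¹ * c * (s : G))⁻¹ ∈ A :=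
      (Subgroup.mem_normalizer_iff.1 (h4 c hc) a').1 ha'
    have h6 : c * b * c⁻¹ ∈ B := by
      rw [hBd]
      refine ⟨_, h5, ?_⟩
      simp only [MulEquiv.coe_toMonoidHom, MulAut.conj_apply]
      rw [← hab]; group
    have h7 : ⁅c, b⁆ ∈ B := by
      have : ⁅c, b⁆ = c * b * c⁻¹ * b⁻¹ := by simp only [commutatorElement_def]
      rw [this]
      exact B.mul_mem h6 (B.inv_mem hb)
    exact hB.2.1 b hb _ h7
  have hAB : A ⊔ B ∈ Fam S := fam_sup hA hB hcomm
  have hlt : Nat.card A < Nat.card ↥(A ⊔ B) := by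
    by_contra hle
    push Not at hle
    have : A = A ⊔ B := Subgroup.eq_of_le_of_card_ge le_sup_left hle
    have hBA : B ≤ A := by rw [this]; exact le_sup_right
    rw [hBd] at hBA
    exact hs2' (mem_normalizer_of_map_le hBA)
  have hle : Nat.card ↥(A ⊔ B) ≤ Nat.card S := Subgroup.card_le_of_le hAB.1
  obtain ⟨C, hC, hABC, hCn⟩ := ih (Nat.card S - Nat.card ↥(A ⊔ B)) (by omega) (A ⊔ B) hAB rfl
  exact ⟨C, hC, le_sup_left.trans hABC, hCn⟩

end fam

/-- The D*-Theorem. For a finite p-group S let D*(S) be the subgroup generated by the abelian subgroups A of S such that every x ∈ S with ⟨A, x⟩ of nilpotency class at most two centralizes A. Let p be an odd prime and H a finite p-stable group with Sylow p-subgroup S. Here H is p-stable in the following sense: the largest normal p-subgroup O_p(H) contains its centralizer in H, and for every normal p-subgroup P of H, every element acting quadratically on P has image in O_p(H/C_H(P)). Then D*(S)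 is a normal subgroup of H. -/
theorem result {G : Type*} [Group G] [Finite G] {p : ℕ} [Fact p.Prime] (hp : p ≠ 2)
    (hc : Subgroup.centralizer (Cfsg.pCore p G : Set G) ≤ Cfsg.pCore p G)
    (hst : ∀ (P : Subgroup G) [P.Normal], IsPGroup p P → Cfsg.IsPStableOn p P) (S : Sylow p G) :
    (Cfsg.dStarOf (S : Subgroup G)).Normal := by
  have hTn0 : (Cfsg.pCore p G).Normal := Lib.Helper17.pCore_normal
  have hTp0 : IsPGroup p (Cfsg.pCore p G) := Lib.Helper17.pCore_isPGroup
  have hTS0 : Cfsg.pCore p G ≤ (S : Subgroup G) := Lib.Helper17.pCore_le_sylow S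
  obtain ⟨T, hT⟩ : ∃ T, T = Cfsg.pCore p G := ⟨_, rfl⟩
  rw [← hT] at hc
  have hTn : T.Normal := by rw [hT]; exact hTn0
  have hTp : IsPGroup p T := by rw [hT]; exact hTp0
  have hTS : T ≤ (S : Subgroup G) := by rw [hT]; exact hTS0
  have key : ∀ A ∈ Fam (S : Subgroup G), ∃ L ∈ Fam (S : Subgroup G), A ≤ L ∧ L.Normal := by
    intro A₀ hA₀
    obtain ⟨A, hA, hA₀A, hSA⟩ := exists_normal_member S.isPGroup' _ A₀ hA₀ rfl
    obtain ⟨hAS, hAc, hA3⟩ := id hA
    -- (b) A ≤ T
    have hAT : A ≤ T := by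
      intro a ha
      have hquad : ⁅⁅T, Subgroup.zpowers a⁆, Subgroup.zpowers a⁆ = ⊥ := by
        have h1 : ⁅T, Subgroup.zpowers a⁆ ≤ A := by
          rw [Subgroup.commutator_le]
          intro t ht y hy
          have hyA : y ∈ A := (Subgroup.zpowers_le.2 ha) hy
          have htn := hSA (hTS ht)
          have : ⁅t, y⁆ = (t * y * t⁻¹) * y⁻¹ := by simp only [commutatorElement_def]
          rw [this]
          exact A.mul_mem ((Subgroup.mem_normalizer_iff.1 htn y).1 hyA) (A.inv_mem hyA)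
        have h2 : ⁅A, Subgroup.zpowers a⁆ = ⊥ := by
          rw [Subgroup.commutator_eq_bot_iff_le_centralizer]
          intro b hb
          rw [Subgroup.mem_centralizer_iff]
          intro y hy
          exact hAc y ((Subgroup.zpowers_le.2 ha) hy) b hb
        exact le_bot_iff.1 (h2 ▸ Subgroup.commutator_mono h1 le_rfl)
      have hmem := hst T hTp a hquad
      have hR : IsPGroup p ((Cfsg.pCore p (G ⧸ Subgroup.centralizer (T : Set G))).comap
          (QuotientGroup.mk' (Subgroup.centralizer (T : Set G)))) := by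
        apply IsPGroup.comap_of_ker_isPGroup Lib.Helper17.pCore_isPGroup
        rw [QuotientGroup.ker_mk']
        exact hTp.to_le hc
      have hRn : ((Cfsg.pCore p (G ⧸ Subgroup.centralizer (T : Set G))).comap
          (QuotientGroup.mk' (Subgroup.centralizer (T : Set G)))).Normal :=
        Lib.Helper17.pCore_normal.comap _
      have h3 := Lib.Helper17.le_pCore hRn hR
      rw [← hT] at h3
      exact h3 (Subgroup.mem_comap.2 hmem)
    -- (c) conjugates commute
    have hcomm : ∀ g : G, ∀ a ∈ A, ∀ a' ∈ A, a * (g * a' * g⁻¹) = (g * a' * g⁻¹) * a := by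
      intro g a ha a' ha'
      have hbT : g * a' * g⁻¹ ∈ T := hTn.conj_mem a' (hAT ha') g
      refine quad hA (hTS hbT)
        (fun c hc => (Subgroup.mem_normalizer_iff.1 (hSA (hTS hbT)) c).1 hc) ?_ a ha
      intro c hc
      have hcT : g⁻¹ * c * g ∈ T := by simpa using hTn.conj_mem c (hAT hc) g⁻¹
      have h1 : (g⁻¹ * c * g) * a' * (g⁻¹ * c * g)⁻¹ ∈ A :=
        (Subgroup.mem_normalizer_iff.1 (hSA (hTS hcT)) a').1 ha'
      obtain ⟨u, hu⟩ : ∃ u, u = (g⁻¹ * c * g) * a' * (g⁻¹ * c * g)⁻¹ * a'⁻¹ := ⟨_, rfl⟩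
      have huA : u ∈ A := by rw [hu]; exact A.mul_mem h1 (A.inv_mem ha')
      have h2 : ⁅c, g * a' * g⁻¹⁆ = g * u * g⁻¹ := by
        rw [hu]; simp only [commutatorElement_def]; group
      rw [h2]
      have h3 := hAc u huA a' ha'
      calc g * a' * g⁻¹ * (g * u * g⁻¹) = g * (a' * u) * g⁻¹ := by group
        _ = g * (u * a') * g⁻¹ := by rw [h3]
        _ = g * u * g⁻¹ * (g * a' * g⁻¹) := by group
    -- (d) the normal closure
    obtain ⟨W, hW⟩ : ∃ W : Set G, W = Group.conjugatesOfSet (A : Set G) := ⟨_, rfl⟩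
    have hWmem : ∀ u ∈ W, ∃ g : G, ∃ a ∈ A, u = g * a * g⁻¹ := by
      intro u hu
      rw [hW, Group.mem_conjugatesOfSet_iff] at hu
      obtain ⟨a, ha, hconj⟩ := hu
      obtain ⟨g, hg⟩ := isConj_iff.1 hconj
      exact ⟨g, a, ha, hg.symm⟩
    have hWcomm : ∀ u ∈ W, ∀ v ∈ W, u * v = v * u := by
      intro u hu v hv
      obtain ⟨g, a, ha, rfl⟩ := hWmem u hu
      obtain ⟨h, b, hb, rfl⟩ := hWmem v hv
      have := hcomm (g⁻¹ * h) a ha b hb
      calc g * a * g⁻¹ * (h * b * h⁻¹) = g * (a * ((g⁻¹ * h) * b * (g⁻¹ * h)⁻¹)) * g⁻¹ := by group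
        _ = g * (((g⁻¹ * h) * b * (g⁻¹ * h)⁻¹) * a) * g⁻¹ := by rw [this]
        _ = h * b * h⁻¹ * (g * a * g⁻¹) := by group
    obtain ⟨L, hL⟩ : ∃ L, L = Subgroup.normalClosure (A : Set G) := ⟨_, rfl⟩
    have hLcl : L = Subgroup.closure W := by rw [hL, hW]; rfl
    have hLn : L.Normal := by rw [hL]; exact Subgroup.normalClosure_normal
    have hAL : A ≤ L := by rw [hL]; exact Subgroup.le_normalClosure
    have hLT : L ≤ T := by rw [hL]; exact Subgroup.normalClosure_le_normal hAT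
    have hLc : ∀ u ∈ L, ∀ v ∈ L, u * v = v * u := by rw [hLcl]; exact comm_closure W hWcomm
    have hLp : IsPGroup p L := hTp.to_le hLT
    refine ⟨L, ⟨hLT.trans hTS, hLc, ?_⟩, hA₀A.trans hAL, hLn⟩
    intro x hx hcl
    have hquad : ⁅⁅L, Subgroup.zpowers x⁆, Subgroup.zpowers x⁆ = ⊥ :=
      le_bot_iff.1 (hcl ▸ Subgroup.commutator_mono
        (Subgroup.commutator_mono le_sup_left le_sup_right) le_sup_right)
    have hmem := hst L hLp x hquad
    have hM1 : ⁅L, Subgroup.zpowers x⁆ ≤ L := Subgroup.commutator_le_left L _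
    have hM2 : ∀ m ∈ ⁅L, Subgroup.zpowers x⁆, x * m = m * x := by
      intro m hm
      have := Subgroup.commutator_eq_bot_iff_le_centralizer.1 hquad hm
      exact Subgroup.mem_centralizer_iff.1 this x (Subgroup.mem_zpowers x)
    have hgen : ∀ u ∈ W, u * x = x * u := by
      intro u hu
      obtain ⟨g, a, ha, rfl⟩ := hWmem u hu
      have hsurj : Function.Surjective (QuotientGroup.mk' (Subgroup.centralizer (L : Set G))) :=
        QuotientGroup.mk'_surjective _
      have hmem' : (QuotientGroup.mk (g⁻¹ * x * g) : G ⧸ Subgroup.centralizer (L : Set G)) ∈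
          Cfsg.pCore p (G ⧸ Subgroup.centralizer (L : Set G)) := by
        have := (Lib.Helper17.pCore_normal (G := G ⧸ Subgroup.centralizer (L : Set G)) (p := p)).conj_mem _ hmem
          (QuotientGroup.mk g⁻¹)
        simpa using this
      have h1 : Cfsg.pCore p (G ⧸ Subgroup.centralizer (L : Set G)) ≤
          ((S.mapSurjective hsurj : Sylow p (G ⧸ Subgroup.centralizer (L : Set G))) : Subgroup _) :=
        Lib.Helper17.pCore_le_sylow _
      have h2 := h1 hmem'
      rw [Sylow.coe_mapSurjective] at h2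
      obtain ⟨s₀, hs₀, hsx⟩ := h2
      obtain ⟨c₀, hc₀d⟩ : ∃ c₀, c₀ = s₀⁻¹ * (g⁻¹ * x * g) := ⟨_, rfl⟩
      have hc₀ : c₀ ∈ Subgroup.centralizer (L : Set G) := by
        rw [hc₀d]
        exact QuotientGroup.eq.1 hsx
      have hc₀L : ∀ l ∈ L, l * c₀ = c₀ * l := fun l hl => Subgroup.mem_centralizer_iff.1 hc₀ l hl
      have e1 : g⁻¹ * x * g = s₀ * c₀ := by rw [hc₀d]; group
      have hact : ∀ l ∈ L, s₀ * l * s₀⁻¹ = g⁻¹ * (x * (g * l * g⁻¹) * x⁻¹) * g := by
        intro l hl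
        symm
        calc g⁻¹ * (x * (g * l * g⁻¹) * x⁻¹) * g = (g⁻¹ * x * g) * l * (g⁻¹ * x * g)⁻¹ := by group
          _ = s₀ * c₀ * l * (s₀ * c₀)⁻¹ := by rw [e1]
          _ = s₀ * (c₀ * l) * c₀⁻¹ * s₀⁻¹ := by group
          _ = s₀ * (l * c₀) * c₀⁻¹ * s₀⁻¹ := by rw [hc₀L l hl]
          _ = s₀ * l * s₀⁻¹ := by group
      have h4 : a * s₀ = s₀ * a := by
        refine quad hA hs₀ (fun c hc => (Subgroup.mem_normalizer_iff.1 (hSA hs₀) c).1 hc) ?_ a ha
        intro c hc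
        obtain ⟨m, hmd⟩ : ∃ m, m = ⁅g * c * g⁻¹, x⁆ := ⟨_, rfl⟩
        have hm : m ∈ ⁅L, Subgroup.zpowers x⁆ := by
          rw [hmd]
          exact Subgroup.commutator_mem_commutator (hLn.conj_mem c (hAL hc) g) (Subgroup.mem_zpowers x)
        have hmx := hM2 m hm
        have hmL : g⁻¹ * m * g ∈ L := by simpa using hLn.conj_mem m (hM1 hm) g⁻¹
        have e2 : ⁅c, s₀⁆ = g⁻¹ * m * g := by
          have h5 := hact c⁻¹ (L.inv_mem (hAL hc))
          have : ⁅c, s₀⁆ = c * (s₀ * c⁻¹ * s₀⁻¹) := by simp only [commutatorElement_def]; group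
          rw [this, h5, hmd]
          simp only [commutatorElement_def]; group
        rw [e2]
        have h6 := hact _ hmL
        have h7 : g⁻¹ * (x * (g * (g⁻¹ * m * g) * g⁻¹) * x⁻¹) * g = g⁻¹ * m * g := by
          calc g⁻¹ * (x * (g * (g⁻¹ * m * g) * g⁻¹) * x⁻¹) * g = g⁻¹ * ((x * m) * x⁻¹) * g := by group
            _ = g⁻¹ * ((m * x) * x⁻¹) * g := by rw [hmx]
            _ = g⁻¹ * m * g := by group
        rw [h7] at h6
        calc s₀ * (g⁻¹ * m * g) = (s₀ * (g⁻¹ * m * g) * s₀⁻¹) * s₀ := by group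
          _ = g⁻¹ * m * g * s₀ := by rw [h6]
      have h5 := hact a (hAL ha)
      have h8 : s₀ * a * s₀⁻¹ = a := by rw [← h4]; group
      rw [h8] at h5
      calc g * a * g⁻¹ * x = g * (g⁻¹ * (x * (g * a * g⁻¹) * x⁻¹) * g) * g⁻¹ * x := by rw [← h5]
        _ = x * (g * a * g⁻¹) := by group
    have hLx : L ≤ Subgroup.centralizer {x} := by
      rw [hLcl, Subgroup.closure_le]
      intro u hu
      exact Subgroup.mem_centralizer_iff.2
        (fun y hy => by rw [Set.mem_singleton_iff.1 hy]; exact (hgen u hu).symm)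
    intro l hl
    exact (Subgroup.mem_centralizer_iff.1 (hLx hl) x rfl).symm
  rw [dStarOf_eq]
  have hEq : sSup (Fam (S : Subgroup G)) = sSup {L | L ∈ Fam (S : Subgroup G) ∧ L.Normal} := by
    apply le_antisymm
    · apply sSup_le
      intro A hA
      obtain ⟨L, hL, hAL, hLn⟩ := key A hA
      exact hAL.trans (le_sSup ⟨hL, hLn⟩)
    · apply sSup_le_sSup
      intro L hL
      exact hL.1
  rw [hEq]
  exact Subgroup.sSup_normal _ (fun H hH => hH.2)

end Cfsg.Agent.S3060
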