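import Cfsg.Statements.S3061
import Mathlib

set_option autoImplicit false
open Cfsg

namespace Cfsg.Agent.S3061

open scoped Pointwise commutatorElement

theorem family_subgroupOf {S : Type*} [Group S] {A : Subgroup S} (hA : A ∈ Cfsg.dStarFamily S)
    (M : Subgroup S) (hAM : A ≤ M) : A.subgroupOf M ∈ Cfsg.dStarFamily ↥M := by
  obtain ⟨hc, hx⟩ := hA
  have hle := Subgroup.le_centralizer_iff_isMulCommutative.mpr hc
  refine ⟨?_, ?_⟩
  · apply Subgroup.le_centralizer_iff_isMulCommutative.mp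
    intro a ha
    rw [Subgroup.mem_centralizer_iff]
    intro b hb
    have := (Subgroup.mem_centralizer_iff.mp (hle (Subgroup.mem_subgroupOf.mp ha))) (b : S)
      (Subgroup.mem_subgroupOf.mp hb)
    exact Subtype.ext this
  · intro x h a ha
    have hmap : (A.subgroupOf M ⊔ Subgroup.zpowers x).map M.subtype
        = A ⊔ Subgroup.zpowers (x : S) := by
      rw [Subgroup.map_sup, Subgroup.subgroupOf_map_subtype, inf_eq_left.mpr hAM,
        MonoidHom.map_zpowers]
      rfl
    have := hx (x : S) (by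
      rw [← hmap, ← Subgroup.map_commutator, ← Subgroup.map_commutator, h, Subgroup.map_bot])
      (a : S) ha
    exact Subtype.ext this

theorem family_conj {S : Type*} [Group S] {A : Subgroup S} (hA : A ∈ Cfsg.dStarFamily S)
    (t : S) : A.map (MulAut.conj t).toMonoidHom ∈ Cfsg.dStarFamily S := by
  obtain ⟨hc, hx⟩ := hA
  have hle := Subgroup.le_centralizer_iff_isMulCommutative.mpr hc
  refine ⟨?_, ?_⟩
  · apply Subgroup.le_centralizer_iff_isMulCommutative.mp
    rintro _ ⟨a, ha, rfl⟩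
    rw [Subgroup.mem_centralizer_iff]
    rintro _ ⟨b, hb, rfl⟩
    have := (Subgroup.mem_centralizer_iff.mp (hle ha)) b hb
    simp only [MulEquiv.coe_toMonoidHom, ← map_mul, this]
  · intro x h
    have hmap : (A ⊔ Subgroup.zpowers (t⁻¹ * x * t)).map (MulAut.conj t).toMonoidHom
        = A.map (MulAut.conj t).toMonoidHom ⊔ Subgroup.zpowers x := by
      rw [Subgroup.map_sup, MonoidHom.map_zpowers]
      congr 2
      simp [MulAut.conj_apply, mul_assoc]
    have h2 : ⁅⁅A ⊔ Subgroup.zpowers (t⁻¹ * x * t), A ⊔ Subgroup.zpowers (t⁻¹ * x * t)⁆,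
        A ⊔ Subgroup.zpowers (t⁻¹ * x * t)⁆ = ⊥ := by
      have h3 : (⁅⁅A ⊔ Subgroup.zpowers (t⁻¹ * x * t), A ⊔ Subgroup.zpowers (t⁻¹ * x * t)⁆,
        A ⊔ Subgroup.zpowers (t⁻¹ * x * t)⁆).map (MulAut.conj t).toMonoidHom = ⊥ := by
        rw [Subgroup.map_commutator, Subgroup.map_commutator, hmap, h]
      exact (Subgroup.map_eq_bot_iff_of_injective _ (MulAut.conj t).injective).mp h3
    rintro _ ⟨a, ha, rfl⟩
    have := hx _ h2 a ha
    simp only [MulEquiv.coe_toMonoidHom, MulAut.conj_apply]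
    calc t * a * t⁻¹ * x = t * (a * (t⁻¹ * x * t)) * t⁻¹ := by group
      _ = t * ((t⁻¹ * x * t) * a) * t⁻¹ := by rw [this]
      _ = x * (t * a * t⁻¹) := by group

theorem comm_mem_of_sup {S : Type*} [Group S] (N K : Subgroup S) [N.Normal]
    (hK : ∀ x ∈ K, ∀ y ∈ K, x * y = y * x) (h : N ⊔ K = ⊤) (g₁ g₂ : S) : ⁅g₁, g₂⁆ ∈ N := by
  have hmem : ∀ g : S, ∃ a ∈ N, ∃ b ∈ K, g = a * b := by
    intro g
    have hg : g ∈ ((N ⊔ K : Subgroup S) : Set S) := by rw [h]; trivial
    rw [Subgroup.normal_mul] at hg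
    obtain ⟨a, ha, b, hb, rfl⟩ := Set.mem_mul.mp hg
    exact ⟨a, ha, b, hb, rfl⟩
  obtain ⟨a₁, ha₁, b₁, hb₁, rfl⟩ := hmem g₁
  obtain ⟨a₂, ha₂, b₂, hb₂, rfl⟩ := hmem g₂
  rw [← QuotientGroup.eq_one_iff (N := N), ← QuotientGroup.mk'_apply, map_commutatorElement,
    map_mul, map_mul, QuotientGroup.mk'_apply, QuotientGroup.mk'_apply, QuotientGroup.mk'_apply,
    QuotientGroup.mk'_apply, (QuotientGroup.eq_one_iff a₁).mpr ha₁,
    (QuotientGroup.eq_one_iff a₂).mpr ha₂, one_mul, one_mul, ← QuotientGroup.mk'_apply,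
    ← QuotientGroup.mk'_apply, ← map_commutatorElement,
    commutatorElement_eq_one_iff_commute.mpr (hK b₁ hb₁ b₂ hb₂), map_one]

theorem normalClosure_comm {S : Type*} [Group S] (A : Subgroup S)
    (h : ∀ t : S, ∀ x ∈ A, ∀ y ∈ A, x * (t * y * t⁻¹) = (t * y * t⁻¹) * x) :
    ∀ x ∈ Subgroup.normalClosure (A : Set S), ∀ y ∈ Subgroup.normalClosure (A : Set S),
      x * y = y * x := by
  have hpair : ∀ c ∈ Group.conjugatesOfSet (A : Set S), ∀ d ∈ Group.conjugatesOfSet (A : Set S),
      c * d = d * c := by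
    intro c hc d hd
    obtain ⟨a, ha, hac⟩ := Group.mem_conjugatesOfSet_iff.mp hc
    obtain ⟨b, hb, hbd⟩ := Group.mem_conjugatesOfSet_iff.mp hd
    obtain ⟨u, rfl⟩ := isConj_iff.mp hac
    obtain ⟨v, rfl⟩ := isConj_iff.mp hbd
    have := h (u⁻¹ * v) a ha b hb
    calc u * a * u⁻¹ * (v * b * v⁻¹) = u * (a * (u⁻¹ * v * b * (u⁻¹ * v)⁻¹)) * u⁻¹ := by group
      _ = u * ((u⁻¹ * v * b * (u⁻¹ * v)⁻¹) * a) * u⁻¹ := by rw [this]
      _ = v * b * v⁻¹ * (u * a * u⁻¹) := by group
  have h1 : Subgroup.normalClosure (A : Set S)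
      ≤ Subgroup.centralizer (Group.conjugatesOfSet (A : Set S)) := by
    unfold Subgroup.normalClosure
    rw [Subgroup.closure_le]
    intro c hc
    rw [SetLike.mem_coe, Subgroup.mem_centralizer_iff]
    intro d hd
    exact hpair d hd c hc
  have h2 : Subgroup.normalClosure (A : Set S)
      ≤ Subgroup.centralizer (Subgroup.normalClosure (A : Set S) : Set S) := by
    unfold Subgroup.normalClosure
    rw [Subgroup.closure_le]
    intro c hc
    rw [SetLike.mem_coe, Subgroup.mem_centralizer_iff]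
    intro d hd
    have := Subgroup.mem_centralizer_iff.mp (h1 hd) c hc
    exact this.symm
  intro x hx y hy
  exact (Subgroup.mem_centralizer_iff.mp (h2 hy) x hx)

theorem family_comm.{u} {p : ℕ} [Fact p.Prime] : ∀ n : ℕ, ∀ (S : Type u) [Group S] [Finite S],
    IsPGroup p S → Nat.card S = n → ∀ A ∈ Cfsg.dStarFamily S, ∀ B ∈ Cfsg.dStarFamily S,
    ∀ a ∈ A, ∀ b ∈ B, a * b = b * a := by
  intro n
  induction n using Nat.strong_induction_on with
  | _ n ih =>
  intro S _ _ hS hn A hA B hB a ha b hb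
  have hlt : ∀ M : Subgroup S, M ≠ ⊤ → Nat.card M < n := by
    intro M hM
    rw [← hn]
    exact lt_of_le_of_ne (Subgroup.card_le_card_group M) (fun h => hM (Subgroup.eq_top_of_card_eq M h))
  have hAc := Subgroup.le_centralizer_iff_isMulCommutative.mpr hA.1
  have hBc := Subgroup.le_centralizer_iff_isMulCommutative.mpr hB.1
  by_cases hAB : A ⊔ B = ⊤
  swap
  · have hAM : A ≤ A ⊔ B := le_sup_left
    have hBM : B ≤ A ⊔ B := le_sup_right
    have := ih _ (hlt _ hAB) ↥(A ⊔ B) (hS.to_subgroup _) rfl _ (family_subgroupOf hA _ hAM)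
      _ (family_subgroupOf hB _ hBM) ⟨a, hAM ha⟩ (Subgroup.mem_subgroupOf.mpr ha)
      ⟨b, hBM hb⟩ (Subgroup.mem_subgroupOf.mpr hb)
    exact congrArg Subtype.val this
  by_cases hAtop : A = ⊤
  · have : b ∈ A := by rw [hAtop]; trivial
    exact (Subgroup.mem_centralizer_iff.mp (hAc this) a ha)
  by_cases hBtop : B = ⊤
  · have : a ∈ B := by rw [hBtop]; trivial
    exact (Subgroup.mem_centralizer_iff.mp (hBc this) b hb).symm
  -- key claim
  have key : ∀ X ∈ Cfsg.dStarFamily S, X ≠ ⊤ → ∀ t : S, ∀ x ∈ X, ∀ y ∈ X,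
      x * (t * y * t⁻¹) = (t * y * t⁻¹) * x := by
    intro X hX hXtop t x hx y hy
    obtain ⟨M, hM, hXM⟩ := (eq_top_or_exists_le_coatom X).resolve_left hXtop
    have hnil : Group.IsNilpotent S := hS.isNilpotent
    have hMn : M.Normal := Subgroup.NormalizerCondition.normal_of_coatom M
      Group.normalizerCondition_of_isNilpotent hM
    have hXt : X.map (MulAut.conj t).toMonoidHom ≤ M := by
      rintro _ ⟨z, hz, rfl⟩
      exact hMn.conj_mem z (hXM hz) t
    have hy' : t * y * t⁻¹ ∈ X.map (MulAut.conj t).toMonoidHom := ⟨y, hy, rfl⟩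
    have := ih _ (hlt _ hM.1) ↥M (hS.to_subgroup _) rfl _ (family_subgroupOf hX _ hXM)
      _ (family_subgroupOf (family_conj hX t) _ hXt) ⟨x, hXM hx⟩ (Subgroup.mem_subgroupOf.mpr hx)
      ⟨t * y * t⁻¹, hXt hy'⟩ (Subgroup.mem_subgroupOf.mpr hy')
    exact congrArg Subtype.val this
  have hNA := normalClosure_comm A (key A hA hAtop)
  have hNB := normalClosure_comm B (key B hB hBtop)
  have hsup : Subgroup.normalClosure (A : Set S) ⊔ Subgroup.normalClosure (B : Set S) = ⊤ := by
    rw [eq_top_iff, ← hAB]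
    exact sup_le_sup Subgroup.le_normalClosure Subgroup.le_normalClosure
  have hsup' : Subgroup.normalClosure (B : Set S) ⊔ Subgroup.normalClosure (A : Set S) = ⊤ := by
    rw [sup_comm]; exact hsup
  have hcl : ⁅⁅(⊤ : Subgroup S), (⊤ : Subgroup S)⁆, (⊤ : Subgroup S)⁆ = ⊥ := by
    rw [Subgroup.commutator_eq_bot_iff_le_centralizer,
      Subgroup.commutator_le (H₁ := (⊤ : Subgroup S)) (H₂ := (⊤ : Subgroup S))]
    intro g₁ _ g₂ _
    have h1 := comm_mem_of_sup _ _ hNB hsup g₁ g₂
    have h2 := comm_mem_of_sup _ _ hNA hsup' g₁ g₂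
    rw [Subgroup.mem_centralizer_iff]
    intro g _
    have hg : g ∈ ((Subgroup.normalClosure (A : Set S) ⊔ Subgroup.normalClosure (B : Set S)
        : Subgroup S) : Set S) := by rw [hsup]; trivial
    rw [Subgroup.normal_mul] at hg
    obtain ⟨u, hu, v, hv, rfl⟩ := Set.mem_mul.mp hg
    have e1 := hNA u hu _ h1
    have e2 := hNB v hv _ h2
    rw [mul_assoc, e2, ← mul_assoc, e1, mul_assoc]
  have hb' := hA.2 b (by
    rw [eq_bot_iff, ← hcl]
    exact Subgroup.commutator_mono (Subgroup.commutator_mono le_top le_top) le_top) a ha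
  exact hb'

/-- Let S be a finite p-group. Then D*(S) itself belongs to the family that generates it: D*(S) is abelian, and every x ∈ S with ⟨D*(S), x⟩ of class at most two centralizes D*(S). Hence D*(S) is the unique maximal member of that family. -/
theorem result {S : Type*} [Group S] [Finite S] {p : ℕ} [Fact p.Prime] (hS : IsPGroup p S) :
    Cfsg.dStar S ∈ Cfsg.dStarFamily S := by
  have hcomm := family_comm (p := p) (Nat.card S) S hS rfl
  refine ⟨?_, ?_⟩
  · apply Subgroup.le_centralizer_iff_isMulCommutative.mp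
    unfold Cfsg.dStar
    rw [sSup_le_iff]
    intro A hA
    rw [Subgroup.le_centralizer_iff, sSup_le_iff]
    intro B hB b hb
    rw [Subgroup.mem_centralizer_iff]
    intro a ha
    exact hcomm A hA B hB a ha b hb
  · intro x h
    have hle : Cfsg.dStar S ≤ Subgroup.centralizer {x} := by
      unfold Cfsg.dStar
      rw [sSup_le_iff]
      intro A hA a ha
      rw [Subgroup.mem_centralizer_iff]
      intro y hy
      rw [Set.mem_singleton_iff] at hy
      subst hy
      have hmono : A ⊔ Subgroup.zpowers y ≤ Cfsg.dStar S ⊔ Subgroup.zpowers y :=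
        sup_le_sup_right (le_sSup hA) _
      exact (hA.2 y (by
        rw [eq_bot_iff, ← h]
        exact Subgroup.commutator_mono (Subgroup.commutator_mono hmono hmono) hmono) a ha).symm
    intro a ha
    exact ((Subgroup.mem_centralizer_iff.mp (hle ha)) x rfl).symm

end Cfsg.Agent.S3061
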