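import Cfsg.Statements.S3062
import Cfsg.Agent.S3061
import Cfsg.Agent.Lib.Helper19.ThompsonRepl

set_option autoImplicit false
open Cfsg

namespace Cfsg.Agent.S3062

open Cfsg.Agent.Lib.Helper19

/-- Let S be a finite p-group, J(S) the subgroup generated by the abelian subgroups of S of largest order and Z(J(S)) its centre. Then Z(S) ≤ D*(S) ≤ Z(J(S)), and every maximal normal abelian subgroup of S contains D*(S). -/
theorem result {S : Type*} [Group S] [Finite S] {p : ℕ} [Fact p.Prime]
    (hS : IsPGroup p S) :
    Subgroup.center S ≤ Cfsg.dStar S ∧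
    Cfsg.dStar S ≤ Cfsg.thompsonSubgroupA S ⊓ Subgroup.centralizer (Cfsg.thompsonSubgroupA S : Set S) ∧
    ∀ A : Subgroup S, A.Normal → IsMulCommutative A →
      (∀ B : Subgroup S, B.Normal → IsMulCommutative B → A ≤ B → B = A) → Cfsg.dStar S ≤ A := by
  classical
  have hDfam := Cfsg.Agent.S3061.result hS
  obtain ⟨D, hD⟩ : ∃ D : Subgroup S, D = Cfsg.dStar S := ⟨_, rfl⟩
  rw [← hD] at hDfam ⊢
  obtain ⟨hDc, hDq⟩ := hDfam
  have hDcc := le_centralizer_of_isMulCommutative hDc
  -- D is normal
  have hDn : D.Normal := by
    constructor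
    intro d hd t
    have h1 : D.map (MulAut.conj t).toMonoidHom ∈ Cfsg.dStarFamily S :=
      Cfsg.Agent.S3061.family_conj (by rw [hD]; exact Cfsg.Agent.S3061.result hS) t
    have h2 : D.map (MulAut.conj t).toMonoidHom ≤ D := by
      rw [hD]; exact le_sSup (by rw [← hD]; exact h1)
    exact h2 ⟨d, hd, rfl⟩
  -- an abelian subgroup which normalizes `D` and is normalized by `D` centralizes `D`
  have hcent : ∀ A : Subgroup S, IsMulCommutative A → D ≤ Subgroup.normalizer (A : Set S) →
      A ≤ Subgroup.centralizer (D : Set S) := by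
    intro A hA hDA a ha
    have hcl := class_two_sup_of_abelian hDc hA (Subgroup.le_normalizer_of_normal.trans' le_top) hDA
    have hmono : D ⊔ Subgroup.zpowers a ≤ D ⊔ A :=
      sup_le_sup_left (Subgroup.zpowers_le.mpr ha) _
    have h3 := hDq a (by
      rw [eq_bot_iff, ← hcl]
      exact Subgroup.commutator_mono (Subgroup.commutator_mono hmono hmono) hmono)
    rw [Subgroup.mem_centralizer_iff]
    intro d hd
    exact h3 d hd
  refine ⟨?_, ?_, ?_⟩
  · -- the centre
    rw [hD]
    apply le_sSup
    refine ⟨inferInstance, fun x _ a ha => ?_⟩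
    exact (Subgroup.mem_center_iff.mp ha x).symm
  · -- Z(J)
    have key : ∀ n : ℕ, ∀ A ∈ Cfsg.maxAbelianSubgroups S,
        Nat.card D - Nat.card (A ⊓ D : Subgroup S) = n → D ≤ A := by
      intro n
      induction n using Nat.strong_induction_on with
      | _ n ih =>
      intro A hA hn
      have hnorm : D ≤ Subgroup.normalizer (A : Set S) := by
        by_contra hBA
        obtain ⟨A', hA'c, hcard, hlt, hA'N, -⟩ := thompson_replacement hS A D hA.1 hDc
          (Subgroup.le_normalizer_of_normal.trans' le_top) hBA
        have hA'max : A' ∈ Cfsg.maxAbelianSubgroups S :=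
          ⟨hA'c, fun B hB => (hA.2 B hB).trans hcard⟩
        have hc1 : Nat.card (A ⊓ D : Subgroup S) < Nat.card (A' ⊓ D : Subgroup S) := by
          by_contra hnot
          push Not at hnot
          exact absurd (Subgroup.eq_of_le_of_card_ge hlt.le hnot) hlt.ne
        have hc2 : Nat.card (A' ⊓ D : Subgroup S) ≤ Nat.card D :=
          Subgroup.card_le_of_le inf_le_right
        have hDA' : D ≤ A' := ih (Nat.card D - Nat.card (A' ⊓ D : Subgroup S)) (by omega) A' hA'max rfl
        exact hBA (hDA'.trans hA'N)
      have h1 := hcent A hA.1 hnorm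
      have h2 : D ≤ Subgroup.centralizer (A : Set S) := Subgroup.le_centralizer_iff.mp h1
      rwa [maxAbelian_centralizer_eq hA] at h2
    have hall : ∀ A ∈ Cfsg.maxAbelianSubgroups S, D ≤ A := fun A hA => key _ A hA rfl
    refine le_inf ?_ ?_
    · obtain ⟨A, hA⟩ := exists_maxAbelian (G := S)
      exact (hall A hA).trans (le_sSup hA)
    · rw [Subgroup.le_centralizer_iff]
      unfold Cfsg.thompsonSubgroupA
      rw [sSup_le_iff]
      intro A hA
      exact (le_centralizer_of_isMulCommutative hA.1).trans
        (Subgroup.centralizer_le (by exact_mod_cast hall A hA))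
  · -- maximal normal abelian subgroups
    intro A hAn hAc hmax
    have hAcc := le_centralizer_of_isMulCommutative hAc
    have h1 := hcent A hAc (Subgroup.le_normalizer_of_normal.trans' le_top)
    have hsupc : IsMulCommutative (A ⊔ D : Subgroup S) := by
      apply isMulCommutative_of_le_centralizer
      rw [centralizer_sup_eq]
      exact sup_le (le_inf hAcc h1) (le_inf (Subgroup.le_centralizer_iff.mp h1) hDcc)
    have hsupn : (A ⊔ D).Normal := inferInstance
    have := hmax (A ⊔ D) hsupn hsupc le_sup_left
    rw [← this]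
    exact le_sup_right

end Cfsg.Agent.S3062
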