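import Cfsg.Statements.S3063
import Cfsg.Agent.Lib.Helper19.ReplElement

set_option autoImplicit false
open Cfsg

namespace Cfsg.Agent.S3063

open Cfsg.Agent.Lib.Helper19

/-- A weak replacement Theorem for metabelian p-groups: let S be a finite p-group whose derived subgroup is abelian and A an abelian subgroup of S of largest possible order. Then the normal closure of A in S contains an abelian subgroup B of the same order as A that is normal in S. -/
theorem result {S : Type*} [Group S] [Finite S] {p : ℕ} [Fact p.Prime]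
    (hS : IsPGroup p S) (hmeta : IsMulCommutative ↥(commutator S))
    (A : Subgroup S) (hA : A ∈ Cfsg.maxAbelianSubgroups S) :
    ∃ B ∈ Cfsg.maxAbelianSubgroups S, B.Normal ∧ B ≤ Subgroup.normalClosure (A : Set S) := by
  classical
  obtain ⟨D, hD⟩ : ∃ D : Subgroup S, D = commutator S := ⟨_, rfl⟩
  have hDc : IsMulCommutative D := by rw [hD]; exact hmeta
  have hDn : D.Normal := by rw [hD]; infer_instance
  have hcomm : ∀ a x : S, a * x * a⁻¹ * x⁻¹ ∈ D := by
    intro a x
    rw [hD, commutator_def, ← commutatorElement_def]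
    exact Subgroup.commutator_mem_commutator (Subgroup.mem_top a) (Subgroup.mem_top x)
  obtain ⟨fam, hfam⟩ : ∃ fam : Set (Subgroup S), fam = {A' | A' ∈ Cfsg.maxAbelianSubgroups S ∧
      A' ≤ Subgroup.normalClosure (A : Set S)} := ⟨_, rfl⟩
  have hne : fam.Nonempty := ⟨A, by rw [hfam]; exact ⟨hA, Subgroup.le_normalClosure⟩⟩
  obtain ⟨B, hB⟩ := Set.Finite.exists_maximalFor
    (fun K : Subgroup S => Nat.card (K ⊓ D : Subgroup S)) fam (Set.toFinite _) hne
  have hBmem : B ∈ Cfsg.maxAbelianSubgroups S ∧ B ≤ Subgroup.normalClosure (A : Set S) := by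
    have := hB.1
    rw [hfam] at this
    exact this
  have hnobig : ∀ A' : Subgroup S, IsMulCommutative A' → Nat.card B ≤ Nat.card A' →
      B ⊓ D < A' ⊓ D → A' ≤ Subgroup.normalClosure (B : Set S) → False := by
    intro A' hA'c hcard hlt hA'cl
    have hA'fam : A' ∈ fam := by
      rw [hfam]
      exact ⟨⟨hA'c, fun C hC => (hBmem.1.2 C hC).trans hcard⟩,
        hA'cl.trans (Subgroup.normalClosure_le_normal hBmem.2)⟩
    have h1 : Nat.card (B ⊓ D : Subgroup S) < Nat.card (A' ⊓ D : Subgroup S) := by
      by_contra hnot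
      push Not at hnot
      exact absurd (Subgroup.eq_of_le_of_card_ge hlt.le hnot) hlt.ne
    have h2 := hB.2 hA'fam h1.le
    exact absurd h2 (not_le.mpr h1)
  have hDN : D ≤ Subgroup.normalizer (B : Set S) := by
    by_contra hcon
    obtain ⟨A', h1, h2, h3, -, h5⟩ := thompson_replacement hS B D hBmem.1.1 hDc
      (Subgroup.le_normalizer_of_normal.trans' le_top) hcon
    exact hnobig A' h1 h2 h3 h5
  have hBn : B.Normal := by
    rw [← Subgroup.normalizer_eq_top_iff, eq_top_iff]
    intro x _
    by_contra hx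
    obtain ⟨A', h1, h2, h3, -, h5⟩ := abelian_replacement_of_element B D hBmem.1.1 hDc x hx
      (fun a ha => by
        have e : x * a * x⁻¹ = (x * a * x⁻¹ * a⁻¹) * a := by group
        rw [e]
        exact mul_mem (hDN (hcomm x a)) (Subgroup.le_normalizer ha))
      (fun a _ => hcomm a x)
    exact hnobig A' h1 h2 h3 h5
  exact ⟨B, hBmem.1, hBn, hBmem.2⟩

end Cfsg.Agent.S3063
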