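import Cfsg.Statements.S3069
import Cfsg.Agent.S1971
import Cfsg.Agent.S1984
import Cfsg.Agent.Lib.Helper14.KInfIso

set_option autoImplicit false
open Cfsg

namespace Cfsg.Agent.S3069

/-- Let p ≥ 7 be a prime and S a nontrivial Sylow p-subgroup of the finite group G. If N_G(S)/C_G(S) is a p-group (every element of N_G(S) of order prime to p centralizes S), then O^p(G) < G, i.e. G has a nontrivial p-factor group. -/
theorem result {G : Type*} [Group G] [Finite G] {p : ℕ} [Fact p.Prime]
    (hp : 7 ≤ p) (S : Sylow p G) (hS : (S : Subgroup G) ≠ ⊥)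
    (hN : ∀ g ∈ Subgroup.normalizer ((S : Subgroup G) : Set G), (orderOf g).Coprime p →
      g ∈ Subgroup.centralizer ((S : Subgroup G) : Set G)) :
    Cfsg.pResidual p G ≠ ⊤ := by
  have hp5 : 5 ≤ p := by omega
  obtain ⟨N, hNn, hNidx⟩ := Cfsg.Agent.S1971.result (G := G) (p := p) Cfsg.kInfLower
    (Cfsg.Agent.Lib.Helper14.isCharPFunctor_kInfLower p)
    (by
      intro K R hR
      exact Cfsg.Agent.S1984.result (G := ↥K ⧸ R.subgroupOf K) hp5) S hS hN
  intro htop
  have hle : Cfsg.pResidual p G ≤ N := by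
    unfold Cfsg.pResidual
    rw [Subgroup.closure_le]
    intro g hg
    have hg' : Nat.Coprime (orderOf g) p := hg
    have hcard : Nat.card (G ⧸ N) = p := hNidx
    have h1 : (QuotientGroup.mk g : G ⧸ N) ^ p = 1 := by
      rw [← hcard]
      exact pow_card_eq_one'
    have h2 : (QuotientGroup.mk g : G ⧸ N) ^ orderOf g = 1 := by
      rw [← QuotientGroup.mk_pow, pow_orderOf_eq_one]
      rfl
    have h3 := pow_gcd_eq_one.mpr ⟨h2, h1⟩
    rw [hg'.gcd_eq_one, pow_one] at h3
    exact (QuotientGroup.eq_one_iff g).mp h3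
  rw [htop] at hle
  have hNtop : N = ⊤ := top_le_iff.mp hle
  rw [hNtop, Subgroup.index_top] at hNidx
  exact (Fact.out : p.Prime).one_lt.ne hNidx

end Cfsg.Agent.S3069
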