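import Cfsg.Statements.S3072
import Mathlib
import Cfsg.Agent.Lib.Helper1.AGGood

set_option autoImplicit false
open Cfsg

namespace Cfsg.Agent.S3072

open Cfsg.Agent.Lib Cfsg.Agent.Lib.Helper14 Cfsg.Agent.Lib.Helper1.AG
open Cfsg.Agent.Lib.Helper1.SCC Cfsg.Agent.Lib.Helper1.AGS Cfsg.Agent.S3056
open scoped Pointwise

universe u

variable {G : Type u} [Group G]

theorem card_map_mk {U K N : Subgroup G} [hn : (U.subgroupOf N).Normal] (hUK : U ≤ K)
    (hKN : K ≤ N) :
    Nat.card ((K.subgroupOf N).map (QuotientGroup.mk' (U.subgroupOf N))) = U.relIndex K := by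
  have hle : U.subgroupOf N ≤ K.subgroupOf N := fun x hx =>
    Subgroup.mem_subgroupOf.mpr (hUK (Subgroup.mem_subgroupOf.mp hx))
  have h1 := Subgroup.relIndex_map_map (QuotientGroup.mk' (U.subgroupOf N)) (U.subgroupOf N)
    (K.subgroupOf N)
  rw [QuotientGroup.ker_mk', sup_idem, sup_eq_left.mpr hle] at h1
  have h2 : (U.subgroupOf N).map (QuotientGroup.mk' (U.subgroupOf N)) = ⊥ := by
    rw [Subgroup.map_eq_bot_iff, QuotientGroup.ker_mk']
  rw [h2, Subgroup.relIndex_bot_left, Subgroup.relIndex_subgroupOf hKN] at h1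
  exact h1

/-- The least candidate exists when the quotient is not chain-connected. -/
theorem exists_least_cand [Finite G] {p : ℕ} [Fact p.Prime] {U : Subgroup G}
    (hN : Cand p U (Subgroup.normalizer (U : Set G)))
    (hcc : ¬ IsSylowChainConnected p
      (↥(Subgroup.normalizer (U : Set G)) ⧸ U.subgroupOf (Subgroup.normalizer (U : Set G)))) :
    ∃ X : Subgroup G, Cand p U X ∧ ∀ Y : Subgroup G, Cand p U Y → X ≤ Y := by
  haveI : Nonempty {Y : Subgroup G // Cand p U Y} := ⟨⟨_, hN⟩⟩
  obtain ⟨⟨X, hX⟩, hmin⟩ := Finite.exists_min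
    (fun Y : {Y : Subgroup G // Cand p U Y} => Nat.card (Y : Subgroup G))
  refine ⟨X, hX, fun Y hY => ?_⟩
  have hXYn : Subgroup.normalizer (U : Set G) ≤
      Subgroup.normalizer ((X ⊓ Y : Subgroup G) : Set G) := by
    intro n hn
    rw [Subgroup.mem_normalizer_iff]
    intro z
    have hx := Subgroup.mem_normalizer_iff.mp (hX.2.2.1 hn) z
    have hy := Subgroup.mem_normalizer_iff.mp (hY.2.2.1 hn) z
    rw [Subgroup.mem_inf, Subgroup.mem_inf, hx, hy]
  by_cases hdvd : p ∣ U.relIndex (X ⊓ Y)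
  · have hc : Cand p U (X ⊓ Y) := ⟨le_inf hX.1 hY.1, inf_le_left.trans hX.2.1, hXYn, hdvd⟩
    have h1 : Nat.card X ≤ Nat.card ↥(X ⊓ Y) := hmin ⟨X ⊓ Y, hc⟩
    have h2 := Subgroup.eq_of_le_of_card_ge (inf_le_left : X ⊓ Y ≤ X) h1
    rw [← h2]; exact inf_le_right
  · exfalso
    apply hcc
    have hn1 : ((X.subgroupOf (Subgroup.normalizer (U : Set G))).map
        (QuotientGroup.mk' (U.subgroupOf (Subgroup.normalizer (U : Set G))))).Normal :=
      (Subgroup.normal_subgroupOf_of_le_normalizer hX.2.2.1).map _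
        (QuotientGroup.mk'_surjective _)
    have hn2 : ((Y.subgroupOf (Subgroup.normalizer (U : Set G))).map
        (QuotientGroup.mk' (U.subgroupOf (Subgroup.normalizer (U : Set G))))).Normal :=
      (Subgroup.normal_subgroupOf_of_le_normalizer hY.2.2.1).map _
        (QuotientGroup.mk'_surjective _)
    have heq : (X.subgroupOf (Subgroup.normalizer (U : Set G))).map
        (QuotientGroup.mk' (U.subgroupOf (Subgroup.normalizer (U : Set G)))) ⊓
        (Y.subgroupOf (Subgroup.normalizer (U : Set G))).map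
        (QuotientGroup.mk' (U.subgroupOf (Subgroup.normalizer (U : Set G)))) =
        ((X ⊓ Y).subgroupOf (Subgroup.normalizer (U : Set G))).map
        (QuotientGroup.mk' (U.subgroupOf (Subgroup.normalizer (U : Set G)))) := by
      ext z
      constructor
      · rintro ⟨⟨x, hx, rfl⟩, ⟨y, hy, hxy⟩⟩
        have hxy' : (y : ↥(Subgroup.normalizer (U : Set G)) ⧸
            U.subgroupOf (Subgroup.normalizer (U : Set G))) = x := hxy
        have h1 := QuotientGroup.eq.mp hxy'
        have h2 : (x : G) ∈ Y := by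
          have e : (x : G) = (y : G) * ((y : G)⁻¹ * (x : G)) := by group
          rw [e]
          exact mul_mem (Subgroup.mem_subgroupOf.mp hy)
            (hY.1 (Subgroup.mem_subgroupOf.mp h1))
        exact ⟨x, Subgroup.mem_subgroupOf.mpr
          (Subgroup.mem_inf.mpr ⟨Subgroup.mem_subgroupOf.mp hx, h2⟩), rfl⟩
      · rintro ⟨x, hx, rfl⟩
        have hx' := Subgroup.mem_inf.mp (Subgroup.mem_subgroupOf.mp hx)
        exact ⟨⟨x, Subgroup.mem_subgroupOf.mpr hx'.1, rfl⟩,
          ⟨x, Subgroup.mem_subgroupOf.mpr hx'.2, rfl⟩⟩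
    apply scc_of_two_normal _ _ (hY₁ := hn1) (hY₂ := hn2)
    · rw [card_map_mk hX.1 hX.2.1]; exact hX.2.2.2
    · rw [card_map_mk hY.1 hY.2.1]; exact hY.2.2.2
    · rw [heq, card_map_mk (le_inf hX.1 hY.1) (inf_le_left.trans hX.2.1)]; exact hdvd

/-- The chain-connected case: every element of `N` is reached through bigger subgroups. -/
theorem schain_of_connected [Finite G] {p : ℕ} [Fact p.Prime] (S : Sylow p G)
    {U N : Subgroup G} [hn : (U.subgroupOf N).Normal] (hUS : U ≤ (S : Subgroup G))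
    (hUN : U ≤ N) (hNU : N ≤ Subgroup.normalizer (U : Set G))
    (hfn : ¬ p ∣ ((S : Subgroup G) ⊓ N).relIndex N)
    (hlt : Nat.card U < Nat.card ↥((S : Subgroup G) ⊓ N))
    (hbig' : ∀ T : Subgroup G, U ≤ T → T ≤ (S : Subgroup G) → Nat.card U < Nat.card T →
      ∀ n : G, T.map (MulAut.conj n⁻¹).toMonoidHom ≤ (S : Subgroup G) →
        SChain p (S : Subgroup G) (U : Set G) n)
    (hcc : IsSylowChainConnected p (↥N ⧸ U.subgroupOf N)) :
    ∀ y ∈ N, SChain p (S : Subgroup G) (U : Set G) y := by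
  classical
  intro y hy
  have hSp : IsPGroup p (S : Subgroup G) := S.isPGroup'
  have hRp' : IsPGroup p (((S : Subgroup G) ⊓ N).subgroupOf N) :=
    (hSp.to_le inf_le_left).comap_subtype
  have hfn' : ¬ p ∣ (((S : Subgroup G) ⊓ N).subgroupOf N).index := hfn
  obtain ⟨R', hR'⟩ : ∃ R' : Sylow p ↥N, R' = hRp'.toSylow hfn' := ⟨_, rfl⟩
  obtain ⟨π, hπdef⟩ : ∃ π : ↥N →* ↥N ⧸ U.subgroupOf N, π = QuotientGroup.mk' (U.subgroupOf N) :=
    ⟨_, rfl⟩
  have hπ : Function.Surjective π := by rw [hπdef]; exact QuotientGroup.mk'_surjective _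
  have hπ1 : ∀ x : ↥N, π x = 1 ↔ (x : G) ∈ U := by
    intro x
    rw [hπdef]
    exact (QuotientGroup.eq_one_iff x).trans Subgroup.mem_subgroupOf
  obtain ⟨Rb, hRb⟩ : ∃ Rb : Sylow p (↥N ⧸ U.subgroupOf N), Rb = R'.mapSurjective hπ :=
    ⟨_, rfl⟩
  have hmemR' : ∀ x : ↥N, x ∈ R' ↔ (x : G) ∈ (S : Subgroup G) := by
    intro x
    rw [hR', IsPGroup.mem_toSylow, Subgroup.mem_subgroupOf, Subgroup.mem_inf]
    exact ⟨fun h => h.1, fun h => ⟨h, x.2⟩⟩
  have hmemRb : ∀ x : ↥N, π x ∈ (Rb : Subgroup (↥N ⧸ U.subgroupOf N)) ↔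
      (x : G) ∈ (S : Subgroup G) := by
    intro x
    constructor
    · intro h
      rw [hRb] at h
      obtain ⟨r, hr, hrx⟩ := h
      have h1 : π (r⁻¹ * x) = 1 := by rw [map_mul, map_inv, hrx, inv_mul_cancel]
      have h2 := (hπ1 _).mp h1
      have e : (x : G) = (r : G) * ((r⁻¹ * x : ↥N) : G) := by
        simp
      rw [e]
      exact mul_mem ((hmemR' r).mp hr) (hUS h2)
    · intro h
      rw [hRb]
      exact ⟨x, (hmemR' x).mpr h, rfl⟩
  have hRb_ne : (Rb : Subgroup (↥N ⧸ U.subgroupOf N)) ≠ ⊥ := by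
    have hnle : ¬ ((S : Subgroup G) ⊓ N ≤ U) := fun hle =>
      absurd (Subgroup.card_le_of_le hle) (not_le.mpr hlt)
    obtain ⟨x, hx, hxU⟩ := SetLike.not_le_iff_exists.mp hnle
    intro hbot
    have h1 : π ⟨x, (Subgroup.mem_inf.mp hx).2⟩ ∈ (Rb : Subgroup (↥N ⧸ U.subgroupOf N)) :=
      (hmemRb _).mpr (Subgroup.mem_inf.mp hx).1
    rw [hbot, Subgroup.mem_bot] at h1
    exact hxU ((hπ1 _).mp h1)
  have hmul : ∀ v w : G, v ∈ N → SChain p (S : Subgroup G) (U : Set G) v →
      SChain p (S : Subgroup G) (U : Set G) w → SChain p (S : Subgroup G) (U : Set G) (v * w) := by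
    intro v w hv h1 h2
    apply h1.trans
    rw [conjR_coe, map_conj_eq_self_of_mem_normalizer (inv_mem (hNU hv))]
    exact h2
  have hstar : ∀ w : ↥N, (Rb : Subgroup (↥N ⧸ U.subgroupOf N)) ⊓
      (((π w) • Rb : Sylow p (↥N ⧸ U.subgroupOf N)) : Subgroup (↥N ⧸ U.subgroupOf N)) ≠ ⊥ →
      SChain p (S : Subgroup G) (U : Set G) (w : G) := by
    intro w hne
    obtain ⟨T, hT⟩ : ∃ T : Subgroup G, T = (((Rb : Subgroup (↥N ⧸ U.subgroupOf N)) ⊓
      (((π w) • Rb : Sylow p (↥N ⧸ U.subgroupOf N)) :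
        Subgroup (↥N ⧸ U.subgroupOf N))).comap π).map N.subtype := ⟨_, rfl⟩
    have hmemT : ∀ x : G, x ∈ T ↔ ∃ hx : x ∈ N, π ⟨x, hx⟩ ∈
        (Rb : Subgroup (↥N ⧸ U.subgroupOf N)) ⊓
        (((π w) • Rb : Sylow p (↥N ⧸ U.subgroupOf N)) : Subgroup (↥N ⧸ U.subgroupOf N)) := by
      intro x
      rw [hT]
      constructor
      · rintro ⟨x', hx', rfl⟩
        exact ⟨x'.2, hx'⟩
      · rintro ⟨hx, h⟩
        exact ⟨⟨x, hx⟩, h, rfl⟩
    have hUT : U ≤ T := by
      intro u hu
      rw [hmemT]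
      refine ⟨hUN hu, ?_⟩
      have : π ⟨u, hUN hu⟩ = 1 := (hπ1 _).mpr hu
      rw [this]; exact one_mem _
    have hTS : T ≤ (S : Subgroup G) := by
      intro x hx
      obtain ⟨hxN, h⟩ := (hmemT x).mp hx
      exact (hmemRb ⟨x, hxN⟩).mp (Subgroup.mem_inf.mp h).1
    have hlt' : Nat.card U < Nat.card T := by
      by_contra hcon
      push Not at hcon
      have heq := Subgroup.eq_of_le_of_card_ge hUT hcon
      apply hne
      rw [eq_bot_iff]
      intro z hz
      obtain ⟨x, rfl⟩ := hπ z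
      have hxT : (x : G) ∈ T := (hmemT _).mpr ⟨x.2, hz⟩
      rw [← heq] at hxT
      rw [Subgroup.mem_bot]
      exact (hπ1 x).mpr hxT
    have hconj : T.map (MulAut.conj (w : G)⁻¹).toMonoidHom ≤ (S : Subgroup G) := by
      rintro _ ⟨x, hx, rfl⟩
      obtain ⟨hxN, h⟩ := (hmemT x).mp hx
      have h2 := (Subgroup.mem_inf.mp h).2
      rw [Helper19.mem_smul_sylow_iff] at h2
      have h3 : π (w⁻¹ * ⟨x, hxN⟩ * w) ∈ (Rb : Subgroup (↥N ⧸ U.subgroupOf N)) := by
        rw [map_mul, map_mul, map_inv]; exact h2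
      have h4 := (hmemRb _).mp h3
      simpa using h4
    exact hbig' T hUT hTS hlt' (w : G) hconj
  have claim : ∀ Q : Sylow p (↥N ⧸ U.subgroupOf N), conn Rb Q →
      ∀ v : ↥N, (π v) • Rb = Q → SChain p (S : Subgroup G) (U : Set G) (v : G) := by
    intro Q hQ
    induction hQ with
    | refl =>
      intro v hv
      apply hstar v
      rw [hv, inf_idem]
      exact hRb_ne
    | @tail b c _ hbc ih =>
      intro w hw
      obtain ⟨gb, hgb⟩ := MulAction.exists_smul_eq (↥N ⧸ U.subgroupOf N) Rb b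
      obtain ⟨v, rfl⟩ := hπ gb
      have h1 := ih v hgb
      have h2 := adj_smul (π v)⁻¹ hbc
      rw [← hgb, ← hw, inv_smul_smul, ← mul_smul, ← map_inv, ← map_mul] at h2
      have h3 := hstar (v⁻¹ * w) h2.2
      have h4 := hmul (v : G) ((v⁻¹ * w : ↥N) : G) v.2 h1 h3
      have e : (v : G) * ((v⁻¹ * w : ↥N) : G) = (w : G) := by simp
      rwa [e] at h4
  exact claim ((π ⟨y, hy⟩) • Rb) (conn_of_scc hcc _ _) ⟨y, hy⟩ rfl

/-- The case of a quotient that is not chain-connected: one admissible step and a bigger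
subgroup. -/
theorem schain_of_not_connected [Finite G] {p : ℕ} [hp : Fact p.Prime] (S : Sylow p G)
    {U : Subgroup G} (hUS : U ≤ (S : Subgroup G))
    (hfn : ¬ p ∣ ((S : Subgroup G) ⊓ Subgroup.normalizer (U : Set G)).relIndex
      (Subgroup.normalizer (U : Set G)))
    (hcen : (S : Subgroup G) ⊓ Subgroup.centralizer (U : Set G) ≤ U)
    (hrad : (S : Subgroup G) ⊓ (pPrimePCore p ↥(Subgroup.normalizer (U : Set G))).map
      (Subgroup.normalizer (U : Set G)).subtype ≤ U)
    (hlt : Nat.card U < Nat.card ↥((S : Subgroup G) ⊓ Subgroup.normalizer (U : Set G)))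
    (hbig' : ∀ T : Subgroup G, U ≤ T → T ≤ (S : Subgroup G) → Nat.card U < Nat.card T →
      ∀ n : G, T.map (MulAut.conj n⁻¹).toMonoidHom ≤ (S : Subgroup G) →
        SChain p (S : Subgroup G) (U : Set G) n)
    (hcc : ¬ IsSylowChainConnected p
      (↥(Subgroup.normalizer (U : Set G)) ⧸ U.subgroupOf (Subgroup.normalizer (U : Set G)))) :
    ∀ y ∈ Subgroup.normalizer (U : Set G), SChain p (S : Subgroup G) (U : Set G) y := by
  intro y hy
  have hSp : IsPGroup p (S : Subgroup G) := S.isPGroup'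
  have hRp : IsPGroup p ↥((S : Subgroup G) ⊓ Subgroup.normalizer (U : Set G)) :=
    hSp.to_le inf_le_left
  have hUR : U ≤ (S : Subgroup G) ⊓ Subgroup.normalizer (U : Set G) :=
    le_inf hUS Subgroup.le_normalizer
  have hpdvd : p ∣ U.relIndex ((S : Subgroup G) ⊓ Subgroup.normalizer (U : Set G)) := by
    obtain ⟨a, ha⟩ := IsPGroup.iff_card.mp hRp
    have h1 : U.relIndex ((S : Subgroup G) ⊓ Subgroup.normalizer (U : Set G)) ∣ p ^ a :=
      ha ▸ Subgroup.relIndex_dvd_card U _
    obtain ⟨j, -, hj⟩ := (Nat.dvd_prime_pow hp.out).mp h1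
    rcases Nat.eq_zero_or_pos j with h0 | hpos
    · exfalso
      rw [h0, pow_zero] at hj
      have := Subgroup.relIndex_eq_one.mp hj
      exact absurd (Subgroup.card_le_of_le this) (not_le.mpr hlt)
    · rw [hj]; exact dvd_pow_self p hpos.ne'
  have hNc : Cand p U (Subgroup.normalizer (U : Set G)) := by
    refine ⟨Subgroup.le_normalizer, le_rfl, Subgroup.le_normalizer, ?_⟩
    rw [← Subgroup.relIndex_mul_relIndex U ((S : Subgroup G) ⊓ Subgroup.normalizer (U : Set G))
      (Subgroup.normalizer (U : Set G)) hUR inf_le_right]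
    exact dvd_mul_of_dvd_left hpdvd _
  obtain ⟨X, hX, hleast⟩ := exists_least_cand hNc hcc
  obtain ⟨-, hC, ⟨hOL, hUL, hcomm, -, hsup⟩, -⟩ := mem_agFam_of_centric S hUS hfn hcen hrad
  have h4 : (pPrimePCore p ↥(Subgroup.normalizer (U : Set G))).map
      (Subgroup.normalizer (U : Set G)).subtype = U ⊔ Subgroup.centralizer (U : Set G) := by
    apply le_antisymm
    · rw [← hsup]
      refine sup_le ?_ le_sup_left
      intro a ha
      apply Subgroup.mem_sup_right
      rw [Subgroup.mem_centralizer_iff]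
      intro b hb
      exact (hcomm a ha b hb).symm
    · exact sup_le hUL hC
  have hgood : Good p (S : Subgroup G) U X := ⟨hUS, hfn, hcen, h4, hcc, hX, hleast⟩
  obtain ⟨hUX, hXN, hNX, hpX⟩ := hX
  obtain ⟨k, hk, hky⟩ := exists_mul_mem_normalizer_inf_rel hRp hfn hXN hNX hy
  have hT : (S : Subgroup G) ⊓ Subgroup.normalizer (U : Set G) ⊓ X = (S : Subgroup G) ⊓ X := by
    rw [inf_assoc, inf_eq_right.mpr hXN]
  rw [hT] at hky
  have hidx : ¬ p ∣ ((S : Subgroup G) ⊓ X).relIndex X := by
    have := inf_relIndex_normal hRp hfn hXN hNX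
    rwa [hT] at this
  obtain ⟨o, ho, t, ht, hkot⟩ := exists_pResidual_mul p hidx (inv_mem hk)
  have hn : t * (k * y) ∈ Subgroup.normalizer (((S : Subgroup G) ⊓ X : Subgroup G) : Set G) :=
    mul_mem (Subgroup.le_normalizer ht) hky
  have hUT : U ≤ (S : Subgroup G) ⊓ X := le_inf hUS hUX
  have hltT : Nat.card U < Nat.card ↥((S : Subgroup G) ⊓ X) := by
    by_contra hcon
    push Not at hcon
    have heq := Subgroup.eq_of_le_of_card_ge hUT hcon
    apply hidx
    rw [← heq]; exact hpX
  have h1 : SChain p (S : Subgroup G) (U : Set G) (t * (k * y)) :=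
    hbig' ((S : Subgroup G) ⊓ X) hUT inf_le_left hltT _ (by
      rw [map_conj_eq_self_of_mem_normalizer (inv_mem hn)]; exact inf_le_left)
  have h2 : SChain p (S : Subgroup G) (U : Set G) o :=
    SChain.of_step ⟨U, X, hgood, ho, subset_rfl⟩
  have hoN : o ∈ Subgroup.normalizer (U : Set G) := hXN (residual_le p X ho)
  have h3 : SChain p (S : Subgroup G) (U : Set G) (o * (t * (k * y))) := by
    apply h2.trans
    rw [conjR_coe, map_conj_eq_self_of_mem_normalizer (inv_mem hoN)]
    exact h1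
  have e : o * (t * (k * y)) = y := by
    rw [← mul_assoc, ← hkot]; group
  rwa [e] at h3

theorem sc_main [Finite G] {p : ℕ} [Fact p.Prime] (S : Sylow p G) :
    ∀ (k : ℕ) (P : Subgroup G) (g : G), Nat.card (S : Subgroup G) - Nat.card P = k →
      P ≤ (S : Subgroup G) → P.map (MulAut.conj g⁻¹).toMonoidHom ≤ (S : Subgroup G) →
      SChain p (S : Subgroup G) (P : Set G) g := by
  intro k
  induction k using Nat.strong_induction_on with
  | _ k ih =>
    intro P g hk hPS hPg
    have hSp : IsPGroup p (S : Subgroup G) := S.isPGroup'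
    have hbig : ∀ T : Subgroup G, T ≤ (S : Subgroup G) → Nat.card P < Nat.card T → ∀ n : G,
        T.map (MulAut.conj n⁻¹).toMonoidHom ≤ (S : Subgroup G) →
        SChain p (S : Subgroup G) (T : Set G) n := by
      intro T hTS hlt n hn
      have := Subgroup.card_le_of_le hTS
      have := Subgroup.card_le_of_le hPS
      exact ih (Nat.card (S : Subgroup G) - Nat.card T) (by omega) T n rfl hTS hn
    have hNL : ∀ U : Subgroup G, U ≤ (S : Subgroup G) → Nat.card U = Nat.card P →
        ¬ p ∣ ((S : Subgroup G) ⊓ Subgroup.normalizer (U : Set G)).relIndex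
          (Subgroup.normalizer (U : Set G)) →
        ∀ y ∈ Subgroup.normalizer (U : Set G),
          SChain p (S : Subgroup G) (U : Set G) y := by
      intro U hUS hcard hfn y hy
      have hUp : IsPGroup p U := hSp.to_le hUS
      by_cases hcen : (S : Subgroup G) ⊓ Subgroup.centralizer (U : Set G) ≤ U
      · by_cases hrad : (S : Subgroup G) ⊓ (pPrimePCore p ↥(Subgroup.normalizer (U : Set G))).map
            (Subgroup.normalizer (U : Set G)).subtype ≤ U
        · by_cases hUeq : U = (S : Subgroup G)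
          · rw [hUeq] at hy ⊢
            exact SChain.of_normalizer hy
          · have hlt := card_lt_card_normalizer hSp hUS hUeq
            have hbig' : ∀ T : Subgroup G, U ≤ T → T ≤ (S : Subgroup G) →
                Nat.card U < Nat.card T →
                ∀ n : G, T.map (MulAut.conj n⁻¹).toMonoidHom ≤ (S : Subgroup G) →
                  SChain p (S : Subgroup G) (U : Set G) n := by
              intro T hUT hTS hltT n hn
              exact (hbig T hTS (hcard ▸ hltT) n hn).mono (SetLike.coe_subset_coe.mpr hUT)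
            by_cases hcc : IsSylowChainConnected p (↥(Subgroup.normalizer (U : Set G)) ⧸
                U.subgroupOf (Subgroup.normalizer (U : Set G)))
            · exact schain_of_connected S hUS Subgroup.le_normalizer le_rfl hfn hlt hbig' hcc
                y hy
            · exact schain_of_not_connected S hUS hfn hcen hrad hlt hbig' hcc y hy
        · obtain ⟨o, ho, n, hn, rfl⟩ := exists_mul_of_centric hSp hfn hy
          have hUD : U ≤ (S : Subgroup G) ⊓
              (pPrimePCore p ↥(Subgroup.normalizer (U : Set G))).map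
                (Subgroup.normalizer (U : Set G)).subtype :=
            le_inf hUS (le_map_pPrimePCore Subgroup.le_normalizer le_rfl hUp)
          have hlt : Nat.card U < Nat.card ↥((S : Subgroup G) ⊓
              (pPrimePCore p ↥(Subgroup.normalizer (U : Set G))).map
                (Subgroup.normalizer (U : Set G)).subtype) := by
            by_contra hcon
            push Not at hcon
            exact hrad (le_of_eq (Subgroup.eq_of_le_of_card_ge hUD hcon).symm)
          have h1 := hbig _ inf_le_left (hcard ▸ hlt) n (by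
            rw [map_conj_eq_self_of_mem_normalizer (inv_mem hn)]; exact inf_le_left)
          exact (h1.mono (SetLike.coe_subset_coe.mpr hUD)).mul_left
            (map_pPrimeCore_le_centralizer Subgroup.le_normalizer le_rfl hUp ho)
      · obtain ⟨c, hc, n, hn, rfl⟩ := exists_mul_of_fullyNormalized S hUS hfn hy
        have hUT : U ≤ (S : Subgroup G) ⊓ (U ⊔ Subgroup.centralizer (U : Set G)) :=
          le_inf hUS le_sup_left
        have hlt : Nat.card U < Nat.card ↥((S : Subgroup G) ⊓
            (U ⊔ Subgroup.centralizer (U : Set G))) := by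
          by_contra hcon
          push Not at hcon
          have heq := Subgroup.eq_of_le_of_card_ge hUT hcon
          apply hcen
          intro x hx
          rw [heq]
          exact Subgroup.mem_inf.mpr ⟨(Subgroup.mem_inf.mp hx).1,
            Subgroup.mem_sup_right (Subgroup.mem_inf.mp hx).2⟩
        have h1 := hbig _ inf_le_left (hcard ▸ hlt) n (by
          rw [map_conj_eq_self_of_mem_normalizer (inv_mem hn)]; exact inf_le_left)
        exact (h1.mono (SetLike.coe_subset_coe.mpr hUT)).mul_left hc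
    by_cases hPeq : P = (S : Subgroup G)
    · have hg : g ∈ Subgroup.normalizer (((S : Subgroup G) : Subgroup G) : Set G) := by
        have h1 : (S : Subgroup G).map (MulAut.conj g⁻¹).toMonoidHom = (S : Subgroup G) := by
          rw [hPeq] at hPg
          exact Subgroup.eq_of_le_of_card_ge hPg (by rw [card_map_conj])
        have := Helper14.mem_normalizer_of_map_conj_eq h1
        simpa using inv_mem this
      rw [hPeq]
      exact SChain.of_normalizer hg
    · obtain ⟨h₁, hUS, hUfn⟩ := exists_fullyNormalized_conj S hPS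
      obtain ⟨U, hU⟩ : ∃ U : Subgroup G, U = P.map (MulAut.conj h₁).toMonoidHom := ⟨_, rfl⟩
      rw [← hU] at hUS hUfn
      have hh₁ : P.map (MulAut.conj h₁).toMonoidHom = U := hU.symm
      have hcardU : Nat.card U = Nat.card P := by rw [← hh₁, card_map_conj]
      obtain ⟨Q, hQ⟩ : ∃ Q : Subgroup G, Q = P.map (MulAut.conj g⁻¹).toMonoidHom := ⟨_, rfl⟩
      rw [← hQ] at hPg
      have hcardQ : Nat.card Q = Nat.card P := by rw [hQ, card_map_conj]
      have hQne : Q ≠ (S : Subgroup G) := by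
        intro hQS
        apply hPeq
        exact Subgroup.eq_of_le_of_card_ge hPS (by rw [← hcardQ, hQS])
      have hQU : Q.map (MulAut.conj (h₁ * g)).toMonoidHom = U := by
        rw [hQ, map_conj_map_conj]
        have : h₁ * g * g⁻¹ = h₁ := by group
        rw [this, hh₁]
      obtain ⟨a', ha', haN⟩ := exists_conj_normalizer_le S hUfn hh₁
      obtain ⟨b', hb', hbN⟩ := exists_conj_normalizer_le S hUfn hQU
      have hPa : SChain p (S : Subgroup G) (P : Set G) a'⁻¹ := by
        have := hbig ((S : Subgroup G) ⊓ Subgroup.normalizer (P : Set G)) inf_le_left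
          (card_lt_card_normalizer hSp hPS hPeq) a'⁻¹
          (by rw [inv_inv]; exact le_trans haN inf_le_left)
        exact this.mono (SetLike.coe_subset_coe.mpr (le_inf hPS Subgroup.le_normalizer))
      have hQb : SChain p (S : Subgroup G) (Q : Set G) b'⁻¹ := by
        have := hbig ((S : Subgroup G) ⊓ Subgroup.normalizer (Q : Set G)) inf_le_left
          (hcardQ ▸ card_lt_card_normalizer hSp hPg hQne) b'⁻¹
          (by rw [inv_inv]; exact le_trans hbN inf_le_left)
        exact this.mono (SetLike.coe_subset_coe.mpr (le_inf hPg Subgroup.le_normalizer))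
      have hPaU : conjR a'⁻¹ (P : Set G) = (U : Set G) := by rw [conjR_coe, inv_inv, ha']
      have hQbU : conjR b'⁻¹ (Q : Set G) = (U : Set G) := by rw [conjR_coe, inv_inv, hb']
      have hUb : SChain p (S : Subgroup G) (U : Set G) b' := by
        have := hQb.symm
        rwa [hQbU, inv_inv] at this
      have hcmap : U.map (MulAut.conj (a' * g * b'⁻¹)⁻¹).toMonoidHom = U := by
        conv_lhs => rw [← ha']
        rw [map_conj_map_conj]
        have e : (a' * g * b'⁻¹)⁻¹ * a' = b' * g⁻¹ := by group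
        rw [e, ← map_conj_map_conj, ← hQ, hb']
      have hc : a' * g * b'⁻¹ ∈ Subgroup.normalizer (U : Set G) := by
        have := Helper14.mem_normalizer_of_map_conj_eq hcmap
        simpa using inv_mem this
      have hUc : SChain p (S : Subgroup G) (U : Set G) (a' * g * b'⁻¹) :=
        hNL U hUS hcardU hUfn _ hc
      have hcU : conjR (a' * g * b'⁻¹) (U : Set G) = (U : Set G) := by
        rw [conjR_coe, hcmap]
      have h1 : SChain p (S : Subgroup G) (P : Set G) (a'⁻¹ * (a' * g * b'⁻¹)) :=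
        hPa.trans (by rw [hPaU]; exact hUc)
      have h2 : SChain p (S : Subgroup G) (P : Set G)
          (a'⁻¹ * (a' * g * b'⁻¹) * b') :=
        h1.trans (by rw [conjR_mul, hPaU, hcU]; exact hUb)
      have e : a'⁻¹ * (a' * g * b'⁻¹) * b' = g := by group
      rwa [e] at h2

/-- A strong form of the Alperin–Goldschmidt fusion Theorem. Let P be a Sylow p-subgroup of the finite group G, A a subset of P containing a nonidentity element, and g an element with g⁻¹Ag ⊆ P. Then g = c·x₁⋯xₙ·y with c ∈ C_G(A), y ∈ N_G(P) and, for each i, an element xᵢ and a subgroup Hᵢ ≤ P such that: N_P(Hᵢ) is a Sylow p-subgroup of N_G(Hᵢ); C_P(Hᵢ) ≤ Hᵢ; O_{p',p}(N_G(Hᵢ)) = Hᵢ·C_G(Hᵢ); the Sylow p-subgroups of N_G(Hᵢ)/Hᵢ are not chain-connected through nontrivial intersections (the quotient has a strongly p-embedded subgroup); xᵢ lies in O^p(Xᵢ), where Xᵢ/Hᵢ is the smallest normal subgroup of N_G(Hᵢ)/Hᵢ of order divisible by p; and (x₁⋯xᵢ₋₁)⁻¹A(x₁⋯xᵢ₋₁) ⊆ Hᵢ. -/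
theorem result {G : Type*} [Group G] [Finite G] {p : ℕ} [Fact p.Prime]
    (P : Sylow p G) (A : Set G) (hA : A ⊆ (P : Set G)) (hA1 : ∃ a ∈ A, a ≠ 1)
    (g : G) (hAg : (fun a => g⁻¹ * a * g) '' A ⊆ (P : Set G)) :
    ∃ (n : ℕ) (H X : Fin n → Subgroup G) (x : Fin n → G) (c y : G),
      c ∈ Subgroup.centralizer A ∧ y ∈ Subgroup.normalizer ((P : Subgroup G) : Set G) ∧
      g = c * (List.ofFn x).prod * y ∧
      ∀ i : Fin n,
        H i ≤ (P : Subgroup G) ∧
        ¬ p ∣ ((P : Subgroup G) ⊓ Subgroup.normalizer (H i : Set G)).relIndex (Subgroup.normalizer (H i : Set G)) ∧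
        (P : Subgroup G) ⊓ Subgroup.centralizer (H i : Set G) ≤ H i ∧
        (Cfsg.pPrimePCore p ↥(Subgroup.normalizer (H i : Set G))).map (Subgroup.normalizer (H i : Set G)).subtype =
          H i ⊔ Subgroup.centralizer (H i : Set G) ∧
        ¬ Cfsg.IsSylowChainConnected p
            (↥(Subgroup.normalizer (H i : Set G)) ⧸ (H i).subgroupOf (Subgroup.normalizer (H i : Set G))) ∧
        (H i ≤ X i ∧ X i ≤ Subgroup.normalizer (H i : Set G) ∧
          ((X i).subgroupOf (Subgroup.normalizer (H i : Set G))).Normal ∧ p ∣ (H i).relIndex (X i) ∧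
          ∀ Y : Subgroup G, H i ≤ Y → Y ≤ Subgroup.normalizer (H i : Set G) →
            (Y.subgroupOf (Subgroup.normalizer (H i : Set G))).Normal → p ∣ (H i).relIndex Y → X i ≤ Y) ∧
        x i ∈ (Cfsg.pResidual p ↥(X i)).map (X i).subtype ∧
        (fun a => (((List.ofFn x).take i.val).prod)⁻¹ * a * ((List.ofFn x).take i.val).prod) '' A ⊆ (H i : Set G) := by
  have hP : Subgroup.closure A ≤ (P : Subgroup G) := (Subgroup.closure_le _).mpr hA
  have hPg : (Subgroup.closure A).map (MulAut.conj g⁻¹).toMonoidHom ≤ (P : Subgroup G) := by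
    rw [MonoidHom.map_closure, Subgroup.closure_le]
    rintro _ ⟨a, ha, rfl⟩
    have := hAg ⟨a, ha, rfl⟩
    simpa using this
  have hch := (sc_main P _ (Subgroup.closure A) g rfl hP hPg).mono
    (Subgroup.subset_closure : A ⊆ ((Subgroup.closure A : Subgroup G) : Set G))
  obtain ⟨c, hc, k, hk, y, hy, hg⟩ := hch
  obtain ⟨n, H, X, x, hprod, hall⟩ := hk.toData
  refine ⟨n, H, X, x, c, y, hc, hy, by rw [hprod]; exact hg, fun i => ?_⟩
  obtain ⟨⟨h1, h2, h3, h4, h5, ⟨h6a, h6b, h6c, h6d⟩, h7⟩, hx, hA'⟩ := hall i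
  refine ⟨h1, h2, h3, h4, h5,
    ⟨h6a, h6b, Subgroup.normal_subgroupOf_of_le_normalizer h6c, h6d, ?_⟩, hx, hA'⟩
  intro Y hY1 hY2 hY3 hY4
  exact h7 Y ⟨hY1, hY2, (Subgroup.normal_subgroupOf_iff_le_normalizer hY2).mp hY3, hY4⟩

end Cfsg.Agent.S3072
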