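import Cfsg.Statements.S3075
import Cfsg.Agent.Lib.Helper19.SubnormalSylow

set_option autoImplicit false
open Cfsg

namespace Cfsg.Agent.S3075

open Subgroup Cfsg.Agent.Lib.Helper19

theorem cyc_act {N : Type*} [Group N] (C : Subgroup N) (c : N) (hc : c ∈ C)
    (hgen : ∀ u ∈ C, u ∈ zpowers c)
    (hinv : ∀ n : N, ∀ u ∈ C, n * u * n⁻¹ ∈ C) (n m : N) (u : N) (hu : u ∈ C) :
    (n * m * n⁻¹ * m⁻¹) * u = u * (n * m * n⁻¹ * m⁻¹) := by
  have key : ∀ n : N, ∃ i : ℤ, ∀ u ∈ C, n * u * n⁻¹ = u ^ i := by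
    intro n
    obtain ⟨i, hi⟩ := mem_zpowers_iff.mp (hgen _ (hinv n c hc))
    refine ⟨i, fun u hu => ?_⟩
    obtain ⟨k, rfl⟩ := mem_zpowers_iff.mp (hgen u hu)
    rw [← conj_zpow, ← hi, ← zpow_mul, ← zpow_mul, mul_comm]
  obtain ⟨i, hi⟩ := key n
  obtain ⟨j, hj⟩ := key m
  have h1 : ∀ u ∈ C, (n * m) * u * (n * m)⁻¹ = (m * n) * u * (m * n)⁻¹ := by
    intro u hu
    calc (n * m) * u * (n * m)⁻¹ = n * (m * u * m⁻¹) * n⁻¹ := by group
      _ = (u ^ j) ^ i := by rw [hj u hu, hi _ (zpow_mem hu j)]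
      _ = (u ^ i) ^ j := by rw [← zpow_mul, ← zpow_mul, mul_comm]
      _ = m * (n * u * n⁻¹) * m⁻¹ := by rw [hi u hu, hj _ (zpow_mem hu i)]
      _ = (m * n) * u * (m * n)⁻¹ := by group
  have hu' : (m * n)⁻¹ * u * (m * n) ∈ C := by
    have := hinv (m * n)⁻¹ u hu
    rwa [inv_inv] at this
  have h2 := h1 _ hu'
  calc (n * m * n⁻¹ * m⁻¹) * u
      = ((n * m) * ((m * n)⁻¹ * u * (m * n)) * (n * m)⁻¹) * (n * m * n⁻¹ * m⁻¹) := by group
    _ = ((m * n) * ((m * n)⁻¹ * u * (m * n)) * (m * n)⁻¹) * (n * m * n⁻¹ * m⁻¹) := by rw [h2]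
    _ = u * (n * m * n⁻¹ * m⁻¹) := by group

theorem split_aux {N : Type*} [Group N] [Finite N] {p : ℕ} [hp : Fact p.Prime] (hp2 : p ≠ 2)
    (A : Subgroup N) [hAn : A.Normal] (hA : ∀ a ∈ A, ∀ b ∈ A, a * b = b * a)
    (hAcard : Nat.card A = p ^ 2) (hAp : ∀ a ∈ A, a ^ p = 1)
    (hAself : centralizer (A : Set N) = A)
    (t : N) (ht2 : t * t = 1) (htA : t ∉ A) (hc : ∀ n : N, n * t * n⁻¹ * t⁻¹ ∈ A)
    (hnc : ∃ n m : N, n * m * n⁻¹ * m⁻¹ ∉ A) :
    ∃ U : Subgroup N, A ⊓ U = ⊥ ∧ A ⊔ U = ⊤ := by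
  have htinv : t⁻¹ = t := inv_eq_of_mul_eq_one_right ht2
  have hconjA : ∀ n : N, ∀ a ∈ A, n * a * n⁻¹ ∈ A := fun n a ha => hAn.conj_mem a ha n
  have hodd : ∀ a ∈ A, a * a = 1 → a = 1 := by
    intro a ha h2
    have h1 : orderOf a ∣ Nat.gcd 2 p :=
      Nat.dvd_gcd (orderOf_dvd_of_pow_eq_one (by rw [sq]; exact h2))
        (orderOf_dvd_of_pow_eq_one (hAp a ha))
    have hg : Nat.gcd 2 p = 1 := (Nat.coprime_primes Nat.prime_two hp.out).mpr (Ne.symm hp2)
    rw [hg, Nat.dvd_one, orderOf_eq_one_iff] at h1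
    exact h1
  have hsqrt : ∀ a ∈ A, ∃ b ∈ A, b * b = a := by
    intro a ha
    obtain ⟨m, hm⟩ := hp.out.odd_of_ne_two hp2
    refine ⟨a ^ (m + 1), pow_mem ha _, ?_⟩
    rw [← pow_add]
    have h1 : m + 1 + (m + 1) = p + 1 := by omega
    rw [h1, pow_succ, hAp a ha, one_mul]
  have hcomm : ∀ n : N, ∀ a ∈ A, t * (n * a * n⁻¹) * t⁻¹ = n * (t * a * t⁻¹) * n⁻¹ := by
    intro n a ha
    have h1 := hc n⁻¹
    rw [inv_inv] at h1
    have h2 : t * a * t⁻¹ ∈ A := hconjA t a ha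
    have h3 := hA _ h1 _ h2
    calc t * (n * a * n⁻¹) * t⁻¹
        = n * ((n⁻¹ * t * n * t⁻¹) * (t * a * t⁻¹)) * (n⁻¹ * t * n * t⁻¹)⁻¹ * n⁻¹ := by group
      _ = n * ((t * a * t⁻¹) * (n⁻¹ * t * n * t⁻¹)) * (n⁻¹ * t * n * t⁻¹)⁻¹ * n⁻¹ := by rw [h3]
      _ = n * (t * a * t⁻¹) * n⁻¹ := by group
  have htt : ∀ a : N, t * (t * a * t⁻¹) * t⁻¹ = a := by
    intro a
    rw [htinv]
    calc t * (t * a * t) * t = (t * t) * a * (t * t) := by group
      _ = a := by rw [ht2, one_mul, mul_one]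
  obtain ⟨Ap, hAp'⟩ : ∃ Ap : Subgroup N, ∀ a, a ∈ Ap ↔ a ∈ A ∧ t * a * t⁻¹ = a :=
    ⟨{ carrier := {a | a ∈ A ∧ t * a * t⁻¹ = a}
       one_mem' := ⟨A.one_mem, by simp⟩
       mul_mem' := by
         rintro a b ⟨ha, ha'⟩ ⟨hb, hb'⟩
         refine ⟨A.mul_mem ha hb, ?_⟩
         calc t * (a * b) * t⁻¹ = (t * a * t⁻¹) * (t * b * t⁻¹) := by group
           _ = a * b := by rw [ha', hb']
       inv_mem' := by
         rintro a ⟨ha, ha'⟩
         refine ⟨A.inv_mem ha, ?_⟩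
         calc t * a⁻¹ * t⁻¹ = (t * a * t⁻¹)⁻¹ := by group
           _ = a⁻¹ := by rw [ha'] }, fun a => Iff.rfl⟩
  obtain ⟨Am, hAm'⟩ : ∃ Am : Subgroup N, ∀ a, a ∈ Am ↔ a ∈ A ∧ t * a * t⁻¹ = a⁻¹ :=
    ⟨{ carrier := {a | a ∈ A ∧ t * a * t⁻¹ = a⁻¹}
       one_mem' := ⟨A.one_mem, by simp⟩
       mul_mem' := by
         rintro a b ⟨ha, ha'⟩ ⟨hb, hb'⟩
         refine ⟨A.mul_mem ha hb, ?_⟩
         calc t * (a * b) * t⁻¹ = (t * a * t⁻¹) * (t * b * t⁻¹) := by group
           _ = a⁻¹ * b⁻¹ := by rw [ha', hb']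
           _ = (a * b)⁻¹ := by rw [mul_inv_rev]; exact hA _ (inv_mem ha) _ (inv_mem hb)
       inv_mem' := by
         rintro a ⟨ha, ha'⟩
         refine ⟨A.inv_mem ha, ?_⟩
         calc t * a⁻¹ * t⁻¹ = (t * a * t⁻¹)⁻¹ := by group
           _ = a⁻¹⁻¹ := by rw [ha'] }, fun a => Iff.rfl⟩
  have hApA : Ap ≤ A := fun a ha => ((hAp' a).mp ha).1
  have hAmA : Am ≤ A := fun a ha => ((hAm' a).mp ha).1
  -- for a ∈ A: a * (t a t⁻¹) ∈ Ap and a * (t a t⁻¹)⁻¹ ∈ Am
  have hplus : ∀ a ∈ A, a * (t * a * t⁻¹) ∈ Ap := by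
    intro a ha
    have ha' := hconjA t a ha
    rw [hAp']
    refine ⟨mul_mem ha ha', ?_⟩
    calc t * (a * (t * a * t⁻¹)) * t⁻¹ = (t * a * t⁻¹) * (t * (t * a * t⁻¹) * t⁻¹) := by group
      _ = (t * a * t⁻¹) * a := by rw [htt]
      _ = a * (t * a * t⁻¹) := hA _ ha' _ ha
  have hminus : ∀ a ∈ A, a * (t * a * t⁻¹)⁻¹ ∈ Am := by
    intro a ha
    have ha' := hconjA t a ha
    rw [hAm']
    refine ⟨mul_mem ha (inv_mem ha'), ?_⟩
    calc t * (a * (t * a * t⁻¹)⁻¹) * t⁻¹ = (t * a * t⁻¹) * (t * (t * a * t⁻¹) * t⁻¹)⁻¹ := by group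
      _ = (t * a * t⁻¹) * a⁻¹ := by rw [htt]
      _ = (a * (t * a * t⁻¹)⁻¹)⁻¹ := by rw [mul_inv_rev, inv_inv]
  have hdecomp : ∀ a ∈ A, ∃ u ∈ Ap, ∃ v ∈ Am, a = u * v := by
    intro a ha
    obtain ⟨b, hb, rfl⟩ := hsqrt a ha
    have hb' := hconjA t b hb
    refine ⟨_, hplus b hb, _, hminus b hb, ?_⟩
    have h1 := hA _ hb' _ hb
    calc b * b = b * (b * (t * b * t⁻¹)) * (t * b * t⁻¹)⁻¹ := by group
      _ = b * ((t * b * t⁻¹) * b) * (t * b * t⁻¹)⁻¹ := by rw [h1]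
      _ = b * (t * b * t⁻¹) * (b * (t * b * t⁻¹)⁻¹) := by group
  by_cases hp1 : Ap = ⊥
  · -- t inverts A; the centralizer of t is a complement
    have hinvA : ∀ a ∈ A, t * a * t⁻¹ = a⁻¹ := by
      intro a ha
      have h1 := hplus a ha
      rw [hp1, mem_bot] at h1
      exact eq_inv_of_mul_eq_one_right h1
    refine ⟨centralizer {t}, ?_, ?_⟩
    · rw [eq_bot_iff]
      rintro a ⟨ha, hat⟩
      rw [mem_bot]
      apply hodd a ha
      have h1 : t * a = a * t := mem_centralizer_iff.mp hat t rfl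
      have h2 : t * a * t⁻¹ = a := by rw [h1, mul_inv_cancel_right]
      have h3 := hinvA a ha
      rw [h2] at h3
      nth_rewrite 2 [h3]
      exact mul_inv_cancel a
    · rw [eq_top_iff]
      intro n _
      obtain ⟨b, hb, hbb⟩ := hsqrt _ (hc n)
      have h1 : t * b⁻¹ * t⁻¹ = b := by
        have := hinvA _ (inv_mem hb)
        rwa [inv_inv] at this
      have h2 : b * t * b⁻¹ = n * t * n⁻¹ := by
        calc b * t * b⁻¹ = b * (t * b⁻¹ * t⁻¹) * t := by group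
          _ = (b * b) * t := by rw [h1]
          _ = n * t * n⁻¹ := by rw [hbb]; group
      have h3 : b⁻¹ * n ∈ centralizer {t} := by
        rw [mem_centralizer_iff]
        intro x hx
        rw [Set.mem_singleton_iff] at hx
        subst hx
        calc x * (b⁻¹ * n) = b⁻¹ * (b * x * b⁻¹) * n := by group
          _ = b⁻¹ * (n * x * n⁻¹) * n := by rw [h2]
          _ = b⁻¹ * n * x := by group
      have h4 : n = b * (b⁻¹ * n) := by group
      rw [h4]
      exact mul_mem (mem_sup_left hb) (mem_sup_right h3)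
  · exfalso
    by_cases hm1 : Am = ⊥
    · -- t centralizes A
      apply htA
      rw [← hAself, mem_centralizer_iff]
      intro a ha
      have h1 := hminus a ha
      rw [hm1, mem_bot] at h1
      have h2 : t * a * t⁻¹ = a := inv_injective (eq_inv_of_mul_eq_one_right h1)
      calc a * t = (t * a * t⁻¹) * t := by rw [h2]
        _ = t * a := by group
    · -- both eigen-subgroups have order p and N / A would be commutative
      have hinf : Ap ⊓ Am = ⊥ := by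
        rw [eq_bot_iff]
        rintro a ⟨h1, h2⟩
        rw [mem_bot]
        have h1' := (hAp' a).mp h1
        have h2' := (hAm' a).mp h2
        apply hodd a h1'.1
        have h3 : a = a⁻¹ := h1'.2.symm.trans h2'.2
        nth_rewrite 2 [h3]
        exact mul_inv_cancel a
      have hsup : Ap ⊔ Am = A := by
        apply le_antisymm (sup_le hApA hAmA)
        intro a ha
        obtain ⟨u, hu, v, hv, rfl⟩ := hdecomp a ha
        exact mul_mem (mem_sup_left hu) (mem_sup_right hv)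
      have hnorm : Am ≤ normalizer (Ap : Set N) := by
        intro v hv
        apply centralizer_le_normalizer
        rw [mem_centralizer_iff]
        intro u hu
        exact hA _ (hApA hu) _ (hAmA hv)
      have hcard := card_sup_mul_card_inf_of_normalizes hnorm
      rw [hsup, hinf, Subgroup.card_bot, mul_one, hAcard] at hcard
      obtain ⟨i, hi, hci⟩ := (Nat.dvd_prime_pow hp.out).mp (hAcard ▸ Subgroup.card_dvd_of_le hApA)
      obtain ⟨j, hj, hcj⟩ := (Nat.dvd_prime_pow hp.out).mp (hAcard ▸ Subgroup.card_dvd_of_le hAmA)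
      have hi0 : i ≠ 0 := by
        rintro rfl
        exact hp1 (Subgroup.eq_bot_of_card_eq _ (by rw [hci, pow_zero]))
      have hj0 : j ≠ 0 := by
        rintro rfl
        exact hm1 (Subgroup.eq_bot_of_card_eq _ (by rw [hcj, pow_zero]))
      rw [hci, hcj, ← pow_add] at hcard
      have hij : 2 = i + j := Nat.pow_right_injective hp.out.two_le hcard
      have hi1 : i = 1 := by omega
      have hj1 : j = 1 := by omega
      rw [hi1, pow_one] at hci
      rw [hj1, pow_one] at hcj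
      -- generators
      obtain ⟨⟨cp, hcp⟩, hcp1⟩ := (Subgroup.ne_bot_iff_exists_ne_one).mp hp1
      obtain ⟨⟨cm, hcm⟩, hcm1⟩ := (Subgroup.ne_bot_iff_exists_ne_one).mp hm1
      have hgenp : ∀ u ∈ Ap, u ∈ zpowers cp := by
        intro u hu
        have h1 : (⟨u, hu⟩ : Ap) ∈ zpowers (⟨cp, hcp⟩ : Ap) := mem_zpowers_of_prime_card hci hcp1
        obtain ⟨k, hk⟩ := mem_zpowers_iff.mp h1
        exact mem_zpowers_iff.mpr ⟨k, congrArg Subtype.val hk⟩
      have hgenm : ∀ u ∈ Am, u ∈ zpowers cm := by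
        intro u hu
        have h1 : (⟨u, hu⟩ : Am) ∈ zpowers (⟨cm, hcm⟩ : Am) := mem_zpowers_of_prime_card hcj hcm1
        obtain ⟨k, hk⟩ := mem_zpowers_iff.mp h1
        exact mem_zpowers_iff.mpr ⟨k, congrArg Subtype.val hk⟩
      have hinvp : ∀ n : N, ∀ u ∈ Ap, n * u * n⁻¹ ∈ Ap := by
        intro n u hu
        have hu' := (hAp' u).mp hu
        rw [hAp']
        refine ⟨hconjA n u hu'.1, ?_⟩
        rw [hcomm n u hu'.1, hu'.2]
      have hinvm : ∀ n : N, ∀ u ∈ Am, n * u * n⁻¹ ∈ Am := by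
        intro n u hu
        have hu' := (hAm' u).mp hu
        rw [hAm']
        refine ⟨hconjA n u hu'.1, ?_⟩
        rw [hcomm n u hu'.1, hu'.2]
        group
      obtain ⟨n, m, hnm⟩ := hnc
      apply hnm
      rw [← hAself, mem_centralizer_iff]
      intro a ha
      obtain ⟨u, hu, v, hv, rfl⟩ := hdecomp a ha
      have h1 := cyc_act Ap cp hcp hgenp hinvp n m u hu
      have h2 := cyc_act Am cm hcm hgenm hinvm n m v hv
      calc u * v * (n * m * n⁻¹ * m⁻¹) = u * (v * (n * m * n⁻¹ * m⁻¹)) := by group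
        _ = u * ((n * m * n⁻¹ * m⁻¹) * v) := by rw [h2]
        _ = (u * (n * m * n⁻¹ * m⁻¹)) * v := by group
        _ = ((n * m * n⁻¹ * m⁻¹) * u) * v := by rw [h1]
        _ = n * m * n⁻¹ * m⁻¹ * (u * v) := by group

/-- Let p be an odd prime and N a finite group with a normal elementary abelian subgroup A of order p² that is its own centralizer in N, such that N/A is isomorphic to SL₂(p) (over any field F with p elements). Then N splits over A: some subgroup U of N satisfies A ∩ U = 1 and AU = N. -/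
theorem result {N : Type*} [Group N] [Finite N] {p : ℕ} [Fact p.Prime] (hp : p ≠ 2)
    (A : Subgroup N) [A.Normal] (hAcomm : IsMulCommutative A) (hAcard : Nat.card A = p ^ 2) (hAexp : Monoid.exponent ↥A = p)
    (hAself : Subgroup.centralizer (A : Set N) = A)
    {F : Type*} [Field F] [Fintype F] (hF : Fintype.card F = p) (e : N ⧸ A ≃* Matrix.SpecialLinearGroup (Fin 2) F) :
    ∃ U : Subgroup N, A ⊓ U = ⊥ ∧ A ⊔ U = ⊤ := by
  have hA : ∀ a ∈ A, ∀ b ∈ A, a * b = b * a := by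
    intro a ha b hb
    exact congrArg Subtype.val (hAcomm.is_comm.comm (⟨a, ha⟩ : A) ⟨b, hb⟩)
  have hAp : ∀ a ∈ A, a ^ p = 1 := by
    intro a ha
    have h1 := Monoid.pow_exponent_eq_one (⟨a, ha⟩ : A)
    rw [hAexp] at h1
    exact congrArg Subtype.val h1
  have hodd : Odd p := (Fact.out : p.Prime).odd_of_ne_two hp
  -- -1 ≠ 1 in SL₂(F)
  have hz1 : (-1 : Matrix.SpecialLinearGroup (Fin 2) F) ≠ 1 := by
    intro h
    have h1 := congrArg (fun M : Matrix.SpecialLinearGroup (Fin 2) F =>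
      (M : Matrix (Fin 2) (Fin 2) F) 0 0) h
    simp only [Matrix.SpecialLinearGroup.coe_neg, Matrix.SpecialLinearGroup.coe_one,
      Matrix.neg_apply, Matrix.one_apply_eq] at h1
    have h2 : (2 : F) = 0 := by linear_combination -h1
    have h3 : ringChar F ∣ 2 := by
      have := (CharP.cast_eq_zero_iff F (ringChar F) 2).mp (by exact_mod_cast h2)
      exact this
    have h4 : ringChar F = 2 := by
      rcases (Nat.dvd_prime Nat.prime_two).mp h3 with h5 | h5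
      · exact absurd h5 (CharP.ringChar_ne_one)
      · exact h5
    have h5 := FiniteField.even_card_iff_char_two.mp h4
    rw [hF] at h5
    rcases hodd with ⟨k, hk⟩
    omega
  obtain ⟨t₀, ht₀⟩ := QuotientGroup.mk_surjective (s := A) (e.symm (-1))
  have ht₀2 : t₀ * t₀ ∈ A := by
    rw [← QuotientGroup.eq_one_iff, QuotientGroup.mk_mul, ht₀, ← map_mul]
    simp
  have ht2 : t₀ ^ p * t₀ ^ p = 1 := by
    rw [← pow_add, ← two_mul, pow_mul, sq]
    exact hAp _ ht₀2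
  have hmk : (QuotientGroup.mk (t₀ ^ p) : N ⧸ A) = e.symm (-1) := by
    rw [QuotientGroup.mk_pow, ht₀, ← map_pow]
    congr 1
    exact hodd.neg_one_pow
  have htA : t₀ ^ p ∉ A := by
    intro h
    rw [← QuotientGroup.eq_one_iff, hmk] at h
    apply hz1
    have := congrArg e h
    simpa using this
  have hc : ∀ n : N, n * t₀ ^ p * n⁻¹ * (t₀ ^ p)⁻¹ ∈ A := by
    intro n
    rw [← QuotientGroup.eq_one_iff]
    simp only [QuotientGroup.mk_mul, QuotientGroup.mk_inv, hmk]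
    apply e.injective
    simp
  have hnc : ∃ n m : N, n * m * n⁻¹ * m⁻¹ ∉ A := by
    obtain ⟨u, hu⟩ : ∃ u : Matrix.SpecialLinearGroup (Fin 2) F,
        (u : Matrix (Fin 2) (Fin 2) F) = !![1, 1; 0, 1] :=
      ⟨⟨!![1, 1; 0, 1], by simp [Matrix.det_fin_two]⟩, rfl⟩
    obtain ⟨l, hl⟩ : ∃ l : Matrix.SpecialLinearGroup (Fin 2) F,
        (l : Matrix (Fin 2) (Fin 2) F) = !![1, 0; 1, 1] :=
      ⟨⟨!![1, 0; 1, 1], by simp [Matrix.det_fin_two]⟩, rfl⟩
    obtain ⟨n, hn⟩ := QuotientGroup.mk_surjective (s := A) (e.symm u)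
    obtain ⟨m, hm⟩ := QuotientGroup.mk_surjective (s := A) (e.symm l)
    refine ⟨n, m, fun h => ?_⟩
    rw [← QuotientGroup.eq_one_iff] at h
    simp only [QuotientGroup.mk_mul, QuotientGroup.mk_inv, hn, hm] at h
    have h1 := congrArg e h
    simp only [map_mul, map_inv, MulEquiv.apply_symm_apply, map_one] at h1
    have h2 := mul_inv_eq_one.mp h1
    have h3 := mul_inv_eq_iff_eq_mul.mp h2
    have h4 := congrArg (fun M : Matrix.SpecialLinearGroup (Fin 2) F =>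
      (M : Matrix (Fin 2) (Fin 2) F) 0 0) h3
    simp only [Matrix.SpecialLinearGroup.coe_mul, hu, hl] at h4
    simp [Matrix.mul_apply, Fin.sum_univ_two] at h4
  exact split_aux hp A hA hAcard hAp hAself (t₀ ^ p) ht2 htA hc hnc

end Cfsg.Agent.S3075
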