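import Cfsg.Statements.S3076
import Mathlib
import Cfsg.Agent.Lib.Helper1.AGFam
import Cfsg.Agent.Lib.Helper1.Cores

set_option autoImplicit false
open Cfsg

namespace Cfsg.Agent.S3076

open Cfsg.Agent.Lib Cfsg.Agent.Lib.Helper14 Cfsg.Agent.Lib.Helper1.AG

universe u

/-- The two-sided comparison between the preimage of `O_p(N/C)` and `O_{p',p}(N)`. -/
theorem main {G : Type u} [Group G] [Finite G] {p : ℕ} [Fact p.Prime]
    (P : Sylow p G) (H : Subgroup G) (hHP : H ≤ (P : Subgroup G))
    (hSyl : ¬ p ∣ ((P : Subgroup G) ⊓ Subgroup.normalizer (H : Set G)).relIndex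
      (Subgroup.normalizer (H : Set G)))
    [hC : ((Subgroup.centralizer (H : Set G)).subgroupOf
      (Subgroup.normalizer (H : Set G))).Normal]
    (L' : Subgroup ↥(Subgroup.normalizer (H : Set G)))
    (hL' : L' = (Cfsg.pCore p (↥(Subgroup.normalizer (H : Set G)) ⧸
      (Subgroup.centralizer (H : Set G)).subgroupOf (Subgroup.normalizer (H : Set G)))).comap
        (QuotientGroup.mk' _)) :
    (H ≤ L'.map (Subgroup.normalizer (H : Set G)).subtype ∧
      ¬ p ∣ H.relIndex (L'.map (Subgroup.normalizer (H : Set G)).subtype)) ↔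
    ((P : Subgroup G) ⊓ Subgroup.centralizer (H : Set G) ≤ H ∧
      (Cfsg.pPrimePCore p ↥(Subgroup.normalizer (H : Set G))).map
        (Subgroup.normalizer (H : Set G)).subtype = H ⊔ Subgroup.centralizer (H : Set G)) := by
  classical
  have hSp : IsPGroup p (P : Subgroup G) := P.isPGroup'
  have hHp : IsPGroup p H := hSp.to_le hHP
  have hRp : IsPGroup p ↥((P : Subgroup G) ⊓ Subgroup.normalizer (H : Set G)) :=
    hSp.to_le inf_le_left
  have hHN : H ≤ Subgroup.normalizer (H : Set G) := Subgroup.le_normalizer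
  have hCN : Subgroup.centralizer (H : Set G) ≤ Subgroup.normalizer (H : Set G) :=
    Subgroup.centralizer_le_normalizer _
  have hL'n : L'.Normal := by
    rw [hL']; exact (Cfsg.Agent.Lib.Helper1.pCore_normal p).comap _
  have hπ1 : ∀ x : ↥(Subgroup.normalizer (H : Set G)),
      (QuotientGroup.mk' ((Subgroup.centralizer (H : Set G)).subgroupOf
        (Subgroup.normalizer (H : Set G))) x = 1) ↔ (x : G) ∈ Subgroup.centralizer (H : Set G) :=
    fun x => (QuotientGroup.eq_one_iff x).trans Subgroup.mem_subgroupOf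
  have hmemL' : ∀ x : ↥(Subgroup.normalizer (H : Set G)), x ∈ L' ↔
      QuotientGroup.mk' ((Subgroup.centralizer (H : Set G)).subgroupOf
        (Subgroup.normalizer (H : Set G))) x ∈ Cfsg.pCore p
        (↥(Subgroup.normalizer (H : Set G)) ⧸
          (Subgroup.centralizer (H : Set G)).subgroupOf (Subgroup.normalizer (H : Set G))) := by
    intro x; rw [hL']; exact Subgroup.mem_comap
  have hCL : Subgroup.centralizer (H : Set G) ≤
      L'.map (Subgroup.normalizer (H : Set G)).subtype := by
    intro c hc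
    refine ⟨⟨c, hCN hc⟩, ?_, rfl⟩
    show (⟨c, hCN hc⟩ : ↥(Subgroup.normalizer (H : Set G))) ∈ L'
    rw [hmemL', (hπ1 _).mpr hc]
    exact one_mem _
  have hHL : H ≤ L'.map (Subgroup.normalizer (H : Set G)).subtype := by
    have hn : (H.subgroupOf (Subgroup.normalizer (H : Set G))).Normal :=
      Subgroup.normal_subgroupOf_of_le_normalizer le_rfl
    have hp' : IsPGroup p ((H.subgroupOf (Subgroup.normalizer (H : Set G))).map
        (QuotientGroup.mk' ((Subgroup.centralizer (H : Set G)).subgroupOf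
          (Subgroup.normalizer (H : Set G))))) := (hHp.comap_subtype).map _
    have hn' : ((H.subgroupOf (Subgroup.normalizer (H : Set G))).map
        (QuotientGroup.mk' ((Subgroup.centralizer (H : Set G)).subgroupOf
          (Subgroup.normalizer (H : Set G))))).Normal :=
      hn.map _ (QuotientGroup.mk'_surjective _)
    have hle := le_pCore p hn' hp'
    intro h hh
    refine ⟨⟨h, hHN hh⟩, ?_, rfl⟩
    show (⟨h, hHN hh⟩ : ↥(Subgroup.normalizer (H : Set G))) ∈ L'
    rw [hmemL']
    exact hle ⟨⟨h, hHN hh⟩, Subgroup.mem_subgroupOf.mpr hh, rfl⟩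
  have hLN : L'.map (Subgroup.normalizer (H : Set G)).subtype ≤
      Subgroup.normalizer (H : Set G) := Subgroup.map_subtype_le _
  have hNL : Subgroup.normalizer (H : Set G) ≤ Subgroup.normalizer
      ((L'.map (Subgroup.normalizer (H : Set G)).subtype : Subgroup G) : Set G) := by
    intro n hn
    apply Subgroup.le_normalizer_map (Subgroup.normalizer (H : Set G)).subtype
    refine ⟨⟨n, hn⟩, ?_, rfl⟩
    rw [Subgroup.normalizer_eq_top_iff.mpr hL'n]
    trivial
  have hpowL : ∀ x : ↥(Subgroup.normalizer (H : Set G)), x ∈ L' →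
      ∃ k : ℕ, ((x ^ p ^ k : ↥(Subgroup.normalizer (H : Set G))) : G) ∈
        Subgroup.centralizer (H : Set G) := by
    intro x hx
    obtain ⟨k, hk⟩ := (pCore_isPGroup (G := ↥(Subgroup.normalizer (H : Set G)) ⧸
      (Subgroup.centralizer (H : Set G)).subgroupOf (Subgroup.normalizer (H : Set G))) p)
      ⟨_, (hmemL' x).mp hx⟩
    refine ⟨k, (hπ1 _).mp ?_⟩
    rw [map_pow]
    exact congrArg Subtype.val hk
  have hOC := map_pPrimeCore_le_centralizer hHN le_rfl hHp
  have hpowM : ∀ x : ↥(Subgroup.normalizer (H : Set G)),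
      x ∈ Cfsg.pPrimePCore p ↥(Subgroup.normalizer (H : Set G)) →
      ∃ k : ℕ, (x ^ p ^ k : ↥(Subgroup.normalizer (H : Set G))) ∈
        Cfsg.pPrimeCore p ↥(Subgroup.normalizer (H : Set G)) := by
    intro x hx
    obtain ⟨k, hk⟩ := (pCore_isPGroup (G := ↥(Subgroup.normalizer (H : Set G)) ⧸
      Cfsg.pPrimeCore p ↥(Subgroup.normalizer (H : Set G))) p)
      ⟨_, (mem_pPrimePCore_iff p).mp hx⟩
    refine ⟨k, (QuotientGroup.eq_one_iff _).mp ?_⟩
    rw [QuotientGroup.mk_pow]
    exact congrArg Subtype.val hk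
  -- `O_{p',p}(N) ≤ L`
  have hML : (Cfsg.pPrimePCore p ↥(Subgroup.normalizer (H : Set G))).map
      (Subgroup.normalizer (H : Set G)).subtype ≤
      L'.map (Subgroup.normalizer (H : Set G)).subtype := by
    apply Subgroup.map_mono
    have hn' : ((Cfsg.pPrimePCore p ↥(Subgroup.normalizer (H : Set G))).map
        (QuotientGroup.mk' ((Subgroup.centralizer (H : Set G)).subgroupOf
          (Subgroup.normalizer (H : Set G))))).Normal :=
      (pPrimePCore_normal' p).map _ (QuotientGroup.mk'_surjective _)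
    have hp' : IsPGroup p ((Cfsg.pPrimePCore p ↥(Subgroup.normalizer (H : Set G))).map
        (QuotientGroup.mk' ((Subgroup.centralizer (H : Set G)).subgroupOf
          (Subgroup.normalizer (H : Set G))))) := by
      rintro ⟨y, x, hx, rfl⟩
      obtain ⟨k, hk⟩ := hpowM x hx
      refine ⟨k, Subtype.ext ?_⟩
      show (QuotientGroup.mk' _ x) ^ p ^ k = 1
      rw [← map_pow]
      exact (hπ1 _).mpr (hOC ⟨_, hk, rfl⟩)
    have hle := le_pCore p hn' hp'
    intro x hx
    rw [hmemL']
    exact hle ⟨x, hx, rfl⟩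
  constructor
  · rintro ⟨-, hidx⟩
    have hpel : ∀ x : G, x ∈ (P : Subgroup G) →
        x ∈ L'.map (Subgroup.normalizer (H : Set G)).subtype → x ∈ H := by
      intro x hxP hxL
      have hQp : IsPGroup p (Subgroup.zpowers x) := hSp.to_le (Subgroup.zpowers_le.mpr hxP)
      obtain ⟨l, hl, hconj⟩ := exists_conj_mem_of_relIndex hHp hidx hQp
        (Subgroup.zpowers_le.mpr hxL)
      have h1 := hconj x (Subgroup.mem_zpowers x)
      have h2 := (Subgroup.mem_normalizer_iff.mp (inv_mem (hLN hl)) _).mp h1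
      have e : l⁻¹ * (l * x * l⁻¹) * l⁻¹⁻¹ = x := by group
      rwa [e] at h2
    have hcen : (P : Subgroup G) ⊓ Subgroup.centralizer (H : Set G) ≤ H := by
      intro x hx
      exact hpel x (Subgroup.mem_inf.mp hx).1 (hCL (Subgroup.mem_inf.mp hx).2)
    have hrad : (P : Subgroup G) ⊓ (Cfsg.pPrimePCore p ↥(Subgroup.normalizer (H : Set G))).map
        (Subgroup.normalizer (H : Set G)).subtype ≤ H := by
      intro x hx
      exact hpel x (Subgroup.mem_inf.mp hx).1 (hML (Subgroup.mem_inf.mp hx).2)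
    obtain ⟨-, hC', ⟨-, hUL, -, -, hsup⟩, -⟩ := mem_agFam_of_centric P hHP hSyl hcen hrad
    refine ⟨hcen, le_antisymm ?_ (sup_le hUL hC')⟩
    rw [← hsup]
    exact sup_le (hOC.trans le_sup_right) le_sup_left
  · rintro ⟨hcen, hM⟩
    have hrad : ∀ x : G, x ∈ (P : Subgroup G) →
        x ∈ (Cfsg.pPrimePCore p ↥(Subgroup.normalizer (H : Set G))).map
          (Subgroup.normalizer (H : Set G)).subtype → x ∈ H := by
      intro x hxP hxM
      rw [hM] at hxM
      obtain ⟨h, hh, c, hc, rfl⟩ := Helper11.mem_sup_of_le_normalizer hCN hxM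
      have hcP : c ∈ (P : Subgroup G) := by
        have : c = h⁻¹ * (h * c) := by group
        rw [this]; exact mul_mem (inv_mem (hHP hh)) hxP
      exact mul_mem hh (hcen (Subgroup.mem_inf.mpr ⟨hcP, hc⟩))
    -- `L ≤ O_{p',p}(N)`
    have hLM : L' ≤ Cfsg.pPrimePCore p ↥(Subgroup.normalizer (H : Set G)) := by
      have hn' : (L'.map (QuotientGroup.mk'
          (Cfsg.pPrimeCore p ↥(Subgroup.normalizer (H : Set G))))).Normal :=
        hL'n.map _ (QuotientGroup.mk'_surjective _)
      have hp' : IsPGroup p (L'.map (QuotientGroup.mk'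
          (Cfsg.pPrimeCore p ↥(Subgroup.normalizer (H : Set G))))) := by
        rintro ⟨y, x, hx, rfl⟩
        obtain ⟨a, ha⟩ := hpowL x hx
        have hxM : (x ^ p ^ a : ↥(Subgroup.normalizer (H : Set G))) ∈
            Cfsg.pPrimePCore p ↥(Subgroup.normalizer (H : Set G)) := by
          have h1 : ((x ^ p ^ a : ↥(Subgroup.normalizer (H : Set G))) : G) ∈
              (Cfsg.pPrimePCore p ↥(Subgroup.normalizer (H : Set G))).map
                (Subgroup.normalizer (H : Set G)).subtype := by
            rw [hM]; exact Subgroup.mem_sup_right ha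
          obtain ⟨m, hm, hmx⟩ := h1
          have : m = x ^ p ^ a := Subtype.ext hmx
          rw [← this]; exact hm
        obtain ⟨b, hb⟩ := hpowM _ hxM
        refine ⟨a + b, Subtype.ext ?_⟩
        show (QuotientGroup.mk' _ x) ^ p ^ (a + b) = 1
        rw [← map_pow, pow_add, pow_mul]
        exact (QuotientGroup.eq_one_iff _).mpr hb
      have hle := le_pCore p hn' hp'
      intro x hx
      rw [mem_pPrimePCore_iff]
      exact hle ⟨x, hx, rfl⟩
    refine ⟨hHL, ?_⟩
    have hRL := inf_relIndex_normal hRp hSyl hLN hNL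
    have heq : (P : Subgroup G) ⊓ Subgroup.normalizer (H : Set G) ⊓
        L'.map (Subgroup.normalizer (H : Set G)).subtype = H := by
      apply le_antisymm
      · intro x hx
        obtain ⟨hx1, hx2⟩ := Subgroup.mem_inf.mp hx
        exact hrad x (Subgroup.mem_inf.mp hx1).1 (Subgroup.map_mono hLM hx2)
      · exact le_inf (le_inf hHP hHN) hHL
    rwa [heq] at hRL

/-- Let P be a Sylow p-subgroup of the finite group G and H ≤ P a subgroup with N_P(H) a Sylow p-subgroup of N_G(H). Let N be the preimage in N_G(H) of O_p(N_G(H)/C_G(H)). Then H is a Sylow p-subgroup of N if and only if C_P(H) ≤ H and O_{p',p}(N_G(H)) = H·C_G(H). -/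
theorem result {G : Type*} [Group G] [Finite G] {p : ℕ} [Fact p.Prime]
    (P : Sylow p G) (H : Subgroup G) (hHP : H ≤ (P : Subgroup G))
    (hSyl : ¬ p ∣ ((P : Subgroup G) ⊓ Subgroup.normalizer (H : Set G)).relIndex (Subgroup.normalizer (H : Set G)))
    [hC : ((Subgroup.centralizer (H : Set G)).subgroupOf (Subgroup.normalizer (H : Set G))).Normal] :
    (H ≤ ((Cfsg.pCore p (↥(Subgroup.normalizer (H : Set G)) ⧸
              (Subgroup.centralizer (H : Set G)).subgroupOf (Subgroup.normalizer (H : Set G)))).comap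
            (QuotientGroup.mk' _)).map (Subgroup.normalizer (H : Set G)).subtype ∧
      ¬ p ∣ H.relIndex (((Cfsg.pCore p (↥(Subgroup.normalizer (H : Set G)) ⧸
              (Subgroup.centralizer (H : Set G)).subgroupOf (Subgroup.normalizer (H : Set G)))).comap
            (QuotientGroup.mk' _)).map (Subgroup.normalizer (H : Set G)).subtype)) ↔
    ((P : Subgroup G) ⊓ Subgroup.centralizer (H : Set G) ≤ H ∧
      (Cfsg.pPrimePCore p ↥(Subgroup.normalizer (H : Set G))).map (Subgroup.normalizer (H : Set G)).subtype =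
        H ⊔ Subgroup.centralizer (H : Set G)) := by
  exact main P H hHP hSyl _ rfl

end Cfsg.Agent.S3076
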