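import Cfsg.Statements.S3087
import Mathlib

set_option autoImplicit false
open Cfsg

namespace Cfsg.Agent.S3087

/-- fixed points of a subgroup, as an additive subgroup -/
def fixedPts {G V : Type*} [Group G] [AddCommGroup V] (p : ℕ) [Module (ZMod p) V]
    (ρ : Representation (ZMod p) G V) (B : Subgroup G) : AddSubgroup V where
  carrier := {v | ∀ b ∈ B, ρ b v = v}
  zero_mem' := by intro b _; simp
  add_mem' := by
    intro x y hx hy b hb
    simp only [map_add, hx b hb, hy b hb]
  neg_mem' := by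
    intro x hx b hb
    simp only [map_neg, hx b hb]

theorem card_fixed {G V : Type*} [Group G] [AddCommGroup V] (p : ℕ) [Module (ZMod p) V]
    (ρ : Representation (ZMod p) G V) (B : Subgroup G) :
    Nat.card {v : V // ∀ b ∈ B, ρ b v = v} = Nat.card (fixedPts p ρ B) := rfl

theorem card_fixedW {G V : Type*} [Group G] [AddCommGroup V] (p : ℕ) [Module (ZMod p) V]
    (ρ : Representation (ZMod p) G V) (W : Submodule (ZMod p) V) (B : Subgroup G) :
    Nat.card {w : W // ∀ b ∈ B, ρ b w = w} =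
      Nat.card (W.toAddSubgroup ⊓ fixedPts p ρ B : AddSubgroup V) := by
  apply Nat.card_congr
  refine ⟨fun w => ⟨w.1.1, w.1.2, w.2⟩, fun v => ⟨⟨v.1, v.2.1⟩, v.2.2⟩, ?_, ?_⟩
  · intro w; rfl
  · intro v; rfl

theorem add_card_mul_relIndex {V : Type*} [AddCommGroup V] {H K : AddSubgroup V} (h : H ≤ K) :
    Nat.card H * H.relIndex K = Nat.card K := by
  have := (H.addSubgroupOf K).card_mul_index
  rw [← this, AddSubgroup.relIndex]
  congr 1
  exact Nat.card_congr (AddSubgroup.addSubgroupOfEquivOfLe h).toEquiv.symm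

/-- Let p be a prime, G a finite group acting linearly on a finite vector space V over the field with p elements, W a G-invariant subspace, and A a subgroup of G with |A|·|C_V(A)| ≥ |B|·|C_V(B)| for every subgroup B of A. Then |A|·|C_W(A)| ≥ |B|·|C_W(B)| for every subgroup B of A that contains C_A(W); that is, the image of A in the group induced on W satisfies the same maximality condition. -/
theorem result {G V : Type*} [Group G] [Finite G] [AddCommGroup V] [Finite V] (p : ℕ) [Fact p.Prime] [Module (ZMod p) V]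
    (ρ : Representation (ZMod p) G V) (W : Submodule (ZMod p) V) (hW : ∀ g : G, ∀ w ∈ W, ρ g w ∈ W)
    (A : Subgroup G)
    (hP : ∀ B : Subgroup G, B ≤ A →
      Nat.card ↥B * Nat.card {v : V // ∀ b ∈ B, ρ b v = v} ≤ Nat.card ↥A * Nat.card {v : V // ∀ a ∈ A, ρ a v = v})
    (B : Subgroup G) (hBA : B ≤ A) (hCB : ∀ a ∈ A, (∀ w ∈ W, ρ a w = w) → a ∈ B) :
    Nat.card ↥B * Nat.card {w : W // ∀ b ∈ B, ρ b w = w} ≤ Nat.card ↥A * Nat.card {w : W // ∀ a ∈ A, ρ a w = w} := by
  classical
  have hAB : fixedPts p ρ A ≤ fixedPts p ρ B := fun v hv b hb => hv b (hBA hb)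
  have h1 := hP B hBA
  rw [card_fixed, card_fixed] at h1
  rw [card_fixedW, card_fixedW]
  set CA := fixedPts p ρ A
  set CB := fixedPts p ρ B
  set Wa := W.toAddSubgroup
  have e1 : Nat.card CA * CA.relIndex CB = Nat.card CB := add_card_mul_relIndex hAB
  have hle : Wa ⊓ CA ≤ Wa ⊓ CB := inf_le_inf_left _ hAB
  have e2 : Nat.card (Wa ⊓ CA : AddSubgroup V) * (Wa ⊓ CA).relIndex (Wa ⊓ CB) =
      Nat.card (Wa ⊓ CB : AddSubgroup V) := add_card_mul_relIndex hle
  have e3 : (Wa ⊓ CA).relIndex (Wa ⊓ CB) = CA.relIndex (Wa ⊓ CB) := by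
    rw [← AddSubgroup.inf_relIndex_right CA (Wa ⊓ CB)]
    congr 1
    rw [inf_comm Wa CA, inf_comm Wa CB, ← inf_assoc, inf_eq_left.mpr hAB]
  have hne : CA.relIndex CB ≠ 0 := by
    intro h0
    rw [h0, mul_zero] at e1
    exact (Nat.card_pos (α := CB)).ne' e1.symm
  have e4 : CA.relIndex (Wa ⊓ CB) ≤ CA.relIndex CB :=
    AddSubgroup.relIndex_le_of_le_right inf_le_right hne
  rw [← e2, e3]
  rw [← e1] at h1
  have hpos : 0 < Nat.card CA := Nat.card_pos
  have h2 : Nat.card B * CA.relIndex CB ≤ Nat.card A := by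
    have : Nat.card CA * (Nat.card B * CA.relIndex CB) ≤ Nat.card CA * Nat.card A := by
      calc Nat.card CA * (Nat.card B * CA.relIndex CB)
          = Nat.card B * (Nat.card CA * CA.relIndex CB) := by ring
        _ ≤ Nat.card A * Nat.card CA := h1
        _ = Nat.card CA * Nat.card A := by ring
    exact Nat.le_of_mul_le_mul_left this hpos
  calc Nat.card B * (Nat.card (Wa ⊓ CA : AddSubgroup V) * CA.relIndex (Wa ⊓ CB))
      = Nat.card (Wa ⊓ CA : AddSubgroup V) * (Nat.card B * CA.relIndex (Wa ⊓ CB)) := by ring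
    _ ≤ Nat.card (Wa ⊓ CA : AddSubgroup V) * (Nat.card B * CA.relIndex CB) :=
        Nat.mul_le_mul_left _ (Nat.mul_le_mul_left _ e4)
    _ ≤ Nat.card (Wa ⊓ CA : AddSubgroup V) * Nat.card A := Nat.mul_le_mul_left _ h2
    _ = Nat.card A * Nat.card (Wa ⊓ CA : AddSubgroup V) := by ring

end Cfsg.Agent.S3087
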