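import Cfsg.Statements.S3155
import Mathlib

set_option autoImplicit false
open Cfsg

namespace Cfsg.Agent.S3155

/-- Let B be the direct product of three cyclic groups of order 4. Then the automorphism of B inverting every element is not the square of any automorphism of B. -/
theorem result {B : Type*} [CommGroup B] [Finite B] (hB : Nonempty (B ≃* Multiplicative (ZMod 4 × ZMod 4 × ZMod 4)))
    (τ : B ≃* B) : τ.trans τ ≠ MulEquiv.inv B := by
  classical
  haveI : Fact (1 < 4) := ⟨by norm_num⟩
  obtain ⟨e⟩ := hB
  intro hτ
  -- transport to an additive endomorphism of `(ZMod 4)^3`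
  let M := ZMod 4 × ZMod 4 × ZMod 4
  let σ : M →+ M := MonoidHom.toAdditive
    ((e.toMonoidHom.comp τ.toMonoidHom).comp e.symm.toMonoidHom)
  have hσ : ∀ m : M, σ (σ m) = -m := by
    intro m
    have h1 : ∀ b : B, τ (τ b) = b⁻¹ := fun b => by
      have := congrArg (fun f : B ≃* B => f b) hτ
      simpa using this
    show Multiplicative.toAdd (e (τ (e.symm (Multiplicative.ofAdd
      (Multiplicative.toAdd (e (τ (e.symm (Multiplicative.ofAdd m))))))))) = -m
    simp only [ofAdd_toAdd, MulEquiv.symm_apply_apply, h1, map_inv, MulEquiv.apply_symm_apply]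
    rfl
  let f : M →ₗ[ZMod 4] M := σ.toZModLinearMap 4
  have hf : f.comp f = (-1 : ZMod 4) • LinearMap.id := by
    refine LinearMap.ext fun m => ?_
    show σ (σ m) = (-1 : ZMod 4) • m
    rw [hσ, neg_one_smul]
  have hdet := congrArg LinearMap.det hf
  rw [LinearMap.det_comp, LinearMap.det_smul, LinearMap.det_id] at hdet
  have hrank : Module.finrank (ZMod 4) M = 3 := by
    show Module.finrank (ZMod 4) (ZMod 4 × ZMod 4 × ZMod 4) = 3
    rw [Module.finrank_prod, Module.finrank_prod, Module.finrank_self]
  rw [hrank] at hdet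
  revert hdet
  generalize LinearMap.det f = x
  revert x
  decide

end Cfsg.Agent.S3155
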