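import Mathlib
import Cfsg.Statements.S3156
import Cfsg.Agent.S0779
import Cfsg.Agent.S0829
import Cfsg.Agent.Lib.Helper7.SU3Unip
import Cfsg.Agent.Lib.Helper7.SU3Aut
import Cfsg.Agent.Lib.Helper7.SU3Aut2

set_option autoImplicit false
set_option linter.unusedVariables false
open Cfsg

namespace Cfsg.Agent.S3156

open Cfsg.Agent.Lib.Helper7.SU3Unip Cfsg.Agent.Lib.Helper7.SU3Aut Cfsg.Agent.Lib.Helper7.SU3Aut2
open Cfsg.Agent.S0829 (phi_ne_id)

/-- a three-cycle -/
def cyc : Equiv.Perm (Fin 3) := Equiv.swap 0 1 * Equiv.swap 1 2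

/-- a transposition -/
def tr : Equiv.Perm (Fin 3) := Equiv.swap 0 1

theorem cyc3 : cyc * cyc * cyc = 1 := by decide
theorem tr2 : tr * tr = 1 := by decide
theorem cyc_tr : cyc * tr * cyc * tr = 1 := by decide
theorem cyc_ne : cyc ≠ 1 := by decide

/-- If a finite group T is isomorphic to a Sylow 2-subgroup of the projective special unitary group of dimension 3 with parameter 4 (realised over the field with 16 elements), then no subgroup of the automorphism group of T is isomorphic to the symmetric group of degree 3. -/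
theorem result {T : Type*} [Group T] [Finite T] (hT : (∃ (F : Type) (_ : Field F) (_ : Fintype F), Fintype.card F = 16 ∧ ∃ S : Sylow 2 (Cfsg.PSU 3 F 4), Nonempty (T ≃* ↥(S : Subgroup (Cfsg.PSU 3 F 4))))) (H : Subgroup (MulAut T)) : ¬ Nonempty (↥H ≃* Equiv.Perm (Fin 3)) := by
  classical
  obtain ⟨F, iF, iFt, hF, S, ⟨e₁⟩⟩ := hT
  have hF' : Fintype.card F = 4 ^ 2 := by rw [hF]; norm_num
  obtain ⟨φ, hφq, hφ2⟩ := Cfsg.Agent.S0779.exists_frob hF'
  have hφne := phi_ne_id hF' φ hφq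
  have h2 : (2 : F) = 0 := two_eq_zero_of hF' 2 (by omega) (by norm_num)
  obtain ⟨e₂⟩ := exists_equiv φ hφq hφ2 hφne hF' 2 (by omega) (by norm_num) S
  obtain ⟨e, hedef⟩ : ∃ e : T ≃* ↥(UG φ hφ2), e = e₁.trans e₂ := ⟨_, rfl⟩
  rintro ⟨f⟩
  obtain ⟨ρ, hρdef⟩ : ∃ ρ : ↥H, ρ = f.symm cyc := ⟨_, rfl⟩
  obtain ⟨τ, hτdef⟩ : ∃ τ : ↥H, τ = f.symm tr := ⟨_, rfl⟩
  have hρ3' : ρ * ρ * ρ = 1 := by
    rw [hρdef, ← map_mul, ← map_mul, cyc3, map_one]
  have hτ2' : τ * τ = 1 := by
    rw [hτdef, ← map_mul, tr2, map_one]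
  have hinv' : ρ * τ * ρ * τ = 1 := by
    rw [hρdef, hτdef, ← map_mul, ← map_mul, ← map_mul, cyc_tr, map_one]
  have hρ3 : ∀ x : T, (ρ : MulAut T) ((ρ : MulAut T) ((ρ : MulAut T) x)) = x := by
    intro x
    have h := congrArg (fun g : ↥H => (g : MulAut T) x) hρ3'
    simpa only [Subgroup.coe_mul, MulAut.mul_apply, Subgroup.coe_one, MulAut.one_apply] using h
  have hτ2 : ∀ x : T, (τ : MulAut T) ((τ : MulAut T) x) = x := by
    intro x
    have h := congrArg (fun g : ↥H => (g : MulAut T) x) hτ2'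
    simpa only [Subgroup.coe_mul, MulAut.mul_apply, Subgroup.coe_one, MulAut.one_apply] using h
  have hinv : ∀ x : T,
      (ρ : MulAut T) ((τ : MulAut T) ((ρ : MulAut T) ((τ : MulAut T) x))) = x := by
    intro x
    have h := congrArg (fun g : ↥H => (g : MulAut T) x) hinv'
    simpa only [Subgroup.coe_mul, MulAut.mul_apply, Subgroup.coe_one, MulAut.one_apply] using h
  have hfix := s3_trivial φ hφ2 hφne h2 e hφq (ρ : MulAut T) (τ : MulAut T) hτ2 hρ3 hinv
  have hρ1 : ρ = 1 := by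
    apply Subtype.ext
    apply MulEquiv.ext
    intro x
    rw [hfix x]
    rfl
  apply cyc_ne
  have h5 : f ρ = cyc := by rw [hρdef, f.apply_symm_apply]
  rw [← h5, hρ1, map_one]
end Cfsg.Agent.S3156
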