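import Mathlib
import Cfsg.Statements.S3162
import Cfsg.Agent.S0779
import Cfsg.Agent.S0829
import Cfsg.Agent.Lib.Helper7.SU3Unip
import Cfsg.Agent.Lib.Helper7.SU3Aut
import Cfsg.Agent.Lib.Helper7.SU3Aut3

set_option autoImplicit false
set_option linter.unusedVariables false
open Cfsg

namespace Cfsg.Agent.S3162

open Cfsg.Agent.Lib.Helper7.SU3Unip Cfsg.Agent.Lib.Helper7.SU3Aut Cfsg.Agent.Lib.Helper7.SU3Aut3
open Cfsg.Agent.S0829 (phi_ne_id)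

/-- Let S be a Sylow 2-subgroup of the special unitary group of dimension 3 with parameter q = 2^n (n ≥ 2; realised over the field with q² elements). Then the largest normal 2-subgroup of the automorphism group of S is elementary abelian of order 2^(2n²), and the automorphism group has order 2^(2n²) · 2n(q² − 1). -/
theorem result {S : Type*} [Group S] [Finite S] (n : ℕ) (hn : 2 ≤ n) {F : Type*} [Field F] [Fintype F] (hF : Fintype.card F = 4 ^ n)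
    (P : Sylow 2 ↥(Cfsg.SU 3 F (2 ^ n))) (hS : Nonempty (S ≃* ↥(P : Subgroup ↥(Cfsg.SU 3 F (2 ^ n))))) :
    Cfsg.IsElementaryAbelian 2 (Cfsg.pCore 2 (MulAut S)) ∧ Nat.card ↥(Cfsg.pCore 2 (MulAut S)) = 2 ^ (2 * n ^ 2) ∧
      Nat.card (MulAut S) = 2 ^ (2 * n ^ 2) * (2 * n * ((2 ^ n) ^ 2 - 1)) := by
  classical
  obtain ⟨e₁⟩ := hS
  have hF' : Fintype.card F = (2 ^ n) ^ 2 := by
    rw [hF, show (4 : ℕ) = 2 ^ 2 by norm_num, ← pow_mul, ← pow_mul, mul_comm]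
  obtain ⟨φ, hφq, hφ2⟩ := Cfsg.Agent.S0779.exists_frob hF'
  have hφne := phi_ne_id hF' φ hφq
  have h2 : (2 : F) = 0 := two_eq_zero_of hF' n (by omega) rfl
  obtain ⟨e₂⟩ := exists_equiv_SU φ hφq hφ2 hφne hF' n (by omega) rfl P
  obtain ⟨e, hedef⟩ : ∃ e : S ≃* ↥(UG φ hφ2), e = e₁.trans e₂ := ⟨_, rfl⟩
  have hcore := pcore_eq φ hφ2 hφne h2 e
  have hcard := card_aut φ hφ2 hφne h2 e hφq hF' n rfl
  have hK : Nat.card ↥(KK φ hφ2 e) = (2 ^ n) ^ (2 * n) := by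
    rw [card_KK_eq φ hφ2 hφne h2 e, card_zeta φ hφ2 hφne h2 hF' n rfl]
  have hpow : (2 ^ n) ^ (2 * n) = 2 ^ (2 * n ^ 2) := by
    rw [← pow_mul]
    congr 1
    ring
  refine ⟨?_, ?_, ?_⟩
  · rw [hcore]
    exact ⟨⟨⟨fun a b => Subtype.ext (KK_comm φ hφ2 hφne h2 e a.1 b.1 a.2 b.2)⟩⟩,
      fun a ha => KK_sq φ hφ2 hφne h2 e a ha⟩
  · rw [hcore, hK, hpow]
  · rw [hcard, hpow]
    ring
end Cfsg.Agent.S3162
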