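import Mathlib
import Cfsg.Statements.S3179
import Cfsg.Agent.S1163
import Cfsg.Agent.Lib.Helper3.OmegaTools2
import Cfsg.Agent.Lib.Helper3.SUCenter
import Cfsg.Agent.Lib.Helper16.SL2Cent
import Cfsg.Agent.Lib.Helper7.SU3Unip

set_option autoImplicit false
set_option linter.unusedVariables false
open Cfsg

namespace Cfsg.Agent.S3179


/-- The order of `GL₅(2)`. -/
theorem card_GL5 : Nat.card (GL (Fin 5) (ZMod 2)) = 9999360 := by
  rw [Matrix.card_GL_field]
  simp [Fin.prod_univ_five, ZMod.card]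

/-- Two commuting matrices of order three. -/
def aM : Matrix (Fin 5) (Fin 5) (ZMod 2) :=
  !![0,1,0,0,0; 1,1,0,0,0; 0,0,1,0,0; 0,0,0,1,0; 0,0,0,0,1]

def bM : Matrix (Fin 5) (Fin 5) (ZMod 2) :=
  !![1,0,0,0,0; 0,1,0,0,0; 0,0,0,1,0; 0,0,1,1,0; 0,0,0,0,1]

theorem aM3 : aM * (aM * aM) = 1 := by decide
theorem aM3' : (aM * aM) * aM = 1 := by decide
theorem bM3 : bM * (bM * bM) = 1 := by decide
theorem bM3' : (bM * bM) * bM = 1 := by decide
theorem abM : aM * bM = bM * aM := by decide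

def aG : GL (Fin 5) (ZMod 2) := ⟨aM, aM * aM, aM3, aM3'⟩
def bG : GL (Fin 5) (ZMod 2) := ⟨bM, bM * bM, bM3, bM3'⟩

theorem aG3 : aG ^ 3 = 1 := by
  apply Units.ext
  rw [Units.val_pow_eq_pow_val, Units.val_one, pow_succ, pow_two]
  exact aM3'

theorem bG3 : bG ^ 3 = 1 := by
  apply Units.ext
  rw [Units.val_pow_eq_pow_val, Units.val_one, pow_succ, pow_two]
  exact bM3'

theorem abG : aG * bG = bG * aG := by
  apply Units.ext
  rw [Units.val_mul, Units.val_mul]
  exact abM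

theorem aG_ne_one : aG ≠ 1 := by
  intro h
  have h1 : aM = 1 := congrArg Units.val h
  revert h1
  decide

theorem bG_ne_one : bG ≠ 1 := by
  intro h
  have h1 : bM = 1 := congrArg Units.val h
  revert h1
  decide

theorem aG_ne_bG : aG ≠ bG := by
  intro h
  have h1 : aM = bM := congrArg Units.val h
  revert h1
  decide

theorem bG_ne_sq : bG ≠ aG ^ 2 := by
  intro h
  have h1 : bM = aM * aM := by
    have := congrArg Units.val h
    rwa [Units.val_pow_eq_pow_val, pow_two] at this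
  revert h1
  decide

theorem aG_ne_sq : aG ≠ bG ^ 2 := by
  intro h
  have h1 : aM = bM * bM := by
    have := congrArg Units.val h
    rwa [Units.val_pow_eq_pow_val, pow_two] at this
  revert h1
  decide

attribute [irreducible] aG bG

theorem isPGroup_zpowers {G : Type*} [Group G] (g : G) (n : ℕ) (h : g ^ 3 ^ n = 1) :
    IsPGroup 3 (Subgroup.zpowers g) := by
  rintro ⟨y, hy⟩
  obtain ⟨i, rfl⟩ := Subgroup.mem_zpowers_iff.mp hy
  refine ⟨n, Subtype.ext ?_⟩
  rw [Subgroup.coe_pow, Subgroup.coe_one]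
  show (g ^ i) ^ 3 ^ n = 1
  rw [← zpow_natCast, ← _root_.zpow_mul, mul_comm, _root_.zpow_mul, zpow_natCast, h, one_zpow]

theorem norm_comm {G : Type*} [Group G] (a b : G) (hab : a * b = b * a) :
    Subgroup.zpowers a ≤ Subgroup.normalizer (Subgroup.zpowers b : Set G) := by
  rw [Subgroup.zpowers_le, Subgroup.mem_normalizer_iff]
  intro h
  constructor
  · intro hh
    obtain ⟨j, rfl⟩ := Subgroup.mem_zpowers_iff.mp hh
    have hc : Commute a (b ^ j) := Commute.zpow_right (show Commute a b from hab) j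
    rw [hc.eq, mul_inv_cancel_right]
    exact hh
  · intro hh
    obtain ⟨j, hj⟩ := Subgroup.mem_zpowers_iff.mp hh
    have hc : Commute a (b ^ j) := Commute.zpow_right (show Commute a b from hab) j
    have e1 : h = a⁻¹ * (b ^ j) * a := by rw [hj]; group
    rw [e1, mul_assoc, ← hc.eq, inv_mul_cancel_left]
    exact Subgroup.zpow_mem_zpowers b j

theorem key_cyc {G : Type*} [Group G] (g' : G) (ho : orderOf g' = 9) (y : G)
    (hy : y ∈ Subgroup.zpowers g') (hy3 : y ^ 3 = 1) :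
    y = 1 ∨ y = g' ^ 3 ∨ y = (g' ^ 3) ^ 2 := by
  have hg'9 : g' ^ 9 = 1 := by rw [← ho]; exact pow_orderOf_eq_one g'
  have hc3 : (g' ^ 3) ^ 3 = 1 := by
    rw [← pow_mul]
    exact hg'9
  obtain ⟨i, rfl⟩ := Subgroup.mem_zpowers_iff.mp hy
  have h1 : (orderOf g' : ℤ) ∣ i * 3 := by
    rw [orderOf_dvd_iff_zpow_eq_one, _root_.zpow_mul]
    exact_mod_cast hy3
  rw [ho] at h1
  have h2 : (3 : ℤ) ∣ i := by omega
  obtain ⟨j, rfl⟩ := h2
  have hj : g' ^ (3 * j) = (g' ^ 3) ^ (j % 3) := by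
    have e1 : j = 3 * (j / 3) + j % 3 := by omega
    have e2 : g' ^ (3 * j) = (g' ^ 3) ^ j := by
      rw [_root_.zpow_mul]
      norm_cast
    rw [e2]
    conv_lhs => rw [e1]
    rw [_root_.zpow_add, _root_.zpow_mul]
    have e3 : (g' ^ 3) ^ (3 : ℤ) = 1 := by
      norm_cast
    rw [e3, one_zpow, one_mul]
  rcases (by omega : j % 3 = 0 ∨ j % 3 = 1 ∨ j % 3 = 2) with h | h | h
  · left
    rw [hj, h, zpow_zero]
  · right; left
    rw [hj, h, zpow_one]
  · right; right
    rw [hj, h]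
    norm_cast

theorem exists_Q : ∃ Q : Sylow 3 (GL (Fin 5) (ZMod 2)),
    aG ∈ (Q : Subgroup (GL (Fin 5) (ZMod 2))) ∧ bG ∈ (Q : Subgroup (GL (Fin 5) (ZMod 2))) := by
  have hA : IsPGroup 3 (Subgroup.zpowers aG) :=
    isPGroup_zpowers aG 1 (by rw [pow_one]; exact aG3)
  have hB : IsPGroup 3 (Subgroup.zpowers bG) :=
    isPGroup_zpowers bG 1 (by rw [pow_one]; exact bG3)
  have hAB := IsPGroup.to_sup_of_normal_right' hA hB (norm_comm aG bG abG)
  obtain ⟨Q, hQ⟩ := hAB.exists_le_sylow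
  exact ⟨Q, hQ (Subgroup.mem_sup_left (Subgroup.mem_zpowers aG)),
    hQ (Subgroup.mem_sup_right (Subgroup.mem_zpowers bG))⟩

theorem card_Q_le (Q : Sylow 3 (GL (Fin 5) (ZMod 2))) :
    Nat.card (Q : Subgroup (GL (Fin 5) (ZMod 2))) ≤ 9 := by
  obtain ⟨k, hk⟩ := IsPGroup.iff_card.mp Q.isPGroup'
  have hdvd : 3 ^ k ∣ 9999360 := by
    rw [← hk, ← card_GL5]
    exact Subgroup.card_subgroup_dvd_card _
  have hk2 : k ≤ 2 := by
    by_contra hcon
    have h27 : 3 ^ 3 ∣ 9999360 := (Nat.pow_dvd_pow 3 (by omega)).trans hdvd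
    norm_num at h27
  rw [hk]
  calc 3 ^ k ≤ 3 ^ 2 := Nat.pow_le_pow_right (by norm_num) hk2
    _ = 9 := by norm_num

/-- Every element of `GL₅(2)` whose ninth power is trivial has trivial cube. -/
theorem no9 (g : GL (Fin 5) (ZMod 2)) (hg : g ^ 9 = 1) : g ^ 3 = 1 := by
  classical
  by_contra h3
  have : Fact (Nat.Prime 3) := ⟨by norm_num⟩
  obtain ⟨Q, haQ, hbQ⟩ := exists_Q
  have hG : IsPGroup 3 (Subgroup.zpowers g) :=
    isPGroup_zpowers g 2 (by rw [show (3 : ℕ) ^ 2 = 9 from by norm_num]; exact hg)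
  obtain ⟨Q', hQ'⟩ := hG.exists_le_sylow
  obtain ⟨x, hx⟩ := MulAction.exists_smul_eq (GL (Fin 5) (ZMod 2)) Q' Q
  have hg'Q : x * g * x⁻¹ ∈ (Q : Subgroup (GL (Fin 5) (ZMod 2))) := by
    rw [← hx, Sylow.coe_subgroup_smul, Subgroup.mem_pointwise_smul_iff_inv_smul_mem]
    have e1 : (MulAut.conj x)⁻¹ • (x * g * x⁻¹) = g := by
      rw [← map_inv, MulAut.smul_def, MulAut.conj_apply]
      group
    rw [e1]
    exact hQ' (Subgroup.mem_zpowers g)
  obtain ⟨g', hg'def⟩ : ∃ g', g' = x * g * x⁻¹ := ⟨_, rfl⟩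
  rw [← hg'def] at hg'Q
  have hg'9 : g' ^ 9 = 1 := by
    rw [hg'def, conj_pow, hg]
    group
  have hg'3 : g' ^ 3 ≠ 1 := by
    intro h
    apply h3
    rw [hg'def, conj_pow] at h
    have h4 : x⁻¹ * (x * g ^ 3 * x⁻¹) * x = x⁻¹ * 1 * x := by rw [h]
    rw [mul_one, inv_mul_cancel] at h4
    rw [← h4]
    group
  have ho : orderOf g' = 9 := by
    have h5 := orderOf_eq_prime_pow (p := 3) (n := 1) (x := g')
      (by rw [pow_one]; exact hg'3)
      (by rw [show (3 : ℕ) ^ (1 + 1) = 9 from by norm_num]; exact hg'9)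
    exact h5.trans (by norm_num)
  have hcz : Nat.card (Subgroup.zpowers g') = 9 := by rw [Nat.card_zpowers, ho]
  have hQeq : Subgroup.zpowers g' = (Q : Subgroup (GL (Fin 5) (ZMod 2))) := by
    apply Subgroup.eq_of_le_of_card_ge (Subgroup.zpowers_le.mpr hg'Q)
    rw [hcz]
    exact card_Q_le Q
  rw [← hQeq] at haQ hbQ
  rcases key_cyc g' ho aG haQ aG3 with h | h | h
  · exact aG_ne_one h
  · rcases key_cyc g' ho bG hbQ bG3 with h' | h' | h'
    · exact bG_ne_one h'
    · exact aG_ne_bG (h.trans h'.symm)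
    · exact bG_ne_sq (by rw [h', h])
  · rcases key_cyc g' ho bG hbQ bG3 with h' | h' | h'
    · exact bG_ne_one h'
    · exact aG_ne_sq (by rw [h, h'])
    · exact aG_ne_bG (h.trans h'.symm)

theorem pow_big (h : GL (Fin 5) (ZMod 2)) : h ^ 3333120 = 1 := by
  have h1 : h ^ 9999360 = 1 := by
    rw [← card_GL5]
    exact pow_card_eq_one'
  have e : 1111040 * 9 = 9999360 := by norm_num
  have h2 : (h ^ 1111040) ^ 9 = 1 := by
    rw [← pow_mul, e]
    exact h1
  have h3 := no9 _ h2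
  rw [← pow_mul] at h3
  exact h3

section F8

variable {F : Type*} [Field F]

/-- The matrix `x A + y` for `A = [[0,1],[1,t]]`. -/
def M (t x y : F) : Matrix (Fin 2) (Fin 2) F := !![y, x; x, x * t + y]

theorem M_mul (t x y x' y' : F) :
    M t x y * M t x' y' = M t (x * y' + y * x' + t * x * x') (y * y' + x * x') := by
  ext i j
  fin_cases i <;> fin_cases j <;> simp [M, Matrix.mul_apply, Fin.sum_univ_two] <;> ring

theorem M_one (t : F) : M t 0 1 = 1 := by
  ext i j
  fin_cases i <;> fin_cases j <;> simp [M]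

theorem M_congr (t : F) {x y x' y' : F} (hx : x = x') (hy : y = y') : M t x y = M t x' y' := by
  rw [hx, hy]

theorem M_cube (t : F) : M t 1 0 ^ 3 = M t (t ^ 2 + 1) t := by
  rw [pow_succ, pow_two, M_mul, M_mul]
  apply M_congr <;> ring

theorem M_ninth (t : F) (h2 : (2 : F) = 0) (ht : t ^ 3 + t + 1 = 0) : M t 1 0 ^ 9 = 1 := by
  have e : M t 1 0 ^ 9 = (M t 1 0 ^ 3) ^ 3 := by rw [← pow_mul]
  rw [e, M_cube, pow_succ, pow_two, M_mul, M_mul, ← M_one t]
  apply M_congr
  · linear_combination (-5 + 9*t - t^2 + 6*t^3 + t^5) * ht + (3 - 2*t + t^2) * h2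
  · linear_combination (5 - t + 5*t^2 + t^4) * ht + (-3 - 2*t^2) * h2

theorem exists_t [Fintype F] (hF : Fintype.card F = 8) (h2 : (2 : F) = 0) :
    ∃ t : F, t ^ 3 + t + 1 = 0 := by
  classical
  obtain ⟨x, hx0, hx1⟩ : ∃ x : F, x ≠ 0 ∧ x ≠ 1 := by
    by_contra hcon
    push Not at hcon
    have : Fintype.card F ≤ 2 := by
      calc Fintype.card F = (Finset.univ : Finset F).card := Finset.card_univ.symm
        _ ≤ ({0, 1} : Finset F).card := Finset.card_le_card (fun x _ => by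
            by_cases h : x = 0
            · simp [h]
            · simp [hcon x h])
        _ ≤ 2 := Finset.card_le_two
    omega
  have h8 : x ^ 8 = x := by
    rw [← hF]
    exact FiniteField.pow_card x
  have hprod : x * (x + 1) * ((x ^ 3 + x + 1) * (x ^ 3 + x ^ 2 + 1)) = 0 := by
    linear_combination h8 + (x^7 + x^6 + 2*x^5 + 2*x^4 + x^3 + x^2 + x) * h2
  have hx1' : x + 1 ≠ 0 := by
    intro h
    apply hx1
    linear_combination h - h2
  rcases mul_eq_zero.mp hprod with h | h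
  · rcases mul_eq_zero.mp h with h | h
    · exact absurd h hx0
    · exact absurd h hx1'
  · rcases mul_eq_zero.mp h with h | h
    · exact ⟨x, h⟩
    · refine ⟨x⁻¹, ?_⟩
      field_simp
      linear_combination h

theorem exists_order9 [Fintype F] (hF : Fintype.card F = 8) :
    ∃ y : Matrix.ProjectiveSpecialLinearGroup (Fin 2) F, y ^ 9 = 1 ∧ y ^ 3 ≠ 1 := by
  have h2 : (2 : F) = 0 := by
    have h1 := FiniteField.cast_card_eq_zero F
    rw [hF] at h1
    have e8 : ((8 : ℕ) : F) = 2 ^ 3 := by norm_num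
    rw [e8] at h1
    exact (pow_eq_zero_iff (by norm_num)).mp h1
  obtain ⟨t, ht⟩ := exists_t hF h2
  have hdet : (M t 1 0).det = 1 := by
    rw [M, Matrix.det_fin_two_of]
    linear_combination (-1 : F) * h2
  obtain ⟨A, hAdef⟩ : ∃ A : Matrix.SpecialLinearGroup (Fin 2) F, A.1 = M t 1 0 :=
    ⟨⟨M t 1 0, hdet⟩, rfl⟩
  have hA9 : A ^ 9 = 1 := by
    apply Subtype.ext
    rw [Matrix.SpecialLinearGroup.coe_pow, Matrix.SpecialLinearGroup.coe_one, hAdef]
    exact M_ninth t h2 ht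
  have hA3 : A ^ 3 ≠ 1 := by
    intro h
    have h1 : (M t 1 0) ^ 3 = 1 := by
      have h0 := congrArg Subtype.val h
      rwa [Matrix.SpecialLinearGroup.coe_pow, Matrix.SpecialLinearGroup.coe_one, hAdef] at h0
    rw [M_cube, ← M_one t] at h1
    have h01 := congrFun (congrFun h1 0) 1
    simp [M] at h01
    have h10 : (1 : F) = 0 := by linear_combination ht - t * h01
    exact one_ne_zero h10
  refine ⟨QuotientGroup.mk A, ?_, ?_⟩
  · rw [← QuotientGroup.mk_pow, hA9]
    rfl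
  · rw [← QuotientGroup.mk_pow]
    intro h
    have hmem : A ^ 3 ∈ Subgroup.center (Matrix.SpecialLinearGroup (Fin 2) F) :=
      (QuotientGroup.eq_one_iff _).mp h
    have hc := Cfsg.Agent.Lib.Helper3.card_center_SL2_char_two F h2
    have hsub : Subsingleton (Subgroup.center (Matrix.SpecialLinearGroup (Fin 2) F)) :=
      (Nat.card_eq_one_iff_unique.mp hc).1
    have h5 := congrArg Subtype.val
      (Subsingleton.elim (⟨A ^ 3, hmem⟩ : Subgroup.center (Matrix.SpecialLinearGroup (Fin 2) F)) 1)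
    exact hA3 h5

end F8

/-- Let X be a section of the general linear group GL(5, 2), that is, a quotient of a subgroup of it. If X is isomorphic to PSL(2, 2^n) for some n ≥ 2, to a Suzuki group over the field with 2^(2m+1) elements for some m ≥ 1, or to PSU(3, 2^n) for some n ≥ 2, then X is isomorphic to PSL(2, 4). -/
theorem result {H : Subgroup (GL (Fin 5) (ZMod 2))}
    {K : Subgroup ↥H} [K.Normal]
    (hX : (∃ (n : ℕ) (F : Type) (_ : Field F) (_ : Fintype F), 2 ≤ n ∧ Fintype.card F = 2 ^ n ∧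
        Nonempty (↥H ⧸ K ≃* Matrix.ProjectiveSpecialLinearGroup (Fin 2) F)) ∨
      (∃ (m : ℕ) (F : Type) (_ : Field F) (_ : Fintype F), 1 ≤ m ∧ Fintype.card F = 2 ^ (2 * m + 1) ∧
        Nonempty (↥H ⧸ K ≃* ↥(Cfsg.Lie.Sz F (2 ^ (m + 1))))) ∨
      (∃ (n : ℕ) (F : Type) (_ : Field F) (_ : Fintype F), 2 ≤ n ∧ Fintype.card F = 4 ^ n ∧
        Nonempty (↥H ⧸ K ≃* Cfsg.PSU 3 F (2 ^ n)))) :
    ∃ (F : Type) (_ : Field F) (_ : Fintype F), Fintype.card F = 4 ∧
      Nonempty (↥H ⧸ K ≃* Matrix.ProjectiveSpecialLinearGroup (Fin 2) F) := by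
  classical
  have hXdvd : Nat.card (↥H ⧸ K) ∣ 9999360 := by
    rw [← card_GL5]
    exact (Dvd.intro _ (Subgroup.card_eq_card_quotient_mul_card_subgroup K).symm).trans
      (Subgroup.card_subgroup_dvd_card H)
  rcases hX with ⟨n, F, iF, iFt, hn, hF, ⟨e⟩⟩ | ⟨m, F, iF, iFt, hm, hF, ⟨e⟩⟩ |
    ⟨n, F, iF, iFt, hn, hF, ⟨e⟩⟩
  · have h2 : (2 : F) = 0 := by
      have h1 := FiniteField.cast_card_eq_zero F
      rw [hF] at h1
      push_cast at h1
      exact (pow_eq_zero_iff (by omega)).mp h1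
    have hc1 := Cfsg.Agent.Lib.Helper3.card_center_SL2_char_two F h2
    have hcard : Nat.card (Matrix.SpecialLinearGroup (Fin 2) F ⧸
        Subgroup.center (Matrix.SpecialLinearGroup (Fin 2) F)) =
        2 ^ n * ((2 ^ n - 1) * (2 ^ n + 1)) := by
      have h5 := Subgroup.card_eq_card_quotient_mul_card_subgroup
        (Subgroup.center (Matrix.SpecialLinearGroup (Fin 2) F))
      rw [hc1, mul_one, Cfsg.Agent.Lib.Helper16.card_SL2_eq, hF] at h5
      exact h5.symm
    have hdvd : 2 ^ n * ((2 ^ n - 1) * (2 ^ n + 1)) ∣ 9999360 := by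
      rw [← hcard]
      have h6 := Nat.card_congr e.toEquiv
      rw [h6] at hXdvd
      exact hXdvd
    have hn10 : n ≤ 10 := by
      by_contra hcon
      have h11 : 2 ^ 11 ∣ 9999360 :=
        ((Nat.pow_dvd_pow 2 (by omega : 11 ≤ n)).trans (dvd_mul_right _ _)).trans hdvd
      norm_num at h11
    interval_cases n
    · exact ⟨F, iF, iFt, by rw [hF]; norm_num, ⟨e⟩⟩
    · exfalso
      obtain ⟨y, hy9, hy3⟩ := exists_order9 (F := F) (by rw [hF]; norm_num)
      obtain ⟨x, rfl⟩ := e.surjective y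
      have hx9 : x ^ 9 = 1 := by
        apply e.injective
        rw [map_pow, hy9, map_one]
      have hx3 : x ^ 3 ≠ 1 := by
        intro h
        apply hy3
        rw [← map_pow, h, map_one]
      obtain ⟨h, rfl⟩ := QuotientGroup.mk_surjective x
      have hbig : (QuotientGroup.mk h : ↥H ⧸ K) ^ 3333120 = 1 := by
        rw [← QuotientGroup.mk_pow]
        have h7 : h ^ 3333120 = 1 := Subtype.ext (by
          rw [Subgroup.coe_pow]
          exact pow_big _)
        rw [h7]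
        rfl
      have ho1 : orderOf (QuotientGroup.mk h : ↥H ⧸ K) ∣ 9 := orderOf_dvd_of_pow_eq_one hx9
      have ho2 : orderOf (QuotientGroup.mk h : ↥H ⧸ K) ∣ 3333120 :=
        orderOf_dvd_of_pow_eq_one hbig
      have ho3 : orderOf (QuotientGroup.mk h : ↥H ⧸ K) ∣ 3 := by
        have h8 := Nat.dvd_gcd ho1 ho2
        have e9 : Nat.gcd 9 3333120 = 3 := by norm_num
        rwa [e9] at h8
      exact hx3 (orderOf_dvd_iff_pow_eq_one.mp ho3)
    all_goals (exfalso; norm_num at hdvd)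
  · have hcard := (Cfsg.Agent.S1163.result hm hF).1
    have hdvd : (2 ^ (2 * m + 1)) ^ 2 * (2 ^ (2 * m + 1) - 1) * ((2 ^ (2 * m + 1)) ^ 2 + 1) ∣
        9999360 := by
      rw [← hcard]
      have h6 := Nat.card_congr e.toEquiv
      rw [h6] at hXdvd
      exact hXdvd
    have hm2 : m ≤ 2 := by
      by_contra hcon
      have h11 : 2 ^ 11 ∣ 9999360 := by
        have h12 : 2 ^ 11 ∣ (2 ^ (2 * m + 1)) ^ 2 := by
          rw [← pow_mul]
          exact Nat.pow_dvd_pow 2 (by omega)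
        exact (h12.trans ((dvd_mul_right _ _).trans (dvd_mul_right _ _))).trans hdvd
      norm_num at h11
    exfalso
    interval_cases m <;> norm_num at hdvd
  · have hF' : Fintype.card F = (2 ^ n) ^ 2 := by
      rw [hF, ← pow_mul, mul_comm, pow_mul]
      norm_num
    have hSU := Cfsg.Agent.Lib.Helper7.SU3Unip.card_SU3 hF'
    have hcen := Cfsg.Agent.Lib.Helper3.card_center_SU hF' 3 (by norm_num)
    have h5 := Subgroup.card_eq_card_quotient_mul_card_subgroup
      (Subgroup.center ↥(SU 3 F (2 ^ n)))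
    rw [hSU, hcen] at h5
    have hdvd : (2 ^ n) ^ 3 * (((2 ^ n) ^ 2 - 1) * ((2 ^ n) ^ 3 + 1)) ∣ 9999360 * 3 := by
      rw [h5]
      have h6 := Nat.card_congr e.toEquiv
      rw [h6] at hXdvd
      exact Nat.mul_dvd_mul hXdvd (Nat.gcd_dvd_left 3 _)
    have hn3 : n ≤ 3 := by
      by_contra hcon
      have h12 : 2 ^ 12 ∣ 9999360 * 3 := by
        have h13 : 2 ^ 12 ∣ (2 ^ n) ^ 3 := by
          rw [← pow_mul]
          exact Nat.pow_dvd_pow 2 (by omega)
        exact (h13.trans (dvd_mul_right _ _)).trans hdvd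
      norm_num at h12
    exfalso
    interval_cases n <;> norm_num at hdvd
end Cfsg.Agent.S3179
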