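import Cfsg.Statements.S3180
import Cfsg.Agent.Lib.Helper19.SylowAux

set_option autoImplicit false
open Cfsg

namespace Cfsg.Agent.S3180

/-- Let P be a Sylow p-subgroup of a finite group J and P₁ a subgroup of P that is weakly closed in P with respect to J. If J acts on a set and two points, each fixed by every element of P₁, lie in one J-orbit, then they lie in one orbit of the normalizer of P₁ in J. -/
theorem result {J : Type*} [Group J] [Finite J]
    {p : ℕ} [Fact p.Prime] (P : Sylow p J) (P₁ : Subgroup J) (hW : Cfsg.IsWeaklyClosed P₁ (P : Subgroup J))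
    {Ω : Type*} [MulAction J Ω] (x y : Ω) (hx : ∀ g ∈ P₁, g • x = x) (hy : ∀ g ∈ P₁, g • y = y)
    (hc : ∃ g : J, g • x = y) :
    ∃ g ∈ Subgroup.normalizer (P₁ : Set J), g • x = y := by
  classical
  obtain ⟨hP₁P, hwc⟩ := hW
  obtain ⟨g, hg⟩ := hc
  have hP₁p : IsPGroup p P₁ := P.isPGroup'.to_le hP₁P
  have hP₁K : P₁ ≤ MulAction.stabilizer J x := fun a ha => MulAction.mem_stabilizer_iff.mpr (hx a ha)
  have hQK : P₁.map (MulAut.conj g⁻¹).toMonoidHom ≤ MulAction.stabilizer J x := by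
    rintro _ ⟨a, ha, rfl⟩
    rw [MulAction.mem_stabilizer_iff]
    show (g⁻¹ * a * g⁻¹⁻¹) • x = x
    rw [inv_inv, mul_smul, mul_smul, hg, hy a ha, ← hg, inv_smul_smul]
  obtain ⟨k, hkK, R, hRp, -, hP₁R, hkR⟩ :=
    Cfsg.Agent.Lib.Helper19.exists_conj_pgroup_le (MulAction.stabilizer J x) hP₁K hQK hP₁p
      (hP₁p.map _)
  obtain ⟨h, hh⟩ := Cfsg.Agent.Lib.Helper19.exists_conj_mem_sylow P hRp
  have e1 : P₁.map (MulAut.conj h).toMonoidHom = P₁ := by
    apply hwc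
    rintro _ ⟨a, ha, rfl⟩
    exact hh a (hP₁R ha)
  have e2 : P₁.map (MulAut.conj (h * k * g⁻¹)).toMonoidHom = P₁ := by
    apply hwc
    rintro _ ⟨a, ha, rfl⟩
    have h1 : k * (g⁻¹ * a * g⁻¹⁻¹) * k⁻¹ ∈ R := hkR _ ⟨a, ha, rfl⟩
    have h2 := hh _ h1
    show h * k * g⁻¹ * a * (h * k * g⁻¹)⁻¹ ∈ (P : Subgroup J)
    have e : h * k * g⁻¹ * a * (h * k * g⁻¹)⁻¹ = h * (k * (g⁻¹ * a * g⁻¹⁻¹) * k⁻¹) * h⁻¹ := by group
    rw [e]; exact h2
  have n1 := Cfsg.Agent.Lib.Helper19.mem_normalizer_of_map_conj_eq e1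
  have n2 := Cfsg.Agent.Lib.Helper19.mem_normalizer_of_map_conj_eq e2
  have n3 : g * k⁻¹ ∈ Subgroup.normalizer (P₁ : Set J) := by
    have := inv_mem (mul_mem (inv_mem n1) n2)
    have e : (h⁻¹ * (h * k * g⁻¹))⁻¹ = g * k⁻¹ := by group
    rwa [e] at this
  refine ⟨g * k⁻¹, n3, ?_⟩
  rw [mul_smul]
  have : k⁻¹ • x = x := by
    have := MulAction.mem_stabilizer_iff.mp (inv_mem hkK)
    exact this
  rw [this, hg]

end Cfsg.Agent.S3180
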