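import Cfsg.Statements.S3183
import Cfsg.Agent.Lib.Helper19.SylowRel
import Cfsg.Agent.Lib.Helper19.CDBridge

set_option autoImplicit false
open Cfsg

namespace Cfsg.Agent.S3183

open Cfsg.Agent.Lib.Helper19

theorem sylow_eq_of_le {G : Type*} [Group G] {p : ℕ} {S U : Sylow p G}
    (h : (S : Subgroup G) ≤ (U : Subgroup G)) : S = U :=
  Sylow.ext (S.is_maximal' U.isPGroup' h).symm

theorem key {G : Type*} [Group G] [Finite G]
    (hCI : ∀ S T : Sylow 2 G, S ≠ T → ∃ U : Sylow 2 G,
      (S : Subgroup G) ⊓ (T : Subgroup G) ≤ (U : Subgroup G) ⊓ Subgroup.centralizer ((U : Subgroup G) : Set G)) :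
    ∀ (n : ℕ) (S T : Sylow 2 G), S ≠ T →
      Nat.card G - Nat.card ((S : Subgroup G) ⊓ (T : Subgroup G) : Subgroup G) = n →
      (S : Subgroup G) ⊓ (T : Subgroup G) ≤ Subgroup.centralizer ((S : Subgroup G) : Set G) := by
  haveI : Fact (Nat.Prime 2) := ⟨Nat.prime_two⟩
  intro n
  induction n using Nat.strong_induction_on with
  | _ n ih =>
    intro S T hST hn
    have cardle : ∀ K : Subgroup G, Nat.card K ≤ Nat.card G := fun K => Subgroup.card_le_card_group K
    -- a pair with strictly larger intersection is fine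
    have step : ∀ U : Sylow 2 G, S ≠ U →
        Nat.card ((S : Subgroup G) ⊓ (T : Subgroup G) : Subgroup G) <
          Nat.card ((S : Subgroup G) ⊓ (U : Subgroup G) : Subgroup G) →
        (S : Subgroup G) ⊓ (U : Subgroup G) ≤ Subgroup.centralizer ((S : Subgroup G) : Set G) := by
      intro U hSU hlt
      refine ih (Nat.card G - Nat.card ((S : Subgroup G) ⊓ (U : Subgroup G) : Subgroup G)) ?_ S U hSU rfl
      have := cardle ((S : Subgroup G) ⊓ (U : Subgroup G))
      omega
    obtain ⟨U, hU⟩ := hCI S T hST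
    by_cases hUS : U = S
    · rw [hUS] at hU; exact hU.trans inf_le_right
    have hSU : S ≠ U := fun h => hUS h.symm
    have hDSU : (S : Subgroup G) ⊓ (T : Subgroup G) ≤ (S : Subgroup G) ⊓ (U : Subgroup G) :=
      le_inf inf_le_left (hU.trans inf_le_left)
    by_cases hcard : Nat.card ((S : Subgroup G) ⊓ (T : Subgroup G) : Subgroup G) <
        Nat.card ((S : Subgroup G) ⊓ (U : Subgroup G) : Subgroup G)
    · exact hDSU.trans (step U hSU hcard)
    push Not at hcard
    have hDeq : (S : Subgroup G) ⊓ (T : Subgroup G) = (S : Subgroup G) ⊓ (U : Subgroup G) :=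
      Subgroup.eq_of_le_of_card_ge hDSU hcard
    obtain ⟨D, hD⟩ : ∃ D, D = (S : Subgroup G) ⊓ (T : Subgroup G) := ⟨_, rfl⟩
    rw [← hD] at hU hDSU hDeq step ⊢
    have hDS : D ≤ (S : Subgroup G) := hD ▸ inf_le_left
    have hDCU : D ≤ Subgroup.centralizer ((U : Subgroup G) : Set G) := hU.trans inf_le_right
    -- D is a proper subgroup of S
    have hSD : ¬ (S : Subgroup G) ≤ D := by
      intro h
      apply hSU
      apply sylow_eq_of_le
      exact h.trans (hU.trans inf_le_left)
    -- normalizer growth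
    have hgrow : ¬ Subgroup.normalizer (D : Set G) ⊓ (S : Subgroup G) ≤ D := fun h =>
      hSD (pgroup_le_of_normalizer_inf_le hDS S.isPGroup' h)
    obtain ⟨s, hs, hsD⟩ := SetLike.not_le_iff_exists.mp hgrow
    obtain ⟨hsN, hsS⟩ := Subgroup.mem_inf.mp hs
    -- U ≤ N(D)
    have hUN : (U : Subgroup G) ≤ Subgroup.normalizer (D : Set G) := by
      intro u hu
      have : u ∈ Subgroup.centralizer (D : Set G) := by
        rw [Subgroup.mem_centralizer_iff]
        intro d hd
        exact ((Subgroup.mem_centralizer_iff.mp (hDCU hd)) u hu).symm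
      exact Subgroup.centralizer_le_normalizer (D : Set G) this
    obtain ⟨m, hmN, R', hR'p, -, hUR', hmR'⟩ :=
      exists_conj_pgroup_le (Subgroup.normalizer (D : Set G)) hUN
        (inf_le_left : Subgroup.normalizer (D : Set G) ⊓ (S : Subgroup G) ≤ _) U.isPGroup'
        (S.isPGroup'.to_le inf_le_right)
    have hR'eq : R' = (U : Subgroup G) := U.is_maximal' hR'p hUR'
    rw [hR'eq] at hmR'
    -- U' = m⁻¹ • U
    have hmem : ∀ a : G, a ∈ ((m⁻¹ • U : Sylow 2 G) : Subgroup G) ↔ m * a * m⁻¹ ∈ (U : Subgroup G) := by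
      intro a
      rw [mem_smul_sylow_iff, inv_inv]
    have hS1U' : Subgroup.normalizer (D : Set G) ⊓ (S : Subgroup G) ≤ ((m⁻¹ • U : Sylow 2 G) : Subgroup G) :=
      fun a ha => (hmem a).mpr (hmR' a ha)
    have hDCU' : D ≤ Subgroup.centralizer (((m⁻¹ • U : Sylow 2 G) : Subgroup G) : Set G) := by
      intro d hd
      rw [Subgroup.mem_centralizer_iff]
      intro b hb
      have hb' := (hmem b).mp hb
      have hd' : m * d * m⁻¹ ∈ D := (Subgroup.mem_normalizer_iff.mp hmN d).mp hd
      have h1 := (Subgroup.mem_centralizer_iff.mp (hDCU hd')) _ hb'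
      have h2 : m * (b * d) * m⁻¹ = m * (d * b) * m⁻¹ := by
        calc m * (b * d) * m⁻¹ = (m * b * m⁻¹) * (m * d * m⁻¹) := by group
          _ = (m * d * m⁻¹) * (m * b * m⁻¹) := h1
          _ = m * (d * b) * m⁻¹ := by group
      exact mul_left_cancel (mul_right_cancel h2)
    by_cases hU'S : (m⁻¹ • U : Sylow 2 G) = S
    · rw [hU'S] at hDCU'; exact hDCU'
    have hSU' : S ≠ (m⁻¹ • U : Sylow 2 G) := fun h => hU'S h.symm
    have hDle : D ≤ (S : Subgroup G) ⊓ ((m⁻¹ • U : Sylow 2 G) : Subgroup G) :=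
      le_inf hDS (fun d hd => hS1U' (Subgroup.mem_inf.mpr ⟨Subgroup.le_normalizer hd, hDS hd⟩))
    have hlt : Nat.card D < Nat.card ((S : Subgroup G) ⊓ ((m⁻¹ • U : Sylow 2 G) : Subgroup G) : Subgroup G) := by
      by_contra hnot
      push Not at hnot
      have heq := Subgroup.eq_of_le_of_card_ge hDle hnot
      apply hsD
      rw [heq]
      exact Subgroup.mem_inf.mpr ⟨hsS, hS1U' hs⟩
    exact hDle.trans (step _ hSU' hlt)

/-- Let G be a finite group in which the intersection of any two distinct Sylow 2-subgroups is contained in the centre of some Sylow 2-subgroup, and let S be a Sylow 2-subgroup. Then for every x in S the centralizer of x in S is a Sylow 2-subgroup of the centralizer of x in G (no 2-subgroup centralizing x is larger), and for every other Sylow 2-subgroup T the intersection S ∩ T lies in both the centre of S and the centre of T. -/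
theorem result {G : Type*} [Group G] [Finite G]
    (hCI : ∀ S T : Sylow 2 G, S ≠ T → ∃ U : Sylow 2 G,
      (S : Subgroup G) ⊓ (T : Subgroup G) ≤ (Subgroup.center ↥(U : Subgroup G)).map (U : Subgroup G).subtype)
    (S : Sylow 2 G) :
    (∀ x ∈ (S : Subgroup G), ∀ P : Subgroup G, IsPGroup 2 ↥P → P ≤ Subgroup.centralizer ({x} : Set G) →
        Nat.card ↥P ≤ Nat.card ↥((S : Subgroup G) ⊓ Subgroup.centralizer ({x} : Set G))) ∧
    (∀ T : Sylow 2 G, T ≠ S →
        (S : Subgroup G) ⊓ (T : Subgroup G) ≤
          (Subgroup.center ↥(S : Subgroup G)).map (S : Subgroup G).subtype ⊓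
            (Subgroup.center ↥(T : Subgroup G)).map (T : Subgroup G).subtype) := by
  classical
  haveI : Fact (Nat.Prime 2) := ⟨Nat.prime_two⟩
  have hCI' : ∀ S T : Sylow 2 G, S ≠ T → ∃ U : Sylow 2 G,
      (S : Subgroup G) ⊓ (T : Subgroup G) ≤
        (U : Subgroup G) ⊓ Subgroup.centralizer ((U : Subgroup G) : Set G) := by
    intro S T hST
    obtain ⟨U, hU⟩ := hCI S T hST
    exact ⟨U, by rwa [map_center_subtype] at hU⟩
  have hkey : ∀ S T : Sylow 2 G, S ≠ T →
      (S : Subgroup G) ⊓ (T : Subgroup G) ≤ Subgroup.centralizer ((S : Subgroup G) : Set G) :=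
    fun S T hST => key hCI' _ S T hST rfl
  constructor
  · intro x hxS P hP hPC
    -- enlarge P by x
    have hxC : x ∈ Subgroup.centralizer ({x} : Set G) := Subgroup.mem_centralizer_singleton_iff.mpr rfl
    have hxord : ∃ k, orderOf x = 2 ^ k := by
      obtain ⟨k, hk⟩ := (S.isPGroup' ⟨x, hxS⟩)
      have : x ^ 2 ^ k = 1 := by
        have := congrArg Subtype.val hk
        simpa using this
      obtain ⟨j, -, hj⟩ := (Nat.dvd_prime_pow Nat.prime_two).mp (orderOf_dvd_of_pow_eq_one this)
      exact ⟨j, hj⟩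
    obtain ⟨k, hk⟩ := hxord
    have hZp : IsPGroup 2 (Subgroup.zpowers x) := IsPGroup.of_card (n := k) (by
      rw [Nat.card_zpowers, hk])
    have hZN : Subgroup.zpowers x ≤ Subgroup.normalizer (P : Set G) := by
      rw [Subgroup.zpowers_le, Subgroup.mem_normalizer_iff]
      intro a
      constructor
      · intro ha
        have := Subgroup.mem_centralizer_singleton_iff.mp (hPC ha)
        have e : x * a * x⁻¹ = a := by
          calc x * a * x⁻¹ = a * x * x⁻¹ := by rw [this]
            _ = a := by group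
        rw [e]; exact ha
      · intro ha
        have h1 := Subgroup.mem_centralizer_singleton_iff.mp (hPC ha)
        have e : x⁻¹ * (x * a * x⁻¹) * x = a := by group
        have e2 : x⁻¹ * (x * a * x⁻¹) * x = x * a * x⁻¹ := by
          calc x⁻¹ * (x * a * x⁻¹) * x = x⁻¹ * ((x * a * x⁻¹) * x) := by group
            _ = x⁻¹ * (x * (x * a * x⁻¹)) := by rw [h1]
            _ = x * a * x⁻¹ := by group
        rw [← e, e2]; exact ha
    have hsup : IsPGroup 2 (P ⊔ Subgroup.zpowers x : Subgroup G) :=
      IsPGroup.to_sup_of_normal_left' hP hZp hZN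
    obtain ⟨T, hT⟩ := hsup.exists_le_sylow
    have hPT : P ≤ (T : Subgroup G) := le_sup_left.trans hT
    have hxT : x ∈ (T : Subgroup G) := hT (Subgroup.mem_sup_right (Subgroup.mem_zpowers x))
    by_cases hTS : T = S
    · rw [hTS] at hPT
      exact Subgroup.card_le_of_le (le_inf hPT hPC)
    · have hST : S ≠ T := fun h => hTS h.symm
      have hx' := hkey S T hST (Subgroup.mem_inf.mpr ⟨hxS, hxT⟩)
      have hSC : (S : Subgroup G) ≤ Subgroup.centralizer ({x} : Set G) := by
        intro a ha
        rw [Subgroup.mem_centralizer_singleton_iff]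
        exact (Subgroup.mem_centralizer_iff.mp hx') a ha
      rw [inf_eq_left.mpr hSC]
      calc Nat.card P ≤ Nat.card (T : Subgroup G) := Subgroup.card_le_of_le hPT
        _ = Nat.card (S : Subgroup G) := Nat.card_congr (Sylow.equiv T S).toEquiv
  · intro T hTS
    have hST : S ≠ T := fun h => hTS h.symm
    rw [map_center_subtype, map_center_subtype]
    refine le_inf (le_inf inf_le_left (hkey S T hST)) (le_inf inf_le_right ?_)
    rw [inf_comm]
    exact hkey T S hTS

end Cfsg.Agent.S3183
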