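import Cfsg.Statements.S3190
import Cfsg.Agent.Lib.Helper19.PGroupFixed
import Cfsg.Agent.Lib.Helper19.CDBridge

set_option autoImplicit false
open Cfsg

namespace Cfsg.Agent.S3190

open Cfsg.Agent.Lib.Helper19

/-- Let p be an odd prime and, inside a finite group, let P be a p-subgroup normalized by a Klein four-group T. Let R be a subgroup of P, normal in P and normalized by T, such that P is the product of R with the centralizer of T in P. If T centralizes the centre of P, then T centralizes the centre of R. -/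
theorem result {X : Type*} [Group X] [Finite X]
    {p : ℕ} (hp : p.Prime) (hodd : Odd p) (P T R : Subgroup X) (hP : IsPGroup p ↥P) (hT : IsKleinFour ↥T)
    (hTP : T ≤ Subgroup.normalizer (P : Set X)) (hRP : R ≤ P) (hRn : (R.subgroupOf P).Normal)
    (hTR : T ≤ Subgroup.normalizer (R : Set X)) (hfac : R ⊔ (P ⊓ Subgroup.centralizer (T : Set X)) = P)
    (hZ : T ≤ Subgroup.centralizer (((Subgroup.center ↥P).map P.subtype : Subgroup X) : Set X)) :
    T ≤ Subgroup.centralizer (((Subgroup.center ↥R).map R.subtype : Subgroup X) : Set X) := by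
  classical
  haveI : Fact p.Prime := ⟨hp⟩
  rw [map_center_subtype] at hZ ⊢
  intro t ht
  rw [Subgroup.mem_centralizer_iff]
  -- t is an involution or trivial
  have ht2 : t * t = 1 := by
    have h1 : (⟨t, ht⟩ : T) ^ 2 = 1 := by
      rw [← hT.exponent_two]; exact Monoid.pow_exponent_eq_one _
    have h2 := congrArg Subtype.val h1
    simpa [pow_two] using h2
  have htinv : t⁻¹ = t := inv_eq_of_mul_eq_one_left ht2
  have htR : ∀ r : X, r ∈ R ↔ t * r * t⁻¹ ∈ R := Subgroup.mem_normalizer_iff.mp (hTR ht)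
  -- conjugation by elements normalizing R preserves Z(R)
  have conjZ : ∀ g : X, (∀ r : X, r ∈ R ↔ g * r * g⁻¹ ∈ R) →
      ∀ z ∈ R ⊓ Subgroup.centralizer (R : Set X), g * z * g⁻¹ ∈ R ⊓ Subgroup.centralizer (R : Set X) := by
    intro g hg z hz
    obtain ⟨hzR, hzC⟩ := Subgroup.mem_inf.mp hz
    refine Subgroup.mem_inf.mpr ⟨(hg z).mp hzR, ?_⟩
    rw [Subgroup.mem_centralizer_iff]
    intro r hr
    have hr' : g⁻¹ * r * g ∈ R := by
      rw [hg]
      have e : g * (g⁻¹ * r * g) * g⁻¹ = r := by group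
      rw [e]; exact hr
    have h1 := (Subgroup.mem_centralizer_iff.mp hzC) _ hr'
    calc r * (g * z * g⁻¹) = g * ((g⁻¹ * r * g) * z) * g⁻¹ := by group
      _ = g * (z * (g⁻¹ * r * g)) * g⁻¹ := by rw [h1]
      _ = g * z * g⁻¹ * r := by group
  have commZ : ∀ z₁ ∈ R ⊓ Subgroup.centralizer (R : Set X),
      ∀ z₂ ∈ R ⊓ Subgroup.centralizer (R : Set X), z₁ * z₂ = z₂ * z₁ := by
    intro z₁ h₁ z₂ h₂
    exact (Subgroup.mem_centralizer_iff.mp (Subgroup.mem_inf.mp h₂).2) z₁ (Subgroup.mem_inf.mp h₁).1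
  -- the subgroup of elements of Z(R) inverted by t
  let I : Subgroup X :=
    { carrier := {z | z ∈ R ⊓ Subgroup.centralizer (R : Set X) ∧ t * z * t⁻¹ = z⁻¹}
      one_mem' := ⟨one_mem _, by simp⟩
      mul_mem' := by
        rintro a b ⟨ha, ha'⟩ ⟨hb, hb'⟩
        refine ⟨mul_mem ha hb, ?_⟩
        calc t * (a * b) * t⁻¹ = (t * a * t⁻¹) * (t * b * t⁻¹) := by group
          _ = a⁻¹ * b⁻¹ := by rw [ha', hb']
          _ = (b * a)⁻¹ := by group
          _ = (a * b)⁻¹ := by rw [commZ a ha b hb]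
      inv_mem' := by
        rintro a ⟨ha, ha'⟩
        refine ⟨inv_mem ha, ?_⟩
        calc t * a⁻¹ * t⁻¹ = (t * a * t⁻¹)⁻¹ := by group
          _ = a⁻¹⁻¹ := by rw [ha'] }
  have memI : ∀ z : X, z ∈ I ↔ z ∈ R ⊓ Subgroup.centralizer (R : Set X) ∧ t * z * t⁻¹ = z⁻¹ :=
    fun z => Iff.rfl
  have hIP : I ≤ P := fun z hz => hRP (Subgroup.mem_inf.mp ((memI z).mp hz).1).1
  -- P normalizes I
  have hRI : R ≤ Subgroup.normalizer (I : Set X) := by
    apply le_normalizer_of_conj_mem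
    intro r hr z hz
    have hzC := (Subgroup.mem_inf.mp ((memI z).mp hz).1).2
    have h1 := (Subgroup.mem_centralizer_iff.mp hzC) r hr
    have e : r * z * r⁻¹ = z := by rw [h1]; group
    rw [e]; exact hz
  have hCI : P ⊓ Subgroup.centralizer (T : Set X) ≤ Subgroup.normalizer (I : Set X) := by
    apply le_normalizer_of_conj_mem
    intro c hc z hz
    obtain ⟨hcP, hcT⟩ := Subgroup.mem_inf.mp hc
    obtain ⟨hzZ, hzt⟩ := (memI z).mp hz
    have hcR : ∀ r : X, r ∈ R ↔ c * r * c⁻¹ ∈ R := by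
      intro r
      constructor
      · intro hr
        have := hRn.conj_mem ⟨r, hRP hr⟩ (Subgroup.mem_subgroupOf.mpr hr) ⟨c, hcP⟩
        exact Subgroup.mem_subgroupOf.mp this
      · intro hr
        have := hRn.conj_mem ⟨c * r * c⁻¹, hRP hr⟩ (Subgroup.mem_subgroupOf.mpr hr) ⟨c, hcP⟩⁻¹
        have h2 : c⁻¹ * (c * r * c⁻¹) * c⁻¹⁻¹ ∈ R := Subgroup.mem_subgroupOf.mp this
        have e : c⁻¹ * (c * r * c⁻¹) * c⁻¹⁻¹ = r := by group
        rwa [e] at h2
    refine (memI _).mpr ⟨conjZ c hcR z hzZ, ?_⟩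
    have hct : t * c = c * t := (Subgroup.mem_centralizer_iff.mp hcT) t ht
    calc t * (c * z * c⁻¹) * t⁻¹ = (t * c) * z * (t * c)⁻¹ := by group
      _ = (c * t) * z * (c * t)⁻¹ := by rw [hct]
      _ = c * (t * z * t⁻¹) * c⁻¹ := by group
      _ = c * z⁻¹ * c⁻¹ := by rw [hzt]
      _ = (c * z * c⁻¹)⁻¹ := by group
  have hPI : P ≤ Subgroup.normalizer (I : Set X) := by
    rw [← hfac]; exact sup_le hRI hCI
  -- I is trivial
  have hIbot : I = ⊥ := by
    by_contra hne
    have hIp : IsPGroup p I := hP.to_le hIP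
    have hdvd : p ∣ Nat.card I := by
      rcases hIp.card_eq_or_dvd with h | h
      · exact absurd (Subgroup.eq_bot_of_card_eq I h) hne
      · exact h
    obtain ⟨w, hwI, hw1, hwC⟩ := exists_ne_one_mem_centralizer_of_le_normalizer hP hPI hdvd
    have hwZ : w ∈ P ⊓ Subgroup.centralizer (P : Set X) := Subgroup.mem_inf.mpr ⟨hIP hwI, hwC⟩
    have h1 := (Subgroup.mem_centralizer_iff.mp (hZ ht)) w hwZ
    have h2 : t * w * t⁻¹ = w := by rw [← h1]; group
    have h3 := ((memI w).mp hwI).2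
    rw [h2] at h3
    have hw2 : w ^ 2 = 1 := by
      rw [pow_two]
      nth_rewrite 2 [h3]
      exact mul_inv_cancel w
    -- order of w divides 2 and is a power of p
    obtain ⟨j, hj⟩ := hP ⟨w, hIP hwI⟩
    have hj' : w ^ p ^ j = 1 := by
      have := congrArg Subtype.val hj
      simpa using this
    have hd1 : orderOf w ∣ 2 := orderOf_dvd_of_pow_eq_one hw2
    have hd2 : orderOf w ∣ p ^ j := orderOf_dvd_of_pow_eq_one hj'
    have hcop : Nat.Coprime 2 (p ^ j) :=
      Nat.Coprime.pow_right _ (Nat.coprime_two_left.mpr hodd)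
    have : orderOf w = 1 := Nat.eq_one_of_dvd_coprimes hcop hd1 hd2
    exact hw1 (orderOf_eq_one_iff.mp this)
  intro z hz
  have htz : t * z * t⁻¹ ∈ R ⊓ Subgroup.centralizer (R : Set X) := conjZ t htR z hz
  have hu : z * (t * z * t⁻¹)⁻¹ ∈ I := by
    refine (memI _).mpr ⟨mul_mem hz (inv_mem htz), ?_⟩
    rw [htinv]
    calc t * (z * (t * z * t)⁻¹) * t = t * z * t⁻¹ * z⁻¹ := by group
      _ = t * z * t * z⁻¹ := by rw [htinv]
      _ = (z * (t * z * t)⁻¹)⁻¹ := by group
  rw [hIbot, Subgroup.mem_bot] at hu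
  have h5 : z = t * z * t⁻¹ := by
    calc z = z * (t * z * t⁻¹)⁻¹ * (t * z * t⁻¹) := by group
      _ = t * z * t⁻¹ := by rw [hu, one_mul]
  calc z * t = t * z * t⁻¹ * t := by rw [← h5]
    _ = t * z := by group

end Cfsg.Agent.S3190
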