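import Cfsg.Statements.S3195
import Cfsg.Agent.Lib.Helper19.Sidki

set_option autoImplicit false
open Cfsg

namespace Cfsg.Agent.S3195

/-- Let A be a Klein four-subgroup of a finite group G. If every G-conjugate of every involution of A commutes with some involution of A (its centralizer meets A nontrivially), then A meets the largest normal 2-subgroup O₂(G) nontrivially. -/
theorem result {G : Type*} [Group G] [Finite G]
    (A : Subgroup G) (hA : IsKleinFour ↥A)
    (h : ∀ a ∈ A, a ≠ 1 → ∀ g : G, A ⊓ Subgroup.centralizer ({g * a * g⁻¹} : Set G) ≠ ⊥) :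
    A ⊓ Cfsg.pCore 2 G ≠ ⊥ := by
  classical
  have hcard : Nat.card A = 4 := IsKleinFour.card_four
  have hexp : Monoid.exponent A = 2 := IsKleinFour.exponent_two
  have h2 : ∀ a ∈ A, a ^ 2 = 1 := by
    intro a ha
    have := Monoid.pow_exponent_eq_one (⟨a, ha⟩ : A)
    rw [hexp] at this
    exact congrArg Subtype.val this
  have hinvA : ∀ a ∈ A, a⁻¹ = a := by
    intro a ha
    have := h2 a ha
    rw [pow_two] at this
    exact inv_eq_of_mul_eq_one_left this
  have hc : ∀ a ∈ A, ∀ b ∈ A, a * b = b * a := by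
    intro a ha b hb
    have h1 := hinvA (a * b) (A.mul_mem ha hb)
    rw [mul_inv_rev, hinvA a ha, hinvA b hb] at h1
    exact h1.symm
  have hA1 : A ≠ ⊥ := by
    intro h
    rw [h, Subgroup.card_bot] at hcard
    omega
  have hS : Cfsg.IsSidkiPair A := by
    intro k v hv ho hinv
    by_cases hv1 : v = 1
    · subst hv1
      have hk : k = 1 := by
        apply Cfsg.Agent.Lib.Helper19.eq_one_of_odd_of_eq_inv ho
        simpa using hinv
      obtain ⟨w, hw⟩ := Subgroup.ne_bot_iff_exists_ne_one.mp hA1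
      exact ⟨w, w.2, fun h => hw (Subtype.ext h), by rw [hk]; simp⟩
    · obtain ⟨j, hj⟩ := ho
      obtain ⟨s, hs⟩ : ∃ s : G, s = k ^ (j + 1) := ⟨_, rfl⟩
      have hss : s * s = k := by
        rw [hs, ← pow_add]
        have : j + 1 + (j + 1) = orderOf k + 1 := by omega
        rw [this, pow_succ, pow_orderOf_eq_one, one_mul]
      have hvs : v * s * v⁻¹ = s⁻¹ := by
        rw [hs]
        have h1 : v * k ^ (j + 1) * v⁻¹ = (v * k * v⁻¹) ^ (j + 1) := by rw [conj_pow]
        rw [h1, hinv, inv_pow]
      have hsv : s⁻¹ * v = v * s := by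
        calc s⁻¹ * v = (v * s * v⁻¹) * v := by rw [hvs]
          _ = v * s := by group
      have hconj : s⁻¹ * v * s⁻¹⁻¹ = v * k := by
        rw [inv_inv, hsv, mul_assoc, hss]
      have hne := h v hv hv1 s⁻¹
      rw [hconj] at hne
      obtain ⟨w, hw⟩ := Subgroup.ne_bot_iff_exists_ne_one.mp hne
      have hwA : (w : G) ∈ A := (Subgroup.mem_inf.mp w.2).1
      have hwc : (w : G) ∈ Subgroup.centralizer ({v * k} : Set G) := (Subgroup.mem_inf.mp w.2).2
      have hwc' : v * k * (w : G) = (w : G) * (v * k) :=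
        Subgroup.mem_centralizer_iff.mp hwc (v * k) rfl
      refine ⟨w, hwA, fun h => hw (Subtype.ext h), ?_⟩
      have hvw : v * (w : G) = (w : G) * v := hc v hv w hwA
      calc (w : G) * k = v⁻¹ * ((w : G) * (v * k)) := by
            rw [← mul_assoc (w : G) v k, ← hvw]; group
        _ = v⁻¹ * (v * k * (w : G)) := by rw [hwc']
        _ = k * (w : G) := by group
  exact Cfsg.Agent.Lib.Helper19.sidki_four A hc h2 hA1 hS hcard.le

end Cfsg.Agent.S3195
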