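import Cfsg.Statements.S3200
import Cfsg.Agent.S0003
import Cfsg.Agent.S0004
import Cfsg.Agent.S0005
import Cfsg.Agent.Lib.Helper2.CharBurnside
import Cfsg.Agent.Lib.Helper19.SylowRel

set_option autoImplicit false
open Cfsg

namespace Cfsg.Agent.S3200

open Cfsg.Agent.Lib.Helper19
open scoped Pointwise

theorem isMulCommutative_map {G G' : Type*} [Group G] [Group G'] (f : G →* G') {C : Subgroup G}
    (hC : IsMulCommutative C) : IsMulCommutative (C.map f) := by
  have hle := Subgroup.le_centralizer_iff_isMulCommutative.mpr hC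
  apply Subgroup.le_centralizer_iff_isMulCommutative.mp
  rintro _ ⟨a, ha, rfl⟩
  rw [Subgroup.mem_centralizer_iff]
  rintro _ ⟨b, hb, rfl⟩
  have := (Subgroup.mem_centralizer_iff.mp (hle ha)) b hb
  rw [← map_mul, ← map_mul, this]

theorem isMulCommutative_subgroupOf {G : Type*} [Group G] {C : Subgroup G}
    (hC : IsMulCommutative C) (N : Subgroup G) : IsMulCommutative (C.subgroupOf N) := by
  have hle := Subgroup.le_centralizer_iff_isMulCommutative.mpr hC
  apply Subgroup.le_centralizer_iff_isMulCommutative.mp
  intro a ha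
  rw [Subgroup.mem_centralizer_iff]
  intro b hb
  have := (Subgroup.mem_centralizer_iff.mp (hle (Subgroup.mem_subgroupOf.mp ha))) (b : G)
    (Subgroup.mem_subgroupOf.mp hb)
  exact Subtype.ext this

theorem isMulCommutative_of_le {G : Type*} [Group G] {C D : Subgroup G}
    (hC : IsMulCommutative C) (hDC : D ≤ C) : IsMulCommutative D := by
  have hle := Subgroup.le_centralizer_iff_isMulCommutative.mpr hC
  apply Subgroup.le_centralizer_iff_isMulCommutative.mp
  intro a ha
  exact Subgroup.centralizer_le (by exact_mod_cast hDC) (hle (hDC ha))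

/-- A finite group with an abelian subgroup of `2`-power index is solvable. -/
theorem solvable_of_abelian_two_power_index.{u} : ∀ n : ℕ, ∀ (H : Type u) [Group H] [Finite H],
    Nat.card H = n → (∃ (C : Subgroup H) (a : ℕ), IsMulCommutative C ∧ C.index = 2 ^ a) →
    Group.IsSolvable H := by
  intro n
  induction n using Nat.strong_induction_on with
  | _ n ih =>
  intro H _ _ hn ⟨C, a, hC, hidx⟩
  by_cases hsimple : IsSimpleGroup H
  · by_cases hCbot : C = ⊥
    · have hcard : Nat.card H = 2 ^ a := by
        rw [← hidx, hCbot, Subgroup.index_bot]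
      have hp : IsPGroup 2 H := IsPGroup.of_card hcard
      have : Fact (Nat.Prime 2) := ⟨Nat.prime_two⟩
      have hnil : Group.IsNilpotent H := hp.isNilpotent
      infer_instance
    · obtain ⟨g, hgC⟩ := (Subgroup.ne_bot_iff_exists_ne_one.mp hCbot)
      have hgC' : (g : H) ∈ C := g.2
      have hle : C ≤ Subgroup.centralizer ({(g : H)} : Set H) := by
        intro c hc
        rw [Subgroup.mem_centralizer_iff]
        intro y hy
        rw [Set.mem_singleton_iff] at hy
        subst hy
        exact (Subgroup.mem_centralizer_iff.mp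
          (Subgroup.le_centralizer_iff_isMulCommutative.mpr hC hc)) _ hgC'
      have hdvd : (Subgroup.centralizer ({(g : H)} : Set H)).index ∣ 2 ^ a := by
        rw [← hidx]; exact Subgroup.index_dvd_of_le hle
      obtain ⟨k, -, hk⟩ := (Nat.dvd_prime_pow Nat.prime_two).mp hdvd
      have hprime := Cfsg.Agent.Lib.Helper2.prime_card_of_simple_of_prime_power_class 2 k
        Nat.prime_two (g : H) (fun h => hgC (Subtype.ext h)) hk
      have : Fact (Nat.card H).Prime := ⟨hprime⟩
      have hcyc : IsCyclic H := isCyclic_of_prime_card rfl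
      exact Group.isSolvable_of_comm (isMulCommutative_iff.mp hcyc.isMulCommutative)
  · by_cases hnt : Nontrivial H
    swap
    · have : Subsingleton H := not_nontrivial_iff_subsingleton.mp hnt
      infer_instance
    have hex : ∃ N : Subgroup H, N.Normal ∧ N ≠ ⊥ ∧ N ≠ ⊤ := by
      by_contra hcon
      push Not at hcon
      apply hsimple
      refine ⟨fun N hN => ?_⟩
      by_cases hNb : N = ⊥
      · exact Or.inl hNb
      · exact Or.inr (hcon N hN hNb)
    obtain ⟨N, hNn, hNbot, hNtop⟩ := hex
    have hcN : Nat.card N < n := by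
      rw [← hn]
      exact lt_of_le_of_ne (Subgroup.card_le_card_group N)
        (fun h => hNtop (Subgroup.eq_top_of_card_eq N h))
    have hcQ : Nat.card (H ⧸ N) < n := by
      rw [← hn, ← Subgroup.index_eq_card, ← Subgroup.card_mul_index N]
      have h1 : 1 < Nat.card N := by
        rw [Subgroup.one_lt_card_iff_ne_bot]; exact hNbot
      have h2 : 0 < N.index := Nat.pos_of_ne_zero Subgroup.index_ne_zero_of_finite
      nlinarith
    have hsN : Group.IsSolvable N := by
      apply ih _ hcN ↥N rfl
      have h1 : (C.subgroupOf N).index ∣ 2 ^ a := by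
        show C.relIndex N ∣ 2 ^ a
        rw [← hidx, ← relIndex_sup_of_normal C N]
        exact Dvd.intro _ (Subgroup.relIndex_mul_index le_sup_left)
      obtain ⟨b, -, hb⟩ := (Nat.dvd_prime_pow Nat.prime_two).mp h1
      exact ⟨C.subgroupOf N, b, isMulCommutative_subgroupOf hC N, hb⟩
    have hsQ : Group.IsSolvable (H ⧸ N) := by
      apply ih _ hcQ (H ⧸ N) rfl
      have h1 : (C.map (QuotientGroup.mk' N)).index ∣ 2 ^ a := by
        rw [← hidx]
        exact Subgroup.index_map_dvd C (QuotientGroup.mk'_surjective N)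
      obtain ⟨b, -, hb⟩ := (Nat.dvd_prime_pow Nat.prime_two).mp h1
      exact ⟨C.map (QuotientGroup.mk' N), b, isMulCommutative_map _ hC, hb⟩
    exact Group.isSolvable_of_ker_le_range N.subtype (QuotientGroup.mk' N) (by
      rw [QuotientGroup.ker_mk', Subgroup.range_subtype])

/-- Let H be a finite group in which a Sylow 2-subgroup has an abelian complement (an abelian subgroup meeting it trivially whose product with it is all of H). Then H is solvable, and every subgroup and every quotient group of H again has a Sylow 2-subgroup with an abelian complement. -/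
theorem result {H : Type*} [Group H] [Finite H]
    (S : Sylow 2 H) (C : Subgroup H) (hC : IsMulCommutative ↥C) (hSC : Subgroup.IsComplement' (S : Subgroup H) C) :
    Group.IsSolvable H ∧
    (∀ L : Subgroup H, ∃ (P : Sylow 2 ↥L) (D : Subgroup ↥L), IsMulCommutative ↥D ∧ Subgroup.IsComplement' (P : Subgroup ↥L) D) ∧
    (∀ (N : Subgroup H) [N.Normal], ∃ (P : Sylow 2 (H ⧸ N)) (D : Subgroup (H ⧸ N)),
      IsMulCommutative ↥D ∧ Subgroup.IsComplement' (P : Subgroup (H ⧸ N)) D) := by
  classical
  have h2 : Fact (Nat.Prime 2) := ⟨Nat.prime_two⟩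
  obtain ⟨k, hk⟩ := S.2.exists_card_eq
  have hidxC : C.index = 2 ^ k := by rw [hSC.index_eq_card]; exact hk
  have hsolv : Group.IsSolvable H :=
    solvable_of_abelian_two_power_index _ H rfl ⟨C, k, hC, hidxC⟩
  have hcardH : Nat.card H = Nat.card C * 2 ^ k := by
    rw [← hidxC, Subgroup.card_mul_index]
  have hCodd : (Nat.card C).Coprime (2 ^ k) := by
    have h1 : Nat.card C = (S : Subgroup H).index := by
      have := hSC.symm.index_eq_card
      exact this.symm
    rw [h1]
    exact Nat.Coprime.pow_right _
      ((Nat.Prime.coprime_iff_not_dvd Nat.prime_two).mpr S.not_dvd_index).symm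
  refine ⟨hsolv, ?_, ?_⟩
  · intro L
    obtain ⟨P⟩ : Nonempty (Sylow 2 ↥L) := inferInstance
    obtain ⟨j, hj⟩ := P.2.exists_card_eq
    have hcardL : Nat.card L = (P : Subgroup ↥L).index * Nat.card (P : Subgroup ↥L) :=
      (Subgroup.index_mul_card _).symm
    have hcop : ((P : Subgroup ↥L).index).Coprime (Nat.card (P : Subgroup ↥L)) := by
      rw [hj]
      exact Nat.Coprime.pow_right _
        ((Nat.Prime.coprime_iff_not_dvd Nat.prime_two).mpr P.not_dvd_index).symm
    obtain ⟨D, hD⟩ := Cfsg.Agent.S0003.result (G := ↥L) _ _ hcardL hcop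
    refine ⟨P, D, ?_, ?_⟩
    · -- D is abelian
      have hD' : Nat.card (D.map L.subtype) = (P : Subgroup ↥L).index := by
        rw [Subgroup.card_map_of_injective L.subtype_injective, hD]
      have hcop' : (Nat.card (D.map L.subtype)).Coprime (2 ^ k) := by
        rw [hD']
        exact Nat.Coprime.pow_right _
          ((Nat.Prime.coprime_iff_not_dvd Nat.prime_two).mpr P.not_dvd_index).symm
      obtain ⟨K, hKcard, hDK⟩ := Cfsg.Agent.S0005.result (G := H) _ _ hcardH hCodd _ hcop'
      obtain ⟨g, hg⟩ := Cfsg.Agent.S0004.result (G := H) _ _ hcardH hCodd C K rfl hKcard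
      have hKc : IsMulCommutative K := by
        rw [← hg]
        have e : MulAut.conj g • C = C.map (MulAut.conj g).toMonoidHom := rfl
        rw [e]
        exact isMulCommutative_map _ hC
      have hDc := isMulCommutative_of_le hKc hDK
      have hle := Subgroup.le_centralizer_iff_isMulCommutative.mpr hDc
      apply Subgroup.le_centralizer_iff_isMulCommutative.mp
      intro a ha
      rw [Subgroup.mem_centralizer_iff]
      intro b hb
      have := (Subgroup.mem_centralizer_iff.mp (hle ⟨a, ha, rfl⟩)) (L.subtype b) ⟨b, hb, rfl⟩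
      exact L.subtype_injective (by simpa using this)
    · apply Subgroup.isComplement'_of_coprime
      · rw [hD, mul_comm]; exact hcardL.symm
      · rw [hD]; exact hcop.symm
  · intro N _
    have hsurj := QuotientGroup.mk'_surjective N
    refine ⟨S.mapSurjective hsurj, C.map (QuotientGroup.mk' N), isMulCommutative_map _ hC, ?_⟩
    apply Subgroup.isComplement'_of_disjoint_and_mul_eq_univ
    · apply Subgroup.disjoint_of_coprime_natCard
      rw [Sylow.coe_mapSurjective]
      have h1 : Nat.card ((S : Subgroup H).map (QuotientGroup.mk' N)) ∣ 2 ^ k := by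
        rw [← hk]; exact Subgroup.card_map_dvd _ _
      have h3 : Nat.card (C.map (QuotientGroup.mk' N)) ∣ Nat.card C := Subgroup.card_map_dvd _ _
      exact Nat.Coprime.coprime_dvd_left h1 (Nat.Coprime.coprime_dvd_right h3 hCodd.symm)
    · rw [Sylow.coe_mapSurjective]
      apply Set.eq_univ_of_forall
      intro q
      obtain ⟨h, rfl⟩ := hsurj q
      have hmem : h ∈ ((S : Subgroup H) : Set H) * (C : Set H) := by
        rw [Subgroup.IsComplement.mul_eq hSC]; trivial
      obtain ⟨s, hs, c, hc, rfl⟩ := Set.mem_mul.mp hmem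
      exact Set.mem_mul.mpr ⟨_, ⟨s, hs, rfl⟩, _, ⟨c, hc, rfl⟩, (map_mul _ s c).symm⟩

end Cfsg.Agent.S3200
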