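import Cfsg.Statements.S3202
import Cfsg.Agent.Lib.Lead.UniqueSubgroup
import Cfsg.Agent.Lib.Helper19.HSubSmall

set_option autoImplicit false
open Cfsg

namespace Cfsg.Agent.S3202

universe u

open scoped commutatorElement

theorem quat_lift {S : Type u} [Group S] [Finite S] (hS : IsPGroup 2 S) (N : Subgroup S)
    [N.Normal] (hna : ¬ IsMulCommutative (S ⧸ N)) (hu : ∃! x : S ⧸ N, orderOf x = 2) :
    ∃ (k : ℕ) (a b : S), orderOf (QuotientGroup.mk a : S ⧸ N) = 2 ^ (k + 1) ∧
      (QuotientGroup.mk b : S ⧸ N) ^ 2 = (QuotientGroup.mk a : S ⧸ N) ^ (2 ^ k) ∧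
      b * a * b⁻¹ * a ∈ N ∧
      (QuotientGroup.mk b : S ⧸ N) ∉ Subgroup.zpowers (QuotientGroup.mk a : S ⧸ N) ∧
      (Subgroup.zpowers (QuotientGroup.mk a : S ⧸ N)).index = 2 := by
  have hp2 : Fact (Nat.Prime 2) := ⟨Nat.prime_two⟩
  obtain ⟨x₀, hx₀, hx₀u⟩ := hu
  have hU : Cfsg.Agent.Lib.Lead.UniqP 2 (S ⧸ N) := by
    intro x y hx hy hx1
    have h1 : orderOf x = 2 := orderOf_eq_prime hx hx1
    by_cases hy1 : y = 1
    · rw [hy1]; exact Subgroup.one_mem _
    · have h2 : orderOf y = 2 := orderOf_eq_prime hy hy1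
      rw [hx₀u y h2, ← hx₀u x h1]
      exact Subgroup.mem_zpowers x
  have hP : IsPGroup 2 (S ⧸ N) := hS.to_quotient N
  rcases Cfsg.Agent.Lib.Lead.uniqP_two_structure hP hU with
    hc | ⟨k, abar, bbar, h1, h2, h3, h4, h5⟩
  · exfalso
    apply hna
    obtain ⟨g, hg⟩ := hc.exists_generator
    refine ⟨⟨fun x y => ?_⟩⟩
    obtain ⟨i, rfl⟩ := Subgroup.mem_zpowers_iff.mp (hg x)
    obtain ⟨j, rfl⟩ := Subgroup.mem_zpowers_iff.mp (hg y)
    exact ((Commute.refl g).zpow_zpow i j).eq
  · obtain ⟨a, rfl⟩ := QuotientGroup.mk_surjective abar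
    obtain ⟨b, rfl⟩ := QuotientGroup.mk_surjective bbar
    refine ⟨k, a, b, h1, h2, ?_, h4, h5⟩
    apply (QuotientGroup.eq_one_iff _).mp
    rw [QuotientGroup.mk_mul, QuotientGroup.mk_mul, QuotientGroup.mk_mul, QuotientGroup.mk_inv,
      h3, inv_mul_cancel]

/-- every element of the quotient is `ā^i` or `b̄ ā^i` -/
theorem quat_cases {Q : Type u} [Group Q] {abar bbar : Q}
    (h4 : bbar ∉ Subgroup.zpowers abar) (h5 : (Subgroup.zpowers abar).index = 2) (x : Q) :
    x ∈ Subgroup.zpowers abar ∨ bbar⁻¹ * x ∈ Subgroup.zpowers abar := by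
  by_cases hx : x ∈ Subgroup.zpowers abar
  · exact Or.inl hx
  · right
    rw [Subgroup.mul_mem_iff_of_index_two h5]
    constructor
    · intro h; exact absurd (by simpa using h) h4
    · intro h; exact absurd h hx

theorem comm_of_gen {Q : Type u} [Group Q] (T : Set Q) (hT : Subgroup.closure T = ⊤)
    (hc : ∀ x ∈ T, ∀ y ∈ T, x * y = y * x) : ∀ x y : Q, x * y = y * x := by
  have h1 : ∀ x ∈ T, ∀ y : Q, x * y = y * x := by
    intro x hx y
    have hle : Subgroup.closure T ≤ Subgroup.centralizer ({x} : Set Q) := by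
      rw [Subgroup.closure_le]
      intro t ht
      exact Subgroup.mem_centralizer_singleton_iff.mpr (hc t ht x hx)
    have hy : y ∈ Subgroup.centralizer ({x} : Set Q) := hle (hT ▸ Subgroup.mem_top y)
    exact (Subgroup.mem_centralizer_singleton_iff.mp hy).symm
  intro x y
  have hle : Subgroup.closure T ≤ Subgroup.centralizer ({y} : Set Q) := by
    rw [Subgroup.closure_le]
    intro t ht
    exact Subgroup.mem_centralizer_singleton_iff.mpr (h1 t ht y)
  have hx : x ∈ Subgroup.centralizer ({y} : Set Q) := hle (hT ▸ Subgroup.mem_top x)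
  exact Subgroup.mem_centralizer_singleton_iff.mp hx

theorem gen_of_quat {S : Type u} [Group S] (N : Subgroup S) [N.Normal] {a b : S}
    (h4 : (QuotientGroup.mk b : S ⧸ N) ∉ Subgroup.zpowers (QuotientGroup.mk a : S ⧸ N))
    (h5 : (Subgroup.zpowers (QuotientGroup.mk a : S ⧸ N)).index = 2) (g : S) :
    (∃ i : ℤ, (a ^ i)⁻¹ * g ∈ N) ∨ ∃ i : ℤ, (b * a ^ i)⁻¹ * g ∈ N := by
  rcases quat_cases h4 h5 (QuotientGroup.mk g) with h | h
  · left
    obtain ⟨i, hi⟩ := Subgroup.mem_zpowers_iff.mp h
    refine ⟨i, ?_⟩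
    rw [← QuotientGroup.eq, QuotientGroup.mk_zpow]; exact hi
  · right
    obtain ⟨i, hi⟩ := Subgroup.mem_zpowers_iff.mp h
    refine ⟨i, ?_⟩
    rw [← QuotientGroup.eq, QuotientGroup.mk_mul, QuotientGroup.mk_zpow, hi]; group

theorem comm_cyclic {S : Type u} [Group S] [Finite S] (hS : IsPGroup 2 S) (N : Subgroup S)
    [hN : N.Normal] (hNZ : N ≤ Subgroup.center S)
    (hna : ¬ IsMulCommutative (S ⧸ N)) (hu : ∃! x : S ⧸ N, orderOf x = 2) :
    commutator S ≠ ⊥ ∧ IsCyclic ↥(commutator S) := by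
  obtain ⟨k, a, b, h1, h2, h3, h4, h5⟩ := quat_lift hS N hna hu
  obtain ⟨d, hd⟩ : ∃ d, d = b * a * b⁻¹ * a := ⟨_, rfl⟩
  have hdN : d ∈ N := hd ▸ h3
  have hdZ : ∀ g : S, g * d = d * g := fun g => (Subgroup.mem_center_iff.mp (hNZ hdN)) g
  have hbab : b * a * b⁻¹ = d * a⁻¹ := by rw [hd]; group
  obtain ⟨c, hc⟩ : ∃ c, c = d * a⁻¹ * a⁻¹ := ⟨_, rfl⟩
  have hcba : b * a * b⁻¹ * a⁻¹ = c := by rw [hbab, hc]
  have hac : Commute a c := by
    rw [hc]
    have h0 : Commute a d := hdZ a
    have h00 : Commute a a⁻¹ := (Commute.refl a).inv_right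
    exact (h0.mul_right h00).mul_right h00
  have hbc : b * c * b⁻¹ = c⁻¹ := by
    have hb1 : b * d * b⁻¹ = d := by rw [hdZ b]; group
    have hb2 : b * a⁻¹ * b⁻¹ = a * d⁻¹ := by
      have h0 : b * a⁻¹ * b⁻¹ = (b * a * b⁻¹)⁻¹ := by group
      rw [h0, hbab]; group
    calc b * c * b⁻¹ = (b * d * b⁻¹) * (b * a⁻¹ * b⁻¹) * (b * a⁻¹ * b⁻¹) := by rw [hc]; group
      _ = d * (a * d⁻¹) * (a * d⁻¹) := by rw [hb1, hb2]
      _ = (d * a) * d⁻¹ * a * d⁻¹ := by group
      _ = (a * d) * d⁻¹ * a * d⁻¹ := by rw [hdZ a]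
      _ = a * a * d⁻¹ := by simp [mul_assoc]
      _ = c⁻¹ := by rw [hc]; simp [mul_assoc]
  obtain ⟨M, hM⟩ : ∃ M, M = Subgroup.zpowers c := ⟨_, rfl⟩
  have hgen : Subgroup.closure {a, b} ⊔ N = ⊤ := by
    rw [eq_top_iff]
    intro g _
    have ha : a ∈ Subgroup.closure ({a, b} : Set S) := Subgroup.subset_closure (by simp)
    have hb : b ∈ Subgroup.closure ({a, b} : Set S) := Subgroup.subset_closure (by simp)
    rcases gen_of_quat N h4 h5 g with ⟨i, hi⟩ | ⟨i, hi⟩
    · have hg : g = a ^ i * ((a ^ i)⁻¹ * g) := by group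
      rw [hg]
      exact mul_mem (Subgroup.mem_sup_left (zpow_mem ha i)) (Subgroup.mem_sup_right hi)
    · have hg : g = b * a ^ i * ((b * a ^ i)⁻¹ * g) := by group
      rw [hg]
      exact mul_mem (Subgroup.mem_sup_left (mul_mem hb (zpow_mem ha i)))
        (Subgroup.mem_sup_right hi)
  have hmap : M.map (MulAut.conj b).toMonoidHom = M := by
    rw [hM, MonoidHom.map_zpowers]
    have h0 : (MulAut.conj b).toMonoidHom c = c⁻¹ := hbc
    rw [h0, Subgroup.zpowers_inv]
  have hMn : M.Normal := by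
    rw [← Subgroup.normalizer_eq_top_iff, eq_top_iff, ← hgen]
    apply sup_le
    · rw [Subgroup.closure_le]
      intro x hx
      rcases hx with rfl | hx
      · apply Subgroup.centralizer_le_normalizer
        rw [hM, Subgroup.mem_centralizer_iff]
        intro h hh
        obtain ⟨j, rfl⟩ := Subgroup.mem_zpowers_iff.mp hh
        exact (hac.zpow_right j).eq.symm
      · rw [Set.mem_singleton_iff] at hx
        rw [hx, SetLike.mem_coe, Subgroup.mem_normalizer_iff]
        intro h
        constructor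
        · intro hh
          rw [← hmap]
          exact ⟨h, hh, rfl⟩
        · intro hh
          rw [← hmap] at hh
          obtain ⟨y, hy, hyh⟩ := hh
          have hyh' : b * y * b⁻¹ = b * h * b⁻¹ := hyh
          have hyeq : y = h := mul_left_cancel (mul_right_cancel hyh')
          exact hyeq ▸ hy
    · exact hNZ.trans ((Subgroup.center_le_centralizer _).trans
        (Subgroup.centralizer_le_normalizer _))
  have hcM : c ∈ M := hM ▸ Subgroup.mem_zpowers c
  have hQc : ∀ x y : S ⧸ M, x * y = y * x := by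
    apply comm_of_gen ((QuotientGroup.mk' M) '' ({a, b} ∪ (N : Set S)))
    · rw [← MonoidHom.map_closure, Subgroup.closure_union, Subgroup.closure_eq, hgen]
      exact Subgroup.map_top_of_surjective _ (QuotientGroup.mk'_surjective M)
    · have hba : (QuotientGroup.mk' M) b * (QuotientGroup.mk' M) a =
          (QuotientGroup.mk' M) a * (QuotientGroup.mk' M) b := by
        have h0 : b * a = c * (a * b) := by rw [← hcba]; group
        rw [← map_mul, h0, map_mul, map_mul]
        have h00 : (QuotientGroup.mk' M) c = 1 := (QuotientGroup.eq_one_iff c).mpr hcM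
        rw [h00, one_mul]
      have hcen : ∀ e ∈ N, ∀ s : S, (QuotientGroup.mk' M) e * (QuotientGroup.mk' M) s =
          (QuotientGroup.mk' M) s * (QuotientGroup.mk' M) e := by
        intro e he s
        rw [← map_mul, ← map_mul, (Subgroup.mem_center_iff.mp (hNZ he)) s]
      rintro x ⟨s, hs, rfl⟩ y ⟨s', hs', rfl⟩
      rcases hs with hs | hs
      · rcases hs' with hs' | hs'
        · rcases hs with rfl | hs
          · rcases hs' with rfl | hs'
            · rfl
            · rw [Set.mem_singleton_iff] at hs'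
              rw [hs']; exact hba.symm
          · rw [Set.mem_singleton_iff] at hs
            rcases hs' with rfl | hs'
            · rw [hs]; exact hba
            · rw [Set.mem_singleton_iff] at hs'
              rw [hs, hs']
        · exact (hcen s' hs' s).symm
      · exact hcen s hs s'
  have hle : commutator S ≤ M := by
    rw [commutator_def, Subgroup.commutator_le]
    intro g _ h _
    apply (QuotientGroup.eq_one_iff _).mp
    rw [commutatorElement_def, QuotientGroup.mk_mul, QuotientGroup.mk_mul, QuotientGroup.mk_mul,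
      QuotientGroup.mk_inv, QuotientGroup.mk_inv, hQc (QuotientGroup.mk g) (QuotientGroup.mk h)]
    group
  constructor
  · intro hbot
    apply hna
    refine ⟨⟨fun x y => ?_⟩⟩
    induction x using QuotientGroup.induction_on with
    | H g =>
      induction y using QuotientGroup.induction_on with
      | H h =>
        have h0 : ⁅g, h⁆ ∈ commutator S :=
          Subgroup.commutator_mem_commutator (Subgroup.mem_top g) (Subgroup.mem_top h)
        rw [hbot, Subgroup.mem_bot, commutatorElement_def] at h0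
        have h00 : g * h = h * g := by
          calc g * h = (g * h * g⁻¹ * h⁻¹) * (h * g) := by group
            _ = h * g := by rw [h0, one_mul]
        show (QuotientGroup.mk g : S ⧸ N) * QuotientGroup.mk h = QuotientGroup.mk h * QuotientGroup.mk g
        rw [← QuotientGroup.mk_mul, ← QuotientGroup.mk_mul, h00]
  · apply Cfsg.Agent.Lib.Helper19.isCyclic_of_le_of_isCyclic hle
    rw [hM]; infer_instance

/-- Let S be a finite 2-group of 2-rank exactly 2 and D a maximal subgroup of the centre of S such that S/D is a non-abelian group with exactly one involution (a generalized quaternion group). Then S has a nontrivial cyclic characteristic subgroup. -/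
theorem result {S : Type*} [Group S]
    [Finite S] (hS : IsPGroup 2 S) (hr2 : Cfsg.PRankLE 2 2 S) (hr1 : ¬ Cfsg.PRankLE 2 1 S)
    (D : Subgroup ↥(Subgroup.center S)) (hD : IsCoatom D)
    (hq : ∃ (_ : (D.map (Subgroup.center S).subtype).Normal),
      ¬ IsMulCommutative (S ⧸ D.map (Subgroup.center S).subtype) ∧
      ∃! x : S ⧸ D.map (Subgroup.center S).subtype, orderOf x = 2) :
    ∃ C : Subgroup S, C ≠ ⊥ ∧ IsCyclic ↥C ∧ C.Characteristic := by
  obtain ⟨hn, hna, hu⟩ := hq
  have hNZ : D.map (Subgroup.center S).subtype ≤ Subgroup.center S := Subgroup.map_subtype_le D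
  obtain ⟨h1, h2⟩ := comm_cyclic hS (D.map (Subgroup.center S).subtype) hNZ hna hu
  exact ⟨commutator S, h1, h2, inferInstance⟩

end Cfsg.Agent.S3202
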