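import Cfsg.Statements.S3201
import Cfsg.Agent.S3202

set_option autoImplicit false
open Cfsg

namespace Cfsg.Agent.S3201

universe u

section

variable {S : Type u} [Group S]

theorem mem_map_center_iff (D : Subgroup ↥(Subgroup.center S)) {x : S}
    (hx : x ∈ Subgroup.center S) :
    x ∈ D.map (Subgroup.center S).subtype ↔ (⟨x, hx⟩ : Subgroup.center S) ∈ D := by
  constructor
  · rintro ⟨z, hz, rfl⟩
    exact hz
  · intro h
    exact ⟨⟨x, hx⟩, h, rfl⟩

theorem sq_eq_one_of_center {ι : Type*} (C : ι → Subgroup ↥(Subgroup.center S))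
    (hidx : ∀ i, (C i).index = 2) (hCint : ⨅ i, C i = ⊥) :
    ∀ z ∈ Subgroup.center S, z * z = 1 := by
  intro z hz
  have h0 : (⟨z, hz⟩ : Subgroup.center S) * ⟨z, hz⟩ ∈ ⨅ i, C i := by
    rw [Subgroup.mem_iInf]
    intro i
    exact (Subgroup.mul_mem_iff_of_index_two (hidx i)).mpr Iff.rfl
  rw [hCint, Subgroup.mem_bot] at h0
  exact congrArg Subtype.val h0

theorem core2 [Finite S] (hS : IsPGroup 2 S) (N : Subgroup S) [hN : N.Normal]
    (hNZ : N ≤ Subgroup.center S) (hsq : ∀ z ∈ Subgroup.center S, z * z = 1)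
    (hna : ¬ IsMulCommutative (S ⧸ N)) (hu : ∃! x : S ⧸ N, orderOf x = 2)
    (hex : ∃ z ∈ Subgroup.center S, z ∉ N)
    (hprod : ∀ v ∈ Subgroup.center S, ∀ w ∈ Subgroup.center S, v ∉ N → w ∉ N → v * w ∈ N)
    (hKL : ∀ y : S, y ∉ Subgroup.center S → y * y ∈ Subgroup.center S → y * y ∉ N)
    (huniq : ∀ y y' : S, y ∉ Subgroup.center S → y * y ∈ Subgroup.center S →
      y' ∉ Subgroup.center S → y' * y' ∈ Subgroup.center S → y * y = y' * y') :
    ∃ E Q : Subgroup S, Cfsg.IsInternalDirectProduct E Q ⊤ ∧ Cfsg.IsElementaryAbelian 2 E ∧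
      ¬ IsMulCommutative ↥Q ∧ ∃! x : ↥Q, orderOf x = 2 := by
  have hp2 : Fact (Nat.Prime 2) := ⟨Nat.prime_two⟩
  obtain ⟨k, a, b, h1, h2, h3, h4, h5⟩ := Cfsg.Agent.S3202.quat_lift hS N hna hu
  obtain ⟨x₀, hx₀, hx₀u⟩ := hu
  have hx₀1 : x₀ ≠ 1 := by
    intro h; rw [h, orderOf_one] at hx₀; omega
  have hmkZ : ∀ z ∈ Subgroup.center S, z ∉ N → (QuotientGroup.mk z : S ⧸ N) = x₀ := by
    intro z hz hzN
    apply hx₀u
    apply orderOf_eq_prime
    · rw [pow_two, ← QuotientGroup.mk_mul, hsq z hz]; rfl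
    · intro h; exact hzN ((QuotientGroup.eq_one_iff z).mp h)
  obtain ⟨z₀, hz₀, hz₀N⟩ := hex
  have hapow : (QuotientGroup.mk a : S ⧸ N) ^ (2 ^ k) = x₀ := by
    apply hx₀u
    apply orderOf_eq_prime
    · rw [← pow_mul, ← pow_succ, ← h1]; exact pow_orderOf_eq_one _
    · apply pow_ne_one_of_lt_orderOf (by positivity)
      rw [h1]; exact Nat.pow_lt_pow_right (by norm_num) (by omega)
  have hZa : ∀ z ∈ Subgroup.center S,
      (QuotientGroup.mk z : S ⧸ N) ∈ Subgroup.zpowers (QuotientGroup.mk a : S ⧸ N) := by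
    intro z hz
    by_cases hzN : z ∈ N
    · rw [(QuotientGroup.eq_one_iff z).mpr hzN]; exact Subgroup.one_mem _
    · rw [hmkZ z hz hzN, ← hapow]; exact Subgroup.npow_mem_zpowers _ _
  have hlift : ∀ y : S, (QuotientGroup.mk y : S ⧸ N) = x₀ → y ∈ Subgroup.center S := by
    intro y hy
    have h0 : z₀⁻¹ * y ∈ N := by
      rw [← QuotientGroup.eq, hmkZ z₀ hz₀ hz₀N, hy]
    have h00 : y = z₀ * (z₀⁻¹ * y) := by group
    rw [h00]; exact mul_mem hz₀ (hNZ h0)
  have hbZ : b ∉ Subgroup.center S := fun h => h4 (hZa b h)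
  have hb2Z : b * b ∈ Subgroup.center S := by
    apply hlift
    rw [QuotientGroup.mk_mul, ← pow_two, h2, hapow]
  obtain ⟨u, hu⟩ : ∃ u, u = b * b := ⟨_, rfl⟩
  have huZ : u ∈ Subgroup.center S := hu ▸ hb2Z
  have huN : u ∉ N := hu ▸ hKL b hbZ hb2Z
  have hu1 : u ≠ 1 := fun h => huN (h ▸ N.one_mem)
  have huu : u * u = 1 := hsq u huZ
  have hrel : (QuotientGroup.mk b : S ⧸ N) * QuotientGroup.mk a * (QuotientGroup.mk b)⁻¹ =
      (QuotientGroup.mk a)⁻¹ := by
    have h0 := (QuotientGroup.eq_one_iff _).mpr h3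
    rw [QuotientGroup.mk_mul, QuotientGroup.mk_mul, QuotientGroup.mk_mul,
      QuotientGroup.mk_inv] at h0
    exact eq_inv_of_mul_eq_one_left h0
  have habZ : a * b ∉ Subgroup.center S := by
    intro h
    have h0 := hZa _ h
    rw [QuotientGroup.mk_mul] at h0
    apply h4
    have h00 : (QuotientGroup.mk b : S ⧸ N) =
        (QuotientGroup.mk a)⁻¹ * (QuotientGroup.mk a * QuotientGroup.mk b) := by group
    rw [h00]
    exact mul_mem (inv_mem (Subgroup.mem_zpowers _)) h0
  have hab2 : (a * b) * (a * b) ∈ Subgroup.center S := by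
    apply hlift
    rw [QuotientGroup.mk_mul, QuotientGroup.mk_mul]
    have h0 : (QuotientGroup.mk a : S ⧸ N) * QuotientGroup.mk b *
        (QuotientGroup.mk a * QuotientGroup.mk b) =
        QuotientGroup.mk a * (QuotientGroup.mk b * QuotientGroup.mk a * (QuotientGroup.mk b)⁻¹) *
          (QuotientGroup.mk b ^ 2) := by group
    rw [h0, hrel, h2, hapow, mul_inv_cancel, one_mul]
  have habu : (a * b) * (a * b) = u := by
    rw [hu]; exact huniq _ _ habZ hab2 hbZ hb2Z
  obtain ⟨d, hd⟩ : ∃ d, d = b * a * b⁻¹ * a := ⟨_, rfl⟩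
  have hdN : d ∈ N := hd ▸ h3
  have hdZ : ∀ g : S, g * d = d * g := fun g => (Subgroup.mem_center_iff.mp (hNZ hdN)) g
  have hd1 : d = 1 := by
    have e1 : (a * b) * (a * b) = (a * d) * a⁻¹ * (b * b) := by rw [hd]; group
    rw [hdZ a, habu, ← hu] at e1
    have e2 : d * a * a⁻¹ * u = d * u := by group
    rw [e2] at e1
    exact mul_right_cancel (e1.symm.trans (one_mul u).symm)
  have hba : b * a * b⁻¹ = a⁻¹ := by
    have h0 : b * a * b⁻¹ * a = 1 := by rw [← hd, hd1]
    exact eq_inv_of_mul_eq_one_left h0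
  have hgenQ : Subgroup.closure ({(QuotientGroup.mk a : S ⧸ N), QuotientGroup.mk b} :
      Set (S ⧸ N)) = ⊤ := by
    rw [eq_top_iff]
    intro x _
    have ha' : (QuotientGroup.mk a : S ⧸ N) ∈ Subgroup.closure
        ({(QuotientGroup.mk a : S ⧸ N), QuotientGroup.mk b} : Set (S ⧸ N)) :=
      Subgroup.subset_closure (by simp)
    have hb' : (QuotientGroup.mk b : S ⧸ N) ∈ Subgroup.closure
        ({(QuotientGroup.mk a : S ⧸ N), QuotientGroup.mk b} : Set (S ⧸ N)) :=
      Subgroup.subset_closure (by simp)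
    rcases Cfsg.Agent.S3202.quat_cases h4 h5 x with h | h
    · obtain ⟨i, rfl⟩ := Subgroup.mem_zpowers_iff.mp h
      exact zpow_mem ha' i
    · obtain ⟨i, hi⟩ := Subgroup.mem_zpowers_iff.mp h
      have h0 : x = QuotientGroup.mk b * (QuotientGroup.mk a) ^ i := by rw [hi]; group
      rw [h0]; exact mul_mem hb' (zpow_mem ha' i)
  have hk : 1 ≤ k := by
    by_contra hk0
    have hk0' : k = 0 := by omega
    subst hk0'
    apply hna
    have hainv : (QuotientGroup.mk a : S ⧸ N)⁻¹ = QuotientGroup.mk a := by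
      have h0 : (QuotientGroup.mk a : S ⧸ N) ^ 2 = 1 := by
        have h00 := pow_orderOf_eq_one (QuotientGroup.mk a : S ⧸ N)
        rw [h1] at h00
        simpa using h00
      rw [inv_eq_iff_eq_inv, eq_inv_iff_mul_eq_one, ← pow_two]; exact h0
    have hcomm : (QuotientGroup.mk b : S ⧸ N) * QuotientGroup.mk a =
        QuotientGroup.mk a * QuotientGroup.mk b := by
      have h0 := hrel
      rw [hainv] at h0
      calc (QuotientGroup.mk b : S ⧸ N) * QuotientGroup.mk a
          = (QuotientGroup.mk b * QuotientGroup.mk a * (QuotientGroup.mk b)⁻¹) *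
            QuotientGroup.mk b := by group
        _ = QuotientGroup.mk a * QuotientGroup.mk b := by rw [h0]
    have hpair : ∀ x ∈ ({(QuotientGroup.mk a : S ⧸ N), QuotientGroup.mk b} : Set (S ⧸ N)),
        ∀ y ∈ ({(QuotientGroup.mk a : S ⧸ N), QuotientGroup.mk b} : Set (S ⧸ N)),
        x * y = y * x := by
      intro x hx y hy
      rcases hx with rfl | hx <;> rcases hy with rfl | hy
      · rfl
      · rw [Set.mem_singleton_iff] at hy; rw [hy]; exact hcomm.symm
      · rw [Set.mem_singleton_iff] at hx; rw [hx]; exact hcomm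
      · rw [Set.mem_singleton_iff] at hx hy; rw [hx, hy]
    exact ⟨⟨Cfsg.Agent.S3202.comm_of_gen _ hgenQ hpair⟩⟩
  have hapu : a ^ (2 ^ k) = u := by
    obtain ⟨y, hy⟩ : ∃ y, y = a ^ (2 ^ (k - 1)) := ⟨_, rfl⟩
    have hyy : y * y = a ^ (2 ^ k) := by
      rw [hy, ← pow_add]; congr 1
      have h0 : k = (k - 1) + 1 := by omega
      conv_rhs => rw [h0, pow_succ]
      ring
    have hmky2 : (QuotientGroup.mk y : S ⧸ N) * QuotientGroup.mk y = x₀ := by
      rw [← QuotientGroup.mk_mul, hyy, QuotientGroup.mk_pow, hapow]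
    have hyZ : y ∉ Subgroup.center S := by
      intro h
      by_cases hyN : y ∈ N
      · have h0 : (QuotientGroup.mk y : S ⧸ N) = 1 := (QuotientGroup.eq_one_iff y).mpr hyN
        rw [h0, one_mul] at hmky2
        exact hx₀1 hmky2.symm
      · have h0 := hmkZ y h hyN
        rw [h0] at hmky2
        exact hx₀1 (mul_right_cancel (hmky2.trans (one_mul x₀).symm))
    have hyyZ : y * y ∈ Subgroup.center S :=
      hlift _ (by rw [QuotientGroup.mk_mul]; exact hmky2)
    rw [← hyy, hu]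
    exact huniq _ _ hyZ hyyZ hbZ hb2Z
  have hbaj : ∀ j : ℤ, b * a ^ j = a ^ (-j) * b := by
    intro j
    have h0 : b * a ^ j * b⁻¹ = a ^ (-j) := by
      rw [← conj_zpow, hba, inv_zpow, zpow_neg]
    calc b * a ^ j = (b * a ^ j * b⁻¹) * b := by group
      _ = a ^ (-j) * b := by rw [h0]
  have hbb : b * b = a ^ ((2 : ℤ) ^ k) := by
    rw [← hu, ← hapu]; norm_cast
  have hQdesc : ∀ q ∈ Subgroup.closure ({a, b} : Set S),
      (∃ i : ℤ, q = a ^ i) ∨ ∃ i : ℤ, q = a ^ i * b := by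
    intro q hq
    induction hq using Subgroup.closure_induction with
    | mem x hx =>
      rcases hx with rfl | hx
      · exact Or.inl ⟨1, (zpow_one _).symm⟩
      · rw [Set.mem_singleton_iff] at hx
        exact Or.inr ⟨0, by rw [hx, zpow_zero, one_mul]⟩
    | one => exact Or.inl ⟨0, (zpow_zero _).symm⟩
    | mul x y _ _ ihx ihy =>
      rcases ihx with ⟨i, rfl⟩ | ⟨i, rfl⟩ <;> rcases ihy with ⟨j, rfl⟩ | ⟨j, rfl⟩
      · exact Or.inl ⟨i + j, (zpow_add _ _ _).symm⟩
      · exact Or.inr ⟨i + j, by rw [zpow_add, mul_assoc]⟩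
      · refine Or.inr ⟨i + -j, ?_⟩
        rw [mul_assoc, hbaj, ← mul_assoc, ← zpow_add]
      · refine Or.inl ⟨i + -j + 2 ^ k, ?_⟩
        calc a ^ i * b * (a ^ j * b) = a ^ i * (b * a ^ j) * b := by group
          _ = a ^ i * (a ^ (-j) * b) * b := by rw [hbaj]
          _ = a ^ i * a ^ (-j) * (b * b) := by group
          _ = a ^ (i + -j + 2 ^ k) := by rw [hbb, ← zpow_add, ← zpow_add]
    | inv x _ ihx =>
      rcases ihx with ⟨i, rfl⟩ | ⟨i, rfl⟩
      · exact Or.inl ⟨-i, (zpow_neg _ _).symm⟩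
      · refine Or.inr ⟨i + 2 ^ k, ?_⟩
        apply inv_eq_of_mul_eq_one_right
        have h0 : i + -(i + 2 ^ k) + 2 ^ k = (0 : ℤ) := by ring
        calc a ^ i * b * (a ^ (i + 2 ^ k) * b) = a ^ i * (b * a ^ (i + 2 ^ k)) * b := by group
          _ = a ^ i * (a ^ (-(i + 2 ^ k)) * b) * b := by rw [hbaj]
          _ = a ^ i * a ^ (-(i + 2 ^ k)) * (b * b) := by group
          _ = 1 := by rw [hbb, ← zpow_add, ← zpow_add, h0, zpow_zero]
  have ha2k1 : a ^ (2 ^ (k + 1)) = 1 := by
    rw [pow_succ, pow_mul, hapu, pow_two, huu]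
  have hQN : N ⊓ Subgroup.closure ({a, b} : Set S) = ⊥ := by
    rw [eq_bot_iff]
    intro q hq
    obtain ⟨hqN, hqQ⟩ := Subgroup.mem_inf.mp hq
    rw [Subgroup.mem_bot]
    have hmk : (QuotientGroup.mk q : S ⧸ N) = 1 := (QuotientGroup.eq_one_iff q).mpr hqN
    rcases hQdesc q hqQ with ⟨i, rfl⟩ | ⟨i, rfl⟩
    · rw [QuotientGroup.mk_zpow] at hmk
      have h0 := orderOf_dvd_iff_zpow_eq_one.mpr hmk
      rw [h1] at h0
      obtain ⟨m, rfl⟩ := h0
      rw [zpow_mul, zpow_natCast, ha2k1, one_zpow]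
    · exfalso
      rw [QuotientGroup.mk_mul, QuotientGroup.mk_zpow] at hmk
      apply h4
      have h0 : (QuotientGroup.mk b : S ⧸ N) = ((QuotientGroup.mk a) ^ i)⁻¹ :=
        eq_inv_of_mul_eq_one_right hmk
      rw [h0]
      exact inv_mem (Subgroup.zpow_mem_zpowers _ _)
  have ha' : a ∈ Subgroup.closure ({a, b} : Set S) := Subgroup.subset_closure (by simp)
  have hb' : b ∈ Subgroup.closure ({a, b} : Set S) := Subgroup.subset_closure (by simp)
  have hsup : N ⊔ Subgroup.closure ({a, b} : Set S) = ⊤ := by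
    rw [eq_top_iff]
    intro g _
    rcases Cfsg.Agent.S3202.gen_of_quat N h4 h5 g with ⟨i, hi⟩ | ⟨i, hi⟩
    · have hg : g = a ^ i * ((a ^ i)⁻¹ * g) := by group
      rw [hg]
      exact mul_mem (Subgroup.mem_sup_right (zpow_mem ha' i)) (Subgroup.mem_sup_left hi)
    · have hg : g = b * a ^ i * ((b * a ^ i)⁻¹ * g) := by group
      rw [hg]
      exact mul_mem (Subgroup.mem_sup_right (mul_mem hb' (zpow_mem ha' i)))
        (Subgroup.mem_sup_left hi)
  refine ⟨N, Subgroup.closure ({a, b} : Set S), ⟨le_top, le_top, ?_, hQN, hsup⟩, ⟨?_, ?_⟩,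
    ?_, ?_⟩
  · intro e he q _
    exact ((Subgroup.mem_center_iff.mp (hNZ he)) q).symm
  · exact ⟨⟨fun x y => Subtype.ext ((Subgroup.mem_center_iff.mp (hNZ y.2)) x)⟩⟩
  · intro e he
    rw [pow_two]; exact hsq e (hNZ he)
  · intro hcomm
    have h0 : (⟨b, hb'⟩ : Subgroup.closure ({a, b} : Set S)) * ⟨a, ha'⟩ =
        ⟨a, ha'⟩ * ⟨b, hb'⟩ := hcomm.is_comm.comm _ _
    have h00 : b * a = a * b := congrArg Subtype.val h0
    have haa : a * a = 1 := by
      have h000 : a⁻¹ = a := by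
        rw [← hba, h00]; group
      calc a * a = a⁻¹ * a := by rw [h000]
        _ = 1 := inv_mul_cancel a
    have h3' : (QuotientGroup.mk a : S ⧸ N) ^ 2 = 1 := by
      rw [pow_two, ← QuotientGroup.mk_mul, haa]; rfl
    have h4' := orderOf_dvd_of_pow_eq_one h3'
    rw [h1] at h4'
    have h5' : 2 ^ (k + 1) ≤ 2 := Nat.le_of_dvd (by norm_num) h4'
    have h6' : 2 ^ 2 ≤ 2 ^ (k + 1) := Nat.pow_le_pow_right (by norm_num) (by omega)
    omega
  · have hu_mem : u ∈ Subgroup.closure ({a, b} : Set S) := by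
      rw [hu]; exact mul_mem hb' hb'
    refine ⟨⟨u, hu_mem⟩, ?_, ?_⟩
    · show orderOf (⟨u, hu_mem⟩ : Subgroup.closure ({a, b} : Set S)) = 2
      rw [Subgroup.orderOf_mk]
      exact orderOf_eq_prime (by rw [pow_two]; exact huu) hu1
    · intro y hy
      have hy2 : orderOf (y : S) = 2 := by rw [Subgroup.orderOf_coe]; exact hy
      have hyy : (y : S) * (y : S) = 1 := by
        have h0 := pow_orderOf_eq_one (y : S)
        rwa [hy2, pow_two] at h0
      have hy1 : (y : S) ≠ 1 := by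
        intro h; rw [h, orderOf_one] at hy2; omega
      have hyZ : (y : S) ∈ Subgroup.center S := by
        by_contra hnZ
        exact hKL _ hnZ (by rw [hyy]; exact Subgroup.one_mem _) (by rw [hyy]; exact N.one_mem)
      have hyN : (y : S) ∉ N := by
        intro h
        have h0 : (y : S) ∈ N ⊓ Subgroup.closure ({a, b} : Set S) :=
          Subgroup.mem_inf.mpr ⟨h, y.2⟩
        rw [hQN, Subgroup.mem_bot] at h0
        exact hy1 h0
      have hprodN := hprod _ hyZ _ huZ hyN huN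
      have hprodQ : (y : S) * u ∈ N ⊓ Subgroup.closure ({a, b} : Set S) :=
        Subgroup.mem_inf.mpr ⟨hprodN, mul_mem y.2 hu_mem⟩
      rw [hQN, Subgroup.mem_bot] at hprodQ
      apply Subtype.ext
      show (y : S) = u
      calc (y : S) = (y : S) * u * u := by rw [mul_assoc, huu, mul_one]
        _ = u := by rw [hprodQ, one_mul]

end

/-- Let S be a finite 2-group whose centre Z(S) has n ≥ 2 distinct maximal subgroups C₁, …, Cₙ with trivial intersection such that each quotient S/Cᵢ is a non-abelian group with exactly one involution (a generalized quaternion group). Then S is the internal direct product of an elementary abelian subgroup and a non-abelian subgroup with exactly one involution. -/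
theorem result {S : Type*} [Group S] [Finite S]
    (hS : IsPGroup 2 S) (n : ℕ) (hn : 2 ≤ n) (C : Fin n → Subgroup ↥(Subgroup.center S))
    (hCmax : ∀ i, IsCoatom (C i)) (hCinj : Function.Injective C) (hCint : ⨅ i, C i = ⊥)
    (hCq : ∀ i, ∃ (_ : ((C i).map (Subgroup.center S).subtype).Normal),
      ¬ IsMulCommutative (S ⧸ (C i).map (Subgroup.center S).subtype) ∧
      ∃! x : S ⧸ (C i).map (Subgroup.center S).subtype, orderOf x = 2) :
    ∃ E Q : Subgroup S, Cfsg.IsInternalDirectProduct E Q ⊤ ∧ Cfsg.IsElementaryAbelian 2 E ∧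
      ¬ IsMulCommutative ↥Q ∧ ∃! x : ↥Q, orderOf x = 2 := by
  have hp2 : Fact (Nat.Prime 2) := ⟨Nat.prime_two⟩
  have hidx : ∀ i, (C i).index = 2 := fun i =>
    Cfsg.Agent.Lib.Helper1.coatom_index_of_pgroup (hS.to_subgroup _) (hCmax i)
  have hsq := sq_eq_one_of_center C hidx hCint
  have hNZ : ∀ i, (C i).map (Subgroup.center S).subtype ≤ Subgroup.center S :=
    fun i => Subgroup.map_subtype_le _
  have hex : ∀ i, ∃ z ∈ Subgroup.center S, z ∉ (C i).map (Subgroup.center S).subtype := by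
    intro i
    have hne : C i ≠ ⊤ := (hCmax i).1
    obtain ⟨z, hz⟩ : ∃ z : Subgroup.center S, z ∉ C i := by
      by_contra hcon
      push Not at hcon
      exact hne (eq_top_iff.mpr (fun z _ => hcon z))
    exact ⟨z, z.2, fun h => hz ((mem_map_center_iff (C i) z.2).mp h)⟩
  have hprod : ∀ i, ∀ v ∈ Subgroup.center S, ∀ w ∈ Subgroup.center S,
      v ∉ (C i).map (Subgroup.center S).subtype → w ∉ (C i).map (Subgroup.center S).subtype →
      v * w ∈ (C i).map (Subgroup.center S).subtype := by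
    intro i v hv w hw hvn hwn
    rw [mem_map_center_iff (C i) (mul_mem hv hw)]
    have h0 : (⟨v * w, mul_mem hv hw⟩ : Subgroup.center S) = ⟨v, hv⟩ * ⟨w, hw⟩ := rfl
    rw [h0, Subgroup.mul_mem_iff_of_index_two (hidx i)]
    constructor
    · intro h; exact absurd ((mem_map_center_iff (C i) hv).mpr h) hvn
    · intro h; exact absurd ((mem_map_center_iff (C i) hw).mpr h) hwn
  have hKL : ∀ i, ∀ y : S, y ∉ Subgroup.center S → y * y ∈ Subgroup.center S →
      y * y ∉ (C i).map (Subgroup.center S).subtype := by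
    intro i y hyZ hyy hyyN
    obtain ⟨hn, -, x₀, hx₀, hx₀u⟩ := hCq i
    obtain ⟨z, hz, hzN⟩ := hex i
    have e1 : (QuotientGroup.mk y : S ⧸ (C i).map (Subgroup.center S).subtype) = x₀ := by
      apply hx₀u
      apply orderOf_eq_prime
      · rw [pow_two, ← QuotientGroup.mk_mul]; exact (QuotientGroup.eq_one_iff _).mpr hyyN
      · intro h; exact hyZ (hNZ i ((QuotientGroup.eq_one_iff y).mp h))
    have e2 : (QuotientGroup.mk z : S ⧸ (C i).map (Subgroup.center S).subtype) = x₀ := by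
      apply hx₀u
      apply orderOf_eq_prime
      · rw [pow_two, ← QuotientGroup.mk_mul, hsq z hz]; rfl
      · intro h; exact hzN ((QuotientGroup.eq_one_iff z).mp h)
    have e3 : z⁻¹ * y ∈ (C i).map (Subgroup.center S).subtype := by
      rw [← QuotientGroup.eq, e1, e2]
    apply hyZ
    have h0 : y = z * (z⁻¹ * y) := by group
    rw [h0]; exact mul_mem hz (hNZ i e3)
  have huniq : ∀ y y' : S, y ∉ Subgroup.center S → y * y ∈ Subgroup.center S →
      y' ∉ Subgroup.center S → y' * y' ∈ Subgroup.center S → y * y = y' * y' := by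
    intro y y' hy hyy hy' hyy'
    have h0 : (⟨y * y, hyy⟩ : Subgroup.center S) * ⟨y' * y', hyy'⟩ ∈ ⨅ i, C i := by
      rw [Subgroup.mem_iInf]
      intro i
      have h00 := hprod i _ hyy _ hyy' (hKL i y hy hyy) (hKL i y' hy' hyy')
      exact (mem_map_center_iff (C i) (mul_mem hyy hyy')).mp h00
    rw [hCint, Subgroup.mem_bot] at h0
    have h1 : (y * y) * (y' * y') = 1 := congrArg Subtype.val h0
    calc y * y = (y * y) * ((y' * y') * (y' * y')) := by rw [hsq _ hyy', mul_one]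
      _ = y' * y' := by rw [← mul_assoc, h1, one_mul]
  obtain ⟨hn0, hna, hu⟩ := hCq ⟨0, by omega⟩
  exact core2 hS _ (hNZ _) hsq hna hu (hex _) (hprod _) (hKL _) huniq

end Cfsg.Agent.S3201
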