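import Cfsg.Statements.S3208
import Cfsg.Agent.Lib.Helper19.RelNorm

set_option autoImplicit false
open Cfsg

namespace Cfsg.Agent.S3208

/-- Let j be an involution of a finite group G, H a subgroup of G, and T a Sylow 2-subgroup of H ∩ C_G(j) containing j such that ⟨j⟩ is a characteristic subgroup of T. Then T is a Sylow 2-subgroup of H. -/
theorem result {G : Type*} [Group G] [Finite G]
    (j : G) (hj : orderOf j = 2) (H T : Subgroup G) (hT : T ≤ H ⊓ Subgroup.centralizer ({j} : Set G)) (h2 : IsPGroup 2 ↥T)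
    (hSyl : ¬ 2 ∣ T.relIndex (H ⊓ Subgroup.centralizer ({j} : Set G))) (hjT : j ∈ T)
    (hchar : ((Subgroup.zpowers j).subgroupOf T).Characteristic) :
    ¬ 2 ∣ T.relIndex H := by
  classical
  haveI : Fact (Nat.Prime 2) := ⟨Nat.prime_two⟩
  set K := H ⊓ Subgroup.centralizer ({j} : Set G) with hK
  have hTH : T ≤ H := hT.trans inf_le_left
  have m1 := Cfsg.Agent.Lib.Helper19.relIndex_normalizer_modEq hTH h2
  have m2 := Cfsg.Agent.Lib.Helper19.relIndex_normalizer_modEq hT h2
  have hj1 : j ≠ 1 := by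
    intro h; rw [h, orderOf_one] at hj; omega
  have hj2 : j ^ 2 = 1 := by rw [← hj]; exact pow_orderOf_eq_one j
  -- normalizer of T centralizes j
  have hN : Subgroup.normalizer (T : Set G) ≤ Subgroup.centralizer ({j} : Set G) := by
    intro n hn
    have h1 := Cfsg.Agent.Lib.Helper19.conj_mem_of_characteristic hchar hn hjT
      (Subgroup.mem_zpowers j)
    rw [Subgroup.mem_centralizer_singleton_iff]
    obtain ⟨k, hk⟩ := Subgroup.mem_zpowers_iff.mp h1
    have hk' : j ^ k = n * j * n⁻¹ := hk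
    rcases Int.emod_two_eq_zero_or_one k with h0 | h0
    · exfalso
      obtain ⟨c, hc⟩ : ∃ c, k = 2 * c := ⟨k / 2, by omega⟩
      rw [hc, zpow_mul, zpow_ofNat, hj2, one_zpow] at hk'
      apply hj1
      have := congrArg (fun z => n⁻¹ * z * n) hk'
      simpa [mul_assoc] using this.symm
    · obtain ⟨c, hc⟩ : ∃ c, k = 2 * c + 1 := ⟨k / 2, by omega⟩
      rw [hc, zpow_add, zpow_mul, zpow_ofNat, hj2, one_zpow, one_mul, zpow_one] at hk'
      calc n * j = n * j * n⁻¹ * n := by group
        _ = j * n := by rw [← hk']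
  have hEq : Subgroup.normalizer (T : Set G) ⊓ K = Subgroup.normalizer (T : Set G) ⊓ H := by
    rw [hK]
    apply le_antisymm
    · exact inf_le_inf_left _ inf_le_left
    · exact le_inf inf_le_left (le_inf inf_le_right (inf_le_left.trans hN))
  rw [hEq] at m2
  have m3 : T.relIndex H ≡ T.relIndex K [MOD 2] := m1.symm.trans m2
  intro hdvd
  exact hSyl ((m3.dvd_iff (dvd_refl 2)).mp hdvd)

end Cfsg.Agent.S3208
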