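import Cfsg.Statements.S3209
import Cfsg.Agent.Lib.Helper18.Subnormal

set_option autoImplicit false
open Cfsg

namespace Cfsg.Agent.S3209

/-- The element `w = [[0, -1], [1, 0]]` of `SL₂(F)`. -/
def wEl (F : Type*) [Field F] : Matrix.SpecialLinearGroup (Fin 2) F :=
  ⟨!![0, -1; 1, 0], by simp [Matrix.det_fin_two]⟩

theorem sl2_sq_one {F : Type*} [Field F] (h2 : (2 : F) ≠ 0)
    (A : Matrix.SpecialLinearGroup (Fin 2) F) (hA : A * A = 1) (hA1 : A ≠ 1) :
    (A : Matrix (Fin 2) (Fin 2) F) = !![-1, 0; 0, -1] := by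
  have hdet := A.det_coe
  rw [Matrix.det_fin_two] at hdet
  have hm : (A : Matrix (Fin 2) (Fin 2) F) * (A : Matrix (Fin 2) (Fin 2) F) = 1 := by
    rw [← Matrix.SpecialLinearGroup.coe_mul, hA, Matrix.SpecialLinearGroup.coe_one]
  have h00 := congrFun (congrFun hm 0) 0
  have h01 := congrFun (congrFun hm 0) 1
  have h10 := congrFun (congrFun hm 1) 0
  simp only [Matrix.mul_apply, Fin.sum_univ_two, Matrix.one_apply_eq] at h00
  simp only [Matrix.mul_apply, Fin.sum_univ_two] at h01 h10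
  rw [Matrix.one_apply_ne (by decide)] at h01 h10
  obtain ⟨a, ha⟩ : ∃ a, a = (A : Matrix (Fin 2) (Fin 2) F) 0 0 := ⟨_, rfl⟩
  obtain ⟨b, hb⟩ : ∃ b, b = (A : Matrix (Fin 2) (Fin 2) F) 0 1 := ⟨_, rfl⟩
  obtain ⟨c, hc⟩ : ∃ c, c = (A : Matrix (Fin 2) (Fin 2) F) 1 0 := ⟨_, rfl⟩
  obtain ⟨d, hd⟩ : ∃ d, d = (A : Matrix (Fin 2) (Fin 2) F) 1 1 := ⟨_, rfl⟩
  rw [← ha, ← hb, ← hc, ← hd] at hdet
  rw [← ha, ← hb, ← hc] at h00
  rw [← ha, ← hb, ← hd] at h01
  rw [← ha, ← hc, ← hd] at h10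
  have hs : a + d ≠ 0 := by
    intro hs
    have hd' : d = -a := by linear_combination hs
    rw [hd'] at hdet
    apply h2
    linear_combination (-1 : F) * h00 + (-1 : F) * hdet
  have hb0 : b = 0 := by
    have : b * (a + d) = 0 := by linear_combination h01
    rcases mul_eq_zero.mp this with h | h
    · exact h
    · exact absurd h hs
  have hc0 : c = 0 := by
    have : c * (a + d) = 0 := by linear_combination h10
    rcases mul_eq_zero.mp this with h | h
    · exact h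
    · exact absurd h hs
  rw [hb0, hc0] at h00 hdet
  have haa : (a - 1) * (a + 1) = 0 := by linear_combination h00
  rcases mul_eq_zero.mp haa with h | h
  · exfalso
    have ha1 : a = 1 := by linear_combination h
    have hd1 : d = 1 := by rw [ha1] at hdet; linear_combination hdet
    apply hA1
    apply Subtype.ext
    rw [Matrix.SpecialLinearGroup.coe_one]
    ext i j
    fin_cases i <;> fin_cases j
    · exact ha.symm.trans ha1
    · exact hb.symm.trans hb0
    · exact hc.symm.trans hc0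
    · exact hd.symm.trans hd1
  · have ha1 : a = -1 := by linear_combination h
    have hd1 : d = -1 := by rw [ha1] at hdet; linear_combination -hdet
    ext i j
    fin_cases i <;> fin_cases j
    · exact ha.symm.trans ha1
    · exact hb.symm.trans hb0
    · exact hc.symm.trans hc0
    · exact hd.symm.trans hd1

theorem exists_sq_add_sq {F : Type*} [Field F] [Fintype F] (hodd : Fintype.card F % 2 = 1)
    (c : F) : ∃ X Y : F, X ^ 2 + Y ^ 2 = c := by
  obtain ⟨X, Y, h⟩ := FiniteField.exists_root_sum_quadratic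
    (f := (Polynomial.X : Polynomial F) ^ 2) (g := (Polynomial.X : Polynomial F) ^ 2 - Polynomial.C c)
    (Polynomial.degree_X_pow 2) (Polynomial.degree_X_pow_sub_C (by norm_num) c) hodd
  refine ⟨X, Y, ?_⟩
  simp only [Polynomial.eval_pow, Polynomial.eval_X, Polynomial.eval_sub, Polynomial.eval_C] at h
  linear_combination h

theorem sl2_sq_neg_conj {F : Type*} [Field F] [Fintype F] (hodd : Fintype.card F % 2 = 1)
    (h2 : (2 : F) ≠ 0) (A : Matrix.SpecialLinearGroup (Fin 2) F)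
    (hA : ((A * A : Matrix.SpecialLinearGroup (Fin 2) F) : Matrix (Fin 2) (Fin 2) F) =
      !![-1, 0; 0, -1]) :
    ∃ P : Matrix.SpecialLinearGroup (Fin 2) F, P * wEl F = A * P := by
  have hdet := A.det_coe
  rw [Matrix.det_fin_two] at hdet
  rw [Matrix.SpecialLinearGroup.coe_mul] at hA
  have h00 := congrFun (congrFun hA 0) 0
  have h11 := congrFun (congrFun hA 1) 1
  simp only [Matrix.mul_apply, Fin.sum_univ_two] at h00 h11
  obtain ⟨a, ha⟩ : ∃ a, a = (A : Matrix (Fin 2) (Fin 2) F) 0 0 := ⟨_, rfl⟩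
  obtain ⟨b, hb⟩ : ∃ b, b = (A : Matrix (Fin 2) (Fin 2) F) 0 1 := ⟨_, rfl⟩
  obtain ⟨c, hc⟩ : ∃ c, c = (A : Matrix (Fin 2) (Fin 2) F) 1 0 := ⟨_, rfl⟩
  obtain ⟨d, hd⟩ : ∃ d, d = (A : Matrix (Fin 2) (Fin 2) F) 1 1 := ⟨_, rfl⟩
  rw [← ha, ← hb, ← hc, ← hd] at hdet
  rw [← ha, ← hb, ← hc] at h00
  rw [← hb, ← hc, ← hd] at h11
  have h00' : a * a + b * c = -1 := by simpa using h00
  have h11' : c * b + d * d = -1 := by simpa using h11
  have hs : a + d = 0 := by
    have : (a + d) * (a + d) = 0 := by linear_combination h00' + 2 * hdet + h11'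
    exact mul_self_eq_zero.mp this
  have hd' : d = -a := by linear_combination hs
  have hAm : (A : Matrix (Fin 2) (Fin 2) F) = !![a, b; c, -a] := by
    ext i j
    fin_cases i <;> fin_cases j
    · exact ha.symm
    · exact hb.symm
    · exact hc.symm
    · exact hd.symm.trans hd'
  obtain ⟨v₁, v₂, hv⟩ : ∃ v₁ v₂ : F, c * v₁ ^ 2 - 2 * a * v₁ * v₂ - b * v₂ ^ 2 = 1 := by
    by_cases hc0 : c = 0
    · have ha0 : a ≠ 0 := by
        intro ha0
        rw [ha0, hc0] at h00'
        have : (1 : F) = 0 := by linear_combination h00'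
        exact one_ne_zero this
      refine ⟨-(1 + b) / (2 * a), 1, ?_⟩
      rw [hc0]
      field_simp
      ring
    · obtain ⟨X, Y, hXY⟩ := exists_sq_add_sq hodd c
      refine ⟨(X + a * Y) / c, Y, ?_⟩
      field_simp
      linear_combination hXY - Y ^ 2 * h00'
  obtain ⟨P, hPm⟩ : ∃ P : Matrix.SpecialLinearGroup (Fin 2) F,
      (P : Matrix (Fin 2) (Fin 2) F) = !![v₁, a * v₁ + b * v₂; v₂, c * v₁ - a * v₂] :=
    ⟨⟨!![v₁, a * v₁ + b * v₂; v₂, c * v₁ - a * v₂], by
      rw [Matrix.det_fin_two_of]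
      linear_combination hv⟩, rfl⟩
  have hW : ((wEl F : Matrix.SpecialLinearGroup (Fin 2) F) : Matrix (Fin 2) (Fin 2) F) =
      !![0, -1; 1, 0] := rfl
  refine ⟨P, ?_⟩
  apply Subtype.ext
  rw [Matrix.SpecialLinearGroup.coe_mul, Matrix.SpecialLinearGroup.coe_mul, hAm, hPm, hW,
    Matrix.mul_fin_two, Matrix.mul_fin_two]
  ext i j
  fin_cases i <;> fin_cases j
  · simp
  · simp
    linear_combination -v₁ * h00'
  · simp
    ring
  · simp
    linear_combination -v₂ * h00'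

theorem side {G : Type*} [Group G] {F : Type*} [Field F] [Fintype F] (hF : Odd (Fintype.card F))
    (L : Subgroup G) (e : ↥L ≃* Matrix.SpecialLinearGroup (Fin 2) F) (j : G) (hjL : j ∈ L)
    (hj1 : j ≠ 1) (hjj : j * j = 1) :
    (∀ g ∈ L, g * g = 1 → g = 1 ∨ g = j) ∧ ∃ a ∈ L, a * a = j ∧
      ∀ a' ∈ L, a' * a' = j → ∃ g ∈ L, g * a * g⁻¹ = a' := by
  have hodd : Fintype.card F % 2 = 1 := Nat.odd_iff.mp hF
  have h2 : (2 : F) ≠ 0 := by
    apply Ring.two_ne_zero
    intro hch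
    have := FiniteField.even_card_of_char_two hch
    omega
  have hJ : e ⟨j, hjL⟩ * e ⟨j, hjL⟩ = 1 := by
    rw [← map_mul]
    have : (⟨j, hjL⟩ : L) * ⟨j, hjL⟩ = 1 := Subtype.ext hjj
    rw [this, map_one]
  have hJ1 : e ⟨j, hjL⟩ ≠ 1 := by
    intro h
    have := e.injective (h.trans (map_one e).symm)
    exact hj1 (congrArg Subtype.val this)
  have hJm := sl2_sq_one h2 _ hJ hJ1
  have inv : ∀ g ∈ L, g * g = 1 → g = 1 ∨ g = j := by
    intro g hg hgg
    by_cases h1 : g = 1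
    · left; exact h1
    · right
      have hA : e ⟨g, hg⟩ * e ⟨g, hg⟩ = 1 := by
        rw [← map_mul]
        have : (⟨g, hg⟩ : L) * ⟨g, hg⟩ = 1 := Subtype.ext hgg
        rw [this, map_one]
      have hA1 : e ⟨g, hg⟩ ≠ 1 := by
        intro h
        have := e.injective (h.trans (map_one e).symm)
        exact h1 (congrArg Subtype.val this)
      have hAm := sl2_sq_one h2 _ hA hA1
      have : e ⟨g, hg⟩ = e ⟨j, hjL⟩ := Subtype.ext (hAm.trans hJm.symm)
      exact congrArg Subtype.val (e.injective this)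
  refine ⟨inv, (e.symm (wEl F) : G), (e.symm (wEl F)).2, ?_, ?_⟩
  · have hWW : wEl F * wEl F = e ⟨j, hjL⟩ := by
      have hW : ((wEl F : Matrix.SpecialLinearGroup (Fin 2) F) : Matrix (Fin 2) (Fin 2) F) =
          !![0, -1; 1, 0] := rfl
      apply Subtype.ext
      rw [hJm, Matrix.SpecialLinearGroup.coe_mul, hW, Matrix.mul_fin_two]
      simp
    have h3 : e.symm (wEl F) * e.symm (wEl F) = ⟨j, hjL⟩ := by
      rw [← map_mul, hWW, e.symm_apply_apply]
    exact congrArg Subtype.val h3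
  · intro a' ha' haa'
    have hA : ((e ⟨a', ha'⟩ * e ⟨a', ha'⟩ : Matrix.SpecialLinearGroup (Fin 2) F) :
        Matrix (Fin 2) (Fin 2) F) = !![-1, 0; 0, -1] := by
      rw [← map_mul]
      have : (⟨a', ha'⟩ : L) * ⟨a', ha'⟩ = ⟨j, hjL⟩ := Subtype.ext haa'
      rw [this]
      exact hJm
    obtain ⟨P, hP⟩ := sl2_sq_neg_conj hodd h2 _ hA
    refine ⟨(e.symm P : G), (e.symm P).2, ?_⟩
    have h3 : e.symm P * e.symm (wEl F) = ⟨a', ha'⟩ * e.symm P := by
      apply e.injective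
      rw [map_mul, map_mul, e.apply_symm_apply, e.apply_symm_apply, hP]
    have h4 : (e.symm P : G) * (e.symm (wEl F) : G) = a' * (e.symm P : G) :=
      congrArg Subtype.val h3
    rw [h4]
    group

/-- Let L₁ ≅ SL₂(q₁) and L₂ ≅ SL₂(q₂), q₁ and q₂ odd, be elementwise-commuting subgroups of a finite group meeting in ⟨j⟩ for an involution j. Then L₁L₂ has exactly two conjugacy classes of involutions: the central involution j, and one further class (there is an involution x ≠ j in L₁L₂, and every involution of L₁L₂ other than j is conjugate to x by an element of L₁L₂). -/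
theorem result {G : Type*} [Group G] [Finite G]
    {F₁ : Type*} [Field F₁] [Fintype F₁] {F₂ : Type*} [Field F₂] [Fintype F₂]
    (hF₁ : Odd (Fintype.card F₁)) (hF₂ : Odd (Fintype.card F₂)) (L₁ L₂ : Subgroup G)
    (e₁ : ↥L₁ ≃* Matrix.SpecialLinearGroup (Fin 2) F₁) (e₂ : ↥L₂ ≃* Matrix.SpecialLinearGroup (Fin 2) F₂)
    (hc : ∀ x ∈ L₁, ∀ y ∈ L₂, x * y = y * x) (j : G) (hj : orderOf j = 2) (hm : L₁ ⊓ L₂ = Subgroup.zpowers j) :
    ∃ x ∈ L₁ ⊔ L₂, orderOf x = 2 ∧ x ≠ j ∧
      ∀ y ∈ L₁ ⊔ L₂, orderOf y = 2 → y = j ∨ ∃ g ∈ L₁ ⊔ L₂, g * x * g⁻¹ = y := by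
  have hjm : j ∈ L₁ ⊓ L₂ := hm ▸ Subgroup.mem_zpowers j
  have hj1 : j ≠ 1 := by
    intro h
    rw [h, orderOf_one] at hj
    omega
  have hjj : j * j = 1 := by
    have := pow_orderOf_eq_one j
    rw [hj, sq] at this
    exact this
  have hmem : ∀ g, g ∈ L₁ → g ∈ L₂ → g = 1 ∨ g = j := by
    intro g h1 h2
    have h3 : g ∈ Subgroup.zpowers j := hm ▸ (⟨h1, h2⟩ : g ∈ L₁ ⊓ L₂)
    obtain ⟨k, rfl⟩ := Subgroup.mem_zpowers_iff.mp h3
    have h4 : j ^ k = j ^ (k % (orderOf j : ℤ)) := (zpow_mod_orderOf j k).symm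
    rw [hj] at h4
    rcases Int.emod_two_eq_zero_or_one k with h | h
    · left
      rw [h4]
      have : k % ((2 : ℕ) : ℤ) = 0 := h
      rw [this, zpow_zero]
    · right
      rw [h4]
      have : k % ((2 : ℕ) : ℤ) = 1 := h
      rw [this, zpow_one]
  obtain ⟨inv1, a, haL, haa, conj1⟩ := side hF₁ L₁ e₁ j hjm.1 hj1 hjj
  obtain ⟨inv2, b, hbL, hbb, conj2⟩ := side hF₂ L₂ e₂ j hjm.2 hj1 hjj
  have hab : a * b = b * a := hc a haL b hbL
  have hanot : a ∉ L₂ := by
    intro h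
    rcases hmem a haL h with h | h
    · rw [h, one_mul] at haa
      exact hj1 haa.symm
    · rw [h, hjj] at haa
      exact hj1 haa.symm
  have hsup : ∀ y ∈ L₁ ⊔ L₂, ∃ a' ∈ L₁, ∃ b' ∈ L₂, y = a' * b' := by
    intro y hy
    apply Cfsg.Agent.Lib.Helper18.mem_sup_of_le_normalizer _ hy
    intro u hu
    rw [Subgroup.mem_normalizer_iff]
    intro v
    have e : ∀ v ∈ L₂, u * v * u⁻¹ = v := by
      intro v hv
      rw [hc u hu v hv, mul_inv_cancel_right]
    constructor
    · intro hv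
      rw [e v hv]; exact hv
    · intro hv
      have h1 := e _ hv
      have h2 : u * v * u⁻¹ = v := by
        have h3 : u⁻¹ * (u * v * u⁻¹) * u = v := by group
        have h4 := hc u⁻¹ (inv_mem hu) _ hv
        rw [h4] at h3
        have h5 : u * v * u⁻¹ * u⁻¹ * u = u * v * u⁻¹ := by group
        rw [h5] at h3
        exact h3
      rw [← h2]; exact hv
  refine ⟨a * b, mul_mem (Subgroup.mem_sup_left haL) (Subgroup.mem_sup_right hbL), ?_, ?_, ?_⟩
  · have h1 : (a * b) ^ 2 = 1 := by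
      rw [sq]
      calc a * b * (a * b) = a * (b * a) * b := by group
        _ = a * (a * b) * b := by rw [hab]
        _ = a * a * (b * b) := by group
        _ = 1 := by rw [haa, hbb, hjj]
    have h2 : a * b ≠ 1 := by
      intro h
      apply hanot
      have : a = b⁻¹ := eq_inv_of_mul_eq_one_left h
      rw [this]; exact inv_mem hbL
    have : Fact (Nat.Prime 2) := ⟨Nat.prime_two⟩
    exact orderOf_eq_prime h1 h2
  · intro h
    apply hanot
    have : a = j * b⁻¹ := by rw [← h]; group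
    rw [this]; exact mul_mem hjm.2 (inv_mem hbL)
  · intro y hy hy2
    obtain ⟨a', ha', b', hb', rfl⟩ := hsup y hy
    have hy1 : a' * b' * (a' * b') = 1 := by
      have := pow_orderOf_eq_one (a' * b')
      rw [hy2, sq] at this
      exact this
    have hcomm := hc a' ha' b' hb'
    have h3 : a' * a' * (b' * b') = 1 := by
      rw [← hy1]
      calc a' * a' * (b' * b') = a' * (a' * b') * b' := by group
        _ = a' * (b' * a') * b' := by rw [hcomm]
        _ = a' * b' * (a' * b') := by group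
    have h4 : a' * a' ∈ L₂ := by
      have : a' * a' = (b' * b')⁻¹ := eq_inv_of_mul_eq_one_left h3
      rw [this]; exact inv_mem (mul_mem hb' hb')
    rcases hmem (a' * a') (mul_mem ha' ha') h4 with h5 | h5
    · have h6 : b' * b' = 1 := by rw [h5, one_mul] at h3; exact h3
      rcases inv1 a' ha' h5 with h7 | h7 <;> rcases inv2 b' hb' h6 with h8 | h8
      · exfalso
        rw [h7, h8, mul_one, orderOf_one] at hy2
        omega
      · left; rw [h7, h8, one_mul]
      · left; rw [h7, h8, mul_one]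
      · exfalso
        rw [h7, h8, hjj, orderOf_one] at hy2
        omega
    · have h6 : b' * b' = j := by
        rw [h5] at h3
        have : b' * b' = j⁻¹ := eq_inv_of_mul_eq_one_right h3
        rw [this]
        exact inv_eq_of_mul_eq_one_left hjj
      obtain ⟨g₁, hg₁, e1⟩ := conj1 a' ha' h5
      obtain ⟨g₂, hg₂, e2⟩ := conj2 b' hb' h6
      right
      refine ⟨g₁ * g₂, mul_mem (Subgroup.mem_sup_left hg₁) (Subgroup.mem_sup_right hg₂), ?_⟩
      rw [← e1, ← e2]
      have c1 := hc a haL g₂ hg₂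
      have c4 : g₁⁻¹ * (g₂ * b * g₂⁻¹) = (g₂ * b * g₂⁻¹) * g₁⁻¹ :=
        hc g₁⁻¹ (inv_mem hg₁) _ (mul_mem (mul_mem hg₂ hbL) (inv_mem hg₂))
      calc g₁ * g₂ * (a * b) * (g₁ * g₂)⁻¹ = g₁ * (g₂ * a) * b * g₂⁻¹ * g₁⁻¹ := by group
        _ = g₁ * (a * g₂) * b * g₂⁻¹ * g₁⁻¹ := by rw [c1]
        _ = g₁ * a * ((g₂ * b * g₂⁻¹) * g₁⁻¹) := by group
        _ = g₁ * a * (g₁⁻¹ * (g₂ * b * g₂⁻¹)) := by rw [c4]
        _ = g₁ * a * g₁⁻¹ * (g₂ * b * g₂⁻¹) := by group

end Cfsg.Agent.S3209
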