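import Cfsg.Statements.S3213
import Mathlib

set_option autoImplicit false
open Cfsg

namespace Cfsg.Agent.S3213

section scalars
variable {F : Type*} [Field F] [Fintype F]

theorem three_eq_zero (hF : Fintype.card F = 3) : (3 : F) = 0 := by
  have : Fact (Nat.Prime 3) := ⟨by norm_num⟩
  have hc : CharP F 3 := charP_of_card_eq_prime hF
  have := CharP.cast_eq_zero F 3
  exact_mod_cast this

theorem no_sq (hF : Fintype.card F = 3) (d : F) : d * d ≠ -1 := by
  intro h
  have h3 := three_eq_zero hF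
  have hd : d ^ 3 = d := by
    have := FiniteField.pow_card d
    rwa [hF] at this
  have h1 : d ^ 3 = -d := by
    have : d ^ 3 = d * d * d := by ring
    rw [this, h]; ring
  have h2' : (2 : F) = -1 := by linear_combination h3
  have h2 : d = 0 := by
    have : (2 : F) * d = 0 := by linear_combination h1 - hd
    rw [h2'] at this
    simpa using this
  rw [h2] at h
  have : (1 : F) = 0 := by linear_combination h
  exact one_ne_zero this

theorem even_finrank (hF : Fintype.card F = 3)
    {V : Type*} [AddCommGroup V] [Module F V] [Module.Finite F V]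
    (U : Submodule F V) (h : Module.End F V) (hh : ∀ v ∈ U, h (h v) = -v)
    (hU : ∀ v ∈ U, h v ∈ U) : Even (Module.finrank F U) := by
  obtain ⟨hr, hhr⟩ : ∃ hr : Module.End F U, hr = h.restrict hU := ⟨_, rfl⟩
  have h2 : hr * hr = (-1 : F) • (1 : Module.End F U) := by
    apply LinearMap.ext
    intro v
    apply Subtype.ext
    rw [hhr]
    simp [hh v.1 v.2]
  have hdet : LinearMap.det hr * LinearMap.det hr = (-1 : F) ^ Module.finrank F U := by
    rw [← map_mul, h2, LinearMap.det_smul, map_one, mul_one]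
  by_contra hodd
  rw [Nat.not_even_iff_odd] at hodd
  rw [hodd.neg_one_pow] at hdet
  exact no_sq hF _ hdet

omit [Fintype F] in
theorem fixed_card {V : Type*} [AddCommGroup V] [Module F V] [Finite V]
    (U : Submodule F V) (m : Module.End F V) (hm5 : m ^ 5 = 1) (hU : ∀ v ∈ U, m v ∈ U) :
    Nat.card U ≡ Nat.card ↥(U ⊓ LinearMap.ker (m - 1)) [MOD 5] := by
  classical
  have : Fintype U := Fintype.ofFinite U
  have : Fact (Nat.Prime 5) := ⟨by norm_num⟩
  obtain ⟨f, hf⟩ : ∃ f : Function.End U, f = fun v => ⟨m v, hU v v.2⟩ := ⟨_, rfl⟩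
  have hfv : ∀ v : U, ((f v : U) : V) = m (v : V) := by
    intro v; rw [hf]
  have hpow : ∀ k : ℕ, ∀ v : U, (((f ^ k) v : U) : V) = (m ^ k) (v : V) := by
    intro k
    induction k with
    | zero => intro v; rw [pow_zero, pow_zero]; rfl
    | succ k ih =>
      intro v
      rw [pow_succ, pow_succ]
      show (((f ^ k) (f v) : U) : V) = (m ^ k * m) (v : V)
      rw [ih, hfv]; rfl
  have hf5 : f ^ 5 ^ 1 = 1 := by
    rw [pow_one]
    funext v
    apply Subtype.ext
    rw [hpow, hm5]; rfl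
  have key := Equiv.Perm.card_fixedPoints_modEq (p := 5) (n := 1) hf5
  have e : ↥(Function.fixedPoints f) ≃ ↥(U ⊓ LinearMap.ker (m - 1)) :=
    { toFun := fun v => ⟨((v.1 : U) : V), Submodule.mem_inf.2 ⟨v.1.2, by
          have h1 : f v.1 = v.1 := v.2
          have h2 : m ((v.1 : U) : V) = ((v.1 : U) : V) := by rw [← hfv, h1]
          rw [LinearMap.mem_ker, LinearMap.sub_apply, h2]
          simp⟩⟩
      invFun := fun v => ⟨⟨v.1, (Submodule.mem_inf.1 v.2).1⟩, by
          have h1 := (Submodule.mem_inf.1 v.2).2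
          rw [LinearMap.mem_ker, LinearMap.sub_apply, sub_eq_zero] at h1
          show f ⟨v.1, (Submodule.mem_inf.1 v.2).1⟩ = ⟨v.1, (Submodule.mem_inf.1 v.2).1⟩
          apply Subtype.ext
          rw [hfv]
          simpa using h1⟩
      left_inv := fun v => rfl
      right_inv := fun v => rfl }
  rw [← Nat.card_congr e]
  simpa only [Fintype.card_eq_nat_card] using key

theorem core (hF : Fintype.card F = 3) {V : Type*} [AddCommGroup V] [Module F V]
    [Module.Finite F V] [Finite V] (hV : Module.finrank F V = 4)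
    (G H S M : Module.End F V)
    (hG3 : G * G * G = 1) (hG1 : G ≠ 1) (hHG : H * G = G * G * H) (hHH : H * H = S)
    (hSS : S * S = 1) (hS1 : S ≠ 1) (hSM : S * M = M * S) (hM5 : M ^ 5 = 1) (hM1 : M ≠ 1) :
    Module.finrank F (LinearMap.ker (G - 1)) = 2 ∧
      LinearMap.ker (G - 1) ≤ LinearMap.range (G - 1) := by
  have hcardU : ∀ U : Submodule F V, Nat.card U = 3 ^ Module.finrank F U := by
    intro U
    rw [Module.natCard_eq_pow_finrank (K := F) (V := U), Nat.card_eq_fintype_card, hF]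
  have hle : ∀ U : Submodule F V, Module.finrank F U ≤ 4 := fun U => hV ▸ Submodule.finrank_le U
  have hk : LinearMap.ker (M - 1) = ⊥ := by
    have h1 := fixed_card (⊤ : Submodule F V) M hM5 (fun v _ => Submodule.mem_top)
    rw [top_inf_eq, hcardU, hcardU, finrank_top, hV] at h1
    obtain ⟨k, hk⟩ : ∃ k, k = Module.finrank F (LinearMap.ker (M - 1)) := ⟨_, rfl⟩
    have hk4 : k ≤ 4 := hk ▸ hle _
    rw [← hk] at h1
    have hk04 : k = 0 ∨ k = 4 := by
      interval_cases k <;> simp [Nat.ModEq] at h1 ⊢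
    rcases hk04 with h0 | h4
    · rw [h0] at hk; exact Submodule.finrank_eq_zero.1 hk.symm
    · exfalso
      have : LinearMap.ker (M - 1) = ⊤ := Submodule.eq_top_of_finrank_eq (by rw [← hk, h4, hV])
      rw [LinearMap.ker_eq_top] at this
      exact hM1 (sub_eq_zero.1 this)
  have hU : LinearMap.ker (S - 1) = ⊥ := by
    have hinv : ∀ v ∈ LinearMap.ker (S - 1), M v ∈ LinearMap.ker (S - 1) := by
      intro v hv
      rw [LinearMap.mem_ker, LinearMap.sub_apply, sub_eq_zero] at hv ⊢
      have h1 : S (M v) = M (S v) := by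
        have := congrArg (fun T : Module.End F V => T v) hSM
        simpa using this
      rw [h1, hv]
      simp
    have h1 := fixed_card (LinearMap.ker (S - 1)) M hM5 hinv
    have h2 : LinearMap.ker (S - 1) ⊓ LinearMap.ker (M - 1) = ⊥ := by rw [hk, inf_bot_eq]
    rw [h2, hcardU, hcardU, finrank_bot, pow_zero] at h1
    obtain ⟨k, hk⟩ : ∃ k, k = Module.finrank F (LinearMap.ker (S - 1)) := ⟨_, rfl⟩
    have hk4 : k ≤ 4 := hk ▸ hle _
    rw [← hk] at h1
    have hk04 : k = 0 ∨ k = 4 := by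
      interval_cases k <;> simp [Nat.ModEq] at h1 ⊢
    rcases hk04 with h0 | h4
    · rw [h0] at hk; exact Submodule.finrank_eq_zero.1 hk.symm
    · exfalso
      have : LinearMap.ker (S - 1) = ⊤ := Submodule.eq_top_of_finrank_eq (by rw [← hk, h4, hV])
      rw [LinearMap.ker_eq_top] at this
      exact hS1 (sub_eq_zero.1 this)
  have hS : ∀ v : V, S v = -v := by
    intro v
    have h1 : (S - 1) * (S + 1) = 0 := by
      have : (S - 1) * (S + 1) = S * S - 1 := by noncomm_ring
      rw [this, hSS, sub_self]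
    have hv : (S + 1) v ∈ LinearMap.ker (S - 1) := by
      rw [LinearMap.mem_ker]
      have := congrArg (fun T : Module.End F V => T v) h1
      simpa using this
    rw [hU, Submodule.mem_bot] at hv
    have : S v + v = 0 := by simpa using hv
    exact eq_neg_of_add_eq_zero_left this
  have hHHv : ∀ v : V, H (H v) = -v := by
    intro v
    rw [← hS v, ← hHH]; rfl
  obtain ⟨N, hN⟩ : ∃ N, N = G - 1 := ⟨_, rfl⟩
  rw [← hN]
  have hN3 : N * N * N = 0 := by
    have h3 : ∀ X : Module.End F V, (3 : ℕ) • X = 0 := by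
      intro X
      rw [← Nat.cast_smul_eq_nsmul F]
      have : ((3 : ℕ) : F) = 0 := by exact_mod_cast three_eq_zero hF
      rw [this, zero_smul]
    have : N * N * N = G * G * G - 3 • (G * G) + 3 • G - 1 := by rw [hN]; noncomm_ring
    rw [this, hG3, h3, h3]; simp
  have hGv : ∀ v, v ∈ LinearMap.ker N ↔ G v = v := by
    intro v
    rw [LinearMap.mem_ker, hN, LinearMap.sub_apply, sub_eq_zero]
    simp
  have hG3v : ∀ v, G (G (G v)) = v := by
    intro v
    have := congrArg (fun T : Module.End F V => T v) hG3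
    simpa using this
  have hHGv : ∀ v, H (G v) = G (G (H v)) := by
    intro v
    have := congrArg (fun T : Module.End F V => T v) hHG
    simpa using this
  -- ker N is H-invariant
  have hinv1 : ∀ v ∈ LinearMap.ker N, H v ∈ LinearMap.ker N := by
    intro v hv
    rw [hGv] at hv ⊢
    have h1 : G (G (H v)) = H v := by rw [← hHGv, hv]
    calc G (H v) = G (G (G (H v))) := by rw [h1]
      _ = H v := hG3v _
  have heven1 := even_finrank hF (LinearMap.ker N) H (fun v _ => hHHv v) hinv1
  have hne_top : LinearMap.ker N ≠ ⊤ := by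
    intro h
    rw [LinearMap.ker_eq_top, hN] at h
    exact hG1 (sub_eq_zero.1 h)
  have hne_bot : LinearMap.ker N ≠ ⊥ := by
    intro h
    have hinj : Function.Injective N := LinearMap.ker_eq_bot.1 h
    have hpos : 0 < Module.finrank F V := by rw [hV]; norm_num
    obtain ⟨v, hv⟩ := Module.finrank_pos_iff_exists_ne_zero.1 hpos
    have h0 : N (N (N v)) = 0 := by
      have := congrArg (fun T : Module.End F V => T v) hN3
      simpa using this
    have h1 : N (N (N v)) = N (N (N 0)) := by rw [h0]; simp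
    exact hv (hinj (hinj (hinj h1)))
  have hdim : Module.finrank F (LinearMap.ker N) = 2 := by
    obtain ⟨k, hk⟩ : ∃ k, k = Module.finrank F (LinearMap.ker N) := ⟨_, rfl⟩
    have hk4 : k ≤ 4 := hk ▸ hle _
    have hk0 : k ≠ 0 := by
      intro h0; rw [h0] at hk; exact hne_bot (Submodule.finrank_eq_zero.1 hk.symm)
    have hk4' : k ≠ 4 := by
      intro h4
      exact hne_top (Submodule.eq_top_of_finrank_eq (by rw [← hk, h4, hV]))
    rw [← hk] at heven1 ⊢
    interval_cases k <;> first | rfl | (exfalso; revert heven1; decide) | (exfalso; exact hk0 rfl) | (exfalso; exact hk4' rfl)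
  refine ⟨hdim, ?_⟩
  -- N * N = 0
  have h1 : G * H * G = H := by rw [mul_assoc, hHG, ← mul_assoc, ← mul_assoc, hG3, one_mul]
  have hGH : G * H = H * (G * G) := by
    calc G * H = G * H * (G * G * G) := by rw [hG3, mul_one]
      _ = (G * H * G) * (G * G) := by noncomm_ring
      _ = H * (G * G) := by rw [h1]
  have e : N * N * H = H * (G * (N * N)) := by
    have e1 : N * N * H = G * G * H - 2 • (G * H) + H := by rw [hN]; noncomm_ring
    have e2 : H * (G * (N * N)) = H * (G * G * G) - 2 • (H * (G * G)) + H * G := by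
      rw [hN]; noncomm_ring
    rw [e1, e2, hG3, ← hHG, hGH, mul_one]
    abel
  have hinv2 : ∀ v ∈ LinearMap.ker (N * N), H v ∈ LinearMap.ker (N * N) := by
    intro v hv
    rw [LinearMap.mem_ker] at hv ⊢
    have h2 : (N * N) (H v) = H (G ((N * N) v)) := by
      have := congrArg (fun T : Module.End F V => T v) e
      simpa using this
    rw [h2, hv]; simp
  have heven2 := even_finrank hF (LinearMap.ker (N * N)) H (fun v _ => hHHv v) hinv2
  have hle12 : LinearMap.ker N ≤ LinearMap.ker (N * N) := by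
    intro v hv
    rw [LinearMap.mem_ker] at hv ⊢
    show N (N v) = 0
    rw [hv]; simp
  have hNN : N * N = 0 := by
    obtain ⟨k, hk⟩ : ∃ k, k = Module.finrank F (LinearMap.ker (N * N)) := ⟨_, rfl⟩
    have hk4 : k ≤ 4 := hk ▸ hle _
    have hk2 : 2 ≤ k := by rw [hk, ← hdim]; exact Submodule.finrank_mono hle12
    have hk2' : k ≠ 2 := by
      intro h2
      have heq : LinearMap.ker N = LinearMap.ker (N * N) :=
        Submodule.eq_of_le_of_finrank_eq hle12 (by rw [hdim, ← hk, h2])
      apply hne_top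
      rw [eq_top_iff]
      intro v _
      have h0 : N (N (N v)) = 0 := by
        have := congrArg (fun T : Module.End F V => T v) hN3
        simpa using this
      have h3 : N v ∈ LinearMap.ker (N * N) := by rw [LinearMap.mem_ker]; exact h0
      rw [← heq, LinearMap.mem_ker] at h3
      have h4 : v ∈ LinearMap.ker (N * N) := by rw [LinearMap.mem_ker]; exact h3
      rw [← heq] at h4
      exact h4
    have hk4' : k = 4 := by
      rw [← hk] at heven2
      interval_cases k <;> first | rfl | (exfalso; revert heven2; decide) | (exfalso; exact hk2' rfl)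
    have : LinearMap.ker (N * N) = ⊤ := Submodule.eq_top_of_finrank_eq (by rw [← hk, hk4', hV])
    exact LinearMap.ker_eq_top.1 this
  have hrk : LinearMap.range N ≤ LinearMap.ker N := by
    rintro _ ⟨v, rfl⟩
    rw [LinearMap.mem_ker]
    have := congrArg (fun T : Module.End F V => T v) hNN
    simpa using this
  have hrank : Module.finrank F (LinearMap.range N) = 2 := by
    have := LinearMap.finrank_range_add_finrank_ker N
    rw [hV, hdim] at this
    omega
  have heq : LinearMap.range N = LinearMap.ker N :=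
    Submodule.eq_of_le_of_finrank_eq hrk (by rw [hrank, hdim])
  rw [heq]

end scalars

section sl2
variable {K : Type*} [Field K]

/-- the central element `-1` of `SL₂(K)` -/
def zEl (K : Type*) [Field K] : Matrix.SpecialLinearGroup (Fin 2) K :=
  ⟨!![-1, 0; 0, -1], by simp [Matrix.det_fin_two]⟩

/-- an elementary matrix of `SL₂(K)` -/
def tEl (K : Type*) [Field K] : Matrix.SpecialLinearGroup (Fin 2) K :=
  ⟨!![1, 1; 0, 1], by simp [Matrix.det_fin_two]⟩

theorem zEl_comm (A : Matrix.SpecialLinearGroup (Fin 2) K) : zEl K * A = A * zEl K := by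
  apply Subtype.ext
  rw [Matrix.SpecialLinearGroup.coe_mul, Matrix.SpecialLinearGroup.coe_mul]
  have hN : ((zEl K : Matrix.SpecialLinearGroup (Fin 2) K) : Matrix (Fin 2) (Fin 2) K) =
      !![-1, 0; 0, -1] := rfl
  rw [hN]
  ext i j
  fin_cases i <;> fin_cases j <;> simp [Matrix.mul_apply, Fin.sum_univ_two]

theorem zEl_sq : zEl K * zEl K = 1 := by
  apply Subtype.ext
  rw [Matrix.SpecialLinearGroup.coe_mul]
  have hN : ((zEl K : Matrix.SpecialLinearGroup (Fin 2) K) : Matrix (Fin 2) (Fin 2) K) =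
      !![-1, 0; 0, -1] := rfl
  rw [hN, Matrix.mul_fin_two, Matrix.SpecialLinearGroup.coe_one, Matrix.one_fin_two]
  simp

theorem zEl_ne_one (h2 : (2 : K) ≠ 0) : zEl K ≠ 1 := by
  intro h
  have h1 := congrArg
    (fun y : Matrix.SpecialLinearGroup (Fin 2) K => (y : Matrix (Fin 2) (Fin 2) K) 0 0) h
  have hN : ((zEl K : Matrix.SpecialLinearGroup (Fin 2) K) : Matrix (Fin 2) (Fin 2) K) 0 0 = -1 :=
    rfl
  simp only [hN, Matrix.SpecialLinearGroup.coe_one, Matrix.one_apply_eq] at h1
  apply h2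
  linear_combination (-1 : K) * h1

theorem tEl_pow (n : ℕ) :
    ((tEl K ^ n : Matrix.SpecialLinearGroup (Fin 2) K) : Matrix (Fin 2) (Fin 2) K) =
      !![1, (n : K); 0, 1] := by
  induction n with
  | zero => simp [Matrix.one_fin_two]
  | succ n ih =>
    rw [pow_succ, Matrix.SpecialLinearGroup.coe_mul, ih]
    have hT : ((tEl K : Matrix.SpecialLinearGroup (Fin 2) K) : Matrix (Fin 2) (Fin 2) K) =
        !![1, 1; 0, 1] := rfl
    rw [hT, Matrix.mul_fin_two]
    have e1 : (1 : K) * 1 + (n : K) * 0 = 1 := by ring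
    have e2 : (1 : K) * 1 + (n : K) * 1 = ((n + 1 : ℕ) : K) := by push_cast; ring
    have e3 : (0 : K) * 1 + 1 * 0 = 0 := by ring
    have e4 : (0 : K) * 1 + 1 * 1 = 1 := by ring
    rw [e1, e2, e3, e4]

theorem tEl_pow5 (h5 : (5 : K) = 0) : tEl K ^ 5 = 1 := by
  apply Subtype.ext
  rw [tEl_pow, Matrix.SpecialLinearGroup.coe_one, Matrix.one_fin_two]
  have : ((5 : ℕ) : K) = 0 := by exact_mod_cast h5
  rw [this]

theorem tEl_ne_one : tEl K ≠ 1 := by
  intro h
  have h1 := congrArg
    (fun y : Matrix.SpecialLinearGroup (Fin 2) K => (y : Matrix (Fin 2) (Fin 2) K) 0 1) h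
  have hT : ((tEl K : Matrix.SpecialLinearGroup (Fin 2) K) : Matrix (Fin 2) (Fin 2) K) 0 1 = 1 :=
    rfl
  simp only [hT, Matrix.SpecialLinearGroup.coe_one] at h1
  rw [Matrix.one_apply_ne (by decide)] at h1
  exact one_ne_zero h1

theorem zmod5_aux : ∀ a b c d : ZMod 5, a * d - b * c = 1 → a * a + b * c = d →
    a * b + b * d = -b → c * a + d * c = -c → c * b + d * d = a →
    ¬ (a = 1 ∧ b = 0 ∧ c = 0 ∧ d = 1) →
    ∃ e f g : ZMod 5, e * e + f * g = -1 ∧ e * (a - d) + f * c + g * b = 0 := by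
  decide

theorem exists_u [Fintype K] (hK : Fintype.card K = 5) (x : Matrix.SpecialLinearGroup (Fin 2) K)
    (hx3 : x * x * x = 1) (hx1 : x ≠ 1) :
    ∃ u : Matrix.SpecialLinearGroup (Fin 2) K, u * u = zEl K ∧ u * x = x * x * u := by
  have hp : Nat.Prime 5 := by norm_num
  obtain ⟨σ, -⟩ : ∃ σ : ZMod 5 ≃+* K, σ = σ := ⟨ZMod.ringEquivOfPrime K hp hK, rfl⟩
  obtain ⟨a, ha⟩ : ∃ a, a = (x : Matrix (Fin 2) (Fin 2) K) 0 0 := ⟨_, rfl⟩
  obtain ⟨b, hb⟩ : ∃ b, b = (x : Matrix (Fin 2) (Fin 2) K) 0 1 := ⟨_, rfl⟩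
  obtain ⟨c, hc⟩ : ∃ c, c = (x : Matrix (Fin 2) (Fin 2) K) 1 0 := ⟨_, rfl⟩
  obtain ⟨d, hd⟩ : ∃ d, d = (x : Matrix (Fin 2) (Fin 2) K) 1 1 := ⟨_, rfl⟩
  have hX : (x : Matrix (Fin 2) (Fin 2) K) = !![a, b; c, d] := by
    rw [ha, hb, hc, hd]; exact Matrix.eta_fin_two _
  have hdet : a * d - b * c = 1 := by
    have := x.det_coe
    rw [hX, Matrix.det_fin_two_of] at this
    exact this
  have hxx : x * x = x⁻¹ := by
    rw [eq_inv_iff_mul_eq_one]; exact hx3
  have hXX : (!![a, b; c, d] : Matrix (Fin 2) (Fin 2) K) * !![a, b; c, d] = !![d, -b; -c, a] := by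
    have := congrArg
      (fun y : Matrix.SpecialLinearGroup (Fin 2) K => (y : Matrix (Fin 2) (Fin 2) K)) hxx
    simp only [Matrix.SpecialLinearGroup.coe_mul, Matrix.SpecialLinearGroup.coe_inv, hX,
      Matrix.adjugate_fin_two_of] at this
    exact this
  have hXX2 := hXX
  rw [Matrix.mul_fin_two] at hXX2
  have e00 : a * a + b * c = d := by
    have := congrFun (congrFun hXX2 0) 0; simpa using this
  have e01 : a * b + b * d = -b := by
    have := congrFun (congrFun hXX2 0) 1; simpa using this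
  have e10 : c * a + d * c = -c := by
    have := congrFun (congrFun hXX2 1) 0; simpa using this
  have e11 : c * b + d * d = a := by
    have := congrFun (congrFun hXX2 1) 1; simpa using this
  have hne : ¬ (a = 1 ∧ b = 0 ∧ c = 0 ∧ d = 1) := by
    rintro ⟨h1, h2, h3, h4⟩
    apply hx1
    apply Subtype.ext
    rw [hX, h1, h2, h3, h4, Matrix.SpecialLinearGroup.coe_one, Matrix.one_fin_two]
  obtain ⟨e, f, g, h1, h2⟩ := zmod5_aux (σ.symm a) (σ.symm b) (σ.symm c) (σ.symm d)
    (by simpa using congrArg σ.symm hdet) (by simpa using congrArg σ.symm e00)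
    (by simpa using congrArg σ.symm e01) (by simpa using congrArg σ.symm e10)
    (by simpa using congrArg σ.symm e11)
    (by
      rintro ⟨k1, k2, k3, k4⟩
      apply hne
      refine ⟨?_, ?_, ?_, ?_⟩
      · simpa using congrArg σ k1
      · simpa using congrArg σ k2
      · simpa using congrArg σ k3
      · simpa using congrArg σ k4)
  obtain ⟨E, hE⟩ : ∃ E, E = σ e := ⟨_, rfl⟩
  obtain ⟨Fv, hFv⟩ : ∃ Fv, Fv = σ f := ⟨_, rfl⟩
  obtain ⟨Gv, hGv⟩ : ∃ Gv, Gv = σ g := ⟨_, rfl⟩
  have hE1 : E * E + Fv * Gv = -1 := by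
    rw [hE, hFv, hGv]; simpa using congrArg σ h1
  have hE2 : E * (a - d) + Fv * c + Gv * b = 0 := by
    rw [hE, hFv, hGv]; simpa using congrArg σ h2
  obtain ⟨u, hu⟩ : ∃ u : Matrix.SpecialLinearGroup (Fin 2) K,
      (u : Matrix (Fin 2) (Fin 2) K) = !![E, Fv; Gv, -E] :=
    ⟨⟨!![E, Fv; Gv, -E], by rw [Matrix.det_fin_two_of]; linear_combination (-1 : K) * hE1⟩, rfl⟩
  have hZ : ((zEl K : Matrix.SpecialLinearGroup (Fin 2) K) : Matrix (Fin 2) (Fin 2) K) =
      !![-1, 0; 0, -1] := rfl
  refine ⟨u, ?_, ?_⟩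
  · apply Subtype.ext
    rw [Matrix.SpecialLinearGroup.coe_mul, hu, hZ, Matrix.mul_fin_two]
    have p2 : E * Fv + Fv * -E = 0 := by ring
    have p3 : Gv * E + -E * Gv = 0 := by ring
    have p4 : Gv * Fv + -E * -E = -1 := by linear_combination hE1
    rw [hE1, p2, p3, p4]
  · apply Subtype.ext
    rw [Matrix.SpecialLinearGroup.coe_mul, Matrix.SpecialLinearGroup.coe_mul,
      Matrix.SpecialLinearGroup.coe_mul, hX, hu]
    rw [hXX, Matrix.mul_fin_two, Matrix.mul_fin_two]
    have q1 : E * a + Fv * c = d * E + -b * Gv := by linear_combination hE2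
    have q2 : E * b + Fv * d = d * Fv + -b * -E := by ring
    have q3 : Gv * a + -E * c = -c * E + a * Gv := by ring
    have q4 : Gv * b + -E * d = -c * Fv + a * -E := by linear_combination hE2
    rw [q1, q2, q3, q4]

end sl2

/-- Let F be the field with 3 elements and K the field with 5 elements. For every injective homomorphism φ from SL₂(K) into the symplectic group Sp₄(F) (4 × 4 matrices g with g J gᵀ = J for the standard alternating matrix J) and every element x of order 3 of SL₂(K), the vectors of F⁴ fixed by φ(x) form a 2-dimensional subspace that is totally isotropic for the alternating form defined by J. -/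
theorem result {F : Type*} [Field F] [Fintype F] (hF : Fintype.card F = 3)
    {K : Type*} [Field K] [Fintype K] (hK : Fintype.card K = 5)
    (φ : Matrix.SpecialLinearGroup (Fin 2) K →* ↥(Matrix.symplecticGroup (Fin 2) F)) (hφ : Function.Injective φ)
    (x : Matrix.SpecialLinearGroup (Fin 2) K) (hx : orderOf x = 3) :
    Module.finrank F ↥(LinearMap.ker (Matrix.toLin' ((φ x : Matrix (Fin 2 ⊕ Fin 2) (Fin 2 ⊕ Fin 2) F)) - LinearMap.id)) = 2 ∧
      ∀ v w : Fin 2 ⊕ Fin 2 → F, (φ x : Matrix (Fin 2 ⊕ Fin 2) (Fin 2 ⊕ Fin 2) F).mulVec v = v →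
        (φ x : Matrix (Fin 2 ⊕ Fin 2) (Fin 2 ⊕ Fin 2) F).mulVec w = w →
          dotProduct v ((Matrix.J (Fin 2) F).mulVec w) = 0 := by
  classical
  have hp5 : Nat.Prime 5 := by norm_num
  have h5K : (5 : K) = 0 := by
    have : Fact (Nat.Prime 5) := ⟨hp5⟩
    have hc : CharP K 5 := charP_of_card_eq_prime hK
    have := CharP.cast_eq_zero K 5
    exact_mod_cast this
  have h2K : (2 : K) ≠ 0 := by
    intro h2
    have : (1 : K) = 0 := by linear_combination h5K - 2 * h2
    exact one_ne_zero this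
  have hx3 : x * x * x = 1 := by
    have h := pow_orderOf_eq_one x
    rw [hx, pow_succ, pow_succ, pow_one] at h
    exact h
  have hx1 : x ≠ 1 := by
    intro h; rw [h, orderOf_one] at hx; norm_num at hx
  obtain ⟨u, huu, hux⟩ := exists_u hK x hx3 hx1
  obtain ⟨Ψ, hΨ⟩ : ∃ Ψ : Matrix.SpecialLinearGroup (Fin 2) K →* Module.End F (Fin 2 ⊕ Fin 2 → F),
      ∀ a, Ψ a = Matrix.toLin' ((φ a : Matrix (Fin 2 ⊕ Fin 2) (Fin 2 ⊕ Fin 2) F)) := by
    refine ⟨{ toFun := fun a => Matrix.toLin' ((φ a : Matrix (Fin 2 ⊕ Fin 2) (Fin 2 ⊕ Fin 2) F))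
              map_one' := ?_
              map_mul' := ?_ }, fun a => rfl⟩
    · show Matrix.toLin' ((φ 1 : ↥(Matrix.symplecticGroup (Fin 2) F)) :
          Matrix (Fin 2 ⊕ Fin 2) (Fin 2 ⊕ Fin 2) F) = 1
      rw [map_one]
      exact Matrix.toLin'_one
    · intro a b
      show Matrix.toLin' ((φ (a * b) : ↥(Matrix.symplecticGroup (Fin 2) F)) :
          Matrix (Fin 2 ⊕ Fin 2) (Fin 2 ⊕ Fin 2) F) = _
      rw [map_mul, Submonoid.coe_mul, Matrix.toLin'_mul]
      rfl
  have hΨinj : Function.Injective Ψ := by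
    intro a b hab
    rw [hΨ, hΨ] at hab
    exact hφ (Subtype.ext (Matrix.toLin'.injective hab))
  have hV : Module.finrank F (Fin 2 ⊕ Fin 2 → F) = 4 := by simp
  have hcore := core hF hV (Ψ x) (Ψ u) (Ψ (zEl K)) (Ψ (tEl K))
    (by rw [← map_mul, ← map_mul, hx3, map_one])
    (by intro h; rw [← map_one Ψ] at h; exact hx1 (hΨinj h))
    (by rw [← map_mul, ← map_mul, ← map_mul, hux])
    (by rw [← map_mul, huu])
    (by rw [← map_mul, zEl_sq, map_one])
    (by intro h; rw [← map_one Ψ] at h; exact zEl_ne_one h2K (hΨinj h))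
    (by rw [← map_mul, ← map_mul, zEl_comm])
    (by rw [← map_pow, tEl_pow5 h5K, map_one])
    (by intro h; rw [← map_one Ψ] at h; exact tEl_ne_one (hΨinj h))
  obtain ⟨hdim, hker⟩ := hcore
  rw [hΨ] at hdim hker
  refine ⟨hdim, ?_⟩
  intro v w hv hw
  obtain ⟨g, hg⟩ : ∃ g, g = (φ x : Matrix (Fin 2 ⊕ Fin 2) (Fin 2 ⊕ Fin 2) F) := ⟨_, rfl⟩
  rw [← hg] at hv hw hker
  have hvk : v ∈ LinearMap.ker (Matrix.toLin' g - 1) := by
    rw [LinearMap.mem_ker, LinearMap.sub_apply, Matrix.toLin'_apply, hv]; simp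
  obtain ⟨v', hv'⟩ := hker hvk
  have hv'' : v = g.mulVec v' - v' := by
    rw [← hv', LinearMap.sub_apply, Matrix.toLin'_apply]; simp
  have hsymp : Matrix.transpose g * Matrix.J (Fin 2) F * g = Matrix.J (Fin 2) F := by
    rw [hg]; exact SymplecticGroup.mem_iff'.1 (φ x).2
  have hpres : ∀ a b : Fin 2 ⊕ Fin 2 → F,
      dotProduct (g.mulVec a) ((Matrix.J (Fin 2) F).mulVec (g.mulVec b)) =
        dotProduct a ((Matrix.J (Fin 2) F).mulVec b) := by
    intro a b
    rw [Matrix.mulVec_mulVec, ← Matrix.vecMul_transpose g a, ← Matrix.dotProduct_mulVec,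
      Matrix.mulVec_mulVec, ← Matrix.mul_assoc, hsymp]
  rw [hv'', sub_dotProduct]
  have h1 := hpres v' w
  rw [hw] at h1
  rw [h1, sub_self]

end Cfsg.Agent.S3213
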