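import Cfsg.Statements.S3215
import Cfsg.Agent.Lib.Helper20.SolvCore
import Cfsg.Agent.Lib.Helper11.ThompsonAB
import Cfsg.Agent.S1476
import Cfsg.Agent.Lib.Helper19.PGroupFixed
import Cfsg.Agent.Lib.Helper1.SZ
import Cfsg.Agent.Lib.Helper1.Hall
import Cfsg.Agent.Lib.Helper17.PCore

set_option autoImplicit false
open Cfsg

namespace Cfsg.Agent.S3215

open scoped commutatorElement

section

variable {H : Type*} [Group H] [Finite H]

omit [Finite H] in
theorem card_sup_disj (A S : Subgroup H) [S.Normal] (h : S ⊓ A = ⊥) :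
    Nat.card (A ⊔ S : Subgroup H) = Nat.card S * Nat.card A := by
  have h1 := Subgroup.relIndex_mul_relIndex (H := ⊥) (K := S) (L := A ⊔ S) bot_le le_sup_right
  rw [Subgroup.relIndex_bot_left, Subgroup.relIndex_bot_left, Subgroup.relIndex_sup_right,
    ← Subgroup.inf_relIndex_right, h, Subgroup.relIndex_bot_left] at h1
  exact h1.symm

theorem odd_coprime_two {n : ℕ} (h : Odd n) : n.Coprime 2 :=
  h.coprime_two_right

omit [Finite H] in
theorem eq_one_of_odd_of_two_pow {x : H} (hx : Odd (orderOf x)) {j : ℕ} (h : x ^ 2 ^ j = 1) :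
    x = 1 := by
  have h8 : orderOf x ∣ 2 ^ j := orderOf_dvd_of_pow_eq_one h
  have h9 : (orderOf x).Coprime (2 ^ j) := Nat.Coprime.pow_right j (odd_coprime_two hx)
  exact orderOf_eq_one_iff.mp (Nat.Coprime.eq_one_of_dvd h9 h8)

theorem l1 (Y : Subgroup H) [hYn : Y.Normal] (hY : IsPGroup 2 Y) (t : H)
    (hI : Cfsg.HasNormalPComplement 2 ↥(Subgroup.centralizer ({t} : Set H)))
    (x : H) (hx : Odd (orderOf x)) (hxt : x * t = t * x) (y : H) (hy : y ∈ Y)
    (hyt : y * t = t * y) : x * y = y * x := by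
  have hp2 : Fact (Nat.Prime 2) := ⟨Nat.prime_two⟩
  obtain ⟨P, N, hN, hc⟩ := hI
  have hxC : x ∈ Subgroup.centralizer ({t} : Set H) :=
    Subgroup.mem_centralizer_singleton_iff.mpr hxt
  have hyC : y ∈ Subgroup.centralizer ({t} : Set H) :=
    Subgroup.mem_centralizer_singleton_iff.mpr hyt
  obtain ⟨a, ha⟩ := IsPGroup.iff_card.mp P.isPGroup'
  have hidx : N.index = 2 ^ a := by
    have h1 := hc.card_mul_card
    have h2 := N.card_mul_index
    rw [ha] at h1
    have hpos : 0 < Nat.card N := Nat.card_pos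
    exact Nat.eq_of_mul_eq_mul_left hpos (h2.trans h1.symm)
  have hNodd : (Nat.card N).Coprime 2 := by
    have h1 := hc.card_mul_card
    have h2 := (P : Subgroup (Subgroup.centralizer ({t} : Set H))).card_mul_index
    have h3 : Nat.card N = (P : Subgroup (Subgroup.centralizer ({t} : Set H))).index := by
      have hpos : 0 < Nat.card (P : Subgroup (Subgroup.centralizer ({t} : Set H))) := Nat.card_pos
      apply Nat.eq_of_mul_eq_mul_left hpos
      rw [h2, mul_comm, h1]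
    rw [h3]
    exact ((Nat.Prime.coprime_iff_not_dvd Nat.prime_two).mpr P.not_dvd_index).symm
  have hxN : (⟨x, hxC⟩ : Subgroup.centralizer ({t} : Set H)) ∈ N := by
    have h1 : (⟨x, hxC⟩ : Subgroup.centralizer ({t} : Set H)) ^ (2 ^ a) ∈ N := by
      rw [← hidx]; exact N.pow_index_mem _
    have hco : (2 ^ a).Coprime (orderOf (⟨x, hxC⟩ : Subgroup.centralizer ({t} : Set H))) := by
      rw [Subgroup.orderOf_mk]
      exact (Nat.Coprime.pow_right a (odd_coprime_two hx)).symm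
    obtain ⟨m, hm⟩ := exists_pow_eq_self_of_coprime hco
    rw [← hm]
    exact pow_mem h1 m
  have hYC : IsPGroup 2 (Y.subgroupOf (Subgroup.centralizer ({t} : Set H))) := hY.comap_subtype
  have hdis : Disjoint N (Y.subgroupOf (Subgroup.centralizer ({t} : Set H))) := by
    obtain ⟨b, hb⟩ := IsPGroup.iff_card.mp hYC
    apply Subgroup.disjoint_of_coprime_natCard
    rw [hb]
    exact Nat.Coprime.pow_right b hNodd
  have hyY : (⟨y, hyC⟩ : Subgroup.centralizer ({t} : Set H)) ∈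
      Y.subgroupOf (Subgroup.centralizer ({t} : Set H)) := Subgroup.mem_subgroupOf.mpr hy
  have hcomm := Subgroup.commute_of_normal_of_disjoint N _ hN inferInstance hdis _ _ hxN hyY
  exact congrArg Subtype.val hcomm.eq

theorem fpf_odd [hsol : Group.IsSolvable H] (hO : Cfsg.pPrimeCore 2 H = ⊥)
    (hI : ∀ t : H, orderOf t = 2 →
      Cfsg.HasNormalPComplement 2 ↥(Subgroup.centralizer ({t} : Set H)))
    (x : H) (hx : Odd (orderOf x)) (hx1 : x ≠ 1) (y : H) (hy : y ∈ Cfsg.pCore 2 H) (hy1 : y ≠ 1) :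
    x * y ≠ y * x := by
  have hp2 : Fact (Nat.Prime 2) := ⟨Nat.prime_two⟩
  intro hxy
  have hYn : (Cfsg.pCore 2 H).Normal := Cfsg.Agent.Lib.Helper17.pCore_normal
  have hYp : IsPGroup 2 (Cfsg.pCore 2 H) := Cfsg.Agent.Lib.Helper17.pCore_isPGroup
  have hcent := Cfsg.Agent.Lib.Helper20.centralizer_pCore_le (G := H) 2 hO
  obtain ⟨k, hk⟩ : ∃ k, orderOf y = 2 ^ k := by
    obtain ⟨k, hk⟩ := hYp ⟨y, hy⟩
    have h1 : y ^ 2 ^ k = 1 := congrArg Subtype.val hk
    obtain ⟨j, -, hj⟩ := (Nat.dvd_prime_pow Nat.prime_two).mp (orderOf_dvd_of_pow_eq_one h1)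
    exact ⟨j, hj⟩
  have hk0 : k ≠ 0 := by
    rintro rfl
    rw [pow_zero, orderOf_eq_one_iff] at hk
    exact hy1 hk
  obtain ⟨t, ht⟩ : ∃ t, t = y ^ 2 ^ (k - 1) := ⟨_, rfl⟩
  have h2k : 2 ^ k = 2 ^ (k - 1) * 2 := by
    rw [← pow_succ]; congr 1; omega
  have hpos : 0 < 2 ^ (k - 1) := by positivity
  have ht2 : orderOf t = 2 := by
    rw [ht]
    apply orderOf_eq_prime
    · rw [← pow_mul, ← h2k, ← hk]; exact pow_orderOf_eq_one y
    · apply pow_ne_one_of_lt_orderOf (by positivity)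
      rw [hk, h2k]; omega
  have htY : t ∈ Cfsg.pCore 2 H := by rw [ht]; exact pow_mem hy _
  have hxt : x * t = t * x := by
    rw [ht]
    exact (Commute.pow_right (show Commute x y from hxy) _).eq
  have hA : ¬ 2 ∣ Nat.card (Subgroup.zpowers x) := by
    rw [Nat.card_zpowers]; exact hx.not_two_dvd_nat
  have hB : IsPGroup 2 (Subgroup.zpowers t) :=
    IsPGroup.of_card (n := 1) (by rw [Nat.card_zpowers, ht2, pow_one])
  have hAB : ⁅Subgroup.zpowers x, Subgroup.zpowers t⁆ = ⊥ := by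
    rw [Subgroup.commutator_eq_bot_iff_le_centralizer, Subgroup.zpowers_le,
      Subgroup.mem_centralizer_iff]
    intro h hh
    obtain ⟨i, rfl⟩ := Subgroup.mem_zpowers_iff.mp hh
    exact (Commute.zpow_right (show Commute x t from hxt) i).eq.symm
  have hnA : Subgroup.zpowers x ≤ Subgroup.normalizer ((Cfsg.pCore 2 H : Subgroup H) : Set H) := by
    rw [Subgroup.normalizer_eq_top]; exact le_top
  have hnB : Subgroup.zpowers t ≤ Subgroup.normalizer ((Cfsg.pCore 2 H : Subgroup H) : Set H) := by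
    rw [Subgroup.normalizer_eq_top]; exact le_top
  have hC : Cfsg.pCore 2 H ⊓ Subgroup.centralizer (Subgroup.zpowers t : Set H) ≤
      Subgroup.centralizer (Subgroup.zpowers x : Set H) := by
    intro r hr
    obtain ⟨hrY, hrt⟩ := Subgroup.mem_inf.mp hr
    have hrt' : r * t = t * r :=
      ((Subgroup.mem_centralizer_iff.mp hrt) t (Subgroup.mem_zpowers t)).symm
    have h3 := l1 (Cfsg.pCore 2 H) hYp t (hI t ht2) x hx hxt r hrY hrt'
    rw [Subgroup.mem_centralizer_iff]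
    intro h hh
    obtain ⟨i, rfl⟩ := Subgroup.mem_zpowers_iff.mp hh
    exact (Commute.zpow_left (show Commute x r from h3) i).eq
  have h4 := Cfsg.Agent.Lib.Helper11.thompson_AxB 2 (Subgroup.zpowers x) (Subgroup.zpowers t)
    hA hB hAB _ (Cfsg.pCore 2 H) hYp hnA hnB hC le_rfl
  have h5 : x ∈ Subgroup.centralizer ((Cfsg.pCore 2 H : Subgroup H) : Set H) :=
    (Subgroup.le_centralizer_iff.mp h4) (Subgroup.mem_zpowers x)
  have h6 : x ∈ Cfsg.pCore 2 H := hcent h5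
  obtain ⟨j, hj⟩ := hYp ⟨x, h6⟩
  have h7 : x ^ 2 ^ j = 1 := congrArg Subtype.val hj
  exact hx1 (eq_one_of_odd_of_two_pow hx h7)

omit [Finite H] in
theorem fin_of (L D : Subgroup H) (n₀ : H) (hD : D.Normal) (hDL : D ≤ L)
    (hcyc : ∀ h : H, ∃ k : ℤ, (n₀ ^ k)⁻¹ * h ∈ D) :
    L.Normal ∧ ∀ hN : L.Normal, IsCyclic (H ⧸ L) := by
  have hconj : ∀ (k : ℤ) (b : H), b ∈ L → n₀ ^ k * b * (n₀ ^ k)⁻¹ ∈ L := by
    intro k b hb
    obtain ⟨j, hj⟩ := hcyc b
    have h1 : n₀ ^ j ∈ L := by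
      have h0 : n₀ ^ j = b * ((n₀ ^ j)⁻¹ * b)⁻¹ := by group
      rw [h0]; exact mul_mem hb (inv_mem (hDL hj))
    have h2 : n₀ ^ k * b * (n₀ ^ k)⁻¹ =
        n₀ ^ j * (n₀ ^ k * ((n₀ ^ j)⁻¹ * b) * (n₀ ^ k)⁻¹) := by group
    rw [h2]
    exact mul_mem h1 (hDL (hD.conj_mem _ hj _))
  have hLn : L.Normal := by
    constructor
    intro a ha g
    obtain ⟨k, hk⟩ := hcyc g
    have h1 : g * a * g⁻¹ =
        n₀ ^ k * (((n₀ ^ k)⁻¹ * g) * a * ((n₀ ^ k)⁻¹ * g)⁻¹) * (n₀ ^ k)⁻¹ := by group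
    rw [h1]
    exact hconj k _ (mul_mem (mul_mem (hDL hk) ha) (inv_mem (hDL hk)))
  refine ⟨hLn, fun _ => ?_⟩
  refine ⟨⟨QuotientGroup.mk n₀, fun q => ?_⟩⟩
  induction q using QuotientGroup.induction_on with
  | H g =>
    obtain ⟨k, hk⟩ := hcyc g
    refine Subgroup.mem_zpowers_iff.mpr ⟨k, ?_⟩
    rw [← QuotientGroup.mk_zpow]
    exact QuotientGroup.eq.mpr (hDL hk)


theorem key_cd [Group.IsSolvable H] (hO : Cfsg.pPrimeCore 2 H = ⊥)
    (hI : ∀ t : H, orderOf t = 2 →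
      Cfsg.HasNormalPComplement 2 ↥(Subgroup.centralizer ({t} : Set H)))
    (X : Subgroup H) (hXodd : Odd (Nat.card X)) (hXidx : ∃ k : ℕ, X.index = 2 ^ k) :
    ∃ (D : Subgroup H) (n₀ : H), D.Normal ∧ D ≤ X ⊔ Cfsg.pCore 2 H ∧
      ∀ h : H, ∃ k : ℤ, (n₀ ^ k)⁻¹ * h ∈ D := by
  have hp2 : Fact (Nat.Prime 2) := ⟨Nat.prime_two⟩
  have hfpf0 := fpf_odd hO hI
  have hcent := Cfsg.Agent.Lib.Helper20.centralizer_pCore_le (G := H) 2 hO
  obtain ⟨Y, hYdef⟩ : ∃ Y, Y = Cfsg.pCore 2 H := ⟨_, rfl⟩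
  rw [← hYdef] at hfpf0 hcent ⊢
  have hYn : Y.Normal := by rw [hYdef]; exact Cfsg.Agent.Lib.Helper17.pCore_normal
  have hYp : IsPGroup 2 Y := by rw [hYdef]; exact Cfsg.Agent.Lib.Helper17.pCore_isPGroup
  have hfpf : ∀ x : H, Odd (orderOf x) → x ≠ 1 → ∀ y ∈ Y, y ≠ 1 → x * y ≠ y * x := hfpf0
  by_cases hYtop : Y = ⊤
  · refine ⟨⊤, 1, inferInstance, ?_, fun h => ⟨0, Subgroup.mem_top _⟩⟩
    rw [hYtop]; exact le_sup_right
  have hnt : Nontrivial (H ⧸ Y) := by
    by_contra hnt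
    rw [not_nontrivial_iff_subsingleton] at hnt
    apply hYtop
    rw [eq_top_iff]
    intro h _
    have h1 : (QuotientGroup.mk h : H ⧸ Y) = 1 := Subsingleton.elim _ _
    exact (QuotientGroup.eq_one_iff h).mp h1
  obtain ⟨p, hp, Q, hQn, hQ1, hQp⟩ := Cfsg.Agent.Lib.Helper1.exists_normal_pgroup (H ⧸ Y)
  have hpf : Fact p.Prime := ⟨hp⟩
  obtain ⟨M, hMdef⟩ : ∃ M, M = Q.comap (QuotientGroup.mk' Y) := ⟨_, rfl⟩
  have hMn : M.Normal := by rw [hMdef]; exact hQn.comap _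
  have hYM : Y ≤ M := by
    intro y hy
    rw [hMdef, Subgroup.mem_comap]
    have h1 : QuotientGroup.mk' Y y = 1 := (QuotientGroup.eq_one_iff y).mpr hy
    rw [h1]; exact Q.one_mem
  have hMcard : Nat.card M = Nat.card Y * Nat.card Q := by
    rw [hMdef]; exact Cfsg.Agent.Lib.Helper1.card_comap_mk' Y Q
  obtain ⟨i, hi⟩ := IsPGroup.iff_card.mp hYp
  obtain ⟨j, hj⟩ := IsPGroup.iff_card.mp hQp
  have hj0 : j ≠ 0 := by
    rintro rfl
    rw [pow_zero] at hj
    exact hQ1 (Subgroup.card_eq_one.mp hj)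
  have hp2' : p ≠ 2 := by
    rintro rfl
    have hM2 : IsPGroup 2 M := IsPGroup.of_card (n := i + j) (by rw [hMcard, hi, hj, pow_add])
    have hMY : M ≤ Y := by rw [hYdef]; exact Cfsg.Agent.Lib.Helper17.le_pCore hMn hM2
    have h1 := Subgroup.card_le_of_le hMY
    rw [hMcard, hj] at h1
    have hpos : 0 < Nat.card Y := Nat.card_pos
    have h2 : 2 ≤ 2 ^ j := by
      calc 2 = 2 ^ 1 := (pow_one 2).symm
        _ ≤ 2 ^ j := Nat.pow_le_pow_right (by norm_num) (by omega)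
    nlinarith
  have hpodd : Odd p := hp.odd_of_ne_two hp2'
  have hcop2p : Nat.Coprime 2 p := (Nat.coprime_primes Nat.prime_two hp).mpr (Ne.symm hp2')
  obtain ⟨P₁⟩ : Nonempty (Sylow p M) := inferInstance
  obtain ⟨P, hPdef⟩ : ∃ P, P = (P₁ : Subgroup M).map M.subtype := ⟨_, rfl⟩
  have hPp : IsPGroup p P := by rw [hPdef]; exact P₁.isPGroup'.map _
  have hPM : P ≤ M := by rw [hPdef]; exact Subgroup.map_subtype_le _
  have hPcard : Nat.card P = p ^ j := by
    have h1 : Nat.card P = Nat.card (P₁ : Subgroup M) := by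
      rw [hPdef]; exact Subgroup.card_map_of_injective M.subtype_injective
    obtain ⟨e, he⟩ := IsPGroup.iff_card.mp P₁.isPGroup'
    have h2 := (P₁ : Subgroup M).card_mul_index
    have h3 : ¬ p ∣ (P₁ : Subgroup M).index := P₁.not_dvd_index
    rw [he, hMcard, hi, hj] at h2
    rw [h1, he]
    apply Nat.dvd_antisymm
    · have h4 : p ^ e ∣ 2 ^ i * p ^ j := Dvd.intro _ h2
      exact Nat.Coprime.dvd_of_dvd_mul_left (Nat.Coprime.pow e i hcop2p.symm) h4
    · have h4 : p ^ j ∣ p ^ e * (P₁ : Subgroup M).index := by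
        rw [h2]; exact Dvd.intro_left _ rfl
      exact Nat.Coprime.dvd_of_dvd_mul_right
        (Nat.Coprime.pow_left j ((Nat.Prime.coprime_iff_not_dvd hp).mpr h3)) h4
  have hP1 : P ≠ ⊥ := by
    intro h
    rw [h, Subgroup.card_bot] at hPcard
    have h1 : 1 < p ^ j := Nat.one_lt_pow hj0 hp.one_lt
    omega
  have hPY : Y ⊓ P = ⊥ := by
    apply disjoint_iff.mp
    apply Subgroup.disjoint_of_coprime_natCard
    rw [hi, hPcard]
    exact Nat.Coprime.pow i j hcop2p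
  have hPYM : P ⊔ Y = M := by
    apply Subgroup.eq_of_le_of_card_ge (sup_le hPM hYM)
    rw [card_sup_disj P Y hPY, hMcard, hi, hj, hPcard]
  obtain ⟨N, hNdef⟩ : ∃ N, N = Subgroup.normalizer (P : Set H) := ⟨_, rfl⟩
  have hPN : P ≤ N := by rw [hNdef]; exact Subgroup.le_normalizer
  have hNY : N ⊔ Y = ⊤ := by
    have h1 : Subgroup.normalizer ((((P₁ : Subgroup M).map M.subtype : Subgroup H)) : Set H) ⊔ M
        = ⊤ := Sylow.normalizer_sup_eq_top P₁
    rw [← hPdef, ← hNdef, ← hPYM] at h1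
    rw [eq_top_iff, ← h1]
    exact sup_le le_sup_left (sup_le (hPN.trans le_sup_left) le_sup_right)
  have hPodd : ∀ a ∈ P, Odd (orderOf a) := by
    intro a ha
    have h1 : orderOf a ∣ Nat.card P := by
      have h0 := orderOf_dvd_natCard (⟨a, ha⟩ : P)
      rwa [Subgroup.orderOf_mk] at h0
    rw [hPcard] at h1
    exact Odd.of_dvd_nat (hpodd.pow) h1
  obtain ⟨a₀, ha₀, ha₀1⟩ : ∃ a ∈ P, a ≠ 1 := by
    by_contra hcon
    push Not at hcon
    apply hP1
    rw [eq_bot_iff]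
    intro a ha
    exact Subgroup.mem_bot.mpr (hcon a ha)
  have hNYbot : N ⊓ Y = ⊥ := by
    rw [eq_bot_iff]
    intro y hy
    obtain ⟨hyN, hyY⟩ := Subgroup.mem_inf.mp hy
    rw [Subgroup.mem_bot]
    by_contra hy1
    have h1 : y * a₀ * y⁻¹ ∈ P := by
      rw [hNdef] at hyN
      exact (Subgroup.mem_normalizer_iff.mp hyN a₀).mp ha₀
    have h2 : y * a₀ * y⁻¹ * a₀⁻¹ ∈ Y ⊓ P := by
      refine Subgroup.mem_inf.mpr ⟨?_, mul_mem h1 (inv_mem ha₀)⟩
      have h3 : a₀ * y⁻¹ * a₀⁻¹ ∈ Y := hYn.conj_mem _ (inv_mem hyY) a₀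
      have h4 : y * a₀ * y⁻¹ * a₀⁻¹ = y * (a₀ * y⁻¹ * a₀⁻¹) := by group
      rw [h4]; exact mul_mem hyY h3
    rw [hPY, Subgroup.mem_bot] at h2
    have h5 : a₀ * y = y * a₀ := by
      have h6 : y * a₀ = (y * a₀ * y⁻¹ * a₀⁻¹) * (a₀ * y) := by group
      rw [h2, one_mul] at h6
      exact h6.symm
    exact hfpf a₀ (hPodd a₀ ha₀) ha₀1 y hyY hy1 h5
  have hY1 : Y ≠ ⊥ := by
    intro h
    apply hYtop
    rw [eq_top_iff]
    intro z _
    apply hcent
    rw [Subgroup.mem_centralizer_iff]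
    intro w hw
    rw [h] at hw
    have hw1 : w = 1 := Subgroup.mem_bot.mp hw
    rw [hw1, one_mul, mul_one]
  have hi0 : i ≠ 0 := by
    rintro rfl
    rw [pow_zero] at hi
    exact hY1 (Subgroup.card_eq_one.mp hi)
  have hY2 : 2 ∣ Nat.card Y := by rw [hi]; exact dvd_pow_self 2 hi0
  obtain ⟨C, hCdef⟩ : ∃ C, C = N ⊓ Subgroup.centralizer (P : Set H) := ⟨_, rfl⟩
  have hCodd : Odd (Nat.card C) := by
    by_contra hcon
    rw [Nat.not_odd_iff_even, even_iff_two_dvd] at hcon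
    obtain ⟨t, ht⟩ := exists_prime_orderOf_dvd_card' 2 hcon
    have ht2 : orderOf (t : H) = 2 := by rw [Subgroup.orderOf_coe]; exact ht
    have htC : (t : H) ∈ N ⊓ Subgroup.centralizer (P : Set H) := hCdef ▸ t.2
    obtain ⟨htN, htP⟩ := Subgroup.mem_inf.mp htC
    have hB : IsPGroup 2 (Subgroup.zpowers (t : H)) :=
      IsPGroup.of_card (n := 1) (by rw [Nat.card_zpowers, ht2, pow_one])
    have hnB : Subgroup.zpowers (t : H) ≤ Subgroup.normalizer (Y : Set H) := by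
      rw [Subgroup.normalizer_eq_top]; exact le_top
    obtain ⟨w, hwY, hw1, hwc⟩ :=
      Cfsg.Agent.Lib.Helper19.exists_ne_one_mem_centralizer_of_le_normalizer hB hnB hY2
    have hwt : w * (t : H) = (t : H) * w :=
      ((Subgroup.mem_centralizer_iff.mp hwc) _ (Subgroup.mem_zpowers _)).symm
    have hat : a₀ * (t : H) = (t : H) * a₀ := (Subgroup.mem_centralizer_iff.mp htP) a₀ ha₀
    have h1 := l1 Y hYp (t : H) (hI _ ht2) a₀ (hPodd a₀ ha₀) hat w hwY hwt
    exact hfpf a₀ (hPodd a₀ ha₀) ha₀1 w hwY hw1 h1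
  have hCN : C ≤ N := by rw [hCdef]; exact inf_le_left
  have hCY : Y ⊓ C = ⊥ := by
    rw [eq_bot_iff, ← hNYbot]
    intro z hz
    obtain ⟨h1, h2⟩ := Subgroup.mem_inf.mp hz
    exact Subgroup.mem_inf.mpr ⟨hCN h2, h1⟩
  obtain ⟨D, hDdef⟩ : ∃ D, D = C ⊔ Y := ⟨_, rfl⟩
  have hDcard : Nat.card D = Nat.card Y * Nat.card C := by
    rw [hDdef]; exact card_sup_disj C Y hCY
  have hNnormC : ∀ n ∈ N, ∀ c ∈ C, n * c * n⁻¹ ∈ C := by
    intro n hn c hc
    rw [hCdef] at hc ⊢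
    obtain ⟨hcN, hcP⟩ := Subgroup.mem_inf.mp hc
    refine Subgroup.mem_inf.mpr ⟨mul_mem (mul_mem hn hcN) (inv_mem hn), ?_⟩
    rw [Subgroup.mem_centralizer_iff]
    intro a ha
    have hb : n⁻¹ * a * n ∈ P := by
      rw [hNdef] at hn
      have h0 := (Subgroup.mem_normalizer_iff.mp (inv_mem hn) a).mp ha
      simpa using h0
    have hbc : (n⁻¹ * a * n) * c = c * (n⁻¹ * a * n) :=
      (Subgroup.mem_centralizer_iff.mp hcP) _ hb
    calc a * (n * c * n⁻¹) = n * ((n⁻¹ * a * n) * c) * n⁻¹ := by group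
      _ = n * (c * (n⁻¹ * a * n)) * n⁻¹ := by rw [hbc]
      _ = n * c * n⁻¹ * a := by group
  have hDn : D.Normal := by
    have h1 : N ≤ Subgroup.normalizer (D : Set H) := by
      apply Cfsg.Agent.Lib.Helper19.le_normalizer_of_conj_mem
      intro n hn z hz
      rw [hDdef] at hz ⊢
      have hz' : z ∈ ((C ⊔ Y : Subgroup H) : Set H) := hz
      rw [Subgroup.mul_normal] at hz'
      obtain ⟨c, hc, y, hy, rfl⟩ := Set.mem_mul.mp hz'
      have h2 : n * (c * y) * n⁻¹ = (n * c * n⁻¹) * (n * y * n⁻¹) := by group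
      rw [h2]
      exact mul_mem (Subgroup.mem_sup_left (hNnormC n hn c hc))
        (Subgroup.mem_sup_right (hYn.conj_mem y hy n))
    have h2 : Y ≤ Subgroup.normalizer (D : Set H) := by
      rw [hDdef]
      exact le_sup_right.trans Subgroup.le_normalizer
    have h3 : Subgroup.normalizer (D : Set H) = ⊤ := by
      rw [eq_top_iff, ← hNY]; exact sup_le h1 h2
    exact Subgroup.normalizer_eq_top_iff.mp h3
  have hDL : D ≤ X ⊔ Y := by
    obtain ⟨k, hk⟩ := hXidx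
    have hXY : Y ⊓ X = ⊥ := by
      apply disjoint_iff.mp
      apply Subgroup.disjoint_of_coprime_natCard
      rw [hi]
      exact Nat.Coprime.pow_left i (odd_coprime_two hXodd).symm
    have hL : Nat.card (X ⊔ Y : Subgroup H) = Nat.card Y * Nat.card X := card_sup_disj X Y hXY
    have h1 : Nat.card (X ⊔ D : Subgroup H) ∣ Nat.card X * Nat.card D := by
      apply Cfsg.Agent.S1476.card_sup_dvd
      rw [Subgroup.normalizer_eq_top]; exact le_top
    have h2 : X.relIndex (X ⊔ D) ∣ 2 ^ k := by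
      rw [← hk]; exact Subgroup.relIndex_dvd_index_of_le le_sup_left
    obtain ⟨e, -, he2⟩ := (Nat.dvd_prime_pow Nat.prime_two).mp h2
    have h3 : Nat.card X * X.relIndex (X ⊔ D) = Nat.card (X ⊔ D : Subgroup H) := by
      have h0 := Subgroup.relIndex_mul_relIndex (H := ⊥) (K := X) (L := X ⊔ D) bot_le le_sup_left
      rwa [Subgroup.relIndex_bot_left, Subgroup.relIndex_bot_left] at h0
    rw [he2] at h3
    rw [← h3, hDcard] at h1
    have h4 : 2 ^ e ∣ Nat.card Y * Nat.card C := (Nat.mul_dvd_mul_iff_left Nat.card_pos).mp h1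
    have h5 : 2 ^ e ∣ Nat.card Y :=
      Nat.Coprime.dvd_of_dvd_mul_right (Nat.Coprime.pow_left e (odd_coprime_two hCodd).symm) h4
    have h6 : 2 ^ e ≤ Nat.card Y := Nat.le_of_dvd Nat.card_pos h5
    have h7 : X ⊔ Y ≤ X ⊔ D :=
      sup_le le_sup_left (by rw [hDdef]; exact le_sup_right.trans le_sup_right)
    have h8 : X ⊔ Y = X ⊔ D := by
      apply Subgroup.eq_of_le_of_card_ge h7
      rw [← h3, hL, mul_comm]
      exact Nat.mul_le_mul_right _ h6
    rw [h8]; exact le_sup_right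
  have hPcyc : IsCyclic P := by
    apply Cfsg.Agent.S1476.fpf_odd_nilp_cyclic Y P hY1
    · intro a ha ha1
      rw [eq_bot_iff]
      intro y hy
      obtain ⟨hyY, hyc⟩ := Subgroup.mem_inf.mp hy
      rw [Subgroup.mem_bot]
      by_contra hy1
      exact hfpf a (hPodd a ha) ha1 y hyY hy1 (Subgroup.mem_centralizer_singleton_iff.mp hyc).symm
    · exact hPp.isNilpotent
    · rw [hPcard]; exact hpodd.pow
  have hAutCyc : IsCyclic (MulAut P) := by
    have e := IsCyclic.mulAutMulEquiv P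
    have h1 : IsCyclic (ZMod (Nat.card P))ˣ := by
      rw [hPcard]; exact ZMod.isCyclic_units_of_prime_pow p hp hp2' j
    exact e.isCyclic.mpr h1
  obtain ⟨φ, hφdef⟩ : ∃ φ : Subgroup.normalizer (P : Set H) →* MulAut P,
      φ = P.normalizerMonoidHom := ⟨_, rfl⟩
  have hrange : IsCyclic φ.range := inferInstance
  obtain ⟨⟨γ, hγ⟩, hgen⟩ := hrange.exists_generator
  obtain ⟨n₀, hn₀⟩ := MonoidHom.mem_range.mp hγ
  refine ⟨D, (n₀ : H), hDn, hDL, ?_⟩
  intro h
  have hh : h ∈ ((N ⊔ Y : Subgroup H) : Set H) := by rw [hNY]; exact Set.mem_univ h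
  rw [Subgroup.mul_normal] at hh
  obtain ⟨n, hn, y, hy, rfl⟩ := Set.mem_mul.mp hh
  have hn' : n ∈ Subgroup.normalizer (P : Set H) := hNdef ▸ hn
  obtain ⟨k, hk⟩ := Subgroup.mem_zpowers_iff.mp
    (hgen ⟨φ ⟨n, hn'⟩, MonoidHom.mem_range.mpr ⟨_, rfl⟩⟩)
  have hk' : γ ^ k = φ ⟨n, hn'⟩ := by
    have h0 := congrArg Subtype.val hk
    simpa using h0
  rw [← hn₀, ← map_zpow] at hk'
  have hker : (n₀ ^ k)⁻¹ * ⟨n, hn'⟩ ∈ φ.ker := by
    rw [MonoidHom.mem_ker, map_mul, map_inv, hk', inv_mul_cancel]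
  rw [hφdef, Subgroup.normalizerMonoidHom_ker, Subgroup.mem_subgroupOf] at hker
  have hc : ((n₀ : H) ^ k)⁻¹ * n ∈ C := by
    rw [hCdef]
    refine Subgroup.mem_inf.mpr ⟨?_, ?_⟩
    · rw [hNdef]; exact mul_mem (inv_mem (zpow_mem n₀.2 k)) hn'
    · simpa using hker
  refine ⟨k, ?_⟩
  rw [hDdef, ← mul_assoc]
  exact mul_mem (Subgroup.mem_sup_left hc) (Subgroup.mem_sup_right hy)

end

/-- Let H be a finite solvable group with no nontrivial normal subgroup of odd order in which the centralizer of every involution has a normal 2-complement. Let X be a Hall 2'-subgroup of H (odd order, index a power of 2) and Y = O₂(H). Then no non-identity element of X commutes with a non-identity element of Y (so for X ≠ 1 the group XY is a Frobenius group with kernel Y), every Sylow subgroup of X is cyclic, XY is normal in H, and H/XY is a cyclic 2-group. -/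
theorem result {H : Type*} [Group H] [Finite H] (hsol : Group.IsSolvable H)
    (hO : Cfsg.oddCore H = ⊥)
    (hI : ∀ t : H, orderOf t = 2 → Cfsg.HasNormalPComplement 2 ↥(Subgroup.centralizer ({t} : Set H)))
    (X : Subgroup H) (hXodd : Odd (Nat.card X)) (hXidx : ∃ k : ℕ, X.index = 2 ^ k) :
    (∀ x ∈ X, x ≠ 1 → ∀ y ∈ Cfsg.pCore 2 H, y ≠ 1 → x * y ≠ y * x) ∧
      (∀ (p : ℕ) [Fact p.Prime] (P : Sylow p ↥X), IsCyclic ↥(P : Subgroup ↥X)) ∧
      (X ⊔ Cfsg.pCore 2 H).Normal ∧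
      ∀ hN : (X ⊔ Cfsg.pCore 2 H).Normal, IsCyclic (H ⧸ (X ⊔ Cfsg.pCore 2 H)) ∧ IsPGroup 2 (H ⧸ (X ⊔ Cfsg.pCore 2 H)) := by
  have hp2 : Fact (Nat.Prime 2) := ⟨Nat.prime_two⟩
  have hO' : Cfsg.pPrimeCore 2 H = ⊥ := hO
  have hXelt : ∀ x ∈ X, Odd (orderOf x) := by
    intro x hx
    have h1 : orderOf x ∣ Nat.card X := by
      have h0 := orderOf_dvd_natCard (⟨x, hx⟩ : X)
      rwa [Subgroup.orderOf_mk] at h0
    exact Odd.of_dvd_nat hXodd h1
  have hfpf : ∀ x ∈ X, x ≠ 1 → ∀ y ∈ Cfsg.pCore 2 H, y ≠ 1 → x * y ≠ y * x := by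
    intro x hx hx1 y hy hy1
    exact fpf_odd hO' hI x (hXelt x hx) hx1 y hy hy1
  refine ⟨hfpf, ?_, ?_⟩
  · intro p hp P
    by_cases hY1 : Cfsg.pCore 2 H = ⊥
    · have hcent := Cfsg.Agent.Lib.Helper20.centralizer_pCore_le (G := H) 2 hO'
      have hall : ∀ z : H, z = 1 := by
        intro z
        have h1 : z ∈ Cfsg.pCore 2 H := by
          apply hcent
          rw [Subgroup.mem_centralizer_iff]
          intro w hw
          rw [hY1] at hw
          have hw1 : w = 1 := Subgroup.mem_bot.mp hw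
          rw [hw1, one_mul, mul_one]
        rw [hY1] at h1
        exact Subgroup.mem_bot.mp h1
      have hsub : Subsingleton ↥(P : Subgroup ↥X) :=
        ⟨fun a b => Subtype.ext (Subtype.ext ((hall _).trans (hall _).symm))⟩
      exact isCyclic_of_subsingleton
    · have hYn : (Cfsg.pCore 2 H).Normal := Cfsg.Agent.Lib.Helper17.pCore_normal
      have hcyc : IsCyclic ((P : Subgroup X).map X.subtype) := by
        apply Cfsg.Agent.S1476.fpf_odd_nilp_cyclic (Cfsg.pCore 2 H) _ hY1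
        · intro a ha ha1
          have haX : a ∈ X := Subgroup.map_subtype_le _ ha
          rw [eq_bot_iff]
          intro y hy
          obtain ⟨hyY, hyc⟩ := Subgroup.mem_inf.mp hy
          rw [Subgroup.mem_bot]
          by_contra hy1
          exact hfpf a haX ha1 y hyY hy1 (Subgroup.mem_centralizer_singleton_iff.mp hyc).symm
        · exact (P.isPGroup'.map _).isNilpotent
        · exact Odd.of_dvd_nat hXodd (Subgroup.card_dvd_of_le (Subgroup.map_subtype_le _))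
      exact isCyclic_of_surjective
        ((P : Subgroup X).equivMapOfInjective X.subtype X.subtype_injective).symm
        (MulEquiv.surjective _)
  · obtain ⟨D, n₀, hDn, hDL, hcyc⟩ := key_cd hO' hI X hXodd hXidx
    obtain ⟨hLn, hLc⟩ := fin_of (X ⊔ Cfsg.pCore 2 H) D n₀ hDn hDL hcyc
    refine ⟨hLn, fun hN => ⟨hLc hN, ?_⟩⟩
    obtain ⟨k, hk⟩ := hXidx
    have h1 : (X ⊔ Cfsg.pCore 2 H).index ∣ 2 ^ k := hk ▸ Subgroup.index_dvd_of_le le_sup_left
    obtain ⟨e, -, he⟩ := (Nat.dvd_prime_pow Nat.prime_two).mp h1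
    exact IsPGroup.of_card (n := e) (by rw [← Subgroup.index_eq_card]; exact he)

end Cfsg.Agent.S3215
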