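import Cfsg.Statements.S3225
import Mathlib

set_option autoImplicit false
open Cfsg

namespace Cfsg.Agent.S3225

/-- Let G be a finite group of even order with no subgroup of index 2, S a Sylow 2-subgroup of G and M a subgroup of index 2 in S such that, for some n ≥ 1, every element of S outside M has order greater than 2^(n−1). Then every element of S of order 2ⁿ is conjugate in G to an element of M. -/
theorem result {G : Type*} [Group G] [Finite G] (hev : Even (Nat.card G))
    (hG : ∀ H : Subgroup G, H.index ≠ 2) (S : Sylow 2 G) (M : Subgroup G) (hMS : M ≤ (S : Subgroup G)) (hM : M.relIndex (S : Subgroup G) = 2)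
    (n : ℕ) (hn : 1 ≤ n) (hord : ∀ y ∈ (S : Subgroup G), y ∉ M → 2 ^ (n - 1) < orderOf y)
    (x : G) (hx : x ∈ (S : Subgroup G)) (hxn : orderOf x = 2 ^ n) :
    ∃ g : G, g * x * g⁻¹ ∈ M := by
  classical
  by_contra hcon
  push Not at hcon
  have : Fact (Nat.Prime 2) := ⟨Nat.prime_two⟩
  obtain ⟨S', hS'⟩ : ∃ S' : Subgroup G, S' = (S : Subgroup G) := ⟨_, rfl⟩
  rw [← hS'] at hMS hM hord hx
  have hidx : (M.subgroupOf S').index = 2 := hM
  let φ : S' →* ℤˣ := MonoidHom.mk' (fun s => if (s : G) ∈ M then 1 else -1) (by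
    intro a b
    have h2 := Subgroup.mul_mem_iff_of_index_two hidx (a := a) (b := b)
    simp only [Subgroup.mem_subgroupOf, Subgroup.coe_mul] at h2
    by_cases ha : (a : G) ∈ M <;> by_cases hb : (b : G) ∈ M <;> simp [h2, ha, hb])
  have hφ : ∀ s : S', φ s = if (s : G) ∈ M then 1 else -1 := fun s => rfl
  -- the transfer
  have hodd : Odd S'.index := by
    rw [hS']
    have := S.not_dvd_index
    exact Nat.odd_iff.mpr (Nat.two_dvd_ne_zero.mp this)
  let : Fintype (Quotient (MulAction.orbitRel (Subgroup.zpowers x) (G ⧸ S'))) := Fintype.ofFinite _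
  have hV : MonoidHom.transfer φ x = -1 := by
    rw [MonoidHom.transfer_eq_prod_quotient_orbitRel_zpowers_quot φ x]
    have hterm : ∀ q : Quotient (MulAction.orbitRel (Subgroup.zpowers x) (G ⧸ S')),
        φ ⟨q.out.out⁻¹ * x ^ Function.minimalPeriod (x • ·) q.out * q.out.out,
            QuotientGroup.out_conj_pow_minimalPeriod_mem S' x q.out⟩
          = (-1 : ℤˣ) ^ Function.minimalPeriod (x • ·) q.out := by
      intro q
      rw [hφ]
      obtain ⟨m, hm⟩ : ∃ m, m = Function.minimalPeriod (x • ·) q.out := ⟨_, rfl⟩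
      obtain ⟨k, hk⟩ : ∃ k : G, k = q.out.out := ⟨_, rfl⟩
      have hmem : k⁻¹ * x ^ m * k ∈ S' := by
        rw [hm, hk]; exact QuotientGroup.out_conj_pow_minimalPeriod_mem S' x q.out
      simp only [← hm, ← hk]
      have hdvd : m ∣ 2 ^ n := by
        rw [hm, ← hxn]
        apply Function.IsPeriodicPt.minimalPeriod_dvd
        show (fun a : G ⧸ S' => x • a)^[orderOf x] q.out = q.out
        rw [smul_iterate_apply, pow_orderOf_eq_one, one_smul]
      obtain ⟨j, hj, rfl⟩ := (Nat.dvd_prime_pow Nat.prime_two).mp hdvd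
      rcases Nat.eq_zero_or_pos j with rfl | hjpos
      · -- fixed point: conjugate of x
        have hnot : k⁻¹ * x ^ 2 ^ 0 * k ∉ M := by
          have := hcon k⁻¹
          simpa using this
        rw [if_neg hnot]; simp
      · have hin : k⁻¹ * x ^ 2 ^ j * k ∈ M := by
          by_contra hnot
          have h1 := hord _ hmem hnot
          have h2 : orderOf (k⁻¹ * x ^ 2 ^ j * k) = 2 ^ (n - j) := by
            have : k⁻¹ * x ^ 2 ^ j * k = MulAut.conj k⁻¹ (x ^ 2 ^ j) := by
              rw [MulAut.conj_apply, inv_inv]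
            rw [this, MulEquiv.orderOf_eq, orderOf_pow, hxn, Nat.gcd_eq_right (pow_dvd_pow 2 hj),
              Nat.pow_div hj (by norm_num)]
          rw [h2] at h1
          have : n - j ≤ n - 1 := by omega
          exact absurd (Nat.pow_le_pow_right (by norm_num : 0 < 2) this) (by omega)
        rw [if_pos hin]
        have : Even (2 ^ j) := (Nat.even_pow' (by omega)).mpr even_two
        exact (Even.neg_one_pow this).symm
    rw [Finset.prod_congr rfl (fun q _ => hterm q), Finset.prod_pow_eq_pow_sum,
      ← Subgroup.index_eq_sum_minimalPeriod S' x]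
    exact Odd.neg_one_pow hodd
  -- kernel of the transfer has index 2
  apply hG (MonoidHom.transfer φ).ker
  rw [Subgroup.index_ker]
  have hrange : (MonoidHom.transfer φ).range = ⊤ := by
    rw [eq_top_iff]
    intro u _
    rcases Int.units_eq_one_or u with rfl | rfl
    · exact Subgroup.one_mem _
    · exact ⟨x, hV⟩
  rw [hrange, Subgroup.card_top]
  simp

end Cfsg.Agent.S3225
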