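import Cfsg.Statements.S3247
import Mathlib
import Cfsg.Agent.Lib.Helper11.PConLocal

set_option autoImplicit false
open Cfsg

namespace Cfsg.Agent.S3247

/-- Let G be a finite group and p a prime; here a p-local subgroup means the normalizer of a nontrivial p-subgroup, other than G itself. If every p-local subgroup of G that is maximal among p-local subgroups is p-constrained, or if the centralizer of every element of order p of G is p-constrained, then every p-local subgroup of G is p-constrained. -/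
theorem result {G : Type*} [Group G] [Finite G] (p : ℕ) [hp : Fact p.Prime]
    (h : (∀ M : Subgroup G, (∃ T : Subgroup G, IsPGroup p ↥T ∧ T ≠ ⊥ ∧ M = Subgroup.normalizer (T : Set G)) → M ≠ ⊤ →
        (∀ M' : Subgroup G, (∃ T' : Subgroup G, IsPGroup p ↥T' ∧ T' ≠ ⊥ ∧ M' = Subgroup.normalizer (T' : Set G)) → M' ≠ ⊤ → M ≤ M' → M = M') →
        Cfsg.IsPConstrained p ↥M) ∨
      (∀ x : G, orderOf x = p → Cfsg.IsPConstrained p ↥(Subgroup.centralizer ({x} : Set G))))
    (T : Subgroup G) (hT : IsPGroup p ↥T) (hT1 : T ≠ ⊥) (hTG : Subgroup.normalizer (T : Set G) ≠ ⊤) :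
    Cfsg.IsPConstrained p ↥(Subgroup.normalizer (T : Set G)) := by
  have hp' : p.Prime := hp.out
  rw [Cfsg.Agent.Lib.Helper11.isPConstrained_iff_pLayer_eq_bot]
  rcases h with hA | hB
  · -- a maximal `p`-local containing `N_G(T)`
    obtain ⟨M, hMS, hmax⟩ := wellFounded_gt.has_min
      {M : Subgroup G | (∃ T' : Subgroup G, IsPGroup p ↥T' ∧ T' ≠ ⊥ ∧
          M = Subgroup.normalizer (T' : Set G)) ∧ M ≠ ⊤ ∧ Subgroup.normalizer (T : Set G) ≤ M}
      ⟨Subgroup.normalizer (T : Set G), ⟨T, hT, hT1, rfl⟩, hTG, le_refl _⟩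
    obtain ⟨hMloc, hMne, hNM⟩ := hMS
    have hM := hA M hMloc hMne (fun M' hM' hne hle =>
      eq_of_le_of_not_lt hle (hmax M' ⟨hM', hne, hNM.trans hle⟩))
    rw [Cfsg.Agent.Lib.Helper11.isPConstrained_iff_pLayer_eq_bot] at hM
    have hTM : T ≤ M := Subgroup.le_normalizer.trans hNM
    have h1 := (Cfsg.Agent.Lib.Helper11.pLayer_normalizer_eq_bot p hM (T.subgroupOf M)
      hT.comap_subtype).1
    obtain ⟨φ₀, hval, hinj, hsurj⟩ :=
      Cfsg.Agent.Lib.Helper11.exists_normalizer_subgroupOf_hom T M hTM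
    apply Cfsg.Agent.Lib.Helper11.pLayer_eq_bot_of_surjective p φ₀
      (fun y => hsurj y (hNM y.2)) _ h1
    intro a ha
    rw [hinj (ha.trans (map_one φ₀).symm), orderOf_one]
    exact hp'.one_lt.ne
  · -- an element `x` of order `p` in `Z(T)`
    obtain ⟨x, hxT, hxp, hxc⟩ : ∃ x ∈ T, orderOf x = p ∧ ∀ g ∈ T, g * x = x * g := by
      have hnt : Nontrivial T := (Subgroup.nontrivial_iff_ne_bot T).mpr hT1
      have hZnt : Nontrivial (Subgroup.center T) := hT.center_nontrivial
      have hZp : IsPGroup p (Subgroup.center T) := hT.to_subgroup _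
      obtain ⟨k, hk⟩ := IsPGroup.iff_card.mp hZp
      have hk0 : k ≠ 0 := by
        rintro rfl
        rw [pow_zero] at hk
        exact absurd hk (Finite.one_lt_card (α := Subgroup.center T)).ne'
      have hdvd : p ∣ Nat.card (Subgroup.center T) := hk ▸ dvd_pow_self p hk0
      obtain ⟨x, hx⟩ := exists_prime_orderOf_dvd_card' p hdvd
      refine ⟨((x : T) : G), (x : T).2, ?_, ?_⟩
      · rw [Subgroup.orderOf_coe, Subgroup.orderOf_coe]; exact hx
      · intro g hg
        have := Subgroup.mem_center_iff.mp x.2 ⟨g, hg⟩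
        exact congrArg Subtype.val this
    have hH := hB x hxp
    rw [Cfsg.Agent.Lib.Helper11.isPConstrained_iff_pLayer_eq_bot] at hH
    have hTH : T ≤ Subgroup.centralizer ({x} : Set G) := by
      intro g hg
      rw [Subgroup.mem_centralizer_iff]
      intro t ht
      rw [Set.mem_singleton_iff.mp ht]
      exact (hxc g hg).symm
    have h1 := (Cfsg.Agent.Lib.Helper11.pLayer_normalizer_eq_bot p hH
      (T.subgroupOf (Subgroup.centralizer ({x} : Set G))) hT.comap_subtype).1
    obtain ⟨φ₀, hval, hinj, hsurj⟩ :=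
      Cfsg.Agent.Lib.Helper11.exists_normalizer_subgroupOf_hom T
        (Subgroup.centralizer ({x} : Set G)) hTH
    have hxN : x ∈ Subgroup.normalizer (T : Set G) := Subgroup.le_normalizer hxT
    apply Cfsg.Agent.Lib.Helper11.pLayer_eq_bot_of_centralizer p
      (⟨x, hxN⟩ : ↥(Subgroup.normalizer (T : Set G)))
      (by rw [Subgroup.orderOf_mk]; exact hxp)
      (T.subgroupOf (Subgroup.normalizer (T : Set G))) inferInstance hT.comap_subtype
      (Subgroup.mem_subgroupOf.mpr hxT)
    have hmem : ∀ g, φ₀ g ∈ Subgroup.centralizer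
        ({(⟨x, hxN⟩ : ↥(Subgroup.normalizer (T : Set G)))} : Set ↥(Subgroup.normalizer (T : Set G))) := by
      intro g
      rw [Subgroup.mem_centralizer_iff]
      intro t ht
      rw [Set.mem_singleton_iff.mp ht]
      apply Subtype.ext
      show x * ((φ₀ g : ↥(Subgroup.normalizer (T : Set G))) : G) =
        ((φ₀ g : ↥(Subgroup.normalizer (T : Set G))) : G) * x
      rw [hval]
      exact Subgroup.mem_centralizer_iff.mp (g : ↥(Subgroup.centralizer ({x} : Set G))).2 x
        (Set.mem_singleton x)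
    apply Cfsg.Agent.Lib.Helper11.pLayer_eq_bot_of_surjective p
      (MonoidHom.codRestrict φ₀ _ hmem) _ _ h1
    · rintro ⟨y, hy⟩
      have hyH : (y : G) ∈ Subgroup.centralizer ({x} : Set G) := by
        rw [Subgroup.mem_centralizer_iff]
        intro t ht
        rw [Set.mem_singleton_iff.mp ht]
        have h2 := Subgroup.mem_centralizer_iff.mp hy ⟨x, hxN⟩ (Set.mem_singleton _)
        exact congrArg Subtype.val h2
      obtain ⟨g, hg⟩ := hsurj y hyH
      exact ⟨g, Subtype.ext hg⟩
    · intro a ha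
      have ha0 : φ₀ a = 1 := by
        have h2 := congrArg Subtype.val ha
        exact h2
      rw [hinj (ha0.trans (map_one φ₀).symm), orderOf_one]
      exact hp'.one_lt.ne

end Cfsg.Agent.S3247
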