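import Cfsg.Statements.S3276

set_option autoImplicit false
open Cfsg

namespace Cfsg.Agent.S3276

theorem closure_comm' {G : Type*} [Group G] {S : Set G} (hS : ∀ a ∈ S, ∀ b ∈ S, a * b = b * a) :
    ∀ a ∈ Subgroup.closure S, ∀ b ∈ Subgroup.closure S, a * b = b * a := by
  have h1 : Subgroup.closure S ≤ Subgroup.centralizer S := by
    rw [Subgroup.closure_le]
    intro a ha
    rw [SetLike.mem_coe, Subgroup.mem_centralizer_iff]
    intro b hb
    exact hS b hb a ha
  have h2 : Subgroup.closure S ≤ Subgroup.centralizer (Subgroup.closure S : Set G) := by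
    rw [Subgroup.closure_le]
    intro a ha
    rw [SetLike.mem_coe, Subgroup.mem_centralizer_iff]
    intro b hb
    have := h1 hb
    rw [Subgroup.mem_centralizer_iff] at this
    exact (this a ha).symm
  intro a ha b hb
  have := h2 hb
  rw [Subgroup.mem_centralizer_iff] at this
  exact this a ha

theorem invol_dichotomy {G : Type*} [Group G] [Finite G] (a b : G) (ha : a * a = 1) (hb : b * b = 1) :
    IsConj a b ∨ ∃ u : G, orderOf u = 2 ∧ Commute u a ∧ Commute b u := by
  have hP2 : Fact (Nat.Prime 2) := ⟨Nat.prime_two⟩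
  have hainv : a⁻¹ = a := inv_eq_of_mul_eq_one_left ha
  have hbinv : b⁻¹ = b := inv_eq_of_mul_eq_one_left hb
  obtain ⟨w, hw⟩ : ∃ w, w = a * b := ⟨_, rfl⟩
  have hwinv : w⁻¹ = b * a := by rw [hw, mul_inv_rev, hainv, hbinv]
  have haw : a * w * a⁻¹ = w⁻¹ := by
    rw [hwinv, hw, hainv, ← mul_assoc, ha, one_mul]
  have hbw : b * w * b⁻¹ = w⁻¹ := by
    rw [hwinv, hw, hbinv, mul_assoc, mul_assoc, hb, mul_one]
  have hawk : ∀ k : ℕ, a * w ^ k * a⁻¹ = (w ^ k)⁻¹ := by
    intro k; rw [← conj_pow, haw, inv_pow]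
  have hbwk : ∀ k : ℕ, b * w ^ k * b⁻¹ = (w ^ k)⁻¹ := by
    intro k; rw [← conj_pow, hbw, inv_pow]
  have hm0 : 0 < orderOf w := orderOf_pos w
  rcases Nat.even_or_odd' (orderOf w) with ⟨k, hk | hk⟩
  · right
    have hk0 : k ≠ 0 := by rintro rfl; omega
    have hu2 : (w ^ k) ^ 2 = 1 := by rw [← pow_mul, mul_comm, ← hk]; exact pow_orderOf_eq_one w
    have hu1 : w ^ k ≠ 1 := pow_ne_one_of_lt_orderOf hk0 (by omega)
    have huinv : (w ^ k)⁻¹ = w ^ k := inv_eq_of_mul_eq_one_left (by rw [← pow_two]; exact hu2)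
    refine ⟨w ^ k, orderOf_eq_prime hu2 hu1, ?_, ?_⟩
    · have h := hawk k
      rw [huinv] at h
      exact (mul_inv_eq_iff_eq_mul.mp h).symm
    · have h := hbwk k
      rw [huinv] at h
      exact mul_inv_eq_iff_eq_mul.mp h
  · left
    have hw2k : w ^ (2 * k) = w⁻¹ := by
      apply eq_inv_of_mul_eq_one_left
      rw [← pow_succ, ← hk]; exact pow_orderOf_eq_one w
    refine isConj_iff.mpr ⟨w ^ k, ?_⟩
    rw [← hawk k, hainv]
    calc w ^ k * a * (a * w ^ k * a) = w ^ k * (a * a) * w ^ k * a := by simp only [mul_assoc]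
      _ = w ^ (2 * k) * a := by rw [ha, mul_one, two_mul, pow_add]
      _ = b := by rw [hw2k, hwinv, mul_assoc, ha, mul_one]

/-- Let x and y be commuting, non-conjugate involutions of a finite group G, and suppose that for every involution u commuting with x, each conjugate of y that commutes with u also commutes with y. Then the normal closure of y is a proper, normal, elementary abelian 2-subgroup of G; and if y is the only involution of that normal closure commuting with x, it has order at most 4. -/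
theorem result {G : Type*} [Group G] [Finite G] (x y : G) (hx : orderOf x = 2) (hy : orderOf y = 2)
    (hxy : Commute x y) (hnc : ¬ IsConj x y)
    (hstar : ∀ u : G, orderOf u = 2 → Commute u x → ∀ g : G, Commute (g * y * g⁻¹) u → Commute (g * y * g⁻¹) y) :
    Subgroup.normalClosure ({y} : Set G) ≠ ⊤ ∧ Cfsg.IsElementaryAbelian 2 (Subgroup.normalClosure ({y} : Set G)) ∧
      ((∀ u ∈ Subgroup.normalClosure ({y} : Set G), orderOf u = 2 → Commute u x → u = y) →
        Nat.card ↥(Subgroup.normalClosure ({y} : Set G)) ≤ 4) := by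
  have hP2 : Fact (Nat.Prime 2) := ⟨Nat.prime_two⟩
  have hx2 : x ^ 2 = 1 := by rw [← hx]; exact pow_orderOf_eq_one x
  have hy2 : y ^ 2 = 1 := by rw [← hy]; exact pow_orderOf_eq_one y
  have hx1 : x ≠ 1 := by
    rintro rfl
    rw [orderOf_one] at hx; exact absurd hx (by norm_num)
  have hxx : x * x = 1 := by rw [← pow_two]; exact hx2
  have hyy : y * y = 1 := by rw [← pow_two]; exact hy2
  have hxinv : x⁻¹ = x := inv_eq_of_mul_eq_one_left hxx
  have claim1 : ∀ g : G, Commute (g * y * g⁻¹) y := by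
    intro g
    have hb : (g * y * g⁻¹) * (g * y * g⁻¹) = 1 := by
      calc (g * y * g⁻¹) * (g * y * g⁻¹) = g * (y * y) * g⁻¹ := by group
        _ = 1 := by rw [hyy]; group
    rcases invol_dichotomy x (g * y * g⁻¹) hxx hb with h | ⟨u, hu, hux, hyu⟩
    · exfalso; apply hnc
      exact h.trans (isConj_iff.mpr ⟨g⁻¹, by group⟩)
    · exact hstar u hu hux g hyu
  have claim2 : ∀ g h : G, (g * y * g⁻¹) * (h * y * h⁻¹) = (h * y * h⁻¹) * (g * y * g⁻¹) := by
    intro g h
    have h1 : (h⁻¹ * g) * y * (h⁻¹ * g)⁻¹ * y = y * ((h⁻¹ * g) * y * (h⁻¹ * g)⁻¹) := claim1 (h⁻¹ * g)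
    calc (g * y * g⁻¹) * (h * y * h⁻¹) = h * ((h⁻¹ * g) * y * (h⁻¹ * g)⁻¹ * y) * h⁻¹ := by group
      _ = h * (y * ((h⁻¹ * g) * y * (h⁻¹ * g)⁻¹)) * h⁻¹ := by rw [h1]
      _ = _ := by group
  have hNdef : Subgroup.normalClosure ({y} : Set G) = Subgroup.closure (Group.conjugatesOfSet ({y} : Set G)) := rfl
  have hgen : ∀ a ∈ Group.conjugatesOfSet ({y} : Set G), ∃ g : G, a = g * y * g⁻¹ := by
    intro a ha
    rw [Group.mem_conjugatesOfSet_iff] at ha
    obtain ⟨b, hb, hab⟩ := ha
    rw [Set.mem_singleton_iff] at hb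
    subst hb
    obtain ⟨c, hc⟩ := isConj_iff.mp hab
    exact ⟨c, hc.symm⟩
  have hcomm : ∀ a ∈ Subgroup.normalClosure ({y} : Set G), ∀ b ∈ Subgroup.normalClosure ({y} : Set G), a * b = b * a := by
    rw [hNdef]
    apply closure_comm'
    intro a ha b hb
    obtain ⟨g, rfl⟩ := hgen a ha
    obtain ⟨h, rfl⟩ := hgen b hb
    exact claim2 g h
  have hsq : ∀ a ∈ Subgroup.normalClosure ({y} : Set G), a * a = 1 := by
    intro a ha
    have key : ∀ a ∈ Subgroup.closure (Group.conjugatesOfSet ({y} : Set G)), a ∈ Subgroup.normalClosure ({y} : Set G) ∧ a * a = 1 := by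
      intro a ha
      induction ha using Subgroup.closure_induction with
      | mem a ha =>
        refine ⟨Subgroup.subset_closure ha, ?_⟩
        obtain ⟨g, rfl⟩ := hgen a ha
        calc (g * y * g⁻¹) * (g * y * g⁻¹) = g * (y * y) * g⁻¹ := by group
          _ = 1 := by rw [hyy]; group
      | one => exact ⟨one_mem _, one_mul 1⟩
      | mul a b _ _ iha ihb =>
        refine ⟨mul_mem iha.1 ihb.1, ?_⟩
        calc a * b * (a * b) = a * (b * a) * b := by group
          _ = a * (a * b) * b := by rw [hcomm b ihb.1 a iha.1]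
          _ = (a * a) * (b * b) := by group
          _ = 1 := by rw [iha.2, ihb.2, one_mul]
      | inv a _ iha =>
        refine ⟨inv_mem iha.1, ?_⟩
        rw [← mul_inv_rev, iha.2, inv_one]
    exact (key a ha).2
  refine ⟨?_, ⟨?_, ?_⟩, ?_⟩
  · intro htop
    have hc : ∀ a b : G, a * b = b * a := fun a b => hcomm a (htop ▸ Subgroup.mem_top a) b (htop ▸ Subgroup.mem_top b)
    have hnorm : (Subgroup.zpowers y).Normal := ⟨fun n hn g => by rw [hc g n, mul_inv_cancel_right]; exact hn⟩
    have hle : Subgroup.normalClosure ({y} : Set G) ≤ Subgroup.zpowers y :=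
      Subgroup.normalClosure_le_normal (by rw [Set.singleton_subset_iff]; exact Subgroup.mem_zpowers y)
    have hxm : x ∈ Subgroup.zpowers y := hle (htop ▸ Subgroup.mem_top x)
    obtain ⟨k, hk⟩ := mem_powers_iff_mem_zpowers.mpr hxm
    replace hk : y ^ k = x := hk
    rcases Nat.even_or_odd' k with ⟨q, hq | hq⟩
    · apply hx1; rw [← hk, hq, pow_mul, hy2, one_pow]
    · apply hnc
      have h3 : x = y := by rw [← hk, hq, pow_succ, pow_mul, hy2, one_pow, one_mul]
      rw [h3]
  · exact IsMulCommutative.of_setLike_mul_comm (fun a ha b hb => hcomm a ha b hb)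
  · intro a ha; rw [pow_two]; exact hsq a ha
  · intro huniq
    classical
    have hNn : (Subgroup.normalClosure ({y} : Set G)).Normal := Subgroup.normalClosure_normal
    have hconjmem : ∀ n ∈ Subgroup.normalClosure ({y} : Set G), x * n * x⁻¹ ∈ Subgroup.normalClosure ({y} : Set G) :=
      fun n hn => hNn.conj_mem n hn x
    have hfix : ∀ n ∈ Subgroup.normalClosure ({y} : Set G), x * n = n * x → n = 1 ∨ n = y := by
      intro n hn hnx
      by_cases h1 : n = 1
      · exact Or.inl h1
      · right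
        apply huniq n hn
        · exact orderOf_eq_prime (by rw [pow_two]; exact hsq n hn) h1
        · exact hnx.symm
    have hφ : ∀ n ∈ Subgroup.normalClosure ({y} : Set G), n * (x * n * x⁻¹) = 1 ∨ n * (x * n * x⁻¹) = y := by
      intro n hn
      apply hfix _ (mul_mem hn (hconjmem n hn))
      have hm : x * n * x ∈ Subgroup.normalClosure ({y} : Set G) := by
        have := hconjmem n hn; rwa [hxinv] at this
      rw [hxinv]
      calc x * (n * (x * n * x)) = ((x * n * x) * n) * x := by group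
        _ = (n * (x * n * x)) * x := by rw [hcomm (x * n * x) hm n hn]
    have hker : ∀ n ∈ Subgroup.normalClosure ({y} : Set G), n * (x * n * x⁻¹) = 1 → n = 1 ∨ n = y := by
      intro n hn h
      apply hfix n hn
      have hninv : n⁻¹ = n := inv_eq_of_mul_eq_one_left (hsq n hn)
      have h2 : x * n * x⁻¹ = n := (eq_inv_of_mul_eq_one_right h).trans hninv
      exact mul_inv_eq_iff_eq_mul.mp h2
    obtain ⟨n₀, hn₀, hn₀φ⟩ : ∃ n₀ ∈ Subgroup.normalClosure ({y} : Set G),
        ∀ n ∈ Subgroup.normalClosure ({y} : Set G), n = 1 ∨ n = y ∨ n = n₀ ∨ n = y * n₀ := by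
      by_cases hall : ∀ n ∈ Subgroup.normalClosure ({y} : Set G), n * (x * n * x⁻¹) = 1
      · refine ⟨1, one_mem _, fun n hn => ?_⟩
        rcases hker n hn (hall n hn) with h | h
        · exact Or.inl h
        · exact Or.inr (Or.inl h)
      · push Not at hall
        obtain ⟨n₀, hn₀, hne⟩ := hall
        have hn₀y : n₀ * (x * n₀ * x⁻¹) = y := (hφ n₀ hn₀).resolve_left hne
        refine ⟨n₀, hn₀, fun n hn => ?_⟩
        rcases hφ n hn with h | h
        · rcases hker n hn h with h' | h'
          · exact Or.inl h'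
          · exact Or.inr (Or.inl h')
        · have hprod : (n * n₀) * (x * (n * n₀) * x⁻¹) = 1 := by
            calc (n * n₀) * (x * (n * n₀) * x⁻¹) = n * (n₀ * (x * n * x⁻¹)) * (x * n₀ * x⁻¹) := by group
              _ = n * ((x * n * x⁻¹) * n₀) * (x * n₀ * x⁻¹) := by rw [hcomm n₀ hn₀ _ (hconjmem n hn)]
              _ = (n * (x * n * x⁻¹)) * (n₀ * (x * n₀ * x⁻¹)) := by group
              _ = 1 := by rw [h, hn₀y, hyy]
          have hn₀inv : n₀⁻¹ = n₀ := inv_eq_of_mul_eq_one_left (hsq n₀ hn₀)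
          rcases hker (n * n₀) (mul_mem hn hn₀) hprod with h' | h'
          · right; right; left
            exact (eq_inv_of_mul_eq_one_left h').trans hn₀inv
          · right; right; right
            rw [← h', mul_assoc, hsq n₀ hn₀, mul_one]
    have hsub : ((Subgroup.normalClosure ({y} : Set G) : Subgroup G) : Set G) ⊆ (({1, y, n₀, y * n₀} : Finset G) : Set G) := by
      intro n hn
      have := hn₀φ n hn
      simp only [Finset.coe_insert, Finset.coe_singleton, Set.mem_insert_iff, Set.mem_singleton_iff]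
      exact this
    calc Nat.card (Subgroup.normalClosure ({y} : Set G))
        = ((Subgroup.normalClosure ({y} : Set G) : Subgroup G) : Set G).ncard := (Nat.card_coe_set_eq _)
      _ ≤ (({1, y, n₀, y * n₀} : Finset G) : Set G).ncard := Set.ncard_le_ncard hsub (Finset.finite_toSet _)
      _ = ({1, y, n₀, y * n₀} : Finset G).card := Set.ncard_coe_finset _
      _ ≤ 4 := Finset.card_le_four

end Cfsg.Agent.S3276
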