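import Cfsg.Statements.S3305

set_option autoImplicit false
open Cfsg

namespace Cfsg.Agent.S3305

open scoped Pointwise

/-- If any two distinct Sylow 2-subgroups of the finite group G intersect in a cyclic group, then the same holds in every quotient group G/H, H a normal subgroup of G. -/
theorem result {G : Type*} [Group G] [Finite G]
    (hC : ∀ S T : Sylow 2 G, S ≠ T → IsCyclic ↥((S : Subgroup G) ⊓ (T : Subgroup G))) (H : Subgroup G) [H.Normal] :
    ∀ S T : Sylow 2 (G ⧸ H), S ≠ T → IsCyclic ↥((S : Subgroup (G ⧸ H)) ⊓ (T : Subgroup (G ⧸ H))) := by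
  intro Sb Tb hne
  have : Fact (Nat.Prime 2) := ⟨Nat.prime_two⟩
  have hsurj : Function.Surjective (QuotientGroup.mk' H) := QuotientGroup.mk'_surjective H
  obtain ⟨S₀, hS₀⟩ := Sylow.mapSurjective_surjective hsurj 2 Sb
  obtain ⟨T, hT⟩ := Sylow.mapSurjective_surjective hsurj 2 Tb
  have hS₀' : (S₀ : Subgroup G).map (QuotientGroup.mk' H) = (Sb : Subgroup (G ⧸ H)) := by
    rw [← hS₀]; rfl
  have hT' : (T : Subgroup G).map (QuotientGroup.mk' H) = (Tb : Subgroup (G ⧸ H)) := by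
    rw [← hT]; rfl
  set Db : Subgroup (G ⧸ H) := (Sb : Subgroup (G ⧸ H)) ⊓ (Tb : Subgroup (G ⧸ H)) with hDb
  set P₂ : Subgroup G := (T : Subgroup G) ⊓ Db.comap (QuotientGroup.mk' H) with hP₂
  set M : Subgroup G := (Sb : Subgroup (G ⧸ H)).comap (QuotientGroup.mk' H) with hM
  have hS₀M : (S₀ : Subgroup G) ≤ M := by
    intro x hx
    show QuotientGroup.mk' H x ∈ (Sb : Subgroup (G ⧸ H))
    rw [← hS₀']; exact Subgroup.mem_map_of_mem _ hx
  have hP₂M : P₂ ≤ M := by
    intro x hx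
    exact hx.2.1
  have hP₂p : IsPGroup 2 (P₂.subgroupOf M) := by
    have h1 : IsPGroup 2 P₂ := T.isPGroup'.to_le inf_le_left
    exact h1.comap_subtype
  obtain ⟨Q, hQ⟩ := hP₂p.exists_le_sylow
  obtain ⟨m, hm⟩ := MulAction.exists_smul_eq M (S₀.subtype hS₀M) Q
  rw [Sylow.smul_subtype] at hm
  have hP₂S' : P₂ ≤ ((m • S₀ : Sylow 2 G) : Subgroup G) := by
    intro x hx
    have hxM : x ∈ M := hP₂M hx
    have h1 : (⟨x, hxM⟩ : M) ∈ (Q : Subgroup M) := hQ (by
      rw [Subgroup.mem_subgroupOf]; exact hx)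
    rw [← hm] at h1
    exact h1
  have hmapS' : ((m • S₀ : Sylow 2 G) : Subgroup G).map (QuotientGroup.mk' H) = (Sb : Subgroup (G ⧸ H)) := by
    have hle : ((m • S₀ : Sylow 2 G) : Subgroup G).map (QuotientGroup.mk' H) ≤ (Sb : Subgroup (G ⧸ H)) := by
      rintro y ⟨x, hx, rfl⟩
      have hx' : x ∈ MulAut.conj (m : G) • (S₀ : Subgroup G) := hx
      rw [Subgroup.mem_pointwise_smul_iff_inv_smul_mem] at hx'
      have h2 : QuotientGroup.mk' H ((MulAut.conj (m : G))⁻¹ • x) ∈ (Sb : Subgroup (G ⧸ H)) := by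
        rw [← hS₀']; exact Subgroup.mem_map_of_mem _ hx'
      have h3 : QuotientGroup.mk' H (m : G) ∈ (Sb : Subgroup (G ⧸ H)) := m.2
      have h4 : QuotientGroup.mk' H x = QuotientGroup.mk' H (m : G) * QuotientGroup.mk' H ((MulAut.conj (m : G))⁻¹ • x) * (QuotientGroup.mk' H (m : G))⁻¹ := by
        have h6 : x = (m : G) * ((MulAut.conj (m : G))⁻¹ • x) * (m : G)⁻¹ := by
          simp [MulAut.smul_def, mul_assoc]
        conv_lhs => rw [h6]
        simp only [map_mul, map_inv]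
      rw [h4]
      exact mul_mem (mul_mem h3 h2) (inv_mem h3)
    have h5 := ((m • S₀ : Sylow 2 G).mapSurjective hsurj).is_maximal' Sb.isPGroup' (by
      rw [Sylow.coe_mapSurjective]; exact hle)
    rw [h5, Sylow.coe_mapSurjective]
  have hne' : (m • S₀ : Sylow 2 G) ≠ T := by
    intro h
    apply hne
    apply Sylow.ext
    rw [← hmapS', ← hT', h]
  have hcyc := hC (m • S₀ : Sylow 2 G) T hne'
  have hP₂le : P₂ ≤ ((m • S₀ : Sylow 2 G) : Subgroup G) ⊓ (T : Subgroup G) := le_inf hP₂S' inf_le_left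
  have hP₂cyc : IsCyclic P₂ :=
    isCyclic_of_injective (Subgroup.inclusion hP₂le) (Subgroup.inclusion_injective hP₂le)
  let f : P₂ →* Db := ((QuotientGroup.mk' H).comp P₂.subtype).codRestrict Db (fun x => x.2.2)
  have hf : Function.Surjective f := by
    rintro ⟨d, hd⟩
    have hdT : d ∈ (Tb : Subgroup (G ⧸ H)) := hd.2
    rw [← hT'] at hdT
    obtain ⟨t, ht, rfl⟩ := hdT
    exact ⟨⟨t, ht, hd⟩, rfl⟩
  exact isCyclic_of_surjective f hf

end Cfsg.Agent.S3305
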