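import Cfsg.Statements.S3303
import Cfsg.Agent.S3305
import Cfsg.Agent.Lib.Helper20.SolvCore

set_option autoImplicit false
open Cfsg

namespace Cfsg.Agent.S3303

/-- Let G be a finite solvable group in which the intersection of any two distinct Sylow 2-subgroups is cyclic. Then G/O(G) has a normal Sylow 2-subgroup, where O(G) is the largest normal subgroup of odd order. -/
theorem result {G : Type*} [Group G] [Finite G] (hs : Group.IsSolvable G)
    (hC : ∀ S T : Sylow 2 G, S ≠ T → IsCyclic ↥((S : Subgroup G) ⊓ (T : Subgroup G))) :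
    ∃ P : Sylow 2 (G ⧸ Cfsg.oddCore G), (P : Subgroup (G ⧸ Cfsg.oddCore G)).Normal := by
  have hp2 : Fact (Nat.Prime 2) := ⟨Nat.prime_two⟩
  by_cases hsub : ∀ S T : Sylow 2 (G ⧸ Cfsg.oddCore G), S = T
  · have : Subsingleton (Sylow 2 (G ⧸ Cfsg.oddCore G)) := ⟨hsub⟩
    obtain ⟨P⟩ : Nonempty (Sylow 2 (G ⧸ Cfsg.oddCore G)) := inferInstance
    exact ⟨P, P.normal_of_subsingleton⟩
  · push Not at hsub
    obtain ⟨S, T, hST⟩ := hsub
    have hcyc := Cfsg.Agent.S3305.result hC (Cfsg.oddCore G) S T hST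
    have hQle : Cfsg.pCore 2 (G ⧸ Cfsg.oddCore G) ≤ (S : Subgroup _) ⊓ (T : Subgroup _) :=
      le_inf (Cfsg.Agent.Lib.Helper17.pCore_le_sylow S) (Cfsg.Agent.Lib.Helper17.pCore_le_sylow T)
    have hQcyc : IsCyclic (Cfsg.pCore 2 (G ⧸ Cfsg.oddCore G)) :=
      isCyclic_of_injective (Subgroup.inclusion hQle) (Subgroup.inclusion_injective hQle)
    have hbot : Cfsg.pPrimeCore 2 (G ⧸ Cfsg.oddCore G) = ⊥ :=
      Cfsg.Agent.Lib.Helper20.pPrimeCore_quot_eq_bot 2
    have hcent := Cfsg.Agent.Lib.Helper20.centralizer_pCore_le (G := G ⧸ Cfsg.oddCore G) 2 hbot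
    have hG2 : IsPGroup 2 (G ⧸ Cfsg.oddCore G) :=
      Cfsg.Agent.Lib.Helper20.isPGroup_two_of_cyclic_self_centralizing
        (Cfsg.pCore 2 (G ⧸ Cfsg.oddCore G)) Cfsg.Agent.Lib.Helper17.pCore_isPGroup hQcyc hcent
    exfalso
    apply hST
    have hS : (S : Subgroup (G ⧸ Cfsg.oddCore G)) = ⊤ := by
      have hT' : IsPGroup 2 (⊤ : Subgroup (G ⧸ Cfsg.oddCore G)) := fun g => by
        obtain ⟨k, hk⟩ := hG2 (g : G ⧸ Cfsg.oddCore G)
        exact ⟨k, Subtype.ext hk⟩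
      exact (S.is_maximal' hT' le_top).symm
    have hT : (T : Subgroup (G ⧸ Cfsg.oddCore G)) = ⊤ := by
      have hT' : IsPGroup 2 (⊤ : Subgroup (G ⧸ Cfsg.oddCore G)) := fun g => by
        obtain ⟨k, hk⟩ := hG2 (g : G ⧸ Cfsg.oddCore G)
        exact ⟨k, Subtype.ext hk⟩
      exact (T.is_maximal' hT' le_top).symm
    exact Sylow.ext (hS.trans hT.symm)

end Cfsg.Agent.S3303
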