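import Mathlib
import Cfsg.Statements.S3309
import Cfsg.Agent.Lib.Lead.SimpleSylC

set_option autoImplicit false
open Cfsg

namespace Cfsg.Agent.S3309

open scoped Pointwise
open Cfsg.Agent.Lib.Lead.SimpleSyl

/-- In `Z2 × D8` a central non-square non-identity element has non-trivial first coordinate. -/
theorem conc : ∀ y : Multiplicative (ZMod 2) × DihedralGroup 4,
    (∀ w, w * y = y * w) → y ≠ 1 → (∀ w, w * w ≠ y) → y.1 ≠ 1 := by
  decide

theorem z2_cases : ∀ a : Multiplicative (ZMod 2),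
    Multiplicative.toAdd a = if a ≠ 1 then 1 else 0 := by
  decide

theorem z2_sq : ∀ a : Multiplicative (ZMod 2), a * a ≠ Multiplicative.ofAdd 1 := by
  decide

theorem sq1 : ((Multiplicative.ofAdd (1 : ZMod 2), (1 : DihedralGroup 4)) :
    Multiplicative (ZMod 2) × DihedralGroup 4) * (Multiplicative.ofAdd (1 : ZMod 2), 1) = 1 := by
  decide

theorem ne1 : ((Multiplicative.ofAdd (1 : ZMod 2), (1 : DihedralGroup 4)) :
    Multiplicative (ZMod 2) × DihedralGroup 4) ≠ 1 := by
  decide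

theorem prod_z2 {ι : Type*} (s : Finset ι) (f : ι → Multiplicative (ZMod 2))
    [DecidablePred fun i => f i ≠ 1] :
    ∏ i ∈ s, f i = Multiplicative.ofAdd (((s.filter (fun i => f i ≠ 1)).card : ℕ) : ZMod 2) := by
  apply Multiplicative.toAdd.injective
  rw [toAdd_prod, toAdd_ofAdd]
  rw [Finset.natCast_card_filter]
  refine Finset.sum_congr rfl (fun i _ => ?_)
  have h0 := z2_cases (f i)
  by_cases h : f i ≠ 1
  · rw [if_pos h]; rw [h0, if_pos h]
  · rw [if_neg h]; rw [h0, if_neg h]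

theorem hom_trivial {G : Type*} [Group G] [IsSimpleGroup G] (hG : ¬ IsMulCommutative G)
    {A : Type*} [CommGroup A] (f : G →* A) (g : G) : f g = 1 := by
  rcases f.normal_ker.eq_bot_or_eq_top with h | h
  · exfalso; apply hG
    have hinj : Function.Injective f := (MonoidHom.ker_eq_bot_iff f).mp h
    exact ⟨⟨fun a b => hinj (by rw [map_mul, map_mul, mul_comm])⟩⟩
  · have : g ∈ f.ker := by rw [h]; trivial
    exact this

theorem main {G : Type*} [Group G] [Finite G] (H : Subgroup G) (hp : IsPGroup 2 H)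
    (hidx : ¬ 2 ∣ H.index)
    (e : ↥H ≃* Multiplicative (ZMod 2) × DihedralGroup 4) [IsSimpleGroup G]
    (hG : ¬ IsMulCommutative G) : False := by
  classical
  have : Fact (Nat.Prime 2) := ⟨Nat.prime_two⟩
  let ϕ : ↥H →* Multiplicative (ZMod 2) := (MonoidHom.fst _ _).comp e.toMonoidHom
  have hϕ : ∀ s : ↥H, ϕ s = (e s).1 := fun s => rfl
  let Φ : G → Multiplicative (ZMod 2) := fun g => if h : g ∈ H then ϕ ⟨g, h⟩ else 1
  have hΦ : ∀ (g : G) (h : g ∈ H), ϕ ⟨g, h⟩ = Φ g := by
    intro g h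
    show ϕ ⟨g, h⟩ = (if h : g ∈ H then ϕ ⟨g, h⟩ else 1)
    rw [dif_pos h]
  have hΦn : ∀ (g : G), g ∉ H → Φ g = 1 := by
    intro g h
    show (if h : g ∈ H then ϕ ⟨g, h⟩ else 1) = 1
    rw [dif_neg h]
  have hΦmul : ∀ a b : G, a ∈ H → b ∈ H → Φ (a * b) = Φ a * Φ b := by
    intro a b ha hb
    rw [← hΦ a ha, ← hΦ b hb, ← hΦ (a * b) (H.mul_mem ha hb), ← map_mul]
    rfl
  have hΦ1 : Φ 1 = 1 := by
    rw [← hΦ 1 H.one_mem]; exact map_one ϕ
  -- the central involution
  let z0 : ↥H := e.symm (Multiplicative.ofAdd 1, 1)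
  let z : G := (z0 : G)
  have hzH : z ∈ H := z0.2
  have hz0 : e z0 = (Multiplicative.ofAdd 1, 1) := e.apply_symm_apply _
  have hzz0 : z0 * z0 = 1 := by
    apply e.injective
    rw [map_mul, hz0]
    exact sq1.trans (map_one e).symm
  have hzz : z * z = 1 := by
    have := congrArg (Subtype.val) hzz0
    simpa using this
  have hzc0 : ∀ s : ↥H, s * z0 = z0 * s := by
    intro s
    apply e.injective
    rw [map_mul, map_mul, hz0]
    refine Prod.ext (mul_comm _ _) ?_
    simp
  have hzc : ∀ s ∈ H, s * z = z * s := by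
    intro s hs
    have := congrArg Subtype.val (hzc0 ⟨s, hs⟩)
    simpa using this
  have hz1 : z ≠ 1 := by
    intro h
    have h0 : z0 = 1 := Subtype.ext h
    have : e z0 = 1 := by rw [h0, map_one]
    rw [hz0] at this
    exact ne1 this
  have hzns : ∀ w ∈ H, w * w ≠ z := by
    intro w hw h
    have h0 : (⟨w, hw⟩ : ↥H) * ⟨w, hw⟩ = z0 := Subtype.ext h
    have h1 := congrArg e h0
    rw [map_mul, hz0] at h1
    have h2 := congrArg Prod.fst h1
    rw [Prod.fst_mul] at h2
    exact z2_sq _ h2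
  -- key claim
  have hK : ∀ t : G, (∀ x ∈ H, t⁻¹ * x * t ∈ H) → Φ (t⁻¹ * z * t) ≠ 1 := by
    intro t ht
    let c : ↥H → ↥H := fun x => ⟨t⁻¹ * x * t, ht x x.2⟩
    have hci : Function.Injective c := by
      intro a b hab
      have h2 : t⁻¹ * (a : G) * t = t⁻¹ * (b : G) * t := congrArg Subtype.val hab
      apply Subtype.ext
      simpa using h2
    have hcs : Function.Surjective c := Finite.injective_iff_surjective.mp hci
    have hyc : ∀ w, w * e (c z0) = e (c z0) * w := by
      intro w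
      obtain ⟨s, hs⟩ := hcs (e.symm w)
      have h1 : e.symm w * c z0 = c z0 * e.symm w := by
        rw [← hs]
        apply Subtype.ext
        show t⁻¹ * (s : G) * t * (t⁻¹ * z * t) = t⁻¹ * z * t * (t⁻¹ * (s : G) * t)
        have h3 := hzc s s.2
        calc t⁻¹ * (s : G) * t * (t⁻¹ * z * t) = t⁻¹ * ((s : G) * z) * t := by group
          _ = t⁻¹ * (z * (s : G)) * t := by rw [h3]
          _ = _ := by group
      have h2 := congrArg e h1
      rw [map_mul, map_mul, e.apply_symm_apply] at h2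
      exact h2
    have hy1 : e (c z0) ≠ 1 := by
      intro h
      have h1 : c z0 = 1 := e.injective (by rw [h, map_one])
      have h3 : t⁻¹ * z * t = 1 := congrArg Subtype.val h1
      apply hz1
      calc z = t * (t⁻¹ * z * t) * t⁻¹ := by group
        _ = 1 := by rw [h3]; group
    have hyns : ∀ w, w * w ≠ e (c z0) := by
      intro w h
      obtain ⟨s, hs⟩ := hcs (e.symm w)
      have h1 : e.symm w * e.symm w = c z0 := by
        apply e.injective; rw [map_mul, e.apply_symm_apply]; exact h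
      rw [← hs] at h1
      have h3 : t⁻¹ * (s : G) * t * (t⁻¹ * (s : G) * t) = t⁻¹ * z * t := congrArg Subtype.val h1
      apply hzns s s.2
      calc (s : G) * s = t * (t⁻¹ * (s : G) * t * (t⁻¹ * (s : G) * t)) * t⁻¹ := by group
        _ = z := by rw [h3]; group
    have h4 := conc (e (c z0)) hyc hy1 hyns
    rw [← hΦ (t⁻¹ * z * t) (ht z hzH)]
    exact h4
  -- transfer
  have : H.FiniteIndex := inferInstance
  let _ : Fintype (G ⧸ H) := H.fintypeQuotientOfFiniteIndex
  let T : H.LeftTransversal := default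
  let t : G ⧸ H → G := fun q => (T.2.leftQuotientEquiv q : G)
  have ht : ∀ q, ((t q : G) : G ⧸ H) = q := fun q => T.2.quotientGroupMk_leftQuotientEquiv q
  have hsm : ∀ (g a : G), ((g * a : G) : G ⧸ H) = g • ((a : G) : G ⧸ H) := fun g a => rfl
  have hV : MonoidHom.transfer ϕ z = ∏ q : G ⧸ H, Φ ((t q)⁻¹ * (z * t (z⁻¹ • q))) := by
    rw [MonoidHom.transfer_def ϕ T z]
    unfold Subgroup.leftTransversals.diff
    refine Finset.prod_congr rfl (fun q _ => ?_)
    refine (hΦ _ _).trans (congrArg Φ ?_)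
    rw [Subgroup.smul_apply_eq_smul_apply_inv_smul]
    rfl
  have hzinv : z⁻¹ = z := inv_eq_of_mul_eq_one_right hzz
  let f : G ⧸ H → Multiplicative (ZMod 2) := fun q => Φ ((t q)⁻¹ * (z * t (z⁻¹ • q)))
  have hpair : ∀ q : G ⧸ H, f q * f (z • q) = 1 := by
    intro q
    have h1 : (t q)⁻¹ * (z * t (z • q)) ∈ H := by
      apply QuotientGroup.eq.mp
      rw [ht, hsm, ht, smul_smul, hzz, one_smul]
    have h2 : (t (z • q))⁻¹ * (z * t q) ∈ H := by
      apply QuotientGroup.eq.mp
      rw [ht, hsm, ht]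
    show Φ ((t q)⁻¹ * (z * t (z⁻¹ • q))) * Φ ((t (z • q))⁻¹ * (z * t (z⁻¹ • z • q))) = 1
    rw [hzinv, smul_smul, hzz, one_smul, ← hΦmul _ _ h1 h2]
    have h3 : (t q)⁻¹ * (z * t (z • q)) * ((t (z • q))⁻¹ * (z * t q)) = 1 := by
      calc _ = (t q)⁻¹ * (z * z) * t q := by group
        _ = 1 := by rw [hzz]; group
    rw [h3, hΦ1]
  have hsplit : ∏ q : G ⧸ H, f q
      = ∏ q ∈ Finset.univ.filter (fun q : G ⧸ H => z • q = q), f q := by
    rw [← Finset.prod_filter_mul_prod_filter_not Finset.univ (fun q : G ⧸ H => z • q = q) f]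
    have h1 : ∏ q ∈ Finset.univ.filter (fun q : G ⧸ H => ¬ z • q = q), f q = 1 := by
      refine Finset.prod_involution (fun q _ => z • q) (fun q _ => hpair q) ?_ ?_ ?_
      · intro q hq _
        exact (Finset.mem_filter.mp hq).2
      · intro q hq
        rw [Finset.mem_filter] at hq ⊢
        refine ⟨Finset.mem_univ _, ?_⟩
        rw [smul_smul, hzz, one_smul]
        exact fun h => hq.2 h.symm
      · intro q hq
        rw [smul_smul, hzz, one_smul]
    rw [h1, mul_one]
  -- the double-coset invariant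
  let ψ : G → Multiplicative (ZMod 2) := fun g => Φ (g⁻¹ * z * g)
  have hψr : ∀ (g s : G), s ∈ H → ψ (g * s) = ψ g := by
    intro g s hs
    show Φ ((g * s)⁻¹ * z * (g * s)) = Φ (g⁻¹ * z * g)
    have h0 : (g * s)⁻¹ * z * (g * s) = s⁻¹ * (g⁻¹ * z * g) * s := by group
    rw [h0]
    by_cases hm : g⁻¹ * z * g ∈ H
    · rw [hΦmul _ _ (H.mul_mem (H.inv_mem hs) hm) hs, hΦmul _ _ (H.inv_mem hs) hm,
        mul_comm (Φ s⁻¹), mul_assoc, ← hΦmul _ _ (H.inv_mem hs) hs, inv_mul_cancel, hΦ1, mul_one]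
    · rw [hΦn _ hm, hΦn]
      intro hc
      apply hm
      have h5 : g⁻¹ * z * g = s * (s⁻¹ * (g⁻¹ * z * g) * s) * s⁻¹ := by group
      rw [h5]
      exact H.mul_mem (H.mul_mem hs hc) (H.inv_mem hs)
  have hψl : ∀ (x g : G), x ∈ H → ψ (x * g) = ψ g := by
    intro x g hx
    show Φ ((x * g)⁻¹ * z * (x * g)) = Φ (g⁻¹ * z * g)
    have h0 : (x * g)⁻¹ * z * (x * g) = g⁻¹ * (x⁻¹ * (z * x)) * g := by group
    rw [h0, ← hzc x hx]
    congr 1
    group
  let B : Set (G ⧸ H) := {q | z • q = q ∧ ψ (t q) ≠ 1}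
  have hBcard : (Finset.filter (fun q => f q ≠ 1)
      (Finset.univ.filter (fun q : G ⧸ H => z • q = q))).card = B.ncard := by
    rw [← Set.ncard_coe_finset]
    congr 1
    ext q
    simp only [Finset.coe_filter, Finset.mem_filter, Finset.mem_univ, true_and, Set.mem_ofPred_eq]
    show (z • q = q ∧ Φ ((t q)⁻¹ * (z * t (z⁻¹ • q))) ≠ 1)
      ↔ (z • q = q ∧ Φ ((t q)⁻¹ * z * t q) ≠ 1)
    constructor
    · rintro ⟨h1, h2⟩
      refine ⟨h1, ?_⟩
      rw [hzinv, h1, ← mul_assoc] at h2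
      exact h2
    · rintro ⟨h1, h2⟩
      refine ⟨h1, ?_⟩
      rw [hzinv, h1, ← mul_assoc]
      exact h2
  have hBinv : ∀ x ∈ H, ∀ q ∈ B, x • q ∈ B := by
    intro x hx q hq
    refine ⟨?_, ?_⟩
    · rw [smul_smul, ← hzc x hx, ← smul_smul, hq.1]
    · have hs : (x * t q)⁻¹ * t (x • q) ∈ H := by
        apply QuotientGroup.eq.mp
        rw [hsm, ht, ht]
      have h1 : t (x • q) = x * t q * ((x * t q)⁻¹ * t (x • q)) := by group
      rw [h1, hψr _ _ hs, hψl _ _ hx]
      exact hq.2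
  have hB := gen_modEq (fun (g : G) (q : G ⧸ H) => g • q) (fun a => one_smul G a)
    (fun g h a => mul_smul g h a) 2 H hp B hBinv
  have hU := gen_modEq (fun (g : G) (q : G ⧸ H) => g • q) (fun a => one_smul G a)
    (fun g h a => mul_smul g h a) 2 H hp Set.univ (fun _ _ _ _ => Set.mem_univ _)
  have hfix : {a | a ∈ B ∧ ∀ x ∈ H, (fun (g : G) (q : G ⧸ H) => g • q) x a = a}
      = {a | a ∈ (Set.univ : Set (G ⧸ H)) ∧ ∀ x ∈ H, (fun (g : G) (q : G ⧸ H) => g • q) x a = a} := by
    ext q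
    simp only [Set.mem_ofPred_eq, Set.mem_univ, true_and]
    constructor
    · exact fun h => h.2
    · intro h
      refine ⟨⟨h z hzH, ?_⟩, h⟩
      show Φ ((t q)⁻¹ * z * t q) ≠ 1
      apply hK
      intro x hx
      have h1 := h x hx
      have h2 : (t q)⁻¹ * (x * t q) ∈ H := by
        apply QuotientGroup.eq.mp
        rw [hsm, ht]
        exact h1.symm
      rw [mul_assoc]
      exact h2
  rw [hfix] at hB
  have hmod : B.ncard ≡ H.index [MOD 2] := by
    have h1 : (Set.univ : Set (G ⧸ H)).ncard = H.index := by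
      rw [Set.ncard_univ]; rfl
    rw [h1] at hU
    exact hB.trans hU.symm
  have hodd : ¬ 2 ∣ B.ncard := fun h => hidx ((hmod.dvd_iff (dvd_refl 2)).mp h)
  have hfin := hom_trivial hG (MonoidHom.transfer ϕ) z
  rw [hV] at hfin
  have hfin2 : ∏ q : G ⧸ H, f q = 1 := hfin
  rw [hsplit, prod_z2, hBcard] at hfin2
  have h3 : ((B.ncard : ℕ) : ZMod 2) = 0 := by
    have := congrArg Multiplicative.toAdd hfin2
    simpa using this
  exact hodd ((ZMod.natCast_eq_zero_iff B.ncard 2).mp h3)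

/-- A finite group whose Sylow 2-subgroups are isomorphic to the direct product of a group of order 2 and the dihedral group of order 8 is not a non-abelian simple group. -/
theorem result {G : Type*} [Group G] [Finite G] (S : Sylow 2 G) (hS : Nonempty (↥(S : Subgroup G) ≃* Multiplicative (ZMod 2) × DihedralGroup 4))
    [IsSimpleGroup G] (hG : ¬ IsMulCommutative G) : False := by
  have : Fact (Nat.Prime 2) := ⟨Nat.prime_two⟩
  obtain ⟨e⟩ := hS
  exact main (S : Subgroup G) S.isPGroup' S.not_dvd_index e hG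

end Cfsg.Agent.S3309
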