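import Mathlib
import Cfsg.Statements.S3315
import Cfsg.Agent.S0779
import Cfsg.Agent.S0829
import Cfsg.Agent.Lib.Helper7.SU3Unip
import Cfsg.Agent.Lib.Helper7.SU3Aut

set_option autoImplicit false
set_option linter.unusedVariables false
open Cfsg

namespace Cfsg.Agent.S3315

open Cfsg.Agent.Lib.Helper7.SU3Unip Cfsg.Agent.Lib.Helper7.SU3Aut
open Cfsg.Agent.S0829 (phi_ne_id)

/-- Let S be a Sylow 2-subgroup of SU₃(2ⁿ), n ≥ 2 (realised over the field with 4ⁿ elements). If a finite 2-group R contains a subgroup S' of index 2 isomorphic to S, then the centre of S' is contained in the centre of R. -/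
theorem result {R : Type*} [Group R] [Finite R]
    (hR : IsPGroup 2 R) (n : ℕ) (hn : 2 ≤ n) {F : Type*} [Field F] [Fintype F] (hF : Fintype.card F = 4 ^ n)
    (P : Sylow 2 ↥(Cfsg.SU 3 F (2 ^ n))) (S' : Subgroup R) (hS : Nonempty (↥S' ≃* ↥(P : Subgroup ↥(Cfsg.SU 3 F (2 ^ n)))))
    (hidx : S'.index = 2) :
    (Subgroup.center ↥S').map S'.subtype ≤ Subgroup.center R := by
  classical
  have hF' : Fintype.card F = (2 ^ n) ^ 2 := by
    rw [hF, ← pow_mul, mul_comm, pow_mul]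
    norm_num
  obtain ⟨φ, hφq, hφ2⟩ := Cfsg.Agent.S0779.exists_frob hF'
  have hφne := phi_ne_id hF' φ hφq
  have h2 : (2 : F) = 0 := two_eq_zero_of hF' n (by omega) rfl
  obtain ⟨e₁⟩ := hS
  obtain ⟨e₂⟩ := exists_equiv_SU φ hφq hφ2 hφne hF' n (by omega) rfl P
  obtain ⟨e, hedef⟩ : ∃ e : ↥S' ≃* ↥(UG φ hφ2), e = e₁.trans e₂ := ⟨_, rfl⟩
  have hnorm : S'.Normal := Subgroup.normal_of_index_eq_two hidx
  obtain ⟨r, hr⟩ : ∃ r : R, r ∉ S' := by
    by_contra hcon
    push Not at hcon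
    have htop : S' = ⊤ := (Subgroup.eq_top_iff' S').mpr hcon
    rw [htop, Subgroup.index_top] at hidx
    omega
  obtain ⟨α, hα⟩ : ∃ α : ↥S' ≃* ↥S', ∀ x : ↥S', ((α x : ↥S') : R) = r * x * r⁻¹ :=
    ⟨MulAut.conjNormal r, fun x => MulAut.conjNormal_apply r x⟩
  have hr2 : r ^ 2 ∈ S' := Subgroup.sq_mem_of_index_two hidx r
  have hαα : ∀ x : ↥S', α (α x) = ⟨r ^ 2, hr2⟩ * x * ⟨r ^ 2, hr2⟩⁻¹ := by
    intro x
    apply Subtype.ext
    rw [hα, hα]
    simp only [Subgroup.coe_mul, Subgroup.coe_inv, pow_two, mul_inv_rev, mul_assoc]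
  have h1 : ∀ x : ↥S', (e (α (α x))).1.a = (e x).1.a := by
    intro x
    rw [hαα, cA_mul, cA_mul, cA_inv]
    ring
  have h1' : ∀ z : ↥S', (e z).1.a = 0 → α (α z) = z := by
    intro z hz
    rw [hαα]
    have hzc := (center_iff φ hφ2 hφne e z).mpr hz
    rw [Subgroup.mem_center_iff] at hzc
    rw [hzc, mul_inv_cancel_right]
  have hfix := aut_center_fix φ hφ2 hφne h2 e α h1 h1'
  intro y hy
  obtain ⟨z, hz, rfl⟩ := Subgroup.mem_map.mp hy
  have hza := (center_iff φ hφ2 hφne e z).mp hz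
  have hrz : r * (z : R) * r⁻¹ = z := by
    rw [← hα, hfix z hza]
  have hrz' : r * (z : R) = z * r := by
    have h3 := congrArg (fun t => t * r) hrz
    simp only [inv_mul_cancel_right] at h3
    exact h3
  rw [Subgroup.mem_center_iff]
  intro g
  show g * (z : R) = (z : R) * g
  have hzS : ∀ s : R, s ∈ S' → s * (z : R) = (z : R) * s := by
    intro s hs
    have h3 := (Subgroup.mem_center_iff.mp hz) ⟨s, hs⟩
    exact congrArg Subtype.val h3
  by_cases hg : g ∈ S'
  · exact hzS g hg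
  · have hmem : r⁻¹ * g ∈ S' := by
      rw [Subgroup.mul_mem_iff_of_index_two hidx]
      constructor
      · intro h
        exact absurd (S'.inv_mem_iff.mp h) hr
      · intro h
        exact absurd h hg
    have h3 := hzS _ hmem
    calc g * (z : R) = r * ((r⁻¹ * g) * z) := by group
      _ = r * (z * (r⁻¹ * g)) := by rw [h3]
      _ = (r * z) * (r⁻¹ * g) := by group
      _ = (z * r) * (r⁻¹ * g) := by rw [hrz']
      _ = z * g := by group
end Cfsg.Agent.S3315
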