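import Cfsg.Statements.S3349
import Mathlib.Algebra.Group.Commutator
import Mathlib.GroupTheory.Commutator.Basic

set_option autoImplicit false
open Cfsg

namespace Cfsg.Agent.S3349

open scoped commutatorElement

/-- Let Q be a finite extraspecial p-group and α an automorphism of Q fixing every element of some maximal abelian subgroup of Q. Then the order of α is a power of p. -/
theorem result {Q : Type*} [Group Q] [Finite Q]
    (p : ℕ) [Fact p.Prime] (hQ : Cfsg.IsExtraspecial p Q) (α : MulAut Q)
    (A : Subgroup Q) (hA : IsMulCommutative A) (hmax : ∀ B : Subgroup Q, A ≤ B → IsMulCommutative B → B = A)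
    (hfix : ∀ a ∈ A, α a = a) :
    ∃ k : ℕ, orderOf α = p ^ k := by
  classical
  have hp : IsPGroup p Q := hQ.1.1
  have hcomQ : commutator Q = Subgroup.center Q := hQ.1.2.2
  have hAcomm : ∀ a ∈ A, ∀ b ∈ A, a * b = b * a := by
    intro a ha b hb
    have := hA.is_comm.comm (⟨a, ha⟩ : A) ⟨b, hb⟩
    exact congrArg Subtype.val this
  have hCA : ∀ y : Q, (∀ a ∈ A, a * y = y * a) → y ∈ A := by
    intro y hy
    have hB : IsMulCommutative (Subgroup.closure ((A : Set Q) ∪ {y})) := by
      apply Subgroup.isMulCommutative_closure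
      rintro u (hu | hu) v (hv | hv)
      · exact hAcomm u hu v hv
      · rw [Set.mem_singleton_iff] at hv; subst hv; exact hy u hu
      · rw [Set.mem_singleton_iff] at hu; subst hu; exact (hy v hv).symm
      · rw [Set.mem_singleton_iff] at hu hv; rw [hu, hv]
    have hle : A ≤ Subgroup.closure ((A : Set Q) ∪ {y}) :=
      fun a ha => Subgroup.subset_closure (Or.inl ha)
    have := hmax _ hle hB
    rw [← this]; exact Subgroup.subset_closure (Or.inr rfl)
  have hZA : ∀ z ∈ Subgroup.center Q, z ∈ A := by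
    intro z hz
    apply hCA
    intro a _
    exact (Subgroup.mem_center_iff.mp hz a)
  have hkey : ∀ x : Q, x⁻¹ * α x ∈ A := by
    intro x
    apply hCA
    intro a ha
    have hc : ⁅x, a⁆ ∈ Subgroup.center Q := by
      rw [← hcomQ]
      exact Subgroup.commutator_mem_commutator (Subgroup.mem_top x) (Subgroup.mem_top a)
    have h1 : α ⁅x, a⁆ = ⁅x, a⁆ := hfix _ (hZA _ hc)
    have h2 : α ⁅x, a⁆ = ⁅α x, a⁆ := by
      simp only [commutatorElement_def, map_mul, map_inv, hfix a ha]
    rw [h2] at h1
    simp only [commutatorElement_def] at h1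
    -- h1 : α x * a * (α x)⁻¹ * a⁻¹ = x * a * x⁻¹ * a⁻¹
    have h3 : α x * a * (α x)⁻¹ = x * a * x⁻¹ := by
      have := congrArg (fun t => t * a) h1
      simpa using this
    have h4 : x⁻¹ * α x * a = a * (x⁻¹ * α x) := by
      have := congrArg (fun t => x⁻¹ * t * α x) h3
      simp only [mul_assoc, inv_mul_cancel, mul_one, inv_mul_cancel_left] at this
      rw [mul_assoc, this]
    exact h4.symm
  have hpow : ∀ (n : ℕ) (x : Q), (α ^ n) x = x * (x⁻¹ * α x) ^ n := by
    intro n
    induction n with
    | zero => intro x; simp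
    | succ n ih =>
      intro x
      rw [pow_succ', MulAut.mul_apply, ih, map_mul, hfix _ (Subgroup.pow_mem _ (hkey x) n), pow_succ',
        ← mul_assoc, mul_inv_cancel_left]
  obtain ⟨m, hm⟩ := IsPGroup.iff_card.mp hp
  have hone : α ^ (p ^ m) = 1 := by
    ext x
    rw [hpow, ← hm, pow_card_eq_one', mul_one]
    rfl
  have hdvd : orderOf α ∣ p ^ m := orderOf_dvd_of_pow_eq_one hone
  obtain ⟨k, -, hk⟩ := (Nat.dvd_prime_pow (Fact.out : p.Prime)).mp hdvd
  exact ⟨k, hk⟩

end Cfsg.Agent.S3349
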