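import Cfsg.Statements.S3376
import Mathlib

set_option autoImplicit false
open Cfsg

namespace Cfsg.Agent.S3376

/-- the explicit function underlying the product of three `3`-cycles. -/
def sg : Fin 9 → Fin 9 := ![1, 2, 0, 4, 5, 3, 7, 8, 6]

/-- the product of three `3`-cycles of the statement. -/
def sig : Equiv.Perm (Fin 9) :=
  Equiv.swap (0 : Fin 9) 1 * Equiv.swap 1 2 * Equiv.swap 3 4 * Equiv.swap 4 5 * Equiv.swap 6 7 *
    Equiv.swap 7 8

theorem sig_apply : ∀ i : Fin 9, sig i = sg i := by decide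

/-- admissible images of `0, 3, 6` under an element of the centralizer. -/
def good (x : Fin 9 × Fin 9 × Fin 9) : Prop :=
  x.2.1 ≠ x.1 ∧ x.2.1 ≠ sg x.1 ∧ x.2.1 ≠ sg (sg x.1) ∧ x.2.2 ≠ x.1 ∧ x.2.2 ≠ sg x.1 ∧
    x.2.2 ≠ sg (sg x.1) ∧ x.2.2 ≠ x.2.1 ∧ x.2.2 ≠ sg x.2.1 ∧ x.2.2 ≠ sg (sg x.2.1)

instance : DecidablePred good := fun x => by unfold good; infer_instance

set_option maxRecDepth 100000 in
theorem card_good : (Finset.univ.filter good).card = 162 := by decide

theorem cover : ∀ i : Fin 9, i = 0 ∨ i = 3 ∨ i = 6 ∨ i = sg 0 ∨ i = sg (sg 0) ∨ i = sg 3 ∨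
    i = sg (sg 3) ∨ i = sg 6 ∨ i = sg (sg 6) := by decide

theorem card_centralizer_le :
    Nat.card (Subgroup.centralizer ({sig} : Set (Equiv.Perm (Fin 9)))) ≤ 162 := by
  classical
  have hcomm : ∀ g ∈ Subgroup.centralizer ({sig} : Set (Equiv.Perm (Fin 9))),
      ∀ x, g (sg x) = sg (g x) := by
    intro g hg x
    have h1 : g * sig = sig * g := Subgroup.mem_centralizer_singleton_iff.mp hg
    have h2 : g (sig x) = sig (g x) := Equiv.Perm.congr_fun h1 x
    rw [sig_apply, sig_apply] at h2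
    exact h2
  have hgood : ∀ g ∈ Subgroup.centralizer ({sig} : Set (Equiv.Perm (Fin 9))),
      good (g 0, g 3, g 6) := by
    intro g hg
    have c0 := hcomm g hg
    refine ⟨?_, ?_, ?_, ?_, ?_, ?_, ?_, ?_, ?_⟩
    · exact fun h => absurd (g.injective h) (by decide)
    · exact fun h => absurd (g.injective (h.trans (c0 0).symm)) (by decide)
    · exact fun h => absurd (g.injective (h.trans ((congrArg sg (c0 0).symm).trans (c0 _).symm)))
        (by decide)
    · exact fun h => absurd (g.injective h) (by decide)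
    · exact fun h => absurd (g.injective (h.trans (c0 0).symm)) (by decide)
    · exact fun h => absurd (g.injective (h.trans ((congrArg sg (c0 0).symm).trans (c0 _).symm)))
        (by decide)
    · exact fun h => absurd (g.injective h) (by decide)
    · exact fun h => absurd (g.injective (h.trans (c0 3).symm)) (by decide)
    · exact fun h => absurd (g.injective (h.trans ((congrArg sg (c0 3).symm).trans (c0 _).symm)))
        (by decide)
  let f : Subgroup.centralizer ({sig} : Set (Equiv.Perm (Fin 9))) →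
      {x : Fin 9 × Fin 9 × Fin 9 // good x} :=
    fun g => ⟨((g : Equiv.Perm (Fin 9)) 0, (g : Equiv.Perm (Fin 9)) 3,
      (g : Equiv.Perm (Fin 9)) 6), hgood g.1 g.2⟩
  have hf : Function.Injective f := by
    rintro ⟨g, hg⟩ ⟨h, hh⟩ hgh
    have e := congrArg Subtype.val hgh
    simp only [f, Prod.mk.injEq] at e
    obtain ⟨e0, e3, e6⟩ := e
    have cg := hcomm g hg
    have ch := hcomm h hh
    apply Subtype.ext
    apply Equiv.ext
    intro i
    show g i = h i
    rcases cover i with rfl | rfl | rfl | rfl | rfl | rfl | rfl | rfl | rfl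
    · exact e0
    · exact e3
    · exact e6
    · rw [cg, ch, e0]
    · rw [cg, ch, cg, ch, e0]
    · rw [cg, ch, e3]
    · rw [cg, ch, cg, ch, e3]
    · rw [cg, ch, e6]
    · rw [cg, ch, cg, ch, e6]
  calc Nat.card (Subgroup.centralizer ({sig} : Set (Equiv.Perm (Fin 9))))
      ≤ Nat.card {x : Fin 9 × Fin 9 × Fin 9 // good x} := Nat.card_le_card_of_injective f hf
    _ = 162 := by rw [Nat.card_eq_fintype_card, Fintype.card_subtype]; exact card_good

theorem cycleType_eq {τ : Equiv.Perm (Fin 9)} (h3 : τ ^ 3 = 1) (hfix : ∀ i, τ i ≠ i) :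
    τ.cycleType = Multiset.replicate 3 3 := by
  have hp3 : Fact (Nat.Prime 3) := ⟨by norm_num⟩
  have h1 : τ ≠ 1 := by rintro rfl; exact hfix 0 rfl
  have ho : orderOf τ = 3 := orderOf_eq_prime h3 h1
  obtain ⟨n, hn⟩ := Equiv.Perm.cycleType_prime_order (σ := τ) (by rw [ho]; norm_num)
  rw [ho] at hn
  have hs : τ.cycleType.sum = 9 := by
    rw [Equiv.Perm.sum_cycleType]
    have : τ.support = Finset.univ := by
      ext i; simp [hfix i]
    rw [this]; simp
  rw [hn, Multiset.sum_replicate] at hs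
  have hn2 : n = 2 := by
    simp only [smul_eq_mul] at hs; omega
  rw [hn, hn2]

theorem sig_pow : sig ^ 3 = 1 := by
  apply Equiv.ext
  intro i
  simp only [pow_succ, pow_zero, one_mul, Equiv.Perm.mul_apply, Equiv.Perm.one_apply]
  rw [sig_apply, sig_apply, sig_apply]
  revert i; decide

theorem sig_fix : ∀ i : Fin 9, sig i ≠ i := by
  intro i; rw [sig_apply]; revert i; decide

theorem exists_conj {τ : Equiv.Perm (Fin 9)} (h3 : τ ^ 3 = 1) (hfix : ∀ i, τ i ≠ i) :
    ∃ c : Equiv.Perm (Fin 9), c * τ * c⁻¹ = sig := by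
  have h : IsConj τ sig := by
    rw [Equiv.Perm.isConj_iff_cycleType_eq, cycleType_eq h3 hfix, cycleType_eq sig_pow sig_fix]
  exact isConj_iff.mp h

/-- a nontrivial normal subgroup inside a `p`-subgroup `S` contains a nontrivial element
centralizing `S`. -/
theorem normal_meets_center {G : Type*} [Group G] [Finite G] {p : ℕ} [Fact p.Prime]
    (S : Subgroup G) (hS : IsPGroup p S) (M : Subgroup G) [M.Normal] (hMS : M ≤ S) (hM : M ≠ ⊥) :
    ∃ x ∈ M, x ≠ 1 ∧ ∀ s ∈ S, s * x = x * s := by
  classical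
  let φ : ↥S →* MulAut ↥M := (MulAut.conjNormal).comp S.subtype
  let _ : MulAction ↥S ↥M := MulAction.compHom ↥M φ
  have hsm : ∀ (s : ↥S) (m : ↥M), s • m = φ s m := fun s m => rfl
  have hMp : IsPGroup p ↥M := hS.to_le hMS
  have hdvd : p ∣ Nat.card ↥M := by
    obtain ⟨n, hn⟩ := IsPGroup.iff_card.mp hMp
    have hn0 : n ≠ 0 := by
      rintro rfl
      apply hM
      rw [pow_zero] at hn
      exact Subgroup.card_eq_one.mp hn
    rw [hn]; exact dvd_pow_self p hn0
  have h1 : (1 : ↥M) ∈ MulAction.fixedPoints ↥S ↥M := by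
    intro s; rw [hsm]; exact map_one _
  obtain ⟨b, hb, hb1⟩ := hS.exists_fixed_point_of_prime_dvd_card_of_fixed_point ↥M hdvd h1
  refine ⟨b, b.2, ?_, ?_⟩
  · intro h; apply hb1; exact Subtype.ext h.symm
  · intro s hs
    have h2 := hb ⟨s, hs⟩
    rw [hsm] at h2
    have h3 : s * (b : G) * s⁻¹ = b := by
      have := congrArg Subtype.val h2
      simpa [φ] using this
    calc s * (b : G) = s * b * s⁻¹ * s := by group
      _ = b * s := by rw [h3]

/-- product formula when `V` normalizes `U`. -/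
theorem card_sup_mul_inf {H : Type*} [Group H] [Finite H] {U V : Subgroup H}
    (h : V ≤ Subgroup.normalizer (U : Set H)) :
    Nat.card (U ⊔ V : Subgroup H) * Nat.card (U ⊓ V : Subgroup H) = Nat.card U * Nat.card V := by
  have i1 := Subgroup.normal_subgroupOf_of_le_normalizer h
  have i2 := Subgroup.normal_subgroupOf_sup_of_le_normalizer h
  have e : U.relIndex (V ⊔ U) = U.relIndex V :=
    Nat.card_congr (QuotientGroup.quotientInfEquivProdNormalizerQuotient V U h).toEquiv.symm
  have h1 : Nat.card U * U.relIndex (V ⊔ U) = Nat.card (V ⊔ U : Subgroup H) := by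
    have := Subgroup.relIndex_mul_relIndex (⊥ : Subgroup H) U (V ⊔ U) bot_le le_sup_right
    rwa [Subgroup.relIndex_bot_left, Subgroup.relIndex_bot_left] at this
  have h2 : Nat.card (U ⊓ V : Subgroup H) * U.relIndex V = Nat.card V := by
    rw [← Subgroup.inf_relIndex_right]
    have := Subgroup.relIndex_mul_relIndex (⊥ : Subgroup H) (U ⊓ V) V bot_le inf_le_right
    rwa [Subgroup.relIndex_bot_left, Subgroup.relIndex_bot_left] at this
  rw [sup_comm, ← h1, e, ← h2]; ring

theorem zp3 {A : Type*} [Group A] {e x : A} (he : e ^ 3 = 1) (hx : x ∈ Subgroup.zpowers e) :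
    x = 1 ∨ x = e ∨ x = e⁻¹ := by
  obtain ⟨k, rfl⟩ := Subgroup.mem_zpowers_iff.mp hx
  have h3 : e ^ (3 : ℤ) = 1 := by exact_mod_cast he
  have hk : e ^ k = e ^ (k % 3) := by
    conv_lhs => rw [← Int.emod_add_mul_ediv k 3]
    rw [zpow_add, zpow_mul, h3, one_zpow, mul_one]
  rw [hk]
  have h0 : 0 ≤ k % 3 := Int.emod_nonneg _ (by norm_num)
  have h1 : k % 3 < 3 := Int.emod_lt_of_pos _ (by norm_num)
  generalize k % 3 = r at h0 h1
  interval_cases r
  · left; simp
  · right; left; simp
  · right; right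
    rw [eq_inv_iff_mul_eq_one]
    have : e ^ (2 : ℤ) * e = e ^ (3 : ℤ) := by
      rw [show (3 : ℤ) = 2 + 1 from rfl, zpow_add, zpow_one]
    rw [this, h3]

/-- Let G be a group of order 162 = 3⁴·2 with Sylow 3-subgroup S and Sylow 2-subgroup T, having an elementary abelian normal subgroup J of order 27, such that Z = Z(S) has order 3, Z centralizes T, and C_S(T) ≠ S. Then G is isomorphic to the centralizer in Sym(9) of a product of three disjoint 3-cycles. -/
theorem result {G : Type*} [Group G] [Finite G] (hG : Nat.card G = 162)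
    (S : Sylow 3 G) (T : Sylow 2 G) (J : Subgroup G) [hJn : J.Normal] (hJcomm : IsMulCommutative J)
    (hJexp : ∀ a ∈ J, a ^ 3 = 1) (hJcard : Nat.card J = 27)
    (Z : Subgroup G) (hZ : Z = (S : Subgroup G) ⊓ Subgroup.centralizer ((S : Subgroup G) : Set G)) (hZcard : Nat.card Z = 3)
    (hZT : Z ≤ Subgroup.centralizer ((T : Subgroup G) : Set G))
    (hST : (S : Subgroup G) ⊓ Subgroup.centralizer ((T : Subgroup G) : Set G) ≠ S) :
    Nonempty (G ≃* Subgroup.centralizer ({Equiv.swap (0 : Fin 9) 1 * Equiv.swap 1 2 * Equiv.swap 3 4 * Equiv.swap 4 5 * Equiv.swap 6 7 * Equiv.swap 7 8} : Set (Equiv.Perm (Fin 9)))) := by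
  classical
  have hp3 : Fact (Nat.Prime 3) := ⟨by norm_num⟩
  have hp2 : Fact (Nat.Prime 2) := ⟨by norm_num⟩
  -- orders
  have hS81 : Nat.card (S : Subgroup G) = 81 := by
    obtain ⟨n, hn⟩ := IsPGroup.iff_card.mp S.isPGroup'
    have hdvd : Nat.card (S : Subgroup G) ∣ 162 := hG ▸ Subgroup.card_subgroup_dvd_card _
    have hidx := S.not_dvd_index
    have hmul := (S : Subgroup G).card_mul_index
    rw [hG, hn] at hmul
    rw [hn] at hdvd
    have hn4 : n ≤ 4 := by
      by_contra hc; push Not at hc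
      have : 3 ^ 5 ∣ 162 := (pow_dvd_pow 3 hc).trans hdvd
      norm_num at this
    rw [hn]
    interval_cases n <;> norm_num at hmul ⊢ <;> omega
  have hSidx : (S : Subgroup G).index = 2 := by
    have hmul := (S : Subgroup G).card_mul_index
    rw [hG, hS81] at hmul; omega
  have hSn : (S : Subgroup G).Normal := Subgroup.normal_of_index_eq_two hSidx
  have hT2 : Nat.card (T : Subgroup G) = 2 := by
    obtain ⟨n, hn⟩ := IsPGroup.iff_card.mp T.isPGroup'
    have hdvd : Nat.card (T : Subgroup G) ∣ 162 := hG ▸ Subgroup.card_subgroup_dvd_card _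
    have hidx := T.not_dvd_index
    have hmul := (T : Subgroup G).card_mul_index
    rw [hG, hn] at hmul
    rw [hn] at hdvd
    have hn1 : n ≤ 1 := by
      by_contra hc; push Not at hc
      have : 2 ^ 2 ∣ 162 := (pow_dvd_pow 2 hc).trans hdvd
      norm_num at this
    rw [hn]
    interval_cases n <;> norm_num at hmul ⊢ <;> omega
  -- the involution
  obtain ⟨t, htT, ht1, htt, hTel⟩ : ∃ t : G, t ∈ (T : Subgroup G) ∧ t ≠ 1 ∧ t * t = 1 ∧
      ∀ u ∈ (T : Subgroup G), u = 1 ∨ u = t := by
    obtain ⟨⟨t, htT⟩, ht1, huniq⟩ := (Nat.card_eq_two_iff' (1 : ↥(T : Subgroup G))).mp hT2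
    have ht1' : t ≠ 1 := fun h => ht1 (Subtype.ext h)
    have hel : ∀ u ∈ (T : Subgroup G), u = 1 ∨ u = t := by
      intro u hu
      by_cases h : u = 1
      · exact Or.inl h
      · right
        have := huniq ⟨u, hu⟩ (fun h' => h (congrArg Subtype.val h'))
        exact congrArg Subtype.val this
    refine ⟨t, htT, ht1', ?_, hel⟩
    rcases hel (t * t) (mul_mem htT htT) with h | h
    · exact h
    · exfalso; apply ht1'
      exact mul_left_cancel (a := t) (by rw [h, mul_one])
  have hti : t⁻¹ = t := inv_eq_of_mul_eq_one_right htt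
  have htt' : t⁻¹ * t⁻¹ = 1 := by rw [hti]; exact htt
  have htS : t ∉ (S : Subgroup G) := by
    intro h
    have h1 : orderOf t ∣ 81 := hS81 ▸ Subgroup.orderOf_dvd_natCard _ h
    have h2 : orderOf t = 2 := orderOf_eq_prime (by rw [pow_two]; exact htt) ht1
    rw [h2] at h1; norm_num at h1
  -- J ≤ S
  have hJS : J ≤ (S : Subgroup G) := by
    intro j hj
    have h1 : j ^ 2 ∈ (S : Subgroup G) := Subgroup.sq_mem_of_index_two hSidx j
    have h2 : j = (j ^ 2) ^ 2 := by
      have := hJexp j hj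
      calc j = j ^ 4 := by rw [show (4 : ℕ) = 3 + 1 from rfl, pow_succ, this, one_mul]
        _ = (j ^ 2) ^ 2 := pow_mul j 2 2
    rw [h2]; exact pow_mem h1 2
  have hJc : ∀ u ∈ J, ∀ v ∈ J, u * v = v * u := by
    intro u hu v hv
    have := mul_comm' (⟨u, hu⟩ : ↥J) ⟨v, hv⟩
    exact congrArg Subtype.val this
  have hJne : J ≠ ⊥ := by
    intro h; rw [h, Subgroup.card_bot] at hJcard; norm_num at hJcard
  have hZS : Z ≤ (S : Subgroup G) := by rw [hZ]; exact inf_le_left
  have hZc : ∀ z ∈ Z, ∀ s ∈ (S : Subgroup G), s * z = z * s := by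
    intro z hz s hs
    rw [hZ] at hz
    exact Subgroup.mem_centralizer_iff.mp hz.2 s hs
  obtain ⟨z, hzJ, hz1, hzc⟩ :=
    normal_meets_center (p := 3) (S : Subgroup G) S.isPGroup' J hJS hJne
  have hzZ : z ∈ Z := by
    rw [hZ]; exact ⟨hJS hzJ, Subgroup.mem_centralizer_iff.mpr hzc⟩
  have hz3 : z ^ 3 = 1 := hJexp z hzJ
  have hZJ : Z ≤ J := by
    have hox : orderOf z = 3 := orderOf_eq_prime hz3 hz1
    have : Subgroup.zpowers z = Z := by
      apply Subgroup.eq_of_le_of_card_ge ((Subgroup.zpowers_le).mpr hzZ)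
      rw [Nat.card_zpowers, hox, hZcard]
    rw [← this]; exact (Subgroup.zpowers_le).mpr hzJ
  have hZcen : ∀ w ∈ Z, ∀ g : G, g * w = w * g := by
    intro w hw g
    have hwt : t * w = w * t := Subgroup.mem_centralizer_iff.mp (hZT hw) t htT
    by_cases hg : g ∈ (S : Subgroup G)
    · exact hZc w hw g hg
    · have hgt : g * t ∈ (S : Subgroup G) :=
        (Subgroup.mul_mem_iff_of_index_two hSidx).mpr
          ⟨fun h => absurd h hg, fun h => absurd h htS⟩
      have h1 := hZc w hw (g * t) hgt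
      calc g * w = (g * t) * (t * w) := by rw [mul_assoc, ← mul_assoc t t w, htt, one_mul]
        _ = (g * t) * w * t := by rw [hwt, ← mul_assoc]
        _ = w * (g * t) * t := by rw [h1]
        _ = w * g := by rw [mul_assoc, mul_assoc, htt, mul_one]
  -- commuting inside J gives normalizer conditions
  have hN : ∀ U V : Subgroup G, U ≤ J → V ≤ J → V ≤ Subgroup.normalizer (U : Set G) := by
    intro U V hU hV
    refine le_trans ?_ (Subgroup.centralizer_le_normalizer _)
    intro v hv
    rw [Subgroup.mem_centralizer_iff]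
    intro u hu
    exact hJc u (hU hu) v (hV hv)
  -- a maximal t-invariant subgroup of J avoiding Z
  let F : Set (Subgroup G) := {H | H ≤ J ∧ H ⊓ Z = ⊥ ∧ ∀ h ∈ H, t * h * t⁻¹ ∈ H}
  have hbot : (⊥ : Subgroup G) ∈ F := by
    refine ⟨bot_le, bot_inf_eq _, ?_⟩
    intro h hh
    rw [Subgroup.mem_bot] at hh ⊢
    rw [hh]; group
  obtain ⟨H, -, hmax⟩ := Set.Finite.exists_le_maximal (Set.toFinite F) hbot
  have hHF : H ≤ J ∧ H ⊓ Z = ⊥ ∧ ∀ h ∈ H, t * h * t⁻¹ ∈ H := hmax.prop
  obtain ⟨hHJ, hHZ, hHt⟩ := hHF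
  have hJHZ : J ≤ H ⊔ Z := by
    by_contra hcon
    obtain ⟨j, hj, hjn⟩ := SetLike.not_le_iff_exists.mp hcon
    have hj' : t * j * t⁻¹ ∈ J := hJn.conj_mem j hj t
    have hj3 : j * j * j = 1 := by
      have h3 := hJexp j hj
      rw [pow_succ, pow_two] at h3
      exact h3
    obtain ⟨e, heJ, hen, het⟩ : ∃ e ∈ J, e ∉ H ⊔ Z ∧
        (t * e * t⁻¹ = e ∨ t * e * t⁻¹ = e⁻¹) := by
      by_cases ha : j * (t * j * t⁻¹) ∈ H ⊔ Z
      · refine ⟨j * (t * j * t⁻¹)⁻¹, mul_mem hj (inv_mem hj'), ?_, Or.inr ?_⟩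
        · intro hb
          apply hjn
          have h2 : j * (t * j * t⁻¹) * (j * (t * j * t⁻¹)⁻¹) = j * j := by
            calc j * (t * j * t⁻¹) * (j * (t * j * t⁻¹)⁻¹)
                = j * ((t * j * t⁻¹) * j) * (t * j * t⁻¹)⁻¹ := by group
              _ = j * (j * (t * j * t⁻¹)) * (t * j * t⁻¹)⁻¹ := by rw [hJc _ hj' j hj]
              _ = j * j := by group
          have h4 : j * j ∈ H ⊔ Z := by rw [← h2]; exact mul_mem ha hb
          have h5 : j = j * j * (j * j) := by
            calc j = (j * j * j) * j := by rw [hj3, one_mul]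
              _ = j * j * (j * j) := by group
          rw [h5]; exact mul_mem h4 h4
        · calc t * (j * (t * j * t⁻¹)⁻¹) * t⁻¹ = t * j * t * j⁻¹ * (t⁻¹ * t⁻¹) := by group
            _ = t * j * t * j⁻¹ := by rw [htt', mul_one]
            _ = (j * (t * j * t⁻¹)⁻¹)⁻¹ := by rw [hti]; group
      · refine ⟨j * (t * j * t⁻¹), mul_mem hj hj', ha, Or.inl ?_⟩
        calc t * (j * (t * j * t⁻¹)) * t⁻¹ = (t * j * t⁻¹) * ((t * t) * j * (t⁻¹ * t⁻¹)) := by group
          _ = (t * j * t⁻¹) * j := by rw [htt, htt', one_mul, mul_one]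
          _ = j * (t * j * t⁻¹) := hJc _ hj' j hj
    have he3 : e ^ 3 = 1 := hJexp e heJ
    have hEJ : Subgroup.zpowers e ≤ J := (Subgroup.zpowers_le).mpr heJ
    have hEHZ : (H ⊔ Z) ⊓ Subgroup.zpowers e = ⊥ := by
      rw [Subgroup.eq_bot_iff_forall]
      rintro x ⟨hx1, hx2⟩
      rcases zp3 he3 hx2 with h | h | h
      · exact h
      · exact absurd (h ▸ hx1) hen
      · exfalso; apply hen
        have hx1' : x ∈ H ⊔ Z := hx1
        have := inv_mem hx1'
        rwa [h, inv_inv] at this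
    have hHZJ : H ⊔ Z ≤ J := sup_le hHJ hZJ
    have c1 := card_sup_mul_inf (hN H Z hHJ hZJ)
    rw [hHZ, Subgroup.card_bot, mul_one] at c1
    have c2 := card_sup_mul_inf (hN (H ⊔ Z) (Subgroup.zpowers e) hHZJ hEJ)
    rw [hEHZ, Subgroup.card_bot, mul_one] at c2
    have hHE : H ⊓ Subgroup.zpowers e = ⊥ := by
      rw [eq_bot_iff, ← hEHZ]
      exact inf_le_inf_right _ le_sup_left
    have c3 := card_sup_mul_inf (hN H (Subgroup.zpowers e) hHJ hEJ)
    rw [hHE, Subgroup.card_bot, mul_one] at c3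
    have hHEJ : H ⊔ Subgroup.zpowers e ≤ J := sup_le hHJ hEJ
    have c4 := card_sup_mul_inf (hN (H ⊔ Subgroup.zpowers e) Z hHEJ hZJ)
    have hcomm : H ⊔ Subgroup.zpowers e ⊔ Z = H ⊔ Z ⊔ Subgroup.zpowers e := sup_right_comm _ _ _
    rw [hcomm, c2, c1, c3] at c4
    have hpos : 0 < Nat.card H * Nat.card Z * Nat.card (Subgroup.zpowers e) :=
      Nat.mul_pos (Nat.mul_pos Nat.card_pos Nat.card_pos) Nat.card_pos
    have hx : Nat.card ((H ⊔ Subgroup.zpowers e) ⊓ Z : Subgroup G) = 1 := by
      apply Nat.eq_of_mul_eq_mul_left hpos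
      rw [c4]; ring
    have hdisj : (H ⊔ Subgroup.zpowers e) ⊓ Z = ⊥ := Subgroup.card_eq_one.mp hx
    have hinv : ∀ h ∈ H ⊔ Subgroup.zpowers e, t * h * t⁻¹ ∈ H ⊔ Subgroup.zpowers e := by
      intro h hh
      have hm : (H ⊔ Subgroup.zpowers e).map (MulAut.conj t).toMonoidHom ≤
          H ⊔ Subgroup.zpowers e := by
        rw [Subgroup.map_sup]
        apply sup_le_sup
        · rintro _ ⟨y, hy, rfl⟩
          exact hHt y hy
        · rw [MonoidHom.map_zpowers, Subgroup.zpowers_le]
          show t * e * t⁻¹ ∈ Subgroup.zpowers e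
          rcases het with h1 | h1
          · rw [h1]; exact Subgroup.mem_zpowers e
          · rw [h1]; exact inv_mem (Subgroup.mem_zpowers e)
      exact hm (Subgroup.mem_map_of_mem _ hh)
    have hmem : H ⊔ Subgroup.zpowers e ∈ F := ⟨hHEJ, hdisj, hinv⟩
    have hle : H ⊔ Subgroup.zpowers e ≤ H := hmax.le_of_ge hmem le_sup_left
    exact hen ((le_sup_left : H ≤ H ⊔ Z)
      (hle ((le_sup_right : Subgroup.zpowers e ≤ H ⊔ Subgroup.zpowers e)
        (Subgroup.mem_zpowers e))))
  have hHZeq : H ⊔ Z = J := le_antisymm (sup_le hHJ hZJ) hJHZ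
  have hH9 : Nat.card H = 9 := by
    have c1 := card_sup_mul_inf (hN H Z hHJ hZJ)
    rw [hHZ, Subgroup.card_bot, mul_one, hHZeq, hJcard, hZcard] at c1
    omega
  -- the subgroup K = H T
  have hTN : (T : Subgroup G) ≤ Subgroup.normalizer (H : Set G) := by
    intro u hu
    rw [Subgroup.mem_normalizer_iff]
    rcases hTel u hu with hu1 | hu1
    · intro h; rw [hu1]; simp
    · intro h
      rw [hu1]
      constructor
      · exact hHt h
      · intro hh
        have := hHt _ hh
        have e : t * (t * h * t⁻¹) * t⁻¹ = h := by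
          calc t * (t * h * t⁻¹) * t⁻¹ = (t * t) * h * (t⁻¹ * t⁻¹) := by group
            _ = h := by rw [htt, htt', one_mul, mul_one]
        rwa [e] at this
  have hHT : H ⊓ (T : Subgroup G) = ⊥ :=
    disjoint_iff.mp (Subgroup.disjoint_of_coprime_natCard (by rw [hH9, hT2]; decide))
  obtain ⟨K, hKdef⟩ : ∃ K : Subgroup G, K = H ⊔ (T : Subgroup G) := ⟨_, rfl⟩
  have hK18 : Nat.card K = 18 := by
    have c := card_sup_mul_inf hTN
    rw [hHT, Subgroup.card_bot, mul_one, hH9, hT2, ← hKdef] at c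
    exact c
  have hKidx : K.index = 9 := by
    have := K.card_mul_index
    rw [hG, hK18] at this; omega
  have hHK : H ≤ K := hKdef ▸ le_sup_left
  have htK : t ∈ K := by rw [hKdef]; exact (le_sup_right : (T : Subgroup G) ≤ _) htT
  have hSK : (S : Subgroup G) ⊔ K = ⊤ := by
    rw [eq_top_iff]
    intro g _
    by_cases hg : g ∈ (S : Subgroup G)
    · exact (le_sup_left : (S : Subgroup G) ≤ _) hg
    · have hgt : g * t ∈ (S : Subgroup G) :=
        (Subgroup.mul_mem_iff_of_index_two hSidx).mpr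
          ⟨fun h => absurd h hg, fun h => absurd h htS⟩
      have : g = (g * t) * t := by rw [mul_assoc, htt, mul_one]
      rw [this]
      exact mul_mem ((le_sup_left : (S : Subgroup G) ≤ _) hgt) ((le_sup_right : K ≤ _) htK)
  have hSKH : (S : Subgroup G) ⊓ K = H := by
    have hKN : K ≤ Subgroup.normalizer ((S : Subgroup G) : Set G) := by
      intro k _
      rw [Subgroup.mem_normalizer_iff]
      intro h
      constructor
      · intro hh; exact hSn.conj_mem h hh k
      · intro hh
        have := hSn.conj_mem _ hh k⁻¹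
        simpa [mul_assoc] using this
    have c := card_sup_mul_inf hKN
    rw [hSK, Subgroup.card_top, hG, hS81, hK18] at c
    have h9 : Nat.card ((S : Subgroup G) ⊓ K : Subgroup G) = 9 := by omega
    exact (Subgroup.eq_of_le_of_card_ge (le_inf (hHJ.trans hJS) hHK) (by rw [h9, hH9])).symm
  have hKZ : K ⊓ Z = ⊥ := by
    rw [eq_bot_iff, ← hHZ]
    intro x hx
    have : x ∈ (S : Subgroup G) ⊓ K := ⟨hZS hx.2, hx.1⟩
    rw [hSKH] at this
    exact ⟨this, hx.2⟩
  -- K is core-free
  have hcore : K.normalCore = ⊥ := by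
    by_contra hNe
    have hNn : K.normalCore.Normal := Subgroup.normalCore_normal K
    have hNK : K.normalCore ≤ K := Subgroup.normalCore_le K
    by_cases hNS : K.normalCore ⊓ (S : Subgroup G) = ⊥
    · obtain ⟨n, hnN, hn1⟩ : ∃ n ∈ K.normalCore, n ≠ 1 := by
        by_contra hc; push Not at hc
        exact hNe ((Subgroup.eq_bot_iff_forall _).mpr hc)
      have hnn : n * n = 1 := by
        have h1 : n ^ 2 ∈ (S : Subgroup G) := Subgroup.sq_mem_of_index_two hSidx n
        have h2 : n ^ 2 ∈ K.normalCore ⊓ (S : Subgroup G) := ⟨pow_mem hnN 2, h1⟩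
        rw [hNS, Subgroup.mem_bot, pow_two] at h2
        exact h2
      have hnS : n ∉ (S : Subgroup G) := by
        intro h
        have : n ∈ K.normalCore ⊓ (S : Subgroup G) := ⟨hnN, h⟩
        rw [hNS, Subgroup.mem_bot] at this
        exact hn1 this
      have hncomm : ∀ s ∈ (S : Subgroup G), n * s = s * n := by
        intro s hs
        have h1 : n * s * n⁻¹ * s⁻¹ ∈ K.normalCore ⊓ (S : Subgroup G) := by
          have ha : n * s * n⁻¹ * s⁻¹ ∈ K.normalCore := by
            have : s * n⁻¹ * s⁻¹ ∈ K.normalCore := hNn.conj_mem _ (inv_mem hnN) s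
            have e : n * s * n⁻¹ * s⁻¹ = n * (s * n⁻¹ * s⁻¹) := by group
            rw [e]; exact mul_mem hnN this
          have hb : n * s * n⁻¹ * s⁻¹ ∈ (S : Subgroup G) :=
            mul_mem (hSn.conj_mem s hs n) (inv_mem hs)
          exact ⟨ha, hb⟩
        rw [hNS, Subgroup.mem_bot] at h1
        calc n * s = n * s * n⁻¹ * s⁻¹ * (s * n) := by group
          _ = s * n := by rw [h1, one_mul]
      have hs0 : t * n ∈ (S : Subgroup G) :=
        (Subgroup.mul_mem_iff_of_index_two hSidx).mpr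
          ⟨fun h => absurd h htS, fun h => absurd h hnS⟩
      have hs0H : t * n ∈ H := by
        have : t * n ∈ (S : Subgroup G) ⊓ K := ⟨hs0, mul_mem htK (hNK hnN)⟩
        rwa [hSKH] at this
      have hs3 : (t * n) ^ 3 = 1 := hJexp _ (hHJ hs0H)
      have hs2 : (t * n) * (t * n) = 1 := by
        have hc := hncomm (t * n) hs0
        calc (t * n) * (t * n) = t * (n * (t * n)) := by group
          _ = t * ((t * n) * n) := by rw [hc]
          _ = (t * t) * (n * n) := by group
          _ = 1 := by rw [htt, hnn, one_mul]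
      have hs1 : t * n = 1 := by
        rw [pow_succ, pow_two, hs2, one_mul] at hs3
        exact hs3
      have htn : t = n := by
        have : t = n⁻¹ := eq_inv_of_mul_eq_one_left hs1
        rw [this]; exact inv_eq_of_mul_eq_one_right hnn
      apply hST
      rw [inf_eq_left]
      intro s hs
      rw [Subgroup.mem_centralizer_iff]
      intro u hu
      rcases hTel u hu with h | h
      · rw [h, one_mul, mul_one]
      · rw [h, htn]; exact hncomm s hs
    · have hMn : (K.normalCore ⊓ (S : Subgroup G)).Normal := Subgroup.normal_inf_normal _ _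
      obtain ⟨x, hxM, hx1, hxc⟩ := normal_meets_center (p := 3) (S : Subgroup G) S.isPGroup'
        (K.normalCore ⊓ (S : Subgroup G)) inf_le_right hNS
      have hxZ : x ∈ Z := by
        rw [hZ]; exact ⟨hxM.2, Subgroup.mem_centralizer_iff.mpr hxc⟩
      have : x ∈ K ⊓ Z := ⟨hNK hxM.1, hxZ⟩
      rw [hKZ, Subgroup.mem_bot] at this
      exact hx1 this
  -- the action on the cosets of K
  let φ : G →* Equiv.Perm (G ⧸ K) := MulAction.toPermHom G (G ⧸ K)
  have hφinj : Function.Injective φ := by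
    rw [← MonoidHom.ker_eq_bot_iff, ← Subgroup.normalCore_eq_ker]; exact hcore
  have hzfix : ∀ q : G ⧸ K, φ z q ≠ q := by
    intro q
    obtain ⟨g, rfl⟩ := QuotientGroup.mk_surjective q
    intro h
    have h1 : ((z * g : G) : G ⧸ K) = (g : G ⧸ K) := h
    rw [QuotientGroup.eq] at h1
    have h2 : (z * g)⁻¹ * g = z⁻¹ := by
      rw [← hZcen z hzZ g]; group
    rw [h2] at h1
    have : z ∈ K ⊓ Z := ⟨by simpa using inv_mem h1, hzZ⟩
    rw [hKZ, Subgroup.mem_bot] at this
    exact hz1 this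
  have hcardq : Nat.card (G ⧸ K) = 9 := by rw [← Subgroup.index_eq_card]; exact hKidx
  let e : G ⧸ K ≃ Fin 9 := Finite.equivFinOfCardEq hcardq
  let Φ : Equiv.Perm (G ⧸ K) ≃* Equiv.Perm (Fin 9) := e.permCongrHom
  have hτ3 : (Φ (φ z)) ^ 3 = 1 := by
    rw [← map_pow, ← map_pow, hz3, map_one, map_one]
  have hτfix : ∀ i : Fin 9, (Φ (φ z)) i ≠ i := by
    intro i h
    have h1 : e (φ z (e.symm i)) = i := h
    apply hzfix (e.symm i)
    have := congrArg e.symm h1
    simpa using this
  obtain ⟨c, hc⟩ := exists_conj hτ3 hτfix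
  let ψ : G →* Equiv.Perm (Fin 9) :=
    ((MulAut.conj c).toMonoidHom.comp Φ.toMonoidHom).comp φ
  have hψz : ψ z = sig := hc
  have hψinj : Function.Injective ψ := by
    intro a b hab
    apply hφinj
    apply Φ.injective
    exact (MulAut.conj c).injective hab
  have hψmem : ∀ g : G, ψ g ∈ Subgroup.centralizer ({sig} : Set (Equiv.Perm (Fin 9))) := by
    intro g
    rw [Subgroup.mem_centralizer_singleton_iff, ← hψz, ← map_mul, ← map_mul, hZcen z hzZ g]
  let ψ' : G →* Subgroup.centralizer ({sig} : Set (Equiv.Perm (Fin 9))) :=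
    ψ.codRestrict _ hψmem
  have hψ'inj : Function.Injective ψ' :=
    (MonoidHom.injective_codRestrict ψ _ hψmem).mpr hψinj
  have hbij : Function.Bijective ψ' :=
    hψ'inj.bijective_of_nat_card_le (by rw [hG]; exact card_centralizer_le)
  exact ⟨MulEquiv.ofBijective ψ' hbij⟩

end Cfsg.Agent.S3376
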