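import Cfsg.Statements.S3389
import Cfsg.Agent.Lib.Helper8.ActionAux

set_option autoImplicit false
open Cfsg

namespace Cfsg.Agent.S3389

open scoped Pointwise

theorem eq_or_eq_of_card_le_two {Ω : Type*} [Finite Ω] (s : Set Ω) (hs : Nat.card s ≤ 2) {a b c : Ω}
    (ha : a ∈ s) (hb : b ∈ s) (hc : c ∈ s) (hab : a ≠ b) : c = a ∨ c = b := by
  by_contra hcon
  push Not at hcon
  have h3 : ({a, b, c} : Set Ω).ncard = 3 := by
    rw [Set.ncard_eq_three]
    exact ⟨a, b, c, hab, fun h => hcon.1 h.symm, fun h => hcon.2 h.symm, rfl⟩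
  have hsub : ({a, b, c} : Set Ω) ⊆ s := by
    intro x hx
    rcases hx with rfl | rfl | rfl <;> assumption
  have := Set.ncard_le_ncard hsub (Set.toFinite s)
  rw [h3, ← Nat.card_coe_set_eq] at this
  omega

theorem two_dvd_orderOf_of_swap {G : Type*} [Group G] [Finite G] {Ω : Type*} [MulAction G Ω]
    (y : G) (α β : Ω) (hαβ : α ≠ β) (h1 : y • α = β) (h2 : y • β = α) : 2 ∣ orderOf y := by
  by_contra hodd
  have hy2 : (y ^ 2) • α = α := by rw [pow_two, mul_smul, h1, h2]
  have hpow : ∀ j : ℕ, (y ^ (2 * j)) • α = α := by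
    intro j
    induction j with
    | zero => simp
    | succ j ih => rw [Nat.mul_succ, pow_add, mul_smul, hy2, ih]
  have h3 : y ^ (orderOf y + 1) = y := by rw [pow_succ, pow_orderOf_eq_one, one_mul]
  have h4 : orderOf y + 1 = 2 * ((orderOf y + 1) / 2) := by omega
  have h5 := hpow ((orderOf y + 1) / 2)
  rw [← h4, h3, h1] at h5
  exact hαβ h5.symm

/-- Let G be a finite group acting faithfully and transitively on a finite set Ω with fixity k ≥ 1: every non-identity element fixes at most k points and some non-identity element fixes exactly k points. Then |Z(G)| divides k; if k = 2 then |G| is even; and for every prime p > k dividing |G| and every point α, either p does not divide |G_α| or G_α contains a Sylow p-subgroup of G. -/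
theorem result {G : Type*} [Group G] [Finite G] {Ω : Type*} [Fintype Ω] [MulAction G Ω] [FaithfulSMul G Ω]
    (htr : MulAction.IsPretransitive G Ω) (k : ℕ) (hk : 1 ≤ k)
    (hfix : ∀ g : G, g ≠ 1 → Nat.card (MulAction.fixedBy Ω g) ≤ k) (hex : ∃ g : G, g ≠ 1 ∧ Nat.card (MulAction.fixedBy Ω g) = k) :
    Nat.card (Subgroup.center G) ∣ k ∧ (k = 2 → 2 ∣ Nat.card G) ∧
      ∀ (p : ℕ), p.Prime → k < p → p ∣ Nat.card G → ∀ α : Ω,
        ¬ p ∣ Nat.card (MulAction.stabilizer G α) ∨ ¬ p ∣ (MulAction.stabilizer G α).index := by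
  classical
  obtain ⟨g, hg1, hgk⟩ := hex
  refine ⟨?_, ?_, ?_⟩
  · let p' : SubMulAction (Subgroup.center G) Ω :=
      { carrier := MulAction.fixedBy Ω g
        smul_mem' := by
          intro z ω hω
          rw [MulAction.mem_fixedBy] at hω
          show g • ((z : G) • ω) = (z : G) • ω
          rw [← mul_smul, Subgroup.mem_center_iff.mp z.2 g, mul_smul, hω] }
    have hfree : ∀ (z : Subgroup.center G) (a : p'), z • a = a → z = 1 := by
      intro z a hza
      have hza' : (z : G) • (a : Ω) = a := congrArg Subtype.val hza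
      apply Subtype.ext
      show (z : G) = 1
      apply FaithfulSMul.eq_of_smul_eq_smul (α := Ω)
      intro ω
      obtain ⟨h, rfl⟩ := MulAction.exists_smul_eq G (a : Ω) ω
      rw [one_smul, ← mul_smul, ← Subgroup.mem_center_iff.mp z.2 h, mul_smul, hza']
    have hdvd := Cfsg.Agent.Lib.Helper8.card_dvd_of_free_action (Z := Subgroup.center G) (X := p') hfree
    have hc : Nat.card p' = k := hgk
    rwa [hc] at hdvd
  · intro hk2
    subst hk2
    obtain ⟨α, β, hαβ, hFix⟩ : ∃ α β : Ω, α ≠ β ∧ MulAction.fixedBy Ω g = {α, β} := by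
      have : (MulAction.fixedBy Ω g).ncard = 2 := by rw [← Nat.card_coe_set_eq]; exact hgk
      exact Set.ncard_eq_two.mp this
    have hgα : g • α = α := by
      have : α ∈ MulAction.fixedBy Ω g := by rw [hFix]; simp
      exact this
    have hgβ : g • β = β := by
      have : β ∈ MulAction.fixedBy Ω g := by rw [hFix]; simp
      exact this
    have hg_ord : orderOf g ≠ 1 := fun h => hg1 (orderOf_eq_one_iff.mp h)
    obtain ⟨p, hp, hpd⟩ := Nat.exists_prime_and_dvd hg_ord
    have hpf : Fact p.Prime := ⟨hp⟩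
    obtain ⟨x, hx⟩ : ∃ x, x = g ^ (orderOf g / p) := ⟨_, rfl⟩
    have hxo : orderOf x = p := by rw [hx]; exact orderOf_pow_orderOf_div (orderOf_pos g).ne' hpd
    have hx1 : x ≠ 1 := by
      intro h; rw [h, orderOf_one] at hxo; exact hp.one_lt.ne hxo
    have hxα : x • α = α := by
      rw [hx]
      exact MulAction.mem_stabilizer_iff.mp (Subgroup.pow_mem _ (MulAction.mem_stabilizer_iff.mpr hgα) _)
    have hxβ : x • β = β := by
      rw [hx]
      exact MulAction.mem_stabilizer_iff.mp (Subgroup.pow_mem _ (MulAction.mem_stabilizer_iff.mpr hgβ) _)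
    have hFixx : ∀ ω : Ω, x • ω = ω → ω = α ∨ ω = β := by
      intro ω hω
      exact eq_or_eq_of_card_le_two (MulAction.fixedBy Ω x) (hfix x hx1) hxα hxβ hω hαβ
    obtain ⟨T, hT⟩ : ∃ T : Subgroup G, T = MulAction.stabilizer G α ⊓ MulAction.stabilizer G β := ⟨_, rfl⟩
    have hmemT : ∀ y : G, y ∈ T ↔ y • α = α ∧ y • β = β := by
      intro y; rw [hT, Subgroup.mem_inf, MulAction.mem_stabilizer_iff, MulAction.mem_stabilizer_iff]
    have h0 : Subgroup.zpowers x ∈ {R : Subgroup G | IsPGroup p R ∧ R ≤ T ∧ x ∈ R} := by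
      refine ⟨?_, ?_, Subgroup.mem_zpowers x⟩
      · apply IsPGroup.of_card (n := 1); rw [Nat.card_zpowers, hxo, pow_one]
      · rw [Subgroup.zpowers_le]; exact (hmemT x).mpr ⟨hxα, hxβ⟩
    obtain ⟨P, -, hPmax⟩ := (Set.toFinite {R : Subgroup G | IsPGroup p R ∧ R ≤ T ∧ x ∈ R}).exists_le_maximal h0
    obtain ⟨hPp, hPT, hxP⟩ := hPmax.1
    have hperm : ∀ y : G, (∀ z ∈ P, y⁻¹ * z * y ∈ P) → ∀ ω : Ω, (ω = α ∨ ω = β) → (y • ω = α ∨ y • ω = β) := by
      intro y hy ω hω
      apply hFixx
      have h1 := hy x hxP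
      have h2 : (y⁻¹ * x * y) • ω = ω := by
        rcases hω with rfl | rfl
        · exact ((hmemT _).mp (hPT h1)).1
        · exact ((hmemT _).mp (hPT h1)).2
      have h3 : x • y • ω = y • ((y⁻¹ * x * y) • ω) := by simp [mul_smul]
      rw [h3, h2]
    have key : ∃ y : G, (∀ z ∈ P, y⁻¹ * z * y ∈ P) ∧ y • α ≠ α := by
      obtain ⟨S, hPS⟩ := hPp.exists_le_sylow
      by_cases hPS' : P = (S : Subgroup G)
      · obtain ⟨h, hh⟩ := MulAction.exists_smul_eq G α β
        have hS1 : (S : Subgroup G) ≤ MulAction.stabilizer G β := by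
          rw [← hPS']; intro z hz; exact MulAction.mem_stabilizer_iff.mpr ((hmemT z).mp (hPT hz)).2
        have hS2 : ((h • S : Sylow p G) : Subgroup G) ≤ MulAction.stabilizer G β := by
          intro z hz
          have hz' : z ∈ MulAut.conj h • (S : Subgroup G) := hz
          rw [Subgroup.mem_pointwise_smul_iff_inv_smul_mem] at hz'
          have hz'' : h⁻¹ * z * h ∈ (S : Subgroup G) := by simpa [MulAut.smul_def] using hz'
          rw [← hPS'] at hz''
          have h3 := ((hmemT _).mp (hPT hz'')).1
          rw [MulAction.mem_stabilizer_iff, ← hh]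
          have h4 : z • h • α = h • ((h⁻¹ * z * h) • α) := by simp [mul_smul]
          rw [h4, h3]
        obtain ⟨b, hb⟩ := MulAction.exists_smul_eq (MulAction.stabilizer G β)
          ((h • S : Sylow p G).subtype hS2) (S.subtype hS1)
        rw [Sylow.smul_subtype] at hb
        have hb' : b • (h • S : Sylow p G) = S := Sylow.subtype_injective hb
        have hb'' : ((b : G) * h) • S = S := by rw [mul_smul]; exact hb'
        have hnorm : (b : G) * h ∈ Subgroup.normalizer ((S : Subgroup G) : Set G) :=
          Sylow.smul_eq_iff_mem_normalizer.mp hb''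
        refine ⟨(b : G) * h, ?_, ?_⟩
        · intro z hz
          rw [hPS'] at hz ⊢
          have hn2 := (Subgroup.mem_normalizer_iff.mp hnorm) (((b : G) * h)⁻¹ * z * ((b : G) * h))
          apply hn2.mpr
          have : (b : G) * h * (((b : G) * h)⁻¹ * z * ((b : G) * h)) * ((b : G) * h)⁻¹ = z := by group
          rw [this]; exact hz
        · rw [mul_smul, hh]
          have : (b : G) • β = β := MulAction.mem_stabilizer_iff.mp b.2
          rw [this]; exact hαβ.symm
      · have hlt : P < (S : Subgroup G) := lt_of_le_of_ne hPS hPS'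
        have hSnil : Group.IsNilpotent S := S.isPGroup'.isNilpotent
        have hnc : NormalizerCondition S := Group.normalizerCondition_of_isNilpotent
        have hlt' : P.subgroupOf S < ⊤ := by
          rw [lt_top_iff_ne_top]
          intro h
          rw [Subgroup.subgroupOf_eq_top] at h
          exact hlt.not_ge h
        have h1 := hnc _ hlt'
        obtain ⟨y', hy'N, hy'P⟩ := SetLike.exists_of_lt h1
        have hnormy : ∀ z ∈ P, (y' : G)⁻¹ * z * (y' : G) ∈ P := by
          intro z hz
          have hzS : z ∈ (S : Subgroup G) := hPS hz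
          have h2 := (Subgroup.mem_normalizer_iff.mp hy'N) (y'⁻¹ * ⟨z, hzS⟩ * y')
          have h3 : y' * (y'⁻¹ * ⟨z, hzS⟩ * y') * y'⁻¹ ∈ P.subgroupOf S := by
            have : y' * (y'⁻¹ * ⟨z, hzS⟩ * y') * y'⁻¹ = ⟨z, hzS⟩ := by group
            rw [this]; exact Subgroup.mem_subgroupOf.mpr hz
          have h4 := h2.mpr h3
          exact Subgroup.mem_subgroupOf.mp h4
        refine ⟨(y' : G), hnormy, ?_⟩
        intro hyα
        have hyβ : (y' : G) • β = β := by
          rcases hperm _ hnormy β (Or.inr rfl) with h | h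
          · exfalso
            exact hαβ (MulAction.injective (y' : G) (h.trans hyα.symm)).symm
          · exact h
        have hyT : (y' : G) ∈ T := (hmemT _).mpr ⟨hyα, hyβ⟩
        have hR : P ⊔ Subgroup.zpowers (y' : G) ∈ {R : Subgroup G | IsPGroup p R ∧ R ≤ T ∧ x ∈ R} := by
          refine ⟨?_, ?_, ?_⟩
          · apply S.isPGroup'.to_le
            exact sup_le hPS (by rw [Subgroup.zpowers_le]; exact y'.2)
          · exact sup_le hPT (by rw [Subgroup.zpowers_le]; exact hyT)
          · exact (le_sup_left : P ≤ _) hxP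
        have hle := hPmax.2 hR le_sup_left
        apply hy'P
        rw [Subgroup.mem_subgroupOf]
        exact hle ((le_sup_right : Subgroup.zpowers (y' : G) ≤ _) (Subgroup.mem_zpowers _))
    obtain ⟨y, hyn, hyα⟩ := key
    have h1 : y • α = β := (hperm y hyn α (Or.inl rfl)).resolve_left hyα
    have h2 : y • β = α := by
      rcases hperm y hyn β (Or.inr rfl) with h | h
      · exact h
      · exfalso
        exact hαβ (MulAction.injective y (h.trans h1.symm)).symm
    exact (two_dvd_orderOf_of_swap y α β hαβ h1 h2).trans (orderOf_dvd_natCard y)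
  · intro p hp hkp hpG α
    by_cases hpa : p ∣ Nat.card (MulAction.stabilizer G α)
    · right
      have hpf : Fact p.Prime := ⟨hp⟩
      obtain ⟨x', hx'⟩ := exists_prime_orderOf_dvd_card' p hpa
      have hxo : orderOf (x' : G) = p := by rw [Subgroup.orderOf_coe]; exact hx'
      have hx1 : (x' : G) ≠ 1 := by
        intro h; rw [h, orderOf_one] at hxo; exact hp.one_lt.ne hxo
      have hxα : (x' : G) • α = α := MulAction.mem_stabilizer_iff.mp x'.2
      have hZp : IsPGroup p (Subgroup.zpowers (x' : G)) := by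
        apply IsPGroup.of_card (n := 1); rw [Nat.card_zpowers, hxo, pow_one]
      have hmod := hZp.card_modEq_card_fixedPoints Ω
      have hfp : (MulAction.fixedPoints (Subgroup.zpowers (x' : G)) Ω) = MulAction.fixedBy Ω (x' : G) := by
        ext ω
        constructor
        · intro h; exact h ⟨_, Subgroup.mem_zpowers _⟩
        · intro h z
          obtain ⟨z, hz⟩ := z
          obtain ⟨j, rfl⟩ := Subgroup.mem_zpowers_iff.mp hz
          exact MulAction.mem_stabilizer_iff.mp (Subgroup.zpow_mem _ (MulAction.mem_stabilizer_iff.mpr h) j)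
      rw [hfp] at hmod
      rw [MulAction.index_stabilizer_of_transitive]
      intro hdvd
      have h1 : Nat.card (MulAction.fixedBy Ω (x' : G)) ≤ k := hfix _ hx1
      have h2 : 0 < Nat.card (MulAction.fixedBy Ω (x' : G)) := by
        rw [Nat.card_pos_iff]; exact ⟨⟨α, hxα⟩, inferInstance⟩
      have h3 : p ∣ Nat.card (MulAction.fixedBy Ω (x' : G)) :=
        (Nat.modEq_zero_iff_dvd.mp (hmod.symm.trans (Nat.modEq_zero_iff_dvd.mpr hdvd)))
      have := Nat.le_of_dvd h2 h3
      omega
    · left; exact hpa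

end Cfsg.Agent.S3389
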