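import Cfsg.Statements.S3495
import Cfsg.Agent.Lib.Helper20.OrbitCard

set_option autoImplicit false
open Cfsg

namespace Cfsg.Agent.S3495

/-- Let a finite group G act faithfully and primitively on a finite set Ω with non-trivial point stabilizers, each acting primitively on every one of its orbits (an extremely primitive group), and suppose G has an elementary abelian normal p-subgroup N acting regularly on Ω (affine type). Then every non-trivial subgroup M of a point stabilizer G_α that is normal in G_α has the same orbits on Ω as G_α, and normalizes no subgroup of N other than 1 and N. -/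
theorem result {G : Type*} [Group G] [Finite G] {Ω : Type*} [Fintype Ω] [MulAction G Ω] [FaithfulSMul G Ω] (hprim : MulAction.IsPreprimitive G Ω) (hH : ∀ α : Ω, MulAction.stabilizer G α ≠ ⊥) (hep : ∀ (α : Ω) (ω : Ω), MulAction.IsPreprimitive (MulAction.stabilizer G α) (MulAction.orbit (MulAction.stabilizer G α) ω))
    (N : Subgroup G) [N.Normal] (hNc : IsMulCommutative N) (p : ℕ) (hp : p.Prime) (hNp : ∀ n ∈ N, n ^ p = 1)
    (hNtr : MulAction.IsPretransitive N Ω) (hNreg : ∀ ω : Ω, MulAction.stabilizer N ω = ⊥) (α : Ω) (M : Subgroup G) (hM : M ≠ ⊥) (hMle : M ≤ MulAction.stabilizer G α)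
    (hMn : MulAction.stabilizer G α ≤ Subgroup.normalizer (M : Set G)) :
    (∀ ω : Ω, MulAction.orbit M ω = MulAction.orbit (MulAction.stabilizer G α) ω) ∧
    (∀ L : Subgroup G, L ≤ N → M ≤ Subgroup.normalizer (L : Set G) → L = ⊥ ∨ L = N) := by
  classical
  set H := MulAction.stabilizer G α with hHdef
  have hGtr : MulAction.IsPretransitive G Ω := hprim.toIsPretransitive
  -- Ω is nontrivial
  have hΩ : Nontrivial Ω := by
    by_contra hnt
    rw [not_nontrivial_iff_subsingleton] at hnt
    apply hH α
    rw [eq_bot_iff]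
    intro g _
    rw [Subgroup.mem_bot]
    apply FaithfulSMul.eq_of_smul_eq_smul (α := Ω)
    intro ω
    exact Subsingleton.elim _ _
  have hHmax : IsCoatom H := (MulAction.isCoatom_stabilizer_iff_preprimitive (G := G) (a := α)).mpr hprim
  -- N ⊓ H = ⊥
  have hNH : ∀ n ∈ N, n • α = α → n = 1 := by
    intro n hn hnα
    have h1 : (⟨n, hn⟩ : N) ∈ MulAction.stabilizer N α := by
      rw [MulAction.mem_stabilizer_iff]; exact hnα
    rw [hNreg α, Subgroup.mem_bot] at h1
    exact congrArg Subtype.val h1
  have hreg : ∀ n₁ ∈ N, ∀ n₂ ∈ N, n₁ • α = n₂ • α → n₁ = n₂ := by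
    intro n₁ h1 n₂ h2 h
    have h3 : (n₂⁻¹ * n₁) • α = α := by rw [mul_smul, h, inv_smul_smul]
    have h4 := hNH _ (N.mul_mem (N.inv_mem h2) h1) h3
    rw [inv_mul_eq_one] at h4
    exact h4.symm
  have hNHinf : H ⊓ N = ⊥ := by
    rw [eq_bot_iff]
    intro x hx
    rw [Subgroup.mem_inf] at hx
    rw [Subgroup.mem_bot]
    exact hNH x hx.2 (MulAction.mem_stabilizer_iff.mp hx.1)
  -- N is transitive: every point is n • α
  have hNpt : ∀ ω : Ω, ∃ n ∈ N, n • α = ω := by
    intro ω
    obtain ⟨n, hn⟩ := MulAction.exists_smul_eq N α ω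
    exact ⟨n, n.2, hn⟩
  have hHN : H ≤ Subgroup.normalizer (N : Set G) := by
    rw [Subgroup.normalizer_eq_top]; exact le_top
  -- H ⊔ N = ⊤
  have hHNtop : H ⊔ N = ⊤ := by
    rw [eq_top_iff]
    intro g _
    obtain ⟨n, hn, hnα⟩ := hNpt (g • α)
    have h1 : n⁻¹ * g ∈ H := by
      rw [hHdef, MulAction.mem_stabilizer_iff, mul_smul, ← hnα, inv_smul_smul]
    have h2 : g = n * (n⁻¹ * g) := by group
    rw [h2]
    exact Subgroup.mul_mem _ (Subgroup.mem_sup_right hn) (Subgroup.mem_sup_left h1)
  have hcardG : Nat.card G = Nat.card H * Nat.card N := by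
    have := Cfsg.Agent.Lib.Helper20.card_sup_mul_card_inf_of_le_normalizer hHN
    rw [hHNtop, hNHinf, Subgroup.card_top, Subgroup.card_bot, mul_one] at this
    exact this
  -- Step 2: H-invariant subgroups of N
  have hstep2 : ∀ K : Subgroup G, K ≤ N → H ≤ Subgroup.normalizer (K : Set G) → K = ⊥ ∨ K = N := by
    intro K hKN hHK
    have hinf : H ⊓ K = ⊥ := by
      rw [eq_bot_iff, ← hNHinf]
      exact inf_le_inf_left H hKN
    have hcard := Cfsg.Agent.Lib.Helper20.card_sup_mul_card_inf_of_le_normalizer hHK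
    rw [hinf, Subgroup.card_bot, mul_one] at hcard
    rcases hHmax.le_iff.mp (le_sup_left : H ≤ H ⊔ K) with htop | heq
    · right
      rw [htop, Subgroup.card_top, hcardG] at hcard
      have hHpos : 0 < Nat.card H := Nat.card_pos
      have hKN' : Nat.card N = Nat.card K := Nat.eq_of_mul_eq_mul_left hHpos hcard
      exact Subgroup.eq_of_le_of_card_ge hKN (le_of_eq hKN')
    · left
      have hKH : K ≤ H := by rw [← heq]; exact le_sup_right
      rw [eq_bot_iff, ← hinf]
      exact le_inf hKH le_rfl
  -- fixed points of M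
  have hMα : ∀ m ∈ M, m • α = α := fun m hm => MulAction.mem_stabilizer_iff.mp (hMle hm)
  have hMnorm : ∀ h ∈ H, ∀ m ∈ M, h * m * h⁻¹ ∈ M := by
    intro h hh m hm
    exact (Subgroup.mem_normalizer_iff.mp (hMn hh) m).mp hm
  have hfixM : ∀ ω : Ω, (∀ m ∈ M, m • ω = ω) → ω = α := by
    intro ω hω
    -- C = N ⊓ centralizer M
    set C : Subgroup G := N ⊓ Subgroup.centralizer (M : Set G) with hC
    have hCN : C ≤ N := inf_le_left
    have hHC : H ≤ Subgroup.normalizer (C : Set G) := by
      intro h hh
      have key : ∀ h ∈ H, ∀ c ∈ C, h * c * h⁻¹ ∈ C := by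
        intro h hh c hc
        rw [hC, Subgroup.mem_inf] at hc ⊢
        refine ⟨?_, ?_⟩
        · exact (inferInstance : N.Normal).conj_mem c hc.1 h
        · rw [Subgroup.mem_centralizer_iff]
          intro m hm
          have h1 := hMnorm h⁻¹ (H.inv_mem hh) m hm
          rw [inv_inv] at h1
          have h2 := (Subgroup.mem_centralizer_iff.mp hc.2) _ h1
          -- h2 : h⁻¹ * m * h * c = c * (h⁻¹ * m * h)
          calc m * (h * c * h⁻¹) = h * ((h⁻¹ * m * h) * c) * h⁻¹ := by group
            _ = h * (c * (h⁻¹ * m * h)) * h⁻¹ := by rw [h2]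
            _ = h * c * h⁻¹ * m := by group
      rw [Subgroup.mem_normalizer_iff]
      intro c
      constructor
      · exact key h hh c
      · intro hc
        have := key h⁻¹ (H.inv_mem hh) _ hc
        rw [inv_inv] at this
        have e : h⁻¹ * (h * c * h⁻¹) * h = c := by group
        rwa [e] at this
    rcases hstep2 C hCN hHC with hCbot | hCN'
    · obtain ⟨n, hn, hnα⟩ := hNpt ω
      have hnC : n ∈ C := by
        rw [hC, Subgroup.mem_inf]
        refine ⟨hn, ?_⟩
        rw [Subgroup.mem_centralizer_iff]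
        intro m hm
        -- m n m⁻¹ = n
        have h1 : (m * n * m⁻¹) • α = n • α := by
          rw [mul_smul, mul_smul, hMα _ (M.inv_mem hm), hnα, hω m hm]
        have h2 := hreg _ ((inferInstance : N.Normal).conj_mem n hn m) n hn h1
        calc m * n = (m * n * m⁻¹) * m := by group
          _ = n * m := by rw [h2]
      rw [hCbot, Subgroup.mem_bot] at hnC
      rw [← hnα, hnC, one_smul]
    · exfalso
      apply hM
      rw [eq_bot_iff]
      intro m hm
      rw [Subgroup.mem_bot]
      apply FaithfulSMul.eq_of_smul_eq_smul (α := Ω)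
      intro ω'
      obtain ⟨n, hn, hnα⟩ := hNpt ω'
      have hnC : n ∈ C := by rw [hCN']; exact hn
      rw [hC, Subgroup.mem_inf, Subgroup.mem_centralizer_iff] at hnC
      rw [one_smul, ← hnα, ← mul_smul, hnC.2 m hm, mul_smul, hMα m hm]
  -- part (a)
  have hpartA : ∀ ω : Ω, MulAction.orbit M ω = MulAction.orbit H ω := by
    intro ω
    have hsub : MulAction.orbit M ω ⊆ MulAction.orbit H ω := by
      rintro _ ⟨m, rfl⟩
      exact ⟨⟨m, hMle m.2⟩, rfl⟩
    apply Set.Subset.antisymm hsub
    have hMnor : (M.subgroupOf H).Normal := Subgroup.normal_subgroupOf_of_le_normalizer hMn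
    have hprimO := hep α ω
    by_cases hfix : MulAction.fixedPoints (M.subgroupOf H) (MulAction.orbit H ω) = Set.univ
    · -- M fixes ω, so ω = α
      have hω : ∀ m ∈ M, m • ω = ω := by
        intro m hm
        have h1 : (⟨ω, MulAction.mem_orbit_self ω⟩ : MulAction.orbit H ω) ∈
            MulAction.fixedPoints (M.subgroupOf H) (MulAction.orbit H ω) := by
          rw [hfix]; trivial
        have h2 := h1 ⟨⟨m, hMle hm⟩, by rw [Subgroup.mem_subgroupOf]; exact hm⟩
        exact congrArg Subtype.val h2
      have hωα := hfixM ω hω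
      rw [hωα]
      rintro _ ⟨h, rfl⟩
      have : (h : G) • α = α := MulAction.mem_stabilizer_iff.mp h.2
      refine ⟨1, ?_⟩
      show (1 : M) • α = h • α
      rw [one_smul]
      exact this.symm
    · have htr := MulAction.IsQuasiPreprimitive.isPretransitive_of_normal
        (N := M.subgroupOf H) hfix
      rintro x hx
      obtain ⟨m', hm'⟩ := htr.exists_smul_eq (⟨ω, MulAction.mem_orbit_self ω⟩ : MulAction.orbit H ω)
        ⟨x, hx⟩
      have h2 := congrArg Subtype.val hm'
      refine ⟨⟨((m' : H) : G), Subgroup.mem_subgroupOf.mp m'.2⟩, ?_⟩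
      exact h2
  refine ⟨hpartA, ?_⟩
  intro L hLN hML
  by_cases hL : L = ⊥
  · left; exact hL
  · right
    apply (hstep2 L hLN ?_).resolve_left hL
    have key : ∀ h ∈ H, ∀ l ∈ L, h * l * h⁻¹ ∈ L := by
      intro h hh l hl
      -- l • α ∈ orbit M-invariant set
      have h1 : h • (l • α) ∈ MulAction.orbit H (l • α) := ⟨⟨h, hh⟩, rfl⟩
      rw [← hpartA] at h1
      obtain ⟨m, hm⟩ := h1
      -- m • l • α = (m l m⁻¹) • α
      have hm' : ((m : G) * l * (m : G)⁻¹) • α = h • (l • α) := by
        rw [mul_smul, mul_smul, hMα _ (M.inv_mem m.2)]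
        exact hm
      have hl' : (m : G) * l * (m : G)⁻¹ ∈ L :=
        (Subgroup.mem_normalizer_iff.mp (hML m.2) l).mp hl
      have h3 : (h * l * h⁻¹) • α = h • (l • α) := by
        rw [mul_smul, mul_smul]
        have : h⁻¹ • α = α := MulAction.mem_stabilizer_iff.mp (H.inv_mem hh)
        rw [this]
      have h4 := hreg _ ((inferInstance : N.Normal).conj_mem l (hLN hl) h) _ (hLN hl')
        (h3.trans hm'.symm)
      rw [h4]; exact hl'
    intro h hh
    rw [Subgroup.mem_normalizer_iff]
    intro l
    constructor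
    · exact key h hh l
    · intro hc
      have := key h⁻¹ (H.inv_mem hh) _ hc
      rw [inv_inv] at this
      have e : h⁻¹ * (h * l * h⁻¹) * h = l := by group
      rwa [e] at this

end Cfsg.Agent.S3495
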