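import Cfsg.Statements.S3498
import Cfsg.Agent.Lib.Helper1.CoprimeSylow

set_option autoImplicit false
open Cfsg

namespace Cfsg.Agent.S3498

/-- A maximal subgroup of a finite almost simple group does not have prime order. Here G is almost simple in the sense that it has a non-abelian simple normal subgroup T with trivial centralizer. -/
theorem result {G : Type*} [Group G] [Finite G] (T : Subgroup G) [T.Normal] (hT : IsSimpleGroup T) (hTc : ¬ IsMulCommutative T)
    (hC : Subgroup.centralizer (T : Set G) = ⊥) (H : Subgroup G) (hmax : IsCoatom H) : ¬ (Nat.card H).Prime := by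
  intro hp
  obtain ⟨p, hpdef⟩ : ∃ p, p = Nat.card H := ⟨_, rfl⟩
  rw [← hpdef] at hp
  have hpf : Fact p.Prime := ⟨hp⟩
  have hns : ¬ Group.IsSolvable G := by
    intro hs
    have hTs : Group.IsSolvable T := inferInstance
    exact hTc ⟨⟨fun a b => (IsSimpleGroup.comm_iff_isSolvable.mpr hTs) a b⟩⟩
  have hHcyc : IsCyclic H := isCyclic_of_prime_card hpdef.symm
  have hHcomm : ∀ a ∈ H, ∀ b ∈ H, a * b = b * a := by
    intro a ha b hb
    exact setLike_mul_comm ha hb
  have hHne : H ≠ ⊥ := by
    rintro rfl
    rw [Subgroup.card_bot] at hpdef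
    exact hp.ne_one hpdef
  have hHp : IsPGroup p H := IsPGroup.of_card (n := 1) (by rw [pow_one]; exact hpdef.symm)
  obtain ⟨P, hP⟩ := hHp.exists_le_sylow
  have hPH : (P : Subgroup G) = H := by
    rcases hmax.le_iff.mp hP with h | h
    · exfalso; apply hns
      have hG : IsPGroup p G := by
        intro g
        obtain ⟨k, hk⟩ := P.isPGroup' ⟨g, h ▸ Subgroup.mem_top g⟩
        exact ⟨k, congrArg Subtype.val hk⟩
      have := hG.isNilpotent
      infer_instance
    · exact h
  have hTH : ¬ T ≤ H := by
    intro h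
    exact hTc ⟨⟨fun a b => Subtype.ext (hHcomm a (h a.2) b (h b.2))⟩⟩
  have hnorm : Subgroup.normalizer (H : Set G) = H := by
    rcases hmax.le_iff.mp (Subgroup.le_normalizer : H ≤ Subgroup.normalizer (H : Set G)) with h | h
    · exfalso
      have hHn : H.Normal := Subgroup.normalizer_eq_top_iff.mp h
      have hinf : T ⊓ H = ⊥ := by
        have hn : ((T ⊓ H).subgroupOf T).Normal := inferInstance
        rcases hT.eq_bot_or_eq_top_of_normal _ hn with h1 | h1
        · rw [Subgroup.subgroupOf_eq_bot] at h1
          have := h1.eq_bot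
          rwa [inf_of_le_left inf_le_left] at this
        · rw [Subgroup.subgroupOf_eq_top] at h1
          exact absurd (h1.trans inf_le_right) hTH
      apply hHne
      rw [eq_bot_iff, ← hC]
      intro a ha
      rw [Subgroup.mem_centralizer_iff]
      intro t ht
      have h1 : a * t * a⁻¹ * t⁻¹ ∈ T ⊓ H := by
        refine Subgroup.mem_inf.mpr ⟨mul_mem (‹T.Normal›.conj_mem t ht a) (inv_mem ht), ?_⟩
        have : a * t * a⁻¹ * t⁻¹ = a * (t * a⁻¹ * t⁻¹) := by group
        rw [this]
        exact mul_mem ha (hHn.conj_mem _ (inv_mem ha) t)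
      rw [hinf, Subgroup.mem_bot] at h1
      have : a * t = t * a := by
        have h2 : a * t * a⁻¹ * t⁻¹ * (t * a) = t * a := by rw [h1, one_mul]
        rw [← h2]; group
      exact this.symm
    · exact h
  have hPn : Subgroup.normalizer ((P : Subgroup G) : Set G) ≤ Subgroup.centralizer ((P : Subgroup G) : Set G) := by
    rw [hPH, hnorm]
    intro a ha
    rw [Subgroup.mem_centralizer_iff]
    intro b hb
    exact hHcomm b hb a ha
  have hK := MonoidHom.ker_transferSylow_isComplement' P hPn
  obtain ⟨K, hKdef⟩ : ∃ K : Subgroup G, K = (MonoidHom.transferSylow P hPn).ker := ⟨_, rfl⟩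
  rw [← hKdef, hPH] at hK
  have hKn : K.Normal := by rw [hKdef]; infer_instance
  have hKH : K ⊓ H = ⊥ := hK.disjoint.eq_bot
  have hcop : (Nat.card H).Coprime (Nat.card K) := by
    have h1 := P.card_coprime_index
    have h2 : (P : Subgroup G).index = Nat.card K := by rw [hPH]; exact hK.index_eq_card
    rw [h2] at h1
    have h3 : Nat.card P = Nat.card H := by rw [← hPH]
    rw [← h3]; exact h1
  have hKne : K ≠ ⊥ := by
    rintro rfl
    have := hK.sup_eq_top
    rw [bot_sup_eq] at this
    exact hmax.1 this
  have hKc : Nat.card K ≠ 1 := fun h => hKne (Subgroup.card_eq_one.mp h)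
  obtain ⟨q, hq, hqK⟩ := Nat.exists_prime_and_dvd hKc
  have hqf : Fact q.Prime := ⟨hq⟩
  have hHs : Group.IsSolvable H := by
    have := IsCyclic.commGroup (α := H)
    infer_instance
  obtain ⟨Q, hQ⟩ := Cfsg.Agent.Lib.Helper1.exists_invariant_sylow H K
    (by rw [Subgroup.normalizer_eq_top_iff.mpr hKn]; exact le_top) hcop (Or.inl hHs) q
  obtain ⟨R, hRdef⟩ : ∃ R : Subgroup G, R = (Q : Subgroup K).map K.subtype := ⟨_, rfl⟩
  rw [← hRdef] at hQ
  have hRK : R ≤ K := by rw [hRdef]; exact Subgroup.map_subtype_le _
  have hRne : R ≠ ⊥ := by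
    rw [hRdef]
    intro h
    rw [Subgroup.map_eq_bot_iff_of_injective _ K.subtype_injective] at h
    exact Q.ne_bot_of_dvd_card hqK h
  have hRp : IsPGroup q R := by rw [hRdef]; exact Q.isPGroup'.map K.subtype
  have hsup : R ⊔ H = ⊤ := by
    rcases hmax.le_iff.mp (le_sup_right : H ≤ R ⊔ H) with h | h
    · exact h
    · exfalso
      apply hRne
      rw [eq_bot_iff, ← hKH]
      exact le_inf hRK (h ▸ le_sup_left)
  have hRn : R.Normal := by
    rw [← Subgroup.normalizer_eq_top_iff, eq_top_iff, ← hsup]
    exact sup_le Subgroup.le_normalizer hQ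
  apply hns
  have hRs : Group.IsSolvable R := by
    have := hRp.isNilpotent
    infer_instance
  have hQs : Group.IsSolvable (G ⧸ R) := by
    have hsurj : Function.Surjective ((QuotientGroup.mk' R).comp H.subtype) := by
      rw [← MonoidHom.range_eq_top, MonoidHom.range_comp, Subgroup.range_subtype]
      have h1 : (R ⊔ H).map (QuotientGroup.mk' R) = ⊤ := by
        rw [hsup, ← MonoidHom.range_eq_map]
        exact MonoidHom.range_eq_top.mpr (QuotientGroup.mk'_surjective R)
      rw [Subgroup.map_sup, QuotientGroup.map_mk'_self, bot_sup_eq] at h1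
      exact h1
    exact Group.isSolvable_of_surjective hsurj
  exact Group.isSolvable_of_ker_le_range R.subtype (QuotientGroup.mk' R)
    (by rw [QuotientGroup.ker_mk', Subgroup.range_subtype])

end Cfsg.Agent.S3498
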