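import Cfsg.Statements.S3504

set_option autoImplicit false
open Cfsg

namespace Cfsg.Agent.S3504

/-- For n ≥ 5, the fixed-point-free permutations of prime order in the symmetric group of degree n form a single conjugacy class if and only if n is a prime power. -/
theorem result (n : ℕ) (hn : 5 ≤ n) :
    Nat.card {c : ConjClasses (Equiv.Perm (Fin n)) // ∃ g : Equiv.Perm (Fin n), ConjClasses.mk g = c ∧ (orderOf g).Prime ∧ ∀ i : Fin n, g i ≠ i} = 1 ↔ IsPrimePow n := by
  classical
  have hn0 : 0 < n := by omega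
  -- (A) existence
  have hA : ∀ p : ℕ, p.Prime → p ∣ n → ∃ g : Equiv.Perm (Fin n), orderOf g = p ∧ ∀ i, g i ≠ i := by
    intro p hp hpn
    have hk : 0 < n / p := Nat.div_pos (Nat.le_of_dvd hn0 hpn) hp.pos
    obtain ⟨g, hg⟩ := (Equiv.Perm.exists_with_cycleType_iff (α := Fin n)
      (m := Multiset.replicate (n / p) p)).mpr (by
        refine ⟨?_, ?_⟩
        · rw [Multiset.sum_replicate, smul_eq_mul, Fintype.card_fin, Nat.div_mul_cancel hpn]
        · intro a ha
          rw [Multiset.eq_of_mem_replicate ha]; exact hp.two_le)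
    refine ⟨g, ?_, ?_⟩
    · have hdvd : orderOf g ∣ p := by
        rw [← Equiv.Perm.lcm_cycleType, hg, Multiset.lcm_dvd]
        intro b hb
        rw [Multiset.eq_of_mem_replicate hb]
      have hne : orderOf g ≠ 1 := by
        intro h1
        rw [orderOf_eq_one_iff] at h1
        rw [h1, Equiv.Perm.cycleType_one] at hg
        have := congrArg Multiset.card hg
        rw [Multiset.card_zero, Multiset.card_replicate] at this
        omega
      exact ((Nat.dvd_prime hp).mp hdvd).resolve_left hne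
    · have hsupp : g.support.card = n := by
        rw [← Equiv.Perm.sum_cycleType, hg, Multiset.sum_replicate, smul_eq_mul,
          Nat.div_mul_cancel hpn]
      have huniv : g.support = Finset.univ := by
        apply Finset.eq_univ_of_card
        rw [hsupp, Fintype.card_fin]
      intro i
      have : i ∈ g.support := by rw [huniv]; exact Finset.mem_univ i
      exact Equiv.Perm.mem_support.mp this
  -- (B) structure
  have hB : ∀ g : Equiv.Perm (Fin n), (orderOf g).Prime → (∀ i, g i ≠ i) →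
      orderOf g ∣ n ∧ g.cycleType = Multiset.replicate (n / orderOf g) (orderOf g) := by
    intro g hgp hgd
    obtain ⟨k, hk⟩ := Equiv.Perm.cycleType_prime_order hgp
    have huniv : g.support = Finset.univ := by
      ext i
      simp only [Equiv.Perm.mem_support, Finset.mem_univ, iff_true]
      exact hgd i
    have hsum : (k + 1) * orderOf g = n := by
      have h1 := Equiv.Perm.sum_cycleType g
      rw [hk, Multiset.sum_replicate, smul_eq_mul, huniv, Finset.card_univ, Fintype.card_fin] at h1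
      exact h1
    refine ⟨Dvd.intro_left _ hsum, ?_⟩
    have hdiv : n / orderOf g = k + 1 :=
      Nat.div_eq_of_eq_mul_left hgp.pos hsum.symm
    rw [hdiv]; exact hk
  rw [isPrimePow_iff_unique_prime_dvd, Nat.card_eq_one_iff_unique]
  constructor
  · rintro ⟨hsub, -⟩
    have hn1 : n ≠ 1 := by omega
    refine ⟨n.minFac, ⟨Nat.minFac_prime hn1, Nat.minFac_dvd n⟩, ?_⟩
    rintro q ⟨hq, hqn⟩
    obtain ⟨g, hgo, hgd⟩ := hA q hq hqn
    obtain ⟨g', hgo', hgd'⟩ := hA n.minFac (Nat.minFac_prime hn1) (Nat.minFac_dvd n)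
    have h1 := hsub.elim ⟨ConjClasses.mk g, g, rfl, hgo ▸ hq, hgd⟩
      ⟨ConjClasses.mk g', g', rfl, hgo' ▸ Nat.minFac_prime hn1, hgd'⟩
    have h2 : ConjClasses.mk g = ConjClasses.mk g' := congrArg Subtype.val h1
    rw [ConjClasses.mk_eq_mk_iff_isConj, Equiv.Perm.isConj_iff_cycleType_eq] at h2
    have h3 : orderOf g = orderOf g' := by
      rw [← Equiv.Perm.lcm_cycleType, ← Equiv.Perm.lcm_cycleType, h2]
    rw [← hgo, ← hgo', h3]
  · rintro ⟨p, ⟨hp, hpn⟩, huniq⟩
    refine ⟨⟨?_⟩, ?_⟩
    · rintro ⟨c, g, rfl, hgp, hgd⟩ ⟨c', g', rfl, hgp', hgd'⟩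
      apply Subtype.ext
      show ConjClasses.mk g = ConjClasses.mk g'
      rw [ConjClasses.mk_eq_mk_iff_isConj, Equiv.Perm.isConj_iff_cycleType_eq]
      obtain ⟨h1, h2⟩ := hB g hgp hgd
      obtain ⟨h1', h2'⟩ := hB g' hgp' hgd'
      have e1 : orderOf g = p := huniq _ ⟨hgp, h1⟩
      have e2 : orderOf g' = p := huniq _ ⟨hgp', h1'⟩
      rw [h2, h2', e1, e2]
    · obtain ⟨g, hgo, hgd⟩ := hA p hp hpn
      exact ⟨⟨ConjClasses.mk g, g, rfl, hgo ▸ hp, hgd⟩⟩

end Cfsg.Agent.S3504
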