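import Cfsg.Statements.S3508

set_option autoImplicit false
open Cfsg

namespace Cfsg.Agent.S3508

theorem affine_core_mod {p m : ℕ} [hp : Fact p.Prime] {A : Type*} [AddCommGroup A] [Finite A]
    [Module (ZMod p) A] (hA : Nat.card A = p ^ m) (c : A →+ A) (v : A) (s : ℕ)
    (hT : ∀ x, (fun x => c x + v)^[p ^ s] x = x) (j : ℕ) (hj : m < p ^ j) :
    ∀ x, (fun x => c x + v)^[p ^ j] x = x := by
  let L : Module.End (ZMod p) (A × ZMod p) :=
    LinearMap.prod ((c.toZModLinearMap p).coprod (LinearMap.toSpanSingleton (ZMod p) A v))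
      (LinearMap.snd (ZMod p) A (ZMod p))
  have hL1 : ∀ k x, (L ^ k) (x, 1) = ((fun x => c x + v)^[k] x, 1) := by
    intro k
    induction k with
    | zero => intro x; simp
    | succ k ih =>
      intro x
      rw [pow_succ', Module.End.mul_apply, ih, Function.iterate_succ_apply']
      simp [L]
  have hfix : ∀ k, (∀ x, (fun x => c x + v)^[k] x = x) → L ^ k = 1 := by
    intro k hk
    have h1 : ∀ x, (L ^ k) (x, 1) = (x, 1) := fun x => by rw [hL1, hk]
    apply LinearMap.ext
    rintro ⟨x, t⟩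
    have e : ((x, t) : A × ZMod p) = ((x, 1) - (0, 1)) + t • ((0 : A), (1 : ZMod p)) := by
      simp
    rw [e, map_add, map_sub, map_smul, h1, h1]
    simp
  have hfix' : ∀ k, L ^ k = 1 → (∀ x, (fun x => c x + v)^[k] x = x) := by
    intro k hk x
    have := hL1 k x
    rw [hk] at this
    simpa using this.symm
  have hp0 : ((p : ℕ) : Module.End (ZMod p) (A × ZMod p)) = 0 := by
    apply LinearMap.ext
    intro x
    rw [Module.End.natCast_apply, ← Nat.cast_smul_eq_nsmul (ZMod p), CharP.cast_eq_zero, zero_smul]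
    rfl
  have hnt : Nontrivial (Module.End (ZMod p) (A × ZMod p)) := by
    refine ⟨⟨0, 1, ?_⟩⟩
    intro h
    have := congrArg (fun f => (f ((0 : A), (1 : ZMod p))).2) h
    simp at this
  have hchar : CharP (Module.End (ZMod p) (A × ZMod p)) p :=
    (CharP.charP_iff_prime_eq_zero hp.out).2 hp0
  have _f2 : Module.Finite (ZMod p) A := Module.Finite.of_finite
  have hfin : Module.finrank (ZMod p) (A × ZMod p) = m + 1 := by
    have h1 : Nat.card A = Nat.card (ZMod p) ^ Module.finrank (ZMod p) A :=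
      Module.natCard_eq_pow_finrank
    rw [Nat.card_zmod, hA] at h1
    have h2 : Module.finrank (ZMod p) A = m :=
      (Nat.pow_right_injective hp.out.two_le h1).symm
    rw [Module.finrank_prod, h2, Module.finrank_self]
  have hnil : (L - 1) ^ (p ^ s) = 0 := by
    rw [sub_pow_char_pow_of_commute _ _ (Commute.one_right _), one_pow, hfix _ hT, sub_self]
  have hnil2 : (L - 1) ^ (m + 1) = 0 := by
    have hN : IsNilpotent (L - 1) := ⟨_, hnil⟩
    have h1 := IsNilpotent.charpoly_eq_X_pow_finrank hN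
    have h2 := LinearMap.aeval_self_charpoly (L - 1)
    rw [h1, hfin] at h2
    simpa using h2
  have hnil3 : (L - 1) ^ (p ^ j) = 0 := by
    have : p ^ j = (m + 1) + (p ^ j - (m + 1)) := by omega
    rw [this, pow_add, hnil2, zero_mul]
  have hLj : L ^ (p ^ j) = 1 := by
    have : L = (L - 1) + 1 := by abel
    rw [this, add_pow_char_pow_of_commute _ _ (Commute.one_right _), hnil3, one_pow, zero_add]
  exact hfix' _ hLj

theorem affine_core {p m : ℕ} (hp : p.Prime) {A : Type*} [AddCommGroup A] [Finite A]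
    (hexp : ∀ x : A, p • x = 0) (hA : Nat.card A = p ^ m) (c : A →+ A) (v : A) (s : ℕ)
    (hT : ∀ x, (fun x => c x + v)^[p ^ s] x = x) (j : ℕ) (hj : m < p ^ j) :
    ∀ x, (fun x => c x + v)^[p ^ j] x = x := by
  have : Fact p.Prime := ⟨hp⟩
  let md : Module (ZMod p) A := AddCommGroup.zmodModule hexp
  exact affine_core_mod hA c v s hT j hj

theorem affine_core' {p m : ℕ} (hp : p.Prime) {V : Type*} [CommGroup V] [Finite V]
    (hexp : ∀ x : V, x ^ p = 1) (hV : Nat.card V = p ^ m) (c : V →* V) (v : V) (s : ℕ)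
    (hT : ∀ x, (fun x => c x * v)^[p ^ s] x = x) (j : ℕ) (hj : m < p ^ j) :
    ∀ x, (fun x => c x * v)^[p ^ j] x = x := by
  intro x
  have _f1 : Finite (Additive V) := ‹Finite V›
  have := affine_core hp (A := Additive V) (fun a => congrArg Additive.ofMul (hexp a.toMul))
    hV (MonoidHom.toAdditive c) (Additive.ofMul v) s (fun a => hT a.toMul) j hj (Additive.ofMul x)
  exact this

theorem affine_core'' {p m : ℕ} (hp : p.Prime) {V : Type*} [Group V] [Finite V]
    (hcomm : ∀ a b : V, a * b = b * a)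
    (hexp : ∀ x : V, x ^ p = 1) (hV : Nat.card V = p ^ m) (c : V →* V) (v : V) (s : ℕ)
    (hT : ∀ x, (fun x => c x * v)^[p ^ s] x = x) (j : ℕ) (hj : m < p ^ j) :
    ∀ x, (fun x => c x * v)^[p ^ j] x = x := by
  let cg : CommGroup V := { ‹Group V› with mul_comm := hcomm }
  exact affine_core' hp hexp hV c v s hT j hj

/-- Let a finite group G act faithfully on a set Ω with p ^ m points (p prime) and have an elementary abelian normal p-subgroup N acting regularly on Ω (so G is a group of affine transformations of an m-dimensional space over the field with p elements). If G contains an element of order p ^ r with r ≥ 1, then p ^ (r − 1) ≤ m. In particular an element of order p ^ m forces m ≤ 2, and m ≤ 1 when p is odd. -/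
theorem result {G : Type*} [Group G] [Finite G] {Ω : Type*} [Fintype Ω] [MulAction G Ω] [FaithfulSMul G Ω] (p m : ℕ) (hp : p.Prime) (hcard : Fintype.card Ω = p ^ m)
    (N : Subgroup G) [N.Normal] (hNc : IsMulCommutative N) (hNp : ∀ n ∈ N, n ^ p = 1)
    (hNtr : MulAction.IsPretransitive N Ω) (hNreg : ∀ ω : Ω, MulAction.stabilizer N ω = ⊥)
    (g : G) (r : ℕ) (hr : 1 ≤ r) (hg : orderOf g = p ^ r) :
    p ^ (r - 1) ≤ m ∧ (r = m → m ≤ 2 ∧ (2 < p → m ≤ 1)) := by
  classical
  have hpos : 0 < Fintype.card Ω := by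
    rw [hcard]; exact Nat.pos_of_ne_zero (pow_ne_zero _ hp.ne_zero)
  obtain ⟨ω0⟩ : Nonempty Ω := Fintype.card_pos_iff.mp hpos
  have hinj : Function.Injective (fun n : N => n • ω0) := by
    intro a b hab
    have hab' : a • ω0 = b • ω0 := hab
    have : a⁻¹ * b ∈ MulAction.stabilizer N ω0 := by
      rw [MulAction.mem_stabilizer_iff, mul_smul, ← hab', inv_smul_smul]
    rw [hNreg ω0, Subgroup.mem_bot] at this
    exact (inv_mul_eq_one.mp this)
  have hsurj : Function.Surjective (fun n : N => n • ω0) :=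
    fun ω => MulAction.exists_smul_eq N ω0 ω
  have hNcard : Nat.card N = p ^ m := by
    rw [Nat.card_eq_of_bijective _ ⟨hinj, hsurj⟩, Nat.card_eq_fintype_card, hcard]
  let c : N →* N := (MulAut.conjNormal g : MulAut N).toMonoidHom
  have hc : ∀ n : N, ((c n : N) : G) = g * n * g⁻¹ := fun n => by simp [c]
  obtain ⟨v, hv⟩ := MulAction.exists_smul_eq N ω0 (g • ω0)
  have hv' : (v : G) • ω0 = g • ω0 := hv
  have key : ∀ (k : ℕ) (n : N), g ^ k • (n • ω0) = ((fun x => c x * v)^[k] n) • ω0 := by
    intro k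
    induction k with
    | zero => intro n; simp
    | succ k ih =>
      intro n
      rw [pow_succ', mul_smul, ih, Function.iterate_succ_apply']
      generalize (fun x => c x * v)^[k] n = n'
      show g • ((n' : G) • ω0) = ((c n' * v : N) : G) • ω0
      rw [Subgroup.coe_mul, hc, mul_smul, hv', mul_smul, mul_smul, inv_smul_smul]
  have hT : ∀ x, (fun x => c x * v)^[p ^ r] x = x := by
    intro x
    apply hinj
    show ((fun x => c x * v)^[p ^ r] x) • ω0 = x • ω0
    rw [← key, ← hg, pow_orderOf_eq_one, one_smul]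
  have hmain : p ^ (r - 1) ≤ m := by
    by_contra hlt
    push Not at hlt
    have h1 := affine_core'' hp (V := N) (fun a b => hNc.is_comm.comm a b)
      (fun x => Subtype.ext (by simpa using hNp x x.2)) hNcard c v r hT (r - 1) hlt
    have h2 : g ^ (p ^ (r - 1)) = 1 := by
      apply FaithfulSMul.eq_of_smul_eq_smul (α := Ω)
      intro ω
      obtain ⟨n, rfl⟩ := hsurj ω
      show g ^ (p ^ (r - 1)) • (n • ω0) = (1 : G) • (n • ω0)
      rw [key, h1, one_smul]
    have h3 : orderOf g ∣ p ^ (r - 1) := orderOf_dvd_of_pow_eq_one h2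
    rw [hg] at h3
    have h4 := Nat.le_of_dvd (Nat.pos_of_ne_zero (pow_ne_zero _ hp.ne_zero)) h3
    have h5 : p ^ (r - 1) < p ^ r := Nat.pow_lt_pow_right hp.one_lt (by omega)
    omega
  refine ⟨hmain, ?_⟩
  intro hrm
  subst hrm
  constructor
  · by_contra h
    push Not at h
    obtain ⟨k, rfl⟩ : ∃ k, r = k + 3 := ⟨r - 3, by omega⟩
    have h1 : 2 ^ (k + 2) ≤ p ^ (k + 2) := Nat.pow_le_pow_left hp.two_le _
    have h2 : k < 2 ^ k := Nat.lt_two_pow_self
    have h3 : 2 ^ (k + 2) = 4 * 2 ^ k := by ring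
    have h4 : k + 3 - 1 = k + 2 := by omega
    rw [h4] at hmain
    omega
  · intro hp2
    by_contra h
    push Not at h
    obtain ⟨k, rfl⟩ : ∃ k, r = k + 2 := ⟨r - 2, by omega⟩
    have h1 : 3 ^ (k + 1) ≤ p ^ (k + 1) := Nat.pow_le_pow_left hp2 _
    have h2 : k < 3 ^ k := Nat.lt_pow_self (by norm_num)
    have h3 : 3 ^ (k + 1) = 3 * 3 ^ k := by ring
    have h4 : k + 2 - 1 = k + 1 := by omega
    rw [h4] at hmain
    omega

end Cfsg.Agent.S3508
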