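import Cfsg.Statements.S3511

set_option autoImplicit false
open Cfsg

namespace Cfsg.Agent.S3511

/-- Let a finite group G act faithfully on a set Ω. If every element of G of square-free order has a regular cycle (an orbit of the cyclic group it generates with trivial stabilizer), then every element of G has a regular cycle. -/
theorem result {G : Type*} [Group G] [Finite G] {Ω : Type*} [MulAction G Ω] [FaithfulSMul G Ω]
    (h : ∀ g : G, Squarefree (orderOf g) → ∃ ω : Ω, MulAction.stabilizer (Subgroup.zpowers g) ω = ⊥) (g : G) :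
    ∃ ω : Ω, MulAction.stabilizer (Subgroup.zpowers g) ω = ⊥ := by
  classical
  have hn0 : 0 < orderOf g := orderOf_pos g
  set n := orderOf g with hn
  set r := ∏ p ∈ n.primeFactors, p with hr
  have hr_dvd : r ∣ n := Nat.prod_primeFactors_dvd n
  have hr_sqf : Squarefree r := by
    apply Finset.squarefree_prod_of_pairwise_isCoprime
    · intro p hp q hq hpq
      have hp' := (Nat.mem_primeFactors.mp hp).1
      have hq' := (Nat.mem_primeFactors.mp hq).1
      exact (Nat.coprime_iff_isRelPrime.mp ((Nat.coprime_primes hp' hq').mpr hpq))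
    · intro p hp
      exact (Nat.mem_primeFactors.mp hp).1.prime.squarefree
  have hr0 : 0 < r := Nat.pos_of_dvd_of_pos hr_dvd hn0
  have hord : orderOf (g ^ (n / r)) = r := orderOf_pow_orderOf_div hn0.ne' hr_dvd
  obtain ⟨ω, hω⟩ := h (g ^ (n / r)) (by rw [hord]; exact hr_sqf)
  refine ⟨ω, ?_⟩
  rw [Subgroup.eq_bot_iff_forall]
  rintro ⟨a, ha⟩ hmem
  by_contra hne
  have ha1 : a ≠ 1 := fun h1 => hne (Subtype.ext h1)
  have hfix : a • ω = ω := hmem
  obtain ⟨k, rfl⟩ := (mem_powers_iff_mem_zpowers.mpr ha)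
  set d := orderOf (g ^ k) with hd
  have hd1 : d ≠ 1 := fun h1 => ha1 (orderOf_eq_one_iff.mp h1)
  obtain ⟨p, hp, hpd⟩ := Nat.exists_prime_and_dvd hd1
  have hd0 : 0 < d := orderOf_pos _
  set z := (g ^ k) ^ (d / p) with hz
  have hzp : z ^ p = 1 := by
    rw [hz, ← pow_mul, Nat.div_mul_cancel hpd]; exact pow_orderOf_eq_one _
  have hz1 : z ≠ 1 := by
    apply pow_ne_one_of_lt_orderOf
    · exact (Nat.div_pos (Nat.le_of_dvd hd0 hpd) hp.pos).ne'
    · exact Nat.div_lt_self hd0 hp.one_lt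
  have hzfix : z • ω = ω :=
    MulAction.mem_stabilizer_iff.mp (Subgroup.pow_mem _ (MulAction.mem_stabilizer_iff.mpr hfix) _)
  have hzord : orderOf z = p := by
    haveI := Fact.mk hp
    exact orderOf_eq_prime hzp hz1
  have hzg : z = g ^ (k * (d / p)) := by rw [hz, ← pow_mul]
  have hpn : p ∣ n := by
    rw [← hzord, hzg]; exact orderOf_pow_dvd _
  have hpr : p ∣ r := Finset.dvd_prod_of_mem _ (Nat.mem_primeFactors.mpr ⟨hp, hpn, hn0.ne'⟩)
  have hnm : n ∣ k * (d / p) * p := by
    apply orderOf_dvd_of_pow_eq_one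
    rw [pow_mul, ← hzg]; exact hzp
  have hdiv : n / r ∣ k * (d / p) := by
    obtain ⟨r', hr'⟩ := hpr
    obtain ⟨q, hq⟩ := hr_dvd
    have h1 : n / r = q := by rw [hq]; exact Nat.mul_div_cancel_left q hr0
    rw [h1]
    have h2 : p * (r' * q) ∣ p * (k * (d / p)) := by
      have h4 : p * (r' * q) = n := by rw [hq, hr']; ring
      rw [h4, mul_comm p]; exact hnm
    have h3 := (Nat.mul_dvd_mul_iff_left hp.pos).mp h2
    exact (Dvd.intro_left r' rfl).trans h3
  obtain ⟨c, hc⟩ := hdiv
  have hzmem : z ∈ Subgroup.zpowers (g ^ (n / r)) := by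
    rw [hzg, hc, pow_mul]; exact Subgroup.pow_mem _ (Subgroup.mem_zpowers _) _
  have h5 : (⟨z, hzmem⟩ : Subgroup.zpowers (g ^ (n / r))) ∈ MulAction.stabilizer (Subgroup.zpowers (g ^ (n / r))) ω := hzfix
  rw [hω, Subgroup.mem_bot] at h5
  exact hz1 (congrArg Subtype.val h5)

end Cfsg.Agent.S3511
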