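import Cfsg.Statements.S3514
import Cfsg.Agent.Lib.Helper20.OrbitCard

set_option autoImplicit false
open Cfsg

namespace Cfsg.Agent.S3514

/-- Let p be a prime, V a finite vector space over the field with p elements, and H a group of linear transformations of V all of whose orbits on V have size coprime to p. (i) Every normal subgroup K of H has all its orbits on V of size coprime to p. (ii) If N is a group of linear transformations of V of order coprime to p that is normalized by H, then the group generated by N and H has all its orbits on V of size coprime to p. -/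
theorem result (p : ℕ) [Fact p.Prime] {V : Type*} [AddCommGroup V] [Module (ZMod p) V] [Finite V]
    (H : Subgroup (V ≃ₗ[ZMod p] V)) (hH : ∀ v : V, ¬ p ∣ Nat.card {u : V | ∃ h ∈ H, h v = u}) :
    (∀ K : Subgroup (V ≃ₗ[ZMod p] V), K ≤ H → H ≤ Subgroup.normalizer (K : Set (V ≃ₗ[ZMod p] V)) →
        ∀ v : V, ¬ p ∣ Nat.card {u : V | ∃ k ∈ K, k v = u}) ∧
    (∀ N : Subgroup (V ≃ₗ[ZMod p] V), ¬ p ∣ Nat.card N → H ≤ Subgroup.normalizer (N : Set (V ≃ₗ[ZMod p] V)) →
        ∀ v : V, ¬ p ∣ Nat.card {u : V | ∃ x ∈ N ⊔ H, x v = u}) := by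
  haveI : Finite (V ≃ₗ[ZMod p] V) :=
    Finite.of_injective (fun f : V ≃ₗ[ZMod p] V => (f : V → V)) DFunLike.coe_injective
  have hp : p.Prime := Fact.out
  have horb : ∀ (K : Subgroup (V ≃ₗ[ZMod p] V)) (v : V),
      {u : V | ∃ k ∈ K, k v = u} = MulAction.orbit K v := by
    intro K v
    ext u
    constructor
    · rintro ⟨k, hk, rfl⟩; exact ⟨⟨k, hk⟩, rfl⟩
    · rintro ⟨k, rfl⟩; exact ⟨k, k.2, rfl⟩
  simp only [horb] at hH ⊢
  refine ⟨?_, ?_⟩
  · intro K hKH hn v hdvd
    exact hH v (hdvd.trans (Cfsg.Agent.Lib.Helper20.orbit_card_dvd_of_normal K H hKH hn v))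
  · intro N hN hn v hdvd
    have := hdvd.trans (Cfsg.Agent.Lib.Helper20.orbit_card_dvd_of_sup N H hn v)
    rcases (Nat.Prime.dvd_mul hp).mp this with h | h
    · exact hH v h
    · exact hN h

end Cfsg.Agent.S3514
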