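import Cfsg.Statements.S3515
import Cfsg.Agent.Lib.Helper20.AffineClosure

set_option autoImplicit false
open Cfsg

namespace Cfsg.Agent.S3515

theorem four_points : ∀ x : Fin 2 → ZMod 2, x = 0 ∨ x = Pi.single 0 1 ∨ x = Pi.single 1 1 ∨
    x = Pi.single 0 1 + Pi.single 1 1 := by decide

theorem w_ne : (Pi.single 0 1 + Pi.single 1 1 : Fin 2 → ZMod 2) ≠ 0 ∧
    (Pi.single 0 1 + Pi.single 1 1 : Fin 2 → ZMod 2) ≠ Pi.single 0 1 ∧
    (Pi.single 0 1 + Pi.single 1 1 : Fin 2 → ZMod 2) ≠ Pi.single 1 1 := by decide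

/-- Every primitive affine permutation group of degree p² is 3-closed. Let p be a prime and G a group of permutations of the plane V = F_p² consisting of affine maps x ↦ Ax + b, containing all translations, and acting primitively on V. Then any permutation σ of V that agrees on every triple of points with some element of G (σ preserves every G-orbit on ordered triples) already lies in G. -/
theorem result (p : ℕ) [Fact p.Prime] (G : Subgroup (Equiv.Perm (Fin 2 → ZMod p)))
    (haff : (G : Set (Equiv.Perm (Fin 2 → ZMod p))) ⊆ {τ : Equiv.Perm (Fin 2 → ZMod p) | ∃ (A : (Fin 2 → ZMod p) ≃ₗ[ZMod p] (Fin 2 → ZMod p)) (b : Fin 2 → ZMod p), ∀ x, τ x = A x + b})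
    (htrans : ∀ b : Fin 2 → ZMod p, ∃ g ∈ G, ∀ x, g x = x + b) (hprim : MulAction.IsPreprimitive G (Fin 2 → ZMod p))
    (σ : Equiv.Perm (Fin 2 → ZMod p)) (hσ : (∀ t : Fin 3 → (Fin 2 → ZMod p), ∃ g ∈ G, ∀ i, σ (t i) = g (t i))) : σ ∈ G := by
  obtain ⟨g, hgG, hg⟩ := hσ ![0, Pi.single 0 1, Pi.single 1 1]
  have hg0 : σ 0 = g 0 := hg 0
  have hg1 : σ (Pi.single 0 1) = g (Pi.single 0 1) := hg 1
  have hg2 : σ (Pi.single 1 1) = g (Pi.single 1 1) := hg 2
  suffices σ = g by rw [this]; exact hgG
  obtain ⟨A, b, hA⟩ := haff hgG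
  by_cases hp2 : p = 2
  · subst hp2
    apply Equiv.ext
    intro x
    rcases four_points x with rfl | rfl | rfl | rfl
    · exact hg0
    · exact hg1
    · exact hg2
    · have e : σ (Pi.single 0 1 + Pi.single 1 1) = g (g.symm (σ (Pi.single 0 1 + Pi.single 1 1))) :=
        (Equiv.apply_symm_apply g _).symm
      rcases four_points (g.symm (σ (Pi.single 0 1 + Pi.single 1 1))) with h | h | h | h
      · rw [h] at e
        exact absurd (σ.injective (e.trans hg0.symm)) w_ne.1
      · rw [h] at e
        exact absurd (σ.injective (e.trans hg1.symm)) w_ne.2.1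
      · rw [h] at e
        exact absurd (σ.injective (e.trans hg2.symm)) w_ne.2.2
      · rw [h] at e
        exact e
  · have h2 : (2 : ZMod p) ≠ 0 := by
      intro h
      have h' : ((2 : ℕ) : ZMod p) = 0 := by exact_mod_cast h
      rw [ZMod.natCast_eq_zero_iff] at h'
      have := Nat.le_of_dvd (by norm_num) h'
      have := (Fact.out : p.Prime).two_le
      omega
    obtain ⟨T, hT⟩ := Cfsg.Agent.Lib.Helper20.exists_linear_of_triples h2 σ (fun u v w => by
      obtain ⟨g', hg'G, hg'⟩ := hσ ![u, v, w]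
      obtain ⟨A', b', hA'⟩ := haff hg'G
      exact ⟨A'.toLinearMap, b', by rw [LinearEquiv.coe_coe, ← hA']; exact hg' 0,
        by rw [LinearEquiv.coe_coe, ← hA']; exact hg' 1,
        by rw [LinearEquiv.coe_coe, ← hA']; exact hg' 2⟩)
    have hb : b = σ 0 := by rw [hg0, hA, map_zero, zero_add]
    have hTA : T = A.toLinearMap := by
      apply (Pi.basisFun (ZMod p) (Fin 2)).ext
      intro i
      rw [Pi.basisFun_apply, LinearEquiv.coe_coe]
      fin_cases i
      · have h1 := hT (Pi.single 0 1)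
        rw [hg1, hA, ← hb] at h1
        exact (add_right_cancel h1).symm
      · have h1 := hT (Pi.single 1 1)
        rw [hg2, hA, ← hb] at h1
        exact (add_right_cancel h1).symm
    apply Equiv.ext
    intro x
    rw [hT x, hA x, hTA, ← hb, LinearEquiv.coe_coe]

end Cfsg.Agent.S3515
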