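import Cfsg.Statements.S3516
import Cfsg.Agent.Lib.Helper20.AffineClosure

set_option autoImplicit false
open Cfsg

namespace Cfsg.Agent.S3516

/-- Let p be an odd prime, d ≥ 3, and G a group of affine permutations x ↦ Ax + b of V = F_p^d containing all translations and all maps x ↦ Ax with A of determinant 1. Then the 3-closure of G is the full affine group: a permutation σ of V agrees on every triple of points with some element of G if and only if σ is an affine map. -/
theorem result (p : ℕ) [Fact p.Prime] (hp : p ≠ 2) (d : ℕ) (hd : 3 ≤ d) (G : Subgroup (Equiv.Perm (Fin d → ZMod p)))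
    (haff : (G : Set (Equiv.Perm (Fin d → ZMod p))) ⊆ {τ : Equiv.Perm (Fin d → ZMod p) | ∃ (A : (Fin d → ZMod p) ≃ₗ[ZMod p] (Fin d → ZMod p)) (b : Fin d → ZMod p), ∀ x, τ x = A x + b})
    (htrans : ∀ b : Fin d → ZMod p, ∃ g ∈ G, ∀ x, g x = x + b)
    (hsl : ∀ A : (Fin d → ZMod p) ≃ₗ[ZMod p] (Fin d → ZMod p), LinearMap.det (A : (Fin d → ZMod p) →ₗ[ZMod p] (Fin d → ZMod p)) = 1 → ∃ g ∈ G, ∀ x, g x = A x)
    (σ : Equiv.Perm (Fin d → ZMod p)) :
    (∀ t : Fin 3 → (Fin d → ZMod p), ∃ g ∈ G, ∀ i, σ (t i) = g (t i)) ↔ σ ∈ {τ : Equiv.Perm (Fin d → ZMod p) | ∃ (A : (Fin d → ZMod p) ≃ₗ[ZMod p] (Fin d → ZMod p)) (b : Fin d → ZMod p), ∀ x, τ x = A x + b} := by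
  have h2 : (2 : ZMod p) ≠ 0 := by
    intro h
    have h' : ((2 : ℕ) : ZMod p) = 0 := by exact_mod_cast h
    rw [ZMod.natCast_eq_zero_iff] at h'
    have := Nat.le_of_dvd (by norm_num) h'
    have := (Fact.out : p.Prime).two_le
    omega
  constructor
  · intro hσ
    obtain ⟨T, hT⟩ := Cfsg.Agent.Lib.Helper20.exists_linear_of_triples h2 σ (fun u v w => by
      obtain ⟨g', hg'G, hg'⟩ := hσ ![u, v, w]
      obtain ⟨A', b', hA'⟩ := haff hg'G
      exact ⟨A'.toLinearMap, b', by rw [LinearEquiv.coe_coe, ← hA']; exact hg' 0,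
        by rw [LinearEquiv.coe_coe, ← hA']; exact hg' 1,
        by rw [LinearEquiv.coe_coe, ← hA']; exact hg' 2⟩)
    have hinj : Function.Injective T := by
      intro x y hxy
      apply σ.injective
      rw [hT x, hT y, hxy]
    refine ⟨LinearEquiv.ofInjectiveEndo T hinj, σ 0, fun x => ?_⟩
    rw [hT x]
    rfl
  · rintro ⟨A, b, hA⟩ t
    set u := t 1 - t 0 with hu
    set w := t 2 - t 0 with hw
    set W : Submodule (ZMod p) (Fin d → ZMod p) := Submodule.span (ZMod p) {u, w} with hW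
    have hWlt : W < ⊤ := by
      rw [lt_top_iff_ne_top]
      intro htop
      have h1 : Module.finrank (ZMod p) W ≤ 2 := by
        have h3 := finrank_span_finset_le_card (R := ZMod p) ({u, w} : Finset (Fin d → ZMod p))
        have h4 : (({u, w} : Finset (Fin d → ZMod p)) : Set (Fin d → ZMod p)) = {u, w} := by simp
        rw [h4] at h3
        exact h3.trans Finset.card_le_two
      rw [htop, finrank_top, Module.finrank_fin_fun] at h1
      omega
    obtain ⟨φ, hφ0, hφW⟩ := W.exists_le_ker_of_lt_top hWlt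
    obtain ⟨z₀, hz₀⟩ : ∃ z₀, φ z₀ ≠ 0 := by
      by_contra hcon
      push Not at hcon
      exact hφ0 (LinearMap.ext hcon)
    set z := (φ z₀)⁻¹ • z₀ with hz
    have hφz : φ z = 1 := by rw [hz, map_smul, smul_eq_mul, inv_mul_cancel₀ hz₀]
    have hdetA : IsUnit (LinearMap.det (A : (Fin d → ZMod p) →ₗ[ZMod p] (Fin d → ZMod p))) :=
      LinearEquiv.isUnit_det' A
    set δ := (LinearMap.det (A : (Fin d → ZMod p) →ₗ[ZMod p] (Fin d → ZMod p)))⁻¹ with hδ
    have hδ0 : δ ≠ 0 := inv_ne_zero hdetA.ne_zero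
    set v := (δ - 1) • z with hv
    have hφv : 1 + φ v = δ := by rw [hv, map_smul, hφz, smul_eq_mul, mul_one]; ring
    have hunit : IsUnit (1 + φ v) := by rw [hφv]; exact isUnit_iff_ne_zero.mpr hδ0
    set D := LinearEquiv.dilatransvection hunit with hD
    have hDW : ∀ x ∈ W, D x = x := by
      intro x hx
      rw [hD, LinearEquiv.dilatransvection.apply]
      have : φ x = 0 := hφW hx
      rw [this, zero_smul, add_zero]
    have hdetB : LinearMap.det ((D.trans A : (Fin d → ZMod p) ≃ₗ[ZMod p] (Fin d → ZMod p)) :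
        (Fin d → ZMod p) →ₗ[ZMod p] (Fin d → ZMod p)) = 1 := by
      have e : ((D.trans A : (Fin d → ZMod p) ≃ₗ[ZMod p] (Fin d → ZMod p)) :
          (Fin d → ZMod p) →ₗ[ZMod p] (Fin d → ZMod p)) =
          (A : (Fin d → ZMod p) →ₗ[ZMod p] (Fin d → ZMod p)) ∘ₗ
            (D : (Fin d → ZMod p) →ₗ[ZMod p] (Fin d → ZMod p)) := rfl
      rw [e, LinearMap.det_comp, hD, LinearEquiv.dilatransvection.coe_toLinearMap,
        LinearMap.transvection.det, hφv, hδ, mul_inv_cancel₀ hdetA.ne_zero]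
    obtain ⟨g₁, hg₁G, hg₁⟩ := hsl (D.trans A) hdetB
    obtain ⟨g₂, hg₂G, hg₂⟩ := htrans (A (t 0) + b - A (D (t 0)))
    refine ⟨g₂ * g₁, G.mul_mem hg₂G hg₁G, ?_⟩
    have hmem : ∀ i : Fin 3, t i - t 0 ∈ W := by
      intro i
      fin_cases i
      · simp
      · exact Submodule.subset_span (Set.mem_insert _ _)
      · exact Submodule.subset_span (Set.mem_insert_of_mem _ (Set.mem_singleton _))
    intro i
    rw [hA, Equiv.Perm.mul_apply, hg₂, hg₁, LinearEquiv.trans_apply]
    have h3 : D (t i) = D (t 0) + (t i - t 0) := by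
      have := hDW _ (hmem i)
      rw [map_sub] at this
      rw [← this]; abel
    rw [h3, map_add, map_sub]
    abel

end Cfsg.Agent.S3516
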