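import Cfsg.Statements.S3517

set_option autoImplicit false
open Cfsg

namespace Cfsg.Agent.S3517

theorem exists_linearEquiv_of_linearIndependent {K V ι : Type*} [Field K] [AddCommGroup V]
    [Module K V] [Finite ι] {v w : ι → V} (hv : LinearIndependent K v)
    (hw : LinearIndependent K w) : ∃ g : V ≃ₗ[K] V, ∀ i, g (v i) = w i := by
  let f : Submodule.span K (Set.range v) ≃ₗ[K] Submodule.span K (Set.range w) :=
    (Module.Basis.span hv).equiv (Module.Basis.span hw) (Equiv.refl ι)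
  haveI : FiniteDimensional K (Submodule.span K (Set.range v)) :=
    FiniteDimensional.span_of_finite K (Set.finite_range v)
  obtain ⟨g, hg⟩ := Submodule.exists_linearEquiv_restrict_eq f
  refine ⟨g, fun i => ?_⟩
  have h1 := hg (Module.Basis.span hv i)
  have h2 : f (Module.Basis.span hv i) = Module.Basis.span hw i :=
    Module.Basis.equiv_apply _ _ _ _
  rw [h2, Module.Basis.span_apply, Module.Basis.span_apply] at h1
  exact h1.symm

theorem exists_linearEquiv_single {K V : Type*} [Field K] [AddCommGroup V] [Module K V] {x y : V}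
    (hx : x ≠ 0) (hy : y ≠ 0) : ∃ g : V ≃ₗ[K] V, g x = y := by
  have hv : LinearIndependent K (fun _ : Unit => x) := linearIndependent_unique_iff.mpr hx
  have hw : LinearIndependent K (fun _ : Unit => y) := linearIndependent_unique_iff.mpr hy
  obtain ⟨g, hg⟩ := exists_linearEquiv_of_linearIndependent hv hw
  exact ⟨g, hg ()⟩

theorem exists_linearEquiv_pair_zmod2 {V : Type*} [AddCommGroup V] [Module (ZMod 2) V]
    {a b a' b' : V} (ha : a ≠ 0) (hb : b ≠ 0) (hab : a ≠ b) (ha' : a' ≠ 0) (hb' : b' ≠ 0)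
    (hab' : a' ≠ b') : ∃ g : V ≃ₗ[ZMod 2] V, g a = a' ∧ g b = b' := by
  have key : ∀ x y : V, x ≠ 0 → y ≠ 0 → x ≠ y → LinearIndependent (ZMod 2) ![x, y] := by
    intro x y hx hy hxy
    rw [LinearIndependent.pair_iff]
    intro s t hst
    have h01 : ∀ s : ZMod 2, s = 0 ∨ s = 1 := by decide
    have hs : s = 0 ∨ s = 1 := h01 s
    have ht : t = 0 ∨ t = 1 := h01 t
    rcases hs with rfl | rfl <;> rcases ht with rfl | rfl
    · exact ⟨rfl, rfl⟩
    · simp at hst; exact absurd hst hy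
    · simp at hst; exact absurd hst hx
    · exfalso
      simp only [one_smul] at hst
      apply hxy
      have h1 : x = -y := eq_neg_of_add_eq_zero_left hst
      have h2 : y + y = 0 := by
        have h3 := add_smul (1 : ZMod 2) 1 y
        rw [show (1 : ZMod 2) + 1 = 0 from by decide, zero_smul, one_smul] at h3
        exact h3.symm
      rw [h1]
      exact neg_eq_of_add_eq_zero_left h2
  obtain ⟨g, hg⟩ := exists_linearEquiv_of_linearIndependent (key a b ha hb hab)
    (key a' b' ha' hb' hab')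
  exact ⟨g, by simpa using hg 0, by simpa using hg 1⟩

/-- For d ≥ 3, the 3-closure of the affine group AGL_d(2) acting on F_2^d is the full symmetric group: every permutation of F_2^d agrees on every ordered triple of points with some affine map (AGL_d(2) is 3-transitive). -/
theorem result (d : ℕ) (hd : 3 ≤ d) (σ : Equiv.Perm (Fin d → ZMod 2)) (t : Fin 3 → (Fin d → ZMod 2)) :
    ∃ (A : (Fin d → ZMod 2) ≃ₗ[ZMod 2] (Fin d → ZMod 2)) (b : Fin d → ZMod 2), ∀ i, σ (t i) = A (t i) + b := by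
  have hσ := σ.injective
  obtain ⟨A, hA1, hA2⟩ : ∃ A : (Fin d → ZMod 2) ≃ₗ[ZMod 2] (Fin d → ZMod 2),
      A (t 1 - t 0) = σ (t 1) - σ (t 0) ∧ A (t 2 - t 0) = σ (t 2) - σ (t 0) := by
    have e1 : t 1 - t 0 = 0 ↔ σ (t 1) - σ (t 0) = 0 := by
      rw [sub_eq_zero, sub_eq_zero]; exact ⟨fun h => by rw [h], fun h => hσ h⟩
    have e2 : t 2 - t 0 = 0 ↔ σ (t 2) - σ (t 0) = 0 := by
      rw [sub_eq_zero, sub_eq_zero]; exact ⟨fun h => by rw [h], fun h => hσ h⟩
    have e3 : t 1 - t 0 = t 2 - t 0 ↔ σ (t 1) - σ (t 0) = σ (t 2) - σ (t 0) := by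
      rw [sub_left_inj, sub_left_inj]; exact ⟨fun h => by rw [h], fun h => hσ h⟩
    by_cases h1 : t 1 - t 0 = 0
    · by_cases h2 : t 2 - t 0 = 0
      · refine ⟨LinearEquiv.refl _ _, ?_, ?_⟩
        · rw [h1, e1.mp h1, map_zero]
        · rw [h2, e2.mp h2, map_zero]
      · obtain ⟨A, hA⟩ := exists_linearEquiv_single (K := ZMod 2) h2 (fun h => h2 (e2.mpr h))
        refine ⟨A, ?_, hA⟩
        rw [h1, e1.mp h1, map_zero]
    · by_cases h2 : t 2 - t 0 = 0
      · obtain ⟨A, hA⟩ := exists_linearEquiv_single (K := ZMod 2) h1 (fun h => h1 (e1.mpr h))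
        refine ⟨A, hA, ?_⟩
        rw [h2, e2.mp h2, map_zero]
      · by_cases h3 : t 1 - t 0 = t 2 - t 0
        · obtain ⟨A, hA⟩ := exists_linearEquiv_single (K := ZMod 2) h1 (fun h => h1 (e1.mpr h))
          refine ⟨A, hA, ?_⟩
          rw [← h3, hA, e3.mp h3]
        · exact exists_linearEquiv_pair_zmod2 h1 h2 h3 (fun h => h1 (e1.mpr h))
            (fun h => h2 (e2.mpr h)) (fun h => h3 (e3.mpr h))
  refine ⟨A, σ (t 0) - A (t 0), ?_⟩
  rw [map_sub] at hA1 hA2
  intro i
  fin_cases i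
  · show σ (t 0) = A (t 0) + (σ (t 0) - A (t 0))
    abel
  · show σ (t 1) = A (t 1) + (σ (t 0) - A (t 0))
    have h : σ (t 1) = (σ (t 1) - σ (t 0)) + σ (t 0) := by abel
    rw [h, ← hA1]; abel
  · show σ (t 2) = A (t 2) + (σ (t 0) - A (t 0))
    have h : σ (t 2) = (σ (t 2) - σ (t 0)) + σ (t 0) := by abel
    rw [h, ← hA2]; abel

end Cfsg.Agent.S3517
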