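import Cfsg.Statements.S3518
import Cfsg.Agent.Lib.Helper20.AGL1

set_option autoImplicit false
open Cfsg

namespace Cfsg.Agent.S3518

/-- Closures of subgroups of the one-dimensional affine group. Let p be a prime and G a group of permutations of F_p lying in the affine group AGL₁(p) = {x ↦ ax + b, a ≠ 0} and containing all translations. (1) If G is a proper subgroup of AGL₁(p), then G is 2-closed: a permutation of F_p agreeing on every ordered pair of points with some element of G lies in G. (2) Every permutation of F_p agrees on every ordered pair with some element of AGL₁(p) (the 2-closure of AGL₁(p) is the symmetric group). (3) AGL₁(p) is 3-closed: a permutation agreeing on every ordered triple with some affine map is affine. -/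
theorem result (p : ℕ) [Fact p.Prime] (G : Subgroup (Equiv.Perm (ZMod p))) (hG : G ≤ Cfsg.affineGroup (ZMod p))
    (htrans : ∀ b : ZMod p, ∃ g ∈ G, ∀ x, g x = x + b) :
    (G ≠ Cfsg.affineGroup (ZMod p) → ∀ σ : Equiv.Perm (ZMod p), (∀ t : Fin 2 → ZMod p, ∃ g ∈ G, ∀ i, σ (t i) = g (t i)) → σ ∈ G) ∧
    (∀ σ : Equiv.Perm (ZMod p), (∀ t : Fin 2 → ZMod p, ∃ g ∈ Cfsg.affineGroup (ZMod p), ∀ i, σ (t i) = g (t i))) ∧
    (∀ σ : Equiv.Perm (ZMod p), (∀ t : Fin 3 → ZMod p, ∃ g ∈ Cfsg.affineGroup (ZMod p), ∀ i, σ (t i) = g (t i)) → σ ∈ Cfsg.affineGroup (ZMod p)) := by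
  classical
  have hp : p.Prime := Fact.out
  refine ⟨?_, ?_, ?_⟩
  · intro hne σ hσ
    set ι : (ZMod p)ˣ →* Equiv.Perm (ZMod p) := MulAction.toPermHom (ZMod p)ˣ (ZMod p) with hι
    have hι_apply : ∀ (a : (ZMod p)ˣ) (x : ZMod p), ι a x = (a : ZMod p) * x := fun a x => rfl
    set A : Subgroup (ZMod p)ˣ := G.comap ι with hA
    have hF1 : ∀ g ∈ G, ∃ (a : A) (b : ZMod p),
        ∀ x, g x = ((a : (ZMod p)ˣ) : ZMod p) * x + b := by
      intro g hg
      obtain ⟨a, b, hab⟩ := hG hg
      obtain ⟨τ, hτG, hτ⟩ := htrans (-b)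
      have hmem : ι a ∈ G := by
        have : ι a = τ * g := by
          apply Equiv.ext
          intro x
          rw [Equiv.Perm.mul_apply, hτ, hab, hι_apply]; ring
        rw [this]; exact G.mul_mem hτG hg
      exact ⟨⟨a, hmem⟩, b, hab⟩
    have hAtop : A ≠ ⊤ := by
      intro htop
      apply hne
      apply le_antisymm hG
      intro g hg
      obtain ⟨a, b, hab⟩ := hg
      obtain ⟨τ, hτG, hτ⟩ := htrans b
      have hmem : ι a ∈ G := by
        have : a ∈ A := by rw [htop]; trivial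
        exact this
      have : g = τ * ι a := by
        apply Equiv.ext
        intro x
        rw [Equiv.Perm.mul_apply, hτ, hab, hι_apply]
      rw [this]; exact G.mul_mem hτG hmem
    have hF3 : ∀ (x : ZMod p) (a : A), ∃ a' : A,
        σ (x + ((a : (ZMod p)ˣ) : ZMod p)) - σ x = ((a' : (ZMod p)ˣ) : ZMod p) := by
      intro x a
      obtain ⟨g, hgG, hg⟩ := hσ ![x, x + ((a : (ZMod p)ˣ) : ZMod p)]
      obtain ⟨a₁, b, hab⟩ := hF1 g hgG
      refine ⟨a₁ * a, ?_⟩
      have h0 : σ x = g x := hg 0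
      have h1 : σ (x + ((a : (ZMod p)ˣ) : ZMod p)) = g (x + ((a : (ZMod p)ˣ) : ZMod p)) := hg 1
      rw [h0, h1, hab, hab]
      push_cast
      ring
    obtain ⟨c, b, hcb⟩ :=
      Cfsg.Agent.Lib.Helper20.AGL1.affine_of_diff_mem A hAtop σ σ.injective hF3
    obtain ⟨g, hgG, hg⟩ := hσ ![0, 1]
    obtain ⟨a₁, b₁, hab⟩ := hF1 g hgG
    have h0 : σ 0 = g 0 := hg 0
    have h1 : σ 1 = g 1 := hg 1
    rw [hcb, hab] at h0 h1
    simp only [mul_zero, zero_add, mul_one] at h0 h1
    have hc : c = ((a₁ : (ZMod p)ˣ) : ZMod p) := by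
      rw [h0] at h1
      exact add_right_cancel h1
    have : σ = g := by
      apply Equiv.ext
      intro x
      rw [hcb, hab, hc, h0]
    rw [this]; exact hgG
  · intro σ t
    by_cases ht : t 0 = t 1
    · refine ⟨Equiv.addRight (σ (t 0) - t 0), ⟨1, σ (t 0) - t 0, fun x => by simp⟩, ?_⟩
      intro i
      fin_cases i
      · simp
      · simp [← ht]
    · set a := (σ (t 0) - σ (t 1)) / (t 0 - t 1) with ha
      have hd : t 0 - t 1 ≠ 0 := sub_ne_zero.mpr ht
      have ha0 : a ≠ 0 :=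
        div_ne_zero (sub_ne_zero.mpr (fun h => ht (σ.injective h))) hd
      refine ⟨(Equiv.mulLeft₀ a ha0).trans (Equiv.addRight (σ (t 0) - a * t 0)),
        ⟨Units.mk0 a ha0, σ (t 0) - a * t 0, fun x => by simp⟩, ?_⟩
      intro i
      fin_cases i
      · simp
      · have hmul : a * (t 0 - t 1) = σ (t 0) - σ (t 1) := by
          rw [ha, div_mul_cancel₀ _ hd]
        show σ (t 1) = a * t 1 + (σ (t 0) - a * t 0)
        linear_combination hmul
  · intro σ hσ
    have ha0 : σ 1 - σ 0 ≠ 0 := sub_ne_zero.mpr (fun h => one_ne_zero (σ.injective h))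
    refine ⟨Units.mk0 _ ha0, σ 0, fun x => ?_⟩
    obtain ⟨g, ⟨a, b, hab⟩, hg⟩ := hσ ![0, 1, x]
    have h0 : σ 0 = g 0 := hg 0
    have h1 : σ 1 = g 1 := hg 1
    have h2 : σ x = g x := hg 2
    rw [hab] at h0 h1 h2
    rw [Units.val_mk0, h2, h1, h0]
    ring

end Cfsg.Agent.S3518
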