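import Cfsg.Statements.S3547
import Cfsg.Agent.Lib.Helper20.Derangement

set_option autoImplicit false
open Cfsg

namespace Cfsg.Agent.S3547

/-- Let G act faithfully and transitively on a finite set Ω, let D be the subgroup generated by the derangements, and let r_G and r_D be the numbers of orbits of G and of D on ordered pairs of points (the permutation ranks). Then r_D − 1 = (r_G − 1)·[G : D]. -/
theorem result {G Ω : Type*} [Group G] [Finite G] [MulAction G Ω] [FaithfulSMul G Ω] [Finite Ω]
    (htrans : MulAction.IsPretransitive G Ω) :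
    Nat.card (MulAction.orbitRel.Quotient ↥(Subgroup.closure {g : G | ∀ ω : Ω, g • ω ≠ ω}) (Ω × Ω)) - 1 =
      (Nat.card (MulAction.orbitRel.Quotient G (Ω × Ω)) - 1) * (Subgroup.closure {g : G | ∀ ω : Ω, g • ω ≠ ω}).index := by
  classical
  rcases isEmpty_or_nonempty Ω with hΩ | hΩ
  · have h1 : IsEmpty (MulAction.orbitRel.Quotient
        ↥(Subgroup.closure {g : G | ∀ ω : Ω, g • ω ≠ ω}) (Ω × Ω)) :=
      ⟨fun q => Quotient.inductionOn' q (fun x => hΩ.false x.1)⟩
    have h2 : IsEmpty (MulAction.orbitRel.Quotient G (Ω × Ω)) :=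
      ⟨fun q => Quotient.inductionOn' q (fun x => hΩ.false x.1)⟩
    rw [Nat.card_of_isEmpty, Nat.card_of_isEmpty]
    simp
  · have key := Cfsg.Agent.Lib.Helper20.derSub_rank (G := G) (Ω := Ω) htrans
    have key' : Nat.card (MulAction.orbitRel.Quotient
        ↥(Subgroup.closure {g : G | ∀ ω : Ω, g • ω ≠ ω}) (Ω × Ω)) +
          (Subgroup.closure {g : G | ∀ ω : Ω, g • ω ≠ ω}).index =
        Nat.card (MulAction.orbitRel.Quotient G (Ω × Ω)) *
          (Subgroup.closure {g : G | ∀ ω : Ω, g • ω ≠ ω}).index + 1 := key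
    have hpos : 1 ≤ Nat.card (MulAction.orbitRel.Quotient G (Ω × Ω)) := by
      have : Nonempty (MulAction.orbitRel.Quotient G (Ω × Ω)) :=
        ⟨Quotient.mk'' (Classical.arbitrary Ω, Classical.arbitrary Ω)⟩
      exact Nat.card_pos
    generalize Nat.card (MulAction.orbitRel.Quotient
        ↥(Subgroup.closure {g : G | ∀ ω : Ω, g • ω ≠ ω}) (Ω × Ω)) = rD at key' ⊢
    generalize Nat.card (MulAction.orbitRel.Quotient G (Ω × Ω)) = rG at key' hpos ⊢
    generalize (Subgroup.closure {g : G | ∀ ω : Ω, g • ω ≠ ω}).index = i at key' ⊢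
    rw [Nat.sub_mul, one_mul]
    have : i ≤ rG * i := Nat.le_mul_of_pos_left i hpos
    omega

end Cfsg.Agent.S3547
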