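import Cfsg.Statements.S3548
import Cfsg.Agent.Lib.Helper20.Derangement

set_option autoImplicit false
open Cfsg

namespace Cfsg.Agent.S3548

open Cfsg.Agent.Lib.Helper20

/-- Let G act faithfully and transitively on a finite set Ω with at least two points, and let D be the subgroup generated by the derangements. Then the index of D in G divides n − 1 where n is the number of points, and if the index equals n − 1 then n is a prime power. -/
theorem result {G Ω : Type*} [Group G] [Finite G] [MulAction G Ω] [FaithfulSMul G Ω] [Finite Ω]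
    (htrans : MulAction.IsPretransitive G Ω) (hΩ : 2 ≤ Nat.card Ω) :
    (Subgroup.closure {g : G | ∀ ω : Ω, g • ω ≠ ω}).index ∣ Nat.card Ω - 1 ∧
    ((Subgroup.closure {g : G | ∀ ω : Ω, g • ω ≠ ω}).index = Nat.card Ω - 1 → IsPrimePow (Nat.card Ω)) := by
  classical
  have hne : Nonempty Ω := by
    rw [← Finite.card_pos_iff]; omega
  obtain ⟨α⟩ := hne
  have hne : Nonempty Ω := ⟨α⟩
  change (derSub G Ω).index ∣ Nat.card Ω - 1 ∧
    ((derSub G Ω).index = Nat.card Ω - 1 → IsPrimePow (Nat.card Ω))
  obtain ⟨hk1, hone⟩ := derSub_key (G := G) (Ω := Ω) htrans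
  have hDn : (derSub G Ω).Normal := derSub_normal G Ω
  set D := derSub G Ω with hD
  have hDtrans : MulAction.IsPretransitive D Ω := by
    rw [MulAction.pretransitive_iff_subsingleton_quotient]
    exact (Nat.card_eq_one_iff_unique.mp hk1).1
  set H := MulAction.stabilizer G α with hH
  -- H ⊔ D = ⊤
  have hsup : H ⊔ D = ⊤ := by
    rw [eq_top_iff]
    intro g _
    obtain ⟨d, hd⟩ := MulAction.exists_smul_eq D α (g • α)
    have h1 : (d : G)⁻¹ * g ∈ H := by
      rw [hH, MulAction.mem_stabilizer_iff, mul_smul, ← hd]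
      exact inv_smul_smul _ _
    have : g = (d : G) * ((d : G)⁻¹ * g) := by group
    rw [this]
    exact Subgroup.mul_mem _ (Subgroup.mem_sup_right d.2) (Subgroup.mem_sup_left h1)
  have hrel : D.relIndex H = D.index := by
    rw [← Subgroup.relIndex_sup_right (H := H) (K := D), hsup, Subgroup.relIndex_top_right]
  -- elements of H fixing another point lie in D
  have hstab : ∀ x : Ω, x ≠ α → ∀ h : H, h • x = x → (h : G) ∈ D := by
    intro x hx h hh
    by_contra hnot
    have h1 := hone (h : G) hnot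
    rw [Nat.card_eq_one_iff_unique] at h1
    obtain ⟨hsub, -⟩ := h1
    have hα : (h : G) • α = α := h.2
    have := @Subsingleton.elim _ hsub (⟨x, hh⟩ : MulAction.fixedBy Ω (h : G)) ⟨α, hα⟩
    exact hx (congrArg Subtype.val this)
  have horb : ∀ x : Ω, x ≠ α → D.index ∣ Nat.card (MulAction.orbit H x) := by
    intro x hx
    have h1 : MulAction.stabilizer H x ≤ D.subgroupOf H := by
      intro h hh
      rw [Subgroup.mem_subgroupOf]
      exact hstab x hx h (MulAction.mem_stabilizer_iff.mp hh)
    have h2 := Subgroup.index_dvd_of_le h1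
    rw [MulAction.index_stabilizer, ← Nat.card_coe_set_eq] at h2
    rw [← hrel]
    exact h2
  have hHα : ∀ h : H, h • α = α := fun h => h.2
  refine ⟨dvd_card_sub_one_of_orbits (H := H) α hHα D.index horb, ?_⟩
  intro hidx
  -- every orbit of H on points other than α has size n - 1
  have hn1 : 0 < Nat.card Ω - 1 := by omega
  have horb_sub : ∀ x : Ω, x ≠ α → MulAction.orbit H x ⊆ {y : Ω | y ≠ α} := by
    rintro x hx y ⟨h, rfl⟩
    intro hy
    apply hx
    have : h⁻¹ • (h • x) = h⁻¹ • α := congrArg (fun t => h⁻¹ • t) hy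
    rw [inv_smul_smul] at this
    rw [this]
    exact (h⁻¹).2
  have hcompl : Nat.card {y : Ω | y ≠ α} = Nat.card Ω - 1 := by
    have : {y : Ω | y ≠ α} = ({α} : Set Ω)ᶜ := by ext y; simp
    rw [this, Nat.card_coe_set_eq, Set.ncard_compl, Set.ncard_singleton]
  have horb_eq : ∀ x : Ω, x ≠ α → MulAction.orbit H x = {y : Ω | y ≠ α} := by
    intro x hx
    apply Set.eq_of_subset_of_ncard_le (horb_sub x hx)
    · rw [← Nat.card_coe_set_eq, ← Nat.card_coe_set_eq, hcompl, ← hidx]
      apply Nat.le_of_dvd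
      · have : Nonempty (MulAction.orbit H x) := ⟨⟨x, MulAction.mem_orbit_self x⟩⟩
        exact Nat.card_pos
      · exact horb x hx
  -- D ⊓ H = ⊥
  have hDH : ∀ d : G, d ∈ D → d • α = α → d = 1 := by
    intro d hd hdα
    apply FaithfulSMul.eq_of_smul_eq_smul (α := Ω)
    intro x
    rw [one_smul]
    by_cases hx : x = α
    · rw [hx]; exact hdα
    · -- stabilizer of x in H has index n - 1 = index of D.subgroupOf H, and is contained in it
      have h1 : MulAction.stabilizer H x ≤ D.subgroupOf H := by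
        intro h hh
        rw [Subgroup.mem_subgroupOf]
        exact hstab x hx h (MulAction.mem_stabilizer_iff.mp hh)
      have h2 : (MulAction.stabilizer H x).index = (D.subgroupOf H).index := by
        rw [MulAction.index_stabilizer, ← Nat.card_coe_set_eq, horb_eq x hx, hcompl, ← hidx,
          ← hrel]
        rfl
      have h3 : MulAction.stabilizer H x = D.subgroupOf H := by
        apply le_antisymm h1
        rw [← Subgroup.relIndex_eq_one]
        have h6 := Subgroup.relIndex_mul_index h1
        rw [h2] at h6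
        have h7 : (D.subgroupOf H).index ≠ 0 := Subgroup.index_ne_zero_of_finite
        exact Nat.eq_of_mul_eq_mul_right (Nat.pos_of_ne_zero h7) (by rw [h6, one_mul])
      have h4 : (⟨d, hdα⟩ : H) ∈ D.subgroupOf H := by
        rw [Subgroup.mem_subgroupOf]; exact hd
      rw [← h3, MulAction.mem_stabilizer_iff] at h4
      exact h4
  -- card D = card Ω
  have hcardD : Nat.card D = Nat.card Ω := by
    have hreg : MulAction.stabilizer D α = ⊥ := by
      rw [eq_bot_iff]
      intro d hd
      rw [MulAction.mem_stabilizer_iff] at hd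
      rw [Subgroup.mem_bot]
      exact Subtype.ext (hDH d d.2 hd)
    have h1 := MulAction.index_stabilizer_of_transitive D α
    rw [hreg, Subgroup.index_bot] at h1
    exact h1
  -- all non-identity elements of D are conjugate
  have hconj : ∀ d₁ d₂ : G, d₁ ∈ D → d₂ ∈ D → d₁ ≠ 1 → d₂ ≠ 1 → orderOf d₁ = orderOf d₂ := by
    intro d₁ d₂ h₁ h₂ hd₁ hd₂
    have hx₁ : d₁ • α ≠ α := fun h => hd₁ (hDH d₁ h₁ h)
    have hx₂ : d₂ • α ≠ α := fun h => hd₂ (hDH d₂ h₂ h)
    have hmem : d₂ • α ∈ MulAction.orbit H (d₁ • α) := by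
      rw [horb_eq _ hx₁]; exact hx₂
    obtain ⟨h, hh⟩ := hmem
    have hh' : (h : G) • d₁ • α = d₂ • α := hh
    have hconjmem : (h : G) * d₁ * (h : G)⁻¹ ∈ D := hDn.conj_mem d₁ h₁ h
    have hfix : (d₂⁻¹ * ((h : G) * d₁ * (h : G)⁻¹)) • α = α := by
      have hinv : (h : G)⁻¹ • α = α := (h⁻¹).2
      rw [mul_smul, mul_smul, mul_smul, hinv, hh', inv_smul_smul]
    have := hDH _ (Subgroup.mul_mem _ (Subgroup.inv_mem _ h₂) hconjmem) hfix
    have h5 : d₂ = (h : G) * d₁ * (h : G)⁻¹ := by
      have := congrArg (fun t => d₂ * t) this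
      simpa using this.symm
    rw [h5]
    have := (MulAut.conj (h : G)).orderOf_eq d₁
    rw [MulAut.conj_apply] at this
    exact this.symm
  -- D is a p-group
  have hcard2 : Nat.card D ≠ 1 := by rw [hcardD]; omega
  obtain ⟨p, hp, hpdvd⟩ := Nat.exists_prime_and_dvd hcard2
  have : Fact p.Prime := ⟨hp⟩
  obtain ⟨d₀, hd₀⟩ := exists_prime_orderOf_dvd_card' (G := D) p hpdvd
  have hd₀' : orderOf (d₀ : G) = p := by rw [Subgroup.orderOf_coe]; exact hd₀
  have hd₀1 : (d₀ : G) ≠ 1 := by
    intro h
    rw [h, orderOf_one] at hd₀'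
    exact hp.ne_one hd₀'.symm
  have hpg : IsPGroup p D := by
    intro d
    by_cases hd : (d : G) = 1
    · refine ⟨0, ?_⟩
      rw [pow_zero, pow_one]
      exact Subtype.ext hd
    · refine ⟨1, ?_⟩
      rw [pow_one]
      have := hconj (d : G) (d₀ : G) d.2 d₀.2 hd hd₀1
      rw [hd₀'] at this
      apply Subtype.ext
      rw [Subgroup.coe_pow, ← this, pow_orderOf_eq_one]
      rfl
  obtain ⟨k, hk⟩ := IsPGroup.iff_card.mp hpg
  rw [← hcardD, hk]
  have hk0 : k ≠ 0 := by
    rintro rfl
    rw [pow_zero] at hk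
    exact hcard2 hk
  exact hp.isPrimePow.pow hk0

end Cfsg.Agent.S3548
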