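import Cfsg.Statements.S3549
import Cfsg.Agent.Lib.Helper20.Derangement

set_option autoImplicit false
open Cfsg

namespace Cfsg.Agent.S3549

open Cfsg.Agent.Lib.Helper20
open scoped Pointwise

/-- Let G act faithfully and transitively, but not primitively, on a finite set of n points, and let D be the subgroup generated by the derangements. Then the index of D in G is at most √n − 1. -/
theorem result {G Ω : Type*} [Group G] [Finite G] [MulAction G Ω] [FaithfulSMul G Ω] [Finite Ω]
    (htrans : MulAction.IsPretransitive G Ω) (himp : ¬ MulAction.IsPreprimitive G Ω) :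
    ((Subgroup.closure {g : G | ∀ ω : Ω, g • ω ≠ ω}).index : ℝ) ≤ Real.sqrt (Nat.card Ω) - 1 := by
  classical
  change ((derSub G Ω).index : ℝ) ≤ Real.sqrt (Nat.card Ω) - 1
  -- a nontrivial block
  have hblock : ∃ B : Set Ω, MulAction.IsBlock G B ∧ ¬ MulAction.IsTrivialBlock B := by
    by_contra hcon
    push Not at hcon
    exact himp { toIsPretransitive := htrans, isTrivialBlock_of_isBlock := fun {B} hB => hcon B hB }
  obtain ⟨B, hB, hBnt⟩ := hblock
  have hBns : ¬ B.Subsingleton := fun h => hBnt (Or.inl h)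
  have hBuniv : B ≠ Set.univ := fun h => hBnt (Or.inr h)
  rw [Set.not_subsingleton_iff] at hBns
  obtain ⟨α, hα, x, hxB, hxα⟩ := hBns
  have hx : x ≠ α := fun h => hxα h.symm
  have hne : Nonempty Ω := ⟨α⟩
  set q := (derSub G Ω).index with hq
  set H := MulAction.stabilizer G α with hH
  set L := MulAction.stabilizer G B with hL
  have hHL : H ≤ L := hB.stabilizer_le hα
  -- (1) q ≤ |B| - 1
  have h1 : q + 1 ≤ B.ncard := by
    have hdvd := derSub_index_dvd_card_orbit htrans hx
    have hsub : MulAction.orbit H x ⊆ B \ {α} := by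
      rintro y ⟨h, rfl⟩
      refine ⟨?_, ?_⟩
      · have hh : (h : G) • B = B := hHL h.2
        have : (h : G) • x ∈ (h : G) • B := Set.smul_mem_smul_set hxB
        rw [hh] at this
        exact this
      · intro hy
        apply hx
        have hy' : h • x = α := hy
        have : h⁻¹ • (h • x) = h⁻¹ • α := congrArg (fun t => h⁻¹ • t) hy'
        rw [inv_smul_smul] at this
        rw [this]
        exact (h⁻¹).2
    have hle : Nat.card (MulAction.orbit H x) ≤ (B \ {α}).ncard := by
      rw [Nat.card_coe_set_eq]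
      exact Set.ncard_le_ncard hsub (Set.toFinite _)
    have hpos : 0 < Nat.card (MulAction.orbit H x) := by
      have : Nonempty (MulAction.orbit H x) := ⟨⟨x, MulAction.mem_orbit_self x⟩⟩
      exact Nat.card_pos
    have hq1 : q ≤ Nat.card (MulAction.orbit H x) := Nat.le_of_dvd hpos hdvd
    have hdiff : (B \ {α}).ncard = B.ncard - 1 := Set.ncard_sdiff_singleton_of_mem hα
    have hBpos : 0 < B.ncard := Set.ncard_pos (Set.toFinite _) |>.mpr ⟨α, hα⟩
    omega
  -- (2) q ≤ [G:L] - 1
  have hLtop : L ≠ ⊤ := by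
    intro hLt
    apply hBuniv
    rw [Set.eq_univ_iff_forall]
    intro y
    obtain ⟨g, rfl⟩ := MulAction.exists_smul_eq G α y
    have hg : g ∈ L := by rw [hLt]; exact Subgroup.mem_top g
    have hg' : g • B = B := hg
    rw [← hg']
    exact Set.smul_mem_smul_set hα
  have hLidx : 2 ≤ L.index := by
    have h0 : L.index ≠ 0 := Subgroup.index_ne_zero_of_finite
    have h1 : L.index ≠ 1 := fun h => hLtop (Subgroup.index_eq_one.mp h)
    omega
  have h2 : q + 1 ≤ L.index := by
    have hle : derSub G (G ⧸ L) ≤ derSub G Ω := by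
      apply Subgroup.closure_mono
      intro g hg ω hω
      obtain ⟨k, rfl⟩ := MulAction.exists_smul_eq G α ω
      have hk : k⁻¹ * g * k ∈ H := by
        rw [hH, MulAction.mem_stabilizer_iff, mul_smul, mul_smul, hω, inv_smul_smul]
      have hk' : k⁻¹ * (g * k) ∈ L := by
        rw [← mul_assoc]; exact hHL hk
      apply hg (k : G ⧸ L)
      have : g • (k : G ⧸ L) = ((g * k : G) : G ⧸ L) := rfl
      rw [this]
      exact (QuotientGroup.eq.mpr hk').symm
    have hd1 : q ∣ (derSub G (G ⧸ L)).index := Subgroup.index_dvd_of_le hle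
    have hne' : Nonempty (G ⧸ L) := ⟨((1 : G) : G ⧸ L)⟩
    have hd2 : (derSub G (G ⧸ L)).index ∣ Nat.card (G ⧸ L) - 1 :=
      derSub_index_dvd (G := G) (Ω := G ⧸ L) (MulAction.isPretransitive_quotient G L)
    rw [← Subgroup.index_eq_card] at hd2
    have hd3 : q ∣ L.index - 1 := dvd_trans hd1 hd2
    have := Nat.le_of_dvd (by omega) hd3
    omega
  -- n = |B| * [G:L]
  have hn : B.ncard * L.index = Nat.card Ω := by
    have := hB.ncard_block_mul_ncard_orbit_eq ⟨α, hα⟩
    rw [← MulAction.index_stabilizer] at this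
    exact this
  have hsq : (q + 1) * (q + 1) ≤ Nat.card Ω := by
    rw [← hn]
    exact Nat.mul_le_mul h1 h2
  have hsq' : ((q : ℝ) + 1) ^ 2 ≤ (Nat.card Ω : ℝ) := by
    have : (((q + 1) * (q + 1) : ℕ) : ℝ) ≤ (Nat.card Ω : ℝ) := by exact_mod_cast hsq
    push_cast at this
    nlinarith [this]
  have hfin : (q : ℝ) + 1 ≤ Real.sqrt (Nat.card Ω) := by
    apply Real.le_sqrt_of_sq_le
    exact hsq'
  linarith

end Cfsg.Agent.S3549
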