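import Cfsg.Statements.S3560
import Mathlib

set_option autoImplicit false
open Cfsg

namespace Cfsg.Agent.S3560

open scoped Pointwise

/-- The group of Hamming isometries of `ι → Fin m`. -/
def isoGroup (ι : Type*) [Fintype ι] (m : ℕ) : Subgroup (Equiv.Perm (ι → Fin m)) where
  carrier := {g | ∀ x y, hammingDist (g x) (g y) = hammingDist x y}
  mul_mem' := by
    intro a b ha hb x y
    simp only [Equiv.Perm.coe_mul, Function.comp_apply]
    rw [ha, hb]
  one_mem' := by intro x y; rfl
  inv_mem' := by
    intro a ha x y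
    have := ha (a⁻¹ x) (a⁻¹ y)
    simpa using this.symm

theorem mem_isoGroup {ι : Type*} [Fintype ι] {m : ℕ} (g : Equiv.Perm (ι → Fin m)) :
    g ∈ isoGroup ι m ↔ ∀ x y, hammingDist (g x) (g y) = hammingDist x y := Iff.rfl

theorem symb_mem {ι : Type*} [Fintype ι] {m : ℕ} (τ : ι → Equiv.Perm (Fin m)) :
    Equiv.piCongrRight τ ∈ isoGroup ι m := by
  intro x y
  exact hammingDist_comp (fun i => (τ i : Fin m → Fin m)) (fun i => (τ i).injective)

/-- permuting the coordinates -/
def coordPerm {ι : Type*} (m : ℕ) (π : Equiv.Perm ι) : Equiv.Perm (ι → Fin m) where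
  toFun x := x ∘ π
  invFun x := x ∘ π.symm
  left_inv x := by ext k; simp
  right_inv x := by ext k; simp

theorem coord_mem {ι : Type*} [Fintype ι] {m : ℕ} (π : Equiv.Perm ι) :
    coordPerm m π ∈ isoGroup ι m := by
  intro x y
  show hammingDist (x ∘ π) (y ∘ π) = hammingDist x y
  unfold hammingDist
  apply Finset.card_bij (fun k _ => π k)
  · intro k hk
    simpa using hk
  · intro a _ b _ h
    exact π.injective h
  · intro k hk
    exact ⟨π.symm k, by simpa using hk, by simp⟩

theorem dist_update {ι : Type*} [Fintype ι] [DecidableEq ι] {m : ℕ} (x : ι → Fin m) (i : ι)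
    (c : Fin m) (h : x i ≠ c) : hammingDist x (Function.update x i c) = 1 := by
  unfold hammingDist
  have : (Finset.univ.filter (fun k => x k ≠ Function.update x i c k)) = {i} := by
    ext k
    simp only [Finset.mem_filter, Finset.mem_univ, true_and, Finset.mem_singleton]
    by_cases hk : k = i
    · subst hk; simp [h]
    · simp [hk]
  rw [this, Finset.card_singleton]

theorem exists_two_perm {A : Type*} [DecidableEq A] (a b a' b' : A) (hab : a ≠ b)
    (hab' : a' ≠ b') : ∃ τ : Equiv.Perm A, τ a = a' ∧ τ b = b' := by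
  refine ⟨Equiv.swap (Equiv.swap a a' b) b' * Equiv.swap a a', ?_, ?_⟩
  · simp only [Equiv.Perm.coe_mul, Function.comp_apply, Equiv.swap_apply_left]
    apply Equiv.swap_apply_of_ne_of_ne
    · intro h
      have h2 : Equiv.swap a a' a' = Equiv.swap a a' (Equiv.swap a a' b) := congrArg _ h
      rw [Equiv.swap_apply_right, Equiv.swap_apply_self] at h2
      exact hab h2
    · exact hab'
  · simp only [Equiv.Perm.coe_mul, Function.comp_apply, Equiv.swap_apply_left]

/-- Isometries are transitive on ordered pairs at distance one. -/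
theorem exists_iso_pair {ι : Type*} [Fintype ι] [DecidableEq ι] {m : ℕ}
    (y : ι → Fin m) (i : ι) (c : Fin m) (hc : y i ≠ c)
    (u : ι → Fin m) (j : ι) (d : Fin m) (hd : u j ≠ d) :
    ∃ g ∈ isoGroup ι m, g y = u ∧ g (Function.update y i c) = Function.update u j d := by
  obtain ⟨τj, hτ1, hτ2⟩ := exists_two_perm (y i) c (u j) d hc hd
  set π : Equiv.Perm ι := Equiv.swap i j with hπ
  set τ : ι → Equiv.Perm (Fin m) := fun k => if k = j then τj else Equiv.swap (y (π k)) (u k) with hτ
  refine ⟨Equiv.piCongrRight τ * coordPerm m π, ?_, ?_, ?_⟩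
  · exact (isoGroup ι m).mul_mem (symb_mem τ) (coord_mem π)
  · ext k
    show ((τ k) ((y ∘ π) k) : ℕ) = u k
    by_cases hk : k = j
    · subst hk
      simp only [hτ, if_true, Function.comp_apply, hπ, Equiv.swap_apply_right, hτ1]
    · simp only [hτ, if_neg hk, Function.comp_apply, Equiv.swap_apply_left]
  · ext k
    show ((τ k) ((Function.update y i c ∘ π) k) : ℕ) = Function.update u j d k
    by_cases hk : k = j
    · subst hk
      simp only [hτ, if_true, Function.comp_apply, hπ, Equiv.swap_apply_right,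
        Function.update_self, hτ2]
    · have hπk : π k ≠ i := by
        intro h
        apply hk
        have : π (π k) = π i := congrArg π h
        rw [hπ, Equiv.swap_apply_self, Equiv.swap_apply_left] at this
        exact this
      simp only [hτ, if_neg hk, Function.comp_apply, Function.update_of_ne hπk,
        Function.update_of_ne hk, Equiv.swap_apply_left]

theorem block_univ {ι : Type*} [Fintype ι] [DecidableEq ι] {m : ℕ} (hm : 3 ≤ m)
    (B : Set (ι → Fin m)) (hB : MulAction.IsBlock (isoGroup ι m) B) (hns : ¬ B.Subsingleton) :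
    B = Set.univ := by
  rw [Set.not_subsingleton_iff] at hns
  obtain ⟨x, hx, y, hy, hxy⟩ := hns
  obtain ⟨i, hi⟩ := Function.ne_iff.mp hxy
  -- a third symbol
  obtain ⟨c, hc⟩ : ∃ c : Fin m, c ∉ ({x i, y i} : Finset (Fin m)) := by
    by_contra h
    push Not at h
    have hsub : (Finset.univ : Finset (Fin m)) ⊆ {x i, y i} := fun c _ => h c
    have h1 := Finset.card_le_card hsub
    have h2 := Finset.card_insert_le (x i) ({y i} : Finset (Fin m))
    rw [Finset.card_univ, Fintype.card_fin] at h1
    rw [Finset.card_singleton] at h2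
    omega
  have hcx : x i ≠ c := by
    intro h; apply hc; rw [← h]; exact Finset.mem_insert_self _ _
  have hcy : y i ≠ c := by
    intro h; apply hc; rw [← h]; simp
  -- block property in a convenient form
  have blk : ∀ g ∈ isoGroup ι m, ∀ a ∈ B, g a ∈ B → ∀ b ∈ B, g b ∈ B := by
    intro g hg a ha hga b hb
    have h1 : (⟨g, hg⟩ : isoGroup ι m) • B = B :=
      MulAction.IsBlock.smul_eq_of_mem hB ha hga
    rw [← h1]
    exact Set.smul_mem_smul_set (a := (⟨g, hg⟩ : isoGroup ι m)) hb
  -- y' = update y i c ∈ B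
  have hy' : Function.update y i c ∈ B := by
    set σ : Equiv.Perm (ι → Fin m) :=
      Equiv.piCongrRight (fun k => if k = i then Equiv.swap (y i) c else 1) with hσ
    have hσm : σ ∈ isoGroup ι m := symb_mem _
    have hσx : σ x = x := by
      ext k
      show (((if k = i then Equiv.swap (y i) c else 1 : Equiv.Perm (Fin m)) (x k)) : ℕ) = x k
      by_cases hk : k = i
      · subst hk
        simp only [if_true]
        rw [Equiv.swap_apply_of_ne_of_ne hi hcx]
      · simp only [if_neg hk, Equiv.Perm.coe_one, id_eq]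
    have hσy : σ y = Function.update y i c := by
      ext k
      show (((if k = i then Equiv.swap (y i) c else 1 : Equiv.Perm (Fin m)) (y k)) : ℕ) =
        Function.update y i c k
      by_cases hk : k = i
      · subst hk
        simp only [if_true, Equiv.swap_apply_left, Function.update_self]
      · simp only [if_neg hk, Equiv.Perm.coe_one, id_eq, Function.update_of_ne hk]
    have := blk σ hσm x hx (by rw [hσx]; exact hx) y hy
    rw [hσy] at this
    exact this
  -- closure under single coordinate changes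
  have step : ∀ u ∈ B, ∀ (j : ι) (d : Fin m), Function.update u j d ∈ B := by
    intro u hu j d
    by_cases hd : u j = d
    · rw [← hd, Function.update_eq_self]; exact hu
    · obtain ⟨g, hg, hgy, hgy'⟩ := exists_iso_pair y i c hcy u j d hd
      have := blk g hg y hy (by rw [hgy]; exact hu) _ hy'
      rw [hgy'] at this
      exact this
  ext w
  simp only [Set.mem_univ, iff_true]
  have key : ∀ S : Finset ι, (fun k => if k ∈ S then w k else x k) ∈ B := by
    intro S
    induction S using Finset.induction_on with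
    | empty =>
      have : (fun k => if k ∈ (∅ : Finset ι) then w k else x k) = x := by
        ext k; simp
      rw [this]; exact hx
    | insert a S _ ih =>
      have : (fun k => if k ∈ insert a S then w k else x k) =
          Function.update (fun k => if k ∈ S then w k else x k) a (w a) := by
        ext k
        by_cases hk : k = a
        · subst hk; simp
        · simp [Finset.mem_insert, hk]
      rw [this]
      exact step _ ih a (w a)
  have := key Finset.univ
  have e : (fun k => if k ∈ (Finset.univ : Finset ι) then w k else x k) = w := by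
    ext k; simp
  rw [e] at this
  exact this

theorem iso_prim {ι : Type*} [Fintype ι] [DecidableEq ι] {m : ℕ} (hm : 3 ≤ m) :
    MulAction.IsPreprimitive (isoGroup ι m) (ι → Fin m) := by
  refine { toIsPretransitive := ⟨fun x y => ?_⟩, isTrivialBlock_of_isBlock := ?_ }
  · refine ⟨⟨Equiv.piCongrRight (fun k => Equiv.swap (x k) (y k)), symb_mem _⟩, ?_⟩
    ext k
    show ((Equiv.swap (x k) (y k) (x k) : Fin m) : ℕ) = y k
    rw [Equiv.swap_apply_left]
  · intro B hB
    by_cases hs : B.Subsingleton
    · exact Or.inl hs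
    · exact Or.inr (block_univ hm B hB hs)

theorem iso_not_two {ι : Type*} [Fintype ι] [DecidableEq ι] {m : ℕ} (hm : 3 ≤ m)
    (hι : 2 ≤ Fintype.card ι) :
    ¬ MulAction.IsMultiplyPretransitive (isoGroup ι m) (ι → Fin m) 2 := by
  intro h2
  rw [MulAction.is_two_pretransitive_iff] at h2
  obtain ⟨i0, i1, h01⟩ := Fintype.one_lt_card_iff.mp (by omega : 1 < Fintype.card ι)
  set z : Fin m := ⟨0, by omega⟩ with hz
  set o : Fin m := ⟨1, by omega⟩ with ho
  have hzo : z ≠ o := by
    intro h
    have := congrArg Fin.val h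
    simp [hz, ho] at this
  set x0 : ι → Fin m := fun _ => z with hx0
  set x1 : ι → Fin m := Function.update x0 i0 o with hx1
  set x2 : ι → Fin m := Function.update x1 i1 o with hx2
  have d1 : hammingDist x0 x1 = 1 := dist_update x0 i0 o hzo
  have d2 : hammingDist x0 x2 = 2 := by
    unfold hammingDist
    have : (Finset.univ.filter (fun k => x0 k ≠ x2 k)) = {i0, i1} := by
      ext k
      simp only [Finset.mem_filter, Finset.mem_univ, true_and, Finset.mem_insert,
        Finset.mem_singleton]
      by_cases hk1 : k = i1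
      · subst hk1
        simp [hx2, hx0, hzo]
      · by_cases hk0 : k = i0
        · subst hk0
          simp [hx2, hx1, hx0, Function.update_of_ne hk1, hzo]
        · simp [hx2, hx1, hx0, hk0, hk1]
    rw [this, Finset.card_pair h01]
  have ne1 : x0 ≠ x1 := by
    intro h
    rw [← h, hammingDist_self] at d1
    omega
  have ne2 : x0 ≠ x2 := by
    intro h
    rw [← h, hammingDist_self] at d2
    omega
  obtain ⟨g, hg0, hg1⟩ := h2 ne1 ne2
  have := g.2 x0 x1
  have e0 : (g : Equiv.Perm (ι → Fin m)) x0 = x0 := hg0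
  have e1 : (g : Equiv.Perm (ι → Fin m)) x1 = x2 := hg1
  rw [e0, e1, d1, d2] at this
  omega

/-- transport from a finite type to `Fin n` -/
theorem transport {Ω : Type*} [Fintype Ω] {K : Type*} [Group K]
    (G R : Subgroup (Equiv.Perm Ω)) (hRG : R ≤ G) (hK : Nonempty (↥R ≃* K))
    (htr : MulAction.IsPretransitive ↥R Ω) (hfree : ∀ a : Ω, MulAction.stabilizer ↥R a = ⊥)
    (hprim : MulAction.IsPreprimitive ↥G Ω) (hn2 : ¬ MulAction.IsMultiplyPretransitive ↥G Ω 2) :
    ∃ (n : ℕ) (G' R' : Subgroup (Equiv.Perm (Fin n))), R' ≤ G' ∧ Nonempty (↥R' ≃* K) ∧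
      MulAction.IsPretransitive ↥R' (Fin n) ∧ (∀ a : Fin n, MulAction.stabilizer ↥R' a = ⊥) ∧
      MulAction.IsPreprimitive ↥G' (Fin n) ∧ ¬ MulAction.IsMultiplyPretransitive ↥G' (Fin n) 2 := by
  classical
  set ε : Ω ≃ Fin (Fintype.card Ω) := Fintype.equivFin Ω with hε
  set φ : Equiv.Perm Ω ≃* Equiv.Perm (Fin (Fintype.card Ω)) := ε.permCongrHom with hφ
  have hφa : ∀ (g : Equiv.Perm Ω) (a : Fin (Fintype.card Ω)), φ g a = ε (g (ε.symm a)) := by
    intro g a
    rfl
  refine ⟨Fintype.card Ω, G.map φ.toMonoidHom, R.map φ.toMonoidHom, Subgroup.map_mono hRG, ?_,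
    ?_, ?_, ?_, ?_⟩
  · obtain ⟨e⟩ := hK
    exact ⟨(Subgroup.equivMapOfInjective R φ.toMonoidHom φ.injective).symm.trans e⟩
  · refine ⟨fun a b => ?_⟩
    obtain ⟨r, hr⟩ := htr.exists_smul_eq (ε.symm a) (ε.symm b)
    refine ⟨⟨φ r.1, Subgroup.mem_map_of_mem _ r.2⟩, ?_⟩
    show φ r.1 a = b
    rw [hφa]
    have : (r : Equiv.Perm Ω) (ε.symm a) = ε.symm b := hr
    rw [this, Equiv.apply_symm_apply]
  · intro a
    rw [eq_bot_iff]
    rintro ⟨r', hr'⟩ hstab
    rw [MulAction.mem_stabilizer_iff] at hstab
    obtain ⟨r, hrR, rfl⟩ := Subgroup.mem_map.mp hr'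
    have h1 : φ r a = a := hstab
    rw [hφa] at h1
    have h2 : r (ε.symm a) = ε.symm a := by
      apply ε.injective
      rw [h1, Equiv.apply_symm_apply]
    have h3 : (⟨r, hrR⟩ : ↥R) ∈ MulAction.stabilizer ↥R (ε.symm a) := by
      rw [MulAction.mem_stabilizer_iff]
      exact h2
    rw [hfree] at h3
    have h4 : r = 1 := congrArg Subtype.val (Subgroup.mem_bot.mp h3)
    rw [Subgroup.mem_bot]
    apply Subtype.ext
    show φ.toMonoidHom r = 1
    rw [h4, map_one]
  · -- primitivity
    let φ' : ↥G → ↥(G.map φ.toMonoidHom) := fun g => ⟨φ g.1, Subgroup.mem_map_of_mem _ g.2⟩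
    let f : Ω →ₑ[φ'] Fin (Fintype.card Ω) :=
      { toFun := ε
        map_smul' := by
          intro g x
          show ε (g.1 x) = φ g.1 (ε x)
          rw [hφa, Equiv.symm_apply_apply] }
    have hφ' : Function.Surjective φ' := by
      rintro ⟨g', hg'⟩
      obtain ⟨g, hg, rfl⟩ := Subgroup.mem_map.mp hg'
      exact ⟨⟨g, hg⟩, rfl⟩
    exact (MulAction.isPreprimitive_congr (f := f) hφ' ε.bijective).mp hprim
  · intro h2
    apply hn2
    rw [MulAction.is_two_pretransitive_iff] at h2 ⊢
    intro a b c d hab hcd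
    obtain ⟨⟨g', hg'⟩, h1, h2'⟩ := h2 (a := ε a) (b := ε b) (c := ε c) (d := ε d)
      (fun h => hab (ε.injective h)) (fun h => hcd (ε.injective h))
    obtain ⟨g, hg, rfl⟩ := Subgroup.mem_map.mp hg'
    refine ⟨⟨g, hg⟩, ?_, ?_⟩
    · have : φ g (ε a) = ε c := h1
      rw [hφa, Equiv.symm_apply_apply] at this
      exact ε.injective this
    · have : φ g (ε b) = ε d := h2'
      rw [hφa, Equiv.symm_apply_apply] at this
      exact ε.injective this

/-- Let K be a finite group isomorphic to a direct product of r ≥ 2 groups all of the same order m ≥ 3. Then K is not a B-group: there is a primitive but not doubly transitive permutation group (on some finite set) containing a regular subgroup isomorphic to K. -/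
theorem result {K : Type*} [Group K] [Finite K] {ι : Type*} [Fintype ι] (F : ι → Type*) [∀ i, Group (F i)]
    (hr : 2 ≤ Fintype.card ι) (m : ℕ) (hm : 3 ≤ m) (hcard : ∀ i, Nat.card (F i) = m) (e : K ≃* (∀ i, F i)) :
    ∃ (n : ℕ) (G R : Subgroup (Equiv.Perm (Fin n))), R ≤ G ∧ Nonempty (↥R ≃* K) ∧
      MulAction.IsPretransitive ↥R (Fin n) ∧ (∀ a : Fin n, MulAction.stabilizer ↥R a = ⊥) ∧
      MulAction.IsPreprimitive ↥G (Fin n) ∧ ¬ MulAction.IsMultiplyPretransitive ↥G (Fin n) 2 := by
  classical
  have hfin : ∀ i, Finite (F i) := by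
    intro i
    apply Nat.finite_of_card_ne_zero
    rw [hcard i]; omega
  have ψ : ∀ i, F i ≃ Fin m := fun i => Finite.equivFinOfCardEq (hcard i)
  -- the regular representation, transported to ι → Fin m
  set Ψ : (∀ i, F i) ≃ (ι → Fin m) := Equiv.piCongrRight ψ with hΨ
  set ρ : (∀ i, F i) →* Equiv.Perm (ι → Fin m) :=
    Ψ.permCongrHom.toMonoidHom.comp (MulAction.toPermHom (∀ i, F i) (∀ i, F i)) with hρ
  have hρa : ∀ (k : ∀ i, F i) (x : ι → Fin m), ρ k x = Ψ (k * Ψ.symm x) := by
    intro k x
    rfl
  have hρinj : Function.Injective ρ := by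
    intro k k' h
    have := congrArg (fun p : Equiv.Perm (ι → Fin m) => p (Ψ 1)) h
    simp only [hρa, Equiv.symm_apply_apply, mul_one] at this
    exact Ψ.injective this
  have hRG : ρ.range ≤ isoGroup ι m := by
    rintro _ ⟨k, rfl⟩
    intro x y
    have e : ∀ x : ι → Fin m, ρ k x = fun i => ψ i (k i * (ψ i).symm (x i)) := by
      intro x
      rw [hρa]
      rfl
    rw [e x, e y]
    apply hammingDist_comp (fun i => fun a : Fin m => ψ i (k i * (ψ i).symm a))
    intro i a b hab
    have := (ψ i).injective hab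
    exact (ψ i).symm.injective (mul_left_cancel this)
  have hK : Nonempty (↥ρ.range ≃* K) :=
    ⟨(MonoidHom.ofInjective hρinj).symm.trans e.symm⟩
  have htr : MulAction.IsPretransitive ↥ρ.range (ι → Fin m) := by
    refine ⟨fun x y => ?_⟩
    refine ⟨⟨ρ (Ψ.symm y * (Ψ.symm x)⁻¹), ⟨_, rfl⟩⟩, ?_⟩
    show ρ (Ψ.symm y * (Ψ.symm x)⁻¹) x = y
    rw [hρa, inv_mul_cancel_right, Equiv.apply_symm_apply]
  have hfree : ∀ a : ι → Fin m, MulAction.stabilizer ↥ρ.range a = ⊥ := by
    intro a
    rw [eq_bot_iff]
    rintro ⟨_, ⟨k, rfl⟩⟩ hstab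
    rw [MulAction.mem_stabilizer_iff] at hstab
    have h1 : ρ k a = a := hstab
    rw [hρa] at h1
    have h2 : k * Ψ.symm a = Ψ.symm a := by
      apply Ψ.injective
      rw [h1, Equiv.apply_symm_apply]
    have h3 : k = 1 := mul_eq_right.mp h2
    rw [Subgroup.mem_bot]
    apply Subtype.ext
    show ρ k = 1
    rw [h3, map_one]
  exact transport (isoGroup ι m) ρ.range hRG hK htr hfree (iso_prim hm) (iso_not_two hm hr)

end Cfsg.Agent.S3560
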