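import Cfsg.Statements.S3573

set_option autoImplicit false
open Cfsg

namespace Cfsg.Agent.S3573

theorem inv_iff {α : Type*} [DecidableEq α] (σ : Equiv.Perm α) (s : Finset α)
    (h : s.image σ = s) (x : α) : σ x ∈ s ↔ x ∈ s := by
  constructor
  · intro hx
    rw [← h, Finset.mem_image] at hx
    obtain ⟨z, hz, hzx⟩ := hx
    rwa [← σ.injective hzx]
  · intro hx
    rw [← h]
    exact Finset.mem_image_of_mem _ hx

theorem card_mod {α : Type*} [DecidableEq α] [Fintype α] (σ : Equiv.Perm α) (r : ℕ)
    (hr : r.Prime) (hσ : σ ^ r = 1) (s : Finset α) (h : s.image σ = s) :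
    s.card ≡ (s.filter (fun x => σ x = x)).card [MOD r] := by
  have : Fact r.Prime := ⟨hr⟩
  let τ : Equiv.Perm s := σ.subtypePerm (fun x => inv_iff σ s h x)
  have hτ : τ ^ r ^ 1 = 1 := by
    rw [pow_one]
    ext x
    simp [τ, hσ]
  have h1 := Equiv.Perm.card_compl_support_modEq hτ
  rw [Fintype.card_coe] at h1
  have h2 : τ.supportᶜ.card = (s.filter (fun x => σ x = x)).card := by
    apply Finset.card_bij (fun a _ => a.1)
    · intro a ha
      simp only [Finset.mem_compl, Equiv.Perm.mem_support, not_not] at ha
      simp only [Finset.mem_filter]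
      refine ⟨a.2, ?_⟩
      have := congrArg Subtype.val ha
      simpa [τ] using this
    · intro a _ b _ hab
      exact Subtype.ext hab
    · intro b hb
      simp only [Finset.mem_filter] at hb
      refine ⟨⟨b, hb.1⟩, ?_, rfl⟩
      simp only [Finset.mem_compl, Equiv.Perm.mem_support, not_not]
      apply Subtype.ext
      simpa [τ] using hb.2
  rw [h2] at h1
  exact h1.symm

theorem dirB (n k r : ℕ) (hr : r.Prime) (hrn : r ≤ n)
    (H : ∀ σ : Equiv.Perm (Fin n), orderOf σ = r →
      ∃ s : Finset (Fin n), s.card = k ∧ s.image σ = s) :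
    k % r ≤ n % r := by
  obtain ⟨σ, hσ⟩ := (Equiv.Perm.exists_with_cycleType_iff (α := Fin n)
    (m := Multiset.replicate (n / r) r)).mpr
    ⟨by simp [Nat.div_mul_le_self],
     fun a ha => by rw [Multiset.eq_of_mem_replicate ha]; exact hr.two_le⟩
  have hpos : 0 < n / r := Nat.div_pos hrn hr.pos
  have hord : orderOf σ = r := by
    have hdvd : orderOf σ ∣ r := by
      rw [← Equiv.Perm.lcm_cycleType, hσ, Multiset.lcm_dvd]
      intro b hb
      rw [Multiset.eq_of_mem_replicate hb]
    rcases (Nat.dvd_prime hr).mp hdvd with h1 | h1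
    · exfalso
      rw [orderOf_eq_one_iff] at h1
      rw [h1, Equiv.Perm.cycleType_one] at hσ
      have := congrArg Multiset.card hσ
      simp at this
      omega
    · exact h1
  obtain ⟨s, hs, hinv⟩ := H σ hord
  have h1 := card_mod σ r hr (by rw [← hord]; exact pow_orderOf_eq_one σ) s hinv
  have h2 : (s.filter (fun x => σ x = x)).card ≤ n % r := by
    have h3 : (s.filter (fun x => σ x = x)) ⊆ σ.supportᶜ := by
      intro x hx
      simp only [Finset.mem_filter] at hx
      simp only [Finset.mem_compl, Equiv.Perm.mem_support, not_not]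
      exact hx.2
    have h4 : σ.supportᶜ.card = n % r := by
      rw [Finset.card_compl, ← Equiv.Perm.sum_cycleType, hσ]
      simp only [Multiset.sum_replicate, Fintype.card_fin, smul_eq_mul]
      have := Nat.div_add_mod n r
      have h5 : n / r * r = r * (n / r) := Nat.mul_comm _ _
      omega
    exact (Finset.card_le_card h3).trans h4.le
  rw [hs] at h1
  have h5 : k % r = (s.filter (fun x => σ x = x)).card % r := h1
  have h6 : n % r < r := Nat.mod_lt _ hr.pos
  rw [h5, Nat.mod_eq_of_lt (by omega)]
  exact h2

theorem orbit_inj {α : Type*} (σ : Equiv.Perm α) (r : ℕ)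
    (hr : r.Prime) (hσ : σ ^ r = 1) (x : α) (hx : σ x ≠ x) (i j : ℕ) (hij : i < j) (hj : j < r)
    (h : (σ ^ i) x = (σ ^ j) x) : False := by
  have h1 : (σ ^ (j - i)) x = x := by
    have : σ ^ j = σ ^ i * σ ^ (j - i) := by rw [← pow_add]; congr 1; omega
    rw [this, Equiv.Perm.mul_apply] at h
    exact ((σ ^ i).injective h).symm
  have p1 : Function.IsPeriodicPt σ (j - i) x := by
    show (⇑σ)^[j - i] x = x
    rw [Equiv.Perm.iterate_eq_pow]; exact h1
  have p2 : Function.IsPeriodicPt σ r x := by
    show (⇑σ)^[r] x = x
    rw [Equiv.Perm.iterate_eq_pow, hσ]; rfl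
  have p3 := p1.gcd p2
  have hg : Nat.gcd (j - i) r = 1 := by
    rw [Nat.gcd_comm]
    exact (Nat.Prime.coprime_iff_not_dvd hr).mpr
      (fun hd => by have := Nat.le_of_dvd (by omega) hd; omega)
  rw [hg] at p3
  exact hx p3

theorem dirC (n k r : ℕ) (hr : r.Prime) (hkn : k ≤ n) (hmod : k % r ≤ n % r)
    (σ : Equiv.Perm (Fin n)) (hσ : σ ^ r = 1) :
    ∃ s : Finset (Fin n), s.card = k ∧ s.image σ = s := by
  have : Fact r.Prime := ⟨hr⟩
  have key : ∀ a, k % r + a * r ≤ k →
      ∃ s : Finset (Fin n), s.card = k % r + a * r ∧ s.image σ = s := by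
    intro a
    induction a with
    | zero =>
      intro _
      have hτ : σ ^ r ^ 1 = 1 := by rw [pow_one]; exact hσ
      have h1 := Equiv.Perm.card_compl_support_modEq hτ
      rw [Fintype.card_fin] at h1
      have h2 : k % r ≤ σ.supportᶜ.card := by
        have h3 : σ.supportᶜ.card % r = n % r := h1
        have h4 := Nat.mod_le σ.supportᶜ.card r
        omega
      obtain ⟨t, ht, htc⟩ := Finset.exists_subset_card_eq h2
      refine ⟨t, by simpa using htc, ?_⟩
      have h5 : ∀ x ∈ t, σ x = x := by
        intro x hx
        have := ht hx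
        simpa only [Finset.mem_compl, Equiv.Perm.mem_support, not_not] using this
      rw [Finset.image_congr (g := id) (fun x hx => h5 x hx), Finset.image_id]
    | succ a ih =>
      intro ha
      obtain ⟨s, hs, hinv⟩ := ih (by have : a * r ≤ (a + 1) * r := Nat.mul_le_mul_right _ (by omega); omega)
      have hsucc : (a + 1) * r = a * r + r := by ring
      by_cases hex : ∃ x, x ∉ s ∧ σ x ≠ x
      · obtain ⟨x, hxs, hx⟩ := hex
        let O : Finset (Fin n) := (Finset.range r).image (fun i => (σ ^ i) x)
        have hO : O.card = r := by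
          rw [Finset.card_image_of_injOn, Finset.card_range]
          intro i hi j hj hij
          simp only [Finset.coe_range, Set.mem_Iio] at hi hj
          rcases Nat.lt_trichotomy i j with h | h | h
          · exact (orbit_inj σ r hr hσ x hx i j h hj hij).elim
          · exact h
          · exact (orbit_inj σ r hr hσ x hx j i h hi hij.symm).elim
        have hmem : ∀ i : ℕ, (σ ^ i) x ∉ s := by
          intro i
          induction i with
          | zero => simpa using hxs
          | succ i ih2 =>
            rw [pow_succ', Equiv.Perm.mul_apply, inv_iff σ s hinv]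
            exact ih2
        have hdisj : Disjoint s O := by
          rw [Finset.disjoint_left]
          intro y hy hyO
          obtain ⟨i, _, rfl⟩ := Finset.mem_image.mp hyO
          exact hmem i hy
        have hOinv : O.image σ = O := by
          apply Finset.eq_of_subset_of_card_le
          · intro y hy
            obtain ⟨z, hz, rfl⟩ := Finset.mem_image.mp hy
            obtain ⟨i, hi, rfl⟩ := Finset.mem_image.mp hz
            rw [Finset.mem_range] at hi
            by_cases hir : i + 1 < r
            · exact Finset.mem_image.mpr ⟨i + 1, Finset.mem_range.mpr hir, by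
                rw [pow_succ', Equiv.Perm.mul_apply]⟩
            · have : i + 1 = r := by omega
              refine Finset.mem_image.mpr ⟨0, Finset.mem_range.mpr hr.pos, ?_⟩
              rw [← Equiv.Perm.mul_apply, ← pow_succ', this, hσ]
              simp
          · rw [Finset.card_image_of_injective _ σ.injective]
        refine ⟨s ∪ O, ?_, ?_⟩
        · rw [Finset.card_union_of_disjoint hdisj, hs, hO, hsucc]; omega
        · rw [Finset.image_union, hinv, hOinv]
      · push Not at hex
        have hc : r ≤ sᶜ.card := by
          rw [Finset.card_compl, Fintype.card_fin, hs]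
          omega
        obtain ⟨O, hOs, hO⟩ := Finset.exists_subset_card_eq hc
        have hdisj : Disjoint s O := by
          rw [Finset.disjoint_left]
          intro y hy hyO
          exact (Finset.mem_compl.mp (hOs hyO)) hy
        have hOinv : O.image σ = O := by
          rw [Finset.image_congr (g := id)
            (fun y hy => hex y (Finset.mem_compl.mp (hOs hy))), Finset.image_id]
        refine ⟨s ∪ O, ?_, ?_⟩
        · rw [Finset.card_union_of_disjoint hdisj, hs, hO, hsucc]; omega
        · rw [Finset.image_union, hinv, hOinv]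
  have hk := Nat.mod_add_div k r
  have hk2 : k / r * r = r * (k / r) := Nat.mul_comm _ _
  obtain ⟨s, hs, hinv⟩ := key (k / r) (by omega)
  exact ⟨s, by omega, hinv⟩

/-- Let 1 ≤ k with 2k < n and consider the symmetric group of degree n acting on the k-subsets of an n-set. Let r be a prime dividing the number C(n,k) of k-subsets. If r is odd, then every permutation of order r fixes some k-subset if and only if r ≤ k and the remainder of k modulo r is at most the remainder of n modulo r. If r = 2, then every involution fixes some k-subset if and only if k is even or n is odd. -/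
theorem result (n k : ℕ) (hk : 1 ≤ k) (hkn : 2 * k < n) (r : ℕ) (hr : r.Prime) (hrd : r ∣ Nat.choose n k) :
    (r ≠ 2 → ((∀ σ : Equiv.Perm (Fin n), orderOf σ = r → ∃ s : Finset (Fin n), s.card = k ∧ s.image σ = s) ↔
      (r ≤ k ∧ k % r ≤ n % r))) ∧
    (r = 2 → ((∀ σ : Equiv.Perm (Fin n), orderOf σ = 2 → ∃ s : Finset (Fin n), s.card = k ∧ s.image σ = s) ↔
      (Even k ∨ Odd n))) := by
  have hkn' : k ≤ n := by omega
  have hrn : r ≤ n := by
    have h1 := Nat.choose_mul_factorial_mul_factorial hkn'
    have h2 : r ∣ n.factorial := by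
      rw [← h1, mul_assoc]
      exact Dvd.dvd.mul_right hrd _
    exact (Nat.Prime.dvd_factorial hr).mp h2
  have hiff : (∀ σ : Equiv.Perm (Fin n), orderOf σ = r →
      ∃ s : Finset (Fin n), s.card = k ∧ s.image σ = s) ↔ k % r ≤ n % r :=
    ⟨dirB n k r hr hrn, fun h σ hσ =>
      dirC n k r hr hkn' h σ (by rw [← hσ]; exact pow_orderOf_eq_one σ)⟩
  constructor
  · intro _
    rw [hiff]
    constructor
    · intro h
      refine ⟨?_, h⟩
      by_contra hlt
      push Not at hlt
      have h1 : r ∣ n.descFactorial k := by
        rw [Nat.descFactorial_eq_factorial_mul_choose]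
        exact Dvd.dvd.mul_left hrd _
      rw [Nat.descFactorial_eq_prod_range] at h1
      obtain ⟨i, hi, hdvd⟩ := (Nat.Prime.prime hr).exists_mem_finset_dvd h1
      rw [Finset.mem_range] at hi
      obtain ⟨q, hq⟩ := hdvd
      have h2 : n = r * q + i := by omega
      have h3 : n % r = i := by
        rw [h2, Nat.mul_add_mod, Nat.mod_eq_of_lt (by omega)]
      rw [Nat.mod_eq_of_lt hlt] at h
      omega
    · exact fun h => h.2
  · intro h2
    subst h2
    rw [hiff, Nat.even_iff, Nat.odd_iff]
    omega

end Cfsg.Agent.S3573
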