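import Cfsg.Statements.S3599
import Mathlib
import Cfsg.Agent.Lib.Helper20.Critical

set_option autoImplicit false
open Cfsg

namespace Cfsg.Agent.S3599

set_option linter.style.haveILetI false
set_option linter.unusedVariables false
set_option maxHeartbeats 1000000

open Cfsg.Agent.Lib.Helper20.Critical

theorem fin2_succ_succ (i : Fin 2) : i + 1 + 1 = i := by
  revert i; decide

theorem fin2_ne (i i' : Fin 2) (h : i' ≠ i) : i = i' + 1 := by
  revert i i'; decide

theorem fin2_ne_succ (i : Fin 2) : i ≠ i + 1 := by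
  revert i; decide

theorem om_eq (a : Fin 2 → ℕ) (i : Fin 2) : Om (a i) (a (i + 1)) = Om (a 0) (a 1) := by
  have h : i = 0 ∨ i = 1 := by revert i; decide
  rcases h with rfl | rfl
  · rfl
  · have h1 : (1 : Fin 2) + 1 = 0 := by decide
    rw [h1]
    ext m
    simp only [mem_Om]
    tauto

/-- A finite group is critical with respect to a set Ω of natural numbers when its set of element orders is Ω while no proper section H/N (H a subgroup, N normal in H, (H, N) ≠ (whole group, 1)) has Ω as its set of element orders. Let s ≥ 1 and let p(j,0), p(j,1) (j < s) be 2s pairwise distinct primes, and let Ω be the set of all products c(0)·…·c(s−1) with each c(j) ∈ {1, p(j,0), p(j,1)}. Then there are 2^s pairwise non-isomorphic finite groups critical with respect to Ω. -/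
theorem result (s : ℕ) (hs : 1 ≤ s) (p : Fin s → Fin 2 → ℕ)
    (hp : ∀ j i, (p j i).Prime) (hinj : ∀ j i j' i', p j i = p j' i' → j = j' ∧ i = i') :
    ∃ (G : Fin (2 ^ s) → Type) (_ : ∀ a, Group (G a)) (_ : ∀ a, Fintype (G a)),
      (∀ a b, a ≠ b → ¬ Nonempty (G a ≃* G b)) ∧
      ∀ a, Set.range (orderOf : (G a) → ℕ) = {m : ℕ | ∃ c : Fin s → ℕ, (∀ j, c j = 1 ∨ c j = p j 0 ∨ c j = p j 1) ∧ m = ∏ j, c j} ∧
      ∀ (H : Subgroup (G a)) (N : Subgroup ↥H) [N.Normal], (H ≠ ⊤ ∨ N ≠ ⊥) → Set.range (orderOf : (↥H ⧸ N) → ℕ) ≠ {m : ℕ | ∃ c : Fin s → ℕ, (∀ j, c j = 1 ∨ c j = p j 0 ∨ c j = p j 1) ∧ m = ∏ j, c j} := by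
  classical
  have hex : ∀ ji : Fin s × Fin 2, ∃ (Y : Type) (_ : Group Y) (_ : Fintype Y),
      Set.range (orderOf : Y → ℕ) = Om (p ji.1 ji.2) (p ji.1 (ji.2 + 1)) ∧
      InvP (p ji.1 ji.2) Y ∧ Crit Y (Om (p ji.1 ji.2) (p ji.1 (ji.2 + 1))) := by
    intro ji
    have hne : p ji.1 ji.2 ≠ p ji.1 (ji.2 + 1) := by
      intro h
      exact fin2_ne_succ ji.2 (hinj _ _ _ _ h).2
    exact exists_crit _ _ (hp _ _) (hp _ _) hne
  choose Y instG instF hY using hex
  letI : ∀ ji, Group (Y ji) := instG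
  letI : ∀ ji, Fintype (Y ji) := instF
  obtain ⟨e, he⟩ : ∃ e : Fin (2 ^ s) ≃ (Fin s → Fin 2), e = finFunctionFinEquiv.symm := ⟨_, rfl⟩
  -- the spectrum of each factor
  have hSY : ∀ (j : Fin s) (i : Fin 2),
      Set.range (orderOf : Y (j, i) → ℕ) = Om (p j 0) (p j 1) := by
    intro j i
    rw [(hY (j, i)).1]
    exact om_eq (p j) i
  have hcritY : ∀ (j : Fin s) (i : Fin 2), Crit (Y (j, i)) (Om (p j 0) (p j 1)) := by
    intro j i
    have := (hY (j, i)).2.2
    rw [om_eq (p j) i] at this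
    exact this
  -- primes dividing the order of a factor
  have hprime : ∀ (j : Fin s) (i : Fin 2) (r : ℕ), r.Prime → r ∣ Nat.card (Y (j, i)) →
      r = p j 0 ∨ r = p j 1 := by
    intro j i r hr hdvd
    haveI : Fact r.Prime := ⟨hr⟩
    obtain ⟨y, hy⟩ := exists_prime_orderOf_dvd_card' (G := Y (j, i)) r hdvd
    have hmem : r ∈ Set.range (orderOf : Y (j, i) → ℕ) := ⟨y, hy⟩
    rw [hSY j i] at hmem
    rcases hmem with h | h | h
    · exact absurd h hr.one_lt.ne'
    · exact Or.inl h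
    · exact Or.inr h
  have hcopY : ∀ (j k : Fin s) (i i' : Fin 2), j ≠ k →
      Nat.Coprime (Nat.card (Y (j, i))) (Nat.card (Y (k, i'))) := by
    intro j k i i' hjk
    apply Nat.coprime_of_dvd
    intro r hr h1 h2
    rcases hprime j i r hr h1 with h3 | h3 <;> rcases hprime k i' r hr h2 with h4 | h4
    · exact hjk (hinj _ _ _ _ (h3.symm.trans h4)).1
    · exact hjk (hinj _ _ _ _ (h3.symm.trans h4)).1
    · exact hjk (hinj _ _ _ _ (h3.symm.trans h4)).1
    · exact hjk (hinj _ _ _ _ (h3.symm.trans h4)).1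
  have hcopr : ∀ (j k : Fin s) (i i' : Fin 2), k ≠ j →
      Nat.Coprime (p j i) (Nat.card (Y (k, i'))) := by
    intro j k i i' hkj
    rw [Nat.Prime.coprime_iff_not_dvd (hp j i)]
    intro hdvd
    rcases hprime k i' _ (hp j i) hdvd with h4 | h4
    · exact hkj (hinj _ _ _ _ h4).1.symm
    · exact hkj (hinj _ _ _ _ h4).1.symm
  -- the invariant
  have hinvY : ∀ (j : Fin s) (i i' : Fin 2), InvP (p j i) (Y (j, i')) ↔ i' = i := by
    intro j i i'
    constructor
    · intro h
      by_contra hne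
      have hi : i = i' + 1 := fin2_ne i i' hne
      rw [hi] at h
      have hne' : p j i' ≠ p j (i' + 1) := by
        intro h'
        exact fin2_ne_succ i' (hinj _ _ _ _ h').2
      exact not_invP (p j i') (p j (i' + 1)) (hp _ _) (hp _ _) hne' (Y (j, i')) (hY (j, i')).1
        (hY (j, i')).2.1 h
    · rintro rfl
      exact (hY (j, i')).2.1
  have hinvG : ∀ (a : Fin (2 ^ s)) (j : Fin s) (i : Fin 2),
      InvP (p j i) (∀ k, Y (k, e a k)) ↔ e a j = i := by
    intro a j i
    rw [pi_invP (fun k => Y (k, e a k)) j (p j i) (fun k hk => hcopr j k i (e a k) hk)]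
    exact hinvY j i (e a j)
  refine ⟨fun a => ∀ j, Y (j, e a j), fun a => inferInstance, fun a => inferInstance, ?_, ?_⟩
  · intro a b hab hiso
    obtain ⟨φ⟩ := hiso
    have hne : e a ≠ e b := fun h => hab (e.injective h)
    obtain ⟨j, hj⟩ := Function.ne_iff.mp hne
    have h1 : InvP (p j (e a j)) (∀ k, Y (k, e a k)) := (hinvG a j (e a j)).mpr rfl
    have h2 : InvP (p j (e a j)) (∀ k, Y (k, e b k)) := invP_of_equiv _ φ h1
    exact hj ((hinvG b j (e a j)).mp h2).symm
  · intro a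
    refine ⟨?_, ?_⟩
    · exact pi_range (fun j => Y (j, e a j)) (fun j => Om (p j 0) (p j 1))
        (fun j => hSY j (e a j)) (fun j k hjk => hcopY j k _ _ hjk)
    · intro H N hN hne
      exact pi_crit (fun j => Y (j, e a j)) (fun j => Om (p j 0) (p j 1))
        (fun j => hSY j (e a j)) (fun j k hjk => hcopY j k _ _ hjk)
        (fun j => hcritY j (e a j)) H N hne

end Cfsg.Agent.S3599
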