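import Cfsg.Statements.S3619
import Mathlib

set_option autoImplicit false
open Cfsg

namespace Cfsg.Agent.S3619

open scoped Pointwise

/-- Let G act faithfully on a finite set in such a way that every non-trivial normal subgroup of G is transitive (G is quasiprimitive). Let Γ be a subset with more than one point and not the whole set, such that the pointwise stabilizer of the complement of Γ acts transitively on Γ (a Jordan set). If that pointwise stabilizer acts primitively on Γ, then G is k-fold transitive where k is one more than the number of points outside Γ (the Jordan set is a trivial one). -/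
theorem result {G Ω : Type*} [Group G] [Finite G] [MulAction G Ω] [FaithfulSMul G Ω] [Finite Ω]
    (hqp : ∀ N : Subgroup G, N.Normal → N ≠ ⊥ → MulAction.IsPretransitive ↥N Ω)
    (Γ : Set Ω) (hΓ1 : 1 < Γ.ncard) (hΓ2 : Γ.ncard < Nat.card Ω)
    (hJ : MulAction.IsPretransitive ↥(fixingSubgroup G Γᶜ) ↥(SubMulAction.ofFixingSubgroup G Γᶜ))
    (hJp : MulAction.IsPreprimitive ↥(fixingSubgroup G Γᶜ) ↥(SubMulAction.ofFixingSubgroup G Γᶜ)) :
    MulAction.IsMultiplyPretransitive G Ω (Nat.card Ω - Γ.ncard + 1) := by
  classical
  obtain ⟨a, b, ha, hb, hab⟩ := (Set.one_lt_ncard_iff (Set.toFinite Γ)).mp hΓ1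
  have memΓ : ∀ x : Ω, x ∈ SubMulAction.ofFixingSubgroup G Γᶜ ↔ x ∈ Γ := by
    intro x
    rw [SubMulAction.mem_ofFixingSubgroup_iff]
    simp
  -- J nontrivial
  have hJne : fixingSubgroup G Γᶜ ≠ ⊥ := by
    intro h
    obtain ⟨j, hj⟩ := hJ.exists_smul_eq
      (⟨a, (memΓ a).mpr ha⟩ : ↥(SubMulAction.ofFixingSubgroup G Γᶜ)) ⟨b, (memΓ b).mpr hb⟩
    have hj1 : (j : G) = 1 := Subgroup.mem_bot.mp ((le_of_eq h) j.2)
    have hj' : (j : G) • a = b := congrArg Subtype.val hj
    rw [hj1, one_smul] at hj'
    exact hab hj'
  -- G is transitive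
  have hGtr : MulAction.IsPretransitive G Ω := by
    have htop : (⊤ : Subgroup G) ≠ ⊥ := by
      intro h
      apply hJne
      rw [eq_bot_iff, ← h]
      exact le_top
    have := hqp ⊤ inferInstance htop
    refine ⟨fun x y => ?_⟩
    obtain ⟨g, hg⟩ := this.exists_smul_eq x y
    exact ⟨(g : G), hg⟩
  -- primitivity
  have hprim : MulAction.IsPreprimitive G Ω := by
    refine { toIsPretransitive := hGtr, isTrivialBlock_of_isBlock := ?_ }
    intro B hB
    by_contra hBt
    have hBns : ¬ B.Subsingleton := fun h => hBt (Or.inl h)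
    have hBnu : B ≠ Set.univ := fun h => hBt (Or.inr h)
    -- every element of J stabilises every translate of B
    have key : ∀ g : G, ∀ j ∈ fixingSubgroup G Γᶜ, j • (g • B) = g • B := by
      intro g j hj
      have hB' : MulAction.IsBlock G (g • B) := hB.translate g
      have hP := hB'.preimage (SubMulAction.ofFixingSubgroup_equivariantMap G Γᶜ)
      have hPt := hJp.isTrivialBlock_of_isBlock hP
      -- find x ∈ g • B with j • x ∈ g • B
      have hx : ∃ x ∈ g • B, j • x ∈ g • B := by
        rcases hPt with hsub | huniv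
        · -- two distinct points of g • B, one outside Γ
          have hns' : ¬ (g • B).Subsingleton := by
            intro hs
            apply hBns
            intro x hx y hy
            have := hs (Set.smul_mem_smul_set hx) (Set.smul_mem_smul_set hy)
            exact smul_left_cancel g this
          rw [Set.not_subsingleton_iff] at hns'
          obtain ⟨x, hx, y, hy, hxy⟩ := hns'
          by_cases hxΓ : x ∈ Γ
          · by_cases hyΓ : y ∈ Γ
            · exfalso
              have := @hsub ⟨x, (memΓ x).mpr hxΓ⟩ hx ⟨y, (memΓ y).mpr hyΓ⟩ hy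
              exact hxy (congrArg Subtype.val this)
            · refine ⟨y, hy, ?_⟩
              have : j • y = y := (mem_fixingSubgroup_iff G).mp hj y hyΓ
              rw [this]; exact hy
          · refine ⟨x, hx, ?_⟩
            have : j • x = x := (mem_fixingSubgroup_iff G).mp hj x hxΓ
            rw [this]; exact hx
        · refine ⟨a, ?_, ?_⟩
          · have : (⟨a, (memΓ a).mpr ha⟩ : ↥(SubMulAction.ofFixingSubgroup G Γᶜ)) ∈
                (SubMulAction.ofFixingSubgroup_equivariantMap G Γᶜ) ⁻¹' (g • B) := by
              rw [huniv]; exact Set.mem_univ _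
            exact this
          · have hja : j • a ∈ SubMulAction.ofFixingSubgroup G Γᶜ :=
              (SubMulAction.ofFixingSubgroup G Γᶜ).smul_mem (⟨j, hj⟩ : fixingSubgroup G Γᶜ)
                ((memΓ a).mpr ha)
            have : (⟨j • a, hja⟩ : ↥(SubMulAction.ofFixingSubgroup G Γᶜ)) ∈
                (SubMulAction.ofFixingSubgroup_equivariantMap G Γᶜ) ⁻¹' (g • B) := by
              rw [huniv]; exact Set.mem_univ _
            exact this
      obtain ⟨x, hx, hjx⟩ := hx
      rcases hB'.smul_eq_or_disjoint j with h | h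
      · exact h
      · exfalso
        exact Set.disjoint_left.mp h (Set.smul_mem_smul_set hx) hjx
    -- the normal closure of J stabilises B
    have hNle : Subgroup.normalClosure (fixingSubgroup G Γᶜ : Set G) ≤ MulAction.stabilizer G B := by
      unfold Subgroup.normalClosure
      rw [Subgroup.closure_le]
      intro x hx
      rw [Group.mem_conjugatesOfSet_iff] at hx
      obtain ⟨j, hj, hconj⟩ := hx
      rw [isConj_iff] at hconj
      obtain ⟨c, rfl⟩ := hconj
      rw [SetLike.mem_coe, MulAction.mem_stabilizer_iff]
      have h1 := key c⁻¹ j hj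
      rw [mul_smul, mul_smul, h1, smul_inv_smul]
    have hNne : Subgroup.normalClosure (fixingSubgroup G Γᶜ : Set G) ≠ ⊥ := by
      intro h
      apply hJne
      rw [eq_bot_iff, ← h]
      exact Subgroup.le_normalClosure
    have hNtr := hqp _ Subgroup.normalClosure_normal hNne
    apply hBnu
    rw [Set.not_subsingleton_iff] at hBns
    obtain ⟨b0, hb0, -⟩ := hBns
    ext x
    simp only [Set.mem_univ, iff_true]
    obtain ⟨n, hn⟩ := hNtr.exists_smul_eq b0 x
    have hn' : (n : G) • B = B := MulAction.mem_stabilizer_iff.mp (hNle n.2)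
    rw [← hn']
    have : (n : G) • b0 = x := hn
    rw [← this]
    exact Set.smul_mem_smul_set hb0
  -- Jordan
  have hc : Γᶜ.ncard = Nat.card Ω - Γ.ncard := Set.ncard_compl Γ
  have hsn : Γᶜ.ncard = (Nat.card Ω - Γ.ncard - 1) + 1 := by omega
  have hsn' : (Nat.card Ω - Γ.ncard - 1) + 2 < Nat.card Ω := by omega
  have hmp := hprim.isMultiplyPreprimitive hsn hsn' hJp
  have := MulAction.IsMultiplyPreprimitive.isMultiplyPretransitive G Ω (Nat.card Ω - Γ.ncard - 1 + 2)
  have he : Nat.card Ω - Γ.ncard - 1 + 2 = Nat.card Ω - Γ.ncard + 1 := by omega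
  rw [he] at this
  exact this

end Cfsg.Agent.S3619
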