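import Cfsg.Statements.S3622

set_option autoImplicit false
open Pointwise
open Cfsg

namespace Cfsg.Agent.S3622

/-- Let G be a permutation group on a finite set Ω, let m ≥ 2, and let α be a point. Suppose the stabilizer G_α is (m − 1)-closed, that is, every permutation of Ω that agrees on each (m − 1)-tuple of points with some element of G_α already lies in G_α. Then G is m-closed: every permutation that agrees on each m-tuple of points with some element of G lies in G. -/
theorem result {Ω : Type*} [Finite Ω] (G : Subgroup (Equiv.Perm Ω)) (m : ℕ) (hm : 2 ≤ m) (α : Ω)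
    (hclosed : ∀ σ : Equiv.Perm Ω,
      (∀ t : Fin (m - 1) → Ω, ∃ g ∈ MulAction.stabilizer ↥G α, ∀ i, (g : Equiv.Perm Ω) (t i) = σ (t i)) →
      σ ∈ G ∧ σ α = α) :
    ∀ σ : Equiv.Perm Ω, (∀ t : Fin m → Ω, ∃ g ∈ G, ∀ i, g (t i) = σ (t i)) → σ ∈ G := by
  intro σ hσ
  obtain ⟨m', rfl⟩ : ∃ m', m = m' + 1 := ⟨m - 1, by omega⟩
  obtain ⟨g, hgG, hg⟩ := hσ (fun _ => α)
  have hgα : g α = σ α := hg 0
  have hτ : g⁻¹ * σ ∈ G ∧ (g⁻¹ * σ) α = α := by
    apply hclosed
    intro t
    obtain ⟨h, hhG, hh⟩ := hσ (Fin.cons α t)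
    have h0 : h α = σ α := by simpa using hh 0
    refine ⟨⟨g⁻¹ * h, G.mul_mem (G.inv_mem hgG) hhG⟩, ?_, ?_⟩
    · rw [MulAction.mem_stabilizer_iff]
      show (g⁻¹ * h) α = α
      rw [Equiv.Perm.mul_apply, h0, ← hgα]; simp
    · intro i
      have hi : h (t i) = σ (t i) := by simpa using hh i.succ
      show (g⁻¹ * h) (t i) = (g⁻¹ * σ) (t i)
      rw [Equiv.Perm.mul_apply, Equiv.Perm.mul_apply, hi]
  have : σ = g * (g⁻¹ * σ) := by group
  rw [this]; exact G.mul_mem hgG hτ.1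

end Cfsg.Agent.S3622
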