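import Cfsg.Statements.S3633
import Cfsg.Agent.Lib.Helper21.ThreePrimesSolv
import Cfsg.Agent.Lib.Helper10.Signalizer
import Cfsg.Agent.Lib.Helper1.Averaging

set_option autoImplicit false
open Cfsg

namespace Cfsg.Agent.S3633

open Cfsg.Agent.Lib.Helper21

/-- Let G be a finite group and ρ a set of at least three prime divisors of the order of G that are pairwise non-adjacent in the prime graph (no element of order rs for distinct r, s ∈ ρ). Then at most one prime of ρ divides the order of any given solvable normal subgroup of G; in particular G is not solvable. -/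
theorem result {G : Type*} [Group G] [Finite G] (ρ : Finset ℕ) (hρ : 3 ≤ ρ.card) (hc : ((∀ r ∈ ρ, r.Prime ∧ r ∣ Nat.card G) ∧ (∀ r ∈ ρ, ∀ s ∈ ρ, r ≠ s → ¬ ∃ x : G, orderOf x = r * s)))
    (K : Subgroup G) [K.Normal] (hK : Group.IsSolvable ↥K) :
    (∀ r ∈ ρ, ∀ s ∈ ρ, r ∣ Nat.card ↥K → s ∣ Nat.card ↥K → r = s) ∧ ¬ Group.IsSolvable G := by
  classical
  obtain ⟨hc1, hc2⟩ := hc
  constructor
  · intro r hr s hs hrK hsK
    by_contra hrs
    have h1 : ((ρ.erase r).erase s).Nonempty := by
      apply Finset.card_pos.mp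
      rw [Finset.card_erase_of_mem (Finset.mem_erase.mpr ⟨Ne.symm hrs, hs⟩),
        Finset.card_erase_of_mem hr]
      omega
    obtain ⟨t, ht⟩ := h1
    have ht' := Finset.mem_of_mem_erase ht
    have htρ : t ∈ ρ := Finset.mem_of_mem_erase ht'
    have hts : t ≠ s := Finset.ne_of_mem_erase ht
    have htr : t ≠ r := Finset.ne_of_mem_erase ht'
    haveI : Fact t.Prime := ⟨(hc1 t htρ).1⟩
    obtain ⟨z, hz⟩ := exists_prime_orderOf_dvd_card' t (hc1 t htρ).2
    haveI : Group.IsSolvable ↥(K ⊔ Subgroup.zpowers z) :=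
      Cfsg.Agent.Lib.Helper10.isSolvable_sup_of_le_normalizer hK
        (Cfsg.Agent.Lib.Helper1.isSolvable_of_isMulCommutative _)
        (by rw [Subgroup.normalizer_eq_top]; exact le_top)
    have hsub : ∀ c ∈ ({r, s, t} : Finset ℕ), c ∈ ρ := by
      intro c hc
      simp only [Finset.mem_insert, Finset.mem_singleton] at hc
      rcases hc with rfl | rfl | rfl <;> assumption
    have hdiv : ∀ c ∈ ({r, s, t} : Finset ℕ),
        c.Prime ∧ c ∣ Nat.card ↥(K ⊔ Subgroup.zpowers z) := by
      intro c hc
      refine ⟨(hc1 c (hsub c hc)).1, ?_⟩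
      simp only [Finset.mem_insert, Finset.mem_singleton] at hc
      rcases hc with rfl | rfl | rfl
      · exact hrK.trans (Subgroup.card_dvd_of_le le_sup_left)
      · exact hsK.trans (Subgroup.card_dvd_of_le le_sup_left)
      · have h2 : Nat.card (Subgroup.zpowers z) = c := by rw [Nat.card_zpowers, hz]
        rw [← h2]; exact Subgroup.card_dvd_of_le le_sup_right
    have hcard3 : 3 ≤ ({r, s, t} : Finset ℕ).card := by
      rw [Finset.card_insert_of_notMem, Finset.card_insert_of_notMem, Finset.card_singleton]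
      · simpa using hts.symm
      · simp only [Finset.mem_insert, Finset.mem_singleton, not_or]
        exact ⟨hrs, htr.symm⟩
    obtain ⟨a, ha, b, hb, hab, hx⟩ :=
      solvable_three_primes (K ⊔ Subgroup.zpowers z) {r, s, t} hdiv hcard3
    exact hc2 a (hsub a ha) b (hsub b hb) hab hx
  · intro hG
    haveI := hG
    haveI : Group.IsSolvable (⊤ : Subgroup G) := inferInstance
    obtain ⟨a, ha, b, hb, hab, hx⟩ := solvable_three_primes (⊤ : Subgroup G) ρ
      (fun a ha => ⟨(hc1 a ha).1, by rw [Subgroup.card_top]; exact (hc1 a ha).2⟩) hρ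
    exact hc2 a ha b hb hab hx

end Cfsg.Agent.S3633
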