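import Cfsg.Statements.S3639
import Cfsg.Agent.Lib.Helper21.SzBasic

set_option autoImplicit false
open Cfsg

namespace Cfsg.Agent.S3639


open Matrix Cfsg.Lie Cfsg.Agent.Lib.Helper21.Sz4

section grp

variable {F : Type*} [Field F]

/-- the action of `GL₄(F)` on `k`-tuples of vectors -/
def actEquiv (k : ℕ) (g : GL (Fin 4) F) : (Fin k → Fin 4 → F) ≃+ (Fin k → Fin 4 → F) where
  toFun v := fun i => (g : Matrix (Fin 4) (Fin 4) F) *ᵥ v i
  invFun v := fun i => ((g⁻¹ : GL (Fin 4) F) : Matrix (Fin 4) (Fin 4) F) *ᵥ v i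
  left_inv v := by
    funext i
    show ((g⁻¹ : GL (Fin 4) F) : Matrix (Fin 4) (Fin 4) F) *ᵥ
      ((g : Matrix (Fin 4) (Fin 4) F) *ᵥ v i) = v i
    rw [Matrix.mulVec_mulVec, ← Units.val_mul, inv_mul_cancel, Units.val_one, Matrix.one_mulVec]
  right_inv v := by
    funext i
    show (g : Matrix (Fin 4) (Fin 4) F) *ᵥ
      (((g⁻¹ : GL (Fin 4) F) : Matrix (Fin 4) (Fin 4) F) *ᵥ v i) = v i
    rw [Matrix.mulVec_mulVec, ← Units.val_mul, mul_inv_cancel, Units.val_one, Matrix.one_mulVec]
  map_add' v w := by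
    funext i
    show (g : Matrix (Fin 4) (Fin 4) F) *ᵥ (v i + w i) =
      (g : Matrix (Fin 4) (Fin 4) F) *ᵥ v i + (g : Matrix (Fin 4) (Fin 4) F) *ᵥ w i
    exact Matrix.mulVec_add _ _ _

/-- the action of a subgroup of `GL₄(F)` as a homomorphism -/
def act (k : ℕ) (Γ : Subgroup (GL (Fin 4) F)) :
    Γ →* MulAut (Multiplicative (Fin k → Fin 4 → F)) where
  toFun g := AddEquiv.toMultiplicative (actEquiv k (g : GL (Fin 4) F))
  map_one' := by
    refine MulEquiv.ext fun v => ?_
    apply Multiplicative.toAdd.injective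
    funext i
    show ((1 : GL (Fin 4) F) : Matrix (Fin 4) (Fin 4) F) *ᵥ (Multiplicative.toAdd v i) =
      Multiplicative.toAdd v i
    rw [Units.val_one, Matrix.one_mulVec]
  map_mul' g h := by
    refine MulEquiv.ext fun v => ?_
    apply Multiplicative.toAdd.injective
    funext i
    show (((g : GL (Fin 4) F) * (h : GL (Fin 4) F) : GL (Fin 4) F) : Matrix (Fin 4) (Fin 4) F) *ᵥ
        (Multiplicative.toAdd v i) =
      ((g : GL (Fin 4) F) : Matrix (Fin 4) (Fin 4) F) *ᵥ
        (((h : GL (Fin 4) F) : Matrix (Fin 4) (Fin 4) F) *ᵥ (Multiplicative.toAdd v i))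
    rw [Units.val_mul, Matrix.mulVec_mulVec]

theorem act_apply (k : ℕ) (Γ : Subgroup (GL (Fin 4) F)) (g : Γ)
    (v : Multiplicative (Fin k → Fin 4 → F)) (i : Fin k) :
    Multiplicative.toAdd (act k Γ g v) i =
      ((g : GL (Fin 4) F) : Matrix (Fin 4) (Fin 4) F) *ᵥ (Multiplicative.toAdd v i) := rfl

/-- the group `(F⁴)^k ⋊ Γ` -/
abbrev HH (F : Type*) [Field F] (k : ℕ) (Γ : Subgroup (GL (Fin 4) F)) : Type _ :=
  Multiplicative (Fin k → Fin 4 → F) ⋊[act k Γ] Γ

variable [CharP F 2]

theorem left_sq (k : ℕ) (v : Multiplicative (Fin k → Fin 4 → F)) : v * v = 1 := by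
  apply Multiplicative.toAdd.injective
  show Multiplicative.toAdd v + Multiplicative.toAdd v = 0
  funext i j
  exact CharTwo.add_self_eq_zero _

theorem ker_sq (k : ℕ) (Γ : Subgroup (GL (Fin 4) F)) (x : HH F k Γ) (hx : x.right = 1) :
    x * x = 1 := by
  apply SemidirectProduct.ext
  · show x.left * (act k Γ x.right) x.left = 1
    rw [hx, map_one]
    exact left_sq k x.left
  · show x.right * x.right = 1
    rw [hx, one_mul]

theorem order_right_of_odd (k : ℕ) (Γ : Subgroup (GL (Fin 4) F)) (h : HH F k Γ)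
    (hodd : Nat.Coprime (orderOf h) 2) : orderOf h.right = orderOf h := by
  apply Nat.dvd_antisymm
  · have := orderOf_map_dvd (SemidirectProduct.rightHom (φ := act (F := F) k Γ)) h
    exact this
  · set n := orderOf h.right with hn
    have h1 : (h ^ n).right = 1 := by
      have : (h ^ n).right = h.right ^ n :=
        map_pow (SemidirectProduct.rightHom (φ := act (F := F) k Γ)) h n
      rw [this, hn, pow_orderOf_eq_one]
    have h2 := ker_sq k Γ (h ^ n) h1
    rw [← pow_add] at h2
    have h3 : orderOf h ∣ n + n := orderOf_dvd_of_pow_eq_one h2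
    rw [← two_mul] at h3
    exact hodd.dvd_of_dvd_mul_left h3

theorem two_r_cases (k : ℕ) (Γ : Subgroup (GL (Fin 4) F)) (h : HH F k Γ) (r : ℕ) (hr : r.Prime)
    (hr2 : r ≠ 2) (ho : orderOf h = 2 * r) :
    (∃ g : Γ, orderOf g = 2 * r) ∨
    (∃ a : Γ, a ≠ 1 ∧ a ^ r = 1 ∧ ∃ v : Fin 4 → F, v ≠ 0 ∧
      ((a : GL (Fin 4) F) : Matrix (Fin 4) (Fin 4) F) *ᵥ v = v) := by
  set x := h ^ 2 with hx
  set y := h ^ r with hy
  have hy2 : y * y = 1 := by
    rw [hy, ← pow_add, ← two_mul, ← ho, pow_orderOf_eq_one]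
  have hy1 : y ≠ 1 := by
    intro h1
    have : orderOf h ∣ r := orderOf_dvd_of_pow_eq_one h1
    rw [ho] at this
    have := Nat.le_of_dvd hr.pos this
    have := hr.pos
    omega
  have hxr : x ^ r = 1 := by
    rw [hx, ← pow_mul, ← ho, pow_orderOf_eq_one]
  have hxy : x * y = y * x := (Commute.pow_pow_self h 2 r).eq
  have ha1 : x.right ≠ 1 := by
    intro ha
    have h2 := ker_sq k Γ x ha
    rw [hx, ← pow_add] at h2
    have h3 : orderOf h ∣ 2 + 2 := orderOf_dvd_of_pow_eq_one h2
    rw [ho] at h3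
    have h4 : r ∣ 2 := by
      have : 2 * r ∣ 2 * 2 := h3
      exact Nat.dvd_of_mul_dvd_mul_left (by norm_num) this
    exact hr2 ((Nat.prime_dvd_prime_iff_eq hr Nat.prime_two).mp h4)
  have har : x.right ^ r = 1 := by
    have : (x ^ r).right = x.right ^ r :=
      map_pow (SemidirectProduct.rightHom (φ := act (F := F) k Γ)) x r
    rw [← this, hxr]
    rfl
  have hcomm : x.right * y.right = y.right * x.right := congrArg SemidirectProduct.right hxy
  have ht2 : y.right * y.right = 1 := congrArg SemidirectProduct.right hy2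
  by_cases ht1 : y.right = 1
  · right
    refine ⟨x.right, ha1, har, ?_⟩
    have hleft : x.left * (act k Γ x.right) y.left = y.left * (act k Γ y.right) x.left :=
      congrArg SemidirectProduct.left hxy
    rw [ht1, map_one] at hleft
    have hfix : (act k Γ x.right) y.left = y.left := by
      have : x.left * (act k Γ x.right) y.left = x.left * y.left := by
        rw [hleft]; exact mul_comm _ _
      exact mul_left_cancel this
    have hyl : y.left ≠ 1 := by
      intro h1
      apply hy1
      exact SemidirectProduct.ext h1 ht1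
    have hex : ∃ i, Multiplicative.toAdd y.left i ≠ 0 := by
      by_contra hcon
      push Not at hcon
      apply hyl
      apply Multiplicative.toAdd.injective
      funext i
      exact hcon i
    obtain ⟨i, hi⟩ := hex
    refine ⟨Multiplicative.toAdd y.left i, hi, ?_⟩
    rw [← act_apply, hfix]
  · left
    haveI : Fact r.Prime := ⟨hr⟩
    have hoa : orderOf x.right = r := orderOf_eq_prime har ha1
    have hot : orderOf y.right = 2 := by
      refine orderOf_eq_prime ?_ ht1
      rw [pow_two]; exact ht2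
    refine ⟨y.right * x.right, ?_⟩
    have hcop : Nat.Coprime (orderOf y.right) (orderOf x.right) := by
      rw [hoa, hot]
      exact (Nat.coprime_primes Nat.prime_two hr).mpr (fun h => hr2 h.symm)
    have hc : Commute y.right x.right := hcomm.symm
    rw [hc.orderOf_mul_eq_mul_orderOf_of_coprime hcop, hoa, hot]

end grp

/-- Let S be the Suzuki group over the field with q = 2^(2m+1) ≥ 8 elements. Then there are finite groups of arbitrarily large order with the same prime graph as S. -/
theorem result {F : Type*} [Field F] [Fintype F] {m : ℕ} (hm : 1 ≤ m) (hF : Fintype.card F = 2 ^ (2 * m + 1)) (N : ℕ) :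
    ∃ (H : Type) (_ : Group H) (_ : Fintype H), N < Fintype.card H ∧ ((∀ r : ℕ, r.Prime → (r ∣ Nat.card ↥(Cfsg.Lie.Sz F (2 ^ (m + 1))) ↔ r ∣ Nat.card H)) ∧
      (∀ r s : ℕ, r.Prime → s.Prime → r ≠ s → ((∃ x : ↥(Cfsg.Lie.Sz F (2 ^ (m + 1))), orderOf x = r * s) ↔ (∃ y : H, orderOf y = r * s)))) := by
  classical
  -- characteristic two
  haveI hchar : CharP F 2 := by
    haveI : CharP F (ringChar F) := ringChar.charP F
    obtain ⟨n, hp, hn⟩ := FiniteField.card F (ringChar F)
    rw [hF] at hn
    have hdvd : ringChar F ∣ 2 ^ (2 * m + 1) := by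
      rw [hn]
      exact dvd_pow_self _ n.pos.ne'
    have h2 : ringChar F = 2 :=
      (Nat.prime_dvd_prime_iff_eq hp Nat.prime_two).mp (hp.dvd_of_dvd_pow hdvd)
    rw [← h2]
    infer_instance
  have he : (2 : ℕ) ^ (m + 1) ≠ 0 := pow_ne_zero _ (by norm_num)
  have hadd : ∀ x y : F, (x + y) ^ 2 ^ (m + 1) = x ^ 2 ^ (m + 1) + y ^ 2 ^ (m + 1) :=
    fun x y => add_pow_char_pow x y 2 (m + 1)
  set Γ : Subgroup (GL (Fin 4) F) := Cfsg.Lie.Sz F (2 ^ (m + 1)) with hΓ
  haveI hfinH : Finite (HH F N Γ) := Finite.of_equiv _ SemidirectProduct.equivProd.symm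
  let ι : Shrink.{0} (HH F N Γ) ≃* HH F N Γ := Shrink.mulEquiv
  haveI hfinS : Finite (Shrink.{0} (HH F N Γ)) := Finite.of_equiv _ ι.symm.toEquiv
  letI hfintS : Fintype (Shrink.{0} (HH F N Γ)) := Fintype.ofFinite _
  have hcardH : Nat.card (Shrink.{0} (HH F N Γ)) =
      Nat.card (Multiplicative (Fin N → Fin 4 → F)) * Nat.card Γ := by
    rw [Nat.card_congr ι.toEquiv]
    exact SemidirectProduct.card (N := Multiplicative (Fin N → Fin 4 → F)) (G := Γ)
      (φ := act N Γ)
  -- the involution
  have h2Γ : 2 ∣ Nat.card Γ := by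
    let t : Γ := ⟨Ju, Ju_mem _ he⟩
    have ht : orderOf t = 2 := by
      refine orderOf_eq_prime ?_ ?_
      · rw [pow_two]
        exact Subtype.ext Ju_mul
      · intro h
        exact Ju_ne (congrArg Subtype.val h)
    have hd := orderOf_dvd_natCard t
    rw [ht] at hd
    exact hd
  refine ⟨Shrink.{0} (HH F N Γ), inferInstance, hfintS, ?_, ?_, ?_⟩
  · rw [← Nat.card_eq_fintype_card, hcardH]
    have h1 : N < Nat.card (Multiplicative (Fin N → Fin 4 → F)) := by
      have : Nat.card (Multiplicative (Fin N → Fin 4 → F)) = Nat.card (Fin 4 → F) ^ N := by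
        show Nat.card (Fin N → Fin 4 → F) = _
        rw [Nat.card_fun, Nat.card_fin]
      rw [this]
      have h2 : 2 ≤ Nat.card (Fin 4 → F) := by
        have : Nontrivial (Fin 4 → F) := inferInstance
        exact Finite.one_lt_card
      calc N < 2 ^ N := Nat.lt_two_pow_self
        _ ≤ Nat.card (Fin 4 → F) ^ N := Nat.pow_le_pow_left h2 N
    have h3 : 0 < Nat.card Γ := Nat.card_pos
    calc N < Nat.card (Multiplicative (Fin N → Fin 4 → F)) := h1
      _ ≤ _ := Nat.le_mul_of_pos_right _ h3
  · intro p hp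
    rw [hcardH]
    constructor
    · intro h
      exact dvd_mul_of_dvd_right h _
    · intro h
      rcases (Nat.Prime.dvd_mul hp).mp h with h | h
      · haveI : Fact p.Prime := ⟨hp⟩
        obtain ⟨v, hv⟩ := exists_prime_orderOf_dvd_card' p h
        have hv2 : v ^ 2 = 1 := by rw [pow_two]; exact left_sq N v
        have : p ∣ 2 := by rw [← hv]; exact orderOf_dvd_of_pow_eq_one hv2
        have hp2 : p = 2 := (Nat.prime_dvd_prime_iff_eq hp Nat.prime_two).mp this
        rw [hp2]; exact h2Γ
      · exact h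
  · intro p q hp hq hpq
    constructor
    · rintro ⟨g, hg⟩
      refine ⟨ι.symm (SemidirectProduct.inr g), ?_⟩
      rw [MulEquiv.orderOf_eq, orderOf_injective _ SemidirectProduct.inr_injective]
      exact hg
    · rintro ⟨g', hg'⟩
      have hh : orderOf (ι g') = p * q := by rw [MulEquiv.orderOf_eq]; exact hg'
      -- the case of an element of order `2 * r`
      have key : ∀ r : ℕ, r.Prime → r ≠ 2 → orderOf (ι g') = 2 * r →
          ∃ g : Γ, orderOf g = 2 * r := by
        intro r hr hr2 ho
        rcases two_r_cases N Γ (ι g') r hr hr2 ho with h | ⟨a, ha1, har, v, hv, hfix⟩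
        · exact h
        · exfalso
          have h4 : (a : GL (Fin 4) F) ^ 4 = 1 :=
            pow_four_of_fix (2 ^ (m + 1)) he hadd a.2 v hv hfix
          have h4' : a ^ 4 = 1 := Subtype.ext h4
          have hd1 : orderOf a ∣ 4 := orderOf_dvd_of_pow_eq_one h4'
          have hd2 : orderOf a ∣ r := orderOf_dvd_of_pow_eq_one har
          have hcop : Nat.Coprime 4 r := by
            have : Nat.Coprime (2 ^ 2) r :=
              Nat.Coprime.pow_left 2 ((Nat.coprime_primes Nat.prime_two hr).mpr
                (fun h => hr2 h.symm))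
            exact this
          have h1 : orderOf a ∣ 1 := by
            have := Nat.dvd_gcd hd1 hd2
            rw [hcop] at this
            exact this
          exact ha1 (orderOf_eq_one_iff.mp (Nat.dvd_one.mp h1))
      by_cases hp2 : p = 2
      · have := key q hq (fun h => hpq (hp2.trans h.symm)) (by rw [hh, hp2])
        rw [hp2]; exact this
      by_cases hq2 : q = 2
      · have := key p hp hp2 (by rw [hh, hq2, mul_comm])
        rw [hq2, mul_comm]; exact this
      have hodd : Nat.Coprime (orderOf (ι g')) 2 := by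
        rw [hh]
        apply Nat.Coprime.mul_left
        · exact (Nat.coprime_primes hp Nat.prime_two).mpr hp2
        · exact (Nat.coprime_primes hq Nat.prime_two).mpr hq2
      refine ⟨(ι g').right, ?_⟩
      rw [order_right_of_odd N Γ (ι g') hodd]
      exact hh

end Cfsg.Agent.S3639
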