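import Cfsg.Statements.S3660
import Mathlib.GroupTheory.SemidirectProduct
import Mathlib.Algebra.Group.Shrink
import Mathlib.Data.Countable.Small
import Mathlib.Algebra.CharP.Two

set_option autoImplicit false
open Cfsg

namespace Cfsg.Agent.S3660


open Matrix

section mat

variable {F : Type*} [Field F] [CharP F 2]

theorem two_eq_zero' : (2 : F) = 0 := CharTwo.two_eq_zero

theorem sq_eq_one_of_trace (a : SpecialLinearGroup (Fin 2) F) (htr : a.1 0 0 + a.1 1 1 = 0) :
    a * a = 1 := by
  have h2 : (2 : F) = 0 := two_eq_zero'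
  have hdet := a.2
  rw [Matrix.det_fin_two] at hdet
  apply Subtype.ext
  show a.1 * a.1 = 1
  rw [← Matrix.ext_iff]
  intro i j
  fin_cases i <;> fin_cases j
  · show (a.1 * a.1) 0 0 = (1 : Matrix (Fin 2) (Fin 2) F) 0 0
    rw [Matrix.mul_apply, Fin.sum_univ_two, Matrix.one_apply_eq]
    linear_combination a.1 0 0 * htr - hdet - h2
  · show (a.1 * a.1) 0 1 = (1 : Matrix (Fin 2) (Fin 2) F) 0 1
    rw [Matrix.mul_apply, Fin.sum_univ_two, Matrix.one_apply_ne (by decide)]
    linear_combination a.1 0 1 * htr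
  · show (a.1 * a.1) 1 0 = (1 : Matrix (Fin 2) (Fin 2) F) 1 0
    rw [Matrix.mul_apply, Fin.sum_univ_two, Matrix.one_apply_ne (by decide)]
    linear_combination a.1 1 0 * htr
  · show (a.1 * a.1) 1 1 = (1 : Matrix (Fin 2) (Fin 2) F) 1 1
    rw [Matrix.mul_apply, Fin.sum_univ_two, Matrix.one_apply_eq]
    linear_combination a.1 1 1 * htr - hdet - h2

theorem trace_of_fix (a : SpecialLinearGroup (Fin 2) F) (v : Fin 2 → F) (hv : v ≠ 0)
    (h : a.1 *ᵥ v = v) : a.1 0 0 + a.1 1 1 = 0 := by
  have h2 : (2 : F) = 0 := two_eq_zero'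
  have hdet := a.2
  rw [Matrix.det_fin_two] at hdet
  have e1 : a.1 0 0 * v 0 + a.1 0 1 * v 1 = v 0 := by
    have := congrFun h 0
    rw [Matrix.mulVec, dotProduct, Fin.sum_univ_two] at this
    exact this
  have e2 : a.1 1 0 * v 0 + a.1 1 1 * v 1 = v 1 := by
    have := congrFun h 1
    rw [Matrix.mulVec, dotProduct, Fin.sum_univ_two] at this
    exact this
  have key0 : (a.1 0 0 + a.1 1 1) * v 0 = 0 := by
    linear_combination -(a.1 1 1 - 1) * e1 + a.1 0 1 * e2 + v 0 * hdet + v 0 * h2
  have key1 : (a.1 0 0 + a.1 1 1) * v 1 = 0 := by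
    linear_combination -(a.1 0 0 - 1) * e2 + a.1 1 0 * e1 + v 1 * hdet + v 1 * h2
  by_contra hne
  apply hv
  funext i
  fin_cases i
  · exact (mul_eq_zero.mp key0).resolve_left hne
  · exact (mul_eq_zero.mp key1).resolve_left hne

theorem invol_offdiag (t : SpecialLinearGroup (Fin 2) F) (ht : t * t = 1) (ht1 : t ≠ 1) :
    t.1 0 1 ≠ 0 ∨ t.1 1 0 ≠ 0 := by
  have h2 : (2 : F) = 0 := two_eq_zero'
  by_contra hcon
  push Not at hcon
  obtain ⟨h01, h10⟩ := hcon
  have ht' : t.1 * t.1 = 1 := congrArg Subtype.val ht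
  have hT00 : t.1 0 0 * t.1 0 0 + t.1 0 1 * t.1 1 0 = 1 := by
    have := congrFun (congrFun ht' 0) 0
    rw [Matrix.mul_apply, Fin.sum_univ_two, Matrix.one_apply_eq] at this
    exact this
  have hT11 : t.1 1 0 * t.1 0 1 + t.1 1 1 * t.1 1 1 = 1 := by
    have := congrFun (congrFun ht' 1) 1
    rw [Matrix.mul_apply, Fin.sum_univ_two, Matrix.one_apply_eq] at this
    exact this
  have s0 : (t.1 0 0 - 1) * (t.1 0 0 - 1) = 0 := by
    linear_combination hT00 - t.1 1 0 * h01 - (t.1 0 0 - 1) * h2
  have s1 : (t.1 1 1 - 1) * (t.1 1 1 - 1) = 0 := by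
    linear_combination hT11 - t.1 1 0 * h01 - (t.1 1 1 - 1) * h2
  have u0 : t.1 0 0 = 1 := sub_eq_zero.mp (mul_self_eq_zero.mp s0)
  have u1 : t.1 1 1 = 1 := sub_eq_zero.mp (mul_self_eq_zero.mp s1)
  apply ht1
  apply Subtype.ext
  show t.1 = 1
  rw [← Matrix.ext_iff]
  intro i j
  fin_cases i <;> fin_cases j
  · show t.1 0 0 = (1 : Matrix (Fin 2) (Fin 2) F) 0 0
    rw [Matrix.one_apply_eq]; exact u0
  · show t.1 0 1 = (1 : Matrix (Fin 2) (Fin 2) F) 0 1
    rw [Matrix.one_apply_ne (by decide)]; exact h01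
  · show t.1 1 0 = (1 : Matrix (Fin 2) (Fin 2) F) 1 0
    rw [Matrix.one_apply_ne (by decide)]; exact h10
  · show t.1 1 1 = (1 : Matrix (Fin 2) (Fin 2) F) 1 1
    rw [Matrix.one_apply_eq]; exact u1

theorem invol_trace (t : SpecialLinearGroup (Fin 2) F) (ht : t * t = 1) (ht1 : t ≠ 1) :
    t.1 0 0 + t.1 1 1 = 0 := by
  have ht' : t.1 * t.1 = 1 := congrArg Subtype.val ht
  have hT01 : t.1 0 0 * t.1 0 1 + t.1 0 1 * t.1 1 1 = 0 := by
    have := congrFun (congrFun ht' 0) 1
    rw [Matrix.mul_apply, Fin.sum_univ_two, Matrix.one_apply_ne (by decide)] at this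
    exact this
  have hT10 : t.1 1 0 * t.1 0 0 + t.1 1 1 * t.1 1 0 = 0 := by
    have := congrFun (congrFun ht' 1) 0
    rw [Matrix.mul_apply, Fin.sum_univ_two, Matrix.one_apply_ne (by decide)] at this
    exact this
  rcases invol_offdiag t ht ht1 with h | h
  · have : t.1 0 1 * (t.1 0 0 + t.1 1 1) = 0 := by linear_combination hT01
    exact (mul_eq_zero.mp this).resolve_left h
  · have : t.1 1 0 * (t.1 0 0 + t.1 1 1) = 0 := by linear_combination hT10
    exact (mul_eq_zero.mp this).resolve_left h

theorem trace_of_comm_invol (a t : SpecialLinearGroup (Fin 2) F) (ht : t * t = 1) (ht1 : t ≠ 1)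
    (hc : a * t = t * a) : a.1 0 0 + a.1 1 1 = 0 := by
  have h2 : (2 : F) = 0 := two_eq_zero'
  have htrT := invol_trace t ht ht1
  have hc' : a.1 * t.1 = t.1 * a.1 := congrArg Subtype.val hc
  have hc01 : a.1 0 0 * t.1 0 1 + a.1 0 1 * t.1 1 1 = t.1 0 0 * a.1 0 1 + t.1 0 1 * a.1 1 1 := by
    have := congrFun (congrFun hc' 0) 1
    rw [Matrix.mul_apply, Matrix.mul_apply, Fin.sum_univ_two, Fin.sum_univ_two] at this
    exact this
  have hc10 : a.1 1 0 * t.1 0 0 + a.1 1 1 * t.1 1 0 = t.1 1 0 * a.1 0 0 + t.1 1 1 * a.1 1 0 := by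
    have := congrFun (congrFun hc' 1) 0
    rw [Matrix.mul_apply, Matrix.mul_apply, Fin.sum_univ_two, Fin.sum_univ_two] at this
    exact this
  rcases invol_offdiag t ht ht1 with h | h
  · have : t.1 0 1 * (a.1 0 0 + a.1 1 1) = 0 := by
      linear_combination hc01 + a.1 0 1 * htrT + (t.1 0 1 * a.1 1 1 - a.1 0 1 * t.1 1 1) * h2
    exact (mul_eq_zero.mp this).resolve_left h
  · have : t.1 1 0 * (a.1 0 0 + a.1 1 1) = 0 := by
      linear_combination hc10 + a.1 1 0 * htrT + (t.1 1 0 * a.1 0 0 - a.1 1 0 * t.1 0 0) * h2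
    exact (mul_eq_zero.mp this).resolve_left h

theorem center_eq_bot : Subgroup.center (SpecialLinearGroup (Fin 2) F) = ⊥ := by
  have h2 : (2 : F) = 0 := two_eq_zero'
  rw [eq_bot_iff]
  intro A hA
  rw [SpecialLinearGroup.mem_center_iff] at hA
  obtain ⟨r, hr, hA⟩ := hA
  rw [Fintype.card_fin] at hr
  have : (r - 1) * (r - 1) = 0 := by linear_combination hr - (r - 1) * h2
  have hr1 : r = 1 := sub_eq_zero.mp (mul_self_eq_zero.mp this)
  rw [Subgroup.mem_bot]
  apply Subtype.ext
  rw [← hA, hr1]
  simp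

/-- the unipotent involution -/
def unip : SpecialLinearGroup (Fin 2) F :=
  ⟨!![1, 1; 0, 1], by rw [Matrix.det_fin_two]; simp⟩

theorem unip_sq : (unip : SpecialLinearGroup (Fin 2) F) * unip = 1 := by
  apply sq_eq_one_of_trace
  show (1 : F) + 1 = 0
  have h2 : (2 : F) = 0 := two_eq_zero'
  linear_combination h2

omit [CharP F 2] in
theorem unip_ne : (unip : SpecialLinearGroup (Fin 2) F) ≠ 1 := by
  intro h
  have h1 : (unip : SpecialLinearGroup (Fin 2) F).1 0 1 = (1 : SpecialLinearGroup (Fin 2) F).1 0 1 := by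
    rw [h]
  have h2 : (unip : SpecialLinearGroup (Fin 2) F).1 0 1 = 1 := rfl
  rw [h2, SpecialLinearGroup.coe_one, Matrix.one_apply_ne (by decide)] at h1
  exact one_ne_zero h1

end mat

section grp

variable {F : Type*} [Field F]

/-- the action of `SL(2,F)` on `k`-tuples of vectors -/
def actEquiv (k : ℕ) (g : SpecialLinearGroup (Fin 2) F) :
    (Fin k → Fin 2 → F) ≃+ (Fin k → Fin 2 → F) where
  toFun v := fun i => g.1 *ᵥ v i
  invFun v := fun i => (g⁻¹).1 *ᵥ v i
  left_inv v := by
    funext i
    show (g⁻¹).1 *ᵥ (g.1 *ᵥ v i) = v i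
    rw [Matrix.mulVec_mulVec, ← SpecialLinearGroup.coe_mul, inv_mul_cancel,
      SpecialLinearGroup.coe_one, Matrix.one_mulVec]
  right_inv v := by
    funext i
    show g.1 *ᵥ ((g⁻¹).1 *ᵥ v i) = v i
    rw [Matrix.mulVec_mulVec, ← SpecialLinearGroup.coe_mul, mul_inv_cancel,
      SpecialLinearGroup.coe_one, Matrix.one_mulVec]
  map_add' v w := by
    funext i
    show g.1 *ᵥ (v i + w i) = g.1 *ᵥ v i + g.1 *ᵥ w i
    exact Matrix.mulVec_add _ _ _

/-- the action as a homomorphism -/
def act (k : ℕ) :
    SpecialLinearGroup (Fin 2) F →* MulAut (Multiplicative (Fin k → Fin 2 → F)) where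
  toFun g := AddEquiv.toMultiplicative (actEquiv k g)
  map_one' := by
    refine MulEquiv.ext fun v => ?_
    apply Multiplicative.toAdd.injective
    funext i
    show (1 : SpecialLinearGroup (Fin 2) F).1 *ᵥ (Multiplicative.toAdd v i) = Multiplicative.toAdd v i
    rw [SpecialLinearGroup.coe_one, Matrix.one_mulVec]
  map_mul' g h := by
    refine MulEquiv.ext fun v => ?_
    apply Multiplicative.toAdd.injective
    funext i
    show (g * h).1 *ᵥ (Multiplicative.toAdd v i) = g.1 *ᵥ (h.1 *ᵥ (Multiplicative.toAdd v i))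
    rw [SpecialLinearGroup.coe_mul, Matrix.mulVec_mulVec]

theorem act_apply (k : ℕ) (g : SpecialLinearGroup (Fin 2) F)
    (v : Multiplicative (Fin k → Fin 2 → F)) (i : Fin k) :
    Multiplicative.toAdd (act k g v) i = g.1 *ᵥ (Multiplicative.toAdd v i) := rfl

/-- the group `(F²)^k ⋊ SL(2,F)` -/
abbrev HH (F : Type*) [Field F] (k : ℕ) : Type _ :=
  Multiplicative (Fin k → Fin 2 → F) ⋊[act k] SpecialLinearGroup (Fin 2) F

variable [CharP F 2]

theorem left_sq (k : ℕ) (v : Multiplicative (Fin k → Fin 2 → F)) : v * v = 1 := by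
  apply Multiplicative.toAdd.injective
  show Multiplicative.toAdd v + Multiplicative.toAdd v = 0
  funext i j
  exact CharTwo.add_self_eq_zero _

theorem ker_sq (k : ℕ) (x : HH F k) (hx : x.right = 1) : x * x = 1 := by
  apply SemidirectProduct.ext
  · show x.left * (act k x.right) x.left = 1
    rw [hx, map_one]
    exact left_sq k x.left
  · show x.right * x.right = 1
    rw [hx, one_mul]

theorem order_right_of_odd (k : ℕ) (h : HH F k) (hodd : Nat.Coprime (orderOf h) 2) :
    orderOf h.right = orderOf h := by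
  apply Nat.dvd_antisymm
  · have := orderOf_map_dvd (SemidirectProduct.rightHom (φ := act (F := F) k)) h
    exact this
  · set n := orderOf h.right with hn
    have h1 : (h ^ n).right = 1 := by
      have : (h ^ n).right = h.right ^ n := map_pow (SemidirectProduct.rightHom (φ := act (F := F) k)) h n
      rw [this, hn, pow_orderOf_eq_one]
    have h2 := ker_sq k (h ^ n) h1
    rw [← pow_add] at h2
    have h3 : orderOf h ∣ n + n := orderOf_dvd_of_pow_eq_one h2
    rw [← two_mul] at h3
    exact hodd.dvd_of_dvd_mul_left h3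

theorem no_two_r (k : ℕ) (h : HH F k) (r : ℕ) (hr : r.Prime) (hr2 : r ≠ 2)
    (ho : orderOf h = 2 * r) : False := by
  set x := h ^ 2 with hx
  set y := h ^ r with hy
  have hy2 : y * y = 1 := by
    rw [hy, ← pow_add, ← two_mul, ← ho, pow_orderOf_eq_one]
  have hy1 : y ≠ 1 := by
    intro h1
    have : orderOf h ∣ r := orderOf_dvd_of_pow_eq_one h1
    rw [ho] at this
    have := Nat.le_of_dvd hr.pos this
    have := hr.pos
    omega
  have hxy : x * y = y * x := (Commute.pow_pow_self h 2 r).eq
  -- it suffices that the image of x squares to one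
  have hsuff : x.right * x.right = 1 → False := by
    intro ha
    have h1 : (x * x).right = 1 := ha
    have h2 := ker_sq k (x * x) h1
    rw [hx, ← pow_add, ← pow_add] at h2
    have h3 : orderOf h ∣ 2 + 2 + (2 + 2) := orderOf_dvd_of_pow_eq_one h2
    rw [ho] at h3
    have h4 : r ∣ 4 := by
      have : 2 * r ∣ 2 * 4 := h3
      exact Nat.dvd_of_mul_dvd_mul_left (by norm_num) this
    have h5 : r ∣ 2 ^ 2 := h4
    have h6 := (Nat.prime_dvd_prime_iff_eq hr Nat.prime_two).mp (hr.dvd_of_dvd_pow h5)
    exact hr2 h6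
  apply hsuff
  apply sq_eq_one_of_trace
  have hcomm : x.right * y.right = y.right * x.right := congrArg SemidirectProduct.right hxy
  have ht2 : y.right * y.right = 1 := congrArg SemidirectProduct.right hy2
  by_cases ht1 : y.right = 1
  · -- y lies in the kernel
    have hleft : x.left * (act k x.right) y.left = y.left * (act k y.right) x.left :=
      congrArg SemidirectProduct.left hxy
    rw [ht1, map_one] at hleft
    have hfix : (act k x.right) y.left = y.left := by
      have : x.left * (act k x.right) y.left = x.left * y.left := by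
        rw [hleft]; exact mul_comm _ _
      exact mul_left_cancel this
    have hyl : y.left ≠ 1 := by
      intro h1
      apply hy1
      exact SemidirectProduct.ext h1 ht1
    have hex : ∃ i, Multiplicative.toAdd y.left i ≠ 0 := by
      by_contra hcon
      push Not at hcon
      apply hyl
      apply Multiplicative.toAdd.injective
      funext i
      exact hcon i
    obtain ⟨i, hi⟩ := hex
    refine trace_of_fix x.right (Multiplicative.toAdd y.left i) hi ?_
    rw [← act_apply, hfix]
  · exact trace_of_comm_invol x.right y.right ht2 ht1 hcomm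

end grp

/-- The prime graph of a finite group has the prime divisors of its order as vertices, two distinct primes p, q being joined when the group has an element of order pq; two groups have the same prime graph when they have the same prime divisors and the same joined pairs. Let F be a finite field of characteristic 2 with at least 4 elements. Then there are finite groups of arbitrarily large order with the same prime graph as PSL(2,F); in particular PSL(2,F) is not determined by its prime graph. -/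
theorem result {F : Type*} [Field F] [Fintype F] [CharP F 2] (hF : 4 ≤ Fintype.card F) (N : ℕ) :
    ∃ (H : Type) (_ : Group H) (_ : Finite H), N < Nat.card H ∧
      ((∀ p : ℕ, p.Prime → (p ∣ Nat.card (Matrix.ProjectiveSpecialLinearGroup (Fin 2) F) ↔ p ∣ Nat.card H)) ∧
      (∀ p q : ℕ, p.Prime → q.Prime → p ≠ q → ((∃ g : (Matrix.ProjectiveSpecialLinearGroup (Fin 2) F), orderOf g = p * q) ↔ (∃ g : H, orderOf g = p * q)))) := by
  classical
  have hcen : Subgroup.center (SpecialLinearGroup (Fin 2) F) = ⊥ := center_eq_bot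
  let e : Matrix.ProjectiveSpecialLinearGroup (Fin 2) F ≃* SpecialLinearGroup (Fin 2) F :=
    (QuotientGroup.quotientMulEquivOfEq hcen).trans QuotientGroup.quotientBot
  haveI hfinH : Finite (HH F N) := Finite.of_equiv _ SemidirectProduct.equivProd.symm
  let ι : Shrink.{0} (HH F N) ≃* HH F N := Shrink.mulEquiv
  haveI hfinS : Finite (Shrink.{0} (HH F N)) := Finite.of_equiv _ ι.symm.toEquiv
  have hcardH : Nat.card (Shrink.{0} (HH F N)) =
      Nat.card (Multiplicative (Fin N → Fin 2 → F)) * Nat.card (SpecialLinearGroup (Fin 2) F) := by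
    rw [Nat.card_congr ι.toEquiv]
    exact SemidirectProduct.card (N := Multiplicative (Fin N → Fin 2 → F))
      (G := SpecialLinearGroup (Fin 2) F) (φ := act N)
  have hcardP : Nat.card (Matrix.ProjectiveSpecialLinearGroup (Fin 2) F) =
      Nat.card (SpecialLinearGroup (Fin 2) F) := Nat.card_congr e.toEquiv
  have h2S : 2 ∣ Nat.card (SpecialLinearGroup (Fin 2) F) := by
    have : orderOf (unip : SpecialLinearGroup (Fin 2) F) = 2 := by
      refine orderOf_eq_prime ?_ unip_ne
      rw [pow_two]; exact unip_sq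
    have hd := orderOf_dvd_natCard (unip : SpecialLinearGroup (Fin 2) F)
    rw [this] at hd
    exact hd
  refine ⟨Shrink.{0} (HH F N), inferInstance, hfinS, ?_, ?_, ?_⟩
  · -- large order
    rw [hcardH]
    have h1 : N < Nat.card (Multiplicative (Fin N → Fin 2 → F)) := by
      have : Nat.card (Multiplicative (Fin N → Fin 2 → F)) = Nat.card (Fin 2 → F) ^ N := by
        show Nat.card (Fin N → Fin 2 → F) = _
        rw [Nat.card_fun, Nat.card_fin]
      rw [this]
      have h2 : 2 ≤ Nat.card (Fin 2 → F) := by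
        have : Nontrivial (Fin 2 → F) := inferInstance
        exact Finite.one_lt_card
      calc N < 2 ^ N := Nat.lt_two_pow_self
        _ ≤ Nat.card (Fin 2 → F) ^ N := Nat.pow_le_pow_left h2 N
    have h3 : 0 < Nat.card (SpecialLinearGroup (Fin 2) F) := Nat.card_pos
    calc N < Nat.card (Multiplicative (Fin N → Fin 2 → F)) := h1
      _ ≤ _ := Nat.le_mul_of_pos_right _ h3
  · intro p hp
    rw [hcardH, hcardP]
    constructor
    · intro h
      exact dvd_mul_of_dvd_right h _
    · intro h
      rcases (Nat.Prime.dvd_mul hp).mp h with h | h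
      · haveI : Fact p.Prime := ⟨hp⟩
        obtain ⟨v, hv⟩ := exists_prime_orderOf_dvd_card' p h
        have hv2 : v ^ 2 = 1 := by rw [pow_two]; exact left_sq N v
        have : p ∣ 2 := by rw [← hv]; exact orderOf_dvd_of_pow_eq_one hv2
        have hp2 : p = 2 := (Nat.prime_dvd_prime_iff_eq hp Nat.prime_two).mp this
        rw [hp2]; exact h2S
      · exact h
  · intro p q hp hq hpq
    constructor
    · rintro ⟨g, hg⟩
      refine ⟨ι.symm (SemidirectProduct.inr (e g)), ?_⟩
      rw [MulEquiv.orderOf_eq, orderOf_injective _ SemidirectProduct.inr_injective,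
        MulEquiv.orderOf_eq]
      exact hg
    · rintro ⟨g', hg'⟩
      have hh : orderOf (ι g') = p * q := by rw [MulEquiv.orderOf_eq]; exact hg'
      by_cases hp2 : p = 2
      · exfalso
        refine no_two_r N (ι g') q hq (fun h => hpq (hp2.trans h.symm)) ?_
        rw [hh, hp2]
      by_cases hq2 : q = 2
      · exfalso
        refine no_two_r N (ι g') p hp hp2 ?_
        rw [hh, hq2, mul_comm]
      have hodd : Nat.Coprime (orderOf (ι g')) 2 := by
        rw [hh]
        apply Nat.Coprime.mul_left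
        · exact (Nat.coprime_primes hp Nat.prime_two).mpr hp2
        · exact (Nat.coprime_primes hq Nat.prime_two).mpr hq2
      refine ⟨e.symm (ι g').right, ?_⟩
      rw [MulEquiv.orderOf_eq, order_right_of_odd N (ι g') hodd]
      exact hh

end Cfsg.Agent.S3660
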