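import Cfsg.Statements.S3669
import Cfsg.Agent.Lib.Helper5.Ord60
import Cfsg.Agent.Lib.Helper2.CharOrtho
import Cfsg.Agent.Lib.Helper2.CharLinear
import Cfsg.Agent.Lib.Helper2.CharIntegral
import Cfsg.Agent.Lib.Helper2.CharIto
import Cfsg.Agent.S2331
import Cfsg.Agent.S0494
import Cfsg.Agent.S0243

set_option autoImplicit false
open Cfsg

namespace Cfsg.Agent.S3669

open Cfsg.Agent.Lib.Helper2 Cfsg.Agent.Lib.Helper5.Ord60

open scoped ComplexConjugate

/-- the degree of a function with a natural value at the identity -/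
theorem deg_of_apply_one {K : Type*} [Group K] (χ : K → ℂ) (d : ℕ) (h : χ 1 = (d : ℂ)) :
    Cfsg.charDegree χ = d := by
  unfold Cfsg.charDegree
  rw [h]
  simp

/-- the value at the identity of an irreducible character is its degree -/
theorem irr_one_eq_deg {K : Type*} [Group K] {χ : K → ℂ} (hχ : Cfsg.IsIrrCharacter K χ) :
    χ 1 = (Cfsg.charDegree χ : ℂ) := by
  obtain ⟨d, -, hd⟩ := irr_apply_one hχ
  rw [deg_of_apply_one χ d hd, hd]

/-- the sum of the squares of the degrees of the irreducible characters is the group order -/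
theorem sum_deg_sq (K : Type*) [Group K] [Fintype K] [Fintype (Cfsg.IrrCharacter K)] :
    ∑ ϑ : Cfsg.IrrCharacter K, Cfsg.charDegree (ϑ : K → ℂ) ^ 2 = Nat.card K := by
  have h1 := column_orthogonality (1 : K) 1
  rw [colFun_of_isConj (IsConj.refl 1)] at h1
  have h2 : Nat.card (Subgroup.centralizer ({1} : Set K)) = Nat.card K := by
    have : Subgroup.centralizer ({1} : Set K) = ⊤ := by
      rw [eq_top_iff]
      intro x _
      rw [Subgroup.mem_centralizer_singleton_iff]
      simp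
    rw [this, Subgroup.card_top]
  rw [h2] at h1
  have h3 : ∀ ϑ : Cfsg.IrrCharacter K, (ϑ : K → ℂ) 1 * conj ((ϑ : K → ℂ) 1)
      = ((Cfsg.charDegree (ϑ : K → ℂ) ^ 2 : ℕ) : ℂ) := by
    intro ϑ
    rw [irr_one_eq_deg ϑ.2, Complex.conj_natCast]
    push_cast
    ring
  rw [Finset.sum_congr rfl (fun ϑ _ => h3 ϑ), ← Nat.cast_sum] at h1
  exact_mod_cast h1

/-- the degree of an irreducible character divides the group order -/
theorem deg_dvd_card {K : Type*} [Group K] [Finite K] (χ : Cfsg.IrrCharacter K) :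
    Cfsg.charDegree (χ : K → ℂ) ∣ Nat.card K := by
  obtain ⟨n, ρ, hρ, hχ⟩ := χ.2
  have := hρ
  have h1 := irr_degree_dvd_card ρ
  have h2 : (χ : K → ℂ) 1 = ((Module.finrank ℂ (Fin n → ℂ) : ℕ) : ℂ) := by
    rw [← hχ]
    exact Representation.char_one ρ
  rw [deg_of_apply_one _ _ h2]
  exact h1

theorem sum_five (f : ℕ → ℕ) :
    ∑ b ∈ ({1, 2, 3, 4, 6} : Finset ℕ), f b = f 1 + f 2 + f 3 + f 4 + f 6 := by
  rw [Finset.sum_insert (by decide), Finset.sum_insert (by decide), Finset.sum_insert (by decide),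
    Finset.sum_insert (by decide), Finset.sum_singleton]
  ring

/-- a group of order 60 with at most five classes has an irreducible character of degree
divisible by 5 -/
theorem exists_deg_five {X : Type*} [Group X] [Finite X] (h60 : Nat.card X = 60)
    (hk : Nat.card (ConjClasses X) ≤ 5) :
    ∃ χ : Cfsg.IrrCharacter X, 5 ∣ Cfsg.charDegree (χ : X → ℂ) := by
  classical
  by_contra hcon
  push Not at hcon
  have := Fintype.ofFinite X
  have := Fintype.ofFinite (Cfsg.IrrCharacter X)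
  have hsum := sum_deg_sq X
  rw [h60] at hsum
  have hcard : Fintype.card (Cfsg.IrrCharacter X) ≤ 5 := by
    rw [← Nat.card_eq_fintype_card, card_irr_eq_card_conjClasses]; exact hk
  have hval : ∀ χ : Cfsg.IrrCharacter X,
      Cfsg.charDegree (χ : X → ℂ) ∈ ({1, 2, 3, 4, 6} : Finset ℕ) := by
    intro χ
    have h1 := deg_dvd_card χ
    rw [h60] at h1
    have h2 : Cfsg.charDegree (χ : X → ℂ) ^ 2 ≤ 60 := by
      rw [← hsum]
      exact Finset.single_le_sum
        (f := fun ϑ : Cfsg.IrrCharacter X => Cfsg.charDegree (ϑ : X → ℂ) ^ 2)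
        (fun _ _ => Nat.zero_le _) (Finset.mem_univ χ)
    have h3 := hcon χ
    obtain ⟨d, hd⟩ : ∃ d, d = Cfsg.charDegree (χ : X → ℂ) := ⟨_, rfl⟩
    rw [← hd] at h1 h2 h3 ⊢
    have h4 : d ≤ 7 := by nlinarith
    interval_cases d <;> first | decide | omega
  obtain ⟨χ₀, hχ₀⟩ : ∃ χ₀ : Cfsg.IrrCharacter X, (χ₀ : X → ℂ) = fun _ => 1 :=
    ⟨⟨fun _ => 1, isIrrCharacter_one⟩, rfl⟩
  have hd0 : Cfsg.charDegree (χ₀ : X → ℂ) = 1 := by
    apply deg_of_apply_one
    rw [hχ₀]; simp
  obtain ⟨s, hs⟩ : ∃ s : Finset (Cfsg.IrrCharacter X), s = Finset.univ.erase χ₀ := ⟨_, rfl⟩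
  have hscard : s.card ≤ 4 := by
    rw [hs, Finset.card_erase_of_mem (Finset.mem_univ _), Finset.card_univ]; omega
  have hssum : ∑ ϑ ∈ s, Cfsg.charDegree (ϑ : X → ℂ) ^ 2 = 59 := by
    have := Finset.add_sum_erase Finset.univ
      (fun ϑ : Cfsg.IrrCharacter X => Cfsg.charDegree (ϑ : X → ℂ) ^ 2) (Finset.mem_univ χ₀)
    rw [hsum, ← hs] at this
    simp only [hd0] at this
    omega
  have hc := Finset.card_eq_sum_card_fiberwise (s := s) (t := ({1, 2, 3, 4, 6} : Finset ℕ))
    (f := fun ϑ : Cfsg.IrrCharacter X => Cfsg.charDegree (ϑ : X → ℂ)) (fun χ _ => hval χ)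
  have hf := Finset.sum_fiberwise_of_maps_to (s := s) (t := ({1, 2, 3, 4, 6} : Finset ℕ))
    (g := fun ϑ : Cfsg.IrrCharacter X => Cfsg.charDegree (ϑ : X → ℂ)) (fun χ _ => hval χ)
    (fun ϑ : Cfsg.IrrCharacter X => Cfsg.charDegree (ϑ : X → ℂ) ^ 2)
  have hinner : ∀ b : ℕ,
      ∑ ϑ ∈ s.filter (fun ϑ : Cfsg.IrrCharacter X => Cfsg.charDegree (ϑ : X → ℂ) = b),
        Cfsg.charDegree (ϑ : X → ℂ) ^ 2
      = (s.filter (fun ϑ : Cfsg.IrrCharacter X => Cfsg.charDegree (ϑ : X → ℂ) = b)).card * b ^ 2 := by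
    intro b
    rw [Finset.sum_congr rfl (fun ϑ hϑ => by rw [(Finset.mem_filter.mp hϑ).2]),
      Finset.sum_const, smul_eq_mul]
  simp only [hinner] at hf
  rw [sum_five] at hf hc
  rw [hssum] at hf
  obtain ⟨n6, hn6⟩ : ∃ n6, n6 = (s.filter
    (fun ϑ : Cfsg.IrrCharacter X => Cfsg.charDegree (ϑ : X → ℂ) = 6)).card := ⟨_, rfl⟩
  obtain ⟨n4, hn4⟩ : ∃ n4, n4 = (s.filter
    (fun ϑ : Cfsg.IrrCharacter X => Cfsg.charDegree (ϑ : X → ℂ) = 4)).card := ⟨_, rfl⟩
  obtain ⟨n3, hn3⟩ : ∃ n3, n3 = (s.filter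
    (fun ϑ : Cfsg.IrrCharacter X => Cfsg.charDegree (ϑ : X → ℂ) = 3)).card := ⟨_, rfl⟩
  obtain ⟨n2, hn2⟩ : ∃ n2, n2 = (s.filter
    (fun ϑ : Cfsg.IrrCharacter X => Cfsg.charDegree (ϑ : X → ℂ) = 2)).card := ⟨_, rfl⟩
  rw [← hn6, ← hn4, ← hn3, ← hn2] at hf hc
  have b6 : n6 ≤ 1 := by omega
  have b4 : n4 ≤ 3 := by omega
  have b3 : n3 ≤ 4 := by omega
  have b2 : n2 ≤ 4 := by omega
  interval_cases n6 <;> interval_cases n4 <;> interval_cases n3 <;> interval_cases n2 <;> omega

/-- the alternating group of degree 5 has order 60 and at most five conjugacy classes -/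
theorem alt_five_facts : Nat.card (alternatingGroup (Fin 5)) = 60 ∧
    Nat.card (ConjClasses (alternatingGroup (Fin 5))) ≤ 5 := by
  have : Fact (Nat.Prime 2) := ⟨Nat.prime_two⟩
  have : Fintype (GaloisField 2 2) := Fintype.ofFinite _
  have hF : Fintype.card (GaloisField 2 2) = 4 := by
    rw [← Nat.card_eq_fintype_card, GaloisField.card 2 2 (by norm_num)]
    norm_num
  have hs : IsSimpleGroup (Matrix.ProjectiveSpecialLinearGroup (Fin 2) (GaloisField 2 2)) :=
    Matrix.ProjectiveSpecialLinearGroup.rank_two_simple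
      (by rw [Nat.card_eq_fintype_card, hF])
  have hc : Nat.card (Matrix.ProjectiveSpecialLinearGroup (Fin 2) (GaloisField 2 2)) = 60 := by
    have h1 := Cfsg.Agent.S0243.result hF 2 (le_refl 2)
    simp only [Fin.prod_univ_two, Fin.val_zero, Fin.val_one, pow_zero, pow_one] at h1
    norm_num at h1
    omega
  obtain ⟨e⟩ := Cfsg.Agent.S0494.result hc
  refine ⟨by rw [← Nat.card_congr e.toEquiv, hc], ?_⟩
  have hf : Function.Surjective (e.toMonoidHom.comp (QuotientGroup.mk'
      (Subgroup.center (Matrix.SpecialLinearGroup (Fin 2) (GaloisField 2 2))))) :=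
    e.surjective.comp (QuotientGroup.mk'_surjective _)
  have h2 := Nat.card_le_card_of_surjective _ (ConjClasses.map_surjective hf)
  rw [Cfsg.Agent.S2331.result, hF] at h2
  exact h2

/-- The character degree graph of a finite group has as vertices the primes dividing some irreducible complex character degree, two distinct primes being joined when their product divides some irreducible character degree; two groups have the same character degree graph when they have the same vertices and the same joined pairs. A finite group of order 60 with the same character degree graph as the alternating group A₅ (whose character degrees are 1, 3, 4, 5, so the graph has vertices 2, 3, 5 and no edges) is isomorphic to A₅. -/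
theorem result {G : Type*} [Group G] [Finite G] (hcard : Nat.card G = 60)
    (hΓ : Cfsg.degreePrimes G = Cfsg.degreePrimes (alternatingGroup (Fin 5)) ∧ Cfsg.degreeGraph G = Cfsg.degreeGraph (alternatingGroup (Fin 5))) : Nonempty (G ≃* alternatingGroup (Fin 5)) := by
  have : Fact (Nat.Prime 5) := ⟨by norm_num⟩
  obtain ⟨hΓ1, -⟩ := hΓ
  obtain ⟨hA60, hAk⟩ := alt_five_facts
  have h5A : (5 : ℕ) ∈ Cfsg.degreePrimes (alternatingGroup (Fin 5)) := by
    obtain ⟨χ, hχ⟩ := exists_deg_five hA60 hAk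
    exact ⟨by norm_num, _, ⟨χ, rfl⟩, hχ⟩
  rw [← hΓ1] at h5A
  obtain ⟨-, d, ⟨χ, rfl⟩, hχ⟩ := h5A
  obtain ⟨P⟩ : Nonempty (Sylow 5 G) := inferInstance
  have hPc : Nat.card (P : Subgroup G) = 5 := by
    have := sylow_card_eq 5 1 12 (by norm_num [hcard]) (by norm_num) P
    rwa [pow_one] at this
  have hP : ¬ (P : Subgroup G).Normal := by
    intro hn
    obtain ⟨n, ρ, hρ, hχ'⟩ := χ.2
    have := hρ
    have hcyc : IsCyclic (P : Subgroup G) := isCyclic_of_prime_card hPc
    have hcomm : ∀ a ∈ (P : Subgroup G), ∀ b ∈ (P : Subgroup G), a * b = b * a := by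
      intro a ha b hb
      have hmc : IsMulCommutative (P : Subgroup G) := IsCyclic.isMulCommutative
      have h1 := hmc.is_comm.comm (⟨a, ha⟩ : (P : Subgroup G)) ⟨b, hb⟩
      exact congrArg Subtype.val h1
    have h1 := ito_degree_dvd_index ρ (P : Subgroup G) hcomm
    have h2 : (χ : G → ℂ) 1 = ((Module.finrank ℂ (Fin n → ℂ) : ℕ) : ℂ) := by
      rw [← hχ']
      exact Representation.char_one ρ
    rw [deg_of_apply_one _ _ h2] at hχ
    exact P.not_dvd_index (hχ.trans h1)
  have hs := simple_of_not_normal hcard P hP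
  exact Cfsg.Agent.S0494.result hcard

end Cfsg.Agent.S3669
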