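import Cfsg.Statements.S3678
import Cfsg.Agent.S3660
import Mathlib.FieldTheory.Finite.GaloisField
import Mathlib.Tactic.Module
import Mathlib.Tactic.NormNum.Prime

set_option autoImplicit false
open Cfsg

namespace Cfsg.Agent.S3678


open Matrix

section CH

variable {R : Type*} [CommRing R]

theorem ch (g : SpecialLinearGroup (Fin 2) R) :
    g.1 * g.1 = (g.1 0 0 + g.1 1 1) • g.1 - 1 := by
  have hdet := g.2
  rw [Matrix.det_fin_two] at hdet
  rw [← Matrix.ext_iff]
  intro i j
  fin_cases i <;> fin_cases j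
  · show (g.1 * g.1) 0 0 = ((g.1 0 0 + g.1 1 1) • g.1 - 1) 0 0
    rw [Matrix.mul_apply, Fin.sum_univ_two, Matrix.sub_apply, Matrix.smul_apply,
      Matrix.one_apply_eq, smul_eq_mul]
    linear_combination -hdet
  · show (g.1 * g.1) 0 1 = ((g.1 0 0 + g.1 1 1) • g.1 - 1) 0 1
    rw [Matrix.mul_apply, Fin.sum_univ_two, Matrix.sub_apply, Matrix.smul_apply,
      Matrix.one_apply_ne (by decide), smul_eq_mul]
    ring
  · show (g.1 * g.1) 1 0 = ((g.1 0 0 + g.1 1 1) • g.1 - 1) 1 0
    rw [Matrix.mul_apply, Fin.sum_univ_two, Matrix.sub_apply, Matrix.smul_apply,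
      Matrix.one_apply_ne (by decide), smul_eq_mul]
    ring
  · show (g.1 * g.1) 1 1 = ((g.1 0 0 + g.1 1 1) • g.1 - 1) 1 1
    rw [Matrix.mul_apply, Fin.sum_univ_two, Matrix.sub_apply, Matrix.smul_apply,
      Matrix.one_apply_eq, smul_eq_mul]
    linear_combination -hdet

theorem pow_step {M : Matrix (Fin 2) (Fin 2) R} {τ : R} (hCH : M * M = τ • M - 1) {n : ℕ}
    {a b : R} (h : M ^ n = a • M + b • (1 : Matrix (Fin 2) (Fin 2) R)) :
    M ^ (n + 1) = (a * τ + b) • M + (-a) • (1 : Matrix (Fin 2) (Fin 2) R) := by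
  rw [pow_succ, h, add_mul, smul_mul_assoc, smul_mul_assoc, one_mul, hCH]
  module

theorem pow_formulas {M : Matrix (Fin 2) (Fin 2) R} {τ : R} (hCH : M * M = τ • M - 1) :
    M ^ 2 = τ • M + (-1 : R) • (1 : Matrix (Fin 2) (Fin 2) R) ∧
    M ^ 3 = (τ ^ 2 - 1) • M + (-τ) • (1 : Matrix (Fin 2) (Fin 2) R) ∧
    M ^ 4 = (τ ^ 3 - 2 * τ) • M + (1 - τ ^ 2) • (1 : Matrix (Fin 2) (Fin 2) R) ∧
    M ^ 7 = (τ ^ 6 - 5 * τ ^ 4 + 6 * τ ^ 2 - 1) • M +
      (-(τ ^ 5 - 4 * τ ^ 3 + 3 * τ)) • (1 : Matrix (Fin 2) (Fin 2) R) ∧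
    M ^ 9 = (τ ^ 8 - 7 * τ ^ 6 + 15 * τ ^ 4 - 10 * τ ^ 2 + 1) • M +
      (-(τ ^ 7 - 6 * τ ^ 5 + 10 * τ ^ 3 - 4 * τ)) • (1 : Matrix (Fin 2) (Fin 2) R) := by
  have p1 : M ^ 1 = (1 : R) • M + (0 : R) • (1 : Matrix (Fin 2) (Fin 2) R) := by simp
  have p2 := pow_step hCH p1
  have p3 := pow_step hCH p2
  have p4 := pow_step hCH p3
  have p5 := pow_step hCH p4
  have p6 := pow_step hCH p5
  have p7 := pow_step hCH p6
  have p8 := pow_step hCH p7
  have p9 := pow_step hCH p8
  refine ⟨?_, ?_, ?_, ?_, ?_⟩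
  · rw [p2]; module
  · rw [p3]; module
  · rw [p4]; module
  · rw [p7]; module
  · rw [p9]; module

theorem center_of_formula (g : SpecialLinearGroup (Fin 2) R) (n : ℕ) (a b : R)
    (h : g.1 ^ n = a • g.1 + b • (1 : Matrix (Fin 2) (Fin 2) R)) (ha : a = 0)
    (hb : b * b = 1) : g ^ n ∈ Subgroup.center (SpecialLinearGroup (Fin 2) R) := by
  rw [SpecialLinearGroup.mem_center_iff]
  refine ⟨b, ?_, ?_⟩
  · rw [Fintype.card_fin, pow_two]; exact hb
  · rw [SpecialLinearGroup.coe_pow, h, ha, zero_smul, zero_add, Matrix.smul_one_eq_diagonal]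
    rfl

theorem one_of_formula (g : SpecialLinearGroup (Fin 2) R) (n : ℕ) (a b : R)
    (h : g.1 ^ n = a • g.1 + b • (1 : Matrix (Fin 2) (Fin 2) R)) (ha : a = 0)
    (hb : b = 1) : g ^ n = 1 := by
  apply Subtype.ext
  rw [SpecialLinearGroup.coe_pow, h, ha, hb, zero_smul, zero_add, one_smul]
  rfl

end CH

section F7

variable {F : Type*} [Field F] [Fintype F]

theorem f7_cases (hF : Fintype.card F = 7) :
    (7 : F) = 0 ∧ ∀ τ : F, τ = 0 ∨ τ = 1 ∨ τ = -1 ∨ τ = 2 ∨ τ = -2 ∨ τ = 3 ∨ τ = -3 := by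
  let φ : ZMod 7 ≃+* F := ZMod.ringEquivOfPrime F (by norm_num) hF
  have hall : ∀ n : ZMod 7, n = 0 ∨ n = 1 ∨ n = -1 ∨ n = 2 ∨ n = -2 ∨ n = 3 ∨ n = -3 := by
    decide
  constructor
  · have h1 : (7 : ZMod 7) = 0 := by decide
    have h2 := congrArg φ h1
    rw [map_ofNat, map_zero] at h2
    exact h2
  · intro τ
    obtain ⟨n, rfl⟩ := φ.surjective τ
    rcases hall n with h | h | h | h | h | h | h <;> rw [h]
    · left; exact map_zero φ
    · right; left; exact map_one φ
    · right; right; left; rw [map_neg, map_one]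
    · right; right; right; left; exact map_ofNat φ 2
    · right; right; right; right; left; rw [map_neg, map_ofNat]
    · right; right; right; right; right; left; exact map_ofNat φ 3
    · right; right; right; right; right; right; rw [map_neg, map_ofNat]

theorem pow_mem_center_of_trace (hF : Fintype.card F = 7) (g : SpecialLinearGroup (Fin 2) F) :
    (g.1 0 0 + g.1 1 1 = 0 → g ^ 2 ∈ Subgroup.center (SpecialLinearGroup (Fin 2) F)) ∧
    (g.1 0 0 + g.1 1 1 = 1 ∨ g.1 0 0 + g.1 1 1 = -1 →
      g ^ 3 ∈ Subgroup.center (SpecialLinearGroup (Fin 2) F)) ∧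
    (g.1 0 0 + g.1 1 1 = 2 ∨ g.1 0 0 + g.1 1 1 = -2 →
      g ^ 7 ∈ Subgroup.center (SpecialLinearGroup (Fin 2) F)) ∧
    (g.1 0 0 + g.1 1 1 = 3 ∨ g.1 0 0 + g.1 1 1 = -3 →
      g ^ 4 ∈ Subgroup.center (SpecialLinearGroup (Fin 2) F)) := by
  have h7 : (7 : F) = 0 := (f7_cases hF).1
  obtain ⟨f2, f3, f4, f7, -⟩ := pow_formulas (ch g)
  refine ⟨?_, ?_, ?_, ?_⟩
  · intro h
    exact center_of_formula g 2 _ _ f2 h (by ring)
  · rintro (h | h)
    · refine center_of_formula g 3 _ _ f3 ?_ ?_
      · rw [h]; ring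
      · rw [h]; ring
    · refine center_of_formula g 3 _ _ f3 ?_ ?_
      · rw [h]; ring
      · rw [h]; ring
  · rintro (h | h)
    · refine center_of_formula g 7 _ _ f7 ?_ ?_
      · rw [h]; linear_combination h7
      · rw [h]; linear_combination 5 * h7
    · refine center_of_formula g 7 _ _ f7 ?_ ?_
      · rw [h]; linear_combination h7
      · rw [h]; linear_combination 5 * h7
  · rintro (h | h)
    · refine center_of_formula g 4 _ _ f4 ?_ ?_
      · rw [h]; linear_combination 3 * h7
      · rw [h]; linear_combination 9 * h7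
    · refine center_of_formula g 4 _ _ f4 ?_ ?_
      · rw [h]; linear_combination -3 * h7
      · rw [h]; linear_combination 9 * h7

theorem psl_pow (hF : Fintype.card F = 7) (x : Matrix.ProjectiveSpecialLinearGroup (Fin 2) F) :
    x ^ 2 = 1 ∨ x ^ 3 = 1 ∨ x ^ 7 = 1 ∨ x ^ 4 = 1 := by
  obtain ⟨g, rfl⟩ := QuotientGroup.mk_surjective x
  obtain ⟨c2, c3, c7, c4⟩ := pow_mem_center_of_trace hF g
  have key : ∀ n : ℕ, g ^ n ∈ Subgroup.center (SpecialLinearGroup (Fin 2) F) →
      (QuotientGroup.mk g : Matrix.ProjectiveSpecialLinearGroup (Fin 2) F) ^ n = 1 := by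
    intro n hn
    rw [← QuotientGroup.mk_pow]
    exact (QuotientGroup.eq_one_iff _).mpr hn
  rcases (f7_cases hF).2 (g.1 0 0 + g.1 1 1) with h | h | h | h | h | h | h
  · left; exact key 2 (c2 h)
  · right; left; exact key 3 (c3 (Or.inl h))
  · right; left; exact key 3 (c3 (Or.inr h))
  · right; right; left; exact key 7 (c7 (Or.inl h))
  · right; right; left; exact key 7 (c7 (Or.inr h))
  · right; right; right; exact key 4 (c4 (Or.inl h))
  · right; right; right; exact key 4 (c4 (Or.inr h))

omit [Fintype F] in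
theorem dvd_card_psl (g : SpecialLinearGroup (Fin 2) F) (p : ℕ) (hp : p.Prime)
    (h01 : g.1 0 1 ≠ 0) (hpow : g ^ p ∈ Subgroup.center (SpecialLinearGroup (Fin 2) F)) :
    p ∣ Nat.card (Matrix.ProjectiveSpecialLinearGroup (Fin 2) F) := by
  have hne : (QuotientGroup.mk g : Matrix.ProjectiveSpecialLinearGroup (Fin 2) F) ≠ 1 := by
    intro h
    have hc : g ∈ Subgroup.center (SpecialLinearGroup (Fin 2) F) :=
      (QuotientGroup.eq_one_iff _).mp h
    rw [SpecialLinearGroup.mem_center_iff] at hc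
    obtain ⟨r, -, hr⟩ := hc
    apply h01
    rw [← hr]
    simp
  have hpw : (QuotientGroup.mk g : Matrix.ProjectiveSpecialLinearGroup (Fin 2) F) ^ p = 1 := by
    rw [← QuotientGroup.mk_pow]
    exact (QuotientGroup.eq_one_iff _).mpr hpow
  haveI : Fact p.Prime := ⟨hp⟩
  have ho := orderOf_eq_prime hpw hne
  rw [← ho]
  exact orderOf_dvd_natCard _

/-- elements of order 2, 3, 7 -/
def g2 : SpecialLinearGroup (Fin 2) F := ⟨!![0, 1; -1, 0], by rw [Matrix.det_fin_two]; simp⟩
def g3 : SpecialLinearGroup (Fin 2) F := ⟨!![0, 1; -1, 1], by rw [Matrix.det_fin_two]; simp⟩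
def g7 : SpecialLinearGroup (Fin 2) F := ⟨!![1, 1; 0, 1], by rw [Matrix.det_fin_two]; simp⟩

theorem psl_primes (hF : Fintype.card F = 7) (p : ℕ) (hp : p.Prime) :
    p ∣ Nat.card (Matrix.ProjectiveSpecialLinearGroup (Fin 2) F) ↔ p = 2 ∨ p = 3 ∨ p = 7 := by
  constructor
  · intro h
    haveI : Fact p.Prime := ⟨hp⟩
    haveI : Finite (Matrix.ProjectiveSpecialLinearGroup (Fin 2) F) := inferInstance
    obtain ⟨x, hx⟩ := exists_prime_orderOf_dvd_card' p h
    rcases psl_pow hF x with h | h | h | h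
    · left
      have := orderOf_dvd_of_pow_eq_one h
      rw [hx] at this
      exact (Nat.prime_dvd_prime_iff_eq hp Nat.prime_two).mp this
    · right; left
      have := orderOf_dvd_of_pow_eq_one h
      rw [hx] at this
      exact (Nat.prime_dvd_prime_iff_eq hp Nat.prime_three).mp this
    · right; right
      have := orderOf_dvd_of_pow_eq_one h
      rw [hx] at this
      exact (Nat.prime_dvd_prime_iff_eq hp (by norm_num)).mp this
    · left
      have := orderOf_dvd_of_pow_eq_one h
      rw [hx] at this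
      have h4 : p ∣ 2 ^ 2 := this
      exact (Nat.prime_dvd_prime_iff_eq hp Nat.prime_two).mp (hp.dvd_of_dvd_pow h4)
  · rintro (rfl | rfl | rfl)
    · refine dvd_card_psl (g2 : SpecialLinearGroup (Fin 2) F) 2 hp ?_ ?_
      · show (1 : F) ≠ 0
        exact one_ne_zero
      · refine (pow_mem_center_of_trace hF g2).1 ?_
        show (0 : F) + 0 = 0
        ring
    · refine dvd_card_psl (g3 : SpecialLinearGroup (Fin 2) F) 3 hp ?_ ?_
      · show (1 : F) ≠ 0
        exact one_ne_zero
      · refine (pow_mem_center_of_trace hF g3).2.1 (Or.inl ?_)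
        show (0 : F) + 1 = 1
        ring
    · refine dvd_card_psl (g7 : SpecialLinearGroup (Fin 2) F) 7 hp ?_ ?_
      · show (1 : F) ≠ 0
        exact one_ne_zero
      · refine (pow_mem_center_of_trace hF g7).2.2.1 (Or.inl ?_)
        show (1 : F) + 1 = 2
        ring

end F7

section F8

variable {K : Type*} [Field K] [Finite K] [CharP K 2]

theorem sl8_pow (hK : Nat.card K = 8) (g : SpecialLinearGroup (Fin 2) K) :
    g ^ 2 = 1 ∨ g ^ 7 = 1 ∨ g ^ 9 = 1 := by
  have h2 : (2 : K) = 0 := CharTwo.two_eq_zero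
  set τ := g.1 0 0 + g.1 1 1 with hτ
  by_cases h0 : τ = 0
  · left
    rw [pow_two]
    exact Cfsg.Agent.S3660.sq_eq_one_of_trace g h0
  · right
    haveI : Fintype K := Fintype.ofFinite K
    have hτ7 : τ ^ 7 = 1 := by
      have := FiniteField.pow_card_sub_one_eq_one τ h0
      rw [← Nat.card_eq_fintype_card, hK] at this
      exact this
    have hprod : (τ + 1) * (τ ^ 3 + τ + 1) * (τ ^ 3 + τ ^ 2 + 1) = 0 := by
      linear_combination hτ7 + (τ ^ 6 + τ ^ 5 + 2 * τ ^ 4 + 2 * τ ^ 3 + τ ^ 2 + τ + 1) * h2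
    obtain ⟨-, f3, -, f7, f9⟩ := pow_formulas (ch g)
    rcases mul_eq_zero.mp hprod with h | h
    · rcases mul_eq_zero.mp h with h | h
      · right
        have h3 : g ^ 3 = 1 := by
          refine one_of_formula g 3 _ _ f3 ?_ ?_
          · linear_combination (τ - 1) * h
          · linear_combination -h
        have : g ^ 9 = (g ^ 3) ^ 3 := by rw [← pow_mul]
        rw [this, h3, one_pow]
      · right
        refine one_of_formula g 9 _ _ f9 ?_ ?_
        · linear_combination (τ ^ 5 - 8 * τ ^ 3 - τ ^ 2 + 23 * τ + 9) * h +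
            (-16 * τ ^ 2 - 16 * τ - 4) * h2
        · linear_combination (-τ ^ 4 + 7 * τ ^ 2 + τ - 17) * h + (-4 * τ ^ 2 + 10 * τ + 8) * h2
    · left
      refine one_of_formula g 7 _ _ f7 ?_ ?_
      · linear_combination (τ ^ 3 - τ ^ 2 - 4 * τ + 3) * h + (2 * τ ^ 2 + 2 * τ - 2) * h2
      · linear_combination (-τ ^ 2 + τ + 3) * h + (-τ ^ 2 - 2 * τ - 2) * h2

/-- an element of order three -/
def k3 : SpecialLinearGroup (Fin 2) K :=
  ⟨!![0, 1; 1, 1], by
    rw [Matrix.det_fin_two]
    have h2 : (2 : K) = 0 := CharTwo.two_eq_zero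
    simp
    linear_combination -h2⟩

/-- a diagonal element -/
def kd (a : K) (ha : a ≠ 0) : SpecialLinearGroup (Fin 2) K :=
  ⟨Matrix.diagonal ![a, a⁻¹], by
    rw [Matrix.det_diagonal, Fin.prod_univ_two]
    show a * a⁻¹ = 1
    exact mul_inv_cancel₀ ha⟩

theorem sl8_primes (hK : Nat.card K = 8) (p : ℕ) (hp : p.Prime) :
    p ∣ Nat.card (SpecialLinearGroup (Fin 2) K) ↔ p = 2 ∨ p = 3 ∨ p = 7 := by
  have h2 : (2 : K) = 0 := CharTwo.two_eq_zero
  constructor
  · intro h
    haveI : Fact p.Prime := ⟨hp⟩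
    obtain ⟨x, hx⟩ := exists_prime_orderOf_dvd_card' p h
    rcases sl8_pow hK x with h | h | h
    · left
      have := orderOf_dvd_of_pow_eq_one h
      rw [hx] at this
      exact (Nat.prime_dvd_prime_iff_eq hp Nat.prime_two).mp this
    · right; right
      have := orderOf_dvd_of_pow_eq_one h
      rw [hx] at this
      exact (Nat.prime_dvd_prime_iff_eq hp (by norm_num)).mp this
    · right; left
      have := orderOf_dvd_of_pow_eq_one h
      rw [hx] at this
      have h9 : p ∣ 3 ^ 2 := this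
      exact (Nat.prime_dvd_prime_iff_eq hp Nat.prime_three).mp (hp.dvd_of_dvd_pow h9)
  · rintro (rfl | rfl | rfl)
    · have : orderOf (Cfsg.Agent.S3660.unip : SpecialLinearGroup (Fin 2) K) = 2 := by
        refine orderOf_eq_prime ?_ Cfsg.Agent.S3660.unip_ne
        rw [pow_two]; exact Cfsg.Agent.S3660.unip_sq
      have hd := orderOf_dvd_natCard (Cfsg.Agent.S3660.unip : SpecialLinearGroup (Fin 2) K)
      rw [this] at hd
      exact hd
    · haveI : Fact (Nat.Prime 3) := ⟨hp⟩
      have h3 : (k3 : SpecialLinearGroup (Fin 2) K) ^ 3 = 1 := by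
        obtain ⟨-, f3, -, -, -⟩ := pow_formulas (ch (k3 : SpecialLinearGroup (Fin 2) K))
        refine one_of_formula k3 3 _ _ f3 ?_ ?_
        · show ((0 : K) + 1) ^ 2 - 1 = 0
          ring
        · show -((0 : K) + 1) = 1
          linear_combination -h2
      have hne : (k3 : SpecialLinearGroup (Fin 2) K) ≠ 1 := by
        intro h
        have h1 : (k3 : SpecialLinearGroup (Fin 2) K).1 0 1 =
            (1 : SpecialLinearGroup (Fin 2) K).1 0 1 := by rw [h]
        have h2' : (k3 : SpecialLinearGroup (Fin 2) K).1 0 1 = 1 := rfl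
        rw [h2', SpecialLinearGroup.coe_one, Matrix.one_apply_ne (by decide)] at h1
        exact one_ne_zero h1
      have ho := orderOf_eq_prime h3 hne
      have hd := orderOf_dvd_natCard (k3 : SpecialLinearGroup (Fin 2) K)
      rw [ho] at hd
      exact hd
    · haveI : Fact (Nat.Prime 7) := ⟨hp⟩
      haveI : Fintype K := Fintype.ofFinite K
      classical
      obtain ⟨a, ha⟩ : ∃ a : K, a ∉ ({0, 1} : Finset K) := by
        by_contra hcon
        push Not at hcon
        have hsub : (Finset.univ : Finset K) ⊆ ({0, 1} : Finset K) := fun x _ => hcon x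
        have h1 := Finset.card_le_card hsub
        rw [Finset.card_univ, ← Nat.card_eq_fintype_card, hK] at h1
        have h2 : ({0, 1} : Finset K).card ≤ 2 := Finset.card_le_two
        omega
      rw [Finset.mem_insert, Finset.mem_singleton] at ha
      push Not at ha
      obtain ⟨ha0, ha1⟩ := ha
      have ha7 : a ^ 7 = 1 := by
        have := FiniteField.pow_card_sub_one_eq_one a ha0
        rw [← Nat.card_eq_fintype_card, hK] at this
        exact this
      have h7 : (kd a ha0) ^ 7 = 1 := by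
        apply Subtype.ext
        rw [SpecialLinearGroup.coe_pow]
        show (Matrix.diagonal ![a, a⁻¹]) ^ 7 = 1
        rw [Matrix.diagonal_pow, ← Matrix.diagonal_one]
        congr 1
        funext i
        fin_cases i
        · show a ^ 7 = 1
          exact ha7
        · show a⁻¹ ^ 7 = 1
          rw [inv_pow, ha7, inv_one]
      have hne : kd a ha0 ≠ 1 := by
        intro h
        have h1 : (kd a ha0).1 0 0 = (1 : SpecialLinearGroup (Fin 2) K).1 0 0 := by rw [h]
        have h2' : (kd a ha0).1 0 0 = a := by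
          show Matrix.diagonal ![a, a⁻¹] 0 0 = a
          rw [Matrix.diagonal_apply_eq]
          rfl
        rw [h2', SpecialLinearGroup.coe_one, Matrix.one_apply_eq] at h1
        exact ha1 h1
      have ho := orderOf_eq_prime h7 hne
      have hd := orderOf_dvd_natCard (kd a ha0)
      rw [ho] at hd
      exact hd

end F8

theorem not_pq_dvd (p q : ℕ) (hp : p.Prime) (hq : q.Prime) (hpq : p ≠ q) (r : ℕ) (hr : r.Prime)
    (k : ℕ) (h : p * q ∣ r ^ k) : False := by
  have h1 : p ∣ r ^ k := (dvd_mul_right p q).trans h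
  have h2 : q ∣ r ^ k := (dvd_mul_left q p).trans h
  have e1 := (Nat.prime_dvd_prime_iff_eq hp hr).mp (hp.dvd_of_dvd_pow h1)
  have e2 := (Nat.prime_dvd_prime_iff_eq hq hr).mp (hq.dvd_of_dvd_pow h2)
  exact hpq (e1.trans e2.symm)

/-- The prime graph of a finite group has the prime divisors of its order as vertices, two distinct primes p, q being joined when the group has an element of order pq; two groups have the same prime graph when they have the same prime divisors and the same joined pairs. Let F be the field with 7 elements. There are finite groups of arbitrarily large order with the same prime graph as PSL(2,F) (the graph on {2, 3, 7} with no edges, which is also the prime graph of PSL(2,8)). -/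
theorem result {F : Type*} [Field F] [Fintype F] (hF : Fintype.card F = 7) (N : ℕ) :
    ∃ (H : Type) (_ : Group H) (_ : Finite H), N < Nat.card H ∧
      ((∀ p : ℕ, p.Prime → (p ∣ Nat.card (Matrix.ProjectiveSpecialLinearGroup (Fin 2) F) ↔ p ∣ Nat.card H)) ∧
      (∀ p q : ℕ, p.Prime → q.Prime → p ≠ q → ((∃ g : (Matrix.ProjectiveSpecialLinearGroup (Fin 2) F), orderOf g = p * q) ↔ (∃ g : H, orderOf g = p * q)))) := by
  classical
  have hK : Nat.card (GaloisField 2 3) = 8 := by
    rw [GaloisField.card 2 3 (by norm_num)]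
    norm_num
  haveI hfinH : Finite (Cfsg.Agent.S3660.HH (GaloisField 2 3) N) :=
    Finite.of_equiv _ SemidirectProduct.equivProd.symm
  have hcardH : Nat.card (Cfsg.Agent.S3660.HH (GaloisField 2 3) N) =
      Nat.card (Multiplicative (Fin N → Fin 2 → GaloisField 2 3)) *
        Nat.card (SpecialLinearGroup (Fin 2) (GaloisField 2 3)) :=
    SemidirectProduct.card (N := Multiplicative (Fin N → Fin 2 → GaloisField 2 3))
      (G := SpecialLinearGroup (Fin 2) (GaloisField 2 3)) (φ := Cfsg.Agent.S3660.act N)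
  have hH : ∀ p : ℕ, p.Prime →
      (p ∣ Nat.card (Cfsg.Agent.S3660.HH (GaloisField 2 3) N) ↔ p = 2 ∨ p = 3 ∨ p = 7) := by
    intro p hp
    rw [hcardH]
    constructor
    · intro h
      rcases (Nat.Prime.dvd_mul hp).mp h with h | h
      · haveI : Fact p.Prime := ⟨hp⟩
        obtain ⟨v, hv⟩ := exists_prime_orderOf_dvd_card' p h
        have hv2 : v ^ 2 = 1 := by rw [pow_two]; exact Cfsg.Agent.S3660.left_sq N v
        have : p ∣ 2 := by rw [← hv]; exact orderOf_dvd_of_pow_eq_one hv2
        left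
        exact (Nat.prime_dvd_prime_iff_eq hp Nat.prime_two).mp this
      · exact (sl8_primes hK p hp).mp h
    · intro h
      exact dvd_mul_of_dvd_right ((sl8_primes hK p hp).mpr h) _
  refine ⟨Cfsg.Agent.S3660.HH (GaloisField 2 3) N, inferInstance, hfinH, ?_, ?_, ?_⟩
  · rw [hcardH]
    have h1 : N < Nat.card (Multiplicative (Fin N → Fin 2 → GaloisField 2 3)) := by
      have : Nat.card (Multiplicative (Fin N → Fin 2 → GaloisField 2 3)) =
          Nat.card (Fin 2 → GaloisField 2 3) ^ N := by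
        show Nat.card (Fin N → Fin 2 → GaloisField 2 3) = _
        rw [Nat.card_fun, Nat.card_fin]
      rw [this]
      have h2 : 2 ≤ Nat.card (Fin 2 → GaloisField 2 3) := by
        have : Nontrivial (Fin 2 → GaloisField 2 3) := inferInstance
        exact Finite.one_lt_card
      calc N < 2 ^ N := Nat.lt_two_pow_self
        _ ≤ Nat.card (Fin 2 → GaloisField 2 3) ^ N := Nat.pow_le_pow_left h2 N
    have h3 : 0 < Nat.card (SpecialLinearGroup (Fin 2) (GaloisField 2 3)) := Nat.card_pos
    calc N < Nat.card (Multiplicative (Fin N → Fin 2 → GaloisField 2 3)) := h1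
      _ ≤ _ := Nat.le_mul_of_pos_right _ h3
  · intro p hp
    rw [psl_primes hF p hp, hH p hp]
  · intro p q hp hq hpq
    constructor
    · rintro ⟨g, hg⟩
      exfalso
      rcases psl_pow hF g with h | h | h | h
      · have := orderOf_dvd_of_pow_eq_one h
        rw [hg] at this
        exact not_pq_dvd p q hp hq hpq 2 Nat.prime_two 1 (by rw [pow_one]; exact this)
      · have := orderOf_dvd_of_pow_eq_one h
        rw [hg] at this
        exact not_pq_dvd p q hp hq hpq 3 Nat.prime_three 1 (by rw [pow_one]; exact this)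
      · have := orderOf_dvd_of_pow_eq_one h
        rw [hg] at this
        exact not_pq_dvd p q hp hq hpq 7 (by norm_num) 1 (by rw [pow_one]; exact this)
      · have := orderOf_dvd_of_pow_eq_one h
        rw [hg] at this
        exact not_pq_dvd p q hp hq hpq 2 Nat.prime_two 2 this
    · rintro ⟨h, hh⟩
      exfalso
      by_cases hp2 : p = 2
      · refine Cfsg.Agent.S3660.no_two_r N h q hq (fun e => hpq (hp2.trans e.symm)) ?_
        rw [hh, hp2]
      by_cases hq2 : q = 2
      · refine Cfsg.Agent.S3660.no_two_r N h p hp hp2 ?_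
        rw [hh, hq2, mul_comm]
      have hodd : Nat.Coprime (orderOf h) 2 := by
        rw [hh]
        apply Nat.Coprime.mul_left
        · exact (Nat.coprime_primes hp Nat.prime_two).mpr hp2
        · exact (Nat.coprime_primes hq Nat.prime_two).mpr hq2
      have ho := Cfsg.Agent.S3660.order_right_of_odd N h hodd
      rw [hh] at ho
      rcases sl8_pow hK h.right with h' | h' | h'
      · have := orderOf_dvd_of_pow_eq_one h'
        rw [ho] at this
        exact not_pq_dvd p q hp hq hpq 2 Nat.prime_two 1 (by rw [pow_one]; exact this)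
      · have := orderOf_dvd_of_pow_eq_one h'
        rw [ho] at this
        exact not_pq_dvd p q hp hq hpq 7 (by norm_num) 1 (by rw [pow_one]; exact this)
      · have := orderOf_dvd_of_pow_eq_one h'
        rw [ho] at this
        exact not_pq_dvd p q hp hq hpq 3 Nat.prime_three 2 this

end Cfsg.Agent.S3678
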