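import Cfsg.Statements.S3680
import Cfsg.Agent.Lib.Helper5.MinNormal
import Cfsg.Agent.S0721

set_option autoImplicit false
open Cfsg

namespace Cfsg.Agent.S3680

open Cfsg.Agent.Lib

theorem append_iso (a b : ℕ) (T : Type*) [Group T] :
    Nonempty (((Fin a → T) × (Fin b → T)) ≃* (Fin (a + b) → T)) :=
  ⟨{ toFun := fun p => Fin.append p.1 p.2
     invFun := fun f => (fun i => f (Fin.castAdd b i), fun i => f (Fin.natAdd a i))
     left_inv := fun p => by
       apply Prod.ext
       · funext i; simp
       · funext i; simp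
     right_inv := fun f => by
       funext i
       refine Fin.addCases (fun j => ?_) (fun j => ?_) i <;> simp
     map_mul' := fun p q => by
       funext i
       refine Fin.addCases (fun j => ?_) (fun j => ?_) i <;> simp }⟩

/-- The socle of a finite primitive permutation group. Let a finite group G act faithfully and primitively on a set Ω, and let N be the subgroup generated by the minimal normal subgroups of G. Then either N is an elementary abelian p-group for some prime p and acts regularly on Ω (transitively with trivial point stabilizers), or N is isomorphic to a direct product of m ≥ 1 copies of a non-abelian simple group. -/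
theorem result {G Ω : Type*} [Group G] [Finite G] [MulAction G Ω] [FaithfulSMul G Ω] [Finite Ω]
    (hprim : MulAction.IsPreprimitive G Ω) (N : Subgroup G)
    (hN : N = sSup {V : Subgroup G | V.Normal ∧ V ≠ ⊥ ∧ ∀ M : Subgroup G, M.Normal → M ≤ V → M = ⊥ ∨ M = V}) :
    (∃ p : ℕ, p.Prime ∧ IsMulCommutative N ∧ (∀ x : N, x ^ p = 1) ∧
      MulAction.IsPretransitive N Ω ∧ ∀ ω : Ω, MulAction.stabilizer N ω = ⊥) ∨
    (∃ (T : Type) (_ : Group T) (m : ℕ), 1 ≤ m ∧ IsSimpleGroup T ∧ ¬ IsMulCommutative T ∧ Nonempty (N ≃* (Fin m → T))) := by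
  classical
  haveI := hprim
  by_cases htriv : (⊤ : Subgroup G) = ⊥
  · have hG1 : ∀ g : G, g = 1 := fun g => by
      have h0 : g ∈ (⊤ : Subgroup G) := Subgroup.mem_top g
      rw [htriv] at h0
      exact Subgroup.mem_bot.1 h0
    have hN1 : ∀ x : N, x = 1 := fun x => Subtype.ext (hG1 x)
    left
    refine ⟨2, Nat.prime_two, ⟨⟨fun a b => by rw [hN1 a, hN1 b]⟩⟩,
      fun x => by rw [hN1 x, one_pow], ⟨fun x y => ⟨1, ?_⟩⟩, fun ω => ?_⟩
    · obtain ⟨g, hg⟩ := MulAction.exists_smul_eq G x y
      rw [hG1 g, one_smul] at hg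
      rw [one_smul]
      exact hg
    · rw [eq_bot_iff]
      intro n _
      rw [Subgroup.mem_bot]
      exact hN1 n
  · obtain ⟨M, hMn, hM1, -, hMmin⟩ :=
      Helper5.exists_minimal_normal (⊤ : Subgroup G) inferInstance htriv
    have htrans : ∀ L : Subgroup G, L.Normal → L ≠ ⊥ → MulAction.IsPretransitive L Ω := by
      intro L hLn hL1
      haveI := hLn
      apply MulAction.IsQuasiPreprimitive.isPretransitive_of_normal (G := G) (X := Ω)
      intro hfix
      apply hL1
      rw [eq_bot_iff]
      intro l hl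
      rw [Subgroup.mem_bot]
      apply FaithfulSMul.eq_of_smul_eq_smul (α := Ω)
      intro ω
      have h0 : ω ∈ MulAction.fixedPoints L Ω := by rw [hfix]; exact Set.mem_univ ω
      have h1 := h0 ⟨l, hl⟩
      rw [one_smul]
      exact h1
    have hsemi : ∀ L : Subgroup G, MulAction.IsPretransitive L Ω →
        ∀ c ∈ Subgroup.centralizer (L : Set G), ∀ ω : Ω, c • ω = ω → c = 1 := by
      intro L hL c hc ω hcω
      apply FaithfulSMul.eq_of_smul_eq_smul (α := Ω)
      intro ω'
      obtain ⟨l, hl⟩ := MulAction.exists_smul_eq L ω ω'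
      have hl' : (l : G) • ω = ω' := hl
      have hcomm : (l : G) * c = c * l := Subgroup.mem_centralizer_iff.1 hc l l.2
      rw [one_smul, ← hl', ← mul_smul, ← hcomm, mul_smul, hcω]
    obtain ⟨ω₀⟩ : Nonempty Ω := by
      by_contra hemp
      rw [not_nonempty_iff] at hemp
      apply htriv
      rw [eq_bot_iff]
      intro g _
      rw [Subgroup.mem_bot]
      apply FaithfulSMul.eq_of_smul_eq_smul (α := Ω)
      intro ω
      exact (hemp.false ω).elim
    have hcen_le : ∀ L L' : Subgroup G, MulAction.IsPretransitive L Ω →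
        MulAction.IsPretransitive L' Ω → L' ≤ Subgroup.centralizer (L : Set G) →
        Subgroup.centralizer (L : Set G) ≤ L' := by
      intro L L' hL hL' hle c hc
      obtain ⟨l', hl'⟩ := MulAction.exists_smul_eq L' ω₀ (c • ω₀)
      have h0 : (l' : G) • ω₀ = c • ω₀ := hl'
      have h1 : (l' : G)⁻¹ * c = 1 := by
        apply hsemi L hL _ (Subgroup.mul_mem _ (Subgroup.inv_mem _ (hle l'.2)) hc) ω₀
        rw [mul_smul, ← h0, ← mul_smul, inv_mul_cancel, one_smul]
      have h2 : c = l' := by
        calc c = (l' : G) * ((l' : G)⁻¹ * c) := by group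
          _ = l' := by rw [h1, mul_one]
      rw [h2]
      exact l'.2
    have hmin_comm : ∀ L L' : Subgroup G, L.Normal → L'.Normal →
        (∀ K : Subgroup G, K.Normal → K ≤ L → K = ⊥ ∨ K = L) →
        (∀ K : Subgroup G, K.Normal → K ≤ L' → K = ⊥ ∨ K = L') → L ≠ ⊥ → L ≠ L' →
        L ⊓ L' = ⊥ := by
      intro L L' hLn hL'n hLmin hL'min hL1 hne
      haveI := hLn
      haveI := hL'n
      rcases hLmin (L ⊓ L') inferInstance inf_le_left with h | h
      · exact h
      · exfalso
        have hle : L ≤ L' := inf_eq_left.1 h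
        rcases hL'min L hLn hle with h2 | h2
        · exact hL1 h2
        · exact hne h2
    have hdisj_comm : ∀ L L' : Subgroup G, L.Normal → L'.Normal → L ⊓ L' = ⊥ →
        L' ≤ Subgroup.centralizer (L : Set G) := by
      intro L L' hLn hL'n hdis x hx
      rw [Subgroup.mem_centralizer_iff]
      intro l hl
      have h1 : l * x * l⁻¹ * x⁻¹ ∈ L ⊓ L' := by
        refine Subgroup.mem_inf.2 ⟨?_, ?_⟩
        · have h2 : x * l⁻¹ * x⁻¹ ∈ L := hLn.conj_mem _ (L.inv_mem hl) x
          have e : l * x * l⁻¹ * x⁻¹ = l * (x * l⁻¹ * x⁻¹) := by group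
          rw [e]
          exact L.mul_mem hl h2
        · exact L'.mul_mem (hL'n.conj_mem _ hx l) (L'.inv_mem hx)
      rw [hdis, Subgroup.mem_bot] at h1
      calc l * x = (l * x * l⁻¹ * x⁻¹) * (x * l) := by group
        _ = x * l := by rw [h1, one_mul]
    have hMtrans := htrans M hMn hM1
    by_cases hMcomm : ∀ a ∈ M, ∀ b ∈ M, a * b = b * a
    · left
      have hMC : M ≤ Subgroup.centralizer (M : Set G) := by
        intro x hx
        rw [Subgroup.mem_centralizer_iff]
        intro y hy
        exact hMcomm y hy x hx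
      have hCM : Subgroup.centralizer (M : Set G) ≤ M := hcen_le M M hMtrans hMtrans hMC
      have huniq : ∀ L : Subgroup G, L.Normal → L ≠ ⊥ →
          (∀ K : Subgroup G, K.Normal → K ≤ L → K = ⊥ ∨ K = L) → L = M := by
        intro L hLn hL1 hLmin
        by_contra hne
        have hdis := hmin_comm M L hMn hLn hMmin hLmin hM1 (fun h => hne h.symm)
        have hLM : L ≤ M := (hdisj_comm M L hMn hLn hdis).trans hCM
        rcases hMmin L hLn hLM with h | h
        · exact hL1 h
        · exact hne h
      have hNM : N = M := by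
        rw [hN]
        apply le_antisymm
        · apply sSup_le
          rintro L ⟨hLn, hL1, hLmin⟩
          rw [huniq L hLn hL1 hLmin]
        · exact le_sSup ⟨hMn, hM1, hMmin⟩
      rw [hNM]
      obtain ⟨p, hp, hpd⟩ :=
        Nat.exists_prime_and_dvd (fun h => hM1 (Subgroup.card_eq_one.1 h))
      haveI := Fact.mk hp
      obtain ⟨x₀, hx₀⟩ := exists_prime_orderOf_dvd_card' p hpd
      obtain ⟨E, hE⟩ : ∃ E : Subgroup G, ∀ x : G, x ∈ E ↔ x ∈ M ∧ x ^ p = 1 := by
        refine ⟨{ carrier := {x | x ∈ M ∧ x ^ p = 1}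
                  mul_mem' := ?_
                  one_mem' := ⟨M.one_mem, one_pow p⟩
                  inv_mem' := ?_ }, fun x => Iff.rfl⟩
        · rintro a b ⟨ha, hap⟩ ⟨hb, hbp⟩
          refine ⟨M.mul_mem ha hb, ?_⟩
          have hc : Commute a b := hMcomm a ha b hb
          rw [hc.mul_pow, hap, hbp, one_mul]
        · rintro a ⟨ha, hap⟩
          exact ⟨M.inv_mem ha, by rw [inv_pow, hap, inv_one]⟩
      have hEn : E.Normal := by
        refine ⟨fun x hx g => ?_⟩
        rw [hE] at hx ⊢
        exact ⟨hMn.conj_mem x hx.1 g, by rw [conj_pow, hx.2]; group⟩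
      have hEM : E ≤ M := fun x hx => ((hE x).1 hx).1
      have hE1 : E ≠ ⊥ := by
        intro h
        have h0 : (x₀ : G) ∈ E :=
          (hE _).2 ⟨x₀.2, by rw [← Subgroup.coe_pow, ← hx₀, pow_orderOf_eq_one, Subgroup.coe_one]⟩
        rw [h, Subgroup.mem_bot] at h0
        have h1 : x₀ = 1 := Subtype.ext h0
        rw [h1, orderOf_one] at hx₀
        exact hp.one_lt.ne hx₀
      have hEeq : E = M := (hMmin E hEn hEM).resolve_left hE1
      refine ⟨p, hp, ⟨⟨fun a b => Subtype.ext (hMcomm a a.2 b b.2)⟩⟩, fun x => ?_, hMtrans,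
        fun ω => ?_⟩
      · have h0 : (x : G) ∈ E := by rw [hEeq]; exact x.2
        exact Subtype.ext (by rw [Subgroup.coe_pow, Subgroup.coe_one]; exact ((hE _).1 h0).2)
      · rw [eq_bot_iff]
        intro n hn
        rw [Subgroup.mem_bot]
        have h0 : (n : G) • ω = ω := hn
        exact Subtype.ext (hsemi M hMtrans n (hMC n.2) ω h0)
    · right
      haveI := hMn
      obtain ⟨T, hTg, a, hTs, ha, ⟨eM⟩⟩ := Cfsg.Agent.S0721.result M hM1 hMmin
      letI := hTg
      have hTnc : ¬ IsMulCommutative T := by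
        intro hT
        apply hMcomm
        intro x hx y hy
        have h0 : eM ⟨x, hx⟩ * eM ⟨y, hy⟩ = eM ⟨y, hy⟩ * eM ⟨x, hx⟩ := by
          funext i
          exact mul_comm' _ _
        rw [← map_mul, ← map_mul] at h0
        exact congrArg Subtype.val (eM.injective h0)
      by_cases huniq : ∀ L : Subgroup G, L.Normal → L ≠ ⊥ →
          (∀ K : Subgroup G, K.Normal → K ≤ L → K = ⊥ ∨ K = L) → L = M
      · have hNM : N = M := by
          rw [hN]
          apply le_antisymm
          · apply sSup_le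
            rintro L ⟨hLn, hL1, hLmin⟩
            rw [huniq L hLn hL1 hLmin]
          · exact le_sSup ⟨hMn, hM1, hMmin⟩
        rw [hNM]
        exact ⟨T, hTg, a, ha, hTs, hTnc, ⟨eM⟩⟩
      · obtain ⟨M', hM'n, hM'1, hM'min, hne⟩ : ∃ L : Subgroup G, L.Normal ∧ L ≠ ⊥ ∧
            (∀ K : Subgroup G, K.Normal → K ≤ L → K = ⊥ ∨ K = L) ∧ L ≠ M := by
          by_contra hcon
          apply huniq
          intro L hLn hL1 hLmin
          by_contra hLM
          exact hcon ⟨L, hLn, hL1, hLmin, hLM⟩
        have hdis : M ⊓ M' = ⊥ :=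
          hmin_comm M M' hMn hM'n hMmin hM'min hM1 (fun h => hne h.symm)
        have hM'C : M' ≤ Subgroup.centralizer (M : Set G) := hdisj_comm M M' hMn hM'n hdis
        have hM'trans := htrans M' hM'n hM'1
        have hCM' : Subgroup.centralizer (M : Set G) ≤ M' :=
          hcen_le M M' hMtrans hM'trans hM'C
        have hall : ∀ L : Subgroup G, L.Normal → L ≠ ⊥ →
            (∀ K : Subgroup G, K.Normal → K ≤ L → K = ⊥ ∨ K = L) → L = M ∨ L = M' := by
          intro L hLn hL1 hLmin
          by_cases hLM : L = M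
          · exact Or.inl hLM
          · right
            have hd := hmin_comm M L hMn hLn hMmin hLmin hM1 (fun h => hLM h.symm)
            have hLM' : L ≤ M' := (hdisj_comm M L hMn hLn hd).trans hCM'
            exact (hM'min L hLn hLM').resolve_left hL1
        have hNsup : N = M ⊔ M' := by
          rw [hN]
          apply le_antisymm
          · apply sSup_le
            rintro L ⟨hLn, hL1, hLmin⟩
            rcases hall L hLn hL1 hLmin with h | h
            · rw [h]; exact le_sup_left
            · rw [h]; exact le_sup_right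
          · exact sup_le (le_sSup ⟨hMn, hM1, hMmin⟩) (le_sSup ⟨hM'n, hM'1, hM'min⟩)
        have hcomm' : ∀ m ∈ M, ∀ m' ∈ M', m * m' = m' * m :=
          fun m hm m' hm' => Subgroup.mem_centralizer_iff.1 (hM'C hm') m hm
        have hMC' : M ≤ Subgroup.centralizer (M' : Set G) := by
          intro m hm
          rw [Subgroup.mem_centralizer_iff]
          intro m' hm'
          exact (hcomm' m hm m' hm').symm
        have hex : ∀ m : M, ∃ m' : M', (m' : G) • ω₀ = (m : G)⁻¹ • ω₀ := by
          intro m
          obtain ⟨m', hm'⟩ := MulAction.exists_smul_eq M' ω₀ ((m : G)⁻¹ • ω₀)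
          exact ⟨m', hm'⟩
        choose φ hφ using hex
        have hinjM' : ∀ x y : M', (x : G) • ω₀ = (y : G) • ω₀ → x = y := by
          intro x y hxy
          have h1 : (x : G)⁻¹ * y = 1 := by
            apply hsemi M hMtrans _ (hM'C (M'.mul_mem (M'.inv_mem x.2) y.2)) ω₀
            rw [mul_smul, ← hxy, ← mul_smul, inv_mul_cancel, one_smul]
          apply Subtype.ext
          calc (x : G) = (x : G) * ((x : G)⁻¹ * y) := by rw [h1, mul_one]
            _ = y := by group
        have hφmul : ∀ m₁ m₂ : M, φ (m₁ * m₂) = φ m₁ * φ m₂ := by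
          intro m₁ m₂
          apply hinjM'
          calc ((φ (m₁ * m₂) : M') : G) • ω₀ = ((m₁ * m₂ : M) : G)⁻¹ • ω₀ := hφ _
            _ = (m₂ : G)⁻¹ • ((m₁ : G)⁻¹ • ω₀) := by
              rw [Subgroup.coe_mul, mul_inv_rev, mul_smul]
            _ = (m₂ : G)⁻¹ • ((φ m₁ : G) • ω₀) := by rw [hφ m₁]
            _ = ((m₂ : G)⁻¹ * (φ m₁ : G)) • ω₀ := by rw [mul_smul]
            _ = ((φ m₁ : G) * (m₂ : G)⁻¹) • ω₀ := by
              rw [hcomm' _ (M.inv_mem m₂.2) _ (φ m₁).2]
            _ = (φ m₁ : G) • ((φ m₂ : G) • ω₀) := by rw [mul_smul, hφ m₂]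
            _ = ((φ m₁ * φ m₂ : M') : G) • ω₀ := by rw [Subgroup.coe_mul, mul_smul]
        have hφinj : Function.Injective φ := by
          intro x y hxy
          have h0 : (x : G)⁻¹ • ω₀ = (y : G)⁻¹ • ω₀ := by rw [← hφ x, ← hφ y, hxy]
          have h1 : (x : G) * (y : G)⁻¹ = 1 := by
            apply hsemi M' hM'trans _ (hMC' (M.mul_mem x.2 (M.inv_mem y.2))) ω₀
            rw [mul_smul, ← h0, ← mul_smul, mul_inv_cancel, one_smul]
          apply Subtype.ext
          calc (x : G) = (x : G) * (y : G)⁻¹ * y := by group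
            _ = y := by rw [h1, one_mul]
        have hφsurj : Function.Surjective φ := by
          intro m'
          obtain ⟨m, hm⟩ := MulAction.exists_smul_eq M ω₀ ((m' : G) • ω₀)
          have hm' : (m : G) • ω₀ = (m' : G) • ω₀ := hm
          refine ⟨m⁻¹, hinjM' _ _ ?_⟩
          rw [hφ, Subgroup.coe_inv, inv_inv, hm']
        obtain ⟨eMM'⟩ : Nonempty (M ≃* M') :=
          ⟨MulEquiv.ofBijective (MonoidHom.mk' φ hφmul) ⟨hφinj, hφsurj⟩⟩
        obtain ⟨eprod⟩ := Cfsg.Agent.S0721.prod_iso (L := M') (M := M) hcomm' hdis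
        obtain ⟨eapp⟩ := append_iso a a T
        rw [hNsup]
        refine ⟨T, hTg, a + a, by omega, hTs, hTnc, ⟨?_⟩⟩
        exact (eprod.trans (MulEquiv.prodCongr eM (eMM'.symm.trans eM))).trans eapp

end Cfsg.Agent.S3680
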