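import Cfsg.Statements.S3681
import Mathlib

set_option autoImplicit false
open Cfsg

namespace Cfsg.Agent.S3681

theorem comm_three {Ω : Type*} [Fintype Ω] [DecidableEq Ω] (x y : Equiv.Perm Ω) (a : Ω)
    (h : ∀ w, x w ≠ w → y w ≠ w → w = a) (hx : x a ≠ a) (hy : y a ≠ a) :
    (x⁻¹ * y⁻¹ * x * y).IsThreeCycle := by
  have pinv : ∀ (f : Equiv.Perm Ω) (w : Ω), f⁻¹ (f w) = w := fun f w => Equiv.symm_apply_apply f w
  have pinv' : ∀ (f : Equiv.Perm Ω) (w : Ω), f (f⁻¹ w) = w := fun f w => Equiv.apply_symm_apply f w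
  have F1 : ∀ w, w ≠ a → x w ≠ w → y w = w := fun w hw hxw => by
    by_contra hyw; exact hw (h w hxw hyw)
  have F2 : ∀ w, w ≠ a → y w ≠ w → x w = w := fun w hw hyw => by
    by_contra hxw; exact hw (h w hxw hyw)
  have F1' : ∀ w, w ≠ a → x w ≠ w → y⁻¹ w = w := fun w hw hxw => by
    rw [Equiv.Perm.inv_eq_iff_eq]; exact (F1 w hw hxw).symm
  have F2' : ∀ w, w ≠ a → y w ≠ w → x⁻¹ w = w := fun w hw hyw => by
    rw [Equiv.Perm.inv_eq_iff_eq]; exact (F2 w hw hyw).symm
  obtain ⟨b, hb⟩ : ∃ b, b = x⁻¹ a := ⟨_, rfl⟩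
  obtain ⟨d, hd⟩ : ∃ d, d = y⁻¹ a := ⟨_, rfl⟩
  have hxb : x b = a := by rw [hb, pinv']
  have hyd : y d = a := by rw [hd, pinv']
  have hba : b ≠ a := fun e => hx (by rw [e] at hxb; exact hxb)
  have hda : d ≠ a := fun e => hy (by rw [e] at hyd; exact hyd)
  have hxb' : x b ≠ b := by rw [hxb]; exact hba.symm
  have hyd' : y d ≠ d := by rw [hyd]; exact hda.symm
  have hyb : y b = b := F1 b hba hxb'
  have hxd : x d = d := F2 d hda hyd'
  have hbd : b ≠ d := fun e => hxb' (by rw [e]; exact hxd)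
  have ca : (x⁻¹ * y⁻¹ * x * y) a = b := by
    have h2 : y (y a) ≠ y a := fun e => hy (y.injective e)
    have h3 : x (y a) = y a := F2 (y a) hy h2
    simp only [Equiv.Perm.mul_apply]
    rw [h3, pinv, hb]
  have cb : (x⁻¹ * y⁻¹ * x * y) b = d := by
    simp only [Equiv.Perm.mul_apply]
    rw [hyb, hxb, ← hd, Equiv.Perm.inv_eq_iff_eq]
    exact hxd.symm
  have cd : (x⁻¹ * y⁻¹ * x * y) d = a := by
    simp only [Equiv.Perm.mul_apply]
    rw [hyd]
    have h2 : x (x a) ≠ x a := fun e => hx (x.injective e)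
    have h3 : y⁻¹ (x a) = x a := F1' (x a) hx h2
    rw [h3, pinv]
  have cfix : ∀ w, w ≠ a → w ≠ b → w ≠ d → (x⁻¹ * y⁻¹ * x * y) w = w := by
    intro w hwa hwb hwd
    simp only [Equiv.Perm.mul_apply]
    by_cases hyw : y w = w
    · rw [hyw]
      by_cases hxw : x w = w
      · rw [hxw]
        have e1 : y⁻¹ w = w := by rw [Equiv.Perm.inv_eq_iff_eq]; exact hyw.symm
        rw [e1, Equiv.Perm.inv_eq_iff_eq]; exact hxw.symm
      · have hg : x w ≠ a := fun e => hwb (by rw [hb, ← e, pinv])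
        have hg2 : x (x w) ≠ x w := fun e => hxw (x.injective e)
        rw [F1' (x w) hg hg2, pinv]
    · have hxw : x w = w := F2 w hwa hyw
      have hg : y w ≠ a := fun e => hwd (by rw [hd, ← e, pinv])
      have hg2 : y (y w) ≠ y w := fun e => hyw (y.injective e)
      rw [F2 (y w) hg hg2, pinv, Equiv.Perm.inv_eq_iff_eq]
      exact hxw.symm
  rw [← _root_.card_support_eq_three_iff]
  have hs : (x⁻¹ * y⁻¹ * x * y).support = {a, b, d} := by
    ext w
    simp only [Equiv.Perm.mem_support, Finset.mem_insert, Finset.mem_singleton]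
    constructor
    · intro hw
      by_contra hcon
      push Not at hcon
      exact hw (cfix w hcon.1 hcon.2.1 hcon.2.2)
    · rintro (e | e | e)
      · rw [e, ca]; exact hba
      · rw [e, cb]; exact hbd.symm
      · rw [e, cd]; exact hda.symm
  rw [hs, Finset.card_insert_of_notMem, Finset.card_insert_of_notMem, Finset.card_singleton]
  · simpa using hbd
  · simp only [Finset.mem_insert, Finset.mem_singleton, not_or]
    exact ⟨hba.symm, hda.symm⟩

/-- Bochert's bound for primitive groups. Let a finite group G act faithfully and primitively on a finite set Ω with n elements, and suppose the image of G in the symmetric group of Ω does not contain the alternating group of Ω. Then |G| · ⌊(n + 1)/2⌋! ≤ n!, that is, the index of G in the symmetric group is at least ⌊(n + 1)/2⌋!. -/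
theorem result {G Ω : Type*} [Group G] [Finite G] [MulAction G Ω] [FaithfulSMul G Ω] [Fintype Ω] [DecidableEq Ω]
    (hprim : MulAction.IsPreprimitive G Ω) (hA : ¬ alternatingGroup Ω ≤ (MulAction.toPermHom G Ω).range) :
    Nat.card G * Nat.factorial ((Fintype.card Ω + 1) / 2) ≤ Nat.factorial (Fintype.card Ω) := by
  classical
  obtain ⟨H, hH⟩ : ∃ H : Subgroup (Equiv.Perm Ω), H = (MulAction.toPermHom G Ω).range := ⟨_, rfl⟩
  rw [← hH] at hA
  have hHprim : MulAction.IsPreprimitive H Ω := by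
    subst hH
    let φ : G → (MulAction.toPermHom G Ω).range := fun g => ⟨MulAction.toPermHom G Ω g, ⟨g, rfl⟩⟩
    let f : Ω →ₑ[φ] Ω := { toFun := id, map_smul' := fun g w => rfl }
    have := hprim
    exact MulAction.IsPreprimitive.of_surjective (f := f) Function.surjective_id
  have hcard : Nat.card G = Nat.card H := by
    subst hH
    have hinj : Function.Injective (MulAction.toPermHom G Ω) := MulAction.toPerm_injective
    exact Nat.card_congr (MonoidHom.ofInjective hinj).toEquiv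
  have hP0 : ∀ g ∈ H, (∀ w, w ∉ (∅ : Finset Ω) → g w = w) → g = 1 := by
    intro g _ hg
    ext w; exact hg w (Finset.notMem_empty w)
  obtain ⟨Δ, hΔ, hmax⟩ : ∃ Δ : Finset Ω, (∀ g ∈ H, (∀ w, w ∉ Δ → g w = w) → g = 1) ∧
      ∀ Δ' : Finset Ω, (∀ g ∈ H, (∀ w, w ∉ Δ' → g w = w) → g = 1) → Δ'.card ≤ Δ.card := by
    obtain ⟨Δ, hΔ, hmax⟩ := Finset.exists_max_image
      (Finset.univ.filter (fun Δ : Finset Ω => ∀ g ∈ H, (∀ w, w ∉ Δ → g w = w) → g = 1)) Finset.card
      ⟨∅, Finset.mem_filter.mpr ⟨Finset.mem_univ _, hP0⟩⟩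
    exact ⟨Δ, (Finset.mem_filter.mp hΔ).2, fun Δ' h' =>
      hmax Δ' (Finset.mem_filter.mpr ⟨Finset.mem_univ _, h'⟩)⟩
  have hhalf : Fintype.card Ω ≤ 2 * Δ.card := by
    by_contra hlt
    push Not at hlt
    have hc : Δ.card < Δᶜ.card := by rw [Finset.card_compl]; omega
    have hnot : ¬ (∀ g ∈ H, (∀ w, w ∉ Δᶜ → g w = w) → g = 1) := fun h =>
      absurd (hmax _ h) (by omega)
    push Not at hnot
    obtain ⟨y, hyH, hyfix, hy1⟩ := hnot
    obtain ⟨a, ha⟩ : ∃ a, y a ≠ a := by
      by_contra hall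
      push Not at hall
      exact hy1 (Equiv.Perm.ext hall)
    have haΔ : a ∉ Δ := fun h => ha (hyfix a (by simpa using h))
    have hnot2 : ¬ (∀ g ∈ H, (∀ w, w ∉ insert a Δ → g w = w) → g = 1) := fun h =>
      absurd (hmax _ h) (by rw [Finset.card_insert_of_notMem haΔ]; omega)
    push Not at hnot2
    obtain ⟨x, hxH, hxfix, hx1⟩ := hnot2
    have hxa : x a ≠ a := by
      intro hxa
      apply hx1
      apply hΔ x hxH
      intro w hw
      by_cases hwa : w = a
      · rw [hwa]; exact hxa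
      · exact hxfix w (by simp [hwa, hw])
    have h3 := comm_three x y a (fun w hxw hyw => by
      by_contra hwa
      have hwΔ : w ∈ Δ := by
        by_contra hwΔ
        exact hxw (hxfix w (by simp [hwa, hwΔ]))
      exact hyw (hyfix w (by simpa using hwΔ))) hxa ha
    have hmem : x⁻¹ * y⁻¹ * x * y ∈ H :=
      H.mul_mem (H.mul_mem (H.mul_mem (H.inv_mem hxH) (H.inv_mem hyH)) hxH) hyH
    exact hA (Equiv.Perm.alternatingGroup_le_of_isPreprimitive_of_isThreeCycle_mem hHprim h3 hmem)
  have hcount : Nat.card H * Δ.card.factorial ≤ (Fintype.card Ω).factorial := by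
    have hinj : Function.Injective (fun p : H × Equiv.Perm {w // w ∈ Δ} =>
        (p.1 : Equiv.Perm Ω) * Equiv.Perm.ofSubtype p.2) := by
      rintro ⟨h1, s1⟩ ⟨h2, s2⟩ heq
      simp only at heq
      have key : (h2 : Equiv.Perm Ω)⁻¹ * h1 = Equiv.Perm.ofSubtype (s2 * s1⁻¹) := by
        rw [map_mul, map_inv, eq_mul_inv_iff_mul_eq, mul_assoc, heq, inv_mul_cancel_left]
      have h1' : (h2 : Equiv.Perm Ω)⁻¹ * h1 = 1 := by
        apply hΔ _ (H.mul_mem (H.inv_mem h2.2) h1.2)
        intro w hw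
        rw [key]
        exact Equiv.Perm.ofSubtype_apply_of_not_mem _ hw
      have e1 : h1 = h2 := by
        apply Subtype.ext
        exact (inv_mul_eq_one.mp h1').symm
      subst e1
      have e2 : Equiv.Perm.ofSubtype s1 = Equiv.Perm.ofSubtype s2 := mul_left_cancel heq
      rw [Equiv.Perm.ofSubtype_injective e2]
    have h := Nat.card_le_card_of_injective _ hinj
    rw [Nat.card_prod, Nat.card_perm, Nat.card_perm] at h
    simpa using h
  rw [hcard]
  calc Nat.card H * ((Fintype.card Ω + 1) / 2).factorial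
      ≤ Nat.card H * Δ.card.factorial := by
        apply Nat.mul_le_mul_left
        apply Nat.factorial_le
        omega
    _ ≤ _ := hcount

end Cfsg.Agent.S3681
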