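import Cfsg.Statements.S3683
import Mathlib

set_option autoImplicit false
open Cfsg

namespace Cfsg.Agent.S3683

/-- Let a finite group G act faithfully and primitively on a set Ω, and suppose the stabilizer of a point a fixes a second point b ≠ a (a suborbit of length 1 other than {a}). Then the stabilizer of a is trivial and G is cyclic of prime order. -/
theorem result {G Ω : Type*} [Group G] [Finite G] [MulAction G Ω] [FaithfulSMul G Ω] [Finite Ω]
    (hprim : MulAction.IsPreprimitive G Ω) (a b : Ω) (hab : a ≠ b) (hfix : ∀ g : G, g • a = a → g • b = b) :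
    MulAction.stabilizer G a = ⊥ ∧ IsCyclic G ∧ (Nat.card G).Prime := by
  classical
  have : Nontrivial Ω := ⟨⟨a, b, hab⟩⟩
  have := hprim
  have hca : IsCoatom (MulAction.stabilizer G a) :=
    MulAction.IsPreprimitive.isCoatom_stabilizer_of_isPreprimitive G a
  have hcb : IsCoatom (MulAction.stabilizer G b) :=
    MulAction.IsPreprimitive.isCoatom_stabilizer_of_isPreprimitive G b
  have hle : MulAction.stabilizer G a ≤ MulAction.stabilizer G b := fun g hg => hfix g hg
  have heq : MulAction.stabilizer G a = MulAction.stabilizer G b := by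
    rcases eq_or_lt_of_le hle with h | h
    · exact h
    · exact absurd (hca.2 _ h) hcb.1
  obtain ⟨g, hg⟩ := MulAction.exists_smul_eq G a b
  have hgn : g ∈ Subgroup.normalizer (MulAction.stabilizer G a : Set G) := by
    rw [Subgroup.mem_normalizer_iff]
    intro h
    constructor
    · intro hh
      rw [heq, MulAction.mem_stabilizer_iff, ← hg, ← mul_smul]
      have e : g * h * g⁻¹ * g = g * h := by group
      rw [e, mul_smul, MulAction.mem_stabilizer_iff.mp hh]
    · intro hh
      rw [heq, MulAction.mem_stabilizer_iff, ← hg, ← mul_smul] at hh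
      have e : g * h * g⁻¹ * g = g * h := by group
      rw [e, mul_smul] at hh
      rw [MulAction.mem_stabilizer_iff]
      exact MulAction.injective g hh
  have hgnot : g ∉ MulAction.stabilizer G a := by
    intro h
    rw [MulAction.mem_stabilizer_iff, hg] at h
    exact hab h.symm
  have hNtop : Subgroup.normalizer (MulAction.stabilizer G a : Set G) = ⊤ := by
    apply hca.2
    exact lt_of_le_of_ne Subgroup.le_normalizer (fun h => hgnot (h ▸ hgn))
  have hnormal : (MulAction.stabilizer G a).Normal := Subgroup.normalizer_eq_top_iff.mp hNtop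
  have hbot : MulAction.stabilizer G a = ⊥ := by
    rw [Subgroup.eq_bot_iff_forall]
    intro x hx
    apply FaithfulSMul.eq_of_smul_eq_smul (α := Ω)
    intro c
    obtain ⟨h, rfl⟩ := MulAction.exists_smul_eq G a c
    have h1 : h⁻¹ * x * h⁻¹⁻¹ ∈ MulAction.stabilizer G a := hnormal.conj_mem x hx h⁻¹
    rw [MulAction.mem_stabilizer_iff] at h1
    rw [one_smul, ← mul_smul]
    have e : x * h = h * (h⁻¹ * x * h⁻¹⁻¹) := by group
    rw [e, mul_smul, h1]
  refine ⟨hbot, ?_⟩
  rw [hbot] at hca
  have hnt : Nontrivial G := by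
    refine ⟨⟨g, 1, ?_⟩⟩
    rintro rfl
    rw [one_smul] at hg
    exact hab hg
  obtain ⟨p, hp, hpd⟩ := Nat.exists_prime_and_dvd (Finite.one_lt_card (α := G)).ne'
  have : Fact p.Prime := ⟨hp⟩
  obtain ⟨x, hx⟩ := exists_prime_orderOf_dvd_card' p hpd
  have hx1 : x ≠ 1 := by
    rintro rfl
    rw [orderOf_one] at hx
    exact hp.one_lt.ne hx
  have hz : Subgroup.zpowers x = ⊤ := by
    apply hca.2
    apply bot_lt_iff_ne_bot.mpr
    intro h
    exact hx1 (Subgroup.zpowers_eq_bot.mp h)
  refine ⟨⟨x, fun y => ?_⟩, ?_⟩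
  · have : y ∈ Subgroup.zpowers x := by rw [hz]; trivial
    exact this
  · have h1 : Nat.card (Subgroup.zpowers x) = orderOf x := Nat.card_zpowers x
    rw [hz, Subgroup.card_top] at h1
    rw [h1, hx]; exact hp

end Cfsg.Agent.S3683
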