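import Cfsg.Statements.S3684
import Cfsg.Agent.Lib.Helper21.Basic
import Cfsg.Agent.Lib.Helper21.Dihedral
import Cfsg.Agent.Lib.Helper21.Perm

set_option autoImplicit false
open Cfsg

namespace Cfsg.Agent.S3684

open Cfsg.Agent.Lib.Helper21

/-- Let a finite group G act faithfully and primitively on a set Ω, and suppose the stabilizer of a point a has an orbit of length 2. Then the stabilizer of a has order 2 and G is isomorphic to the dihedral group of order 2p for some prime p. -/
theorem result {G Ω : Type*} [Group G] [Finite G] [MulAction G Ω] [FaithfulSMul G Ω] [Finite Ω]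
    (hprim : MulAction.IsPreprimitive G Ω) (a b : Ω) (h2 : Nat.card (MulAction.orbit (MulAction.stabilizer G a) b) = 2) :
    Nat.card (MulAction.stabilizer G a) = 2 ∧ ∃ p : ℕ, p.Prime ∧ Nonempty (G ≃* DihedralGroup p) := by
  classical
  have := hprim
  set H := MulAction.stabilizer G a with hH
  set K := MulAction.stabilizer G b with hK
  have hab : a ≠ b := by
    rintro rfl
    have hor : MulAction.orbit ↥H a = {a} := by
      ext x
      constructor
      · rintro ⟨h, rfl⟩
        exact h.2
      · rintro rfl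
        exact MulAction.mem_orbit_self _
    rw [hor] at h2
    simp at h2
  have : Nontrivial Ω := ⟨⟨a, b, hab⟩⟩
  have hcH : IsCoatom H := MulAction.IsPreprimitive.isCoatom_stabilizer_of_isPreprimitive G a
  have hidx : K.relIndex H = 2 := by
    have e : K.subgroupOf H = MulAction.stabilizer ↥H b := by
      ext x
      rw [Subgroup.mem_subgroupOf, MulAction.mem_stabilizer_iff, MulAction.mem_stabilizer_iff]
      rfl
    rw [Subgroup.relIndex, e, MulAction.index_stabilizer, ← Nat.card_coe_set_eq]
    exact h2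
  obtain ⟨g, hg⟩ := MulAction.exists_smul_eq G a b
  have hcard : Nat.card K = Nat.card H := by
    have e : K = H.map (MulAut.conj g).toMonoidHom := by
      rw [hK, ← hg, MulAction.stabilizer_smul_eq_stabilizer_map_conj]
    rw [e, card_map_conj]
  have h1 := card_mul_relIndex (inf_le_left : H ⊓ K ≤ H)
  have h2' := card_mul_relIndex (inf_le_right : H ⊓ K ≤ K)
  rw [Subgroup.inf_relIndex_left] at h1
  rw [Subgroup.inf_relIndex_right] at h2'
  have hidx' : H.relIndex K = 2 := by
    rw [hidx] at h1
    rw [hcard, ← h1] at h2'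
    exact Nat.eq_of_mul_eq_mul_left Nat.card_pos h2'
  have hn1 : (K.subgroupOf H).Normal := Subgroup.normal_of_index_eq_two hidx
  have hn2 : (H.subgroupOf K).Normal := Subgroup.normal_of_index_eq_two hidx'
  have hle1 : H ≤ Subgroup.normalizer ((K ⊓ H : Subgroup G) : Set G) :=
    Subgroup.normal_subgroupOf_iff_le_normalizer_inf.mp hn1
  have hle2 : K ≤ Subgroup.normalizer ((H ⊓ K : Subgroup G) : Set G) :=
    Subgroup.normal_subgroupOf_iff_le_normalizer_inf.mp hn2
  rw [inf_comm] at hle1
  have hHK : H ≠ K := by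
    intro h
    rw [← h, Subgroup.relIndex_self] at hidx
    omega
  have hsup : H ⊔ K = ⊤ := by
    apply hcH.2
    apply lt_of_le_of_ne le_sup_left
    intro h
    have hKH : K ≤ H := by rw [h]; exact le_sup_right
    exact hHK (Subgroup.eq_of_le_of_card_ge hKH hcard.ge).symm
  have hnorm : Subgroup.normalizer ((H ⊓ K : Subgroup G) : Set G) = ⊤ := by
    rw [eq_top_iff, ← hsup]
    exact sup_le hle1 hle2
  have hD : H ⊓ K = ⊥ := by
    have hDn : (H ⊓ K).Normal := Subgroup.normalizer_eq_top_iff.mp hnorm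
    exact normal_le_stabilizer_eq_bot (H ⊓ K) a inf_le_left
  have hH2 : Nat.card H = 2 := by rw [← h1, hD, Subgroup.card_bot, hidx]
  have hK2 : Nat.card K = 2 := by rw [hcard, hH2]
  refine ⟨hH2, ?_⟩
  have hgenerator : ∀ L : Subgroup G, Nat.card L = 2 →
      ∃ s ∈ L, s * s = 1 ∧ L = Subgroup.zpowers s := by
    intro L hL
    have hLne : L ≠ ⊥ := by
      intro h
      rw [h, Subgroup.card_bot] at hL
      omega
    obtain ⟨⟨s, hsL⟩, hs1⟩ := (Subgroup.ne_bot_iff_exists_ne_one.mp hLne)
    have hs1' : (s : G) ≠ 1 := fun h => hs1 (Subtype.ext h)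
    have hpow : (s : G) ^ 2 = 1 := by
      have h3 : (⟨s, hsL⟩ : L) ^ Nat.card L = 1 := pow_card_eq_one'
      rw [hL] at h3
      exact congrArg Subtype.val h3
    refine ⟨s, hsL, by rw [← pow_two]; exact hpow, ?_⟩
    symm
    apply Subgroup.eq_of_le_of_card_ge (Subgroup.zpowers_le.mpr hsL)
    rw [hL, Nat.card_zpowers]
    have h4 : orderOf (s : G) ≠ 1 := fun h => hs1' (orderOf_eq_one_iff.mp h)
    have h5 : 0 < orderOf (s : G) := orderOf_pos _
    omega
  obtain ⟨s, hsH, hs2, hHz⟩ := hgenerator H hH2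
  obtain ⟨t, htK, ht2, hKz⟩ := hgenerator K hK2
  have hsi : s⁻¹ = s := inv_eq_of_mul_eq_one_left hs2
  have hti : t⁻¹ = t := inv_eq_of_mul_eq_one_left ht2
  have hconj : s * (s * t) * s⁻¹ = (s * t)⁻¹ := by
    rw [mul_inv_rev, hsi, hti, ← mul_assoc, hs2, one_mul]
  have hgen : Subgroup.closure ({s, s * t} : Set G) = ⊤ := by
    rw [eq_top_iff, ← hsup, hHz, hKz]
    apply sup_le
    · rw [Subgroup.zpowers_le]
      exact Subgroup.subset_closure (by simp)
    · rw [Subgroup.zpowers_le]
      have e : t = s⁻¹ * (s * t) := by group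
      rw [e]
      exact Subgroup.mul_mem _ (Subgroup.inv_mem _ (Subgroup.subset_closure (by simp)))
        (Subgroup.subset_closure (by simp))
  have hsnot : s ∉ Subgroup.zpowers (s * t) := by
    intro hs
    have htop : Subgroup.zpowers (s * t) = ⊤ := by
      rw [eq_top_iff, ← hgen, Subgroup.closure_le]
      rintro x (rfl | hx)
      · exact hs
      · rw [Set.mem_singleton_iff] at hx
        rw [hx]
        exact Subgroup.mem_zpowers _
    have hcomm : ∀ x y : G, x * y = y * x := by
      intro x y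
      have hx : x ∈ Subgroup.zpowers (s * t) := htop ▸ Subgroup.mem_top x
      have hy : y ∈ Subgroup.zpowers (s * t) := htop ▸ Subgroup.mem_top y
      obtain ⟨i, rfl⟩ := hx
      obtain ⟨j, rfl⟩ := hy
      rw [← zpow_add, ← zpow_add, add_comm]
    have hHn : H.Normal := ⟨fun x hx g => by rw [hcomm g x, mul_inv_cancel_right]; exact hx⟩
    have hbot := normal_le_stabilizer_eq_bot H a le_rfl
    rw [hbot, Subgroup.card_bot] at hH2
    omega
  have hn0 : orderOf (s * t) ≠ 0 := (orderOf_pos (s * t)).ne'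
  obtain ⟨e⟩ := nonempty_dihedral_mulEquiv s (s * t) (orderOf (s * t)) hs2 rfl hn0 hconj hgen hsnot
  have hcardG : Nat.card G = 2 * orderOf (s * t) := by
    rw [← Nat.card_congr e.toEquiv, DihedralGroup.nat_card]
  refine ⟨orderOf (s * t), ?_, ⟨e.symm⟩⟩
  have hΩ : Nat.card Ω = orderOf (s * t) := by
    have h3 := MulAction.index_stabilizer_of_transitive G a
    have h4 := Subgroup.card_mul_index H
    rw [hH2, h3, hcardG] at h4
    omega
  have hne1 : orderOf (s * t) ≠ 1 := by
    intro h
    have hHtop : H = ⊤ := Subgroup.eq_top_of_card_eq _ (by rw [hH2, hcardG, h])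
    exact hcH.1 hHtop
  obtain ⟨q, hq, hqn⟩ := Nat.exists_prime_and_dvd hne1
  have hσord : orderOf ((s * t) ^ (orderOf (s * t) / q)) = q := orderOf_pow_orderOf_div hn0 hqn
  have hNn : (Subgroup.zpowers ((s * t) ^ (orderOf (s * t) / q))).Normal := by
    rw [← Subgroup.normalizer_eq_top_iff, eq_top_iff, ← hgen, Subgroup.closure_le]
    rintro x (rfl | hx)
    · rw [SetLike.mem_coe, mem_normalizer_iff_map]
      apply Subgroup.eq_of_le_of_card_ge
      · rw [map_conj_le_iff, Subgroup.zpowers_le, mem_map_conj]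
        have e1 : x⁻¹⁻¹ * (x * t) ^ (orderOf (x * t) / q) * x⁻¹ =
            ((x * t) ^ (orderOf (x * t) / q))⁻¹ := by
          rw [inv_inv, ← conj_pow, hconj, inv_pow]
        rw [e1]
        exact Subgroup.inv_mem _ (Subgroup.mem_zpowers _)
      · rw [card_map_conj]
    · rw [Set.mem_singleton_iff] at hx
      rw [hx, SetLike.mem_coe, mem_normalizer_iff_map]
      apply Subgroup.eq_of_le_of_card_ge
      · rw [map_conj_le_iff, Subgroup.zpowers_le, mem_map_conj]
        have e1 : (s * t)⁻¹⁻¹ * (s * t) ^ (orderOf (s * t) / q) * (s * t)⁻¹ =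
            (s * t) ^ (orderOf (s * t) / q) := by
          rw [inv_inv, ← pow_succ', mul_inv_eq_iff_eq_mul, ← pow_succ]
        rw [e1]
        exact Subgroup.mem_zpowers _
      · rw [card_map_conj]
  have hNne : Subgroup.zpowers ((s * t) ^ (orderOf (s * t) / q)) ≠ ⊥ := by
    rw [Ne, Subgroup.zpowers_eq_bot]
    intro h
    rw [h, orderOf_one] at hσord
    exact hq.one_lt.ne hσord
  have htr := isPretransitive_of_normal_ne_bot (Ω := Ω) _ hNne
  have hdiv : orderOf (s * t) ∣ q := by
    have h5 := MulAction.index_stabilizer_of_transitive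
      (Subgroup.zpowers ((s * t) ^ (orderOf (s * t) / q))) a
    have h6 := Subgroup.card_mul_index
      (MulAction.stabilizer (Subgroup.zpowers ((s * t) ^ (orderOf (s * t) / q))) a)
    rw [h5, hΩ, Nat.card_zpowers, hσord] at h6
    exact Dvd.intro_left _ h6
  have hnq : orderOf (s * t) = q := Nat.dvd_antisymm hdiv hqn
  rw [hnq]
  exact hq

end Cfsg.Agent.S3684
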