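import Cfsg.Statements.S3696
import Cfsg.Agent.Lib.Helper10.PermAb

set_option autoImplicit false
open Cfsg

namespace Cfsg.Agent.S3696

/-- Let p be a prime, Ω a finite set with n ≥ p elements, and A an abelian p-subgroup of the symmetric group on Ω whose elements of order dividing p number p^k (so k is the rank of A). Then |A| · k^k ≤ n^k, that is, |A| ≤ (n/k)^k. -/
theorem result {Ω : Type*} [Fintype Ω] [DecidableEq Ω]
    (p : ℕ) (hp : p.Prime) (hn : p ≤ Fintype.card Ω) (A : Subgroup (Equiv.Perm Ω)) (hA : IsPGroup p A) (hab : IsMulCommutative A)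
    (k : ℕ) (hk : Nat.card {x : A // x ^ p = 1} = p ^ k) :
    Nat.card A * k ^ k ≤ Fintype.card Ω ^ k := by
  have : Fact p.Prime := ⟨hp⟩
  have hcomm : ∀ a ∈ A, ∀ b ∈ A, a * b = b * a := by
    intro a ha b hb
    have := hab.is_comm.comm ⟨a, ha⟩ ⟨b, hb⟩
    exact congrArg Subtype.val this
  have hk' : (Cfsg.Agent.Lib.Helper10.PermAb.om p A).ncard = p ^ k := by
    rw [← hk, ← Nat.card_coe_set_eq]
    exact Nat.card_congr ⟨fun x => ⟨⟨x.1, x.2.1⟩, Subtype.ext x.2.2⟩,
      fun x => ⟨x.1.1, x.1.2, congrArg Subtype.val x.2⟩, fun x => rfl, fun x => rfl⟩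
  have h := Cfsg.Agent.Lib.Helper10.PermAb.main (G := Equiv.Perm Ω) (Ω := Ω) p (Nat.card A) A le_rfl hA hcomm
    Set.univ Set.finite_univ (fun _ _ _ _ => Set.mem_univ _)
    (fun g _ h => Equiv.ext (fun x => by simpa using h x (Set.mem_univ x))) k hk'
  rw [Set.ncard_univ, Nat.card_eq_fintype_card (α := Ω)] at h
  exact h

end Cfsg.Agent.S3696
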