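import Cfsg.Statements.S3755
import Cfsg.Agent.Lib.Helper21.Basic
import Cfsg.Agent.Lib.Helper11.HypGen
import Cfsg.Agent.Lib.Helper11.ThompsonAB
import Cfsg.Agent.Lib.Helper1.Cores
import Cfsg.Agent.S0444

set_option autoImplicit false
open Cfsg

namespace Cfsg.Agent.S3755

open Cfsg.Agent.Lib.Helper21
open scoped Pointwise

section aux

variable {X : Type*} [Group X]

/-- A `q`-group normalizing `U` fixes `|U|` points modulo `q`. -/
theorem card_modEq_card_inf_centralizer [Finite X] {q : ℕ} [Fact q.Prime] (Pq U : Subgroup X)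
    (hP : IsPGroup q Pq) (hPU : Pq ≤ Subgroup.normalizer (U : Set X)) :
    Nat.card U ≡ Nat.card (U ⊓ Subgroup.centralizer (Pq : Set X) : Subgroup X) [MOD q] := by
  classical
  have hnm : ∀ a ∈ Pq, ∀ u : U, a * (u : X) * a⁻¹ ∈ U :=
    fun a ha u => (Subgroup.mem_normalizer_iff.mp (hPU ha) u).mp u.2
  letI act : MulAction Pq U :=
    { smul := fun a u => ⟨(a : X) * (u : X) * (a : X)⁻¹, hnm a a.2 u⟩
      one_smul := fun u => Subtype.ext (by
        show ((1 : Pq) : X) * (u : X) * ((1 : Pq) : X)⁻¹ = u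
        simp)
      mul_smul := fun a b u => Subtype.ext (by
        show ((a * b : Pq) : X) * (u : X) * ((a * b : Pq) : X)⁻¹
          = (a : X) * ((b : X) * (u : X) * (b : X)⁻¹) * (a : X)⁻¹
        simp [mul_assoc]) }
  have hsmul : ∀ (a : Pq) (u : U), ((a • u : U) : X) = (a : X) * (u : X) * (a : X)⁻¹ :=
    fun a u => rfl
  have key := hP.card_modEq_card_fixedPoints U
  have hcard : Nat.card (MulAction.fixedPoints Pq U)
      = Nat.card (U ⊓ Subgroup.centralizer (Pq : Set X) : Subgroup X) := by
    apply Nat.card_congr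
    refine ⟨fun u => ⟨(u.1 : X), Subgroup.mem_inf.mpr ⟨u.1.2, ?_⟩⟩,
      fun w => ⟨⟨w.1, (Subgroup.mem_inf.mp w.2).1⟩, ?_⟩, fun u => rfl, fun w => rfl⟩
    · rw [Subgroup.mem_centralizer_iff]
      intro a ha
      have h2 := congrArg Subtype.val (u.2 ⟨a, ha⟩)
      rw [hsmul] at h2
      exact mul_inv_eq_iff_eq_mul.mp h2
    · intro a
      apply Subtype.ext
      have h2 := Subgroup.mem_centralizer_iff.mp (Subgroup.mem_inf.mp w.2).2 a a.2
      rw [hsmul]
      show (a : X) * (w : X) * (a : X)⁻¹ = w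
      rw [mul_inv_eq_iff_eq_mul]
      exact h2
  rw [hcard] at key
  exact key

theorem centralizer_zpowers_eq (x : X) :
    Subgroup.centralizer ((Subgroup.zpowers x : Subgroup X) : Set X)
      = Subgroup.centralizer ({x} : Set X) := by
  apply le_antisymm
  · apply Subgroup.centralizer_le
    intro y hy
    rw [Set.mem_singleton_iff.mp hy]
    exact Subgroup.mem_zpowers x
  · intro u hu
    rw [Subgroup.mem_centralizer_iff] at hu ⊢
    intro h hh
    obtain ⟨k, rfl⟩ := Subgroup.mem_zpowers_iff.mp hh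
    have h1 : Commute x u := hu x rfl
    exact (h1.zpow_left k).eq

/-- An element of odd prime order normalizing a 2-group `U` with at most four cosets of its
fixed points either centralizes `U` or has order three. -/
theorem fix_dichotomy [Finite X] {q : ℕ} [Fact q.Prime] (hq2 : q ≠ 2) (x : X)
    (hx : orderOf x = q) (U : Subgroup X) (hU : IsPGroup 2 U)
    (hxU : x ∈ Subgroup.normalizer (U : Set X))
    (hidx : (U ⊓ Subgroup.centralizer ({x} : Set X)).relIndex U ≤ 4) :
    U ≤ Subgroup.centralizer ({x} : Set X) ∨ q = 3 := by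
  have hq : q.Prime := Fact.out
  have hPq : IsPGroup q (Subgroup.zpowers x) := by
    apply IsPGroup.of_card (n := 1)
    rw [Nat.card_zpowers, hx, pow_one]
  have key := card_modEq_card_inf_centralizer (Subgroup.zpowers x) U hPq
    ((Subgroup.zpowers_le).mpr hxU)
  rw [centralizer_zpowers_eq] at key
  have hmul := card_mul_relIndex (inf_le_left : U ⊓ Subgroup.centralizer ({x} : Set X) ≤ U)
  obtain ⟨k, hk⟩ := IsPGroup.iff_card.mp hU
  have hd1 : (U ⊓ Subgroup.centralizer ({x} : Set X)).relIndex U ∣ 2 ^ k := by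
    rw [← hk]; exact Subgroup.relIndex_dvd_card _ _
  have hd2 : Nat.card (U ⊓ Subgroup.centralizer ({x} : Set X) : Subgroup X) ∣ 2 ^ k := by
    rw [← hk]; exact Subgroup.card_dvd_of_le inf_le_left
  obtain ⟨j, hj, hje⟩ := (Nat.dvd_prime_pow Nat.prime_two).mp hd1
  obtain ⟨i, hi, hie⟩ := (Nat.dvd_prime_pow Nat.prime_two).mp hd2
  rw [hje] at hidx hmul
  rw [hie] at key hmul
  rw [← hmul] at key
  have hj2 : j ≤ 2 := by
    by_contra hcon
    have : 2 ^ 3 ≤ 2 ^ j := Nat.pow_le_pow_right (by norm_num) (by omega)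
    omega
  have hcop : Nat.Coprime q (2 ^ i) := by
    apply Nat.Coprime.pow_right
    exact (Nat.coprime_primes hq Nat.prime_two).mpr hq2
  have hdvd : q ∣ 2 ^ i * 2 ^ j - 2 ^ i := by
    have hle : 2 ^ i ≤ 2 ^ i * 2 ^ j := Nat.le_mul_of_pos_right _ (by positivity)
    exact (Nat.modEq_iff_dvd' hle).mp key.symm
  have hdvd2 : q ∣ 2 ^ j - 1 := by
    have e : 2 ^ i * 2 ^ j - 2 ^ i = 2 ^ i * (2 ^ j - 1) := by
      rw [Nat.mul_sub, mul_one]
    rw [e] at hdvd
    exact hcop.dvd_of_dvd_mul_left hdvd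
  interval_cases j
  · left
    have h1 : (U ⊓ Subgroup.centralizer ({x} : Set X)).relIndex U = 1 := by rw [hje]; norm_num
    rw [Subgroup.relIndex_eq_one] at h1
    exact h1.trans inf_le_right
  · exfalso
    norm_num at hdvd2
    exact hq.one_lt.ne' hdvd2
  · right
    norm_num at hdvd2
    exact (Nat.prime_dvd_prime_iff_eq hq Nat.prime_three).mp hdvd2

end aux

section main

variable {X : Type*} [Group X]

theorem main_aux [Finite X] (M V : Subgroup X) (hV : Cfsg.IsElementaryAbelian 2 V)
    (hMV : M ≤ Subgroup.normalizer (V : Set X))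
    (hfaith : M ⊓ Subgroup.centralizer (V : Set X) = ⊥)
    (K : Subgroup X) (hKM : K ≤ M) (hMK : M ≤ Subgroup.normalizer (K : Set X))
    (hKodd : (Nat.card K).Coprime 2)
    (hcK : M ⊓ Subgroup.centralizer (K : Set X) ≤ K) :
    ∀ n : ℕ, ∀ A : Subgroup X, A ≤ M → Cfsg.IsElementaryAbelian 2 A → Nat.card A ≤ n →
      (V ⊓ Subgroup.centralizer (A : Set X)).relIndex V < Nat.card A ^ 2 →
      ∃ a ∈ M, ∃ x ∈ M, a * a = 1 ∧ x ≠ 1 ∧ x ^ 3 = 1 ∧ a * x * a⁻¹ = x⁻¹ := by
  classical
  haveI : Fact (Nat.Prime 2) := ⟨Nat.prime_two⟩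
  have h2K : ¬ 2 ∣ Nat.card K := by
    intro h
    have h1 := Nat.dvd_gcd h (dvd_refl 2)
    rw [hKodd.gcd_eq_one] at h1
    norm_num at h1
  have hVp : IsPGroup 2 V := Cfsg.Agent.Lib.Helper11.elemAb_isPGroup hV le_rfl
  intro n
  induction n using Nat.strong_induction_on with
  | _ n ih =>
    intro A hAM hA hAn hsmall
    have hAcomm : ∀ a ∈ A, ∀ b ∈ A, a * b = b * a :=
      fun a ha b hb => Cfsg.Agent.Lib.Helper11.elemAb_comm hA ha hb
    have hAsq : ∀ a ∈ A, a * a = 1 := fun a ha => by
      have h1 := hA.2 a ha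
      rwa [pow_two] at h1
    have hAne : A ≠ ⊥ := by
      rintro rfl
      rw [Subgroup.card_bot] at hsmall
      have h1 : (V ⊓ Subgroup.centralizer (((⊥ : Subgroup X) : Subgroup X) : Set X)).relIndex V
          = 1 := by
        rw [Subgroup.relIndex_eq_one]
        refine le_inf le_rfl ?_
        intro v _
        rw [Subgroup.mem_centralizer_iff]
        intro h hh
        have : h = 1 := Subgroup.mem_bot.mp hh
        rw [this]; simp
      omega
    have hKA : ¬ K ≤ Subgroup.centralizer (A : Set X) := by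
      intro h
      obtain ⟨a₀, ha₀, ha₀1⟩ : ∃ a₀ ∈ A, a₀ ≠ 1 := by
        by_contra hcon
        push Not at hcon
        exact hAne ((Subgroup.eq_bot_iff_forall A).mpr hcon)
      have h1 : a₀ ∈ M ⊓ Subgroup.centralizer (K : Set X) := by
        refine Subgroup.mem_inf.mpr ⟨hAM ha₀, ?_⟩
        rw [Subgroup.mem_centralizer_iff]
        intro k hk
        exact ((Subgroup.mem_centralizer_iff.mp (h hk)) a₀ ha₀).symm
      have h2 : a₀ ∈ K := hcK h1
      have h3 : orderOf a₀ ∣ 2 := orderOf_dvd_of_pow_eq_one (hA.2 a₀ ha₀)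
      have h4 : orderOf a₀ ∣ Nat.card K := by
        have h5 := orderOf_dvd_natCard (⟨a₀, h2⟩ : K)
        rwa [Subgroup.orderOf_mk] at h5
      have h5 : orderOf a₀ ∣ Nat.gcd (Nat.card K) 2 := Nat.dvd_gcd h4 h3
      rw [hKodd.gcd_eq_one, Nat.dvd_one, orderOf_eq_one_iff] at h5
      exact ha₀1 h5
    have hgen := Cfsg.Agent.Lib.Helper11.hypGen_main 2 (Nat.card K) X A K hA h2K
      (hAM.trans hMK) le_rfl
    obtain ⟨B, hBA, hBidx, y, hyK, hyB, hyA⟩ : ∃ B : Subgroup X, B ≤ A ∧ B.relIndex A ≤ 2 ∧
        ∃ y ∈ K, y ∈ Subgroup.centralizer (B : Set X) ∧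
          y ∉ Subgroup.centralizer (A : Set X) := by
      by_contra hcon
      push Not at hcon
      apply hKA
      refine hgen.trans (iSup_le fun B => ?_)
      intro y hy
      exact hcon B.1 B.2.1 B.2.2 y (Subgroup.mem_inf.mp hy).1 (Subgroup.mem_inf.mp hy).2
    obtain ⟨a, haA, hay⟩ : ∃ a ∈ A, a * y ≠ y * a := by
      by_contra hcon
      push Not at hcon
      exact hyA (Subgroup.mem_centralizer_iff.mpr hcon)
    have haM := hAM haA
    have haa : a * a = 1 := hAsq a haA
    have hainv : a⁻¹ = a := inv_eq_of_mul_eq_one_right haa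
    have haB : a ∉ B := fun h => hay ((Subgroup.mem_centralizer_iff.mp hyB) a h)
    have haCB : a ∈ Subgroup.centralizer (B : Set X) := by
      rw [Subgroup.mem_centralizer_iff]
      intro b hb
      exact hAcomm b (hBA hb) a haA
    have hcardAB : Nat.card B * B.relIndex A = Nat.card A := card_mul_relIndex hBA
    have hidx2 : B.relIndex A = 2 := by
      have h1 : B.relIndex A ≠ 1 := by
        intro h
        rw [Subgroup.relIndex_eq_one] at h
        exact haB (h haA)
      have h0 : B.relIndex A ≠ 0 := by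
        intro h
        rw [h, mul_zero] at hcardAB
        exact (Nat.card_pos (α := A)).ne hcardAB
      omega
    rw [hidx2] at hcardAB
    have hMnK : ∀ m ∈ M, ∀ k ∈ K, m * k * m⁻¹ ∈ K :=
      fun m hm k hk => (Subgroup.mem_normalizer_iff.mp (hMK hm) k).mp hk
    have hx₀K : y⁻¹ * (a * y * a⁻¹) ∈ K := K.mul_mem (K.inv_mem hyK) (hMnK a haM y hyK)
    have hx₀B : y⁻¹ * (a * y * a⁻¹) ∈ Subgroup.centralizer (B : Set X) :=
      Subgroup.mul_mem _ (Subgroup.inv_mem _ hyB)
        (Subgroup.mul_mem _ (Subgroup.mul_mem _ haCB hyB) (Subgroup.inv_mem _ haCB))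
    have hx₀1 : y⁻¹ * (a * y * a⁻¹) ≠ 1 := by
      intro h
      apply hay
      rw [inv_mul_eq_one] at h
      exact (mul_inv_eq_iff_eq_mul.mp h.symm)
    have hx₀inv : a * (y⁻¹ * (a * y * a⁻¹)) * a⁻¹ = (y⁻¹ * (a * y * a⁻¹))⁻¹ := by
      have e1 : a * (y⁻¹ * (a * y * a⁻¹)) * a⁻¹ = a * y⁻¹ * (a * y) * (a⁻¹ * a⁻¹) := by group
      have e2 : (y⁻¹ * (a * y * a⁻¹))⁻¹ = a * y⁻¹ * a⁻¹ * y := by group
      rw [e1, e2, hainv, haa, mul_one]
      group
    generalize y⁻¹ * (a * y * a⁻¹) = x₀ at hx₀K hx₀B hx₀1 hx₀inv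
    have hx₀ord : orderOf x₀ ≠ 1 := fun h => hx₀1 (orderOf_eq_one_iff.mp h)
    obtain ⟨q, hq, hqd⟩ := Nat.exists_prime_and_dvd hx₀ord
    haveI := Fact.mk hq
    have hx₀pos : 0 < orderOf x₀ := orderOf_pos x₀
    have hxord : orderOf (x₀ ^ (orderOf x₀ / q)) = q := orderOf_pow_orderOf_div hx₀pos.ne' hqd
    have hxK : x₀ ^ (orderOf x₀ / q) ∈ K := K.pow_mem hx₀K _
    have hxB : x₀ ^ (orderOf x₀ / q) ∈ Subgroup.centralizer (B : Set X) :=
      Subgroup.pow_mem _ hx₀B _
    have hxinv : a * x₀ ^ (orderOf x₀ / q) * a⁻¹ = (x₀ ^ (orderOf x₀ / q))⁻¹ := by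
      rw [← inv_pow, ← hx₀inv, conj_pow]
    have hq2 : q ≠ 2 := by
      rintro rfl
      have h4 : orderOf x₀ ∣ Nat.card K := by
        have h5 := orderOf_dvd_natCard (⟨x₀, hx₀K⟩ : K)
        rwa [Subgroup.orderOf_mk] at h5
      exact h2K (hqd.trans h4)
    generalize x₀ ^ (orderOf x₀ / q) = x at hxord hxK hxB hxinv
    have hxM := hKM hxK
    have hx1 : x ≠ 1 := by
      intro h
      rw [h, orderOf_one] at hxord
      exact hq.one_lt.ne hxord
    by_cases hB : (V ⊓ Subgroup.centralizer (B : Set X)).relIndex V < Nat.card B ^ 2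
    · have hBlt : Nat.card B < n := by
        have : 0 < Nat.card B := Nat.card_pos
        omega
      exact ih (Nat.card B) hBlt B (hBA.trans hAM)
        (Cfsg.Agent.Lib.Helper11.elemAb_of_le hA hBA) le_rfl hB
    · push Not at hB
      have hUA : V ⊓ Subgroup.centralizer (A : Set X)
          = (V ⊓ Subgroup.centralizer (B : Set X)) ⊓ Subgroup.centralizer ({a} : Set X) := by
        apply le_antisymm
        · intro v hv
          obtain ⟨hvV, hvA⟩ := Subgroup.mem_inf.mp hv
          rw [Subgroup.mem_centralizer_iff] at hvA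
          refine Subgroup.mem_inf.mpr ⟨Subgroup.mem_inf.mpr ⟨hvV, ?_⟩, ?_⟩
          · rw [Subgroup.mem_centralizer_iff]
            intro b hb
            exact hvA b (hBA hb)
          · rw [Subgroup.mem_centralizer_iff]
            intro c hc
            rw [Set.mem_singleton_iff.mp hc]
            exact hvA a haA
        · intro v hv
          obtain ⟨hvU, hva⟩ := Subgroup.mem_inf.mp hv
          obtain ⟨hvV, hvB⟩ := Subgroup.mem_inf.mp hvU
          rw [Subgroup.mem_centralizer_iff] at hvB hva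
          refine Subgroup.mem_inf.mpr ⟨hvV, ?_⟩
          rw [Subgroup.mem_centralizer_iff]
          intro c hc
          by_cases hcB : c ∈ B
          · exact hvB c hcB
          · have hacB : a * c ∈ B := by
              have h1 := Subgroup.mul_mem_iff_of_index_two (H := B.subgroupOf A) hidx2
                (a := (⟨a, haA⟩ : A)) (b := (⟨c, hc⟩ : A))
              rw [Subgroup.mem_subgroupOf, Subgroup.mem_subgroupOf, Subgroup.mem_subgroupOf] at h1
              exact h1.mpr ⟨fun h => absurd h haB, fun h => absurd h hcB⟩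
            have hva' : a * v = v * a := hva a rfl
            have h1 : a * c * v = v * (a * c) := hvB (a * c) hacB
            calc c * v = a * a * c * v := by rw [haa, one_mul]
              _ = a * (a * c * v) := by group
              _ = a * (v * (a * c)) := by rw [h1]
              _ = (a * v) * (a * c) := by group
              _ = (v * a) * (a * c) := by rw [hva']
              _ = v * (a * a) * c := by group
              _ = v * c := by rw [haa, mul_one]
      rw [hUA] at hsmall
      have hU2 : IsPGroup 2 (V ⊓ Subgroup.centralizer (B : Set X) : Subgroup X) :=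
        hVp.to_le inf_le_left
      generalize hUdef : V ⊓ Subgroup.centralizer (B : Set X) = U at hB hsmall hU2
      have hUV : U ≤ V := by rw [← hUdef]; exact inf_le_left
      have hmul := Subgroup.relIndex_mul_relIndex (U ⊓ Subgroup.centralizer ({a} : Set X)) U V
        inf_le_left hUV
      have hUpos : 0 < U.relIndex V := by
        have h1 := card_mul_relIndex hUV
        by_contra h0
        have h2 : U.relIndex V = 0 := by omega
        rw [h2, mul_zero] at h1
        exact (Nat.card_pos (α := V)).ne h1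
      have hlt4 : (U ⊓ Subgroup.centralizer ({a} : Set X)).relIndex U < 4 := by
        by_contra h4
        push Not at h4
        have h5 : 4 * U.relIndex V ≤ (U ⊓ Subgroup.centralizer ({a} : Set X)).relIndex V := by
          rw [← hmul]
          exact Nat.mul_le_mul_right _ h4
        have hA4 : Nat.card A ^ 2 = 4 * Nat.card B ^ 2 := by
          rw [← hcardAB]; ring
        rw [hA4] at hsmall
        have h6 : 4 * Nat.card B ^ 2 ≤ 4 * U.relIndex V := Nat.mul_le_mul_left 4 hB
        omega
      obtain ⟨k, hk⟩ := IsPGroup.iff_card.mp hU2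
      have hle2 : (U ⊓ Subgroup.centralizer ({a} : Set X)).relIndex U ≤ 2 := by
        have hd1 : (U ⊓ Subgroup.centralizer ({a} : Set X)).relIndex U ∣ 2 ^ k := by
          rw [← hk]; exact Subgroup.relIndex_dvd_card _ _
        obtain ⟨j, hj, hje⟩ := (Nat.dvd_prime_pow Nat.prime_two).mp hd1
        rw [hje] at hlt4 ⊢
        have hj2 : j < 2 := by
          by_contra hcon
          have : 2 ^ 2 ≤ 2 ^ j := Nat.pow_le_pow_right (by norm_num) (by omega)
          omega
        interval_cases j <;> norm_num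
      -- x normalizes U
      have hxU : x ∈ Subgroup.normalizer (U : Set X) := by
        rw [mem_normalizer_iff_map, ← hUdef, map_conj_eq_smul]
        have h1 : MulAut.conj x • V = V := by
          rw [← map_conj_eq_smul]
          exact (mem_normalizer_iff_map V x).mp (hMV hxM)
        have h2 : MulAut.conj x • Subgroup.centralizer (B : Set X)
            = Subgroup.centralizer (B : Set X) := by
          rw [← map_conj_eq_smul]
          exact (mem_normalizer_iff_map _ x).mp (Subgroup.le_normalizer hxB)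
        rw [← map_conj_eq_smul, Subgroup.map_inf_eq _ _ _ (MulAut.conj x).injective,
          map_conj_eq_smul, map_conj_eq_smul, h1, h2]
      have hUmap : U.map (MulAut.conj x).toMonoidHom = U := (mem_normalizer_iff_map U x).mp hxU
      -- the conjugate
      have hidx' : ((U ⊓ Subgroup.centralizer ({a} : Set X)).map
          (MulAut.conj x).toMonoidHom).relIndex U ≤ 2 := by
        have h1 := Subgroup.relIndex_map_map_of_injective
          (U ⊓ Subgroup.centralizer ({a} : Set X)) U
          (f := (MulAut.conj x).toMonoidHom) (MulAut.conj x).injective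
        rw [hUmap] at h1
        rw [h1]
        exact hle2
      have hidx4 : (U ⊓ Subgroup.centralizer ({x} : Set X)).relIndex U ≤ 4 := by
        have h1 : (U ⊓ Subgroup.centralizer ({a} : Set X)) ⊓
            (U ⊓ Subgroup.centralizer ({a} : Set X)).map (MulAut.conj x).toMonoidHom
            ≤ U ⊓ Subgroup.centralizer ({x} : Set X) := by
          intro u hu
          obtain ⟨hu1, hu2⟩ := Subgroup.mem_inf.mp hu
          obtain ⟨huU, hua⟩ := Subgroup.mem_inf.mp hu1
          rw [mem_map_conj] at hu2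
          obtain ⟨-, hua'⟩ := Subgroup.mem_inf.mp hu2
          rw [Subgroup.mem_centralizer_iff] at hua hua'
          have e1 : a * u = u * a := hua a rfl
          have e2 : a * (x⁻¹ * u * x) = x⁻¹ * u * x * a := hua' a rfl
          refine Subgroup.mem_inf.mpr ⟨huU, ?_⟩
          have hc1 : Commute a u := e1
          have hc3 : Commute (x * a * x⁻¹) u := by
            show (x * a * x⁻¹) * u = u * (x * a * x⁻¹)
            calc (x * a * x⁻¹) * u = x * (a * (x⁻¹ * u * x)) * x⁻¹ := by group
              _ = x * (x⁻¹ * u * x * a) * x⁻¹ := by rw [e2]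
              _ = u * (x * a * x⁻¹) := by group
          have hxx : x * x = (x * a * x⁻¹) * a⁻¹ := by
            have h3 : (x * a * x⁻¹) * a⁻¹ = x * (a * x * a⁻¹)⁻¹ := by group
            rw [h3, hxinv, inv_inv]
          have hc4 : Commute (x * x) u := by
            rw [hxx]
            exact Commute.mul_left hc3 hc1.inv_left
          obtain ⟨m, hm⟩ : ∃ m, q = 2 * m + 1 := by
            rcases hq.eq_two_or_odd with h | h
            · exact absurd h hq2
            · exact ⟨q / 2, by omega⟩
          have hxpow : (x * x) ^ (m + 1) = x := by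
            rw [← pow_two, ← pow_mul]
            have e : 2 * (m + 1) = q + 1 := by omega
            rw [e, pow_succ, ← hxord, pow_orderOf_eq_one, one_mul]
          have hc5 : Commute x u := by
            rw [← hxpow]
            exact hc4.pow_left (m + 1)
          rw [Subgroup.mem_centralizer_iff]
          intro c hc
          rw [Set.mem_singleton_iff.mp hc]
          exact hc5.eq
        have hWU : (U ⊓ Subgroup.centralizer ({a} : Set X)) ⊓
            (U ⊓ Subgroup.centralizer ({a} : Set X)).map (MulAut.conj x).toMonoidHom ≤ U :=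
          inf_le_left.trans inf_le_left
        have hne0 : ((U ⊓ Subgroup.centralizer ({a} : Set X)) ⊓
            (U ⊓ Subgroup.centralizer ({a} : Set X)).map (MulAut.conj x).toMonoidHom).relIndex U
            ≠ 0 := by
          intro h0
          have h2 := card_mul_relIndex hWU
          rw [h0, mul_zero] at h2
          exact (Nat.card_pos (α := U)).ne h2
        have h3 := Subgroup.relIndex_le_of_le_left h1 hne0
        have h4 := Subgroup.relIndex_inf_le (H := U ⊓ Subgroup.centralizer ({a} : Set X))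
          (K := (U ⊓ Subgroup.centralizer ({a} : Set X)).map (MulAut.conj x).toMonoidHom) (L := U)
        have h5 : (U ⊓ Subgroup.centralizer ({a} : Set X)).relIndex U *
            ((U ⊓ Subgroup.centralizer ({a} : Set X)).map (MulAut.conj x).toMonoidHom).relIndex U
            ≤ 2 * 2 := Nat.mul_le_mul hle2 hidx'
        omega
      rcases fix_dichotomy hq2 x hxord U hU2 hxU hidx4 with hcent | hq3
      · exfalso
        have hAxB := Cfsg.Agent.Lib.Helper11.thompson_AxB 2 (Subgroup.zpowers x) B ?_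
          (Cfsg.Agent.Lib.Helper11.elemAb_isPGroup hA hBA) ?_ (Nat.card V) V hVp
          ((Subgroup.zpowers_le).mpr (hMV hxM)) ((hBA.trans hAM).trans hMV) ?_ le_rfl
        · have hxV : x ∈ M ⊓ Subgroup.centralizer (V : Set X) := by
            refine Subgroup.mem_inf.mpr ⟨hxM, ?_⟩
            rw [Subgroup.mem_centralizer_iff]
            intro v hv
            exact ((Subgroup.mem_centralizer_iff.mp (hAxB hv)) x (Subgroup.mem_zpowers x)).symm
          rw [hfaith, Subgroup.mem_bot] at hxV
          exact hx1 hxV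
        · rw [Nat.card_zpowers, hxord]
          intro h
          exact hq2 ((Nat.prime_dvd_prime_iff_eq Nat.prime_two hq).mp h).symm
        · rw [Subgroup.commutator_eq_bot_iff_le_centralizer]
          exact (Subgroup.zpowers_le).mpr hxB
        · rw [hUdef, centralizer_zpowers_eq]
          exact hcent
      · refine ⟨a, haM, x, hxM, haa, hx1, ?_, hxinv⟩
        rw [← hq3, ← hxord]
        exact pow_orderOf_eq_one x

end main

/-- Let M and V be subgroups of a finite group with V an elementary abelian 2-group, M normalizing V and acting faithfully on it (M ∩ C(V) = 1), and C_M(O_{2'}(M)) ≤ O_{2'}(M). If some elementary abelian 2-subgroup A of M satisfies |V : C_V(A)| < |A|², then M has a section isomorphic to the symmetric group of degree 3. -/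
theorem result {X : Type*} [Group X] [Finite X] (M V : Subgroup X) (hV : Cfsg.IsElementaryAbelian 2 V) (hMV : M ≤ Subgroup.normalizer (V : Set X)) (hfaith : M ⊓ Subgroup.centralizer (V : Set X) = ⊥) (hcon : Subgroup.centralizer (Cfsg.pPrimeCore 2 ↥M : Set ↥M) ≤ Cfsg.pPrimeCore 2 ↥M) (A : Subgroup X) (hAM : A ≤ M) (hA : Cfsg.IsElementaryAbelian 2 A) (hsmall : (V ⊓ Subgroup.centralizer (A : Set X)).relIndex V < Nat.card A ^ 2) : Cfsg.Involves (Equiv.Perm (Fin 3)) ↥M := by
  classical
  haveI : Fact (Nat.Prime 2) := ⟨Nat.prime_two⟩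
  have hK₀n : (Cfsg.pPrimeCore 2 ↥M).Normal := Cfsg.Agent.Lib.Helper1.pPrimeCore_normal 2
  have hK₀c : (Nat.card (Cfsg.pPrimeCore 2 ↥M)).Coprime 2 :=
    Cfsg.Agent.Lib.Helper1.pPrimeCore_coprime 2
  have hKM : (Cfsg.pPrimeCore 2 ↥M).map M.subtype ≤ M := Subgroup.map_subtype_le _
  have hMK : M ≤ Subgroup.normalizer (((Cfsg.pPrimeCore 2 ↥M).map M.subtype : Subgroup X) : Set X) := by
    intro m hm
    rw [Subgroup.mem_normalizer_iff]
    intro k
    constructor
    · rintro ⟨k', hk', rfl⟩
      exact ⟨⟨m, hm⟩ * k' * ⟨m, hm⟩⁻¹, hK₀n.conj_mem k' hk' ⟨m, hm⟩, by simp⟩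
    · rintro ⟨k', hk', hk'e⟩
      refine ⟨⟨m, hm⟩⁻¹ * k' * ⟨m, hm⟩, hK₀n.conj_mem' k' hk' ⟨m, hm⟩, ?_⟩
      simp only [Subgroup.coe_subtype, Subgroup.coe_mul, Subgroup.coe_inv] at hk'e ⊢
      rw [hk'e]
      group
  have hKodd : (Nat.card ((Cfsg.pPrimeCore 2 ↥M).map M.subtype : Subgroup X)).Coprime 2 := by
    rw [Subgroup.card_map_of_injective M.subtype_injective]
    exact hK₀c
  have hcK : M ⊓ Subgroup.centralizer (((Cfsg.pPrimeCore 2 ↥M).map M.subtype : Subgroup X) : Set X)
      ≤ (Cfsg.pPrimeCore 2 ↥M).map M.subtype := by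
    intro m hm
    obtain ⟨hmM, hmC⟩ := Subgroup.mem_inf.mp hm
    have h1 : (⟨m, hmM⟩ : M) ∈ Subgroup.centralizer ((Cfsg.pPrimeCore 2 ↥M : Subgroup M) : Set M) := by
      rw [Subgroup.mem_centralizer_iff]
      intro k hk
      apply Subtype.ext
      exact (Subgroup.mem_centralizer_iff.mp hmC) (k : X) ⟨k, hk, rfl⟩
    exact ⟨⟨m, hmM⟩, hcon h1, rfl⟩
  obtain ⟨a, haM, x, hxM, haa, hx1, hx3, hxinv⟩ := main_aux M V hV hMV hfaith _ hKM hMK hKodd hcK
    (Nat.card A) A hAM hA le_rfl hsmall
  have hainv : a⁻¹ = a := inv_eq_of_mul_eq_one_right haa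
  have hax : a * x = x⁻¹ * a := by
    have h3 : a * x = (a * x * a⁻¹) * a := by group
    rw [h3, hxinv]
  have hd : (⟨a, haM⟩ : M) * ⟨a, haM⟩ = 1 := Subtype.ext haa
  have he : (⟨a * x, M.mul_mem haM hxM⟩ : M) * ⟨a * x, M.mul_mem haM hxM⟩ = 1 := by
    apply Subtype.ext
    show a * x * (a * x) = 1
    calc a * x * (a * x) = (a * x) * a * x := by group
      _ = (x⁻¹ * a) * a * x := by rw [hax]
      _ = x⁻¹ * (a * a) * x := by group
      _ = 1 := by rw [haa]; group
  have hde : (⟨a, haM⟩ : M) * ⟨a * x, M.mul_mem haM hxM⟩ = ⟨x, hxM⟩ := by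
    apply Subtype.ext
    show a * (a * x) = x
    rw [← mul_assoc, haa, one_mul]
  have h3 : ((⟨a, haM⟩ : M) * ⟨a * x, M.mul_mem haM hxM⟩) ^ 3 = 1 := by
    rw [hde]
    apply Subtype.ext
    simpa using hx3
  have hne : ¬ Commute (⟨a, haM⟩ : M) ⟨a * x, M.mul_mem haM hxM⟩ := by
    intro hc
    have h4 := congrArg Subtype.val hc.eq
    have h5 : a * (a * x) = a * x * a := h4
    rw [← mul_assoc, haa, one_mul, hax, mul_assoc, haa, mul_one] at h5
    apply hx1
    have h6 : x * x = 1 := by
      nth_rewrite 1 [h5]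
      group
    calc x = x ^ 3 * (x * x)⁻¹ := by group
      _ = 1 := by rw [hx3, h6]; group
  have iso := (Cfsg.Agent.S0444.closureEquiv hd he h3 hne).symm.trans
    Cfsg.Agent.S0444.dihedralEquivPerm
  refine ⟨Subgroup.closure ({(⟨a, haM⟩ : M), ⟨a * x, M.mul_mem haM hxM⟩} : Set M), ⊥,
    inferInstance, ?_⟩
  have e1 : (⊥ : Subgroup M).subgroupOf
      (Subgroup.closure ({(⟨a, haM⟩ : M), ⟨a * x, M.mul_mem haM hxM⟩} : Set M)) = ⊥ :=
    Subgroup.bot_subgroupOf _
  exact ⟨(QuotientGroup.quotientMulEquivOfEq e1).trans (QuotientGroup.quotientBot.trans iso)⟩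

end Cfsg.Agent.S3755
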