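import Cfsg.Statements.S3770
import Cfsg.Agent.Lib.Helper12.WComm
import Cfsg.Agent.S1545
import Cfsg.Agent.S0042
import Cfsg.Agent.Lib.Lead.FrobeniusMore

set_option autoImplicit false
set_option linter.style.haveILetI false
open Cfsg

namespace Cfsg.Agent.S3770

/-- Let G and V be subgroups of a finite group with G a Frobenius group with complement R of prime order and kernel K, G normalizing V, and V an elementary abelian ℓ-group for a prime ℓ not dividing the order of G. If C_V(R) has order ℓ, then the derived subgroup of K centralizes V. -/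
theorem result {X : Type*} [Group X] [Finite X] (G : Subgroup X) (V : Subgroup X) {ℓ : ℕ} (hℓ : ℓ.Prime) (hV : Cfsg.IsElementaryAbelian ℓ V) (hℓG : ¬ ℓ ∣ Nat.card G) (hGV : G ≤ Subgroup.normalizer (V : Set X)) (R : Subgroup ↥G) (hR : Cfsg.IsFrobeniusComplement R) (hRp : (Nat.card R).Prime) (hCV : Nat.card ↥(V ⊓ Subgroup.centralizer ((R.map G.subtype : Subgroup X) : Set X)) = ℓ) : ⁅Subgroup.closure (Subtype.val '' Cfsg.frobeniusKernel R), Subgroup.closure (Subtype.val '' Cfsg.frobeniusKernel R)⁆ ≤ Subgroup.centralizer (V : Set X) := by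
  classical
  haveI : Fact ℓ.Prime := ⟨hℓ⟩
  set K := Cfsg.Agent.Lib.Lead.frobKer R hR with hK
  haveI hKn : K.Normal := Cfsg.Agent.Lib.Lead.frobKer_normal R hR
  have hKR : K ⊓ R = ⊥ := Cfsg.Agent.Lib.Lead.frobKer_inf R hR
  have hfpf : ∀ r ∈ R, r ≠ 1 → ∀ k ∈ K, r * k = k * r → k = 1 :=
    fun r hr hr1 k hk hc => Cfsg.Agent.Lib.Lead.frob_commute_eq_one R hR hr hr1 hk hc
  have hKset : (K : Set ↥G) = Cfsg.frobeniusKernel R := Cfsg.Agent.Lib.Lead.coe_frobKer R hR
  have hnil : Group.IsNilpotent K := by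
    obtain ⟨N, hN, _, hNnil⟩ := Cfsg.Agent.S0042.result R hR
    have h1 : N = K := SetLike.coe_injective (by rw [hN, hKset])
    rw [← h1]
    exact hNnil
  set ψ : ↥G →* MulAut ↥V := Cfsg.Agent.S1545.cj G V hGV with hψ
  have hψapp : ∀ (g : ↥G) (v : ↥V), ((ψ g v : ↥V) : X) = (g : X) * (v : X) * (g : X)⁻¹ :=
    fun g v => rfl
  have hcommV : ∀ x y : ↥V, x * y = y * x := fun x y => hV.1.is_comm.comm x y
  have hexp : ∀ v : ↥V, v ^ ℓ = 1 := fun v => Subtype.ext (by
    rw [Subgroup.coe_pow, hV.2 v v.2, Subgroup.coe_one])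
  have hmem : ∀ v : ↥V, (∀ r ∈ R, ψ r v = v) →
      (v : X) ∈ V ⊓ Subgroup.centralizer ((R.map G.subtype : Subgroup X) : Set X) := by
    intro v hv
    refine ⟨v.2, Subgroup.mem_centralizer_iff.mpr ?_⟩
    rintro _ ⟨r, hr, rfl⟩
    have h1 := congrArg Subtype.val (hv r hr)
    rw [hψapp] at h1
    change (r : X) * (v : X) = (v : X) * (r : X)
    calc (r : X) * (v : X) = ((r : X) * (v : X) * (r : X)⁻¹) * (r : X) := by group
      _ = (v : X) * (r : X) := by rw [h1]
  have hfix : Nat.card {v : ↥V | ∀ r ∈ R, ψ r v = v} ≤ ℓ := by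
    rw [← hCV]
    apply le_of_eq
    apply Nat.card_congr
    exact
      { toFun := fun v => ⟨(v.1 : X), hmem v.1 v.2⟩
        invFun := fun x => ⟨⟨x.1, x.2.1⟩, fun r hr => by
          apply Subtype.ext
          rw [hψapp]
          have h1 := (Subgroup.mem_centralizer_iff.mp x.2.2) (r : X)
            (Subgroup.mem_map_of_mem G.subtype hr)
          change (r : X) * (x : X) * (r : X)⁻¹ = (x : X)
          have h2 : (r : X) * (x : X) = (x : X) * (r : X) := h1
          rw [h2, mul_inv_cancel_right]⟩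
        left_inv := fun _ => rfl
        right_inv := fun _ => rfl }
  have key := @Cfsg.Agent.Lib.Helper12.WComm.comm_trivial ↥G ↥V _ _
    ({ (inferInstance : Group ↥V) with mul_comm := hcommV }) _ ℓ _ hexp hℓG ψ K R hKn hKR hfpf
    hnil hfix
  have hcl : Subgroup.closure (Subtype.val '' Cfsg.frobeniusKernel R) = K.map G.subtype := by
    rw [← hKset]
    have h1 : (Subtype.val '' (K : Set ↥G) : Set X) = ((K.map G.subtype : Subgroup X) : Set X) := by
      rw [Subgroup.coe_map]
      rfl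
    rw [h1, Subgroup.closure_eq]
  rw [hcl, Subgroup.commutator_le]
  rintro _ ⟨k, hk, rfl⟩ _ ⟨k', hk', rfl⟩
  rw [commutatorElement_def, Subgroup.mem_centralizer_iff]
  intro w hw
  have h1 := key k hk k' hk' (ψ (k' * k)⁻¹ ⟨w, hw⟩)
  rw [← MulAut.mul_apply, ← map_mul, ← MulAut.mul_apply, ← map_mul, mul_inv_cancel, map_one,
    MulAut.one_apply] at h1
  have h2 := congrArg Subtype.val h1
  rw [hψapp] at h2
  have h3 : ((k * k' * (k' * k)⁻¹ : ↥G) : X)
      = G.subtype k * G.subtype k' * (G.subtype k)⁻¹ * (G.subtype k')⁻¹ := by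
    simp only [Subgroup.coe_mul, Subgroup.coe_inv, Subgroup.coe_subtype, mul_inv_rev]
    group
  rw [h3] at h2
  set c : X := G.subtype k * G.subtype k' * (G.subtype k)⁻¹ * (G.subtype k')⁻¹ with hc
  change c * w * c⁻¹ = w at h2
  calc w * c = (c * w * c⁻¹) * c := by rw [h2]
    _ = c * w := by group

end Cfsg.Agent.S3770
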