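import Cfsg.Statements.S3794
import Mathlib
import Cfsg.Agent.Lib.Helper11.Fpf4Main

set_option autoImplicit false
open Cfsg

namespace Cfsg.Agent.S3794

/-- Let G be a finite solvable group with an automorphism σ satisfying σ⁴ = 1 and fixing only the identity. Then the derived subgroup G' is nilpotent. -/
theorem result {G : Type*} [Group G] [Finite G] (hG : Group.IsSolvable G) (σ : MulAut G) (hσ : σ ^ 4 = 1) (hfpf : ∀ g : G, σ g = g → g = 1) : Group.IsNilpotent (commutator G) := by
  obtain ⟨φ, hφ⟩ : ∃ φ : ↥(Subgroup.zpowers σ) →* MulAut G,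
      φ = (Subgroup.zpowers σ).subtype := ⟨_, rfl⟩
  haveI : Finite (G ⋊[φ] ↥(Subgroup.zpowers σ)) :=
    Finite.of_equiv (G × ↥(Subgroup.zpowers σ)) SemidirectProduct.equivProd.symm
  obtain ⟨ι, hι⟩ : ∃ ι : G →* G ⋊[φ] ↥(Subgroup.zpowers σ), ι = SemidirectProduct.inl :=
    ⟨_, rfl⟩
  have hιinj : Function.Injective ι := by rw [hι]; exact SemidirectProduct.inl_injective
  obtain ⟨s₀, hs₀⟩ : ∃ s₀ : ↥(Subgroup.zpowers σ), s₀ = ⟨σ, Subgroup.mem_zpowers σ⟩ :=
    ⟨_, rfl⟩
  obtain ⟨s, hs⟩ : ∃ s : G ⋊[φ] ↥(Subgroup.zpowers σ), s = SemidirectProduct.inr s₀ :=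
    ⟨_, rfl⟩
  haveI hnorm : ι.range.Normal := by
    rw [hι, SemidirectProduct.range_inl_eq_ker_rightHom]; infer_instance
  have hsol : Group.IsSolvable ↥ι.range := by
    haveI := hG
    exact solvable_of_surjective (MonoidHom.rangeRestrict_surjective ι)
  have hs4 : s ^ 4 = 1 := by
    have h1 : s₀ ^ 4 = 1 := by
      rw [hs₀]; exact Subtype.ext hσ
    rw [hs, ← map_pow, h1, map_one]
  have hsup : ι.range ⊔ Subgroup.zpowers s = ⊤ := by
    rw [eq_top_iff]
    intro x _
    have h1 : ι x.left * SemidirectProduct.inr x.right = x := by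
      rw [hι]; exact SemidirectProduct.inl_left_mul_inr_right x
    have h2 : SemidirectProduct.inr x.right ∈ Subgroup.zpowers s := by
      obtain ⟨k, hk⟩ := Subgroup.mem_zpowers_iff.mp x.right.2
      have h3 : x.right = s₀ ^ k := by
        apply Subtype.ext
        rw [Subgroup.coe_zpow, hs₀]
        exact hk.symm
      rw [h3, map_zpow, ← hs]
      exact Subgroup.zpow_mem_zpowers s k
    rw [← h1]
    exact Subgroup.mul_mem _ (Subgroup.mem_sup_left (MonoidHom.mem_range.mpr ⟨_, rfl⟩))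
      (Subgroup.mem_sup_right h2)
  have hfpf' : ∀ g ∈ ι.range, s * g * s⁻¹ = g → g = 1 := by
    intro g' hg' hfix
    obtain ⟨g, rfl⟩ := MonoidHom.mem_range.mp hg'
    have h1 : ι (σ g) = s * ι g * s⁻¹ := by
      have h2 := SemidirectProduct.inl_aut (φ := φ) s₀ g
      have h3 : φ s₀ g = σ g := by rw [hφ, hs₀]; rfl
      rw [hι, hs, ← map_inv, ← h2, h3]
    rw [hfix] at h1
    have h2 : σ g = g := hιinj h1
    rw [hfpf g h2, map_one]
  have hmain := Cfsg.Agent.Lib.Helper11.fpf4_main (Nat.card ↥ι.range)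
    (G ⋊[φ] ↥(Subgroup.zpowers σ)) ι.range s le_rfl hsol hs4 hsup hfpf'
  have e : ⁅ι.range, ι.range⁆ = Subgroup.map ι (commutator G) := by
    rw [commutator_def, Subgroup.map_commutator, ← MonoidHom.range_eq_map]
  haveI hnil : Group.IsNilpotent ↥(Subgroup.map ι (commutator G)) := by
    rw [← e]; exact hmain
  have hker : (ι.subgroupMap (commutator G)).ker ≤ Subgroup.center ↥(commutator G) := by
    intro x hx
    rw [MonoidHom.mem_ker] at hx
    have h1 : ι (x : G) = ι 1 := by
      rw [map_one]; exact congrArg Subtype.val hx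
    have h2 : x = 1 := Subtype.ext (hιinj h1)
    rw [h2]; exact Subgroup.one_mem _
  exact isNilpotent_of_ker_le_center (ι.subgroupMap (commutator G)) hker

end Cfsg.Agent.S3794
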