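import Cfsg.Statements.S3803
import Mathlib
import Cfsg.Agent.Lib.Helper21.CoprimeP
import Cfsg.Agent.Lib.Helper21.PGroupMore

set_option autoImplicit false
open Cfsg

namespace Cfsg.Agent.S3803

open Cfsg.Agent.Lib.Helper21

/-- Let P be a 2-subgroup and A a subgroup of odd order of a finite group, with A normalizing P. Let D ≤ P with 1 < |D| < |P|. If every subgroup of P of order |D|, and also every subgroup of P of order 4 in case |D| = 2, is normalized by A, then A centralizes P. -/
theorem result {X : Type*} [Group X] [Finite X] (P A D : Subgroup X) (hP : IsPGroup 2 P) (hA : Odd (Nat.card A))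
    (hAP : A ≤ Subgroup.normalizer (P : Set X)) (hDP : D ≤ P) (hD1 : 1 < Nat.card D) (hD2 : Nat.card D < Nat.card P)
    (hinv : ∀ E : Subgroup X, E ≤ P → (Nat.card E = Nat.card D ∨ (Nat.card D = 2 ∧ Nat.card E = 4)) → A ≤ Subgroup.normalizer (E : Set X)) :
    A ≤ Subgroup.centralizer (P : Set X) := by
  classical
  haveI : Fact (Nat.Prime 2) := ⟨Nat.prime_two⟩
  obtain ⟨n, hn⟩ := IsPGroup.iff_card.mp hP
  obtain ⟨k, hk⟩ := IsPGroup.iff_card.mp (hP.to_le hDP)
  have hk1 : 1 ≤ k := by
    rcases k with _ | k
    · rw [pow_zero] at hk; omega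
    · omega
  have hkn : k < n := by
    rw [hk, hn] at hD2
    exact (Nat.pow_lt_pow_iff_right (by norm_num)).mp hD2
  intro a ha
  have haodd : Odd (orderOf a) := by
    have h1 : orderOf a ∣ Nat.card A := by
      have := orderOf_dvd_natCard (⟨a, ha⟩ : A)
      rwa [Subgroup.orderOf_mk] at this
    exact Odd.of_dvd_nat hA h1
  have hacop : (orderOf a).Coprime 2 := Nat.coprime_two_right.mpr haodd
  have key : ∀ x ∈ P, x ^ 4 = 1 → a * x * a⁻¹ = x := by
    intro x hx hx4
    have hord : Nat.card (Subgroup.zpowers x) = orderOf x := Nat.card_zpowers x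
    have hzx : Subgroup.zpowers x ≤ P := Subgroup.zpowers_le.mpr hx
    obtain ⟨j, hj2, hj⟩ : ∃ j ≤ 2, orderOf x = 2 ^ j :=
      (Nat.dvd_prime_pow Nat.prime_two).mp (by
        have := orderOf_dvd_of_pow_eq_one hx4
        norm_num at this ⊢
        exact this)
    by_cases hk2 : k = 1
    · subst hk2
      have hD2' : Nat.card D = 2 := by rw [hk]; norm_num
      have hj3 : j = 0 ∨ j = 1 ∨ j = 2 := by omega
      rcases hj3 with rfl | rfl | rfl
      · have hx1 : x = 1 := by
          rw [← orderOf_eq_one_iff, hj]; norm_num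
        rw [hx1]; group
      · have hN := hinv (Subgroup.zpowers x) hzx (Or.inl (by rw [hord, hj, hD2']; norm_num)) ha
        exact conj_eq_of_mem_zpowers_of_odd haodd hx4
          (conj_mem_of_mem_normalizer hN (Subgroup.mem_zpowers x))
      · have hN := hinv (Subgroup.zpowers x) hzx (Or.inr ⟨hD2', by rw [hord, hj]; norm_num⟩) ha
        exact conj_eq_of_mem_zpowers_of_odd haodd hx4
          (conj_mem_of_mem_normalizer hN (Subgroup.mem_zpowers x))
    · obtain ⟨E, hxE, hEP, hEcard⟩ := exists_between_card hP hzx (hord.trans hj)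
        (show j ≤ k by omega)
        (by rw [hn]; exact Nat.pow_le_pow_right (by norm_num) hkn.le)
      have hinvk : ∀ M : Subgroup X, M ≤ P → Nat.card M = 2 ^ k →
          a ∈ Subgroup.normalizer (M : Set X) := fun M hM hMc =>
        hinv M hM (Or.inl (hMc.trans hk.symm)) ha
      have haE := hinvk E hEP hEcard
      have hxE' : x ∈ E := hxE (Subgroup.mem_zpowers x)
      by_cases hEc : IsCyclic E
      · exact conj_eq_of_mem_zpowers_of_odd haodd hx4 (conj_mem_zpowers_of_isCyclic hEc haE hxE')
      · obtain ⟨F, hEF, hFP, hFcard⟩ := exists_between_card hP hEP hEcard (Nat.le_succ k)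
          (by rw [hn]; exact Nat.pow_le_pow_right (by norm_num) hkn)
        have hFp : IsPGroup 2 F := hP.to_le hFP
        have hFnc : ¬ IsCyclic F := by
          intro hFc
          apply hEc
          haveI := hFc
          exact isCyclic_of_surjective (Subgroup.subgroupOfEquivOfLe hEF).toMonoidHom
            (Subgroup.subgroupOfEquivOfLe hEF).surjective
        obtain ⟨M, hMF, hMcard, hEM⟩ := exists_second_maximal hFp hEF hEcard hFcard hFnc
        have haM := hinvk M (hMF.trans hFP) hMcard
        have haF : a ∈ Subgroup.normalizer (F : Set X) := by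
          rw [← hEM]
          exact Subgroup.normalizer_inf_normalizer_le_normalizer_sup E M ⟨haE, haM⟩
        have hall := centralizes_of_normalizes_index_two hFp haodd haF (by
          intro M' hM'F hM'c
          apply hinvk M' (hM'F.trans hFP)
          rw [hFcard, pow_succ] at hM'c
          exact Nat.eq_of_mul_eq_mul_right (by norm_num) hM'c)
        exact hall x (hEF hxE')
  have hall := centralizes_of_centralizes_omega (p := 2) 4 (by norm_num) (by norm_num) a hacop
    (Nat.card P) P le_rfl hP (hAP ha) key
  rw [Subgroup.mem_centralizer_iff]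
  intro x hx
  have h1 := hall x hx
  calc x * a = (a * x * a⁻¹) * a := by rw [h1]
    _ = a * x := by group

end Cfsg.Agent.S3803
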