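import Cfsg.Statements.S3815

set_option autoImplicit false
open Cfsg

namespace Cfsg.Agent.S3815

/-- Let G be a finite group, p a prime and d ∈ G an element of order prime to p. If dg has order prime to p for every element g ∈ G of order prime to p, then d ∈ O_{p'}(G). -/
theorem result {G : Type*} [Group G] [Finite G] {p : ℕ} [Fact p.Prime]
    (d : G) (hd : (orderOf d).Coprime p)
    (h : ∀ g : G, (orderOf g).Coprime p → (orderOf (d * g)).Coprime p) :
    d ∈ Cfsg.pPrimeCore p G := by
  classical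
  have hconjord : ∀ c x : G, orderOf (c * x * c⁻¹) = orderOf x := fun c x =>
    orderOf_injective (MulAut.conj c).toMonoidHom (MulAut.conj c).injective x
  let D : Set G := {d | (orderOf d).Coprime p ∧ ∀ g : G, (orderOf g).Coprime p → (orderOf (d * g)).Coprime p}
  have h1 : (1 : G) ∈ D := ⟨by simp, fun g hg => by simpa using hg⟩
  have hmul : ∀ a b, a ∈ D → b ∈ D → a * b ∈ D := fun a b ha hb =>
    ⟨ha.2 b hb.1, fun g hg => by rw [mul_assoc]; exact ha.2 _ (hb.2 g hg)⟩
  have hpow : ∀ (a : G) (n : ℕ), a ∈ D → a ^ n ∈ D := by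
    intro a n ha
    induction n with
    | zero => simpa using h1
    | succ k ih => rw [pow_succ]; exact hmul _ _ ih ha
  have hinv : ∀ a, a ∈ D → a⁻¹ ∈ D := by
    intro a ha
    have : a⁻¹ = a ^ (orderOf a - 1) := by
      apply inv_eq_of_mul_eq_one_right
      rw [← pow_succ', Nat.sub_add_cancel (orderOf_pos a), pow_orderOf_eq_one]
    rw [this]; exact hpow a _ ha
  have hconj : ∀ a c, a ∈ D → c * a * c⁻¹ ∈ D := by
    intro a c ha
    refine ⟨by rw [hconjord]; exact ha.1, fun g hg => ?_⟩
    have e : c * a * c⁻¹ * g = c * (a * (c⁻¹ * g * c⁻¹⁻¹)) * c⁻¹ := by group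
    rw [e, hconjord]
    apply ha.2
    rw [hconjord]; exact hg
  let N : Subgroup G :=
    { carrier := D
      mul_mem' := fun {a b} ha hb => hmul a b ha hb
      one_mem' := h1
      inv_mem' := fun {a} ha => hinv a ha }
  have hN : N.Normal := ⟨fun a ha c => hconj a c ha⟩
  have hcop : (Nat.card N).Coprime p := by
    rw [Nat.coprime_comm, Nat.Prime.coprime_iff_not_dvd (Fact.out : p.Prime)]
    intro hdvd
    obtain ⟨x, hx⟩ := exists_prime_orderOf_dvd_card' p hdvd
    have hxD : (x : G) ∈ D := x.2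
    have := hxD.1
    rw [Subgroup.orderOf_coe, hx] at this
    exact (Fact.out : p.Prime).one_lt.ne' (Nat.coprime_self p |>.mp this)
  have hdN : d ∈ N := ⟨hd, h⟩
  exact (le_sSup (show N ∈ {N : Subgroup G | N.Normal ∧ (Nat.card N).Coprime p} from ⟨hN, hcop⟩)) hdN

end Cfsg.Agent.S3815
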