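import Cfsg.Statements.S3821
import Cfsg.Agent.Lib.Helper21.Basic

set_option autoImplicit false
open Cfsg

namespace Cfsg.Agent.S3821

open Cfsg.Agent.Lib.Helper21

theorem map_conj_subgroupOf {G : Type*} [Group G] (A K : Subgroup G) (a : A) :
    (K.subgroupOf A).map (MulAut.conj a).toMonoidHom =
      (K.map (MulAut.conj (a : G)).toMonoidHom).subgroupOf A := by
  ext y
  rw [mem_map_conj, Subgroup.mem_subgroupOf, Subgroup.mem_subgroupOf, mem_map_conj]
  simp

theorem map_conj_le_of_mem {G : Type*} [Group G] {K A : Subgroup G} (hKA : K ≤ A) {a : G}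
    (ha : a ∈ A) : K.map (MulAut.conj a).toMonoidHom ≤ A := by
  rintro _ ⟨k, hk, rfl⟩
  show a * k * a⁻¹ ∈ A
  exact A.mul_mem (A.mul_mem ha (hKA hk)) (A.inv_mem ha)

theorem map_conj_le_of_normal {G : Type*} [Group G] {K A : Subgroup G} (hKA : K ≤ A)
    (hA : A.Normal) (g : G) : K.map (MulAut.conj g).toMonoidHom ≤ A := by
  rintro _ ⟨k, hk, rfl⟩
  show g * k * g⁻¹ ∈ A
  exact hA.conj_mem k (hKA hk) g

/-- Let A be a normal subgroup of the finite group G and H a subgroup of A. Then H is pronormal in G (H and gHg⁻¹ conjugate inside ⟨H, gHg⁻¹⟩ for every g ∈ G) if and only if H is pronormal in A and G = A · N_G(H). -/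
theorem result {G : Type*} [Group G] [Finite G] (A H : Subgroup G) [A.Normal] (hHA : H ≤ A) :
    Cfsg.IsPronormal H ↔ (Cfsg.IsPronormal (H.subgroupOf A) ∧ A ⊔ Subgroup.normalizer (H : Set G) = ⊤) := by
  have hAn : A.Normal := inferInstance
  constructor
  · intro hH
    constructor
    · intro a
      obtain ⟨x, hx, hEq⟩ := hH (a : G)
      have hHa : H.map (MulAut.conj (a : G)).toMonoidHom ≤ A := map_conj_le_of_mem hHA a.2
      have hxA : x ∈ A := (sup_le hHA hHa) hx
      refine ⟨⟨x, hxA⟩, ?_, ?_⟩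
      · rw [map_conj_subgroupOf, ← Subgroup.subgroupOf_sup hHA hHa, Subgroup.mem_subgroupOf]
        exact hx
      · rw [map_conj_subgroupOf, map_conj_subgroupOf, hEq]
    · rw [eq_top_iff]
      intro g _
      obtain ⟨x, hx, hEq⟩ := hH g
      have hHg : H.map (MulAut.conj g).toMonoidHom ≤ A := map_conj_le_of_normal hHA hAn g
      have hxA : x ∈ A := (sup_le hHA hHg) hx
      have hn : x⁻¹ * g ∈ Subgroup.normalizer (H : Set G) := by
        rw [mem_normalizer_iff_map, map_conj_mul, hEq, map_conj_map_conj_inv]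
      have hg : g = x * (x⁻¹ * g) := by group
      rw [hg]
      exact Subgroup.mul_mem _ (Subgroup.mem_sup_left hxA) (Subgroup.mem_sup_right hn)
  · rintro ⟨hpro, htop⟩ g
    have hg : g ∈ A ⊔ Subgroup.normalizer (H : Set G) := by rw [htop]; trivial
    obtain ⟨a, ha, n, hn, rfl⟩ := Subgroup.mem_sup_of_normal_left.mp hg
    have hEq1 : H.map (MulAut.conj (a * n)).toMonoidHom = H.map (MulAut.conj a).toMonoidHom := by
      rw [map_conj_mul, (mem_normalizer_iff_map H n).mp hn]
    rw [hEq1]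
    obtain ⟨x', hx', hEq'⟩ := hpro ⟨a, ha⟩
    have hHa : H.map (MulAut.conj a).toMonoidHom ≤ A := map_conj_le_of_mem hHA ha
    rw [map_conj_subgroupOf, ← Subgroup.subgroupOf_sup hHA hHa, Subgroup.mem_subgroupOf] at hx'
    refine ⟨x', hx', ?_⟩
    rw [map_conj_subgroupOf, map_conj_subgroupOf] at hEq'
    have hHx : H.map (MulAut.conj (x' : G)).toMonoidHom ≤ A := map_conj_le_of_mem hHA x'.2
    have h1 := Subgroup.subgroupOf_inj.mp hEq'
    rwa [inf_of_le_left hHa, inf_of_le_left hHx] at h1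

end Cfsg.Agent.S3821
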