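import Cfsg.Statements.S3825
import Mathlib

set_option autoImplicit false
open Cfsg

namespace Cfsg.Agent.S3825

open scoped commutatorElement

/-- Let U be a subgroup of a finite group H and w an involution of H normalizing U and commuting with exactly two elements of U, the identity and y. If V is a non-cyclic elementary abelian 2-subgroup of U containing y which is normal in U and invariant under w, then V is a Sylow 2-subgroup of U, V has order 4, and U/V is abelian. -/
theorem result {H : Type*} [Group H] [Finite H] (U : Subgroup H) (w : H) (hw : orderOf w = 2)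
    (hwU : w ∈ Subgroup.normalizer (U : Set H)) (y : H) (hy : y ≠ 1) (hyU : y ∈ U)
    (hfix : ∀ u ∈ U, w * u * w⁻¹ = u ↔ (u = 1 ∨ u = y))
    (V : Subgroup H) (hVU : V ≤ U) (hVn : (V.subgroupOf U).Normal) (hVw : ∀ v ∈ V, w * v * w⁻¹ ∈ V)
    (hVe : Cfsg.IsElementaryAbelian 2 V) (hVc : ¬ IsCyclic ↥V) (hyV : y ∈ V) :
    ¬ 2 ∣ V.relIndex U ∧ Nat.card ↥V = 4 ∧ ⁅U, U⁆ ≤ V := by
  classical
  have h2 : Fact (Nat.Prime 2) := ⟨Nat.prime_two⟩
  obtain ⟨hVcomm, hVexp⟩ := hVe
  have hww : w * w = 1 := by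
    have h1 : w ^ orderOf w = 1 := pow_orderOf_eq_one w
    rw [hw, pow_two] at h1; exact h1
  have hcommV : ∀ a ∈ V, ∀ b ∈ V, a * b = b * a := fun a ha b hb =>
    congrArg Subtype.val (hVcomm.is_comm.comm ⟨a, ha⟩ ⟨b, hb⟩)
  have hinvV : ∀ a ∈ V, a⁻¹ = a := fun a ha => by
    have h1 := hVexp a ha
    rw [pow_two] at h1
    exact inv_eq_of_mul_eq_one_left h1
  have hσmul : ∀ a b : H, w * (a * b) * w⁻¹ = (w * a * w⁻¹) * (w * b * w⁻¹) := by
    intro a b; group
  have hσσ : ∀ a : H, w * (w * a * w⁻¹) * w⁻¹ = a := by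
    intro a
    have h1 : w * (w * a * w⁻¹) * w⁻¹ = (w * w) * a * (w * w)⁻¹ := by group
    rw [h1, hww]; simp
  have hσU : ∀ u ∈ U, w * u * w⁻¹ ∈ U := fun u hu =>
    (Subgroup.mem_normalizer_iff.mp hwU u).mp hu
  have hσinv : ∀ a : H, w * a⁻¹ * w⁻¹ = (w * a * w⁻¹)⁻¹ := by intro a; group
  let θ : V →* V :=
    { toFun := fun v => ⟨v * (w * v * w⁻¹), V.mul_mem v.2 (hVw v v.2)⟩
      map_one' := by apply Subtype.ext; simp
      map_mul' := by
        intro a b
        apply Subtype.ext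
        show (a : H) * b * (w * (a * b) * w⁻¹) = a * (w * a * w⁻¹) * (b * (w * b * w⁻¹))
        rw [hσmul]
        have h1 := hcommV b b.2 (w * a * w⁻¹) (hVw a a.2)
        calc (a : H) * b * (w * a * w⁻¹ * (w * b * w⁻¹))
            = a * (b * (w * a * w⁻¹)) * (w * b * w⁻¹) := by group
          _ = a * ((w * a * w⁻¹) * b) * (w * b * w⁻¹) := by rw [h1]
          _ = a * (w * a * w⁻¹) * (b * (w * b * w⁻¹)) := by group }
  have hθ : ∀ v : V, ((θ v : V) : H) = v * (w * v * w⁻¹) := fun v => rfl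
  have hker : ∀ v : V, v ∈ θ.ker → ((v : H) = 1 ∨ (v : H) = y) := by
    intro v hv
    rw [MonoidHom.mem_ker] at hv
    have h1 : (v : H) * (w * v * w⁻¹) = 1 := congrArg Subtype.val hv
    apply (hfix v (hVU v.2)).mp
    have h3 : w * v * w⁻¹ = (v : H)⁻¹ := (inv_eq_of_mul_eq_one_right h1).symm
    rw [h3, hinvV v v.2]
  have hrange : ∀ v : V, v ∈ θ.range → ((v : H) = 1 ∨ (v : H) = y) := by
    rintro _ ⟨v, rfl⟩
    apply (hfix _ (hVU (θ v).2)).mp
    rw [hθ, hσmul, hσσ]
    exact hcommV _ (hVw v v.2) _ v.2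
  have hle2 : ∀ K : Subgroup V, (∀ v : V, v ∈ K → ((v : H) = 1 ∨ (v : H) = y)) →
      Nat.card K ≤ 2 := by
    intro K hK
    have h1 : Nat.card K ≤ Nat.card Bool := by
      apply Nat.card_le_card_of_injective (fun k : K => decide (((k : V) : H) = 1))
      intro a b hab
      apply Subtype.ext
      apply Subtype.ext
      by_cases ha : ((a : V) : H) = 1
      · have hb : ((b : V) : H) = 1 := by
          have h3 : decide (((b : V) : H) = 1) = true := by
            rw [← show decide (((a : V) : H) = 1) = decide (((b : V) : H) = 1) from hab]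
            exact decide_eq_true ha
          exact of_decide_eq_true h3
        rw [ha, hb]
      · have hb : ((b : V) : H) ≠ 1 := by
          intro hb
          have h3 : decide (((a : V) : H) = 1) = true := by
            rw [show decide (((a : V) : H) = 1) = decide (((b : V) : H) = 1) from hab]
            exact decide_eq_true hb
          exact ha (of_decide_eq_true h3)
        rcases hK a a.2 with h | h
        · exact absurd h ha
        · rcases hK b b.2 with h' | h'
          · exact absurd h' hb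
          · rw [h, h']
    simpa using h1
  have hVp : IsPGroup 2 V := by
    intro v
    refine ⟨1, ?_⟩
    apply Subtype.ext
    simpa using hVexp v v.2
  have hcardV : Nat.card V = 4 := by
    have h1 := Subgroup.card_mul_index θ.ker
    rw [Subgroup.index_ker] at h1
    have hk := hle2 θ.ker hker
    have hr := hle2 θ.range hrange
    have hle : Nat.card V ≤ 4 := by
      rw [← h1]
      exact Nat.mul_le_mul hk hr
    obtain ⟨k, hk'⟩ := IsPGroup.iff_card.mp hVp
    rcases k with _ | _ | _ | k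
    · exfalso; apply hVc
      have h3 : Subsingleton V := (Nat.card_eq_one_iff_unique.mp (by simpa using hk')).1
      exact isCyclic_of_subsingleton
    · exfalso; apply hVc
      exact isCyclic_of_prime_card (p := 2) (by simpa using hk')
    · simpa using hk'
    · exfalso
      rw [hk'] at hle
      have h3 : 2 ^ (k + 1 + 1 + 1) ≥ 8 := by
        calc 2 ^ (k + 1 + 1 + 1) = 2 ^ k * 8 := by ring
          _ ≥ 1 * 8 := Nat.mul_le_mul_right 8 Nat.one_le_two_pow
      omega
  have hyrange : ∃ v ∈ V, v * (w * v * w⁻¹) = y := by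
    by_contra hcon
    push Not at hcon
    have hr1 : Nat.card θ.range = 1 := by
      have h3 : ∀ v : V, v ∈ θ.range → v = 1 := by
        intro v hv
        rcases hrange v hv with h | h
        · exact Subtype.ext h
        · exfalso
          obtain ⟨v', rfl⟩ := hv
          exact hcon v' v'.2 h
      have hbot : θ.range = ⊥ := by
        rw [eq_bot_iff]; intro v hv; exact Subgroup.mem_bot.mpr (h3 v hv)
      rw [hbot, Subgroup.card_bot]
    have h1 := Subgroup.card_mul_index θ.ker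
    rw [Subgroup.index_ker, hcardV, hr1] at h1
    have hk := hle2 θ.ker hker
    omega
  obtain ⟨v₁, hv₁V, hv₁⟩ := hyrange
  have hB : ∀ u ∈ U, u⁻¹ * (w * u * w⁻¹) ∈ V → u ∈ V := by
    intro u hu hv₀
    have hσu : w * u * w⁻¹ = u * (u⁻¹ * (w * u * w⁻¹)) := by group
    have h1 : u * (u⁻¹ * (w * u * w⁻¹)) * (w * (u⁻¹ * (w * u * w⁻¹)) * w⁻¹) = u := by
      calc u * (u⁻¹ * (w * u * w⁻¹)) * (w * (u⁻¹ * (w * u * w⁻¹)) * w⁻¹)
          = w * (w * u * w⁻¹) * w⁻¹ := by group
        _ = u := hσσ u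
    have h3 : (u⁻¹ * (w * u * w⁻¹)) * (w * (u⁻¹ * (w * u * w⁻¹)) * w⁻¹) = 1 := by
      have h4 : u * ((u⁻¹ * (w * u * w⁻¹)) * (w * (u⁻¹ * (w * u * w⁻¹)) * w⁻¹)) = u * 1 := by
        rw [mul_one, ← mul_assoc]; exact h1
      exact mul_left_cancel h4
    have h4 : w * (u⁻¹ * (w * u * w⁻¹)) * w⁻¹ = u⁻¹ * (w * u * w⁻¹) := by
      have h5 := inv_eq_of_mul_eq_one_right h3
      rw [← h5, hinvV _ hv₀]
    rcases (hfix _ (hVU hv₀)).mp h4 with h | h
    · have h5 : w * u * w⁻¹ = u := by rw [hσu, h, mul_one]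
      rcases (hfix u hu).mp h5 with h' | h'
      · rw [h']; exact V.one_mem
      · rw [h']; exact hyV
    · have hσv₁ : w * v₁ * w⁻¹ ∈ V := hVw v₁ hv₁V
      have hsq : (w * v₁ * w⁻¹) * (w * v₁ * w⁻¹) = 1 := by
        have h5 := hVexp _ hσv₁; rwa [pow_two] at h5
      have hfixed : w * (u * v₁) * w⁻¹ = u * v₁ := by
        rw [hσmul, hσu, h, ← hv₁]
        calc u * (v₁ * (w * v₁ * w⁻¹)) * (w * v₁ * w⁻¹)
            = u * v₁ * ((w * v₁ * w⁻¹) * (w * v₁ * w⁻¹)) := by group
          _ = u * v₁ := by rw [hsq, mul_one]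
      have huv : u * v₁ ∈ V := by
        rcases (hfix _ (U.mul_mem hu (hVU hv₁V))).mp hfixed with h' | h'
        · rw [h']; exact V.one_mem
        · rw [h']; exact hyV
      have h5 : u = (u * v₁) * v₁⁻¹ := by group
      rw [h5]; exact V.mul_mem huv (V.inv_mem hv₁V)
  let σ' : U → U := fun u => ⟨w * u * w⁻¹, hσU u u.2⟩
  have hσ'mul : ∀ a b : U, σ' (a * b) = σ' a * σ' b := fun a b => Subtype.ext (hσmul a b)
  have hσ'σ' : ∀ a : U, σ' (σ' a) = a := fun a => Subtype.ext (hσσ a)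
  have hσ'inv : ∀ a : U, σ' a⁻¹ = (σ' a)⁻¹ := fun a => Subtype.ext (hσinv a)
  have hσ'N : ∀ n : U, n ∈ V.subgroupOf U → σ' n ∈ V.subgroupOf U := fun n hn => by
    rw [Subgroup.mem_subgroupOf] at hn ⊢; exact hVw _ hn
  have hB' : ∀ u : U, u⁻¹ * σ' u ∈ V.subgroupOf U → u ∈ V.subgroupOf U := by
    intro u hu
    rw [Subgroup.mem_subgroupOf] at hu ⊢
    exact hB u u.2 hu
  have hgresp : ∀ a b : U, QuotientGroup.leftRel (V.subgroupOf U) a b →
      QuotientGroup.leftRel (V.subgroupOf U) (a⁻¹ * σ' a) (b⁻¹ * σ' b) := by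
    intro a b hab
    rw [QuotientGroup.leftRel_apply] at hab ⊢
    have hn' : σ' (a⁻¹ * b) ∈ V.subgroupOf U := hσ'N _ hab
    have e : (a⁻¹ * σ' a)⁻¹ * (b⁻¹ * σ' b) =
        ((σ' a)⁻¹ * a) * (a⁻¹ * b)⁻¹ * ((σ' a)⁻¹ * a)⁻¹ * σ' (a⁻¹ * b) := by
      rw [hσ'mul, hσ'inv]; group
    rw [e]
    exact Subgroup.mul_mem _ (hVn.conj_mem _ (Subgroup.inv_mem _ hab) _) hn'
  let gq : (U ⧸ V.subgroupOf U) → (U ⧸ V.subgroupOf U) :=
    Quotient.map' (fun u => u⁻¹ * σ' u) hgresp
  have hgq : ∀ u : U, gq (QuotientGroup.mk u) = QuotientGroup.mk (u⁻¹ * σ' u) := fun u => rfl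
  have hgqinj : Function.Injective gq := by
    intro q₁ q₂
    induction q₁ using QuotientGroup.induction_on with | H a => ?_
    induction q₂ using QuotientGroup.induction_on with | H b => ?_
    intro h
    rw [hgq, hgq, QuotientGroup.eq] at h
    rw [QuotientGroup.eq]
    have h3 : (b * a⁻¹)⁻¹ * σ' (b * a⁻¹) ∈ V.subgroupOf U := by
      have e : (b * a⁻¹)⁻¹ * σ' (b * a⁻¹) =
          σ' a * ((a⁻¹ * σ' a)⁻¹ * (b⁻¹ * σ' b)) * (σ' a)⁻¹ := by
        rw [hσ'mul, hσ'inv]; group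
      rw [e]
      exact hVn.conj_mem _ h _
    have h4 := hB' _ h3
    have e2 : a⁻¹ * b = a⁻¹ * (b * a⁻¹) * a⁻¹⁻¹ := by group
    rw [e2]
    exact hVn.conj_mem _ h4 _
  have hgqsurj : Function.Surjective gq := Finite.injective_iff_surjective.mp hgqinj
  have hinvert : ∀ u : U, σ' u * u ∈ V.subgroupOf U := by
    intro u
    obtain ⟨q, hq⟩ := hgqsurj (QuotientGroup.mk u)
    induction q using QuotientGroup.induction_on with | H x => ?_
    rw [hgq, QuotientGroup.eq] at hq
    have hσg : σ' (x⁻¹ * σ' x) = (x⁻¹ * σ' x)⁻¹ := by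
      rw [hσ'mul, hσ'inv, hσ'σ']; group
    have hn' := hσ'N _ hq
    have e : σ' u * u = (x⁻¹ * σ' x)⁻¹ * σ' ((x⁻¹ * σ' x)⁻¹ * u) * (x⁻¹ * σ' x)⁻¹⁻¹ *
        ((x⁻¹ * σ' x)⁻¹ * u) := by
      rw [hσ'mul ((x⁻¹ * σ' x)⁻¹) u, hσ'inv, hσg]; group
    rw [e]
    exact Subgroup.mul_mem _ (hVn.conj_mem _ hn' _) hq
  have hmkinv : ∀ u : U,
      (QuotientGroup.mk (σ' u) : U ⧸ V.subgroupOf U) = (QuotientGroup.mk u)⁻¹ := by
    intro u
    rw [eq_inv_iff_mul_eq_one, ← QuotientGroup.mk_mul, QuotientGroup.eq_one_iff]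
    exact hinvert u
  have hcomm : ∀ a b : U ⧸ V.subgroupOf U, a * b = b * a := by
    intro a b
    induction a using QuotientGroup.induction_on with | H a => ?_
    induction b using QuotientGroup.induction_on with | H b => ?_
    have h1 := hmkinv (a * b)
    rw [hσ'mul, QuotientGroup.mk_mul, hmkinv, hmkinv, QuotientGroup.mk_mul, mul_inv_rev] at h1
    have h3 := congrArg (fun t => t⁻¹) h1
    simp only [mul_inv_rev, inv_inv] at h3
    exact h3.symm
  have hcommU : commutator U ≤ V.subgroupOf U :=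
    Subgroup.Normal.quotient_commutative_iff_commutator_le.mp ⟨⟨hcomm⟩⟩
  refine ⟨?_, hcardV, ?_⟩
  · intro hdvd
    have hcardQ : 2 ∣ Nat.card (U ⧸ V.subgroupOf U) := hdvd
    obtain ⟨t, ht⟩ := exists_prime_orderOf_dvd_card' 2 hcardQ
    induction t using QuotientGroup.induction_on with | H t => ?_
    have hsq : (QuotientGroup.mk t : U ⧸ V.subgroupOf U) * QuotientGroup.mk t = 1 := by
      have h3 := pow_orderOf_eq_one (QuotientGroup.mk t : U ⧸ V.subgroupOf U)
      rwa [ht, pow_two] at h3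
    have h1 : (QuotientGroup.mk t : U ⧸ V.subgroupOf U) = QuotientGroup.mk (σ' t) := by
      rw [hmkinv]; exact (inv_eq_of_mul_eq_one_left hsq).symm
    rw [QuotientGroup.eq] at h1
    have htN := hB' t h1
    have h3 : (QuotientGroup.mk t : U ⧸ V.subgroupOf U) = 1 := (QuotientGroup.eq_one_iff t).mpr htN
    rw [h3, orderOf_one] at ht
    norm_num at ht
  · rw [Subgroup.commutator_le]
    intro a ha b hb
    have h1 : ⁅(⟨a, ha⟩ : U), ⟨b, hb⟩⁆ ∈ commutator U := by
      rw [commutator_def]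
      exact Subgroup.commutator_mem_commutator (Subgroup.mem_top _) (Subgroup.mem_top _)
    have h3 := hcommU h1
    rw [Subgroup.mem_subgroupOf] at h3
    exact h3

end Cfsg.Agent.S3825
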