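import Cfsg.Statements.S3835
import Cfsg.Agent.S5164
import Cfsg.Agent.Lib.Helper21.Basic

set_option autoImplicit false
open Cfsg

namespace Cfsg.Agent.S3835

set_option linter.style.haveILetI false

/-- the affine plane `{v | v 2 = 1}` -/
abbrev Pl (p : ℕ) : Type := {v : Fin 3 → ZMod p // v 2 = 1}

theorem qd_row (p : ℕ) (M : Matrix.SpecialLinearGroup (Fin 3) (ZMod p)) (hM : M ∈ Cfsg.qd p) :
    ∀ v : Fin 3 → ZMod p, Matrix.mulVec (M : Matrix (Fin 3) (Fin 3) (ZMod p)) v 2 = v 2 := by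
  unfold Cfsg.qd at hM
  refine Subgroup.closure_induction (p := fun (M : Matrix.SpecialLinearGroup (Fin 3) (ZMod p)) _ => ∀ v : Fin 3 → ZMod p,
    Matrix.mulVec (M : Matrix (Fin 3) (Fin 3) (ZMod p)) v 2 = v 2) ?_ ?_ ?_ ?_ hM
  · intro M hM v
    obtain ⟨h0, h1, h2⟩ := hM
    simp [Matrix.mulVec, dotProduct, Fin.sum_univ_three, h0, h1, h2]
  · intro v; simp
  · intro M N _ _ ihM ihN v
    rw [Matrix.SpecialLinearGroup.coe_mul, ← Matrix.mulVec_mulVec, ihM, ihN]
  · intro M _ ih v
    have h1 := ih (Matrix.mulVec ((M⁻¹ : Matrix.SpecialLinearGroup (Fin 3) (ZMod p)) :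
      Matrix (Fin 3) (Fin 3) (ZMod p)) v)
    rw [Matrix.mulVec_mulVec, ← Matrix.SpecialLinearGroup.coe_mul, mul_inv_cancel,
      Matrix.SpecialLinearGroup.coe_one, Matrix.one_mulVec] at h1
    exact h1.symm

theorem qd_entries (p : ℕ) (M : Matrix.SpecialLinearGroup (Fin 3) (ZMod p)) (hM : M ∈ Cfsg.qd p) :
    (M : Matrix (Fin 3) (Fin 3) (ZMod p)) 2 0 = 0 ∧ (M : Matrix (Fin 3) (Fin 3) (ZMod p)) 2 1 = 0 ∧
      (M : Matrix (Fin 3) (Fin 3) (ZMod p)) 2 2 = 1 := by
  have h := qd_row p M hM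
  refine ⟨?_, ?_, ?_⟩
  · have := h ![1, 0, 0]
    simpa [Matrix.mulVec, dotProduct, Fin.sum_univ_three] using this
  · have := h ![0, 1, 0]
    simpa [Matrix.mulVec, dotProduct, Fin.sum_univ_three] using this
  · have := h ![0, 0, 1]
    simpa [Matrix.mulVec, dotProduct, Fin.sum_univ_three] using this

/-- the affine action of `Qd(p)` on the plane -/
@[instance_reducible]
def act (p : ℕ) : MulAction (Cfsg.qd p) (Pl p) where
  smul g v := ⟨Matrix.mulVec ((g : Matrix.SpecialLinearGroup (Fin 3) (ZMod p)) :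
    Matrix (Fin 3) (Fin 3) (ZMod p)) v.1, by rw [qd_row p g.1 g.2]; exact v.2⟩
  one_smul v := by
    apply Subtype.ext
    show Matrix.mulVec (((1 : Cfsg.qd p) : Matrix.SpecialLinearGroup (Fin 3) (ZMod p)) :
      Matrix (Fin 3) (Fin 3) (ZMod p)) v.1 = v.1
    rw [Subgroup.coe_one, Matrix.SpecialLinearGroup.coe_one, Matrix.one_mulVec]
  mul_smul g h v := by
    apply Subtype.ext
    show Matrix.mulVec (((g * h : Cfsg.qd p) : Matrix.SpecialLinearGroup (Fin 3) (ZMod p)) :
      Matrix (Fin 3) (Fin 3) (ZMod p)) v.1 = Matrix.mulVec ((g : Matrix.SpecialLinearGroup (Fin 3) (ZMod p)) :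
      Matrix (Fin 3) (Fin 3) (ZMod p)) (Matrix.mulVec ((h : Matrix.SpecialLinearGroup (Fin 3) (ZMod p)) :
      Matrix (Fin 3) (Fin 3) (ZMod p)) v.1)
    rw [Matrix.mulVec_mulVec, Subgroup.coe_mul, Matrix.SpecialLinearGroup.coe_mul]

/-- the plane has `p²` points -/
def plEquiv (p : ℕ) : Pl p ≃ ZMod p × ZMod p where
  toFun v := (v.1 0, v.1 1)
  invFun x := ⟨![x.1, x.2, 1], by simp⟩
  left_inv v := by
    apply Subtype.ext
    funext i
    fin_cases i
    · simp
    · simp
    · simpa using v.2.symm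
  right_inv x := by simp

/-- transvections inside `Qd(p)` -/
def tvq (p : ℕ) (i j : Fin 3) (hij : i ≠ j) (hi : i ≠ 2) (s : ZMod p) : Cfsg.qd p :=
  ⟨⟨Matrix.transvection i j s, Matrix.det_transvection_of_ne i j hij s⟩,
    Subgroup.subset_closure ⟨by simp [Matrix.transvection, hi],
      by simp [Matrix.transvection, hi],
      by simp [Matrix.transvection, hi]⟩⟩

theorem tvq_val (p : ℕ) (i j : Fin 3) (hij : i ≠ j) (hi : i ≠ 2) (s : ZMod p) :
    (((tvq p i j hij hi s : Cfsg.qd p) : Matrix.SpecialLinearGroup (Fin 3) (ZMod p)) :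
      Matrix (Fin 3) (Fin 3) (ZMod p)) = Matrix.transvection i j s := rfl

theorem tvq_pow (p : ℕ) [Fact p.Prime] (i j : Fin 3) (hij : i ≠ j) (hi : i ≠ 2) (s : ZMod p) :
    tvq p i j hij hi s ^ p = 1 := by
  have key : ∀ k : ℕ, (Matrix.transvection i j s) ^ k = Matrix.transvection i j (k • s) := by
    intro k
    induction k with
    | zero => simp [Matrix.transvection_zero]
    | succ k ih => rw [pow_succ, ih, Matrix.transvection_mul_transvection_same i j hij, succ_nsmul]
  apply Subtype.ext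
  apply Subtype.ext
  rw [Subgroup.coe_pow, Matrix.SpecialLinearGroup.coe_pow, tvq_val, key p]
  rw [Subgroup.coe_one, Matrix.SpecialLinearGroup.coe_one]
  simp [Matrix.transvection_zero]

theorem chi_tvq (p : ℕ) [Fact p.Prime] (hp : p ≠ 2) (χ : Cfsg.qd p →* ℤˣ) (i j : Fin 3)
    (hij : i ≠ j) (hi : i ≠ 2) (s : ZMod p) : χ (tvq p i j hij hi s) = 1 := by
  have h1 : χ (tvq p i j hij hi s) ^ p = 1 := by rw [← map_pow, tvq_pow, map_one]
  rcases Int.units_eq_one_or (χ (tvq p i j hij hi s)) with h | h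
  · exact h
  · rw [h] at h1
    have hodd : Odd p := (Fact.out : p.Prime).odd_of_ne_two hp
    rw [Odd.neg_one_pow hodd] at h1
    exact absurd h1 (by decide)

theorem qd_det (p : ℕ) (M : Cfsg.qd p) :
    ((M : Matrix.SpecialLinearGroup (Fin 3) (ZMod p)) : Matrix (Fin 3) (Fin 3) (ZMod p)) 0 0 *
      ((M : Matrix.SpecialLinearGroup (Fin 3) (ZMod p)) : Matrix (Fin 3) (Fin 3) (ZMod p)) 1 1 -
    ((M : Matrix.SpecialLinearGroup (Fin 3) (ZMod p)) : Matrix (Fin 3) (Fin 3) (ZMod p)) 0 1 *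
      ((M : Matrix.SpecialLinearGroup (Fin 3) (ZMod p)) : Matrix (Fin 3) (Fin 3) (ZMod p)) 1 0 = 1 := by
  obtain ⟨h0, h1, h2⟩ := qd_entries p M.1 M.2
  have h := M.1.2
  rw [Matrix.det_fin_three, h0, h1, h2] at h
  linear_combination h

theorem qd_factor (p : ℕ) [Fact p.Prime] (M : Cfsg.qd p)
    (hc : ((M : Matrix.SpecialLinearGroup (Fin 3) (ZMod p)) : Matrix (Fin 3) (Fin 3) (ZMod p)) 1 0 ≠ 0) :
    M = tvq p 0 2 (by decide) (by decide)
          (((M : Matrix.SpecialLinearGroup (Fin 3) (ZMod p)) : Matrix (Fin 3) (Fin 3) (ZMod p)) 0 2) *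
        tvq p 1 2 (by decide) (by decide)
          (((M : Matrix.SpecialLinearGroup (Fin 3) (ZMod p)) : Matrix (Fin 3) (Fin 3) (ZMod p)) 1 2) *
        tvq p 0 1 (by decide) (by decide)
          ((((M : Matrix.SpecialLinearGroup (Fin 3) (ZMod p)) : Matrix (Fin 3) (Fin 3) (ZMod p)) 0 0 - 1) /
            ((M : Matrix.SpecialLinearGroup (Fin 3) (ZMod p)) : Matrix (Fin 3) (Fin 3) (ZMod p)) 1 0) *
        tvq p 1 0 (by decide) (by decide)
          (((M : Matrix.SpecialLinearGroup (Fin 3) (ZMod p)) : Matrix (Fin 3) (Fin 3) (ZMod p)) 1 0) *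
        tvq p 0 1 (by decide) (by decide)
          ((((M : Matrix.SpecialLinearGroup (Fin 3) (ZMod p)) : Matrix (Fin 3) (Fin 3) (ZMod p)) 1 1 - 1) /
            ((M : Matrix.SpecialLinearGroup (Fin 3) (ZMod p)) : Matrix (Fin 3) (Fin 3) (ZMod p)) 1 0) := by
  obtain ⟨h0, h1, h2⟩ := qd_entries p M.1 M.2
  have hdet := qd_det p M
  apply Subtype.ext
  apply Subtype.ext
  simp only [Subgroup.coe_mul, Matrix.SpecialLinearGroup.coe_mul, tvq_val]
  ext i j
  fin_cases i <;> fin_cases j <;>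
    simp [Matrix.transvection, Matrix.mul_apply, Fin.sum_univ_three, Matrix.single_apply, h0, h1, h2]
  · field_simp
    ring
  · field_simp
    linear_combination (-1 : ZMod p) * hdet
  · field_simp
    ring

theorem chi_nz (p : ℕ) [Fact p.Prime] (hp : p ≠ 2) (χ : Cfsg.qd p →* ℤˣ) (M : Cfsg.qd p)
    (hc : ((M : Matrix.SpecialLinearGroup (Fin 3) (ZMod p)) : Matrix (Fin 3) (Fin 3) (ZMod p)) 1 0 ≠ 0) :
    χ M = 1 := by
  rw [qd_factor p M hc]
  simp only [map_mul, chi_tvq p hp χ, mul_one]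

theorem chi_trivial (p : ℕ) [Fact p.Prime] (hp : p ≠ 2) (χ : Cfsg.qd p →* ℤˣ) (M : Cfsg.qd p) :
    χ M = 1 := by
  by_cases hc : ((M : Matrix.SpecialLinearGroup (Fin 3) (ZMod p)) : Matrix (Fin 3) (Fin 3) (ZMod p)) 1 0 = 0
  · have hdet := qd_det p M
    have h00 : ((M : Matrix.SpecialLinearGroup (Fin 3) (ZMod p)) : Matrix (Fin 3) (Fin 3) (ZMod p)) 0 0 ≠ 0 := by
      intro h0
      rw [h0, hc] at hdet
      simp at hdet
    have hM' : (((tvq p 1 0 (by decide) (by decide) 1 * M : Cfsg.qd p) :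
        Matrix.SpecialLinearGroup (Fin 3) (ZMod p)) : Matrix (Fin 3) (Fin 3) (ZMod p)) 1 0 ≠ 0 := by
      rw [Subgroup.coe_mul, Matrix.SpecialLinearGroup.coe_mul, tvq_val]
      simp [Matrix.transvection, Matrix.mul_apply, Fin.sum_univ_three, hc, h00]
    have h1 := chi_nz p hp χ _ hM'
    rw [map_mul, chi_tvq p hp χ, one_mul] at h1
    exact h1
  · exact chi_nz p hp χ M hc

theorem isPGroup_zpowers {G : Type*} [Group G] (p : ℕ) (x : G) (hx : x ^ p = 1) :
    IsPGroup p (Subgroup.zpowers x) := by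
  rintro ⟨y, hy⟩
  obtain ⟨i, rfl⟩ := Subgroup.mem_zpowers_iff.mp hy
  refine ⟨1, ?_⟩
  apply Subtype.ext
  show (x ^ i) ^ p ^ 1 = 1
  rw [pow_one, ← zpow_natCast, ← zpow_mul, mul_comm, zpow_mul, zpow_natCast, hx, one_zpow]

theorem exists_sub (p : ℕ) [Fact p.Prime] (hp : p ≠ 2) (n : ℕ) (hn : p ^ 2 ≤ n) :
    ∃ H : Subgroup (alternatingGroup (Fin n)), Nonempty (↥H ≃* ↥(Cfsg.qd p)) := by
  classical
  haveI : NeZero p := ⟨(Fact.out : p.Prime).ne_zero⟩
  letI := act p
  let f : Cfsg.qd p →* Equiv.Perm (Pl p) := MulAction.toPermHom (Cfsg.qd p) (Pl p)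
  have hf : Function.Injective f := by
    rw [injective_iff_map_eq_one]
    intro g hg
    have hv : ∀ v : Pl p, Matrix.mulVec ((g : Matrix.SpecialLinearGroup (Fin 3) (ZMod p)) :
        Matrix (Fin 3) (Fin 3) (ZMod p)) v.1 = v.1 := by
      intro v
      have h1 := congrArg (fun σ : Equiv.Perm (Pl p) => (σ v).1) hg
      exact h1
    have e1 := hv ⟨![0, 0, 1], by simp⟩
    have e2 := hv ⟨![1, 0, 1], by simp⟩
    have e3 := hv ⟨![0, 1, 1], by simp⟩
    apply Subtype.ext
    apply Subtype.ext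
    rw [Subgroup.coe_one, Matrix.SpecialLinearGroup.coe_one]
    have a1 := congrFun e1 0
    have a2 := congrFun e1 1
    have a3 := congrFun e1 2
    have b1 := congrFun e2 0
    have b2 := congrFun e2 1
    have b3 := congrFun e2 2
    have c1 := congrFun e3 0
    have c2 := congrFun e3 1
    have c3 := congrFun e3 2
    simp [Matrix.mulVec, dotProduct, Fin.sum_univ_three] at a1 a2 a3 b1 b2 b3 c1 c2 c3
    ext i j
    fin_cases i <;> fin_cases j <;> simp [a1, a2, a3]
    · linear_combination b1 - a1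
    · linear_combination c1 - a1
    · linear_combination b2 - a2
    · linear_combination c2 - a2
    · linear_combination b3 - a3
    · linear_combination c3 - a3
  have hcard : Fintype.card (Pl p) ≤ n := by
    rw [Fintype.card_congr (plEquiv p), Fintype.card_prod, ZMod.card, ← pow_two]
    exact hn
  obtain ⟨ι⟩ : Nonempty (Pl p ↪ Fin n) :=
    Function.Embedding.nonempty_of_card_le (by simpa using hcard)
  have hE := Equiv.Perm.extendDomainHom_injective (Equiv.ofInjective ι ι.injective)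
  let F : Cfsg.qd p →* Equiv.Perm (Fin n) :=
    (Equiv.Perm.extendDomainHom (Equiv.ofInjective ι ι.injective)).comp f
  have hF : Function.Injective F := hE.comp hf
  have hsign : ∀ g, Equiv.Perm.sign (F g) = 1 := by
    intro g
    have h1 : Equiv.Perm.sign (F g) = Equiv.Perm.sign (f g) :=
      Equiv.Perm.sign_extendDomain (f g) (Equiv.ofInjective ι ι.injective)
    rw [h1]
    exact chi_trivial p hp (Equiv.Perm.sign.comp f) g
  let F' : Cfsg.qd p →* alternatingGroup (Fin n) :=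
    F.codRestrict _ (fun g => Equiv.Perm.mem_alternatingGroup.mpr (hsign g))
  have hF' : Function.Injective F' := by
    intro a b hab
    apply hF
    exact congrArg Subtype.val hab
  exact ⟨F'.range, ⟨(MonoidHom.ofInjective hF').symm⟩⟩

theorem abstract_key {Q : Type*} [Group Q] [Finite Q] (p : ℕ) [Fact p.Prime] (a b c : Q)
    (ha : a ^ p = 1) (hb : b ^ p = 1) (hc : c ^ p = 1) (hab : a * b = c * (b * a))
    (hac : a * c = c * a) (hbc : b * c = c * b) :
    ∃ U : Subgroup Q, IsPGroup p U ∧ a ∈ U ∧ b ∈ U := by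
  have hpa := isPGroup_zpowers p a ha
  have hpb := isPGroup_zpowers p b hb
  have hpc := isPGroup_zpowers p c hc
  have hb_norm : b ∈ Subgroup.normalizer (Subgroup.zpowers c : Set Q) := by
    apply Subgroup.centralizer_le_normalizer
    rw [Subgroup.mem_centralizer_iff]
    intro h hh
    obtain ⟨i, rfl⟩ := Subgroup.mem_zpowers_iff.mp hh
    exact (Commute.zpow_right (show Commute b c from hbc) i).eq.symm
  have hUb : IsPGroup p ↥(Subgroup.zpowers b ⊔ Subgroup.zpowers c) :=
    IsPGroup.to_sup_of_normal_right' hpb hpc (Subgroup.zpowers_le.mpr hb_norm)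
  have hbU : b ∈ Subgroup.zpowers b ⊔ Subgroup.zpowers c :=
    Subgroup.mem_sup_left (Subgroup.mem_zpowers b)
  have hcU : c ∈ Subgroup.zpowers b ⊔ Subgroup.zpowers c :=
    Subgroup.mem_sup_right (Subgroup.mem_zpowers c)
  have hle : (Subgroup.zpowers b ⊔ Subgroup.zpowers c).map (MulAut.conj a).toMonoidHom ≤
      Subgroup.zpowers b ⊔ Subgroup.zpowers c := by
    rw [Subgroup.map_sup, MonoidHom.map_zpowers, MonoidHom.map_zpowers]
    apply sup_le
    · rw [Subgroup.zpowers_le]
      have e1 : (MulAut.conj a).toMonoidHom b = c * b := by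
        show a * b * a⁻¹ = c * b
        rw [hab]; group
      rw [e1]; exact mul_mem hcU hbU
    · rw [Subgroup.zpowers_le]
      have e1 : (MulAut.conj a).toMonoidHom c = c := by
        show a * c * a⁻¹ = c
        rw [hac]; group
      rw [e1]; exact hcU
  have ha_norm : a ∈ Subgroup.normalizer
      ((Subgroup.zpowers b ⊔ Subgroup.zpowers c : Subgroup Q) : Set Q) := by
    rw [Cfsg.Agent.Lib.Helper21.mem_normalizer_iff_map]
    apply Subgroup.eq_of_le_of_card_ge hle
    rw [Cfsg.Agent.Lib.Helper21.card_map_conj]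
  exact ⟨Subgroup.zpowers a ⊔ (Subgroup.zpowers b ⊔ Subgroup.zpowers c),
    IsPGroup.to_sup_of_normal_right' hpa hUb (Subgroup.zpowers_le.mpr ha_norm),
    Subgroup.mem_sup_left (Subgroup.mem_zpowers a), Subgroup.mem_sup_right hbU⟩

theorem not_involves (p : ℕ) [Fact p.Prime] (n : ℕ) (hn : n < p ^ 2) :
    ¬ Cfsg.Involves ↥(Cfsg.qd p) ↥(alternatingGroup (Fin n)) := by
  classical
  rintro ⟨K, R, hR, ⟨e⟩⟩
  have hab : tvq p 0 1 (by decide) (by decide) 1 * tvq p 1 2 (by decide) (by decide) 1 =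
      tvq p 0 2 (by decide) (by decide) 1 *
        (tvq p 1 2 (by decide) (by decide) 1 * tvq p 0 1 (by decide) (by decide) 1) := by
    apply Subtype.ext
    apply Subtype.ext
    simp only [Subgroup.coe_mul, Matrix.SpecialLinearGroup.coe_mul, tvq_val]
    ext i j
    fin_cases i <;> fin_cases j <;>
      simp [Matrix.transvection, Matrix.mul_apply, Fin.sum_univ_three]
  have hac : tvq p 0 1 (by decide) (by decide) 1 * tvq p 0 2 (by decide) (by decide) 1 =
      tvq p 0 2 (by decide) (by decide) 1 * tvq p 0 1 (by decide) (by decide) 1 := by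
    apply Subtype.ext
    apply Subtype.ext
    simp only [Subgroup.coe_mul, Matrix.SpecialLinearGroup.coe_mul, tvq_val]
    ext i j
    fin_cases i <;> fin_cases j <;>
      simp [Matrix.transvection, Matrix.mul_apply, Fin.sum_univ_three]
  have hbc : tvq p 1 2 (by decide) (by decide) 1 * tvq p 0 2 (by decide) (by decide) 1 =
      tvq p 0 2 (by decide) (by decide) 1 * tvq p 1 2 (by decide) (by decide) 1 := by
    apply Subtype.ext
    apply Subtype.ext
    simp only [Subgroup.coe_mul, Matrix.SpecialLinearGroup.coe_mul, tvq_val]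
    ext i j
    fin_cases i <;> fin_cases j <;>
      simp [Matrix.transvection, Matrix.mul_apply, Fin.sum_univ_three]
  have hne : tvq p 0 1 (by decide) (by decide) 1 * tvq p 1 2 (by decide) (by decide) 1 ≠
      tvq p 1 2 (by decide) (by decide) 1 * tvq p 0 1 (by decide) (by decide) 1 := by
    intro h
    have h1 := congrArg (fun M : Cfsg.qd p => ((M : Matrix.SpecialLinearGroup (Fin 3) (ZMod p)) :
      Matrix (Fin 3) (Fin 3) (ZMod p)) 0 2) h
    simp only [Subgroup.coe_mul, Matrix.SpecialLinearGroup.coe_mul, tvq_val] at h1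
    simp [Matrix.transvection, Matrix.mul_apply, Fin.sum_univ_three] at h1
  haveI : NeZero p := ⟨(Fact.out : p.Prime).ne_zero⟩
  obtain ⟨U, hU, haU, hbU⟩ := abstract_key p _ _ _ (tvq_pow p 0 1 (by decide) (by decide) 1)
    (tvq_pow p 1 2 (by decide) (by decide) 1) (tvq_pow p 0 2 (by decide) (by decide) 1) hab hac hbc
  have hUQ : IsPGroup p (U.comap e.toMonoidHom) := hU.comap_of_injective e.toMonoidHom e.injective
  obtain ⟨S, hS⟩ := hUQ.exists_le_sylow
  obtain ⟨P, hP⟩ := Sylow.mapSurjective_surjective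
    (QuotientGroup.mk'_surjective (R.subgroupOf K)) p S
  have hmem : ∀ u ∈ U, ∃ x ∈ (P : Subgroup K),
      QuotientGroup.mk' (R.subgroupOf K) x = e.symm u := by
    intro u hu
    have h1 : e.symm u ∈ U.comap e.toMonoidHom := by
      show e (e.symm u) ∈ U
      rw [MulEquiv.apply_symm_apply]; exact hu
    have h2 := hS h1
    rw [← hP] at h2
    exact h2
  obtain ⟨x, hx, hxa⟩ := hmem _ haU
  obtain ⟨y, hy, hyb⟩ := hmem _ hbU
  have hinj : Function.Injective (((alternatingGroup (Fin n)).subtype.comp K.subtype).comp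
      (P : Subgroup K).subtype) := by
    intro u v huv
    exact Subtype.ext (Subtype.ext (Subtype.ext huv))
  have hcomm := Cfsg.Agent.S5164.comm_of_small p n hn (P := ↥(P : Subgroup K)) P.isPGroup' _ hinj
    ⟨x, hx⟩ ⟨y, hy⟩
  have hxy : x * y = y * x := congrArg Subtype.val hcomm
  apply hne
  have h3 : e.symm (tvq p 0 1 (by decide) (by decide) 1) * e.symm (tvq p 1 2 (by decide) (by decide) 1) =
      e.symm (tvq p 1 2 (by decide) (by decide) 1) * e.symm (tvq p 0 1 (by decide) (by decide) 1) := by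
    rw [← hxa, ← hyb, ← map_mul, ← map_mul, hxy]
  have h4 := congrArg e h3
  simpa using h4

/-- Let p be an odd prime and n a natural number. The alternating group of degree n has a subgroup isomorphic to Qd(p) (the natural semidirect product of an elementary abelian group of order p² by SL₂(p)) if and only if n ≥ p²; and if n < p² then Qd(p) is not even involved in it. -/
theorem result {p : ℕ} [Fact p.Prime] (hp : p ≠ 2) (n : ℕ) : ((∃ H : Subgroup (alternatingGroup (Fin n)), Nonempty (↥H ≃* ↥(Cfsg.qd p))) ↔ p ^ 2 ≤ n) ∧ (n < p ^ 2 → ¬ Cfsg.Involves ↥(Cfsg.qd p) ↥(alternatingGroup (Fin n))) := by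
  refine ⟨⟨?_, exists_sub p hp n⟩, not_involves p n⟩
  rintro ⟨H, ⟨e⟩⟩
  by_contra hlt
  push Not at hlt
  apply not_involves p n hlt
  haveI hN : ((⊥ : Subgroup (alternatingGroup (Fin n))).subgroupOf H).Normal := by
    rw [Subgroup.bot_subgroupOf]; infer_instance
  exact ⟨H, ⊥, hN, ⟨(QuotientGroup.quotientMulEquivOfEq (Subgroup.bot_subgroupOf H)).trans
    (QuotientGroup.quotientBot.trans e)⟩⟩

end Cfsg.Agent.S3835
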