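import Cfsg.Statements.S3838
import Cfsg.Agent.Lib.Helper1.Tate
import Cfsg.Agent.Lib.Helper1.PRes
import Cfsg.Agent.S0072
import Cfsg.Agent.Lib.Helper18.Frattini
import Cfsg.Agent.Lib.Helper21.Basic

set_option autoImplicit false
open Cfsg

namespace Cfsg.Agent.S3838

open Cfsg.Agent.Lib.Helper1 Cfsg.Agent.Lib.Helper21
open scoped Pointwise commutatorElement

/-- Let G be a finite group with Sylow p-subgroup P such that N_G(P) has a normal p-complement. Then N_G(Q) has a normal p-complement for every subgroup Q with [P, P] ≤ Q ≤ Φ(P). -/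
theorem result {G : Type*} [Group G] [Finite G] {p : ℕ} [Fact p.Prime] (P : Sylow p G) (hN : Cfsg.HasNormalPComplement p ↥(Subgroup.normalizer ((P : Subgroup G) : Set G))) (Q : Subgroup G) (h1 : (commutator ↥(P : Subgroup G)).map (P : Subgroup G).subtype ≤ Q) (h2 : Q ≤ (frattini ↥(P : Subgroup G)).map (P : Subgroup G).subtype) : Cfsg.HasNormalPComplement p ↥(Subgroup.normalizer (Q : Set G)) := by
  classical
  have hp : p.Prime := Fact.out
  have hQP : Q ≤ (P : Subgroup G) := h2.trans (Subgroup.map_subtype_le _)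
  have hcomm : ∀ x ∈ (P : Subgroup G), ∀ u ∈ (P : Subgroup G), x * u * x⁻¹ * u⁻¹ ∈ Q := by
    intro x hx u hu
    apply h1
    refine ⟨⁅(⟨x, hx⟩ : (P : Subgroup G)), ⟨u, hu⟩⁆, ?_, ?_⟩
    · rw [commutator_def]
      exact Subgroup.commutator_mem_commutator (Subgroup.mem_top _) (Subgroup.mem_top _)
    · simp [commutatorElement_def]
  have hPL : (P : Subgroup G) ≤ Subgroup.normalizer (Q : Set G) := by
    intro x hx
    rw [Subgroup.mem_normalizer_iff]
    intro q
    constructor
    · intro hq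
      have h3 := hcomm x hx q (hQP hq)
      have e : x * q * x⁻¹ = (x * q * x⁻¹ * q⁻¹) * q := by group
      rw [e]
      exact Q.mul_mem h3 hq
    · intro hq
      have hy := hQP hq
      have h3 := hcomm x⁻¹ (Subgroup.inv_mem _ hx) (x * q * x⁻¹) hy
      have e : q = (x⁻¹ * (x * q * x⁻¹) * x⁻¹⁻¹ * (x * q * x⁻¹)⁻¹) * (x * q * x⁻¹) := by group
      rw [e]
      exact Q.mul_mem h3 hq
  -- elements of N_G(P) act on P as inner automorphisms, hence trivially modulo Q
  have hstar : ∀ n ∈ Subgroup.normalizer ((P : Subgroup G) : Set G), ∀ u ∈ (P : Subgroup G),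
      n * u * n⁻¹ * u⁻¹ ∈ Q := by
    obtain ⟨P₁, K₁, hK₁n, hK₁c⟩ := hN
    have hP₂n : ((P.subtype Subgroup.le_normalizer :
        Sylow p (Subgroup.normalizer ((P : Subgroup G) : Set G))) :
        Subgroup (Subgroup.normalizer ((P : Subgroup G) : Set G))).Normal := by
      show ((P : Subgroup G).subgroupOf (Subgroup.normalizer ((P : Subgroup G) : Set G))).Normal
      exact Subgroup.normal_in_normalizer
    obtain ⟨g, hg⟩ := MulAction.exists_smul_eq (Subgroup.normalizer ((P : Subgroup G) : Set G))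
      (P.subtype Subgroup.le_normalizer :
        Sylow p (Subgroup.normalizer ((P : Subgroup G) : Set G))) P₁
    rw [Sylow.smul_eq_of_normal] at hg
    rw [← hg] at hK₁c
    have hmemP₂ : ∀ v : Subgroup.normalizer ((P : Subgroup G) : Set G),
        v ∈ ((P.subtype Subgroup.le_normalizer :
        Sylow p (Subgroup.normalizer ((P : Subgroup G) : Set G))) :
        Subgroup (Subgroup.normalizer ((P : Subgroup G) : Set G))) ↔ (v : G) ∈ (P : Subgroup G) :=
      fun v => Iff.rfl
    intro n hn u hu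
    obtain ⟨⟨k, x⟩, hkx, -⟩ := hK₁c.existsUnique
      (⟨n, hn⟩ : Subgroup.normalizer ((P : Subgroup G) : Set G))
    have hkcomm : ∀ v ∈ (P : Subgroup G), ((k : Subgroup.normalizer ((P : Subgroup G) : Set G)) : G) * v
        = v * ((k : Subgroup.normalizer ((P : Subgroup G) : Set G)) : G) := by
      intro v hv
      have hv' : (⟨v, Subgroup.le_normalizer hv⟩ : Subgroup.normalizer ((P : Subgroup G) : Set G))
          ∈ ((P.subtype Subgroup.le_normalizer :
        Sylow p (Subgroup.normalizer ((P : Subgroup G) : Set G))) :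
        Subgroup (Subgroup.normalizer ((P : Subgroup G) : Set G))) := (hmemP₂ _).mpr hv
      have hmem : (k : Subgroup.normalizer ((P : Subgroup G) : Set G)) * ⟨v, Subgroup.le_normalizer hv⟩
          * (k : Subgroup.normalizer ((P : Subgroup G) : Set G))⁻¹ * (⟨v, Subgroup.le_normalizer hv⟩)⁻¹
          ∈ K₁ ⊓ ((P.subtype Subgroup.le_normalizer :
        Sylow p (Subgroup.normalizer ((P : Subgroup G) : Set G))) :
        Subgroup (Subgroup.normalizer ((P : Subgroup G) : Set G))) := by
        refine Subgroup.mem_inf.mpr ⟨?_, ?_⟩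
        · have e : (k : Subgroup.normalizer ((P : Subgroup G) : Set G)) * ⟨v, Subgroup.le_normalizer hv⟩
              * (k : Subgroup.normalizer ((P : Subgroup G) : Set G))⁻¹ * (⟨v, Subgroup.le_normalizer hv⟩)⁻¹
              = (k : Subgroup.normalizer ((P : Subgroup G) : Set G)) * (⟨v, Subgroup.le_normalizer hv⟩
              * (k : Subgroup.normalizer ((P : Subgroup G) : Set G))⁻¹ * (⟨v, Subgroup.le_normalizer hv⟩)⁻¹) := by
            group
          rw [e]
          exact K₁.mul_mem k.2 (hK₁n.conj_mem _ (K₁.inv_mem k.2) _)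
        · exact Subgroup.mul_mem _ (hP₂n.conj_mem _ hv' _) (Subgroup.inv_mem _ hv')
      rw [hK₁c.disjoint.eq_bot, Subgroup.mem_bot] at hmem
      have h4 := congrArg Subtype.val hmem
      simp only [Subgroup.coe_mul, Subgroup.coe_inv, Subgroup.coe_one] at h4
      have h5 := mul_inv_eq_one.mp h4
      exact mul_inv_eq_iff_eq_mul.mp h5
    have hn' : n = ((k : Subgroup.normalizer ((P : Subgroup G) : Set G)) : G)
        * ((x : Subgroup.normalizer ((P : Subgroup G) : Set G)) : G) := by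
      have h4 := congrArg Subtype.val hkx
      simp only [Subgroup.coe_mul] at h4
      exact h4.symm
    have hxP : ((x : Subgroup.normalizer ((P : Subgroup G) : Set G)) : G) ∈ (P : Subgroup G) :=
      (hmemP₂ _).mp x.2
    generalize ((k : Subgroup.normalizer ((P : Subgroup G) : Set G)) : G) = k' at hkcomm hn'
    generalize ((x : Subgroup.normalizer ((P : Subgroup G) : Set G)) : G) = x' at hn' hxP
    have h6 := hkcomm (x' * u * x'⁻¹)
      (Subgroup.mul_mem _ (Subgroup.mul_mem _ hxP hu) (Subgroup.inv_mem _ hxP))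
    have e : n * u * n⁻¹ * u⁻¹ = x' * u * x'⁻¹ * u⁻¹ := by
      rw [hn']
      calc k' * x' * u * (k' * x')⁻¹ * u⁻¹ = (k' * (x' * u * x'⁻¹)) * k'⁻¹ * u⁻¹ := by group
        _ = ((x' * u * x'⁻¹) * k') * k'⁻¹ * u⁻¹ := by rw [h6]
        _ = x' * u * x'⁻¹ * u⁻¹ := by group
    rw [e]
    exact hcomm x' hxP u hu
  -- pass to L = N_G(Q) and its quotient by Q
  obtain ⟨L, hLdef⟩ : ∃ L : Subgroup G, L = Subgroup.normalizer (Q : Set G) := ⟨_, rfl⟩
  suffices hsuff : Cfsg.HasNormalPComplement p ↥L by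
    subst hLdef
    exact hsuff
  replace hPL : (P : Subgroup G) ≤ L := hLdef ▸ hPL
  haveI hQLn : (Q.subgroupOf L).Normal := by
    rw [hLdef]
    exact Subgroup.normal_in_normalizer
  have hπsurj := QuotientGroup.mk'_surjective (Q.subgroupOf L)
  obtain ⟨Pb, hPbdef⟩ : ∃ Pb : Sylow p (L ⧸ Q.subgroupOf L),
      Pb = (P.subtype hPL).mapSurjective hπsurj := ⟨_, rfl⟩
  have hPb : ∀ y : L ⧸ Q.subgroupOf L,
      y ∈ (Pb : Subgroup (L ⧸ Q.subgroupOf L))
      ↔ ∃ u : L, (u : G) ∈ (P : Subgroup G) ∧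
        QuotientGroup.mk' (Q.subgroupOf L) u = y := by
    intro y
    rw [hPbdef]
    rfl
  have hBurn : Subgroup.normalizer (Pb : Set (L ⧸ Q.subgroupOf L))
      ≤ Subgroup.centralizer (Pb : Set (L ⧸ Q.subgroupOf L)) := by
    intro yb hyb
    obtain ⟨y, rfl⟩ := hπsurj yb
    have hyP : (y : G) ∈ Subgroup.normalizer ((P : Subgroup G) : Set G) := by
      rw [mem_normalizer_iff_map]
      apply Subgroup.eq_of_le_of_card_ge
      · rintro _ ⟨u, hu, rfl⟩
        have hmem : QuotientGroup.mk' (Q.subgroupOf L)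
            (y * ⟨u, hPL hu⟩ * y⁻¹) ∈ (Pb : Subgroup (L ⧸ Q.subgroupOf L)) := by
          rw [map_mul, map_mul, map_inv]
          exact (Subgroup.mem_normalizer_iff.mp hyb _).mp ((hPb _).mpr ⟨⟨u, hPL hu⟩, hu, rfl⟩)
        obtain ⟨v, hv, hve⟩ := (hPb _).mp hmem
        have h3 : v⁻¹ * (y * ⟨u, hPL hu⟩ * y⁻¹) ∈ Q.subgroupOf L :=
          QuotientGroup.eq.mp hve
        have h4 : ((v⁻¹ * (y * ⟨u, hPL hu⟩ * y⁻¹) : L) : G) ∈ Q := h3
        simp only [Subgroup.coe_mul, Subgroup.coe_inv] at h4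
        have e : (MulAut.conj (y : G)).toMonoidHom u
            = (v : G) * ((v : G)⁻¹ * ((y : G) * u * (y : G)⁻¹)) := by
          simp
        rw [e]
        exact Subgroup.mul_mem _ hv (hQP h4)
      · rw [card_map_conj]
    rw [Subgroup.mem_centralizer_iff]
    intro ub hub
    obtain ⟨u, hu, rfl⟩ := (hPb _).mp hub
    rw [← map_mul, ← map_mul]
    apply QuotientGroup.eq.mpr
    show (((u * y)⁻¹ * (y * u) : L) : G) ∈ Q
    have h5 := hstar (y : G)⁻¹ (Subgroup.inv_mem _ hyP) (u : G)⁻¹ (Subgroup.inv_mem _ hu)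
    have e : (((u * y)⁻¹ * (y * u) : L) : G)
        = (y : G)⁻¹ * (u : G)⁻¹ * (y : G)⁻¹⁻¹ * (u : G)⁻¹⁻¹ := by
      simp only [Subgroup.coe_mul, Subgroup.coe_inv]
      group
    rw [e]
    exact h5
  have hcompl := MonoidHom.ker_transferSylow_isComplement' _ hBurn
  have hPbp := Pb.2
  -- p'-elements die in the transfer
  have hKf : Cfsg.pResidual p L
      ≤ ((MonoidHom.transferSylow _ hBurn).comp
        (QuotientGroup.mk' (Q.subgroupOf L))).ker := by
    show Subgroup.closure {g : L | Nat.Coprime (orderOf g) p} ≤ _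
    rw [Subgroup.closure_le]
    intro g hg
    rw [SetLike.mem_coe, MonoidHom.mem_ker]
    obtain ⟨k, hk⟩ := hPbp (((MonoidHom.transferSylow _ hBurn).comp
        (QuotientGroup.mk' (Q.subgroupOf L))) g)
    have h1 := orderOf_map_dvd ((MonoidHom.transferSylow _ hBurn).comp
        (QuotientGroup.mk' (Q.subgroupOf L))) g
    have h2 := orderOf_dvd_of_pow_eq_one hk
    have h3 := Nat.dvd_gcd h1 h2
    rw [Nat.Coprime.gcd_eq_one (Nat.Coprime.pow_right k hg), Nat.dvd_one, orderOf_eq_one_iff] at h3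
    exact h3
  have hfP : ((MonoidHom.transferSylow _ hBurn).comp
        (QuotientGroup.mk' (Q.subgroupOf L))).ker
      ⊓ ((P.subtype hPL : Sylow p L) :
        Subgroup L)
      ≤ Q.subgroupOf L := by
    intro x hx
    obtain ⟨hx1, hx2⟩ := Subgroup.mem_inf.mp hx
    have h3 : QuotientGroup.mk' (Q.subgroupOf L) x
        ∈ (MonoidHom.transferSylow _ hBurn).ker ⊓ (Pb : Subgroup (L ⧸ Q.subgroupOf L)) :=
      Subgroup.mem_inf.mpr ⟨MonoidHom.mem_ker.mpr (MonoidHom.mem_ker.mp hx1),
        (hPb _).mpr ⟨x, hx2, rfl⟩⟩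
    rw [hcompl.disjoint.eq_bot, Subgroup.mem_bot] at h3
    exact (QuotientGroup.eq_one_iff x).mp h3
  have hQΦ : Q.subgroupOf L
      ≤ (frattini ((P.subtype hPL : Sylow p L) :
        Subgroup L)).map
        ((P.subtype hPL : Sylow p L) :
        Subgroup L).subtype := by
    intro x hx
    have hxQ : (x : G) ∈ Q := hx
    obtain ⟨y, hy, hyx⟩ := h2 hxQ
    have hfr := Cfsg.Agent.Lib.Helper18.frattini_map_equiv
      (Subgroup.subgroupOfEquivOfLe hPL).symm
    refine ⟨(Subgroup.subgroupOfEquivOfLe hPL).symm y, ?_, ?_⟩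
    · show (Subgroup.subgroupOfEquivOfLe hPL).symm y ∈ frattini
        ((P : Subgroup G).subgroupOf L)
      rw [← hfr]
      exact Subgroup.mem_map_of_mem _ hy
    · apply Subtype.ext
      rw [← hyx]
      rfl
  have hKn := pResidual_normal (G := L) p
  have hKgen : Cfsg.pResidual p L
      ≤ Subgroup.closure {g : L |
        g ∈ Cfsg.pResidual p L ∧ (orderOf g).Coprime p} := by
    show Subgroup.closure {g : L | Nat.Coprime (orderOf g) p} ≤ _
    apply Subgroup.closure_mono
    intro g hg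
    exact ⟨Subgroup.subset_closure hg, hg⟩
  have hKP := (inf_le_inf_right _ hKf).trans (hfP.trans hQΦ)
  have hbot := tate_aux (P.subtype hPL) (Cfsg.pResidual p L)
    hKgen hKP
  have hcopK : (Nat.card (Cfsg.pResidual p L)).Coprime p := by
    rw [Nat.coprime_comm, Nat.Prime.coprime_iff_not_dvd hp]
    intro hdvd
    obtain ⟨k, hk⟩ := exists_prime_orderOf_dvd_card' p hdvd
    have hzp : IsPGroup p (Subgroup.zpowers (k : L)) := by
      apply IsPGroup.of_card (n := 1)
      rw [Nat.card_zpowers, pow_one, Subgroup.orderOf_coe]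
      exact hk
    obtain ⟨Q', hQ'⟩ := hzp.exists_le_sylow
    obtain ⟨g, hg⟩ := MulAction.exists_smul_eq L Q'
      (P.subtype hPL)
    have h1 : g * (k : L) * g⁻¹
        ∈ ((P.subtype hPL : Sylow p L) :
        Subgroup L) := by
      rw [← hg, Sylow.coe_subgroup_smul, ← map_conj_eq_smul, mem_map_conj]
      apply hQ'
      convert Subgroup.mem_zpowers (k : L) using 1
      group
    have h2' : g * (k : L) * g⁻¹
        ∈ Cfsg.pResidual p L := hKn.conj_mem _ k.2 g
    have h3 := Subgroup.mem_inf.mpr ⟨h2', h1⟩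
    rw [hbot, Subgroup.mem_bot] at h3
    have h4 : (k : L) = 1 := by
      have e : (k : L)
          = g⁻¹ * (g * (k : L) * g⁻¹) * g := by group
      rw [e, h3]
      group
    have h5 : k = 1 := Subtype.ext h4
    rw [h5, orderOf_one] at hk
    exact hp.one_lt.ne' hk.symm
  obtain ⟨j, hj⟩ := IsPGroup.iff_card.mp
    (isPGroup_quotient_pResidual (G := L) p)
  exact ⟨P.subtype hPL, Cfsg.pResidual p L, hKn,
    Cfsg.Agent.S0072.isComplement'_sylow_of_coprime _ hcopK (j := j) hj (P.subtype hPL)⟩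

end Cfsg.Agent.S3838
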