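import Cfsg.Statements.S3857
import Cfsg.Agent.Lib.Helper21.SylowRel
import Cfsg.Agent.Lib.Helper21.Nilp
import Cfsg.Agent.Lib.Lead.FrobeniusMore
import Cfsg.Agent.Lib.Lead.FrobComplement

set_option autoImplicit false
open Cfsg

namespace Cfsg.Agent.S3857


open Cfsg.Agent.Lib.Helper21 Cfsg.Agent.Lib.Lead
open scoped commutatorElement Pointwise

universe u

/-- no element has order divisible by `a * b` with primes `a ∈ A`, `b ∉ A` -/
def NoMix (A : Set ℕ) (X : Type*) [Group X] : Prop :=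
  ∀ g : X, ∀ a b : ℕ, a.Prime → b.Prime → a ∈ A → b ∉ A → ¬ (a * b ∣ orderOf g)

/-- all prime divisors of `n` lie in `A` -/
def IsPi (A : Set ℕ) (n : ℕ) : Prop := ∀ p : ℕ, p.Prime → p ∣ n → p ∈ A

theorem IsPi.of_dvd {A : Set ℕ} {m n : ℕ} (h : IsPi A m) (hd : n ∣ m) : IsPi A n :=
  fun p hp hpn => h p hp (hpn.trans hd)

theorem IsPi.mul {A : Set ℕ} {m n : ℕ} (hm : IsPi A m) (hn : IsPi A n) : IsPi A (m * n) := by
  intro p hp hpd
  rcases (Nat.Prime.dvd_mul hp).mp hpd with h | h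
  · exact hm p hp h
  · exact hn p hp h

theorem IsPi.coprime {A : Set ℕ} {m n : ℕ} (hm : IsPi A m) (hn : IsPi Aᶜ n) : Nat.Coprime m n :=
  Nat.coprime_of_dvd fun k hk hkm hkn => hn k hk hkn (hm k hk hkm)

section nomix

variable {A : Set ℕ} {X : Type*} [Group X]

theorem NoMix.compl (h : NoMix A X) : NoMix Aᶜ X := by
  intro g a b ha hb haA hbA hd
  have hbA' : b ∈ A := by
    by_contra hb'
    exact hbA hb'
  exact h g b a hb ha hbA' haA (by rwa [mul_comm] at hd)

theorem NoMix.of_surjective {Y : Type*} [Group Y] (h : NoMix A X) (f : X →* Y)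
    (hf : Function.Surjective f) : NoMix A Y := by
  intro y a b ha hb haA hbA hd
  obtain ⟨x, rfl⟩ := hf y
  exact h x a b ha hb haA hbA (hd.trans (orderOf_map_dvd f x))

theorem NoMix.subgroup (h : NoMix A X) (K : Subgroup X) : NoMix A K := by
  intro y a b ha hb haA hbA hd
  rw [← Subgroup.orderOf_coe] at hd
  exact h (y : X) a b ha hb haA hbA hd

theorem NoMix.not_commute [Finite X] (h : NoMix A X) {x y : X} (hc : Commute x y) {a b : ℕ}
    (ha : a.Prime) (hb : b.Prime) (haA : a ∈ A) (hbA : b ∉ A) (hax : a ∣ orderOf x)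
    (hby : b ∣ orderOf y) : False := by
  have hx0 : orderOf x / a ≠ 0 := by
    intro h0
    have h1 := Nat.div_mul_cancel hax
    rw [h0, zero_mul] at h1
    exact (orderOf_pos x).ne h1
  have hy0 : orderOf y / b ≠ 0 := by
    intro h0
    have h1 := Nat.div_mul_cancel hby
    rw [h0, zero_mul] at h1
    exact (orderOf_pos y).ne h1
  have hox : orderOf (x ^ (orderOf x / a)) = a := by
    rw [orderOf_pow_of_dvd hx0 (Nat.div_dvd_of_dvd hax), Nat.div_div_self hax (orderOf_pos x).ne']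
  have hoy : orderOf (y ^ (orderOf y / b)) = b := by
    rw [orderOf_pow_of_dvd hy0 (Nat.div_dvd_of_dvd hby), Nat.div_div_self hby (orderOf_pos y).ne']
  have hne : a ≠ b := fun hab => hbA (hab ▸ haA)
  have hcop : (orderOf (x ^ (orderOf x / a))).Coprime (orderOf (y ^ (orderOf y / b))) := by
    rw [hox, hoy]
    exact (Nat.coprime_primes ha hb).mpr hne
  have hc' : Commute (x ^ (orderOf x / a)) (y ^ (orderOf y / b)) := hc.pow_pow _ _
  have ho := hc'.orderOf_mul_eq_mul_orderOf_of_coprime hcop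
  rw [hox, hoy] at ho
  exact h _ a b ha hb haA hbA (dvd_of_eq ho.symm)

end nomix

section frobfpf

variable {X : Type u} [Group X] [Finite X]

/-- a normal Hall subgroup containing the centralizers of its nonidentity elements is a
Frobenius kernel -/
theorem frob_of_fpf (N : Subgroup X) [N.Normal] (hN1 : N ≠ ⊥) (hN2 : N ≠ ⊤)
    (hcop : (Nat.card N).Coprime N.index)
    (hcent : ∀ n ∈ N, n ≠ 1 → ∀ x : X, x * n = n * x → x ∈ N) :
    ∃ C : Subgroup X, Cfsg.IsFrobeniusComplement C ∧ Cfsg.frobeniusKernel C = (N : Set X) := by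
  obtain ⟨C, hC⟩ := Subgroup.exists_right_complement'_of_coprime hcop
  have hdisj : N ⊓ C = ⊥ := disjoint_iff.mp hC.disjoint
  have hsup : N ⊔ C = ⊤ := hC.sup_eq_top
  have hcard := hC.card_mul_card
  have hCbot : C ≠ ⊥ := by
    rintro rfl
    rw [Subgroup.card_bot, mul_one] at hcard
    exact hN2 (Subgroup.eq_top_of_card_eq N hcard)
  have hCtop : C ≠ ⊤ := by
    rintro rfl
    apply hN1
    rw [inf_top_eq] at hdisj
    exact hdisj
  have hTI : ∀ g : X, g ∉ C → C ⊓ (MulAut.conj g • C) = ⊥ := by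
    intro g hg
    rw [eq_bot_iff]
    rintro y ⟨hyC, hyg⟩
    have hyg' : g⁻¹ * y * g ∈ C := (mem_conj_smul C g y).mp hyg
    have hgmem : g ∈ N ⊔ C := by
      rw [hsup]
      exact Subgroup.mem_top g
    obtain ⟨n, hn, c, hc, rfl⟩ := Subgroup.mem_sup_of_normal_left.mp hgmem
    have hn1 : n ≠ 1 := by
      rintro rfl
      rw [one_mul] at hg
      exact hg hc
    have h1 : n⁻¹ * y * n ∈ C := by
      have e : n⁻¹ * y * n = c * ((n * c)⁻¹ * y * (n * c)) * c⁻¹ := by group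
      rw [e]
      exact C.mul_mem (C.mul_mem hc hyg') (C.inv_mem hc)
    have h2 : n⁻¹ * y * n * y⁻¹ ∈ N := by
      have e : n⁻¹ * y * n * y⁻¹ = n⁻¹ * (y * n * y⁻¹) := by group
      rw [e]
      exact N.mul_mem (N.inv_mem hn) (Subgroup.Normal.conj_mem inferInstance n hn y)
    have h3 : n⁻¹ * y * n * y⁻¹ ∈ N ⊓ C := ⟨h2, C.mul_mem h1 (C.inv_mem hyC)⟩
    rw [hdisj, Subgroup.mem_bot] at h3
    have h4 : y * n = n * y := by
      have e : y * n = n * (n⁻¹ * y * n * y⁻¹) * y := by group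
      rw [e, h3, mul_one]
    have h5 : y ∈ N ⊓ C := ⟨hcent n hn hn1 y h4, hyC⟩
    rw [hdisj] at h5
    exact h5
  have hFC : Cfsg.IsFrobeniusComplement C := ⟨hCbot, hCtop, hTI⟩
  refine ⟨C, hFC, ?_⟩
  rw [← coe_frobKer C hFC]
  congr 1
  symm
  apply Subgroup.eq_of_le_of_card_ge
  · intro n hn
    rw [mem_frobKer_iff]
    by_cases hn1 : n = 1
    · left
      exact hn1
    · right
      intro g hg
      have hg' : g⁻¹ * n * g ∈ C := (mem_conj_smul C g n).mp hg
      have h1 : g⁻¹ * n * g ∈ N := by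
        have := Subgroup.Normal.conj_mem (inferInstance : N.Normal) n hn g⁻¹
        rwa [inv_inv] at this
      have h2 : g⁻¹ * n * g ∈ N ⊓ C := ⟨h1, hg'⟩
      rw [hdisj, Subgroup.mem_bot] at h2
      apply hn1
      have e : n = g * (g⁻¹ * n * g) * g⁻¹ := by group
      rw [e, h2]
      group
  · rw [card_frobKer C hFC]
    have h1 := C.card_mul_index
    have h2 : Nat.card N * Nat.card C = Nat.card C * C.index := by rw [hcard, h1]
    have hpos : 0 < Nat.card C := Nat.card_pos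
    have h3 : Nat.card N = C.index := by
      rw [mul_comm] at h2
      exact Nat.eq_of_mul_eq_mul_left hpos h2
    rw [h3]

end frobfpf

section misc

variable {X : Type*} [Group X]

theorem normal_of_commutator_le {B : Subgroup X} (h : commutator X ≤ B) : B.Normal := by
  constructor
  intro b hb g
  have h1 : ⁅g, b⁆ ∈ commutator X := by
    rw [commutator_def]
    exact Subgroup.commutator_mem_commutator (Subgroup.mem_top g) (Subgroup.mem_top b)
  have e : g * b * g⁻¹ = ⁅g, b⁆ * b := by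
    rw [commutatorElement_def]
    group
  rw [e]
  exact B.mul_mem (h h1) hb

theorem relIndex_comap_mk (N : Subgroup X) [N.Normal] (B : Subgroup (X ⧸ N)) :
    N.relIndex (B.comap (QuotientGroup.mk' N)) = Nat.card B := by
  have h1 : ((⊥ : Subgroup (X ⧸ N)).comap (QuotientGroup.mk' N)).relIndex
      (B.comap (QuotientGroup.mk' N)) = Nat.card B := by
    rw [Subgroup.relIndex_comap,
      Subgroup.map_comap_eq_self_of_surjective (QuotientGroup.mk'_surjective N),
      Subgroup.relIndex_bot_left]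
  have h2 : (⊥ : Subgroup (X ⧸ N)).comap (QuotientGroup.mk' N) = N := by
    rw [MonoidHom.comap_bot, QuotientGroup.ker_mk']
  rw [h2] at h1
  exact h1

theorem le_comap_mk (N : Subgroup X) [N.Normal] (B : Subgroup (X ⧸ N)) :
    N ≤ B.comap (QuotientGroup.mk' N) := by
  intro x hx
  show QuotientGroup.mk' N x ∈ B
  have h1 : QuotientGroup.mk' N x = 1 := (QuotientGroup.eq_one_iff x).mpr hx
  rw [h1]
  exact B.one_mem

/-- a minimal normal subgroup of a finite solvable group is abelian -/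
theorem exists_abelian_normal [Finite X] [Nontrivial X] (hsol : Group.IsSolvable X) :
    ∃ V : Subgroup X, V.Normal ∧ V ≠ ⊥ ∧ ∀ x ∈ V, ∀ y ∈ V, x * y = y * x := by
  obtain ⟨V, hVn, hV1, hVmin⟩ := exists_minimal_normal (G := X)
  refine ⟨V, hVn, hV1, ?_⟩
  have hDeq : ⁅V, V⁆ = (commutator V).map V.subtype := (Subgroup.map_subtype_commutator V).symm
  have hDle : ⁅V, V⁆ ≤ V := by
    rw [hDeq]
    exact Subgroup.map_subtype_le _
  have hDne : ⁅V, V⁆ ≠ V := by
    intro heq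
    haveI : Nontrivial V := (Subgroup.nontrivial_iff_ne_bot V).mpr hV1
    have hlt := Group.IsSolvable.commutator_lt_top_of_nontrivial V
    apply hlt.ne
    apply Subgroup.map_injective V.subtype_injective
    rw [← hDeq, heq, ← MonoidHom.range_eq_map, Subgroup.range_subtype]
  haveI : (⁅V, V⁆ : Subgroup X).Normal := Subgroup.commutator_normal V V
  have hbot : ⁅V, V⁆ = ⊥ := by
    by_contra hne
    exact hDne (hVmin _ inferInstance hne hDle)
  intro x hx y hy
  have h1 : ⁅x, y⁆ ∈ ⁅V, V⁆ := Subgroup.commutator_mem_commutator hx hy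
  rw [hbot, Subgroup.mem_bot, commutatorElement_def] at h1
  have e : x * y = (x * y * x⁻¹ * y⁻¹) * y * x := by group
  rw [e, h1, one_mul]

end misc

section main

variable {G : Type u} [Group G] [Finite G]

theorem main_aux (hsol : Group.IsSolvable G) (A : Set ℕ) (hnm : NoMix A G)
    (hB : ∃ b, b ∉ A ∧ b.Prime ∧ b ∣ Nat.card G)
    (H₀ : Subgroup G) (hH₀n : H₀.Normal) (hH₀ : H₀ ≠ ⊥) (hH₀A : IsPi A (Nat.card H₀)) :
    (∃ C : Subgroup G, Cfsg.IsFrobeniusComplement C) ∨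
    (∃ (H K : Subgroup G) (_ : H.Normal), K.Normal ∧ H < K ∧
      (∃ C : Subgroup ↥K, Cfsg.IsFrobeniusComplement C ∧
        Cfsg.frobeniusKernel C = (H.subgroupOf K : Set ↥K)) ∧
      (∃ C : Subgroup (G ⧸ H), Cfsg.IsFrobeniusComplement C ∧
        Cfsg.frobeniusKernel C = (K.map (QuotientGroup.mk' H) : Set (G ⧸ H)))) := by
  classical
  -- Step 1: a maximal normal `A`-subgroup
  let S₁ : Set (Subgroup G) := {N | N.Normal ∧ H₀ ≤ N ∧ IsPi A (Nat.card N)}
  obtain ⟨H, ⟨hHn, hH₀H, hHA⟩, hHmax⟩ :=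
    (wellFounded_gt (α := Subgroup G)).has_min S₁ ⟨H₀, hH₀n, le_rfl, hH₀A⟩
  haveI := hHn
  have hH1 : H ≠ ⊥ := fun h => hH₀ (le_bot_iff.mp (h ▸ hH₀H))
  set π : G →* G ⧸ H := QuotientGroup.mk' H with hπ
  have hπs : Function.Surjective π := QuotientGroup.mk'_surjective H
  have hkerπ : ∀ x : G, π x = 1 ↔ x ∈ H := fun x => QuotientGroup.eq_one_iff x
  have hnmQ : NoMix A (G ⧸ H) := hnm.of_surjective π hπs
  have hF2 : ∀ n ∈ H, n ≠ 1 → ∃ a, a.Prime ∧ a ∈ A ∧ a ∣ orderOf n := by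
    intro n hn hn1
    have h1 : orderOf n ≠ 1 := fun h => hn1 (orderOf_eq_one_iff.mp h)
    obtain ⟨a, ha, had⟩ := Nat.exists_prime_and_dvd h1
    exact ⟨a, ha, hHA a ha (had.trans (Subgroup.orderOf_dvd_natCard H hn)), had⟩
  haveI hnt : Nontrivial (G ⧸ H) := by
    by_contra hcon
    rw [not_nontrivial_iff_subsingleton] at hcon
    obtain ⟨b, hbA, hb, hbd⟩ := hB
    have hHtop : H = ⊤ := by
      rw [eq_top_iff]
      intro x _
      rw [← hkerπ]
      exact Subsingleton.elim _ _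
    apply hbA
    apply hHA b hb
    rw [hHtop, Subgroup.card_top]
    exact hbd
  have hsolQ : Group.IsSolvable (G ⧸ H) := inferInstance
  obtain ⟨W, hWn, hW1, hWab⟩ := exists_abelian_normal hsolQ
  haveI := hWn
  have hWnotA : ¬ IsPi A (Nat.card W) := by
    intro hWA
    have hM : W.comap π ∈ S₁ := by
      refine ⟨Subgroup.Normal.comap hWn π, hH₀H.trans (le_comap_mk H W), ?_⟩
      rw [← card_mul_relIndex (le_comap_mk H W), relIndex_comap_mk]
      exact hHA.mul hWA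
    apply hHmax _ hM
    refine lt_of_le_of_ne (le_comap_mk H W) ?_
    intro heq
    have h1 := relIndex_comap_mk H W
    rw [← heq, Subgroup.relIndex_self] at h1
    exact hW1 (Subgroup.card_eq_one.mp h1.symm)
  unfold IsPi at hWnotA
  push Not at hWnotA
  obtain ⟨q, hq, hqW, hqA⟩ := hWnotA
  haveI := Fact.mk hq
  have hqH : ¬ q ∣ Nat.card H := fun h => hqA (hHA q hq h)
  -- Step 4: the elements of order dividing `q` in `W`
  let Z : Subgroup (G ⧸ H) :=
    { carrier := {w | w ∈ W ∧ w ^ q = 1}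
      mul_mem' := by
        rintro a b ⟨ha, ha'⟩ ⟨hb, hb'⟩
        refine ⟨W.mul_mem ha hb, ?_⟩
        have hc : Commute a b := hWab a ha b hb
        rw [hc.mul_pow, ha', hb', one_mul]
      one_mem' := ⟨W.one_mem, one_pow q⟩
      inv_mem' := by
        rintro a ⟨ha, ha'⟩
        exact ⟨W.inv_mem ha, by rw [inv_pow, ha', inv_one]⟩ }
  have hZmem : ∀ w, w ∈ Z ↔ w ∈ W ∧ w ^ q = 1 := fun w => Iff.rfl
  haveI hZn : Z.Normal := by
    constructor
    intro w hw g
    rw [hZmem] at hw ⊢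
    exact ⟨hWn.conj_mem w hw.1 g, by rw [conj_pow, hw.2, mul_one, mul_inv_cancel]⟩
  obtain ⟨z₁, hz₁Z, hz₁1⟩ : ∃ z₁ ∈ Z, z₁ ≠ 1 := by
    obtain ⟨w, hw⟩ := exists_prime_orderOf_dvd_card' q hqW
    refine ⟨(w : G ⧸ H), ⟨w.2, ?_⟩, ?_⟩
    · have h1 := pow_orderOf_eq_one w
      rw [hw] at h1
      have h2 := congrArg Subtype.val h1
      simpa using h2
    · intro h1
      have h2 : w = 1 := Subtype.ext h1
      rw [h2, orderOf_one] at hw
      exact hq.one_lt.ne hw
  have hz₁o : orderOf z₁ = q := orderOf_eq_prime hz₁Z.2 hz₁1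
  -- Step 5: a Sylow `q`-subgroup of `G` has a unique subgroup of order `q`
  obtain ⟨S⟩ : Nonempty (Sylow q G) := inferInstance
  have hSH : ∀ s ∈ (S : Subgroup G), s ∈ H → s = 1 := by
    intro s hs hsH
    obtain ⟨k, hk⟩ := IsPGroup.iff_card.mp S.isPGroup'
    have h1 : orderOf s ∣ q ^ k := hk ▸ Subgroup.orderOf_dvd_natCard _ hs
    have h2 : orderOf s ∣ Nat.card H := Subgroup.orderOf_dvd_natCard H hsH
    have hcop : (q ^ k).Coprime (Nat.card H) :=
      Nat.Coprime.pow_left k ((Nat.Prime.coprime_iff_not_dvd hq).mpr hqH)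
    exact orderOf_eq_one_iff.mp (Nat.eq_one_of_dvd_coprimes hcop h1 h2)
  have hqS : ∀ s ∈ (S : Subgroup G), s ≠ 1 → q ∣ orderOf s := by
    intro s hs hs1
    obtain ⟨k, hk⟩ := IsPGroup.iff_card.mp S.isPGroup'
    have h1 : orderOf s ∣ q ^ k := hk ▸ Subgroup.orderOf_dvd_natCard _ hs
    obtain ⟨j, -, hj⟩ := (Nat.dvd_prime_pow hq).mp h1
    rw [hj]
    have hj0 : j ≠ 0 := by
      rintro rfl
      rw [pow_zero] at hj
      exact hs1 (orderOf_eq_one_iff.mp hj)
    exact dvd_pow_self q hj0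
  have hfpf : ∀ s ∈ (S : Subgroup G), s ≠ 1 → H ⊓ Subgroup.centralizer {s} = ⊥ := by
    intro s hs hs1
    rw [eq_bot_iff]
    rintro x ⟨hxH, hxc⟩
    rw [Subgroup.mem_bot]
    by_contra hx1
    obtain ⟨a, ha, haA, had⟩ := hF2 x hxH hx1
    have hc : Commute x s :=
      (Subgroup.mem_centralizer_iff.mp hxc s (Set.mem_singleton s)).symm
    exact hnm.not_commute hc ha hq haA hqA had (hqS s hs hs1)
  have hU : UniqP q (S : Subgroup G) := fpf_pgroup_uniq H hH1 q S S.isPGroup' hfpf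
  -- Step 6: lifting the elements of `Z` into `S`
  have hZq : IsPGroup q Z := by
    intro w
    refine ⟨1, ?_⟩
    rw [pow_one]
    exact Subtype.ext w.2.2
  have hlift : ∀ w ∈ Z, ∃ s ∈ (S : Subgroup G), π s = w := by
    intro w hw
    set M : Subgroup G := Z.comap π with hM
    haveI : M.Normal := Subgroup.Normal.comap hZn π
    have hHM : H ≤ M := le_comap_mk H Z
    have hrelHM : H.relIndex M = Nat.card Z := relIndex_comap_mk H Z
    obtain ⟨k, hk⟩ := IsPGroup.iff_card.mp hZq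
    have hnd := not_dvd_relIndex_sylow_inf_normal S M
    set T : Subgroup G := H ⊔ ((S : Subgroup G) ⊓ M) with hT
    have hTM : T ≤ M := sup_le hHM inf_le_right
    have h1 := Subgroup.relIndex_mul_relIndex ((S : Subgroup G) ⊓ M) T M le_sup_right hTM
    have h2 := Subgroup.relIndex_mul_relIndex H T M le_sup_left hTM
    have h3 : T.relIndex M ∣ q ^ k := by
      rw [← hk, ← hrelHM, ← h2]
      exact Dvd.intro_left _ rfl
    obtain ⟨j, -, hj⟩ := (Nat.dvd_prime_pow hq).mp h3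
    have hj0 : j = 0 := by
      by_contra hj0
      apply hnd
      rw [← h1, hj]
      exact Dvd.dvd.mul_left (dvd_pow_self q hj0) _
    rw [hj0, pow_zero] at hj
    have hMT : M ≤ T := Subgroup.relIndex_eq_one.mp hj
    obtain ⟨g, rfl⟩ := hπs w
    have hgM : g ∈ M := hw
    obtain ⟨n, hn, s, hs, rfl⟩ := Subgroup.mem_sup_of_normal_left.mp (hMT hgM)
    refine ⟨s, hs.1, ?_⟩
    rw [map_mul, (hkerπ n).mpr hn, one_mul]
  -- Step 7: `Z` is cyclic
  obtain ⟨s₁, hs₁S, hs₁⟩ := hlift z₁ hz₁Z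
  have hpowq : ∀ s ∈ (S : Subgroup G), (π s) ^ q = 1 → s ^ q = 1 := by
    intro s hs hsq
    apply hSH _ (Subgroup.pow_mem _ hs q)
    rw [← hkerπ, map_pow]
    exact hsq
  have hs₁q : s₁ ^ q = 1 := hpowq s₁ hs₁S (by rw [hs₁]; exact hz₁Z.2)
  have hs₁1 : s₁ ≠ 1 := by
    rintro rfl
    rw [map_one] at hs₁
    exact hz₁1 hs₁.symm
  have hZcyc : ∀ w ∈ Z, w ∈ Subgroup.zpowers z₁ := by
    intro w hw
    obtain ⟨s, hsS, hs⟩ := hlift w hw
    have hsq : s ^ q = 1 := hpowq s hsS (by rw [hs]; exact hw.2)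
    have h1 := hU ⟨s₁, hs₁S⟩ ⟨s, hsS⟩ (Subtype.ext hs₁q) (Subtype.ext hsq)
      (fun h => hs₁1 (congrArg Subtype.val h))
    obtain ⟨k, hk⟩ := Subgroup.mem_zpowers_iff.mp h1
    have hk' : s₁ ^ k = s := by
      have h2 := congrArg Subtype.val hk
      simpa using h2
    rw [Subgroup.mem_zpowers_iff]
    exact ⟨k, by rw [← hs₁, ← map_zpow, hk', hs]⟩
  -- Step 8: the centralizer of `Z`
  haveI hZcycI : IsCyclic Z := ⟨⟨⟨z₁, hz₁Z⟩, fun x => by
    obtain ⟨k, hk⟩ := Subgroup.mem_zpowers_iff.mp (hZcyc x x.2)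
    exact Subgroup.mem_zpowers_iff.mpr ⟨k, Subtype.ext (by simpa using hk)⟩⟩⟩
  have hpowmap : ∀ g : G ⧸ H, ∃ m : ℤ, ∀ z ∈ Z, g * z * g⁻¹ = z ^ m := by
    intro g
    obtain ⟨m, hm⟩ := MonoidHom.map_cyclic ((MulAut.conjNormal g : MulAut Z).toMonoidHom)
    refine ⟨m, fun z hz => ?_⟩
    have h1 := congrArg Subtype.val (hm ⟨z, hz⟩)
    simpa [MulAut.conjNormal_apply] using h1
  set Cb : Subgroup (G ⧸ H) := Subgroup.centralizer (Z : Set (G ⧸ H)) with hCb
  haveI hCbn : Cb.Normal := Subgroup.normal_centralizer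
  have hcomm_le : commutator (G ⧸ H) ≤ Cb := by
    rw [commutator_def, Subgroup.commutator_le]
    intro g₁ _ g₂ _
    obtain ⟨m₁, hm₁⟩ := hpowmap g₁
    obtain ⟨m₂, hm₂⟩ := hpowmap g₂
    have hkey : ∀ z ∈ Z, (g₁ * g₂) * z * (g₁ * g₂)⁻¹ = (g₂ * g₁) * z * (g₂ * g₁)⁻¹ := by
      intro z hz
      have e1 : (g₁ * g₂) * z * (g₁ * g₂)⁻¹ = g₁ * (g₂ * z * g₂⁻¹) * g₁⁻¹ := by group
      have e2 : (g₂ * g₁) * z * (g₂ * g₁)⁻¹ = g₂ * (g₁ * z * g₁⁻¹) * g₂⁻¹ := by group
      rw [e1, e2, hm₂ z hz, hm₁ z hz, hm₁ _ (Z.zpow_mem hz m₂), hm₂ _ (Z.zpow_mem hz m₁),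
        ← zpow_mul, ← zpow_mul, mul_comm]
    rw [Subgroup.mem_centralizer_iff]
    intro z hz
    have hz' : (g₂ * g₁)⁻¹ * z * (g₂ * g₁) ∈ Z := by
      have := hZn.conj_mem z hz (g₂ * g₁)⁻¹
      rwa [inv_inv] at this
    have h1 := hkey _ hz'
    have e3 : (g₂ * g₁) * ((g₂ * g₁)⁻¹ * z * (g₂ * g₁)) * (g₂ * g₁)⁻¹ = z := by group
    rw [e3] at h1
    rw [commutatorElement_def]
    calc z * (g₁ * g₂ * g₁⁻¹ * g₂⁻¹)
        = ((g₁ * g₂) * ((g₂ * g₁)⁻¹ * z * (g₂ * g₁)) * (g₁ * g₂)⁻¹) * (g₁ * g₂ * g₁⁻¹ * g₂⁻¹) := by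
          rw [h1]
      _ = g₁ * g₂ * g₁⁻¹ * g₂⁻¹ * z := by group
  have hCbA : IsPi Aᶜ (Nat.card Cb) := by
    intro a ha had haA
    haveI := Fact.mk ha
    obtain ⟨x, hx⟩ := exists_prime_orderOf_dvd_card' a had
    have hxo : orderOf (x : G ⧸ H) = a := by
      rw [Subgroup.orderOf_coe]
      exact hx
    have hc : Commute (x : G ⧸ H) z₁ := (Subgroup.mem_centralizer_iff.mp x.2 z₁ hz₁Z).symm
    exact hnmQ.not_commute hc ha hq haA hqA (dvd_of_eq hxo.symm) (dvd_of_eq hz₁o.symm)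
  have hZCb : Z ≤ Cb := by
    intro z hz
    rw [Subgroup.mem_centralizer_iff]
    intro y hy
    exact hWab y hy.1 z hz.1
  -- Step 9: a maximal normal `Aᶜ`-subgroup of the quotient
  let S₂ : Set (Subgroup (G ⧸ H)) := {N | N.Normal ∧ Cb ≤ N ∧ IsPi Aᶜ (Nat.card N)}
  obtain ⟨Kb, ⟨hKbn, hCbKb, hKbA⟩, hKbmax⟩ :=
    (wellFounded_gt (α := Subgroup (G ⧸ H))).has_min S₂ ⟨Cb, hCbn, le_rfl, hCbA⟩
  haveI := hKbn
  have hKb1 : Kb ≠ ⊥ := by
    intro h
    have h1 : z₁ ∈ Kb := hCbKb (hZCb hz₁Z)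
    rw [h, Subgroup.mem_bot] at h1
    exact hz₁1 h1
  have hKbidx : IsPi A Kb.index := by
    intro b hb hbd
    by_contra hbA
    haveI := Fact.mk hb
    have hbd' : b ∣ Nat.card ((G ⧸ H) ⧸ Kb) := hbd
    obtain ⟨x, hx⟩ := exists_prime_orderOf_dvd_card' b hbd'
    set B : Subgroup (G ⧸ H) := (Subgroup.zpowers x).comap (QuotientGroup.mk' Kb) with hBdef
    have hKbB : Kb ≤ B := le_comap_mk Kb _
    have hrel : Kb.relIndex B = b := by
      rw [relIndex_comap_mk, Nat.card_zpowers, hx]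
    have hBn : B.Normal := normal_of_commutator_le (hcomm_le.trans (hCbKb.trans hKbB))
    have hBcard : Nat.card B = Nat.card Kb * b := by
      rw [← card_mul_relIndex hKbB, hrel]
    have hBS : B ∈ S₂ := by
      refine ⟨hBn, hCbKb.trans hKbB, ?_⟩
      rw [hBcard]
      refine hKbA.mul (fun p hp hpb => ?_)
      have hpb' : p = b := (Nat.prime_dvd_prime_iff_eq hp hb).mp hpb
      rw [hpb']
      exact hbA
    apply hKbmax B hBS
    refine lt_of_le_of_ne hKbB ?_
    intro heq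
    rw [← heq, Subgroup.relIndex_self] at hrel
    exact hb.one_lt.ne hrel
  -- Step 10: the preimage
  set K : Subgroup G := Kb.comap π with hKdef
  have hKn : K.Normal := Subgroup.Normal.comap hKbn π
  have hHK : H ≤ K := le_comap_mk H Kb
  have hrelHK : H.relIndex K = Nat.card Kb := relIndex_comap_mk H Kb
  have hKmap : K.map π = Kb := Subgroup.map_comap_eq_self_of_surjective hπs Kb
  have hHltK : H < K := by
    refine lt_of_le_of_ne hHK ?_
    intro heq
    rw [← heq, Subgroup.relIndex_self] at hrelHK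
    exact hKb1 (Subgroup.card_eq_one.mp hrelHK.symm)
  have hF1 : ∀ x ∈ K, x ∉ H → ∃ b, b.Prime ∧ b ∉ A ∧ b ∣ orderOf x := by
    intro x hxK hxH
    have h1 : orderOf (π x) ≠ 1 := fun h => hxH ((hkerπ x).mp (orderOf_eq_one_iff.mp h))
    obtain ⟨b, hb, hbd⟩ := Nat.exists_prime_and_dvd h1
    refine ⟨b, hb, ?_, hbd.trans (orderOf_map_dvd π x)⟩
    exact hKbA b hb (hbd.trans (Subgroup.orderOf_dvd_natCard Kb hxK))
  have hcopHK : (Nat.card H).Coprime (Nat.card Kb) := hHA.coprime hKbA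
  by_cases hKtop : K = ⊤
  · left
    have hidx : H.index = Nat.card Kb := by
      rw [← hrelHK, hKtop, Subgroup.relIndex_top_right]
    have hH2 : H ≠ ⊤ := fun h => (hKtop ▸ hHltK).ne h
    obtain ⟨C, hC, -⟩ := frob_of_fpf H hH1 hH2 (by rw [hidx]; exact hcopHK) (by
      intro n hn hn1 x hxn
      by_contra hxH
      obtain ⟨b, hb, hbA, hbd⟩ := hF1 x (hKtop ▸ Subgroup.mem_top x) hxH
      obtain ⟨a, ha, haA, had⟩ := hF2 n hn hn1
      exact hnm.not_commute (x := n) (y := x) hxn.symm ha hb haA hbA had hbd)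
    exact ⟨C, hC⟩
  · right
    refine ⟨H, K, hHn, hKn, hHltK, ?_, ?_⟩
    · have hN1 : H.subgroupOf K ≠ ⊥ := by
        intro h
        rw [Subgroup.subgroupOf_eq_bot, disjoint_iff, inf_eq_left.mpr hHK] at h
        exact hH1 h
      have hN2 : H.subgroupOf K ≠ ⊤ := by
        intro h
        rw [Subgroup.subgroupOf_eq_top] at h
        exact hHltK.not_ge h
      have hcard : Nat.card (H.subgroupOf K) = Nat.card H :=
        Nat.card_congr (Subgroup.subgroupOfEquivOfLe hHK).toEquiv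
      have hidx : (H.subgroupOf K).index = Nat.card Kb := hrelHK
      exact frob_of_fpf (H.subgroupOf K) hN1 hN2 (by rw [hcard, hidx]; exact hcopHK) (by
        intro n hn hn1 x hxn
        by_contra hxH
        have hn' : (n : G) ∈ H := Subgroup.mem_subgroupOf.mp hn
        have hx' : (x : G) ∉ H := fun h => hxH (Subgroup.mem_subgroupOf.mpr h)
        obtain ⟨b, hb, hbA, hbd⟩ := hF1 (x : G) x.2 hx'
        obtain ⟨a, ha, haA, had⟩ := hF2 (n : G) hn' (fun h => hn1 (Subtype.ext h))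
        have hc : Commute (n : G) (x : G) := (congrArg Subtype.val hxn).symm
        exact hnm.not_commute hc ha hb haA hbA had hbd)
    · rw [hKmap]
      have hKb2 : Kb ≠ ⊤ := by
        intro h
        apply hKtop
        rw [hKdef, h, Subgroup.comap_top]
      exact frob_of_fpf Kb hKb1 hKb2 (hKbidx.coprime hKbA).symm (by
        intro n hn hn1 x hxn
        by_contra hxK
        have h1 : orderOf (QuotientGroup.mk' Kb x) ≠ 1 := fun h =>
          hxK ((QuotientGroup.eq_one_iff x).mp (orderOf_eq_one_iff.mp h))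
        obtain ⟨a, ha, had⟩ := Nat.exists_prime_and_dvd h1
        have haA : a ∈ A := hKbidx a ha (had.trans (orderOf_dvd_natCard _))
        have had' : a ∣ orderOf x := had.trans (orderOf_map_dvd _ x)
        have h2 : orderOf n ≠ 1 := fun h => hn1 (orderOf_eq_one_iff.mp h)
        obtain ⟨b, hb, hbd⟩ := Nat.exists_prime_and_dvd h2
        have hbA : b ∉ A := hKbA b hb (hbd.trans (Subgroup.orderOf_dvd_natCard Kb hn))
        exact hnmQ.not_commute (x := x) (y := n) hxn ha hb haA hbA had' hbd)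

end main

/-- A finite solvable group whose prime graph (prime divisors of the order, two distinct primes joined when there is an element of order their product) is disconnected is a Frobenius group or a 2-Frobenius group (it has normal subgroups H < K with K a Frobenius group with kernel H and G/H a Frobenius group with kernel K/H). -/
theorem result {G : Type*} [Group G] [Finite G] (hsol : Group.IsSolvable G)
    (hdisc : (∃ A : Set ℕ, (∃ a ∈ A, a.Prime ∧ a ∣ Nat.card G) ∧ (∃ b ∉ A, b.Prime ∧ b ∣ Nat.card G) ∧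
      ∀ a ∈ A, ∀ b ∉ A, a.Prime → b.Prime → a ∣ Nat.card G → b ∣ Nat.card G → ¬ ∃ g : G, orderOf g = a * b)) :
    (∃ C : Subgroup G, Cfsg.IsFrobeniusComplement C) ∨
    (∃ (H K : Subgroup G) (_ : H.Normal), K.Normal ∧ H < K ∧
      (∃ C : Subgroup ↥K, Cfsg.IsFrobeniusComplement C ∧ Cfsg.frobeniusKernel C = (H.subgroupOf K : Set ↥K)) ∧
      (∃ C : Subgroup (G ⧸ H), Cfsg.IsFrobeniusComplement C ∧ Cfsg.frobeniusKernel C = (K.map (QuotientGroup.mk' H) : Set (G ⧸ H)))) := by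
  classical
  obtain ⟨A, ⟨a₀, ha₀A, ha₀, ha₀d⟩, ⟨b₀, hb₀A, hb₀, hb₀d⟩, hAB⟩ := hdisc
  have hnm : NoMix A G := by
    intro g a b ha hb haA hbA hd
    have hg0 : orderOf g / (a * b) ≠ 0 := by
      intro h0
      have h1 := Nat.div_mul_cancel hd
      rw [h0, zero_mul] at h1
      exact (orderOf_pos g).ne h1
    have hdG : a * b ∣ Nat.card G := hd.trans (orderOf_dvd_natCard g)
    apply hAB a haA b hbA ha hb ((Dvd.intro _ rfl).trans hdG) ((Dvd.intro_left _ rfl).trans hdG)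
    exact ⟨g ^ (orderOf g / (a * b)), by
      rw [orderOf_pow_of_dvd hg0 (Nat.div_dvd_of_dvd hd),
        Nat.div_div_self hd (orderOf_pos g).ne']⟩
  haveI : Nontrivial G := by
    rw [← Finite.one_lt_card_iff_nontrivial]
    exact lt_of_lt_of_le ha₀.one_lt (Nat.le_of_dvd Nat.card_pos ha₀d)
  obtain ⟨V, hVn, hV1, hVab⟩ := exists_abelian_normal hsol
  by_cases hVA : ∃ a, a ∈ A ∧ a.Prime ∧ a ∣ Nat.card V
  · obtain ⟨a, haA, ha, had⟩ := hVA
    have hVpi : IsPi A (Nat.card V) := by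
      intro p hp hpd
      by_contra hpA
      haveI := Fact.mk ha
      haveI := Fact.mk hp
      obtain ⟨x, hx⟩ := exists_prime_orderOf_dvd_card' a had
      obtain ⟨y, hy⟩ := exists_prime_orderOf_dvd_card' p hpd
      have hc : Commute (x : G) (y : G) := hVab x x.2 y y.2
      exact hnm.not_commute hc ha hp haA hpA (by rw [Subgroup.orderOf_coe, hx])
        (by rw [Subgroup.orderOf_coe, hy])
    exact main_aux hsol A hnm ⟨b₀, hb₀A, hb₀, hb₀d⟩ V hVn hV1 hVpi
  · push Not at hVA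
    have hVpi : IsPi Aᶜ (Nat.card V) := fun p hp hpd hpA => hVA p hpA hp hpd
    exact main_aux hsol Aᶜ hnm.compl ⟨a₀, fun h => h ha₀A, ha₀, ha₀d⟩ V hVn hV1 hVpi

end Cfsg.Agent.S3857
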