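import Cfsg.Statements.S3858
import Cfsg.Agent.Lib.Helper21.Basic

set_option autoImplicit false
open Cfsg

namespace Cfsg.Agent.S3858

open Cfsg.Agent.Lib.Helper21

theorem sylow_inf_not_normal {G : Type*} [Group G] [Finite G] (T : Subgroup G)
    (hT : IsSimpleGroup T) (hna : ¬ IsMulCommutative T) {r : ℕ} [Fact r.Prime] (R : Sylow r G)
    (hR0 : (R : Subgroup G) ⊓ T ≠ ⊥) : ¬ ((R : Subgroup G) ⊓ T).Normal := by
  intro hn
  have hn' : (((R : Subgroup G) ⊓ T).subgroupOf T).Normal := Subgroup.Normal.subgroupOf hn T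
  have htop : ((R : Subgroup G) ⊓ T).subgroupOf T = ⊤ := by
    rcases hn'.eq_bot_or_eq_top with h1 | h1
    · exfalso
      apply hR0
      rw [Subgroup.subgroupOf_eq_bot] at h1
      rw [disjoint_iff, inf_assoc, inf_idem] at h1
      exact h1
    · exact h1
  rw [Subgroup.subgroupOf_eq_top] at htop
  have hTR : T ≤ (R : Subgroup G) := htop.trans inf_le_left
  have hTp : IsPGroup r T := R.2.to_le hTR
  have hcn : (Subgroup.center T) = ⊤ := by
    rcases (Subgroup.Normal.eq_bot_or_eq_top (H := Subgroup.center T) inferInstance) with h1 | h1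
    · exfalso
      have hnt : Nontrivial T := hT.toNontrivial
      have := (hTp.bot_lt_center).ne'
      exact this h1
    · exact h1
  apply hna
  constructor
  constructor
  intro a b
  have ha : a ∈ Subgroup.center T := by rw [hcn]; trivial
  exact (Subgroup.mem_center_iff.mp ha b).symm

theorem sylow_normalizer_ne_top {G : Type*} [Group G] [Finite G] (T : Subgroup G) [T.Normal]
    (hT : IsSimpleGroup T) (hna : ¬ IsMulCommutative T) {r : ℕ} [Fact r.Prime] (R : Sylow r G)
    (hR0 : (R : Subgroup G) ⊓ T ≠ ⊥) :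
    Subgroup.normalizer (((R : Subgroup G)) : Set G) ≠ ⊤ := by
  intro h
  have hn : (R : Subgroup G).Normal := Subgroup.normalizer_eq_top_iff.mp h
  exact sylow_inf_not_normal T hT hna R hR0 (Subgroup.normal_inf_normal _ _)

theorem not_dvd_index_of_sylow_le {G : Type*} [Group G] [Finite G] {r : ℕ} [Fact r.Prime]
    (R : Sylow r G) {M : Subgroup G} (h : (R : Subgroup G) ≤ M) : ¬ r ∣ M.index :=
  fun hd => R.not_dvd_index (hd.trans (Subgroup.index_dvd_of_le h))

theorem exists_conj_sylow_le {G : Type*} [Group G] [Finite G] {r : ℕ} [Fact r.Prime]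
    (R : Sylow r G) {M : Subgroup G} (h : ¬ r ∣ M.index) :
    ∃ g : G, (R : Subgroup G) ≤ M.map (MulAut.conj g).toMonoidHom := by
  obtain ⟨Q'⟩ : Nonempty (Sylow r ↥M) := inferInstance
  have hQ : IsPGroup r ((Q' : Subgroup ↥M).map M.subtype) := Q'.2.map _
  have hQM : (Q' : Subgroup ↥M).map M.subtype ≤ M := Subgroup.map_subtype_le _
  have hidx : ¬ r ∣ ((Q' : Subgroup ↥M).map M.subtype).index := by
    rw [← Subgroup.relIndex_mul_index hQM]
    intro hd
    rcases (Nat.Prime.dvd_mul (Fact.out : r.Prime)).mp hd with h1 | h1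
    · apply Q'.not_dvd_index
      have e : ((Q' : Subgroup ↥M).map M.subtype).relIndex M = (Q' : Subgroup ↥M).index := by
        rw [Subgroup.relIndex, Subgroup.subgroupOf, Subgroup.comap_map_eq_self_of_injective M.subtype_injective]
      rwa [e] at h1
    · exact h h1
  obtain ⟨g, hg⟩ := exists_conj_le_of_index hQ R.2 hidx
  exact ⟨g, hg.trans (map_conj_mono hQM g)⟩

/-- Let G be a finite group with a normal non-abelian simple subgroup T whose centralizer is trivial (G almost simple with socle T), r a prime and R a Sylow r-subgroup of G meeting T nontrivially. Then R lies in exactly one maximal subgroup of G if and only if G has exactly one conjugacy class of maximal subgroups whose index is prime to r. -/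
theorem result {G : Type*} [Group G] [Finite G] (T : Subgroup G) [T.Normal] (hT : IsSimpleGroup T) (hna : ¬ IsMulCommutative T)
    (hC : Subgroup.centralizer (T : Set G) = ⊥) {r : ℕ} [Fact r.Prime] (R : Sylow r G) (hR0 : (R : Subgroup G) ⊓ T ≠ ⊥) :
    (∃! M : Subgroup G, IsCoatom M ∧ (R : Subgroup G) ≤ M) ↔
      ((∃ M : Subgroup G, IsCoatom M ∧ ¬ r ∣ M.index) ∧
        ∀ M₁ M₂ : Subgroup G, IsCoatom M₁ → ¬ r ∣ M₁.index → IsCoatom M₂ → ¬ r ∣ M₂.index → ∃ g : G, M₂ = M₁.map (MulAut.conj g).toMonoidHom) := by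
  classical
  constructor
  · rintro ⟨M, ⟨hM, hRM⟩, hu⟩
    refine ⟨⟨M, hM, not_dvd_index_of_sylow_le R hRM⟩, ?_⟩
    have key : ∀ M₁ : Subgroup G, IsCoatom M₁ → ¬ r ∣ M₁.index →
        ∃ g : G, M₁.map (MulAut.conj g).toMonoidHom = M := by
      intro M₁ h1 h2
      obtain ⟨g, hg⟩ := exists_conj_sylow_le R h2
      exact ⟨g, hu _ ⟨isCoatom_map_conj h1 g, hg⟩⟩
    intro M₁ M₂ h1 h1' h2 h2'
    obtain ⟨g₁, hg₁⟩ := key M₁ h1 h1'
    obtain ⟨g₂, hg₂⟩ := key M₂ h2 h2'
    refine ⟨g₂⁻¹ * g₁, ?_⟩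
    rw [map_conj_mul, hg₁, ← hg₂, map_conj_map_conj_inv]
  · rintro ⟨-, hconj⟩
    have hNne := sylow_normalizer_ne_top T hT hna R hR0
    rcases eq_top_or_exists_le_coatom (Subgroup.normalizer (((R : Subgroup G)) : Set G)) with h | ⟨M₃, hM₃, hNM₃⟩
    · exact absurd h hNne
    · have hRM₃ : (R : Subgroup G) ≤ M₃ := Subgroup.le_normalizer.trans hNM₃
      refine ⟨M₃, ⟨hM₃, hRM₃⟩, ?_⟩
      rintro M' ⟨hM', hRM'⟩
      obtain ⟨g, hg⟩ := hconj M₃ M' hM₃ (not_dvd_index_of_sylow_le R hRM₃) hM'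
        (not_dvd_index_of_sylow_le R hRM')
      have h1 : (R : Subgroup G).map (MulAut.conj g⁻¹).toMonoidHom ≤ M₃ := by
        rw [map_conj_le_iff, inv_inv, ← hg]
        exact hRM'
      have hidx : ¬ r ∣ (R : Subgroup G).relIndex M₃ := by
        intro hd
        apply R.not_dvd_index
        rw [← Subgroup.relIndex_mul_index hRM₃]
        exact Dvd.dvd.mul_right hd _
      obtain ⟨m, hm, hEq⟩ := exists_conj_eq_of_relIndex hRM₃ h1 R.2 (isPGroup_map_conj R.2 _) hidx
        (card_map_conj _ _).ge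
      have h2 : m⁻¹ * g⁻¹ ∈ Subgroup.normalizer (((R : Subgroup G)) : Set G) := by
        rw [mem_normalizer_iff_map, map_conj_mul, hEq, map_conj_map_conj_inv]
      have h3 : g⁻¹ ∈ M₃ := by
        have : g⁻¹ = m * (m⁻¹ * g⁻¹) := by group
        rw [this]
        exact M₃.mul_mem hm (hNM₃ h2)
      have h4 : g ∈ M₃ := by
        have := M₃.inv_mem h3
        rwa [inv_inv] at this
      rw [hg, map_conj_of_mem h4]

end Cfsg.Agent.S3858
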