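import Cfsg.Statements.S3859
import Cfsg.Agent.Lib.Helper21.Basic

set_option autoImplicit false
open Cfsg

namespace Cfsg.Agent.S3859

open Cfsg.Agent.Lib.Helper21

theorem sylow_sup_eq_top {G : Type*} [Group G] [Finite G] (T : Subgroup G) [T.Normal]
    (hT : IsSimpleGroup T) (hna : ¬ IsMulCommutative T) {r : ℕ} [Fact r.Prime] (R : Sylow r G)
    (hR0 : (R : Subgroup G) ⊓ T ≠ ⊥)
    (M : Subgroup G) (hM : IsCoatom M) (hRM : (R : Subgroup G) ≤ M)
    (huniq : ∀ M' : Subgroup G, IsCoatom M' → (R : Subgroup G) ≤ M' → M' = M) :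
    Subgroup.normalizer ((((R : Subgroup G) ⊓ T : Subgroup G)) : Set G) ≤ M ∧ ¬ T ≤ M ∧
      (R : Subgroup G) ⊔ T = ⊤ := by
  classical
  have hle_coatom : ∀ L : Subgroup G, L ≠ ⊤ → (R : Subgroup G) ≤ L → L ≤ M := by
    intro L hL hRL
    rcases eq_top_or_exists_le_coatom L with h | ⟨M', hM', hLM'⟩
    · exact absurd h hL
    · rw [← huniq M' hM' (hRL.trans hLM')]
      exact hLM'
  have hNne : Subgroup.normalizer ((((R : Subgroup G) ⊓ T : Subgroup G)) : Set G) ≠ ⊤ := by
    intro h
    have hn : ((R : Subgroup G) ⊓ T).Normal := Subgroup.normalizer_eq_top_iff.mp h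
    have hn' : (((R : Subgroup G) ⊓ T).subgroupOf T).Normal := Subgroup.Normal.subgroupOf hn T
    have htop : ((R : Subgroup G) ⊓ T).subgroupOf T = ⊤ := by
      rcases hn'.eq_bot_or_eq_top with h1 | h1
      · exfalso
        apply hR0
        rw [Subgroup.subgroupOf_eq_bot] at h1
        rw [disjoint_iff, inf_assoc, inf_idem] at h1
        exact h1
      · exact h1
    rw [Subgroup.subgroupOf_eq_top] at htop
    have hTR : T ≤ (R : Subgroup G) := htop.trans inf_le_left
    have hTp : IsPGroup r T := R.2.to_le hTR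
    have hcn : (Subgroup.center T) = ⊤ := by
      rcases (Subgroup.Normal.eq_bot_or_eq_top (H := Subgroup.center T) inferInstance) with h1 | h1
      · exfalso
        have hnt : Nontrivial T := hT.toNontrivial
        have := (hTp.bot_lt_center).ne'
        exact this h1
      · exact h1
    apply hna
    constructor
    constructor
    intro a b
    have ha : a ∈ Subgroup.center T := by rw [hcn]; trivial
    exact (Subgroup.mem_center_iff.mp ha b).symm
  have hRN : (R : Subgroup G) ≤ Subgroup.normalizer ((((R : Subgroup G) ⊓ T : Subgroup G)) : Set G) := by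
    intro x hx
    rw [Subgroup.mem_normalizer_iff]
    intro y
    constructor
    · rintro ⟨hy1, hy2⟩
      exact ⟨(R : Subgroup G).mul_mem ((R : Subgroup G).mul_mem hx hy1) ((R : Subgroup G).inv_mem hx),
        (inferInstance : T.Normal).conj_mem y hy2 x⟩
    · rintro ⟨hy1, hy2⟩
      refine ⟨?_, ?_⟩
      · have : y = x⁻¹ * (x * y * x⁻¹) * x := by group
        rw [this]
        exact (R : Subgroup G).mul_mem ((R : Subgroup G).mul_mem ((R : Subgroup G).inv_mem hx) hy1) hx
      · have : y = x⁻¹ * (x * y * x⁻¹) * x⁻¹⁻¹ := by group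
        rw [this]
        exact (inferInstance : T.Normal).conj_mem _ hy2 x⁻¹
  have hNM := hle_coatom _ hNne hRN
  have hfr := normalizer_sylow_inf_sup_eq_top R T
  have hTM : ¬ T ≤ M := by
    intro h
    apply hM.1
    rw [eq_top_iff, ← hfr]
    exact sup_le hNM h
  refine ⟨hNM, hTM, ?_⟩
  by_contra hne
  exact hTM (le_sup_right.trans (hle_coatom _ hne le_sup_left))

/-- Let G be a finite group with a normal non-abelian simple subgroup T whose centralizer is trivial (G almost simple with socle T), r a prime and R a Sylow r-subgroup of G meeting T nontrivially. If R lies in exactly one maximal subgroup of G, then G/T is an r-group. -/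
theorem result {G : Type*} [Group G] [Finite G] (T : Subgroup G) [T.Normal] (hT : IsSimpleGroup T) (hna : ¬ IsMulCommutative T)
    (hC : Subgroup.centralizer (T : Set G) = ⊥) {r : ℕ} [Fact r.Prime] (R : Sylow r G) (hR0 : (R : Subgroup G) ⊓ T ≠ ⊥)
    (huniq : ∃! M : Subgroup G, IsCoatom M ∧ (R : Subgroup G) ≤ M) : IsPGroup r (G ⧸ T) := by
  obtain ⟨M, ⟨hM, hRM⟩, hu⟩ := huniq
  have h := (sylow_sup_eq_top T hT hna R hR0 M hM hRM (fun M' h1 h2 => hu M' ⟨h1, h2⟩)).2.2
  have hsurj : Function.Surjective ((QuotientGroup.mk' T).comp (R : Subgroup G).subtype) := by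
    intro q
    obtain ⟨g, rfl⟩ := QuotientGroup.mk'_surjective T q
    have hg : g ∈ (((R : Subgroup G) ⊔ T : Subgroup G) : Set G) := by rw [h]; trivial
    rw [Subgroup.mul_normal] at hg
    obtain ⟨u, hu, t, ht, rfl⟩ := Set.mem_mul.mp hg
    refine ⟨⟨u, hu⟩, ?_⟩
    show (QuotientGroup.mk' T) u = (QuotientGroup.mk' T) (u * t)
    have ht1 : (QuotientGroup.mk' T) t = 1 := (QuotientGroup.eq_one_iff t).mpr ht
    rw [map_mul, ht1, mul_one]
  exact IsPGroup.of_surjective R.2 _ hsurj

end Cfsg.Agent.S3859
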