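import Cfsg.Statements.S3861
import Mathlib
import Cfsg.Agent.Lib.Helper1.CoprimeSylow2
import Cfsg.Agent.Lib.Helper1.SZ
import Cfsg.Agent.Lib.Helper21.Basic
import Cfsg.Agent.Lib.Helper21.Wielandt

set_option autoImplicit false
open Cfsg

namespace Cfsg.Agent.S3861

open Cfsg.Agent.Lib.Helper21

open scoped Pointwise

theorem pow_congr_mod {G : Type*} [Group G] (D : Subgroup G) {a b : G}
    (ha : a ∈ Subgroup.normalizer (D : Set G)) (hab : a⁻¹ * b ∈ D) (j : ℕ) :
    (a ^ j)⁻¹ * b ^ j ∈ D := by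
  induction j with
  | zero => simp
  | succ j ih =>
    have e : (a ^ (j + 1))⁻¹ * b ^ (j + 1) = a⁻¹ * ((a ^ j)⁻¹ * b ^ j) * a⁻¹⁻¹ * (a⁻¹ * b) := by
      rw [pow_succ, pow_succ]; group
    rw [e]
    exact D.mul_mem (conj_mem_of_mem_normalizer (inv_mem ha) ih) hab

theorem exists_sq_mem {G : Type*} [Group G] (D : Subgroup G) {u : G}
    (hu2 : ∃ k : ℕ, u ^ (2 ^ k) = 1) (huD : u ∉ D) :
    ∃ j : ℕ, u ^ (2 ^ j) ∉ D ∧ (u ^ (2 ^ j)) ^ 2 ∈ D := by
  classical
  have hex : ∃ k : ℕ, u ^ (2 ^ k) ∈ D := by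
    obtain ⟨k, hk⟩ := hu2
    exact ⟨k, hk ▸ D.one_mem⟩
  have hk0 : Nat.find hex ≠ 0 := by
    intro h0
    have h1 := Nat.find_spec hex
    rw [h0, pow_zero, pow_one] at h1
    exact huD h1
  obtain ⟨j, hj⟩ := Nat.exists_eq_succ_of_ne_zero hk0
  refine ⟨j, ?_, ?_⟩
  · exact Nat.find_min hex (by omega : j < Nat.find hex)
  · have h1 := Nat.find_spec hex
    rw [hj, Nat.succ_eq_add_one, pow_succ, pow_mul] at h1
    exact h1

/-- If `s` inverts the odd-order element `w` modulo a normalized `2`-group `D`, then `w` is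
conjugate to its inverse. -/
theorem isConj_inv_of_mod {G : Type*} [Group G] [Finite G] (D : Subgroup G) (hD : IsPGroup 2 D)
    {s w : G} (hw : w ∈ Subgroup.normalizer (D : Set G))
    (hodd : Odd (orderOf w)) (h : w * (s * w * s⁻¹) ∈ D) : IsConj w w⁻¹ := by
  haveI : Fact (Nat.Prime 2) := ⟨Nat.prime_two⟩
  obtain ⟨i, hi⟩ := IsPGroup.iff_card.mp hD
  have hcop : (Nat.card (Subgroup.zpowers w)).Coprime (Nat.card D) := by
    rw [Nat.card_zpowers, hi]
    exact Nat.Coprime.pow_right i (Nat.coprime_two_right.mpr hodd)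
  have hWD : Subgroup.zpowers w ≤ Subgroup.normalizer (D : Set G) := Subgroup.zpowers_le.mpr hw
  have hB : MulAut.conj s • Subgroup.zpowers w ≤ D ⊔ Subgroup.zpowers w := by
    intro b hb
    rw [Cfsg.Agent.Lib.Helper1.mem_conj_smul_iff] at hb
    obtain ⟨n, hn⟩ := Subgroup.mem_zpowers_iff.mp hb
    have e : b = (s * w * s⁻¹) ^ n := by
      rw [conj_zpow, hn]; group
    rw [e]
    apply Subgroup.zpow_mem
    have e2 : s * w * s⁻¹ = w⁻¹ * (w * (s * w * s⁻¹)) := by group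
    rw [e2]
    exact Subgroup.mul_mem _ (le_sup_right (a := D) (Subgroup.inv_mem _ (Subgroup.mem_zpowers w)))
      (le_sup_left (a := D) h)
  obtain ⟨k, hkD, hk⟩ := Cfsg.Agent.Lib.Helper1.sz_conj_rel (Subgroup.zpowers w) D hWD hcop
    (Or.inl inferInstance) (MulAut.conj s • Subgroup.zpowers w) hB
    (Cfsg.Agent.Lib.Helper1.card_conj_smul s _)
  have hs' : MulAut.conj (k⁻¹ * s) • Subgroup.zpowers w = Subgroup.zpowers w := by
    rw [Cfsg.Agent.Lib.Helper1.conj_mul_smul, ← hk, ← Cfsg.Agent.Lib.Helper1.conj_mul_smul,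
      inv_mul_cancel, map_one, one_smul]
  have h1 : (k⁻¹ * s) * w * (k⁻¹ * s)⁻¹ ∈ Subgroup.zpowers w := by
    have := Cfsg.Agent.Lib.Helper1.conj_mem_conj_smul (k⁻¹ * s) w _ (Subgroup.mem_zpowers w)
    rwa [hs'] at this
  have h2 : w * ((k⁻¹ * s) * w * (k⁻¹ * s)⁻¹) ∈ D := by
    have e : w * ((k⁻¹ * s) * w * (k⁻¹ * s)⁻¹) = (w * k⁻¹ * w⁻¹) * (w * (s * w * s⁻¹)) * k := by
      group
    rw [e]
    exact D.mul_mem (D.mul_mem (conj_mem_of_mem_normalizer hw (D.inv_mem hkD)) h) hkD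
  have h3 : w * ((k⁻¹ * s) * w * (k⁻¹ * s)⁻¹) ∈ D ⊓ Subgroup.zpowers w :=
    ⟨h2, Subgroup.mul_mem _ (Subgroup.mem_zpowers w) h1⟩
  rw [Cfsg.Agent.Lib.Helper1.inf_eq_bot_of_coprime_card hcop, Subgroup.mem_bot] at h3
  rw [isConj_iff]
  exact ⟨k⁻¹ * s, eq_inv_of_mul_eq_one_right h3⟩

/-- A finite group G has no non-identity element of odd order that is conjugate to its inverse if and only if the Sylow 2-subgroups of G are normal. -/
theorem result {G : Type*} [Group G] [Finite G] (P : Sylow 2 G) : (∀ x : G, x ≠ 1 → Odd (orderOf x) → ¬ IsConj x x⁻¹) ↔ (P : Subgroup G).Normal := by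
  classical
  haveI : Fact (Nat.Prime 2) := ⟨Nat.prime_two⟩
  constructor
  · intro hreal
    by_contra hPn
    have hex : ∃ Q : Sylow 2 G, Q ≠ P := by
      by_contra hall
      push Not at hall
      apply hPn
      constructor
      intro n hn g
      have h1 : g • P = P := hall (g • P)
      have h2 : g * n * g⁻¹ ∈ ((g • P : Sylow 2 G) : Subgroup G) := by
        rw [Sylow.coe_subgroup_smul]
        exact Cfsg.Agent.Lib.Helper1.conj_mem_conj_smul g n _ hn
      rwa [h1] at h2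
    obtain ⟨Q₀, hQ₀⟩ := hex
    obtain ⟨⟨P', Q'⟩, hPQ, hmax⟩ := Set.exists_max_image
      {pq : Sylow 2 G × Sylow 2 G | pq.1 ≠ pq.2}
      (fun pq => Nat.card ↥((pq.1 : Subgroup G) ⊓ (pq.2 : Subgroup G)))
      (Set.toFinite _) ⟨(Q₀, P), hQ₀⟩
    have hPQ' : P' ≠ Q' := hPQ
    have hmax' : ∀ R₁ R₂ : Sylow 2 G, R₁ ≠ R₂ →
        Nat.card ↥((R₁ : Subgroup G) ⊓ (R₂ : Subgroup G)) ≤
          Nat.card ↥((P' : Subgroup G) ⊓ (Q' : Subgroup G)) := fun R₁ R₂ h => hmax (R₁, R₂) h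
    have hD2 : IsPGroup 2 ↥((P' : Subgroup G) ⊓ (Q' : Subgroup G)) := P'.isPGroup'.to_le inf_le_left
    have hDP : (P' : Subgroup G) ⊓ (Q' : Subgroup G) < (P' : Subgroup G) := by
      refine lt_of_le_of_ne inf_le_left ?_
      intro heq
      apply hPQ'
      have hle : (P' : Subgroup G) ≤ (Q' : Subgroup G) := inf_eq_left.mp heq
      exact Sylow.ext (P'.is_maximal' Q'.isPGroup' hle).symm
    have hDQ : (P' : Subgroup G) ⊓ (Q' : Subgroup G) < (Q' : Subgroup G) := by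
      refine lt_of_le_of_ne inf_le_right ?_
      intro heq
      apply hPQ'
      have hle : (Q' : Subgroup G) ≤ (P' : Subgroup G) := inf_eq_right.mp heq
      exact Sylow.ext (Q'.is_maximal' P'.isPGroup' hle)
    -- elements s, t
    have hst : ∀ R : Sylow 2 G, (P' : Subgroup G) ⊓ (Q' : Subgroup G) < (R : Subgroup G) →
        ∃ s ∈ (R : Subgroup G), s ∉ (P' : Subgroup G) ⊓ (Q' : Subgroup G) ∧
          s ∈ Subgroup.normalizer ((((P' : Subgroup G) ⊓ (Q' : Subgroup G) : Subgroup G)) : Set G) ∧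
          s ^ 2 ∈ (P' : Subgroup G) ⊓ (Q' : Subgroup G) := by
      intro R hR
      obtain ⟨u, huR, huD, huN⟩ :=
        Cfsg.Agent.Lib.Helper1.exists_mem_normalizer_not_mem R.isPGroup' hR
      have hu2 : ∃ k : ℕ, u ^ (2 ^ k) = 1 := by
        obtain ⟨k, hk⟩ := R.isPGroup' ⟨u, huR⟩
        exact ⟨k, by simpa using congrArg Subtype.val hk⟩
      obtain ⟨j, hj1, hj2⟩ := exists_sq_mem _ hu2 huD
      exact ⟨u ^ (2 ^ j), Subgroup.pow_mem _ huR _, hj1, Subgroup.pow_mem _ huN _, hj2⟩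
    obtain ⟨s, hsP, hsD, hsN, hs2⟩ := hst P' hDP
    obtain ⟨t, htQ, htD, htN, ht2⟩ := hst Q' hDQ
    have hyN : s * t ∈ Subgroup.normalizer
        ((((P' : Subgroup G) ⊓ (Q' : Subgroup G) : Subgroup G)) : Set G) := Subgroup.mul_mem _ hsN htN
    have hy5 : (s * t) * (s * (s * t) * s⁻¹) ∈ (P' : Subgroup G) ⊓ (Q' : Subgroup G) := by
      have e : (s * t) * (s * (s * t) * s⁻¹) = s * ((t * (s * s) * t⁻¹) * (t * t)) * s⁻¹ := by
        group
      rw [e]
      rw [pow_two] at hs2 ht2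
      exact conj_mem_of_mem_normalizer hsN
        (Subgroup.mul_mem _ (conj_mem_of_mem_normalizer htN hs2) ht2)
    have hyj : ∀ j : ℕ, (s * t) ^ j * (s * (s * t) ^ j * s⁻¹) ∈ (P' : Subgroup G) ⊓ (Q' : Subgroup G) := by
      intro j
      have h1 := pow_congr_mod ((P' : Subgroup G) ⊓ (Q' : Subgroup G)) (a := (s * t)⁻¹)
        (b := s * (s * t) * s⁻¹) (Subgroup.inv_mem _ hyN) (by rw [inv_inv]; exact hy5) j
      rw [inv_pow, inv_inv, conj_pow] at h1
      exact h1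
    obtain ⟨a, m, hm, ho⟩ := Nat.exists_eq_pow_mul_and_not_dvd (orderOf_pos (s * t)).ne' 2
      (by norm_num)
    have hmodd : Odd m := Nat.not_even_iff_odd.mp (fun h => hm (even_iff_two_dvd.mp h))
    have hwm : ((s * t) ^ (2 ^ a)) ^ m = 1 := by
      rw [← pow_mul, ← ho]; exact pow_orderOf_eq_one _
    have hwodd : Odd (orderOf ((s * t) ^ (2 ^ a))) :=
      Odd.of_dvd_nat hmodd (orderOf_dvd_of_pow_eq_one hwm)
    by_cases hw1 : (s * t) ^ (2 ^ a) = 1
    · -- ⟨D, s, t⟩ is a 2-group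
      have hyp : IsPGroup 2 (Subgroup.zpowers (s * t)) := by
        obtain ⟨b, -, hb⟩ := (Nat.dvd_prime_pow Nat.prime_two).mp (orderOf_dvd_of_pow_eq_one hw1)
        exact IsPGroup.of_card (n := b) (by rw [Nat.card_zpowers, hb])
      have hY : IsPGroup 2 ↥(Subgroup.zpowers (s * t) ⊔ ((P' : Subgroup G) ⊓ (Q' : Subgroup G))) :=
        IsPGroup.to_sup_of_normal_right' hyp hD2 (Subgroup.zpowers_le.mpr hyN)
      have hsY : s ∈ Subgroup.normalizer
          (((Subgroup.zpowers (s * t) ⊔ ((P' : Subgroup G) ⊓ (Q' : Subgroup G)) : Subgroup G)) : Set G) := by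
        rw [mem_normalizer_iff_map]
        apply Subgroup.eq_of_le_of_card_ge
        · rw [Subgroup.map_sup, MonoidHom.map_zpowers, (mem_normalizer_iff_map _ s).mp hsN]
          apply sup_le _ le_sup_right
          rw [Subgroup.zpowers_le]
          show s * (s * t) * s⁻¹ ∈ _
          have e2 : s * (s * t) * s⁻¹ = (s * t)⁻¹ * ((s * t) * (s * (s * t) * s⁻¹)) := by group
          rw [e2]
          exact Subgroup.mul_mem _
            (le_sup_left (b := (P' : Subgroup G) ⊓ (Q' : Subgroup G))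
              (Subgroup.inv_mem _ (Subgroup.mem_zpowers (s * t))))
            (le_sup_right (a := Subgroup.zpowers (s * t)) hy5)
        · rw [card_map_conj]
      have hsp : IsPGroup 2 (Subgroup.zpowers s) :=
        P'.isPGroup'.to_le (Subgroup.zpowers_le.mpr hsP)
      have hT : IsPGroup 2 ↥(Subgroup.zpowers s ⊔
          (Subgroup.zpowers (s * t) ⊔ ((P' : Subgroup G) ⊓ (Q' : Subgroup G)))) :=
        IsPGroup.to_sup_of_normal_right' hsp hY (Subgroup.zpowers_le.mpr hsY)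
      obtain ⟨R, hTR⟩ := hT.exists_le_sylow
      have hsR : s ∈ (R : Subgroup G) := hTR (le_sup_left (a := Subgroup.zpowers s) (Subgroup.mem_zpowers s))
      have hyR : s * t ∈ (R : Subgroup G) :=
        hTR (le_sup_right (a := Subgroup.zpowers s)
          (le_sup_left (b := (P' : Subgroup G) ⊓ (Q' : Subgroup G)) (Subgroup.mem_zpowers (s * t))))
      have hDR : (P' : Subgroup G) ⊓ (Q' : Subgroup G) ≤ (R : Subgroup G) :=
        le_trans (le_trans le_sup_right le_sup_right) hTR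
      have htR : t ∈ (R : Subgroup G) := by
        have e : t = s⁻¹ * (s * t) := by group
        rw [e]; exact Subgroup.mul_mem _ (Subgroup.inv_mem _ hsR) hyR
      have key : ∀ (S : Sylow 2 G) (z : G), z ∈ (R : Subgroup G) → z ∈ (S : Subgroup G) →
          z ∉ (P' : Subgroup G) ⊓ (Q' : Subgroup G) →
          (P' : Subgroup G) ⊓ (Q' : Subgroup G) ≤ (S : Subgroup G) → R = S := by
        intro S z hzR hzS hzD hDS
        by_contra hne
        have h1 := hmax' R S hne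
        have hlt : (P' : Subgroup G) ⊓ (Q' : Subgroup G) < (R : Subgroup G) ⊓ (S : Subgroup G) := by
          refine lt_of_le_of_ne (le_inf hDR hDS) ?_
          intro heq
          exact hzD (heq ▸ ⟨hzR, hzS⟩)
        have := card_lt_card_of_lt hlt
        omega
      have hRP := key P' s hsR hsP hsD inf_le_left
      have hRQ := key Q' t htR htQ htD inf_le_right
      exact hPQ' (hRP.symm.trans hRQ)
    · exact hreal _ hw1 hwodd
        (isConj_inv_of_mod _ hD2 (Subgroup.pow_mem _ hyN _) hwodd (hyj (2 ^ a)))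
  · intro hPn x hx1 hxodd hconj
    haveI := hPn
    obtain ⟨g, hg⟩ := isConj_iff.mp hconj
    obtain ⟨a, m, hm, ho⟩ := Nat.exists_eq_pow_mul_and_not_dvd (orderOf_pos g).ne' 2 (by norm_num)
    have hg2 : Commute (g ^ 2) x := by
      have e1 : g * x = x⁻¹ * g := by rw [← hg]; group
      have e2 : g * x⁻¹ = x * g := by
        have h1 : g * x⁻¹ * g⁻¹ = x := by
          have h2 : g * x⁻¹ * g⁻¹ = (g * x * g⁻¹)⁻¹ := by group
          rw [h2, hg, inv_inv]
        calc g * x⁻¹ = (g * x⁻¹ * g⁻¹) * g := by group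
          _ = x * g := by rw [h1]
      show g ^ 2 * x = x * g ^ 2
      calc g ^ 2 * x = g * (g * x) := by rw [pow_two, mul_assoc]
        _ = g * (x⁻¹ * g) := by rw [e1]
        _ = (g * x⁻¹) * g := by rw [mul_assoc]
        _ = (x * g) * g := by rw [e2]
        _ = x * g ^ 2 := by rw [pow_two, mul_assoc]
    have hmodd : Odd m := Nat.not_even_iff_odd.mp (fun h => hm (even_iff_two_dvd.mp h))
    obtain ⟨i, hi⟩ := hmodd
    have ht : g ^ m * x * (g ^ m)⁻¹ = x⁻¹ := by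
      have hc : Commute ((g ^ 2) ^ i) x := hg2.pow_left i
      have e3 : g ^ m = (g ^ 2) ^ i * g := by rw [hi, pow_succ, pow_mul]
      rw [e3]
      calc (g ^ 2) ^ i * g * x * ((g ^ 2) ^ i * g)⁻¹
          = (g ^ 2) ^ i * (g * x * g⁻¹) * ((g ^ 2) ^ i)⁻¹ := by group
        _ = (g ^ 2) ^ i * x⁻¹ * ((g ^ 2) ^ i)⁻¹ := by rw [hg]
        _ = x⁻¹ := by rw [(hc.inv_right).eq]; group
    have htP : g ^ m ∈ (P : Subgroup G) := by
      have h1 : (g ^ m) ^ (2 ^ a) = 1 := by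
        rw [← pow_mul, mul_comm, ← ho]; exact pow_orderOf_eq_one g
      have h2 : IsPGroup 2 (Subgroup.zpowers (g ^ m)) := by
        obtain ⟨b, -, hb⟩ := (Nat.dvd_prime_pow Nat.prime_two).mp (orderOf_dvd_of_pow_eq_one h1)
        exact IsPGroup.of_card (n := b) (by rw [Nat.card_zpowers, hb])
      obtain ⟨Q, hQ⟩ := h2.exists_le_sylow
      obtain ⟨h, rfl⟩ := MulAction.exists_smul_eq G P Q
      rw [Sylow.smul_eq_of_normal] at hQ
      exact hQ (Subgroup.mem_zpowers _)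
    have hc : x⁻¹ * x⁻¹ ∈ (P : Subgroup G) := by
      have h1 : g ^ m * (x * (g ^ m)⁻¹ * x⁻¹) ∈ (P : Subgroup G) :=
        Subgroup.mul_mem _ htP (hPn.conj_mem _ (Subgroup.inv_mem _ htP) x)
      have e : g ^ m * (x * (g ^ m)⁻¹ * x⁻¹) = (g ^ m * x * (g ^ m)⁻¹) * x⁻¹ := by group
      rw [e, ht] at h1
      exact h1
    have hx2 : x ^ 2 ∈ (P : Subgroup G) := by
      have e : x ^ 2 = (x⁻¹ * x⁻¹)⁻¹ := by group
      rw [e]; exact Subgroup.inv_mem _ hc
    obtain ⟨j, hj⟩ := P.isPGroup' ⟨x ^ 2, hx2⟩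
    have hj' : x ^ (2 ^ (j + 1)) = 1 := by
      have h1 : (x ^ 2) ^ (2 ^ j) = 1 := by simpa using congrArg Subtype.val hj
      rw [pow_succ, mul_comm, pow_mul]; exact h1
    have hd := orderOf_dvd_of_pow_eq_one hj'
    have hcop : (orderOf x).Coprime (2 ^ (j + 1)) :=
      Nat.Coprime.pow_right _ (Nat.coprime_two_right.mpr hxodd)
    have h1 : orderOf x = 1 := Nat.Coprime.eq_one_of_dvd hcop hd
    exact hx1 (orderOf_eq_one_iff.mp h1)

end Cfsg.Agent.S3861
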