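import Cfsg.Statements.S3862
import Mathlib
import Cfsg.Agent.Lib.Helper1.FrobPC

set_option autoImplicit false
open Cfsg

namespace Cfsg.Agent.S3862

/-- If every 2-element of the finite group G that is conjugate to its inverse lies in the centre of G, then G has a normal 2-complement. -/
theorem result {G : Type*} [Group G] [Finite G] (h : ∀ x : G, (∃ j : ℕ, orderOf x = 2 ^ j) → IsConj x x⁻¹ → x ∈ Subgroup.center G) : Cfsg.HasNormalPComplement 2 G := by
  classical
  haveI : Fact (Nat.Prime 2) := ⟨Nat.prime_two⟩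
  have hF : Lib.Helper1.FrobCond 2 G := by
    intro Q hQ g hg hcop
    have hord : ∀ u ∈ Q, ∃ i, orderOf u = 2 ^ i := by
      intro u huQ
      obtain ⟨i, hi⟩ := hQ ⟨u, huQ⟩
      have h1 : u ^ (2 ^ i) = 1 := by simpa using congrArg Subtype.val hi
      obtain ⟨i', -, hi'⟩ := (Nat.dvd_prime_pow Nat.prime_two).mp (orderOf_dvd_of_pow_eq_one h1)
      exact ⟨i', hi'⟩
    have key : ∀ j : ℕ, ∀ x ∈ Q, orderOf x = 2 ^ j → g * x * g⁻¹ = x := by
      intro j
      induction j with
      | zero =>
        intro x hx hox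
        rw [pow_zero, orderOf_eq_one_iff] at hox
        rw [hox]
        group
      | succ j ih =>
        intro x hxQ hox
        have hx2 : orderOf (x ^ 2) = 2 ^ j := by
          rw [orderOf_pow' x two_ne_zero, hox]
          have h1 : (2 ^ (j + 1)).gcd 2 = 2 :=
            Nat.gcd_eq_right (dvd_pow_self 2 (Nat.succ_ne_zero j))
          rw [h1, pow_succ, Nat.mul_div_cancel _ (by norm_num)]
        have h1 := ih (x ^ 2) (Q.pow_mem hxQ 2) hx2
        have hyQ : g * x * g⁻¹ ∈ Q := (Subgroup.mem_normalizer_iff.mp hg x).mp hxQ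
        have hy2 : (g * x * g⁻¹) ^ 2 = x ^ 2 := by
          rw [conj_pow]
          exact h1
        have hyy : (g * x * g⁻¹) * (g * x * g⁻¹) = x * x := by
          rw [← pow_two, ← pow_two]
          exact hy2
        obtain ⟨u, hu⟩ : ∃ u, u = x⁻¹ * (g * x * g⁻¹) := ⟨_, rfl⟩
        have huQ : u ∈ Q := by
          rw [hu]
          exact Q.mul_mem (Q.inv_mem hxQ) hyQ
        have huconj : IsConj u u⁻¹ := by
          rw [isConj_iff]
          refine ⟨(g * x * g⁻¹)⁻¹, ?_⟩
          rw [hu]
          calc (g * x * g⁻¹)⁻¹ * (x⁻¹ * (g * x * g⁻¹)) * (g * x * g⁻¹)⁻¹⁻¹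
              = (g * x * g⁻¹)⁻¹ * x⁻¹ * ((g * x * g⁻¹) * (g * x * g⁻¹)) := by
                rw [inv_inv]
                simp only [mul_assoc]
            _ = (g * x * g⁻¹)⁻¹ * x⁻¹ * (x * x) := by rw [hyy]
            _ = (x⁻¹ * (g * x * g⁻¹))⁻¹ := by group
        have huord := hord u huQ
        have hucen := h u huord huconj
        have hgx : g * x * g⁻¹ = x * u := by
          rw [hu]
          group
        have hpow : ∀ k : ℕ, g ^ k * x * (g ^ k)⁻¹ = x * u ^ k := by
          intro k
          induction k with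
          | zero => simp
          | succ k ihk =>
            have e1 : g ^ (k + 1) * x * (g ^ (k + 1))⁻¹ = g * (g ^ k * x * (g ^ k)⁻¹) * g⁻¹ := by
              rw [pow_succ']
              group
            have hcomm : g * u ^ k = u ^ k * g :=
              Subgroup.mem_center_iff.mp (Subgroup.pow_mem _ hucen k) g
            rw [e1, ihk]
            calc g * (x * u ^ k) * g⁻¹ = (g * x * g⁻¹) * (g * u ^ k * g⁻¹) := by group
              _ = (x * u) * (u ^ k) := by rw [hgx, hcomm, mul_inv_cancel_right]
              _ = x * u ^ (k + 1) := by rw [pow_succ', mul_assoc]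
        have h2 := hpow (orderOf g)
        rw [pow_orderOf_eq_one, one_mul, inv_one, mul_one] at h2
        have h3 : u ^ orderOf g = 1 := mul_eq_left.mp h2.symm
        obtain ⟨i, hi⟩ := huord
        have h4 : orderOf u ∣ orderOf g := orderOf_dvd_of_pow_eq_one h3
        have h5 : orderOf u = 1 := by
          rw [hi] at h4 ⊢
          exact Nat.Coprime.eq_one_of_dvd (Nat.Coprime.pow_left i hcop.symm) h4
        rw [orderOf_eq_one_iff] at h5
        rw [hgx, h5, mul_one]
    rw [Subgroup.mem_centralizer_iff]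
    intro x hxQ
    obtain ⟨j, hj⟩ := hord x hxQ
    have h1 := key j x hxQ hj
    calc x * g = (g * x * g⁻¹) * g := by rw [h1]
      _ = g * x := by group
  obtain ⟨P⟩ := (inferInstance : Nonempty (Sylow 2 G))
  exact ⟨P, Cfsg.pResidual 2 G, Lib.Helper1.pResidual_normal 2,
    Lib.Helper1.frobCond_isComplement' hF P⟩

end Cfsg.Agent.S3862
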