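import Cfsg.Statements.S3863
import Mathlib

set_option autoImplicit false
open Cfsg

namespace Cfsg.Agent.S3863

/-- Let x be an element of the finite group G that is conjugate to its inverse. Then some 2-element conjugates x to its inverse; if the conjugacy class of x has odd size then x ^ 2 = 1; and x lies in, and is conjugate to its inverse inside, every normal subgroup of odd index. -/
theorem result {G : Type*} [Group G] [Finite G] (x : G) (hx : IsConj x x⁻¹) : (∃ t : G, (∃ j : ℕ, orderOf t = 2 ^ j) ∧ t * x * t⁻¹ = x⁻¹) ∧ (Odd (Subgroup.centralizer ({x} : Set G)).index → x ^ 2 = 1) ∧ ∀ (N : Subgroup G) [N.Normal], Odd N.index → ∃ hxN : x ∈ N, IsConj (⟨x, hxN⟩ : N) (⟨x, hxN⟩ : N)⁻¹ := by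
  classical
  obtain ⟨g, hg⟩ := isConj_iff.mp hx
  have h1 : g * x = x⁻¹ * g := by
    rw [← hg]; group
  have hinvconj : ∀ t : G, t * x * t⁻¹ = x⁻¹ → x = t * x⁻¹ * t⁻¹ := by
    intro t ht
    calc x = (x⁻¹)⁻¹ := (inv_inv x).symm
      _ = (t * x * t⁻¹)⁻¹ := by rw [ht]
      _ = t * x⁻¹ * t⁻¹ := by group
  have h2 : g * x⁻¹ = x * g := by
    have := hinvconj g hg
    conv_rhs => rw [this]
    group
  have hc : Commute (g ^ 2) x := by
    show g ^ 2 * x = x * g ^ 2
    rw [pow_two, mul_assoc, h1, ← mul_assoc, h2, mul_assoc]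
  have hg0 : orderOf g ≠ 0 := (orderOf_pos g).ne'
  obtain ⟨k, m, hm, hkm⟩ := Nat.exists_eq_two_pow_mul_odd hg0
  have ht_ord : orderOf (g ^ m) = 2 ^ k := by
    have hdvd : 2 ^ k ∣ orderOf g := Dvd.intro _ hkm.symm
    have := orderOf_pow_orderOf_div hg0 hdvd
    have hdiv : orderOf g / 2 ^ k = m := by
      rw [hkm]
      exact Nat.mul_div_cancel_left _ (by positivity)
    rw [hdiv] at this
    exact this
  have ht_conj : g ^ m * x * (g ^ m)⁻¹ = x⁻¹ := by
    obtain ⟨i, rfl⟩ := hm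
    have hci : Commute ((g ^ 2) ^ i) x⁻¹ := (hc.pow_left i).inv_right
    have e : g ^ (2 * i + 1) = (g ^ 2) ^ i * g := by
      rw [pow_succ, pow_mul]
    rw [e]
    calc (g ^ 2) ^ i * g * x * ((g ^ 2) ^ i * g)⁻¹
        = (g ^ 2) ^ i * (g * x * g⁻¹) * ((g ^ 2) ^ i)⁻¹ := by group
      _ = (g ^ 2) ^ i * x⁻¹ * ((g ^ 2) ^ i)⁻¹ := by rw [hg]
      _ = x⁻¹ * (g ^ 2) ^ i * ((g ^ 2) ^ i)⁻¹ := by rw [hci.eq]
      _ = x⁻¹ := by group
  refine ⟨⟨g ^ m, ⟨k, ht_ord⟩, ht_conj⟩, ?_, ?_⟩
  · intro hodd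
    -- the class of x has odd size; inversion acts on it
    have hcard : Nat.card {y : G // IsConj x y}
        = (Subgroup.centralizer ({x} : Set G)).index := by
      have e1 : {y : G | IsConj x y} = MulAction.orbit (ConjAct G) x := by
        ext h
        rw [ConjAct.mem_orbit_conjAct]
        exact ⟨fun h' => h'.symm, fun h' => h'.symm⟩
      have e2 : Nat.card {y : G // IsConj x y} = (MulAction.orbit (ConjAct G) x).ncard := by
        rw [← e1]; rfl
      rw [e2, ← MulAction.index_stabilizer, Subgroup.centralizer_eq_comap_stabilizer]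
      exact (Subgroup.index_comap_of_surjective _ ConjAct.toConjAct.surjective).symm
    have hinv : ∀ y : G, IsConj x y → IsConj x y⁻¹ := by
      intro y hy
      obtain ⟨c, hcy⟩ := isConj_iff.mp hy
      refine hx.trans (isConj_iff.mpr ⟨c, ?_⟩)
      rw [← hcy]; group
    let σ : Equiv.Perm {y : G // IsConj x y} :=
      { toFun := fun y => ⟨y.1⁻¹, hinv y.1 y.2⟩
        invFun := fun y => ⟨y.1⁻¹, hinv y.1 y.2⟩
        left_inv := fun y => Subtype.ext (inv_inv _)
        right_inv := fun y => Subtype.ext (inv_inv _) }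
    have hσ : σ ^ 2 ^ 1 = 1 := by
      ext y
      simp [pow_two, σ]
    haveI : Fintype {y : G // IsConj x y} := Fintype.ofFinite _
    haveI : Fact (Nat.Prime 2) := ⟨Nat.prime_two⟩
    have hnd : ¬ 2 ∣ Fintype.card {y : G // IsConj x y} := by
      rw [← Nat.card_eq_fintype_card, hcard]
      exact hodd.not_two_dvd_nat
    obtain ⟨⟨y, hy⟩, hfix⟩ := Equiv.Perm.exists_fixed_point_of_prime hnd hσ
    have hy1 : y⁻¹ = y := congrArg Subtype.val hfix
    have hy2 : y ^ 2 = 1 := by
      rw [pow_two]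
      nth_rewrite 1 [← hy1]
      exact inv_mul_cancel y
    obtain ⟨c, hcy⟩ := isConj_iff.mp hy
    have : x = c⁻¹ * y * c := by rw [← hcy]; group
    rw [this]
    calc (c⁻¹ * y * c) ^ 2 = c⁻¹ * y ^ 2 * c := by rw [pow_two, pow_two]; group
      _ = 1 := by rw [hy2]; group
  · intro N hN hodd
    have key : ∀ (a : G) (j : ℕ), a ^ (2 ^ j) ∈ N → a ∈ N := by
      intro a j ha
      have h1 : (QuotientGroup.mk a : G ⧸ N) ^ (2 ^ j) = 1 := by
        rw [← QuotientGroup.mk_pow]
        exact (QuotientGroup.eq_one_iff _).mpr ha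
      have h2 : orderOf (QuotientGroup.mk a : G ⧸ N) ∣ 2 ^ j := orderOf_dvd_of_pow_eq_one h1
      have h3 : orderOf (QuotientGroup.mk a : G ⧸ N) ∣ N.index := by
        rw [Subgroup.index]
        exact orderOf_dvd_natCard _
      have hcop : Nat.Coprime (2 ^ j) N.index :=
        Nat.Coprime.pow_left j (Nat.coprime_two_left.mpr hodd)
      have h4 : orderOf (QuotientGroup.mk a : G ⧸ N) = 1 :=
        Nat.eq_one_of_dvd_coprimes hcop h2 h3
      rw [orderOf_eq_one_iff] at h4
      exact (QuotientGroup.eq_one_iff _).mp h4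
    have htN : g ^ m ∈ N := by
      apply key (g ^ m) k
      rw [← ht_ord, pow_orderOf_eq_one]
      exact N.one_mem
    have hxN : x ∈ N := by
      apply key x 1
      have e : x ^ 2 ^ 1 = (x * (g ^ m) * x⁻¹) * (g ^ m)⁻¹ := by
        have : x = (g ^ m) * x⁻¹ * (g ^ m)⁻¹ := hinvconj _ ht_conj
        rw [pow_one, pow_two]
        nth_rewrite 2 [this]
        group
      rw [e]
      exact N.mul_mem (hN.conj_mem _ htN x) (N.inv_mem htN)
    refine ⟨hxN, isConj_iff.mpr ⟨⟨g ^ m, htN⟩, ?_⟩⟩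
    apply Subtype.ext
    simpa using ht_conj

end Cfsg.Agent.S3863
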