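import Mathlib
import Cfsg.Statements.S3864
import Cfsg.Agent.Lib.Helper20.TransferInv

set_option autoImplicit false
open Cfsg

namespace Cfsg.Agent.S3864

open DihedralGroup
open Cfsg.Agent.Lib.Helper20.TransferInv

theorem zid1 : ∀ c a b d : ZMod 2, c * (b - a) + d = c * a + (c * b + d) := by decide
theorem zid2 : ∀ c a b d : ZMod 2, c * (b - a) = (c * a + d) + (c * b + d) := by decide
theorem zsq : ∀ x : Multiplicative (ZMod 2), x * x = 1 := by decide

/-- The linear characters of an even dihedral group. -/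
def chi {m : ℕ} (h2 : 2 ∣ m) (c d : ZMod 2) : DihedralGroup m →* Multiplicative (ZMod 2) where
  toFun x := match x with
    | r i => Multiplicative.ofAdd (c * ZMod.castHom h2 (ZMod 2) i)
    | sr i => Multiplicative.ofAdd (c * ZMod.castHom h2 (ZMod 2) i + d)
  map_one' := by
    show Multiplicative.ofAdd (c * ZMod.castHom h2 (ZMod 2) 0) = 1
    rw [map_zero, mul_zero]; rfl
  map_mul' := by
    rintro (i | i) (j | j)
    · show Multiplicative.ofAdd (c * ZMod.castHom h2 (ZMod 2) (i + j))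
        = Multiplicative.ofAdd (c * ZMod.castHom h2 (ZMod 2) i)
          * Multiplicative.ofAdd (c * ZMod.castHom h2 (ZMod 2) j)
      rw [← ofAdd_add]
      congr 1
      rw [RingHom.map_add]; ring
    · show Multiplicative.ofAdd (c * ZMod.castHom h2 (ZMod 2) (j - i) + d)
        = Multiplicative.ofAdd (c * ZMod.castHom h2 (ZMod 2) i)
          * Multiplicative.ofAdd (c * ZMod.castHom h2 (ZMod 2) j + d)
      rw [← ofAdd_add]
      congr 1
      rw [RingHom.map_sub, zid1]
    · show Multiplicative.ofAdd (c * ZMod.castHom h2 (ZMod 2) (i + j) + d)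
        = Multiplicative.ofAdd (c * ZMod.castHom h2 (ZMod 2) i + d)
          * Multiplicative.ofAdd (c * ZMod.castHom h2 (ZMod 2) j)
      rw [← ofAdd_add]
      congr 1
      rw [RingHom.map_add]; ring
    · show Multiplicative.ofAdd (c * ZMod.castHom h2 (ZMod 2) (j - i))
        = Multiplicative.ofAdd (c * ZMod.castHom h2 (ZMod 2) i + d)
          * Multiplicative.ofAdd (c * ZMod.castHom h2 (ZMod 2) j + d)
      rw [← ofAdd_add]
      congr 1
      rw [RingHom.map_sub, zid2]

theorem chi_r {m : ℕ} (h2 : 2 ∣ m) (c d : ZMod 2) (i : ZMod m) :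
    chi h2 c d (r i) = Multiplicative.ofAdd (c * ZMod.castHom h2 (ZMod 2) i) := rfl

theorem chi_sr {m : ℕ} (h2 : 2 ∣ m) (c d : ZMod 2) (i : ZMod m) :
    chi h2 c d (sr i) = Multiplicative.ofAdd (c * ZMod.castHom h2 (ZMod 2) i + d) := rfl

/-- elements of even parity are doubles -/
theorem par_zero {m : ℕ} [NeZero m] (h2 : 2 ∣ m) (x : ZMod m)
    (hx : ZMod.castHom h2 (ZMod 2) x = 0) : ∃ j : ZMod m, x = 2 * j := by
  have h1 : ((x.val : ℕ) : ZMod 2) = 0 := by
    rw [← hx, ← map_natCast (ZMod.castHom h2 (ZMod 2)), ZMod.natCast_zmod_val]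
  rw [ZMod.natCast_eq_zero_iff] at h1
  obtain ⟨j, hj⟩ := h1
  refine ⟨(j : ZMod m), ?_⟩
  rw [← ZMod.natCast_zmod_val x, hj]
  push_cast
  rfl

theorem z2_cases' : ∀ x : ZMod 2, x = 0 ∨ x = 1 := by decide

/-- The swap automorphism. -/
def alpha (m : ℕ) : DihedralGroup m ≃* DihedralGroup m where
  toFun x := match x with
    | r i => r (-i)
    | sr i => sr (1 - i)
  invFun x := match x with
    | r i => r (-i)
    | sr i => sr (1 - i)
  left_inv := by
    rintro (i | i)
    · show r (- -i) = r i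
      rw [neg_neg]
    · show sr (1 - (1 - i)) = sr i
      rw [sub_sub_cancel]
  right_inv := by
    rintro (i | i)
    · show r (- -i) = r i
      rw [neg_neg]
    · show sr (1 - (1 - i)) = sr i
      rw [sub_sub_cancel]
  map_mul' := by
    rintro (i | i) (j | j)
    · show r (-(i + j)) = r (-i) * r (-j)
      rw [r_mul_r, neg_add]
    · show sr (1 - (j - i)) = r (-i) * sr (1 - j)
      rw [r_mul_sr]; congr 1; ring
    · show sr (1 - (i + j)) = sr (1 - i) * r (-j)
      rw [sr_mul_r]; congr 1; ring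
    · show r (-(j - i)) = sr (1 - i) * sr (1 - j)
      rw [sr_mul_sr]; congr 1; ring

theorem alpha_symm_sr (m : ℕ) (i : ZMod m) : (alpha m).symm (sr i) = sr (1 - i) := rfl
theorem alpha_symm_r (m : ℕ) (i : ZMod m) : (alpha m).symm (r i) = r (-i) := rfl

theorem half_double {m : ℕ} (h2 : 2 ∣ m) : ((m / 2 : ℕ) : ZMod m) * 2 = 0 := by
  have : (((m / 2) * 2 : ℕ) : ZMod m) = 0 := by
    rw [Nat.div_mul_cancel h2]; exact ZMod.natCast_self m
  push_cast at this
  exact this

theorem neg_half {m : ℕ} (h2 : 2 ∣ m) : -((m / 2 : ℕ) : ZMod m) = ((m / 2 : ℕ) : ZMod m) := by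
  have h := half_double h2
  rw [mul_two] at h
  exact neg_eq_of_add_eq_zero_left h

/-- Involutions of an even dihedral group. -/
theorem invol_cases {m : ℕ} [NeZero m] (h2 : 2 ∣ m) (x : DihedralGroup m) (hx : orderOf x = 2) :
    x = r ((m / 2 : ℕ) : ZMod m) ∨ ∃ i, x = sr i := by
  rcases x with i | i
  · left
    have h1 : (r i : DihedralGroup m) ^ 2 = 1 := by rw [← hx]; exact pow_orderOf_eq_one _
    rw [r_pow, one_def] at h1
    have h2' : i * ((2 : ℕ) : ZMod m) = 0 := by injection h1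
    have h3 : i ≠ 0 := by
      rintro rfl
      rw [r_zero, orderOf_one] at hx
      omega
    have h4 : ((i.val * 2 : ℕ) : ZMod m) = 0 := by
      push_cast; rw [ZMod.natCast_zmod_val]; exact_mod_cast h2'
    rw [ZMod.natCast_eq_zero_iff] at h4
    have h5 : i.val < m := ZMod.val_lt i
    have h6 : i.val ≠ 0 := by rwa [Ne, ZMod.val_eq_zero]
    obtain ⟨c, hc⟩ := h4
    have hc1 : c = 1 := by
      rcases c with _ | _ | c
      · omega
      · rfl
      · nlinarith
    rw [hc1, mul_one] at hc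
    congr 1
    rw [← ZMod.natCast_zmod_val i]
    congr 1
    omega
  · right; exact ⟨i, rfl⟩

theorem orderOf_half {m : ℕ} [NeZero m] (h2 : 2 ∣ m) :
    orderOf (r ((m / 2 : ℕ) : ZMod m)) = 2 := by
  have : Fact (Nat.Prime 2) := ⟨Nat.prime_two⟩
  apply orderOf_eq_prime
  · rw [r_pow, one_def]
    congr 1
    exact_mod_cast half_double h2
  · rw [one_def]
    intro h
    have h1 : ((m / 2 : ℕ) : ZMod m) = 0 := by injection h
    rw [ZMod.natCast_eq_zero_iff] at h1
    have hm : 0 < m := Nat.pos_of_ne_zero (NeZero.ne m)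
    have := Nat.le_of_dvd (Nat.div_pos (Nat.le_of_dvd hm h2) (by norm_num)) h1
    omega

/-- conjugating reflections -/
theorem conj_sr {m : ℕ} (i j : ZMod m) : r j * sr i * (r j)⁻¹ = sr (i - 2 * j) := by
  rw [r_mul_sr, inv_r, sr_mul_r]; congr 1; ring

theorem conj_sr_one {m : ℕ} [NeZero m] (h2 : 2 ∣ m) (i : ZMod m)
    (h : chi h2 1 1 (sr i) = 1) : ∃ d : DihedralGroup m, d * sr i * d⁻¹ = sr 1 := by
  rw [chi_sr] at h
  have h1 : ZMod.castHom h2 (ZMod 2) (i - 1) = 0 := by
    have h3 : (1 : ZMod 2) * ZMod.castHom h2 (ZMod 2) i + 1 = 0 := h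
    rw [map_sub, map_one]
    rw [one_mul] at h3
    revert h3
    generalize ZMod.castHom h2 (ZMod 2) i = y
    revert y; decide
  obtain ⟨j, hj⟩ := par_zero h2 _ h1
  refine ⟨r j, ?_⟩
  rw [conj_sr]; congr 1
  rw [← hj]; ring

theorem conj_sr_zero {m : ℕ} [NeZero m] (h2 : 2 ∣ m) (i : ZMod m)
    (h : chi h2 1 1 (sr i) ≠ 1) : ∃ d : DihedralGroup m, d * sr i * d⁻¹ = sr 0 := by
  rw [chi_sr] at h
  have h1 : ZMod.castHom h2 (ZMod 2) i = 0 := by
    have h3 : ¬ ((1 : ZMod 2) * ZMod.castHom h2 (ZMod 2) i + 1 = 0) := h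
    rw [one_mul] at h3
    revert h3
    generalize ZMod.castHom h2 (ZMod 2) i = y
    revert y; decide
  obtain ⟨j, hj⟩ := par_zero h2 _ h1
  refine ⟨r j, ?_⟩
  rw [conj_sr]; congr 1
  rw [← hj]; ring

/-- generation by two reflections -/
theorem gen_top {m : ℕ} [NeZero m] (K : Subgroup (DihedralGroup m)) (h0 : sr 0 ∈ K)
    (h1 : sr 1 ∈ K) : ∀ x, x ∈ K := by
  have hr1 : (r 1 : DihedralGroup m) ∈ K := by
    have : (sr 0 : DihedralGroup m) * sr 1 = r 1 := by rw [sr_mul_sr, sub_zero]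
    rw [← this]; exact K.mul_mem h0 h1
  have hr : ∀ i : ZMod m, (r i : DihedralGroup m) ∈ K := by
    intro i
    have : (r 1 : DihedralGroup m) ^ i.val = r i := by
      rw [r_one_pow, ZMod.natCast_zmod_val]
    rw [← this]; exact K.pow_mem hr1 _
  rintro (i | i)
  · exact hr i
  · have : (sr 0 : DihedralGroup m) * r i = sr i := by rw [sr_mul_r, zero_add]
    rw [← this]; exact K.mul_mem h0 (hr i)

/-- the kernel of `chi 1 1` is generated by `r 2` and `sr 1` -/
theorem ker_le {m : ℕ} [NeZero m] (h2 : 2 ∣ m) (K : Subgroup (DihedralGroup m)) (h0 : r 2 ∈ K)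
    (h1 : sr 1 ∈ K) : ∀ x, chi h2 1 1 x = 1 → x ∈ K := by
  have hr : ∀ j : ZMod m, (r (2 * j) : DihedralGroup m) ∈ K := by
    intro j
    have : (r 2 : DihedralGroup m) ^ j.val = r (2 * j) := by
      rw [r_pow, ZMod.natCast_zmod_val]
    rw [← this]; exact K.pow_mem h0 _
  rintro (i | i) h
  · rw [chi_r] at h
    have h3 : ZMod.castHom h2 (ZMod 2) i = 0 := by
      have h4 : (1 : ZMod 2) * ZMod.castHom h2 (ZMod 2) i = 0 := h
      rwa [one_mul] at h4
    obtain ⟨j, hj⟩ := par_zero h2 _ h3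
    rw [hj]; exact hr j
  · rw [chi_sr] at h
    have h3 : ZMod.castHom h2 (ZMod 2) (i - 1) = 0 := by
      have h4 : (1 : ZMod 2) * ZMod.castHom h2 (ZMod 2) i + 1 = 0 := h
      rw [map_sub, map_one]
      rw [one_mul] at h4
      revert h4
      generalize ZMod.castHom h2 (ZMod 2) i = y
      revert y; decide
    obtain ⟨j, hj⟩ := par_zero h2 _ h3
    have : (sr 1 : DihedralGroup m) * r (2 * j) = sr i := by
      rw [sr_mul_r, ← hj]; congr 1; ring
    rw [← this]; exact K.mul_mem h1 (hr j)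

theorem chi_ne {m : ℕ} (h2 : 2 ∣ m) : chi h2 1 1 (sr (0 : ZMod m)) ≠ 1 := by
  rw [chi_sr, map_zero, mul_zero, zero_add]
  decide

theorem chi_sr1 {m : ℕ} (h2 : 2 ∣ m) : chi h2 1 1 (sr (1 : ZMod m)) = 1 := by
  rw [chi_sr, map_one]
  decide

theorem chi0_sr {m : ℕ} (h2 : 2 ∣ m) (i : ZMod m) : chi h2 0 1 (sr i) ≠ 1 := by
  rw [chi_sr, zero_mul, zero_add]
  decide

theorem card_ker {m : ℕ} [NeZero m] (h2 : 2 ∣ m) : Nat.card (chi h2 1 1).ker = m := by
  have h1 := ker_index_two (chi h2 1 1) (sr 0) (chi_ne h2)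
  have h3 := Subgroup.card_mul_index (chi h2 1 1).ker
  rw [h1, DihedralGroup.nat_card] at h3
  omega

theorem r_two_comm {m : ℕ} : (r 2 : DihedralGroup m) = r 1 * sr 0 * (r 1)⁻¹ * (sr 0)⁻¹ := by
  rw [r_mul_sr, inv_r, sr_mul_r, inv_sr, sr_mul_sr]; congr 1; ring

theorem half_pow {m : ℕ} (h4 : 4 ∣ m) :
    (r ((m / 2 : ℕ) : ZMod m) : DihedralGroup m) = (r 2) ^ (m / 4) := by
  rw [r_pow]; congr 1
  have : m / 2 = 2 * (m / 4) := by omega
  rw [this]; push_cast; ring

theorem half_sq {m : ℕ} (h4 : 4 ∣ m) :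
    (r ((m / 2 : ℕ) : ZMod m) : DihedralGroup m) = (r ((m / 4 : ℕ) : ZMod m)) ^ 2 := by
  rw [r_pow]; congr 1
  have : m / 2 = (m / 4) * 2 := by omega
  rw [this]; push_cast; ring

theorem conj_into {G : Type*} [Group G] [Finite G] (P : Sylow 2 G) (g : G) (hg : orderOf g = 2) :
    ∃ x : G, x * g * x⁻¹ ∈ (P : Subgroup G) := by
  have : Fact (Nat.Prime 2) := ⟨Nat.prime_two⟩
  have hp : IsPGroup 2 (Subgroup.zpowers g) := by
    apply IsPGroup.of_card (n := 1)
    rw [Nat.card_zpowers, hg, pow_one]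
  obtain ⟨Q, hQ⟩ := hp.exists_le_sylow
  obtain ⟨x, hx⟩ := MulAction.exists_smul_eq G Q P
  refine ⟨x, ?_⟩
  have h1 : g ∈ (Q : Subgroup G) := hQ (Subgroup.mem_zpowers g)
  have h2 := Subgroup.smul_mem_pointwise_smul g (MulAut.conj x) (Q : Subgroup G) h1
  rw [← hx, Sylow.smul_def, Sylow.pointwise_smul_def]
  simpa [MulAut.smul_def] using h2

theorem aux {G : Type*} [Group G] [Finite G] (P : Sylow 2 G) (k : ℕ) (hk : 2 ≤ k)
    (e : ↥(P : Subgroup G) ≃* DihedralGroup (2 ^ k))
    (hcase : ¬ (IsConj ((e.symm (sr 0) : ↥(P : Subgroup G)) : G)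
        ((e.symm (r ((2 ^ k / 2 : ℕ) : ZMod (2 ^ k))) : ↥(P : Subgroup G)) : G) ∧
      ¬ IsConj ((e.symm (sr 1) : ↥(P : Subgroup G)) : G)
        ((e.symm (r ((2 ^ k / 2 : ℕ) : ZMod (2 ^ k))) : ↥(P : Subgroup G)) : G))) :
    (Nat.card {C : ConjClasses G // ∃ g : G, ConjClasses.mk g = C ∧ orderOf g = 2} = 1 ∧ ∀ N : Subgroup G, N.Normal → N.index ≠ 2) ∨ (Nat.card {C : ConjClasses G // ∃ g : G, ConjClasses.mk g = C ∧ orderOf g = 2} = 2 ∧ (∃ N : Subgroup G, N.Normal ∧ N.index = 2) ∧ ∀ N : Subgroup G, N.Normal → N.index ≠ 4) ∨ (Nat.card {C : ConjClasses G // ∃ g : G, ConjClasses.mk g = C ∧ orderOf g = 2} = 3 ∧ Cfsg.HasNormalPComplement 2 G) := by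
  classical
  have : Fact (Nat.Prime 2) := ⟨Nat.prime_two⟩
  have h2 : 2 ∣ 2 ^ k := dvd_pow_self 2 (by omega)
  have h4 : 4 ∣ 2 ^ k := pow_dvd_pow 2 hk
  let ι : DihedralGroup (2 ^ k) →* G := (P : Subgroup G).subtype.comp e.symm.toMonoidHom
  have hι : ∀ x, ι x = ((e.symm x : ↥(P : Subgroup G)) : G) := fun x => rfl
  have hιP : ∀ x, ι x ∈ (P : Subgroup G) := fun x => (e.symm x).2
  have hιe : ∀ (p : G) (hp : p ∈ (P : Subgroup G)), ι (e ⟨p, hp⟩) = p := by
    intro p hp
    rw [hι, e.symm_apply_apply]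
  have hinj : Function.Injective ι := by
    intro x y hxy
    exact e.symm.injective (Subtype.ext hxy)
  have hord : ∀ x, orderOf (ι x) = orderOf x := fun x => orderOf_injective ι hinj x
  obtain ⟨a, ha⟩ : ∃ a : G, a = ι (sr 0) := ⟨_, rfl⟩
  obtain ⟨b, hb⟩ : ∃ b : G, b = ι (sr 1) := ⟨_, rfl⟩
  obtain ⟨z, hz⟩ : ∃ z : G, z = ι (r ((2 ^ k / 2 : ℕ) : ZMod (2 ^ k))) := ⟨_, rfl⟩
  have hcase' : ¬ (IsConj a z ∧ ¬ IsConj b z) := by rw [ha, hb, hz]; exact hcase
  have ha2 : orderOf a = 2 := by rw [ha, hord, orderOf_sr]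
  have hb2 : orderOf b = 2 := by rw [hb, hord, orderOf_sr]
  have hz2 : orderOf z = 2 := by rw [hz, hord, orderOf_half h2]
  have haa : a * a = 1 := by rw [← pow_two, ← ha2]; exact pow_orderOf_eq_one a
  have hbb : b * b = 1 := by rw [← pow_two, ← hb2]; exact pow_orderOf_eq_one b
  have haP : a ∈ (P : Subgroup G) := ha ▸ hιP _
  have hbP : b ∈ (P : Subgroup G) := hb ▸ hιP _
  have hcardP : Nat.card (P : Subgroup G) = 2 * 2 ^ k := by
    rw [Nat.card_congr e.toEquiv, DihedralGroup.nat_card]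
  have hidx : ¬ 2 ∣ (P : Subgroup G).index := P.not_dvd_index
  have hidxpos : 0 < (P : Subgroup G).index :=
    Nat.pos_of_ne_zero (fun h => by rw [h] at hidx; exact hidx (dvd_zero 2))
  have hcardG : 2 * 2 ^ k * (P : Subgroup G).index = Nat.card G := by
    rw [← hcardP]; exact Subgroup.card_mul_index _
  have hcontra : ∀ (N : Subgroup G) (c d : ℕ), c ∣ Nat.card N → N.index = d →
      c * d = 2 * (2 * 2 ^ k) → False := by
    intro N c d hc hd hcd
    obtain ⟨t, ht⟩ := hc
    have h5 := Subgroup.card_mul_index N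
    rw [ht, hd, ← hcardG] at h5
    have h6 : (2 * 2 ^ k) * (2 * t) = (2 * 2 ^ k) * (P : Subgroup G).index := by
      calc (2 * 2 ^ k) * (2 * t) = (c * d) * t := by rw [hcd]; ring
        _ = c * t * d := by ring
        _ = _ := h5
    have h7 := Nat.eq_of_mul_eq_mul_left (by positivity) h6
    exact hidx ⟨t, h7.symm⟩
  have hconjord : ∀ (g u : G), orderOf (g⁻¹ * u * g) = orderOf u := by
    intro g u
    have h5 := MulEquiv.orderOf_eq (MulAut.conj g⁻¹) u
    rw [MulAut.conj_apply, inv_inv] at h5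
    exact h5
  have hinv : ∀ g : G, orderOf g = 2 → IsConj g z ∨ IsConj g a ∨ IsConj g b := by
    intro g hg
    obtain ⟨x, hx⟩ := conj_into P g hg
    have hg' : orderOf (x * g * x⁻¹) = 2 := by
      rw [← hg]; exact MulEquiv.orderOf_eq (MulAut.conj x) g
    have hy : orderOf (e ⟨x * g * x⁻¹, hx⟩) = 2 := by
      rw [← hord, hιe]; exact hg'
    rcases invol_cases h2 _ hy with h | ⟨i, h⟩
    · left
      rw [isConj_iff]
      refine ⟨x, ?_⟩
      rw [hz, ← h, hιe]
    · by_cases hc : chi h2 1 1 (sr i) = 1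
      · right; right
        obtain ⟨d, hd⟩ := conj_sr_one h2 i hc
        rw [isConj_iff]
        refine ⟨ι d * x, ?_⟩
        have h5 : ι d * (x * g * x⁻¹) * (ι d)⁻¹ = b := by
          rw [hb, ← hd, map_mul, map_mul, map_inv, ← h, hιe]
        rw [← h5]; group
      · right; left
        obtain ⟨d, hd⟩ := conj_sr_zero h2 i hc
        rw [isConj_iff]
        refine ⟨ι d * x, ?_⟩
        have h5 : ι d * (x * g * x⁻¹) * (ι d)⁻¹ = a := by
          rw [ha, ← hd, map_mul, map_mul, map_inv, ← h, hιe]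
        rw [← h5]; group
  have hS : {C : ConjClasses G | ∃ g : G, ConjClasses.mk g = C ∧ orderOf g = 2}
      = {ConjClasses.mk z, ConjClasses.mk a, ConjClasses.mk b} := by
    ext C
    simp only [Set.mem_ofPred_eq, Set.mem_insert_iff, Set.mem_singleton_iff]
    constructor
    · rintro ⟨g, rfl, hg⟩
      rcases hinv g hg with h | h | h
      · left; exact ConjClasses.mk_eq_mk_iff_isConj.mpr h
      · right; left; exact ConjClasses.mk_eq_mk_iff_isConj.mpr h
      · right; right; exact ConjClasses.mk_eq_mk_iff_isConj.mpr h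
    · rintro (rfl | rfl | rfl)
      · exact ⟨z, rfl, hz2⟩
      · exact ⟨a, rfl, ha2⟩
      · exact ⟨b, rfl, hb2⟩
  have hcard : Nat.card {C : ConjClasses G // ∃ g : G, ConjClasses.mk g = C ∧ orderOf g = 2}
      = ({ConjClasses.mk z, ConjClasses.mk a, ConjClasses.mk b} : Set (ConjClasses G)).ncard := by
    rw [← hS]
    exact Nat.card_coe_set_eq _
  rw [hcard]
  by_cases h1 : IsConj a z
  · have h2' : IsConj b z := by
      by_contra h; exact hcase' ⟨h1, h⟩
    left
    constructor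
    · rw [ConjClasses.mk_eq_mk_iff_isConj.mpr h1, ConjClasses.mk_eq_mk_iff_isConj.mpr h2']
      simp
    · intro N hN hN2
      have hzN : z ∈ N := by
        have h5 : z = (ι (r ((2 ^ k / 4 : ℕ) : ZMod (2 ^ k)))) ^ 2 := by
          rw [hz, half_sq h4, map_pow]
        rw [h5]; exact Subgroup.sq_mem_of_index_two hN2 _
      have haN : a ∈ N := by
        obtain ⟨c, hc⟩ := isConj_iff.mp h1.symm
        rw [← hc]; exact hN.conj_mem z hzN c
      have hbN : b ∈ N := by
        obtain ⟨c, hc⟩ := isConj_iff.mp h2'.symm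
        rw [← hc]; exact hN.conj_mem z hzN c
      have hall := gen_top (N.comap ι) (by rw [Subgroup.mem_comap, ← ha]; exact haN)
        (by rw [Subgroup.mem_comap, ← hb]; exact hbN)
      have hPN : (P : Subgroup G) ≤ N := by
        intro p hp
        have h5 := hall (e ⟨p, hp⟩)
        rw [Subgroup.mem_comap, hιe] at h5
        exact h5
      exact hcontra N (2 * 2 ^ k) 2 (hcardP ▸ Subgroup.card_dvd_of_le hPN) hN2 (by ring)
  · by_cases h2' : IsConj b z
    · right; left
      have hne : ConjClasses.mk a ≠ ConjClasses.mk z :=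
        fun h => h1 (ConjClasses.mk_eq_mk_iff_isConj.mp h)
      refine ⟨?_, ?_, ?_⟩
      · rw [ConjClasses.mk_eq_mk_iff_isConj.mpr h2']
        have h5 : ({ConjClasses.mk z, ConjClasses.mk a, ConjClasses.mk z} : Set (ConjClasses G))
            = {ConjClasses.mk z, ConjClasses.mk a} := by
          ext C; simp only [Set.mem_insert_iff, Set.mem_singleton_iff]; tauto
        rw [h5, Set.ncard_pair hne.symm]
      · let ϕ : ↥(P : Subgroup G) →* Multiplicative (ZMod 2) := (chi h2 1 1).comp e.toMonoidHom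
        have hV : MonoidHom.transfer ϕ a ≠ 1 := by
          apply transfer_ne_one (P : Subgroup G) hidx ϕ a haa
          intro g hg
          have ho : orderOf (g⁻¹ * a * g) = 2 := by rw [hconjord, ha2]
          have hy : orderOf (e ⟨g⁻¹ * a * g, hg⟩) = 2 := by rw [← hord, hιe]; exact ho
          show chi h2 1 1 (e ⟨g⁻¹ * a * g, hg⟩) ≠ 1
          rcases invol_cases h2 _ hy with h | ⟨i, h⟩
          · exfalso; apply h1
            rw [isConj_iff]
            refine ⟨g⁻¹, ?_⟩
            rw [inv_inv, hz, ← h, hιe]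
          · rw [h]
            intro hc
            obtain ⟨d, hd⟩ := conj_sr_one h2 i hc
            apply h1
            have hab : IsConj a b := by
              rw [isConj_iff]
              refine ⟨ι d * g⁻¹, ?_⟩
              have h5 : ι d * (g⁻¹ * a * g) * (ι d)⁻¹ = b := by
                rw [hb, ← hd, map_mul, map_mul, map_inv, ← h, hιe]
              rw [← h5]; group
            exact hab.trans h2'
        exact ⟨(MonoidHom.transfer ϕ).ker, MonoidHom.normal_ker _, ker_index_two _ a hV⟩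
      · intro K hK hK4
        have hcomm : ∀ x y : G, x * y * x⁻¹ * y⁻¹ ∈ K := by
          intro x y
          have hq : Nat.card (G ⧸ K) = 2 ^ 2 := hK4
          have hc := IsPGroup.commutative_of_card_eq_prime_sq hq
          rw [← QuotientGroup.eq_one_iff]
          have h5 : ((x * y * x⁻¹ * y⁻¹ : G) : G ⧸ K)
              = (x : G ⧸ K) * (y : G ⧸ K) * (x : G ⧸ K)⁻¹ * (y : G ⧸ K)⁻¹ := rfl
          rw [h5, hc (x : G ⧸ K) (y : G ⧸ K)]; group
        have hr2 : ι (r 2) ∈ K := by
          rw [r_two_comm, map_mul, map_mul, map_mul, map_inv, map_inv]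
          exact hcomm _ _
        have hzK : z ∈ K := by
          rw [hz, half_pow h4, map_pow]; exact K.pow_mem hr2 _
        have hbK : b ∈ K := by
          obtain ⟨c, hc⟩ := isConj_iff.mp h2'.symm
          rw [← hc]; exact hK.conj_mem z hzK c
        have hker := ker_le h2 (K.comap ι) hr2 (by rw [Subgroup.mem_comap, ← hb]; exact hbK)
        have hE : ((chi h2 1 1).ker.map ι) ≤ K := by
          rintro _ ⟨x, hx, rfl⟩
          exact hker x hx
        have hEc : Nat.card ((chi h2 1 1).ker.map ι) = 2 ^ k := by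
          rw [Subgroup.card_map_of_injective hinj]
          exact card_ker h2
        exact hcontra K (2 ^ k) 4 (hEc ▸ Subgroup.card_dvd_of_le hE) hK4 (by ring)
    · right; right
      let ϕ0 : ↥(P : Subgroup G) →* Multiplicative (ZMod 2) := (chi h2 0 1).comp e.toMonoidHom
      have hT : ∀ u : G, u * u = 1 → orderOf u = 2 → ¬ IsConj u z →
          MonoidHom.transfer ϕ0 u ≠ 1 := by
        intro u huu hu2 hnz
        apply transfer_ne_one (P : Subgroup G) hidx ϕ0 u huu
        intro g hg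
        have ho : orderOf (g⁻¹ * u * g) = 2 := by rw [hconjord, hu2]
        have hy : orderOf (e ⟨g⁻¹ * u * g, hg⟩) = 2 := by rw [← hord, hιe]; exact ho
        show chi h2 0 1 (e ⟨g⁻¹ * u * g, hg⟩) ≠ 1
        rcases invol_cases h2 _ hy with h | ⟨i, h⟩
        · exfalso; apply hnz
          rw [isConj_iff]
          refine ⟨g⁻¹, ?_⟩
          rw [inv_inv, hz, ← h, hιe]
        · rw [h]; exact chi0_sr h2 i
      have hVa := hT a haa ha2 h1
      have hVb := hT b hbb hb2 h2'
      obtain ⟨V, hVdef⟩ : ∃ V : G →* Multiplicative (ZMod 2), V = MonoidHom.transfer ϕ0 :=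
        ⟨_, rfl⟩
      rw [← hVdef] at hVa hVb
      have hN1n : V.ker.Normal := MonoidHom.normal_ker V
      have hN1i : V.ker.index = 2 := ker_index_two V a hVa
      obtain ⟨c, hc⟩ : ∃ c : G, c = ι (r 1) := ⟨_, rfl⟩
      have hcab : c = a * b := by
        rw [hc, ha, hb, ← map_mul, sr_mul_sr, sub_zero]
      have hcN : c ∈ V.ker := by
        rw [MonoidHom.mem_ker, hcab, map_mul, z2_eq _ _ hVa hVb]; exact zsq _
      have hco : orderOf c = 2 ^ k := by rw [hc, hord, orderOf_r_one]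
      have hN1c : Nat.card V.ker = 2 ^ k * (P : Subgroup G).index := by
        have h5 := Subgroup.card_mul_index V.ker
        rw [hN1i, ← hcardG] at h5
        have h6 : Nat.card V.ker * 2 = (2 ^ k * (P : Subgroup G).index) * 2 := by
          rw [h5]; ring
        exact Nat.eq_of_mul_eq_mul_right (by norm_num) h6
      have hc1o : orderOf (⟨c, hcN⟩ : ↥V.ker) = 2 ^ k := by
        rw [← hco]; exact Subgroup.orderOf_mk c hcN
      have hfac : (Nat.card ↥V.ker).factorization 2 = k := by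
        rw [hN1c, Nat.factorization_mul (by positivity) hidxpos.ne',
          Nat.Prime.factorization_pow Nat.prime_two]
        simp [Nat.factorization_eq_zero_of_not_dvd hidx]
      let P1 : Sylow 2 ↥V.ker := Sylow.ofCard (Subgroup.zpowers (⟨c, hcN⟩ : ↥V.ker))
        (by rw [Nat.card_zpowers, hc1o, hfac])
      have hP1coe : (P1 : Subgroup ↥V.ker) = Subgroup.zpowers (⟨c, hcN⟩ : ↥V.ker) := rfl
      have hcyc : IsCyclic ↥(P1 : Subgroup ↥V.ker) := by
        show IsCyclic ↥(Subgroup.zpowers (⟨c, hcN⟩ : ↥V.ker))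
        infer_instance
      have hmin : (Nat.card ↥V.ker).minFac = 2 := by
        rw [Nat.minFac_eq_two_iff, hN1c]
        exact Dvd.dvd.mul_right h2 _
      have hP1 := IsCyclic.normalizer_le_centralizer hmin hcyc
      have hK1c := MonoidHom.ker_transferSylow_isComplement' P1 hP1
      obtain ⟨K1, hK1def⟩ : ∃ K1 : Subgroup ↥V.ker, K1 = (MonoidHom.transferSylow P1 hP1).ker :=
        ⟨_, rfl⟩
      rw [← hK1def] at hK1c
      have hK1n : K1.Normal := by rw [hK1def]; exact MonoidHom.normal_ker _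
      have hP1card : Nat.card (P1 : Subgroup ↥V.ker) = 2 ^ k := by
        rw [hP1coe, Nat.card_zpowers, hc1o]
      have hK1card : Nat.card K1 = (P : Subgroup G).index := by
        have h5 := hK1c.card_mul_card
        rw [hP1card, hN1c] at h5
        exact Nat.eq_of_mul_eq_mul_right (by positivity : 0 < 2 ^ k) (by rw [h5]; ring)
      have hK1idx : K1.index = 2 ^ k := by
        have h5 := Subgroup.card_mul_index K1
        rw [hK1card, hN1c] at h5
        exact Nat.eq_of_mul_eq_mul_left hidxpos (by rw [h5]; ring)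
      have hcop : Nat.Coprime ((P : Subgroup G).index) (2 ^ k) :=
        Nat.Coprime.pow_right k ((Nat.Prime.coprime_iff_not_dvd Nat.prime_two).mpr hidx).symm
      have hodd : ∀ y : ↥V.ker, orderOf y ∣ (P : Subgroup G).index → y ∈ K1 := by
        intro y hy
        rw [← QuotientGroup.eq_one_iff]
        have h5 : orderOf ((y : ↥V.ker ⧸ K1)) ∣ (P : Subgroup G).index :=
          (orderOf_map_dvd (QuotientGroup.mk' K1) y).trans hy
        have h6 : orderOf ((y : ↥V.ker ⧸ K1)) ∣ 2 ^ k := by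
          rw [← hK1idx]; exact orderOf_dvd_natCard _
        have h7 := Nat.eq_one_of_dvd_coprimes hcop h5 h6
        exact orderOf_eq_one_iff.mp h7
      obtain ⟨K, hKdef⟩ : ∃ K : Subgroup G, K = K1.map V.ker.subtype := ⟨_, rfl⟩
      have hKcard : Nat.card K = (P : Subgroup G).index := by
        rw [← hK1card, hKdef]
        exact Subgroup.card_map_of_injective (Subgroup.subtype_injective _)
      have hKn : K.Normal := by
        constructor
        intro x hx g
        rw [hKdef] at hx ⊢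
        obtain ⟨y, hy, rfl⟩ := hx
        have hmem : g * (y : G) * g⁻¹ ∈ V.ker := hN1n.conj_mem _ y.2 g
        refine ⟨⟨g * (y : G) * g⁻¹, hmem⟩, ?_, rfl⟩
        apply hodd
        have h5 : orderOf (⟨g * (y : G) * g⁻¹, hmem⟩ : ↥V.ker) = orderOf y := by
          rw [Subgroup.orderOf_mk, ← Subgroup.orderOf_coe y]
          exact MulEquiv.orderOf_eq (MulAut.conj g) (y : G)
        rw [h5, ← hK1card, ← Subgroup.orderOf_mk y hy]
        exact orderOf_dvd_natCard _
      have hKP : Subgroup.IsComplement' K (P : Subgroup G) := by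
        apply Subgroup.isComplement'_of_coprime
        · rw [hKcard, hcardP, ← hcardG]; ring
        · rw [hKcard, hcardP]
          have h5 : 2 * 2 ^ k = 2 ^ (k + 1) := by ring
          rw [h5]
          exact Nat.Coprime.pow_right _ ((Nat.Prime.coprime_iff_not_dvd Nat.prime_two).mpr hidx).symm
      have hab : ¬ IsConj a b := by
        intro h
        obtain ⟨g, hg⟩ := isConj_iff.mp h
        obtain ⟨⟨⟨kk, hkk⟩, ⟨d, hd⟩⟩, hkd, -⟩ := hKP.existsUnique g
        have hkd' : kk * d = g := hkd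
        have ha'P : d * a * d⁻¹ ∈ (P : Subgroup G) :=
          (P : Subgroup G).mul_mem ((P : Subgroup G).mul_mem hd haP) ((P : Subgroup G).inv_mem hd)
        have hb' : b = kk * (d * a * d⁻¹) * kk⁻¹ := by rw [← hg, ← hkd']; group
        have h5 : b * (d * a * d⁻¹)⁻¹ ∈ K := by
          have h6 : b * (d * a * d⁻¹)⁻¹ = kk * ((d * a * d⁻¹) * kk⁻¹ * (d * a * d⁻¹)⁻¹) := by
            rw [hb']; group
          rw [h6]
          exact K.mul_mem hkk (hKn.conj_mem _ (K.inv_mem hkk) _)
        have h6 : b * (d * a * d⁻¹)⁻¹ ∈ (P : Subgroup G) :=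
          (P : Subgroup G).mul_mem hbP ((P : Subgroup G).inv_mem ha'P)
        have h7 : b * (d * a * d⁻¹)⁻¹ = 1 := Subgroup.disjoint_def.mp hKP.disjoint h5 h6
        have h8 : b = d * a * d⁻¹ := mul_inv_eq_one.mp h7
        have h9 : e ⟨b, hbP⟩ = e ⟨d, hd⟩ * e ⟨a, haP⟩ * (e ⟨d, hd⟩)⁻¹ := by
          rw [← map_inv, ← map_mul, ← map_mul]; congr 1; exact Subtype.ext h8
        have h10 : e ⟨b, hbP⟩ = sr 1 := by
          have : (⟨b, hbP⟩ : ↥(P : Subgroup G)) = e.symm (sr 1) := Subtype.ext hb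
          rw [this, e.apply_symm_apply]
        have h11 : e ⟨a, haP⟩ = sr 0 := by
          have : (⟨a, haP⟩ : ↥(P : Subgroup G)) = e.symm (sr 0) := Subtype.ext ha
          rw [this, e.apply_symm_apply]
        rw [h10, h11] at h9
        have h12 := congrArg (chi h2 1 1) h9
        rw [map_mul, map_mul, map_inv, mul_inv_cancel_comm, chi_sr1] at h12
        exact chi_ne h2 h12.symm
      refine ⟨?_, P, K, hKn, hKP⟩
      rw [Set.ncard_eq_three]
      refine ⟨_, _, _, ?_, ?_, ?_, rfl⟩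
      · exact fun h => h1 (ConjClasses.mk_eq_mk_iff_isConj.mp h).symm
      · exact fun h => h2' (ConjClasses.mk_eq_mk_iff_isConj.mp h).symm
      · exact fun h => hab (ConjClasses.mk_eq_mk_iff_isConj.mp h)

/-- Let G be a finite group whose Sylow 2-subgroups are dihedral of order 2 ^ n with n ≥ 3, and count the conjugacy classes of involutions of G. Then exactly one of the following holds: there is one class of involutions and no normal subgroup of index 2; there are two classes of involutions, a normal subgroup of index 2 and none of index 4; there are three classes of involutions and G has a normal 2-complement. -/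
theorem result {G : Type*} [Group G] [Finite G] (P : Sylow 2 G) (n : ℕ) (hn : 3 ≤ n) (hdih : Nonempty (↥(P : Subgroup G) ≃* DihedralGroup (2 ^ (n - 1)))) : (Nat.card {C : ConjClasses G // ∃ g : G, ConjClasses.mk g = C ∧ orderOf g = 2} = 1 ∧ ∀ N : Subgroup G, N.Normal → N.index ≠ 2) ∨ (Nat.card {C : ConjClasses G // ∃ g : G, ConjClasses.mk g = C ∧ orderOf g = 2} = 2 ∧ (∃ N : Subgroup G, N.Normal ∧ N.index = 2) ∧ ∀ N : Subgroup G, N.Normal → N.index ≠ 4) ∨ (Nat.card {C : ConjClasses G // ∃ g : G, ConjClasses.mk g = C ∧ orderOf g = 2} = 3 ∧ Cfsg.HasNormalPComplement 2 G) := by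
  obtain ⟨e⟩ := hdih
  have hk : 2 ≤ n - 1 := by omega
  have h2 : 2 ∣ 2 ^ (n - 1) := dvd_pow_self 2 (by omega)
  by_cases hcase : (IsConj ((e.symm (sr 0) : ↥(P : Subgroup G)) : G)
        ((e.symm (r ((2 ^ (n - 1) / 2 : ℕ) : ZMod (2 ^ (n - 1)))) : ↥(P : Subgroup G)) : G) ∧
      ¬ IsConj ((e.symm (sr 1) : ↥(P : Subgroup G)) : G)
        ((e.symm (r ((2 ^ (n - 1) / 2 : ℕ) : ZMod (2 ^ (n - 1)))) : ↥(P : Subgroup G)) : G))
  · apply aux P (n - 1) hk (e.trans (alpha (2 ^ (n - 1))))
    simp only [MulEquiv.symm_trans_apply, alpha_symm_sr, alpha_symm_r, sub_zero, sub_self,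
      neg_half h2]
    rintro ⟨h1, h3⟩
    exact h3 hcase.1
  · exact aux P (n - 1) hk e hcase

end Cfsg.Agent.S3864
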