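import Cfsg.Statements.S3866
import Mathlib

set_option autoImplicit false
open Cfsg

namespace Cfsg.Agent.S3866

/-- Let A be a commutative normal subgroup of the finite group G with G generated by A and an element x. Then a ↦ x a x⁻¹ a⁻¹ is a surjective homomorphism from A onto the commutator subgroup of G whose kernel is the centralizer of x in A; in particular the commutator subgroup has order equal to the index in A of that centralizer. -/
theorem result {G : Type*} [Group G] [Finite G] (A : Subgroup G) [A.Normal] (hA : IsMulCommutative A) (x : G) (hgen : A ⊔ Subgroup.zpowers x = ⊤) : (∀ a ∈ A, x * a * x⁻¹ * a⁻¹ ∈ commutator G) ∧ (∀ c ∈ commutator G, ∃ a ∈ A, x * a * x⁻¹ * a⁻¹ = c) ∧ (∀ a ∈ A, ∀ b ∈ A, x * (a * b) * x⁻¹ * (a * b)⁻¹ = (x * a * x⁻¹ * a⁻¹) * (x * b * x⁻¹ * b⁻¹)) ∧ Nat.card (commutator G) * Nat.card ↥(A ⊓ Subgroup.centralizer ({x} : Set G)) = Nat.card A := by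
  classical
  have hconjA : ∀ a ∈ A, x * a * x⁻¹ ∈ A := fun a ha =>
    Subgroup.Normal.conj_mem inferInstance a ha x
  have hAc : ∀ a ∈ A, ∀ b ∈ A, a * b = b * a := by
    intro a ha b hb
    have := mul_comm' (⟨a, ha⟩ : A) ⟨b, hb⟩
    simpa using congrArg Subtype.val this
  have h3 : ∀ a ∈ A, ∀ b ∈ A, x * (a * b) * x⁻¹ * (a * b)⁻¹
      = (x * a * x⁻¹ * a⁻¹) * (x * b * x⁻¹ * b⁻¹) := by
    intro a ha b hb
    have e1 : x * (a * b) * x⁻¹ = (x * a * x⁻¹) * (x * b * x⁻¹) := by group
    have e2 := hAc (a⁻¹) (A.inv_mem ha) (x * b * x⁻¹ * b⁻¹)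
      (A.mul_mem (hconjA b hb) (A.inv_mem hb))
    rw [e1, mul_inv_rev]
    calc x * a * x⁻¹ * (x * b * x⁻¹) * (b⁻¹ * a⁻¹)
        = x * a * x⁻¹ * ((x * b * x⁻¹ * b⁻¹) * a⁻¹) := by group
      _ = x * a * x⁻¹ * (a⁻¹ * (x * b * x⁻¹ * b⁻¹)) := by rw [e2]
      _ = _ := by group
  have part1 : ∀ a ∈ A, x * a * x⁻¹ * a⁻¹ ∈ commutator G := by
    intro a _
    rw [commutator_def]
    exact Subgroup.commutator_mem_commutator (Subgroup.mem_top x) (Subgroup.mem_top a)
  let φ : A →* G :=
    { toFun := fun a => x * a * x⁻¹ * (a : G)⁻¹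
      map_one' := by simp
      map_mul' := fun a b => by simpa using h3 a a.2 b b.2 }
  have hφ : ∀ a : A, φ a = x * a * x⁻¹ * (a : G)⁻¹ := fun _ => rfl
  have hSA : φ.range ≤ A := by
    rintro _ ⟨a, rfl⟩
    exact A.mul_mem (hconjA a a.2) (A.inv_mem a.2)
  have hSnorm : φ.range.Normal := by
    rw [← Subgroup.normalizer_eq_top_iff, eq_top_iff, ← hgen, sup_le_iff]
    constructor
    · intro a ha
      rw [Subgroup.mem_normalizer_iff]
      intro s
      constructor
      · intro hs
        have : a * s * a⁻¹ = s := by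
          rw [hAc a ha s (hSA hs)]; group
        rw [this]; exact hs
      · intro hs
        have hsA : s ∈ A := by
          have := hSA hs
          have h2 := A.mul_mem (A.mul_mem (A.inv_mem ha) this) ha
          simpa [mul_assoc] using h2
        have : a * s * a⁻¹ = s := by
          rw [hAc a ha s hsA]; group
        rw [this] at hs; exact hs
    · rw [Subgroup.zpowers_le, Subgroup.mem_normalizer_iff]
      intro s
      constructor
      · rintro ⟨a, rfl⟩
        refine ⟨⟨x * a * x⁻¹, hconjA a a.2⟩, ?_⟩
        rw [hφ, hφ]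
        show x * (x * a * x⁻¹) * x⁻¹ * (x * a * x⁻¹)⁻¹ = x * (x * a * x⁻¹ * (a : G)⁻¹) * x⁻¹
        group
      · rintro ⟨a, ha⟩
        have hmem : x⁻¹ * a * x ∈ A := by
          have := Subgroup.Normal.conj_mem (inferInstance : A.Normal) a a.2 x⁻¹
          simpa using this
        refine ⟨⟨x⁻¹ * a * x, hmem⟩, ?_⟩
        rw [hφ]
        show x * (x⁻¹ * a * x) * x⁻¹ * (x⁻¹ * a * x)⁻¹ = s
        have ha' : x * a * x⁻¹ * (a : G)⁻¹ = x * s * x⁻¹ := ha
        have : s = x⁻¹ * (x * a * x⁻¹ * (a : G)⁻¹) * x := by rw [ha']; group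
        rw [this]; group
  have hcomm_le : commutator G ≤ φ.range := by
    haveI := hSnorm
    apply Subgroup.Normal.quotient_commutative_iff_commutator_le.mp
    -- the quotient is commutative
    have hxa : ∀ a ∈ A, (QuotientGroup.mk x : G ⧸ φ.range) * QuotientGroup.mk a
        = QuotientGroup.mk a * QuotientGroup.mk x := by
      intro a ha
      have h1 : (QuotientGroup.mk (x * a * x⁻¹ * a⁻¹) : G ⧸ φ.range) = 1 :=
        (QuotientGroup.eq_one_iff _).mpr ⟨⟨a, ha⟩, rfl⟩
      rw [QuotientGroup.mk_mul, QuotientGroup.mk_mul, QuotientGroup.mk_mul, QuotientGroup.mk_inv,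
        QuotientGroup.mk_inv] at h1
      have h2 := mul_inv_eq_one.mp h1
      exact mul_inv_eq_iff_eq_mul.mp h2
    have key : ∀ t : G, (∀ a ∈ A, (QuotientGroup.mk t : G ⧸ φ.range) * QuotientGroup.mk a
        = QuotientGroup.mk a * QuotientGroup.mk t) →
        ((QuotientGroup.mk t : G ⧸ φ.range) * QuotientGroup.mk x
        = QuotientGroup.mk x * QuotientGroup.mk t) →
        ∀ g : G, (QuotientGroup.mk t : G ⧸ φ.range) * QuotientGroup.mk g
        = QuotientGroup.mk g * QuotientGroup.mk t := by
      intro t h1 h2 g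
      have hle : A ⊔ Subgroup.zpowers x ≤
          (Subgroup.centralizer ({(QuotientGroup.mk t : G ⧸ φ.range)} : Set (G ⧸ φ.range))).comap
            (QuotientGroup.mk' φ.range) := by
        rw [sup_le_iff]
        constructor
        · intro a ha
          rw [Subgroup.mem_comap, Subgroup.mem_centralizer_iff]
          intro h hh
          rw [Set.mem_singleton_iff] at hh
          rw [hh]
          exact h1 a ha
        · rw [Subgroup.zpowers_le, Subgroup.mem_comap, Subgroup.mem_centralizer_iff]
          intro h hh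
          rw [Set.mem_singleton_iff] at hh
          rw [hh]
          exact h2
      have hg : g ∈ A ⊔ Subgroup.zpowers x := by rw [hgen]; exact Subgroup.mem_top g
      have := hle hg
      rw [Subgroup.mem_comap, Subgroup.mem_centralizer_iff] at this
      exact this _ rfl
    have hA' : ∀ a ∈ A, ∀ g : G, (QuotientGroup.mk a : G ⧸ φ.range) * QuotientGroup.mk g
        = QuotientGroup.mk g * QuotientGroup.mk a := by
      intro a ha
      apply key a
      · intro b hb
        rw [← QuotientGroup.mk_mul, ← QuotientGroup.mk_mul, hAc a ha b hb]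
      · exact (hxa a ha).symm
    have hx' : ∀ g : G, (QuotientGroup.mk x : G ⧸ φ.range) * QuotientGroup.mk g
        = QuotientGroup.mk g * QuotientGroup.mk x := by
      apply key x
      · exact hxa
      · rfl
    refine ⟨⟨fun q1 q2 => ?_⟩⟩
    induction q1 using QuotientGroup.induction_on with
    | H g1 =>
      induction q2 using QuotientGroup.induction_on with
      | H g2 =>
        -- g1 is central modulo the range
        have hle : A ⊔ Subgroup.zpowers x ≤
            (Subgroup.centralizer ({(QuotientGroup.mk g2 : G ⧸ φ.range)} : Set (G ⧸ φ.range))).comap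
              (QuotientGroup.mk' φ.range) := by
          rw [sup_le_iff]
          constructor
          · intro a ha
            rw [Subgroup.mem_comap, Subgroup.mem_centralizer_iff]
            intro h hh
            rw [Set.mem_singleton_iff] at hh
            rw [hh]
            exact (hA' a ha g2).symm
          · rw [Subgroup.zpowers_le, Subgroup.mem_comap, Subgroup.mem_centralizer_iff]
            intro h hh
            rw [Set.mem_singleton_iff] at hh
            rw [hh]
            exact (hx' g2).symm
        have hg : g1 ∈ A ⊔ Subgroup.zpowers x := by rw [hgen]; exact Subgroup.mem_top g1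
        have := hle hg
        rw [Subgroup.mem_comap, Subgroup.mem_centralizer_iff] at this
        exact (this _ rfl).symm
  refine ⟨part1, ?_, h3, ?_⟩
  · intro c hc
    obtain ⟨a, rfl⟩ := hcomm_le hc
    exact ⟨a, a.2, rfl⟩
  · have hrange : φ.range = commutator G :=
      le_antisymm (by rintro _ ⟨a, rfl⟩; exact part1 a a.2) hcomm_le
    have hker : φ.ker = (A ⊓ Subgroup.centralizer ({x} : Set G)).subgroupOf A := by
      ext a
      rw [MonoidHom.mem_ker, Subgroup.mem_subgroupOf, Subgroup.mem_inf, Subgroup.mem_centralizer_iff,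
        hφ]
      simp only [Set.mem_singleton_iff, forall_eq]
      constructor
      · intro h
        refine ⟨a.2, ?_⟩
        have h2 := mul_inv_eq_one.mp h
        exact mul_inv_eq_iff_eq_mul.mp h2
      · rintro ⟨-, h⟩
        rw [h]; group
    have h1 := Subgroup.card_mul_index φ.ker
    rw [Subgroup.index_ker, hrange, hker] at h1
    have h2 : Nat.card ((A ⊓ Subgroup.centralizer ({x} : Set G)).subgroupOf A)
        = Nat.card (A ⊓ Subgroup.centralizer ({x} : Set G) : Subgroup G) :=
      Nat.card_congr (Subgroup.subgroupOfEquivOfLe inf_le_left).toEquiv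
    rw [h2] at h1
    rw [mul_comm]
    exact h1

end Cfsg.Agent.S3866
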