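import Cfsg.Statements.S3867
import Mathlib
import Cfsg.Agent.Lib.Helper21.Basic

set_option autoImplicit false
open Cfsg

namespace Cfsg.Agent.S3867

/-- Let M and N be nontrivial normal subgroups of the finite group G with M ⊓ N trivial, and let p be a prime. Writing n(X) for the number of Sylow p-subgroups of a group X, one has n(G) · n(G/MN) = n(G/M) · n(G/N). -/
theorem result {G : Type*} [Group G] [Finite G] (p : ℕ) [Fact p.Prime] (M N : Subgroup G) [M.Normal] [N.Normal] (hM : M ≠ ⊥) (hN : N ≠ ⊥) (hMN : M ⊓ N = ⊥) : Nat.card (Sylow p G) * Nat.card (Sylow p (G ⧸ (M ⊔ N))) = Nat.card (Sylow p (G ⧸ M)) * Nat.card (Sylow p (G ⧸ N)) := by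
  classical
  obtain ⟨P⟩ : Nonempty (Sylow p G) := inferInstance
  obtain ⟨Pg, hPg⟩ : ∃ Pg : Subgroup G, Pg = (P : Subgroup G) := ⟨_, rfl⟩
  have hPp : IsPGroup p Pg := hPg ▸ P.2
  have hPidx : ¬ p ∣ Pg.index := hPg ▸ P.not_dvd_index
  have hPmax : ∀ D : Subgroup G, IsPGroup p D → Pg ≤ D → D = Pg := by
    intro D hD hle
    rw [hPg] at hle ⊢
    exact P.is_maximal' hD hle
  have hQ : ∀ (K : Subgroup G) [K.Normal], Nat.card (Sylow p (G ⧸ K)) =
      (Subgroup.normalizer ((Pg ⊔ K : Subgroup G) : Set G)).index := by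
    intro K _
    have hsurj := QuotientGroup.mk'_surjective K
    have h1 : Nat.card (Sylow p (G ⧸ K)) = (Subgroup.normalizer
        (((P.mapSurjective hsurj : Sylow p (G ⧸ K)) : Subgroup (G ⧸ K)) : Set (G ⧸ K))).index :=
      Sylow.card_eq_index_normalizer _
    rw [Sylow.coe_mapSurjective] at h1
    rw [h1, ← Subgroup.index_comap_of_surjective _ hsurj,
      Subgroup.comap_normalizer_eq_of_surjective _ hsurj, Subgroup.comap_map_eq,
      QuotientGroup.ker_mk', hPg]
  have hnP : Nat.card (Sylow p G) = (Subgroup.normalizer (Pg : Set G)).index := by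
    rw [hPg]
    exact Sylow.card_eq_index_normalizer P
  have norm_sup : ∀ (S T : Subgroup G) (g : G), g ∈ Subgroup.normalizer (S : Set G) →
      g ∈ Subgroup.normalizer (T : Set G) →
      g ∈ Subgroup.normalizer ((S ⊔ T : Subgroup G) : Set G) := by
    intro S T g hS hT
    rw [Cfsg.Agent.Lib.Helper21.mem_normalizer_iff_map] at hS hT ⊢
    rw [Subgroup.map_sup, hS, hT]
  have hnormal : ∀ (K : Subgroup G) [K.Normal] (g : G),
      g ∈ Subgroup.normalizer (K : Set G) := by
    intro K hK g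
    rw [Subgroup.mem_normalizer_iff]
    intro h
    refine ⟨fun hh => hK.conj_mem h hh g, fun hh => ?_⟩
    have h1 := hK.conj_mem _ hh g⁻¹
    have e : g⁻¹ * (g * h * g⁻¹) * g⁻¹⁻¹ = h := by group
    rwa [e] at h1
  have frat : ∀ (K : Subgroup G) [K.Normal],
      Subgroup.normalizer ((Pg ⊔ K ⊔ N : Subgroup G) : Set G) =
        Subgroup.normalizer ((Pg ⊔ K : Subgroup G) : Set G) ⊔ N := by
    intro K _
    apply le_antisymm
    · intro g hg
      have hPL : Pg ≤ Pg ⊔ K ⊔ N := le_trans le_sup_left le_sup_left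
      have hgP : Pg.map (MulAut.conj g).toMonoidHom ≤ Pg ⊔ K ⊔ N := by
        rw [← (Cfsg.Agent.Lib.Helper21.mem_normalizer_iff_map _ g).mp hg]
        exact Subgroup.map_mono hPL
      have hidx : ¬ p ∣ Pg.relIndex (Pg ⊔ K ⊔ N) := fun h =>
        hPidx (h.trans (Subgroup.relIndex_dvd_index_of_le hPL))
      obtain ⟨l, hl, hlP⟩ := Cfsg.Agent.Lib.Helper21.exists_conj_eq_of_relIndex (p := p) hPL hgP
        hPp (hPp.map _) hidx (by rw [Cfsg.Agent.Lib.Helper21.card_map_conj])
      have h1 : l⁻¹ * g ∈ Subgroup.normalizer (Pg : Set G) := by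
        rw [Cfsg.Agent.Lib.Helper21.mem_normalizer_iff_map,
          Cfsg.Agent.Lib.Helper21.map_conj_mul, hlP,
          Cfsg.Agent.Lib.Helper21.map_conj_map_conj_inv]
      have h2 : l⁻¹ * g ∈ Subgroup.normalizer ((Pg ⊔ K : Subgroup G) : Set G) :=
        norm_sup _ _ _ h1 (hnormal K _)
      obtain ⟨u, hu, n, hn, rfl⟩ := Subgroup.mem_sup_of_normal_right.mp hl
      have e : g = u * n * ((u * n)⁻¹ * g) := by group
      rw [e]
      exact Subgroup.mul_mem _ (Subgroup.mul_mem _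
        (Subgroup.mem_sup_left (Subgroup.le_normalizer hu)) (Subgroup.mem_sup_right hn))
        (Subgroup.mem_sup_left h2)
    · apply sup_le
      · intro g hg
        exact norm_sup _ _ g hg (hnormal N g)
      · exact le_trans le_sup_right Subgroup.le_normalizer
  have hidx : ∀ (K : Subgroup G) [K.Normal],
      (Subgroup.normalizer ((Pg ⊔ K : Subgroup G) : Set G)).relIndex N *
        (Subgroup.normalizer ((Pg ⊔ K ⊔ N : Subgroup G) : Set G)).index =
      (Subgroup.normalizer ((Pg ⊔ K : Subgroup G) : Set G)).index := by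
    intro K _
    rw [frat K, ← Subgroup.inf_relIndex_right,
      Cfsg.Agent.Lib.Helper21.relIndex_inf_eq_relIndex_sup]
    exact Subgroup.relIndex_mul_index le_sup_left
  have hD : IsPGroup p ((Pg ⊔ M) ⊓ (Pg ⊔ N) : Subgroup G) := by
    have key : ∀ (K : Subgroup G) [K.Normal] (d : G), d ∈ Pg ⊔ K → ∃ a : ℕ, d ^ (p ^ a) ∈ K := by
      intro K _ d hd
      obtain ⟨x, hx, m, hm, rfl⟩ := Subgroup.mem_sup_of_normal_right.mp hd
      obtain ⟨a, ha⟩ := hPp ⟨x, hx⟩
      have ha' : x ^ (p ^ a) = 1 := congrArg Subtype.val ha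
      refine ⟨a, ?_⟩
      rw [← QuotientGroup.eq_one_iff, QuotientGroup.mk_pow, QuotientGroup.mk_mul,
        (QuotientGroup.eq_one_iff m).mpr hm, mul_one, ← QuotientGroup.mk_pow, ha']
      rfl
    intro d
    obtain ⟨a, ha⟩ := key M d d.2.1
    obtain ⟨b, hb⟩ := key N d d.2.2
    refine ⟨a + b, ?_⟩
    apply Subtype.ext
    have h1 : (d : G) ^ (p ^ (a + b)) ∈ M := by
      rw [pow_add, pow_mul]
      exact M.pow_mem ha _
    have h2 : (d : G) ^ (p ^ (a + b)) ∈ N := by
      rw [pow_add, mul_comm, pow_mul]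
      exact N.pow_mem hb _
    have h3 : (d : G) ^ (p ^ (a + b)) ∈ M ⊓ N := ⟨h1, h2⟩
    rw [hMN, Subgroup.mem_bot] at h3
    rw [Subgroup.coe_pow, h3]
    rfl
  have hkey : (Subgroup.normalizer ((Pg ⊔ M : Subgroup G) : Set G)).relIndex N =
      (Subgroup.normalizer (Pg : Set G)).relIndex N := by
    rw [← Subgroup.inf_relIndex_right, ← Subgroup.inf_relIndex_right (Subgroup.normalizer (Pg : Set G))]
    congr 1
    apply le_antisymm
    · intro g hg'
      obtain ⟨hg, hgN⟩ := Subgroup.mem_inf.mp hg'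
      rw [Subgroup.mem_inf]
      refine ⟨?_, hgN⟩
      have h1 : Pg.map (MulAut.conj g).toMonoidHom ≤ Pg ⊔ M := by
        rw [← (Cfsg.Agent.Lib.Helper21.mem_normalizer_iff_map _ g).mp hg]
        exact Subgroup.map_mono le_sup_left
      have h2 : Pg.map (MulAut.conj g).toMonoidHom ≤ Pg ⊔ N := by
        rintro _ ⟨x, hx, rfl⟩
        show g * x * g⁻¹ ∈ Pg ⊔ N
        exact Subgroup.mul_mem _ (Subgroup.mul_mem _ (Subgroup.mem_sup_right hgN)
          (Subgroup.mem_sup_left hx)) (Subgroup.inv_mem _ (Subgroup.mem_sup_right hgN))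
      have h3 := hPmax _ hD (le_inf le_sup_left le_sup_left)
      have h4 : Pg.map (MulAut.conj g).toMonoidHom ≤ Pg := le_trans (le_inf h1 h2) h3.le
      rw [Cfsg.Agent.Lib.Helper21.mem_normalizer_iff_map]
      exact Subgroup.eq_of_le_of_card_ge h4 (by rw [Cfsg.Agent.Lib.Helper21.card_map_conj])
    · intro g hg'
      obtain ⟨hg, hgN⟩ := Subgroup.mem_inf.mp hg'
      rw [Subgroup.mem_inf]
      exact ⟨norm_sup _ _ g hg (hnormal M g), hgN⟩
  have e1 := hidx ⊥
  have e2 := hidx M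
  rw [sup_bot_eq] at e1
  rw [hkey] at e2
  rw [hnP, hQ M, hQ N, hQ (M ⊔ N), ← sup_assoc, ← e1, ← e2]
  ring

end Cfsg.Agent.S3867
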