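import Cfsg.Statements.S3878
import Mathlib

set_option autoImplicit false
set_option linter.unusedSectionVars false
open Cfsg
open scoped Pointwise

namespace Cfsg.Agent.S3878

section general
variable {G : Type*} [Group G] [Finite G]

lemma exists_sylow_le (H : Subgroup G) (p : ℕ) [Fact p.Prime] (hp : ¬ p ∣ H.index) :
    ∃ P : Sylow p G, (P : Subgroup G) ≤ H := by
  obtain ⟨Q⟩ : Nonempty (Sylow p H) := inferInstance
  have hQ : IsPGroup p ((Q : Subgroup H).map H.subtype) := Q.isPGroup'.map _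
  obtain ⟨P, hP⟩ := hQ.exists_le_sylow
  have h1 : Nat.card ((Q : Subgroup H).map H.subtype) = Nat.card (Q : Subgroup H) :=
    Subgroup.card_map_of_injective H.subtype_injective
  have h2 : Nat.card (Q : Subgroup H) = p ^ (Nat.card H).factorization p := Q.card_eq_multiplicity
  have h3 : Nat.card (P : Subgroup G) = p ^ (Nat.card G).factorization p := P.card_eq_multiplicity
  have h4 : (Nat.card G).factorization p = (Nat.card H).factorization p := by
    rw [← H.card_mul_index, Nat.factorization_mul Nat.card_pos.ne' (Subgroup.index_ne_zero_of_finite),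
      Finsupp.add_apply, Nat.factorization_eq_zero_of_not_dvd hp, add_zero]
  have h5 : (Q : Subgroup H).map H.subtype = (P : Subgroup G) := by
    apply Subgroup.eq_of_le_of_card_ge hP
    rw [h1, h2, h3, h4]
  refine ⟨P, ?_⟩
  rw [← h5]
  exact Subgroup.map_subtype_le _

lemma exists_conj_mem (H : Subgroup G) (p : ℕ) [Fact p.Prime] (hp : ¬ p ∣ H.index) (x : G)
    (hx : ∃ k : ℕ, orderOf x = p ^ k) : ∃ g : G, g * x * g⁻¹ ∈ H := by
  obtain ⟨P, hP⟩ := exists_sylow_le H p hp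
  have hz : IsPGroup p (Subgroup.zpowers x) := by
    obtain ⟨k, hk⟩ := hx
    exact IsPGroup.of_card (n := k) (by rw [Nat.card_zpowers, hk])
  obtain ⟨P', hP'⟩ := hz.exists_le_sylow
  obtain ⟨g, hg⟩ := MulAction.exists_smul_eq G P' P
  refine ⟨g, hP ?_⟩
  have h1 : x ∈ (P' : Subgroup G) := hP' (Subgroup.mem_zpowers x)
  have h2 : MulAut.conj g • x ∈ MulAut.conj g • (P' : Subgroup G) :=
    Subgroup.smul_mem_pointwise_smul _ _ _ h1
  rw [← hg]
  exact h2

lemma e_of_d (π : Set ℕ) (h : Cfsg.IsDPiGroup π G) : Cfsg.IsEPiGroup π G := by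
  have hbot : Cfsg.IsPiSubgroup π (⊥ : Subgroup G) := by
    intro p hp hdvd
    rw [Subgroup.card_bot] at hdvd
    exact absurd (Nat.le_of_dvd one_pos hdvd) (by have := hp.two_le; omega)
  obtain ⟨M, -, hM⟩ := Finite.exists_le_maximal hbot
  refine ⟨M, hM.1, ?_⟩
  intro p hp hpπ hdvd
  have : Fact p.Prime := ⟨hp⟩
  obtain ⟨P⟩ : Nonempty (Sylow p G) := inferInstance
  have hPπ : Cfsg.IsPiSubgroup π (P : Subgroup G) := by
    intro q hq hqd
    rw [P.card_eq_multiplicity] at hqd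
    have := (Nat.prime_dvd_prime_iff_eq hq hp).mp (hq.dvd_of_dvd_pow hqd)
    rw [this]; exact hpπ
  obtain ⟨M', hPM', hM'⟩ := Finite.exists_le_maximal hPπ
  obtain ⟨g, hg⟩ := h M M' hM hM'
  have hcard : Nat.card M' = Nat.card M := by
    rw [hg]
    exact Subgroup.card_map_of_injective (MulAut.conj g).injective
  have h1 : Nat.card (P : Subgroup G) ∣ Nat.card M := by
    rw [← hcard]; exact Subgroup.card_dvd_of_le hPM'
  rw [P.card_eq_multiplicity] at h1
  have h2 : p ^ ((Nat.card G).factorization p + 1) ∣ Nat.card M * M.index := by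
    rw [pow_succ]
    exact Nat.mul_dvd_mul h1 hdvd
  rw [M.card_mul_index] at h2
  exact Nat.pow_succ_factorization_not_dvd Nat.card_pos.ne' hp h2

end general

section easy
variable {G : Type*} [Group G] [Finite G]

lemma e_of_all (π : Set ℕ) (hall : ∀ p : ℕ, p.Prime → p ∈ π) : Cfsg.IsEPiGroup π G :=
  ⟨⊤, fun p hp _ => hall p hp, fun p hp _ hdvd => by
    rw [Subgroup.index_top] at hdvd
    exact absurd (Nat.le_of_dvd one_pos hdvd) (by have := hp.two_le; omega)⟩

lemma d_of_all (π : Set ℕ) (hall : ∀ p : ℕ, p.Prime → p ∈ π) : Cfsg.IsDPiGroup π G := by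
  intro H K hH hK
  have htop : Cfsg.IsPiSubgroup π (⊤ : Subgroup G) := fun p hp _ => hall p hp
  have h1 : H = ⊤ := top_le_iff.mp (hH.2 htop le_top)
  have h2 : K = ⊤ := top_le_iff.mp (hK.2 htop le_top)
  refine ⟨1, ?_⟩
  rw [h1, h2]
  exact (Subgroup.map_top_of_surjective _ (MulAut.conj (1 : G)).surjective).symm

lemma e_of_none (π : Set ℕ) (hno : ∀ p : ℕ, p.Prime → p ∉ π) : Cfsg.IsEPiGroup π G :=
  ⟨⊥, fun p hp hdvd => by
    rw [Subgroup.card_bot] at hdvd
    exact absurd (Nat.le_of_dvd one_pos hdvd) (by have := hp.two_le; omega),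
    fun p hp hpπ _ => hno p hp hpπ⟩

lemma eq_bot_of_none (π : Set ℕ) (hno : ∀ p : ℕ, p.Prime → p ∉ π) (H : Subgroup G)
    (hH : Cfsg.IsPiSubgroup π H) : H = ⊥ := by
  rw [← Subgroup.card_eq_one]
  by_contra hne
  obtain ⟨p, hp, hdvd⟩ := Nat.exists_prime_and_dvd hne
  exact hno p hp (hH p hp hdvd)

lemma d_of_none (π : Set ℕ) (hno : ∀ p : ℕ, p.Prime → p ∉ π) : Cfsg.IsDPiGroup π G := by
  intro H K hH hK
  refine ⟨1, ?_⟩
  rw [eq_bot_of_none π hno H hH.1, eq_bot_of_none π hno K hK.1, Subgroup.map_bot]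

lemma e_of_one (π : Set ℕ) (p : ℕ) (hp : p.Prime)
    (huniq : ∀ q : ℕ, q.Prime → q ∈ π → q = p) : Cfsg.IsEPiGroup π G := by
  by_cases hpπ : p ∈ π
  · have : Fact p.Prime := ⟨hp⟩
    obtain ⟨P⟩ : Nonempty (Sylow p G) := inferInstance
    refine ⟨P, ?_, ?_⟩
    · intro q hq hqd
      rw [P.card_eq_multiplicity] at hqd
      have := (Nat.prime_dvd_prime_iff_eq hq hp).mp (hq.dvd_of_dvd_pow hqd)
      rw [this]; exact hpπ
    · intro q hq hqπ
      rw [huniq q hq hqπ]
      exact P.not_dvd_index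
  · exact e_of_none π (fun q hq hqπ => hpπ (huniq q hq hqπ ▸ hqπ))

lemma max_eq_sylow (π : Set ℕ) (p : ℕ) [Fact p.Prime] (hpπ : p ∈ π)
    (huniq : ∀ q : ℕ, q.Prime → q ∈ π → q = p) (H : Subgroup G)
    (hH : Maximal (Cfsg.IsPiSubgroup π) H) : ∃ P : Sylow p G, (P : Subgroup G) = H := by
  have hp : p.Prime := Fact.out
  have hcard : Nat.card H = p ^ (Nat.card H).primeFactorsList.length :=
    Nat.eq_prime_pow_of_unique_prime_dvd Nat.card_pos.ne'
      (fun {d} hd hdd => huniq d hd (hH.1 d hd hdd))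
  have hpg : IsPGroup p H := IsPGroup.of_card hcard
  obtain ⟨P, hP⟩ := hpg.exists_le_sylow
  have hPπ : Cfsg.IsPiSubgroup π (P : Subgroup G) := by
    intro q hq hqd
    rw [P.card_eq_multiplicity] at hqd
    have := (Nat.prime_dvd_prime_iff_eq hq hp).mp (hq.dvd_of_dvd_pow hqd)
    rw [this]; exact hpπ
  exact ⟨P, le_antisymm (hH.2 hPπ hP) hP⟩

lemma d_of_one (π : Set ℕ) (p : ℕ) (hp : p.Prime)
    (huniq : ∀ q : ℕ, q.Prime → q ∈ π → q = p) : Cfsg.IsDPiGroup π G := by
  by_cases hpπ : p ∈ π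
  · have : Fact p.Prime := ⟨hp⟩
    intro H K hH hK
    obtain ⟨P, rfl⟩ := max_eq_sylow π p hpπ huniq H hH
    obtain ⟨P', rfl⟩ := max_eq_sylow π p hpπ huniq K hK
    obtain ⟨g, hg⟩ := MulAction.exists_smul_eq G P P'
    refine ⟨g, ?_⟩
    rw [← hg]
    rfl
  · exact d_of_none π (fun q hq hqπ => hpπ (huniq q hq hqπ ▸ hqπ))

end easy

section perm
open Equiv MulAction

lemma card_perm_fin (n : ℕ) : Nat.card (Perm (Fin n)) = n.factorial := by
  rw [Nat.card_perm, Nat.card_eq_fintype_card, Fintype.card_fin]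

/-- A Hall `π`-subgroup of `Perm (Fin q)`, `q` a prime of `π`, is primitive. -/
lemma hall_preprimitive (π : Set ℕ) (q : ℕ) (hq : q.Prime) (hqπ : q ∈ π)
    (H : Subgroup (Perm (Fin q))) (hH : Cfsg.IsPiHall π H) :
    IsPreprimitive H (Fin q) := by
  have : Fact q.Prime := ⟨hq⟩
  have hqH : q ∣ Nat.card H := by
    have h1 : q ∣ Nat.card H * H.index := by
      rw [H.card_mul_index, card_perm_fin]; exact Nat.dvd_factorial hq.pos le_rfl
    exact (hq.dvd_mul.mp h1).resolve_right (hH.2 q hq hqπ)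
  obtain ⟨x, hx⟩ := exists_prime_orderOf_dvd_card' q hqH
  have hx' : orderOf (x : Perm (Fin q)) = q := by rw [Subgroup.orderOf_coe]; exact hx
  have hcyc : (x : Perm (Fin q)).IsCycle :=
    Equiv.Perm.isCycle_of_prime_order'' (by rw [Fintype.card_fin]; exact hq)
      (by rw [hx', Fintype.card_fin])
  have hsupp : (x : Perm (Fin q)).support = Finset.univ := by
    apply Finset.eq_univ_of_card
    rw [← hcyc.orderOf, hx', Fintype.card_fin]
  have htrans : IsPretransitive H (Fin q) := by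
    constructor
    intro a b
    have ha : (x : Perm (Fin q)) a ≠ a := by
      rw [← Equiv.Perm.mem_support, hsupp]; exact Finset.mem_univ _
    have hb : (x : Perm (Fin q)) b ≠ b := by
      rw [← Equiv.Perm.mem_support, hsupp]; exact Finset.mem_univ _
    obtain ⟨i, hi⟩ := hcyc.exists_pow_eq ha hb
    exact ⟨x ^ i, by simpa [Subgroup.smul_def] using hi⟩
  exact IsPreprimitive.of_prime_card (by rw [Nat.card_eq_fintype_card, Fintype.card_fin]; exact hq)

/-- A Hall `π`-subgroup of `Perm (Fin n)` contains a `p`-cycle for each prime `p ≤ n` of `π`. -/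
lemma exists_cycle_mem (π : Set ℕ) (n p : ℕ) (hp : p.Prime) (hpπ : p ∈ π) (hpn : p ≤ n)
    (H : Subgroup (Perm (Fin n))) (hH : Cfsg.IsPiHall π H) :
    ∃ y ∈ H, y.IsCycle ∧ y.support.card = p := by
  have : Fact p.Prime := ⟨hp⟩
  have h2 := hp.two_le
  have : NeZero n := ⟨by omega⟩
  set i : Fin n := ⟨p - 1, by omega⟩ with hi
  have hi0 : i ≠ 0 := by
    intro h
    have := congrArg Fin.val h
    simp [hi] at this
    omega
  have hcyc : (Fin.cycleRange i).IsCycle := Fin.isCycle_cycleRange hi0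
  have hcard : (Fin.cycleRange i).support.card = p := by
    rw [← Equiv.Perm.sum_cycleType, Fin.cycleType_cycleRange hi0, Multiset.sum_singleton]
    simp [hi]; omega
  have hord : orderOf (Fin.cycleRange i) = p ^ 1 := by
    rw [hcyc.orderOf, hcard, pow_one]
  obtain ⟨g, hg⟩ := exists_conj_mem H p (hH.2 p hp hpπ) (Fin.cycleRange i) ⟨1, hord⟩
  exact ⟨_, hg, hcyc.conj, by rw [Equiv.Perm.card_support_conj, hcard]⟩

/-- Case: `2 ∉ π`, odd primes `p < q` in `π`. -/
lemma no_hall_odd (π : Set ℕ) (p q : ℕ) (hp : p.Prime) (hq : q.Prime) (hpπ : p ∈ π)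
    (hqπ : q ∈ π) (hpq : p < q) (h2 : 2 ∉ π) : ¬ Cfsg.IsEPiGroup π (Perm (Fin q)) := by
  rintro ⟨H, hH⟩
  have hprim := hall_preprimitive π q hq hqπ H hH
  obtain ⟨y, hyH, hcyc, hcard⟩ := exists_cycle_mem π q p hp hpπ hpq.le H hH
  have hp2 := hp.two_le
  have hsn : ((y.support : Set (Fin q))ᶜ).ncard = (q - p - 1) + 1 := by
    have := Set.ncard_add_ncard_compl (y.support : Set (Fin q))
    rw [Set.ncard_coe_finset, hcard, Nat.card_eq_fintype_card, Fintype.card_fin] at this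
    omega
  have hsn' : (q - p - 1) + 2 < Nat.card (Fin q) := by
    rw [Nat.card_eq_fintype_card, Fintype.card_fin]; omega
  have htr := Equiv.Perm.isPretransitive_of_isCycle_mem hcyc hyH
  have h2t : IsMultiplyPretransitive H (Fin q) 2 := hprim.is_two_pretransitive hsn hsn' htr
  rw [MulAction.is_two_pretransitive_iff] at h2t
  have hq2 := hq.two_le
  have : NeZero q := ⟨by omega⟩
  have h01 : (0 : Fin q) ≠ ⟨1, by omega⟩ := by
    intro h
    have := congrArg Fin.val h
    simp at this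
  obtain ⟨h, hh0, hh1⟩ := h2t h01 h01.symm
  apply h2
  apply hH.1 2 Nat.prime_two
  by_contra hodd
  have hoddc : Odd (Nat.card H) := Nat.not_even_iff_odd.mp (fun he => hodd he.two_dvd)
  obtain ⟨k, hk⟩ := hoddc
  have hpow : h ^ (2 * k + 1) = 1 := by rw [← hk]; exact pow_card_eq_one'
  have hf0 : (h : Perm (Fin q)) 0 = ⟨1, by omega⟩ := by simpa [Subgroup.smul_def] using hh0
  have hf1 : (h : Perm (Fin q)) ⟨1, by omega⟩ = 0 := by simpa [Subgroup.smul_def] using hh1
  have hsq : ((h : Perm (Fin q)) ^ 2) 0 = 0 := by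
    rw [pow_two, Equiv.Perm.mul_apply, hf0, hf1]
  have hsqk : (((h : Perm (Fin q)) ^ 2) ^ k) 0 = 0 :=
    Equiv.Perm.pow_apply_eq_self_of_apply_eq_self hsq k
  have hcoe : ((h : Perm (Fin q))) ^ (2 * k + 1) = 1 := by
    rw [← Subgroup.coe_pow, hpow]; rfl
  have h3 : ((h : Perm (Fin q)) ^ (2 * k + 1)) 0 = ⟨1, by omega⟩ := by
    rw [pow_succ', pow_mul, Equiv.Perm.mul_apply, hsqk, hf0]
  rw [hcoe, Equiv.Perm.one_apply] at h3
  exact h01 h3

/-- Case: `2 ∈ π`, a prime `q ∈ π` and a prime `r ∉ π` with `r ≤ q`. -/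
lemma no_hall_swap (π : Set ℕ) (q r : ℕ) (hq : q.Prime) (hr : r.Prime) (h2π : 2 ∈ π)
    (hqπ : q ∈ π) (hrπ : r ∉ π) (hrq : r ≤ q) : ¬ Cfsg.IsEPiGroup π (Perm (Fin q)) := by
  rintro ⟨H, hH⟩
  have hprim := hall_preprimitive π q hq hqπ H hH
  have hq2 := hq.two_le
  have : NeZero q := ⟨by omega⟩
  have h01 : (0 : Fin q) ≠ ⟨1, by omega⟩ := by
    intro h
    have := congrArg Fin.val h
    simp at this
  have hsw : (swap (0 : Fin q) ⟨1, by omega⟩).IsSwap := ⟨_, _, h01, rfl⟩
  have hord : orderOf (swap (0 : Fin q) ⟨1, by omega⟩) = 2 ^ 1 := by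
    rw [pow_one]; exact hsw.orderOf
  obtain ⟨g, hg⟩ := exists_conj_mem H 2 (hH.2 2 Nat.prime_two h2π) _ ⟨1, hord⟩
  have hsw' : (g * swap (0 : Fin q) ⟨1, by omega⟩ * g⁻¹).IsSwap :=
    ⟨g 0, g ⟨1, by omega⟩, g.injective.ne h01, (Equiv.swap_apply_apply g _ _).symm⟩
  have htop : H = ⊤ :=
    Equiv.Perm.subgroup_eq_top_of_isPreprimitive_of_isSwap_mem hprim _ hsw' hg
  apply hrπ
  apply hH.1 r hr
  rw [htop, Subgroup.card_top, card_perm_fin]
  exact Nat.dvd_factorial hr.pos hrq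

/-- Case: the primes of `π` are exactly the primes below a prime `r ≥ 5`. -/
lemma no_hall_seg (π : Set ℕ) (r : ℕ) (hr : r.Prime) (hr5 : 5 ≤ r) (hrπ : r ∉ π)
    (hlt : ∀ p : ℕ, p.Prime → p < r → p ∈ π) : ¬ Cfsg.IsEPiGroup π (Perm (Fin (r + 1))) := by
  rintro ⟨H, hH⟩
  have hcard : Nat.card H * H.index = (r + 1).factorial := by
    rw [H.card_mul_index, card_perm_fin]
  have hrH : ¬ r ∣ Nat.card H := fun h => hrπ (hH.1 r hr h)
  have hr_idx : r ∣ H.index := by
    have : r ∣ Nat.card H * H.index := by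
      rw [hcard]; exact Nat.dvd_factorial hr.pos (by omega)
    exact (hr.dvd_mul.mp this).resolve_left hrH
  have hidx_dvd : H.index ∣ (r + 1).factorial := Dvd.intro_left _ hcard
  have hprime_idx : ∀ {d : ℕ}, d.Prime → d ∣ H.index → d = r := by
    intro d hd hdd
    have hdle : d ≤ r + 1 := (Nat.Prime.dvd_factorial hd).mp (hdd.trans hidx_dvd)
    have hdπ : d ∉ π := fun h => hH.2 d hd h hdd
    have hdr : ¬ d < r := fun h => hdπ (hlt d hd h)
    rcases Nat.lt_or_ge r d with h | h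
    · have hd1 : d = r + 1 := by omega
      exfalso
      have hodd : r % 2 = 1 := by
        rcases hr.eq_two_or_odd with h2 | h2
        · omega
        · exact h2
      have h2d : 2 ∣ d := by omega
      have := (Nat.prime_dvd_prime_iff_eq Nat.prime_two hd).mp h2d
      omega
    · omega
  have hidx_pow : H.index = r ^ (H.index).primeFactorsList.length :=
    Nat.eq_prime_pow_of_unique_prime_dvd (Subgroup.index_ne_zero_of_finite) hprime_idx
  have hr2 : ¬ r ^ 2 ∣ (r + 1).factorial := by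
    intro h
    have e : (r + 1).factorial = r * ((r + 1) * (r - 1).factorial) := by
      obtain ⟨m, rfl⟩ : ∃ m, r = m + 1 := ⟨r - 1, by omega⟩
      simp [Nat.factorial_succ]; ring
    rw [e, pow_two] at h
    have h' : r ∣ (r + 1) * (r - 1).factorial := Nat.dvd_of_mul_dvd_mul_left hr.pos h
    rcases hr.dvd_mul.mp h' with h1 | h1
    · have h2 : r ∣ 1 := (Nat.dvd_add_right (dvd_refl r)).mp h1
      have := Nat.le_of_dvd one_pos h2; omega
    · have := (Nat.Prime.dvd_factorial hr).mp h1; omega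
  have hidx_le : H.index ≤ r := by
    have hk1 : (H.index).primeFactorsList.length ≤ 1 := by
      by_contra hk2
      have : r ^ 2 ∣ H.index := by
        rw [hidx_pow]; exact pow_dvd_pow r (by omega)
      exact hr2 (this.trans hidx_dvd)
    rw [hidx_pow]
    calc r ^ (H.index).primeFactorsList.length ≤ r ^ 1 := Nat.pow_le_pow_right hr.pos hk1
      _ = r := pow_one r
  have hcore : H.normalCore ≠ ⊥ := by
    intro hbot
    rw [Subgroup.normalCore_eq_ker] at hbot
    have hinj : Function.Injective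
        (MulAction.toPermHom (Perm (Fin (r + 1))) (Perm (Fin (r + 1)) ⧸ H)) :=
      (MonoidHom.ker_eq_bot_iff _).mp hbot
    have h1 := Nat.card_le_card_of_injective _ hinj
    rw [card_perm_fin, Nat.card_perm, ← Subgroup.index_eq_card] at h1
    have h2 : (H.index).factorial ≤ r.factorial := Nat.factorial_le hidx_le
    have h3 : r.factorial < (r + 1).factorial := by
      rw [Nat.factorial_succ]; nlinarith [Nat.factorial_pos r]
    omega
  have hnt : Nontrivial H.normalCore := (Subgroup.nontrivial_iff_ne_bot _).mpr hcore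
  have hα : 5 ≤ Nat.card (Fin (r + 1)) := by
    rw [Nat.card_eq_fintype_card, Fintype.card_fin]; omega
  have hA : alternatingGroup (Fin (r + 1)) ≤ H.normalCore :=
    Equiv.Perm.alternatingGroup_le_of_normal hα hnt
  have hAH : alternatingGroup (Fin (r + 1)) ≤ H := hA.trans (Subgroup.normalCore_le H)
  have hntF : Nontrivial (Fin (r + 1)) := Fin.nontrivial_iff_two_le.mpr (by omega)
  have hdvd2 : H.index ∣ 2 := by
    have := Subgroup.index_dvd_of_le hAH
    rwa [alternatingGroup.index_eq_two] at this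
  have := Nat.le_of_dvd (by norm_num) (hr_idx.trans hdvd2)
  omega

/-- If `π` contains two distinct primes and misses a prime, some symmetric group has no Hall
`π`-subgroup. -/
lemma exists_no_hall (π : Set ℕ) (p q r : ℕ) (hp : p.Prime) (hq : q.Prime) (hr : r.Prime)
    (hpπ : p ∈ π) (hqπ : q ∈ π) (hpq : p ≠ q) (hrπ : r ∉ π) :
    ∃ n : ℕ, ¬ Cfsg.IsEPiGroup π (Perm (Fin n)) := by
  by_cases h2 : 2 ∈ π
  · by_cases hex : ∃ q' r' : ℕ, q'.Prime ∧ r'.Prime ∧ q' ∈ π ∧ r' ∉ π ∧ r' ≤ q'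
    · obtain ⟨q', r', hq', hr', hq'π, hr'π, hle⟩ := hex
      exact ⟨q', no_hall_swap π q' r' hq' hr' h2 hq'π hr'π hle⟩
    · have hex' : ∀ q' r' : ℕ, q'.Prime → r'.Prime → q' ∈ π → r' ∉ π → q' < r' := by
        intro q' r' hq' hr' hq'π hr'π
        by_contra hle
        exact hex ⟨q', r', hq', hr', hq'π, hr'π, not_lt.mp hle⟩
      have hexr : ∃ r' : ℕ, r'.Prime ∧ r' ∉ π := ⟨r, hr, hrπ⟩
      classical
      have hr₀ : (Nat.find hexr).Prime ∧ Nat.find hexr ∉ π := Nat.find_spec hexr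
      have hlt : ∀ p' : ℕ, p'.Prime → p' < Nat.find hexr → p' ∈ π := by
        intro p' hp' hlt'
        by_contra hn
        exact Nat.find_min hexr hlt' ⟨hp', hn⟩
      have hp_lt : p < Nat.find hexr := hex' p _ hp hr₀.1 hpπ hr₀.2
      have hq_lt : q < Nat.find hexr := hex' q _ hq hr₀.1 hqπ hr₀.2
      have hr5 : 5 ≤ Nat.find hexr := by
        have hp2 := hp.two_le
        have hq2 := hq.two_le
        have h4 : 4 ≤ Nat.find hexr := by omega
        rcases Nat.lt_or_ge (Nat.find hexr) 5 with h | h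
        · have h4' : Nat.find hexr = 4 := by omega
          exfalso
          have := hr₀.1
          rw [h4'] at this
          exact (by decide : ¬ Nat.Prime 4) this
        · exact h
      exact ⟨Nat.find hexr + 1, no_hall_seg π _ hr₀.1 hr5 hr₀.2 hlt⟩
  · rcases Nat.lt_or_gt_of_ne hpq with h | h
    · exact ⟨q, no_hall_odd π p q hp hq hpπ hqπ h h2⟩
    · exact ⟨p, no_hall_odd π q p hq hp hqπ hpπ h h2⟩

end perm

/-- For a set of primes π the following are equivalent: every finite group has a Hall π-subgroup; in every finite group the maximal π-subgroups are pairwise conjugate; π contains at most one prime or contains every prime. -/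
theorem result (π : Set ℕ) :
    ((∀ (G : Type) [Group G] [Finite G], Cfsg.IsEPiGroup π G) ↔
      ((∀ p q : ℕ, p.Prime → q.Prime → p ∈ π → q ∈ π → p = q) ∨ ∀ p : ℕ, p.Prime → p ∈ π)) ∧
    ((∀ (G : Type) [Group G] [Finite G], Cfsg.IsDPiGroup π G) ↔
      ((∀ p q : ℕ, p.Prime → q.Prime → p ∈ π → q ∈ π → p = q) ∨ ∀ p : ℕ, p.Prime → p ∈ π)) := by
  have key : (∀ (G : Type) [Group G] [Finite G], Cfsg.IsEPiGroup π G) →
      ((∀ p q : ℕ, p.Prime → q.Prime → p ∈ π → q ∈ π → p = q) ∨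
        ∀ p : ℕ, p.Prime → p ∈ π) := by
    intro hE
    by_contra hC
    rw [not_or] at hC
    obtain ⟨h1, h2⟩ := hC
    obtain ⟨p, q, hp, hq, hpπ, hqπ, hpq⟩ :
        ∃ p q : ℕ, p.Prime ∧ q.Prime ∧ p ∈ π ∧ q ∈ π ∧ p ≠ q := by
      by_contra hn
      apply h1
      intro p q hp hq hpπ hqπ
      by_contra hne
      exact hn ⟨p, q, hp, hq, hpπ, hqπ, hne⟩
    obtain ⟨r, hr, hrπ⟩ : ∃ r : ℕ, r.Prime ∧ r ∉ π := by
      by_contra hn
      apply h2
      intro r hr
      by_contra hrn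
      exact hn ⟨r, hr, hrn⟩
    obtain ⟨n, hn⟩ := exists_no_hall π p q r hp hq hr hpπ hqπ hpq hrπ
    exact hn (hE (Equiv.Perm (Fin n)))
  have easyE : ((∀ p q : ℕ, p.Prime → q.Prime → p ∈ π → q ∈ π → p = q) ∨
        ∀ p : ℕ, p.Prime → p ∈ π) →
      ∀ (G : Type) [Group G] [Finite G], Cfsg.IsEPiGroup π G := by
    rintro (h | h) G _ _
    · by_cases hex : ∃ p : ℕ, p.Prime ∧ p ∈ π
      · obtain ⟨p, hp, hpπ⟩ := hex
        exact e_of_one π p hp (fun q hq hqπ => h q p hq hp hqπ hpπ)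
      · exact e_of_none π (fun p hp hpπ => hex ⟨p, hp, hpπ⟩)
    · exact e_of_all π h
  have easyD : ((∀ p q : ℕ, p.Prime → q.Prime → p ∈ π → q ∈ π → p = q) ∨
        ∀ p : ℕ, p.Prime → p ∈ π) →
      ∀ (G : Type) [Group G] [Finite G], Cfsg.IsDPiGroup π G := by
    rintro (h | h) G _ _
    · by_cases hex : ∃ p : ℕ, p.Prime ∧ p ∈ π
      · obtain ⟨p, hp, hpπ⟩ := hex
        exact d_of_one π p hp (fun q hq hqπ => h q p hq hp hqπ hpπ)
      · exact d_of_none π (fun p hp hpπ => hex ⟨p, hp, hpπ⟩)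
    · exact d_of_all π h
  exact ⟨⟨key, easyE⟩, ⟨fun hD => key (fun G _ _ => e_of_d π (hD G)), easyD⟩⟩

end Cfsg.Agent.S3878
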