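import Cfsg.Statements.S3880
import Mathlib
import Cfsg.Agent.Lib.Helper22.Metacyclic

set_option autoImplicit false
open Cfsg

namespace Cfsg.Agent.S3880


open Cfsg.Agent.Lib.Helper22

theorem abel_iff {G : Type*} [Group G] [Finite G] {p : ℕ} [Fact p.Prime] (hp : p ≠ 2)
    (hG : IsPGroup p G) {a b : G} {r : ℕ} (h : MCData a b r) (L : Subgroup G) :
    IsMulCommutative ↥L ↔ Nat.card ↥L ≤ (commutator G).index := by
  have hp' : Nat.Prime p := Fact.out
  obtain ⟨m, k, t, hm, hk, hidx, hA1, hb1, hA2, hB2, hgen⟩ := h.sub L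
  set c : G := b * a * b⁻¹ * a⁻¹ with hc
  have e1 : IsMulCommutative ↥L ↔ Commute (a ^ m) (a ^ t * b ^ k) := by
    constructor
    · intro hL
      exact setLike_mul_comm hA1 hb1
    · intro hcomm
      rw [isMulCommutative_iff]
      intro x y
      obtain ⟨u, w, hx⟩ := hgen x x.2
      obtain ⟨u', w', hy⟩ := hgen y y.2
      apply Subtype.ext
      rw [Subgroup.coe_mul, Subgroup.coe_mul, hx, hy]
      exact (Commute.mul_right
        (Commute.mul_left ((Commute.refl _).zpow_zpow u u') ((hcomm.symm).zpow_zpow w u'))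
        (Commute.mul_left (hcomm.zpow_zpow u w') ((Commute.refl _).zpow_zpow w w'))).eq
  have e2 := h.comm_iff hp hG (m:ℤ) k t
  rw [zpow_natCast] at e2
  have e3 : c ^ ((m:ℤ) * (k:ℤ)) = 1 ↔ Nat.card ↥(commutator G) ∣ L.index := by
    rw [h.card_commutator, ← hidx, orderOf_dvd_iff_pow_eq_one, ← zpow_natCast]
    push_cast; rfl
  rw [e1, e2, e3]
  obtain ⟨x, hx⟩ := (hG.to_subgroup (commutator G)).exists_card_eq
  obtain ⟨y, hy⟩ := hG.index L
  have h1 : Nat.card ↥L * L.index = Nat.card G := Subgroup.card_mul_index L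
  have h2 : Nat.card ↥(commutator G) * (commutator G).index = Nat.card G :=
    Subgroup.card_mul_index _
  have hLpos : 0 < Nat.card ↥L := Nat.card_pos
  have hDpos : 0 < Nat.card ↥(commutator G) := Nat.card_pos
  have e4 : Nat.card ↥(commutator G) ∣ L.index ↔ Nat.card ↥(commutator G) ≤ L.index := by
    rw [hx, hy, Nat.pow_dvd_pow_iff_le_right hp'.one_lt, Nat.pow_le_pow_iff_right hp'.one_lt]
  rw [e4]
  constructor
  · intro h3
    have : Nat.card ↥L * Nat.card ↥(commutator G) ≤ (commutator G).index * Nat.card ↥(commutator G) := by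
      calc Nat.card ↥L * Nat.card ↥(commutator G) ≤ Nat.card ↥L * L.index :=
            Nat.mul_le_mul_left _ h3
        _ = (commutator G).index * Nat.card ↥(commutator G) := by rw [h1, ← h2, mul_comm]
    exact Nat.le_of_mul_le_mul_right this hDpos
  · intro h3
    have : Nat.card ↥L * Nat.card ↥(commutator G) ≤ Nat.card ↥L * L.index := by
      calc Nat.card ↥L * Nat.card ↥(commutator G)
          ≤ (commutator G).index * Nat.card ↥(commutator G) := Nat.mul_le_mul_right _ h3
        _ = Nat.card ↥L * L.index := by rw [h1, ← h2, mul_comm]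
    exact Nat.le_of_mul_le_mul_left this hLpos


/-- Let p be an odd prime and G a finite metacyclic p-group (G has a cyclic normal subgroup with cyclic quotient). Then a subgroup L of G is abelian if and only if |L| ≤ |G : G'|, and L is a maximal abelian subgroup of G if and only if |L| = |G : G'|. -/
theorem result {G : Type*} [Group G] [Finite G] {p : ℕ} [Fact p.Prime] (hp : p ≠ 2) (hG : IsPGroup p G) (hmc : Cfsg.IsMetacyclic G) (L : Subgroup G) :
    (IsMulCommutative ↥L ↔ Nat.card ↥L ≤ (commutator G).index) ∧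
      (Maximal (fun K : Subgroup G => IsMulCommutative ↥K) L ↔ Nat.card ↥L = (commutator G).index) := by
  have hp' : Nat.Prime p := Fact.out
  obtain ⟨a, b, r, h⟩ := exists_mcdata hmc
  refine ⟨abel_iff hp hG h L, ?_⟩
  constructor
  · intro hmax
    have h1 : Nat.card ↥L ≤ (commutator G).index := (abel_iff hp hG h L).mp hmax.1
    by_contra hne
    have hlt : Nat.card ↥L < (commutator G).index := lt_of_le_of_ne h1 hne
    obtain ⟨x, hx⟩ := (hG.to_subgroup L).exists_card_eq
    obtain ⟨y, hy⟩ := hG.index (commutator G)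
    rw [hx, hy] at hlt
    have hxy : x < y := (Nat.pow_lt_pow_iff_right hp'.one_lt).mp hlt
    have hdvd : p ^ (x + 1) ∣ Nat.card G :=
      dvd_trans (pow_dvd_pow p hxy) (hy ▸ Subgroup.index_dvd_card _)
    obtain ⟨K, hK, hLK⟩ := Sylow.exists_subgroup_card_pow_succ hdvd hx
    have hKab : IsMulCommutative ↥K := by
      rw [abel_iff hp hG h K, hK, hy]
      exact Nat.pow_le_pow_right hp'.pos hxy
    have hKL : K ≤ L := hmax.2 hKab hLK
    have := Nat.card_le_card_of_injective _ (Subgroup.inclusion_injective hKL)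
    rw [hK, hx] at this
    exact absurd this (not_le.mpr (Nat.pow_lt_pow_right hp'.one_lt (Nat.lt_succ_self x)))
  · intro heq
    refine ⟨(abel_iff hp hG h L).mpr heq.le, fun K hK hLK => ?_⟩
    have h1 : Nat.card ↥K ≤ Nat.card ↥L := heq ▸ (abel_iff hp hG h K).mp hK
    exact (Subgroup.eq_of_le_of_card_ge hLK h1).ge

end Cfsg.Agent.S3880
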