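import Cfsg.Statements.S3881
import Mathlib
import Cfsg.Agent.Lib.Helper22.Metacyclic4
import Cfsg.Agent.S3879

set_option autoImplicit false
open Cfsg

namespace Cfsg.Agent.S3881


open Cfsg.Agent.Lib.Helper22


/-- Let p be an odd prime and G a finite metacyclic p-group (G has a cyclic normal subgroup with cyclic quotient). Suppose G is non-abelian with |G'| = p^n. Then for 1 ≤ i ≤ n the number of elements of G whose conjugacy class has exactly p^i elements is |Z(G)| · (p^(2i) − p^(2i−2)). -/
theorem result {G : Type*} [Group G] [Finite G] {p : ℕ} [Fact p.Prime] (hp : p ≠ 2) (hG : IsPGroup p G) (hmc : Cfsg.IsMetacyclic G) (n : ℕ) (hn : n ≠ 0) (hGn : Nat.card ↥(commutator G) = p ^ n) (i : ℕ) (hi : 1 ≤ i) (hin : i ≤ n) :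
    Nat.card {g : G // (Subgroup.centralizer ({g} : Set G)).index = p ^ i} =
      Nat.card ↥(Subgroup.center G) * (p ^ (2 * i) - p ^ (2 * i - 2)) := by
  have hp' : Nat.Prime p := Fact.out
  obtain ⟨a, b, r, h⟩ := exists_mcdata hmc
  set U : ℕ → Subgroup G := fun s => Subgroup.closure {x : G | ∃ y : G, y ^ p ^ s = x} with hU
  have hZ : Nat.card ↥(Subgroup.center G) * p ^ (2 * n) = Nat.card G := by
    have h1 := Cfsg.Agent.S3879.result hp hG hmc
    have h2 := Subgroup.card_mul_index (Subgroup.center G)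
    rw [h1, hGn, ← pow_mul, mul_comm n 2] at h2; exact h2
  have hcard : ∀ s, s ≤ n → Nat.card ↥(U s) = Nat.card ↥(Subgroup.center G) * p ^ (2 * (n - s)) := by
    intro s hs
    have h1 := Subgroup.card_mul_index (U s)
    rw [h.agemo_index hp hG n hGn s hs, ← hZ] at h1
    have h2 : p ^ (2 * n) = p ^ (2 * (n - s)) * p ^ (2 * s) := by
      rw [← pow_add]; congr 1; omega
    rw [h2, ← mul_assoc] at h1
    exact Nat.eq_of_mul_eq_mul_right (pow_pos hp'.pos _) h1
  have hset : {g : G | (Subgroup.centralizer ({g} : Set G)).index = p ^ i} =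
      (U (n - i) : Set G) \ (U (n - i + 1) : Set G) := by
    ext g
    simp only [Set.mem_ofPred_eq, Set.mem_sdiff, SetLike.mem_coe]
    rw [hU]
    simp only
    rw [h.agemo_iff hp hG n hGn (n - i) (Nat.sub_le n i) g,
      h.agemo_iff hp hG n hGn (n - i + 1) (by omega) g]
    have e1 : n - (n - i) = i := by omega
    have e2 : n - (n - i + 1) = i - 1 := by omega
    rw [e1, e2]
    obtain ⟨y, hy⟩ := hG.index (Subgroup.centralizer ({g} : Set G))
    rw [hy, Nat.pow_le_pow_iff_right hp'.one_lt, Nat.pow_le_pow_iff_right hp'.one_lt]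
    constructor
    · intro h1
      have := Nat.pow_right_injective hp'.two_le h1
      omega
    · rintro ⟨h1, h2⟩
      congr 1; omega
  have hsub : (U (n - i + 1) : Set G) ⊆ (U (n - i) : Set G) := by
    rw [SetLike.coe_subset_coe, hU]
    simp only
    rw [Subgroup.closure_le]
    rintro _ ⟨y, rfl⟩
    exact Subgroup.subset_closure ⟨y ^ p, by rw [← pow_mul, ← pow_succ']⟩
  have hnc : ∀ s, (U s : Set G).ncard = Nat.card ↥(U s) := fun s =>
    (Nat.card_coe_set_eq _).symm
  have h0 : Nat.card {g : G // (Subgroup.centralizer ({g} : Set G)).index = p ^ i} =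
      Set.ncard {g : G | (Subgroup.centralizer ({g} : Set G)).index = p ^ i} :=
    Nat.card_coe_set_eq _
  rw [h0, hset, Set.ncard_sdiff hsub (Set.toFinite _), hnc, hnc, hcard _ (Nat.sub_le n i),
    hcard _ (by omega)]
  have e1 : 2 * (n - (n - i)) = 2 * i := by omega
  have e2 : 2 * (n - (n - i + 1)) = 2 * i - 2 := by omega
  rw [e1, e2, Nat.mul_sub]

end Cfsg.Agent.S3881
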