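import Cfsg.Statements.S3882
import Mathlib
import Cfsg.Agent.Lib.Helper22.Metacyclic3

set_option autoImplicit false
open Cfsg

namespace Cfsg.Agent.S3882


open Cfsg.Agent.Lib.Helper22


/-- Let p be an odd prime and G a finite metacyclic p-group (G has a cyclic normal subgroup with cyclic quotient). Suppose |G'| = p^n and 0 ≤ s ≤ n. Then an element g lies in the subgroup generated by the p^s-th powers if and only if its conjugacy class has at most p^(n−s) elements; in particular the subgroup generated by the p^n-th powers is the center of G. -/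
theorem result {G : Type*} [Group G] [Finite G] {p : ℕ} [Fact p.Prime] (hp : p ≠ 2) (hG : IsPGroup p G) (hmc : Cfsg.IsMetacyclic G) (n : ℕ) (hGn : Nat.card ↥(commutator G) = p ^ n) (s : ℕ) (hs : s ≤ n) (g : G) :
    (g ∈ Subgroup.closure {x : G | ∃ y : G, y ^ p ^ s = x} ↔ (Subgroup.centralizer ({g} : Set G)).index ≤ p ^ (n - s)) ∧
      Subgroup.closure {x : G | ∃ y : G, y ^ p ^ n = x} = Subgroup.center G := by
  obtain ⟨a, b, r, h⟩ := exists_mcdata hmc
  refine ⟨h.agemo_iff hp hG n hGn s hs g, ?_⟩
  ext x
  rw [h.agemo_iff hp hG n hGn n le_rfl x, Nat.sub_self, pow_zero]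
  constructor
  · intro hx
    have h1 : (Subgroup.centralizer ({x} : Set G)).index = 1 :=
      le_antisymm hx (Nat.pos_of_ne_zero Subgroup.index_ne_zero_of_finite)
    rw [Subgroup.index_eq_one, Subgroup.centralizer_eq_top_iff_subset] at h1
    exact h1 (Set.mem_singleton x)
  · intro hx
    have h1 : Subgroup.centralizer ({x} : Set G) = ⊤ := by
      rw [Subgroup.centralizer_eq_top_iff_subset]
      intro y hy
      rw [Set.mem_singleton_iff] at hy
      rw [hy]; exact hx
    rw [h1, Subgroup.index_top]

end Cfsg.Agent.S3882
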