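import Cfsg.Statements.S3883
import Mathlib
import Cfsg.Agent.Lib.Helper22.Metacyclic3
import Cfsg.Agent.Lib.Helper18.Frattini
import Cfsg.Agent.Lib.Helper28.ESDecomp
import Cfsg.Agent.S3880

set_option autoImplicit false
open Cfsg

namespace Cfsg.Agent.S3883


open Cfsg.Agent.Lib.Helper22

theorem frattini_eq {G : Type*} [Group G] [Finite G] {p : ℕ} [Fact p.Prime]
    (hG : IsPGroup p G) {a b : G} {r : ℕ} (h : MCData a b r) :
    frattini G = Subgroup.closure {x : G | ∃ y : G, y ^ p ^ 1 = x} := by
  apply le_antisymm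
  · apply Cfsg.Agent.Lib.Helper18.frattini_le_of_elementary (p := p)
    · intro x y
      have h1 : x * y * x⁻¹ * y⁻¹ ∈ commutator G := by
        rw [commutator_def]
        exact Subgroup.commutator_mem_commutator (Subgroup.mem_top x) (Subgroup.mem_top y)
      rw [h.commutator_eq] at h1
      have h2 : b * a * b⁻¹ * a⁻¹ ∈ Subgroup.closure {x : G | ∃ y : G, y ^ p ^ 1 = x} := by
        obtain ⟨n, hn⟩ := (IsPGroup.iff_orderOf.mp hG) a
        rcases Nat.eq_zero_or_pos n with h0 | h0
        · have ha1 : a = 1 := by rw [← orderOf_eq_one_iff, hn, h0, pow_zero]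
          rw [ha1]; simp
        · obtain ⟨q, hq⟩ := h.p_dvd hG hn h0
          rw [h.c_eq, hq]
          refine Subgroup.subset_closure ⟨a ^ q, ?_⟩
          rw [pow_one, ← zpow_natCast, ← zpow_mul, mul_comm]
      exact (Subgroup.zpowers_le.mpr h2) h1
    · intro x
      exact Subgroup.subset_closure ⟨x, by rw [pow_one]⟩
  · rw [Subgroup.closure_le]
    rintro _ ⟨y, rfl⟩
    rw [pow_one]
    exact Cfsg.Agent.Lib.Helper28.pow_mem_frattini hG y


/-- Let p be an odd prime and G a finite metacyclic p-group (G has a cyclic normal subgroup with cyclic quotient). Suppose G is non-abelian. Then an element g of G lies outside the Frattini subgroup if and only if its centralizer C_G(g) is abelian. -/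
theorem result {G : Type*} [Group G] [Finite G] {p : ℕ} [Fact p.Prime] (hp : p ≠ 2) (hG : IsPGroup p G) (hmc : Cfsg.IsMetacyclic G) (hna : ¬ IsMulCommutative G) (g : G) :
    g ∉ frattini G ↔ IsMulCommutative ↥(Subgroup.centralizer ({g} : Set G)) := by
  have hp' : Nat.Prime p := Fact.out
  obtain ⟨a, b, r, h⟩ := exists_mcdata hmc
  obtain ⟨n, hGn⟩ := (hG.to_subgroup (commutator G)).exists_card_eq
  have hn : 1 ≤ n := by
    by_contra hcon
    have hn0 : n = 0 := by omega
    apply hna
    rw [hn0, pow_zero] at hGn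
    have h3 : commutator G = ⊥ := (Subgroup.card_eq_one).mp hGn
    rw [isMulCommutative_iff]
    intro u v
    have h4 : u * v * u⁻¹ * v⁻¹ ∈ commutator G := by
      rw [commutator_def]
      exact Subgroup.commutator_mem_commutator (Subgroup.mem_top u) (Subgroup.mem_top v)
    rw [h3, Subgroup.mem_bot, mul_inv_eq_one, mul_inv_eq_iff_eq_mul] at h4
    exact h4
  set C := Subgroup.centralizer ({g} : Set G) with hC
  rw [frattini_eq hG h, h.agemo_iff hp hG n hGn 1 hn g, Cfsg.Agent.S3880.abel_iff hp hG h C]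
  obtain ⟨y, hy⟩ := hG.index C
  have h1 : Nat.card ↥C * C.index = Nat.card G := Subgroup.card_mul_index C
  have h2 : Nat.card ↥(commutator G) * (commutator G).index = Nat.card G :=
    Subgroup.card_mul_index _
  rw [hGn] at h2
  rw [hy] at h1 ⊢
  have hCpos : 0 < Nat.card ↥C := Nat.card_pos
  rw [not_le, Nat.pow_lt_pow_iff_right hp'.one_lt]
  constructor
  · intro hlt
    have hny : n ≤ y := by omega
    have h3 : Nat.card ↥C * p ^ n ≤ (commutator G).index * p ^ n := by
      calc Nat.card ↥C * p ^ n ≤ Nat.card ↥C * p ^ y :=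
            Nat.mul_le_mul_left _ (Nat.pow_le_pow_right hp'.pos hny)
        _ = (commutator G).index * p ^ n := by rw [h1, ← h2, mul_comm]
    exact Nat.le_of_mul_le_mul_right h3 (pow_pos hp'.pos n)
  · intro hle
    have h3 : Nat.card ↥C * p ^ n ≤ Nat.card ↥C * p ^ y := by
      calc Nat.card ↥C * p ^ n ≤ (commutator G).index * p ^ n := Nat.mul_le_mul_right _ hle
        _ = Nat.card ↥C * p ^ y := by rw [h1, ← h2, mul_comm]
    have h4 : p ^ n ≤ p ^ y := Nat.le_of_mul_le_mul_left h3 hCpos
    have h5 : n ≤ y := (Nat.pow_le_pow_iff_right hp'.one_lt).mp h4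
    omega

end Cfsg.Agent.S3883
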