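import Cfsg.Statements.S3884
import Mathlib
import Cfsg.Agent.Lib.Helper22.Metacyclic7

set_option autoImplicit false
open Cfsg

namespace Cfsg.Agent.S3884


open Cfsg.Agent.Lib.Helper22

theorem case2 {G : Type*} [Group G] [Finite G] {p : ℕ} [Fact p.Prime] (hp : p ≠ 2)
    (hG : IsPGroup p G) {a b : G} {r : ℕ} (h : MCData a b r)
    (N : ℕ) (hN : orderOf a = p ^ N) (hN0 : 0 < N) (d : ℕ)
    (hQ : ∀ j : ℕ, b ^ j ∈ Subgroup.zpowers a ↔ d ∣ j)
    (hcard : Nat.card G = orderOf a * d) (ζ f : ℕ) (hfq : f * p ^ ζ = d) (hfpos : 0 < f)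
    (hζN : ζ ≤ N) (hrel : a ^ (p ^ ζ) * b ^ d = 1) :
    ∃ A B : Subgroup G, IsCyclic ↥A ∧ IsCyclic ↥B ∧ A ⊓ B = ⊥ ∧
      Nat.card ↥A * Nat.card ↥B = Nat.card G := by
  have hp' : Nat.Prime p := Fact.out
  have hpi := Nat.prime_iff_prime_int.mp hp'
  have hr1 : (p:ℤ) ∣ (r:ℤ) - 1 := h.p_dvd hG hN hN0
  have hqpos : 0 < p ^ ζ := pow_pos hp'.pos ζ
  have hρ : (p:ℤ) ∣ (r:ℤ) ^ f - 1 := by
    have h5 := sub_dvd_pow_sub_pow (r:ℤ) 1 f
    rw [one_pow] at h5
    exact dvd_trans hr1 h5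
  have hbd : b ^ d = (a ^ (p ^ ζ))⁻¹ := (inv_eq_of_mul_eq_one_right hrel).symm
  have hconj : ∀ x ∈ Subgroup.zpowers a, b ^ f * x * (b ^ f)⁻¹ = x ^ (r ^ f) := by
    intro x hx
    have := h.conj_mem_zpowers 0 f hx
    rwa [zpow_zero, one_mul] at this
  set g0 : G := a * b ^ f with hg0
  have hpow : ∀ j : ℕ, g0 ^ j = a ^ (∑ l ∈ Finset.range j, (r ^ f) ^ l) * (b ^ f) ^ j :=
    fun j => mul_pow_of_power_action (Subgroup.zpowers a) (b ^ f) (r ^ f) hconj a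
      (Subgroup.mem_zpowers a) j
  have hcast : ∀ j : ℕ, ((∑ l ∈ Finset.range j, (r ^ f) ^ l : ℕ) : ℤ) =
      ∑ l ∈ Finset.range j, ((r:ℤ) ^ f) ^ l := by
    intro j; push_cast; rfl
  -- (i)
  have hSq : a ^ (∑ l ∈ Finset.range (p ^ ζ), (r ^ f) ^ l) = a ^ (p ^ ζ) := by
    have h1 : a ^ (r ^ d) = a := by
      have h2 := h.conj_pow_b d
      rw [hbd] at h2
      rw [← h2]; group
    have h3 : ((p:ℤ)^N ∣ 1 * (((r:ℤ)^f)^(p ^ ζ) - 1)) := by
      have : a ^ (((r:ℤ)^f)^(p ^ ζ) - 1) = 1 := by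
        rw [zpow_sub_one, mul_inv_eq_one]
        have e : a ^ (((r:ℤ)^f)^(p ^ ζ)) = a ^ (r ^ d) := by
          rw [← zpow_natCast a (r ^ d), ← hfq]; congr 1; push_cast; rw [pow_mul]
        rw [e, h1]
      rw [← orderOf_dvd_iff_zpow_eq_one, hN] at this
      rw [one_mul]; exact_mod_cast this
    have h4 := (mc_nt hp N ((r:ℤ)^f) hρ 1 (p ^ ζ)).mp h3
    have h5 := geom_sum_pow_sub hp ζ ((r:ℤ)^f - 1) hρ
    have h7 : (1 + ((r:ℤ)^f - 1)) = (r:ℤ)^f := by ring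
    rw [h7] at h5
    have h6 : ((p:ℤ)^N) ∣ (∑ l ∈ Finset.range (p ^ ζ), ((r:ℤ) ^ f) ^ l) - (p:ℤ) ^ ζ := by
      refine dvd_trans ?_ h5
      rw [one_mul] at h4
      exact_mod_cast h4
    have h8 : a ^ ((∑ l ∈ Finset.range (p ^ ζ), ((r:ℤ) ^ f) ^ l) - (p:ℤ) ^ ζ) = 1 := by
      rw [← orderOf_dvd_iff_zpow_eq_one, hN]; exact_mod_cast h6
    rw [zpow_sub, mul_inv_eq_one, ← hcast, zpow_natCast] at h8
    have e : ((p:ℤ)) ^ ζ = ((p ^ ζ : ℕ) : ℤ) := by push_cast; rfl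
    rw [h8, e, zpow_natCast]
  have hg0q : g0 ^ (p ^ ζ) = 1 := by
    rw [hpow (p ^ ζ), hSq, ← pow_mul, hfq]; exact hrel
  have hg0N : ∀ j : ℕ, g0 ^ j ∈ Subgroup.zpowers a → p ^ ζ ∣ j := by
    intro j hj
    have h1 : (b ^ f) ^ j ∈ Subgroup.zpowers a := by
      have h2 : (b ^ f) ^ j = (a ^ (∑ l ∈ Finset.range j, (r ^ f) ^ l))⁻¹ * g0 ^ j := by
        rw [hpow j]; group
      rw [h2]
      exact Subgroup.mul_mem _ (Subgroup.inv_mem _
        (Subgroup.pow_mem _ (Subgroup.mem_zpowers a) _)) hj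
    rw [← pow_mul, hQ, ← hfq] at h1
    exact Nat.dvd_of_mul_dvd_mul_left hfpos h1
  have hog0 : orderOf g0 = p ^ ζ := by
    apply Nat.dvd_antisymm (orderOf_dvd_of_pow_eq_one hg0q)
    apply hg0N; rw [pow_orderOf_eq_one]; exact one_mem _
  have hd_dvd : d ∣ orderOf b := by
    rw [← hQ, pow_orderOf_eq_one]; exact one_mem _
  have hdpos : 0 < d := by rw [← hfq]; exact Nat.mul_pos hfpos hqpos
  have hob : orderOf b = d * p ^ (N - ζ) := by
    have h1 : orderOf (b ^ d) = orderOf b / d := orderOf_pow_of_dvd hdpos.ne' hd_dvd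
    have h2 : orderOf (b ^ d) = p ^ (N - ζ) := by
      rw [hbd, orderOf_inv, orderOf_pow_of_dvd hqpos.ne' (by rw [hN]; exact pow_dvd_pow p hζN),
        hN, Nat.pow_div hζN hp'.pos]
    rw [← h2, h1, Nat.mul_div_cancel' hd_dvd]
  have hQZ : ∀ k : ℤ, b ^ k ∈ Subgroup.zpowers a → (d:ℤ) ∣ k := by
    intro k hk
    rw [Int.natCast_dvd, ← hQ]
    rcases Int.natAbs_eq k with hh | hh
    · rw [hh] at hk; rwa [zpow_natCast] at hk
    · rw [hh, zpow_neg, zpow_natCast] at hk; exact (Subgroup.inv_mem_iff _).mp hk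
  apply fact_of b g0
  · rw [hcard, hN, hob, hog0]
    have : p ^ N = p ^ (N - ζ) * p ^ ζ := by rw [← pow_add, Nat.sub_add_cancel hζN]
    rw [this]; ring
  · intro j hj
    obtain ⟨i, hi⟩ := (Submonoid.mem_powers_iff _ _).mp (mem_powers_iff_mem_zpowers.mpr hj)
    have h1 : a ^ (∑ l ∈ Finset.range j, (r ^ f) ^ l) = b ^ ((i:ℤ) - ((f * j : ℕ) : ℤ)) := by
      rw [zpow_sub, zpow_natCast, zpow_natCast, hi, hpow j, pow_mul]; group
    have h2 : b ^ ((i:ℤ) - ((f * j : ℕ) : ℤ)) ∈ Subgroup.zpowers a := by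
      rw [← h1]; exact Subgroup.pow_mem _ (Subgroup.mem_zpowers a) _
    obtain ⟨e, he⟩ := hQZ _ h2
    rw [he, zpow_mul, zpow_natCast, hbd] at h1
    -- a^S = ((a^q)⁻¹)^e
    have h3 : a ^ (((∑ l ∈ Finset.range j, (r ^ f) ^ l : ℕ) : ℤ) + ((p ^ ζ : ℕ) : ℤ) * e) = 1 := by
      rw [zpow_add, zpow_natCast, h1, zpow_mul, zpow_natCast, inv_zpow, inv_mul_cancel]
    rw [← orderOf_dvd_iff_zpow_eq_one, hN] at h3
    have h4 : ((p ^ ζ : ℕ) : ℤ) ∣ ((∑ l ∈ Finset.range j, (r ^ f) ^ l : ℕ) : ℤ) := by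
      have h5 : ((p ^ ζ : ℕ) : ℤ) ∣ ((p ^ N : ℕ) : ℤ) :=
        Int.natCast_dvd_natCast.mpr (pow_dvd_pow p hζN)
      have h6 := dvd_trans h5 h3
      exact (Int.dvd_add_left (Dvd.intro _ rfl)).mp h6
    rw [hcast] at h4
    have h5 : p ^ ζ ∣ j := by
      push_cast at h4
      rw [pow_dvd_iff_le_emultiplicity, geom_mult hp ((r:ℤ)^f) hρ j] at h4
      exact pow_dvd_iff_le_emultiplicity.mpr h4
    obtain ⟨j', rfl⟩ := h5
    rw [pow_mul, hg0q, one_pow]

theorem main {G : Type*} [Group G] [Finite G] {p : ℕ} [Fact p.Prime] (hp : p ≠ 2)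
    (hG : IsPGroup p G) {a b : G} {r : ℕ} (h : MCData a b r) :
    ∃ A B : Subgroup G, IsCyclic ↥A ∧ IsCyclic ↥B ∧ A ⊓ B = ⊥ ∧
      Nat.card ↥A * Nat.card ↥B = Nat.card G := by
  classical
  have hp' : Nat.Prime p := Fact.out
  have hpi := Nat.prime_iff_prime_int.mp hp'
  obtain ⟨N, hN⟩ := (IsPGroup.iff_orderOf.mp hG) a
  haveI := h.hN
  set d : ℕ := orderOf (QuotientGroup.mk b : G ⧸ Subgroup.zpowers a) with hd
  have hdpos : 0 < d := orderOf_pos _
  have Q1 : ∀ j : ℕ, b ^ j ∈ Subgroup.zpowers a ↔ d ∣ j := by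
    intro j
    rw [hd, orderOf_dvd_iff_pow_eq_one, ← QuotientGroup.mk_pow, QuotientGroup.eq_one_iff]
  have Q2 : Nat.card G = orderOf a * d := by
    have gen : ∀ x : G ⧸ Subgroup.zpowers a,
        x ∈ Subgroup.zpowers (QuotientGroup.mk b : G ⧸ Subgroup.zpowers a) := by
      intro x
      obtain ⟨g, rfl⟩ := QuotientGroup.mk_surjective x
      obtain ⟨i, j, rfl⟩ := h.hdec g
      refine Subgroup.mem_zpowers_iff.mpr ⟨j, ?_⟩
      have h1 : ((a ^ i : G) : G ⧸ Subgroup.zpowers a) = 1 :=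
        (QuotientGroup.eq_one_iff _).mpr (Subgroup.zpow_mem _ (Subgroup.mem_zpowers a) i)
      rw [QuotientGroup.mk_mul, h1, one_mul, QuotientGroup.mk_zpow]
    have h1 := Subgroup.card_mul_index (Subgroup.zpowers a)
    rw [Subgroup.index_eq_card, ← orderOf_eq_card_of_forall_mem_zpowers gen, Nat.card_zpowers] at h1
    exact h1.symm
  obtain ⟨δ, hδ⟩ : ∃ δ, d = p ^ δ := by
    obtain ⟨δ, hδ'⟩ := hG.index (Subgroup.zpowers a)
    refine ⟨δ, ?_⟩
    have h1 := Subgroup.card_mul_index (Subgroup.zpowers a)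
    rw [Nat.card_zpowers, Q2] at h1
    have := Nat.eq_of_mul_eq_mul_left (orderOf_pos a) h1
    rw [← this, hδ']
  have hconj : ∀ x ∈ Subgroup.zpowers a, b * x * b⁻¹ = x ^ r := by
    intro x hx
    have := h.conj_mem_zpowers 0 1 hx
    rwa [zpow_zero, one_mul, pow_one, pow_one] at this
  have hpow : ∀ (t : ℤ), (a ^ t * b) ^ d = (a ^ t) ^ (∑ l ∈ Finset.range d, r ^ l) * b ^ d :=
    fun t => mul_pow_of_power_action (Subgroup.zpowers a) b r hconj (a ^ t)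
      (Subgroup.zpow_mem _ (Subgroup.mem_zpowers a) t) d
  by_cases hC1 : ∃ t : ℤ, (a ^ t * b) ^ d = 1
  · obtain ⟨t, ht⟩ := hC1
    have hN' : ∀ j : ℕ, (a ^ t * b) ^ j ∈ Subgroup.zpowers a → d ∣ j := by
      intro j hj
      rw [← QuotientGroup.eq_one_iff, QuotientGroup.mk_pow, QuotientGroup.mk_mul] at hj
      have h1 : ((a ^ t : G) : G ⧸ Subgroup.zpowers a) = 1 :=
        (QuotientGroup.eq_one_iff _).mpr (Subgroup.zpow_mem _ (Subgroup.mem_zpowers a) t)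
      rw [h1, one_mul] at hj
      rw [hd]; exact orderOf_dvd_of_pow_eq_one hj
    apply fact_of a (a ^ t * b)
    · have : orderOf (a ^ t * b) = d := by
        apply Nat.dvd_antisymm (orderOf_dvd_of_pow_eq_one ht)
        apply hN'; rw [pow_orderOf_eq_one]; exact one_mem _
      rw [this]; exact Q2
    · intro j hj
      obtain ⟨e, rfl⟩ := hN' j hj
      rw [pow_mul, ht, one_pow]
  · have hN0 : 0 < N := by
      by_contra hcon
      have hN00 : N = 0 := by omega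
      have ha1 : a = 1 := by rw [← orderOf_eq_one_iff, hN, hN00, pow_zero]
      apply hC1
      refine ⟨0, ?_⟩
      have h1 : b ^ d ∈ Subgroup.zpowers a := (Q1 d).mpr dvd_rfl
      rw [ha1, Subgroup.zpowers_one_eq_bot, Subgroup.mem_bot] at h1
      rw [zpow_zero, one_mul]; exact h1
    have hr1 : (p:ℤ) ∣ (r:ℤ) - 1 := h.p_dvd hG hN hN0
    have hbdN : b ^ d ∈ Subgroup.zpowers a := (Q1 d).mpr dvd_rfl
    obtain ⟨z, hz⟩ := Subgroup.mem_zpowers_iff.mp hbdN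
    have hSd' : ((∑ l ∈ Finset.range d, r ^ l : ℕ) : ℤ) = ∑ l ∈ Finset.range d, (r:ℤ) ^ l := by
      push_cast; rfl
    have hord : orderOf (a ^ ((∑ l ∈ Finset.range d, r ^ l : ℕ) : ℤ)) = orderOf (a ^ (d : ℤ)) := by
      apply orderOf_zpow_eq_of_emultiplicity a N hN
      rw [hSd', geom_mult hp (r:ℤ) hr1 d, Int.natCast_emultiplicity]
    have hnd : ¬ orderOf (a ^ z) ∣ orderOf (a ^ (d:ℤ)) := by
      intro hdvd
      rw [← hord] at hdvd
      obtain ⟨e, he⟩ := MCData.zpow_mem_zpowers_of_orderOf_dvd a z _ hdvd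
      apply hC1
      refine ⟨-e, ?_⟩
      rw [hpow (-e), ← hz, ← he, ← zpow_natCast (a ^ (-e)), ← zpow_mul, ← zpow_mul, ← zpow_add]
      have : -e * ((∑ l ∈ Finset.range d, r ^ l : ℕ) : ℤ) +
          ((∑ l ∈ Finset.range d, r ^ l : ℕ) : ℤ) * e = 0 := by ring
      rw [this, zpow_zero]
    obtain ⟨ω, hω⟩ := (IsPGroup.iff_orderOf.mp hG) (a ^ z)
    obtain ⟨α, hα⟩ := (IsPGroup.iff_orderOf.mp hG) (a ^ (d:ℤ))
    have hαω : α < ω := by
      by_contra hcon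
      apply hnd; rw [hω, hα]; exact pow_dvd_pow p (not_lt.mp hcon)
    have hωN : ω ≤ N := by
      have h1 : orderOf (a ^ z) ∣ orderOf a := orderOf_dvd_of_pow_eq_one (by
        rw [← zpow_natCast, ← zpow_mul, mul_comm, zpow_mul, zpow_natCast, pow_orderOf_eq_one,
          one_zpow])
      rw [hω, hN] at h1
      exact (Nat.pow_dvd_pow_iff_le_right hp'.one_lt).mp h1
    have hNδα : N ≤ δ + α := by
      have h1 : a ^ (d * p ^ α) = 1 := by
        rw [pow_mul, ← hα, ← zpow_natCast a d, pow_orderOf_eq_one]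
      have h2 := orderOf_dvd_of_pow_eq_one h1
      rw [hN, hδ, ← pow_add] at h2
      exact (Nat.pow_dvd_pow_iff_le_right hp'.one_lt).mp h2
    have hζN : N - ω ≤ N := Nat.sub_le N ω
    have hζδ : N - ω ≤ δ := by omega
    have hω1 : 1 ≤ ω := by omega
    have ho1 : orderOf (a ^ ((p ^ (N - ω) : ℕ) : ℤ)) = p ^ ω := by
      rw [zpow_natCast, orderOf_pow_of_dvd (pow_ne_zero _ hp'.ne_zero)
        (by rw [hN]; exact pow_dvd_pow p hζN), hN, Nat.pow_div hζN hp'.pos]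
      congr 1; omega
    obtain ⟨e, he⟩ := MCData.zpow_mem_zpowers_of_orderOf_dvd a (-z) ((p ^ (N - ω) : ℕ) : ℤ) (by
      rw [zpow_neg, orderOf_inv, hω, ho1])
    have ha1q : (a ^ e) ^ (p ^ (N - ω)) = (b ^ d)⁻¹ := by
      rw [← hz, ← zpow_neg, ← he, ← zpow_natCast (a ^ e), ← zpow_mul, ← zpow_mul, mul_comm]
    have hoa1 : orderOf (a ^ e) = p ^ N := by
      obtain ⟨β, hβ⟩ := (IsPGroup.iff_orderOf.mp hG) (a ^ e)
      have hβN : β ≤ N := by
        have h1 : orderOf (a ^ e) ∣ orderOf a := orderOf_dvd_of_pow_eq_one (by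
          rw [← zpow_natCast, ← zpow_mul, mul_comm, zpow_mul, zpow_natCast, pow_orderOf_eq_one,
            one_zpow])
        rw [hβ, hN] at h1
        exact (Nat.pow_dvd_pow_iff_le_right hp'.one_lt).mp h1
      rcases Nat.lt_or_ge β N with hlt | hge
      · exfalso
        have h1 : (a ^ e) ^ (p ^ (N - 1)) = 1 := by
          rw [← orderOf_dvd_iff_pow_eq_one, hβ]; exact pow_dvd_pow p (by omega)
        have h2 : ((b ^ d)⁻¹) ^ (p ^ (ω - 1)) = 1 := by
          rw [← ha1q, ← pow_mul, ← pow_add]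
          have : N - ω + (ω - 1) = N - 1 := by omega
          rw [this]; exact h1
        have h3 := orderOf_dvd_of_pow_eq_one h2
        rw [orderOf_inv, ← hz, hω] at h3
        have := (Nat.pow_dvd_pow_iff_le_right hp'.one_lt).mp h3
        omega
      · rw [hβ]; congr 1; omega
    obtain ⟨u, hu⟩ := MCData.zpow_mem_zpowers_of_orderOf_dvd a 1 e (by rw [zpow_one, hoa1, hN])
    have hza : Subgroup.zpowers (a ^ e) = Subgroup.zpowers a := by
      apply le_antisymm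
      · rw [Subgroup.zpowers_le]; exact Subgroup.zpow_mem _ (Subgroup.mem_zpowers a) e
      · rw [Subgroup.zpowers_le]; refine Subgroup.mem_zpowers_iff.mpr ⟨u, ?_⟩; rw [hu, zpow_one]
    have h1data : MCData (a ^ e) b r := by
      refine ⟨?_, ?_, ?_⟩
      · exact hconj (a ^ e) (Subgroup.zpow_mem _ (Subgroup.mem_zpowers a) e)
      · rw [hza]; exact h.hN
      · intro g
        obtain ⟨i, j, rfl⟩ := h.hdec g
        refine ⟨u * i, j, ?_⟩
        rw [zpow_mul, hu, zpow_one]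
    apply case2 hp hG h1data N hoa1 hN0 d (by intro j; rw [hza]; exact Q1 j)
      (by rw [hoa1, ← hN]; exact Q2) (N - ω) (p ^ (δ - (N - ω)))
      (by rw [← pow_add, hδ]; congr 1; omega) (pow_pos hp'.pos _) hζN
    rw [ha1q]; exact inv_mul_cancel _


/-- Let p be an odd prime and G a finite metacyclic p-group (G has a cyclic normal subgroup with cyclic quotient). Then G is the product of two cyclic subgroups with trivial intersection: there are cyclic subgroups A and B with A ∩ B = 1 and |A| · |B| = |G|. -/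
theorem result {G : Type*} [Group G] [Finite G] {p : ℕ} [Fact p.Prime] (hp : p ≠ 2) (hG : IsPGroup p G) (hmc : Cfsg.IsMetacyclic G) : ∃ A B : Subgroup G, IsCyclic ↥A ∧ IsCyclic ↥B ∧ A ⊓ B = ⊥ ∧ Nat.card ↥A * Nat.card ↥B = Nat.card G := by
  obtain ⟨a, b, r, h⟩ := exists_mcdata hmc
  exact main hp hG h

end Cfsg.Agent.S3884
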