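import Cfsg.Statements.S3885
import Mathlib
import Cfsg.Agent.Lib.Helper22.Metacyclic6

set_option autoImplicit false
open Cfsg

namespace Cfsg.Agent.S3885


open Cfsg.Agent.Lib.Helper22


/-- Let p be an odd prime and G a finite metacyclic p-group (G has a cyclic normal subgroup with cyclic quotient). Then every abelian subgroup K of G containing the center of G is the center of its own centralizer: K = Z(C_G(K)). -/
theorem result {G : Type*} [Group G] [Finite G] {p : ℕ} [Fact p.Prime] (hp : p ≠ 2) (hG : IsPGroup p G) (hmc : Cfsg.IsMetacyclic G) (K : Subgroup G) (hK : IsMulCommutative ↥K) (hZ : Subgroup.center G ≤ K) :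
    K = Subgroup.centralizer (K : Set G) ⊓ Subgroup.centralizer (Subgroup.centralizer (K : Set G) : Set G) := by
  obtain ⟨a, b, r, h⟩ := exists_mcdata hmc
  set X : Subgroup G := Subgroup.centralizer (K : Set G) with hX
  set W : Subgroup G := X ⊓ Subgroup.centralizer (X : Set G) with hW
  have hKX : K ≤ X := by
    intro x hx
    rw [hX, Subgroup.mem_centralizer_iff]
    intro y hy
    exact setLike_mul_comm hy hx
  have hKCX : K ≤ Subgroup.centralizer (X : Set G) := by
    intro x hx
    rw [Subgroup.mem_centralizer_iff]
    intro y hy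
    rw [SetLike.mem_coe, hX, Subgroup.mem_centralizer_iff] at hy
    exact (hy x hx).symm
  have hKW : K ≤ W := le_inf hKX hKCX
  have hCW : Subgroup.centralizer (W : Set G) = X := by
    apply le_antisymm
    · exact Subgroup.centralizer_le (SetLike.coe_subset_coe.mpr hKW)
    · intro x hx
      rw [Subgroup.mem_centralizer_iff]
      intro y hy
      have hy2 : y ∈ Subgroup.centralizer (X : Set G) := hy.2
      rw [Subgroup.mem_centralizer_iff] at hy2
      exact (hy2 x hx).symm
  have h1 := h.centralizer_card hp hG K hZ
  have h2 := h.centralizer_card hp hG W (hZ.trans hKW)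
  rw [hCW] at h2
  rw [← hX, ← h2] at h1
  have h3 : Nat.card ↥K = Nat.card ↥W := Nat.eq_of_mul_eq_mul_right Nat.card_pos h1
  exact Subgroup.eq_of_le_of_card_ge hKW h3.ge

end Cfsg.Agent.S3885
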