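import Cfsg.Statements.S3886
import Mathlib
import Cfsg.Agent.Lib.Helper22.Metacyclic2
import Cfsg.Agent.S3879
import Cfsg.Agent.S3880

set_option autoImplicit false
open Cfsg

namespace Cfsg.Agent.S3886


open Cfsg.Agent.Lib.Helper22

/-- nonabelian subgroups: `|R| |Z(R)| = |G : G'|^2` -/
theorem fA {G : Type*} [Group G] [Finite G] {p : ℕ} [Fact p.Prime] (hp : p ≠ 2)
    (hG : IsPGroup p G) {a b : G} {r : ℕ} (h : MCData a b r) (R : Subgroup G)
    (hna : ¬ IsMulCommutative ↥R) :
    Nat.card ↥R * Nat.card ↥(Subgroup.center ↥R) = (commutator G).index ^ 2 := by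
  obtain ⟨m, k, t, hm, hk, hidx, hA1, hb1, hA2, hB2, hgen⟩ := h.sub R
  have hR := h.sub_mcdata R m k t hA1 hb1 hgen
  have h1 : (Subgroup.center ↥R).index = Nat.card ↥(commutator ↥R) ^ 2 :=
    Cfsg.Agent.S3879.main hp (hG.to_subgroup R) _ _ _ hR.hr hR.hN hR.hdec
  have h2 : Nat.card ↥(Subgroup.center ↥R) * (Subgroup.center ↥R).index = Nat.card ↥R :=
    Subgroup.card_mul_index _
  have h3 := h.card_commutator_sub_mul hp hG R hna
  have h4 : Nat.card ↥R * R.index = Nat.card G := Subgroup.card_mul_index R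
  have h5 : Nat.card ↥(commutator G) * (commutator G).index = Nat.card G :=
    Subgroup.card_mul_index _
  set Z := Nat.card ↥(Subgroup.center ↥R)
  set D' := Nat.card ↥(commutator ↥R)
  set D := Nat.card ↥(commutator G)
  set I := (commutator G).index
  set cR := Nat.card ↥R
  have hD'pos : 0 < D' := Nat.card_pos
  have hidxpos : 0 < R.index := by
    rw [← hidx]; exact Nat.mul_pos hm hk
  -- cR = D' * I
  have h6 : cR = D' * I := by
    have : cR * R.index = (D' * I) * R.index := by
      rw [h4, ← h5, ← h3]; ring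
    exact Nat.eq_of_mul_eq_mul_right hidxpos this
  -- I = Z * D'
  have h7 : I = Z * D' := by
    have : D' * I = D' * (Z * D') := by
      rw [← h6, ← h2, h1]; ring
    exact Nat.eq_of_mul_eq_mul_left hD'pos this
  rw [h6, sq]
  nth_rewrite 2 [h7]
  ring

theorem fB {G : Type*} [Group G] (R : Subgroup G) (hab : IsMulCommutative ↥R) :
    Nat.card ↥R * Nat.card ↥(Subgroup.center ↥R) = Nat.card ↥R ^ 2 := by
  have : Subgroup.center ↥R = ⊤ := by
    rw [eq_top_iff]
    intro x _
    rw [Subgroup.mem_center_iff]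
    intro g
    exact (isMulCommutative_iff.mp hab) g x
  rw [this, Subgroup.card_top, sq]


/-- Let p be an odd prime and G a finite metacyclic p-group (G has a cyclic normal subgroup with cyclic quotient). Then the largest value of |R| · |Z(R)| over subgroups R of G is |G : G'|², and the subgroups attaining it (the centrally large subgroups) are exactly the non-abelian subgroups together with the maximal abelian subgroups of G. -/
theorem result {G : Type*} [Group G] [Finite G] {p : ℕ} [Fact p.Prime] (hp : p ≠ 2) (hG : IsPGroup p G) (hmc : Cfsg.IsMetacyclic G) : Cfsg.maxCentralProduct G = (commutator G).index ^ 2 ∧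
    ∀ R : Subgroup G, Cfsg.IsCentrallyLarge R ↔ (¬ IsMulCommutative ↥R ∨ Maximal (fun K : Subgroup G => IsMulCommutative ↥K) R) := by
  have hp' : Nat.Prime p := Fact.out
  obtain ⟨a, b, r, h⟩ := exists_mcdata hmc
  set I := (commutator G).index with hI
  have hle : ∀ R : Subgroup G, Nat.card ↥R * Nat.card ↥(Subgroup.center ↥R) ≤ I ^ 2 := by
    intro R
    by_cases hab : IsMulCommutative ↥R
    · rw [fB R hab]
      exact Nat.pow_le_pow_left ((Cfsg.Agent.S3880.abel_iff hp hG h R).mp hab) 2
    · rw [fA hp hG h R hab]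
  have htop : Nat.card ↥(⊤ : Subgroup G) * Nat.card ↥(Subgroup.center ↥(⊤ : Subgroup G)) = I ^ 2 := by
    by_cases hab : IsMulCommutative ↥(⊤ : Subgroup G)
    · rw [fB _ hab]
      have h1 := (Cfsg.Agent.S3880.abel_iff hp hG h ⊤).mp hab
      have h2 : I ≤ Nat.card G := Nat.le_of_dvd Nat.card_pos (Subgroup.index_dvd_card _)
      rw [Subgroup.card_top] at h1 ⊢
      rw [le_antisymm h1 h2]
    · rw [fA hp hG h _ hab]
  have hmax : Cfsg.maxCentralProduct G = I ^ 2 := by
    unfold Cfsg.maxCentralProduct
    apply IsGreatest.csSup_eq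
    refine ⟨⟨⊤, htop⟩, ?_⟩
    rintro k ⟨R, rfl⟩
    exact hle R
  refine ⟨hmax, fun R => ?_⟩
  unfold Cfsg.IsCentrallyLarge
  rw [hmax]
  constructor
  · intro hR
    by_cases hab : IsMulCommutative ↥R
    · right
      rw [fB R hab] at hR
      have h1 : Nat.card ↥R = I := by
        have := Nat.pow_left_injective (n := 2) (by norm_num) hR
        exact this
      exact ((Cfsg.Agent.S3880.result hp hG hmc R).2).mpr h1
    · left; exact hab
  · rintro (hna | hmaxR)
    · exact fA hp hG h R hna
    · have h1 := ((Cfsg.Agent.S3880.result hp hG hmc R).2).mp hmaxR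
      rw [fB R hmaxR.1, h1]

end Cfsg.Agent.S3886
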