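import Cfsg.Statements.S3887
import Mathlib
import Cfsg.Agent.Lib.Helper22.Metacyclic6

set_option autoImplicit false
open Cfsg

namespace Cfsg.Agent.S3887


open Cfsg.Agent.Lib.Helper22

theorem sup_center {G : Type*} [Group G] [Finite G] {p : ℕ} [Fact p.Prime] (hp : p ≠ 2)
    (hG : IsPGroup p G) {a b : G} {r : ℕ} (h : MCData a b r) (R : Subgroup G) :
    Nat.card ↥(R ⊔ Subgroup.center G) * Nat.card ↥(Subgroup.centralizer (R : Set G)) =
      Nat.card G * Nat.card ↥(Subgroup.center G) := by
  have h1 := h.centralizer_card hp hG (R ⊔ Subgroup.center G) le_sup_right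
  have h2 : Subgroup.centralizer ((R ⊔ Subgroup.center G : Subgroup G) : Set G) =
      Subgroup.centralizer (R : Set G) := by
    apply le_antisymm
    · exact Subgroup.centralizer_le (SetLike.coe_subset_coe.mpr le_sup_left)
    · intro g hg
      rw [Subgroup.mem_centralizer_iff] at hg ⊢
      intro x hx
      obtain ⟨y, hy, z, hz, rfl⟩ := Subgroup.mem_sup_of_normal_right.mp hx
      have e1 := hg y hy
      have e2 := Subgroup.mem_center_iff.mp hz g
      rw [mul_assoc, ← e2, ← mul_assoc, e1, mul_assoc]
  rw [h2] at h1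
  exact h1


/-- Let p be an odd prime and G a finite metacyclic p-group (G has a cyclic normal subgroup with cyclic quotient). Then a subgroup R of G maximizes |R| · |C_G(R)| over all subgroups of G if and only if R contains the center of G. -/
theorem result {G : Type*} [Group G] [Finite G] {p : ℕ} [Fact p.Prime] (hp : p ≠ 2) (hG : IsPGroup p G) (hmc : Cfsg.IsMetacyclic G) (R : Subgroup G) : Cfsg.IsCentralizerLarge R ↔ Subgroup.center G ≤ R := by
  obtain ⟨a, b, r, h⟩ := exists_mcdata hmc
  have hle : ∀ R : Subgroup G, Nat.card ↥R * Nat.card ↥(Subgroup.centralizer (R : Set G)) ≤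
      Nat.card G * Nat.card ↥(Subgroup.center G) := by
    intro R
    rw [← sup_center hp hG h R]
    exact Nat.mul_le_mul_right _ (Nat.le_of_dvd Nat.card_pos (Subgroup.card_dvd_of_le le_sup_left))
  have hmax : Cfsg.maxCentralizerProduct G = Nat.card G * Nat.card ↥(Subgroup.center G) := by
    unfold Cfsg.maxCentralizerProduct
    apply IsGreatest.csSup_eq
    refine ⟨⟨⊤, ?_⟩, ?_⟩
    · rw [Subgroup.coe_top, Subgroup.centralizer_univ, Subgroup.card_top]
    · rintro k ⟨R, rfl⟩
      exact hle R
  unfold Cfsg.IsCentralizerLarge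
  rw [hmax]
  constructor
  · intro hR
    have h1 := sup_center hp hG h R
    rw [← hR] at h1
    have h2 : Nat.card ↥(R ⊔ Subgroup.center G) = Nat.card ↥R :=
      Nat.eq_of_mul_eq_mul_right Nat.card_pos h1
    have h3 : R = R ⊔ Subgroup.center G := Subgroup.eq_of_le_of_card_ge le_sup_left h2.le
    rw [h3]; exact le_sup_right
  · intro hZ
    exact h.centralizer_card hp hG R hZ

end Cfsg.Agent.S3887
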