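import Cfsg.Statements.S3897
import Mathlib
import Cfsg.Agent.Lib.Helper22.KP

set_option autoImplicit false
open Cfsg

namespace Cfsg.Agent.S3897

/-- Let p be an odd prime and G a finite group with Sylow p-subgroup P, and write k_p(G) for the number of conjugacy classes of G consisting of p-elements (elements of p-power order, the identity included). Then k_p(G) > (p + 1)|P|/(2p) if and only if G has a normal p-complement and P is abelian. -/
theorem result {G : Type*} [Group G] [Finite G] {p : ℕ} [Fact p.Prime] (hp : p ≠ 2) (P : Sylow p G) :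
    (p + 1) * Nat.card ↥(P : Subgroup G) < 2 * p * Nat.card {c : ConjClasses G // ∀ x ∈ c.carrier, ∃ k : ℕ, orderOf x = p ^ k} ↔
      Cfsg.HasNormalPComplement p G ∧ IsMulCommutative ↥(P : Subgroup G) := by
  classical
  have hpp : p.Prime := Fact.out
  constructor
  · intro h
    have hNC := Lib.Helper22.normalizer_le_centralizer_of_kp_large P h
    refine ⟨⟨P, (MonoidHom.transferSylow P hNC).ker, inferInstance,
      MonoidHom.ker_transferSylow_isComplement' P hNC⟩, ?_⟩
    refine ⟨⟨fun a b => ?_⟩⟩
    have h1 : (a : G) ∈ Subgroup.centralizer ((P : Subgroup G) : Set G) :=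
      hNC (Subgroup.le_normalizer a.2)
    rw [Subgroup.mem_centralizer_iff] at h1
    apply Subtype.ext
    exact (h1 b b.2).symm
  · rintro ⟨⟨P₀, N, hN, hcomp⟩, hab⟩
    haveI := hN
    -- `N` is also a complement of `P`
    have hcard : Nat.card N * Nat.card ↥(P : Subgroup G) = Nat.card G := by
      have h1 := hcomp.card_mul_card
      rw [Sylow.card_eq_multiplicity] at h1 ⊢
      exact h1
    have hpN : ¬ p ∣ Nat.card N := by
      intro hdvd
      have h0 : p * p ^ ((Nat.card G).factorization p) ∣ Nat.card N * Nat.card ↥(P : Subgroup G) :=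
        Nat.mul_dvd_mul hdvd (by rw [Sylow.card_eq_multiplicity])
      have h1 : p ^ ((Nat.card G).factorization p + 1) ∣ Nat.card G := by
        rw [hcard] at h0
        rw [pow_succ, mul_comm]
        exact h0
      exact Nat.pow_succ_factorization_not_dvd Nat.card_pos.ne' hpp h1
    have hcop : (Nat.card N).Coprime (Nat.card ↥(P : Subgroup G)) := by
      rw [Sylow.card_eq_multiplicity]
      exact Nat.Coprime.pow_right _ ((Nat.Prime.coprime_iff_not_dvd hpp).mpr hpN).symm
    have hcomp' : N.IsComplement' (P : Subgroup G) :=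
      Subgroup.isComplement'_of_coprime hcard hcop
    have hdisj := hcomp'.disjoint
    rw [Subgroup.disjoint_def] at hdisj
    -- no fusion in `P`
    have hfus : ∀ x y : ↥(P : Subgroup G), IsConj (x : G) (y : G) → x = y := by
      intro x y hxy
      obtain ⟨g, hg⟩ := isConj_iff.mp hxy
      obtain ⟨⟨n, u⟩, hnu, -⟩ := hcomp'.existsUnique g
      have hnu' : (n : G) * (u : G) = g := hnu
      have hcomm : (u : G) * x * (u : G)⁻¹ = x := by
        have h1 : (u * x : ↥(P : Subgroup G)) = x * u := mul_comm' u x
        have h2 := congrArg Subtype.val h1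
        have h3 : (u : G) * x = x * u := h2
        rw [h3, mul_inv_cancel_right]
      have h4 : (y : G) = n * x * (n : G)⁻¹ := by
        rw [← hg, ← hnu']
        calc (n : G) * u * x * ((n : G) * u)⁻¹ = n * ((u : G) * x * (u : G)⁻¹) * (n : G)⁻¹ := by
              group
          _ = _ := by rw [hcomm]
      have h5 : (y : G) * (x : G)⁻¹ ∈ N := by
        rw [h4]
        have h6 : (x : G) * (n : G)⁻¹ * (x : G)⁻¹ ∈ N :=
          hN.conj_mem _ (N.inv_mem n.2) _
        have e : (n : G) * x * (n : G)⁻¹ * (x : G)⁻¹ = n * ((x : G) * (n : G)⁻¹ * (x : G)⁻¹) := by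
          group
        rw [e]
        exact N.mul_mem n.2 h6
      have h7 : (y : G) * (x : G)⁻¹ ∈ (P : Subgroup G) :=
        Subgroup.mul_mem _ y.2 (Subgroup.inv_mem _ x.2)
      have h8 := hdisj h5 h7
      apply Subtype.ext
      exact (mul_inv_eq_one.mp h8).symm
    have hpel : ∀ x : ↥(P : Subgroup G), ∀ z ∈ (ConjClasses.mk (x : G)).carrier,
        ∃ k : ℕ, orderOf z = p ^ k := by
      intro x z hz
      rw [ConjClasses.mem_carrier_iff_mk_eq, ConjClasses.mk_eq_mk_iff_isConj, isConj_iff] at hz
      obtain ⟨c, hc⟩ := hz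
      obtain ⟨k, hk⟩ := (IsPGroup.iff_orderOf.mp P.isPGroup') x
      refine ⟨k, ?_⟩
      have h1 : orderOf (c * z * c⁻¹) = orderOf z := (MulAut.conj c).orderOf_eq z
      rw [← h1, hc, Subgroup.orderOf_coe, hk]
    have hinj : Function.Injective (fun x : ↥(P : Subgroup G) =>
        (⟨ConjClasses.mk (x : G), hpel x⟩ :
          {c : ConjClasses G // ∀ x ∈ c.carrier, ∃ k : ℕ, orderOf x = p ^ k})) := by
      intro x y hxy
      have h1 : ConjClasses.mk (x : G) = ConjClasses.mk (y : G) := congrArg Subtype.val hxy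
      exact hfus x y (ConjClasses.mk_eq_mk_iff_isConj.mp h1)
    have hle := Nat.card_le_card_of_injective _ hinj
    have hPpos : 0 < Nat.card ↥(P : Subgroup G) := Nat.card_pos
    have hp2 : 2 ≤ p := hpp.two_le
    calc (p + 1) * Nat.card ↥(P : Subgroup G) < 2 * p * Nat.card ↥(P : Subgroup G) := by
          apply Nat.mul_lt_mul_of_pos_right _ hPpos
          omega
      _ ≤ _ := Nat.mul_le_mul_left _ hle

end Cfsg.Agent.S3897
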