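import Cfsg.Statements.S3899
import Mathlib
import Cfsg.Agent.Lib.Helper22.KPi

set_option autoImplicit false
open Cfsg

namespace Cfsg.Agent.S3899

/-- Let π be a finite non-empty set of odd primes with smallest member p and G a finite group. Write k_π(G) for the number of conjugacy classes of G consisting of π-elements (elements all of whose order's prime divisors lie in π) and |G|_π for the π-part of the order of G. If k_π(G) > (p + 1)|G|_π/(2p), then G has a normal π-complement (a normal subgroup of order prime to π whose index is a π-number) and an abelian Hall π-subgroup. -/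
theorem result {G : Type*} [Group G] [Finite G] (π : Finset ℕ) (hπ : ∀ r ∈ π, r.Prime) (h2 : 2 ∉ π) (p : ℕ) (hp : p ∈ π)
    (hmin : ∀ r ∈ π, p ≤ r) (hk : (p + 1) * π.prod (fun r => r ^ (Nat.card G).factorization r) < 2 * p * Nat.card {c : ConjClasses G // ∀ x ∈ c.carrier, ∀ r : ℕ, r.Prime → r ∣ orderOf x → r ∈ π}) :
    (∃ N : Subgroup G, N.Normal ∧ (∀ r : ℕ, r.Prime → r ∣ Nat.card ↥N → r ∉ π) ∧ ∀ r : ℕ, r.Prime → r ∣ N.index → r ∈ π) ∧ ∃ H : Subgroup G, Cfsg.IsPiHall (↑π : Set ℕ) H ∧ IsMulCommutative ↥H := by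
  classical
  have hpp : p.Prime := hπ p hp
  -- Step 1: a normal `r`-complement with abelian quotient for every `r ∈ π`
  have hstep : ∀ r ∈ π, ∃ N : Subgroup G, N.Normal ∧ ¬ r ∣ Nat.card N ∧
      (∃ k : ℕ, N.index = r ^ k) ∧ ∀ a b : G, a * b * a⁻¹ * b⁻¹ ∈ N := by
    intro r hr
    have hrp : r.Prime := hπ r hr
    haveI : Fact r.Prime := ⟨hrp⟩
    have hins : insert r (π.erase r) = π := Finset.insert_erase hr
    have hσ : ∀ q ∈ π.erase r, q.Prime := fun q hq => hπ q (Finset.mem_of_mem_erase hq)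
    have h1 := Lib.Helper22.card_piClasses_insert_le (G := G) (π.erase r) r hrp _
      (Lib.Helper22.card_piClasses_subgroup_le (π.erase r) hσ)
    rw [hins] at h1
    have hprod : π.prod (fun q => q ^ (Nat.card G).factorization q)
        = r ^ (Nat.card G).factorization r
          * (π.erase r).prod (fun q => q ^ (Nat.card G).factorization q) :=
      (Finset.mul_prod_erase π _ hr).symm
    have hpos : 0 < (π.erase r).prod (fun q => q ^ (Nat.card G).factorization q) :=
      Finset.prod_pos (fun q hq => pow_pos (hσ q hq).pos _)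
    have hkr : (r + 1) * Nat.card ↥((Classical.arbitrary (Sylow r G) : Sylow r G) : Subgroup G)
        < 2 * r * Nat.card {c : ConjClasses G // ∀ x ∈ c.carrier, ∃ k : ℕ, orderOf x = r ^ k} := by
      rw [Sylow.card_eq_multiplicity]
      rw [hprod] at hk
      set A := r ^ (Nat.card G).factorization r with hA
      set E := (π.erase r).prod (fun q => q ^ (Nat.card G).factorization q) with hE
      set K := Nat.card {c : ConjClasses G // ∀ x ∈ c.carrier, ∀ r : ℕ, r.Prime →
        r ∣ orderOf x → r ∈ π} with hK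
      set kr := Nat.card {c : ConjClasses G // ∀ x ∈ c.carrier, ∃ k : ℕ, orderOf x = r ^ k}
        with hkr
      have hApos : 0 < A := pow_pos hrp.pos _
      have e1 : (p + 1) * A * E < 2 * p * kr * E := by
        calc (p + 1) * A * E = (p + 1) * (A * E) := by ring
          _ < 2 * p * K := hk
          _ ≤ 2 * p * (kr * E) := Nat.mul_le_mul_left _ h1
          _ = 2 * p * kr * E := by ring
      have e2 : (p + 1) * A < 2 * p * kr := Nat.lt_of_mul_lt_mul_right e1
      by_contra hcon
      push Not at hcon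
      have e3 : r * ((p + 1) * A) < r * (2 * p * kr) := Nat.mul_lt_mul_of_pos_left e2 hrp.pos
      have e4 : p * (2 * r * kr) ≤ p * ((r + 1) * A) := Nat.mul_le_mul_left _ hcon
      have e5 : r * (p + 1) * A < p * (r + 1) * A := by
        calc r * (p + 1) * A = r * ((p + 1) * A) := by ring
          _ < r * (2 * p * kr) := e3
          _ = p * (2 * r * kr) := by ring
          _ ≤ p * ((r + 1) * A) := e4
          _ = p * (r + 1) * A := by ring
      have e6 : r * (p + 1) < p * (r + 1) := Nat.lt_of_mul_lt_mul_right e5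
      have e7 : p ≤ r := hmin r hr
      nlinarith
    have hNC := Lib.Helper22.normalizer_le_centralizer_of_kp_large _ hkr
    have hcomp := MonoidHom.ker_transferSylow_isComplement' _ hNC
    have hcard := hcomp.card_mul_card
    refine ⟨(MonoidHom.transferSylow _ hNC).ker, inferInstance, ?_, ?_, ?_⟩
    · intro hdvd
      have h0 : r * r ^ ((Nat.card G).factorization r) ∣
          Nat.card (MonoidHom.transferSylow _ hNC).ker *
            Nat.card ↥((Classical.arbitrary (Sylow r G) : Sylow r G) : Subgroup G) :=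
        Nat.mul_dvd_mul hdvd (by rw [Sylow.card_eq_multiplicity])
      have h1 : r ^ ((Nat.card G).factorization r + 1) ∣ Nat.card G := by
        rw [hcard] at h0
        rw [pow_succ, mul_comm]
        exact h0
      exact Nat.pow_succ_factorization_not_dvd Nat.card_pos.ne' hrp h1
    · refine ⟨(Nat.card G).factorization r, ?_⟩
      have h1 := Subgroup.card_mul_index (MonoidHom.transferSylow _ hNC).ker
      rw [← Sylow.card_eq_multiplicity (Classical.arbitrary (Sylow r G))]
      exact Nat.eq_of_mul_eq_mul_left Nat.card_pos (h1.trans hcard.symm)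
    · intro a b
      have hcommR : ∀ x y : ↥((Classical.arbitrary (Sylow r G) : Sylow r G) : Subgroup G),
          x * y = y * x := by
        intro x y
        have h1 : (x : G) ∈ Subgroup.centralizer
            (((Classical.arbitrary (Sylow r G) : Sylow r G) : Subgroup G) : Set G) :=
          hNC (Subgroup.le_normalizer x.2)
        rw [Subgroup.mem_centralizer_iff] at h1
        apply Subtype.ext
        exact (h1 y y.2).symm
      rw [MonoidHom.mem_ker, map_mul, map_mul, map_mul, map_inv, map_inv,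
        hcommR (MonoidHom.transferSylow _ hNC a) (MonoidHom.transferSylow _ hNC b)]
      group
  -- Step 2: intersect the complements
  have hex : ∀ r : ℕ, ∃ N : Subgroup G, r ∈ π → (N.Normal ∧ ¬ r ∣ Nat.card N ∧
      (∃ k : ℕ, N.index = r ^ k) ∧ ∀ a b : G, a * b * a⁻¹ * b⁻¹ ∈ N) := by
    intro r
    by_cases hr : r ∈ π
    · obtain ⟨N, hN⟩ := hstep r hr
      exact ⟨N, fun _ => hN⟩
    · exact ⟨⊤, fun h => absurd h hr⟩
  choose Nf hNf using hex
  have hNle : ∀ r ∈ π, (⨅ r : π, Nf r.1) ≤ Nf r :=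
    fun r hr => iInf_le (fun r : π => Nf r.1) ⟨r, hr⟩
  haveI hNn : (⨅ r : π, Nf r.1).Normal := by
    haveI : ∀ r : π, (Nf r.1).Normal := fun r => (hNf r.1 r.2).1
    exact Subgroup.normal_iInf_normal this
  have hN1 : ∀ r : ℕ, r.Prime → r ∣ Nat.card ↥(⨅ r : π, Nf r.1) → r ∉ π := by
    intro r hrp hdvd hr
    exact (hNf r hr).2.1 (hdvd.trans (Subgroup.card_dvd_of_le (hNle r hr)))
  have hN2 : ∀ q : ℕ, q.Prime → q ∣ (⨅ r : π, Nf r.1).index → q ∈ π := by
    intro q hq hdvd
    haveI : Fact q.Prime := ⟨hq⟩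
    have hdvd' : q ∣ Nat.card (G ⧸ (⨅ r : π, Nf r.1)) := hdvd
    obtain ⟨x, hx⟩ := exists_prime_orderOf_dvd_card' q hdvd'
    obtain ⟨g, rfl⟩ := QuotientGroup.mk_surjective x
    have hgN : g ∉ (⨅ r : π, Nf r.1) := by
      intro hg
      rw [(QuotientGroup.eq_one_iff g).mpr hg, orderOf_one] at hx
      exact hq.one_lt.ne hx
    have hgq : g ^ q ∈ (⨅ r : π, Nf r.1) := by
      rw [← QuotientGroup.eq_one_iff, QuotientGroup.mk_pow, ← hx]
      exact pow_orderOf_eq_one _
    have hex2 : ∃ r : π, g ∉ Nf r.1 := by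
      by_contra hcon
      push Not at hcon
      exact hgN (Subgroup.mem_iInf.mpr hcon)
    obtain ⟨⟨r, hr⟩, hgr⟩ := hex2
    obtain ⟨hnorm, -, ⟨k, hk⟩, -⟩ := hNf r hr
    haveI := hnorm
    have h1 : ((g : G) : G ⧸ Nf r) ^ q = 1 := by
      rw [← QuotientGroup.mk_pow, QuotientGroup.eq_one_iff]
      exact hNle r hr hgq
    have h2 : ((g : G) : G ⧸ Nf r) ≠ 1 := by
      rw [Ne, QuotientGroup.eq_one_iff]
      exact hgr
    have h3 : orderOf ((g : G) : G ⧸ Nf r) = q := orderOf_eq_prime h1 h2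
    have h4 : q ∣ Nat.card (G ⧸ Nf r) := by
      rw [← h3]
      exact orderOf_dvd_natCard _
    have h5 : q ∣ r ^ k := by
      rw [← hk]
      exact h4
    have h6 := (Nat.prime_dvd_prime_iff_eq hq (hπ r hr)).mp (hq.dvd_of_dvd_pow h5)
    rw [h6]
    exact hr
  refine ⟨⟨(⨅ r : π, Nf r.1), hNn, hN1, hN2⟩, ?_⟩
  -- Schur–Zassenhaus
  have hcop : (Nat.card ↥(⨅ r : π, Nf r.1)).Coprime (⨅ r : π, Nf r.1).index :=
    Nat.coprime_of_dvd (fun q hq h1 h2 => hN1 q hq h1 (hN2 q hq h2))
  obtain ⟨H, hH⟩ := Subgroup.exists_right_complement'_of_coprime hcop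
  have hcard := hH.card_mul_card
  have hHcard : Nat.card H = (⨅ r : π, Nf r.1).index := by
    have h1 := Subgroup.card_mul_index (⨅ r : π, Nf r.1)
    exact Nat.eq_of_mul_eq_mul_left Nat.card_pos (hcard.trans h1.symm)
  have hHidx : H.index = Nat.card ↥(⨅ r : π, Nf r.1) := by
    have h1 := Subgroup.card_mul_index H
    have h2 : Nat.card H * H.index = Nat.card H * Nat.card ↥(⨅ r : π, Nf r.1) := by
      rw [h1, ← hcard, mul_comm]
    exact Nat.eq_of_mul_eq_mul_left Nat.card_pos h2
  refine ⟨H, ⟨?_, ?_⟩, ?_⟩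
  · intro q hq hdvd
    rw [hHcard] at hdvd
    exact Finset.mem_coe.mpr (hN2 q hq hdvd)
  · intro q hq hqπ hdvd
    rw [hHidx] at hdvd
    exact hN1 q hq hdvd (Finset.mem_coe.mp hqπ)
  · refine ⟨⟨fun a b => ?_⟩⟩
    have h1 : (a : G) * b * (a : G)⁻¹ * (b : G)⁻¹ ∈ (⨅ r : π, Nf r.1) :=
      Subgroup.mem_iInf.mpr (fun r => (hNf r.1 r.2).2.2.2 a b)
    have h2 : (a : G) * b * (a : G)⁻¹ * (b : G)⁻¹ ∈ H :=
      H.mul_mem (H.mul_mem (H.mul_mem a.2 b.2) (H.inv_mem a.2)) (H.inv_mem b.2)
    have h3 := (Subgroup.disjoint_def.mp hH.disjoint) h1 h2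
    apply Subtype.ext
    show (a : G) * b = b * a
    calc (a : G) * b = ((a : G) * b * (a : G)⁻¹ * (b : G)⁻¹) * (b * a) := by group
      _ = b * a := by rw [h3, one_mul]

end Cfsg.Agent.S3899
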