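import Cfsg.Statements.S3903
import Mathlib
import Cfsg.Agent.Lib.Helper21.Basic
import Cfsg.Agent.Lib.Helper22.PClosed2

set_option autoImplicit false
open Cfsg

namespace Cfsg.Agent.S3903


theorem cent_pgroup {G : Type*} [Group G] [Finite G] (N : Subgroup G)
    (x : G) (hx : x ∉ N) (q k : ℕ) (hq : q.Prime) (hk : orderOf x = q ^ k)
    (h : ∀ y : G, y ∉ N → IsPrimePow (orderOf y)) :
    IsPGroup q (Subgroup.centralizer ({x} : Set G)) := by
  have hk0 : k ≠ 0 := by
    rintro rfl
    rw [pow_zero, orderOf_eq_one_iff] at hk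
    exact hx (hk ▸ N.one_mem)
  rintro ⟨y, hy⟩
  have hy0 : orderOf y ≠ 0 := (orderOf_pos y).ne'
  obtain ⟨a, s, hs, hys⟩ := Nat.exists_eq_pow_mul_and_not_dvd hy0 q hq.ne_one
  have hxy : Commute x y := by
    have := Subgroup.mem_centralizer_iff.1 hy x (Set.mem_singleton x)
    exact this
  have hcomm : Commute x (y ^ (q ^ a)) := hxy.pow_right _
  have hqa : 0 < q ^ a := pow_pos hq.pos a
  have hord : orderOf (y ^ (q ^ a)) = s := by
    rw [orderOf_pow_of_dvd hqa.ne' (hys ▸ dvd_mul_right _ _), hys, Nat.mul_div_cancel_left _ hqa]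
  have hcqs : Nat.Coprime q s := (Nat.Prime.coprime_iff_not_dvd hq).2 hs
  have hcop : Nat.Coprime (orderOf x) (orderOf (y ^ (q ^ a))) := by
    rw [hk, hord]; exact Nat.Coprime.pow_left _ hcqs
  have hmul : orderOf (x * y ^ (q ^ a)) = q ^ k * s := by
    rw [hcomm.orderOf_mul_eq_mul_orderOf_of_coprime hcop, hk, hord]
  have hs1 : s = 1 := by
    by_cases hmem : x * y ^ (q ^ a) ∈ N
    · exfalso
      have h1 : (x * y ^ (q ^ a)) ^ s = x ^ s := by
        rw [hcomm.mul_pow, ← hord, pow_orderOf_eq_one, mul_one]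
      have h2 : x ^ s ∈ N := h1 ▸ N.pow_mem hmem s
      obtain ⟨m, hm⟩ := exists_pow_eq_self_of_coprime (x := x) (n := s)
        (by rw [hk]; exact (Nat.Coprime.pow_left _ hcqs).symm)
      exact hx (hm ▸ N.pow_mem h2 m)
    · have hpp := h _ hmem
      rw [hmul] at hpp
      obtain ⟨r, j, hr, hj, hrj⟩ := (isPrimePow_nat_iff _).1 hpp
      have hqr : q ∣ r ^ j := by
        rw [hrj]; exact Dvd.dvd.mul_right (dvd_pow_self q hk0) s
      have hqr' : q = r := (Nat.prime_dvd_prime_iff_eq hq hr).1 (hq.dvd_of_dvd_pow hqr)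
      subst hqr'
      have hsd : s ∣ q ^ j := by rw [hrj]; exact dvd_mul_left _ _
      obtain ⟨i, -, hi⟩ := (Nat.dvd_prime_pow hq).1 hsd
      rcases Nat.eq_zero_or_pos i with rfl | hipos
      · simpa using hi
      · exact absurd (hi ▸ dvd_pow_self q hipos.ne') hs
  refine ⟨a, ?_⟩
  apply Subtype.ext
  simp only [Subgroup.coe_pow, Subgroup.coe_one]
  rw [← orderOf_eq_one_iff, hord, hs1]

theorem index_pow_of_sup {G : Type*} [Group G] [Finite G] (N : Subgroup G) [N.Normal]
    (H : Subgroup G) {p : ℕ} (hp : p.Prime) (hH : IsPGroup p H) (hsup : H ⊔ N = ⊤) :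
    ∃ b, N.index = p ^ b := by
  haveI : Fact p.Prime := ⟨hp⟩
  have h1 := Cfsg.Agent.Lib.Helper21.card_sup_mul_card_inf H N
  rw [hsup, Subgroup.card_top, ← Subgroup.card_mul_index N] at h1
  obtain ⟨a, ha⟩ := hH.exists_card_eq
  have hNpos : 0 < Nat.card N := Nat.card_pos
  have h2 : N.index * Nat.card ↥(H ⊓ N) = Nat.card H := by
    have : Nat.card N * (N.index * Nat.card ↥(H ⊓ N)) = Nat.card N * Nat.card H := by
      rw [mul_comm (Nat.card N) (Nat.card H), ← h1]; ring
    exact Nat.eq_of_mul_eq_mul_left hNpos this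
  have h3 : N.index ∣ p ^ a := ha ▸ Dvd.intro _ h2
  obtain ⟨b, -, hb⟩ := (Nat.dvd_prime_pow hp).1 h3
  exact ⟨b, hb⟩

theorem card_filter_mem {G : Type*} [Group G] [Fintype G] [DecidableEq G] (H : Subgroup G)
    [DecidablePred (· ∈ H)] : (Finset.univ.filter (· ∈ H)).card = Nat.card H := by
  rw [Nat.card_eq_fintype_card, Fintype.card_subtype]

theorem count_main {G : Type*} [Group G] [Fintype G] (N : Subgroup G) [N.Normal] {p : ℕ}
    [Fact p.Prime] (F : G → Sylow p G)
    (hF : ∀ y, y ∉ N → (F y : Subgroup G) = Subgroup.centralizer ({y} : Set G))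
    (hsup : ∀ y, y ∉ N → Subgroup.centralizer ({y} : Set G) ⊔ N = ⊤) (x₀ : G) (hx₀ : x₀ ∉ N) :
    (∀ y ∈ (F x₀ : Subgroup G), y ∉ N → F y = F x₀) ∧
      Nat.card (Sylow p G) = (F x₀ : Subgroup G).index := by
  classical
  haveI : Fintype (Sylow p G) := Fintype.ofFinite _
  have hmemC : ∀ y : G, y ∈ Subgroup.centralizer ({y} : Set G) := by
    intro y; rw [Subgroup.mem_centralizer_iff]; intro z hz; rw [Set.mem_singleton_iff.1 hz]
  obtain ⟨c, hc⟩ : ∃ c, c = Nat.card (F x₀ : Subgroup G) := ⟨_, rfl⟩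
  have hcardQ : ∀ Q : Sylow p G, Nat.card (Q : Subgroup G) = c := fun Q => by
    rw [hc, Sylow.card_eq_multiplicity, Sylow.card_eq_multiplicity]
  have hGt : ∀ y, y ∉ N →
      Nat.card G * Nat.card ↥((F y : Subgroup G) ⊓ N) = c * Nat.card N := by
    intro y hy
    have := Cfsg.Agent.Lib.Helper21.card_sup_mul_card_inf (F y : Subgroup G) N
    rw [hF y hy, hsup y hy, Subgroup.card_top, ← hF y hy, hcardQ] at this
    exact this
  obtain ⟨t, ht⟩ : ∃ t, t = Nat.card ↥((F x₀ : Subgroup G) ⊓ N) := ⟨_, rfl⟩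
  have hGpos : 0 < Nat.card G := Nat.card_pos
  have htQ : ∀ y, y ∉ N → Nat.card ↥((F y : Subgroup G) ⊓ N) = t := by
    intro y hy
    have h1 := hGt y hy
    have h2 := hGt x₀ hx₀
    rw [← ht] at h2
    exact Nat.eq_of_mul_eq_mul_left hGpos (h1.trans h2.symm)
  have hB : ∀ Q : Sylow p G,
      (Finset.univ.filter (fun y => y ∈ (Q : Subgroup G) ∧ y ∉ N)).card
        + Nat.card ↥((Q : Subgroup G) ⊓ N) = c := by
    intro Q
    have h1 := Finset.card_filter_add_card_filter_not
      (s := Finset.univ.filter (· ∈ (Q : Subgroup G))) (fun y => y ∈ N)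
    rw [Finset.filter_filter, Finset.filter_filter] at h1
    have e1 : Finset.univ.filter (fun y => y ∈ (Q : Subgroup G) ∧ y ∈ N)
        = Finset.univ.filter (· ∈ (Q : Subgroup G) ⊓ N) := by
      ext y; simp [Subgroup.mem_inf]
    rw [e1, card_filter_mem, card_filter_mem, hcardQ] at h1
    omega
  obtain ⟨m, hm⟩ : ∃ m, m =
      (Finset.univ.filter (fun y => y ∈ (F x₀ : Subgroup G) ∧ y ∉ N)).card := ⟨_, rfl⟩
  have hmt : m + t = c := by rw [hm, ht]; exact hB (F x₀)
  have hfib_sub : ∀ Q : Sylow p G,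
      (Finset.univ.filter (fun y => y ∉ N)).filter (fun y => F y = Q)
        ⊆ Finset.univ.filter (fun y => y ∈ (Q : Subgroup G) ∧ y ∉ N) := by
    intro Q y hy
    simp only [Finset.mem_filter, Finset.mem_univ, true_and] at hy ⊢
    refine ⟨?_, hy.1⟩
    rw [← hy.2, hF y hy.1]; exact hmemC y
  have hfib_le : ∀ Q : Sylow p G,
      ((Finset.univ.filter (fun y => y ∉ N)).filter (fun y => F y = Q)).card ≤ m := by
    intro Q
    by_cases hne : ((Finset.univ.filter (fun y => y ∉ N)).filter (fun y => F y = Q)).Nonempty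
    · obtain ⟨y, hy⟩ := hne
      simp only [Finset.mem_filter, Finset.mem_univ, true_and] at hy
      have h1 := hB Q
      have h2 := htQ y hy.1
      rw [hy.2] at h2
      have h3 := Finset.card_le_card (hfib_sub Q)
      omega
    · rw [Finset.not_nonempty_iff_eq_empty] at hne
      rw [hne]; simp
  have hsum : (Finset.univ.filter (fun y => y ∉ N)).card
      = ∑ Q : Sylow p G, ((Finset.univ.filter (fun y => y ∉ N)).filter (fun y => F y = Q)).card :=
    Finset.card_eq_sum_card_fiberwise (fun y _ => Finset.mem_univ _)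
  have hT : (Finset.univ.filter (fun y => y ∉ N)).card + Nat.card N = Nat.card G := by
    have h1 := Finset.card_filter_add_card_filter_not (s := (Finset.univ : Finset G))
      (fun y => y ∈ N)
    rw [card_filter_mem, Finset.card_univ, ← Nat.card_eq_fintype_card] at h1
    omega
  have hidx : (F x₀ : Subgroup G).index * c = Nat.card G := by
    rw [hc, mul_comm]; exact Subgroup.card_mul_index _
  have hcpos : 0 < c := by rw [hc]; exact Nat.card_pos
  have hidxt : (F x₀ : Subgroup G).index * t = Nat.card N := by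
    have h2 := hGt x₀ hx₀
    rw [← ht, ← hidx] at h2
    have : c * ((F x₀ : Subgroup G).index * t) = c * Nat.card N := by rw [← h2]; ring
    exact Nat.eq_of_mul_eq_mul_left hcpos this
  have hTm : (Finset.univ.filter (fun y => y ∉ N)).card = (F x₀ : Subgroup G).index * m := by
    have : (F x₀ : Subgroup G).index * (m + t) = Nat.card G := by rw [hmt]; exact hidx
    rw [mul_add, hidxt] at this
    omega
  have hnp : Nat.card (Sylow p G) ≤ (F x₀ : Subgroup G).index := by
    refine Nat.le_of_dvd ?_ (Sylow.card_dvd_index (F x₀))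
    exact Nat.pos_of_ne_zero (Subgroup.index_ne_zero_of_finite)
  have hmpos : 0 < m := by
    rw [hm]; apply Finset.card_pos.2
    refine ⟨x₀, ?_⟩
    simp only [Finset.mem_filter, Finset.mem_univ, true_and]
    exact ⟨by rw [hF x₀ hx₀]; exact hmemC x₀, hx₀⟩
  have hsum_le : ∑ Q : Sylow p G,
      ((Finset.univ.filter (fun y => y ∉ N)).filter (fun y => F y = Q)).card
        ≤ ∑ _Q : Sylow p G, m :=
    Finset.sum_le_sum (fun Q _ => hfib_le Q)
  have hconst : ∑ _Q : Sylow p G, m = Nat.card (Sylow p G) * m := by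
    rw [Finset.sum_const, Finset.card_univ, Nat.card_eq_fintype_card, smul_eq_mul]
  have hnpm : Nat.card (Sylow p G) * m ≤ (F x₀ : Subgroup G).index * m :=
    Nat.mul_le_mul_right m hnp
  have heq1 : ∑ Q : Sylow p G,
      ((Finset.univ.filter (fun y => y ∉ N)).filter (fun y => F y = Q)).card
        = ∑ _Q : Sylow p G, m := by
    apply le_antisymm hsum_le
    rw [hconst, ← hsum, hTm]; exact hnpm
  have heq2 : Nat.card (Sylow p G) = (F x₀ : Subgroup G).index := by
    have : Nat.card (Sylow p G) * m = (F x₀ : Subgroup G).index * m := by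
      rw [← hconst, ← heq1, ← hsum, hTm]
    exact Nat.eq_of_mul_eq_mul_right hmpos this
  refine ⟨?_, heq2⟩
  have hall := (Finset.sum_eq_sum_iff_of_le (fun Q _ => hfib_le Q)).1 heq1 (F x₀)
    (Finset.mem_univ _)
  have hfeq := Finset.eq_of_subset_of_card_le (hfib_sub (F x₀)) (by rw [hall, hm])
  intro y hy hyN
  have hyB : y ∈ Finset.univ.filter (fun y => y ∈ (F x₀ : Subgroup G) ∧ y ∉ N) := by
    simp only [Finset.mem_filter, Finset.mem_univ, true_and]
    exact ⟨hy, hyN⟩
  rw [← hfeq] at hyB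
  simp only [Finset.mem_filter, Finset.mem_univ, true_and] at hyB
  exact hyB.2


/-- Let N be a proper normal subgroup of the finite group G such that every element x of G outside N has prime power order and has centralizer C_G(x) a maximal subgroup of G. Then N is solvable. -/
theorem result {G : Type*} [Group G] [Finite G] (N : Subgroup G) [N.Normal] (hN : N ≠ ⊤)
    (h : ∀ x : G, x ∉ N → IsPrimePow (orderOf x) ∧ IsCoatom (Subgroup.centralizer ({x} : Set G))) : Group.IsSolvable ↥N := by
  classical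
  by_contra hns
  have hGns : ¬ Group.IsSolvable G := fun hG => hns inferInstance
  obtain ⟨x₀, hx₀⟩ : ∃ x, x ∉ N := by
    by_contra hh
    push Not at hh
    exact hN (eq_top_iff.2 fun x _ => hh x)
  obtain ⟨p, k, hp, hk0, hk⟩ := (isPrimePow_nat_iff _).1 (h x₀ hx₀).1
  haveI : Fact p.Prime := ⟨hp⟩
  have hpp : ∀ y : G, y ∉ N → IsPrimePow (orderOf y) := fun y hy => (h y hy).1
  have hNq : ∀ q : ℕ, q.Prime → ¬ IsPGroup q N := by
    intro q hq hNq
    haveI : Fact q.Prime := ⟨hq⟩
    haveI := hNq.isNilpotent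
    exact hns inferInstance
  have hsupq : ∀ x, x ∉ N → ∀ q : ℕ, q.Prime →
      IsPGroup q (Subgroup.centralizer ({x} : Set G)) →
      Subgroup.centralizer ({x} : Set G) ⊔ N = ⊤ := by
    intro x hx q hq hC
    by_contra hne
    have hle : N ≤ Subgroup.centralizer ({x} : Set G) := by
      by_contra hnle
      have hlt : Subgroup.centralizer ({x} : Set G) < Subgroup.centralizer ({x} : Set G) ⊔ N := by
        refine lt_of_le_of_ne le_sup_left ?_
        intro heq
        exact hnle (heq ▸ le_sup_right)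
      exact hne ((h x hx).2.2 _ hlt)
    exact hNq q hq (hC.to_le hle)
  have hidx1 : N.index ≠ 1 := fun h1 => hN (Subgroup.index_eq_one.1 h1)
  have hpg : ∀ x, x ∉ N → IsPGroup p (Subgroup.centralizer ({x} : Set G)) := by
    intro x hx
    obtain ⟨q, j, hq, hj0, hj⟩ := (isPrimePow_nat_iff _).1 (h x hx).1
    have hCq := cent_pgroup N x hx q j hq hj.symm hpp
    have hCp := cent_pgroup N x₀ hx₀ p k hp hk.symm hpp
    obtain ⟨b, hb⟩ := index_pow_of_sup N _ hq hCq (hsupq x hx q hq hCq)
    obtain ⟨c, hc⟩ := index_pow_of_sup N _ hp hCp (hsupq x₀ hx₀ p hp hCp)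
    have hc0 : c ≠ 0 := by rintro rfl; exact hidx1 (by simpa using hc)
    have hpq : p ∣ q ^ b := by rw [← hb, hc]; exact dvd_pow_self p hc0
    have : p = q := (Nat.prime_dvd_prime_iff_eq hp hq).1 (hp.dvd_of_dvd_pow hpq)
    subst this; exact hCq
  have hsup : ∀ x, x ∉ N → Subgroup.centralizer ({x} : Set G) ⊔ N = ⊤ :=
    fun x hx => hsupq x hx p hp (hpg x hx)
  have hsyl : ∀ x, x ∉ N →
      ∃ Q : Sylow p G, (Q : Subgroup G) = Subgroup.centralizer ({x} : Set G) := by
    intro x hx
    obtain ⟨Q, hQ⟩ := (hpg x hx).exists_le_sylow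
    refine ⟨Q, ?_⟩
    by_contra hne
    have hlt : Subgroup.centralizer ({x} : Set G) < (Q : Subgroup G) :=
      lt_of_le_of_ne hQ (Ne.symm hne)
    have htop := (h x hx).2.2 _ hlt
    have hGp : IsPGroup p G := by
      have h1 : IsPGroup p (⊤ : Subgroup G) := htop ▸ Q.isPGroup'
      exact h1.of_equiv Subgroup.topEquiv
    haveI := hGp.isNilpotent
    exact hGns inferInstance
  choose! F hF using hsyl
  haveI : Fintype G := Fintype.ofFinite G
  obtain ⟨hcnt1, hcnt2⟩ := count_main N F hF hsup x₀ hx₀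
  have hSx : (F x₀ : Subgroup G) = Subgroup.centralizer ({x₀} : Set G) := hF x₀ hx₀
  have hmemC : ∀ y : G, y ∈ Subgroup.centralizer ({y} : Set G) := by
    intro y; rw [Subgroup.mem_centralizer_iff]; intro z hz; rw [Set.mem_singleton_iff.1 hz]
  have hx₀S : x₀ ∈ (F x₀ : Subgroup G) := hSx ▸ hmemC x₀
  have hco : IsCoatom (F x₀ : Subgroup G) := hSx ▸ (h x₀ hx₀).2
  -- elements of S outside N are central in S
  have hcentral : ∀ y ∈ (F x₀ : Subgroup G), y ∉ N → ∀ s ∈ (F x₀ : Subgroup G), s * y = y * s := by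
    intro y hy hyN s hs
    have h1 : (F x₀ : Subgroup G) = Subgroup.centralizer ({y} : Set G) := by
      rw [← hF y hyN, hcnt1 y hy hyN]
    rw [h1] at hs
    exact (Subgroup.mem_centralizer_iff.1 hs y (Set.mem_singleton y)).symm
  have hab : ∀ a ∈ (F x₀ : Subgroup G), ∀ b ∈ (F x₀ : Subgroup G), a * b = b * a := by
    intro a ha b hb
    by_cases haN : a ∈ N
    · by_cases hbN : b ∈ N
      · have hax : a * x₀ ∉ N := fun hh => hx₀ (by
          have := N.mul_mem (N.inv_mem haN) hh
          simpa using this)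
        have h1 := hcentral (a * x₀) ((F x₀ : Subgroup G).mul_mem ha hx₀S) hax b hb
        have h2 := hcentral x₀ hx₀S hx₀ b hb
        -- b * (a * x₀) = (a * x₀) * b, b * x₀ = x₀ * b
        have h3 : b * a * x₀ = a * b * x₀ := by
          rw [mul_assoc, h1, mul_assoc, ← h2, mul_assoc]
        exact (mul_right_cancel h3).symm
      · exact hcentral b hb hbN a ha
    · exact (hcentral a ha haN b hb).symm
  -- S is self-normalizing
  have hnorm : Subgroup.normalizer ((F x₀ : Subgroup G) : Set G) ≤ (F x₀ : Subgroup G) := by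
    have h1 : Nat.card (Sylow p G) = (Subgroup.normalizer ((F x₀ : Subgroup G) : Set G)).index :=
      Sylow.card_eq_index_normalizer (F x₀)
    rw [hcnt2] at h1
    have h2 := Subgroup.card_mul_index (F x₀ : Subgroup G)
    have h3 := Subgroup.card_mul_index (Subgroup.normalizer ((F x₀ : Subgroup G) : Set G))
    rw [← h1, ← h2] at h3
    have hidxpos : 0 < (F x₀ : Subgroup G).index :=
      Nat.pos_of_ne_zero Subgroup.index_ne_zero_of_finite
    have h4 : Nat.card (Subgroup.normalizer ((F x₀ : Subgroup G) : Set G))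
        = Nat.card (F x₀ : Subgroup G) := Nat.eq_of_mul_eq_mul_right hidxpos h3
    exact (Subgroup.eq_of_le_of_card_ge Subgroup.le_normalizer h4.le).symm.le
  have hP : Subgroup.normalizer ((F x₀ : Subgroup G) : Set G)
      ≤ Subgroup.centralizer ((F x₀ : Subgroup G) : Set G) := by
    intro g hg
    have hgS := hnorm hg
    rw [Subgroup.mem_centralizer_iff]
    intro s hs
    exact hab s hs g hgS
  have hcompl := MonoidHom.ker_transferSylow_isComplement' (F x₀) hP
  obtain ⟨K, hKdef⟩ : ∃ K : Subgroup G, K = (MonoidHom.transferSylow (F x₀) hP).ker := ⟨_, rfl⟩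
  rw [← hKdef] at hcompl
  haveI hKn : K.Normal := by rw [hKdef]; infer_instance
  have hKS : K ⊓ (F x₀ : Subgroup G) = ⊥ := disjoint_iff.1 hcompl.disjoint
  have hcard : Nat.card K * Nat.card (F x₀ : Subgroup G) = Nat.card G := hcompl.card_mul_card
  have hKidx : Nat.card K = (F x₀ : Subgroup G).index := by
    have h2 := Subgroup.card_mul_index (F x₀ : Subgroup G)
    rw [← hcard, mul_comm] at h2
    exact (Nat.eq_of_mul_eq_mul_right Nat.card_pos h2).symm
  have hpK : ¬ p ∣ Nat.card K := by rw [hKidx]; exact (F x₀).not_dvd_index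
  -- K is an r-group
  have hKr : ∃ r : ℕ, r.Prime ∧ IsPGroup r K := by
    by_cases hK1 : Nat.card K = 1
    · exact ⟨2, Nat.prime_two, IsPGroup.of_card (n := 0) (by simpa using hK1)⟩
    · have hr := Nat.minFac_prime hK1
      haveI : Fact (Nat.card K).minFac.Prime := ⟨hr⟩
      refine ⟨(Nat.card K).minFac, hr, ?_⟩
      obtain ⟨R, hR⟩ := Cfsg.Agent.Lib.Helper22.exists_invariant_sylow (F x₀ : Subgroup G)
        (F x₀).isPGroup' K hpK (Nat.card K).minFac
      obtain ⟨R', hR'def⟩ : ∃ R' : Subgroup G, R' = (R : Subgroup K).map K.subtype := ⟨_, rfl⟩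
      rw [← hR'def] at hR
      have hR'K : R' ≤ K := by rw [hR'def]; exact Subgroup.map_subtype_le _
      have hRne : (R : Subgroup K) ≠ ⊥ := R.ne_bot_of_dvd_card (Nat.minFac_dvd _)
      have hR'ne : R' ≠ ⊥ := by
        rw [hR'def]
        intro hh
        exact hRne ((Subgroup.map_eq_bot_iff_of_injective _ K.subtype_injective).1 hh)
      have hSnorm : (F x₀ : Subgroup G) ≤ Subgroup.normalizer (R' : Set G) := by
        intro g hg
        exact Subgroup.mem_normalizer_fintype (fun n hn => hR g hg n hn)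
      have hR'S : ¬ R' ≤ (F x₀ : Subgroup G) := by
        intro hle
        exact hR'ne (le_bot_iff.1 (hKS ▸ le_inf hR'K hle))
      have hnormtop : Subgroup.normalizer (R' : Set G) = ⊤ := by
        by_contra hne
        have heq : (F x₀ : Subgroup G) = Subgroup.normalizer (R' : Set G) := by
          by_contra hne2
          exact hne (hco.2 _ (lt_of_le_of_ne hSnorm hne2))
        exact hR'S (heq ▸ Subgroup.le_normalizer)
      haveI hR'n : R'.Normal := Subgroup.normalizer_eq_top_iff.1 hnormtop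
      have hsuptop : (F x₀ : Subgroup G) ⊔ R' = ⊤ := by
        apply hco.2
        refine lt_of_le_of_ne le_sup_left ?_
        intro heq
        exact hR'S (heq ▸ le_sup_right)
      have hinf : (F x₀ : Subgroup G) ⊓ R' = ⊥ := by
        apply le_bot_iff.1
        rw [← hKS]
        exact le_inf (inf_le_right.trans hR'K) inf_le_left
      have h5 := Cfsg.Agent.Lib.Helper21.card_sup_mul_card_inf (F x₀ : Subgroup G) R'
      rw [hsuptop, hinf, Subgroup.card_top, Subgroup.card_bot, mul_one, ← hcard] at h5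
      have h6 : Nat.card K = Nat.card R' := by
        rw [mul_comm] at h5
        exact Nat.eq_of_mul_eq_mul_left Nat.card_pos h5
      have h7 : Nat.card R' = Nat.card (R : Subgroup K) := by
        rw [hR'def]
        exact Subgroup.card_map_of_injective K.subtype_injective
      obtain ⟨e, he⟩ := R.isPGroup'.exists_card_eq
      exact IsPGroup.of_card (n := e) (h6.trans (h7.trans he))
  obtain ⟨r, hr, hKr'⟩ := hKr
  haveI : Fact r.Prime := ⟨hr⟩
  haveI := hKr'.isNilpotent
  haveI : Group.IsSolvable (F x₀ : Subgroup G) :=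
    Group.isSolvable_of_comm (fun a b => Subtype.ext (hab a a.2 b b.2))
  exact hGns (Group.isSolvable_of_ker_le_range K.subtype (MonoidHom.transferSylow (F x₀) hP)
    (by rw [Subgroup.range_subtype, hKdef]))

end Cfsg.Agent.S3903
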