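import Cfsg.Statements.S3904
import Mathlib
import Cfsg.Agent.Lib.Helper22.CM6

set_option autoImplicit false
open Cfsg

namespace Cfsg.Agent.S3904

/-- Let G be a non-abelian finite group in which the centralizer of every non-central element is a maximal subgroup. Then G/Z(G) is either an elementary abelian p-group for some prime p, or a minimal non-abelian group (non-abelian with all proper subgroups abelian) of order p^a · q for distinct primes p, q with a normal Sylow p-subgroup. -/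
theorem result {G : Type*} [Group G] [Finite G] (hna : ¬ IsMulCommutative G)
    (h : ∀ x : G, x ∉ Subgroup.center G → IsCoatom (Subgroup.centralizer ({x} : Set G))) :
    (∃ p : ℕ, p.Prime ∧ Cfsg.IsElementaryAbelian p (⊤ : Subgroup (G ⧸ Subgroup.center G))) ∨
    (¬ IsMulCommutative (G ⧸ Subgroup.center G) ∧ (∀ H : Subgroup (G ⧸ Subgroup.center G), H ≠ ⊤ → IsMulCommutative ↥H) ∧
      ∃ p q a : ℕ, p.Prime ∧ q.Prime ∧ p ≠ q ∧ Nat.card (G ⧸ Subgroup.center G) = p ^ a * q ∧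
        ∀ P : Subgroup (G ⧸ Subgroup.center G), Nat.card ↥P = p ^ a → P.Normal) := by
  classical
  have hna' : ¬ ∀ a b : G, a * b = b * a := fun hc => hna ⟨⟨hc⟩⟩
  have hmax : ∀ x : G, x ∉ Subgroup.center G → IsCoatom (Cfsg.Agent.Lib.Helper22.CM.cz x) := h
  by_cases hA : ∀ x : G, x ∉ Subgroup.center G → (Cfsg.Agent.Lib.Helper22.CM.cz x).Normal
  · left
    obtain ⟨p, hp, hab, hexp⟩ := Cfsg.Agent.Lib.Helper22.CM.caseA hna' hmax hA
    exact ⟨p, hp, ⟨⟨fun a b => Subtype.ext (hab a.1 b.1)⟩⟩, fun a _ => hexp a⟩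
  · right
    obtain ⟨x₀, hx₀, hnn⟩ : ∃ x₀ : G, x₀ ∉ Subgroup.center G ∧
        ¬ (Cfsg.Agent.Lib.Helper22.CM.cz x₀).Normal := by
      by_contra hcon
      apply hA
      intro x hx
      by_contra hn
      exact hcon ⟨x, hx, hn⟩
    by_cases hB1 : ∃ x : G, x ∉ Subgroup.center G ∧ ¬ (Cfsg.Agent.Lib.Helper22.CM.cz x).Normal ∧
        ∀ y ∈ Cfsg.Agent.Lib.Helper22.CM.cz x, y ∈ Cfsg.Agent.Lib.Helper22.CM.dc x
    · obtain ⟨x, hx, hxn, hxab⟩ := hB1
      obtain ⟨h1, h2, h3⟩ := Cfsg.Agent.Lib.Helper22.CM.caseB1 hmax x hx hxn hxab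
      exact ⟨fun hc => h1 (fun a b => hc.is_comm.comm a b),
        fun H hH => ⟨⟨fun a b => Subtype.ext (h2 H hH a.1 a.2 b.1 b.2)⟩⟩, h3⟩
    · exfalso
      apply Cfsg.Agent.Lib.Helper22.CM.caseB2 hmax ?_ x₀ hx₀ hnn
      intro x hx hxn
      by_contra hcon
      apply hB1
      refine ⟨x, hx, hxn, fun y hy => ?_⟩
      by_contra hy'
      exact hcon ⟨y, hy, hy'⟩

end Cfsg.Agent.S3904
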