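import Cfsg.Statements.S3905
import Mathlib
import Cfsg.Agent.Lib.Helper22.CN6

set_option autoImplicit false
open Cfsg

namespace Cfsg.Agent.S3905

/-- Let N be a normal subgroup of the finite group G such that for every element x of N outside the center of N the centralizer C_G(x) is a maximal subgroup of G. Then N/Z(N) is either an elementary abelian p-group for some prime p, or a Frobenius group whose kernel is an elementary abelian normal subgroup and whose complement has prime order. -/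
theorem result {G : Type*} [Group G] [Finite G] (N : Subgroup G) [N.Normal]
    (h : ∀ x : G, x ∈ N → x ∉ Subgroup.centralizer (N : Set G) → IsCoatom (Subgroup.centralizer ({x} : Set G))) :
    (∃ p : ℕ, p.Prime ∧ Cfsg.IsElementaryAbelian p (⊤ : Subgroup (↥N ⧸ Subgroup.center ↥N))) ∨
    (∃ (Q K : Subgroup (↥N ⧸ Subgroup.center ↥N)) (p : ℕ), p.Prime ∧ Cfsg.IsFrobeniusComplement Q ∧ (Nat.card ↥Q).Prime ∧
      K.Normal ∧ (K : Set (↥N ⧸ Subgroup.center ↥N)) = Cfsg.frobeniusKernel Q ∧ Cfsg.IsElementaryAbelian p K) := by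
  classical
  have hmax : ∀ x : ↥N, x ∉ Subgroup.center ↥N →
      IsCoatom (Cfsg.Agent.Lib.Helper22.CM.cz (x : G)) := by
    intro x hx
    apply h (x : G) x.2
    intro hc
    apply hx
    rw [Subgroup.mem_center_iff]
    intro g
    apply Subtype.ext
    exact Subgroup.mem_centralizer_iff.mp hc (g : G) g.2
  by_cases hα : ∀ x : ↥N, x ∉ Subgroup.center ↥N →
      Cfsg.Agent.Lib.Helper22.CN.GInv N (Cfsg.Agent.Lib.Helper22.CM.cz x)
  · left
    obtain ⟨p, hp, hab, hexp⟩ := Cfsg.Agent.Lib.Helper22.CN.caseAlpha hmax hα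
    exact ⟨p, hp, ⟨⟨fun a b => Subtype.ext (hab a.1 b.1)⟩⟩, fun a _ => hexp a⟩
  · right
    obtain ⟨x₀, hx₀, hnn0⟩ : ∃ x₀ : ↥N, x₀ ∉ Subgroup.center ↥N ∧
        ¬ Cfsg.Agent.Lib.Helper22.CN.GInv N (Cfsg.Agent.Lib.Helper22.CM.cz x₀) := by
      by_contra hcon
      apply hα
      intro x hx
      by_contra hG
      exact hcon ⟨x, hx, hG⟩
    have hZG : ∀ z : ↥N, z ∈ Subgroup.center ↥N → (z : G) ∈ Subgroup.center G := by
      intro z hz
      by_contra hzG
      exact hnn0 (Cfsg.Agent.Lib.Helper22.CN.ginv_of_not_central hmax z hz hzG x₀ hx₀)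
    by_cases hB1 : ∃ x : ↥N, x ∉ Subgroup.center ↥N ∧
        ¬ Cfsg.Agent.Lib.Helper22.CN.GInv N (Cfsg.Agent.Lib.Helper22.CM.cz x) ∧
        ∀ y ∈ Cfsg.Agent.Lib.Helper22.CM.cz x, (y : G) ∈ Cfsg.Agent.Lib.Helper22.CM.dc (x : G)
    · obtain ⟨x, hx, hnn, hab0⟩ := hB1
      obtain ⟨Qc, K, p, hp, hfrob, hcard, hKn, hKset, hKab, hKexp⟩ :=
        Cfsg.Agent.Lib.Helper22.CN.caseBeta1 hmax hZG x hx hnn hab0
      exact ⟨Qc, K, p, hp, hfrob, hcard, hKn, hKset,
        ⟨⟨fun a b => Subtype.ext (hKab a.1 a.2 b.1 b.2)⟩⟩, hKexp⟩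
    · exfalso
      apply Cfsg.Agent.Lib.Helper22.CN.caseBeta2 hmax hZG ?_ x₀ hx₀ hnn0
      intro x hx hnn
      by_contra hcon
      apply hB1
      refine ⟨x, hx, hnn, fun y hy => ?_⟩
      by_contra hyd
      exact hcon ⟨y, hy, hyd⟩

end Cfsg.Agent.S3905
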