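import Cfsg.Statements.S3908
import Mathlib
import Cfsg.Agent.S0016

set_option autoImplicit false
open Cfsg

namespace Cfsg.Agent.S3908

/-- A nontrivial element of a subgroup of prime order generates it. -/
theorem zpowers_eq_of_card_prime {G : Type*} [Group G] {p : ℕ} (hp : p.Prime) (H : Subgroup G)
    (hH : Nat.card H = p) (a : G) (ha : a ∈ H) (ha1 : a ≠ 1) : Subgroup.zpowers a = H := by
  haveI : Finite H := Nat.finite_of_card_ne_zero (by rw [hH]; exact hp.ne_zero)
  apply Subgroup.eq_of_le_of_card_ge ((Subgroup.zpowers_le).mpr ha)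
  rw [hH, Nat.card_zpowers]
  have h1 : orderOf a ∣ p := by
    have h2 := orderOf_dvd_natCard (⟨a, ha⟩ : H)
    rw [hH, Subgroup.orderOf_mk] at h2
    exact h2
  rcases (Nat.dvd_prime hp).mp h1 with h | h
  · exact absurd (orderOf_eq_one_iff.mp h) ha1
  · exact h.ge

/-- Key dichotomy: a Sylow `p`-subgroup has exponent `p` or a unique subgroup of order `p`. -/
theorem key {G : Type*} [Group G] [Finite G]
    (hB : ∀ A B : Subgroup G, IsMulCommutative ↥A → IsMulCommutative ↥B →
      Nat.card ↥A = Nat.card ↥B → ∃ g : G, B = A.map (MulAut.conj g).toMonoidHom)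
    (p : ℕ) [hp : Fact p.Prime] (P : Sylow p G) :
    (∀ x ∈ (P : Subgroup G), x ^ p = 1) ∨
      (∀ H K : Subgroup ↥(P : Subgroup G), Nat.card H = p → Nat.card K = p → H = K) := by
  classical
  by_contra hcon
  push Not at hcon
  obtain ⟨⟨x, hxP, hxp⟩, H, K, hH, hK, hHK⟩ := hcon
  obtain ⟨k, hk⟩ : ∃ k, orderOf x = p ^ k := by
    obtain ⟨k, hk⟩ := P.isPGroup' ⟨x, hxP⟩
    have h1 : x ^ (p ^ k) = 1 := by simpa using congrArg Subtype.val hk
    obtain ⟨k', -, hk'⟩ := (Nat.dvd_prime_pow hp.out).mp (orderOf_dvd_of_pow_eq_one h1)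
    exact ⟨k', hk'⟩
  have hk2 : 2 ≤ k := by
    by_contra hk2
    apply hxp
    have h1 : orderOf x ∣ p := by
      rw [hk]
      have h2 : p ^ k ∣ p ^ 1 := pow_dvd_pow p (by omega)
      rwa [pow_one] at h2
    exact orderOf_dvd_iff_pow_eq_one.mp h1
  have hy : orderOf (x ^ (orderOf x / p ^ 2)) = p ^ 2 :=
    orderOf_pow_orderOf_div (by rw [hk]; exact (pow_pos hp.out.pos k).ne')
      (by rw [hk]; exact pow_dvd_pow p hk2)
  haveI : Nontrivial ↥(P : Subgroup G) := by
    refine ⟨⟨⟨x, hxP⟩, 1, fun h => hxp ?_⟩⟩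
    have h1 : x = 1 := congrArg Subtype.val h
    rw [h1, one_pow]
  haveI := P.isPGroup'.center_nontrivial
  obtain ⟨z, hzc, hzo⟩ : ∃ z : ↥(P : Subgroup G), z ∈ Subgroup.center ↥(P : Subgroup G)
      ∧ orderOf z = p := by
    have hcard : p ∣ Nat.card (Subgroup.center ↥(P : Subgroup G)) := by
      obtain ⟨j, hj⟩ := IsPGroup.iff_card.mp
        (P.isPGroup'.to_subgroup (Subgroup.center ↥(P : Subgroup G)))
      rw [hj]
      have hj0 : j ≠ 0 := by
        rintro rfl
        rw [pow_zero] at hj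
        have h1 := Subgroup.eq_bot_of_card_eq _ hj
        exact (Subgroup.nontrivial_iff_ne_bot _).mp inferInstance h1
      exact dvd_pow_self p hj0
    obtain ⟨c, hc⟩ := exists_prime_orderOf_dvd_card' p hcard
    exact ⟨c.1, c.2, (Subgroup.orderOf_coe c).trans hc⟩
  have hZcard : Nat.card (Subgroup.zpowers z) = p := by rw [Nat.card_zpowers, hzo]
  obtain ⟨U, hU, hUZ⟩ : ∃ U : Subgroup ↥(P : Subgroup G), Nat.card U = p
      ∧ U ≠ Subgroup.zpowers z := by
    by_cases h : H = Subgroup.zpowers z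
    · exact ⟨K, hK, fun h' => hHK (h.trans h'.symm)⟩
    · exact ⟨H, hH, h⟩
  obtain ⟨u, huU, hu1⟩ : ∃ u ∈ U, u ≠ 1 := by
    by_contra hcon
    push Not at hcon
    have h1 : U = ⊥ := (Subgroup.eq_bot_iff_forall U).mpr hcon
    rw [h1, Subgroup.card_bot] at hU
    exact hp.out.one_lt.ne hU
  have hUu : Subgroup.zpowers u = U := zpowers_eq_of_card_prime hp.out U hU u huU hu1
  have hdisj : ∀ a ∈ Subgroup.zpowers z, a ∈ U → a = 1 := by
    intro a haZ haU
    by_contra ha1
    apply hUZ
    rw [← zpowers_eq_of_card_prime hp.out U hU a haU ha1,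
      zpowers_eq_of_card_prime hp.out _ hZcard a haZ ha1]
  subst hUu
  let f : ↥(Subgroup.zpowers z) × ↥(Subgroup.zpowers u) →* ↥(P : Subgroup G) :=
    MonoidHom.noncommCoprod (Subgroup.zpowers z).subtype (Subgroup.zpowers u).subtype (by
      intro a b
      have ha : (a : ↥(P : Subgroup G)) ∈ Subgroup.center ↥(P : Subgroup G) :=
        (Subgroup.zpowers_le.mpr hzc) a.2
      exact (Subgroup.mem_center_iff.mp ha (b : ↥(P : Subgroup G))).symm)
  have hf : ∀ ab, f ab = (ab.1 : ↥(P : Subgroup G)) * (ab.2 : ↥(P : Subgroup G)) :=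
    fun ab => rfl
  have hfinj : Function.Injective f := by
    rw [injective_iff_map_eq_one]
    rintro ⟨a, b⟩ hab
    rw [hf] at hab
    have haU : (a : ↥(P : Subgroup G)) ∈ Subgroup.zpowers u := by
      have h1 : (a : ↥(P : Subgroup G)) = (b : ↥(P : Subgroup G))⁻¹ :=
        eq_inv_of_mul_eq_one_left hab
      rw [h1]
      exact (Subgroup.zpowers u).inv_mem b.2
    have ha1 := hdisj _ a.2 haU
    have hb1 : (b : ↥(P : Subgroup G)) = 1 := by
      have h2 : (a : ↥(P : Subgroup G)) * (b : ↥(P : Subgroup G)) = 1 := hab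
      rw [ha1, one_mul] at h2
      exact h2
    exact Prod.ext (Subtype.ext ha1) (Subtype.ext hb1)
  have hEcard : Nat.card ((f.range).map (P : Subgroup G).subtype) = p ^ 2 := by
    rw [Subgroup.card_subtype, ← Nat.card_congr (MonoidHom.ofInjective hfinj).toEquiv,
      Nat.card_prod, hZcard, hU, sq]
  have hcommD : ∀ c₁ c₂ : ↥(Subgroup.zpowers z) × ↥(Subgroup.zpowers u), c₁ * c₂ = c₂ * c₁ := by
    intro c₁ c₂
    exact Prod.ext (mul_comm' c₁.1 c₂.1) (mul_comm' c₁.2 c₂.2)
  have hEcomm : IsMulCommutative ↥((f.range).map (P : Subgroup G).subtype) := by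
    refine ⟨⟨fun a b => ?_⟩⟩
    obtain ⟨a', ⟨c₁, hc₁⟩, ha'⟩ := a.2
    obtain ⟨b', ⟨c₂, hc₂⟩, hb'⟩ := b.2
    apply Subtype.ext
    show (a : G) * (b : G) = (b : G) * (a : G)
    rw [← ha', ← hb', ← hc₁, ← hc₂]
    have h1 : f c₁ * f c₂ = f c₂ * f c₁ := by
      rw [← map_mul, ← map_mul, hcommD]
    exact congrArg Subtype.val h1
  have hEexp : ∀ e ∈ (f.range).map (P : Subgroup G).subtype, e ^ p = 1 := by
    rintro e ⟨e', ⟨c, rfl⟩, rfl⟩
    have h1 : c ^ p = 1 := by
      apply Prod.ext
      · have h2 : c.1 ^ Nat.card (Subgroup.zpowers z) = 1 := pow_card_eq_one'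
        rw [hZcard] at h2
        exact h2
      · have h2 : c.2 ^ Nat.card (Subgroup.zpowers u) = 1 := pow_card_eq_one'
        rw [hU] at h2
        exact h2
    have h3 : (f c) ^ p = 1 := by rw [← map_pow, h1, map_one]
    have h4 := congrArg Subtype.val h3
    simpa using h4
  have hCcard : Nat.card (Subgroup.zpowers (x ^ (orderOf x / p ^ 2))) = p ^ 2 := by
    rw [Nat.card_zpowers, hy]
  obtain ⟨g, hg⟩ := hB (Subgroup.zpowers (x ^ (orderOf x / p ^ 2)))
    ((f.range).map (P : Subgroup G).subtype) inferInstance hEcomm (by rw [hCcard, hEcard])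
  have hmem : g * (x ^ (orderOf x / p ^ 2)) * g⁻¹ ∈ (f.range).map (P : Subgroup G).subtype := by
    rw [hg]
    exact ⟨_, Subgroup.mem_zpowers _, rfl⟩
  have h5 := hEexp _ hmem
  rw [conj_pow] at h5
  have h6 : (x ^ (orderOf x / p ^ 2)) ^ p = 1 := by
    have h7 : (x ^ (orderOf x / p ^ 2)) ^ p
        = g⁻¹ * (g * (x ^ (orderOf x / p ^ 2)) ^ p * g⁻¹) * g := by group
    rw [h7, h5]
    group
  have h8 := orderOf_dvd_of_pow_eq_one h6
  rw [hy] at h8
  have h9 : p ^ 2 ≤ p := Nat.le_of_dvd hp.out.pos h8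
  have h10 := hp.out.one_lt
  nlinarith


/-- Let G be a finite group in which any two abelian subgroups of the same order are conjugate. Then a Sylow 2-subgroup of G is cyclic, elementary abelian or generalized quaternion, and for an odd prime p a Sylow p-subgroup of G is cyclic or has exponent dividing p. -/
theorem result {G : Type*} [Group G] [Finite G] (hB : ∀ A B : Subgroup G, IsMulCommutative ↥A → IsMulCommutative ↥B → Nat.card ↥A = Nat.card ↥B → ∃ g : G, B = A.map (MulAut.conj g).toMonoidHom) :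
    (∀ P : Sylow 2 G, IsCyclic ↥(P : Subgroup G) ∨ Cfsg.IsElementaryAbelian 2 (P : Subgroup G) ∨ ∃ k : ℕ, Nonempty (↥(P : Subgroup G) ≃* QuaternionGroup (2 ^ k))) ∧
    ∀ (p : ℕ) [Fact p.Prime], p ≠ 2 → ∀ P : Sylow p G, IsCyclic ↥(P : Subgroup G) ∨ ∀ x ∈ (P : Subgroup G), x ^ p = 1 := by
  constructor
  · intro P
    haveI : Fact (Nat.Prime 2) := ⟨Nat.prime_two⟩
    rcases key hB 2 P with h | h
    · right; left
      refine ⟨⟨⟨fun a b => ?_⟩⟩, h⟩
      have h1 : a * a = 1 := by
        apply Subtype.ext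
        have := h a a.2
        rw [pow_two] at this
        exact this
      have h2 : b * b = 1 := by
        apply Subtype.ext
        have := h b b.2
        rw [pow_two] at this
        exact this
      have h3 : (a * b) * (a * b) = 1 := by
        apply Subtype.ext
        have := h (a * b) (a * b).2
        rw [pow_two] at this
        exact this
      have e : b * a = a * (a * b * (a * b)) * b := by
        calc b * a = (a * a) * (b * a) * (b * b) := by rw [h1, h2, one_mul, mul_one]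
          _ = a * (a * b * (a * b)) * b := by simp only [mul_assoc]
      rw [h3, mul_one] at e
      exact e.symm
    · rcases Cfsg.Agent.S0016.result 2 P.isPGroup' h with h' | ⟨-, n, hn⟩
      · left; exact h'
      · right; right; exact ⟨n, hn⟩
  · intro p hp hp2 P
    rcases key hB p P with h | h
    · right; exact h
    · rcases Cfsg.Agent.S0016.result p P.isPGroup' h with h' | ⟨h2, -⟩
      · left; exact h'
      · exact absurd h2 hp2

end Cfsg.Agent.S3908
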