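import Cfsg.Statements.S3909
import Mathlib

set_option autoImplicit false
open Cfsg

namespace Cfsg.Agent.S3909

/-- Let G be a finite group in which any two abelian subgroups of the same order are conjugate. Let M be a normal subgroup of G. If M contains an element of the same order as a ∈ G, then a ∈ M; and if M is elementary abelian of order p^t with p prime and t ≥ 2, then M is the unique Sylow p-subgroup of G. -/
theorem result {G : Type*} [Group G] [Finite G] (hB : ∀ A B : Subgroup G, IsMulCommutative ↥A → IsMulCommutative ↥B → Nat.card ↥A = Nat.card ↥B → ∃ g : G, B = A.map (MulAut.conj g).toMonoidHom) (M : Subgroup G) [M.Normal] :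
    (∀ a : G, (∃ m ∈ M, orderOf m = orderOf a) → a ∈ M) ∧
    ∀ (p t : ℕ) [Fact p.Prime], 2 ≤ t → Nat.card ↥M = p ^ t → Cfsg.IsElementaryAbelian p M → ∀ P : Sylow p G, (P : Subgroup G) = M := by
  have part1 : ∀ a : G, (∃ m ∈ M, orderOf m = orderOf a) → a ∈ M := by
    rintro a ⟨m, hm, hma⟩
    have hcard : Nat.card (Subgroup.zpowers m) = Nat.card (Subgroup.zpowers a) := by
      rw [Nat.card_zpowers, Nat.card_zpowers, hma]
    obtain ⟨g, hg⟩ := hB (Subgroup.zpowers m) (Subgroup.zpowers a) inferInstance inferInstance hcard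
    have ha : a ∈ (Subgroup.zpowers m).map (MulAut.conj g).toMonoidHom := by
      rw [← hg]
      exact Subgroup.mem_zpowers a
    obtain ⟨x, hx, hxa⟩ := ha
    have hxM : x ∈ M := by
      obtain ⟨k, rfl⟩ := Subgroup.mem_zpowers_iff.mp hx
      exact Subgroup.zpow_mem _ hm k
    rw [← hxa]
    show g * x * g⁻¹ ∈ M
    exact Subgroup.Normal.conj_mem inferInstance x hxM g
  refine ⟨part1, ?_⟩
  intro p t hp ht hcard hEA P
  have hpp : p.Prime := hp.out
  obtain ⟨hMcomm, hMexp⟩ := hEA
  -- M is a p-group, hence inside P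
  have hMp : IsPGroup p M := IsPGroup.of_card hcard
  have hMP : M ≤ (P : Subgroup G) := by
    have h1 : IsPGroup p ((P : Subgroup G) ⊔ M : Subgroup G) :=
      IsPGroup.to_sup_of_normal_right P.isPGroup' hMp
    have h2 := P.is_maximal' h1 le_sup_left
    rw [← h2]
    exact le_sup_right
  -- an element of order p in M
  have hMnt : ∃ m ∈ M, orderOf m = p := by
    have h1 : 1 < Nat.card M := by
      rw [hcard]
      exact Nat.one_lt_pow (by omega) hpp.one_lt
    obtain ⟨⟨m, hm⟩, hm1⟩ : ∃ m : M, m ≠ 1 := by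
      have : Nontrivial M := (Finite.one_lt_card_iff_nontrivial).mp h1
      exact exists_ne 1
    refine ⟨m, hm, ?_⟩
    have hmp := hMexp m hm
    have hne : m ≠ 1 := fun h => hm1 (Subtype.ext h)
    exact orderOf_eq_prime hmp hne
  have claimA : ∀ x : G, orderOf x = p → x ∈ M := by
    intro x hx
    obtain ⟨m, hm, hmo⟩ := hMnt
    exact part1 x ⟨m, hm, hmo.trans hx.symm⟩
  have claimB : ∀ y : G, orderOf y ≠ p ^ 2 := by
    intro y hy
    have hdvd : p ^ 2 ∣ Nat.card M := by
      rw [hcard]
      exact pow_dvd_pow p ht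
    obtain ⟨K, hK⟩ := Sylow.exists_subgroup_card_pow_prime p hdvd
    have hKcard : Nat.card (K.map M.subtype) = p ^ 2 := by
      rw [← hK]
      exact (Nat.card_congr (K.equivMapOfInjective M.subtype M.subtype_injective).toEquiv).symm
    have hKM : K.map M.subtype ≤ M := by
      rintro _ ⟨x, -, rfl⟩
      exact x.2
    have hKcomm : IsMulCommutative (K.map M.subtype) := by
      refine isMulCommutative_iff.mpr ?_
      rintro ⟨a, ha⟩ ⟨b, hb⟩
      apply Subtype.ext
      have := mul_comm' (⟨a, hKM ha⟩ : M) ⟨b, hKM hb⟩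
      simpa using congrArg Subtype.val this
    have hc : Nat.card (K.map M.subtype) = Nat.card (Subgroup.zpowers y) := by
      rw [hKcard, Nat.card_zpowers, hy]
    obtain ⟨g, hg⟩ := hB (K.map M.subtype) (Subgroup.zpowers y) hKcomm inferInstance hc
    have hy' : y ∈ (K.map M.subtype).map (MulAut.conj g).toMonoidHom := by
      rw [← hg]
      exact Subgroup.mem_zpowers y
    obtain ⟨x, hx, hxy⟩ := hy'
    have hxp : x ^ p = 1 := hMexp x (hKM hx)
    have hyp : y ^ p = 1 := by
      rw [← hxy, ← map_pow, hxp, map_one]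
    have := orderOf_dvd_of_pow_eq_one hyp
    rw [hy] at this
    have h2 : p ^ 2 ≤ p := Nat.le_of_dvd hpp.pos this
    have h3 : p < p ^ 2 := by
      have := hpp.one_lt
      nlinarith
    omega
  apply le_antisymm _ hMP
  intro x hx
  obtain ⟨k, hk⟩ := (IsPGroup.iff_orderOf.mp P.isPGroup') ⟨x, hx⟩
  rw [Subgroup.orderOf_mk] at hk
  rcases k with _ | _ | k
  · rw [pow_zero, orderOf_eq_one_iff] at hk
    rw [hk]
    exact Subgroup.one_mem _
  · rw [zero_add, pow_one] at hk
    exact claimA x hk
  · exfalso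
    apply claimB (x ^ (p ^ k))
    have h0 : orderOf x ≠ 0 := (orderOf_pos x).ne'
    have hdvd : p ^ 2 ∣ orderOf x := by
      rw [hk]
      exact pow_dvd_pow p (by omega)
    have := orderOf_pow_orderOf_div h0 hdvd
    rw [hk] at this
    have hdiv : p ^ (k + 1 + 1) / p ^ 2 = p ^ k := by
      rw [show k + 1 + 1 = k + 2 by omega, pow_add]
      exact Nat.mul_div_cancel _ (pow_pos hpp.pos 2)
    rw [hdiv] at this
    exact this

end Cfsg.Agent.S3909
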