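import Cfsg.Statements.S3910
import Mathlib
import Cfsg.Agent.Lib.Helper22.TI

set_option autoImplicit false
open Cfsg

namespace Cfsg.Agent.S3910

/-- A finite nilpotent group in which any two abelian subgroups of the same order are conjugate is cyclic. -/
theorem result {G : Type*} [Group G] [Finite G] (hB : ∀ A B : Subgroup G, IsMulCommutative ↥A → IsMulCommutative ↥B → Nat.card ↥A = Nat.card ↥B → ∃ g : G, B = A.map (MulAut.conj g).toMonoidHom) (hnil : Group.IsNilpotent G) : IsCyclic G := by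
  classical
  have q03 := (Group.isNilpotent_of_finite_tfae (G := G)).out 0 3
  have q02 := (Group.isNilpotent_of_finite_tfae (G := G)).out 0 2
  have hSn : ∀ (q : ℕ) (hq : Fact q.Prime) (Q : Sylow q G), (Q : Subgroup G).Normal := q03.mp hnil
  have hcoatom : ∀ M : Subgroup G, IsCoatom M → M.Normal := q02.mp hnil
  have conj_lemma : ∀ x y : G, orderOf y ∣ orderOf x →
      ∃ g : G, ∃ a ∈ Subgroup.zpowers x, y = g * a * g⁻¹ := by
    intro x y hdvd
    have hx0 : orderOf x ≠ 0 := (orderOf_pos x).ne'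
    have hord : orderOf (x ^ (orderOf x / orderOf y)) = orderOf y :=
      orderOf_pow_orderOf_div hx0 hdvd
    have hcard : Nat.card (Subgroup.zpowers (x ^ (orderOf x / orderOf y)))
        = Nat.card (Subgroup.zpowers y) := by
      rw [Nat.card_zpowers, Nat.card_zpowers, hord]
    obtain ⟨g, hg⟩ := hB _ _ inferInstance inferInstance hcard
    have hy : y ∈ (Subgroup.zpowers (x ^ (orderOf x / orderOf y))).map
        (MulAut.conj g).toMonoidHom := by
      rw [← hg]
      exact Subgroup.mem_zpowers y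
    obtain ⟨a, ha, hay⟩ := hy
    refine ⟨g, a, ?_, hay.symm⟩
    exact (Subgroup.zpowers_le.mpr (Subgroup.pow_mem _ (Subgroup.mem_zpowers x) _)) ha
  have hex : ∀ q : ℕ, q.Prime → ∃ x : G, (∃ e, orderOf x = q ^ e) ∧
      ∀ y : G, (∃ b, orderOf y = q ^ b) → orderOf y ∣ orderOf x := by
    intro q hq
    haveI : Nonempty {y : G // ∃ b, orderOf y = q ^ b} := ⟨⟨1, 0, by simp⟩⟩
    obtain ⟨⟨x, e, hx⟩, hmax⟩ :=
      Finite.exists_max (fun y : {y : G // ∃ b, orderOf y = q ^ b} => orderOf y.1)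
    refine ⟨x, ⟨e, hx⟩, ?_⟩
    rintro y ⟨b, hb⟩
    have h1 : orderOf y ≤ orderOf x := hmax ⟨y, b, hb⟩
    rw [hb, hx] at h1 ⊢
    exact pow_dvd_pow q ((Nat.pow_le_pow_iff_right hq.one_lt).mp h1)
  choose xq hxq1 hxq2 using hex
  have hcomm : ∀ (q r : ℕ) (hq : q.Prime) (hr : r.Prime), q ≠ r → ∀ x y : G,
      (∃ e, orderOf x = q ^ e) → (∃ b, orderOf y = r ^ b) → x * y = y * x := by
    intro q r hq hr hqr x y ⟨e, he⟩ ⟨b, hb⟩
    haveI : Fact q.Prime := ⟨hq⟩
    haveI : Fact r.Prime := ⟨hr⟩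
    obtain ⟨Q⟩ : Nonempty (Sylow q G) := inferInstance
    obtain ⟨R⟩ : Nonempty (Sylow r G) := inferInstance
    have hQn := hSn q ⟨hq⟩ Q
    have hRn := hSn r ⟨hr⟩ R
    have hxQ : x ∈ (Q : Subgroup G) := Lib.Helper22.mem_sylow_of_normalizes Q x e he
      (by rw [Subgroup.normalizer_eq_top_iff.mpr hQn]; exact Subgroup.mem_top x)
    have hyR : y ∈ (R : Subgroup G) := Lib.Helper22.mem_sylow_of_normalizes R y b hb
      (by rw [Subgroup.normalizer_eq_top_iff.mpr hRn]; exact Subgroup.mem_top y)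
    have hdisj : Disjoint (Q : Subgroup G) (R : Subgroup G) :=
      IsPGroup.disjoint_of_ne q r hqr _ _ Q.isPGroup' R.isPGroup'
    exact (Subgroup.commute_of_normal_of_disjoint _ _ hQn hRn hdisj x y hxQ hyR).eq
  have hT : Subgroup.closure {z : G | ∃ (q : ℕ) (hq : q.Prime), z = xq q hq} = ⊤ := by
    by_contra hne
    obtain ⟨M, hM, hTM⟩ := (eq_top_or_exists_le_coatom
      (Subgroup.closure {z : G | ∃ (q : ℕ) (hq : q.Prime), z = xq q hq})).resolve_left hne
    have hMn := hcoatom M hM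
    apply hM.1
    apply Lib.Helper22.eq_top_of_sylow_le
    intro r hr
    obtain ⟨R⟩ : Nonempty (Sylow r G) := inferInstance
    refine ⟨R, ?_⟩
    intro y hy
    obtain ⟨b, hb⟩ := (IsPGroup.iff_orderOf.mp R.isPGroup') ⟨y, hy⟩
    rw [Subgroup.orderOf_mk] at hb
    obtain ⟨g, a, ha, rfl⟩ := conj_lemma (xq r hr.out) y (hxq2 r hr.out y ⟨b, hb⟩)
    apply hMn.conj_mem
    apply hTM
    have hxmem : xq r hr.out ∈
        Subgroup.closure {z : G | ∃ (q : ℕ) (hq : q.Prime), z = xq q hq} :=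
      Subgroup.subset_closure ⟨r, hr.out, rfl⟩
    exact (Subgroup.zpowers_le.mpr hxmem) ha
  have hcomS : ∀ a ∈ {z : G | ∃ (q : ℕ) (hq : q.Prime), z = xq q hq},
      ∀ b ∈ {z : G | ∃ (q : ℕ) (hq : q.Prime), z = xq q hq}, a * b = b * a := by
    rintro _ ⟨q, hq, rfl⟩ _ ⟨r, hr, rfl⟩
    by_cases hqr : q = r
    · subst hqr
      rfl
    · exact hcomm q r hq hr hqr _ _ (hxq1 q hq) (hxq1 r hr)
  have hTc := Subgroup.isMulCommutative_closure hcomS
  have hab : ∀ a b : G, a * b = b * a := by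
    intro a b
    have ha : a ∈ Subgroup.closure {z : G | ∃ (q : ℕ) (hq : q.Prime), z = xq q hq} := by
      rw [hT]
      exact Subgroup.mem_top a
    have hb : b ∈ Subgroup.closure {z : G | ∃ (q : ℕ) (hq : q.Prime), z = xq q hq} := by
      rw [hT]
      exact Subgroup.mem_top b
    have := mul_comm' (⟨a, ha⟩ : Subgroup.closure {z : G | ∃ (q : ℕ) (hq : q.Prime), z = xq q hq})
      ⟨b, hb⟩
    simpa using congrArg Subtype.val this
  haveI : IsZGroup G := by
    refine ⟨fun q hq Q => ?_⟩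
    haveI : Fact q.Prime := ⟨hq⟩
    have hQn := hSn q ⟨hq⟩ Q
    obtain ⟨e, he⟩ := hxq1 q hq
    have hxQ : xq q hq ∈ (Q : Subgroup G) := Lib.Helper22.mem_sylow_of_normalizes Q _ e he
      (by rw [Subgroup.normalizer_eq_top_iff.mpr hQn]; exact Subgroup.mem_top _)
    refine ⟨⟨⟨xq q hq, hxQ⟩, fun y => ?_⟩⟩
    obtain ⟨b, hb⟩ := (IsPGroup.iff_orderOf.mp Q.isPGroup') y
    rw [← Subgroup.orderOf_coe] at hb
    obtain ⟨g, a, ha, hya⟩ := conj_lemma (xq q hq) (y : G) (hxq2 q hq y ⟨b, hb⟩)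
    have hya' : (y : G) = a := by
      rw [hya, hab g a]
      group
    obtain ⟨i, hi⟩ := Subgroup.mem_zpowers_iff.mp ha
    refine Subgroup.mem_zpowers_iff.mpr ⟨i, ?_⟩
    apply Subtype.ext
    rw [hya', ← hi]
    simp
  haveI := hnil
  infer_instance

end Cfsg.Agent.S3910
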