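import Cfsg.Statements.S3917
import Mathlib
import Cfsg.Agent.Lib.Helper22.NonCyclic

set_option autoImplicit false
open Cfsg

namespace Cfsg.Agent.S3917

/-- Say that a group has self-centralizing non-cyclic subgroups when every non-cyclic subgroup H satisfies C_G(H) ≤ H. A finite abelian group with self-centralizing non-cyclic subgroups is cyclic or elementary abelian of order p² for a prime p. -/
theorem result {G : Type*} [CommGroup G] [Finite G] (hX : (∀ H : Subgroup G, ¬ IsCyclic ↥H → Subgroup.centralizer (H : Set G) ≤ H)) :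
    IsCyclic G ∨ ∃ p : ℕ, p.Prime ∧ Nat.card G = p ^ 2 ∧ Monoid.exponent G = p := by
  classical
  by_cases hcyc : IsCyclic G
  · exact Or.inl hcyc
  right
  obtain ⟨p, hpp, f, hf⟩ := Cfsg.Agent.Lib.Helper22.exists_surjective_of_not_isCyclic G hcyc
  haveI : Fact p.Prime := ⟨hpp⟩
  have hplt : p < p ^ 2 := by nlinarith [hpp.one_lt]
  have hnc : ∀ H : Subgroup G, ¬ IsCyclic H → H = ⊤ := by
    intro H hH
    have := hX H hH
    rw [eq_top_iff]
    intro g _
    apply this
    rw [Subgroup.mem_centralizer_iff]
    intro h _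
    exact mul_comm h g
  have htp : ∀ v : Multiplicative (ZMod p × ZMod p), v ^ p = 1 := by
    intro v
    apply Multiplicative.toAdd.injective
    rw [toAdd_pow, toAdd_one]
    refine Prod.ext ?_ ?_ <;> simp [nsmul_eq_mul]
  have hcardT : Nat.card (Multiplicative (ZMod p × ZMod p)) = p ^ 2 := by
    rw [Nat.card_congr Multiplicative.toAdd, Nat.card_prod, Nat.card_zmod]
    ring
  have htnc : ¬ IsCyclic (Multiplicative (ZMod p × ZMod p)) := by
    intro hc
    have h1 := IsCyclic.exponent_eq_card (α := Multiplicative (ZMod p × ZMod p))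
    have h2 : Monoid.exponent (Multiplicative (ZMod p × ZMod p)) ∣ p :=
      Monoid.exponent_dvd_of_forall_pow_eq_one htp
    rw [h1, hcardT] at h2
    have := Nat.le_of_dvd hpp.pos h2
    omega
  have hcycp : ∀ C : Subgroup G, IsCyclic C → (∀ c ∈ C, c ^ p = 1) → Nat.card C ∣ p := by
    intro C hC hCp
    rw [← IsCyclic.exponent_eq_card]
    apply Monoid.exponent_dvd_of_forall_pow_eq_one
    intro c
    apply Subtype.ext
    simpa using hCp c c.2
  let pw : G →* G := powMonoidHom p
  have hTnc : ¬ IsCyclic pw.ker := by
    intro hc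
    have h1 : Nat.card pw.ker ∣ p := hcycp _ hc (fun c hc' => hc')
    have hrk : pw.range ≤ f.ker := by
      rintro _ ⟨y, rfl⟩
      rw [MonoidHom.mem_ker]
      show f (y ^ p) = 1
      rw [map_pow, htp]
    have e1 := Subgroup.card_mul_index pw.ker
    rw [Subgroup.index_ker] at e1
    have e2 := Subgroup.card_mul_index f.ker
    rw [Subgroup.index_ker, MonoidHom.range_eq_top.mpr hf, Subgroup.card_top, hcardT] at e2
    obtain ⟨c, hc3⟩ := Subgroup.card_dvd_of_le hrk
    have hpos : 0 < Nat.card pw.range := Nat.card_pos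
    have hkpos : 0 < Nat.card f.ker := Nat.card_pos
    have hcpos : 0 < c := by
      rcases Nat.eq_zero_or_pos c with h | h
      · rw [h, mul_zero] at hc3
        omega
      · exact h
    have e4 : Nat.card pw.ker = c * p ^ 2 := by
      have : Nat.card pw.ker * Nat.card pw.range = (c * p ^ 2) * Nat.card pw.range := by
        rw [e1, ← e2, hc3]
        ring
      exact Nat.eq_of_mul_eq_mul_right hpos this
    have h5 : p ^ 2 ≤ Nat.card pw.ker := by
      rw [e4]
      exact Nat.le_mul_of_pos_left _ hcpos
    have h6 := Nat.le_of_dvd hpp.pos h1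
    omega
  have hT := hnc _ hTnc
  have hexp : ∀ x : G, x ^ p = 1 := by
    intro x
    have : x ∈ pw.ker := by
      rw [hT]
      exact Subgroup.mem_top x
    exact this
  have hinj : Function.Injective f := by
    rw [← MonoidHom.ker_eq_bot_iff, Subgroup.eq_bot_iff_forall]
    intro k hk
    by_contra hk1
    have hkord : orderOf k = p := orderOf_eq_prime (hexp k) hk1
    have hall : ∀ x : G, x ∈ Subgroup.zpowers k := by
      intro x
      have hne : Subgroup.zpowers x ⊔ Subgroup.zpowers k ≠ ⊤ := by
        intro htop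
        have hmap : (Subgroup.zpowers x ⊔ Subgroup.zpowers k).map f = Subgroup.zpowers (f x) := by
          rw [Subgroup.map_sup, MonoidHom.map_zpowers, MonoidHom.map_zpowers,
            (MonoidHom.mem_ker).mp hk, Subgroup.zpowers_one_eq_bot, sup_bot_eq]
        rw [htop, Subgroup.map_top_of_surjective f hf] at hmap
        apply htnc
        exact ⟨⟨f x, fun y => by
          have : y ∈ (⊤ : Subgroup (Multiplicative (ZMod p × ZMod p))) := Subgroup.mem_top y
          rw [hmap] at this
          exact this⟩⟩
      have hcyc' : IsCyclic (Subgroup.zpowers x ⊔ Subgroup.zpowers k : Subgroup G) := by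
        by_contra h
        exact hne (hnc _ h)
      have hd := hcycp _ hcyc' (fun c _ => hexp c)
      have hle : Subgroup.zpowers k ≤ Subgroup.zpowers x ⊔ Subgroup.zpowers k := le_sup_right
      have hge : Nat.card (Subgroup.zpowers x ⊔ Subgroup.zpowers k : Subgroup G)
          ≤ Nat.card (Subgroup.zpowers k) := by
        rw [Nat.card_zpowers, hkord]
        exact Nat.le_of_dvd hpp.pos hd
      have heq := Subgroup.eq_of_le_of_card_ge hle hge
      rw [heq]
      exact (le_sup_left : Subgroup.zpowers x ≤ _) (Subgroup.mem_zpowers x)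
    apply htnc
    have : ∀ y : Multiplicative (ZMod p × ZMod p), y = 1 := by
      intro y
      obtain ⟨x, rfl⟩ := hf y
      obtain ⟨i, rfl⟩ := Subgroup.mem_zpowers_iff.mp (hall x)
      rw [map_zpow, (MonoidHom.mem_ker).mp hk, one_zpow]
    haveI : Subsingleton (Multiplicative (ZMod p × ZMod p)) :=
      ⟨fun a b => (this a).trans (this b).symm⟩
    exact isCyclic_of_subsingleton
  have hcardG : Nat.card G = p ^ 2 := by
    rw [← hcardT]
    exact Nat.card_congr (Equiv.ofBijective f ⟨hinj, hf⟩)
  refine ⟨p, hpp, hcardG, ?_⟩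
  have hd : Monoid.exponent G ∣ p := Monoid.exponent_dvd_of_forall_pow_eq_one hexp
  rcases (Nat.dvd_prime hpp).mp hd with h | h
  · exfalso
    have : ∀ x : G, x = 1 := by
      intro x
      have := Monoid.pow_exponent_eq_one x
      rw [h, pow_one] at this
      exact this
    apply hcyc
    haveI : Subsingleton G := ⟨fun a b => (this a).trans (this b).symm⟩
    exact isCyclic_of_subsingleton
  · exact h

end Cfsg.Agent.S3917
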