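import Cfsg.Statements.S3920
import Mathlib

set_option autoImplicit false
open Cfsg

namespace Cfsg.Agent.S3920


theorem isCyclic_of_le' {G : Type*} [Group G] {H K : Subgroup G} (hle : H ≤ K)
    (hK : IsCyclic K) : IsCyclic H := by
  haveI := hK
  exact isCyclic_of_surjective (Subgroup.subgroupOfEquivOfLe hle)
    (Subgroup.subgroupOfEquivOfLe hle).surjective

theorem dbl_odd (n : ℕ) [NeZero n] (hn : Odd n) (k : ZMod n) (hk : k + k = 0) : k = 0 := by
  have h1 : ((k.val + k.val : ℕ) : ZMod n) = 0 := by
    rw [Nat.cast_add, ZMod.natCast_zmod_val]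
    exact hk
  have h2 : n ∣ k.val + k.val := (ZMod.natCast_eq_zero_iff _ _).mp h1
  have h3 : n ∣ k.val := by
    rw [← two_mul] at h2
    exact (Nat.Coprime.dvd_mul_left (Nat.Coprime.symm (Nat.coprime_two_left.mpr hn))).mp h2
  have h4 : k.val = 0 := Nat.eq_zero_of_dvd_of_lt h3 (ZMod.val_lt k)
  exact (ZMod.val_eq_zero k).mp h4

theorem dbl_two_pow (n a : ℕ) [NeZero n] (hn : n = 2 ^ (a + 1)) (k : ZMod n)
    (hk : k + k = 0) : k = 0 ∨ k = ((2 ^ a : ℕ) : ZMod n) := by
  have h1 : ((k.val + k.val : ℕ) : ZMod n) = 0 := by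
    rw [Nat.cast_add, ZMod.natCast_zmod_val]
    exact hk
  have h2 : n ∣ k.val + k.val := (ZMod.natCast_eq_zero_iff _ _).mp h1
  have h2' : 2 * 2 ^ a ∣ 2 * k.val := by
    rw [← pow_succ', ← hn, two_mul]
    exact h2
  have h3 : 2 ^ a ∣ k.val := Nat.dvd_of_mul_dvd_mul_left (by norm_num) h2'
  obtain ⟨c, hc⟩ := h3
  have hlt := ZMod.val_lt k
  have e : n = 2 ^ a * 2 := by rw [hn, pow_succ]
  have hc2 : c < 2 := by
    by_contra h
    push_neg at h
    have h5 : 2 ^ a * 2 ≤ 2 ^ a * c := Nat.mul_le_mul_left _ h
    linarith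
  interval_cases c
  · left
    rw [mul_zero] at hc
    exact (ZMod.val_eq_zero k).mp hc
  · right
    rw [mul_one] at hc
    rw [← hc, ZMod.natCast_zmod_val]

/-- The index of an element of the dihedral group. -/
def idx {n : ℕ} : DihedralGroup n → ZMod n
  | DihedralGroup.r k => k
  | DihedralGroup.sr k => k

theorem idx_r {n : ℕ} (k : ZMod n) : idx (DihedralGroup.r k) = k := rfl

theorem idx_sr {n : ℕ} (k : ZMod n) : idx (DihedralGroup.sr k) = k := rfl

/-- The elements of the dihedral group whose index is killed by `u`. -/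
def subK (n u : ℕ) : Subgroup (DihedralGroup n) where
  carrier := {x | (u : ZMod n) * idx x = 0}
  mul_mem' := by
    rintro (i | i) (j | j) hi hj
    · show (u : ZMod n) * idx (DihedralGroup.r i * DihedralGroup.r j) = 0
      have hi' : (u : ZMod n) * i = 0 := hi
      have hj' : (u : ZMod n) * j = 0 := hj
      rw [DihedralGroup.r_mul_r, idx_r, mul_add, hi', hj', add_zero]
    · show (u : ZMod n) * idx (DihedralGroup.r i * DihedralGroup.sr j) = 0
      have hi' : (u : ZMod n) * i = 0 := hi
      have hj' : (u : ZMod n) * j = 0 := hj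
      rw [DihedralGroup.r_mul_sr, idx_sr, mul_sub, hi', hj', sub_zero]
    · show (u : ZMod n) * idx (DihedralGroup.sr i * DihedralGroup.r j) = 0
      have hi' : (u : ZMod n) * i = 0 := hi
      have hj' : (u : ZMod n) * j = 0 := hj
      rw [DihedralGroup.sr_mul_r, idx_sr, mul_add, hi', hj', add_zero]
    · show (u : ZMod n) * idx (DihedralGroup.sr i * DihedralGroup.sr j) = 0
      have hi' : (u : ZMod n) * i = 0 := hi
      have hj' : (u : ZMod n) * j = 0 := hj
      rw [DihedralGroup.sr_mul_sr, idx_r, mul_sub, hi', hj', sub_zero]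
  one_mem' := by
    show (u : ZMod n) * idx (1 : DihedralGroup n) = 0
    rw [DihedralGroup.one_def, idx_r, mul_zero]
  inv_mem' := by
    rintro (i | i) hi
    · show (u : ZMod n) * idx (DihedralGroup.r (-i)) = 0
      have hi' : (u : ZMod n) * i = 0 := hi
      rw [idx_r, mul_neg, hi', neg_zero]
    · exact hi

theorem mem_subK {n u : ℕ} (x : DihedralGroup n) :
    x ∈ subK n u ↔ (u : ZMod n) * idx x = 0 := Iff.rfl


/-- Say that a group has self-centralizing non-cyclic subgroups when every non-cyclic subgroup H satisfies C_G(H) ≤ H. For n ≥ 3, the dihedral group of order 2n has self-centralizing non-cyclic subgroups if and only if n is odd or a power of 2. -/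
theorem result (n : ℕ) (hn : 3 ≤ n) : (∀ H : Subgroup (DihedralGroup n), ¬ IsCyclic ↥H → Subgroup.centralizer (H : Set (DihedralGroup n)) ≤ H) ↔ (Odd n ∨ ∃ k : ℕ, n = 2 ^ k) := by
  haveI : NeZero n := ⟨by omega⟩
  constructor
  · intro hall
    by_contra hcon
    push_neg at hcon
    obtain ⟨hodd, hpow⟩ := hcon
    obtain ⟨a, u, hu, hnu⟩ := Nat.exists_eq_two_pow_mul_odd (n := n) (by omega)
    have ha : a ≠ 0 := by
      rintro rfl
      apply hodd
      rw [hnu, pow_zero, one_mul]
      exact hu
    have hu1 : u ≠ 1 := by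
      rintro rfl
      exact hpow a (by rw [hnu, mul_one])
    obtain ⟨a', rfl⟩ := Nat.exists_eq_succ_of_ne_zero ha
    have hu3 : 3 ≤ u := by
      obtain ⟨w, rfl⟩ := hu
      omega
    obtain ⟨h, hh⟩ : ∃ h : ℕ, h = 2 ^ a' * u := ⟨_, rfl⟩
    have hn2 : n = h + h := by
      rw [hnu, hh, pow_succ]
      ring
    have hhpos : 0 < h := by
      rw [hh]
      have : 0 < u := by omega
      positivity
    have hr_mem : DihedralGroup.r ((2 ^ (a' + 1) : ℕ) : ZMod n) ∈ subK n u := by
      rw [mem_subK, idx_r, ← Nat.cast_mul, ZMod.natCast_eq_zero_iff, hnu, mul_comm]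
    have hsr_mem : DihedralGroup.sr (0 : ZMod n) ∈ subK n u := by
      rw [mem_subK, idx_sr, mul_zero]
    have hnc : ¬ IsCyclic ↥(subK n u) := by
      intro hc
      have hcomm := (isMulCommutative_iff.mp (inferInstance : IsMulCommutative ↥(subK n u)))
        ⟨_, hsr_mem⟩ ⟨_, hr_mem⟩
      have h1 : DihedralGroup.sr (0 : ZMod n) * DihedralGroup.r ((2 ^ (a' + 1) : ℕ) : ZMod n) =
          DihedralGroup.r ((2 ^ (a' + 1) : ℕ) : ZMod n) * DihedralGroup.sr 0 :=
        congrArg Subtype.val hcomm
      rw [DihedralGroup.sr_mul_r, DihedralGroup.r_mul_sr] at h1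
      have h2 : (0 : ZMod n) + ((2 ^ (a' + 1) : ℕ) : ZMod n) = 0 - ((2 ^ (a' + 1) : ℕ) : ZMod n) :=
        DihedralGroup.sr.inj h1
      have h3 : ((2 ^ (a' + 1) + 2 ^ (a' + 1) : ℕ) : ZMod n) = 0 := by
        rw [Nat.cast_add]
        linear_combination h2
      have h4 : n ∣ 2 ^ (a' + 1) + 2 ^ (a' + 1) := (ZMod.natCast_eq_zero_iff _ _).mp h3
      rw [hnu, ← mul_two] at h4
      have h5 : u ∣ 2 := Nat.dvd_of_mul_dvd_mul_left (by positivity) h4
      have h6 := Nat.le_of_dvd (by norm_num) h5
      omega
    have hz := hall (subK n u) hnc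
    have hzc : DihedralGroup.r ((h : ℕ) : ZMod n) ∈
        Subgroup.centralizer ((subK n u : Subgroup (DihedralGroup n)) : Set (DihedralGroup n)) := by
      rw [Subgroup.mem_centralizer_iff]
      have hh0 : ((h : ℕ) : ZMod n) + ((h : ℕ) : ZMod n) = 0 := by
        rw [← Nat.cast_add, ← hn2]
        exact ZMod.natCast_self n
      rintro (k | k) -
      · rw [DihedralGroup.r_mul_r, DihedralGroup.r_mul_r, add_comm]
      · rw [DihedralGroup.sr_mul_r, DihedralGroup.r_mul_sr]
        congr 1
        linear_combination hh0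
    have hzH := hz hzc
    rw [mem_subK, idx_r, ← Nat.cast_mul, ZMod.natCast_eq_zero_iff] at hzH
    have hzH' : 2 * h ∣ u * h := by
      rw [two_mul, ← hn2]
      exact hzH
    have h6 : 2 ∣ u := Nat.dvd_of_mul_dvd_mul_right hhpos hzH'
    exact (Nat.not_even_iff_odd.mpr hu) (even_iff_two_dvd.mpr h6)
  · intro hcase H hH x hx
    have hrefl : ∃ i, DihedralGroup.sr i ∈ H := by
      by_contra hno
      push_neg at hno
      apply hH
      apply isCyclic_of_le' (K := Subgroup.zpowers (DihedralGroup.r (1 : ZMod n))) _ inferInstance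
      rintro (k | k) hk
      · rw [Subgroup.mem_zpowers_iff]
        refine ⟨(k.val : ℤ), ?_⟩
        rw [zpow_natCast, DihedralGroup.r_one_pow, ZMod.natCast_zmod_val]
      · exact absurd hk (hno k)
    obtain ⟨i, hi⟩ := hrefl
    have hrot : ∃ j, j ≠ 0 ∧ DihedralGroup.r j ∈ H := by
      by_contra hno
      push_neg at hno
      apply hH
      apply isCyclic_of_le' (K := Subgroup.zpowers (DihedralGroup.sr i)) _ inferInstance
      rintro (k | k) hk
      · have hk0 : k = 0 := by
          by_contra h
          exact hno k h hk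
        rw [hk0, ← DihedralGroup.one_def]
        exact Subgroup.one_mem _
      · have h1 : DihedralGroup.r (k - i) ∈ H := by
          have h0 := H.mul_mem hi hk
          rwa [DihedralGroup.sr_mul_sr] at h0
        have h2 : k - i = 0 := by
          by_contra h
          exact hno _ h h1
        have h3 : k = i := sub_eq_zero.mp h2
        rw [h3]
        exact Subgroup.mem_zpowers _
    obtain ⟨j, hj0, hj⟩ := hrot
    have hc := Subgroup.mem_centralizer_iff.mp hx
    have hci := hc _ hi
    have hcj := hc _ hj
    rcases hcase with hodd | ⟨k, hk⟩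
    · rcases x with m | m
      · rw [DihedralGroup.sr_mul_r, DihedralGroup.r_mul_sr] at hci
        have h1 : i + m = i - m := DihedralGroup.sr.inj hci
        have h2 : m + m = 0 := by linear_combination h1
        have h3 := dbl_odd n hodd m h2
        rw [h3, ← DihedralGroup.one_def]
        exact H.one_mem
      · rw [DihedralGroup.r_mul_sr, DihedralGroup.sr_mul_r] at hcj
        have h1 : m - j = m + j := DihedralGroup.sr.inj hcj
        have h2 : j + j = 0 := by linear_combination -h1
        exact absurd (dbl_odd n hodd j h2) hj0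
    · obtain ⟨a, rfl⟩ : ∃ a, k = a + 1 := ⟨k - 1, by
        have hk0 : k ≠ 0 := by
          rintro rfl
          rw [pow_zero] at hk
          omega
        omega⟩
      have hinv : DihedralGroup.r (((2 ^ a : ℕ) : ZMod n)) ∈ H := by
        have hZ : (Subgroup.zpowers (DihedralGroup.r j)) ≤ H := Subgroup.zpowers_le.mpr hj
        have hcard : 2 ∣ Nat.card (Subgroup.zpowers (DihedralGroup.r j)) := by
          have h1 : Nat.card (Subgroup.zpowers (DihedralGroup.r j)) ∣ 2 ^ (a + 2) := by
            have h0 := Subgroup.card_subgroup_dvd_card (Subgroup.zpowers (DihedralGroup.r j))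
            have e : 2 * n = 2 ^ (a + 2) := by
              rw [hk]
              ring
            rwa [DihedralGroup.nat_card, e] at h0
          obtain ⟨c, hc, hc2⟩ := (Nat.dvd_prime_pow Nat.prime_two).mp h1
          have hc0 : c ≠ 0 := by
            rintro rfl
            rw [pow_zero] at hc2
            have h5 : DihedralGroup.r j = 1 :=
              Subgroup.zpowers_eq_bot.mp (Subgroup.eq_bot_of_card_eq _ hc2)
            rw [DihedralGroup.one_def] at h5
            exact hj0 (DihedralGroup.r.inj h5)
          rw [hc2]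
          exact dvd_pow_self 2 hc0
        haveI : Fact (Nat.Prime 2) := ⟨Nat.prime_two⟩
        obtain ⟨y, hy⟩ := exists_prime_orderOf_dvd_card' 2 hcard
        obtain ⟨m, hm⟩ := (Submonoid.mem_powers_iff _ _).mp (mem_powers_iff_mem_zpowers.mpr y.2)
        have hpow : ∀ m : ℕ, (DihedralGroup.r j) ^ m = DihedralGroup.r ((m : ZMod n) * j) := by
          intro m
          induction m with
          | zero => rw [pow_zero, Nat.cast_zero, zero_mul, DihedralGroup.one_def]
          | succ m ih =>
            rw [pow_succ, ih, DihedralGroup.r_mul_r]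
            congr 1
            push_cast
            ring
        have hy2 : (y : DihedralGroup n) = DihedralGroup.r ((m : ZMod n) * j) := by
          rw [← hm, hpow]
        have hyo : orderOf (y : DihedralGroup n) = 2 := by
          rw [Subgroup.orderOf_coe]
          exact hy
        have hy1 : (m : ZMod n) * j ≠ 0 := by
          intro h
          rw [hy2, h, ← DihedralGroup.one_def, orderOf_one] at hyo
          omega
        have hysq : ((m : ZMod n) * j) + ((m : ZMod n) * j) = 0 := by
          have h1 : (y : DihedralGroup n) ^ 2 = 1 := by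
            have h0 := pow_orderOf_eq_one (y : DihedralGroup n)
            rwa [hyo] at h0
          rw [hy2, sq, DihedralGroup.r_mul_r, DihedralGroup.one_def] at h1
          exact DihedralGroup.r.inj h1
        rcases dbl_two_pow n a hk _ hysq with h | h
        · exact absurd h hy1
        · rw [← h, ← hy2]
          exact hZ y.2
      rcases x with m | m
      · rw [DihedralGroup.sr_mul_r, DihedralGroup.r_mul_sr] at hci
        have h1 : i + m = i - m := DihedralGroup.sr.inj hci
        have h2 : m + m = 0 := by linear_combination h1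
        rcases dbl_two_pow n a hk m h2 with h | h
        · rw [h, ← DihedralGroup.one_def]
          exact H.one_mem
        · rw [h]
          exact hinv
      · rw [DihedralGroup.sr_mul_sr, DihedralGroup.sr_mul_sr] at hci
        have h1 : m - i = i - m := DihedralGroup.r.inj hci
        have h2 : (m - i) + (m - i) = 0 := by linear_combination h1
        rcases dbl_two_pow n a hk (m - i) h2 with h | h
        · rw [sub_eq_zero.mp h]
          exact hi
        · have e : DihedralGroup.sr m = DihedralGroup.sr i * DihedralGroup.r (m - i) := by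
            rw [DihedralGroup.sr_mul_r]
            congr 1
            ring
          rw [e, h]
          exact H.mul_mem hi hinv

end Cfsg.Agent.S3920
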