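import Cfsg.Statements.S3927
import Mathlib
import Cfsg.Agent.S3947

set_option autoImplicit false
open Cfsg

namespace Cfsg.Agent.S3927

open scoped Pointwise
open Cfsg.Agent.Lib.Helper24

universe u

theorem coe_iter {Γ : Type*} [Group Γ] (H : Subgroup Γ) (a : Γ) (ha : a ∈ H) :
    ∀ (k : ℕ) (c : H), (((fun c : H => c * ⟨a, ha⟩ * c⁻¹ * (⟨a, ha⟩ : H)⁻¹)^[k] c : H) : Γ) =
      (fun c : Γ => c * a * c⁻¹ * a⁻¹)^[k] (c : Γ) := by
  intro k
  induction k with
  | zero => intro c; rfl
  | succ k ih =>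
    intro c
    rw [Function.iterate_succ_apply, Function.iterate_succ_apply, ih]
    rfl

theorem gen_aux : ∀ (n : ℕ) (Γ : Type u) [Group Γ] [Finite Γ] (a : Γ), Nat.card Γ = n →
    Subgroup.normalClosure ({a} : Set Γ) = ⊤ → ∀ k : ℕ,
    Subgroup.closure (Set.range ((fun c : Γ => c * a * c⁻¹ * a⁻¹)^[k])) ⊔
      Subgroup.zpowers a = ⊤ := by
  intro n
  induction n using Nat.strong_induction_on with
  | _ n ih =>
  intro Γ _ _ a hn hnc k
  obtain ⟨Zk, hZk⟩ : ∃ Zk : Subgroup Γ, Zk = Subgroup.closure (Set.range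
      ((fun c : Γ => c * a * c⁻¹ * a⁻¹)^[k])) ⊔ Subgroup.zpowers a := ⟨_, rfl⟩
  rw [← hZk]
  have hXZ : ∀ c : Γ, (fun c : Γ => c * a * c⁻¹ * a⁻¹)^[k] c ∈ Zk := by
    intro c
    rw [hZk]
    exact (le_sup_left : _ ≤ Subgroup.closure (Set.range
          ((fun c : Γ => c * a * c⁻¹ * a⁻¹)^[k])) ⊔ Subgroup.zpowers a)
          (Subgroup.subset_closure ⟨c, rfl⟩)
  have haZ : a ∈ Zk := by
    rw [hZk]
    exact (le_sup_right : _ ≤ Subgroup.closure (Set.range
          ((fun c : Γ => c * a * c⁻¹ * a⁻¹)^[k])) ⊔ Subgroup.zpowers a)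
          (Subgroup.mem_zpowers a)
  have hAZ : Subgroup.zpowers a ≤ Zk := (Subgroup.zpowers_le).mpr haZ
  by_contra hZ
  have hA_ne : Subgroup.zpowers a ≠ ⊤ := fun h => hZ (top_le_iff.mp (h ▸ hAZ))
  have hAnc : Subgroup.normalClosure ((Subgroup.zpowers a : Subgroup Γ) : Set Γ) = ⊤ := by
    apply top_le_iff.mp
    rw [← hnc]
    apply Subgroup.normalClosure_mono
    intro x hx
    rw [Set.mem_singleton_iff] at hx
    rw [hx]
    exact Subgroup.mem_zpowers a
  rcases Cfsg.Agent.S3947.result (Subgroup.zpowers a) hAnc hA_ne with h | h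
  · apply hZ
    apply top_le_iff.mp
    rw [← h]
    apply sSup_le
    rintro H ⟨hAH, hH, hHn⟩
    have haH : a ∈ H := hAH (Subgroup.mem_zpowers a)
    have hcard : Nat.card H < n := by
      rw [← hn, ← Subgroup.card_top (G := Γ)]
      exact card_lt_card_of_lt' (lt_top_iff_ne_top.mpr hH)
    have hnc' : Subgroup.normalClosure ({⟨a, haH⟩} : Set H) = ⊤ := by
      apply top_le_iff.mp
      rw [← hHn]
      apply Subgroup.normalClosure_le_normal
      intro y hy
      obtain ⟨i, hi⟩ := Subgroup.mem_zpowers_iff.mp (Subgroup.mem_subgroupOf.mp hy)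
      have hyi : y = (⟨a, haH⟩ : H) ^ i := Subtype.ext (by rw [Subgroup.coe_zpow]; exact hi.symm)
      rw [hyi]
      exact Subgroup.zpow_mem _ (Subgroup.subset_normalClosure (Set.mem_singleton _)) i
    have hih := ih (Nat.card H) hcard H ⟨a, haH⟩ rfl hnc' k
    have key : Subgroup.closure (Set.range
        ((fun c : H => c * ⟨a, haH⟩ * c⁻¹ * (⟨a, haH⟩ : H)⁻¹)^[k])) ⊔
        Subgroup.zpowers (⟨a, haH⟩ : H) ≤ Zk.comap H.subtype := by
      apply sup_le
      · rw [Subgroup.closure_le]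
        rintro _ ⟨c, rfl⟩
        show (((fun c : H => c * ⟨a, haH⟩ * c⁻¹ * (⟨a, haH⟩ : H)⁻¹)^[k] c : H) : Γ) ∈ Zk
        rw [coe_iter H a haH k c]
        exact hXZ _
      · rw [Subgroup.zpowers_le]
        exact haZ
    intro y hy
    have hy' : (⟨y, hy⟩ : H) ∈ (⊤ : Subgroup H) := Subgroup.mem_top _
    rw [← hih] at hy'
    exact key hy'
  · obtain ⟨M, ⟨hM, hAM⟩, huniq⟩ := h
    have haM : a ∈ M := hAM (Subgroup.mem_zpowers a)
    obtain ⟨M', hM', hZM'⟩ := (eq_top_or_exists_le_coatom _).resolve_left hZ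
    have hM'M : M' = M := huniq M' ⟨hM', hAZ.trans hZM'⟩
    rw [hM'M] at hZM'
    have hNM : Subgroup.normalizer (M : Set Γ) = M :=
      Cfsg.Agent.S3947.normalizer_coatom hM hAM hAnc
    have hstep : ∀ g : Γ, g ∉ M → g * a * g⁻¹ * a⁻¹ ∉ M := by
      intro g hg hfg
      have h1 : g * a * g⁻¹ ∈ M := by
        have h0 := M.mul_mem hfg haM
        rwa [inv_mul_cancel_right] at h0
      have h2 : a ∈ MulAut.conj g⁻¹ • M := by
        rw [mem_conj_smul, inv_inv]
        exact h1
      have h3 : MulAut.conj g⁻¹ • M = M :=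
        huniq _ ⟨Cfsg.Agent.S3947.isCoatom_conj g⁻¹ hM, (Subgroup.zpowers_le).mpr h2⟩
      have h4 : g⁻¹ ∈ Subgroup.normalizer (M : Set Γ) := mem_normalizer_of_conj_smul_le h3.le
      rw [hNM] at h4
      apply hg
      have h5 := M.inv_mem h4
      rwa [inv_inv] at h5
    have hiter : ∀ j : ℕ, ∀ g : Γ, g ∉ M → (fun c : Γ => c * a * c⁻¹ * a⁻¹)^[j] g ∉ M := by
      intro j
      induction j with
      | zero => intro g hg; exact hg
      | succ j ihj =>
        intro g hg
        rw [Function.iterate_succ_apply]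
        exact ihj _ (hstep g hg)
    obtain ⟨g, hg⟩ : ∃ g : Γ, g ∉ M := by
      by_contra hno
      push_neg at hno
      exact hM.1 (top_le_iff.mp (fun x _ => hno x))
    exact hiter k g hg (hZM' (hXZ g))

theorem semi {G Z : Type u} [Group G] [Finite G] [Group Z] [Finite Z] (φ : Z →* MulAut G) (a0 : Z)
    (hcyc : ∀ z : Z, ∃ n : ℕ, a0 ^ n = z)
    (hG : Subgroup.closure (Set.range (fun c : G => c * (φ a0 c)⁻¹)) = ⊤) (j : ℕ) :
    Subgroup.closure (Set.range ((fun c : G => c * (φ a0 c)⁻¹)^[j + 1])) = ⊤ := by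
  obtain ⟨X, hX⟩ : ∃ X : Subgroup G, X =
      Subgroup.closure (Set.range ((fun c : G => c * (φ a0 c)⁻¹)^[j + 1])) := ⟨_, rfl⟩
  rw [← hX]
  have hcomm : ∀ c : G, φ a0 ((fun c : G => c * (φ a0 c)⁻¹)^[j + 1] c) =
      (fun c : G => c * (φ a0 c)⁻¹)^[j + 1] (φ a0 c) := by
    intro c
    have h1 : Function.Commute (φ a0 : G → G) (fun c : G => c * (φ a0 c)⁻¹) := by
      intro x
      show φ a0 (x * (φ a0 x)⁻¹) = φ a0 x * (φ a0 (φ a0 x))⁻¹
      rw [map_mul, map_inv]
    exact (h1.iterate_right (j + 1)) c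
  have hαX : ∀ g ∈ X, φ a0 g ∈ X := by
    intro g hg
    rw [hX] at hg ⊢
    induction hg using Subgroup.closure_induction with
    | mem x hx =>
      obtain ⟨c, rfl⟩ := hx
      rw [hcomm c]
      exact Subgroup.subset_closure ⟨_, rfl⟩
    | one => rw [map_one]; exact Subgroup.one_mem _
    | mul x y _ _ hx hy => rw [map_mul]; exact Subgroup.mul_mem _ hx hy
    | inv x _ hx => rw [map_inv]; exact Subgroup.inv_mem _ hx
  have hpow : ∀ n : ℕ, ∀ g ∈ X, (φ a0 ^ n) g ∈ X := by
    intro n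
    induction n with
    | zero => intro g hg; rw [pow_zero]; exact hg
    | succ n ihn =>
      intro g hg
      rw [pow_succ, MulAut.mul_apply]
      exact ihn _ (hαX g hg)
  have hZX : ∀ z : Z, ∀ g ∈ X, φ z g ∈ X := by
    intro z g hg
    obtain ⟨n, rfl⟩ := hcyc z
    rw [map_pow]
    exact hpow n g hg
  have hZc : ∀ z : Z, z * a0 * z⁻¹ = a0 := by
    intro z
    obtain ⟨n, rfl⟩ := hcyc z
    rw [(Commute.pow_self a0 n).eq, mul_inv_cancel_right]
  haveI : Finite (G ⋊[φ] Z) := Finite.of_equiv _ SemidirectProduct.equivProd.symm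
  have hF : ∀ x : G ⋊[φ] Z, x * SemidirectProduct.inr a0 * x⁻¹ * (SemidirectProduct.inr a0)⁻¹ =
      SemidirectProduct.inl (x.left * (φ a0 x.left)⁻¹) := by
    intro x
    ext
    · simp only [SemidirectProduct.mul_left, SemidirectProduct.mul_right,
        SemidirectProduct.inv_left, SemidirectProduct.inv_right, SemidirectProduct.left_inl,
        SemidirectProduct.left_inr, SemidirectProduct.right_inr, map_one, mul_one, inv_one]
      rw [← MulAut.mul_apply, ← map_mul, hZc, map_inv]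
    · simp only [SemidirectProduct.mul_right, SemidirectProduct.inv_right,
        SemidirectProduct.right_inl, SemidirectProduct.right_inr]
      rw [hZc, mul_inv_cancel]
  have hFk : ∀ i : ℕ, ∀ x : G ⋊[φ] Z,
      (fun c : G ⋊[φ] Z => c * SemidirectProduct.inr a0 * c⁻¹ *
        (SemidirectProduct.inr a0)⁻¹)^[i + 1] x =
      SemidirectProduct.inl ((fun c : G => c * (φ a0 c)⁻¹)^[i + 1] x.left) := by
    intro i
    induction i with
    | zero =>
      intro x
      exact hF x
    | succ i ihi =>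
      intro x
      rw [Function.iterate_succ_apply, ihi, Function.iterate_succ_apply (n := i + 1)]
      show SemidirectProduct.inl ((fun c : G => c * (φ a0 c)⁻¹)^[i + 1]
        (x * SemidirectProduct.inr a0 * x⁻¹ * (SemidirectProduct.inr a0)⁻¹).left) = _
      rw [hF x, SemidirectProduct.left_inl]
  have hnc : Subgroup.normalClosure ({SemidirectProduct.inr a0} : Set (G ⋊[φ] Z)) = ⊤ := by
    apply top_le_iff.mp
    intro x _
    obtain ⟨N, hN⟩ : ∃ N : Subgroup (G ⋊[φ] Z), N =
      Subgroup.normalClosure ({SemidirectProduct.inr a0} : Set (G ⋊[φ] Z)) := ⟨_, rfl⟩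
    rw [← hN]
    have hNn : N.Normal := by rw [hN]; exact Subgroup.normalClosure_normal
    have haN : SemidirectProduct.inr a0 ∈ N := by
      rw [hN]; exact Subgroup.subset_normalClosure (Set.mem_singleton _)
    have hinl : ∀ g : G, (SemidirectProduct.inl g : G ⋊[φ] Z) ∈ N := by
      have h1 : Subgroup.closure (Set.range (fun c : G => c * (φ a0 c)⁻¹)) ≤
          N.comap SemidirectProduct.inl := by
        rw [Subgroup.closure_le]
        rintro _ ⟨c, rfl⟩
        show (SemidirectProduct.inl (c * (φ a0 c)⁻¹) : G ⋊[φ] Z) ∈ N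
        have h2 := hF (SemidirectProduct.inl c)
        rw [SemidirectProduct.left_inl] at h2
        rw [← h2]
        exact N.mul_mem (hNn.conj_mem _ haN (SemidirectProduct.inl c)) (N.inv_mem haN)
      intro g
      have h3 : g ∈ (⊤ : Subgroup G) := Subgroup.mem_top g
      rw [← hG] at h3
      exact h1 h3
    have hinr : ∀ z : Z, (SemidirectProduct.inr z : G ⋊[φ] Z) ∈ N := by
      intro z
      obtain ⟨n, rfl⟩ := hcyc z
      rw [map_pow]
      exact N.pow_mem haN n
    rw [← SemidirectProduct.inl_left_mul_inr_right x]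
    exact N.mul_mem (hinl _) (hinr _)
  have hgen := gen_aux _ (G ⋊[φ] Z) (SemidirectProduct.inr a0) rfl hnc (j + 1)
  obtain ⟨H', hH'⟩ : ∃ H' : Subgroup (G ⋊[φ] Z), ∀ x, x ∈ H' ↔ x.left ∈ X :=
    ⟨{ carrier := {x | x.left ∈ X}
       mul_mem' := by
         intro x y hx hy
         show (x * y).left ∈ X
         rw [SemidirectProduct.mul_left]
         exact X.mul_mem hx (hZX _ _ hy)
       one_mem' := X.one_mem
       inv_mem' := by
         intro x hx
         show (x⁻¹).left ∈ X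
         rw [SemidirectProduct.inv_left]
         exact hZX _ _ (X.inv_mem hx) }, fun x => Iff.rfl⟩
  have hle : Subgroup.closure (Set.range ((fun c : G ⋊[φ] Z => c * SemidirectProduct.inr a0 *
      c⁻¹ * (SemidirectProduct.inr a0)⁻¹)^[j + 1])) ⊔
      Subgroup.zpowers (SemidirectProduct.inr a0) ≤ H' := by
    apply sup_le
    · rw [Subgroup.closure_le]
      rintro _ ⟨x, rfl⟩
      rw [SetLike.mem_coe, hH', hFk j x, SemidirectProduct.left_inl, hX]
      exact Subgroup.subset_closure ⟨x.left, rfl⟩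
    · rw [Subgroup.zpowers_le, hH', SemidirectProduct.left_inr]
      exact X.one_mem
  rw [hgen] at hle
  apply top_le_iff.mp
  intro g _
  have h4 : (SemidirectProduct.inl g : G ⋊[φ] Z) ∈ H' := hle (Subgroup.mem_top _)
  rw [hH', SemidirectProduct.left_inl] at h4
  exact h4

/-- Let G be a finite group and α an automorphism of G with [G, α] = G, that is, the elements g·α(g)⁻¹ generate G. Then for every k ≥ 1 the iterated commutators [g, α, …, α] with k entries α — the values of the k-th iterate of the map c ↦ c·α(c)⁻¹ — also generate G. -/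
theorem result {G : Type*} [Group G] [Finite G] (α : MulAut G) (hG : Subgroup.closure (Set.range (fun c : G => c * (α c)⁻¹)) = ⊤) (k : ℕ) (hk : 1 ≤ k) :
    Subgroup.closure (Set.range ((fun c : G => c * (α c)⁻¹)^[k])) = ⊤ := by
  obtain ⟨j, rfl⟩ : ∃ j, k = j + 1 := ⟨k - 1, by omega⟩
  have hcyc : ∀ z : Subgroup.zpowers α,
      ∃ n : ℕ, (⟨α, Subgroup.mem_zpowers α⟩ : Subgroup.zpowers α) ^ n = z := by
    intro z
    have hz := z.2
    rw [← mem_powers_iff_mem_zpowers] at hz
    obtain ⟨n, hn⟩ := (Submonoid.mem_powers_iff _ _).mp hz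
    exact ⟨n, Subtype.ext (by rw [Subgroup.coe_pow]; exact hn)⟩
  exact semi (Subgroup.zpowers α).subtype ⟨α, Subgroup.mem_zpowers α⟩ hcyc hG j

end Cfsg.Agent.S3927
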