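import Cfsg.Statements.S3937
import Mathlib
import Cfsg.Agent.Lib.Helper21.Nilp

set_option autoImplicit false
open Cfsg

namespace Cfsg.Agent.S3937


universe u

/-- iterated commutator `[x, g, ..., g]` -/
def eng {G : Type*} [Group G] (g : G) (n : ℕ) (x : G) : G :=
  (List.replicate n g).foldl (fun a b => a * b * a⁻¹ * b⁻¹) x

theorem eng_zero {G : Type*} [Group G] (g x : G) : eng g 0 x = x := rfl

theorem eng_succ {G : Type*} [Group G] (g x : G) (n : ℕ) :
    eng g (n + 1) x = eng g n (x * g * x⁻¹ * g⁻¹) := by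
  unfold eng
  rw [List.replicate_succ, List.foldl_cons]

theorem eng_succ' {G : Type*} [Group G] (g x : G) (n : ℕ) :
    eng g (n + 1) x = eng g n x * g * (eng g n x)⁻¹ * g⁻¹ := by
  unfold eng
  rw [List.replicate_succ', List.foldl_append]
  rfl

theorem eng_one {G : Type*} [Group G] (g : G) (n : ℕ) : eng g n 1 = 1 := by
  induction n with
  | zero => rfl
  | succ n ih => rw [eng_succ']; rw [ih]; group

theorem eng_map {G H : Type*} [Group G] [Group H] (f : G →* H) (g x : G) (n : ℕ) :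
    f (eng g n x) = eng (f g) n (f x) := by
  induction n with
  | zero => rfl
  | succ n ih => rw [eng_succ', eng_succ', ← ih]; simp

theorem eng_eq_one_of_le {G : Type*} [Group G] (g x : G) {m n : ℕ} (hmn : m ≤ n)
    (h : eng g m x = 1) : eng g n x = 1 := by
  induction n, hmn using Nat.le_induction with
  | base => exact h
  | succ n _ ih => rw [eng_succ', ih]; group

/-- the last nontrivial term of an Engel chain commutes with `g` -/
theorem exists_last {G : Type*} [Group G] (g x : G) (hx : x ≠ 1) (h : ∃ n, eng g n x = 1) :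
    ∃ m, eng g m x ≠ 1 ∧ eng g (m + 1) x = 1 := by
  classical
  have h0 : Nat.find h ≠ 0 := by
    intro h0
    have := Nat.find_spec h
    rw [h0] at this
    exact hx this
  obtain ⟨m, hm⟩ := Nat.exists_eq_succ_of_ne_zero h0
  refine ⟨m, ?_, ?_⟩
  · exact Nat.find_min h (by omega)
  · have := Nat.find_spec h
    rw [hm] at this
    exact this

theorem nilp_aux (n : ℕ) : ∀ (G : Type u) [Group G] [Finite G], Nat.card G ≤ n →
    ∀ (U : Subgroup G) [U.Normal] (y : G), Group.IsNilpotent U →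
      (∀ x ∈ U, ∃ k, eng y k x = 1) → U ⊔ Subgroup.zpowers y = ⊤ → Group.IsNilpotent G := by
  induction n with
  | zero =>
    intro G _ _ hcard
    have : 0 < Nat.card G := Nat.card_pos
    omega
  | succ n ih =>
    intro G _ _ hcard U hUn y hUnil heng hsup
    by_cases hU : U = ⊥
    · rw [hU, bot_sup_eq] at hsup
      refine ⟨⟨1, ?_⟩⟩
      rw [Subgroup.upperCentralSeries_one, eq_top_iff]
      intro g _
      rw [Subgroup.mem_center_iff]
      intro h
      have hg : g ∈ Subgroup.zpowers y := hsup ▸ Subgroup.mem_top g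
      have hh : h ∈ Subgroup.zpowers y := hsup ▸ Subgroup.mem_top h
      obtain ⟨i, rfl⟩ := Subgroup.mem_zpowers_iff.1 hg
      obtain ⟨j, rfl⟩ := Subgroup.mem_zpowers_iff.1 hh
      exact (Commute.zpow_zpow_self y j i).eq
    · haveI : Nontrivial U := (Subgroup.nontrivial_iff_ne_bot U).2 hU
      haveI := hUnil
      have hc := Group.IsNilpotent.center_ne_bot (↥U)
      obtain ⟨z, hz1⟩ := (Subgroup.ne_bot_iff_exists_ne_one).1 hc
      have hA0 : ((z : U) : G) ∈ U ∧ ∀ u ∈ U, u * ((z : U) : G) = ((z : U) : G) * u := by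
        refine ⟨(z : U).2, fun u hu => ?_⟩
        have := Subgroup.mem_center_iff.1 z.2 ⟨u, hu⟩
        exact congrArg Subtype.val this
      have hz1' : ((z : U) : G) ≠ 1 := by
        intro h; apply hz1; exact Subtype.ext (Subtype.ext h)
      have hstep : ∀ x : G, (x ∈ U ∧ ∀ u ∈ U, u * x = x * u) →
          (x * y * x⁻¹ * y⁻¹ ∈ U ∧
            ∀ u ∈ U, u * (x * y * x⁻¹ * y⁻¹) = (x * y * x⁻¹ * y⁻¹) * u) := by
        rintro x ⟨hxU, hxc⟩
        have h1 : y * x⁻¹ * y⁻¹ ∈ U := hUn.conj_mem _ (U.inv_mem hxU) y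
        refine ⟨?_, ?_⟩
        · have : x * y * x⁻¹ * y⁻¹ = x * (y * x⁻¹ * y⁻¹) := by group
          rw [this]; exact U.mul_mem hxU h1
        · intro u hu
          have h2 : y⁻¹ * u * y ∈ U := by
            have := hUn.conj_mem u hu y⁻¹
            simpa using this
          have h3 := hxc u hu
          have h4 := hxc _ h2
          have h5 : y⁻¹ * u * y * x⁻¹ = x⁻¹ * (y⁻¹ * u * y) := by
            have h6 : x⁻¹ * (y⁻¹ * u * y * x) * x⁻¹ = x⁻¹ * (x * (y⁻¹ * u * y)) * x⁻¹ := by rw [h4]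
            have h7 : x⁻¹ * (y⁻¹ * u * y * x) * x⁻¹ = x⁻¹ * (y⁻¹ * u * y) := by group
            have h8 : x⁻¹ * (x * (y⁻¹ * u * y)) * x⁻¹ = y⁻¹ * u * y * x⁻¹ := by group
            rw [← h8, ← h6, h7]
          calc u * (x * y * x⁻¹ * y⁻¹) = x * u * y * x⁻¹ * y⁻¹ := by
                rw [← mul_assoc, ← mul_assoc, ← mul_assoc, h3]
            _ = x * y * (y⁻¹ * u * y * x⁻¹) * y⁻¹ := by group
            _ = x * y * (x⁻¹ * (y⁻¹ * u * y)) * y⁻¹ := by rw [h5]
            _ = x * y * x⁻¹ * y⁻¹ * u := by group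
      have hchain : ∀ k, (eng y k ((z : U) : G) ∈ U ∧
          ∀ u ∈ U, u * eng y k ((z : U) : G) = eng y k ((z : U) : G) * u) := by
        intro k
        induction k with
        | zero => exact hA0
        | succ k ihk => rw [eng_succ']; exact hstep _ ihk
      obtain ⟨m, hm1, hm2⟩ := exists_last y _ hz1' (heng _ hA0.1)
      obtain ⟨x, hxdef⟩ : ∃ x, x = eng y m ((z : U) : G) := ⟨_, rfl⟩
      rw [← hxdef] at hm1
      rw [eng_succ', ← hxdef] at hm2
      obtain ⟨hxU, hxc⟩ := hchain m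
      rw [← hxdef] at hxU hxc
      have hxy : x * y = y * x := by
        have : x * y * x⁻¹ * y⁻¹ * y * x = y * x := by rw [hm2, one_mul]
        rw [← this]; group
      have hxcen : x ∈ Subgroup.center G := by
        rw [Subgroup.mem_center_iff]
        intro g
        have hg : g ∈ U ⊔ Subgroup.zpowers y := hsup ▸ Subgroup.mem_top g
        have hle : U ⊔ Subgroup.zpowers y ≤ Subgroup.centralizer ({x} : Set G) := by
          refine sup_le ?_ ?_
          · intro u hu; rw [Subgroup.mem_centralizer_iff]; intro h hh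
            rw [Set.mem_singleton_iff.1 hh]; exact (hxc u hu).symm
          · rw [Subgroup.zpowers_le, Subgroup.mem_centralizer_iff]; intro h hh
            rw [Set.mem_singleton_iff.1 hh]; exact hxy
        have := hle hg
        rw [Subgroup.mem_centralizer_iff] at this
        exact (this x (Set.mem_singleton x)).symm
      obtain ⟨Z, hZdef⟩ : ∃ Z : Subgroup G, Z = Subgroup.zpowers x := ⟨_, rfl⟩
      have hZcen : Z ≤ Subgroup.center G := by rw [hZdef, Subgroup.zpowers_le]; exact hxcen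
      haveI hZn : Z.Normal := ⟨fun n hn g => by
        have := Subgroup.mem_center_iff.1 (hZcen hn) g
        rw [this, mul_inv_cancel_right]; exact hn⟩
      have hZcard : 1 < Nat.card Z := by
        rw [hZdef, Nat.card_zpowers]
        have := orderOf_pos x
        have h1 : orderOf x ≠ 1 := fun h => hm1 (orderOf_eq_one_iff.1 h)
        omega
      have hQcard : Nat.card (G ⧸ Z) ≤ n := by
        have := Subgroup.card_eq_card_quotient_mul_card_subgroup Z
        have hq : 0 < Nat.card (G ⧸ Z) := Nat.card_pos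
        nlinarith
      haveI : (U.map (QuotientGroup.mk' Z)).Normal :=
        Subgroup.Normal.map hUn _ (QuotientGroup.mk'_surjective Z)
      have hUbar : Group.IsNilpotent (U.map (QuotientGroup.mk' Z)) :=
        Group.nilpotent_of_surjective ((QuotientGroup.mk' Z).subgroupMap U)
          (MonoidHom.subgroupMap_surjective _ _)
      have hQ : Group.IsNilpotent (G ⧸ Z) := by
        apply ih (G ⧸ Z) hQcard (U.map (QuotientGroup.mk' Z)) (QuotientGroup.mk' Z y) hUbar
        · rintro _ ⟨x', hx', rfl⟩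
          obtain ⟨k, hk⟩ := heng x' hx'
          exact ⟨k, by rw [← eng_map, hk, map_one]⟩
        · rw [← MonoidHom.map_zpowers, ← Subgroup.map_sup, hsup]
          exact Subgroup.map_top_of_surjective _ (QuotientGroup.mk'_surjective Z)
      haveI := hQ
      exact Subgroup.isNilpotent_of_ker_le_center (QuotientGroup.mk' Z)
        (by rw [QuotientGroup.ker_mk']; exact hZcen)

theorem nilp_sup {G : Type u} [Group G] [Finite G] (U : Subgroup G) (y : G)
    (hU : Group.IsNilpotent U) (hy : y ∈ Subgroup.normalizer (U : Set G))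
    (heng : ∀ x : G, ∃ k, eng y k x = 1) :
    Group.IsNilpotent ↥(U ⊔ Subgroup.zpowers y) := by
  obtain ⟨K, hK⟩ : ∃ K : Subgroup G, K = U ⊔ Subgroup.zpowers y := ⟨_, rfl⟩
  rw [← hK]
  have hUK : U ≤ K := hK ▸ le_sup_left
  have hyK : y ∈ K := hK ▸ (le_sup_right : Subgroup.zpowers y ≤ _) (Subgroup.mem_zpowers y)
  have hKnorm : K ≤ Subgroup.normalizer (U : Set G) := by
    rw [hK]; exact sup_le Subgroup.le_normalizer (by rw [Subgroup.zpowers_le]; exact hy)
  haveI : (U.subgroupOf K).Normal :=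
    (Subgroup.normal_subgroupOf_iff_le_normalizer hUK).2 hKnorm
  haveI := hU
  apply nilp_aux (Nat.card K) K le_rfl (U.subgroupOf K) ⟨y, hyK⟩
  · exact Group.nilpotent_of_mulEquiv (Subgroup.subgroupOfEquivOfLe hUK).symm
  · rintro ⟨x, hxK⟩ hx
    obtain ⟨k, hk⟩ := heng x
    refine ⟨k, ?_⟩
    apply Subtype.ext
    have := eng_map K.subtype ⟨y, hyK⟩ ⟨x, hxK⟩ k
    simp only [Subgroup.coe_subtype] at this
    rw [this, hk]; rfl
  · rw [eq_top_iff]
    rintro ⟨g, hg⟩ -
    have hL : U ⊔ Subgroup.zpowers y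
        ≤ (U.subgroupOf K ⊔ Subgroup.zpowers (⟨y, hyK⟩ : K)).map K.subtype := by
      refine sup_le ?_ ?_
      · intro u hu
        exact ⟨⟨u, hUK hu⟩, (le_sup_left : U.subgroupOf K ≤ _) (Subgroup.mem_subgroupOf.2 hu), rfl⟩
      · rw [Subgroup.zpowers_le]
        exact ⟨⟨y, hyK⟩, (le_sup_right : Subgroup.zpowers _ ≤ _) (Subgroup.mem_zpowers _), rfl⟩
    obtain ⟨g', hg', hgg⟩ := hL (hK.le hg)
    have : g' = ⟨g, hg⟩ := Subtype.ext hgg
    rw [← this]; exact hg'

/-- nilpotent subgroups generated by elements of `S` -/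
def NS {G : Type u} [Group G] (S : Set G) (X : Subgroup G) : Prop :=
  Group.IsNilpotent X ∧ Subgroup.closure (S ∩ (X : Set G)) = X

theorem maximal_absorb {G : Type u} [Group G] [Finite G] (S : Set G)
    (hSeng : ∀ s ∈ S, ∀ x : G, ∃ k, eng s k x = 1)
    (U : Subgroup G) (hU : Maximal (NS S) U) (y : G) (hyS : y ∈ S)
    (hy : y ∈ Subgroup.normalizer (U : Set G)) : y ∈ U := by
  have hnil := nilp_sup U y hU.1.1 hy (hSeng y hyS)
  have hN : NS S (U ⊔ Subgroup.zpowers y) := by
    refine ⟨hnil, le_antisymm ?_ ?_⟩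
    · rw [Subgroup.closure_le]; exact Set.inter_subset_right
    · refine sup_le ?_ ?_
      · conv_lhs => rw [← hU.1.2]
        apply Subgroup.closure_mono
        intro s hs
        exact ⟨hs.1, (le_sup_left : U ≤ U ⊔ Subgroup.zpowers y) hs.2⟩
      · rw [Subgroup.zpowers_le]
        exact Subgroup.subset_closure
          ⟨hyS, (le_sup_right : Subgroup.zpowers y ≤ _) (Subgroup.mem_zpowers y)⟩
  have := hU.2 hN le_sup_left
  exact this ((le_sup_right : Subgroup.zpowers y ≤ _) (Subgroup.mem_zpowers y))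

theorem exists_normalizing {G : Type u} [Group G] [Finite G] (S : Set G)
    (hSconj : ∀ g s : G, s ∈ S → g * s * g⁻¹ ∈ S)
    (U I : Subgroup G) (hU : NS S U) (hIU : I ≤ U) (hne : I ≠ U)
    (hI : Subgroup.closure (S ∩ (I : Set G)) = I) :
    ∃ u ∈ S, u ∈ U ∧ u ∉ I ∧ u ∈ Subgroup.normalizer (I : Set G) := by
  obtain ⟨H, hIH, hHmax⟩ := (Set.toFinite
    {H : Subgroup G | I ≤ H ∧ H ≤ U ∧ S ∩ (H : Set G) ⊆ I}).exists_le_maximal
    (a := I) ⟨le_rfl, hIU, Set.inter_subset_right⟩
  obtain ⟨⟨-, hHU, hHS⟩, hHm⟩ := hHmax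
  have hHne : H ≠ U := by
    rintro rfl
    apply hne
    apply le_antisymm hIU
    rw [← hU.2, Subgroup.closure_le]; exact hHS
  haveI := hU.1
  have hnc := Group.normalizerCondition_of_isNilpotent (G := U) (H.subgroupOf U) (by
    rw [lt_top_iff_ne_top]; intro h
    exact hHne (le_antisymm hHU (Subgroup.subgroupOf_eq_top.1 h)))
  obtain ⟨x, hxn, hxH⟩ := SetLike.exists_of_lt hnc
  have hxnorm : (x : G) ∈ Subgroup.normalizer (H : Set G) := by
    apply Subgroup.mem_normalizer_fintype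
    intro h hh
    have := (Subgroup.mem_normalizer_iff.1 hxn ⟨h, hHU hh⟩).1 (Subgroup.mem_subgroupOf.2 hh)
    exact Subgroup.mem_subgroupOf.1 this
  have hxH' : (x : G) ∉ H := fun h => hxH (Subgroup.mem_subgroupOf.2 h)
  have hlt : H < H ⊔ Subgroup.zpowers (x : G) := by
    refine lt_of_le_of_ne le_sup_left ?_
    intro heq
    exact hxH' (heq ▸ (le_sup_right : Subgroup.zpowers (x : G) ≤ _) (Subgroup.mem_zpowers _))
  have hsupU : H ⊔ Subgroup.zpowers (x : G) ≤ U :=
    sup_le hHU (by rw [Subgroup.zpowers_le]; exact x.2)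
  have hsub : ¬ (S ∩ ((H ⊔ Subgroup.zpowers (x : G) : Subgroup G) : Set G) ⊆ I) := by
    intro h
    exact absurd (hHm ⟨hIH.trans le_sup_left, hsupU, h⟩ hlt.le) (not_le_of_gt hlt)
  obtain ⟨u, ⟨huS, huH'⟩, huI⟩ := Set.not_subset.1 hsub
  have hunorm : u ∈ Subgroup.normalizer (H : Set G) :=
    (sup_le Subgroup.le_normalizer (by rw [Subgroup.zpowers_le]; exact hxnorm)) huH'
  refine ⟨u, huS, hsupU huH', huI, ?_⟩
  apply Subgroup.mem_normalizer_fintype
  intro g hg
  have hle : Subgroup.closure (S ∩ (I : Set G)) ≤ I.comap (MulAut.conj u).toMonoidHom := by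
    rw [Subgroup.closure_le]
    intro s hs
    rw [SetLike.mem_coe, Subgroup.mem_comap]
    apply hHS
    refine ⟨hSconj u s hs.1, ?_⟩
    exact (Subgroup.mem_normalizer_iff.1 hunorm s).1 (hIH hs.2)
  rw [SetLike.mem_coe, ← hI] at hg
  have := hle hg
  rw [Subgroup.mem_comap] at this
  exact this

theorem NS_conj {G : Type u} [Group G] [Finite G] (S : Set G)
    (hSconj : ∀ g s : G, s ∈ S → g * s * g⁻¹ ∈ S) (X : Subgroup G) (hX : NS S X) (g : G) :
    NS S (X.map (MulAut.conj g).toMonoidHom) := by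
  refine ⟨?_, ?_⟩
  · haveI := hX.1
    exact Group.nilpotent_of_mulEquiv (X.equivMapOfInjective _ (MulAut.conj g).injective)
  · apply le_antisymm
    · rw [Subgroup.closure_le]; exact Set.inter_subset_right
    · conv_lhs => rw [← hX.2]
      rw [MonoidHom.map_closure]
      apply Subgroup.closure_mono
      rintro _ ⟨s, ⟨hsS, hsX⟩, rfl⟩
      exact ⟨hSconj g s hsS, Subgroup.mem_map_of_mem _ hsX⟩

theorem maximal_conj {G : Type u} [Group G] [Finite G] (S : Set G)
    (hSconj : ∀ g s : G, s ∈ S → g * s * g⁻¹ ∈ S) (U : Subgroup G) (hU : Maximal (NS S) U)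
    (g : G) : Maximal (NS S) (U.map (MulAut.conj g).toMonoidHom) := by
  refine ⟨NS_conj S hSconj U hU.1 g, ?_⟩
  intro Y hY hle
  have h1 : U ≤ Y.map (MulAut.conj g⁻¹).toMonoidHom := by
    intro u hu
    refine ⟨g * u * g⁻¹, hle ⟨u, hu, rfl⟩, ?_⟩
    simp only [MulEquiv.coe_toMonoidHom, MulAut.conj_apply]
    group
  have h2 := hU.2 (NS_conj S hSconj Y hY g⁻¹) h1
  intro y hy
  have h3 : g⁻¹ * y * g ∈ U := by
    have := h2 ⟨y, hy, rfl⟩
    simpa using this
  refine ⟨g⁻¹ * y * g, h3, ?_⟩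
  simp only [MulEquiv.coe_toMonoidHom, MulAut.conj_apply]
  group

theorem maximal_unique {G : Type u} [Group G] [Finite G] (S : Set G)
    (hSconj : ∀ g s : G, s ∈ S → g * s * g⁻¹ ∈ S)
    (hSeng : ∀ s ∈ S, ∀ x : G, ∃ k, eng s k x = 1)
    (U₁ U₂ : Subgroup G) (h₁ : Maximal (NS S) U₁) (h₂ : Maximal (NS S) U₂) : U₁ = U₂ := by
  classical
  by_contra hne0
  haveI : Nonempty {q : Subgroup G × Subgroup G //
      Maximal (NS S) q.1 ∧ Maximal (NS S) q.2 ∧ q.1 ≠ q.2} := ⟨⟨(U₁, U₂), h₁, h₂, hne0⟩⟩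
  obtain ⟨⟨⟨V₁, V₂⟩, hV₁, hV₂, hV⟩, hmax⟩ := Finite.exists_max
    (fun q : {q : Subgroup G × Subgroup G //
      Maximal (NS S) q.1 ∧ Maximal (NS S) q.2 ∧ q.1 ≠ q.2} =>
      Nat.card (Subgroup.closure (S ∩ (q.1.1 : Set G) ∩ (q.1.2 : Set G))))
  have hmax' : ∀ W₁ W₂ : Subgroup G, Maximal (NS S) W₁ → Maximal (NS S) W₂ → W₁ ≠ W₂ →
      Nat.card (Subgroup.closure (S ∩ (W₁ : Set G) ∩ (W₂ : Set G)))
        ≤ Nat.card (Subgroup.closure (S ∩ (V₁ : Set G) ∩ (V₂ : Set G))) :=
    fun W₁ W₂ a b c => hmax ⟨(W₁, W₂), a, b, c⟩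
  clear hmax
  simp only at hV₁ hV₂ hV
  obtain ⟨I, hIdef⟩ : ∃ I : Subgroup G,
      I = Subgroup.closure (S ∩ (V₁ : Set G) ∩ (V₂ : Set G)) := ⟨_, rfl⟩
  rw [← hIdef] at hmax'
  have hIV₁ : I ≤ V₁ := by rw [hIdef, Subgroup.closure_le]; exact fun s hs => hs.1.2
  have hIV₂ : I ≤ V₂ := by rw [hIdef, Subgroup.closure_le]; exact fun s hs => hs.2
  have hSI : ∀ s ∈ S, s ∈ V₁ → s ∈ V₂ → s ∈ I :=
    fun s hs h1 h2 => hIdef ▸ Subgroup.subset_closure ⟨⟨hs, h1⟩, h2⟩
  have hIcl : Subgroup.closure (S ∩ (I : Set G)) = I := by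
    apply le_antisymm
    · rw [Subgroup.closure_le]; exact Set.inter_subset_right
    · conv_lhs => rw [hIdef]
      apply Subgroup.closure_mono
      intro s hs
      exact ⟨hs.1.1, hSI s hs.1.1 hs.1.2 hs.2⟩
  have hI₁ : I ≠ V₁ := by
    intro h
    apply hV
    have hle : V₁ ≤ V₂ := h ▸ hIV₂
    exact le_antisymm hle (hV₁.2 hV₂.1 hle)
  have hI₂ : I ≠ V₂ := by
    intro h
    apply hV
    have hle : V₂ ≤ V₁ := h ▸ hIV₁
    exact le_antisymm (hV₂.2 hV₁.1 hle) hle
  obtain ⟨u₁, hu₁S, hu₁V, hu₁I, hu₁n⟩ := exists_normalizing S hSconj V₁ I hV₁.1 hIV₁ hI₁ hIcl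
  obtain ⟨u₂, hu₂S, hu₂V, hu₂I, hu₂n⟩ := exists_normalizing S hSconj V₂ I hV₂.1 hIV₂ hI₂ hIcl
  have hu₂V₁ : u₂ ∉ V₁ := fun h => hu₂I (hSI u₂ hu₂S h hu₂V)
  have hkey : ∀ z : G, z ∈ Subgroup.normalizer (I : Set G) → z * u₁ * z⁻¹ ∈ V₁ →
      z ∈ Subgroup.normalizer (V₁ : Set G) := by
    intro z hzI hz
    by_contra hzn
    have hW := maximal_conj S hSconj V₁ hV₁ z⁻¹
    have hWne : V₁ ≠ V₁.map (MulAut.conj z⁻¹).toMonoidHom := by
      intro heq
      apply hzn
      have h1 : z⁻¹ ∈ Subgroup.normalizer (V₁ : Set G) := by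
        apply Subgroup.mem_normalizer_fintype
        intro n hn
        exact heq.ge ⟨n, hn, rfl⟩
      have h2 := Subgroup.inv_mem _ h1
      rwa [inv_inv] at h2
    have hcard := hmax' V₁ _ hV₁ hW hWne
    have hIW : I ≤ V₁.map (MulAut.conj z⁻¹).toMonoidHom := by
      intro x hx
      refine ⟨z * x * z⁻¹, hIV₁ ((Subgroup.mem_normalizer_iff.1 hzI x).1 hx), ?_⟩
      simp only [MulEquiv.coe_toMonoidHom, MulAut.conj_apply]
      group
    have hu₁W : u₁ ∈ V₁.map (MulAut.conj z⁻¹).toMonoidHom := by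
      refine ⟨z * u₁ * z⁻¹, hz, ?_⟩
      simp only [MulEquiv.coe_toMonoidHom, MulAut.conj_apply]
      group
    have hlt : I < Subgroup.closure (S ∩ (V₁ : Set G)
        ∩ ((V₁.map (MulAut.conj z⁻¹).toMonoidHom : Subgroup G) : Set G)) := by
      refine lt_of_le_of_ne ?_ ?_
      · conv_lhs => rw [← hIcl]
        apply Subgroup.closure_mono
        intro s hs
        exact ⟨⟨hs.1, hIV₁ hs.2⟩, hIW hs.2⟩
      · intro heq
        apply hu₁I
        rw [heq]
        exact Subgroup.subset_closure ⟨⟨hu₁S, hu₁V⟩, hu₁W⟩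
    exact hlt.ne (Subgroup.eq_of_le_of_card_ge hlt.le hcard)
  have hzI : ∀ k, eng u₁ k u₂ ∈ Subgroup.normalizer (I : Set G) := by
    intro k
    induction k with
    | zero => exact hu₂n
    | succ k ihk =>
      rw [eng_succ']
      exact Subgroup.mul_mem _ (Subgroup.mul_mem _ (Subgroup.mul_mem _ ihk hu₁n)
        (Subgroup.inv_mem _ ihk)) (Subgroup.inv_mem _ hu₁n)
  have hy : ∃ y ∈ S, y ∈ Subgroup.normalizer (V₁ : Set G) ∧ y ∉ V₁ := by
    by_cases h0 : u₂ ∈ Subgroup.normalizer (V₁ : Set G)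
    · exact ⟨u₂, hu₂S, h0, hu₂V₁⟩
    · have hex : ∃ k, eng u₁ k u₂ ∈ Subgroup.normalizer (V₁ : Set G) := by
        obtain ⟨k, hk⟩ := hSeng u₁ hu₁S u₂
        exact ⟨k, by rw [hk]; exact Subgroup.one_mem _⟩
      have hk0 : Nat.find hex ≠ 0 := by
        intro h
        have := Nat.find_spec hex
        rw [h] at this
        exact h0 this
      obtain ⟨m, hm⟩ := Nat.exists_eq_succ_of_ne_zero hk0
      have hm1 : eng u₁ m u₂ ∉ Subgroup.normalizer (V₁ : Set G) :=
        Nat.find_min hex (by omega)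
      have hm2 : eng u₁ (m + 1) u₂ ∈ Subgroup.normalizer (V₁ : Set G) := by
        have := Nat.find_spec hex
        rw [hm] at this
        exact this
      rw [eng_succ'] at hm2
      obtain ⟨w, hw⟩ : ∃ w, w = eng u₁ m u₂ := ⟨_, rfl⟩
      rw [← hw] at hm1 hm2
      have hwI : w ∈ Subgroup.normalizer (I : Set G) := hw ▸ hzI m
      have hyn : w * u₁ * w⁻¹ ∈ Subgroup.normalizer (V₁ : Set G) := by
        have : w * u₁ * w⁻¹ = (w * u₁ * w⁻¹ * u₁⁻¹) * u₁ := by group
        rw [this]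
        exact Subgroup.mul_mem _ hm2 (Subgroup.le_normalizer hu₁V)
      refine ⟨w * u₁ * w⁻¹, hSconj w u₁ hu₁S, hyn, ?_⟩
      intro hyV
      exact hm1 (hkey w hwI hyV)
  obtain ⟨y, hyS, hyn, hyV⟩ := hy
  exact hyV (maximal_absorb S hSeng V₁ hV₁ y hyS hyn)

open scoped commutatorElement


/-- Baer's characterization of the Fitting subgroup: in a finite group G, an element g lies in the Fitting subgroup if and only if g is a left Engel element, that is, for every x there is n with [x, g, g, …, g] = 1 (n entries g, [a, b] = aba⁻¹b⁻¹). -/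
theorem result {G : Type*} [Group G] [Finite G] (g : G) :
    g ∈ Cfsg.fittingSubgroup G ↔ ∀ x : G, ∃ n : ℕ, (List.replicate n g).foldl (fun a b => a * b * a⁻¹ * b⁻¹) x = 1 := by
  constructor
  · intro hg x
    haveI hFnil : Group.IsNilpotent (Cfsg.fittingSubgroup G) :=
      Cfsg.Agent.Lib.Helper21.fittingSubgroup_isNilpotent
    have hFn : (Cfsg.fittingSubgroup G).Normal := Cfsg.Agent.Lib.Helper24.fitting_normal'
    obtain ⟨n, hn⟩ := Subgroup.nilpotent_iff_lowerCentralSeries.1 hFnil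
    have hchain : ∀ k, ∃ h : eng g (k + 1) x ∈ Cfsg.fittingSubgroup G,
        (⟨eng g (k + 1) x, h⟩ : Cfsg.fittingSubgroup G)
          ∈ (⊤ : Subgroup (Cfsg.fittingSubgroup G)).lowerCentralSeries k := by
      intro k
      induction k with
      | zero =>
        have h1 : eng g 1 x ∈ Cfsg.fittingSubgroup G := by
          rw [eng_succ', eng_zero]
          exact Subgroup.mul_mem _ (hFn.conj_mem g hg x) (Subgroup.inv_mem _ hg)
        exact ⟨h1, by rw [Subgroup.lowerCentralSeries_zero]; exact Subgroup.mem_top _⟩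
      | succ k ihk =>
        obtain ⟨h1, h2⟩ := ihk
        have h3 : eng g (k + 1 + 1) x ∈ Cfsg.fittingSubgroup G := by
          rw [eng_succ']
          exact Subgroup.mul_mem _ (Subgroup.mul_mem _ (Subgroup.mul_mem _ h1 hg)
            (Subgroup.inv_mem _ h1)) (Subgroup.inv_mem _ hg)
        refine ⟨h3, ?_⟩
        rw [Subgroup.lowerCentralSeries_succ]
        have h4 := Subgroup.commutator_mem_commutator h2
          (Subgroup.mem_top (⟨g, hg⟩ : Cfsg.fittingSubgroup G))
        have h5 : (⟨eng g (k + 1 + 1) x, h3⟩ : Cfsg.fittingSubgroup G)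
            = ⁅(⟨eng g (k + 1) x, h1⟩ : Cfsg.fittingSubgroup G), ⟨g, hg⟩⁆ := by
          apply Subtype.ext
          rw [commutatorElement_def]
          simp only [Subgroup.coe_mul, Subgroup.coe_inv]
          rw [eng_succ']
        rw [h5]; exact h4
    obtain ⟨h1, h2⟩ := hchain n
    rw [hn, Subgroup.mem_bot] at h2
    exact ⟨n + 1, congrArg Subtype.val h2⟩
  · intro heng
    have heng' : ∀ x : G, ∃ n, eng g n x = 1 := heng
    obtain ⟨S, hSdef⟩ : ∃ S : Set G, S = {s | ∃ h : G, s = h * g * h⁻¹} := ⟨_, rfl⟩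
    have hgS : g ∈ S := by rw [hSdef]; exact ⟨1, by simp⟩
    have hSconj : ∀ k s : G, s ∈ S → k * s * k⁻¹ ∈ S := by
      intro k s hs
      rw [hSdef] at hs ⊢
      obtain ⟨h, rfl⟩ := hs
      exact ⟨k * h, by group⟩
    have hSeng : ∀ s ∈ S, ∀ x : G, ∃ k, eng s k x = 1 := by
      intro s hs x
      rw [hSdef] at hs
      obtain ⟨h, rfl⟩ := hs
      obtain ⟨k, hk⟩ := heng' (h⁻¹ * x * h)
      refine ⟨k, ?_⟩
      have := eng_map (MulAut.conj h).toMonoidHom g (h⁻¹ * x * h) k
      simp only [MulEquiv.coe_toMonoidHom, MulAut.conj_apply] at this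
      rw [hk] at this
      have e : h * (h⁻¹ * x * h) * h⁻¹ = x := by group
      rw [e] at this
      rw [← this]; group
    have hz : NS S (Subgroup.zpowers g) := by
      refine ⟨?_, le_antisymm ?_ ?_⟩
      · have := nilp_sup (⊥ : Subgroup G) g inferInstance
          (by
            apply Subgroup.mem_normalizer_fintype
            intro n hn
            rw [SetLike.mem_coe, Subgroup.mem_bot] at hn
            rw [hn]; simp) heng'
        rwa [bot_sup_eq] at this
      · rw [Subgroup.closure_le]; exact Set.inter_subset_right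
      · rw [Subgroup.zpowers_le]
        exact Subgroup.subset_closure ⟨hgS, Subgroup.mem_zpowers g⟩
    obtain ⟨U, hgU, hU⟩ := (Set.toFinite {X : Subgroup G | NS S X}).exists_le_maximal
      (a := Subgroup.zpowers g) hz
    have hU' : Maximal (NS S) U := ⟨hU.1, fun Y hY hle => hU.2 hY hle⟩
    have hUn : U.Normal := by
      refine ⟨fun n hn k => ?_⟩
      have := maximal_unique S hSconj hSeng _ _ (maximal_conj S hSconj U hU' k) hU'
      rw [← this]
      exact ⟨n, hn, rfl⟩
    exact Cfsg.Agent.Lib.Helper24.le_fitting U hUn hU'.1.1 (hgU (Subgroup.mem_zpowers g))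

end Cfsg.Agent.S3937
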