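import Cfsg.Statements.S3939
import Mathlib
import Cfsg.Agent.Lib.Helper12.CN

set_option autoImplicit false
open Cfsg

namespace Cfsg.Agent.S3939

universe u

/-- The image of a two-generator subgroup. -/
theorem map_closure_pair {G H : Type*} [Group G] [Group H] (f : G →* H) (x g : G) :
    (Subgroup.closure ({x, g} : Set G)).map f = Subgroup.closure ({f x, f g} : Set H) := by
  rw [MonoidHom.map_closure, Set.image_pair]

/-- Elements of the `n`-th term of the upper central series generate a nilpotent subgroup with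
any other element. -/
theorem nilp_of_mem_ucs : ∀ (n : ℕ) (G : Type u) [Group G] (g : G),
    g ∈ Subgroup.upperCentralSeries G n →
      ∀ x : G, Group.IsNilpotent ↥(Subgroup.closure ({x, g} : Set G)) := by
  intro n
  induction n with
  | zero =>
    intro G _ g hg x
    rw [Subgroup.upperCentralSeries_zero, Subgroup.mem_bot] at hg
    have hle : Subgroup.closure ({x, g} : Set G) ≤ Subgroup.zpowers x := by
      rw [Subgroup.closure_le]
      intro y hy
      rcases hy with rfl | rfl
      · exact Subgroup.mem_zpowers _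
      · rw [hg]; exact Subgroup.one_mem _
    have hcomm : ∀ a b : ↥(Subgroup.closure ({x, g} : Set G)), a * b = b * a := by
      intro a b
      obtain ⟨i, hi⟩ := Subgroup.mem_zpowers_iff.mp (hle a.2)
      obtain ⟨j, hj⟩ := Subgroup.mem_zpowers_iff.mp (hle b.2)
      apply Subtype.ext
      rw [Subgroup.coe_mul, Subgroup.coe_mul, ← hi, ← hj]
      exact ((Commute.refl x).zpow_zpow i j).eq
    letI : CommGroup ↥(Subgroup.closure ({x, g} : Set G)) :=
      { (inferInstance : Group ↥(Subgroup.closure ({x, g} : Set G))) with mul_comm := hcomm }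
    exact CommGroup.isNilpotent
  | succ n ih =>
    intro G _ g hg x
    rw [← Subgroup.comap_upperCentralSeries_quotient_center, Subgroup.mem_comap] at hg
    have h1 := ih (G ⧸ Subgroup.center G) _ hg (QuotientGroup.mk' (Subgroup.center G) x)
    set K := Subgroup.closure ({x, g} : Set G) with hK
    set f : K →* G ⧸ Subgroup.center G := (QuotientGroup.mk' (Subgroup.center G)).comp K.subtype
      with hf
    have hrange : f.range = Subgroup.closure ({QuotientGroup.mk' (Subgroup.center G) x,
        QuotientGroup.mk' (Subgroup.center G) g} : Set (G ⧸ Subgroup.center G)) := by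
      rw [hf, MonoidHom.range_comp, Subgroup.range_subtype, hK, map_closure_pair]
    haveI : Group.IsNilpotent ↥f.range := by rw [hrange]; exact h1
    refine Subgroup.isNilpotent_of_ker_le_center f.rangeRestrict ?_
    rw [MonoidHom.ker_rangeRestrict]
    intro a ha
    rw [MonoidHom.mem_ker] at ha
    have h2 : (a : G) ∈ Subgroup.center G := by
      have h3 : QuotientGroup.mk' (Subgroup.center G) (a : G) = 1 := ha
      exact (QuotientGroup.eq_one_iff _).mp h3
    rw [Subgroup.mem_center_iff]
    intro b
    apply Subtype.ext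
    rw [Subgroup.coe_mul, Subgroup.coe_mul]
    exact Subgroup.mem_center_iff.mp h2 (b : G)

/-- In a nilpotent two-generator subgroup, an element of order `p` commutes with an element
of `q`-power order, `q ≠ p`. -/
theorem commute_of_nilp {G : Type*} [Group G] [Finite G] (x g : G) (p q k : ℕ) [hp : Fact p.Prime]
    [hq : Fact q.Prime] (hpq : q ≠ p) (hg : orderOf g = p) (hx : orderOf x = q ^ k)
    (hn : Group.IsNilpotent ↥(Subgroup.closure ({x, g} : Set G))) : x * g = g * x := by
  set K := Subgroup.closure ({x, g} : Set G) with hK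
  have hxK : x ∈ K := Subgroup.subset_closure (by simp)
  have hgK : g ∈ K := Subgroup.subset_closure (by simp)
  have hgp : IsPGroup p (Subgroup.zpowers (⟨g, hgK⟩ : K)) := by
    apply IsPGroup.of_card (n := 1)
    rw [Nat.card_zpowers, Subgroup.orderOf_mk, hg, pow_one]
  have hxq : IsPGroup q (Subgroup.zpowers (⟨x, hxK⟩ : K)) := by
    apply IsPGroup.of_card (n := k)
    rw [Nat.card_zpowers, Subgroup.orderOf_mk, hx]
  obtain ⟨P, hP⟩ := hgp.exists_le_sylow
  obtain ⟨Q, hQ⟩ := hxq.exists_le_sylow
  have htfae := (Group.isNilpotent_of_finite_tfae (G := K)).out 0 3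
  have hnorm := htfae.mp hn
  have hPn : (P : Subgroup K).Normal := hnorm p hp P
  have hQn : (Q : Subgroup K).Normal := hnorm q hq Q
  have hdis : Disjoint (Q : Subgroup K) (P : Subgroup K) :=
    IsPGroup.disjoint_of_ne q p hpq _ _ Q.2 P.2
  have h1 := Subgroup.commute_of_normal_of_disjoint (Q : Subgroup K) (P : Subgroup K) hQn hPn hdis
    ⟨x, hxK⟩ ⟨g, hgK⟩ (hQ (Subgroup.mem_zpowers _)) (hP (Subgroup.mem_zpowers _))
  exact congrArg Subtype.val h1.eq

/-- A nontrivial element generating a nilpotent subgroup with every other element forces a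
nontrivial centre. -/
theorem center_ne_bot_of_nilp {G : Type*} [Group G] [Finite G] (g : G) (hg1 : g ≠ 1)
    (hg : ∀ x : G, Group.IsNilpotent ↥(Subgroup.closure ({x, g} : Set G))) :
    Subgroup.center G ≠ ⊥ := by
  classical
  have ho1 : orderOf g ≠ 1 := fun h => hg1 (orderOf_eq_one_iff.mp h)
  have ho0 : orderOf g ≠ 0 := (orderOf_pos g).ne'
  set p := (orderOf g).minFac with hp
  have hpp : p.Prime := Nat.minFac_prime ho1
  haveI : Fact p.Prime := ⟨hpp⟩
  set g₁ := g ^ (orderOf g / p) with hg₁
  have hg₁o : orderOf g₁ = p := orderOf_pow_orderOf_div ho0 (Nat.minFac_dvd _)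
  have hg₁1 : g₁ ≠ 1 := by
    intro h
    rw [h, orderOf_one] at hg₁o
    exact hpp.one_lt.ne hg₁o
  have hnil : ∀ x : G, Group.IsNilpotent ↥(Subgroup.closure ({x, g₁} : Set G)) := by
    intro x
    refine Cfsg.Agent.Lib.Helper12.nilp_of_le ?_ (hg x)
    rw [Subgroup.closure_le]
    intro y hy
    rcases hy with rfl | rfl
    · exact Subgroup.subset_closure (by simp)
    · exact Subgroup.pow_mem _ (Subgroup.subset_closure (by simp)) _
  have hcomm : ∀ (x : G) (q k : ℕ), q.Prime → q ≠ p → orderOf x = q ^ k → x * g₁ = g₁ * x := by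
    intro x q k hq hqp hx
    haveI : Fact q.Prime := ⟨hq⟩
    exact commute_of_nilp x g₁ p q k hqp hg₁o hx (hnil x)
  have hzp : IsPGroup p (Subgroup.zpowers g₁) := by
    apply IsPGroup.of_card (n := 1)
    rw [Nat.card_zpowers, hg₁o, pow_one]
  obtain ⟨P, hP⟩ := hzp.exists_le_sylow
  have hg₁P : g₁ ∈ (P : Subgroup G) := hP (Subgroup.mem_zpowers _)
  -- the elements of `P` commuting with all elements of `q`-power order, `q ≠ p`
  set S : Set G := {x : G | ∃ q k : ℕ, q.Prime ∧ q ≠ p ∧ orderOf x = q ^ k} with hS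
  set W : Subgroup G := (P : Subgroup G) ⊓ Subgroup.centralizer S with hW
  have hg₁W : g₁ ∈ W := by
    refine Subgroup.mem_inf.mpr ⟨hg₁P, ?_⟩
    rw [Subgroup.mem_centralizer_iff]
    rintro h ⟨q, k, hq, hqp, hh⟩
    exact hcomm h q k hq hqp hh
  haveI hPnil : Group.IsNilpotent ↥(P : Subgroup G) := P.isPGroup'.isNilpotent
  haveI hWn : (W.subgroupOf (P : Subgroup G)).Normal := by
    refine ⟨fun w hw u => ?_⟩
    rw [Subgroup.mem_subgroupOf] at hw ⊢
    have hw2 : (w : G) ∈ Subgroup.centralizer S := (Subgroup.mem_inf.mp hw).2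
    refine Subgroup.mem_inf.mpr ⟨?_, ?_⟩
    · exact (u * w * u⁻¹).2
    · rw [Subgroup.mem_centralizer_iff]
      rintro h ⟨q, k, hq, hqp, hh⟩
      have h1 : (u : G)⁻¹ * h * (u : G) ∈ S := by
        refine ⟨q, k, hq, hqp, ?_⟩
        rw [← hh]
        have h2 : (u : G)⁻¹ * h * (u : G) = (u : G)⁻¹ * h * ((u : G)⁻¹)⁻¹ := by rw [inv_inv]
        rw [h2, ← MulAut.conj_apply, MulEquiv.orderOf_eq]
      have h3 := Subgroup.mem_centralizer_iff.mp hw2 _ h1
      have h4 : ((u * w * u⁻¹ : ↥(P : Subgroup G)) : G) = (u : G) * (w : G) * (u : G)⁻¹ := by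
        simp
      rw [h4]
      calc h * ((u : G) * (w : G) * (u : G)⁻¹)
          = (u : G) * (((u : G)⁻¹ * h * (u : G)) * (w : G)) * (u : G)⁻¹ := by group
        _ = (u : G) * ((w : G) * ((u : G)⁻¹ * h * (u : G))) * (u : G)⁻¹ := by rw [h3]
        _ = (u : G) * (w : G) * (u : G)⁻¹ * h := by group
  have hWne : W.subgroupOf (P : Subgroup G) ≠ ⊥ := by
    intro h
    have h1 : (⟨g₁, hg₁P⟩ : ↥(P : Subgroup G)) ∈ W.subgroupOf (P : Subgroup G) :=
      Subgroup.mem_subgroupOf.mpr hg₁W
    rw [h, Subgroup.mem_bot] at h1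
    exact hg₁1 (congrArg Subtype.val h1)
  have hcen := Cfsg.Agent.Lib.Helper12.normal_inf_center_ne_bot' (W.subgroupOf (P : Subgroup G)) hWne
  obtain ⟨z, hz1⟩ := (Subgroup.ne_bot_iff_exists_ne_one).mp hcen
  have hzW : ((z : ↥(P : Subgroup G)) : G) ∈ W :=
    Subgroup.mem_subgroupOf.mp (Subgroup.mem_inf.mp z.2).1
  have hzW2 : ((z : ↥(P : Subgroup G)) : G) ∈ Subgroup.centralizer S := (Subgroup.mem_inf.mp hzW).2
  have hzc : ∀ u ∈ (P : Subgroup G), u * ((z : ↥(P : Subgroup G)) : G) =
      ((z : ↥(P : Subgroup G)) : G) * u := by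
    intro u hu
    have h1 := Subgroup.mem_center_iff.mp (Subgroup.mem_inf.mp z.2).2 ⟨u, hu⟩
    exact congrArg Subtype.val h1
  set z' : G := ((z : ↥(P : Subgroup G)) : G) with hz'
  have hz'1 : z' ≠ 1 := by
    intro h
    apply hz1
    apply Subtype.ext
    apply Subtype.ext
    exact h
  -- the centralizer of `z'` is everything
  have hCtop : Subgroup.centralizer ({z'} : Set G) = ⊤ := by
    rw [← Subgroup.index_eq_one]
    by_contra hne
    obtain ⟨q, hq, hqdvd⟩ := Nat.exists_prime_and_dvd hne
    haveI : Fact q.Prime := ⟨hq⟩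
    by_cases hqp : q = p
    · subst hqp
      have hle : (P : Subgroup G) ≤ Subgroup.centralizer ({z'} : Set G) := by
        intro u hu
        rw [Subgroup.mem_centralizer_iff]
        intro h hh
        rw [Set.mem_singleton_iff] at hh
        rw [hh]
        exact (hzc u hu).symm
      exact P.not_dvd_index (dvd_trans hqdvd (Subgroup.index_dvd_of_le hle))
    · obtain ⟨Q⟩ : Nonempty (Sylow q G) := inferInstance
      have hle : (Q : Subgroup G) ≤ Subgroup.centralizer ({z'} : Set G) := by
        intro u hu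
        rw [Subgroup.mem_centralizer_iff]
        intro h hh
        rw [Set.mem_singleton_iff] at hh
        rw [hh]
        obtain ⟨k, hk⟩ := (IsPGroup.iff_orderOf.mp Q.isPGroup') ⟨u, hu⟩
        have hk' : orderOf u = q ^ k := by
          rw [← hk, Subgroup.orderOf_mk]
        have h1 : u ∈ S := ⟨q, k, hq, hqp, hk'⟩
        exact (Subgroup.mem_centralizer_iff.mp hzW2 u h1).symm
      exact Q.not_dvd_index (dvd_trans hqdvd (Subgroup.index_dvd_of_le hle))
  intro hbot
  apply hz'1
  have h1 : z' ∈ Subgroup.center G := by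
    rw [Subgroup.mem_center_iff]
    intro u
    have h2 : u ∈ Subgroup.centralizer ({z'} : Set G) := by rw [hCtop]; exact Subgroup.mem_top u
    exact (Subgroup.mem_centralizer_iff.mp h2 z' (Set.mem_singleton z')).symm
  rw [hbot, Subgroup.mem_bot] at h1
  exact h1

/-- An element generating a nilpotent subgroup with every other element is hypercentral. -/
theorem mem_ucs_of_nilp : ∀ (n : ℕ) (G : Type u) [Group G] [Finite G], Nat.card G ≤ n →
    ∀ g : G, (∀ x : G, Group.IsNilpotent ↥(Subgroup.closure ({x, g} : Set G))) →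
      ∃ k : ℕ, g ∈ Subgroup.upperCentralSeries G k := by
  intro n
  induction n with
  | zero =>
    intro G _ _ hcard
    exact absurd hcard (by have := Nat.card_pos (α := G); omega)
  | succ n ih =>
    intro G _ _ hcard g hg
    by_cases hg1 : g = 1
    · exact ⟨0, by rw [hg1]; exact Subgroup.one_mem _⟩
    have hZ := center_ne_bot_of_nilp g hg1 hg
    have hlt : Nat.card (G ⧸ Subgroup.center G) < Nat.card G := by
      have h1 := Subgroup.card_eq_card_quotient_mul_card_subgroup (Subgroup.center G)
      have h2 : 1 < Nat.card (Subgroup.center G) := by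
        rw [Finite.one_lt_card_iff_nontrivial]
        exact (Subgroup.nontrivial_iff_ne_bot _).mpr hZ
      have h3 : 0 < Nat.card (G ⧸ Subgroup.center G) := Nat.card_pos
      rw [h1]
      nlinarith
    have hq : ∀ y : G ⧸ Subgroup.center G, Group.IsNilpotent
        ↥(Subgroup.closure ({y, QuotientGroup.mk' (Subgroup.center G) g} :
          Set (G ⧸ Subgroup.center G))) := by
      intro y
      obtain ⟨x, rfl⟩ := QuotientGroup.mk'_surjective (Subgroup.center G) y
      rw [← map_closure_pair]
      haveI := hg x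
      exact Group.nilpotent_of_surjective
        ((QuotientGroup.mk' (Subgroup.center G)).subgroupMap (Subgroup.closure ({x, g} : Set G)))
        (MonoidHom.subgroupMap_surjective _ _)
    obtain ⟨k, hk⟩ := ih (G ⧸ Subgroup.center G) (by omega) _ hq
    refine ⟨k + 1, ?_⟩
    rw [← Subgroup.comap_upperCentralSeries_quotient_center, Subgroup.mem_comap]
    exact hk


/-- In a finite group G the set of elements g such that the subgroup generated by g and x is nilpotent for every x ∈ G is exactly the hypercenter of G (the last term of the upper central series). -/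
theorem result {G : Type*} [Group G] [Finite G] (g : G) :
    (∀ x : G, Group.IsNilpotent ↥(Subgroup.closure ({x, g} : Set G))) ↔ g ∈ ⨆ n : ℕ, Subgroup.upperCentralSeries G n := by
  constructor
  · intro h
    obtain ⟨k, hk⟩ := mem_ucs_of_nilp (Nat.card G) G le_rfl g h
    exact Subgroup.mem_iSup_of_mem k hk
  · intro h x
    have hdir : Directed (· ≤ ·) (fun n : ℕ => Subgroup.upperCentralSeries G n) :=
      (Subgroup.upperCentralSeries_mono G).directed_le
    obtain ⟨k, hk⟩ := (Subgroup.mem_iSup_of_directed hdir).mp h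
    exact nilp_of_mem_ucs k G g hk x

end Cfsg.Agent.S3939
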