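import Cfsg.Statements.S3941
import Mathlib

set_option autoImplicit false
open Cfsg

namespace Cfsg.Agent.S3941


lemma mem_of_pow_eq_one {G : Type*} [Group G] [Finite G] {p : ℕ} [Fact p.Prime] (P : Sylow p G)
    (hP : (P : Subgroup G).Normal) (x : G) (hx : x ^ p = 1) : x ∈ P := by
  have h1 : IsPGroup p (Subgroup.zpowers x) := by
    rintro ⟨y, hy⟩
    obtain ⟨k, rfl⟩ := Subgroup.mem_zpowers_iff.mp hy
    refine ⟨1, ?_⟩
    ext
    show (x ^ k) ^ (p ^ 1) = 1
    rw [pow_one, ← zpow_natCast, ← zpow_mul, mul_comm, zpow_mul, zpow_natCast, hx, one_zpow]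
  obtain ⟨Q, hQ⟩ := h1.exists_le_sylow
  have hu := Sylow.unique_of_normal P hP
  have hQP : Q = P := Subsingleton.elim _ _
  subst hQP; exact hQ (Subgroup.mem_zpowers x)

noncomputable def psi (m : ℕ) : Equiv.Perm (Fin m) →* Equiv.Perm (Fin (m + 1)) :=
  Equiv.Perm.extendDomainHom (finSuccAboveEquiv (Fin.last m))

lemma psi_inj (m : ℕ) : Function.Injective (psi m) :=
  Equiv.Perm.extendDomainHom_injective _

lemma psi_sign (m : ℕ) (σ : Equiv.Perm (Fin m)) : Equiv.Perm.sign (psi m σ) = Equiv.Perm.sign σ := by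
  unfold psi
  rw [Equiv.Perm.extendDomainHom_apply]
  exact Equiv.Perm.sign_extendDomain _ _

noncomputable def phi (m : ℕ) : alternatingGroup (Fin m) →* alternatingGroup (Fin (m + 1)) :=
  ((psi m).comp (alternatingGroup (Fin m)).subtype).codRestrict _ (by
    intro x
    rw [Equiv.Perm.mem_alternatingGroup]
    show Equiv.Perm.sign (psi m x.1) = 1
    rw [psi_sign]
    exact Equiv.Perm.mem_alternatingGroup.mp x.2)

lemma phi_inj (m : ℕ) : Function.Injective (phi m) := by
  intro x y hxy
  have h1 : psi m x.1 = psi m y.1 := congrArg Subtype.val hxy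
  exact Subtype.ext (psi_inj m h1)

lemma card_alt (m : ℕ) (hm : 2 ≤ m) : 2 * Nat.card (alternatingGroup (Fin m)) = m.factorial := by
  haveI : Nontrivial (Fin m) := Fin.nontrivial_iff_two_le.mpr hm
  rw [two_mul_nat_card_alternatingGroup, Nat.card_perm, Nat.card_fin]

lemma card_range (m : ℕ) : Nat.card (phi m).range = Nat.card (alternatingGroup (Fin m)) :=
  (Nat.card_congr (MonoidHom.ofInjective (phi_inj m)).toEquiv).symm


/-- Let n ≥ 5 and p an odd prime with p ≤ n, and suppose that every proper subgroup of the alternating group of degree n whose order is divisible by p has a normal Sylow p-subgroup. Then n = p. -/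
theorem result (n p : ℕ) (hn : 5 ≤ n) [Fact p.Prime] (hp : p ≠ 2) (hpn : p ≤ n)
    (h : ∀ H : Subgroup ↥(alternatingGroup (Fin n)), H ≠ ⊤ → p ∣ Nat.card ↥H → Cfsg.IsPClosed p ↥H) : n = p := by
  by_contra hne
  have hlt : p < n := lt_of_le_of_ne hpn (Ne.symm hne)
  obtain ⟨m, rfl⟩ : ∃ m, n = m + 1 := ⟨n - 1, by omega⟩
  have hm4 : 4 ≤ m := by omega
  have hpm : p ≤ m := by omega
  have hpr : p.Prime := Fact.out
  have hcm := card_alt m (by omega)
  have hcm1 := card_alt (m + 1) (by omega)
  have hcr := card_range m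
  have hcop : Nat.Coprime p 2 := (Nat.coprime_primes hpr Nat.prime_two).mpr hp
  have hpd : p ∣ Nat.card (phi m).range := by
    rw [hcr]
    have h1 : p ∣ m.factorial := (Nat.Prime.dvd_factorial hpr).mpr hpm
    rw [← hcm] at h1
    exact hcop.dvd_of_dvd_mul_left h1
  have htop : (phi m).range ≠ ⊤ := by
    intro ht
    have h1 : Nat.card (phi m).range = Nat.card (alternatingGroup (Fin (m + 1))) := by
      rw [ht]; exact Subgroup.card_top
    rw [hcr] at h1
    rw [← h1, hcm, Nat.factorial_succ] at hcm1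
    have hpos : 0 < m.factorial := Nat.factorial_pos m
    nlinarith
  have hcl := h _ htop hpd
  haveI : Finite (phi m).range := inferInstance
  obtain ⟨P⟩ : Nonempty (Sylow p (phi m).range) := inferInstance
  have hPn := hcl P
  rcases Nat.lt_or_ge m 5 with hm5 | hm5
  · obtain rfl : m = 4 := by omega
    have hp3 : p = 3 := by
      have : p ≠ 4 := by rintro rfl; exact absurd hpr (by decide)
      have : 2 ≤ p := hpr.two_le
      omega
    subst hp3
    have ha : (c[0, 1, 2] : Equiv.Perm (Fin 4)) ∈ alternatingGroup (Fin 4) :=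
      Equiv.Perm.mem_alternatingGroup.mpr (by decide)
    have hb : (c[0, 1, 3] : Equiv.Perm (Fin 4)) ∈ alternatingGroup (Fin 4) :=
      Equiv.Perm.mem_alternatingGroup.mpr (by decide)
    set a : alternatingGroup (Fin 4) := ⟨_, ha⟩ with ha_def
    set b : alternatingGroup (Fin 4) := ⟨_, hb⟩ with hb_def
    have ha3' : (c[0, 1, 2] : Equiv.Perm (Fin 4)) ^ 3 = 1 := by decide
    have hb3' : (c[0, 1, 3] : Equiv.Perm (Fin 4)) ^ 3 = 1 := by decide
    have hab2' : ((c[0, 1, 2] : Equiv.Perm (Fin 4)) * c[0, 1, 3]) ^ 2 = 1 := by decide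
    have hab1' : ((c[0, 1, 2] : Equiv.Perm (Fin 4)) * c[0, 1, 3]) ≠ 1 := by decide
    have ha3 : a ^ 3 = 1 := Subtype.ext ha3'
    have hb3 : b ^ 3 = 1 := Subtype.ext hb3'
    have hab2 : (a * b) ^ 2 = 1 := Subtype.ext hab2'
    have hab1 : a * b ≠ 1 := by
      intro h1
      exact hab1' (congrArg Subtype.val h1)
    set x : (phi 4).range := ⟨phi 4 a, ⟨a, rfl⟩⟩ with hx_def
    set y : (phi 4).range := ⟨phi 4 b, ⟨b, rfl⟩⟩ with hy_def
    have hx3 : x ^ 3 = 1 := by
      apply Subtype.ext
      show (phi 4 a) ^ 3 = 1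
      rw [← map_pow, ha3, map_one]
    have hy3 : y ^ 3 = 1 := by
      apply Subtype.ext
      show (phi 4 b) ^ 3 = 1
      rw [← map_pow, hb3, map_one]
    have hxP := mem_of_pow_eq_one P hPn x hx3
    have hyP := mem_of_pow_eq_one P hPn y hy3
    have hxyP : x * y ∈ P := mul_mem hxP hyP
    have hxy2 : (x * y) ^ 2 = 1 := by
      apply Subtype.ext
      show (phi 4 a * phi 4 b) ^ 2 = 1
      rw [← map_mul, ← map_pow, hab2, map_one]
    obtain ⟨k, hk⟩ := P.isPGroup' ⟨x * y, hxyP⟩
    have hk' : (x * y) ^ (3 ^ k) = 1 := congrArg Subtype.val hk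
    have h1 := pow_gcd_eq_one.mpr ⟨hk', hxy2⟩
    have hg : Nat.gcd (3 ^ k) 2 = 1 := Nat.Coprime.pow_left k (by decide)
    rw [hg, pow_one] at h1
    have h2 : phi 4 a * phi 4 b = 1 := congrArg Subtype.val h1
    rw [← map_mul] at h2
    exact hab1 (phi_inj 4 (h2.trans (map_one _).symm))
  · haveI : IsSimpleGroup (alternatingGroup (Fin m)) :=
      alternatingGroup.isSimpleGroup (by rw [Nat.card_fin]; exact hm5)
    haveI : IsSimpleGroup (phi m).range := (MonoidHom.ofInjective (phi_inj m)).symm.isSimpleGroup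
    rcases hPn.eq_bot_or_eq_top with hb | ht
    · exact Sylow.ne_bot_of_dvd_card P hpd hb
    · have h2 : 2 ∣ Nat.card (phi m).range := by
        rw [hcr]
        have h4 : 4 ∣ m.factorial := Nat.dvd_factorial (by norm_num) hm4
        rw [← hcm] at h4
        obtain ⟨c, hc⟩ := h4
        exact ⟨c, by omega⟩
      have hpg : IsPGroup p (phi m).range := by
        have := P.isPGroup'
        rw [ht] at this
        exact (IsPGroup.of_equiv this Subgroup.topEquiv) 
      obtain ⟨k, hk⟩ := (IsPGroup.iff_card).mp hpg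
      rw [hk] at h2
      have := (Nat.prime_dvd_prime_iff_eq Nat.prime_two hpr).mp (Nat.prime_two.dvd_of_dvd_pow h2)
      exact hp this.symm

end Cfsg.Agent.S3941
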