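import Cfsg.Statements.S3949
import Mathlib

set_option autoImplicit false
open Cfsg

namespace Cfsg.Agent.S3949

/-- Let G be a finite group and α an automorphism of G of order 2 such that the elements g·α(g)⁻¹ generate G. Let j be a positive integer such that 2^j divides the order of no element inverted by α. Then the set of values of the j-th iterate of the map c ↦ c·α(c)⁻¹ is exactly the set of elements of odd order inverted by α. -/
theorem result {G : Type*} [Group G] [Finite G] (α : MulAut G) (hα : orderOf α = 2) (hG : Subgroup.closure (Set.range (fun c : G => c * (α c)⁻¹)) = ⊤)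
    (j : ℕ) (hj : ∀ g : G, α g = g⁻¹ → ¬ 2 ^ j ∣ orderOf g) :
    Set.range ((fun c : G => c * (α c)⁻¹)^[j]) = {g : G | Odd (orderOf g) ∧ α g = g⁻¹} := by
  have hαα : ∀ g : G, α (α g) = g := by
    intro g
    have h := pow_orderOf_eq_one α
    rw [hα, sq] at h
    have := DFunLike.congr_fun h g
    simpa using this
  have hf : ∀ c : G, α (c * (α c)⁻¹) = (c * (α c)⁻¹)⁻¹ := by
    intro c
    rw [map_mul, map_inv, hαα, mul_inv_rev, inv_inv]
  have hpowinv : ∀ g : G, α g = g⁻¹ → ∀ m : ℕ, α (g ^ m) = (g ^ m)⁻¹ := by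
    intro g hg m
    rw [map_pow, hg, inv_pow]
  have hsq : ∀ g : G, α g = g⁻¹ → g * (α g)⁻¹ = g ^ 2 := by
    intro g hg
    rw [hg, inv_inv, sq]
  have hiter : ∀ g : G, α g = g⁻¹ → ∀ k : ℕ, (fun c : G => c * (α c)⁻¹)^[k] g = g ^ (2 ^ k) := by
    intro g hg k
    induction k with
    | zero => simp
    | succ k ih =>
      rw [Function.iterate_succ_apply', ih]
      show g ^ 2 ^ k * (α (g ^ 2 ^ k))⁻¹ = g ^ 2 ^ (k + 1)
      rw [hsq _ (hpowinv g hg _), ← pow_mul, ← pow_succ]
  have hj0 : j ≠ 0 := by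
    rintro rfl
    have := hj 1 (by simp)
    simp at this
  obtain ⟨k, rfl⟩ := Nat.exists_eq_succ_of_ne_zero hj0
  ext x
  simp only [Set.mem_range, Set.mem_setOf_eq]
  constructor
  · rintro ⟨c, rfl⟩
    rw [Function.iterate_succ_apply]
    have hg := hf c
    rw [hiter _ hg k]
    refine ⟨?_, hpowinv _ hg _⟩
    have ho : orderOf (c * (α c)⁻¹) ≠ 0 := (orderOf_pos _).ne'
    obtain ⟨a, m, hm, hom⟩ := Nat.exists_eq_two_pow_mul_odd ho
    have ha : a ≤ k := by
      by_contra hcon
      push Not at hcon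
      apply hj _ hg
      rw [hom]
      exact Dvd.dvd.mul_right (pow_dvd_pow 2 hcon) m
    have hx : ((c * (α c)⁻¹) ^ 2 ^ k) ^ m = 1 := by
      rw [← pow_mul]
      apply orderOf_dvd_iff_pow_eq_one.mp
      rw [hom]
      exact Nat.mul_dvd_mul_right (pow_dvd_pow 2 ha) m
    exact Odd.of_dvd_nat hm (orderOf_dvd_of_pow_eq_one hx)
  · rintro ⟨hodd, hinv⟩
    have hco : Nat.Coprime (2 ^ (k + 1)) (orderOf x) :=
      Nat.Coprime.pow_left _ (Nat.coprime_two_left.mpr hodd)
    obtain ⟨m, hm⟩ := exists_pow_eq_self_of_coprime hco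
    refine ⟨x ^ m, ?_⟩
    rw [hiter _ (hpowinv x hinv m) (k + 1), ← pow_mul, mul_comm, pow_mul]
    exact hm

end Cfsg.Agent.S3949
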