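import Cfsg.Statements.S3982
import Mathlib
import Cfsg.Agent.Lib.Helper1.CoprimeSylow

set_option autoImplicit false
open Cfsg

namespace Cfsg.Agent.S3982

/-- Let p be an odd prime and G a finite group of even order divisible by p in which the centralizer of every non-identity p-element has odd order. If some nontrivial p-subgroup of G has a normalizer of even order, then the normalizer of every Sylow p-subgroup of G has even order. -/
theorem result {G : Type*} [Group G] [Finite G] (p : ℕ) [Fact p.Prime] (hp2 : p ≠ 2) (hpG : p ∣ Nat.card G) (h2G : 2 ∣ Nat.card G) (hC : ∀ g : G, g ≠ 1 → (∃ k : ℕ, orderOf g = p ^ k) → Odd (Nat.card ↥(Subgroup.centralizer ({g} : Set G)))) (Q : Subgroup G) (hQ : IsPGroup p ↥Q) (hQ1 : Q ≠ ⊥) (hev : Even (Nat.card ↥(Subgroup.normalizer (Q : Set G)))) (P : Sylow p G) : Even (Nat.card ↥(Subgroup.normalizer ((P : Subgroup G) : Set G))) := by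
  classical
  haveI : Fact (Nat.Prime 2) := ⟨Nat.prime_two⟩
  have hpp : p.Prime := Fact.out
  obtain ⟨t0, ht0⟩ := exists_prime_orderOf_dvd_card' 2 hev.two_dvd
  obtain ⟨t, htN, hto⟩ : ∃ t : G, t ∈ Subgroup.normalizer (Q : Set G) ∧ orderOf t = 2 :=
    ⟨t0, t0.2, by rw [Subgroup.orderOf_coe]; exact ht0⟩
  have htt : t * t = 1 := by
    rw [← sq, ← hto]
    exact pow_orderOf_eq_one t
  have htinv : t⁻¹ = t := inv_eq_of_mul_eq_one_right htt
  have htt' : ∀ c : G, t * (t * c) = c := fun c => by rw [← mul_assoc, htt, one_mul]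
  -- `t` centralizes no nonidentity `p`-element
  have hfix : ∀ w : G, (∃ k : ℕ, orderOf w = p ^ k) → t * w = w * t → w = 1 := by
    intro w hw hcomm
    by_contra hw1
    have hodd := hC w hw1 hw
    have htc : t ∈ Subgroup.centralizer ({w} : Set G) := by
      rw [Subgroup.mem_centralizer_iff]
      intro h hh
      rw [Set.mem_singleton_iff] at hh
      subst hh
      exact hcomm.symm
    have h2 : 2 ∣ Nat.card (Subgroup.centralizer ({w} : Set G)) := by
      have h3 := orderOf_dvd_natCard (⟨t, htc⟩ : Subgroup.centralizer ({w} : Set G))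
      rwa [Subgroup.orderOf_mk, hto] at h3
    exact (Nat.not_even_iff_odd.mpr hodd) (even_iff_two_dvd.mpr h2)
  -- subgroups stable under `t` are normalized by `t`
  have hnorm : ∀ S : Subgroup G, (∀ c ∈ S, t * c * t⁻¹ ∈ S) →
      t ∈ Subgroup.normalizer (S : Set G) := by
    intro S hS
    rw [Subgroup.mem_normalizer_iff]
    intro c
    refine ⟨hS c, fun h => ?_⟩
    have h1 := hS _ h
    have e : t * (t * c * t⁻¹) * t⁻¹ = c := by
      rw [htinv]
      simp [mul_assoc, htt, htt']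
    rwa [e] at h1
  set A : Subgroup G := Subgroup.zpowers t with hA
  have hAcard : Nat.card A = 2 := by rw [hA, Nat.card_zpowers, hto]
  have hAsol : Group.IsSolvable A :=
    Group.isSolvable_of_comm (isMulCommutative_iff.mp inferInstance)
  have hQt : ∀ x ∈ Q, t⁻¹ * x * t ∈ Q := by
    intro x hx
    have h1 := (Subgroup.mem_normalizer_iff.mp htN x).mp hx
    rwa [htinv] at h1 ⊢
  set C0 : Subgroup G := Subgroup.centralizer (Q : Set G) with hC0
  have hC0odd : Odd (Nat.card C0) := by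
    obtain ⟨x, hx1⟩ := Subgroup.ne_bot_iff_exists_ne_one.mp hQ1
    have hxo : ∃ k, orderOf (x : G) = p ^ k := by
      obtain ⟨k, hk⟩ := (IsPGroup.iff_orderOf.mp hQ) x
      exact ⟨k, by rw [← hk, Subgroup.orderOf_coe]⟩
    have hodd := hC (x : G) (fun h => hx1 (Subtype.ext h)) hxo
    have hle : C0 ≤ Subgroup.centralizer ({(x : G)} : Set G) :=
      Subgroup.centralizer_le (Set.singleton_subset_iff.mpr x.2)
    exact hodd.of_dvd_nat (Subgroup.card_dvd_of_le hle)
  have hAC0 : A ≤ Subgroup.normalizer (C0 : Set G) := by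
    rw [hA, Subgroup.zpowers_le]
    apply hnorm
    intro c hc
    rw [hC0, Subgroup.mem_centralizer_iff]
    intro x hx
    have e1 : (t⁻¹ * x * t) * c = c * (t⁻¹ * x * t) :=
      Subgroup.mem_centralizer_iff.mp hc _ (hQt x hx)
    calc x * (t * c * t⁻¹) = t * ((t⁻¹ * x * t) * c) * t⁻¹ := by group
      _ = t * (c * (t⁻¹ * x * t)) * t⁻¹ := by rw [e1]
      _ = t * c * t⁻¹ * x := by group
  obtain ⟨S, hS⟩ := Cfsg.Agent.Lib.Helper1.exists_invariant_sylow A C0 hAC0
    (by rw [hAcard]; exact Nat.coprime_two_left.mpr hC0odd) (Or.inl hAsol) p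
  set S' : Subgroup G := (S : Subgroup C0).map C0.subtype with hS'
  have htS : t ∈ Subgroup.normalizer (S' : Set G) := hS (Subgroup.mem_zpowers t)
  have hS'p : IsPGroup p S' := S.2.map _
  have hS'C : S' ≤ C0 := Subgroup.map_subtype_le _
  have hQS : IsPGroup p (Q ⊔ S' : Subgroup G) :=
    IsPGroup.to_sup_of_normal_left' hQ hS'p
      (le_trans hS'C (Subgroup.centralizer_le_normalizer _))
  obtain ⟨P2, hP2⟩ := hQS.exists_le_sylow
  have hQP2 : Q ≤ P2 := le_trans le_sup_left hP2
  have hSP2 : S' ≤ P2 := le_trans le_sup_right hP2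
  have hP2ne : (P2 : Subgroup G) ≠ ⊥ := fun h => hQ1 (le_bot_iff.mp (h ▸ hQP2))
  haveI : Nontrivial (P2 : Subgroup G) := (Subgroup.nontrivial_iff_ne_bot _).mpr hP2ne
  have hcen : Nontrivial (Subgroup.center (P2 : Subgroup G)) := P2.2.center_nontrivial
  obtain ⟨z0, hz0⟩ : ∃ z0 : Subgroup.center (P2 : Subgroup G), orderOf z0 = p := by
    apply exists_prime_orderOf_dvd_card' p
    have hpc : IsPGroup p (Subgroup.center (P2 : Subgroup G)) := P2.2.to_subgroup _
    obtain ⟨k, hk⟩ := IsPGroup.iff_card.mp hpc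
    have hk0 : k ≠ 0 := by
      rintro rfl
      rw [pow_zero] at hk
      exact (Finite.one_lt_card_iff_nontrivial.mpr hcen).ne' hk
    rw [hk]
    exact dvd_pow_self p hk0
  obtain ⟨z, hzP2, hzo, hzcen⟩ : ∃ z : G, z ∈ (P2 : Subgroup G) ∧ orderOf z = p ∧
      ∀ x ∈ (P2 : Subgroup G), x * z = z * x := by
    refine ⟨((z0 : (P2 : Subgroup G)) : G), (z0 : (P2 : Subgroup G)).2, ?_, ?_⟩
    · rw [Subgroup.orderOf_coe, Subgroup.orderOf_coe]
      exact hz0
    · intro x hx
      have h1 := Subgroup.mem_center_iff.mp z0.2 ⟨x, hx⟩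
      exact congrArg Subtype.val h1
  have hzS : z ∈ S' := by
    have hzC0 : z ∈ C0 := by
      rw [hC0, Subgroup.mem_centralizer_iff]
      intro x hx
      exact hzcen x (hQP2 hx)
    obtain ⟨zc, hzc⟩ : ∃ zc : ↥C0, (zc : G) = z := ⟨⟨z, hzC0⟩, rfl⟩
    have hzp : IsPGroup p (Subgroup.zpowers zc) := by
      apply IsPGroup.of_card (n := 1)
      rw [Nat.card_zpowers, pow_one, ← Subgroup.orderOf_coe, hzc, hzo]
    have hle : Subgroup.zpowers zc ≤ Subgroup.normalizer ((S : Subgroup C0) : Set C0) := by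
      rw [Subgroup.zpowers_le]
      apply Subgroup.centralizer_le_normalizer
      rw [Subgroup.mem_centralizer_iff]
      intro s hs
      apply Subtype.ext
      rw [Subgroup.coe_mul, Subgroup.coe_mul, hzc]
      exact hzcen _ (hSP2 ⟨s, hs, rfl⟩)
    have hsup : IsPGroup p (Subgroup.zpowers zc ⊔ (S : Subgroup C0) : Subgroup C0) :=
      IsPGroup.to_sup_of_normal_right' hzp S.2 hle
    have hmax := S.is_maximal' hsup le_sup_right
    have hzcS : zc ∈ (S : Subgroup C0) := by
      rw [← hmax]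
      exact Subgroup.mem_sup_left (Subgroup.mem_zpowers zc)
    exact ⟨zc, hzcS, hzc⟩
  -- `t` inverts `z`
  have htz : t * z * t⁻¹ = z⁻¹ := by
    have hmem : t * z * t⁻¹ ∈ S' := (Subgroup.mem_normalizer_iff.mp htS z).mp hzS
    have hc1 : (t * z * t⁻¹) * z = z * (t * z * t⁻¹) := hzcen _ (hSP2 hmem)
    have hwP : z * (t * z * t⁻¹) ∈ (P2 : Subgroup G) :=
      (P2 : Subgroup G).mul_mem hzP2 (hSP2 hmem)
    have hwo : ∃ k, orderOf (z * (t * z * t⁻¹)) = p ^ k := by
      obtain ⟨k, hk⟩ := (IsPGroup.iff_orderOf.mp P2.2) ⟨_, hwP⟩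
      exact ⟨k, by rw [← hk, Subgroup.orderOf_mk]⟩
    have ht2 : t⁻¹ * t⁻¹ = 1 := by rw [← mul_inv_rev, htt, inv_one]
    have hwt : t * (z * (t * z * t⁻¹)) = (z * (t * z * t⁻¹)) * t := by
      have e : t * (z * (t * z * t⁻¹)) * t⁻¹ = z * (t * z * t⁻¹) := by
        calc t * (z * (t * z * t⁻¹)) * t⁻¹
            = (t * z * t⁻¹) * (t * t * z * (t⁻¹ * t⁻¹)) := by group
          _ = (t * z * t⁻¹) * z := by rw [htt, ht2, one_mul, mul_one]
          _ = z * (t * z * t⁻¹) := hc1
      exact mul_inv_eq_iff_eq_mul.mp e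
    have hw1 := hfix _ hwo hwt
    exact eq_inv_of_mul_eq_one_right hw1
  have hz1 : z ≠ 1 := by
    intro h
    rw [h, orderOf_one] at hzo
    exact hpp.one_lt.ne hzo
  set C2 : Subgroup G := Subgroup.centralizer ({z} : Set G) with hC2
  have hC2odd : Odd (Nat.card C2) := hC z hz1 ⟨1, by rw [hzo, pow_one]⟩
  have hP2C2 : (P2 : Subgroup G) ≤ C2 := by
    intro x hx
    rw [hC2, Subgroup.mem_centralizer_iff]
    intro h hh
    rw [Set.mem_singleton_iff] at hh
    subst hh
    exact (hzcen x hx).symm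
  have hAC2 : A ≤ Subgroup.normalizer (C2 : Set G) := by
    rw [hA, Subgroup.zpowers_le]
    apply hnorm
    intro c hc
    rw [hC2, Subgroup.mem_centralizer_iff]
    intro h hh
    rw [Set.mem_singleton_iff] at hh
    subst hh
    have hzc : h * c = c * h := Subgroup.mem_centralizer_iff.mp hc h rfl
    have hcz : h⁻¹ * c = c * h⁻¹ := by
      rw [inv_mul_eq_iff_eq_mul, ← mul_assoc, hzc, mul_inv_cancel_right]
    have e2 : t⁻¹ * h * t = h⁻¹ := by
      have h3 := htz
      rw [htinv] at h3 ⊢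
      exact h3
    calc h * (t * c * t⁻¹) = t * ((t⁻¹ * h * t) * c) * t⁻¹ := by group
      _ = t * (h⁻¹ * c) * t⁻¹ := by rw [e2]
      _ = t * (c * h⁻¹) * t⁻¹ := by rw [hcz]
      _ = (t * c * t⁻¹) * (t * h * t⁻¹)⁻¹ := by group
      _ = (t * c * t⁻¹) * h := by rw [htz, inv_inv]
  obtain ⟨T, hT⟩ := Cfsg.Agent.Lib.Helper1.exists_invariant_sylow A C2 hAC2
    (by rw [hAcard]; exact Nat.coprime_two_left.mpr hC2odd) (Or.inl hAsol) p
  set T' : Subgroup G := (T : Subgroup C2).map C2.subtype with hT'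
  have htT : t ∈ Subgroup.normalizer (T' : Set G) := hT (Subgroup.mem_zpowers t)
  have hcardT : Nat.card T' = p ^ (Nat.card G).factorization p := by
    rw [hT', Subgroup.card_map_of_injective C2.subtype_injective, T.card_eq_multiplicity,
      ← (P2.subtype hP2C2).card_eq_multiplicity, Sylow.coe_subtype,
      Nat.card_congr (Subgroup.subgroupOfEquivOfLe hP2C2).toEquiv, P2.card_eq_multiplicity]
  obtain ⟨T2, hT2⟩ : ∃ T2 : Sylow p G, (T2 : Subgroup G) = T' :=
    ⟨Sylow.ofCard T' hcardT, Sylow.coe_ofCard T' hcardT⟩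
  have htT2 : t • T2 = T2 := by
    have h4 : t ∈ Subgroup.normalizer ((T2 : Subgroup G) : Set G) := by
      rw [hT2]
      exact htT
    exact Sylow.smul_eq_iff_mem_normalizer.mpr h4
  obtain ⟨g, hg⟩ := MulAction.exists_smul_eq G T2 P
  have hmem : g * t * g⁻¹ ∈ Subgroup.normalizer ((P : Subgroup G) : Set G) := by
    have h5 : (g * t * g⁻¹) • P = P := by
      rw [← hg, ← mul_smul, inv_mul_cancel_right, mul_smul, htT2]
    exact Sylow.smul_eq_iff_mem_normalizer.mp h5
  have ho : orderOf (g * t * g⁻¹) = 2 := by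
    apply orderOf_eq_prime
    · rw [conj_pow, sq, htt]
      group
    · intro h
      have h1 : t = 1 := by
        have : t = g⁻¹ * (g * t * g⁻¹) * g := by group
        rw [this, h]
        group
      rw [h1, orderOf_one] at hto
      omega
  have h2 : 2 ∣ Nat.card (Subgroup.normalizer ((P : Subgroup G) : Set G)) := by
    have h3 := orderOf_dvd_natCard
      (⟨g * t * g⁻¹, hmem⟩ : Subgroup.normalizer ((P : Subgroup G) : Set G))
    rwa [Subgroup.orderOf_mk, ho] at h3
  exact even_iff_two_dvd.mpr h2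

end Cfsg.Agent.S3982
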