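import Cfsg.Statements.S3983
import Mathlib
import Cfsg.Agent.Lib.Helper22.TI

set_option autoImplicit false
open scoped Pointwise
open Cfsg

namespace Cfsg.Agent.S3983

/-- Let P be a Sylow p-subgroup of the finite group G that meets each conjugate g P g⁻¹ with g outside N_G(P) trivially, and let U be a subgroup of G of order divisible by p. Then a Sylow p-subgroup Q of U has the same property inside U: Q meets each conjugate u Q u⁻¹ with u ∈ U outside N_U(Q) trivially. -/
theorem result {G : Type*} [Group G] [Finite G] (p : ℕ) [Fact p.Prime] (P : Sylow p G) (hTI : ∀ g : G, g ∉ Subgroup.normalizer ((P : Subgroup G) : Set G) → (P : Subgroup G) ⊓ (MulAut.conj g • (P : Subgroup G)) = ⊥) (U : Subgroup G) (hU : p ∣ Nat.card ↥U) (Q : Sylow p ↥U) : ∀ u : ↥U, u ∉ Subgroup.normalizer ((Q : Subgroup ↥U) : Set ↥U) → (Q : Subgroup ↥U) ⊓ (MulAut.conj u • (Q : Subgroup ↥U)) = ⊥ := by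
  classical
  have hE := (Lib.Helper22.ti_iff_elementwise (P : Subgroup G)).mp hTI
  have hQ'p : IsPGroup p ((Q : Subgroup U).map U.subtype) := Q.isPGroup'.map U.subtype
  obtain ⟨P₀, hP₀⟩ := hQ'p.exists_le_sylow
  obtain ⟨h, rfl⟩ := MulAction.exists_smul_eq G P P₀
  have hE₀ : ∀ g a : G, a ∈ ((h • P : Sylow p G) : Subgroup G) → a ≠ 1 →
      g * a * g⁻¹ ∈ ((h • P : Sylow p G) : Subgroup G) →
      g ∈ Subgroup.normalizer (((h • P : Sylow p G) : Subgroup G) : Set G) :=
    Lib.Helper22.ti_elementwise_conj (P : Subgroup G) h hE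
  have hQeq : ((h • P : Sylow p G) : Subgroup G).subgroupOf U = (Q : Subgroup U) := by
    apply Q.is_maximal'
    · exact (h • P).isPGroup'.comap_subtype
    · intro z hz
      rw [Subgroup.mem_subgroupOf]
      exact hP₀ ⟨z, hz, rfl⟩
  apply (Lib.Helper22.ti_iff_elementwise _).mpr
  intro u a ha ha1 hua
  rw [← hQeq, Subgroup.mem_subgroupOf] at ha hua
  have hun : (u : G) ∈ Subgroup.normalizer (((h • P : Sylow p G) : Subgroup G) : Set G) := by
    apply hE₀ (u : G) (a : G) ha (by intro h0; exact ha1 (Subtype.ext h0))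
    simpa using hua
  apply Subgroup.mem_normalizer_fintype
  intro c hc
  rw [SetLike.mem_coe, ← hQeq, Subgroup.mem_subgroupOf] at hc ⊢
  have := (Subgroup.mem_normalizer_iff.mp hun (c : G)).mp hc
  simpa using this

end Cfsg.Agent.S3983
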