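import Cfsg.Statements.S3984
import Mathlib
import Cfsg.Agent.Lib.Helper22.TI

set_option autoImplicit false
open scoped Pointwise
open Cfsg

namespace Cfsg.Agent.S3984

/-- Let P be a Sylow p-subgroup of the finite group G that meets each conjugate g P g⁻¹ with g outside N_G(P) trivially, and let N be a normal subgroup of G of order prime to p. Then every Sylow p-subgroup Q of G ⧸ N meets each conjugate x Q x⁻¹ with x outside its normalizer trivially. -/
theorem result {G : Type*} [Group G] [Finite G] (p : ℕ) [Fact p.Prime] (P : Sylow p G) (hTI : ∀ g : G, g ∉ Subgroup.normalizer ((P : Subgroup G) : Set G) → (P : Subgroup G) ⊓ (MulAut.conj g • (P : Subgroup G)) = ⊥) (N : Subgroup G) [N.Normal] (hN : (Nat.card ↥N).Coprime p) (Q : Sylow p (G ⧸ N)) : ∀ x : G ⧸ N, x ∉ Subgroup.normalizer ((Q : Subgroup (G ⧸ N)) : Set (G ⧸ N)) → (Q : Subgroup (G ⧸ N)) ⊓ (MulAut.conj x • (Q : Subgroup (G ⧸ N))) = ⊥ := by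
  classical
  have hE := (Lib.Helper22.ti_iff_elementwise (P : Subgroup G)).mp hTI
  have hπ : Function.Surjective (QuotientGroup.mk' N) := QuotientGroup.mk'_surjective N
  obtain ⟨P₁, hP₁⟩ := Sylow.mapSurjective_surjective hπ p Q
  obtain ⟨h, rfl⟩ := MulAction.exists_smul_eq G P P₁
  have hE₁ := Lib.Helper22.ti_elementwise_conj (P : Subgroup G) h hE
  have hQ : (Q : Subgroup (G ⧸ N))
      = ((h • P : Sylow p G) : Subgroup G).map (QuotientGroup.mk' N) := by
    rw [← hP₁]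
    rfl
  apply (Lib.Helper22.ti_iff_elementwise _).mpr
  intro gbar abar habar habar1 hga
  obtain ⟨g, rfl⟩ := hπ gbar
  rw [hQ] at habar
  obtain ⟨a, ha, rfl⟩ := habar
  have ha1 : a ≠ 1 := by
    rintro rfl
    exact habar1 (map_one _)
  have hPH : ((h • P : Sylow p G) : Subgroup G) ≤ (Q : Subgroup (G ⧸ N)).comap (QuotientGroup.mk' N) := by
    intro z hz
    show (QuotientGroup.mk' N) z ∈ (Q : Subgroup (G ⧸ N))
    rw [hQ]
    exact ⟨z, hz, rfl⟩
  have hcH : g * a * g⁻¹ ∈ (Q : Subgroup (G ⧸ N)).comap (QuotientGroup.mk' N) := by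
    show (QuotientGroup.mk' N) (g * a * g⁻¹) ∈ (Q : Subgroup (G ⧸ N))
    simpa using hga
  obtain ⟨e, he⟩ := (IsPGroup.iff_orderOf.mp (h • P).isPGroup') ⟨a, ha⟩
  rw [Subgroup.orderOf_mk] at he
  have hce : orderOf (⟨g * a * g⁻¹, hcH⟩ : (Q : Subgroup (G ⧸ N)).comap (QuotientGroup.mk' N)) = p ^ e := by
    rw [Subgroup.orderOf_mk, ← he]
    exact (MulAut.conj g).orderOf_eq a
  have hZ : IsPGroup p (Subgroup.zpowers
      (⟨g * a * g⁻¹, hcH⟩ : (Q : Subgroup (G ⧸ N)).comap (QuotientGroup.mk' N))) :=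
    IsPGroup.of_card (n := e) (by rw [Nat.card_zpowers, hce])
  obtain ⟨R, hR⟩ := hZ.exists_le_sylow
  obtain ⟨k, hk⟩ := MulAction.exists_smul_eq
    ((Q : Subgroup (G ⧸ N)).comap (QuotientGroup.mk' N)) ((h • P).subtype hPH) R
  have hcR : (⟨g * a * g⁻¹, hcH⟩ : (Q : Subgroup (G ⧸ N)).comap (QuotientGroup.mk' N))
      ∈ (R : Subgroup ((Q : Subgroup (G ⧸ N)).comap (QuotientGroup.mk' N))) :=
    hR (Subgroup.mem_zpowers _)
  rw [← hk] at hcR
  have hmem : (k : G)⁻¹ * (g * a * g⁻¹) * k ∈ ((h • P : Sylow p G) : Subgroup G) := by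
    have h1 : (⟨g * a * g⁻¹, hcH⟩ : (Q : Subgroup (G ⧸ N)).comap (QuotientGroup.mk' N))
        ∈ MulAut.conj k • (((h • P).subtype hPH : Sylow p _) : Subgroup _) := hcR
    rw [Lib.Helper22.mem_conj_smul_iff, Sylow.coe_subtype, Subgroup.mem_subgroupOf] at h1
    simpa using h1
  have hkg : (k : G)⁻¹ * g ∈ Subgroup.normalizer (((h • P : Sylow p G) : Subgroup G) : Set G) := by
    apply hE₁ _ a ha ha1
    have : (k : G)⁻¹ * g * a * ((k : G)⁻¹ * g)⁻¹ = (k : G)⁻¹ * (g * a * g⁻¹) * k := by group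
    rw [this]
    exact hmem
  have hnorm_img : ∀ z : G, z ∈ Subgroup.normalizer (((h • P : Sylow p G) : Subgroup G) : Set G) →
      (QuotientGroup.mk' N) z ∈ Subgroup.normalizer ((Q : Subgroup (G ⧸ N)) : Set (G ⧸ N)) := by
    intro z hz
    apply Subgroup.mem_normalizer_fintype
    intro n hn
    rw [SetLike.mem_coe, hQ] at hn ⊢
    obtain ⟨w, hw, rfl⟩ := hn
    refine ⟨z * w * z⁻¹, (Subgroup.mem_normalizer_iff.mp hz w).mp hw, ?_⟩
    simp
  have h3 := hnorm_img _ hkg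
  have h4 : (QuotientGroup.mk' N) (k : G) ∈ Subgroup.normalizer ((Q : Subgroup (G ⧸ N)) : Set (G ⧸ N)) :=
    Subgroup.le_normalizer k.2
  have : (QuotientGroup.mk' N) g = (QuotientGroup.mk' N) (k : G) * (QuotientGroup.mk' N) ((k : G)⁻¹ * g) := by
    rw [← map_mul]
    congr 1
    group
  rw [this]
  exact Subgroup.mul_mem _ h4 h3

end Cfsg.Agent.S3984
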