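import Cfsg.Statements.S3985
import Mathlib
import Cfsg.Agent.Lib.Helper22.TI

set_option autoImplicit false
open scoped Pointwise
open Cfsg

namespace Cfsg.Agent.S3985

/-- Let P be a cyclic Sylow p-subgroup of the finite group G. Then P meets each conjugate g P g⁻¹ with g outside N_G(P) trivially if and only if P is weakly self-centralizing: C_G(x) = C_G(P) for every non-identity x ∈ P. -/
theorem result {G : Type*} [Group G] [Finite G] (p : ℕ) [Fact p.Prime] (P : Sylow p G) (hcyc : IsCyclic ↥(P : Subgroup G)) : (∀ g : G, g ∉ Subgroup.normalizer ((P : Subgroup G) : Set G) → (P : Subgroup G) ⊓ (MulAut.conj g • (P : Subgroup G)) = ⊥) ↔ ∀ x : G, x ∈ (P : Subgroup G) → x ≠ 1 → Subgroup.centralizer ({x} : Set G) = Subgroup.centralizer ((P : Subgroup G) : Set G) := by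
  classical
  have hpp : p.Prime := Fact.out
  rw [Lib.Helper22.ti_iff_elementwise]
  obtain ⟨y, hy⟩ := hcyc.exists_generator
  have hPc : ∀ a ∈ (P : Subgroup G), ∀ b ∈ (P : Subgroup G), a * b = b * a := by
    intro a ha b hb
    obtain ⟨i, hi⟩ := Subgroup.mem_zpowers_iff.mp (hy ⟨a, ha⟩)
    obtain ⟨j, hj⟩ := Subgroup.mem_zpowers_iff.mp (hy ⟨b, hb⟩)
    have e1 : a = (y : G) ^ i := by
      have := congrArg Subtype.val hi
      simpa using this.symm
    have e2 : b = (y : G) ^ j := by
      have := congrArg Subtype.val hj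
      simpa using this.symm
    rw [e1, e2, ← zpow_add, ← zpow_add, add_comm]
  have hPC : (P : Subgroup G) ≤ Subgroup.centralizer ((P : Subgroup G) : Set G) := by
    intro a ha
    rw [Subgroup.mem_centralizer_iff]
    intro b hb
    exact hPc b hb a ha
  constructor
  · intro hE x hx hx1
    apply le_antisymm
    · intro g hg
      have hgx : g * x = x * g := by
        rw [Subgroup.mem_centralizer_iff] at hg
        exact (hg x rfl).symm
      have hgn : g ∈ Subgroup.normalizer ((P : Subgroup G) : Set G) := by
        apply hE g x hx hx1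
        have : g * x * g⁻¹ = x := by
          rw [hgx]
          group
        rw [this]
        exact hx
      obtain ⟨n, hn⟩ := IsPGroup.iff_card.mp P.isPGroup'
      have hyn : (y : G) ^ (p ^ n) = 1 := by
        have h0 : y ^ Nat.card (P : Subgroup G) = 1 := pow_card_eq_one'
        rw [hn] at h0
        have := congrArg Subtype.val h0
        simpa using this
      have hgy : g * (y : G) * g⁻¹ ∈ (P : Subgroup G) :=
        (Subgroup.mem_normalizer_iff.mp hgn y).mp y.2
      obtain ⟨k, hk⟩ : ∃ k : ℕ, g * (y : G) * g⁻¹ = (y : G) ^ k := by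
        have := hy ⟨_, hgy⟩
        rw [← mem_powers_iff_mem_zpowers] at this
        obtain ⟨k, hk⟩ := this
        refine ⟨k, ?_⟩
        have := congrArg Subtype.val hk
        simpa using this.symm
      obtain ⟨s, hs⟩ : ∃ s : ℕ, (y : G) ^ s = x := by
        have := hy ⟨x, hx⟩
        rw [← mem_powers_iff_mem_zpowers] at this
        obtain ⟨s, hs⟩ := this
        refine ⟨s, ?_⟩
        have := congrArg Subtype.val hs
        simpa using this
      have hxk : x ^ k = x := by
        calc x ^ k = ((y : G) ^ k) ^ s := by rw [← hs, ← pow_mul, ← pow_mul, mul_comm]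
          _ = (g * (y : G) * g⁻¹) ^ s := by rw [hk]
          _ = g * x * g⁻¹ := by rw [conj_pow, hs]
          _ = x := by rw [hgx]; group
      have hkp : (p : ℤ) ∣ (k : ℤ) - 1 := by
        have h1 : x ^ ((k : ℤ) - 1) = 1 := by
          rw [zpow_sub, zpow_natCast, zpow_one, hxk, mul_inv_cancel]
        have h2 : ((orderOf x : ℕ) : ℤ) ∣ (k : ℤ) - 1 := orderOf_dvd_iff_zpow_eq_one.mpr h1
        obtain ⟨j, hj⟩ := (IsPGroup.iff_orderOf.mp P.isPGroup') ⟨x, hx⟩
        rw [Subgroup.orderOf_mk] at hj
        have hj0 : j ≠ 0 := by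
          rintro rfl
          rw [pow_zero, orderOf_eq_one_iff] at hj
          exact hx1 hj
        have h3 : (p : ℤ) ∣ ((orderOf x : ℕ) : ℤ) := by
          rw [hj]
          exact Int.natCast_dvd_natCast.mpr (dvd_pow_self p hj0)
        exact h3.trans h2
      have h1 : Commute (g ^ (p ^ n)) (y : G) :=
        Lib.Helper22.commute_pow_prime_pow p n g y k hyn hk hkp
      have hcent : ∀ w : G, Commute w (y : G) →
          w ∈ Subgroup.centralizer ((P : Subgroup G) : Set G) := by
        intro w hw
        rw [Subgroup.mem_centralizer_iff]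
        intro b hb
        obtain ⟨j, hj⟩ := Subgroup.mem_zpowers_iff.mp (hy ⟨b, hb⟩)
        have e2 : b = (y : G) ^ j := by
          have := congrArg Subtype.val hj
          simpa using this.symm
        rw [e2]
        exact ((hw.zpow_right j).eq).symm
      have hA : g ^ (p ^ n) ∈ Subgroup.centralizer ((P : Subgroup G) : Set G) := hcent _ h1
      have hg0 : orderOf g ≠ 0 := (orderOf_pos g).ne'
      obtain ⟨e, m, hm, hem⟩ := Nat.exists_eq_pow_mul_and_not_dvd hg0 p hpp.ne_one
      have hB : g ^ m ∈ Subgroup.centralizer ((P : Subgroup G) : Set G) := by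
        apply hPC
        apply Lib.Helper22.mem_sylow_of_normalizes P (g ^ m) e
        · have hdvd : p ^ e ∣ orderOf g := Dvd.intro _ hem.symm
          have := orderOf_pow_orderOf_div hg0 hdvd
          have hdiv : orderOf g / p ^ e = m := by
            rw [hem]
            exact Nat.mul_div_cancel_left _ (pow_pos hpp.pos e)
          rw [hdiv] at this
          exact this
        · exact Subgroup.pow_mem _ hgn m
      exact Lib.Helper22.mem_of_coprime_pow_mem _ g (p ^ n) m
        (Nat.Coprime.pow_left n ((Nat.Prime.coprime_iff_not_dvd hpp).mpr hm)) hA hB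
    · apply Subgroup.centralizer_le
      intro z hz
      rw [Set.mem_singleton_iff] at hz
      rw [hz]
      exact hx
  · intro hC g a ha ha1 hga
    apply Subgroup.mem_normalizer_fintype
    intro z hz
    have hb1 : g * a * g⁻¹ ≠ 1 := by
      intro h0
      apply ha1
      have : a = g⁻¹ * (g * a * g⁻¹) * g := by group
      rw [this, h0]
      group
    have hmemC : g * z * g⁻¹ ∈ Subgroup.centralizer ((P : Subgroup G) : Set G) := by
      rw [← hC (g * a * g⁻¹) hga hb1, Subgroup.mem_centralizer_iff]
      intro w hw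
      rw [Set.mem_singleton_iff] at hw
      rw [hw]
      have := hPc a ha z hz
      calc g * a * g⁻¹ * (g * z * g⁻¹) = g * (a * z) * g⁻¹ := by group
        _ = g * (z * a) * g⁻¹ := by rw [this]
        _ = g * z * g⁻¹ * (g * a * g⁻¹) := by group
    obtain ⟨e, he⟩ := (IsPGroup.iff_orderOf.mp P.isPGroup') ⟨z, hz⟩
    rw [Subgroup.orderOf_mk] at he
    apply Lib.Helper22.mem_sylow_of_normalizes P (g * z * g⁻¹) e
    · rw [← he]
      exact (MulAut.conj g).orderOf_eq z
    · exact Subgroup.centralizer_le_normalizer _ hmemC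

end Cfsg.Agent.S3985
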