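import Cfsg.Statements.S3987
import Mathlib
import Cfsg.Agent.S3986

set_option autoImplicit false
open Cfsg

namespace Cfsg.Agent.S3987

/-- Let p be a prime and G a finite group. Then some Sylow p-subgroup of G is a direct factor of G (normal with a normal complement) if and only if for every element x of p-power order and every element y whose order is a power of a prime other than p, the conjugacy class of x y has as many elements as the product of the sizes of the classes of x and of y. -/
theorem result {G : Type*} [Group G] [Finite G] (p : ℕ) [Fact p.Prime] : (∃ (P : Sylow p G) (K : Subgroup G), (P : Subgroup G).Normal ∧ K.Normal ∧ (P : Subgroup G) ⊓ K = ⊥ ∧ (P : Subgroup G) ⊔ K = ⊤) ↔ ∀ x y : G, (∃ a : ℕ, orderOf x = p ^ a) → (∃ q b : ℕ, q.Prime ∧ q ≠ p ∧ orderOf y = q ^ b) → (Subgroup.centralizer ({x * y} : Set G)).index = (Subgroup.centralizer ({x} : Set G)).index * (Subgroup.centralizer ({y} : Set G)).index := by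
  classical
  have hpp : p.Prime := Fact.out
  rw [Cfsg.Agent.S3986.result p]
  have hcl : ∀ g : G, (conjugatesOf g).ncard = (Subgroup.centralizer ({g} : Set G)).index := by
    intro g
    have e1 : conjugatesOf g = MulAction.orbit (ConjAct G) g := by
      ext h
      rw [ConjAct.mem_orbit_conjAct]
      exact ⟨fun h' => h'.symm, fun h' => h'.symm⟩
    rw [e1, ← MulAction.index_stabilizer, Subgroup.centralizer_eq_comap_stabilizer]
    exact (Subgroup.index_comap_of_surjective _ ConjAct.toConjAct.surjective).symm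
  constructor
  · intro hcomm x y hx hy
    obtain ⟨a, ha⟩ := hx
    obtain ⟨q, b, hq, hqp, hb⟩ := hy
    have hxy : x * y = y * x := hcomm x y ⟨a, ha⟩ ⟨q, b, hq, hqp, hb⟩
    have hcop : Nat.Coprime (p ^ a) (q ^ b) :=
      Nat.Coprime.pow _ _ ((Nat.coprime_primes hpp hq).mpr hqp.symm)
    have hxz : x ∈ Subgroup.zpowers (x * y) := by
      have h1 : (x * y) ^ (q ^ b) = x ^ (q ^ b) := by
        rw [(show Commute x y from hxy).mul_pow, ← hb, pow_orderOf_eq_one, mul_one]
      have hc1 : (q ^ b).Coprime (orderOf x) := by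
        rw [ha]
        exact hcop.symm
      obtain ⟨m, hm⟩ := exists_pow_eq_self_of_coprime hc1
      have hmem : ((x * y) ^ (q ^ b)) ^ m ∈ Subgroup.zpowers (x * y) :=
        Subgroup.pow_mem _ (Subgroup.pow_mem _ (Subgroup.mem_zpowers _) _) _
      rw [h1, hm] at hmem
      exact hmem
    have hyz : y ∈ Subgroup.zpowers (x * y) := by
      have h1 : (x * y) ^ (p ^ a) = y ^ (p ^ a) := by
        rw [(show Commute x y from hxy).mul_pow, ← ha, pow_orderOf_eq_one, one_mul]
      have hc1 : (p ^ a).Coprime (orderOf y) := by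
        rw [hb]
        exact hcop
      obtain ⟨m, hm⟩ := exists_pow_eq_self_of_coprime hc1
      have hmem : ((x * y) ^ (p ^ a)) ^ m ∈ Subgroup.zpowers (x * y) :=
        Subgroup.pow_mem _ (Subgroup.pow_mem _ (Subgroup.mem_zpowers _) _) _
      rw [h1, hm] at hmem
      exact hmem
    have hC : Subgroup.centralizer ({x * y} : Set G)
        = Subgroup.centralizer ({x} : Set G) ⊓ Subgroup.centralizer ({y} : Set G) := by
      ext g
      simp only [Subgroup.mem_inf, Subgroup.mem_centralizer_iff, Set.mem_singleton_iff, forall_eq]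
      constructor
      · intro hg
        have hgz : ∀ z ∈ Subgroup.zpowers (x * y), z * g = g * z := by
          intro z hz
          obtain ⟨k, rfl⟩ := Subgroup.mem_zpowers_iff.mp hz
          exact ((show Commute (x * y) g from hg).zpow_left k).eq
        exact ⟨hgz x hxz, hgz y hyz⟩
      · rintro ⟨h1, h2⟩
        rw [mul_assoc, h2, ← mul_assoc, h1, mul_assoc]
    rw [hC]
    have hix : ∀ r : ℕ, r.Prime → r ∣ (Subgroup.centralizer ({x} : Set G)).index → r = p := by
      intro r hr hrd
      by_contra hrp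
      haveI : Fact r.Prime := ⟨hr⟩
      obtain ⟨R⟩ : Nonempty (Sylow r G) := inferInstance
      have hRle : (R : Subgroup G) ≤ Subgroup.centralizer ({x} : Set G) := by
        intro z hz
        obtain ⟨c, hc⟩ := (IsPGroup.iff_orderOf.mp R.isPGroup') ⟨z, hz⟩
        rw [Subgroup.orderOf_mk] at hc
        rw [Subgroup.mem_centralizer_iff]
        intro w hw
        rw [Set.mem_singleton_iff] at hw
        rw [hw]
        exact hcomm x z ⟨a, ha⟩ ⟨r, c, hr, hrp, hc⟩
      exact R.not_dvd_index (hrd.trans (Subgroup.index_dvd_of_le hRle))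
    have hiy : ¬ p ∣ (Subgroup.centralizer ({y} : Set G)).index := by
      intro hd
      obtain ⟨P⟩ : Nonempty (Sylow p G) := inferInstance
      have hPle : (P : Subgroup G) ≤ Subgroup.centralizer ({y} : Set G) := by
        intro z hz
        obtain ⟨c, hc⟩ := (IsPGroup.iff_orderOf.mp P.isPGroup') ⟨z, hz⟩
        rw [Subgroup.orderOf_mk] at hc
        rw [Subgroup.mem_centralizer_iff]
        intro w hw
        rw [Set.mem_singleton_iff] at hw
        rw [hw]
        exact (hcomm z y ⟨c, hc⟩ ⟨q, b, hq, hqp, hb⟩).symm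
      exact P.not_dvd_index (hd.trans (Subgroup.index_dvd_of_le hPle))
    have hcopi : Nat.Coprime (Subgroup.centralizer ({x} : Set G)).index
        (Subgroup.centralizer ({y} : Set G)).index :=
      Nat.coprime_of_dvd (fun r hr hrd hrd' => hiy (hix r hr hrd ▸ hrd'))
    have hne : (Subgroup.centralizer ({x} : Set G) ⊓ Subgroup.centralizer ({y} : Set G)).index ≠ 0 :=
      Subgroup.index_ne_zero_of_finite
    apply Nat.le_antisymm Subgroup.index_inf_le
    apply Nat.le_of_dvd (Nat.pos_of_ne_zero hne)
    exact Nat.Coprime.mul_dvd_of_dvd_of_dvd hcopi (Subgroup.index_dvd_of_le inf_le_left)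
      (Subgroup.index_dvd_of_le inf_le_right)
  · intro hidx x y hx hy
    have h := hidx x y hx hy
    rw [← hcl, ← hcl, ← hcl] at h
    let s : Set (G × G) := conjugatesOf x ×ˢ conjugatesOf y
    let f : G × G → G := fun ab => ab.1 * ab.2
    have hsub : conjugatesOf (x * y) ⊆ f '' s := by
      intro z hz
      obtain ⟨c, rfl⟩ := isConj_iff.mp (show IsConj (x * y) z from hz)
      refine ⟨(c * x * c⁻¹, c * y * c⁻¹), ⟨?_, ?_⟩, ?_⟩
      · exact (isConj_iff.mpr ⟨c, rfl⟩ : IsConj x (c * x * c⁻¹))
      · exact (isConj_iff.mpr ⟨c, rfl⟩ : IsConj y (c * y * c⁻¹))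
      · show c * x * c⁻¹ * (c * y * c⁻¹) = c * (x * y) * c⁻¹
        group
    have h1 : (conjugatesOf (x * y)).ncard ≤ (f '' s).ncard :=
      Set.ncard_le_ncard hsub (Set.toFinite _)
    have h2 : (f '' s).ncard ≤ s.ncard := Set.ncard_image_le (Set.toFinite _)
    have h3 : s.ncard = (conjugatesOf x).ncard * (conjugatesOf y).ncard := Set.ncard_prod
    have h4 : (f '' s).ncard = s.ncard := by omega
    have hinj : Set.InjOn f s := (Set.ncard_image_iff (Set.toFinite _)).mp h4
    have m1 : (y * x * y⁻¹, y) ∈ s :=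
      ⟨(isConj_iff.mpr ⟨y, rfl⟩ : IsConj x (y * x * y⁻¹)), mem_conjugatesOf_self⟩
    have m2 : (x, x⁻¹ * y * x) ∈ s :=
      ⟨mem_conjugatesOf_self, (isConj_iff.mpr ⟨x⁻¹, by group⟩ : IsConj y (x⁻¹ * y * x))⟩
    have hf : f (y * x * y⁻¹, y) = f (x, x⁻¹ * y * x) := by
      show y * x * y⁻¹ * y = x * (x⁻¹ * y * x)
      group
    have := hinj m1 m2 hf
    have h5 : y * x * y⁻¹ = x := congrArg Prod.fst this
    calc x * y = (y * x * y⁻¹) * y := by rw [h5]
      _ = y * x := by group

end Cfsg.Agent.S3987
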