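import Cfsg.Statements.S3992
import Mathlib
import Cfsg.Agent.Lib.Helper22.CPGroup
import Cfsg.Agent.Lib.Helper2.CharBurnside

set_option autoImplicit false
open Cfsg

namespace Cfsg.Agent.S3992

/-- Let G be a finite non-solvable group in which every element has prime-power order, and let R be its largest solvable normal subgroup. Then R is a p-group for some prime p; G/R has a non-abelian simple normal subgroup contained in every nontrivial normal subgroup of G/R (its unique minimal normal subgroup); and the order of every solvable subgroup of G has at most two prime divisors. -/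
theorem result {G : Type*} [Group G] [Finite G] (hns : ¬ Group.IsSolvable G) (hpp : ∀ g : G, g ≠ 1 → IsPrimePow (orderOf g))
    (R : Subgroup G) [R.Normal] (hRs : Group.IsSolvable ↥R) (hRmax : ∀ N : Subgroup G, N.Normal → Group.IsSolvable ↥N → N ≤ R) :
    (∃ p : ℕ, p.Prime ∧ IsPGroup p ↥R) ∧
      (∃ M : Subgroup (G ⧸ R), M.Normal ∧ IsSimpleGroup ↥M ∧ ¬ IsMulCommutative ↥M ∧
        ∀ N : Subgroup (G ⧸ R), N.Normal → N ≠ ⊥ → M ≤ N) ∧
      ∀ H : Subgroup G, Group.IsSolvable ↥H → (Nat.card ↥H).primeFactors.card ≤ 2 := by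
  classical
  have hcp : Lib.Helper22.IsCP G := hpp
  refine ⟨?_, ?_, ?_⟩
  · -- (1) `R` is a `p`-group
    by_cases hR1 : R = ⊥
    · exact ⟨2, Nat.prime_two, by rw [hR1]; exact IsPGroup.of_bot⟩
    haveI : Nontrivial R := (Subgroup.nontrivial_iff_ne_bot R).mpr hR1
    obtain ⟨A, hAchar, hAne, hAab⟩ := Lib.Helper22.exists_char_abelian_of_solvable hRs
    set V : Subgroup G := A.map R.subtype with hVdef
    haveI hVn : V.Normal := Lib.Helper22.map_subtype_normal_of_char R A
      (fun e => Subgroup.characteristic_iff_map_le.mp hAchar e)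
    have hVne : V ≠ ⊥ := by
      rw [hVdef, Ne, Subgroup.map_eq_bot_iff_of_injective _ R.subtype_injective]
      exact hAne
    have hVab : ∀ a ∈ V, ∀ b ∈ V, a * b = b * a := by
      rintro _ ⟨a, ha, rfl⟩ _ ⟨b, hb, rfl⟩
      have := hAab a ha b hb
      exact congrArg Subtype.val this
    have hVR : V ≤ R := Subgroup.map_subtype_le A
    obtain ⟨p, hp, hVp⟩ := hcp.abelian_pgroup V hVne hVab
    haveI : Fact p.Prime := ⟨hp⟩
    refine ⟨p, hp, ?_⟩
    by_contra hRp
    have hex : ∃ q : ℕ, q.Prime ∧ q ≠ p ∧ q ∣ Nat.card R := by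
      by_contra hno
      push_neg at hno
      apply hRp
      have h1 := Nat.eq_prime_pow_of_unique_prime_dvd (n := Nat.card R) (p := p)
        Nat.card_pos.ne' (fun {d} hd hdvd => by_contra (fun h => hno d hd h hdvd))
      exact IsPGroup.of_card h1
    obtain ⟨q, hq, hqp, hqR⟩ := hex
    have hpR : p ∣ Nat.card R := by
      obtain ⟨a, ha⟩ := IsPGroup.iff_card.mp hVp
      have ha0 : a ≠ 0 := by
        rintro rfl
        rw [pow_zero] at ha
        exact hVne (Subgroup.eq_bot_of_card_eq V ha)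
      have h1 : Nat.card V ∣ Nat.card R := Subgroup.card_dvd_of_le hVR
      exact dvd_trans (by rw [ha]; exact dvd_pow_self p ha0) h1
    apply hns
    apply Lib.Helper2.solvable_of_two_primes p q hp hq (Nat.card G) G rfl
    intro s hs hsG
    by_contra hne
    push_neg at hne
    by_cases hsR : s ∣ Nat.card R
    · exact Lib.Helper22.IsCP.solvable_three_primes _ R rfl (hcp.subgroup R) hRs p q s hp hq hs
        (Ne.symm hqp) (Ne.symm hne.1) (Ne.symm hne.2) hpR hqR hsR
    · exact hcp.core hp hq hs (Ne.symm hqp) (Ne.symm hne.1) (Ne.symm hne.2) V hVab hVp hVne R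
        hqR hsR hsG
  · -- (2) the unique minimal normal subgroup of `G ⧸ R`
    have hcpq : Lib.Helper22.IsCP (G ⧸ R) := hcp.quotient R
    have hnosol : ∀ N : Subgroup (G ⧸ R), N.Normal → Group.IsSolvable N → N = ⊥ := by
      intro N hN hNs
      set K : Subgroup G := N.comap (QuotientGroup.mk' R) with hK
      haveI : K.Normal := hN.comap _
      have hRK : R ≤ K := by
        intro x hx
        rw [hK, Subgroup.mem_comap]
        have h1 : QuotientGroup.mk' R x = 1 := (QuotientGroup.eq_one_iff x).mpr hx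
        rw [h1]
        exact N.one_mem
      have hKs : Group.IsSolvable K := by
        haveI := hRs
        haveI := hNs
        refine Group.isSolvable_of_ker_le_range (Subgroup.inclusion hRK)
          ((QuotientGroup.mk' R).subgroupComap N) ?_
        intro x hx
        rw [MonoidHom.mem_ker] at hx
        have h1 : QuotientGroup.mk' R (x : G) = 1 := congrArg Subtype.val hx
        have h2 : (x : G) ∈ R := (QuotientGroup.eq_one_iff _).mp h1
        exact ⟨⟨x, h2⟩, Subtype.ext rfl⟩
      have hKR : K ≤ R := hRmax K inferInstance hKs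
      rw [eq_bot_iff]
      intro y hy
      obtain ⟨x, rfl⟩ := QuotientGroup.mk_surjective y
      have hxK : x ∈ K := hy
      exact (QuotientGroup.eq_one_iff x).mpr (hKR hxK)
    have conjinv : ∀ M : Subgroup (G ⧸ R), M.Normal → ∀ D : Subgroup (G ⧸ R), D ≤ M →
        (∀ m ∈ M, ∀ d ∈ D, m * d * m⁻¹ ∈ D) → ∀ g : G ⧸ R,
        D.map (MulAut.conj g).toMonoidHom ≤ M ∧
        (∀ m ∈ M, ∀ d ∈ D.map (MulAut.conj g).toMonoidHom,
          m * d * m⁻¹ ∈ D.map (MulAut.conj g).toMonoidHom) := by
      intro M hM D hDM hDinv g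
      constructor
      · rintro _ ⟨d, hd, rfl⟩
        exact hM.conj_mem d (hDM hd) g
      · rintro m hm _ ⟨d, hd, rfl⟩
        refine ⟨(g⁻¹ * m * g) * d * (g⁻¹ * m * g)⁻¹, hDinv _ ?_ d hd, ?_⟩
        · have := hM.conj_mem m hm g⁻¹
          simpa using this
        · show g * ((g⁻¹ * m * g) * d * (g⁻¹ * m * g)⁻¹) * g⁻¹ = m * (g * d * g⁻¹) * m⁻¹
          group
    have noP : ∀ M : Subgroup (G ⧸ R), M.Normal → ∀ p : ℕ, p.Prime →
        ∀ D : Subgroup (G ⧸ R), D ≤ M → (∀ m ∈ M, ∀ d ∈ D, m * d * m⁻¹ ∈ D) →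
        IsPGroup p D → D = ⊥ := by
      intro M hM p hp D hDM hDinv hDp
      haveI : Fact p.Prime := ⟨hp⟩
      obtain ⟨T, ⟨hTM, hTinv, hTp⟩, hTmax⟩ :=
        Lib.Helper22.exists_largest_of_sup_closed (G := G ⧸ R)
        (fun D => D ≤ M ∧ (∀ m ∈ M, ∀ d ∈ D, m * d * m⁻¹ ∈ D) ∧ IsPGroup p D)
        ⟨⊥, bot_le, by
          intro m _ d hd
          rw [Subgroup.mem_bot] at hd ⊢
          rw [hd]
          group, IsPGroup.of_bot⟩
        (by
          rintro A B ⟨hAM, hAinv, hAp⟩ ⟨hBM, hBinv, hBp⟩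
          refine ⟨sup_le hAM hBM, ?_, ?_⟩
          · intro m hm d hd
            have h1 : A ⊔ B ≤ (A ⊔ B).comap (MulAut.conj m).toMonoidHom := by
              apply sup_le
              · intro x hx
                rw [Subgroup.mem_comap]
                exact Subgroup.mem_sup_left (hAinv m hm x hx)
              · intro x hx
                rw [Subgroup.mem_comap]
                exact Subgroup.mem_sup_right (hBinv m hm x hx)
            exact h1 hd
          · refine IsPGroup.to_sup_of_normal_right' hAp hBp ?_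
            intro x hx
            rw [Subgroup.mem_normalizer_iff]
            intro b
            constructor
            · intro hb
              exact hBinv x (hAM hx) b hb
            · intro hb
              have := hBinv x⁻¹ (M.inv_mem (hAM hx)) _ hb
              simpa [mul_assoc] using this)
      have hTn : T.Normal := by
        refine ⟨fun t ht g => ?_⟩
        have h1 := conjinv M hM T hTM hTinv g
        have h2 : T.map (MulAut.conj g).toMonoidHom ≤ T := hTmax _ ⟨h1.1, h1.2, hTp.map _⟩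
        exact h2 ⟨t, ht, rfl⟩
      have hTs : Group.IsSolvable T := by
        haveI := hTp.isNilpotent
        infer_instance
      have hT := hnosol T hTn hTs
      have h3 := hTmax D ⟨hDM, hDinv, hDp⟩
      rw [hT] at h3
      exact le_bot_iff.mp h3
    have meet : ∀ M : Subgroup (G ⧸ R), M.Normal → ∀ A B : Subgroup (G ⧸ R), A ≤ M → B ≤ M →
        (∀ m ∈ M, ∀ d ∈ A, m * d * m⁻¹ ∈ A) → (∀ m ∈ M, ∀ d ∈ B, m * d * m⁻¹ ∈ B) →
        A ≠ ⊥ → B ≠ ⊥ → A ⊓ B ≠ ⊥ := by
      intro M hM A B hAM hBM hAinv hBinv hA hB hAB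
      obtain ⟨b, hb1⟩ := Subgroup.ne_bot_iff_exists_ne_one.mp hB
      have hb1' : (b : G ⧸ R) ≠ 1 := fun h => hb1 (Subtype.ext h)
      obtain ⟨r, k, hr, hk, hrk⟩ := (isPrimePow_nat_iff _).mp (hcpq b hb1')
      have hAr : ¬ IsPGroup r A := fun h => hA (noP M hM r hr A hAM hAinv h)
      unfold IsPGroup at hAr
      push_neg at hAr
      obtain ⟨a, ha⟩ := hAr
      have ha1 : (a : G ⧸ R) ≠ 1 := by
        intro h
        exact ha 0 (by
          apply Subtype.ext
          simpa using h)
      obtain ⟨p, l, hp, hl, hpl⟩ := (isPrimePow_nat_iff _).mp (hcpq a ha1)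
      have hpr : p ≠ r := by
        rintro rfl
        apply ha l
        apply Subtype.ext
        rw [Subgroup.coe_pow, hpl, pow_orderOf_eq_one]
        rfl
      have hcomm : Commute (a : G ⧸ R) (b : G ⧸ R) := by
        have h1 : (a : G ⧸ R) * b * (a : G ⧸ R)⁻¹ * (b : G ⧸ R)⁻¹ ∈ A ⊓ B := by
          constructor
          · have h2 := hAinv b (hBM b.2) (a⁻¹ : G ⧸ R) (A.inv_mem a.2)
            have h3 := A.mul_mem a.2 h2
            have e : (a : G ⧸ R) * b * (a : G ⧸ R)⁻¹ * (b : G ⧸ R)⁻¹ =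
                a * (b * (a : G ⧸ R)⁻¹ * (b : G ⧸ R)⁻¹) := by group
            rw [e]
            exact h3
          · have h2 := hBinv a (hAM a.2) b b.2
            exact B.mul_mem h2 (B.inv_mem b.2)
        rw [hAB, Subgroup.mem_bot] at h1
        have h4 : (a : G ⧸ R) * b = b * a := mul_inv_eq_iff_eq_mul.mp (mul_inv_eq_one.mp h1)
        exact h4
      have hco : (orderOf (a : G ⧸ R)).Coprime (orderOf (b : G ⧸ R)) := by
        rw [← hpl, ← hrk]
        exact Nat.Coprime.pow _ _ ((Nat.coprime_primes hp hr).mpr hpr)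
      rcases hcpq.commute hcomm hco with h | h
      · exact ha1 h
      · exact hb1' h
    have hGq : ¬ Group.IsSolvable (G ⧸ R) := by
      intro h
      apply hns
      haveI := hRs
      haveI := h
      exact Group.isSolvable_of_ker_le_range R.subtype (QuotientGroup.mk' R) (by
        intro x hx
        rw [MonoidHom.mem_ker] at hx
        exact ⟨⟨x, (QuotientGroup.eq_one_iff x).mp hx⟩, rfl⟩)
    have htop : (⊤ : Subgroup (G ⧸ R)) ≠ ⊥ := by
      intro h
      apply hGq
      haveI : Subsingleton (Subgroup (G ⧸ R)) := subsingleton_of_bot_eq_top h.symm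
      haveI : Subsingleton (G ⧸ R) := Subgroup.subsingleton_iff.mp inferInstance
      exact Group.isSolvable_of_comm (fun a b => Subsingleton.elim _ _)
    obtain ⟨M, ⟨hMn, hMne⟩, hMmin⟩ := Lib.Helper22.exists_least_of_inf_closed (G := G ⧸ R)
      (fun N => N.Normal ∧ N ≠ ⊥) ⟨⊤, inferInstance, htop⟩
      (by
        rintro A B ⟨hAn, hA⟩ ⟨hBn, hB⟩
        refine ⟨?_, ?_⟩
        · haveI := hAn
          haveI := hBn
          infer_instance
        · exact meet ⊤ inferInstance A B le_top le_top (fun m _ d hd => hAn.conj_mem d hd m)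
            (fun m _ d hd => hBn.conj_mem d hd m) hA hB)
    obtain ⟨D0, ⟨hD0M, hD0inv, hD0ne⟩, hD0min⟩ :=
      Lib.Helper22.exists_least_of_inf_closed (G := G ⧸ R)
      (fun D => D ≤ M ∧ (∀ m ∈ M, ∀ d ∈ D, m * d * m⁻¹ ∈ D) ∧ D ≠ ⊥)
      ⟨M, le_rfl, fun m hm d hd => M.mul_mem (M.mul_mem hm hd) (M.inv_mem hm), hMne⟩
      (by
        rintro A B ⟨hAM, hAinv, hA⟩ ⟨hBM, hBinv, hB⟩
        exact ⟨inf_le_of_left_le hAM, fun m hm d hd => ⟨hAinv m hm d hd.1, hBinv m hm d hd.2⟩,
          meet M hMn A B hAM hBM hAinv hBinv hA hB⟩)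
    have hD0n : D0.Normal := by
      refine ⟨fun d hd g => ?_⟩
      have h1 := conjinv M hMn D0 hD0M hD0inv g⁻¹
      have h2 : D0 ≤ D0.map (MulAut.conj g⁻¹).toMonoidHom := hD0min _ ⟨h1.1, h1.2, by
        rw [Ne, Subgroup.map_eq_bot_iff_of_injective _ (MulAut.conj g⁻¹).injective]
        exact hD0ne⟩
      obtain ⟨d', hd', hdd⟩ := h2 hd
      have h3 : g⁻¹ * d' * g⁻¹⁻¹ = d := hdd
      have h4 : g * d * g⁻¹ = d' := by
        rw [← h3]
        group
      rw [h4]
      exact hd'
    have hMD0 : M ≤ D0 := hMmin D0 ⟨hD0n, hD0ne⟩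
    refine ⟨M, hMn, ?_, ?_, fun N hN hNne => hMmin N ⟨hN, hNne⟩⟩
    · haveI : Nontrivial M := (Subgroup.nontrivial_iff_ne_bot M).mpr hMne
      refine ⟨fun H hH => ?_⟩
      by_cases hHb : H = ⊥
      · left
        exact hHb
      right
      have hS : M ≤ H.map M.subtype := by
        refine le_trans hMD0 (hD0min _ ⟨Subgroup.map_subtype_le H, ?_, ?_⟩)
        · rintro m hm _ ⟨h, hh, rfl⟩
          exact ⟨⟨m, hm⟩ * h * ⟨m, hm⟩⁻¹, hH.conj_mem h hh ⟨m, hm⟩, by simp⟩
        · rw [Ne, Subgroup.map_eq_bot_iff_of_injective _ M.subtype_injective]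
          exact hHb
      rw [eq_top_iff]
      intro x _
      obtain ⟨h, hh, hhx⟩ := hS x.2
      have h5 : h = x := Subtype.ext hhx
      rwa [← h5]
    · intro hcomm
      apply hMne
      apply hnosol M hMn
      exact Group.isSolvable_of_comm (isMulCommutative_iff.mp hcomm)
  · -- (3) solvable subgroups
    intro H hH
    by_contra hc
    push_neg at hc
    obtain ⟨a, ha, b, hb, c, hc', hab, hac, hbc⟩ := Finset.two_lt_card.mp hc
    rw [Nat.mem_primeFactors] at ha hb hc'
    exact Lib.Helper22.IsCP.solvable_three_primes _ H rfl (hcp.subgroup H) hH a b c ha.1 hb.1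
      hc'.1 hab hac hbc ha.2.1 hb.2.1 hc'.2.1

end Cfsg.Agent.S3992
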