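import Cfsg.Statements.S3995
import Cfsg.Agent.Lib.Helper21.OrdCount
import Cfsg.Agent.Lib.Lead.UniqueSubgroup

set_option autoImplicit false
open Cfsg

namespace Cfsg.Agent.S3995

open Cfsg.Agent.Lib.Helper21

theorem card_pow_eq_one_of_orders {G : Type*} [Group G] [Finite G] (d : ℕ) (S : Finset ℕ)
    (hS : ∀ m, m ∣ d ↔ m ∈ S) :
    Nat.card {x : G // x ^ d = 1} = ∑ m ∈ S, Nat.card {x : G // orderOf x = m} := by
  classical
  haveI : Fintype G := Fintype.ofFinite G
  have h1 : Nat.card {x : G // x ^ d = 1} = (Finset.univ.filter (fun x : G => x ^ d = 1)).card := by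
    rw [Nat.card_eq_fintype_card, Fintype.card_subtype]
  have hmaps : ∀ x ∈ Finset.univ.filter (fun x : G => x ^ d = 1), orderOf x ∈ S := by
    intro x hx
    exact (hS _).1 (orderOf_dvd_of_pow_eq_one (Finset.mem_filter.1 hx).2)
  rw [h1, Finset.card_eq_sum_card_fiberwise (f := orderOf) (t := S) hmaps]
  apply Finset.sum_congr rfl
  intro m hm
  rw [Nat.card_eq_fintype_card, Fintype.card_subtype, Finset.filter_filter]
  congr 1
  apply Finset.filter_congr
  intro x _
  constructor
  · exact fun h => h.2
  · intro h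
    refine ⟨?_, h⟩
    exact orderOf_dvd_iff_pow_eq_one.1 (h ▸ (hS m).2 hm)

theorem exists_orderOf_eq {G : Type*} [Group G] [Finite G] (g : G) (d : ℕ) (hd : d ∣ orderOf g) :
    ∃ g' : G, orderOf g' = d := by
  obtain ⟨c, hc⟩ := hd
  have hpos := orderOf_pos g
  have hc0 : c ≠ 0 := by
    rintro rfl
    rw [mul_zero] at hc
    omega
  refine ⟨g ^ c, ?_⟩
  rw [orderOf_pow_of_dvd hc0 ⟨d, by rw [hc, mul_comm]⟩, hc,
    Nat.mul_div_cancel _ (Nat.pos_of_ne_zero hc0)]

theorem dvd_four_iff (m : ℕ) : m ∣ 4 ↔ m ∈ ({1, 2, 4} : Finset ℕ) := by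
  constructor
  · intro hm
    have := Nat.le_of_dvd (by norm_num) hm
    interval_cases m <;> simp_all
  · intro hm
    simp at hm
    rcases hm with rfl | rfl | rfl <;> norm_num

theorem dvd_prime_mul_prime_iff {p q : ℕ} (hp : p.Prime) (hq : q.Prime) (m : ℕ) :
    m ∣ p * q ↔ m ∈ ({1, p, q, p * q} : Finset ℕ) := by
  constructor
  · intro hm
    obtain ⟨a, b, ha, hb, rfl⟩ := (Nat.dvd_mul).1 hm
    rcases (Nat.dvd_prime hp).1 ha with rfl | rfl <;>
      rcases (Nat.dvd_prime hq).1 hb with rfl | rfl <;> simp
  · intro hm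
    simp at hm
    rcases hm with rfl | rfl | rfl | rfl
    · exact one_dvd _
    · exact dvd_mul_right _ _
    · exact dvd_mul_left _ _
    · exact dvd_refl _

theorem dvd_four_mul_prime_iff {p : ℕ} (hp : p.Prime) (m : ℕ) :
    m ∣ 4 * p ↔ m ∈ ({1, 2, 4, p, 2 * p, 4 * p} : Finset ℕ) := by
  constructor
  · intro hm
    obtain ⟨a, b, ha, hb, rfl⟩ := (Nat.dvd_mul).1 hm
    have ha' := (dvd_four_iff a).1 ha
    simp at ha'
    rcases ha' with rfl | rfl | rfl <;>
      rcases (Nat.dvd_prime hp).1 hb with rfl | rfl <;> simp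
  · intro hm
    simp at hm
    rcases hm with rfl | rfl | rfl | rfl | rfl | rfl
    · exact one_dvd _
    · exact Dvd.dvd.mul_right (by norm_num) _
    · exact dvd_mul_right _ _
    · exact dvd_mul_left _ _
    · exact Nat.mul_dvd_mul_right (by norm_num) _
    · exact dvd_refl _

theorem exists_zmod_equiv {G : Type*} [Group G] (z : G) (k : ℕ)
    (hk : Nat.card (Subgroup.zpowers z) = k) :
    Nonempty (Multiplicative (ZMod k) ≃* ↥(Subgroup.zpowers z)) := by
  subst hk
  exact ⟨zmodCyclicMulEquiv (inferInstance : IsCyclic (Subgroup.zpowers z))⟩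

/-- Let G be a finite group such that the numbers of elements of each order that occurs in G (the numbers #{g : o(g) = m}, m ranging over the element orders of G) take exactly two values, 1 and some n ≠ 1. Then either G is a p-group of exponent p and order at least 3 for some prime p, or G is the quaternion group of order 8, or G is cyclic of order 4, or G ≅ Z₂ × P for a p-group P of exponent p with p an odd prime. -/
theorem result {G : Type*} [Group G] [Finite G] (n : ℕ) (hn : n ≠ 1) (h : ((fun m : ℕ => Nat.card {g : G // orderOf g = m}) '' Set.range (orderOf : G → ℕ)) = {1, n}) :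
    (∃ p : ℕ, p.Prime ∧ IsPGroup p G ∧ 3 ≤ Nat.card G ∧ Monoid.exponent G = p) ∨
      Nonempty (G ≃* QuaternionGroup 2) ∨ (IsCyclic G ∧ Nat.card G = 4) ∨
      (∃ (p : ℕ) (P : Type) (_ : Group P) (_ : Finite P), p.Prime ∧ p ≠ 2 ∧ IsPGroup p P ∧ Monoid.exponent P = p ∧
        Nonempty (G ≃* Multiplicative (ZMod 2) × P)) := by
  classical
  obtain ⟨s, hs⟩ : ∃ s : ℕ → ℕ, ∀ m, s m = Nat.card {x : G // orderOf x = m} :=
    ⟨_, fun _ => rfl⟩
  have hval : ∀ g : G, s (orderOf g) = 1 ∨ s (orderOf g) = n := by
    intro g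
    have h0 : Nat.card {x : G // orderOf x = orderOf g} ∈ ({1, n} : Set ℕ) := by
      rw [← h]; exact ⟨orderOf g, ⟨g, rfl⟩, rfl⟩
    rw [← hs] at h0
    simpa using h0
  have hex : ∃ g : G, s (orderOf g) = n := by
    have h0 : n ∈ ((fun m : ℕ => Nat.card {g : G // orderOf g = m}) ''
        Set.range (orderOf : G → ℕ)) := by rw [h]; simp
    obtain ⟨m, ⟨g, rfl⟩, hm⟩ := h0
    exact ⟨g, (hs _).trans hm⟩
  have htot : ∀ m, Nat.totient m ∣ s m := by
    intro m; rw [hs]; exact totient_dvd_card_orderOf m
  have hs1 : s 1 = 1 := by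
    rw [hs, Nat.card_eq_one_iff_unique]
    exact ⟨⟨fun a b => Subtype.ext
      ((orderOf_eq_one_iff.1 a.2).trans (orderOf_eq_one_iff.1 b.2).symm)⟩, ⟨⟨1, orderOf_one⟩⟩⟩
  have hs0 : ∀ m, (∀ g : G, orderOf g ≠ m) → s m = 0 := by
    intro m hm
    rw [hs]
    haveI : IsEmpty {x : G // orderOf x = m} := ⟨fun x => hm x.1 x.2⟩
    exact Nat.card_of_isEmpty
  have hbig : ∀ g : G, 3 ≤ orderOf g → s (orderOf g) = n := by
    intro g hg
    rcases hval g with h1 | h1
    · exfalso
      have ht := htot (orderOf g)
      rw [h1, Nat.dvd_one, Nat.totient_eq_one_iff] at ht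
      omega
    · exact h1
  have hn0 : n ≠ 0 := by
    obtain ⟨g, hg⟩ := hex
    rw [← hg, hs]
    haveI : Nonempty {x : G // orderOf x = orderOf g} := ⟨⟨g, rfl⟩⟩
    exact Nat.card_pos.ne'
  have hcauchy : ∀ p : ℕ, p.Prime → p ∣ Nat.card G → ∃ g : G, orderOf g = p := by
    intro p hp hd
    haveI := Fact.mk hp
    exact exists_prime_orderOf_dvd_card' p hd
  have hsum : ∀ (d : ℕ) (S : Finset ℕ), (∀ m, m ∣ d ↔ m ∈ S) →
      Nat.card {x : G // x ^ d = 1} = ∑ m ∈ S, s m := by
    intro d S hS
    rw [card_pow_eq_one_of_orders d S hS]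
    exact Finset.sum_congr rfl (fun m _ => (hs m).symm)
  have hfrob : ∀ (d : ℕ) (S : Finset ℕ), d ∣ Nat.card G → (∀ m, m ∣ d ↔ m ∈ S) →
      d ∣ ∑ m ∈ S, s m := by
    intro d S hd hS
    rw [← hsum d S hS]
    exact frobenius d hd
  have hord : ∀ g x : G, orderOf (g * x * g⁻¹) = orderOf x := by
    intro g x
    have := (MulAut.conj g).orderOf_eq x
    rwa [MulAut.conj_apply] at this
  -- generic arithmetic consequences
  have hα : ∀ p : ℕ, p.Prime → p ∣ Nat.card G → s p = n → p ∣ 1 + n := by
    intro p hp hpd hsp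
    have h0 := hfrob p {1, p} hpd (fun m => by rw [Nat.dvd_prime hp]; simp)
    rwa [Finset.sum_pair hp.one_lt.ne, hs1, hsp] at h0
  have hβ : ∀ p : ℕ, p.Prime → p ∣ Nat.card G → s p = n → s (p ^ 2) = n → False := by
    intro p hp hpd hsp hsp2
    have ht := htot (p ^ 2)
    rw [hsp2, Nat.totient_prime_pow hp (by norm_num : 0 < 2)] at ht
    have hpn : p ∣ n := (Dvd.dvd.mul_right (dvd_pow_self p (by norm_num)) _).trans ht
    have h1 := (Nat.dvd_add_left hpn).1 (hα p hp hpd hsp)
    exact hp.one_lt.ne' (Nat.dvd_one.1 h1)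
  have hγ : ∀ p q : ℕ, p.Prime → q.Prime → p ≠ q → p ∣ Nat.card G → q ∣ Nat.card G →
      s p = n → s q = n → (s (p * q) = n ∨ s (p * q) = 0) → False := by
    intro p q hp hq hne hpd hqd hsp hsq hspq
    have hp1 := hα p hp hpd hsp
    have hq1 := hα q hq hqd hsq
    have hpq : p * q ∣ Nat.card G :=
      Nat.Coprime.mul_dvd_of_dvd_of_dvd ((Nat.coprime_primes hp hq).2 hne) hpd hqd
    have hF := hfrob (p * q) {1, p, q, p * q} hpq (dvd_prime_mul_prime_iff hp hq)
    have h1p := hp.one_lt
    have h1q := hq.one_lt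
    have hpq1 : p < p * q := by nlinarith
    have hpq2 : q < p * q := by nlinarith
    rw [Finset.sum_insert (by simp; omega), Finset.sum_insert (by simp; omega),
      Finset.sum_pair (by omega), hs1, hsp, hsq] at hF
    rcases hspq with h0 | h0
    · rw [h0] at hF
      have e : 3 * (1 + n) - (1 + (n + (n + n))) = 2 := by omega
      have hp2 := Nat.dvd_sub (Dvd.dvd.mul_left hp1 3) ((dvd_mul_right p q).trans hF)
      have hq2 := Nat.dvd_sub (Dvd.dvd.mul_left hq1 3) ((dvd_mul_left q p).trans hF)
      rw [e] at hp2 hq2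
      exact hne (((Nat.prime_dvd_prime_iff_eq hp Nat.prime_two).1 hp2).trans
        ((Nat.prime_dvd_prime_iff_eq hq Nat.prime_two).1 hq2).symm)
    · rw [h0] at hF
      have e : 2 * (1 + n) - (1 + (n + (n + 0))) = 1 := by omega
      have hp2 := Nat.dvd_sub (Dvd.dvd.mul_left hp1 2) ((dvd_mul_right p q).trans hF)
      rw [e] at hp2
      exact hp.one_lt.ne' (Nat.dvd_one.1 hp2)
  by_cases h2 : ∃ z : G, orderOf z = 2 ∧ s 2 = 1
  · -- a unique involution `z`
    obtain ⟨z, hz2, hs2⟩ := h2
    have huniq : ∀ x : G, orderOf x = 2 → x = z := by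
      intro x hx
      have h0 := hs2
      rw [hs 2, Nat.card_eq_one_iff_unique] at h0
      obtain ⟨hsub, -⟩ := h0
      exact congrArg Subtype.val (hsub.elim ⟨x, hx⟩ ⟨z, hz2⟩)
    have hzc : ∀ g : G, g * z = z * g := by
      intro g
      have h1 : orderOf (g * z * g⁻¹) = 2 := by rw [hord, hz2]
      have h0 := huniq _ h1
      calc g * z = g * z * g⁻¹ * g := by group
        _ = z * g := by rw [h0]
    by_cases h4 : ∃ x : G, orderOf x = 4
    · obtain ⟨x4, hx4⟩ := h4
      have hs4 : s 4 = n := by
        have h0 := hbig x4 (by omega)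
        rwa [hx4] at h0
      have h4G : 4 ∣ Nat.card G := hx4 ▸ orderOf_dvd_natCard x4
      have hF4 := hfrob 4 {1, 2, 4} h4G dvd_four_iff
      rw [Finset.sum_insert (by decide), Finset.sum_pair (by decide), hs1, hs2, hs4] at hF4
      have hno8 : ∀ g : G, orderOf g ≠ 8 := by
        intro g hg
        have h8 : s 8 = n := by
          have h0 := hbig g (by omega)
          rwa [hg] at h0
        have ht := htot 8
        rw [h8] at ht
        have e8 : Nat.totient 8 = 4 := by decide
        rw [e8] at ht
        omega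
      have hodd : ∀ p : ℕ, p.Prime → p ∣ Nat.card G → p = 2 := by
        intro p hp hpd
        by_contra hp2
        have hp3 : 3 ≤ p := by
          have h0 := hp.two_le
          omega
        obtain ⟨y, hy⟩ := hcauchy p hp hpd
        have hsp : s p = n := by
          have h0 := hbig y (by omega)
          rwa [hy] at h0
        have hp1 := hα p hp hpd hsp
        have hcop2 : Nat.Coprime 2 p := (Nat.coprime_primes Nat.prime_two hp).2 (Ne.symm hp2)
        have hzy : orderOf (z * y) = 2 * p := by
          have hc : Commute z y := (hzc y).symm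
          rw [hc.orderOf_mul_eq_mul_orderOf_of_coprime (by rw [hz2, hy]; exact hcop2), hz2, hy]
        have hs2p : s (2 * p) = n := by
          have h0 := hbig (z * y) (by omega)
          rwa [hzy] at h0
        have hcop : Nat.Coprime 4 p := by
          have h0 : Nat.Coprime (2 ^ 2) p := Nat.Coprime.pow_left 2 hcop2
          exact h0
        have h4p : 4 * p ∣ Nat.card G := Nat.Coprime.mul_dvd_of_dvd_of_dvd hcop h4G hpd
        have hp4 : p ≠ 4 := by
          rintro rfl
          exact absurd hp (by decide)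
        have hF := hfrob (4 * p) {1, 2, 4, p, 2 * p, 4 * p} h4p (dvd_four_mul_prime_iff hp)
        rw [Finset.sum_insert (by simp; omega), Finset.sum_insert (by simp; omega),
          Finset.sum_insert (by simp; omega), Finset.sum_insert (by simp; omega),
          Finset.sum_pair (by omega), hs1, hs2, hs4, hsp, hs2p] at hF
        have hpF : p ∣ 1 + (1 + (n + (n + (n + s (4 * p))))) := (dvd_mul_left p 4).trans hF
        by_cases h4pe : ∃ g : G, orderOf g = 4 * p
        · obtain ⟨g, hg⟩ := h4pe
          have hs4p : s (4 * p) = n := by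
            have h0 := hbig g (by omega)
            rwa [hg] at h0
          rw [hs4p] at hpF
          have h0 := Nat.dvd_sub (Dvd.dvd.mul_left hp1 4) hpF
          have e : 4 * (1 + n) - (1 + (1 + (n + (n + (n + n))))) = 2 := by omega
          rw [e] at h0
          exact hp2 ((Nat.prime_dvd_prime_iff_eq hp Nat.prime_two).1 h0)
        · have hs4p : s (4 * p) = 0 := hs0 _ (fun g hg => h4pe ⟨g, hg⟩)
          rw [hs4p] at hpF
          have h0 := Nat.dvd_sub (Dvd.dvd.mul_left hp1 3) hpF
          have e : 3 * (1 + n) - (1 + (1 + (n + (n + (n + 0))))) = 1 := by omega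
          rw [e] at h0
          exact hp.one_lt.ne' (Nat.dvd_one.1 h0)
      have hk := Nat.eq_prime_pow_of_unique_prime_dvd (Nat.card_pos (α := G)).ne'
        (fun {d} hd hdd => hodd d hd hdd)
      haveI : Fact (Nat.Prime 2) := ⟨Nat.prime_two⟩
      have hG2 : IsPGroup 2 G := IsPGroup.of_card hk
      have hU : Lib.Lead.UniqP 2 G := by
        intro x y hx hy hx1
        have hxz : x = z := huniq x (orderOf_eq_prime hx hx1)
        by_cases hy1 : y = 1
        · rw [hy1]; exact one_mem _
        · have hyz : y = z := huniq y (orderOf_eq_prime hy hy1)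
          rw [hyz, ← hxz]; exact Subgroup.mem_zpowers x
      have hord4 : ∀ g : G, orderOf g ∣ 4 := by
        intro g
        have hg0 := orderOf_dvd_natCard g
        rw [hk] at hg0
        obtain ⟨j, hjk, hj⟩ := (Nat.dvd_prime_pow Nat.prime_two).1 hg0
        by_contra hnd
        have hj3 : 3 ≤ j := by
          by_contra hlt
          have hj2 : j ≤ 2 := by omega
          apply hnd
          rw [hj]
          exact pow_dvd_pow 2 hj2
        obtain ⟨g', hg'⟩ := exists_orderOf_eq g 8 (by
          rw [hj]; exact pow_dvd_pow 2 hj3)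
        exact hno8 g' hg'
      rcases Lib.Lead.uniqP_cyclic_or_quaternion 2 hG2 hU with hc | ⟨-, m, ⟨e⟩⟩
      · right; right; left
        refine ⟨hc, ?_⟩
        obtain ⟨g1, hg1⟩ := IsCyclic.exists_ofOrder_eq_natCard (α := G)
        have h1 : Nat.card G ∣ 4 := hg1 ▸ hord4 g1
        exact Nat.dvd_antisymm h1 h4G
      · have ha : orderOf (e.symm (QuaternionGroup.a 1)) = 2 * 2 ^ m := by
          rw [MulEquiv.orderOf_eq, QuaternionGroup.orderOf_a_one]
        have h1 := hord4 (e.symm (QuaternionGroup.a 1))
        rw [ha] at h1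
        have hm1 : m ≤ 1 := by
          by_contra hlt
          have hm2 : 2 ≤ m := by omega
          have h8 : 8 ∣ 2 * 2 ^ m := by
            obtain ⟨c, hc⟩ := pow_dvd_pow 2 hm2
            exact ⟨c, by rw [hc]; ring⟩
          have h0 := Nat.le_of_dvd (by norm_num) (h8.trans h1)
          omega
        interval_cases m
        · right; right; left
          have hc4 : Nat.card G = 4 := by
            rw [Nat.card_congr e.toEquiv, Nat.card_eq_fintype_card, QuaternionGroup.card]
            norm_num
          exact ⟨isCyclic_of_orderOf_eq_card x4 (by rw [hx4, hc4]), hc4⟩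
        · right; left
          exact ⟨e⟩
    · -- no element of order 4
      have h4' : ∀ g : G, orderOf g ≠ 4 := fun g hg => h4 ⟨g, hg⟩
      have h4G : ¬ 4 ∣ Nat.card G := by
        intro h4G
        have hF4 := hfrob 4 {1, 2, 4} h4G dvd_four_iff
        rw [Finset.sum_insert (by decide), Finset.sum_pair (by decide), hs1, hs2, hs0 4 h4'] at hF4
        omega
      have h2G : 2 ∣ Nat.card G := hz2 ▸ orderOf_dvd_natCard z
      obtain ⟨g, hg⟩ := hex
      have hg3 : 3 ≤ orderOf g := by
        by_contra hlt
        have hpos := orderOf_pos g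
        have h12 : orderOf g = 1 ∨ orderOf g = 2 := by omega
        rcases h12 with h1 | h1
        · rw [h1, hs1] at hg; exact hn hg.symm
        · rw [h1, hs2] at hg; exact hn hg.symm
      obtain ⟨p, hp, hpg, hp2⟩ : ∃ p : ℕ, p.Prime ∧ p ∣ orderOf g ∧ p ≠ 2 := by
        by_contra hcon
        have hcon' : ∀ d : ℕ, d.Prime → d ∣ orderOf g → d = 2 := by
          intro d hd hdd
          by_contra hne
          exact hcon ⟨d, hd, hdd, hne⟩
        have h0 := Nat.eq_prime_pow_of_unique_prime_dvd (orderOf_pos g).ne'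
          (fun {d} hd hdd => hcon' d hd hdd)
        have hlen : 2 ≤ (orderOf g).primeFactorsList.length := by
          by_contra hlt
          have h1 : (orderOf g).primeFactorsList.length ≤ 1 := by omega
          have h2' : orderOf g ≤ 2 ^ 1 := by
            rw [h0]
            exact Nat.pow_le_pow_right (by norm_num) h1
          omega
        apply h4G
        refine dvd_trans ?_ (orderOf_dvd_natCard g)
        rw [h0]
        exact pow_dvd_pow 2 hlen
      have hpd : p ∣ Nat.card G := hpg.trans (orderOf_dvd_natCard g)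
      have hp3 : 3 ≤ p := by
        have h0 := hp.two_le
        omega
      have hsodd : ∀ q : ℕ, q.Prime → q ≠ 2 → q ∣ Nat.card G → s q = n := by
        intro q hq hq2 hqd
        obtain ⟨y, hy⟩ := hcauchy q hq hqd
        have h0 := hbig y (by
          have h1 := hq.two_le
          omega)
        rwa [hy] at h0
      have hsp := hsodd p hp hp2 hpd
      have hodd : ∀ q : ℕ, q.Prime → q ∣ Nat.card G → q = 2 ∨ q = p := by
        intro q hq hqd
        by_contra hcon
        have hq2 : q ≠ 2 := fun h0 => hcon (Or.inl h0)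
        have hqp : q ≠ p := fun h0 => hcon (Or.inr h0)
        have hsq := hsodd q hq hq2 hqd
        apply hγ p q hp hq (Ne.symm hqp) hpd hqd hsp hsq
        by_cases hpq : ∃ g : G, orderOf g = p * q
        · obtain ⟨g', hg'⟩ := hpq
          left
          have h0 := hbig g' (by
            rw [hg']
            have h1 := hq.two_le
            nlinarith)
          rwa [hg'] at h0
        · right
          exact hs0 _ (fun g' hg' => hpq ⟨g', hg'⟩)
      obtain ⟨m', hm'⟩ := h2G
      have hm'odd : ¬ 2 ∣ m' := by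
        intro h0
        apply h4G
        rw [hm']
        obtain ⟨c, hc⟩ := h0
        exact ⟨c, by rw [hc]; ring⟩
      have hm'pos : m' ≠ 0 := by
        rintro rfl
        have h0 := Nat.card_pos (α := G)
        omega
      have hm'p : m' = p ^ m'.primeFactorsList.length :=
        Nat.eq_prime_pow_of_unique_prime_dvd hm'pos (fun {d} hd hdd => by
          rcases hodd d hd (hm' ▸ Dvd.dvd.mul_left hdd 2) with h0 | h0
          · exact absurd (h0 ▸ hdd) hm'odd
          · exact h0)
      obtain ⟨k, hk⟩ : ∃ k, m' = p ^ k := ⟨_, hm'p⟩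
      haveI : Fact p.Prime := ⟨hp⟩
      obtain ⟨P, hPcard⟩ := Sylow.exists_subgroup_card_pow_prime p
        (show p ^ k ∣ Nat.card G by rw [hm', hk]; exact dvd_mul_left _ _)
      have hpk : 0 < p ^ k := pow_pos hp.pos k
      have hPidx : P.index = 2 := by
        have h0 := P.card_mul_index
        rw [hPcard, hm', hk] at h0
        exact Nat.eq_of_mul_eq_mul_left hpk (by rw [h0]; ring)
      haveI hPn : P.Normal := Subgroup.normal_of_index_eq_two hPidx
      have hkpos : 0 < k := by
        by_contra h0
        have hk0 : k = 0 := by omega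
        rw [hk0, pow_zero] at hk
        rw [hm', hk] at hpd
        have h1 := Nat.le_of_dvd (by norm_num) hpd
        omega
      have hPord : ∀ y ∈ P, orderOf y ∣ p ^ k := by
        intro y hy
        have h0 := orderOf_dvd_natCard (⟨y, hy⟩ : P)
        rwa [Subgroup.orderOf_mk, hPcard] at h0
      have hexpP : ∀ y ∈ P, y ^ p = 1 := by
        intro y hy
        obtain ⟨j, hjk, hj⟩ := (Nat.dvd_prime_pow hp).1 (hPord y hy)
        have hj1 : j ≤ 1 := by
          by_contra hlt
          obtain ⟨g', hg'⟩ := exists_orderOf_eq y (p ^ 2)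
            (by rw [hj]; exact pow_dvd_pow p (by omega))
          have hsp2 : s (p ^ 2) = n := by
            have h0 := hbig g' (by rw [hg']; nlinarith)
            rwa [hg'] at h0
          exact hβ p hp hpd hsp hsp2
        apply orderOf_dvd_iff_pow_eq_one.1
        rw [hj]
        exact (pow_dvd_pow p hj1).trans (by rw [pow_one])
      have hZcard : Nat.card (Subgroup.zpowers z) = 2 := by rw [Nat.card_zpowers, hz2]
      have hcop2 : Nat.Coprime 2 (p ^ k) :=
        Nat.Coprime.pow_right k ((Nat.coprime_primes Nat.prime_two hp).2 (Ne.symm hp2))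
      have hdisj : ∀ a ∈ Subgroup.zpowers z, a ∈ P → a = 1 := by
        intro a haZ haP
        have h1 : orderOf a ∣ 2 := by rw [← hz2]; exact orderOf_dvd_of_mem_zpowers haZ
        have h2' := hPord a haP
        have h3 := Nat.dvd_gcd h1 h2'
        rw [hcop2] at h3
        exact orderOf_eq_one_iff.1 (Nat.dvd_one.1 h3)
      obtain ⟨φ, hφ⟩ : ∃ φ : ↥(Subgroup.zpowers z) × ↥P →* G,
          ∀ ab, φ ab = (ab.1 : G) * (ab.2 : G) :=
        ⟨MonoidHom.noncommCoprod (Subgroup.zpowers z).subtype P.subtype (fun a b => by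
          obtain ⟨j, hj⟩ := Subgroup.mem_zpowers_iff.1 a.2
          show (a : G) * (b : G) = (b : G) * (a : G)
          rw [← hj]
          exact (Commute.zpow_left (show Commute z (b : G) from (hzc b).symm) j).eq),
          fun ab => rfl⟩
      have hφinj : Function.Injective φ := by
        rw [injective_iff_map_eq_one]
        rintro ⟨a, b⟩ hab
        have h1 : (a : G) * (b : G) = 1 := by
          have h0 := hφ (a, b)
          rw [hab] at h0
          exact h0.symm
        have h2' : (a : G) = (b : G)⁻¹ := eq_inv_of_mul_eq_one_left h1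
        have ha1 : (a : G) = 1 := hdisj a a.2 (h2' ▸ P.inv_mem b.2)
        have hb1 : (b : G) = 1 := by rw [ha1, one_mul] at h1; exact h1
        exact Prod.ext (Subtype.ext ha1) (Subtype.ext hb1)
      have hφbij : Function.Bijective φ := by
        rw [Nat.bijective_iff_injective_and_card]
        refine ⟨hφinj, ?_⟩
        rw [Nat.card_prod, hZcard, hPcard, hm', hk]
      obtain ⟨eZ⟩ := exists_zmod_equiv z 2 hZcard
      obtain ⟨eP⟩ : Nonempty ({i : ℕ // i < Nat.card P} ≃ ↥P) :=
        ⟨(Fin.equivSubtype.symm).trans (Finite.equivFin ↥P).symm⟩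
      letI grp : Group {i : ℕ // i < Nat.card P} := Equiv.group eP
      have hexpP' : Monoid.exponent ↥P = p := by
        have h1 : Monoid.exponent ↥P ∣ p :=
          Monoid.exponent_dvd_of_forall_pow_eq_one (fun y => Subtype.ext (by
            rw [Subgroup.coe_pow]; exact hexpP y y.2))
        rcases (Nat.dvd_prime hp).1 h1 with h0 | h0
        · exfalso
          haveI := Monoid.exp_eq_one_iff.1 h0
          have h3 : Nat.card ↥P = 1 := Nat.card_unique
          rw [hPcard] at h3
          have h4'' : p ^ 1 ≤ p ^ k := Nat.pow_le_pow_right hp.pos hkpos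
          rw [pow_one] at h4''
          omega
        · exact h0
      right; right; right
      refine ⟨p, {i : ℕ // i < Nat.card P}, grp, Finite.of_equiv _ eP.symm, hp, hp2, ?_, ?_, ⟨?_⟩⟩
      · exact (IsPGroup.of_card hPcard).of_equiv (Equiv.mulEquiv eP).symm
      · rw [Monoid.exponent_eq_of_mulEquiv (Equiv.mulEquiv eP)]
        exact hexpP'
      · exact (MulEquiv.ofBijective φ hφbij).symm.trans
          (MulEquiv.prodCongr eZ.symm (Equiv.mulEquiv eP).symm)
  · -- no unique involution: all nontrivial orders have count `n`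
    have h2 : ∀ z : G, orderOf z = 2 → s 2 ≠ 1 := fun z hz hs2 => h2 ⟨z, hz, hs2⟩
    have hall : ∀ g : G, g ≠ 1 → s (orderOf g) = n := by
      intro g hg
      rcases hval g with h1 | h1
      · exfalso
        have ht := htot (orderOf g)
        rw [h1, Nat.dvd_one, Nat.totient_eq_one_iff] at ht
        rcases ht with ht | ht
        · exact hg (orderOf_eq_one_iff.1 ht)
        · exact h2 g ht (ht ▸ h1)
      · exact h1
    obtain ⟨g0, hg0⟩ := hex
    have hg01 : g0 ≠ 1 := by
      rintro rfl
      rw [orderOf_one, hs1] at hg0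
      exact hn hg0.symm
    have hsprime : ∀ q : ℕ, q.Prime → q ∣ Nat.card G → s q = n := by
      intro q hq hqd
      obtain ⟨y, hy⟩ := hcauchy q hq hqd
      have hy1 : y ≠ 1 := by
        rintro rfl
        rw [orderOf_one] at hy
        exact hq.one_lt.ne hy
      have h0 := hall y hy1
      rwa [hy] at h0
    have hcard1 : 1 < Nat.card G := by
      have h0 : 2 ≤ orderOf g0 := by
        have h1 := orderOf_pos g0
        have h2' : orderOf g0 ≠ 1 := fun h => hg01 (orderOf_eq_one_iff.1 h)
        omega
      have h1 := Nat.le_of_dvd Nat.card_pos (orderOf_dvd_natCard g0)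
      omega
    obtain ⟨p, hp, hpd⟩ := Nat.exists_prime_and_dvd hcard1.ne'
    have huniqp : ∀ q : ℕ, q.Prime → q ∣ Nat.card G → q = p := by
      intro q hq hqd
      by_contra hne
      apply hγ p q hp hq (Ne.symm hne) hpd hqd (hsprime p hp hpd) (hsprime q hq hqd)
      by_cases hpq : ∃ g : G, orderOf g = p * q
      · obtain ⟨g', hg'⟩ := hpq
        left
        have hg'1 : g' ≠ 1 := by
          rintro rfl
          rw [orderOf_one] at hg'
          have h1 := hp.two_le
          have h2' := hq.two_le
          nlinarith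
        have h0 := hall g' hg'1
        rwa [hg'] at h0
      · right
        exact hs0 _ (fun g' hg' => hpq ⟨g', hg'⟩)
    have hk := Nat.eq_prime_pow_of_unique_prime_dvd (Nat.card_pos (α := G)).ne'
      (fun {d} hd hdd => huniqp d hd hdd)
    haveI : Fact p.Prime := ⟨hp⟩
    have hGp : IsPGroup p G := IsPGroup.of_card hk
    have hexpG : ∀ y : G, y ^ p = 1 := by
      intro y
      have hy0 := orderOf_dvd_natCard y
      rw [hk] at hy0
      obtain ⟨j, hjk, hj⟩ := (Nat.dvd_prime_pow hp).1 hy0
      have hj1 : j ≤ 1 := by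
        by_contra hlt
        obtain ⟨g', hg'⟩ := exists_orderOf_eq y (p ^ 2)
          (by rw [hj]; exact pow_dvd_pow p (by omega))
        have hg'1 : g' ≠ 1 := by
          rintro rfl
          rw [orderOf_one] at hg'
          have h1 := hp.two_le
          nlinarith
        have hsp2 : s (p ^ 2) = n := by
          have h0 := hall g' hg'1
          rwa [hg'] at h0
        exact hβ p hp hpd (hsprime p hp hpd) hsp2
      apply orderOf_dvd_iff_pow_eq_one.1
      rw [hj]
      exact (pow_dvd_pow p hj1).trans (by rw [pow_one])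
    left
    refine ⟨p, hp, hGp, ?_, ?_⟩
    · by_contra hlt
      have hc2 : Nat.card G = 2 := by omega
      have hg02 : orderOf g0 = 2 := by
        have h0 := orderOf_dvd_natCard g0
        rw [hc2] at h0
        rcases (Nat.dvd_prime Nat.prime_two).1 h0 with h1 | h1
        · exact absurd (orderOf_eq_one_iff.1 h1) hg01
        · exact h1
      rw [hg02] at hg0
      have hsum2 := hsum 2 {1, 2} (fun m => by rw [Nat.dvd_prime Nat.prime_two]; simp)
      rw [Finset.sum_pair (by decide), hs1, hg0] at hsum2
      have hle : Nat.card {x : G // x ^ 2 = 1} ≤ Nat.card G := Finite.card_subtype_le _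
      rw [hsum2, hc2] at hle
      have h01 : n = 0 ∨ n = 1 := by omega
      rcases h01 with h0 | h0
      · exact hn0 h0
      · exact hn h0
    · have h1 : Monoid.exponent G ∣ p := Monoid.exponent_dvd_of_forall_pow_eq_one hexpG
      rcases (Nat.dvd_prime hp).1 h1 with h0 | h0
      · exfalso
        haveI := Monoid.exp_eq_one_iff.1 h0
        exact hg01 (Subsingleton.elim _ _)
      · exact h0

end Cfsg.Agent.S3995
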