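import Cfsg.Statements.S4010
import Mathlib
import Cfsg.Agent.Lib.Helper22.DL3

set_option autoImplicit false
open Cfsg

namespace Cfsg.Agent.S4010

/-- Let F be a field, n ≥ 1, and P a finite p-group (p a prime) admitting an injective homomorphism into the general linear group of degree n over F. Then the derived length of P is at most ⌊log₂ n⌋ + 1: that term of the derived series of P is trivial. -/
theorem result {P : Type*} [Group P] [Finite P] (p : ℕ) [Fact p.Prime] (hP : IsPGroup p P) (F : Type*) [Field F] (n : ℕ) (hn : 1 ≤ n) (ρ : P →* Matrix.GeneralLinearGroup (Fin n) F) (hρ : Function.Injective ρ) : derivedSeries P (Nat.log 2 n + 1) = ⊥ := by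
  classical
  by_cases hpF : (p : F) = 0
  · have hτ : Function.Injective
        ((Cfsg.Agent.Lib.Helper22.DL.glToEnd (RingHom.id F) n).comp ρ) :=
      fun x y h => hρ (Cfsg.Agent.Lib.Helper22.DL.glToEnd_injective _ n h)
    exact Cfsg.Agent.Lib.Helper22.DL.unipotent_case p hpF hP
      ((Cfsg.Agent.Lib.Helper22.DL.glToEnd (RingHom.id F) n).comp ρ) hτ (Nat.log 2 n + 1)
      (by rw [Module.finrank_fin_fun]; exact (Nat.lt_pow_succ_log_self (by norm_num) n).le)
  · have hpK : (p : AlgebraicClosure F) ≠ 0 := by
      intro h; apply hpF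
      have h1 : algebraMap F (AlgebraicClosure F) (p : F) = 0 := by rw [map_natCast]; exact h
      exact (map_eq_zero_iff _ (algebraMap F (AlgebraicClosure F)).injective).mp h1
    have hτ : Function.Injective
        ((Cfsg.Agent.Lib.Helper22.DL.glToEnd (algebraMap F (AlgebraicClosure F)) n).comp ρ) :=
      fun x y h => hρ (Cfsg.Agent.Lib.Helper22.DL.glToEnd_injective _ n h)
    exact Cfsg.Agent.Lib.Helper22.DL.semisimple_case p hpK n P hP (Fin n → AlgebraicClosure F)
      (Module.finrank_fin_fun _) _ hτ

end Cfsg.Agent.S4010
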