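import Cfsg.Statements.S4013
import Mathlib

set_option autoImplicit false
open Cfsg

namespace Cfsg.Agent.S4013

/-- Let G be a finite p-group (p prime) and N < M normal subgroups of G such that for some g ∈ M ∖ N the conjugacy class of g is exactly M ∖ N. Then p = 2 and N has index 2 in M. -/
theorem result {G : Type*} [Group G] [Finite G] (p : ℕ) [Fact p.Prime] (hG : IsPGroup p G) (N M : Subgroup G) [N.Normal] [M.Normal] (hNM : N < M) (g : G) (hgM : g ∈ M) (hgN : g ∉ N) (hcl : {h : G | IsConj g h} = (M : Set G) \ (N : Set G)) : p = 2 ∧ N.relIndex M = 2 := by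
  classical
  have hpp : p.Prime := Fact.out
  obtain ⟨n, hn⟩ := IsPGroup.iff_card.mp hG
  have horb : {h : G | IsConj g h} = MulAction.orbit (ConjAct G) g := by
    ext h
    rw [ConjAct.mem_orbit_conjAct]
    exact ⟨fun h' => h'.symm, fun h' => h'.symm⟩
  have hGc : IsPGroup p (ConjAct G) := hG.of_equiv ConjAct.toConjAct
  obtain ⟨j, hj⟩ := hGc.card_orbit g
  rw [Nat.card_coe_set_eq, ← horb, hcl] at hj
  have hsub : (N : Set G) ⊆ (M : Set G) := hNM.le
  have hdiff := Set.ncard_sdiff_add_ncard_of_subset hsub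
  rw [hj] at hdiff
  have hN : (N : Set G).ncard = Nat.card N := (Nat.card_coe_set_eq _).symm
  have hM : (M : Set G).ncard = Nat.card M := (Nat.card_coe_set_eq _).symm
  rw [hN, hM] at hdiff
  have hrel := Subgroup.relIndex_mul_relIndex ⊥ N M bot_le hNM.le
  rw [Subgroup.relIndex_bot_left, Subgroup.relIndex_bot_left] at hrel
  set r := N.relIndex M with hr
  have hr1 : r ≠ 1 := by
    intro h
    rw [hr, Subgroup.relIndex_eq_one] at h
    exact (lt_irrefl _ (lt_of_lt_of_le hNM h))
  have hNpos : 0 < Nat.card N := Nat.card_pos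
  have hMpos : 0 < Nat.card M := Nat.card_pos
  have hr0 : r ≠ 0 := by
    intro h
    rw [h, mul_zero] at hrel
    omega
  have hrdvd : r ∣ p ^ n := by
    have h1 : r ∣ Nat.card M := Dvd.intro_left _ hrel
    have h2 : Nat.card M ∣ Nat.card G := Subgroup.card_subgroup_dvd_card M
    rw [hn] at h2
    exact h1.trans h2
  obtain ⟨k, hk, hrk⟩ := (Nat.dvd_prime_pow hpp).mp hrdvd
  have hk0 : k ≠ 0 := by
    intro h
    rw [h, pow_zero] at hrk
    exact hr1 hrk
  -- p^j + |N| = |N| * r
  have h1 : p ^ j = Nat.card N * (r - 1) := by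
    have : Nat.card N * (r - 1) + Nat.card N = Nat.card N * r := by
      have : r = (r - 1) + 1 := by omega
      conv_rhs => rw [this]
      ring
    rw [hrel, ← hdiff] at this
    omega
  have h2 : (r - 1) ∣ p ^ j := Dvd.intro_left _ h1.symm
  obtain ⟨i, hi, hri⟩ := (Nat.dvd_prime_pow hpp).mp h2
  have hi0 : i = 0 := by
    by_contra hi0
    have hp1 : p ∣ r - 1 := by
      rw [hri]
      exact dvd_pow_self p hi0
    have hp2 : p ∣ r := by
      rw [hrk]
      exact dvd_pow_self p hk0
    have hp3 : p ∣ 1 := by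
      have := (Nat.dvd_sub hp2 hp1)
      have e : r - (r - 1) = 1 := by omega
      rwa [e] at this
    exact hpp.one_lt.ne' (Nat.dvd_one.mp hp3)
  rw [hi0, pow_zero] at hri
  have hr2 : r = 2 := by omega
  refine ⟨?_, hr2⟩
  have hp2 : p ∣ 2 := by
    rw [← hr2, hrk]
    exact dvd_pow_self p hk0
  exact (Nat.prime_dvd_prime_iff_eq hpp Nat.prime_two).mp hp2

end Cfsg.Agent.S4013
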