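import Cfsg.Statements.S4014
import Cfsg.Agent.Lib.Helper21.SylDer1
import Cfsg.Agent.Lib.Helper21.SylDer2

set_option autoImplicit false
open Cfsg

namespace Cfsg.Agent.S4014

open Cfsg.Agent.Lib.Helper21 in

/-- Let p be a prime, n ≥ 1, and P a Sylow p-subgroup of the symmetric group on n letters. Then the derived length of P is exactly k = ⌊log_p n⌋ (the largest k with p^k ≤ n): the k-th derived subgroup of P is trivial and, when k ≥ 1, the (k−1)-st is not. -/
theorem result (p : ℕ) [Fact p.Prime] (n : ℕ) (hn : 1 ≤ n) (P : Sylow p (Equiv.Perm (Fin n))) : derivedSeries ↥(P : Subgroup (Equiv.Perm (Fin n))) (Nat.log p n) = ⊥ ∧ (1 ≤ Nat.log p n → derivedSeries ↥(P : Subgroup (Equiv.Perm (Fin n))) (Nat.log p n - 1) ≠ ⊥) := by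
  have hp : p.Prime := Fact.out
  constructor
  · apply sd_upper p n (Fin n) (by simp) (Nat.log p n) (P : Subgroup (Equiv.Perm (Fin n)))
      P.isPGroup'
    intro ω
    calc Nat.card (MulAction.orbit (P : Subgroup (Equiv.Perm (Fin n))) ω)
        ≤ Nat.card (Fin n) := Nat.card_le_card_of_injective
          (fun x : MulAction.orbit (P : Subgroup (Equiv.Perm (Fin n))) ω => (x : Fin n))
          Subtype.val_injective
      _ = n := by simp
      _ < p ^ (Nat.log p n + 1) := Nat.lt_pow_succ_log_self hp.one_lt n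
  · intro h1
    exact sd_lower p n (Nat.log p n) (Nat.pow_log_le_self p (by omega)) P (Nat.log p n - 1)
      (by omega)

end Cfsg.Agent.S4014
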