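import Cfsg.Statements.S4023
import Mathlib
import Cfsg.Agent.Lib.Helper22.SameOrderIso

set_option autoImplicit false
open Cfsg

namespace Cfsg.Agent.S4023

/-- Let p be a prime and G a finite group in which any two p-subgroups of the same order are conjugate, with Sylow p-subgroup P. Then P is cyclic, or elementary abelian, or p = 2 and P is a quaternion group of order 8, or p is odd and P is non-abelian of order p³ and exponent p. -/
theorem result {G : Type*} [Group G] [Finite G]
    {p : ℕ} [Fact p.Prime] (hC : ∀ H K : Subgroup G, IsPGroup p H → IsPGroup p K → Nat.card H = Nat.card K →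
      ∃ g : G, K = H.map (MulAut.conj g).toMonoidHom) (P : Sylow p G) :
    IsCyclic P ∨ Cfsg.IsElementaryAbelian p (P : Subgroup G) ∨
      (p = 2 ∧ Nonempty ((P : Subgroup G) ≃* QuaternionGroup 2)) ∨
      (p ≠ 2 ∧ ¬ IsMulCommutative P ∧ Nat.card P = p ^ 3 ∧ Monoid.exponent P = p) := by
  classical
  have hiso : ∀ H K : Subgroup ↥(P : Subgroup G), Nat.card H = Nat.card K →
      Nonempty (H ≃* K) := by
    intro H K hHK
    have hcH : Nat.card (H.map (P : Subgroup G).subtype) = Nat.card H :=
      Nat.card_congr (H.equivMapOfInjective _ (Subgroup.subtype_injective _)).symm.toEquiv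
    have hcK : Nat.card (K.map (P : Subgroup G).subtype) = Nat.card K :=
      Nat.card_congr (K.equivMapOfInjective _ (Subgroup.subtype_injective _)).symm.toEquiv
    obtain ⟨g, hg⟩ := hC (H.map (P : Subgroup G).subtype) (K.map (P : Subgroup G).subtype)
      (P.isPGroup'.to_le (Subgroup.map_subtype_le H))
      (P.isPGroup'.to_le (Subgroup.map_subtype_le K)) (by rw [hcH, hcK, hHK])
    exact ⟨(H.equivMapOfInjective _ (Subgroup.subtype_injective _)).trans
      (((MulAut.conj g).subgroupMap (H.map (P : Subgroup G).subtype)).trans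
        ((MulEquiv.subgroupCongr hg.symm).trans
          (K.equivMapOfInjective _ (Subgroup.subtype_injective _)).symm))⟩
  rcases Lib.Helper22.pgroup_same_order_iso p P.isPGroup' hiso with
    h | ⟨hc, he⟩ | ⟨h2, hq⟩ | ⟨h2, hna, hcard, hexp⟩
  · left
    exact h
  · right
    left
    refine ⟨⟨⟨fun a b => hc a b⟩⟩, fun a ha => ?_⟩
    have h1 := he ⟨a, ha⟩
    exact congrArg Subtype.val h1
  · right
    right
    left
    exact ⟨h2, hq⟩
  · right
    right
    right
    exact ⟨h2, fun h => hna (fun a b => mul_comm' a b), hcard, hexp⟩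

end Cfsg.Agent.S4023
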