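import Cfsg.Statements.S4024
import Mathlib
import Cfsg.Agent.S4023
import Cfsg.Agent.Lib.Helper22.PSolvCore
import Cfsg.Agent.Lib.Helper22.PClosed2
import Cfsg.Agent.Lib.Helper22.SameOrderIso
import Cfsg.Agent.Lib.Helper21.Basic

set_option autoImplicit false
open Cfsg

namespace Cfsg.Agent.S4024

/-- Let p be an odd prime and G a finite group in which any two p-subgroups of the same order are conjugate, with Sylow p-subgroup P. If H is a normal p-solvable subgroup of G whose order is divisible by p, then P is abelian, and either P ≤ H or P is cyclic. -/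
theorem result {G : Type*} [Group G] [Finite G]
    {p : ℕ} [Fact p.Prime] (hp : p ≠ 2) (hC : ∀ H K : Subgroup G, IsPGroup p H → IsPGroup p K → Nat.card H = Nat.card K →
      ∃ g : G, K = H.map (MulAut.conj g).toMonoidHom) (P : Sylow p G)
    (H : Subgroup G) [H.Normal] (hsolv : Cfsg.IsPSolvable p H) (hdiv : p ∣ Nat.card H) :
    IsMulCommutative P ∧ ((P : Subgroup G) ≤ H ∨ IsCyclic P) := by
  classical
  have hpp : p.Prime := Fact.out
  -- every element of `P` killed by `p` lies in any normal subgroup of order divisible by `p`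
  have stepA : ∀ (N : Subgroup G), N.Normal → p ∣ Nat.card N →
      ∀ a ∈ (P : Subgroup G), a ^ p = 1 → a ∈ N := by
    intro N hN hdivN a haP hap
    by_cases ha1 : a = 1
    · rw [ha1]; exact N.one_mem
    obtain ⟨u', hu'⟩ := exists_prime_orderOf_dvd_card' p hdivN
    have hu : orderOf (u' : G) = p := by rw [Subgroup.orderOf_coe]; exact hu'
    have hao : orderOf a = p := orderOf_eq_prime hap ha1
    obtain ⟨g, hg⟩ := hC (Subgroup.zpowers (u' : G)) (Subgroup.zpowers a)
      (IsPGroup.of_card (n := 1) (by rw [Nat.card_zpowers, hu, pow_one]))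
      (IsPGroup.of_card (n := 1) (by rw [Nat.card_zpowers, hao, pow_one]))
      (by rw [Nat.card_zpowers, Nat.card_zpowers, hu, hao])
    have h1 : a ∈ (Subgroup.zpowers (u' : G)).map (MulAut.conj g).toMonoidHom :=
      hg ▸ Subgroup.mem_zpowers a
    obtain ⟨x, hx, rfl⟩ := h1
    have hxN : x ∈ N := (Subgroup.zpowers_le.mpr u'.2) hx
    have h2 : (MulAut.conj g).toMonoidHom x = g * x * g⁻¹ := by simp [MulAut.conj_apply]
    rw [h2]
    exact hN.conj_mem x hxN g
  rcases Cfsg.Agent.S4023.result hC P with hcyc | ⟨hc, he⟩ | ⟨h2, _⟩ | ⟨_, hna, hcard, hexp⟩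
  · haveI := hcyc
    exact ⟨inferInstance, Or.inr hcyc⟩
  · exact ⟨hc, Or.inl fun a ha => stepA H inferInstance hdiv a ha (he a ha)⟩
  · exact absurd h2 hp
  · exfalso
    apply hna
    have hexp' : ∀ a ∈ (P : Subgroup G), a ^ p = 1 := by
      intro a ha
      have h1 : (⟨a, ha⟩ : (P : Subgroup G)) ^ Monoid.exponent (P : Subgroup G) = 1 :=
        Monoid.pow_exponent_eq_one _
      rw [hexp] at h1
      have h2 := congrArg Subtype.val h1
      simpa using h2
    obtain ⟨K, D, hK, hD, hKD, hDH, hpK, ⟨m, hm⟩, hpD⟩ :=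
      Lib.Helper22.exists_pprime_p_series H hsolv hdiv
    haveI := hK
    haveI := hD
    have hPD : (P : Subgroup G) ≤ D := fun a ha => stepA D hD hpD a ha (hexp' a ha)
    have hPK : (P : Subgroup G) ⊓ K = ⊥ := Lib.Helper22.inf_eq_bot_of_isPGroup_of_not_dvd P.2 hpK
    have hcardP : Nat.card (P : Subgroup G) = p ^ m := by
      apply Nat.dvd_antisymm
      · have h1 : Nat.card (P : Subgroup G) ∣ Nat.card K * p ^ m := by
          rw [← hm]; exact Subgroup.card_dvd_of_le hPD
        have h2 : Nat.Coprime (Nat.card (P : Subgroup G)) (Nat.card K) := by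
          have h3 : Nat.card (P : Subgroup G) = p ^ 3 := hcard
          rw [h3]
          exact Nat.Coprime.pow_left 3 ((Nat.Prime.coprime_iff_not_dvd hpp).mpr hpK)
        exact Nat.Coprime.dvd_of_dvd_mul_left h2 h1
      · apply P.pow_dvd_card_of_pow_dvd_card
        have h1 : p ^ m ∣ Nat.card D := by rw [hm]; exact Dvd.intro_left _ rfl
        exact dvd_trans h1 (Subgroup.card_subgroup_dvd_card D)
    have hsup : (P : Subgroup G) ⊔ K = D := by
      refine Subgroup.eq_of_le_of_card_ge (sup_le hPD hKD) ?_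
      have h1 := Cfsg.Agent.Lib.Helper21.card_sup_mul_card_inf (P : Subgroup G) K
      rw [hPK, Subgroup.card_bot, mul_one] at h1
      rw [h1, hm, hcardP, mul_comm]
    have hfrat : Subgroup.normalizer ((P : Subgroup G) : Set G) ⊔ D = ⊤ :=
      Sylow.normalizer_sup_eq_top' P hPD
    -- a central element of order `p`
    haveI : Nontrivial (P : Subgroup G) := by
      rw [← Finite.one_lt_card_iff_nontrivial]
      have h3 : Nat.card (P : Subgroup G) = p ^ 3 := hcard
      rw [h3]
      exact Nat.one_lt_pow (by norm_num) hpp.one_lt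
    obtain ⟨z, hzc, hzo⟩ := Lib.Helper22.exists_central_orderOf_eq p P.2
    have hzo' : orderOf (z : G) = p := by rw [Subgroup.orderOf_coe]; exact hzo
    have hzcomm : ∀ y ∈ (P : Subgroup G), (z : G) * y = y * (z : G) := by
      intro y hy
      have h1 := Subgroup.mem_center_iff.mp hzc ⟨y, hy⟩
      have h2 := congrArg Subtype.val h1
      simpa using h2.symm
    -- every element of `P` is central in `P`
    have hcentral : ∀ v ∈ (P : Subgroup G), ∀ y ∈ (P : Subgroup G), v * y = y * v := by
      intro v hv y hy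
      by_cases hv1 : v = 1
      · rw [hv1]; simp
      have hvo : orderOf v = p := orderOf_eq_prime (hexp' v hv) hv1
      obtain ⟨g, hg⟩ := hC (Subgroup.zpowers (z : G)) (Subgroup.zpowers v)
        (IsPGroup.of_card (n := 1) (by rw [Nat.card_zpowers, hzo', pow_one]))
        (IsPGroup.of_card (n := 1) (by rw [Nat.card_zpowers, hvo, pow_one]))
        (by rw [Nat.card_zpowers, Nat.card_zpowers, hzo', hvo])
      have h1 : v ∈ (Subgroup.zpowers (z : G)).map (MulAut.conj g).toMonoidHom :=
        hg ▸ Subgroup.mem_zpowers v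
      obtain ⟨w, hw, hwv⟩ := h1
      have hwv' : v = g * w * g⁻¹ := by rw [← hwv]; simp [MulAut.conj_apply]
      have hwP : w ∈ (P : Subgroup G) := (Subgroup.zpowers_le.mpr z.2) hw
      have hwcomm : ∀ y ∈ (P : Subgroup G), w * y = y * w := by
        intro y hy
        obtain ⟨j, rfl⟩ := Subgroup.mem_zpowers_iff.mp hw
        have h2 : Commute (z : G) y := hzcomm y hy
        exact (h2.zpow_left j).eq
      -- decompose `g = n * x * k`
      have hgtop : g ∈ Subgroup.normalizer ((P : Subgroup G) : Set G) ⊔ D := by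
        rw [hfrat]; exact Subgroup.mem_top g
      obtain ⟨n, hn, d, hd, hnd⟩ := Subgroup.mem_sup_of_normal_right.mp hgtop
      rw [← hsup] at hd
      obtain ⟨x, hx, k, hk, hxk⟩ := Subgroup.mem_sup_of_normal_right.mp hd
      have hnx : n * x ∈ Subgroup.normalizer ((P : Subgroup G) : Set G) :=
        Subgroup.mul_mem _ hn (Subgroup.le_normalizer hx)
      have hg' : g = (n * x) * k := by rw [← hnd, ← hxk, mul_assoc]
      set n' := n * x with hn'
      -- `k * w * k⁻¹ ∈ P`
      have h3 : n'⁻¹ * v * n' ∈ (P : Subgroup G) :=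
        (Subgroup.mem_normalizer_iff''.mp hnx v).mp hv
      have h4 : n'⁻¹ * v * n' = k * w * k⁻¹ := by
        rw [hwv', hg']; group
      rw [h4] at h3
      have h5 : k * w * k⁻¹ * w⁻¹ ∈ (P : Subgroup G) ⊓ K := by
        refine ⟨Subgroup.mul_mem _ h3 (Subgroup.inv_mem _ hwP), ?_⟩
        have h6 : k * w * k⁻¹ * w⁻¹ = k * (w * k⁻¹ * w⁻¹) := by group
        rw [h6]
        exact Subgroup.mul_mem _ hk (hK.conj_mem _ (Subgroup.inv_mem _ hk) w)
      rw [hPK, Subgroup.mem_bot] at h5
      have h7 : k * w * k⁻¹ = w := by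
        have := mul_inv_eq_one.mp h5
        exact this
      have h8 : v = n' * w * n'⁻¹ := by
        rw [hwv', hg']
        have : n' * k * w * (n' * k)⁻¹ = n' * (k * w * k⁻¹) * n'⁻¹ := by group
        rw [this, h7]
      have h9 : n'⁻¹ * y * n' ∈ (P : Subgroup G) :=
        (Subgroup.mem_normalizer_iff''.mp hnx y).mp hy
      have h10 := hwcomm _ h9
      rw [h8]
      calc n' * w * n'⁻¹ * y = n' * (w * (n'⁻¹ * y * n')) * n'⁻¹ := by group
        _ = n' * ((n'⁻¹ * y * n') * w) * n'⁻¹ := by rw [h10]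
        _ = y * (n' * w * n'⁻¹) := by group
    exact ⟨⟨fun a b => Subtype.ext (hcentral a a.2 b b.2)⟩⟩

end Cfsg.Agent.S4024
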