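import Cfsg.Statements.S4027
import Mathlib
import Cfsg.Agent.S0199
import Cfsg.Agent.Lib.Helper21.Basic

set_option autoImplicit false
open Cfsg

namespace Cfsg.Agent.S4027

/-- An element conjugating `x` to a power of `x` normalizes `zpowers x` (finite case). -/
theorem mem_normalizer_zpowers {G : Type*} [Group G] [Finite G] (s x : G)
    (h : s * x * s⁻¹ ∈ Subgroup.zpowers x) :
    s ∈ Subgroup.normalizer ((Subgroup.zpowers x : Subgroup G) : Set G) := by
  apply Subgroup.mem_normalizer_fintype
  rintro _ ⟨k, rfl⟩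
  have h1 : s * x ^ k * s⁻¹ = (s * x * s⁻¹) ^ k := (conj_zpow).symm
  show s * x ^ k * s⁻¹ ∈ Subgroup.zpowers x
  rw [h1]
  exact Subgroup.zpow_mem _ h k

theorem aux.{u} : ∀ (n : ℕ) (G : Type u) [Group G] [Finite G], Nat.card G = n →
    (∀ x : G, ∀ r k : ℕ, r.Prime → r ≠ 2 → orderOf x = r ^ k →
      Subgroup.normalizer ((Subgroup.zpowers x : Subgroup G) : Set G)
        ≤ Subgroup.centralizer {x}) →
    ∀ P : Sylow 2 G, (P : Subgroup G).Normal := by
  intro n
  induction n using Nat.strong_induction_on with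
  | _ n ih =>
    intro G _ _ hn hirr P
    classical
    haveI : Fact (Nat.Prime 2) := ⟨Nat.prime_two⟩
    have hconj : ∀ g : G, ∀ x ∈ {t : G | orderOf t = 2}, g * x * g⁻¹ ∈ {t : G | orderOf t = 2} := by
      intro g x hx
      have h1 : orderOf (g * x * g⁻¹) = orderOf x := (MulAut.conj g).orderOf_eq x
      show orderOf (g * x * g⁻¹) = 2
      rw [h1]
      exact hx
    have hpair : ∀ s ∈ {t : G | orderOf t = 2}, ∀ t ∈ {t : G | orderOf t = 2},
        IsPGroup 2 (Subgroup.closure ({s, t} : Set G)) := by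
      intro s hs t ht
      have hs' : orderOf s = 2 := hs
      have ht' : orderOf t = 2 := ht
      have hs2 : s * s = 1 := by
        rw [← pow_two, ← hs']
        exact pow_orderOf_eq_one s
      have ht2 : t * t = 1 := by
        rw [← pow_two, ← ht']
        exact pow_orderOf_eq_one t
      have hsinv : s⁻¹ = s := inv_eq_of_mul_eq_one_right hs2
      have htinv : t⁻¹ = t := inv_eq_of_mul_eq_one_right ht2
      have hcj : s * (s * t) * s⁻¹ = (s * t)⁻¹ := by
        rw [mul_inv_rev, hsinv, htinv, ← mul_assoc, hs2, one_mul]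
      have hw : ∃ j, orderOf (s * t) = 2 ^ j := by
        by_contra hcon
        have hne : orderOf (s * t) ≠ 0 := (orderOf_pos _).ne'
        obtain ⟨r, hr, hrdvd, hr2⟩ : ∃ r, r.Prime ∧ r ∣ orderOf (s * t) ∧ r ≠ 2 := by
          by_contra hcon2
          push Not at hcon2
          apply hcon
          exact ⟨_, Nat.eq_prime_pow_of_unique_prime_dvd hne (fun {q} hq hqd => hcon2 q hq hqd)⟩
        have hxo : orderOf ((s * t) ^ (orderOf (s * t) / r)) = r :=
          orderOf_pow_orderOf_div hne hrdvd
        have hsx : s * (s * t) ^ (orderOf (s * t) / r) * s⁻¹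
            = ((s * t) ^ (orderOf (s * t) / r))⁻¹ := by
          rw [← conj_pow, hcj, inv_pow]
        have hsN : s ∈ Subgroup.normalizer
            ((Subgroup.zpowers ((s * t) ^ (orderOf (s * t) / r)) : Subgroup G) : Set G) := by
          apply mem_normalizer_zpowers
          rw [hsx]
          exact Subgroup.inv_mem _ (Subgroup.mem_zpowers _)
        have hsC := hirr _ r 1 hr hr2 (by rw [hxo, pow_one]) hsN
        rw [Subgroup.mem_centralizer_iff] at hsC
        have h1 := hsC _ (Set.mem_singleton _)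
        have h2 : ((s * t) ^ (orderOf (s * t) / r))⁻¹ = (s * t) ^ (orderOf (s * t) / r) := by
          rw [← hsx, ← h1, mul_inv_cancel_right]
        have h3 : ((s * t) ^ (orderOf (s * t) / r)) ^ 2 = 1 := by
          rw [pow_two]
          nth_rewrite 1 [← h2]
          exact inv_mul_cancel _
        have h4 := orderOf_dvd_of_pow_eq_one h3
        rw [hxo] at h4
        exact hr2 ((Nat.prime_dvd_prime_iff_eq hr Nat.prime_two).mp h4)
      obtain ⟨j, hj⟩ := hw
      have hP1 : IsPGroup 2 (Subgroup.zpowers s) :=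
        IsPGroup.of_card (n := 1) (by rw [Nat.card_zpowers, hs', pow_one])
      have hP2 : IsPGroup 2 (Subgroup.zpowers (s * t)) :=
        IsPGroup.of_card (n := j) (by rw [Nat.card_zpowers, hj])
      have hnorm : Subgroup.zpowers s
          ≤ Subgroup.normalizer ((Subgroup.zpowers (s * t) : Subgroup G) : Set G) := by
        rw [Subgroup.zpowers_le]
        apply mem_normalizer_zpowers
        rw [hcj]
        exact Subgroup.inv_mem _ (Subgroup.mem_zpowers _)
      have hsup := IsPGroup.to_sup_of_normal_right' hP1 hP2 hnorm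
      apply hsup.to_le
      rw [Subgroup.closure_le]
      rintro y (rfl | rfl)
      · exact Subgroup.mem_sup_left (Subgroup.mem_zpowers y)
      · have hmem : s⁻¹ * (s * y) ∈ Subgroup.zpowers s ⊔ Subgroup.zpowers (s * y) :=
          Subgroup.mul_mem _
            (Subgroup.mem_sup_left (Subgroup.inv_mem _ (Subgroup.mem_zpowers s)))
            (Subgroup.mem_sup_right (Subgroup.mem_zpowers _))
        have e2 : s⁻¹ * (s * y) = y := by group
        rw [e2] at hmem
        exact hmem
    obtain ⟨N, hNn, hN2, hKN⟩ := Cfsg.Agent.S0199.baer_suzuki_set (p := 2)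
      {t : G | orderOf t = 2} hconj hpair
    haveI := hNn
    by_cases hNbot : N = ⊥
    · have h2 : ¬ 2 ∣ Nat.card G := by
        intro hdvd
        obtain ⟨t, ht⟩ := exists_prime_orderOf_dvd_card' 2 hdvd
        have h3 : t ∈ N := hKN ht
        rw [hNbot, Subgroup.mem_bot] at h3
        rw [h3, orderOf_one] at ht
        omega
      have h3 : (P : Subgroup G) = ⊥ := by
        apply Subgroup.eq_bot_of_card_eq
        rw [Sylow.card_eq_multiplicity, Nat.factorization_eq_zero_of_not_dvd h2, pow_zero]
      rw [h3]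
      infer_instance
    · have hNcard : 1 < Nat.card N := by
        rcases Nat.lt_or_ge 1 (Nat.card N) with h | h
        · exact h
        · exfalso
          apply hNbot
          apply Subgroup.eq_bot_of_card_eq
          have : 0 < Nat.card N := Nat.card_pos
          omega
      have hlt : Nat.card (G ⧸ N) < n := by
        have h1 := Subgroup.card_mul_index N
        rw [hn] at h1
        have h2 : N.index = Nat.card (G ⧸ N) := rfl
        rw [h2] at h1
        have h3 : 0 < Nat.card (G ⧸ N) := Nat.card_pos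
        nlinarith
      obtain ⟨b, hb⟩ := IsPGroup.iff_card.mp hN2
      have hirr' : ∀ x : G ⧸ N, ∀ r k : ℕ, r.Prime → r ≠ 2 → orderOf x = r ^ k →
          Subgroup.normalizer ((Subgroup.zpowers x : Subgroup (G ⧸ N)) : Set (G ⧸ N))
            ≤ Subgroup.centralizer {x} := by
        intro xb r k hr hr2 hxo gb hgb
        haveI : Fact r.Prime := ⟨hr⟩
        obtain ⟨x₀, rfl⟩ := QuotientGroup.mk_surjective xb
        obtain ⟨g, rfl⟩ := QuotientGroup.mk_surjective gb
        have hcop2 : (2 ^ b).Coprime (r ^ k) :=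
          Nat.Coprime.pow b k ((Nat.coprime_primes Nat.prime_two hr).mpr hr2.symm)
        obtain ⟨c, hc⟩ := exists_pow_eq_self_of_coprime (x := (x₀ : G ⧸ N)) (n := 2 ^ b)
          (by rw [hxo]; exact hcop2)
        have hx₀N : x₀ ^ (r ^ k) ∈ N := by
          rw [← QuotientGroup.eq_one_iff, QuotientGroup.mk_pow, ← hxo]
          exact pow_orderOf_eq_one _
        have hx₀1 : (x₀ ^ (r ^ k)) ^ (2 ^ b) = 1 := by
          have h1 : (⟨x₀ ^ (r ^ k), hx₀N⟩ : N) ^ Nat.card N = 1 := pow_card_eq_one'
          rw [hb] at h1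
          have h2 := congrArg Subtype.val h1
          simpa using h2
        have hxmk : (((x₀ ^ (2 ^ b)) ^ c : G) : G ⧸ N) = (x₀ : G ⧸ N) := by
          rw [QuotientGroup.mk_pow, QuotientGroup.mk_pow]
          exact hc
        have hxord : ((x₀ ^ (2 ^ b)) ^ c) ^ (r ^ k) = 1 := by
          have e : ((x₀ ^ (2 ^ b)) ^ c) ^ (r ^ k) = ((x₀ ^ (r ^ k)) ^ (2 ^ b)) ^ c := by
            rw [← pow_mul, ← pow_mul, ← pow_mul, ← pow_mul]
            congr 1
            ring
          rw [e, hx₀1, one_pow]
        obtain ⟨k', -, hk'⟩ := (Nat.dvd_prime_pow hr).mp (orderOf_dvd_of_pow_eq_one hxord)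
        have hR : IsPGroup r (Subgroup.zpowers ((x₀ ^ (2 ^ b)) ^ c)) :=
          IsPGroup.of_card (n := k') (by rw [Nat.card_zpowers, hk'])
        have hle : (Subgroup.zpowers ((x₀ ^ (2 ^ b)) ^ c)).map (MulAut.conj g).toMonoidHom
            ≤ Subgroup.zpowers ((x₀ ^ (2 ^ b)) ^ c) ⊔ N := by
          rintro _ ⟨y, hy, rfl⟩
          have h1 : ((y : G) : G ⧸ N) ∈ Subgroup.zpowers (x₀ : G ⧸ N) := by
            obtain ⟨i, rfl⟩ := hy
            rw [QuotientGroup.mk_zpow, hxmk]
            exact Subgroup.zpow_mem _ (Subgroup.mem_zpowers _) i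
          have h2 := (Subgroup.mem_normalizer_iff.mp hgb _).mp h1
          obtain ⟨i, hi⟩ := h2
          have h3 : ((((x₀ ^ (2 ^ b)) ^ c) ^ i : G) : G ⧸ N) = ((g * y * g⁻¹ : G) : G ⧸ N) := by
            rw [QuotientGroup.mk_zpow, hxmk]
            exact hi
          have h4 : (((x₀ ^ (2 ^ b)) ^ c) ^ i)⁻¹ * (g * y * g⁻¹) ∈ N := QuotientGroup.eq.mp h3
          have e : (MulAut.conj g).toMonoidHom y
              = ((x₀ ^ (2 ^ b)) ^ c) ^ i * ((((x₀ ^ (2 ^ b)) ^ c) ^ i)⁻¹ * (g * y * g⁻¹)) := by
            show g * y * g⁻¹ = _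
            group
          rw [e]
          exact Subgroup.mul_mem _
            (Subgroup.mem_sup_left (Subgroup.zpow_mem _ (Subgroup.mem_zpowers _) i))
            (Subgroup.mem_sup_right h4)
        have hcopN : (Nat.card N).Coprime r := by
          rw [hb]
          exact Nat.Coprime.pow_left b ((Nat.coprime_primes Nat.prime_two hr).mpr hr2.symm)
        obtain ⟨m, hmN, hmg⟩ := Cfsg.Agent.Lib.Helper21.exists_mul_normalizer_of_conj_le_sup
          (p := r) N hcopN (Subgroup.zpowers ((x₀ ^ (2 ^ b)) ^ c)) hR g hle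
        have h5 := hirr _ r k' hr hr2 hk' hmg
        rw [Subgroup.mem_centralizer_iff] at h5 ⊢
        have h6 := h5 _ (Set.mem_singleton _)
        intro h hh
        rw [Set.mem_singleton_iff] at hh
        rw [hh]
        have h7 := congrArg (fun y : G => (y : G ⧸ N)) h6
        simp only [QuotientGroup.mk_mul, QuotientGroup.mk_inv] at h7
        rw [hxmk, (QuotientGroup.eq_one_iff m).mpr hmN, inv_one, one_mul] at h7
        exact h7
      have hQ := ih (Nat.card (G ⧸ N)) hlt (G ⧸ N) rfl hirr'
        (P.mapSurjective (f := QuotientGroup.mk' N) (QuotientGroup.mk'_surjective N))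
      rw [Sylow.coe_mapSurjective] at hQ
      have hNP : N ≤ (P : Subgroup G) := by
        have hsup : IsPGroup 2 ((P : Subgroup G) ⊔ N : Subgroup G) :=
          IsPGroup.to_sup_of_normal_right P.isPGroup' hN2
        have h1 := P.is_maximal' hsup le_sup_left
        rw [← h1]
        exact le_sup_right
      have h8 := hQ.comap (QuotientGroup.mk' N)
      rw [Subgroup.comap_map_eq, QuotientGroup.ker_mk', sup_eq_left.mpr hNP] at h8
      exact h8


/-- Let G be a finite group in which every element x of odd order satisfies N_G(⟨x⟩) = C_G(x). Then the Sylow 2-subgroups of G are normal. -/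
theorem result {G : Type*} [Group G] [Finite G]
    (hirr : ∀ x : G, (∀ r : ℕ, r.Prime → r ∣ orderOf x → r ≠ 2) →
      Subgroup.normalizer ((Subgroup.zpowers x : Subgroup G) : Set G) ≤ Subgroup.centralizer {x}) (P : Sylow 2 G) :
    (P : Subgroup G).Normal := by
  apply aux _ G rfl _ P
  intro x r k hr hr2 hx
  apply hirr x
  intro q hq hqd
  rw [hx] at hqd
  have h1 := (Nat.prime_dvd_prime_iff_eq hq hr).mp (hq.dvd_of_dvd_pow hqd)
  rw [h1]
  exact hr2

end Cfsg.Agent.S4027
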