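import Cfsg.Statements.S4028
import Mathlib
import Cfsg.Agent.Lib.Helper22.TI

set_option autoImplicit false
open Cfsg

namespace Cfsg.Agent.S4028

open scoped Pointwise

/-- Let G be a finite group with Sylow 2-subgroup P. Then N_G(⟨x⟩) = C_G(x) holds for every 2-element x of G if and only if N_P(⟨y⟩) = C_P(y) holds for every y ∈ P (computed inside P). -/
theorem result {G : Type*} [Group G] [Finite G] (P : Sylow 2 G) :
    (∀ x : G, (∀ r : ℕ, r.Prime → r ∣ orderOf x → r = 2) →
      Subgroup.normalizer ((Subgroup.zpowers x : Subgroup G) : Set G) ≤ Subgroup.centralizer {x}) ↔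
    (∀ y : ↥(P : Subgroup G), Subgroup.normalizer ((Subgroup.zpowers y : Subgroup ↥(P : Subgroup G)) : Set ↥(P : Subgroup G)) ≤
        Subgroup.centralizer {y}) := by
  classical
  haveI : Fact (Nat.Prime 2) := ⟨Nat.prime_two⟩
  constructor
  · intro hG y w hw
    have hy2 : ∀ r : ℕ, r.Prime → r ∣ orderOf (y : G) → r = 2 := by
      intro r hr hrd
      obtain ⟨k, hk⟩ := (IsPGroup.iff_orderOf.mp P.isPGroup') y
      rw [Subgroup.orderOf_coe, hk] at hrd
      exact (Nat.prime_dvd_prime_iff_eq hr Nat.prime_two).mp (hr.dvd_of_dvd_pow hrd)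
    have hwn : (w : G) ∈ Subgroup.normalizer ((Subgroup.zpowers (y : G) : Subgroup G) : Set G) := by
      apply Subgroup.mem_normalizer_fintype
      intro z hz
      obtain ⟨i, rfl⟩ := Subgroup.mem_zpowers_iff.mp hz
      have h1 : w * y ^ i * w⁻¹ ∈ Subgroup.zpowers y :=
        (Subgroup.mem_normalizer_iff.mp hw (y ^ i)).mp (Subgroup.zpow_mem _ (Subgroup.mem_zpowers y) i)
      obtain ⟨j, hj⟩ := Subgroup.mem_zpowers_iff.mp h1
      refine Subgroup.mem_zpowers_iff.mpr ⟨j, ?_⟩
      have := congrArg Subtype.val hj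
      simpa using this
    have h2 := hG (y : G) hy2 hwn
    rw [Subgroup.mem_centralizer_iff] at h2 ⊢
    intro h hh
    rw [Set.mem_singleton_iff] at hh
    rw [hh]
    apply Subtype.ext
    simpa using h2 (y : G) rfl
  · intro hP x hx g hg
    have hcs : ∀ w : G, w ∈ Subgroup.centralizer ({x} : Set G) ↔ x * w = w * x := by
      intro w
      simp [Subgroup.mem_centralizer_iff]
    have hx0 : orderOf x ≠ 0 := (orderOf_pos x).ne'
    have hxn : orderOf x = 2 ^ (orderOf x).primeFactorsList.length :=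
      Nat.eq_prime_pow_of_unique_prime_dvd hx0 (fun {d} hd hdd => hx d hd hdd)
    set n := (orderOf x).primeFactorsList.length with hn
    have hxpow : x ^ (2 ^ n) = 1 := by
      rw [← hxn]
      exact pow_orderOf_eq_one x
    have hgx : g * x * g⁻¹ ∈ Subgroup.zpowers x :=
      (Subgroup.mem_normalizer_iff.mp hg x).mp (Subgroup.mem_zpowers x)
    obtain ⟨k, hk⟩ : ∃ k : ℕ, g * x * g⁻¹ = x ^ k := by
      rw [← mem_powers_iff_mem_zpowers] at hgx
      obtain ⟨k, hk⟩ := hgx
      exact ⟨k, hk.symm⟩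
    by_cases hx1 : x = 1
    · rw [hcs, hx1]
      simp
    have hn0 : n ≠ 0 := by
      intro h0
      rw [h0, pow_zero, orderOf_eq_one_iff] at hxn
      exact hx1 hxn
    have hkodd : (2 : ℤ) ∣ (k : ℤ) - 1 := by
      have hodd : Odd k := by
        by_contra hne
        rw [Nat.not_odd_iff_even] at hne
        obtain ⟨j, hj⟩ := hne
        have h1 : (x ^ k) ^ (2 ^ (n - 1)) = 1 := by
          rw [← pow_mul, hj]
          have : (j + j) * 2 ^ (n - 1) = 2 ^ n * j := by
            have : 2 ^ n = 2 ^ (n - 1) * 2 := by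
              rw [← pow_succ]
              congr 1
              omega
            rw [this]
            ring
          rw [this, pow_mul, hxpow, one_pow]
        have h2 : orderOf (x ^ k) = 2 ^ n := by
          rw [← hk]
          exact ((MulAut.conj g).orderOf_eq x).trans hxn
        have h3 := orderOf_dvd_of_pow_eq_one h1
        rw [h2] at h3
        have := (Nat.pow_dvd_pow_iff_le_right (by norm_num : 1 < 2)).mp h3
        omega
      obtain ⟨j, hj⟩ := hodd
      rw [hj]
      push_cast
      exact ⟨j, by ring⟩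
    have hA : g ^ (2 ^ n) ∈ Subgroup.centralizer ({x} : Set G) := by
      rw [hcs]
      have := Lib.Helper22.commute_pow_prime_pow 2 n g x k hxpow hk (by exact_mod_cast hkodd)
      exact this.eq.symm
    have hg0 : orderOf g ≠ 0 := (orderOf_pos g).ne'
    obtain ⟨e, m, hm, hem⟩ := Nat.exists_eq_pow_mul_and_not_dvd hg0 2 (by norm_num)
    have hB : g ^ m ∈ Subgroup.centralizer ({x} : Set G) := by
      have hu_ord : orderOf (g ^ m) = 2 ^ e := by
        have hdvd : 2 ^ e ∣ orderOf g := Dvd.intro _ hem.symm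
        have := orderOf_pow_orderOf_div hg0 hdvd
        have hdiv : orderOf g / 2 ^ e = m := by
          rw [hem]
          exact Nat.mul_div_cancel_left _ (by positivity)
        rw [hdiv] at this
        exact this
      have hun : g ^ m ∈ Subgroup.normalizer ((Subgroup.zpowers x : Subgroup G) : Set G) :=
        Subgroup.pow_mem _ hg m
      have hu2 : IsPGroup 2 (Subgroup.zpowers (g ^ m)) :=
        IsPGroup.of_card (n := e) (by rw [Nat.card_zpowers, hu_ord])
      have hx2 : IsPGroup 2 (Subgroup.zpowers x) :=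
        IsPGroup.of_card (n := n) (by rw [Nat.card_zpowers, ← hxn])
      have hle : Subgroup.zpowers (g ^ m)
          ≤ Subgroup.normalizer ((Subgroup.zpowers x : Subgroup G) : Set G) := by
        rw [Subgroup.zpowers_le]
        exact hun
      have hZ : IsPGroup 2 (Subgroup.zpowers (g ^ m) ⊔ Subgroup.zpowers x : Subgroup G) :=
        IsPGroup.to_sup_of_normal_right' hu2 hx2 hle
      obtain ⟨P', hP'⟩ := hZ.exists_le_sylow
      obtain ⟨h, rfl⟩ := MulAction.exists_smul_eq G P P'
      have hxP : h⁻¹ * x * h ∈ (P : Subgroup G) := by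
        have : x ∈ MulAut.conj h • (P : Subgroup G) :=
          hP' ((le_sup_right : Subgroup.zpowers x ≤ _) (Subgroup.mem_zpowers x))
        exact (Lib.Helper22.mem_conj_smul_iff _ _ _).mp this
      have huP : h⁻¹ * g ^ m * h ∈ (P : Subgroup G) := by
        have : g ^ m ∈ MulAut.conj h • (P : Subgroup G) :=
          hP' ((le_sup_left : Subgroup.zpowers (g ^ m) ≤ _) (Subgroup.mem_zpowers _))
        exact (Lib.Helper22.mem_conj_smul_iff _ _ _).mp this
      have hux : g ^ m * x * (g ^ m)⁻¹ ∈ Subgroup.zpowers x :=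
        (Subgroup.mem_normalizer_iff.mp hun x).mp (Subgroup.mem_zpowers x)
      obtain ⟨j, hj⟩ := Subgroup.mem_zpowers_iff.mp hux
      have hwn : (⟨h⁻¹ * g ^ m * h, huP⟩ : (P : Subgroup G)) ∈ Subgroup.normalizer
          ((Subgroup.zpowers (⟨h⁻¹ * x * h, hxP⟩ : (P : Subgroup G)) : Subgroup (P : Subgroup G)) :
            Set (P : Subgroup G)) := by
        apply Subgroup.mem_normalizer_fintype
        intro z hz
        obtain ⟨i, rfl⟩ := Subgroup.mem_zpowers_iff.mp hz
        rw [SetLike.mem_coe, ← conj_zpow]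
        apply Subgroup.zpow_mem
        refine Subgroup.mem_zpowers_iff.mpr ⟨j, ?_⟩
        apply Subtype.ext
        show (h⁻¹ * x * h) ^ j = h⁻¹ * g ^ m * h * (h⁻¹ * x * h) * (h⁻¹ * g ^ m * h)⁻¹
        have e1 : h⁻¹ * g ^ m * h * (h⁻¹ * x * h) * (h⁻¹ * g ^ m * h)⁻¹
            = h⁻¹ * (g ^ m * x * (g ^ m)⁻¹) * h := by group
        have e2 : (h⁻¹ * x * h) ^ j = h⁻¹ * x ^ j * h := by
          have := conj_zpow (a := h⁻¹) (b := x) (i := j)
          rw [inv_inv] at this
          exact this
        rw [e1, e2, hj]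
      have hc := hP _ hwn
      rw [Subgroup.mem_centralizer_iff] at hc
      have hc' := congrArg Subtype.val (hc _ rfl)
      have hc'' : h⁻¹ * x * h * (h⁻¹ * g ^ m * h) = h⁻¹ * g ^ m * h * (h⁻¹ * x * h) := hc'
      rw [hcs]
      have e3 : x * g ^ m = h * (h⁻¹ * x * h * (h⁻¹ * g ^ m * h)) * h⁻¹ := by group
      rw [e3, hc'']
      group
    exact Lib.Helper22.mem_of_coprime_pow_mem _ g (2 ^ n) m
      (Nat.Coprime.pow_left n ((Nat.Prime.coprime_iff_not_dvd Nat.prime_two).mpr hm)) hA hB

end Cfsg.Agent.S4028
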