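import Cfsg.Statements.S4032
import Mathlib
import Cfsg.Agent.Lib.Helper22.TI
import Cfsg.Agent.Lib.Helper1.SZ

set_option autoImplicit false
open Cfsg

namespace Cfsg.Agent.S4032

open scoped Pointwise

/-- Let π be a set of primes and G a finite group in which N_G(⟨x⟩) = C_G(x) for every π-element x. If N is a normal subgroup of G whose order is divisible by no prime of π, then G/N has the same property: N_{G/N}(⟨y⟩) = C_{G/N}(y) for every π-element y of G/N. -/
theorem result {G : Type*} [Group G] [Finite G] (π : Set ℕ)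
    (hirr : ∀ x : G, (∀ r : ℕ, r.Prime → r ∣ orderOf x → r ∈ π) →
      Subgroup.normalizer ((Subgroup.zpowers x : Subgroup G) : Set G) ≤ Subgroup.centralizer {x})
    (N : Subgroup G) [N.Normal] (hN : ∀ r : ℕ, r.Prime → r ∣ Nat.card N → r ∉ π) :
    ∀ y : G ⧸ N, (∀ r : ℕ, r.Prime → r ∣ orderOf y → r ∈ π) →
      Subgroup.normalizer ((Subgroup.zpowers y : Subgroup (G ⧸ N)) : Set (G ⧸ N)) ≤ Subgroup.centralizer {y} := by
  classical
  intro ybar hybar gbar hgbar
  obtain ⟨y₀, rfl⟩ := QuotientGroup.mk_surjective ybar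
  obtain ⟨g, rfl⟩ := QuotientGroup.mk_surjective gbar
  obtain ⟨m, hm⟩ : ∃ m, m = orderOf (QuotientGroup.mk y₀ : G ⧸ N) := ⟨_, rfl⟩
  have hy₀m : y₀ ^ m ∈ N := by
    rw [← QuotientGroup.eq_one_iff, QuotientGroup.mk_pow, hm]
    exact pow_orderOf_eq_one _
  obtain ⟨k, hk⟩ : ∃ k, k = orderOf (y₀ ^ m) := ⟨_, rfl⟩
  have hkN : k ∣ Nat.card N := by
    have : orderOf (⟨y₀ ^ m, hy₀m⟩ : N) = k := by
      rw [hk, ← Subgroup.orderOf_coe]
    rw [← this]
    exact orderOf_dvd_natCard _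
  have hcop : Nat.Coprime k (orderOf (QuotientGroup.mk y₀ : G ⧸ N)) :=
    Nat.coprime_of_dvd (fun r hr hrk hrm => hN r hr (hrk.trans hkN) (hybar r hr hrm))
  obtain ⟨j, hj⟩ := exists_pow_eq_self_of_coprime hcop
  obtain ⟨y, hydef⟩ : ∃ y, y = (y₀ ^ k) ^ j := ⟨_, rfl⟩
  have hyq : (QuotientGroup.mk y : G ⧸ N) = QuotientGroup.mk y₀ := by
    rw [hydef, QuotientGroup.mk_pow, QuotientGroup.mk_pow]
    exact hj
  have hym : y ^ m = 1 := by
    calc y ^ m = ((y₀ ^ m) ^ k) ^ j := by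
          rw [hydef, ← pow_mul, ← pow_mul, ← pow_mul, ← pow_mul]
          congr 1
          ring
      _ = 1 := by rw [hk, pow_orderOf_eq_one, one_pow]
  have hyπ : ∀ r : ℕ, r.Prime → r ∣ orderOf y → r ∈ π := by
    intro r hr hrd
    apply hybar r hr
    rw [← hm]
    exact hrd.trans (orderOf_dvd_of_pow_eq_one hym)
  rw [← hyq] at hgbar ⊢
  have hgy : (QuotientGroup.mk g : G ⧸ N) * QuotientGroup.mk y * (QuotientGroup.mk g)⁻¹
      ∈ Subgroup.zpowers (QuotientGroup.mk y : G ⧸ N) :=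
    (Subgroup.mem_normalizer_iff.mp hgbar _).mp (Subgroup.mem_zpowers _)
  obtain ⟨i, hi⟩ := Subgroup.mem_zpowers_iff.mp hgy
  have hB : Subgroup.zpowers (g * y * g⁻¹) ≤ N ⊔ Subgroup.zpowers y := by
    rw [Subgroup.zpowers_le]
    have h1 : (g * y * g⁻¹) * (y ^ i)⁻¹ ∈ N := by
      rw [← QuotientGroup.eq_one_iff]
      simp only [QuotientGroup.mk_mul, QuotientGroup.mk_inv, QuotientGroup.mk_zpow]
      rw [hi]
      exact mul_inv_cancel _
    have : g * y * g⁻¹ = ((g * y * g⁻¹) * (y ^ i)⁻¹) * y ^ i := by group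
    rw [this]
    exact Subgroup.mul_mem _ (Subgroup.mem_sup_left h1)
      (Subgroup.mem_sup_right (Subgroup.zpow_mem _ (Subgroup.mem_zpowers y) i))
  have hBcard : Nat.card (Subgroup.zpowers (g * y * g⁻¹)) = Nat.card (Subgroup.zpowers y) := by
    rw [Nat.card_zpowers, Nat.card_zpowers]
    exact (MulAut.conj g).orderOf_eq y
  have hAK : Subgroup.zpowers y ≤ Subgroup.normalizer (N : Set G) := by
    rw [Subgroup.normalizer_eq_top_iff.mpr inferInstance]
    exact le_top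
  have hcop2 : (Nat.card (Subgroup.zpowers y)).Coprime (Nat.card N) := by
    rw [Nat.card_zpowers]
    exact Nat.coprime_of_dvd (fun r hr h1 h2 => hN r hr h2 (hyπ r hr h1))
  have hsolv : IsSolvable (Subgroup.zpowers y) := isSolvable_of_comm (fun a b => mul_comm' a b)
  obtain ⟨n, hn, hconj⟩ := Lib.Helper1.sz_conj_rel (Subgroup.zpowers y) N hAK hcop2
    (Or.inl hsolv) _ hB hBcard
  have hnorm : n⁻¹ * g ∈ Subgroup.normalizer ((Subgroup.zpowers y : Subgroup G) : Set G) := by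
    apply Subgroup.mem_normalizer_fintype
    intro z hz
    obtain ⟨t, rfl⟩ := Subgroup.mem_zpowers_iff.mp hz
    have h1 : g * y ^ t * g⁻¹ ∈ MulAut.conj n • Subgroup.zpowers y := by
      rw [hconj, ← conj_zpow]
      exact Subgroup.zpow_mem _ (Subgroup.mem_zpowers _) t
    rw [Lib.Helper22.mem_conj_smul_iff] at h1
    have e : n⁻¹ * g * y ^ t * (n⁻¹ * g)⁻¹ = n⁻¹ * (g * y ^ t * g⁻¹) * n := by group
    rw [SetLike.mem_coe, e]
    exact h1
  have hc := hirr y hyπ hnorm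
  rw [Subgroup.mem_centralizer_iff] at hc ⊢
  intro h hh
  rw [Set.mem_singleton_iff] at hh
  rw [hh]
  have h2 := hc y rfl
  have h3 := congrArg (QuotientGroup.mk : G → G ⧸ N) h2
  have hn1 : (QuotientGroup.mk n : G ⧸ N) = 1 := (QuotientGroup.eq_one_iff n).mpr hn
  simp only [QuotientGroup.mk_mul, QuotientGroup.mk_inv, hn1, inv_one, one_mul] at h3
  exact h3

end Cfsg.Agent.S4032
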