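import Cfsg.Statements.S4034
import Mathlib
import Cfsg.Agent.S0143
import Cfsg.Agent.Lib.Helper22.PRegular2
import Cfsg.Agent.Lib.Helper22.AbelianHall

set_option autoImplicit false
open Cfsg

namespace Cfsg.Agent.S4034

/-- Let G be a finite group and p a prime. Every conjugacy class of p-regular elements of G (elements of order prime to p) has p-power size if and only if G has an abelian p-complement, i.e. an abelian subgroup of order prime to p and p-power index. -/
theorem result {G : Type*} [Group G] [Finite G] {p : ℕ} (hp : p.Prime) :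
    (∀ x : G, (orderOf x).Coprime p → ∃ k : ℕ, (ConjClasses.mk x).carrier.ncard = p ^ k) ↔
    (∃ H : Subgroup G, IsMulCommutative H ∧ ¬ p ∣ Nat.card H ∧ ∃ k : ℕ, H.index = p ^ k) := by
  classical
  have hcl : ∀ x : G, (ConjClasses.mk x).carrier.ncard
      = (Subgroup.centralizer ({x} : Set G)).index := by
    intro x
    rw [← ConjAct.orbit_eq_carrier_conjClasses, ← MulAction.index_stabilizer,
      Subgroup.centralizer_eq_comap_stabilizer]
    exact (Subgroup.index_comap_of_surjective _ ConjAct.toConjAct.surjective).symm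
  constructor
  · intro h
    have hyp : ∀ x : G, (orderOf x).Coprime p →
        ∃ k : ℕ, (Subgroup.centralizer ({x} : Set G)).index = p ^ k := by
      intro x hx
      obtain ⟨k, hk⟩ := h x hx
      exact ⟨k, by rw [← hcl]; exact hk⟩
    obtain ⟨U, hUn, hUp, hUc⟩ := Lib.Helper22.exists_normal_pgroup_commutators p hp
      (fun Q _ _ _ k g hg hk => Cfsg.Agent.S0143.result p k hp g hg hk) _ G rfl hyp
    haveI := hUn
    obtain ⟨H, hab, hpH, hidx⟩ :=
      Lib.Helper22.exists_abelian_complement_of_commutators hp U hUp hUc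
    exact ⟨H, ⟨⟨fun a b => Subtype.ext (hab a a.2 b b.2)⟩⟩, hpH, hidx⟩
  · rintro ⟨H, hcommH, hpH, hidx⟩ x hx
    have hab : ∀ a ∈ H, ∀ b ∈ H, a * b = b * a := by
      intro a ha b hb
      have h1 := mul_comm' (⟨a, ha⟩ : H) ⟨b, hb⟩
      exact congrArg Subtype.val h1
    obtain ⟨g, hg⟩ := Lib.Helper22.exists_conj_mem_of_abelian_hall p hp _ G rfl H hab hpH hidx
      x hx
    obtain ⟨k, hk⟩ := hidx
    have hle : H ≤ Subgroup.centralizer ({g * x * g⁻¹} : Set G) := by
      intro h hh
      rw [Subgroup.mem_centralizer_iff]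
      intro t ht
      rw [Set.mem_singleton_iff] at ht
      rw [ht]
      exact hab _ hg _ hh
    have h1 := Subgroup.index_dvd_of_le hle
    rw [hk] at h1
    obtain ⟨j, -, hj⟩ := (Nat.dvd_prime_pow hp).mp h1
    refine ⟨j, ?_⟩
    have hmk : ConjClasses.mk x = ConjClasses.mk (g * x * g⁻¹) := by
      rw [ConjClasses.mk_eq_mk_iff_isConj, isConj_iff]
      exact ⟨g, rfl⟩
    rw [hmk, hcl, hj]

end Cfsg.Agent.S4034
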