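import Cfsg.Statements.S4036
import Mathlib

set_option autoImplicit false
open Cfsg

namespace Cfsg.Agent.S4036

/-- Let P be a finite abelian p-group and K a group of automorphisms of P (a subgroup of Aut P) whose order is divisible by p. If all non-identity elements of K have the same fixed-point subgroup on P, then K has no non-trivial normal subgroup of order prime to p. -/
theorem result {P : Type*} [CommGroup P] [Finite P] {p : ℕ}
    [Fact p.Prime] (hP : IsPGroup p P) (K : Subgroup (MulAut P)) (hK : p ∣ Nat.card K)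
    (hfix : ∀ x y : MulAut P, x ∈ K → y ∈ K → x ≠ 1 → y ≠ 1 → ∀ v : P, x v = v ↔ y v = v) :
    ∀ N : Subgroup ↥K, N.Normal → ¬ p ∣ Nat.card N → N = ⊥ := by
  classical
  intro N hN hpN
  by_contra hNb
  have hpp : p.Prime := Fact.out
  obtain ⟨n₀, hn₀N, hn₀1⟩ : ∃ n₀ ∈ N, n₀ ≠ 1 := by
    by_contra h
    push Not at h
    exact hNb ((Subgroup.eq_bot_iff_forall N).mpr h)
  obtain ⟨x, hx⟩ := exists_prime_orderOf_dvd_card' p hK
  have hx1 : x ≠ 1 := by
    intro h
    rw [h, orderOf_one] at hx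
    exact hpp.one_lt.ne hx
  have hxK1 : (x : MulAut P) ≠ 1 := fun h => hx1 (Subtype.ext h)
  have hn₀K1 : ((n₀ : K) : MulAut P) ≠ 1 := fun h => hn₀1 (Subtype.ext h)
  haveI : Fintype N := Fintype.ofFinite N
  let τ : P →* P :=
    { toFun := fun v => ∏ n : N, ((n : K) : MulAut P) v
      map_one' := by simp
      map_mul' := fun a b => by simp [Finset.prod_mul_distrib] }
  have hτ : ∀ v, τ v = ∏ n : N, ((n : K) : MulAut P) v := fun _ => rfl
  have hequiv : ∀ (k : K) (v : P), τ ((k : MulAut P) v) = (k : MulAut P) (τ v) := by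
    intro k v
    rw [hτ, hτ, map_prod]
    have := Equiv.prod_comp ((MulAut.conjNormal (H := N) k).toEquiv)
      (fun n : N => ((n : K) : MulAut P) ((k : MulAut P) v))
    rw [← this]
    apply Finset.prod_congr rfl
    intro n _
    show (((MulAut.conjNormal k n : N) : K) : MulAut P) ((k : MulAut P) v)
      = (k : MulAut P) (((n : K) : MulAut P) v)
    rw [MulAut.conjNormal_apply]
    simp [MulAut.mul_apply]
  have hfix0 : ∀ v, ((n₀ : K) : MulAut P) (τ v) = τ v := by
    intro v
    rw [hτ, map_prod]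
    have := Equiv.prod_comp (Equiv.mulLeft (⟨n₀, hn₀N⟩ : N))
      (fun n : N => ((n : K) : MulAut P) v)
    rw [← this]
    apply Finset.prod_congr rfl
    intro n _
    show _ = ((((⟨n₀, hn₀N⟩ : N) * n : N) : K) : MulAut P) v
    simp [MulAut.mul_apply]
  have hτfix : ∀ w : P, (x : MulAut P) w = w → τ w = w ^ Nat.card N := by
    intro w hw
    rw [hτ, Nat.card_eq_fintype_card, ← Finset.card_univ, ← Finset.prod_const]
    apply Finset.prod_congr rfl
    intro n _
    by_cases hn1 : ((n : K) : MulAut P) = 1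
    · rw [hn1]
      rfl
    · exact (hfix (x : MulAut P) ((n : K) : MulAut P) x.2 (n : K).2 hxK1 hn1 w).mp hw
  have hWinv : ∀ (k : K) (w : P), w ∈ τ.ker → (k : MulAut P) w ∈ τ.ker := by
    intro k w hw
    rw [MonoidHom.mem_ker] at hw ⊢
    rw [hequiv, hw, map_one]
  letI : MulAction K τ.ker :=
    { smul := fun k w => ⟨(k : MulAut P) w.1, hWinv k w.1 w.2⟩
      one_smul := fun w => Subtype.ext (by show ((1 : K) : MulAut P) w.1 = w.1; simp)
      mul_smul := fun k k' w => Subtype.ext (by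
        show ((k * k' : K) : MulAut P) w.1 = (k : MulAut P) ((k' : MulAut P) w.1)
        simp [MulAut.mul_apply]) }
  have hZ : IsPGroup p (Subgroup.zpowers x) :=
    IsPGroup.of_card (n := 1) (by rw [Nat.card_zpowers, hx, pow_one])
  have hmod := hZ.card_modEq_card_fixedPoints (τ.ker)
  have hfp : ∀ w : τ.ker, w ∈ MulAction.fixedPoints (Subgroup.zpowers x) τ.ker → w = 1 := by
    intro w hw
    have hxw : (x : MulAut P) w.1 = w.1 := by
      have := hw ⟨x, Subgroup.mem_zpowers x⟩
      exact congrArg Subtype.val this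
    have h1 : w.1 ^ Nat.card N = 1 := by
      rw [← hτfix w.1 hxw]
      exact w.2
    obtain ⟨k, hk⟩ := (IsPGroup.iff_orderOf.mp hP) w.1
    have h2 : orderOf w.1 ∣ Nat.card N := orderOf_dvd_of_pow_eq_one h1
    rcases k with _ | k
    · rw [pow_zero, orderOf_eq_one_iff] at hk
      exact Subtype.ext hk
    · exfalso
      apply hpN
      rw [hk] at h2
      exact (dvd_pow_self p (Nat.succ_ne_zero k)).trans h2
  have hcardfp : Nat.card (MulAction.fixedPoints (Subgroup.zpowers x) τ.ker) = 1 := by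
    rw [Nat.card_eq_one_iff_unique]
    refine ⟨⟨fun a b => Subtype.ext ((hfp a.1 a.2).trans (hfp b.1 b.2).symm)⟩, ⟨⟨1, ?_⟩⟩⟩
    intro g
    apply Subtype.ext
    show ((g : K) : MulAut P) (1 : P) = 1
    exact map_one _
  rw [hcardfp] at hmod
  obtain ⟨j, hj⟩ := IsPGroup.iff_card.mp (hP.to_subgroup τ.ker)
  have hj0 : j = 0 := by
    by_contra h
    rw [hj] at hmod
    have h0 : p ^ j ≡ 0 [MOD p] := (Nat.modEq_zero_iff_dvd).mpr (dvd_pow_self p h)
    have := h0.symm.trans hmod
    have h1 := (Nat.modEq_zero_iff_dvd).mp this.symm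
    exact hpp.one_lt.ne' (Nat.dvd_one.mp h1)
  rw [hj0, pow_zero] at hj
  have hker : τ.ker = ⊥ := (Subgroup.card_eq_one).mp hj
  have hτinj : Function.Injective τ := (MonoidHom.ker_eq_bot_iff τ).mp hker
  apply hxK1
  ext v
  apply hτinj
  rw [hequiv]
  show (x : MulAut P) (τ v) = τ v
  exact (hfix _ _ x.2 n₀.2 hxK1 hn₀K1 (τ v)).mpr (hfix0 v)

end Cfsg.Agent.S4036
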