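import Cfsg.Statements.S4043
import Mathlib
import Cfsg.Agent.Lib.Helper1.SZ

set_option autoImplicit false
open Cfsg

namespace Cfsg.Agent.S4043


open scoped Pointwise

theorem mem_of_pow_mem_of_coprime {X : Type*} [Group X] (S : Subgroup X) (g : X) (m n : ℕ)
    (h : m.Coprime n) (hm : g ^ m ∈ S) (hn : g ^ n ∈ S) : g ∈ S := by
  have h1 : (m : ℤ) * Nat.gcdA m n + (n : ℤ) * Nat.gcdB m n = 1 := by
    have := Nat.gcd_eq_gcd_ab m n
    rw [Nat.Coprime.gcd_eq_one h] at this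
    exact_mod_cast this.symm
  have h2 : g = (g ^ m) ^ (Nat.gcdA m n) * (g ^ n) ^ (Nat.gcdB m n) := by
    rw [← zpow_natCast, ← zpow_natCast, ← zpow_mul, ← zpow_mul, ← zpow_add, h1, zpow_one]
  rw [h2]
  exact S.mul_mem (S.zpow_mem hm _) (S.zpow_mem hn _)

/-- Let G be a finite group that is the semidirect product of a normal p-subgroup N by a subgroup A, and also of N by a subgroup A₁, where p is a prime and A and A₁ both have normal p-complements. If C_N(A) = C_N(A₁) = 1, then A₁ is conjugate to A by an element of N. -/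
theorem result {G : Type*} [Group G] [Finite G] {p : ℕ}
    [Fact p.Prime] (N : Subgroup G) [N.Normal] (hN : IsPGroup p N) (A A₁ : Subgroup G)
    (hA : A.IsComplement' N) (hA₁ : A₁.IsComplement' N)
    (hAp : Cfsg.HasNormalPComplement p A) (hA₁p : Cfsg.HasNormalPComplement p A₁)
    (hC : ∀ n : G, n ∈ N → (∀ a : G, a ∈ A → a * n * a⁻¹ = n) → n = 1)
    (hC₁ : ∀ n : G, n ∈ N → (∀ a : G, a ∈ A₁ → a * n * a⁻¹ = n) → n = 1) :
    ∃ n : G, n ∈ N ∧ A₁ = A.map (MulAut.conj n).toMonoidHom := by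
  classical
  have hp : p.Prime := Fact.out
  have hNn : N.Normal := inferInstance
  obtain ⟨P, K', hK'n, hK'c⟩ := hAp
  obtain ⟨P₁, K₁', hK₁'n, hK₁'c⟩ := hA₁p
  obtain ⟨K, hKdef⟩ : ∃ K : Subgroup G, K = K'.map A.subtype := ⟨_, rfl⟩
  obtain ⟨K₁, hK₁def⟩ : ∃ K₁ : Subgroup G, K₁ = K₁'.map A₁.subtype := ⟨_, rfl⟩
  obtain ⟨U₁, hU₁def⟩ : ∃ U₁ : Subgroup G, U₁ = (P₁ : Subgroup A₁).map A₁.subtype := ⟨_, rfl⟩
  have hU₁A : U₁ ≤ A₁ := hU₁def ▸ Subgroup.map_subtype_le _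
  have hKmem : ∀ g : G, g ∈ K ↔ ∃ h : g ∈ A, (⟨g, h⟩ : A) ∈ K' := by
    intro g; rw [hKdef]; constructor
    · rintro ⟨a, ha, rfl⟩; exact ⟨a.2, ha⟩
    · rintro ⟨h, ha⟩; exact ⟨⟨g, h⟩, ha, rfl⟩
  have hK₁mem : ∀ g : G, g ∈ K₁ ↔ ∃ h : g ∈ A₁, (⟨g, h⟩ : A₁) ∈ K₁' := by
    intro g; rw [hK₁def]; constructor
    · rintro ⟨a, ha, rfl⟩; exact ⟨a.2, ha⟩
    · rintro ⟨h, ha⟩; exact ⟨⟨g, h⟩, ha, rfl⟩
  have hAK : ∀ a ∈ A, ∀ k ∈ K, a * k * a⁻¹ ∈ K := by
    intro a ha k hk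
    obtain ⟨hkA, hk'⟩ := (hKmem k).1 hk
    rw [hKmem]
    exact ⟨A.mul_mem (A.mul_mem ha hkA) (A.inv_mem ha), hK'n.conj_mem _ hk' ⟨a, ha⟩⟩
  have hA₁K₁ : ∀ a ∈ A₁, ∀ k ∈ K₁, a * k * a⁻¹ ∈ K₁ := by
    intro a ha k hk
    obtain ⟨hkA, hk'⟩ := (hK₁mem k).1 hk
    rw [hK₁mem]
    exact ⟨A₁.mul_mem (A₁.mul_mem ha hkA) (A₁.inv_mem ha), hK₁'n.conj_mem _ hk' ⟨a, ha⟩⟩
  have hcardA : Nat.card A₁ = Nat.card A := by
    rw [← hA.index_eq_card, ← hA₁.index_eq_card]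
  have hK'card : Nat.card K' * p ^ (Nat.card A).factorization p = Nat.card A := by
    have := hK'c.card_mul_card
    rwa [Sylow.card_eq_multiplicity] at this
  have hK₁'card : Nat.card K₁' * p ^ (Nat.card A).factorization p = Nat.card A := by
    have := hK₁'c.card_mul_card
    rwa [Sylow.card_eq_multiplicity, hcardA] at this
  have hKcard : Nat.card K = Nat.card K' := by
    rw [hKdef]; exact Subgroup.card_map_of_injective (Subgroup.subtype_injective _)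
  have hK₁card : Nat.card K₁ = Nat.card K₁' := by
    rw [hK₁def]; exact Subgroup.card_map_of_injective (Subgroup.subtype_injective _)
  have hcardKK : Nat.card K₁ = Nat.card K := by
    rw [hKcard, hK₁card]
    exact Nat.eq_of_mul_eq_mul_right (pow_pos hp.pos _) (hK₁'card.trans hK'card.symm)
  have hKcop : (Nat.card K).Coprime p := by
    rw [hKcard, ← hK'c.index_eq_card]
    exact ((Nat.Prime.coprime_iff_not_dvd hp).2 P.not_dvd_index).symm
  have hK₁cop : (Nat.card K₁).Coprime p := by rw [hcardKK]; exact hKcop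
  obtain ⟨j, hj⟩ := IsPGroup.iff_card.1 hN
  have hcopKN : (Nat.card K).Coprime (Nat.card N) := by rw [hj]; exact Nat.Coprime.pow_right j hKcop
  have hcopK₁N : (Nat.card K₁).Coprime (Nat.card N) := by rw [hcardKK]; exact hcopKN
  have hK₁N_bot : K₁ ⊓ N = ⊥ := (Subgroup.disjoint_of_coprime_natCard hcopK₁N).eq_bot
  -- Step 2
  have hK₁L : K₁ ≤ N ⊔ K := by
    intro k₁ hk₁
    obtain ⟨⟨⟨a, ha⟩, ⟨m, hm⟩⟩, ham⟩ := hA.2 k₁
    have ham' : a * m = k₁ := ham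
    have hk₁o : (orderOf k₁).Coprime p :=
      Nat.Coprime.coprime_dvd_left (Subgroup.orderOf_dvd_natCard K₁ hk₁) hK₁cop
    have hmk : (QuotientGroup.mk' N a : G ⧸ N) = QuotientGroup.mk' N k₁ := by
      have hm1 : (QuotientGroup.mk' N) m = 1 := (QuotientGroup.eq_one_iff m).2 hm
      rw [← ham', map_mul, hm1, mul_one]
    have hinj : Function.Injective ((QuotientGroup.mk' N).comp A.subtype) := by
      rw [injective_iff_map_eq_one]
      intro b hb
      have hbN : (b : G) ∈ N := (QuotientGroup.eq_one_iff _).1 hb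
      have : (b : G) ∈ A ⊓ N := ⟨b.2, hbN⟩
      rw [hA.disjoint.eq_bot, Subgroup.mem_bot] at this
      exact Subtype.ext this
    have hao : orderOf (⟨a, ha⟩ : A) = orderOf (QuotientGroup.mk' N a : G ⧸ N) :=
      (orderOf_injective ((QuotientGroup.mk' N).comp A.subtype) hinj ⟨a, ha⟩).symm
    have hao' : (orderOf (⟨a, ha⟩ : A)).Coprime p := by
      rw [hao, hmk]
      exact Nat.Coprime.coprime_dvd_left (orderOf_map_dvd _ _) hk₁o
    have haK' : (⟨a, ha⟩ : A) ∈ K' := by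
      apply mem_of_pow_mem_of_coprime K' _ (orderOf (⟨a, ha⟩ : A)) K'.index
      · rw [hK'c.symm.index_eq_card, Sylow.card_eq_multiplicity]
        exact Nat.Coprime.pow_right _ hao'
      · rw [pow_orderOf_eq_one]; exact K'.one_mem
      · exact Subgroup.pow_index_mem K' _
    rw [← ham']
    exact Subgroup.mul_mem _ (Subgroup.mem_sup_right ((hKmem a).2 ⟨ha, haK'⟩)) (Subgroup.mem_sup_left hm)
  -- Step 3
  have hNsolv : Group.IsSolvable N := by
    have := hN.isNilpotent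
    infer_instance
  have hKN : K ≤ Subgroup.normalizer (N : Set G) := by
    rw [Subgroup.normalizer_eq_top_iff.2 hNn]; exact le_top
  obtain ⟨n, hnN, hnK⟩ := Cfsg.Agent.Lib.Helper1.sz_conj_rel K N hKN hcopKN (Or.inr hNsolv) K₁ hK₁L hcardKK
  -- Step 4
  have hCNK : ∀ m ∈ N, (∀ k ∈ K₁, m * k = k * m) → m = 1 := by
    intro m hm hmk
    by_contra hne
    obtain ⟨N₀, hN₀def⟩ : ∃ N₀ : Subgroup G, N₀ = N ⊓ Subgroup.centralizer (K₁ : Set G) := ⟨_, rfl⟩
    have hN₀mem : ∀ g, g ∈ N₀ ↔ g ∈ N ∧ ∀ k ∈ K₁, k * g = g * k := by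
      intro g
      rw [hN₀def, Subgroup.mem_inf, Subgroup.mem_centralizer_iff]
      rfl
    have hN₀p : IsPGroup p N₀ := hN.to_le (hN₀def ▸ inf_le_left)
    have hact : ∀ (u : U₁) (n₀ : N₀), (u : G) * (n₀ : G) * (u : G)⁻¹ ∈ N₀ := by
      intro u n₀
      have hn₀ := (hN₀mem _).1 n₀.2
      rw [hN₀mem]
      refine ⟨hNn.conj_mem _ hn₀.1 _, ?_⟩
      intro k hk
      have hk' : (u : G)⁻¹ * k * (u : G) ∈ K₁ := by
        have := hA₁K₁ (u : G)⁻¹ (A₁.inv_mem (hU₁A u.2)) k hk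
        simpa using this
      have h1 := hn₀.2 _ hk'
      have e1 : k * ((u : G) * (n₀ : G) * (u : G)⁻¹)
          = (u : G) * (((u : G)⁻¹ * k * (u : G)) * (n₀ : G)) * (u : G)⁻¹ := by group
      rw [e1, h1]; group
    let act : MulAction U₁ N₀ :=
      { smul := fun u n₀ => ⟨(u : G) * (n₀ : G) * (u : G)⁻¹, hact u n₀⟩
        one_smul := by
          intro n₀
          apply Subtype.ext
          change ((1 : U₁) : G) * (n₀ : G) * ((1 : U₁) : G)⁻¹ = n₀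
          simp
        mul_smul := by
          intro a b n₀
          apply Subtype.ext
          change ((a * b : U₁) : G) * (n₀ : G) * ((a * b : U₁) : G)⁻¹
            = (a : G) * ((b : G) * (n₀ : G) * (b : G)⁻¹) * (a : G)⁻¹
          rw [Subgroup.coe_mul]; group }
    have hdvd : p ∣ Nat.card N₀ := by
      obtain ⟨i, hi⟩ := IsPGroup.iff_card.1 hN₀p
      have hgt : 1 < Nat.card N₀ := by
        rw [Subgroup.one_lt_card_iff_ne_bot]
        intro hbot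
        have : m ∈ N₀ := (hN₀mem m).2 ⟨hm, fun k hk => (hmk k hk).symm⟩
        rw [hbot, Subgroup.mem_bot] at this
        exact hne this
      rw [hi] at hgt ⊢
      rcases Nat.eq_zero_or_pos i with rfl | hipos
      · simp at hgt
      · exact dvd_pow_self p hipos.ne'
    have hU₁p : IsPGroup p U₁ := hU₁def ▸ P₁.isPGroup'.map _
    have h1fix : (1 : N₀) ∈ MulAction.fixedPoints U₁ N₀ := by
      intro u
      apply Subtype.ext
      change (u : G) * ((1 : N₀) : G) * (u : G)⁻¹ = ((1 : N₀) : G)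
      simp
    obtain ⟨n₀, hn₀fix, hn₀ne⟩ :=
      hU₁p.exists_fixed_point_of_prime_dvd_card_of_fixed_point N₀ hdvd h1fix
    apply hn₀ne
    apply Subtype.ext
    symm
    have hn₀ := (hN₀mem _).1 n₀.2
    apply hC₁ (n₀ : G) hn₀.1
    intro a ha
    obtain ⟨⟨⟨k, hk⟩, ⟨u, hu⟩⟩, hku⟩ := hK₁'c.2 ⟨a, ha⟩
    have hku' : (k : G) * (u : G) = a := congrArg Subtype.val hku
    have hkK₁ : (k : G) ∈ K₁ := (hK₁mem _).2 ⟨k.2, hk⟩
    have huU₁ : (u : G) ∈ U₁ := by rw [hU₁def]; exact ⟨u, hu, rfl⟩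
    have h1 : (u : G) * (n₀ : G) * (u : G)⁻¹ = n₀ := congrArg Subtype.val (hn₀fix ⟨(u : G), huU₁⟩)
    have h2 : (k : G) * (n₀ : G) = (n₀ : G) * (k : G) := hn₀.2 _ hkK₁
    have e : a * (n₀ : G) * a⁻¹ = (k : G) * ((u : G) * (n₀ : G) * (u : G)⁻¹) * (k : G)⁻¹ := by
      rw [← hku']; group
    rw [e, h1, h2, mul_inv_cancel_right]
  refine ⟨n, hnN, ?_⟩
  symm
  apply Subgroup.eq_of_le_of_card_ge
  · rintro _ ⟨a, ha, rfl⟩
    simp only [MulEquiv.toMonoidHom_eq_coe, MonoidHom.coe_coe, MulAut.conj_apply]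
    obtain ⟨⟨⟨a₁, ha₁⟩, ⟨m, hm⟩⟩, ham⟩ := hA₁.2 (n * a * n⁻¹)
    have ham' : a₁ * m = n * a * n⁻¹ := ham
    have hm1 : m = 1 := by
      apply hCNK m hm
      intro k hk
      have h1 : m * k * m⁻¹ ∈ K₁ := by
        have hm_eq : m = a₁⁻¹ * (n * a * n⁻¹) := by rw [← ham']; group
        have h2 : (n * a * n⁻¹) * k * (n * a * n⁻¹)⁻¹ ∈ K₁ := by
          rw [← hnK, Cfsg.Agent.Lib.Helper1.mem_conj_smul_iff]
          have hk0 : n⁻¹ * k * n ∈ K := by
            rw [← hnK, Cfsg.Agent.Lib.Helper1.mem_conj_smul_iff] at hk; exact hk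
          have := hAK a ha _ hk0
          have e : n⁻¹ * ((n * a * n⁻¹) * k * (n * a * n⁻¹)⁻¹) * n = a * (n⁻¹ * k * n) * a⁻¹ := by
            group
          rw [e]; exact this
        have h3 := hA₁K₁ a₁⁻¹ (A₁.inv_mem ha₁) _ h2
        have e : m * k * m⁻¹ = a₁⁻¹ * ((n * a * n⁻¹) * k * (n * a * n⁻¹)⁻¹) * a₁⁻¹⁻¹ := by
          rw [hm_eq]; group
        rw [e]; exact h3
      have h4 : m * k * m⁻¹ * k⁻¹ ∈ K₁ ⊓ N := by
        refine ⟨K₁.mul_mem h1 (K₁.inv_mem hk), ?_⟩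
        have e : m * k * m⁻¹ * k⁻¹ = m * (k * m⁻¹ * k⁻¹) := by group
        rw [e]; exact N.mul_mem hm (hNn.conj_mem _ (N.inv_mem hm) _)
      rw [hK₁N_bot, Subgroup.mem_bot] at h4
      have e : m * k = (m * k * m⁻¹ * k⁻¹) * k * m := by group
      rw [e, h4, one_mul]
    rw [← ham', hm1, mul_one]; exact ha₁
  · rw [Subgroup.card_map_of_injective (MulAut.conj n).injective, hcardA]

end Cfsg.Agent.S4043
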