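import Cfsg.Statements.S4049
import Mathlib
import Cfsg.Agent.S0199
import Cfsg.Agent.Lib.Helper6.PSolv
import Cfsg.Agent.Lib.Helper1.SZ
import Cfsg.Agent.Lib.Helper1.Cores

set_option autoImplicit false
open Cfsg

namespace Cfsg.Agent.S4049

open scoped Pointwise

theorem stepE {G : Type*} [Group G] [Finite G]
    (hhom : ∀ H : Subgroup G, H ≠ ⊥ → ¬ 2 ∣ Nat.card ↥H →
        ¬ 2 ∣ (Subgroup.centralizer (H : Set G)).relIndex (Subgroup.normalizer (H : Set G)))
    (H : Subgroup G) (hH : ¬ 2 ∣ Nat.card ↥H) (t : G) (k : ℕ) (ht : t ^ 2 ^ k = 1)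
    (htn : t ∈ Subgroup.normalizer (H : Set G)) : t ∈ Subgroup.centralizer (H : Set G) := by
  by_cases hbot : H = ⊥
  · subst hbot
    rw [Subgroup.mem_centralizer_iff]
    intro h hh
    have h1 : h = 1 := Subgroup.mem_bot.mp hh
    rw [h1]; simp
  have hr := hhom H hbot hH
  have hnorm : ((Subgroup.centralizer (H : Set G)).subgroupOf
      (Subgroup.normalizer (H : Set G))).Normal := by
    constructor
    rintro ⟨c, hcN⟩ hc ⟨n, hn⟩
    rw [Subgroup.mem_subgroupOf] at hc ⊢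
    show n * c * n⁻¹ ∈ Subgroup.centralizer (H : Set G)
    have hc' : c ∈ Subgroup.centralizer (H : Set G) := hc
    rw [Subgroup.mem_centralizer_iff] at hc' ⊢
    intro h hh
    have hh' : n⁻¹ * h * n ∈ H := by
      have h2 := (Subgroup.mem_normalizer_iff.mp (Subgroup.inv_mem _ hn) h).mp hh
      simpa using h2
    have h3 := hc' _ hh'
    have e1 : h * (n * c * n⁻¹) = n * (n⁻¹ * h * n * c) * n⁻¹ := by group
    rw [e1, h3]; group
  have h1 := Subgroup.pow_index_mem ((Subgroup.centralizer (H : Set G)).subgroupOf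
      (Subgroup.normalizer (H : Set G))) (⟨t, htn⟩ : ↥(Subgroup.normalizer (H : Set G)))
  rw [Subgroup.mem_subgroupOf] at h1
  have h2 : t ^ (Subgroup.centralizer (H : Set G)).relIndex (Subgroup.normalizer (H : Set G)) ∈
      Subgroup.centralizer (H : Set G) := h1
  have hcop : Nat.Coprime ((Subgroup.centralizer (H : Set G)).relIndex
      (Subgroup.normalizer (H : Set G))) (orderOf t) := by
    have h3 : orderOf t ∣ 2 ^ k := orderOf_dvd_of_pow_eq_one ht
    exact (Nat.Coprime.coprime_dvd_left h3 (Nat.Coprime.pow_left _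
      ((Nat.Prime.coprime_iff_not_dvd Nat.prime_two).mpr hr))).symm
  obtain ⟨s, hs⟩ := exists_pow_eq_self_of_coprime hcop
  rw [← hs]
  exact Subgroup.pow_mem _ h2 s

theorem main {G : Type*} [Group G] [Finite G] [Fact (Nat.Prime 2)]
    (hE : ∀ H : Subgroup G, ¬ 2 ∣ Nat.card ↥H → ∀ (t : G) (k : ℕ), t ^ 2 ^ k = 1 →
      t ∈ Subgroup.normalizer (H : Set G) → t ∈ Subgroup.centralizer (H : Set G))
    (K : Subgroup G) [hKn : K.Normal] (hK2 : IsPGroup 2 K)
    (hQle : ∀ N : Subgroup (G ⧸ K), N.Normal → IsPGroup 2 N → N ≤ ⊥) (P : Sylow 2 G) :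
    (P : Subgroup G).Normal := by
  obtain ⟨kK, hkK⟩ := IsPGroup.iff_card.mp hK2
  have hKpow : ∀ u ∈ K, u ^ 2 ^ kK = 1 := by
    intro u hu
    have h1 := pow_card_eq_one' (G := ↥K) (x := ⟨u, hu⟩)
    rw [hkK] at h1
    exact congrArg Subtype.val h1
  have hinv : ∀ a b : G ⧸ K, a ^ 2 = 1 → b ^ 2 = 1 → ∃ j : ℕ, (a * b) ^ 2 ^ j = 1 := by
    intro a b ha hb
    obtain ⟨t, rfl⟩ := QuotientGroup.mk_surjective a
    obtain ⟨j, r, hr, hjr⟩ := Nat.exists_eq_pow_mul_and_not_dvd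
      (orderOf_pos ((QuotientGroup.mk t : G ⧸ K) * b)).ne' 2 (by norm_num)
    refine ⟨j, ?_⟩
    obtain ⟨y', hy'def⟩ : ∃ y', y' = ((QuotientGroup.mk t : G ⧸ K) * b) ^ 2 ^ j := ⟨_, rfl⟩
    rw [← hy'def]
    have hy'r : y' ^ r = 1 := by
      rw [hy'def, ← pow_mul, ← hjr]; exact pow_orderOf_eq_one _
    have ha' : (QuotientGroup.mk t : G ⧸ K)⁻¹ = QuotientGroup.mk t := by
      rw [inv_eq_iff_mul_eq_one, ← sq]; exact ha
    have hb' : b⁻¹ = b := by rw [inv_eq_iff_mul_eq_one, ← sq]; exact hb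
    have hainv : (QuotientGroup.mk t : G ⧸ K) * y' * (QuotientGroup.mk t)⁻¹ = y'⁻¹ := by
      have h1 : (QuotientGroup.mk t : G ⧸ K) * (QuotientGroup.mk t * b) * (QuotientGroup.mk t)⁻¹
          = (QuotientGroup.mk t * b)⁻¹ := by
        rw [mul_inv_rev, hb', ha', ← mul_assoc, ← sq, ha, one_mul]
      rw [hy'def, ← conj_pow, h1, inv_pow]
    obtain ⟨y, hy⟩ := QuotientGroup.mk_surjective y'
    have hyrK : y ^ r ∈ K := by
      rw [← QuotientGroup.eq_one_iff, QuotientGroup.mk_pow, hy]; exact hy'r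
    obtain ⟨y₀, hy₀def⟩ : ∃ y₀, y₀ = y ^ 2 ^ kK := ⟨_, rfl⟩
    have hy₀r : y₀ ^ r = 1 := by
      rw [hy₀def, ← pow_mul, mul_comm, pow_mul]; exact hKpow _ hyrK
    have hHodd : ¬ 2 ∣ Nat.card (Subgroup.zpowers y₀) := by
      rw [Nat.card_zpowers]
      intro h2
      exact hr (h2.trans (orderOf_dvd_of_pow_eq_one hy₀r))
    have hmk0 : (QuotientGroup.mk y₀ : G ⧸ K) = y' ^ 2 ^ kK := by
      rw [hy₀def, QuotientGroup.mk_pow, hy]
    have hinv0 : (QuotientGroup.mk t : G ⧸ K) * QuotientGroup.mk y₀ * (QuotientGroup.mk t)⁻¹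
        = (QuotientGroup.mk y₀)⁻¹ := by
      rw [hmk0, ← conj_pow, hainv, inv_pow]
    have htconj : t * y₀ * t⁻¹ * y₀ ∈ K := by
      rw [← QuotientGroup.eq_one_iff]
      simp only [QuotientGroup.mk_mul, QuotientGroup.mk_inv]
      rw [hinv0, inv_mul_cancel]
    have hB : MulAut.conj t • Subgroup.zpowers y₀ ≤ K ⊔ Subgroup.zpowers y₀ := by
      intro z hz
      rw [Cfsg.Agent.Lib.Helper1.mem_conj_smul_iff] at hz
      have h1 : t * y₀ * t⁻¹ ∈ K ⊔ Subgroup.zpowers y₀ := by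
        have e : t * y₀ * t⁻¹ = (t * y₀ * t⁻¹ * y₀) * y₀⁻¹ := by group
        rw [e]
        exact Subgroup.mul_mem_sup htconj (Subgroup.inv_mem _ (Subgroup.mem_zpowers y₀))
      obtain ⟨i, hi⟩ := Subgroup.mem_zpowers_iff.mp hz
      have e : z = (t * y₀ * t⁻¹) ^ i := by rw [conj_zpow, hi]; group
      rw [e]; exact Subgroup.zpow_mem _ h1 i
    have hBcard : Nat.card ↥(MulAut.conj t • Subgroup.zpowers y₀)
        = Nat.card (Subgroup.zpowers y₀) :=
      Nat.card_congr (Subgroup.equivSMul (MulAut.conj t) (Subgroup.zpowers y₀)).toEquiv.symm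
    have hcop : (Nat.card (Subgroup.zpowers y₀)).Coprime (Nat.card K) := by
      rw [hkK]
      exact Nat.Coprime.pow_right _
        (Nat.Coprime.symm ((Nat.Prime.coprime_iff_not_dvd Nat.prime_two).mpr hHodd))
    have hKsolv : Group.IsSolvable K := by
      have := hK2.isNilpotent
      infer_instance
    obtain ⟨u, huK, hu⟩ := Cfsg.Agent.Lib.Helper1.sz_conj_rel (Subgroup.zpowers y₀) K
      (by rw [Subgroup.normalizer_eq_top_iff.mpr hKn]; exact le_top) hcop (Or.inr hKsolv) _ hB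
      hBcard
    have hsH : MulAut.conj (u⁻¹ * t) • Subgroup.zpowers y₀ = Subgroup.zpowers y₀ := by
      rw [map_mul, mul_smul, ← hu, ← mul_smul, ← map_mul, inv_mul_cancel, map_one, one_smul]
    have hsn : u⁻¹ * t ∈ Subgroup.normalizer (Subgroup.zpowers y₀ : Set G) := by
      rw [Subgroup.mem_normalizer_iff]
      intro n
      constructor
      · intro hn
        have h1 : (u⁻¹ * t) * n * (u⁻¹ * t)⁻¹ ∈ MulAut.conj (u⁻¹ * t) • Subgroup.zpowers y₀ := by
          rw [Cfsg.Agent.Lib.Helper1.mem_conj_smul_iff]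
          have e : (u⁻¹ * t)⁻¹ * ((u⁻¹ * t) * n * (u⁻¹ * t)⁻¹) * (u⁻¹ * t) = n := by group
          rw [e]; exact hn
        rw [hsH] at h1
        exact h1
      · intro hn
        have hn' : (u⁻¹ * t) * n * (u⁻¹ * t)⁻¹ ∈ MulAut.conj (u⁻¹ * t) • Subgroup.zpowers y₀ := by
          rw [hsH]; exact hn
        rw [Cfsg.Agent.Lib.Helper1.mem_conj_smul_iff] at hn'
        have e : (u⁻¹ * t)⁻¹ * ((u⁻¹ * t) * n * (u⁻¹ * t)⁻¹) * (u⁻¹ * t) = n := by group
        rw [e] at hn'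
        exact hn'
    have hmku : (QuotientGroup.mk (u⁻¹ * t) : G ⧸ K) = QuotientGroup.mk t := by
      rw [QuotientGroup.mk_mul, QuotientGroup.mk_inv, (QuotientGroup.eq_one_iff u).mpr huK,
        inv_one, one_mul]
    have hs2 : (u⁻¹ * t) ^ 2 ∈ K := by
      rw [← QuotientGroup.eq_one_iff, QuotientGroup.mk_pow, hmku]; exact ha
    have hspow : (u⁻¹ * t) ^ 2 ^ (kK + 1) = 1 := by
      rw [pow_succ', pow_mul]; exact hKpow _ hs2
    have hsc := hE (Subgroup.zpowers y₀) hHodd (u⁻¹ * t) (kK + 1) hspow hsn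
    have hcomm : y₀ * (u⁻¹ * t) = (u⁻¹ * t) * y₀ :=
      (Subgroup.mem_centralizer_iff.mp hsc) y₀ (Subgroup.mem_zpowers y₀)
    have hq : (QuotientGroup.mk y₀ : G ⧸ K) * QuotientGroup.mk t
        = QuotientGroup.mk t * QuotientGroup.mk y₀ := by
      have h1 : (QuotientGroup.mk' K) (y₀ * (u⁻¹ * t)) = (QuotientGroup.mk' K) ((u⁻¹ * t) * y₀) := by
        rw [hcomm]
      rw [map_mul _ y₀ (u⁻¹ * t), map_mul _ (u⁻¹ * t) y₀] at h1
      have h2 : (QuotientGroup.mk' K) (u⁻¹ * t) = QuotientGroup.mk t := hmku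
      rw [h2] at h1
      exact h1
    have hsq : (QuotientGroup.mk y₀ : G ⧸ K) ^ 2 = 1 := by
      rw [← hq, mul_inv_cancel_right] at hinv0
      rw [sq]
      nth_rewrite 1 [hinv0]
      exact inv_mul_cancel _
    have hy0r : (QuotientGroup.mk y₀ : G ⧸ K) ^ r = 1 := by
      rw [← QuotientGroup.mk_pow, hy₀r]; rfl
    have hc2r : Nat.Coprime 2 r := (Nat.Prime.coprime_iff_not_dvd Nat.prime_two).mpr hr
    have h1 : (QuotientGroup.mk y₀ : G ⧸ K) = 1 := by
      have hd2 : orderOf (QuotientGroup.mk y₀ : G ⧸ K) ∣ 2 := orderOf_dvd_of_pow_eq_one hsq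
      have hdr := orderOf_dvd_of_pow_eq_one hy0r
      exact orderOf_eq_one_iff.mp (Nat.eq_one_of_dvd_coprimes hc2r hd2 hdr)
    rw [hmk0] at h1
    have hd1 : orderOf y' ∣ 2 ^ kK := orderOf_dvd_of_pow_eq_one h1
    have hd2 : orderOf y' ∣ r := orderOf_dvd_of_pow_eq_one hy'r
    exact orderOf_eq_one_iff.mp (Nat.eq_one_of_dvd_coprimes (Nat.Coprime.pow_left _ hc2r) hd1 hd2)
  have hnoinv : ∀ a : G ⧸ K, a ^ 2 = 1 → a = 1 := by
    intro a ha
    have ha' : a⁻¹ = a := by rw [inv_eq_iff_mul_eq_one, ← sq]; exact ha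
    have hX : IsPGroup 2 (Subgroup.zpowers a) := by
      rintro ⟨g, hg⟩
      obtain ⟨i, rfl⟩ := Subgroup.mem_zpowers_iff.mp hg
      refine ⟨1, Subtype.ext ?_⟩
      show (a ^ i) ^ 2 ^ 1 = 1
      rw [pow_one, ← zpow_natCast, ← zpow_mul, mul_comm, zpow_mul, zpow_natCast, ha, one_zpow]
    obtain ⟨N, hNn, hN2, hXN⟩ := Cfsg.Agent.S0199.result (Subgroup.zpowers a) hX (by
      intro g
      obtain ⟨b, hbdef⟩ : ∃ b, b = g * a * g⁻¹ := ⟨_, rfl⟩
      have hb : b ^ 2 = 1 := by rw [hbdef, conj_pow, ha]; group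
      have hmap : (Subgroup.zpowers a).map (MulAut.conj g).toMonoidHom = Subgroup.zpowers b := by
        rw [MonoidHom.map_zpowers, hbdef]; rfl
      rw [hmap]
      obtain ⟨j, hj⟩ := hinv a b ha hb
      have hAB : IsPGroup 2 (Subgroup.zpowers (a * b)) := by
        rintro ⟨g', hg'⟩
        obtain ⟨i, rfl⟩ := Subgroup.mem_zpowers_iff.mp hg'
        refine ⟨j, Subtype.ext ?_⟩
        show ((a * b) ^ i) ^ 2 ^ j = 1
        rw [← zpow_natCast, ← zpow_mul, mul_comm, zpow_mul, zpow_natCast, hj, one_zpow]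
      have hb' : b⁻¹ = b := by rw [inv_eq_iff_mul_eq_one, ← sq]; exact hb
      have hconj : ∀ n ∈ Subgroup.zpowers (a * b), a * n * a⁻¹ ∈ Subgroup.zpowers (a * b) := by
        intro n hn
        obtain ⟨i, rfl⟩ := Subgroup.mem_zpowers_iff.mp hn
        have h1 : a * (a * b) * a⁻¹ = (a * b)⁻¹ := by
          rw [mul_inv_rev, hb', ha', ← mul_assoc, ← sq, ha, one_mul]
        rw [← conj_zpow, h1]
        exact Subgroup.zpow_mem _ (Subgroup.inv_mem _ (Subgroup.mem_zpowers _)) i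
      have hnorm : Subgroup.zpowers a ≤ Subgroup.normalizer (Subgroup.zpowers (a * b) : Set _) := by
        rw [Subgroup.zpowers_le, Subgroup.mem_normalizer_iff]
        intro n
        constructor
        · exact hconj n
        · intro hn
          have h1 := hconj _ hn
          have e : a * (a * n * a⁻¹) * a⁻¹ = n := by
            rw [ha']
            have e2 : a * (a * n * a) * a = (a * a) * n * (a * a) := by group
            rw [e2, ← sq, ha]; group
          rw [e] at h1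
          exact h1
      have hsup := IsPGroup.to_sup_of_normal_right' hX hAB hnorm
      apply hsup.to_le
      apply sup_le le_sup_left
      rw [Subgroup.zpowers_le]
      have h1 : a⁻¹ * (a * b) ∈ Subgroup.zpowers a ⊔ Subgroup.zpowers (a * b) :=
        Subgroup.mul_mem _ (Subgroup.inv_mem _ (Subgroup.mem_sup_left (Subgroup.mem_zpowers a)))
          (Subgroup.mem_sup_right (Subgroup.mem_zpowers _))
      rw [inv_mul_cancel_left] at h1
      exact h1)
    exact Subgroup.mem_bot.mp (hQle N hNn hN2 (hXN (Subgroup.mem_zpowers a)))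
  have hodd : ¬ 2 ∣ Nat.card (G ⧸ K) := by
    intro h2
    obtain ⟨x, hx⟩ := exists_prime_orderOf_dvd_card' (G := G ⧸ K) 2 h2
    have h1 : x ^ 2 = 1 := by rw [← hx]; exact pow_orderOf_eq_one x
    have h3 := hnoinv x h1
    rw [h3, orderOf_one] at hx
    omega
  have hKP : K ≤ (P : Subgroup G) := Cfsg.Agent.Lib.Helper1.normal_pgroup_le_sylow hKn hK2 P
  have hidx : K.relIndex (P : Subgroup G) * (P : Subgroup G).index = K.index :=
    Subgroup.relIndex_mul_index hKP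
  have hrel_odd : ¬ 2 ∣ K.relIndex (P : Subgroup G) := by
    intro h2
    apply hodd
    rw [← Subgroup.index_eq_card, ← hidx]
    exact Dvd.dvd.mul_right h2 _
  have hrel_pow : K.relIndex (P : Subgroup G) ∣ Nat.card (P : Subgroup G) :=
    Subgroup.relIndex_dvd_card K (P : Subgroup G)
  obtain ⟨nP, hnP⟩ := IsPGroup.iff_card.mp P.isPGroup'
  rw [hnP] at hrel_pow
  obtain ⟨m, -, hm⟩ := (Nat.dvd_prime_pow Nat.prime_two).mp hrel_pow
  have hm0 : m = 0 := by
    by_contra hm0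
    apply hrel_odd
    rw [hm]
    exact dvd_pow_self 2 hm0
  rw [hm0, pow_zero] at hm
  have hPK : (P : Subgroup G) ≤ K := Subgroup.relIndex_eq_one.mp hm
  have hPeq : (P : Subgroup G) = K := le_antisymm hPK hKP
  rw [hPeq]
  exact hKn

/-- Let G be a finite group such that N_G(H)/C_G(H) has odd order for every nontrivial subgroup H of odd order. Then the Sylow 2-subgroups of G are normal. -/
theorem result {G : Type*} [Group G] [Finite G]
    (hhom : ∀ H : Subgroup G, H ≠ ⊥ → ¬ 2 ∣ Nat.card ↥H →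
        ¬ 2 ∣ (Subgroup.centralizer (H : Set G)).relIndex (Subgroup.normalizer (H : Set G))) (P : Sylow 2 G) :
    (P : Subgroup G).Normal := by
  have : Fact (Nat.Prime 2) := ⟨Nat.prime_two⟩
  have hQbot : Cfsg.pCore 2 (G ⧸ Cfsg.pCore 2 G) = ⊥ :=
    Cfsg.Agent.Lib.Helper6.pCore_quotient_pCore_eq_bot
  have hQle : ∀ N : Subgroup (G ⧸ Cfsg.pCore 2 G), N.Normal → IsPGroup 2 N → N ≤ ⊥ := by
    intro N h1 h2
    rw [← hQbot]; exact Cfsg.Agent.Lib.Helper14.le_pCore 2 h1 h2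
  exact main (stepE hhom) (Cfsg.pCore 2 G) (Cfsg.Agent.Lib.Helper14.pCore_isPGroup 2) hQle P

end Cfsg.Agent.S4049
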