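import Cfsg.Statements.S4065
import Mathlib

set_option autoImplicit false
open Cfsg

namespace Cfsg.Agent.S4065


theorem comm_form {K : Type*} [Field K] (A B : Matrix (Fin 2) (Fin 2) K)
    (hA : ¬ (A 0 1 = 0 ∧ A 1 0 = 0 ∧ A 0 0 = A 1 1)) (h : A * B = B * A) :
    ∃ α β : K, B = α • (1 : Matrix (Fin 2) (Fin 2) K) + β • A := by
  have e00 := congrFun (congrFun h 0) 0
  have e01 := congrFun (congrFun h 0) 1
  have e10 := congrFun (congrFun h 1) 0
  simp only [Matrix.mul_apply, Fin.sum_univ_two] at e00 e01 e10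
  by_cases hb : A 0 1 = 0
  · by_cases hc : A 1 0 = 0
    · have had : A 0 0 - A 1 1 ≠ 0 := fun h' => hA ⟨hb, hc, sub_eq_zero.mp h'⟩
      refine ⟨B 0 0 - (B 0 0 - B 1 1) / (A 0 0 - A 1 1) * A 0 0,
        (B 0 0 - B 1 1) / (A 0 0 - A 1 1), ?_⟩
      have hf : B 0 1 = 0 := by
        have : B 0 1 * (A 0 0 - A 1 1) = 0 := by rw [hb] at e01; linear_combination e01
        exact (mul_eq_zero.mp this).resolve_right had
      have hg : B 1 0 = 0 := by
        have : B 1 0 * (A 0 0 - A 1 1) = 0 := by rw [hc] at e10; linear_combination -e10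
        exact (mul_eq_zero.mp this).resolve_right had
      ext i j
      fin_cases i <;> fin_cases j
      · simp
      · simp [hb, hf]
      · simp [hc, hg]
      · simp
        field_simp
        ring
    · refine ⟨B 0 0 - B 1 0 / A 1 0 * A 0 0, B 1 0 / A 1 0, ?_⟩
      ext i j
      fin_cases i <;> fin_cases j
      · simp
      · simp
        field_simp
        linear_combination -e00
      · simp
        field_simp
      · simp
        field_simp
        linear_combination -e10
  · refine ⟨B 0 0 - B 0 1 / A 0 1 * A 0 0, B 0 1 / A 0 1, ?_⟩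
    ext i j
    fin_cases i <;> fin_cases j
    · simp
    · simp
      field_simp
    · simp
      field_simp
      linear_combination e00
    · simp
      field_simp
      linear_combination e01

theorem comm_of_comm {K : Type*} [Field K] (A B C : Matrix (Fin 2) (Fin 2) K)
    (hA : ¬ (A 0 1 = 0 ∧ A 1 0 = 0 ∧ A 0 0 = A 1 1)) (hB : A * B = B * A)
    (hC : A * C = C * A) : B * C = C * B := by
  obtain ⟨α, β, rfl⟩ := comm_form A B hA hB
  obtain ⟨α', β', rfl⟩ := comm_form A C hA hC
  have h1 : Commute (α • (1 : Matrix (Fin 2) (Fin 2) K) + β • A) (α' • 1 + β' • A) := by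
    apply Commute.add_left <;> apply Commute.add_right
    · exact ((Commute.one_left (1 : Matrix (Fin 2) (Fin 2) K)).smul_left α).smul_right α'
    · exact ((Commute.one_left A).smul_left α).smul_right β'
    · exact ((Commute.one_right A).smul_left β).smul_right α'
    · exact ((Commute.refl A).smul_left β).smul_right β'
  exact h1

theorem ti_of_ca {H : Type*} [Group H]
    (hCA : ∀ x u v : H, x ≠ 1 → u * x = x * u → v * x = x * v → u * v = v * u) (x : H) :
    Cfsg.IsTISubset (Subgroup.centralizer ({x} : Set H) : Set H) := by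
  intro g hg y hy hy'
  by_contra hy1
  apply hg
  have hmem : ∀ u : H, u ∈ Subgroup.centralizer ({x} : Set H) ↔ u * x = x * u := by
    intro u
    rw [Subgroup.mem_centralizer_iff]
    constructor
    · intro h; exact (h x rfl).symm
    · intro h z hz; rw [Set.mem_singleton_iff.mp hz]; exact h.symm
  replace hy := (hmem _).mp hy
  replace hy' := (hmem _).mp hy'
  by_cases hx1 : x = 1
  · rw [Subgroup.mem_normalizer_iff]
    intro n
    show n ∈ Subgroup.centralizer ({x} : Set H) ↔ g * n * g⁻¹ ∈ Subgroup.centralizer ({x} : Set H)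
    rw [hmem, hmem, hx1]
    simp
  have key : ∀ z : H, z ≠ 1 → z * x = x * z → ∀ u : H, (u * x = x * u ↔ u * z = z * u) := by
    intro z hz1 hzx u
    constructor
    · intro hu; exact hCA x u z hx1 hu hzx
    · intro hu; exact hCA z u x hz1 hu hzx.symm
  have hy'1 : g * y * g⁻¹ ≠ 1 := by
    intro h; apply hy1
    have : y = g⁻¹ * (g * y * g⁻¹) * g := by group
    rw [this, h]; group
  rw [Subgroup.mem_normalizer_iff]
  intro n
  show n ∈ Subgroup.centralizer ({x} : Set H) ↔ g * n * g⁻¹ ∈ Subgroup.centralizer ({x} : Set H)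
  rw [hmem, hmem, key y hy1 hy n, key _ hy'1 hy' (g * n * g⁻¹)]
  constructor
  · intro h
    have e1 : g * n * g⁻¹ * (g * y * g⁻¹) = g * (n * y) * g⁻¹ := by group
    have e2 : g * y * g⁻¹ * (g * n * g⁻¹) = g * (y * n) * g⁻¹ := by group
    rw [e1, e2, h]
  · intro h
    have e1 : n * y = g⁻¹ * (g * n * g⁻¹ * (g * y * g⁻¹)) * g := by group
    rw [e1, h]; group

/-- Let F be a finite field with 2ⁿ elements, n ≥ 2. In PSL₂(F) the centralizer of every element meets each of its conjugates by elements outside its normalizer trivially. -/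
theorem result (n : ℕ) (hn : 2 ≤ n)
    (x : Matrix.ProjectiveSpecialLinearGroup (Fin 2) (GaloisField 2 n)) :
    Cfsg.IsTISubset (Subgroup.centralizer ({x} : Set (Matrix.ProjectiveSpecialLinearGroup (Fin 2) (GaloisField 2 n))) :
      Set (Matrix.ProjectiveSpecialLinearGroup (Fin 2) (GaloisField 2 n))) := by
  have hsq : ∀ r : GaloisField 2 n, r ^ 2 = 1 → r = 1 := by
    intro r hr
    have h2 : (2 : GaloisField 2 n) = 0 := by
      have := CharP.cast_eq_zero (GaloisField 2 n) 2
      exact_mod_cast this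
    have h3 : (r - 1) ^ 2 = 0 := by linear_combination hr - (r - 1) * h2
    have h4 : r - 1 = 0 := by simpa using h3
    exact sub_eq_zero.mp h4
  have hcen : Subgroup.center (Matrix.SpecialLinearGroup (Fin 2) (GaloisField 2 n)) = ⊥ := by
    rw [eq_bot_iff]
    intro A hA
    obtain ⟨r, hr, hrA⟩ := Matrix.SpecialLinearGroup.mem_center_iff.mp hA
    rw [Fintype.card_fin] at hr
    have h1 := hsq r hr
    subst h1
    rw [Subgroup.mem_bot]
    apply Subtype.ext
    rw [← hrA]
    simp
  have hlift : ∀ U V : Matrix.SpecialLinearGroup (Fin 2) (GaloisField 2 n),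
      (QuotientGroup.mk U : Matrix.ProjectiveSpecialLinearGroup (Fin 2) (GaloisField 2 n)) *
        QuotientGroup.mk V = QuotientGroup.mk V * QuotientGroup.mk U → U * V = V * U := by
    intro U V h
    rw [← QuotientGroup.mk_mul, ← QuotientGroup.mk_mul, QuotientGroup.eq, hcen,
      Subgroup.mem_bot] at h
    have e : V * U = U * V * ((U * V)⁻¹ * (V * U)) := by group
    rw [e, h, mul_one]
  apply ti_of_ca
  intro x u v hx hu hv
  obtain ⟨X, rfl⟩ := QuotientGroup.mk_surjective x
  obtain ⟨U, rfl⟩ := QuotientGroup.mk_surjective u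
  obtain ⟨V, rfl⟩ := QuotientGroup.mk_surjective v
  have hX1 : X ≠ 1 := by
    rintro rfl
    exact hx rfl
  have hUX := hlift U X hu
  have hVX := hlift V X hv
  have hUX' : (X : Matrix (Fin 2) (Fin 2) (GaloisField 2 n)) * U = U * X := by
    rw [← Matrix.SpecialLinearGroup.coe_mul, ← Matrix.SpecialLinearGroup.coe_mul, hUX]
  have hVX' : (X : Matrix (Fin 2) (Fin 2) (GaloisField 2 n)) * V = V * X := by
    rw [← Matrix.SpecialLinearGroup.coe_mul, ← Matrix.SpecialLinearGroup.coe_mul, hVX]
  have hns : ¬ ((X : Matrix (Fin 2) (Fin 2) (GaloisField 2 n)) 0 1 = 0 ∧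
      (X : Matrix (Fin 2) (Fin 2) (GaloisField 2 n)) 1 0 = 0 ∧
      (X : Matrix (Fin 2) (Fin 2) (GaloisField 2 n)) 0 0 =
        (X : Matrix (Fin 2) (Fin 2) (GaloisField 2 n)) 1 1) := by
    rintro ⟨h01, h10, h00⟩
    apply hX1
    have hdet := X.det_coe
    rw [Matrix.det_fin_two, h01, h10, ← h00] at hdet
    have h5 : (X : Matrix (Fin 2) (Fin 2) (GaloisField 2 n)) 0 0 = 1 := by
      apply hsq
      linear_combination hdet
    apply Matrix.SpecialLinearGroup.ext
    intro i j
    fin_cases i <;> fin_cases j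
    · simpa using h5
    · simpa using h01
    · simpa using h10
    · simpa using (h00.symm.trans h5)
  have hUV := comm_of_comm _ _ _ hns hUX' hVX'
  have hUV' : U * V = V * U := by
    apply Subtype.ext
    rw [Matrix.SpecialLinearGroup.coe_mul, Matrix.SpecialLinearGroup.coe_mul]
    exact hUV
  rw [← QuotientGroup.mk_mul, ← QuotientGroup.mk_mul, hUV']

end Cfsg.Agent.S4065
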