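import Cfsg.Statements.S4066
import Mathlib

set_option autoImplicit false
open Cfsg

namespace Cfsg.Agent.S4066

/-- Let G be a finite group in which the centralizer of every element meets each of its conjugates by elements outside its normalizer trivially. Then any two distinct Sylow p-subgroups of G, for any prime p, intersect trivially. -/
theorem result {G : Type*} [Group G] [Finite G] (hTI : ∀ x : G, Cfsg.IsTISubset (Subgroup.centralizer ({x} : Set G) : Set G))
    {p : ℕ} [Fact p.Prime] (P Q : Sylow p G) (hPQ : P ≠ Q) : (P : Subgroup G) ⊓ (Q : Subgroup G) = ⊥ := by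
  by_contra hne
  obtain ⟨x, hx, hx1⟩ : ∃ x : G, x ∈ (P : Subgroup G) ⊓ (Q : Subgroup G) ∧ x ≠ 1 := by
    by_contra hcon
    push Not at hcon
    exact hne (eq_bot_iff.mpr fun y hy => Subgroup.mem_bot.mpr (hcon y hy))
  have hxP : x ∈ (P : Subgroup G) := hx.1
  have hxQ : x ∈ (Q : Subgroup G) := hx.2
  -- a nontrivial central element of P
  have hPnt : Nontrivial (P : Subgroup G) := ⟨⟨⟨x, hxP⟩, 1, fun h => hx1 (congrArg Subtype.val h)⟩⟩
  have hcnt : Nontrivial (Subgroup.center (P : Subgroup G)) := P.isPGroup'.center_nontrivial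
  obtain ⟨z', hz'⟩ := exists_ne (1 : Subgroup.center (P : Subgroup G))
  obtain ⟨z, hz⟩ : ∃ z : G, z = ((z' : (P : Subgroup G)) : G) := ⟨_, rfl⟩
  have hzP : z ∈ (P : Subgroup G) := hz ▸ (z' : (P : Subgroup G)).2
  have hz1 : z ≠ 1 := by
    intro h1
    apply hz'
    apply Subtype.ext
    apply Subtype.ext
    rw [← hz, h1]; rfl
  have hzc : ∀ y ∈ (P : Subgroup G), y * z = z * y := by
    intro y hy
    have := Subgroup.mem_center_iff.mp z'.2 ⟨y, hy⟩
    have := congrArg Subtype.val this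
    rw [hz]
    exact this
  -- P ≤ C(z)
  obtain ⟨C, hC⟩ : ∃ C : Subgroup G, C = Subgroup.centralizer ({z} : Set G) := ⟨_, rfl⟩
  have memC : ∀ y : G, y ∈ C ↔ z * y = y * z := by
    intro y
    rw [hC, Subgroup.mem_centralizer_iff]
    constructor
    · intro h; exact h z rfl
    · intro h w hw; rw [Set.mem_singleton_iff.mp hw]; exact h
  have hPC : (P : Subgroup G) ≤ C := fun y hy => (memC y).mpr (hzc y hy).symm
  obtain ⟨g, rfl⟩ := MulAction.exists_smul_eq G P Q
  have hmem : ∀ a : G, a ∈ ((g • P : Sylow p G) : Subgroup G) ↔ g⁻¹ * a * g ∈ (P : Subgroup G) := by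
    intro a
    rw [Sylow.coe_subgroup_smul, Subgroup.mem_pointwise_smul_iff_inv_smul_mem]
    simp [MulAut.smul_def]
  -- g normalizes C
  have hgN : g ∈ Subgroup.normalizer (C : Set G) := by
    by_contra hg
    have h1 := hTI z g (hC ▸ hg) (g⁻¹ * x * g) (hC ▸ hPC ((hmem x).mp hxQ)) (by
      have e : g * (g⁻¹ * x * g) * g⁻¹ = x := by group
      rw [e]; exact hC ▸ hPC hxP)
    apply hx1
    have e : x = g * (g⁻¹ * x * g) * g⁻¹ := by group
    rw [e, h1]; group
  have hQC : ((g • P : Sylow p G) : Subgroup G) ≤ C := by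
    intro y hy
    have h1 : g⁻¹ * y * g ∈ C := hPC ((hmem y).mp hy)
    have h2 := (Subgroup.mem_normalizer_iff.mp hgN (g⁻¹ * y * g)).mp h1
    have e : g * (g⁻¹ * y * g) * g⁻¹ = y := by group
    rwa [e] at h2
  -- inside C, every element commutes with all its C-conjugates
  have hstep3 : ∀ h ∈ C, ∀ y ∈ C, y * (h * y * h⁻¹) = (h * y * h⁻¹) * y := by
    intro h hh y hy
    have hhN : h ∈ Subgroup.normalizer ((Subgroup.centralizer ({y} : Set G) : Subgroup G) : Set G) := by
      by_contra hcon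
      have hzy : z ∈ Subgroup.centralizer ({y} : Set G) := by
        rw [Subgroup.mem_centralizer_iff]
        intro w hw
        rw [Set.mem_singleton_iff.mp hw]
        exact ((memC y).mp hy).symm
      have h1 := hTI y h hcon z hzy (by
        have e : h * z * h⁻¹ = z := by
          have := (memC h).mp hh
          calc h * z * h⁻¹ = (z * h) * h⁻¹ := by rw [this]
            _ = z := by group
        rw [e]; exact hzy)
      exact hz1 h1
    have hyy : y ∈ Subgroup.centralizer ({y} : Set G) := by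
      rw [Subgroup.mem_centralizer_iff]
      intro w hw
      rw [Set.mem_singleton_iff.mp hw]
    have h2 := (Subgroup.mem_normalizer_iff.mp hhN y).mp hyy
    exact Subgroup.mem_centralizer_iff.mp h2 y rfl
  -- P ≤ Q
  have hPQ' : (P : Subgroup G) ≤ ((g • P : Sylow p G) : Subgroup G) := by
    intro y hy
    have hyC : y ∈ C := hPC hy
    obtain ⟨A, hA⟩ : ∃ A : Subgroup G, A = Subgroup.closure {w : G | ∃ h ∈ C, w = h * y * h⁻¹} :=
      ⟨_, rfl⟩
    have hgen_comm : ∀ w₁ ∈ {w : G | ∃ h ∈ C, w = h * y * h⁻¹},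
        ∀ w₂ ∈ {w : G | ∃ h ∈ C, w = h * y * h⁻¹}, w₁ * w₂ = w₂ * w₁ := by
      rintro _ ⟨h₁, hh₁, rfl⟩ _ ⟨h₂, hh₂, rfl⟩
      have hc1 : h₁ * y * h₁⁻¹ ∈ C := C.mul_mem (C.mul_mem hh₁ hyC) (C.inv_mem hh₁)
      have := hstep3 (h₂ * h₁⁻¹) (C.mul_mem hh₂ (C.inv_mem hh₁)) (h₁ * y * h₁⁻¹) hc1
      have e : h₂ * h₁⁻¹ * (h₁ * y * h₁⁻¹) * (h₂ * h₁⁻¹)⁻¹ = h₂ * y * h₂⁻¹ := by group
      rwa [e] at this
    have hAcomm : ∀ a ∈ A, ∀ b ∈ A, a * b = b * a := by
      have h1 : A ≤ Subgroup.centralizer {w : G | ∃ h ∈ C, w = h * y * h⁻¹} := by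
        rw [hA, Subgroup.closure_le]
        intro a ha
        rw [SetLike.mem_coe, Subgroup.mem_centralizer_iff]
        intro b hb
        exact hgen_comm b hb a ha
      have h2 : A ≤ Subgroup.centralizer (A : Set G) := by
        rw [hA, Subgroup.closure_le]
        intro a ha
        rw [SetLike.mem_coe, Subgroup.mem_centralizer_iff]
        intro b hb
        have := Subgroup.mem_centralizer_iff.mp (h1 (hA ▸ hb)) a ha
        exact this.symm
      intro a ha b hb
      exact (Subgroup.mem_centralizer_iff.mp (h2 hb) a ha)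
    have hyp : ∃ k : ℕ, y ^ p ^ k = 1 := by
      obtain ⟨k, hk⟩ := P.isPGroup' ⟨y, hy⟩
      exact ⟨k, by simpa using congrArg Subtype.val hk⟩
    have hApow : ∀ a ∈ A, ∃ k : ℕ, a ^ p ^ k = 1 := by
      intro a ha
      rw [hA] at ha
      refine Subgroup.closure_induction (p := fun a _ => a ∈ A ∧ ∃ k : ℕ, a ^ p ^ k = 1)
        ?_ ?_ ?_ ?_ ha |>.2
      · rintro _ ⟨h, hh, rfl⟩
        refine ⟨hA ▸ Subgroup.subset_closure ⟨h, hh, rfl⟩, ?_⟩
        obtain ⟨k, hk⟩ := hyp
        exact ⟨k, by rw [conj_pow, hk]; group⟩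
      · exact ⟨A.one_mem, 0, one_pow _⟩
      · rintro a b _ _ ⟨haA, k₁, hk₁⟩ ⟨hbA, k₂, hk₂⟩
        refine ⟨A.mul_mem haA hbA, k₁ + k₂, ?_⟩
        have hc : Commute a b := hAcomm a haA b hbA
        rw [hc.mul_pow, pow_add, pow_mul, hk₁, one_pow, mul_comm (p ^ k₁), pow_mul, hk₂, one_pow,
          one_mul]
      · rintro a _ ⟨haA, k, hk⟩
        exact ⟨A.inv_mem haA, k, by rw [inv_pow, hk, inv_one]⟩
    have hAp : IsPGroup p A := by
      intro a
      obtain ⟨k, hk⟩ := hApow a a.2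
      exact ⟨k, Subtype.ext (by simpa using hk)⟩
    have hAnorm : ((g • P : Sylow p G) : Subgroup G) ≤ Subgroup.normalizer (A : Set G) := by
      intro h hh
      have hhC : h ∈ C := hQC hh
      have hconj : ∀ h' ∈ C, ∀ a ∈ A, h' * a * h'⁻¹ ∈ A := by
        intro h' hh' a ha
        rw [hA] at ha ⊢
        refine Subgroup.closure_induction
          (p := fun a _ => h' * a * h'⁻¹ ∈ Subgroup.closure {w : G | ∃ h ∈ C, w = h * y * h⁻¹})
          ?_ ?_ ?_ ?_ ha
        · rintro _ ⟨h₁, hh₁, rfl⟩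
          exact Subgroup.subset_closure ⟨h' * h₁, C.mul_mem hh' hh₁, by group⟩
        · simp
        · intro a b _ _ h1 h2
          have e : h' * (a * b) * h'⁻¹ = (h' * a * h'⁻¹) * (h' * b * h'⁻¹) := by group
          rw [e]; exact Subgroup.mul_mem _ h1 h2
        · intro a _ h1
          have e : h' * a⁻¹ * h'⁻¹ = (h' * a * h'⁻¹)⁻¹ := by group
          rw [e]; exact Subgroup.inv_mem _ h1
      rw [Subgroup.mem_normalizer_iff]
      intro a
      constructor
      · exact hconj h hhC a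
      · intro ha
        have := hconj h⁻¹ (C.inv_mem hhC) _ ha
        have e : h⁻¹ * (h * a * h⁻¹) * h⁻¹⁻¹ = a := by group
        rwa [e] at this
    have hsup : IsPGroup p (((g • P : Sylow p G) : Subgroup G) ⊔ A : Subgroup G) :=
      IsPGroup.to_sup_of_normal_right' (g • P : Sylow p G).isPGroup' hAp hAnorm
    have heq := (g • P : Sylow p G).is_maximal' hsup le_sup_left
    have hyA : y ∈ A := by
      rw [hA]
      exact Subgroup.subset_closure ⟨1, C.one_mem, by group⟩
    have : y ∈ (((g • P : Sylow p G) : Subgroup G) ⊔ A : Subgroup G) := Subgroup.mem_sup_right hyA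
    rw [heq] at this
    exact this
  have hfinal : ((g • P : Sylow p G) : Subgroup G) = (P : Subgroup G) :=
    P.is_maximal' (g • P : Sylow p G).isPGroup' hPQ'
  exact hPQ (Sylow.ext hfinal.symm)

end Cfsg.Agent.S4066
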