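import Cfsg.Statements.S4071
import Mathlib

set_option autoImplicit false
open Cfsg

namespace Cfsg.Agent.S4071


open scoped commutatorElement

theorem conj_pow_mul {G : Type*} [Group G] (A : Subgroup G) [hA : A.Normal] (y a : G) (ha : a ∈ A) :
    ∀ m : ℕ, ∃ a' ∈ A, (y * a) ^ m = y ^ m * a' := by
  intro m
  induction m with
  | zero => exact ⟨1, A.one_mem, by simp⟩
  | succ m ih =>
    obtain ⟨a', ha', h⟩ := ih
    refine ⟨y⁻¹ * a' * y⁻¹⁻¹ * a, A.mul_mem (hA.conj_mem _ ha' _) ha, ?_⟩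
    rw [pow_succ, h, pow_succ]; group

theorem back {G : Type*} [Group G] [Finite G] (x : G) (A : Subgroup G) (p : ℕ) (hp : p.Prime)
    (hAn : A.Normal) (hAc : IsMulCommutative A) (hx : ∃ k : ℕ, orderOf x = p ^ k)
    (hcomp : (Subgroup.zpowers x).IsComplement' A)
    (hxp : x ^ p ∈ Subgroup.center G) (hfpf : ∀ a : G, a ∈ A → a ≠ 1 → x * a * x⁻¹ ≠ a)
    (H : Subgroup G) (hH : ¬ IsMulCommutative H) : Subgroup.normalizer (H : Set G) = H := by
  have hAcomm : ∀ a ∈ A, ∀ b ∈ A, a * b = b * a := fun a ha b hb =>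
    congrArg Subtype.val (hAc.is_comm.comm ⟨a, ha⟩ ⟨b, hb⟩)
  have hdec : ∀ g : G, ∃ i : ℕ, ∃ a ∈ A, g = x ^ i * a := by
    intro g
    obtain ⟨⟨⟨h, hh⟩, ⟨a, ha⟩⟩, hha⟩ := hcomp.2 g
    have hha' : h * a = g := hha
    obtain ⟨i, hi⟩ := (Submonoid.mem_powers_iff _ _).1 (mem_powers_iff_mem_zpowers.2 hh)
    exact ⟨i, a, ha, by rw [hi]; exact hha'.symm⟩
  obtain ⟨h, hhH, i, a₁, ha₁, hh, hpi⟩ : ∃ h ∈ H, ∃ i : ℕ, ∃ a₁ ∈ A, h = x ^ i * a₁ ∧ ¬ p ∣ i := by
    by_contra hcon
    push Not at hcon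
    apply hH
    refine ⟨⟨fun u v => Subtype.ext ?_⟩⟩
    obtain ⟨i, a, ha, hu⟩ := hdec u
    obtain ⟨j, b, hb, hv⟩ := hdec v
    obtain ⟨i', rfl⟩ := hcon u u.2 i a ha hu
    obtain ⟨j', rfl⟩ := hcon v v.2 j b hb hv
    have hz1 : x ^ (p * i') ∈ Subgroup.center G := by rw [pow_mul]; exact Subgroup.pow_mem _ hxp _
    have hz2 : x ^ (p * j') ∈ Subgroup.center G := by rw [pow_mul]; exact Subgroup.pow_mem _ hxp _
    rw [Subgroup.mem_center_iff] at hz1 hz2
    change (u : G) * (v : G) = (v : G) * (u : G)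
    rw [hu, hv]
    have c1 : Commute (x ^ (p * i')) (x ^ (p * j')) := (hz1 _).symm
    have c2 : Commute (x ^ (p * i')) b := (hz1 b).symm
    have c3 : Commute a (x ^ (p * j')) := hz2 a
    have c4 : Commute a b := hAcomm a ha b hb
    exact ((c1.mul_right c2).mul_left (c3.mul_right c4)).eq
  obtain ⟨k, hk⟩ := hx
  have hcop : i.Coprime (orderOf x) := by
    rw [hk]; exact Nat.Coprime.pow_right k ((Nat.Prime.coprime_iff_not_dvd hp).2 hpi).symm
  obtain ⟨m, hm⟩ := exists_pow_eq_self_of_coprime hcop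
  have hfix : ∀ a ∈ A, h * a * h⁻¹ = a → a = 1 := by
    intro a ha hfa
    by_contra hne
    apply hfpf a ha hne
    have h0 : a₁⁻¹ * a * a₁ = a := by
      rw [mul_assoc, hAcomm a ha a₁ ha₁, inv_mul_cancel_left]
    have h1 : x ^ i * a * (x ^ i)⁻¹ = a := by
      have e : x ^ i * a * (x ^ i)⁻¹ = h * (a₁⁻¹ * a * a₁) * h⁻¹ := by rw [hh]; group
      rw [e, h0, hfa]
    have h2 : Commute (x ^ i) a := by
      change x ^ i * a = a * x ^ i
      have e : x ^ i * a = (x ^ i * a * (x ^ i)⁻¹) * x ^ i := by group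
      rw [e, h1]
    have h3 : Commute x a := by
      have := h2.pow_left m
      rwa [hm] at this
    rw [h3.eq, mul_inv_cancel_right]
  have hgen : ∀ g : G, ∃ j : ℕ, ∃ a ∈ A, g = h ^ j * a := by
    intro g
    obtain ⟨n, a, ha, rfl⟩ := hdec g
    obtain ⟨a', ha', e1⟩ := conj_pow_mul A (x ^ i) a₁ ha₁ m
    rw [← hh, hm] at e1
    obtain ⟨a'', ha'', e2⟩ := conj_pow_mul A x a' ha' n
    rw [← e1, ← pow_mul] at e2
    refine ⟨m * n, a''⁻¹ * a, A.mul_mem (A.inv_mem ha'') ha, ?_⟩
    rw [e2]; group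
  apply le_antisymm _ Subgroup.le_normalizer
  intro g hg
  obtain ⟨j, a, ha, rfl⟩ := hgen g
  have hhj : h ^ j ∈ H := H.pow_mem hhH j
  suffices haH : a ∈ H from H.mul_mem hhj haH
  have haN : a ∈ Subgroup.normalizer (H : Set G) := by
    have : a = (h ^ j)⁻¹ * (h ^ j * a) := by group
    rw [this]
    exact Subgroup.mul_mem _ (Subgroup.inv_mem _ (Subgroup.le_normalizer hhj)) hg
  rw [Subgroup.mem_normalizer_iff] at haN
  have hcH : a * h * a⁻¹ * h⁻¹ ∈ H := H.mul_mem ((haN h).1 hhH) (H.inv_mem hhH)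
  have hcA : a * h * a⁻¹ * h⁻¹ ∈ A := by
    have : a * h * a⁻¹ * h⁻¹ = a * (h * a⁻¹ * h⁻¹) := by group
    rw [this]; exact A.mul_mem ha (hAn.conj_mem _ (A.inv_mem ha) _)
  let ψ : (H ⊓ A : Subgroup G) → (H ⊓ A : Subgroup G) := fun b =>
    ⟨(b : G) * h * (b : G)⁻¹ * h⁻¹,
      H.mul_mem (H.mul_mem (H.mul_mem b.2.1 hhH) (H.inv_mem b.2.1)) (H.inv_mem hhH),
      by
        have : (b : G) * h * (b : G)⁻¹ * h⁻¹ = (b : G) * (h * (b : G)⁻¹ * h⁻¹) := by group
        rw [this]; exact A.mul_mem b.2.2 (hAn.conj_mem _ (A.inv_mem b.2.2) _)⟩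
  have key : ∀ u ∈ A, ∀ v ∈ A, u * h * u⁻¹ * h⁻¹ = v * h * v⁻¹ * h⁻¹ → u = v := by
    intro u hu v hv huv
    have h1 : h * (v⁻¹ * u) * h⁻¹ = v⁻¹ * u := by
      have e : h * (v⁻¹ * u) * h⁻¹ = v⁻¹ * (v * h * v⁻¹ * h⁻¹) * (u * h * u⁻¹ * h⁻¹)⁻¹ * u := by group
      rw [e, huv]; group
    have := hfix _ (A.mul_mem (A.inv_mem hv) hu) h1
    exact (inv_mul_eq_one.1 this).symm
  have hψ : Function.Injective ψ := by
    intro b₁ b₂ hb
    have := congrArg Subtype.val hb
    exact Subtype.ext (key _ b₁.2.2 _ b₂.2.2 this)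
  obtain ⟨b, hb⟩ := (Finite.injective_iff_surjective.1 hψ) ⟨_, hcH, hcA⟩
  have hb' : (b : G) * h * (b : G)⁻¹ * h⁻¹ = a * h * a⁻¹ * h⁻¹ := congrArg Subtype.val hb
  have := key _ b.2.2 _ ha hb'
  rw [← this]; exact b.2.1

theorem index_prime_of_normal_coatom {G : Type*} [Group G] [Finite G] (M : Subgroup G) [M.Normal]
    (hM : IsCoatom M) : M.index.Prime := by
  have hne : M.index ≠ 1 := fun h => hM.1 (Subgroup.index_eq_one.1 h)
  obtain ⟨q, hq⟩ : ∃ q, q = M.index.minFac := ⟨_, rfl⟩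
  have hqp : q.Prime := hq ▸ Nat.minFac_prime hne
  have : Fact q.Prime := ⟨hqp⟩
  have hqd : q ∣ Nat.card (G ⧸ M) := by
    rw [← Subgroup.index_eq_card, hq]; exact Nat.minFac_dvd _
  obtain ⟨y, hy⟩ := exists_prime_orderOf_dvd_card' q hqd
  have hsurj := QuotientGroup.mk'_surjective M
  have hMK : M < (Subgroup.zpowers y).comap (QuotientGroup.mk' M) := by
    refine lt_of_le_of_ne ?_ ?_
    · have := MonoidHom.ker_le_comap (QuotientGroup.mk' M) (Subgroup.zpowers y)
      rwa [QuotientGroup.ker_mk'] at this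
    · intro heq
      obtain ⟨g, rfl⟩ := hsurj y
      have hg : g ∈ (Subgroup.zpowers (QuotientGroup.mk' M g)).comap (QuotientGroup.mk' M) :=
        Subgroup.mem_comap.2 (Subgroup.mem_zpowers _)
      rw [← heq] at hg
      have h1 : (QuotientGroup.mk' M g) = 1 := (QuotientGroup.eq_one_iff g).2 hg
      rw [h1, orderOf_one] at hy
      exact hqp.one_lt.ne hy
  have hK := hM.2 _ hMK
  have hz : Subgroup.zpowers y = ⊤ := by
    rw [← Subgroup.map_comap_eq_self_of_surjective hsurj (Subgroup.zpowers y), hK,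
      Subgroup.map_top_of_surjective _ hsurj]
  have : M.index = q := by
    rw [Subgroup.index_eq_card, ← hy, ← Nat.card_zpowers, hz, Subgroup.card_top]
  rw [this]; exact hqp

theorem forward {G : Type*} [Group G] [Finite G] [Group.IsSolvable G] (hnn : ¬ Group.IsNilpotent G)
    (hS : ∀ H : Subgroup G, ¬ IsMulCommutative H → Subgroup.normalizer (H : Set G) = H) :
    ∃ (x : G) (A : Subgroup G) (p : ℕ), p.Prime ∧ A.Normal ∧ IsMulCommutative A ∧ (∃ k : ℕ, orderOf x = p ^ k) ∧
      ¬ p ∣ Nat.card A ∧ (Subgroup.zpowers x).IsComplement' A ∧ x ^ p ∈ Subgroup.center G ∧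
      ∀ a : G, a ∈ A → a ≠ 1 → x * a * x⁻¹ ≠ a := by
  classical
  have hnt : Nontrivial G := by
    by_contra h
    rw [not_nontrivial_iff_subsingleton] at h
    exact hnn inferInstance
  have hab : ∀ K : Subgroup G, K.Normal → K ≠ ⊤ → IsMulCommutative K := by
    intro K hK hKt
    by_contra hc
    have := hS K hc
    rw [Subgroup.normalizer_eq_top_iff.2 hK] at this
    exact hKt this.symm
  have hcomm := Group.IsSolvable.commutator_lt_top_of_nontrivial (G := G)
  obtain ⟨M, hM, hcM⟩ := (eq_top_or_exists_le_coatom (commutator G)).resolve_left hcomm.ne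
  have hMn : M.Normal := by
    constructor
    intro m hm g
    have h1 : ⁅g, m⁆ ∈ commutator G := by
      rw [commutator_def]
      exact Subgroup.commutator_mem_commutator (Subgroup.mem_top g) (Subgroup.mem_top m)
    have h2 : g * m * g⁻¹ = ⁅g, m⁆ * m := by rw [commutatorElement_def]; group
    rw [h2]; exact M.mul_mem (hcM h1) hm
  have hMc : IsMulCommutative M := hab M hMn hM.1
  have hMcomm : ∀ a ∈ M, ∀ b ∈ M, a * b = b * a := fun a ha b hb =>
    congrArg Subtype.val (hMc.is_comm.comm ⟨a, ha⟩ ⟨b, hb⟩)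
  have hpP : M.index.Prime := index_prime_of_normal_coatom M hM
  obtain ⟨p, hpM⟩ : ∃ p, M.index = p := ⟨_, rfl⟩
  rw [hpM] at hpP
  have : Fact p.Prime := ⟨hpP⟩
  obtain ⟨P⟩ : Nonempty (Sylow p G) := inferInstance
  obtain ⟨x, hxP, hxM⟩ : ∃ x ∈ (P : Subgroup G), x ∉ M := by
    by_contra hcon
    push Not at hcon
    have hPM : (P : Subgroup G) ≤ M := hcon
    have := Subgroup.index_dvd_of_le hPM
    rw [hpM] at this
    exact P.not_dvd_index this
  obtain ⟨k, hk⟩ : ∃ k : ℕ, orderOf x = p ^ k := by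
    obtain ⟨k, hk⟩ := (IsPGroup.iff_orderOf.1 P.isPGroup') ⟨x, hxP⟩
    exact ⟨k, by rw [← hk, Subgroup.orderOf_mk]⟩
  have hxM_top : Subgroup.zpowers x ⊔ M = ⊤ := by
    apply hM.2
    refine lt_of_le_of_ne le_sup_right ?_
    intro heq
    apply hxM
    rw [heq]
    exact Subgroup.mem_sup_left (Subgroup.mem_zpowers x)
  have hpowM : ∀ g : G, g ^ p ∈ M := by
    intro g
    have := Subgroup.pow_index_mem M g
    rwa [hpM] at this
  obtain ⟨e, m', hm', hMcard⟩ :=
    Nat.exists_eq_pow_mul_and_not_dvd (Nat.card_pos (α := M)).ne' p hpP.ne_one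
  let A : Subgroup G :=
    { carrier := {g | g ∈ M ∧ g ^ m' = 1}
      one_mem' := ⟨M.one_mem, one_pow _⟩
      mul_mem' := by
        rintro a b ⟨ha, ha'⟩ ⟨hb, hb'⟩
        refine ⟨M.mul_mem ha hb, ?_⟩
        have hc : Commute a b := hMcomm a ha b hb
        rw [hc.mul_pow, ha', hb', one_mul]
      inv_mem' := by
        rintro a ⟨ha, ha'⟩
        exact ⟨M.inv_mem ha, by rw [inv_pow, ha', inv_one]⟩ }
  have hAM : A ≤ M := fun g hg => hg.1
  have hAn : A.Normal := by
    constructor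
    intro a ha g
    exact ⟨hMn.conj_mem a ha.1 g, by rw [conj_pow, ha.2]; group⟩
  have hAcomm : ∀ a ∈ A, ∀ b ∈ A, a * b = b * a := fun a ha b hb => hMcomm a ha.1 b hb.1
  have hAc : IsMulCommutative A := ⟨⟨fun a b => Subtype.ext (hAcomm a a.2 b b.2)⟩⟩
  have hpA : ¬ p ∣ Nat.card A := by
    intro hd
    obtain ⟨a, ha⟩ := exists_prime_orderOf_dvd_card' p hd
    have h1 : (a : G) ^ m' = 1 := a.2.2
    have h2 : orderOf (a : G) = p := by rw [Subgroup.orderOf_coe]; exact ha
    have := orderOf_dvd_of_pow_eq_one h1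
    rw [h2] at this
    exact hm' this
  have hpow : ∀ g : G, g ^ (p * p ^ e) ∈ A := by
    intro g
    have h1 : g ^ p ∈ M := hpowM g
    refine ⟨by rw [pow_mul]; exact M.pow_mem h1 _, ?_⟩
    rw [← pow_mul, mul_assoc, ← hMcard, pow_mul]
    have h2 : ((⟨g ^ p, h1⟩ : M) ^ Nat.card M : M) = 1 := pow_card_eq_one'
    have h3 : ((⟨g ^ p, h1⟩ : M) : G) ^ Nat.card M = ((1 : M) : G) := by
      rw [← Subgroup.coe_pow, h2]
    exact h3
  have hQp : IsPGroup p (G ⧸ A) := by
    intro y
    obtain ⟨g, rfl⟩ := QuotientGroup.mk_surjective y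
    refine ⟨e + 1, ?_⟩
    rw [← QuotientGroup.mk_pow, QuotientGroup.eq_one_iff, pow_succ']
    exact hpow g
  have hQnil : Group.IsNilpotent (G ⧸ A) := hQp.isNilpotent
  have hxA : ¬ ∀ a ∈ A, x * a = a * x := by
    intro hall
    apply hnn
    have hAcen : A ≤ Subgroup.center G := by
      intro a ha
      rw [Subgroup.mem_center_iff]
      have hC : (⊤ : Subgroup G) ≤ Subgroup.centralizer ({a} : Set G) := by
        rw [← hxM_top]
        apply sup_le
        · rw [Subgroup.zpowers_le, Subgroup.mem_centralizer_iff]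
          intro z hz
          rw [Set.mem_singleton_iff] at hz; subst hz
          exact (hall z ha).symm
        · intro m hm
          rw [Subgroup.mem_centralizer_iff]
          intro z hz
          rw [Set.mem_singleton_iff] at hz; subst hz
          exact hMcomm z (hAM ha) m hm
      intro g
      have := hC (Subgroup.mem_top g)
      rw [Subgroup.mem_centralizer_iff] at this
      exact (this a rfl).symm
    exact Subgroup.isNilpotent_of_ker_le_center (QuotientGroup.mk' A)
      (by rw [QuotientGroup.ker_mk']; exact hAcen)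
  have hsurj := QuotientGroup.mk'_surjective A
  have hH1 : Subgroup.zpowers x ⊔ A = ⊤ := by
    by_cases hc : IsMulCommutative (Subgroup.zpowers x ⊔ A : Subgroup G)
    · exfalso
      apply hxA
      intro a ha
      have := hc.is_comm.comm ⟨x, Subgroup.mem_sup_left (Subgroup.mem_zpowers x)⟩
        ⟨a, Subgroup.mem_sup_right ha⟩
      exact congrArg Subtype.val this
    · have hN := hS _ hc
      have hcomap : ((Subgroup.zpowers x ⊔ A).map (QuotientGroup.mk' A)).comap (QuotientGroup.mk' A)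
          = Subgroup.zpowers x ⊔ A := by
        rw [Subgroup.comap_map_eq, QuotientGroup.ker_mk']
        exact sup_eq_left.2 le_sup_right
      have hself : Subgroup.normalizer
          (((Subgroup.zpowers x ⊔ A).map (QuotientGroup.mk' A) : Subgroup (G ⧸ A)) : Set (G ⧸ A))
          = (Subgroup.zpowers x ⊔ A).map (QuotientGroup.mk' A) := by
        apply Subgroup.comap_injective hsurj
        rw [Subgroup.comap_normalizer_eq_of_surjective _ hsurj, hcomap, hN]
      have htop := (normalizerCondition_iff_only_full_group_self_normalizing.1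
        Group.normalizerCondition_of_isNilpotent) _ hself
      rw [← hcomap, htop, Subgroup.comap_top]
  have hdisj : Disjoint (Subgroup.zpowers x) A := by
    apply Subgroup.disjoint_of_coprime_natCard
    rw [Nat.card_zpowers, hk]
    exact Nat.Coprime.pow_left k ((Nat.Prime.coprime_iff_not_dvd hpP).2 hpA)
  have hcompl : (Subgroup.zpowers x).IsComplement' A := by
    apply Subgroup.isComplement'_of_disjoint_and_mul_eq_univ hdisj
    rw [← Subgroup.mul_normal, hH1, Subgroup.coe_top]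
  have hxpc : x ^ p ∈ Subgroup.center G := by
    have h1 : x ^ p ∈ M := hpowM x
    rw [Subgroup.mem_center_iff]
    have hC : (⊤ : Subgroup G) ≤ Subgroup.centralizer ({x ^ p} : Set G) := by
      rw [← hxM_top]
      apply sup_le
      · rw [Subgroup.zpowers_le, Subgroup.mem_centralizer_iff]
        intro z hz
        rw [Set.mem_singleton_iff] at hz; subst hz
        rw [← pow_succ, ← pow_succ']
      · intro m hm
        rw [Subgroup.mem_centralizer_iff]
        intro z hz
        rw [Set.mem_singleton_iff] at hz; subst hz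
        exact hMcomm _ h1 m hm
    intro g
    have := hC (Subgroup.mem_top g)
    rw [Subgroup.mem_centralizer_iff] at this
    exact (this _ rfl).symm
  have hclem : ∀ a ∈ A, (x * a * x⁻¹ * a⁻¹) * x = x * (x * a * x⁻¹ * a⁻¹) →
      x * a * x⁻¹ * a⁻¹ = 1 := by
    intro a ha hcx
    obtain ⟨c, hc⟩ : ∃ c, c = x * a * x⁻¹ * a⁻¹ := ⟨_, rfl⟩
    rw [← hc] at hcx ⊢
    have hcA : c ∈ A := by
      rw [hc]; exact A.mul_mem (hAn.conj_mem a ha x) (A.inv_mem ha)
    have hconj : ∀ j : ℕ, x ^ j * a * (x ^ j)⁻¹ = c ^ j * a := by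
      intro j
      induction j with
      | zero => simp
      | succ j ih =>
        have e1 : x ^ (j + 1) * a * (x ^ (j + 1))⁻¹ = x * (x ^ j * a * (x ^ j)⁻¹) * x⁻¹ := by
          rw [pow_succ']; group
        rw [e1, ih]
        have e2 : x * (c ^ j * a) * x⁻¹ = (x * c ^ j * x⁻¹) * (x * a * x⁻¹) := by group
        have e3 : x * c ^ j * x⁻¹ = c ^ j := by
          have hcj : Commute x (c ^ j) := Commute.pow_right hcx.symm j
          rw [hcj.eq, mul_inv_cancel_right]
        have e4 : x * a * x⁻¹ = c * a := by rw [hc]; group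
        rw [e2, e3, e4, pow_succ, mul_assoc]
    have h1 := hconj (orderOf x)
    rw [pow_orderOf_eq_one] at h1
    simp only [one_mul, inv_one, mul_one] at h1
    have h2 : c ^ orderOf x = 1 := by
      have e : c ^ orderOf x = (c ^ orderOf x * a) * a⁻¹ := by group
      rw [e, ← h1, mul_inv_cancel]
    have h3 : orderOf c ∣ p ^ k := hk ▸ orderOf_dvd_of_pow_eq_one h2
    have h4 : orderOf c ∣ Nat.card A := by
      have := orderOf_dvd_natCard (⟨c, hcA⟩ : A)
      rwa [Subgroup.orderOf_mk] at this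
    have h5 : orderOf c = 1 := Nat.eq_one_of_dvd_coprimes
      (Nat.Coprime.pow_left k ((Nat.Prime.coprime_iff_not_dvd hpP).2 hpA)) h3 h4
    exact orderOf_eq_one_iff.1 h5
  have hfpf : ∀ a : G, a ∈ A → a ≠ 1 → x * a * x⁻¹ ≠ a := by
    intro a₀ ha₀ hne hfix
    let f : A →* G :=
      { toFun := fun a => x * (a : G) * x⁻¹ * (a : G)⁻¹
        map_one' := by simp
        map_mul' := by
          intro a b
          have h1 : (a : G)⁻¹ * (x * (b : G) * x⁻¹) = (x * (b : G) * x⁻¹) * (a : G)⁻¹ :=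
            hAcomm _ (A.inv_mem a.2) _ (hAn.conj_mem _ b.2 x)
          have h2 : ((a : G) * (b : G))⁻¹ = (a : G)⁻¹ * (b : G)⁻¹ := by
            rw [hAcomm _ a.2 _ b.2, mul_inv_rev]
          change x * ((a : G) * (b : G)) * x⁻¹ * ((a : G) * (b : G))⁻¹
            = x * (a : G) * x⁻¹ * (a : G)⁻¹ * (x * (b : G) * x⁻¹ * (b : G)⁻¹)
          have e1 : x * (a : G) * x⁻¹ * (a : G)⁻¹ * (x * (b : G) * x⁻¹ * (b : G)⁻¹)
              = x * (a : G) * x⁻¹ * ((a : G)⁻¹ * (x * (b : G) * x⁻¹)) * (b : G)⁻¹ := by group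
          rw [e1, h1, h2]; group }
    have hBA : f.range ≤ A := by
      rintro _ ⟨a, rfl⟩
      exact A.mul_mem (hAn.conj_mem _ a.2 x) (A.inv_mem a.2)
    have hBx : ∀ b ∈ f.range, x * b * x⁻¹ ∈ f.range ∧ x⁻¹ * b * x ∈ f.range := by
      rintro _ ⟨a, rfl⟩
      refine ⟨⟨⟨x * (a : G) * x⁻¹, hAn.conj_mem _ a.2 x⟩, ?_⟩, ⟨⟨x⁻¹ * (a : G) * x, ?_⟩, ?_⟩⟩
      · change x * (x * (a : G) * x⁻¹) * x⁻¹ * (x * (a : G) * x⁻¹)⁻¹
          = x * (x * (a : G) * x⁻¹ * (a : G)⁻¹) * x⁻¹
        group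
      · have := hAn.conj_mem _ a.2 x⁻¹
        simpa using this
      · change x * (x⁻¹ * (a : G) * x) * x⁻¹ * (x⁻¹ * (a : G) * x)⁻¹
          = x⁻¹ * (x * (a : G) * x⁻¹ * (a : G)⁻¹) * x
        group
    have hBn : (f.range).Normal := by
      rw [← Subgroup.normalizer_eq_top_iff, eq_top_iff, ← hH1]
      apply sup_le
      · rw [Subgroup.zpowers_le, Subgroup.mem_normalizer_iff]
        intro b
        constructor
        · intro hb; exact (hBx b hb).1
        · intro hb
          have := (hBx _ hb).2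
          have e : x⁻¹ * (x * b * x⁻¹) * x = b := by group
          rwa [e] at this
      · intro a ha
        rw [Subgroup.mem_normalizer_iff]
        intro b
        constructor
        · intro hb
          have : a * b * a⁻¹ = b := by rw [hAcomm a ha b (hBA hb), mul_inv_cancel_right]
          rw [this]; exact hb
        · intro hb
          have hbA : b ∈ A := by
            have := hAn.conj_mem _ (hBA hb) a⁻¹
            have e : a⁻¹ * (a * b * a⁻¹) * a⁻¹⁻¹ = b := by group
            rwa [e] at this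
          have : a * b * a⁻¹ = b := by rw [hAcomm a ha b hbA, mul_inv_cancel_right]
          rwa [this] at hb
    have hH₂mem : ∀ g ∈ (Subgroup.zpowers x ⊔ f.range : Subgroup G), g ∈ A → g ∈ f.range := by
      intro g hg hgA
      have hg' : g ∈ ((Subgroup.zpowers x ⊔ f.range : Subgroup G) : Set G) := hg
      rw [Subgroup.mul_normal, Set.mem_mul] at hg'
      obtain ⟨z, hz, b, hb, rfl⟩ := hg'
      have hzA : z ∈ A := by
        have := A.mul_mem hgA (A.inv_mem (hBA hb))
        simpa using this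
      have hz1 : z = 1 := by
        have : z ∈ Subgroup.zpowers x ⊓ A := ⟨hz, hzA⟩
        rw [hdisj.eq_bot] at this
        exact Subgroup.mem_bot.1 this
      rw [hz1, one_mul]; exact hb
    by_cases hc : IsMulCommutative (Subgroup.zpowers x ⊔ f.range : Subgroup G)
    · apply hxA
      intro a ha
      have hcx : (x * a * x⁻¹ * a⁻¹) * x = x * (x * a * x⁻¹ * a⁻¹) := by
        have hb : x * a * x⁻¹ * a⁻¹ ∈ f.range := ⟨⟨a, ha⟩, rfl⟩
        have := hc.is_comm.comm ⟨x * a * x⁻¹ * a⁻¹, Subgroup.mem_sup_right hb⟩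
          ⟨x, Subgroup.mem_sup_left (Subgroup.mem_zpowers x)⟩
        exact congrArg Subtype.val this
      have h1 := hclem a ha hcx
      have e : x * a = (x * a * x⁻¹ * a⁻¹) * a * x := by group
      rw [e, h1, one_mul]
    · have hN := hS _ hc
      have hxa₀ : x * a₀ = a₀ * x := by
        have e : x * a₀ = (x * a₀ * x⁻¹) * x := by group
        rw [e, hfix]
      have ha₀N : a₀ ∈ Subgroup.normalizer ((Subgroup.zpowers x ⊔ f.range : Subgroup G) : Set G) := by
        have hcent : (Subgroup.zpowers x ⊔ f.range : Subgroup G) ≤ Subgroup.centralizer ({a₀} : Set G) := by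
          apply sup_le
          · rw [Subgroup.zpowers_le, Subgroup.mem_centralizer_iff]
            intro z hz
            rw [Set.mem_singleton_iff] at hz; subst hz
            exact hxa₀.symm
          · intro b hb
            rw [Subgroup.mem_centralizer_iff]
            intro z hz
            rw [Set.mem_singleton_iff] at hz; subst hz
            exact hAcomm z ha₀ b (hBA hb)
        have hcg : ∀ g ∈ (Subgroup.zpowers x ⊔ f.range : Subgroup G), a₀ * g * a₀⁻¹ = g := by
          intro g hg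
          have := hcent hg
          rw [Subgroup.mem_centralizer_iff] at this
          rw [this a₀ rfl, mul_inv_cancel_right]
        rw [Subgroup.mem_normalizer_iff]
        intro g
        constructor
        · intro hg; rw [hcg g hg]; exact hg
        · intro hg
          have h1 := hcg _ hg
          have e3 : a₀ * g * a₀⁻¹ = g := by
            calc a₀ * g * a₀⁻¹ = a₀⁻¹ * (a₀ * (a₀ * g * a₀⁻¹) * a₀⁻¹) * a₀ := by group
              _ = a₀⁻¹ * (a₀ * g * a₀⁻¹) * a₀ := by rw [h1]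
              _ = g := by group
          rwa [e3] at hg
      rw [hN] at ha₀N
      have ha₀B : a₀ ∈ f.range := hH₂mem a₀ ha₀N ha₀
      obtain ⟨a, ha⟩ := ha₀B
      have ha' : x * (a : G) * x⁻¹ * (a : G)⁻¹ = a₀ := ha
      apply hne
      rw [← ha']
      apply hclem _ a.2
      rw [ha']
      exact hxa₀.symm
  exact ⟨x, A, p, hpP, hAn, hAc, ⟨k, hk⟩, hpA, hcompl, hxpc, hfpf⟩

/-- Let G be a finite solvable non-nilpotent group. Every non-abelian subgroup of G is self-normalizing if and only if G is a semidirect product ⟨x⟩ ⋉ A in which ⟨x⟩ is a p-group for some prime p, A is a normal abelian subgroup of order prime to p, x^p is central in G, and x acts fixed-point-freely on A (no non-identity element of A commutes with x). -/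
theorem result {G : Type*} [Group G] [Finite G]
    [Group.IsSolvable G] (hnn : ¬ Group.IsNilpotent G) :
    (∀ H : Subgroup G, ¬ IsMulCommutative H → Subgroup.normalizer (H : Set G) = H) ↔
    ∃ (x : G) (A : Subgroup G) (p : ℕ), p.Prime ∧ A.Normal ∧ IsMulCommutative A ∧ (∃ k : ℕ, orderOf x = p ^ k) ∧
      ¬ p ∣ Nat.card A ∧ (Subgroup.zpowers x).IsComplement' A ∧ x ^ p ∈ Subgroup.center G ∧
      ∀ a : G, a ∈ A → a ≠ 1 → x * a * x⁻¹ ≠ a := by
  constructor
  · exact forward hnn
  · rintro ⟨x, A, p, hp, hAn, hAc, hx, hpA, hcomp, hxp, hfpf⟩ H hH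
    exact back x A p hp hAn hAc hx hcomp hxp hfpf H hH

end Cfsg.Agent.S4071
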