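import Cfsg.Statements.S4074
import Mathlib

set_option autoImplicit false
open Cfsg

namespace Cfsg.Agent.S4074

open DihedralGroup in
theorem odd_case (n : ℕ) (hodd : Odd n) (H : Subgroup (DihedralGroup n))
    (hH : ¬ IsMulCommutative H) :
    Subgroup.normalizer (H : Set (DihedralGroup n)) = H := by
  have hrefl : ∃ i : ZMod n, sr i ∈ H := by
    by_contra hcon
    push Not at hcon
    apply hH
    refine ⟨⟨fun a b => Subtype.ext ?_⟩⟩
    obtain ⟨a, ha⟩ := a
    obtain ⟨b, hb⟩ := b
    show a * b = b * a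
    cases a with
    | r i =>
      cases b with
      | r j => rw [r_mul_r, r_mul_r, add_comm]
      | sr j => exact absurd hb (hcon j)
    | sr i => exact absurd ha (hcon i)
  obtain ⟨i, hi⟩ := hrefl
  obtain ⟨k, hk⟩ := hodd
  have h2k : (2 : ZMod n) * (k : ZMod n) = -1 := by
    have : ((2 * k + 1 : ℕ) : ZMod n) = 0 := by rw [← hk]; exact ZMod.natCast_self n
    push_cast at this
    linear_combination this
  have claim1 : ∀ j : ZMod n, r j ∈ Subgroup.normalizer (H : Set (DihedralGroup n)) →
      r j ∈ H := by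
    intro j hj
    have h1 : r j * sr i * (r j)⁻¹ ∈ H := (Subgroup.mem_normalizer_iff.mp hj (sr i)).mp hi
    rw [r_mul_sr, inv_r, sr_mul_r] at h1
    have h2 : sr i * sr (i - j + -j) ∈ H := H.mul_mem hi h1
    rw [sr_mul_sr] at h2
    have h3 := H.pow_mem h2 k
    rw [r_pow] at h3
    have e : (i - j + -j - i) * (k : ZMod n) = j := by linear_combination (-j) * h2k
    rwa [e] at h3
  apply le_antisymm _ Subgroup.le_normalizer
  intro g hg
  cases g with
  | r j => exact claim1 j hg
  | sr j =>
    have h1 : sr i * sr j ∈ Subgroup.normalizer (H : Set (DihedralGroup n)) :=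
      Subgroup.mul_mem _ (Subgroup.le_normalizer hi) hg
    rw [sr_mul_sr] at h1
    have h2 := claim1 _ h1
    have h3 := H.mul_mem hi h2
    rw [sr_mul_r] at h3
    have e : i + (j - i) = j := by ring
    rwa [e] at h3

theorem four_case (H : Subgroup (DihedralGroup 4)) (hH : ¬ IsMulCommutative H) :
    Subgroup.normalizer (H : Set (DihedralGroup 4)) = H := by
  have hcard : Nat.card H ∣ 8 := by
    have := Subgroup.card_subgroup_dvd_card H
    rwa [DihedralGroup.nat_card] at this
  have hle : Nat.card H ≤ 8 := Nat.le_of_dvd (by norm_num) hcard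
  have hpos : 0 < Nat.card H := Nat.card_pos
  have h8 : Nat.card H = 8 := by
    by_contra h8
    apply hH
    have hcases : Nat.card H = 1 ∨ Nat.card H = 2 ∨ Nat.card H = 4 := by
      generalize Nat.card H = c at *
      interval_cases c <;> simp_all
    rcases hcases with h | h | h
    · have : Subsingleton H := (Nat.card_eq_one_iff_unique.mp h).1
      exact ⟨⟨fun a b => Subsingleton.elim _ _⟩⟩
    · have : Fact (Nat.Prime 2) := ⟨Nat.prime_two⟩
      have hc : IsCyclic H := isCyclic_of_prime_card (p := 2) h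
      exact IsCyclic.isMulCommutative
    · have : Fact (Nat.Prime 2) := ⟨Nat.prime_two⟩
      exact IsPGroup.isMulCommutative_of_card_eq_prime_sq (p := 2) h
  have htop : H = ⊤ := (Subgroup.card_eq_iff_eq_top H).mp (by rw [h8, DihedralGroup.nat_card])
  subst htop
  exact le_antisymm le_top Subgroup.le_normalizer

open DihedralGroup in
theorem even_case (n : ℕ) (hn : 2 < n) (hn4 : n ≠ 4) (heven : 2 ∣ n)
    (h : ∀ H : Subgroup (DihedralGroup n), ¬ IsMulCommutative H →
      Subgroup.normalizer (H : Set (DihedralGroup n)) = H) : False := by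
  let H : Subgroup (DihedralGroup n) := Subgroup.closure {r 2, sr 0}
  have hr2 : (r 2 : DihedralGroup n) ∈ H := Subgroup.subset_closure (by simp)
  have hs0 : (sr 0 : DihedralGroup n) ∈ H := Subgroup.subset_closure (by simp)
  have hnc : ¬ IsMulCommutative H := by
    intro hc
    have := hc.is_comm.comm ⟨r 2, hr2⟩ ⟨sr 0, hs0⟩
    have h1 : (r 2 : DihedralGroup n) * sr 0 = sr 0 * r 2 := congrArg Subtype.val this
    rw [r_mul_sr, sr_mul_r] at h1
    have h2 : (0 - 2 : ZMod n) = 0 + 2 := sr.inj h1
    have h3 : ((4 : ℕ) : ZMod n) = 0 := by push_cast; linear_combination -h2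
    have h4 : n ∣ 4 := (ZMod.natCast_eq_zero_iff 4 n).mp h3
    have h5 : n ≤ 4 := Nat.le_of_dvd (by norm_num) h4
    have h6 : n = 3 := by omega
    rw [h6] at h4
    norm_num at h4
  have hconj : ∀ g : DihedralGroup n, g * r 2 * g⁻¹ ∈ H → g * sr 0 * g⁻¹ ∈ H →
      ∀ y ∈ H, g * y * g⁻¹ ∈ H := by
    intro g h1 h2
    have : H ≤ H.comap (MulAut.conj g).toMonoidHom := by
      apply (Subgroup.closure_le _).mpr
      intro y hy
      rcases hy with rfl | rfl
      · exact h1
      · exact h2
    intro y hy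
    exact this hy
  have hc1 := hconj (r 1) (by
    rw [r_mul_r, inv_r, r_mul_r]; convert hr2 using 2; ring) (by
    rw [r_mul_sr, inv_r, sr_mul_r]
    have : (r 2 : DihedralGroup n) * sr 0 ∈ H := H.mul_mem hr2 hs0
    rw [r_mul_sr] at this
    convert this using 2; ring)
  have hc2 := hconj (r (-1)) (by
    rw [r_mul_r, inv_r, r_mul_r]; convert hr2 using 2; ring) (by
    rw [r_mul_sr, inv_r, sr_mul_r]
    have : (sr 0 : DihedralGroup n) * r 2 ∈ H := H.mul_mem hs0 hr2
    rw [sr_mul_r] at this
    convert this using 2; ring)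
  have hnorm : (r 1 : DihedralGroup n) ∈ Subgroup.normalizer (H : Set (DihedralGroup n)) := by
    rw [Subgroup.mem_normalizer_iff]
    intro y
    constructor
    · exact hc1 y
    · intro hy
      have := hc2 _ hy
      rw [← inv_r] at this
      have e : (r 1 : DihedralGroup n)⁻¹ * (r 1 * y * (r 1)⁻¹) * (r 1)⁻¹⁻¹ = y := by group
      rwa [e] at this
  rw [h H hnc] at hnorm
  let K : Subgroup (DihedralGroup n) :=
    { carrier := {g | ∃ i : ZMod n, g = r (2 * i) ∨ g = sr (2 * i)}
      mul_mem' := by
        rintro a b ⟨i, rfl | rfl⟩ ⟨j, rfl | rfl⟩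
        · exact ⟨i + j, Or.inl (by rw [r_mul_r, mul_add])⟩
        · exact ⟨j - i, Or.inr (by rw [r_mul_sr, mul_sub])⟩
        · exact ⟨i + j, Or.inr (by rw [sr_mul_r, mul_add])⟩
        · exact ⟨j - i, Or.inl (by rw [sr_mul_sr, mul_sub])⟩
      one_mem' := ⟨0, Or.inl (by rw [mul_zero, r_zero])⟩
      inv_mem' := by
        rintro a ⟨i, rfl | rfl⟩
        · exact ⟨-i, Or.inl (by rw [inv_r, mul_neg])⟩
        · exact ⟨i, Or.inr (by rw [inv_sr])⟩ }
  have hHK : H ≤ K := by
    apply (Subgroup.closure_le _).mpr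
    intro y hy
    rcases hy with rfl | rfl
    · exact ⟨1, Or.inl (by rw [mul_one])⟩
    · exact ⟨0, Or.inr (by rw [mul_zero])⟩
  obtain ⟨i, hi | hi⟩ := hHK hnorm
  · have h1 : (1 : ZMod n) = 2 * i := r.inj hi
    have h2 := congrArg (ZMod.castHom heven (ZMod 2)) h1
    rw [map_one, map_mul] at h2
    have h3 : (ZMod.castHom heven (ZMod 2)) 2 = 0 := by
      rw [map_ofNat]; decide
    rw [h3, zero_mul] at h2
    exact one_ne_zero h2
  · exact absurd hi (by simp)

/-- For n > 2, every non-abelian subgroup of the dihedral group of order 2n is self-normalizing if and only if n = 4 or n is odd. -/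
theorem result (n : ℕ) (hn : 2 < n) :
    (∀ H : Subgroup (DihedralGroup n), ¬ IsMulCommutative H → Subgroup.normalizer (H : Set (DihedralGroup n)) = H) ↔
    (n = 4 ∨ Odd n) := by
  constructor
  · intro h
    by_contra hcon
    push Not at hcon
    obtain ⟨hn4, hnodd⟩ := hcon
    have heven : 2 ∣ n := by
      rcases Nat.even_or_odd n with he | ho
      · exact he.two_dvd
      · exact absurd ho hnodd
    exact even_case n hn hn4 heven h
  · rintro (rfl | hodd) H hH
    · exact four_case H hH
    · exact odd_case n hodd H hH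

end Cfsg.Agent.S4074
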