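import Cfsg.Statements.S4075
import Mathlib

set_option autoImplicit false
open Cfsg

namespace Cfsg.Agent.S4075

/-- Let G be a finite nilpotent group. Every non-abelian subgroup of G is self-normalizing if and only if G is abelian or G is a minimal non-abelian p-group for some prime p (non-abelian of prime-power order with every proper subgroup abelian). -/
theorem result {G : Type*} [Group G] [Finite G]
    [Group.IsNilpotent G] :
    (∀ H : Subgroup G, ¬ IsMulCommutative H → Subgroup.normalizer (H : Set G) = H) ↔
    (IsMulCommutative G ∨ (IsPrimePow (Nat.card G) ∧ ¬ IsMulCommutative G ∧ ∀ H : Subgroup G, H ≠ ⊤ → IsMulCommutative H)) := by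
  constructor
  · intro hS
    by_cases hG : IsMulCommutative G
    · exact Or.inl hG
    · right
      have hprop : ∀ H : Subgroup G, H ≠ ⊤ → IsMulCommutative H := by
        intro H hH
        by_contra hna
        have h1 := hS H hna
        have h2 := Group.normalizerCondition_of_isNilpotent (G := G) H (lt_top_iff_ne_top.mpr hH)
        rw [h1] at h2
        exact lt_irrefl _ h2
      refine ⟨?_, hG, hprop⟩
      have hex : ∃ (p : ℕ) (_ : Fact p.Prime) (P : Sylow p G), (P : Subgroup G) = ⊤ := by
        by_contra hcon
        push Not at hcon
        obtain ⟨e⟩ := (Group.isNilpotent_of_finite_tfae (G := G)).out 0 4 |>.mp ‹Group.IsNilpotent G›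
        apply hG
        refine ⟨⟨fun g h => ?_⟩⟩
        have hcomm : e.symm g * e.symm h = e.symm h * e.symm g := by
          funext p
          funext P
          have hp : Fact (p : ℕ).Prime := ⟨Nat.prime_of_mem_primeFactors p.2⟩
          have hPc := hprop (P : Subgroup G) (hcon p hp P)
          exact hPc.is_comm.comm _ _
        have := congrArg e hcomm
        simpa using this
      obtain ⟨p, hp, P, hP⟩ := hex
      obtain ⟨n, hn⟩ := IsPGroup.exists_card_eq P.isPGroup'
      have hcard : Nat.card G = p ^ n := by
        rw [← hn, hP]; exact (Subgroup.card_top).symm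
      rw [isPrimePow_nat_iff]
      refine ⟨p, n, hp.out, ?_, hcard.symm⟩
      rcases Nat.eq_zero_or_pos n with h0 | h0
      · exfalso
        rw [h0, pow_zero] at hcard
        have hsub : Subsingleton G := (Nat.card_eq_one_iff_unique.mp hcard).1
        exact hG ⟨⟨fun a b => Subsingleton.elim _ _⟩⟩
      · exact h0
  · rintro (hG | ⟨-, hG, hprop⟩) H hH
    · exfalso
      exact hH ⟨⟨fun a b => Subtype.ext (hG.is_comm.comm (a : G) (b : G))⟩⟩
    · have : H = ⊤ := by
        by_contra hne
        exact hH (hprop H hne)
      rw [this]
      exact top_le_iff.mp Subgroup.le_normalizer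

end Cfsg.Agent.S4075
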