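import Cfsg.Statements.S4080
import Mathlib

set_option autoImplicit false
open Cfsg

namespace Cfsg.Agent.S4080

open Matrix

open Matrix

/-- Cayley–Hamilton for 2×2 -/
theorem sq_eq_two {F : Type*} [CommRing F] (B : Matrix (Fin 2) (Fin 2) F) :
    B * B = B.trace • B - B.det • (1 : Matrix (Fin 2) (Fin 2) F) := by
  ext i j
  fin_cases i <;> fin_cases j <;>
    simp [Matrix.mul_apply, Fin.sum_univ_two, Matrix.det_fin_two, Matrix.trace_fin_two] <;> ring

/-- a nilpotent 2×2 matrix over a field squares to zero -/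
theorem sq_zero_of_nilpotent {F : Type*} [Field F] (B : Matrix (Fin 2) (Fin 2) F) (n : ℕ)
    (hB : B ^ n = 0) : B * B = 0 := by
  have hdet : B.det = 0 := by
    have h1 : B.det ^ n = 0 := by rw [← Matrix.det_pow, hB, Matrix.det_zero]
    exact eq_zero_of_pow_eq_zero h1
  have hsq : B * B = B.trace • B := by
    rw [sq_eq_two, hdet, zero_smul, sub_zero]
  have hpow : ∀ k : ℕ, B ^ (k + 1) = B.trace ^ k • B := by
    intro k
    induction k with
    | zero => simp
    | succ k ih =>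
      rw [pow_succ, ih, Matrix.smul_mul, hsq, smul_smul, ← pow_succ]
  rcases Nat.eq_zero_or_pos n with h0 | h0
  · exfalso
    rw [h0, pow_zero] at hB
    have := congrFun (congrFun hB 0) 0
    simp at this
  · obtain ⟨k, rfl⟩ := Nat.exists_eq_succ_of_ne_zero h0.ne'
    rw [hpow] at hB
    rw [hsq]
    by_cases ht : B.trace = 0
    · rw [ht, zero_smul]
    · have : B = 0 := by
        have h2 := (smul_eq_zero.mp hB).resolve_left (pow_ne_zero k ht)
        exact h2
      rw [this, smul_zero]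

theorem ker_lemma {p : ℕ} [Fact p.Prime] (b : ZMod (p ^ 2))
    (h : ZMod.castHom (dvd_pow_self p two_ne_zero) (ZMod p) b = 0) :
    ∃ t : ZMod (p ^ 2), b = (p : ZMod (p ^ 2)) * t := by
  haveI : NeZero (p ^ 2) := ⟨pow_ne_zero 2 (Fact.out : p.Prime).ne_zero⟩
  rw [ZMod.castHom_apply, ← ZMod.natCast_val, ZMod.natCast_eq_zero_iff] at h
  obtain ⟨t, ht⟩ := h
  refine ⟨(t : ZMod (p ^ 2)), ?_⟩
  rw [← Nat.cast_mul, ← ht, ZMod.natCast_zmod_val]

theorem tors_lemma {p : ℕ} [Fact p.Prime] (c : ZMod (p ^ 2))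
    (h : (p : ZMod (p ^ 2)) * c = 0) : ∃ t : ZMod (p ^ 2), c = (p : ZMod (p ^ 2)) * t := by
  haveI : NeZero (p ^ 2) := ⟨pow_ne_zero 2 (Fact.out : p.Prime).ne_zero⟩
  have h1 : ((p * c.val : ℕ) : ZMod (p ^ 2)) = 0 := by
    rw [Nat.cast_mul, ZMod.natCast_zmod_val]; exact h
  rw [ZMod.natCast_eq_zero_iff] at h1
  have h1' : p * p ∣ p * c.val := by rw [← sq]; exact h1
  have h2 : p ∣ c.val := Nat.dvd_of_mul_dvd_mul_left (Fact.out : p.Prime).pos h1'
  obtain ⟨t, ht⟩ := h2
  exact ⟨t, by rw [← Nat.cast_mul, ← ht, ZMod.natCast_zmod_val]⟩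

theorem core {p : ℕ} [Fact p.Prime] (hp : 3 < p) (A : Matrix (Fin 2) (Fin 2) (ZMod (p ^ 2)))
    (hA : A ^ p = 1) : (p : ZMod (p ^ 2)) • (A - 1) = 0 := by
  have hpp : p.Prime := Fact.out
  obtain ⟨N, hN⟩ : ∃ N, N = A - 1 := ⟨_, rfl⟩
  rw [← hN]
  have hAN : A = N + 1 := by rw [hN]; abel
  let ρ : ZMod (p ^ 2) →+* ZMod p := ZMod.castHom (dvd_pow_self p two_ne_zero) (ZMod p)
  have h1 : (ρ.mapMatrix N) ^ p = 0 := by
    have h0 : ρ.mapMatrix N = ρ.mapMatrix A - 1 := by rw [hN, map_sub, map_one]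
    rw [h0, sub_pow_char_of_commute _ (Commute.one_right _), one_pow, ← map_pow, hA, map_one,
      sub_self]
  have h2 : ρ.mapMatrix N * ρ.mapMatrix N = 0 := sq_zero_of_nilpotent _ p h1
  have h3 : ∃ K : Matrix (Fin 2) (Fin 2) (ZMod (p ^ 2)), N * N = (p : ZMod (p ^ 2)) • K := by
    have h4 : ρ.mapMatrix (N * N) = 0 := by rw [map_mul, h2]
    have h5 : ∀ i j, ∃ t : ZMod (p ^ 2), (N * N) i j = (p : ZMod (p ^ 2)) * t := by
      intro i j
      have h6 : ρ ((N * N) i j) = 0 := by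
        have h7 := congrFun (congrFun h4 i) j
        simpa [RingHom.mapMatrix_apply, Matrix.map_apply] using h7
      exact ker_lemma _ h6
    choose K hK using h5
    refine ⟨Matrix.of K, ?_⟩
    ext i j
    rw [hK i j, Matrix.smul_apply, Matrix.of_apply, smul_eq_mul]
  obtain ⟨K, hK⟩ := h3
  have hpp0 : (p : ZMod (p ^ 2)) * (p : ZMod (p ^ 2)) = 0 := by
    rw [← Nat.cast_mul, ← sq]; exact ZMod.natCast_self _
  have hN4 : N ^ 4 = 0 := by
    have : N ^ 4 = (N * N) * (N * N) := by noncomm_ring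
    rw [this, hK, Matrix.smul_mul, Matrix.mul_smul, smul_smul, hpp0, zero_smul]
  have hexp : A ^ p = ∑ m ∈ Finset.range (p + 1),
      N ^ m * 1 ^ (p - m) * ((p.choose m : ℕ) : Matrix (Fin 2) (Fin 2) (ZMod (p ^ 2))) := by
    rw [hAN]
    exact Commute.add_pow (Commute.one_right N) p
  have hcast : ∀ (n : ℕ) (X : Matrix (Fin 2) (Fin 2) (ZMod (p ^ 2))),
      X * ((n : ℕ) : Matrix (Fin 2) (Fin 2) (ZMod (p ^ 2))) = (n : ZMod (p ^ 2)) • X := by
    intro n X
    rw [← Nat.cast_comm, ← nsmul_eq_mul, Nat.cast_smul_eq_nsmul]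
  have hsum : ∑ m ∈ Finset.range (p + 1),
      N ^ m * 1 ^ (p - m) * ((p.choose m : ℕ) : Matrix (Fin 2) (Fin 2) (ZMod (p ^ 2))) =
      1 + (p : ZMod (p ^ 2)) • N := by
    rw [Finset.sum_eq_add 0 1 (by norm_num)]
    · simp [hcast]
    · intro m hm hm01
      have hm2 : 2 ≤ m := by omega
      rw [one_pow, mul_one, hcast]
      by_cases hm4 : 4 ≤ m
      · have : N ^ m = N ^ (m - 4) * N ^ 4 := by rw [← pow_add]; congr 1; omega
        rw [this, hN4, mul_zero, smul_zero]
      · have hmp : m < p := by omega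
        have hdvd : p ∣ p.choose m := hpp.dvd_choose_self (by omega) hmp
        obtain ⟨c, hc⟩ := hdvd
        have : N ^ m = N ^ (m - 2) * (N * N) := by
          rw [← pow_two, ← pow_add]; congr 1; omega
        rw [this, hK, hc, Nat.cast_mul, Matrix.mul_smul, smul_smul, mul_comm (p : ZMod (p ^ 2)),
          mul_assoc, hpp0, mul_zero, zero_smul]
    · intro h0; exfalso; exact h0 (Finset.mem_range.mpr (by omega))
    · intro h0; exfalso; exact h0 (Finset.mem_range.mpr (by omega))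
  rw [hexp, hsum] at hA
  have := sub_eq_zero.mpr hA
  rwa [add_sub_cancel_left] at this

/-- the linear endomorphism of `ZMod (p^2) × ZMod (p^2)` attached to an automorphism of its
multiplicative version -/
def toEnd (p : ℕ) : MulAut (Multiplicative (ZMod (p ^ 2) × ZMod (p ^ 2))) →*
    Module.End (ZMod (p ^ 2)) (ZMod (p ^ 2) × ZMod (p ^ 2)) where
  toFun a := (AddMonoidHom.toMultiplicative.symm a.toMonoidHom).toZModLinearMap (p ^ 2)
  map_one' := LinearMap.ext fun _ => rfl
  map_mul' _ _ := LinearMap.ext fun _ => rfl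

theorem toEnd_apply (p : ℕ) (a : MulAut (Multiplicative (ZMod (p ^ 2) × ZMod (p ^ 2))))
    (m : ZMod (p ^ 2) × ZMod (p ^ 2)) :
    toEnd p a m = Multiplicative.toAdd (a (Multiplicative.ofAdd m)) := rfl

/-- Let p > 3 be a prime and L the direct product of two cyclic groups of order p². Every automorphism of L of order p fixes every element of order p of L. -/
theorem result {p : ℕ} [Fact p.Prime] (hp : 3 < p)
    (a : MulAut (Multiplicative (ZMod (p ^ 2) × ZMod (p ^ 2)))) (ha : orderOf a = p)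
    (x : Multiplicative (ZMod (p ^ 2) × ZMod (p ^ 2))) (hx : orderOf x = p) : a x = x := by
  have hpp : p.Prime := Fact.out
  have hap : a ^ p = 1 := by
    have h0 := pow_orderOf_eq_one a
    rwa [ha] at h0
  have hℓ : (toEnd p a) ^ p = 1 := by
    rw [← map_pow, hap, map_one]
  let b := Module.Basis.finTwoProd (ZMod (p ^ 2))
  have hA : (LinearMap.toMatrixAlgEquiv b (toEnd p a)) ^ p = 1 := by
    rw [← map_pow, hℓ, map_one]
  have hcore := core hp _ hA
  have hkey : (p : ZMod (p ^ 2)) • (toEnd p a - 1) = 0 := by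
    have h1 : LinearMap.toMatrixAlgEquiv b ((p : ZMod (p ^ 2)) • (toEnd p a - 1)) = 0 := by
      rw [map_smul, map_sub, map_one]; exact hcore
    exact (EmbeddingLike.map_eq_zero_iff).mp h1
  have hx1 : x ^ p = 1 := by
    have h0 := pow_orderOf_eq_one x
    rwa [hx] at h0
  obtain ⟨u, v, huv⟩ : ∃ u v : ZMod (p ^ 2), Multiplicative.toAdd x = (u, v) := ⟨_, _, rfl⟩
  have hpm : p • (Multiplicative.toAdd x) = 0 := by
    have := congrArg Multiplicative.toAdd hx1
    simpa using this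
  rw [huv] at hpm
  have hu : (p : ZMod (p ^ 2)) * u = 0 := by
    have := congrArg Prod.fst hpm
    simpa [nsmul_eq_mul] using this
  have hv : (p : ZMod (p ^ 2)) * v = 0 := by
    have := congrArg Prod.snd hpm
    simpa [nsmul_eq_mul] using this
  obtain ⟨u', hu'⟩ := tors_lemma u hu
  obtain ⟨v', hv'⟩ := tors_lemma v hv
  have hy : Multiplicative.toAdd x = (p : ZMod (p ^ 2)) • ((u', v') : ZMod (p ^ 2) × ZMod (p ^ 2)) := by
    rw [huv, hu', hv']; rfl
  have h2 : toEnd p a (Multiplicative.toAdd x) = Multiplicative.toAdd x := by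
    rw [hy, map_smul]
    have h3 := congrArg (fun f => f ((u', v') : ZMod (p ^ 2) × ZMod (p ^ 2))) hkey
    simp only [LinearMap.smul_apply, LinearMap.sub_apply, Module.End.one_apply,
      LinearMap.zero_apply, smul_sub] at h3
    exact sub_eq_zero.mp h3
  rw [toEnd_apply] at h2
  exact congrArg Multiplicative.ofAdd h2

end Cfsg.Agent.S4080
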