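import Cfsg.Statements.S4082
import Cfsg.Agent.Lib.Helper10.DihSyl
import Cfsg.Agent.Lib.Helper21.Dihedral
import Cfsg.Agent.Lib.Helper5.PCyc

set_option autoImplicit false
open Cfsg

namespace Cfsg.Agent.S4082

open Cfsg.Agent.Lib.Helper5 Cfsg.Agent.Lib.Helper10

theorem forward {G : Type*} [Group G] [Finite G] {p : ℕ} [Fact p.Prime] (hp : p ≠ 2)
    (P : Sylow p G)
    (hL : ∀ H : Subgroup G, (∀ S : Sylow p ↥H, (S : Subgroup ↥H).Normal) →
        (∀ (S : Sylow p ↥H) [(S : Subgroup ↥H).Normal], IsCyclic (↥H ⧸ (S : Subgroup ↥H))) →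
        IsCyclic H ∨ (∃ n : ℕ, Nonempty (H ≃* DihedralGroup (p ^ n)))) :
    (IsCyclic P ∧
      (Subgroup.normalizer ((P : Subgroup G) : Set G) = Subgroup.centralizer ((P : Subgroup G) : Set G) ∨
       ((Subgroup.centralizer ((P : Subgroup G) : Set G)).relIndex (Subgroup.normalizer ((P : Subgroup G) : Set G)) = 2 ∧
        ∀ Q : Subgroup G, Q ≤ P → Nat.card Q = p →
          IsMulCommutative ↥(Subgroup.centralizer (Q : Set G)) ∧
          ∀ x : G, x ∈ Subgroup.normalizer (Q : Set G) → x ∉ Subgroup.centralizer (Q : Set G) →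
            orderOf x = 2 ∧ ∀ c : G, c ∈ Subgroup.centralizer (Q : Set G) → x * c * x⁻¹ = c⁻¹))) := by
  have hpp : p.Prime := Fact.out
  have hstar := centralizes_or_inverts hp hL
  have hPc : IsCyclic P := by
    obtain ⟨h1, h2⟩ := pgroup_sylow_hyps (P : Subgroup G) P.isPGroup'
    rcases hL P h1 h2 with hc | ⟨n, ⟨e⟩⟩
    · exact hc
    · exfalso
      obtain ⟨k, hk⟩ := IsPGroup.iff_card.mp P.isPGroup'
      rw [Nat.card_congr e.toEquiv, DihedralGroup.nat_card] at hk
      have h3 : 2 ∣ p ^ k := by rw [← hk]; exact dvd_mul_right 2 _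
      have h4 := Nat.Prime.dvd_of_dvd_pow Nat.prime_two h3
      exact hp ((Nat.prime_dvd_prime_iff_eq Nat.prime_two hpp).mp h4).symm
  refine ⟨hPc, ?_⟩
  by_cases hall : ∀ x ∈ Subgroup.normalizer ((P : Subgroup G) : Set G),
      x ∈ Subgroup.centralizer ((P : Subgroup G) : Set G)
  · left
    exact le_antisymm hall (Subgroup.centralizer_le_normalizer _)
  · right
    push Not at hall
    obtain ⟨x₀, hx₀N, hx₀C⟩ := hall
    have hx₀ : orderOf x₀ = 2 ∧ ∀ r ∈ (P : Subgroup G), x₀ * r * x₀⁻¹ = r⁻¹ := by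
      rcases hstar P P.isPGroup' x₀ hx₀N with h | h
      · exact absurd h hx₀C
      · exact h
    obtain ⟨hx₀o, hx₀inv⟩ := hx₀
    have hrel : (Subgroup.centralizer ((P : Subgroup G) : Set G)).relIndex
        (Subgroup.normalizer ((P : Subgroup G) : Set G)) = 2 := by
      show ((Subgroup.centralizer ((P : Subgroup G) : Set G)).subgroupOf
        (Subgroup.normalizer ((P : Subgroup G) : Set G))).index = 2
      rw [Subgroup.index_eq_two_iff]
      refine ⟨⟨x₀, hx₀N⟩, ?_⟩
      rintro ⟨b, hbN⟩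
      rw [Subgroup.mem_subgroupOf, Subgroup.mem_subgroupOf]
      show Xor (b * x₀ ∈ Subgroup.centralizer ((P : Subgroup G) : Set G))
        (b ∈ Subgroup.centralizer ((P : Subgroup G) : Set G))
      rcases hstar P P.isPGroup' b hbN with hb | ⟨hbo, hbinv⟩
      · right
        refine ⟨hb, fun h => hx₀C ?_⟩
        have h1 := Subgroup.mul_mem _ (Subgroup.inv_mem _ hb) h
        rwa [inv_mul_cancel_left] at h1
      · left
        refine ⟨?_, fun hb => ?_⟩
        · rw [Subgroup.mem_centralizer_iff]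
          intro r hr
          have h1 := hx₀inv r hr
          have h2 := hbinv r⁻¹ (Subgroup.inv_mem _ hr)
          rw [inv_inv] at h2
          calc r * (b * x₀) = (b * r⁻¹ * b⁻¹) * (b * x₀) := by rw [h2]
            _ = b * r⁻¹ * x₀ := by group
            _ = b * (x₀ * r * x₀⁻¹) * x₀ := by rw [h1]
            _ = b * x₀ * r := by group
        · -- `b` centralizes and inverts `x₀`-moved elements: contradiction
          apply hx₀C
          rw [Subgroup.mem_centralizer_iff]
          intro r hr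
          have h1 := hx₀inv r hr
          have h2 := hbinv r hr
          have h3 := Subgroup.mem_centralizer_iff.mp hb r hr
          have h4 : r⁻¹ = r := by
            rw [← h2, ← h3, mul_inv_cancel_right]
          have h5 : x₀ * r * x₀⁻¹ = r := by rw [h1, h4]
          calc r * x₀ = (x₀ * r * x₀⁻¹) * x₀ := by rw [h5]
            _ = x₀ * r := by group
    refine ⟨hrel, ?_⟩
    intro Q hQP hQcard
    have hQp : IsPGroup p Q := P.isPGroup'.to_le hQP
    have hii : ∀ x : G, x ∈ Subgroup.normalizer (Q : Set G) →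
        x ∉ Subgroup.centralizer (Q : Set G) →
        orderOf x = 2 ∧ ∀ c : G, c ∈ Subgroup.centralizer (Q : Set G) → x * c * x⁻¹ = c⁻¹ := by
      intro x hxN hxC
      rcases hstar Q hQp x hxN with h | ⟨hxo, -⟩
      · exact absurd h hxC
      · refine ⟨hxo, fun c hc => ?_⟩
        have hxcN : x * c ∈ Subgroup.normalizer (Q : Set G) :=
          Subgroup.mul_mem _ hxN (Subgroup.centralizer_le_normalizer _ hc)
        have hxcC : x * c ∉ Subgroup.centralizer (Q : Set G) := by
          intro h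
          apply hxC
          have h1 := Subgroup.mul_mem _ h (Subgroup.inv_mem _ hc)
          rwa [mul_inv_cancel_right] at h1
        rcases hstar Q hQp (x * c) hxcN with h | ⟨hxco, -⟩
        · exact absurd h hxcC
        · have hxx : x * x = 1 := by rw [← pow_two, ← hxo]; exact pow_orderOf_eq_one x
          have hxc2 : x * c * (x * c) = 1 := by
            rw [← pow_two, ← hxco]; exact pow_orderOf_eq_one _
          rw [inv_eq_of_mul_eq_one_left hxx]
          calc x * c * x = (x * c * (x * c)) * c⁻¹ := by group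
            _ = c⁻¹ := by rw [hxc2, one_mul]
    refine ⟨?_, hii⟩
    have hx₀NQ : x₀ ∈ Subgroup.normalizer (Q : Set G) := by
      apply mem_normalizer_of_conj_mem_finite
      intro u hu
      rw [hx₀inv u (hQP hu)]
      exact Q.inv_mem hu
    have hx₀CQ : x₀ ∉ Subgroup.centralizer (Q : Set G) := by
      intro h
      have hbot : Q = ⊥ := by
        rw [Subgroup.eq_bot_iff_forall]
        intro q hq
        have h1 := hx₀inv q (hQP hq)
        have h2 := Subgroup.mem_centralizer_iff.mp h q hq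
        have h3 : q⁻¹ = q := by rw [← h1, ← h2, mul_inv_cancel_right]
        have h4 : q ^ 2 = 1 := by
          rw [pow_two]
          nth_rewrite 1 [← h3]
          exact inv_mul_cancel q
        have h5 : orderOf q ∣ 2 := orderOf_dvd_of_pow_eq_one h4
        have h6 : orderOf q ∣ p := by
          have h7 : orderOf (⟨q, hq⟩ : ↥Q) ∣ Nat.card Q := orderOf_dvd_natCard _
          rwa [Subgroup.orderOf_mk, hQcard] at h7
        have hcop : Nat.Coprime 2 p := by
          rw [Nat.coprime_primes Nat.prime_two hpp]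
          exact fun h => hp h.symm
        exact orderOf_eq_one_iff.mp (Nat.eq_one_of_dvd_coprimes hcop h5 h6)
      rw [hbot, Subgroup.card_bot] at hQcard
      exact hpp.one_lt.ne hQcard
    obtain ⟨-, hinv⟩ := hii x₀ hx₀NQ hx₀CQ
    refine ⟨⟨fun c d => ?_⟩⟩
    apply Subtype.ext
    have hc := hinv c c.2
    have hd := hinv d d.2
    have hcd := hinv (c * d) (Subgroup.mul_mem _ c.2 d.2)
    have h1 : ((c : G) * d)⁻¹ = (c : G)⁻¹ * (d : G)⁻¹ := by
      rw [← hcd, ← hc, ← hd]; group
    have h2 : ((c : G) * d) = ((c : G)⁻¹ * (d : G)⁻¹)⁻¹ := by rw [← h1, inv_inv]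
    rw [Subgroup.coe_mul, Subgroup.coe_mul, h2, mul_inv_rev, inv_inv, inv_inv]

theorem backward {G : Type*} [Group G] [Finite G] {p : ℕ} [Fact p.Prime] (hp : p ≠ 2)
    (P : Sylow p G) (hPc : IsCyclic P)
    (hR : Subgroup.normalizer ((P : Subgroup G) : Set G) = Subgroup.centralizer ((P : Subgroup G) : Set G) ∨
       ((Subgroup.centralizer ((P : Subgroup G) : Set G)).relIndex (Subgroup.normalizer ((P : Subgroup G) : Set G)) = 2 ∧
        ∀ Q : Subgroup G, Q ≤ P → Nat.card Q = p →
          IsMulCommutative ↥(Subgroup.centralizer (Q : Set G)) ∧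
          ∀ x : G, x ∈ Subgroup.normalizer (Q : Set G) → x ∉ Subgroup.centralizer (Q : Set G) →
            orderOf x = 2 ∧ ∀ c : G, c ∈ Subgroup.centralizer (Q : Set G) → x * c * x⁻¹ = c⁻¹))
    (H : Subgroup G) (hN : ∀ S : Sylow p ↥H, (S : Subgroup ↥H).Normal)
    (hQ : ∀ (S : Sylow p ↥H) [(S : Subgroup ↥H).Normal], IsCyclic (↥H ⧸ (S : Subgroup ↥H))) :
    IsCyclic H ∨ (∃ n : ℕ, Nonempty (H ≃* DihedralGroup (p ^ n))) := by
  have hpp : p.Prime := Fact.out
  obtain ⟨S⟩ : Nonempty (Sylow p ↥H) := inferInstance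
  obtain ⟨R, y, k, m, hRH, hRp, hcardR, hm, hcardH, hyH, hyo, hyN, hdecomp, hconj⟩ :=
    normal_sylow_cyclic_quot H S (hN S) (hQ S)
  obtain ⟨g, hg⟩ := exists_conj_le_sylow P R hRp
  obtain ⟨R', hR'mem, ⟨eR⟩⟩ := exists_conj_subgroup g R
  have hR'P : R' ≤ P := by
    intro x hx
    obtain ⟨q, hq, rfl⟩ := (hR'mem x).mp hx
    exact hg q hq
  have hR'c : IsCyclic R' := Subgroup.isCyclic_of_le hR'P
  have hRc : IsCyclic R := isCyclic_of_surjective eR.symm eR.symm.surjective
  rcases hR with hNC | ⟨hrel, hcond⟩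
  · left
    have hNC' : Subgroup.normalizer ((P : Subgroup G) : Set G) ≤
        Subgroup.centralizer ((P : Subgroup G) : Set G) := hNC.le
    obtain ⟨f, hf⟩ : ∃ f : G →* (P : Subgroup G), f = MonoidHom.transferSylow P hNC' := ⟨_, rfl⟩
    have hdisj : Disjoint f.ker R := by
      rw [hf]; exact MonoidHom.ker_transferSylow_disjoint P hNC' R hRp
    have hfy : f y = 1 := by
      have h1 : orderOf (f y) ∣ m := by rw [← hyo]; exact orderOf_map_dvd f y
      obtain ⟨j, hj⟩ := (IsPGroup.iff_orderOf.mp P.isPGroup') (f y)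
      have h2 : orderOf (f y) ∣ p ^ j := by rw [hj]
      have hcop : Nat.Coprime m (p ^ j) := Nat.Coprime.pow_right j hm
      exact orderOf_eq_one_iff.mp (Nat.eq_one_of_dvd_coprimes hcop h1 h2)
    apply cyclic_of_central_gen H R y k m hRH hRc hcardR hm hcardH hyH hyo
    intro r hr
    have hcR : y * r * y⁻¹ * r⁻¹ ∈ R := R.mul_mem (hconj y hyH r hr) (R.inv_mem hr)
    have hcK : y * r * y⁻¹ * r⁻¹ ∈ f.ker := by
      rw [MonoidHom.mem_ker, map_mul, map_mul, map_mul, map_inv, map_inv, hfy]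
      group
    have hbot := hdisj.le_bot (Subgroup.mem_inf.mpr ⟨hcK, hcR⟩)
    rw [Subgroup.mem_bot] at hbot
    calc r * y = (y * r * y⁻¹ * r⁻¹)⁻¹ * (y * r) := by group
      _ = y * r := by rw [hbot, inv_one, one_mul]
  · by_cases hk0 : k = 0
    · left
      subst hk0
      rw [pow_zero] at hcardR
      have hbot : R = ⊥ := Subgroup.eq_bot_of_card_eq R hcardR
      apply cyclic_of_central_gen H R y 0 m hRH hRc (by rw [hcardR, pow_zero]) hm hcardH hyH hyo
      intro r hr
      rw [hbot, Subgroup.mem_bot] at hr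
      rw [hr, one_mul, mul_one]
    · obtain ⟨r₀, hr₀⟩ := (Subgroup.isCyclic_iff_exists_zpowers_eq_top R).mp hRc
      have hr₀R : r₀ ∈ R := hr₀ ▸ Subgroup.mem_zpowers r₀
      have hr₀o : orderOf r₀ = p ^ k := by rw [← Nat.card_zpowers, hr₀, hcardR]
      obtain ⟨w, hw⟩ : ∃ w, w = r₀ ^ (orderOf r₀ / p) := ⟨_, rfl⟩
      have hpdvd : p ∣ orderOf r₀ := by rw [hr₀o]; exact dvd_pow_self p hk0
      have hwo : orderOf w = p := by
        rw [hw]; exact orderOf_pow_orderOf_div (orderOf_pos r₀).ne' hpdvd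
      have hwR : w ∈ R := by rw [hw]; exact R.pow_mem hr₀R _
      obtain ⟨Q₀, hQ₀⟩ : ∃ Q₀ : Subgroup G, Q₀ = Subgroup.zpowers w := ⟨_, rfl⟩
      have hQ₀R : Q₀ ≤ R := by rw [hQ₀]; exact Subgroup.zpowers_le.mpr hwR
      have hQ₀card : Nat.card Q₀ = p := by rw [hQ₀, Nat.card_zpowers, hwo]
      have hQ₀mem : ∀ r ∈ R, r ^ p = 1 → r ∈ Q₀ := by
        intro r hr hrp
        rw [hQ₀]
        exact cyc_mem_zpowers_of_order r₀ p (by rw [hr₀]; exact hr) (by rw [hr₀]; exact hwR)
          hwo hrp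
      have hQ₀pow : ∀ u ∈ Q₀, u ^ p = 1 := by
        intro u hu
        have h1 : (⟨u, hu⟩ : ↥Q₀) ^ p = 1 := by rw [← hQ₀card]; exact pow_card_eq_one'
        have h2 := congrArg Subtype.val h1
        simpa using h2
      have hyNQ₀ : y ∈ Subgroup.normalizer (Q₀ : Set G) := by
        apply mem_normalizer_of_conj_mem_finite
        intro u hu
        apply hQ₀mem _ (hconj y hyH u (hQ₀R hu))
        rw [conj_pow, hQ₀pow u hu, mul_one, mul_inv_cancel]
      have hRcomm : ∀ a ∈ R, ∀ b ∈ R, a * b = b * a := by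
        intro a ha b hb
        rw [← hr₀] at ha hb
        obtain ⟨i, hi⟩ := Subgroup.mem_zpowers_iff.mp ha
        obtain ⟨j, hj⟩ := Subgroup.mem_zpowers_iff.mp hb
        rw [← hi, ← hj, ← zpow_add, ← zpow_add, add_comm]
      have hRCQ₀ : ∀ r ∈ R, r ∈ Subgroup.centralizer (Q₀ : Set G) := by
        intro r hr
        rw [Subgroup.mem_centralizer_iff]
        intro q hq
        exact hRcomm q (hQ₀R hq) r hr
      obtain ⟨Q, hQmem, ⟨eQ⟩⟩ := exists_conj_subgroup g Q₀
      have hQP : Q ≤ P := by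
        intro x hx
        obtain ⟨q, hq, rfl⟩ := (hQmem x).mp hx
        exact hg q (hQ₀R hq)
      have hQcard : Nat.card Q = p := by
        rw [← hQ₀card]; exact (Nat.card_congr eQ.toEquiv).symm
      obtain ⟨hcomm, hinv⟩ := hcond Q hQP hQcard
      have hCtrans : ∀ x, x ∈ Subgroup.centralizer (Q₀ : Set G) →
          g * x * g⁻¹ ∈ Subgroup.centralizer (Q : Set G) := by
        intro x hx
        rw [Subgroup.mem_centralizer_iff]
        intro h hh
        obtain ⟨q, hq, rfl⟩ := (hQmem h).mp hh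
        have h1 := Subgroup.mem_centralizer_iff.mp hx q hq
        calc g * q * g⁻¹ * (g * x * g⁻¹) = g * (q * x) * g⁻¹ := by group
          _ = g * (x * q) * g⁻¹ := by rw [h1]
          _ = g * x * g⁻¹ * (g * q * g⁻¹) := by group
      have hCtrans' : ∀ x, g * x * g⁻¹ ∈ Subgroup.centralizer (Q : Set G) →
          x ∈ Subgroup.centralizer (Q₀ : Set G) := by
        intro x hx
        rw [Subgroup.mem_centralizer_iff]
        intro q hq
        have h1 := Subgroup.mem_centralizer_iff.mp hx (g * q * g⁻¹) ((hQmem _).mpr ⟨q, hq, rfl⟩)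
        calc q * x = g⁻¹ * (g * q * g⁻¹ * (g * x * g⁻¹)) * g := by group
          _ = g⁻¹ * (g * x * g⁻¹ * (g * q * g⁻¹)) * g := by rw [h1]
          _ = x * q := by group
      have hNtrans : ∀ x, x ∈ Subgroup.normalizer (Q₀ : Set G) →
          g * x * g⁻¹ ∈ Subgroup.normalizer (Q : Set G) := by
        intro x hx
        apply mem_normalizer_of_conj_mem_finite
        intro u hu
        obtain ⟨q, hq, rfl⟩ := (hQmem u).mp hu
        refine (hQmem _).mpr ⟨x * q * x⁻¹, (Subgroup.mem_normalizer_iff.mp hx q).mp hq, ?_⟩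
        group
      have T1 : ∀ a ∈ Subgroup.centralizer (Q₀ : Set G),
          ∀ b ∈ Subgroup.centralizer (Q₀ : Set G), a * b = b * a := by
        intro a ha b hb
        have h1 := hcomm.is_comm.comm
          (⟨g * a * g⁻¹, hCtrans a ha⟩ : ↥(Subgroup.centralizer (Q : Set G)))
          ⟨g * b * g⁻¹, hCtrans b hb⟩
        have h2 : g * a * g⁻¹ * (g * b * g⁻¹) = g * b * g⁻¹ * (g * a * g⁻¹) :=
          congrArg Subtype.val h1
        calc a * b = g⁻¹ * (g * a * g⁻¹ * (g * b * g⁻¹)) * g := by group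
          _ = g⁻¹ * (g * b * g⁻¹ * (g * a * g⁻¹)) * g := by rw [h2]
          _ = b * a := by group
      have T2 : ∀ x ∈ Subgroup.normalizer (Q₀ : Set G), x ∉ Subgroup.centralizer (Q₀ : Set G) →
          orderOf x = 2 ∧ ∀ c ∈ Subgroup.centralizer (Q₀ : Set G), x * c * x⁻¹ = c⁻¹ := by
        intro x hx hxC
        obtain ⟨h1, h2⟩ := hinv (g * x * g⁻¹) (hNtrans x hx) (fun h => hxC (hCtrans' x h))
        refine ⟨by rw [← h1, orderOf_conj_eq], fun c hc => ?_⟩
        have h3 := h2 (g * c * g⁻¹) (hCtrans c hc)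
        calc x * c * x⁻¹ = g⁻¹ * (g * x * g⁻¹ * (g * c * g⁻¹) * (g * x * g⁻¹)⁻¹) * g := by group
          _ = g⁻¹ * (g * c * g⁻¹)⁻¹ * g := by rw [h3]
          _ = c⁻¹ := by group
      by_cases hyC : y ∈ Subgroup.centralizer (Q₀ : Set G)
      · left
        exact cyclic_of_central_gen H R y k m hRH hRc hcardR hm hcardH hyH hyo
          (fun r hr => T1 r (hRCQ₀ r hr) y hyC)
      · right
        obtain ⟨hy2, hyinv⟩ := T2 y hyNQ₀ hyC
        have hyy : y * y = 1 := by rw [← pow_two, ← hy2]; exact pow_orderOf_eq_one y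
        have hyR : y ∉ R := by
          intro h
          obtain ⟨j, hj⟩ := (IsPGroup.iff_orderOf.mp hRp) ⟨y, h⟩
          rw [Subgroup.orderOf_mk, hy2] at hj
          exact two_ne_prime_pow hp j hj
        have hgen : Subgroup.closure ({(⟨y, hyH⟩ : ↥H), ⟨r₀, hRH hr₀R⟩} : Set ↥H) = ⊤ := by
          rw [eq_top_iff]
          rintro ⟨h, hh⟩ -
          obtain ⟨i, hi⟩ := hdecomp h hh
          rw [← hr₀] at hi
          obtain ⟨j, hj⟩ := Subgroup.mem_zpowers_iff.mp hi
          have h1 : (⟨h, hh⟩ : ↥H) = (⟨r₀, hRH hr₀R⟩ : ↥H) ^ j * (⟨y, hyH⟩ : ↥H) ^ i := by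
            apply Subtype.ext
            rw [Subgroup.coe_mul, Subgroup.coe_zpow, Subgroup.coe_pow]
            show h = r₀ ^ j * y ^ i
            rw [hj, inv_mul_cancel_right]
          rw [h1]
          exact Subgroup.mul_mem _
            (Subgroup.zpow_mem _ (Subgroup.subset_closure (by simp)) _)
            (Subgroup.pow_mem _ (Subgroup.subset_closure (by simp)) _)
        have hnot : (⟨y, hyH⟩ : ↥H) ∉ Subgroup.zpowers (⟨r₀, hRH hr₀R⟩ : ↥H) := by
          intro hmem
          apply hyR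
          obtain ⟨j, hj⟩ := Subgroup.mem_zpowers_iff.mp hmem
          have h1 := congrArg Subtype.val hj
          rw [Subgroup.coe_zpow] at h1
          have h2 : r₀ ^ j = y := h1
          rw [← h2]
          exact R.zpow_mem hr₀R j
        have hrel' : (⟨y, hyH⟩ : ↥H) * ⟨r₀, hRH hr₀R⟩ * (⟨y, hyH⟩ : ↥H)⁻¹ =
            (⟨r₀, hRH hr₀R⟩ : ↥H)⁻¹ := by
          apply Subtype.ext
          exact hyinv r₀ (hRCQ₀ r₀ hr₀R)
        obtain ⟨e'⟩ := Cfsg.Agent.Lib.Helper21.nonempty_dihedral_mulEquiv (⟨y, hyH⟩ : ↥H)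
          ⟨r₀, hRH hr₀R⟩ (p ^ k) (Subtype.ext hyy) (by rw [Subgroup.orderOf_mk, hr₀o])
          (pow_ne_zero k hpp.ne_zero) hrel' hgen hnot
        exact ⟨k, ⟨e'.symm⟩⟩

/-- Let p be an odd prime and G a finite group with Sylow p-subgroup P. Say that G has restricted p-by-cyclic subgroups when every subgroup H of G whose Sylow p-subgroup is normal in H with cyclic quotient is itself cyclic or dihedral of order 2pⁿ for some n. Then G has restricted p-by-cyclic subgroups if and only if P is cyclic and one of the following holds: (1) N_G(P) = C_G(P); or (2) N_G(P)/C_G(P) has order 2 and, for the subgroup Q of order p of P, the centralizer C_G(Q) is abelian and every element of N_G(Q) outside C_G(Q) is an involution inverting every element of C_G(Q). -/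
theorem result {G : Type*} [Group G] [Finite G] {p : ℕ}
    [Fact p.Prime] (hp : p ≠ 2) (P : Sylow p G) :
    (∀ H : Subgroup G, (∀ S : Sylow p ↥H, (S : Subgroup ↥H).Normal) →
        (∀ (S : Sylow p ↥H) [(S : Subgroup ↥H).Normal], IsCyclic (↥H ⧸ (S : Subgroup ↥H))) →
        IsCyclic H ∨ (∃ n : ℕ, Nonempty (H ≃* DihedralGroup (p ^ n)))) ↔
    (IsCyclic P ∧
      (Subgroup.normalizer ((P : Subgroup G) : Set G) = Subgroup.centralizer ((P : Subgroup G) : Set G) ∨
       ((Subgroup.centralizer ((P : Subgroup G) : Set G)).relIndex (Subgroup.normalizer ((P : Subgroup G) : Set G)) = 2 ∧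
        ∀ Q : Subgroup G, Q ≤ P → Nat.card Q = p →
          IsMulCommutative ↥(Subgroup.centralizer (Q : Set G)) ∧
          ∀ x : G, x ∈ Subgroup.normalizer (Q : Set G) → x ∉ Subgroup.centralizer (Q : Set G) →
            orderOf x = 2 ∧ ∀ c : G, c ∈ Subgroup.centralizer (Q : Set G) → x * c * x⁻¹ = c⁻¹))) := by
  constructor
  · intro hL
    exact forward hp P hL
  · rintro ⟨hPc, hR⟩ H hN hQ
    exact backward hp P hPc hR H hN hQ

end Cfsg.Agent.S4082
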