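import Cfsg.Statements.S4083
import Cfsg.Agent.S0228
import Cfsg.Agent.Lib.Helper10.DihSyl
import Cfsg.Agent.Lib.Helper5.DihSub

set_option autoImplicit false
open Cfsg

namespace Cfsg.Agent.S4083

open Cfsg.Agent.Lib.Helper5 Cfsg.Agent.Lib.Helper10

/-- A subgroup of exponent two is commutative. -/
theorem comm_of_exp_two {G : Type*} [Group G] (K : Subgroup G) (hKexp : ∀ k ∈ K, k ^ 2 = 1) :
    ∀ a ∈ K, ∀ b ∈ K, a * b = b * a := by
  intro a ha b hb
  have h1 := hKexp (a * b) (K.mul_mem ha hb)
  have ha2 := hKexp a ha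
  have hb2 := hKexp b hb
  rw [pow_two] at h1 ha2 hb2
  have hai : a⁻¹ = a := inv_eq_of_mul_eq_one_left ha2
  have hbi : b⁻¹ = b := inv_eq_of_mul_eq_one_left hb2
  have h3 : (a * b)⁻¹ = a * b := inv_eq_of_mul_eq_one_left h1
  rw [← h3, mul_inv_rev, hai, hbi]

/-- Every `2`-subgroup is conjugate into a given Sylow `2`-subgroup. -/
theorem exists_conj_le {G : Type*} [Group G] [Finite G] (P : Sylow 2 G) (Q : Subgroup G)
    (hQ : IsPGroup 2 Q) : ∃ g : G, ∀ q ∈ Q, g * q * g⁻¹ ∈ (P : Subgroup G) := by
  have hF2 : Fact (Nat.Prime 2) := ⟨Nat.prime_two⟩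
  obtain ⟨P', hP'⟩ := hQ.exists_le_sylow
  obtain ⟨g, hg⟩ := MulAction.exists_smul_eq G P' P
  refine ⟨g, fun q hq => ?_⟩
  rw [← hg, Sylow.coe_subgroup_smul, Subgroup.mem_smul_pointwise_iff_exists]
  exact ⟨q, hP' hq, rfl⟩

/-- The conjugate of a subgroup, with its membership and the isomorphism. -/
theorem conj_subgroup {G : Type*} [Group G] (g : G) (Q : Subgroup G) :
    ∃ Q' : Subgroup G, (∀ x, x ∈ Q' ↔ ∃ q ∈ Q, g * q * g⁻¹ = x) ∧ Nonempty (↥Q ≃* ↥Q') :=
  ⟨_, fun x => by rw [Subgroup.mem_map]; rfl, ⟨(MulAut.conj g).subgroupMap Q⟩⟩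

/-- Under the right-hand side, every `2`-subgroup is cyclic or dihedral of order at least `4`. -/
theorem two_subgroups_of_rhs {G : Type*} [Group G] [Finite G] (P : Sylow 2 G)
    (hP : IsCyclic P ∨ ∃ n : ℕ, 1 ≤ n ∧ Nonempty ((P : Subgroup G) ≃* DihedralGroup (2 ^ n)))
    (Q : Subgroup G) (hQ : IsPGroup 2 Q) :
    IsCyclic Q ∨ ∃ j : ℕ, 1 ≤ j ∧ Nonempty (Q ≃* DihedralGroup (2 ^ j)) := by
  have hF2 : Fact (Nat.Prime 2) := ⟨Nat.prime_two⟩
  obtain ⟨g, hg⟩ := exists_conj_le P Q hQ
  obtain ⟨Q', hQ'mem, ⟨eQ⟩⟩ := conj_subgroup g Q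
  have hQ'P : Q' ≤ P := by
    intro x hx
    obtain ⟨q, hq, rfl⟩ := (hQ'mem x).mp hx
    exact hg q hq
  have key : IsCyclic Q' ∨ ∃ j : ℕ, 1 ≤ j ∧ Nonempty (Q' ≃* DihedralGroup (2 ^ j)) := by
    rcases hP with hc | ⟨n, hn, ⟨e⟩⟩
    · left; exact Subgroup.isCyclic_of_le hQ'P
    · rcases sub_dihedral (P : Subgroup G) e Q' hQ'P with hc | ⟨d, hd, ⟨e'⟩⟩
      · left; exact hc
      · have hQ'2 : IsPGroup 2 Q' := P.isPGroup'.to_le hQ'P
        obtain ⟨k, hk⟩ := IsPGroup.iff_card.mp hQ'2
        have hk1 : k ≠ 0 := by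
          rintro rfl
          rw [pow_zero] at hk
          omega
        obtain ⟨k', rfl⟩ : ∃ k', k = k' + 1 := ⟨k - 1, by omega⟩
        have hd' : d = 2 ^ k' := by
          rw [pow_succ] at hk
          omega
        subst hd'
        by_cases hk' : k' = 0
        · left
          subst hk'
          have h2 : Nat.card Q' = 2 := by rw [hk]; norm_num
          exact isCyclic_of_prime_card h2
        · right; exact ⟨k', by omega, ⟨e'⟩⟩
  rcases key with hc | ⟨j, hj, ⟨e'⟩⟩
  · left; exact isCyclic_of_surjective eQ.symm eQ.symm.surjective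
  · right; exact ⟨j, hj, ⟨eQ.trans e'⟩⟩

/-- Under the right-hand side, every four-group is self-centralizing. -/
theorem four_of_rhs {G : Type*} [Group G] [Finite G] (P : Sylow 2 G)
    (hR : IsCyclic P ∨
      ((∃ n : ℕ, 1 ≤ n ∧ Nonempty ((P : Subgroup G) ≃* DihedralGroup (2 ^ n))) ∧
        ∀ K : Subgroup G, K ≤ P → Nat.card K = 4 → (∀ k ∈ K, k ^ 2 = 1) →
          Subgroup.centralizer (K : Set G) = K))
    (K : Subgroup G) (hK4 : Nat.card K = 4) (hKexp : ∀ k ∈ K, k ^ 2 = 1) :
    ∀ x ∈ Subgroup.centralizer (K : Set G), x ∈ K := by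
  have hK2 : IsPGroup 2 K := fun k => ⟨1, by
    apply Subtype.ext
    have h1 := hKexp k k.2
    simpa using h1⟩
  obtain ⟨g, hg⟩ := exists_conj_le P K hK2
  obtain ⟨K', hmem, ⟨eK⟩⟩ := conj_subgroup g K
  have hK'P : K' ≤ P := by
    intro x hx
    obtain ⟨q, hq, rfl⟩ := (hmem x).mp hx
    exact hg q hq
  have hK'4 : Nat.card K' = 4 := by rw [← hK4]; exact (Nat.card_congr eK.toEquiv).symm
  have hK'exp : ∀ k ∈ K', k ^ 2 = 1 := by
    intro k hk
    obtain ⟨k₀, hk₀, rfl⟩ := (hmem k).mp hk
    rw [conj_pow, hKexp k₀ hk₀, mul_one, mul_inv_cancel]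
  rcases hR with hc | ⟨-, hcond⟩
  · exfalso
    exact not_cyclic_four K' hK'4 hK'exp (Subgroup.isCyclic_of_le hK'P)
  · intro x hx
    have hC := hcond K' hK'P hK'4 hK'exp
    have hx' : g * x * g⁻¹ ∈ Subgroup.centralizer (K' : Set G) := by
      rw [Subgroup.mem_centralizer_iff]
      intro h hh
      obtain ⟨k₀, hk₀, rfl⟩ := (hmem h).mp hh
      have h1 := Subgroup.mem_centralizer_iff.mp hx k₀ hk₀
      calc g * k₀ * g⁻¹ * (g * x * g⁻¹) = g * (k₀ * x) * g⁻¹ := by group
        _ = g * (x * k₀) * g⁻¹ := by rw [h1]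
        _ = g * x * g⁻¹ * (g * k₀ * g⁻¹) := by group
    rw [hC] at hx'
    obtain ⟨k₀, hk₀, hk₀x⟩ := (hmem _).mp hx'
    have h2 : k₀ = x := by
      calc k₀ = g⁻¹ * (g * k₀ * g⁻¹) * g := by group
        _ = g⁻¹ * (g * x * g⁻¹) * g := by rw [hk₀x]
        _ = x := by group
    rw [← h2]; exact hk₀

theorem forward {G : Type*} [Group G] [Finite G] (P : Sylow 2 G)
    (hL : ∀ H : Subgroup G, (∀ S : Sylow 2 ↥H, (S : Subgroup ↥H).Normal) →
        (∀ (S : Sylow 2 ↥H) [(S : Subgroup ↥H).Normal], IsCyclic (↥H ⧸ (S : Subgroup ↥H))) →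
        IsCyclic H ∨ (∃ n : ℕ, Nonempty (H ≃* DihedralGroup (2 ^ n))) ∨
          Nonempty (H ≃* alternatingGroup (Fin 4))) :
    IsCyclic P ∨
      ((∃ n : ℕ, 1 ≤ n ∧ Nonempty ((P : Subgroup G) ≃* DihedralGroup (2 ^ n))) ∧
        ∀ K : Subgroup G, K ≤ P → Nat.card K = 4 → (∀ k ∈ K, k ^ 2 = 1) →
          Subgroup.centralizer (K : Set G) = K) := by
  have hF2 : Fact (Nat.Prime 2) := ⟨Nat.prime_two⟩
  have h12 : Nat.card (alternatingGroup (Fin 4)) = 12 := by
    rw [nat_card_alternatingGroup]
    simp [Nat.factorial]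
  have h2grp : ∀ H : Subgroup G, IsPGroup 2 H →
      IsCyclic H ∨ ∃ n : ℕ, Nonempty (H ≃* DihedralGroup (2 ^ n)) := by
    intro H hH
    have htop : ∀ S : Sylow 2 ↥H, (S : Subgroup ↥H) = ⊤ := by
      intro S
      have hT : IsPGroup 2 (⊤ : Subgroup ↥H) := hH.to_subgroup ⊤
      exact (S.is_maximal' hT le_top).symm
    have hnorm : ∀ S : Sylow 2 ↥H, (S : Subgroup ↥H).Normal := by
      intro S
      rw [htop S]
      exact ⟨fun _ _ _ => Subgroup.mem_top _⟩
    have hquot : ∀ (S : Sylow 2 ↥H) [(S : Subgroup ↥H).Normal],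
        IsCyclic (↥H ⧸ (S : Subgroup ↥H)) := by
      intro S _
      have hsub : Subsingleton (↥H ⧸ (S : Subgroup ↥H)) := by
        rw [htop S]; exact QuotientGroup.subsingleton_quotient_top
      infer_instance
    rcases hL H hnorm hquot with h | h | ⟨⟨e⟩⟩
    · exact Or.inl h
    · exact Or.inr h
    · exfalso
      obtain ⟨k, hk⟩ := IsPGroup.iff_card.mp hH
      rw [Nat.card_congr e.toEquiv, h12] at hk
      have h3 : 3 ∣ 2 ^ k := by rw [← hk]; norm_num
      have h4 := Nat.Prime.dvd_of_dvd_pow Nat.prime_three h3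
      norm_num at h4
  rcases h2grp P P.isPGroup' with hc | ⟨n, ⟨e⟩⟩
  · exact Or.inl hc
  · by_cases hn : n = 0
    · left
      subst hn
      have h2 : Nat.card (P : Subgroup G) = 2 := by
        rw [Nat.card_congr e.toEquiv, DihedralGroup.nat_card]; norm_num
      exact isCyclic_of_prime_card h2
    · right
      refine ⟨⟨n, by omega, ⟨e⟩⟩, ?_⟩
      intro K hKP hK4 hKexp
      have hKcomm := comm_of_exp_two K hKexp
      apply le_antisymm
      · intro x hx
        by_contra hxK
        obtain ⟨H, hH⟩ : ∃ H : Subgroup G, H = K ⊔ Subgroup.zpowers x := ⟨_, rfl⟩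
        have hKH : K ≤ H := by rw [hH]; exact le_sup_left
        have hxH : x ∈ H := by
          rw [hH]
          exact (le_sup_right : Subgroup.zpowers x ≤ _) (Subgroup.mem_zpowers x)
        have hxc : ∀ k ∈ K, k * x = x * k := Subgroup.mem_centralizer_iff.mp hx
        have hH1 : ∀ h ∈ H, (∀ k ∈ K, k * h = h * k) ∧ x * h = h * x := by
          intro h hh
          have hle : H ≤ Subgroup.centralizer (K : Set G) ⊓
              Subgroup.centralizer ({x} : Set G) := by
            rw [hH]
            apply sup_le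
            · intro k hk
              refine Subgroup.mem_inf.mpr ⟨?_, ?_⟩
              · rw [Subgroup.mem_centralizer_iff]
                intro k' hk'
                exact hKcomm k' hk' k hk
              · rw [Subgroup.mem_centralizer_iff]
                intro y hy
                rw [Set.mem_singleton_iff] at hy
                rw [hy]
                exact (hxc k hk).symm
            · rw [Subgroup.zpowers_le]
              refine Subgroup.mem_inf.mpr ⟨hx, ?_⟩
              rw [Subgroup.mem_centralizer_iff]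
              intro y hy
              rw [Set.mem_singleton_iff] at hy
              rw [hy]
          have h1 := Subgroup.mem_inf.mp (hle hh)
          exact ⟨Subgroup.mem_centralizer_iff.mp h1.1,
            Subgroup.mem_centralizer_iff.mp h1.2 x rfl⟩
        have hHcomm : ∀ a ∈ H, ∀ b ∈ H, a * b = b * a := by
          intro a ha b hb
          have hle : H ≤ Subgroup.centralizer ({a} : Set G) := by
            rw [hH]
            apply sup_le
            · intro k hk
              rw [Subgroup.mem_centralizer_iff]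
              intro y hy
              rw [Set.mem_singleton_iff] at hy
              rw [hy]
              exact ((hH1 a ha).1 k hk).symm
            · rw [Subgroup.zpowers_le, Subgroup.mem_centralizer_iff]
              intro y hy
              rw [Set.mem_singleton_iff] at hy
              rw [hy]
              exact ((hH1 a ha).2).symm
          exact Subgroup.mem_centralizer_iff.mp (hle hb) a rfl
        have hnormal : ∀ N : Subgroup ↥H, N.Normal := by
          intro N
          constructor
          intro n hn g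
          have h1 : g * n = n * g := Subtype.ext (hHcomm g g.2 n n.2)
          rw [h1, mul_inv_cancel_right]
          exact hn
        have hquot : ∀ (S : Sylow 2 ↥H) [(S : Subgroup ↥H).Normal],
            IsCyclic (↥H ⧸ (S : Subgroup ↥H)) := by
          intro S hSn
          have hK2 : IsPGroup 2 (K.subgroupOf H) := by
            intro k
            refine ⟨1, ?_⟩
            apply Subtype.ext
            apply Subtype.ext
            have h1 := hKexp ((k : ↥H) : G) (Subgroup.mem_subgroupOf.mp k.2)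
            simpa using h1
          obtain ⟨S', hS'⟩ := hK2.exists_le_sylow
          have hu : Unique (Sylow 2 ↥H) := Sylow.unique_of_normal S hSn
          have hSS' : S' = S := Subsingleton.elim _ _
          rw [hSS'] at hS'
          have hsup : K.subgroupOf H ⊔ Subgroup.zpowers (⟨x, hxH⟩ : ↥H) = ⊤ := by
            have h1 : (K ⊔ Subgroup.zpowers x).subgroupOf H = ⊤ := by
              rw [← hH]; exact Subgroup.subgroupOf_self H
            rw [Subgroup.subgroupOf_sup hKH (Subgroup.zpowers_le.mpr hxH)] at h1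
            apply top_le_iff.mp
            rw [← h1]
            apply sup_le_sup_left
            intro h hh
            obtain ⟨i, hi⟩ := Subgroup.mem_zpowers_iff.mp (Subgroup.mem_subgroupOf.mp hh)
            refine Subgroup.mem_zpowers_iff.mpr ⟨i, ?_⟩
            apply Subtype.ext
            rw [Subgroup.coe_zpow]
            exact hi
          rw [isCyclic_iff_exists_zpowers_eq_top]
          refine ⟨QuotientGroup.mk' (S : Subgroup ↥H) ⟨x, hxH⟩, ?_⟩
          have h1 : Subgroup.map (QuotientGroup.mk' (S : Subgroup ↥H))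
              (K.subgroupOf H ⊔ Subgroup.zpowers (⟨x, hxH⟩ : ↥H)) = ⊤ := by
            rw [hsup]
            exact Subgroup.map_top_of_surjective _ (QuotientGroup.mk'_surjective _)
          rw [Subgroup.map_sup, (Subgroup.map_eq_bot_iff _).mpr
            (by rw [QuotientGroup.ker_mk']; exact hS'), bot_sup_eq, MonoidHom.map_zpowers] at h1
          exact h1
        rcases hL H (fun S => hnormal _) hquot with hc | ⟨n', ⟨e'⟩⟩ | ⟨⟨e'⟩⟩
        · exact not_cyclic_four K hK4 hKexp (Subgroup.isCyclic_of_le hKH)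
        · have hcomm' : ∀ a b : DihedralGroup (2 ^ n'), a * b = b * a := by
            intro a b
            have h1 := hHcomm (e'.symm a : G) (e'.symm a).2 (e'.symm b : G) (e'.symm b).2
            have h2 : e'.symm a * e'.symm b = e'.symm b * e'.symm a := Subtype.ext h1
            have h3 := congrArg e' h2
            rwa [map_mul, map_mul, MulEquiv.apply_symm_apply, MulEquiv.apply_symm_apply] at h3
          have hdvd := dihedral_dvd_two_of_comm _ hcomm'
          have hle2 : 2 ^ n' ≤ 2 := Nat.le_of_dvd (by norm_num) hdvd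
          have hcardH : Nat.card H ≤ 4 := by
            rw [Nat.card_congr e'.toEquiv, DihedralGroup.nat_card]; omega
          have hKH' : K = H := Subgroup.eq_of_le_of_card_ge hKH (by rw [hK4]; exact hcardH)
          apply hxK
          rw [hKH']
          exact hxH
        · apply a4_not_comm
          intro a b
          have h1 := hHcomm (e'.symm a : G) (e'.symm a).2 (e'.symm b : G) (e'.symm b).2
          have h2 : e'.symm a * e'.symm b = e'.symm b * e'.symm a := Subtype.ext h1
          have h3 := congrArg e' h2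
          rwa [map_mul, map_mul, MulEquiv.apply_symm_apply, MulEquiv.apply_symm_apply] at h3
      · intro k hk
        rw [Subgroup.mem_centralizer_iff]
        intro h hh
        exact hKcomm h hh k hk

theorem backward {G : Type*} [Group G] [Finite G] (P : Sylow 2 G)
    (hR : IsCyclic P ∨
      ((∃ n : ℕ, 1 ≤ n ∧ Nonempty ((P : Subgroup G) ≃* DihedralGroup (2 ^ n))) ∧
        ∀ K : Subgroup G, K ≤ P → Nat.card K = 4 → (∀ k ∈ K, k ^ 2 = 1) →
          Subgroup.centralizer (K : Set G) = K))
    (H : Subgroup G) (hN : ∀ S : Sylow 2 ↥H, (S : Subgroup ↥H).Normal)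
    (hQ : ∀ (S : Sylow 2 ↥H) [(S : Subgroup ↥H).Normal], IsCyclic (↥H ⧸ (S : Subgroup ↥H))) :
    IsCyclic H ∨ (∃ n : ℕ, Nonempty (H ≃* DihedralGroup (2 ^ n))) ∨
      Nonempty (H ≃* alternatingGroup (Fin 4)) := by
  have hF2 : Fact (Nat.Prime 2) := ⟨Nat.prime_two⟩
  obtain ⟨S⟩ : Nonempty (Sylow 2 ↥H) := inferInstance
  have hSn : (S : Subgroup ↥H).Normal := hN S
  have hcyc : IsCyclic (↥H ⧸ (S : Subgroup ↥H)) := hQ S
  obtain ⟨k, hk⟩ := IsPGroup.iff_card.mp S.isPGroup'
  obtain ⟨m, hm⟩ : ∃ m, m = (S : Subgroup ↥H).index := ⟨_, rfl⟩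
  have hmodd : Nat.Coprime m 2 := by
    rw [hm]
    exact ((Nat.Prime.coprime_iff_not_dvd Nat.prime_two).mpr S.not_dvd_index).symm
  have hcardH : Nat.card H = 2 ^ k * m := by
    rw [← hk, hm]; exact ((S : Subgroup ↥H).card_mul_index).symm
  have hcardq : Nat.card (↥H ⧸ (S : Subgroup ↥H)) = m := by rw [hm]; rfl
  obtain ⟨gq, hgq⟩ := hcyc.exists_generator
  obtain ⟨h₀, rfl⟩ := QuotientGroup.mk_surjective gq
  have ho : orderOf (QuotientGroup.mk h₀ : ↥H ⧸ (S : Subgroup ↥H)) = m := by
    rw [orderOf_eq_card_of_forall_mem_zpowers hgq, hcardq]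
  obtain ⟨y₀, hy₀⟩ : ∃ y₀ : ↥H, y₀ = h₀ ^ (2 ^ k) := ⟨_, rfl⟩
  have hy₀m : y₀ ^ m = 1 := by
    rw [hy₀, ← pow_mul, ← hcardH]; exact pow_card_eq_one'
  have ho2 : orderOf (QuotientGroup.mk y₀ : ↥H ⧸ (S : Subgroup ↥H)) = m := by
    rw [hy₀, QuotientGroup.mk_pow, Nat.Coprime.orderOf_pow, ho]
    rw [ho]; exact Nat.Coprime.pow_right k hmodd
  have hy₀o : orderOf y₀ = m := by
    apply Nat.dvd_antisymm (orderOf_dvd_of_pow_eq_one hy₀m)
    rw [← ho2]
    exact orderOf_map_dvd (QuotientGroup.mk' (S : Subgroup ↥H)) y₀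
  have hgen : ∀ h : ↥H, ∃ i : ℕ, h * (y₀ ^ i)⁻¹ ∈ (S : Subgroup ↥H) := by
    intro h
    have hz : Subgroup.zpowers (QuotientGroup.mk y₀ : ↥H ⧸ (S : Subgroup ↥H)) = ⊤ := by
      apply Subgroup.eq_top_of_card_eq
      rw [Nat.card_zpowers, ho2, hcardq]
    have hmem : (QuotientGroup.mk h : ↥H ⧸ (S : Subgroup ↥H)) ∈
        Subgroup.zpowers (QuotientGroup.mk y₀ : ↥H ⧸ (S : Subgroup ↥H)) := by
      rw [hz]; exact Subgroup.mem_top _
    obtain ⟨i, hi⟩ := (Submonoid.mem_powers_iff _ _).mp (mem_powers_iff_mem_zpowers.mpr hmem)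
    refine ⟨i, ?_⟩
    rw [← QuotientGroup.eq_one_iff, QuotientGroup.mk_mul, QuotientGroup.mk_inv,
      QuotientGroup.mk_pow, hi, mul_inv_cancel]
  have hSsq : ∀ z : ↥H, z ^ 2 = 1 → z ∈ (S : Subgroup ↥H) := by
    intro z hz
    rw [← QuotientGroup.eq_one_iff]
    have h1 : (QuotientGroup.mk z : ↥H ⧸ (S : Subgroup ↥H)) ^ 2 = 1 := by
      rw [← QuotientGroup.mk_pow, hz]; rfl
    have h2 : orderOf (QuotientGroup.mk z : ↥H ⧸ (S : Subgroup ↥H)) ∣ 2 :=
      orderOf_dvd_of_pow_eq_one h1
    have h3 : orderOf (QuotientGroup.mk z : ↥H ⧸ (S : Subgroup ↥H)) ∣ m := by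
      rw [← hcardq]; exact orderOf_dvd_natCard _
    exact orderOf_eq_one_iff.mp (Nat.eq_one_of_dvd_coprimes hmodd h3 h2)
  obtain ⟨Q, hQdef⟩ : ∃ Q : Subgroup G, Q = (S : Subgroup ↥H).map H.subtype := ⟨_, rfl⟩
  have hQH : Q ≤ H := by rw [hQdef]; exact Subgroup.map_subtype_le _
  have hQmem : ∀ h : ↥H, (h : G) ∈ Q ↔ h ∈ (S : Subgroup ↥H) := by
    intro h
    rw [hQdef]
    constructor
    · rintro ⟨s, hs, hsh⟩
      have h1 : s = h := Subtype.ext hsh
      rwa [← h1]
    · intro hh
      exact ⟨h, hh, rfl⟩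
  have hQ2 : IsPGroup 2 Q := by rw [hQdef]; exact S.isPGroup'.map H.subtype
  have hcardQ : Nat.card Q = 2 ^ k := by
    rw [← hk, hQdef]
    exact (Nat.card_congr ((S : Subgroup ↥H).equivMapOfInjective H.subtype
      H.subtype_injective).toEquiv).symm
  obtain ⟨y, hy⟩ : ∃ y : G, y = (y₀ : G) := ⟨_, rfl⟩
  have hyH : y ∈ H := by rw [hy]; exact y₀.2
  have hyo : orderOf y = m := by rw [hy, Subgroup.orderOf_coe, hy₀o]
  have hyodd : (orderOf y).Coprime 2 := by rw [hyo]; exact hmodd
  have hyN : y ∈ Subgroup.normalizer (Q : Set G) := by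
    apply mem_normalizer_of_conj_mem_finite
    intro u hu
    have huH := hQH hu
    have hs : (⟨u, huH⟩ : ↥H) ∈ (S : Subgroup ↥H) := (hQmem ⟨u, huH⟩).mp hu
    have h1 := hSn.conj_mem _ hs y₀
    have h2 := (hQmem _).mpr h1
    rw [hy]
    exact h2
  have hdecomp : ∀ h ∈ H, ∃ i : ℕ, h * (y ^ i)⁻¹ ∈ Q := by
    intro h hh
    obtain ⟨i, hi⟩ := hgen ⟨h, hh⟩
    refine ⟨i, ?_⟩
    have h1 := (hQmem _).mpr hi
    rw [hy]
    exact h1
  have hHQ : y = 1 → H = Q := by
    intro h1
    apply le_antisymm _ hQH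
    intro h hh
    obtain ⟨i, hi⟩ := hdecomp h hh
    rwa [h1, one_pow, inv_one, mul_one] at hi
  have hP' : IsCyclic P ∨
      ∃ n : ℕ, 1 ≤ n ∧ Nonempty ((P : Subgroup G) ≃* DihedralGroup (2 ^ n)) := by
    rcases hR with h | ⟨h, -⟩
    · exact Or.inl h
    · exact Or.inr h
  have hB := four_of_rhs P hR
  rcases two_subgroups_of_rhs P hP' Q hQ2 with hQc | ⟨j, hj, ⟨eQ⟩⟩
  · left
    have hyC : y ∈ Subgroup.centralizer (Q : Set G) :=
      mem_centralizer_of_isCyclic Q hQc hQ2 y hyN hyodd
    obtain ⟨q₀, hq₀⟩ := (Subgroup.isCyclic_iff_exists_zpowers_eq_top Q).mp hQc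
    have hq₀Q : q₀ ∈ Q := hq₀ ▸ Subgroup.mem_zpowers q₀
    have hq₀o : orderOf q₀ = 2 ^ k := by rw [← Nat.card_zpowers, hq₀, hcardQ]
    have hcomm : Commute q₀ y := Subgroup.mem_centralizer_iff.mp hyC q₀ hq₀Q
    have hcop : (orderOf q₀).Coprime (orderOf y) := by
      rw [hq₀o, hyo]; exact Nat.Coprime.pow_left k hmodd.symm
    have hord : orderOf (q₀ * y) = 2 ^ k * m := by
      rw [hcomm.orderOf_mul_eq_mul_orderOf_of_coprime hcop, hq₀o, hyo]
    rw [isCyclic_iff_exists_orderOf_eq_natCard]
    refine ⟨⟨q₀ * y, H.mul_mem (hQH hq₀Q) hyH⟩, ?_⟩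
    rw [Subgroup.orderOf_mk, hord, hcardH]
  · obtain ⟨K, hKQ, hK4, hKexp⟩ := exists_four_of_dihedral Q j hj eQ
    have hKC := hB K hK4 hKexp
    have h1_of_mem : ∀ u : G, u ∈ K → (orderOf u).Coprime 2 → u = 1 := by
      intro u hu hodd
      have h2 : orderOf u ∣ 2 := orderOf_dvd_of_pow_eq_one (hKexp u hu)
      exact orderOf_eq_one_iff.mp (Nat.eq_one_of_dvd_coprimes hodd dvd_rfl h2)
    by_cases hj2 : 2 ≤ j
    · have hyC : y ∈ Subgroup.centralizer (Q : Set G) :=
        centralizes_dihedral Q j hj2 eQ y hyN hyodd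
      have hyK : y ∈ K := hKC y (Subgroup.centralizer_le (SetLike.coe_subset_coe.mpr hKQ) hyC)
      have hy1 : y = 1 := h1_of_mem y hyK hyodd
      right; left
      exact ⟨j, ⟨(MulEquiv.subgroupCongr (hHQ hy1)).trans eQ⟩⟩
    · have hj1 : j = 1 := by omega
      subst hj1
      have hcardQ4 : Nat.card Q = 4 := by
        rw [Nat.card_congr eQ.toEquiv, DihedralGroup.nat_card]; norm_num
      have hKQeq : K = Q := Subgroup.eq_of_le_of_card_ge hKQ (by rw [hK4, hcardQ4])
      rw [hKQeq] at hKC hKexp h1_of_mem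
      have hQcomm := comm_of_exp_two Q hKexp
      have hsq : ∀ q ∈ Q, q * q = 1 := by
        intro q hq
        rw [← pow_two]; exact hKexp q hq
      by_cases hyc : ∀ q ∈ Q, q * y = y * q
      · have hyC : y ∈ Subgroup.centralizer (Q : Set G) := Subgroup.mem_centralizer_iff.mpr hyc
        have hy1 : y = 1 := h1_of_mem y (hKC y hyC) hyodd
        right; left
        exact ⟨1, ⟨(MulEquiv.subgroupCongr (hHQ hy1)).trans eQ⟩⟩
      · right; right
        push Not at hyc
        obtain ⟨a, haQ, hay⟩ := hyc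
        have hconjQ : ∀ q ∈ Q, y * q * y⁻¹ ∈ Q := fun q hq =>
          (Subgroup.mem_normalizer_iff.mp hyN q).mp hq
        have ha1 : a ≠ 1 := by
          rintro rfl
          exact hay (by rw [one_mul, mul_one])
        -- general facts on conjugates
        have hne_of : ∀ q ∈ Q, q * y ≠ y * q → y * q * y⁻¹ ≠ q := by
          intro q _ hqy h
          apply hqy
          calc q * y = (y * q * y⁻¹) * y := by rw [h]
            _ = y * q := by group
        have hne1_of : ∀ q : G, q ≠ 1 → y * q * y⁻¹ ≠ 1 := by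
          intro q hq1 h
          apply hq1
          calc q = y⁻¹ * (y * q * y⁻¹) * y := by group
            _ = 1 := by rw [h]; group
        have hnofix : ∀ q ∈ Q, q ≠ 1 → q * y ≠ y * q := by
          intro b hbQ hb1 hby
          have hab : b ≠ a := by
            rintro rfl
            exact hay hby
          obtain ⟨a₁, ha₁⟩ : ∃ a₁, a₁ = y * a * y⁻¹ := ⟨_, rfl⟩
          have ha₁Q : a₁ ∈ Q := by rw [ha₁]; exact hconjQ a haQ
          have ha₁a : a₁ ≠ a := by rw [ha₁]; exact hne_of a haQ hay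
          have ha₁1 : a₁ ≠ 1 := by rw [ha₁]; exact hne1_of a ha1
          have hb' : y * b * y⁻¹ = b := by rw [← hby, mul_inv_cancel_right]
          have ha₁b : a₁ ≠ b := by
            intro h
            apply hab
            rw [ha₁] at h
            calc b = y⁻¹ * (y * b * y⁻¹) * y := by group
              _ = y⁻¹ * (y * a * y⁻¹) * y := by rw [hb', h]
              _ = a := by group
          obtain ⟨U, hU, hUmem⟩ := exists_four b a hb1 ha1 hab (hsq b hbQ) (hsq a haQ)
            (hQcomm b hbQ a haQ)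
          have hUle : U ≤ Q := by
            intro x hx
            rcases (hUmem x).mp hx with rfl | rfl | rfl | rfl
            · exact Q.one_mem
            · exact hbQ
            · exact haQ
            · exact Q.mul_mem hbQ haQ
          have hUQ : U = Q := Subgroup.eq_of_le_of_card_ge hUle (by rw [hU.card_four, hcardQ4])
          have h4 := (hUmem a₁).mp (by rw [hUQ]; exact ha₁Q)
          rcases h4 with h | h | h | h
          · exact ha₁1 h
          · exact ha₁b h
          · exact ha₁a h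
          · have h5 : y * a₁ * y⁻¹ = a := by
              rw [h]
              calc y * (b * a) * y⁻¹ = (y * b * y⁻¹) * (y * a * y⁻¹) := by group
                _ = b * (b * a) := by rw [hb', ← ha₁, h]
                _ = a := by rw [← mul_assoc, hsq b hbQ, one_mul]
            have h6 : y ^ 2 * a = a * y ^ 2 := by
              rw [pow_two]
              calc y * y * a = y * (y * a * y⁻¹) * y⁻¹ * (y * y) := by group
                _ = (y * a₁ * y⁻¹) * (y * y) := by rw [← ha₁]
                _ = a * (y * y) := by rw [h5]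
            exact hay (commute_of_sq_commute y a hyodd h6).symm
        obtain ⟨a₁, ha₁⟩ : ∃ a₁, a₁ = y * a * y⁻¹ := ⟨_, rfl⟩
        have ha₁Q : a₁ ∈ Q := by rw [ha₁]; exact hconjQ a haQ
        have ha₁a : a₁ ≠ a := by rw [ha₁]; exact hne_of a haQ hay
        have ha₁1 : a₁ ≠ 1 := by rw [ha₁]; exact hne1_of a ha1
        obtain ⟨U, hU, hUmem⟩ := exists_four a a₁ ha1 ha₁1 (Ne.symm ha₁a) (hsq a haQ)
          (hsq a₁ ha₁Q) (hQcomm a haQ a₁ ha₁Q)
        have hUle : U ≤ Q := by
          intro x hx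
          rcases (hUmem x).mp hx with rfl | rfl | rfl | rfl
          · exact Q.one_mem
          · exact haQ
          · exact ha₁Q
          · exact Q.mul_mem haQ ha₁Q
        have hUQ : U = Q := Subgroup.eq_of_le_of_card_ge hUle (by rw [hU.card_four, hcardQ4])
        obtain ⟨a₂, ha₂⟩ : ∃ a₂, a₂ = y * a₁ * y⁻¹ := ⟨_, rfl⟩
        have ha₂Q : a₂ ∈ Q := by rw [ha₂]; exact hconjQ a₁ ha₁Q
        have ha₂1 : a₂ ≠ 1 := by rw [ha₂]; exact hne1_of a₁ ha₁1
        have ha₂a₁ : a₂ ≠ a₁ := by rw [ha₂]; exact hne_of a₁ ha₁Q (hnofix a₁ ha₁Q ha₁1)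
        have ha₂a : a₂ ≠ a := by
          intro h
          have h6 : y ^ 2 * a = a * y ^ 2 := by
            rw [pow_two]
            calc y * y * a = y * (y * a * y⁻¹) * y⁻¹ * (y * y) := by group
              _ = (y * a₁ * y⁻¹) * (y * y) := by rw [← ha₁]
              _ = a * (y * y) := by rw [← ha₂, h]
          exact hay (commute_of_sq_commute y a hyodd h6).symm
        have ha₂eq : a₂ = a * a₁ := by
          rcases (hUmem a₂).mp (by rw [hUQ]; exact ha₂Q) with h | h | h | h
          · exact absurd h ha₂1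
          · exact absurd h ha₂a
          · exact absurd h ha₂a₁
          · exact h
        have F1 : y * a = a₁ * y := by rw [ha₁, inv_mul_cancel_right]
        have F2 : y * a₁ = (a * a₁) * y := by rw [← ha₂eq, ha₂, inv_mul_cancel_right]
        have F3 : y * (a * a₁) = a * y := by
          calc y * (a * a₁) = (y * a) * a₁ := by group
            _ = (a₁ * y) * a₁ := by rw [F1]
            _ = a₁ * (y * a₁) := by group
            _ = a₁ * ((a * a₁) * y) := by rw [F2]
            _ = (a₁ * a) * a₁ * y := by group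
            _ = (a * a₁) * a₁ * y := by rw [hQcomm a₁ ha₁Q a haQ]
            _ = a * (a₁ * a₁) * y := by group
            _ = a * y := by rw [hsq a₁ ha₁Q, mul_one]
        have e3 : y ^ 3 = y * y * y := by rw [pow_succ, pow_two]
        have h3a : y ^ 3 * a = a * y ^ 3 := by
          rw [e3]
          calc y * y * y * a = y * (y * (y * a)) := by group
            _ = y * (y * (a₁ * y)) := by rw [F1]
            _ = y * ((y * a₁) * y) := by group
            _ = y * ((a * a₁) * y * y) := by rw [F2]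
            _ = (y * (a * a₁)) * (y * y) := by group
            _ = (a * y) * (y * y) := by rw [F3]
            _ = a * (y * y * y) := by group
        have h3a₁ : y ^ 3 * a₁ = a₁ * y ^ 3 := by
          rw [e3]
          calc y * y * y * a₁ = y * (y * (y * a₁)) := by group
            _ = y * (y * ((a * a₁) * y)) := by rw [F2]
            _ = y * ((y * (a * a₁)) * y) := by group
            _ = y * ((a * y) * y) := by rw [F3]
            _ = (y * a) * (y * y) := by group
            _ = (a₁ * y) * (y * y) := by rw [F1]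
            _ = a₁ * (y * y * y) := by group
        have hy3C : y ^ 3 ∈ Subgroup.centralizer (Q : Set G) := by
          rw [Subgroup.mem_centralizer_iff]
          intro q hq
          rcases (hUmem q).mp (by rw [hUQ]; exact hq) with h | h | h | h
          · rw [h, one_mul, mul_one]
          · rw [h]; exact h3a.symm
          · rw [h]; exact h3a₁.symm
          · rw [h, mul_assoc, ← h3a₁, ← mul_assoc, ← h3a, mul_assoc]
        have hy31 : y ^ 3 = 1 := by
          apply h1_of_mem (y ^ 3) (hKC _ hy3C)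
          exact Nat.Coprime.coprime_dvd_left (orderOf_pow_dvd 3) hyodd
        have hy1 : y ≠ 1 := by
          rintro h
          apply hay
          rw [h, one_mul, mul_one]
        have hm3 : m = 3 := by
          have h1 : orderOf y ∣ 3 := orderOf_dvd_of_pow_eq_one hy31
          rw [hyo] at h1
          rcases (Nat.dvd_prime Nat.prime_three).mp h1 with h | h
          · exfalso
            apply hy1
            rw [← hyo] at h
            exact orderOf_eq_one_iff.mp h
          · exact h
        have hcard12 : Nat.card H = 12 := by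
          rw [hcardH, ← hcardQ, hcardQ4, hm3]
        apply Cfsg.Agent.S0228.result hcard12
        intro z hzo hzc
        have hz2 : z ^ 2 = 1 := by rw [← hzo]; exact pow_orderOf_eq_one z
        have hzS := hSsq z hz2
        have hzQ : (z : G) ∈ Q := (hQmem z).mpr hzS
        have hz1 : (z : G) ≠ 1 := by
          intro h
          have h0 : z = 1 := Subtype.ext h
          rw [h0, orderOf_one] at hzo
          norm_num at hzo
        have hcomm := Subgroup.mem_center_iff.mp hzc y₀
        have h1 : (z : G) * y = y * (z : G) := by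
          rw [hy]
          have h0 := congrArg Subtype.val hcomm
          simpa using h0.symm
        exact hnofix (z : G) hzQ hz1 h1

/-- Let G be a finite group with Sylow 2-subgroup P. Every subgroup H of G whose Sylow 2-subgroup is normal in H with cyclic quotient is cyclic, dihedral of 2-power order, or isomorphic to the alternating group of degree 4, if and only if either P is cyclic, or P is dihedral (of order at least 4) and every elementary abelian subgroup K of order 4 of P satisfies C_G(K) = K. -/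
theorem result {G : Type*} [Group G] [Finite G] (P : Sylow 2 G) :
    (∀ H : Subgroup G, (∀ S : Sylow 2 ↥H, (S : Subgroup ↥H).Normal) →
        (∀ (S : Sylow 2 ↥H) [(S : Subgroup ↥H).Normal], IsCyclic (↥H ⧸ (S : Subgroup ↥H))) →
        IsCyclic H ∨ (∃ n : ℕ, Nonempty (H ≃* DihedralGroup (2 ^ n))) ∨ Nonempty (H ≃* alternatingGroup (Fin 4))) ↔
    (IsCyclic P ∨
      ((∃ n : ℕ, 1 ≤ n ∧ Nonempty ((P : Subgroup G) ≃* DihedralGroup (2 ^ n))) ∧
        ∀ K : Subgroup G, K ≤ P → Nat.card K = 4 → (∀ k ∈ K, k ^ 2 = 1) → Subgroup.centralizer (K : Set G) = K)) := by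
  constructor
  · intro hL
    exact forward P hL
  · intro hR H hN hQ
    exact backward P hR H hN hQ

end Cfsg.Agent.S4083
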