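import Cfsg.Statements.S4084
import Mathlib

set_option autoImplicit false
open Cfsg

namespace Cfsg.Agent.S4084

theorem key {G H : Type*} [Group G] [Finite G] [Group H] [Finite H] (e : G ≃ H)
    (he : ∀ x y : G, Commute x y ↔ Commute (e x) (e y))
    {p q : ℕ} (hp : p.Prime) (hq : q.Prime) (hpq : p ≠ q) :
    (∃ g : G, orderOf g = p * q) → (∃ h : H, orderOf h = p * q) := by
  rintro ⟨g, hg⟩
  have hfp : Fact p.Prime := ⟨hp⟩
  have hfq : Fact q.Prime := ⟨hq⟩
  obtain ⟨A, hA⟩ : ∃ A : Subgroup G,
      A = Subgroup.centralizer (Subgroup.centralizer ({g} : Set G) : Set G) := ⟨_, rfl⟩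
  obtain ⟨B, hB⟩ : ∃ B : Subgroup H,
      B = Subgroup.centralizer (Subgroup.centralizer ({e g} : Set H) : Set H) := ⟨_, rfl⟩
  have memA : ∀ x : G, x ∈ A ↔ ∀ c : G, Commute g c → Commute c x := by
    intro x
    rw [hA, Subgroup.mem_centralizer_iff]
    constructor
    · intro h c hc
      refine h c ?_
      rw [SetLike.mem_coe, Subgroup.mem_centralizer_iff]
      intro y hy
      rw [Set.mem_singleton_iff.mp hy]
      exact hc
    · intro h c hc
      rw [SetLike.mem_coe, Subgroup.mem_centralizer_iff] at hc
      exact h c (hc g rfl)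
  have memB : ∀ x : H, x ∈ B ↔ ∀ c : H, Commute (e g) c → Commute c x := by
    intro x
    rw [hB, Subgroup.mem_centralizer_iff]
    constructor
    · intro h c hc
      refine h c ?_
      rw [SetLike.mem_coe, Subgroup.mem_centralizer_iff]
      intro y hy
      rw [Set.mem_singleton_iff.mp hy]
      exact hc
    · intro h c hc
      rw [SetLike.mem_coe, Subgroup.mem_centralizer_iff] at hc
      exact h c (hc (e g) rfl)
  have hAB : ∀ x : G, x ∈ A ↔ e x ∈ B := by
    intro x
    rw [memA, memB]
    constructor
    · intro h d hd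
      obtain ⟨c, rfl⟩ := e.surjective d
      exact (he c x).mp (h c ((he g c).mpr hd))
    · intro h c hc
      exact (he c x).mpr (h (e c) ((he g c).mp hc))
  have hcard : Nat.card A = Nat.card B := Nat.card_congr (e.subtypeEquiv hAB)
  have hgA : g ∈ A := (memA g).mpr fun c hc => hc.symm
  have hdvd : p * q ∣ Nat.card B := by
    rw [← hcard, ← hg]
    have := orderOf_dvd_natCard (⟨g, hgA⟩ : A)
    rwa [Subgroup.orderOf_mk] at this
  obtain ⟨u, hu⟩ := exists_prime_orderOf_dvd_card' (G := B) p (dvd_of_mul_right_dvd hdvd)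
  obtain ⟨v, hv⟩ := exists_prime_orderOf_dvd_card' (G := B) q (dvd_of_mul_left_dvd hdvd)
  have hcomm : Commute (u : H) (v : H) := by
    have hv' : Commute (e g) (v : H) := (memB v).mp v.2 (e g) (Commute.refl _)
    exact ((memB u).mp u.2 v hv').symm
  refine ⟨(u : H) * v, ?_⟩
  have hu' : orderOf (u : H) = p := by rw [Subgroup.orderOf_coe, hu]
  have hv' : orderOf (v : H) = q := by rw [Subgroup.orderOf_coe, hv]
  rw [hcomm.orderOf_mul_eq_mul_orderOf_of_coprime (by
    rw [hu', hv']; exact (Nat.coprime_primes hp hq).mpr hpq), hu', hv']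

/-- Let G and H be finite groups whose commuting graphs are isomorphic: there is a bijection e : G → H with x, y commuting exactly when e(x), e(y) commute. Then G and H have the same prime graph: for distinct primes p, q, G has an element of order pq if and only if H does (and #G = #H, so the prime divisors agree). -/
theorem result {G H : Type*} [Group G] [Finite G] [Group H] [Finite H] (e : G ≃ H)
    (he : ∀ x y : G, Commute x y ↔ Commute (e x) (e y))
    {p q : ℕ} (hp : p.Prime) (hq : q.Prime) (hpq : p ≠ q) :
    (∃ g : G, orderOf g = p * q) ↔ (∃ h : H, orderOf h = p * q) := by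
  refine ⟨key e he hp hq hpq, key e.symm (fun x y => ?_) hp hq hpq⟩
  have := he (e.symm x) (e.symm y)
  simpa using this.symm

end Cfsg.Agent.S4084
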