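import Cfsg.Statements.S4086
import Mathlib

set_option autoImplicit false
open Cfsg

namespace Cfsg.Agent.S4086

theorem mem_zpowers_of_orderOf_dvd {α : Type*} [Group α] [Finite α] [IsCyclic α] (x y : α)
    (h : orderOf x ∣ orderOf y) : x ∈ Subgroup.zpowers y := by
  classical
  have := Fintype.ofFinite α
  have hn : 0 < orderOf y := orderOf_pos y
  have h1 := IsCyclic.card_pow_eq_one_le (α := α) hn
  have hsub : (Subgroup.zpowers y : Set α).toFinset ⊆
      Finset.univ.filter (fun a : α => a ^ orderOf y = 1) := by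
    intro a ha
    rw [Set.mem_toFinset] at ha
    obtain ⟨k, rfl⟩ := Subgroup.mem_zpowers_iff.mp ha
    simp only [Finset.mem_filter, Finset.mem_univ, true_and]
    rw [← zpow_natCast, ← zpow_mul, mul_comm, zpow_mul, zpow_natCast, pow_orderOf_eq_one, one_zpow]
  have hcard : ((Subgroup.zpowers y : Set α).toFinset).card = orderOf y := by
    rw [Set.toFinset_card]
    exact Fintype.card_zpowers
  have heq := Finset.eq_of_subset_of_card_le hsub (by rw [hcard]; exact h1)
  have hx : x ∈ Finset.univ.filter (fun a : α => a ^ orderOf y = 1) := by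
    simp only [Finset.mem_filter, Finset.mem_univ, true_and]
    exact orderOf_dvd_iff_pow_eq_one.mp h
  rw [← heq, Set.mem_toFinset] at hx
  exact hx

/-- For a finite group G the following are equivalent: every non-identity element has prime-power order; whenever two elements generate a cyclic subgroup, one of them is a power of the other (the enhanced power graph of G coincides with its power graph). -/
theorem result {G : Type*} [Group G] [Finite G] :
    (∀ g : G, g ≠ 1 → IsPrimePow (orderOf g)) ↔
    (∀ x y : G, IsCyclic ↥(Subgroup.closure ({x, y} : Set G)) → (x ∈ Subgroup.zpowers y ∨ y ∈ Subgroup.zpowers x)) := by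
  constructor
  · intro hpp x y hcyc
    obtain ⟨C, hC⟩ : ∃ C : Subgroup G, C = Subgroup.closure ({x, y} : Set G) := ⟨_, rfl⟩
    rw [← hC] at hcyc
    have hxC : x ∈ C := hC ▸ Subgroup.subset_closure (by simp)
    have hyC : y ∈ C := hC ▸ Subgroup.subset_closure (by simp)
    obtain ⟨c, hc⟩ := IsCyclic.exists_generator (α := C)
    have hcard : orderOf c = Nat.card C := orderOf_eq_card_of_forall_mem_zpowers hc
    have coe_back : ∀ a b : C, a ∈ Subgroup.zpowers b → (a : G) ∈ Subgroup.zpowers (b : G) := by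
      intro a b hab
      obtain ⟨k, hk⟩ := Subgroup.mem_zpowers_iff.mp hab
      refine Subgroup.mem_zpowers_iff.mpr ⟨k, ?_⟩
      rw [← hk]; simp
    by_cases hc1 : (c : G) = 1
    · have hc1' : c = 1 := Subtype.ext hc1
      have hx1 : (⟨x, hxC⟩ : C) = 1 := by
        obtain ⟨k, hk⟩ := Subgroup.mem_zpowers_iff.mp (hc ⟨x, hxC⟩)
        rw [← hk, hc1', one_zpow]
      left
      have : x = 1 := congrArg Subtype.val hx1
      rw [this]; exact Subgroup.one_mem _
    · obtain ⟨r, k, hr, hk, hrk⟩ := (isPrimePow_nat_iff _).mp (hpp (c : G) hc1)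
      have hN : Nat.card C = r ^ k := by rw [← hcard, ← Subgroup.orderOf_coe, hrk]
      obtain ⟨a, -, ha⟩ := (Nat.dvd_prime_pow hr).mp (hN ▸ orderOf_dvd_natCard (⟨x, hxC⟩ : C))
      obtain ⟨b, -, hb⟩ := (Nat.dvd_prime_pow hr).mp (hN ▸ orderOf_dvd_natCard (⟨y, hyC⟩ : C))
      rcases le_total a b with hab | hab
      · left
        exact coe_back ⟨x, hxC⟩ ⟨y, hyC⟩ (mem_zpowers_of_orderOf_dvd _ _ (by
          rw [ha, hb]; exact pow_dvd_pow r hab))
      · right
        exact coe_back ⟨y, hyC⟩ ⟨x, hxC⟩ (mem_zpowers_of_orderOf_dvd _ _ (by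
          rw [ha, hb]; exact pow_dvd_pow r hab))
  · intro h g hg
    by_contra hnp
    have hn0 : orderOf g ≠ 0 := (orderOf_pos g).ne'
    have hn1 : orderOf g ≠ 1 := fun h1 => hg (orderOf_eq_one_iff.mp h1)
    obtain ⟨r, hr, hrn⟩ := Nat.exists_prime_and_dvd hn1
    obtain ⟨a, ha⟩ : ∃ a, a = ordProj[r] (orderOf g) := ⟨_, rfl⟩
    obtain ⟨b, hb⟩ : ∃ b, b = ordCompl[r] (orderOf g) := ⟨_, rfl⟩
    have hab : a * b = orderOf g := by rw [ha, hb]; exact Nat.ordProj_mul_ordCompl_eq_self _ _
    have hcop : Nat.Coprime a b := by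
      rw [ha, hb]; exact Nat.Coprime.pow_left _ (Nat.coprime_ordCompl hr hn0)
    have ha0 : a ≠ 0 := fun h0 => hn0 (by rw [← hab, h0, zero_mul])
    have hb0 : b ≠ 0 := fun h0 => hn0 (by rw [← hab, h0, mul_zero])
    have hkpos : 0 < (orderOf g).factorization r :=
      hr.factorization_pos_of_dvd hn0 hrn
    have ha1 : a ≠ 1 := by
      rw [ha]
      intro h1
      have := Nat.pow_eq_one.mp h1
      rcases this with h2 | h2
      · exact hr.one_lt.ne' h2
      · omega
    have hb1 : b ≠ 1 := by
      intro h1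
      apply hnp
      rw [isPrimePow_nat_iff]
      refine ⟨r, (orderOf g).factorization r, hr, hkpos, ?_⟩
      calc r ^ (orderOf g).factorization r = a := ha.symm
        _ = orderOf g := by rw [← hab, h1, mul_one]
    have hxo : orderOf (g ^ a) = b := by
      rw [orderOf_pow_of_dvd ha0 (Dvd.intro _ hab), ← hab, Nat.mul_div_cancel_left _ (by omega)]
    have hyo : orderOf (g ^ b) = a := by
      rw [orderOf_pow_of_dvd hb0 (Dvd.intro_left _ hab), ← hab, Nat.mul_div_cancel _ (by omega)]
    have hle : Subgroup.closure ({g ^ a, g ^ b} : Set G) ≤ Subgroup.zpowers g := by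
      rw [Subgroup.closure_le]
      intro z hz
      rcases hz with rfl | rfl
      · exact Subgroup.npow_mem_zpowers g a
      · exact Subgroup.npow_mem_zpowers g b
    have hcyc : IsCyclic ↥(Subgroup.closure ({g ^ a, g ^ b} : Set G)) :=
      Subgroup.isCyclic_of_le hle
    rcases h (g ^ a) (g ^ b) hcyc with h1 | h1
    · have := orderOf_dvd_of_mem_zpowers h1
      rw [hxo, hyo] at this
      exact hb1 (Nat.Coprime.eq_one_of_dvd hcop.symm this)
    · have := orderOf_dvd_of_mem_zpowers h1
      rw [hxo, hyo] at this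
      exact ha1 (Nat.Coprime.eq_one_of_dvd hcop this)

end Cfsg.Agent.S4086
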