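import Cfsg.Statements.S4089
import Mathlib
import Cfsg.Agent.Lib.Helper11.Subnormalizer

set_option autoImplicit false
open Cfsg

namespace Cfsg.Agent.S4089

/-- Let G be a finite group, p a prime and H a p-subgroup of G. Then the set of elements g of G such that H is subnormal in the subgroup generated by H and g is the union of the normalizers N_G(R) over the subgroups R of G containing H with R = O_p(N_G(R)); and this set does not change when H is replaced by the intersection of all Sylow p-subgroups of G containing H. -/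
theorem result {G : Type*} [Group G] [Finite G] (p : ℕ) [Fact p.Prime]
    (H : Subgroup G) (hH : IsPGroup p H) :
    {g : G | ((H).subgroupOf (H ⊔ Subgroup.zpowers g)).IsSubnormal} =
      {g : G | ∃ R : Subgroup G, H ≤ R ∧ (Cfsg.pCore p (Subgroup.normalizer (R : Set G))).map (Subgroup.normalizer (R : Set G)).subtype = R ∧ g ∈ Subgroup.normalizer (R : Set G)} ∧
    ∀ g : G, (((H).subgroupOf (H ⊔ Subgroup.zpowers g)).IsSubnormal ↔
      (((sInf {K : Subgroup G | ∃ Q : Sylow p G, H ≤ (Q : Subgroup G) ∧ K = (Q : Subgroup G)})).subgroupOf ((sInf {K : Subgroup G | ∃ Q : Sylow p G, H ≤ (Q : Subgroup G) ∧ K = (Q : Subgroup G)}) ⊔ Subgroup.zpowers g)).IsSubnormal) := by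
  classical
  have key : ∀ (H : Subgroup G) (hH : IsPGroup p H) (g : G),
      (H.subgroupOf (H ⊔ Subgroup.zpowers g)).IsSubnormal ↔
        ∃ R : Subgroup G, H ≤ R ∧
          Cfsg.pCoreOf p (Subgroup.normalizer (R : Set G)) = R ∧
          g ∈ Subgroup.normalizer (R : Set G) := by
    intro H hH g
    rw [Cfsg.Agent.Lib.Helper11.subn_iff p H hH g]
    constructor
    · rintro ⟨R₀, h1, h2, h3⟩
      obtain ⟨R, hR1, hR2, hR3⟩ := Cfsg.Agent.Lib.Helper11.exists_radical p R₀ h2 g h3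
      exact ⟨R, h1.trans hR1, hR2, hR3⟩
    · rintro ⟨R, h1, h2, h3⟩
      exact ⟨R, h1, h2 ▸ Cfsg.Agent.Lib.Helper18.pCoreOf_isPGroup p _, h3⟩
  refine ⟨?_, ?_⟩
  · ext g
    exact key H hH g
  · intro g
    have hHle : H ≤ sInf {K : Subgroup G | ∃ Q : Sylow p G, H ≤ (Q : Subgroup G) ∧
        K = (Q : Subgroup G)} := le_sInf (by rintro K ⟨Q, hQ, rfl⟩; exact hQ)
    obtain ⟨Q₀, hQ₀⟩ := hH.exists_le_sylow
    have hHbp : IsPGroup p ↥(sInf {K : Subgroup G | ∃ Q : Sylow p G, H ≤ (Q : Subgroup G) ∧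
        K = (Q : Subgroup G)}) := Q₀.2.to_le (sInf_le ⟨Q₀, hQ₀, rfl⟩)
    rw [key H hH g, key _ hHbp g]
    constructor
    · rintro ⟨R, h1, h2, h3⟩
      refine ⟨R, ?_, h2, h3⟩
      refine le_trans ?_ (Cfsg.Agent.Lib.Helper11.sInf_sylow_le_of_radical p R h2)
      apply sInf_le_sInf
      rintro K ⟨Q, hQ, rfl⟩
      exact ⟨Q, h1.trans hQ, rfl⟩
    · rintro ⟨R, h1, h2, h3⟩
      exact ⟨R, hHle.trans h1, h2, h3⟩

end Cfsg.Agent.S4089
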