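import Cfsg.Statements.S4090
import Cfsg.Agent.Lib.Helper21.SubnCount4

set_option autoImplicit false
open scoped BigOperators
open Cfsg

namespace Cfsg.Agent.S4090


theorem arith1 {a a' m e f C m' : ℕ} (h1 : a * m' = a' * C) (h2 : m * e = m') (h4 : m * f = C)
    (hpos : 0 < m) : a * e = a' * f := by
  subst h2 h4
  apply Nat.eq_of_mul_eq_mul_left hpos
  calc m * (a * e) = a * (m * e) := by ring
    _ = a' * (m * f) := h1
    _ = m * (a' * f) := by ring

theorem arith2 {X A T Gc Pc : ℕ} (h1 : X * A = Gc * T) (h2 : Gc = Pc * A) (hA : 0 < A) :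
    X = Pc * T := by
  subst h2
  apply Nat.eq_of_mul_eq_mul_right hA
  calc X * A = Pc * A * T := h1
    _ = Pc * T * A := by ring

open Cfsg.Agent.Lib.Helper21 in

/-- Let G be a finite p-solvable group, H a p-subgroup of G and P a Sylow p-subgroup, and fix a chain of normal subgroups 1 = M₀ ≤ M₁ ≤ ⋯ ≤ Mₙ = G of G each of whose factors is a p-group or a p'-group. Then the number of elements g of G such that H is subnormal in the subgroup generated by H and g equals the order of P times the product, over the factors Mᵢ₊₁/Mᵢ of order prime to p, of the order of the centralizer of H in Mᵢ₊₁/Mᵢ (counted as the number of u ∈ Mᵢ₊₁ with [h, u] ∈ Mᵢ for all h ∈ H, divided by the order of Mᵢ). -/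
theorem result {G : Type*} [Group G] [Finite G] (p : ℕ) [Fact p.Prime]
    (hG : Cfsg.IsPSolvable p G) (H : Subgroup G) (hH : IsPGroup p H) (P : Sylow p G)
    (n : ℕ) (M : Fin (n + 1) → Subgroup G) (h0 : M 0 = ⊥) (hn : M (Fin.last n) = ⊤) (hmono : Monotone M)
    (hnormal : ∀ i, (M i).Normal)
    (hfac : ∀ i : Fin n, (∃ m : ℕ, (M i.castSucc).relIndex (M i.succ) = p ^ m) ∨ ((M i.castSucc).relIndex (M i.succ)).Coprime p) :
    Nat.card {g : G // ((H).subgroupOf (H ⊔ Subgroup.zpowers g)).IsSubnormal} =
      Nat.card (P : Subgroup G) *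
        ∏ i : Fin n, (if ((M i.castSucc).relIndex (M i.succ)).Coprime p then
          Nat.card {u : G // u ∈ M i.succ ∧ ∀ h ∈ H, h * u * h⁻¹ * u⁻¹ ∈ M i.castSucc} / Nat.card (M i.castSucc)
          else 1) := by
  have hle : ∀ j : Fin n, M j.castSucc ≤ M j.succ :=
    fun j => hmono (Fin.castSucc_lt_succ (i := j)).le
  have hstep : ∀ j : Fin n,
      Nat.card (relS p H (M j.castSucc)) *
        (if ((M j.castSucc).relIndex (M j.succ)).Coprime p then
          (M j.castSucc).relIndex (M j.succ) else 1) =
      Nat.card (relS p H (M j.succ)) *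
        (if ((M j.castSucc).relIndex (M j.succ)).Coprime p then
          Nat.card {u : G // u ∈ M j.succ ∧ ∀ h ∈ H, h * u * h⁻¹ * u⁻¹ ∈ M j.castSucc} /
            Nat.card (M j.castSucc) else 1) := by
    intro j
    haveI := hnormal j.castSucc
    haveI := hnormal j.succ
    by_cases hc : ((M j.castSucc).relIndex (M j.succ)).Coprime p
    · rw [if_pos hc, if_pos hc]
      have h1 := relS_coprime_step (hle j) hc hH
      have h2 := card_mul_relIndex (hle j)
      have h3 := card_dvd_commC (H := H) (hle j)
      have h4 := Nat.mul_div_cancel' h3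
      have hpos : 0 < Nat.card (M j.castSucc) := Nat.card_pos
      exact arith1 h1 h2 h4 hpos
    · rw [if_neg hc, if_neg hc, mul_one, mul_one,
        relS_pstep (hle j) ((hfac j).resolve_right hc)]
  have htel := fin_telescope n (fun i => Nat.card (relS p H (M i))) _ _ hstep
  have hidx : ∏ j : Fin n, (M j.castSucc).relIndex (M j.succ) = Nat.card G := by
    have := fin_telescope n (fun i => Nat.card (M i))
      (fun j => (M j.castSucc).relIndex (M j.succ)) (fun _ => 1)
      (fun j => by simpa using card_mul_relIndex (hle j))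
    simpa [h0, hn] using this
  have hG' := sylow_card_of_prod p P n _ hidx hfac
  have htel' : Nat.card (relS p H (M 0)) *
      ∏ j : Fin n, (if ((M j.castSucc).relIndex (M j.succ)).Coprime p then
          (M j.castSucc).relIndex (M j.succ) else 1) =
      Nat.card (relS p H (M (Fin.last n))) *
      ∏ j : Fin n, (if ((M j.castSucc).relIndex (M j.succ)).Coprime p then
          Nat.card {u : G // u ∈ M j.succ ∧ ∀ h ∈ H, h * u * h⁻¹ * u⁻¹ ∈ M j.castSucc} /
            Nat.card (M j.castSucc) else 1) := htel
  rw [h0, hn, relS_bot p H hH, relS_top] at htel'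
  have huniv : Nat.card (Set.univ : Set G) = Nat.card G := Nat.card_congr (Equiv.Set.univ G)
  rw [huniv] at htel'
  have hApos : 0 < ∏ j : Fin n, (if ((M j.castSucc).relIndex (M j.succ)).Coprime p then
          (M j.castSucc).relIndex (M j.succ) else 1) := by
    rcases Nat.eq_zero_or_pos (∏ j : Fin n, (if ((M j.castSucc).relIndex (M j.succ)).Coprime p then
          (M j.castSucc).relIndex (M j.succ) else 1)) with h | h
    · rw [h, mul_zero] at hG'
      exact absurd hG' (Nat.card_pos (α := G)).ne'
    · exact h
  exact arith2 htel' hG' hApos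

end Cfsg.Agent.S4090
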