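import Cfsg.Statements.S4091
import Cfsg.Agent.S4090
import Cfsg.Agent.Lib.Helper21.SubnMob4
import Cfsg.Agent.Lib.Helper21.FixProd8

set_option autoImplicit false
open Cfsg

namespace Cfsg.Agent.S4091

open Cfsg.Agent.Lib.Helper21 in

/-- Let G be a finite p-solvable group, P a Sylow p-subgroup of G, u the number of p-elements of G (elements of p-power order, the identity included) and n the number of Sylow p-subgroups of G. Then u/#P ≥ n^((p−1)/p), stated as u^p ≥ #P^p · n^(p−1). -/
theorem result {G : Type*} [Group G] [Finite G] (p : ℕ) [Fact p.Prime]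
    (hG : Cfsg.IsPSolvable p G) (P : Sylow p G) :
    Nat.card (P : Subgroup G) ^ p * Nat.card (Sylow p G) ^ (p - 1) ≤ Nat.card {g : G // ∃ k : ℕ, orderOf g = p ^ k} ^ p := by
  classical
  have hp : p.Prime := Fact.out
  have hG0 := hG
  obtain ⟨n, M, h0, hn, hmono, hnormal, hfac⟩ := hG
  haveI : Fintype ↥(P : Subgroup G) := Fintype.ofFinite _
  have hle : ∀ j : Fin n, M j.castSucc ≤ M j.succ :=
    fun j => hmono (Fin.castSucc_lt_succ (i := j)).le
  obtain ⟨T, hT⟩ : ∃ T : Subgroup G → ℕ, ∀ B, T B = ∏ i : Fin n,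
      (if ((M i.castSucc).relIndex (M i.succ)).Coprime p then
        Nat.card {u : G // u ∈ M i.succ ∧ ∀ h ∈ B, h * u * h⁻¹ * u⁻¹ ∈ M i.castSucc} /
          Nat.card (M i.castSucc) else 1) := ⟨_, fun _ => rfl⟩
  obtain ⟨lam, hlam⟩ : ∃ lam : G → ℕ,
      ∀ g, lam g = Nat.card {Q : Sylow p G // g ∈ (Q : Subgroup G)} := ⟨_, fun _ => rfl⟩
  obtain ⟨c, hc⟩ : ∃ c, c = Nat.card (P : Subgroup G) := ⟨_, rfl⟩
  obtain ⟨NP, hNP⟩ : ∃ NP, NP = Nat.card (Subgroup.normalizer ((P : Subgroup G) : Set G)) :=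
    ⟨_, rfl⟩
  obtain ⟨nS, hnS⟩ : ∃ nS, nS = Nat.card (Sylow p G) := ⟨_, rfl⟩
  obtain ⟨S, hS⟩ : ∃ S, S = ∏ j : Fin n,
      (if ((M j.castSucc).relIndex (M j.succ)).Coprime p then
        (M j.castSucc).relIndex (M j.succ) else 1) := ⟨_, rfl⟩
  have hcpos : 0 < c := by rw [hc]; exact Nat.card_pos
  have hNPpos : 0 < NP := by rw [hNP]; exact Nat.card_pos
  have hnSpos : 0 < nS := by rw [hnS]; exact Nat.card_pos
  have hstar : ∀ B : Subgroup G, IsPGroup p B →
      Nat.card {Q : Sylow p G // B ≤ Q} * NP = c * T B := by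
    intro B hB
    rw [hNP, hc, hT, ← casolo_main p B hB P]
    exact Cfsg.Agent.S4090.result p hG0 B hB P n M h0 hn hmono hnormal hfac
  have hTP : NP = c * T (P : Subgroup G) := by
    have h1 := hstar (P : Subgroup G) P.isPGroup'
    have e : ∀ Q : Sylow p G, (P : Subgroup G) ≤ Q → Q = P :=
      fun Q h => Sylow.ext (P.is_maximal' Q.isPGroup' h)
    have h2 : Nat.card {Q : Sylow p G // (P : Subgroup G) ≤ Q} = 1 := by
      rw [Nat.card_eq_one_iff_unique]
      refine ⟨⟨?_⟩, ⟨⟨P, le_rfl⟩⟩⟩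
      rintro ⟨Q1, h1⟩ ⟨Q2, h2⟩
      apply Subtype.ext
      show Q1 = Q2
      rw [e Q1 h1, e Q2 h2]
    rw [h2, one_mul] at h1; exact h1
  have hidx : ∏ j : Fin n, (M j.castSucc).relIndex (M j.succ) = Nat.card G := by
    have := fin_telescope n (fun i => Nat.card (M i))
      (fun j => (M j.castSucc).relIndex (M j.succ)) (fun _ => 1)
      (fun j => by simpa using card_mul_relIndex (hle j))
    simpa [h0, hn] using this
  have hGc := sylow_card_of_prod p P n _ hidx hfac
  have hnN : nS * NP = c * S := by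
    rw [hnS, hNP, hc, hS, ← hGc, Sylow.card_eq_index_normalizer P]
    exact Subgroup.index_mul_card _
  have hTPpos : 0 < T (P : Subgroup G) := by
    rcases Nat.eq_zero_or_pos (T (P : Subgroup G)) with h | h
    · rw [h, mul_zero] at hTP; omega
    · exact h
  have hS' : nS * T (P : Subgroup G) = S := by
    have h1 : nS * (c * T (P : Subgroup G)) = c * S := by rw [← hTP]; exact hnN
    exact Nat.eq_of_mul_eq_mul_left hcpos (by rw [← h1]; ring)
  have hlamT : ∀ x : ↥(P : Subgroup G),
      lam (x : G) * T (P : Subgroup G) = T (Subgroup.zpowers (x : G)) := by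
    intro x
    have hB : IsPGroup p (Subgroup.zpowers (x : G)) :=
      P.isPGroup'.to_le (Subgroup.zpowers_le.mpr x.2)
    have h1 := hstar _ hB
    have h2 : Nat.card {Q : Sylow p G // Subgroup.zpowers (x : G) ≤ Q} = lam (x : G) := by
      rw [hlam]; exact Nat.card_congr (Equiv.subtypeEquivRight (fun Q => Subgroup.zpowers_le))
    rw [h2, hTP] at h1
    exact Nat.eq_of_mul_eq_mul_left hcpos (by rw [← h1]; ring)
  have hdiamond : (∏ x : ↥(P : Subgroup G), T (Subgroup.zpowers (x : G))) ^ p ≤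
      S ^ c * T (P : Subgroup G) ^ (c * (p - 1)) := by
    simp only [hT]
    rw [Finset.prod_comm, ← Finset.prod_pow, hS, ← Finset.prod_pow, ← Finset.prod_pow,
      ← Finset.prod_mul_distrib]
    apply Finset.prod_le_prod (fun i _ => Nat.zero_le _)
    intro i _
    haveI := hnormal i.castSucc
    haveI := hnormal i.succ
    by_cases hcop : ((M i.castSucc).relIndex (M i.succ)).Coprime p
    · simp only [if_pos hcop]
      rw [hc]
      exact section_ineq p P (M i.castSucc) (M i.succ) (hle i) hcop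
    · simp only [if_neg hcop]
      simp
  have hdd : (∏ x : ↥(P : Subgroup G), lam (x : G)) ^ p ≤ nS ^ c := by
    have h1 : ∏ x : ↥(P : Subgroup G), T (Subgroup.zpowers (x : G)) =
        (∏ x : ↥(P : Subgroup G), lam (x : G)) * T (P : Subgroup G) ^ c := by
      rw [← Finset.prod_congr rfl (fun x _ => hlamT x), Finset.prod_mul_distrib,
        Finset.prod_const, Finset.card_univ, hc, Nat.card_eq_fintype_card]
    rw [h1, ← hS'] at hdiamond
    exact arith_dd hp.pos hTPpos hdiamond
  have hpel := pel_count p P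
  have hamgm := amgm_nat (fun x : ↥(P : Subgroup G) => lam (x : G))
    (fun x => by
      haveI : Nonempty {Q : Sylow p G // (x : G) ∈ (Q : Subgroup G)} := ⟨⟨P, x.2⟩⟩
      show 0 < lam (x : G)
      rw [hlam]; exact Nat.card_pos)
    (Nat.card {g : G // ∃ k : ℕ, orderOf g = p ^ k}) nS
    (by rw [hnS]; simp only [hlam]; exact hpel)
  rw [← Nat.card_eq_fintype_card, ← hc] at hamgm
  rw [← hc, ← hnS]
  exact arith_fin hp.pos hcpos hnSpos hamgm hdd

end Cfsg.Agent.S4091
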