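import Cfsg.Statements.S4092
import Mathlib
import Cfsg.Agent.Lib.Helper21.SylowInt
import Cfsg.Agent.Lib.Helper21.ThreePrimes

set_option autoImplicit false
open Cfsg

namespace Cfsg.Agent.S4092

open Cfsg.Agent.Lib.Helper21

/-- Let G be a finite group, p a prime and P a Sylow p-subgroup of G that is not normal in G. Then G has at least p·#P elements of p-power order (the identity included). -/
theorem result {G : Type*} [Group G] [Finite G] (p : ℕ) [Fact p.Prime]
    (P : Sylow p G) (hP : ¬ (P : Subgroup G).Normal) :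
    p * Nat.card (P : Subgroup G) ≤ Nat.card {g : G // ∃ k : ℕ, orderOf g = p ^ k} := by
  classical
  have hns : ¬ Subsingleton (Sylow p G) := fun hs => hP (Sylow.normal_of_subsingleton P)
  let X := {pq : Sylow p G × Sylow p G // pq.1 ≠ pq.2}
  haveI hXne : Nonempty X := by
    rw [not_subsingleton_iff_nontrivial] at hns
    obtain ⟨a, b, hab⟩ := hns.exists_pair_ne
    exact ⟨⟨(a, b), hab⟩⟩
  obtain ⟨⟨⟨P₀, Q₀⟩, hne⟩, hmaxX⟩ := Finite.exists_max (fun x : X => Nat.card ↥(DInt x.1.1 x.1.2))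
  have h : MaxInt P₀ Q₀ := ⟨hne, fun P' Q' hne' => hmaxX ⟨(P', Q'), hne'⟩⟩
  have hcard1 := h.one_lt_card
  have hmod := card_sylow_modEq_one p ↥(NInt P₀ Q₀)
  have hcard : p + 1 ≤ Nat.card (Sylow p ↥(NInt P₀ Q₀)) := by
    have h1 : p ∣ Nat.card (Sylow p ↥(NInt P₀ Q₀)) - 1 :=
      (Nat.modEq_iff_dvd' (by omega)).mp hmod.symm
    have h2 := Nat.le_of_dvd (by omega) h1
    omega
  have hex : ∀ S : Sylow p ↥(NInt P₀ Q₀), ∃ T : Sylow p G,
      (S : Subgroup ↥(NInt P₀ Q₀)).map (NInt P₀ Q₀).subtype ≤ (T : Subgroup G) :=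
    fun S => ((S.isPGroup').map _).exists_le_sylow
  choose T hT using hex
  haveI : Fintype G := Fintype.ofFinite G
  haveI : Fintype (Sylow p ↥(NInt P₀ Q₀)) := Fintype.ofFinite _
  let FD : Finset G := Finset.univ.filter (fun x => x ∈ DInt P₀ Q₀)
  let F : Sylow p ↥(NInt P₀ Q₀) → Finset G :=
    fun S => Finset.univ.filter (fun x => x ∈ (T S : Subgroup G) ∧ x ∉ DInt P₀ Q₀)
  let E : Finset G := Finset.univ.filter (fun g => ∃ k : ℕ, orderOf g = p ^ k)
  have hE : Nat.card {g : G // ∃ k : ℕ, orderOf g = p ^ k} = E.card := by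
    rw [Nat.card_eq_fintype_card, Fintype.card_subtype]
  have hFD : FD.card = Nat.card ↥(DInt P₀ Q₀) := by
    rw [Nat.card_eq_fintype_card, Fintype.card_subtype]
  have hDT : ∀ S, DInt P₀ Q₀ ≤ (T S : Subgroup G) := by
    intro S d hd
    have hDN : DInt P₀ Q₀ ≤ NInt P₀ Q₀ := Subgroup.le_normalizer
    exact hT S ⟨⟨d, hDN hd⟩, h.le_sylow S (Subgroup.mem_subgroupOf.mpr hd), rfl⟩
  have hFS : ∀ S, (F S).card + FD.card = Nat.card ↥(P : Subgroup G) := by
    intro S
    have h1 : Nat.card ↥(T S : Subgroup G) = Nat.card ↥(P : Subgroup G) := by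
      rw [Sylow.card_eq_multiplicity, Sylow.card_eq_multiplicity]
    rw [← h1, Nat.card_eq_fintype_card, Fintype.card_subtype, ← Finset.card_union_of_disjoint]
    · congr 1
      ext x
      simp only [F, FD, Finset.mem_union, Finset.mem_filter, Finset.mem_univ, true_and]
      constructor
      · rintro (⟨h1, -⟩ | h1)
        · exact h1
        · exact hDT S h1
      · intro hx
        by_cases hxD : x ∈ DInt P₀ Q₀
        · right; exact hxD
        · left; exact ⟨hx, hxD⟩
    · rw [Finset.disjoint_left]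
      intro x hx hx'
      simp only [F, FD, Finset.mem_filter, Finset.mem_univ, true_and] at hx hx'
      exact hx.2 hx'
  have hdisj : ∀ S ∈ (Finset.univ : Finset (Sylow p ↥(NInt P₀ Q₀))),
      ∀ S' ∈ (Finset.univ : Finset (Sylow p ↥(NInt P₀ Q₀))), S ≠ S' → Disjoint (F S) (F S') := by
    intro S _ S' _ hne'
    rw [Finset.disjoint_left]
    intro x hx hx'
    simp only [F, Finset.mem_filter, Finset.mem_univ, true_and] at hx hx'
    obtain ⟨_, hD'⟩ := h.over_ne S S' hne' (T S) (T S') (hT S) (hT S')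
    have hxD : x ∈ DInt (T S) (T S') := ⟨hx.1, hx'.1⟩
    rw [hD'] at hxD
    exact hx.2 hxD
  have hsub : FD ∪ Finset.univ.biUnion F ⊆ E := by
    intro x hx
    simp only [E, Finset.mem_filter, Finset.mem_univ, true_and]
    rw [Finset.mem_union] at hx
    rcases hx with hx | hx
    · simp only [FD, Finset.mem_filter, Finset.mem_univ, true_and] at hx
      exact orderOf_eq_prime_pow_of_mem P₀.isPGroup' hx.1
    · rw [Finset.mem_biUnion] at hx
      obtain ⟨S, -, hx⟩ := hx
      simp only [F, Finset.mem_filter, Finset.mem_univ, true_and] at hx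
      exact orderOf_eq_prime_pow_of_mem (T S).isPGroup' hx.1
  have hdisj2 : Disjoint FD (Finset.univ.biUnion F) := by
    rw [Finset.disjoint_left]
    intro x hx hx'
    rw [Finset.mem_biUnion] at hx'
    obtain ⟨S, -, hx'⟩ := hx'
    simp only [F, FD, Finset.mem_filter, Finset.mem_univ, true_and] at hx hx'
    exact hx'.2 hx
  have hcount : (FD ∪ Finset.univ.biUnion F).card =
      FD.card + Fintype.card (Sylow p ↥(NInt P₀ Q₀)) * (Nat.card ↥(P : Subgroup G) - FD.card) := by
    rw [Finset.card_union_of_disjoint hdisj2, Finset.card_biUnion hdisj]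
    congr 1
    rw [Finset.sum_const_nat (m := Nat.card ↥(P : Subgroup G) - FD.card)]
    · rw [Finset.card_univ]
    · intro S _; have := hFS S; omega
  have hle := Finset.card_le_card hsub
  rw [hcount, ← hE] at hle
  have hpD : p * FD.card ≤ Nat.card ↥(P : Subgroup G) := by
    rw [hFD]
    have hlt : Nat.card ↥(DInt P₀ Q₀) < Nat.card ↥(P₀ : Subgroup G) := by
      by_contra hc
      push Not at hc
      have h3 := Subgroup.eq_of_le_of_card_ge (inf_le_left : DInt P₀ Q₀ ≤ (P₀ : Subgroup G)) hc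
      exact (sylow_inf_lt hne).ne h3
    have hdvd : Nat.card ↥(DInt P₀ Q₀) ∣ Nat.card ↥(P₀ : Subgroup G) :=
      Subgroup.card_dvd_of_le inf_le_left
    rw [Sylow.card_eq_multiplicity] at hdvd hlt
    obtain ⟨b, hb, hbeq⟩ := (Nat.dvd_prime_pow Fact.out).mp hdvd
    rw [hbeq] at hlt ⊢
    have hba : b < (Nat.card G).factorization p :=
      (Nat.pow_lt_pow_iff_right (Fact.out : p.Prime).one_lt).mp hlt
    rw [Sylow.card_eq_multiplicity, ← pow_succ']
    exact Nat.pow_le_pow_right (Fact.out : p.Prime).pos hba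
  rw [Nat.card_eq_fintype_card] at hcard
  have hd : FD.card ≤ Nat.card ↥(P : Subgroup G) :=
    le_trans (Nat.le_mul_of_pos_left _ (Fact.out : p.Prime).pos) hpD
  obtain ⟨e, he⟩ := Nat.exists_eq_add_of_le hd
  rw [he] at hle hpD ⊢
  rw [Nat.add_sub_cancel_left] at hle
  calc p * (FD.card + e) ≤ FD.card + (p + 1) * e := by nlinarith
    _ ≤ FD.card + Fintype.card (Sylow p ↥(NInt P₀ Q₀)) * e := by
      exact Nat.add_le_add_left (Nat.mul_le_mul_right e hcard) _
    _ ≤ _ := hle

end Cfsg.Agent.S4092
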