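import Cfsg.Statements.S4093
import Mathlib

set_option autoImplicit false
open scoped BigOperators
open Cfsg

namespace Cfsg.Agent.S4093

theorem pelem_iff {G : Type*} [Group G] [Finite G] (p : ℕ) [Fact p.Prime] (g : G) :
    (∃ k : ℕ, orderOf g = p ^ k) ↔ ∃ P₀ : Sylow p G, g ∈ (P₀ : Subgroup G) := by
  constructor
  · rintro ⟨k, hk⟩
    have h1 : IsPGroup p (Subgroup.zpowers g) :=
      IsPGroup.of_card (n := k) (by rw [Nat.card_zpowers, hk])
    obtain ⟨Q, hQ⟩ := h1.exists_le_sylow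
    exact ⟨Q, hQ (Subgroup.mem_zpowers g)⟩
  · rintro ⟨P₀, hg⟩
    obtain ⟨k, hk⟩ := (IsPGroup.iff_orderOf.mp P₀.isPGroup') ⟨g, hg⟩
    exact ⟨k, by rw [← hk, Subgroup.orderOf_mk]⟩

theorem orbit_card {G : Type*} [Group G] [Finite G] (N : Subgroup G) (x : G) :
    Nat.card {y : G // ∃ n ∈ N, n * x * n⁻¹ = y} *
      Nat.card ↥(N ⊓ Subgroup.centralizer ({x} : Set G)) = Nat.card N := by
  let _ : MulAction N G := MulAction.compHom G ((MulAut.conj : G →* MulAut G).comp N.subtype)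
  have hsmul : ∀ (n : N) (g : G), n • g = (n : G) * g * (n : G)⁻¹ := fun n g => rfl
  have h1 := Subgroup.card_mul_index (MulAction.stabilizer N x)
  rw [MulAction.index_stabilizer, ← Nat.card_coe_set_eq] at h1
  have h2 : Nat.card (MulAction.stabilizer N x) =
      Nat.card ↥(N ⊓ Subgroup.centralizer ({x} : Set G)) := by
    apply Nat.card_congr
    refine ⟨fun n => ⟨(n.1 : G), Subgroup.mem_inf.mpr ⟨n.1.2, ?_⟩⟩,
      fun c => ⟨⟨c.1, (Subgroup.mem_inf.mp c.2).1⟩, ?_⟩, fun n => rfl, fun c => rfl⟩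
    · rw [Subgroup.mem_centralizer_iff]
      intro w hw
      rw [Set.mem_singleton_iff.mp hw]
      have h3 : (n.1 : G) * x * (n.1 : G)⁻¹ = x := n.2
      exact (mul_inv_eq_iff_eq_mul.mp h3).symm
    · show (c.1 : G) * x * (c.1 : G)⁻¹ = x
      have := Subgroup.mem_centralizer_iff.mp (Subgroup.mem_inf.mp c.2).2 x rfl
      rw [← this, mul_inv_cancel_right]
  have h3 : Nat.card (MulAction.orbit N x) =
      Nat.card {y : G // ∃ n ∈ N, n * x * n⁻¹ = y} := by
    apply Nat.card_congr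
    refine Equiv.subtypeEquivRight (fun y => ?_)
    constructor
    · rintro ⟨n, rfl⟩; exact ⟨n, n.2, rfl⟩
    · rintro ⟨n, hn, rfl⟩; exact ⟨⟨n, hn⟩, rfl⟩
  rw [← h3, ← h2, mul_comm]; exact h1

/-- Let G be a finite group with a normal subgroup N complementing a Sylow p-subgroup P (a normal p-complement). Then the number of elements of G of p-power order equals the sum over x ∈ P of the index of C_N(x) in N. -/
theorem result {G : Type*} [Group G] [Finite G] (p : ℕ) [Fact p.Prime]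
    (P : Sylow p G) (N : Subgroup G) [N.Normal] (hNP : N.IsComplement' (P : Subgroup G)) :
    Nat.card {g : G // ∃ k : ℕ, orderOf g = p ^ k} =
      ∑ᶠ x : (P : Subgroup G), Nat.card N / Nat.card ↥(N ⊓ Subgroup.centralizer ({(x : G)} : Set G)) := by
  classical
  have := Fintype.ofFinite G
  have hNn : N.Normal := inferInstance
  have hdisj : ∀ g, g ∈ N → g ∈ (P : Subgroup G) → g = 1 := by
    intro g h1 h2
    exact Subgroup.disjoint_def.mp hNP.disjoint h1 h2
  have hdec : ∀ g : G, ∃ n ∈ N, ∃ x ∈ (P : Subgroup G), n * x = g := by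
    intro g
    have h1 : g ∈ ((N ⊔ (P : Subgroup G) : Subgroup G) : Set G) := by
      rw [hNP.sup_eq_top]; exact Set.mem_univ g
    rw [Subgroup.normal_mul] at h1
    exact Set.mem_mul.mp h1
  have claim1 : ∀ g : G, (∃ k : ℕ, orderOf g = p ^ k) ↔
      ∃ x ∈ (P : Subgroup G), ∃ n ∈ N, n * x * n⁻¹ = g := by
    intro g
    constructor
    · intro hg
      obtain ⟨Q, hQ⟩ := (pelem_iff p g).mp hg
      obtain ⟨c, hc⟩ := MulAction.exists_smul_eq G P Q
      rw [← hc] at hQ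
      have hy : c⁻¹ * g * c ∈ (P : Subgroup G) := by
        have h1 : g ∈ ((c • P : Sylow p G) : Subgroup G) := hQ
        rw [Sylow.coe_subgroup_smul, Subgroup.mem_pointwise_smul_iff_inv_smul_mem] at h1
        simpa [MulAut.smul_def] using h1
      obtain ⟨n, hn, x₀, hx₀, rfl⟩ := hdec c
      exact ⟨x₀ * ((n * x₀)⁻¹ * g * (n * x₀)) * x₀⁻¹,
        Subgroup.mul_mem _ (Subgroup.mul_mem _ hx₀ hy) (Subgroup.inv_mem _ hx₀), n, hn,
        by group⟩
    · rintro ⟨x, hx, n, hn, rfl⟩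
      obtain ⟨k, hk⟩ := (IsPGroup.iff_orderOf.mp P.isPGroup') ⟨x, hx⟩
      rw [Subgroup.orderOf_mk] at hk
      exact ⟨k, by rw [← hk]; exact (MulAut.conj n).orderOf_eq x⟩
  have claim2 : ∀ x ∈ (P : Subgroup G), ∀ x' ∈ (P : Subgroup G), ∀ n ∈ N, ∀ n' ∈ N,
      n * x * n⁻¹ = n' * x' * n'⁻¹ → x = x' := by
    intro x hx x' hx' n hn n' hn' e
    have e1 : x' = (n'⁻¹ * n) * x * (n'⁻¹ * n)⁻¹ := by
      calc x' = n'⁻¹ * (n' * x' * n'⁻¹) * n' := by group
        _ = n'⁻¹ * (n * x * n⁻¹) * n' := by rw [e]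
        _ = _ := by group
    have h1 : x' * x⁻¹ ∈ N := by
      rw [e1]
      have : (n'⁻¹ * n) * x * (n'⁻¹ * n)⁻¹ * x⁻¹ =
          (n'⁻¹ * n) * (x * (n'⁻¹ * n)⁻¹ * x⁻¹) := by group
      rw [this]
      exact N.mul_mem (N.mul_mem (N.inv_mem hn') hn)
        (hNn.conj_mem _ (N.inv_mem (N.mul_mem (N.inv_mem hn') hn)) x)
    have h2 := hdisj _ h1 (Subgroup.mul_mem _ hx' (Subgroup.inv_mem _ hx))
    exact (mul_inv_eq_one.mp h2).symm
  let TG : Finset G := Finset.univ.filter (fun g => ∃ k : ℕ, orderOf g = p ^ k)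
  have hTG : Nat.card {g : G // ∃ k : ℕ, orderOf g = p ^ k} = TG.card := by
    rw [Nat.card_eq_fintype_card]
    exact Fintype.card_of_subtype TG (fun x => by simp [TG])
  let O : ↥(P : Subgroup G) → Finset G :=
    fun x => Finset.univ.filter (fun y => ∃ n ∈ N, n * (x : G) * n⁻¹ = y)
  have hO : ∀ x : ↥(P : Subgroup G), (O x).card =
      Nat.card N / Nat.card ↥(N ⊓ Subgroup.centralizer ({(x : G)} : Set G)) := by
    intro x
    have h1 := orbit_card N (x : G)
    have h2 : Nat.card {y : G // ∃ n ∈ N, n * (x : G) * n⁻¹ = y} = (O x).card := by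
      rw [Nat.card_eq_fintype_card]
      exact Fintype.card_of_subtype (O x) (fun y => by simp [O])
    rw [← h2]
    exact (Nat.div_eq_of_eq_mul_left Nat.card_pos h1.symm).symm
  have hTGeq : TG = Finset.univ.biUnion O := by
    ext g
    simp only [TG, O, Finset.mem_filter, Finset.mem_univ, true_and, Finset.mem_biUnion]
    rw [claim1]
    constructor
    · rintro ⟨x, hx, n, hn, e⟩; exact ⟨⟨x, hx⟩, n, hn, e⟩
    · rintro ⟨x, n, hn, e⟩; exact ⟨x, x.2, n, hn, e⟩
  have hdisjO : ∀ x ∈ (Finset.univ : Finset ↥(P : Subgroup G)),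
      ∀ x' ∈ (Finset.univ : Finset ↥(P : Subgroup G)), x ≠ x' → Disjoint (O x) (O x') := by
    intro x _ x' _ hne
    rw [Finset.disjoint_left]
    intro g hg hg'
    simp only [O, Finset.mem_filter, Finset.mem_univ, true_and] at hg hg'
    obtain ⟨n, hn, e⟩ := hg
    obtain ⟨n', hn', e'⟩ := hg'
    exact hne (Subtype.ext (claim2 x x.2 x' x'.2 n hn n' hn' (e.trans e'.symm)))
  rw [hTG, hTGeq, Finset.card_biUnion hdisjO, finsum_eq_sum_of_fintype]
  exact Finset.sum_congr rfl (fun x _ => hO x)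

end Cfsg.Agent.S4093
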