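import Cfsg.Statements.S4097
-- import your own Cfsg.Agent.* helpers here
import Mathlib
import Cfsg.Agent.Lib.Lead.FrobeniusMore
import Cfsg.Agent.Lib.Helper1.CoprimeSylow
import Cfsg.Agent.Lib.Helper10.Signalizer

set_option autoImplicit false
open Cfsg

namespace Cfsg.Agent.S4097

open scoped Pointwise

universe u

/-- If all conjugates of the abelian subgroup `A` commute with `A`, the hypothesis forces `A` central. -/
theorem central_of_conj_comm {G : Type u} [Group G] (A : Subgroup G)
    (hc : ∀ S : Subgroup G, A ≤ S → Group.IsSolvable S → ∀ a ∈ A, ∀ s ∈ S, a * s = s * a)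
    (hall : ∀ g : G, ∀ a ∈ A, ∀ b ∈ A, (g * a * g⁻¹) * b = b * (g * a * g⁻¹)) :
    A ≤ Subgroup.center G := by
  have hcomm : ∀ x ∈ Group.conjugatesOfSet (A : Set G), ∀ y ∈ Group.conjugatesOfSet (A : Set G),
      x * y = y * x := by
    intro x hx y hy
    rw [Group.mem_conjugatesOfSet_iff] at hx hy
    obtain ⟨a, ha, hax⟩ := hx
    obtain ⟨b, hb, hby⟩ := hy
    obtain ⟨g, rfl⟩ := isConj_iff.mp hax
    obtain ⟨h, rfl⟩ := isConj_iff.mp hby
    have h1 := hall (h⁻¹ * g) a ha b hb
    have e1 : g * a * g⁻¹ * (h * b * h⁻¹) = h * ((h⁻¹ * g) * a * (h⁻¹ * g)⁻¹ * b) * h⁻¹ := by group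
    have e2 : h * b * h⁻¹ * (g * a * g⁻¹) = h * (b * ((h⁻¹ * g) * a * (h⁻¹ * g)⁻¹)) * h⁻¹ := by group
    rw [e1, e2, h1]
  have hBc : IsMulCommutative (Subgroup.normalClosure (A : Set G)) :=
    Subgroup.isMulCommutative_closure hcomm
  have hBs : Group.IsSolvable (Subgroup.normalClosure (A : Set G)) :=
    Group.isSolvable_of_comm (fun a b => mul_comm' a b)
  intro a ha
  rw [Subgroup.mem_center_iff]
  intro g
  have hZs : Group.IsSolvable (Subgroup.zpowers g) := by
    let _i := IsCyclic.commGroup (α := Subgroup.zpowers g)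
    exact Group.isSolvable_of_comm (fun a b => mul_comm a b)
  have hS : Group.IsSolvable ↥(Subgroup.normalClosure (A : Set G) ⊔ Subgroup.zpowers g) :=
    Cfsg.Agent.Lib.Helper10.isSolvable_sup_of_le_normalizer hBs hZs Subgroup.le_normalizer_of_normal
  have hAS : A ≤ Subgroup.normalClosure (A : Set G) ⊔ Subgroup.zpowers g :=
    le_trans Subgroup.le_normalClosure le_sup_left
  exact (hc _ hAS hS a ha g (Subgroup.mem_sup_right (Subgroup.mem_zpowers g))).symm

/-- In the remaining case, `C_G(A)` meets its conjugates in the centre. -/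
theorem centralizer_inf_conj {G : Type u} [Group G] [Finite G] (A : Subgroup G)
    (hAab : ∀ a ∈ A, ∀ b ∈ A, a * b = b * a)
    (hle : ∀ H : Subgroup G, H ≠ ⊤ → A ≤ H → H ≤ Subgroup.centralizer (A : Set G))
    (hMtop : Subgroup.centralizer (A : Set G) ≠ ⊤)
    (hnall : ¬ ∀ g : G, ∀ a ∈ A, ∀ b ∈ A, (g * a * g⁻¹) * b = b * (g * a * g⁻¹))
    (g : G) (hg : g ∉ Subgroup.centralizer (A : Set G)) (x y : G)
    (hx : x ∈ Subgroup.centralizer (A : Set G)) (hy : y ∈ Subgroup.centralizer (A : Set G))
    (hxy : x = g * y * g⁻¹) : x ∈ Subgroup.center G := by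
  obtain ⟨M, hMdef⟩ : ∃ M : Subgroup G, M = Subgroup.centralizer (A : Set G) := ⟨_, rfl⟩
  rw [← hMdef] at hle hMtop hg hx hy
  have hAM : A ≤ M := by
    intro a ha
    rw [hMdef, Subgroup.mem_centralizer_iff]
    intro b hb
    exact hAab b hb a ha
  -- the conjugate A' of A
  obtain ⟨A', hA'def⟩ : ∃ A' : Subgroup G, A' = A.map (MulAut.conj g).toMonoidHom := ⟨_, rfl⟩
  have hA'mem : ∀ a ∈ A, g * a * g⁻¹ ∈ A' := by
    intro a ha
    rw [hA'def]
    exact ⟨a, ha, by simp [MulAut.conj_apply]⟩
  have hxA' : ∀ c ∈ A', c * x = x * c := by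
    intro c hc
    rw [hA'def] at hc
    obtain ⟨a, ha, rfl⟩ := hc
    have h1 : a * y = y * a := by
      have := hy
      rw [hMdef, Subgroup.mem_centralizer_iff] at this
      exact this a ha
    have e : (MulAut.conj g).toMonoidHom a = g * a * g⁻¹ := by simp [MulAut.conj_apply]
    rw [e, hxy]
    have e1 : g * a * g⁻¹ * (g * y * g⁻¹) = g * (a * y) * g⁻¹ := by group
    have e2 : g * y * g⁻¹ * (g * a * g⁻¹) = g * (y * a) * g⁻¹ := by group
    rw [e1, e2, h1]
  by_cases hH : A ⊔ A' = ⊤
  · -- x centralizes A ⊔ A' = ⊤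
    have hxc : A ⊔ A' ≤ Subgroup.centralizer ({x} : Set G) := by
      apply sup_le
      · intro a ha
        rw [Subgroup.mem_centralizer_iff]
        intro z hz
        rw [Set.mem_singleton_iff] at hz
        rw [hz]
        have := hx
        rw [hMdef, Subgroup.mem_centralizer_iff] at this
        exact (this a ha).symm
      · intro c hc
        rw [Subgroup.mem_centralizer_iff]
        intro z hz
        rw [Set.mem_singleton_iff] at hz
        rw [hz]
        exact (hxA' c hc).symm
    rw [hH] at hxc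
    rw [Subgroup.mem_center_iff]
    intro z
    have hz : z ∈ Subgroup.centralizer ({x} : Set G) := hxc (Subgroup.mem_top z)
    rw [Subgroup.mem_centralizer_iff] at hz
    exact (hz x (Set.mem_singleton x)).symm
  · exfalso
    have hA'M : A' ≤ M := le_trans le_sup_right (hle _ hH le_sup_left)
    -- conjugation by g maps M into M
    have hconj : ∀ m ∈ M, g * m * g⁻¹ ∈ M := by
      obtain ⟨M', hM'def⟩ : ∃ M' : Subgroup G, M' = M.map (MulAut.conj g).toMonoidHom := ⟨_, rfl⟩
      have hAM' : A ≤ M' := by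
        intro b hb
        rw [hM'def]
        refine ⟨g⁻¹ * b * g, ?_, by simp [MulAut.conj_apply]; group⟩
        change g⁻¹ * b * g ∈ M
        rw [hMdef, Subgroup.mem_centralizer_iff]
        intro a ha
        have h1 : g * a * g⁻¹ ∈ M := hA'M (hA'mem a ha)
        rw [hMdef, Subgroup.mem_centralizer_iff] at h1
        have h2 := h1 b hb
        have e1 : a * (g⁻¹ * b * g) = g⁻¹ * (g * a * g⁻¹ * b) * g := by group
        have e2 : g⁻¹ * b * g * a = g⁻¹ * (b * (g * a * g⁻¹)) * g := by group
        rw [e1, e2, h2]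
      have hM'top : M' ≠ ⊤ := by
        intro h
        apply hMtop
        rw [eq_top_iff]
        intro z _
        have hz : g * z * g⁻¹ ∈ M' := h ▸ Subgroup.mem_top _
        rw [hM'def] at hz
        obtain ⟨m, hm, hmz⟩ := hz
        have e : (MulAut.conj g).toMonoidHom m = g * m * g⁻¹ := by simp [MulAut.conj_apply]
        rw [e] at hmz
        have : m = z := by
          have : g⁻¹ * (g * m * g⁻¹) * g = g⁻¹ * (g * z * g⁻¹) * g := by rw [hmz]
          have e1 : g⁻¹ * (g * m * g⁻¹) * g = m := by group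
          have e2 : g⁻¹ * (g * z * g⁻¹) * g = z := by group
          rw [e1, e2] at this
          exact this
        rw [← this]
        exact hm
      have hM'M : M' ≤ M := hle M' hM'top hAM'
      intro m hm
      apply hM'M
      rw [hM'def]
      exact ⟨m, hm, by simp [MulAut.conj_apply]⟩
    -- hence all powers of g conjugate M into M, in particular g⁻¹
    have hpow : ∀ k : ℕ, ∀ m ∈ M, g ^ k * m * (g ^ k)⁻¹ ∈ M := by
      intro k
      induction k with
      | zero => intro m hm; simpa using hm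
      | succ k ih =>
        intro m hm
        have := hconj _ (ih m hm)
        have e : g ^ (k + 1) * m * (g ^ (k + 1))⁻¹ = g * (g ^ k * m * (g ^ k)⁻¹) * g⁻¹ := by
          rw [pow_succ']; group
        rw [e]
        exact this
    have hinv : ∀ m ∈ M, g⁻¹ * m * g ∈ M := by
      intro m hm
      have hfin : IsOfFinOrder g := isOfFinOrder_of_finite g
      have hk : g ^ (orderOf g - 1) = g⁻¹ := by
        have hpos : 0 < orderOf g := hfin.orderOf_pos
        have : g ^ (orderOf g - 1) * g = 1 := by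
          rw [← pow_succ, Nat.sub_add_cancel hpos, pow_orderOf_eq_one]
        exact eq_inv_of_mul_eq_one_left this
      have := hpow (orderOf g - 1) m hm
      rw [hk, inv_inv] at this
      exact this
    have hgN : g ∈ Subgroup.normalizer (M : Set G) := by
      rw [Subgroup.mem_normalizer_iff]
      intro h
      constructor
      · intro hh; exact hconj h hh
      · intro hh
        have := hinv _ hh
        have e : g⁻¹ * (g * h * g⁻¹) * g = h := by group
        rw [e] at this
        exact this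
    by_cases hN : Subgroup.normalizer (M : Set G) = ⊤
    · -- M normal: all conjugates of A lie in M = C(A)
      apply hnall
      intro h a ha b hb
      have hmem : h * a * h⁻¹ ∈ M := by
        have hhN : h ∈ Subgroup.normalizer (M : Set G) := hN ▸ Subgroup.mem_top h
        rw [Subgroup.mem_normalizer_iff] at hhN
        exact (hhN a).mp (hAM ha)
      rw [hMdef, Subgroup.mem_centralizer_iff] at hmem
      exact (hmem b hb).symm
    · exact hg (hle _ hN (le_trans hAM Subgroup.le_normalizer) hgN)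

open Cfsg.Agent.Lib.Lead in
theorem aux : ∀ (n : ℕ) (G : Type u) [Group G] [Finite G], Nat.card G = n →
    ∀ (A : Subgroup G), Group.IsSolvable A →
    (∀ S : Subgroup G, A ≤ S → Group.IsSolvable S → ∀ a ∈ A, ∀ s ∈ S, a * s = s * a) →
    A ≤ Subgroup.center G := by
  intro n
  induction n using Nat.strong_induction_on with
  | _ n ih =>
  intro G _ _ hn A hA hc
  have hAab : ∀ a ∈ A, ∀ b ∈ A, a * b = b * a := fun a ha b hb => hc A le_rfl hA a ha b hb
  by_cases hall : ∀ g : G, ∀ a ∈ A, ∀ b ∈ A, (g * a * g⁻¹) * b = b * (g * a * g⁻¹)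
  · exact central_of_conj_comm A hc hall
  by_contra hnot
  obtain ⟨M, hMdef⟩ : ∃ M : Subgroup G, M = Subgroup.centralizer (A : Set G) := ⟨_, rfl⟩
  have hAM : A ≤ M := by
    intro a ha
    rw [hMdef, Subgroup.mem_centralizer_iff]
    intro b hb
    exact hAab b hb a ha
  have hprop : ∀ H : Subgroup G, H ≠ ⊤ → A ≤ H → H ≤ M := by
    intro H hH hAH h hh
    rw [hMdef, Subgroup.mem_centralizer_iff]
    intro a ha
    have hlt : Nat.card H < n := by
      rw [← hn]
      exact lt_of_le_of_ne (Subgroup.card_le_card_group H) (fun e => hH (H.eq_top_of_card_eq e))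
    have hAs : Group.IsSolvable (A.subgroupOf H) := by
      have := hA
      exact Group.isSolvable_of_isSolvable_injective (f := (Subgroup.subgroupOfEquivOfLe hAH).toMonoidHom)
        (Subgroup.subgroupOfEquivOfLe hAH).injective
    have h1 := ih (Nat.card H) hlt H rfl (A.subgroupOf H) hAs ?_
    · have h2 : (⟨a, hAH ha⟩ : H) ∈ Subgroup.center H :=
        h1 (by rw [Subgroup.mem_subgroupOf]; exact ha)
      rw [Subgroup.mem_center_iff] at h2
      have h3 := h2 ⟨h, hh⟩
      exact (congrArg Subtype.val h3).symm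
    · intro S hAS hS a' ha' s hs
      have hS' : Group.IsSolvable (S.map H.subtype) := by
        have := hS
        exact Group.isSolvable_of_surjective
          (f := (S.equivMapOfInjective H.subtype H.subtype_injective).toMonoidHom)
          (S.equivMapOfInjective H.subtype H.subtype_injective).surjective
      have hAS' : A ≤ S.map H.subtype := by
        intro z hz
        exact ⟨⟨z, hAH hz⟩, hAS (by rw [Subgroup.mem_subgroupOf]; exact hz), rfl⟩
      have h4 := hc (S.map H.subtype) hAS' hS' (a' : G)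
        (by rw [Subgroup.mem_subgroupOf] at ha'; exact ha') (s : G) ⟨s, hs, rfl⟩
      exact Subtype.ext h4
  have hMtop : M ≠ ⊤ := by
    intro h
    apply hnot
    intro a ha
    rw [Subgroup.mem_center_iff]
    intro g
    have hg : g ∈ M := h ▸ Subgroup.mem_top g
    rw [hMdef, Subgroup.mem_centralizer_iff] at hg
    exact (hg a ha).symm
  obtain ⟨a₀, ha₀, ha₀c⟩ : ∃ a ∈ A, a ∉ Subgroup.center G := by
    by_contra h
    push Not at h
    exact hnot h
  have hTI : ∀ g, g ∉ M → ∀ x y, x ∈ M → y ∈ M → x = g * y * g⁻¹ → x ∈ Subgroup.center G := by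
    subst hMdef
    exact centralizer_inf_conj A hAab hprop hMtop hall
  have hcenM : Subgroup.center G ≤ M := by
    intro z hz
    rw [hMdef, Subgroup.mem_centralizer_iff]
    intro a _
    exact Subgroup.mem_center_iff.mp hz a
  obtain ⟨π, hπdef⟩ : ∃ π : G →* G ⧸ Subgroup.center G, π = QuotientGroup.mk' _ := ⟨_, rfl⟩
  have hπs : Function.Surjective π := hπdef ▸ QuotientGroup.mk'_surjective _
  have hπ1 : ∀ z : G, π z = 1 ↔ z ∈ Subgroup.center G := by
    intro z
    rw [hπdef]
    exact QuotientGroup.eq_one_iff z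
  have hMb_mem : ∀ z : G, π z ∈ M.map π → z ∈ M := by
    intro z hz
    obtain ⟨m, hm, hmz⟩ := hz
    have h1 : m⁻¹ * z ∈ Subgroup.center G := by
      rw [← hπ1, map_mul, map_inv, hmz, inv_mul_cancel]
    have h2 := M.mul_mem hm (hcenM h1)
    rwa [mul_inv_cancel_left] at h2
  have hFrob : Cfsg.IsFrobeniusComplement (M.map π) := by
    refine ⟨?_, ?_, ?_⟩
    · intro h
      apply ha₀c
      rw [← hπ1]
      have h1 : π a₀ ∈ M.map π := ⟨a₀, hAM ha₀, rfl⟩
      rw [h, Subgroup.mem_bot] at h1
      exact h1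
    · intro h
      apply hMtop
      rw [eq_top_iff]
      intro z _
      exact hMb_mem z (h ▸ Subgroup.mem_top _)
    · intro gb hgb
      obtain ⟨g, rfl⟩ := hπs gb
      have hg : g ∉ M := fun h => hgb ⟨g, h, rfl⟩
      rw [eq_bot_iff]
      intro xb hxb
      obtain ⟨hxb1, hxb2⟩ := hxb
      obtain ⟨x, hx, rfl⟩ := hxb1
      rw [Subgroup.mem_bot]
      have hxb3 : (π g)⁻¹ * π x * π g ∈ M.map π := (mem_conj_smul _ _ _).mp hxb2
      have h5 : g⁻¹ * x * g ∈ M := by
        apply hMb_mem
        rw [map_mul, map_mul, map_inv]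
        exact hxb3
      have h6 := hTI g hg x (g⁻¹ * x * g) hx h5 (by group)
      exact (hπ1 x).mpr h6
  obtain ⟨Kb, hKbdef⟩ : ∃ Kb : Subgroup (G ⧸ Subgroup.center G), Kb = frobKer (M.map π) hFrob :=
    ⟨_, rfl⟩
  have hKn : Kb.Normal := hKbdef ▸ frobKer_normal _ hFrob
  have hKne : Kb ≠ ⊥ := hKbdef ▸ frobKer_ne_bot _ hFrob
  have hKcop : (Nat.card Kb).Coprime (Nat.card (M.map π)) := hKbdef ▸ frobKer_coprime _ hFrob
  have hKcard : Nat.card Kb ≠ 1 := fun h => hKne (Subgroup.card_eq_one.mp h)
  obtain ⟨q, hq, hqK⟩ := Nat.exists_prime_and_dvd hKcard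
  have := Fact.mk hq
  obtain ⟨Ab, hAbdef⟩ : ∃ Ab : Subgroup (G ⧸ Subgroup.center G), Ab = A.map π := ⟨_, rfl⟩
  have hAbM : Ab ≤ M.map π := hAbdef ▸ Subgroup.map_mono hAM
  have hAbs : Group.IsSolvable Ab := by
    have := hA
    rw [hAbdef]
    exact Group.isSolvable_of_surjective (f := π.subgroupMap A) (π.subgroupMap_surjective A)
  have hcop : (Nat.card Ab).Coprime (Nat.card Kb) :=
    (Nat.Coprime.coprime_dvd_right (Subgroup.card_dvd_of_le hAbM) hKcop).symm
  obtain ⟨P, hP⟩ := Cfsg.Agent.Lib.Helper1.exists_invariant_sylow Ab Kb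
    Subgroup.le_normalizer_of_normal hcop (Or.inl hAbs) q
  obtain ⟨Qb, hQbdef⟩ : ∃ Qb : Subgroup (G ⧸ Subgroup.center G),
      Qb = (P : Subgroup Kb).map Kb.subtype := ⟨_, rfl⟩
  rw [← hQbdef] at hP
  have hQbK : Qb ≤ Kb := hQbdef ▸ Subgroup.map_subtype_le _
  have hQbcard : Nat.card Qb = q ^ (Nat.card Kb).factorization q := by
    rw [hQbdef, Subgroup.card_map_of_injective Kb.subtype_injective]
    exact P.card_eq_multiplicity
  have hQbne : Qb ≠ ⊥ := by
    intro h
    rw [h, Subgroup.card_bot] at hQbcard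
    have hpos : 0 < (Nat.card Kb).factorization q :=
      hq.factorization_pos_of_dvd Nat.card_pos.ne' hqK
    have h2 : 1 < q ^ (Nat.card Kb).factorization q := Nat.one_lt_pow hpos.ne' hq.one_lt
    omega
  have hQbs : Group.IsSolvable Qb := by
    have hpg : IsPGroup q Qb := IsPGroup.of_card hQbcard
    have : Group.IsNilpotent Qb := hpg.isNilpotent
    infer_instance
  have hSbs : Group.IsSolvable ↥(Qb ⊔ Ab) :=
    Cfsg.Agent.Lib.Helper10.isSolvable_sup_of_le_normalizer hQbs hAbs hP
  obtain ⟨S, hSdef⟩ : ∃ S : Subgroup G, S = (Qb ⊔ Ab).comap π := ⟨_, rfl⟩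
  have hAS : A ≤ S := by
    intro a ha
    rw [hSdef, Subgroup.mem_comap]
    exact Subgroup.mem_sup_right (hAbdef ▸ Subgroup.mem_map_of_mem π ha)
  have hSs : Group.IsSolvable S := by
    rw [hSdef]
    have := hSbs
    have : Group.IsSolvable (Subgroup.center G) :=
      Group.isSolvable_of_comm (fun a b => Subtype.ext (Subgroup.mem_center_iff.mp b.2 (a : G)))
    have hcle : Subgroup.center G ≤ (Qb ⊔ Ab).comap π := by
      intro z hz
      rw [Subgroup.mem_comap, (hπ1 z).mpr hz]
      exact Subgroup.one_mem _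
    refine Group.isSolvable_of_ker_le_range (Subgroup.inclusion hcle) (π.subgroupComap (Qb ⊔ Ab)) ?_
    intro s hs
    rw [MonoidHom.mem_ker] at hs
    have h1 : π (s : G) = 1 := congrArg Subtype.val hs
    exact ⟨⟨s, (hπ1 _).mp h1⟩, Subtype.ext rfl⟩
  obtain ⟨xb, hxb, hxb1⟩ : ∃ xb ∈ Qb, xb ≠ 1 := by
    by_contra h
    push Not at h
    exact hQbne ((Subgroup.eq_bot_iff_forall _).mpr h)
  obtain ⟨x, rfl⟩ := hπs xb
  have hxS : x ∈ S := by
    rw [hSdef, Subgroup.mem_comap]
    exact Subgroup.mem_sup_left hxb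
  have hcomm := hc S hAS hSs a₀ ha₀ x hxS
  have hcomm' : π a₀ * π x = π x * π a₀ := by rw [← map_mul, ← map_mul, hcomm]
  have ha₀1 : π a₀ ≠ 1 := fun h => ha₀c ((hπ1 a₀).mp h)
  have hfin := frob_commute_eq_one (M.map π) hFrob ⟨a₀, hAM ha₀, rfl⟩ ha₀1
    (hKbdef ▸ hQbK hxb) hcomm'
  exact hxb1 hfin


/-- Let A be a solvable subgroup of a finite group G such that A lies in the centre of every solvable subgroup of G containing A. Then A lies in the centre of G. -/
theorem result {G : Type*} [Group G] [Finite G]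
    (A : Subgroup G) (hA : Group.IsSolvable A)
    (hc : ∀ S : Subgroup G, A ≤ S → Group.IsSolvable S → ∀ a ∈ A, ∀ s ∈ S, a * s = s * a) : A ≤ Subgroup.center G := by
  exact aux _ G rfl A hA hc

end Cfsg.Agent.S4097
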