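import Cfsg.Statements.S4106
import Mathlib
import Cfsg.Agent.Lib.Helper1.Basic

set_option autoImplicit false
open Cfsg

namespace Cfsg.Agent.S4106

universe u

theorem orderOf_conj' {G : Type*} [Group G] (c g : G) : orderOf (c * g * c⁻¹) = orderOf g := by
  have e : c * g * c⁻¹ = MulAut.conj c g := by simp [MulAut.conj_apply]
  rw [e]; exact MulEquiv.orderOf_eq _ _

/-- the class consists of elements whose order involves only primes of `π` -/
def piClass (G : Type u) [Group G] (π : Set ℕ) (C : ConjClasses G) : Prop :=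
  ∀ q : ℕ, q.Prime → (∃ g : G, ConjClasses.mk g = C ∧ q ∣ orderOf g) → q ∈ π

theorem piClass_mk {G : Type u} [Group G] (π : Set ℕ) (x : G) :
    piClass G π (ConjClasses.mk x) ↔ ∀ q : ℕ, q.Prime → q ∣ orderOf x → q ∈ π := by
  constructor
  · intro h q hq hdvd
    exact h q hq ⟨x, rfl, hdvd⟩
  · intro h q hq ⟨g, hg, hdvd⟩
    rw [ConjClasses.mk_eq_mk_iff_isConj, isConj_iff] at hg
    obtain ⟨c, hc⟩ := hg
    have h1 : orderOf x = orderOf g := by rw [← hc, orderOf_conj']
    rw [← h1] at hdvd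
    exact h q hq hdvd

theorem exists_pi_part (π : Set ℕ) : ∀ n : ℕ, 0 < n →
    ∃ m : ℕ, m ∣ n ∧ (∀ q : ℕ, q.Prime → q ∣ m → q ∈ π) ∧ (∀ q ∈ π, q.Prime → ¬ q ∣ n / m) := by
  intro n
  induction n using Nat.strong_induction_on with
  | _ n ih =>
    intro hn
    by_cases h : ∃ q ∈ π, q.Prime ∧ q ∣ n
    · obtain ⟨q, hqπ, hq, n', rfl⟩ := h
      have hn' : 0 < n' := Nat.pos_of_mul_pos_left hn
      have hlt : n' < q * n' := by
        have := hq.two_le
        nlinarith
      obtain ⟨m', hm1, hm2, hm3⟩ := ih n' hlt hn'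
      refine ⟨q * m', Nat.mul_dvd_mul_left q hm1, ?_, ?_⟩
      · intro q' hq' hdvd
        rcases (Nat.Prime.dvd_mul hq').mp hdvd with h1 | h1
        · rw [(Nat.prime_dvd_prime_iff_eq hq' hq).mp h1]; exact hqπ
        · exact hm2 q' hq' h1
      · intro q' hq'π hq'
        rw [Nat.mul_div_mul_left _ _ hq.pos]
        exact hm3 q' hq'π hq'
    · refine ⟨1, one_dvd _, ?_, ?_⟩
      · intro q hq hdvd
        exact absurd (Nat.dvd_one.mp hdvd) hq.one_lt.ne'
      · intro q hqπ hq hdvd
        rw [Nat.div_one] at hdvd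
        exact h ⟨q, hqπ, hq, hdvd⟩

theorem main : ∀ (m : ℕ) (G : Type u) [Group G] [Finite G] (π : Set ℕ),
    (∀ q ∈ π, q.Prime) → m ∣ Nat.card G → (∀ q : ℕ, q.Prime → q ∣ m → q ∈ π) →
    (∀ q ∈ π, ¬ q ∣ Nat.card G / m) →
    Nat.card {C : ConjClasses G // piClass G π C} ≤ m := by
  intro m
  induction m using Nat.strong_induction_on with
  | _ m ih =>
    intro G _ _ π hπ hm hmπ hm'
    have hGpos : 0 < Nat.card G := Nat.card_pos
    have hmpos : 0 < m := Nat.pos_of_dvd_of_pos hm hGpos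
    by_cases hm1 : m = 1
    · subst hm1
      rw [Nat.div_one] at hm'
      have hsub : Subsingleton {C : ConjClasses G // piClass G π C} := by
        have key : ∀ C : {C : ConjClasses G // piClass G π C}, C.1 = ConjClasses.mk 1 := by
          rintro ⟨C, hC⟩
          obtain ⟨x, rfl⟩ := ConjClasses.mk_surjective C
          rw [piClass_mk] at hC
          have hx : orderOf x = 1 := by
            by_contra hne
            obtain ⟨q, hq, hdvd⟩ := Nat.exists_prime_and_dvd hne
            exact hm' q (hC q hq hdvd) (hdvd.trans (orderOf_dvd_natCard x))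
          show ConjClasses.mk x = ConjClasses.mk 1
          rw [orderOf_eq_one_iff.mp hx]
        constructor
        intro a b
        apply Subtype.ext
        rw [key a, key b]
      exact Finite.card_le_one_iff_subsingleton.mpr hsub
    obtain ⟨p, hp, hpm⟩ := Nat.exists_prime_and_dvd hm1
    haveI : Fact p.Prime := ⟨hp⟩
    have hpπ : p ∈ π := hmπ p hp hpm
    obtain ⟨P⟩ : Nonempty (Sylow p G) := inferInstance
    obtain ⟨a, haP⟩ := IsPGroup.iff_card.mp P.isPGroup'
    have hPG : Nat.card (P : Subgroup G) ∣ Nat.card G := Subgroup.card_subgroup_dvd_card _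
    have hGm : Nat.card G = m * (Nat.card G / m) := (Nat.mul_div_cancel' hm).symm
    have hcopp : Nat.Coprime p (Nat.card G / m) :=
      (Nat.Prime.coprime_iff_not_dvd hp).mpr (hm' p hpπ)
    have hPm : p ^ a ∣ m := by
      rw [haP, hGm] at hPG
      exact (Nat.Coprime.pow_left a hcopp).dvd_of_dvd_mul_right hPG
    obtain ⟨m₁, hm₁⟩ := hPm
    have hm₁pos : 0 < m₁ := by
      rcases Nat.eq_zero_or_pos m₁ with h | h
      · rw [h, mul_zero] at hm₁; omega
      · exact h
    have ha1 : 1 ≤ a := by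
      by_contra h
      have ha0 : a = 0 := by omega
      have h1 : ¬ p ∣ (P : Subgroup G).index := P.not_dvd_index
      have h2 := Subgroup.card_mul_index (P : Subgroup G)
      rw [haP, ha0, pow_zero, one_mul] at h2
      rw [h2] at h1
      exact h1 (hpm.trans hm)
    have hpa2 : 2 ≤ p ^ a := by
      calc 2 ≤ p := hp.two_le
        _ = p ^ 1 := (pow_one p).symm
        _ ≤ p ^ a := Nat.pow_le_pow_right hp.pos ha1
    have hm₁lt : m₁ < m := by
      rw [hm₁]; nlinarith
    obtain ⟨π', hπ'def⟩ : ∃ π' : Set ℕ, π' = π \ {p} := ⟨_, rfl⟩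
    have hπ'mem : ∀ q : ℕ, q ∈ π' ↔ q ∈ π ∧ q ≠ p := by
      intro q; rw [hπ'def]; simp
    have hbound : ∀ u : (P : Subgroup G),
        Nat.card {D : ConjClasses ↥(Subgroup.centralizer ({(u : G)} : Set G)) //
          piClass ↥(Subgroup.centralizer ({(u : G)} : Set G)) π' D} ≤ m₁ := by
      intro u
      obtain ⟨mu, hmu1, hmu2, hmu3⟩ := exists_pi_part π'
        (Nat.card ↥(Subgroup.centralizer ({(u : G)} : Set G))) Nat.card_pos
      have hdvd : mu ∣ m₁ := by
        have h1 : mu ∣ Nat.card G :=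
          hmu1.trans (Subgroup.card_subgroup_dvd_card _)
        have h2 : Nat.card G = m₁ * (p ^ a * (Nat.card G / m)) := by
          rw [hGm, hm₁, Nat.mul_div_cancel_left _ (by positivity)]; ring
        rw [h2] at h1
        apply Nat.Coprime.dvd_of_dvd_mul_right _ h1
        apply Nat.coprime_of_dvd
        intro q hq hq1 hq2
        have hqπ' := (hπ'mem q).mp (hmu2 q hq hq1)
        rcases (Nat.Prime.dvd_mul hq).mp hq2 with h3 | h3
        · exact hqπ'.2 ((Nat.prime_dvd_prime_iff_eq hq hp).mp (hq.dvd_of_dvd_pow h3))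
        · exact hm' q hqπ'.1 h3
      have hmule : mu ≤ m₁ := Nat.le_of_dvd hm₁pos hdvd
      have h3 := ih mu (lt_of_le_of_lt hmule hm₁lt)
        ↥(Subgroup.centralizer ({(u : G)} : Set G)) π'
        (fun q hq => hπ q ((hπ'mem q).mp hq).1) hmu1 hmu2
        (fun q hq => hmu3 q hq (hπ q ((hπ'mem q).mp hq).1))
      exact h3.trans hmule
    -- the surjection
    let f : (Σ u : (P : Subgroup G),
        {D : ConjClasses ↥(Subgroup.centralizer ({(u : G)} : Set G)) //
          piClass ↥(Subgroup.centralizer ({(u : G)} : Set G)) π' D}) →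
        {C : ConjClasses G // piClass G π C} := fun w =>
      ⟨ConjClasses.mk ((w.1 : G) * ((Quotient.out w.2.1 : ↥(Subgroup.centralizer ({(w.1 : G)} : Set G))) : G)), by
        rw [piClass_mk]
        intro q hq hdvd
        have hv : piClass _ π' (ConjClasses.mk (Quotient.out w.2.1)) := by
          have e : ConjClasses.mk (Quotient.out w.2.1) = w.2.1 := Quotient.out_eq w.2.1
          rw [e]; exact w.2.2
        rw [piClass_mk] at hv
        have hcomm : Commute (w.1 : G)
            ((Quotient.out w.2.1 : ↥(Subgroup.centralizer ({(w.1 : G)} : Set G))) : G) :=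
          (Subgroup.mem_centralizer_iff.mp (Quotient.out w.2.1).2 (w.1 : G) rfl)
        have h1 := hdvd.trans (hcomm.orderOf_mul_dvd_lcm.trans (Nat.lcm_dvd_mul _ _))
        rcases (Nat.Prime.dvd_mul hq).mp h1 with h2 | h2
        · have h3 : orderOf (w.1 : G) ∣ p ^ a := by
            rw [← haP]; exact Subgroup.orderOf_dvd_natCard _ w.1.2
          have h4 := (Nat.prime_dvd_prime_iff_eq hq hp).mp (hq.dvd_of_dvd_pow (h2.trans h3))
          rw [h4]; exact hpπ
        · rw [Subgroup.orderOf_coe] at h2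
          exact ((hπ'mem q).mp (hv q hq h2)).1⟩
    have hf : Function.Surjective f := by
      rintro ⟨C, hC⟩
      obtain ⟨x, rfl⟩ := ConjClasses.mk_surjective C
      rw [piClass_mk] at hC
      obtain ⟨e, r, hr, her⟩ := Nat.exists_eq_pow_mul_and_not_dvd (orderOf_pos x).ne' p hp.ne_one
      have hcop : Nat.Coprime r (p ^ e) :=
        (Nat.Coprime.pow_left e ((Nat.Prime.coprime_iff_not_dvd hp).mpr hr)).symm
      have hbez : (1 : ℤ) = r * Nat.gcdA r (p ^ e) + (p ^ e : ℕ) * Nat.gcdB r (p ^ e) := by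
        rw [← Nat.gcd_eq_gcd_ab, hcop.gcd_eq_one]; rfl
      obtain ⟨y, hydef⟩ : ∃ y, y = (x ^ r) ^ (Nat.gcdA r (p ^ e)) := ⟨_, rfl⟩
      obtain ⟨z, hzdef⟩ : ∃ z, z = (x ^ (p ^ e)) ^ (Nat.gcdB r (p ^ e)) := ⟨_, rfl⟩
      have hxyz : x = y * z := by
        rw [hydef, hzdef, ← zpow_natCast, ← zpow_natCast, ← zpow_mul, ← zpow_mul, ← zpow_add,
          ← hbez, zpow_one]
      have hyp : y ^ (p ^ e) = 1 := by
        rw [hydef, ← zpow_natCast, ← zpow_mul, mul_comm, zpow_mul, zpow_natCast, ← pow_mul,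
          mul_comm, ← her, pow_orderOf_eq_one, one_zpow]
      have hzr : z ^ r = 1 := by
        rw [hzdef, ← zpow_natCast, ← zpow_mul, mul_comm, zpow_mul, zpow_natCast, ← pow_mul,
          ← her, pow_orderOf_eq_one, one_zpow]
      have hyz : y * z = z * y := by
        have h1 : Commute (x ^ r) (x ^ (p ^ e)) := (Commute.refl x).pow_pow _ _
        rw [hydef, hzdef]
        exact (h1.zpow_zpow _ _).eq
      have hyg : IsPGroup p (Subgroup.zpowers y) := by
        rintro ⟨w, hw⟩
        obtain ⟨i, rfl⟩ := Subgroup.mem_zpowers_iff.mp hw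
        refine ⟨e, Subtype.ext ?_⟩
        show (y ^ i) ^ p ^ e = 1
        rw [← zpow_natCast, ← zpow_mul, mul_comm, zpow_mul, zpow_natCast, hyp, one_zpow]
      obtain ⟨Q, hQ⟩ := hyg.exists_le_sylow
      obtain ⟨g, hg⟩ := MulAction.exists_smul_eq G Q P
      have hu : g * y * g⁻¹ ∈ (P : Subgroup G) := by
        rw [← hg, Sylow.coe_subgroup_smul, Cfsg.Agent.Lib.Helper1.mem_conj_smul_iff]
        have e1 : g⁻¹ * (g * y * g⁻¹) * g = y := by group
        rw [e1]; exact hQ (Subgroup.mem_zpowers y)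
      have hv : g * z * g⁻¹ ∈ Subgroup.centralizer ({g * y * g⁻¹} : Set G) := by
        rw [Subgroup.mem_centralizer_iff]
        intro h hh
        rw [Set.mem_singleton_iff.mp hh]
        have e1 : g * y * g⁻¹ * (g * z * g⁻¹) = g * (y * z) * g⁻¹ := by group
        have e2 : g * z * g⁻¹ * (g * y * g⁻¹) = g * (z * y) * g⁻¹ := by group
        rw [e1, e2, hyz]
      have hD : piClass ↥(Subgroup.centralizer ({g * y * g⁻¹} : Set G)) π'
          (ConjClasses.mk ⟨g * z * g⁻¹, hv⟩) := by
        rw [piClass_mk]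
        intro q hq hdvd
        rw [Subgroup.orderOf_mk, orderOf_conj'] at hdvd
        have h1 : q ∣ r := hdvd.trans (orderOf_dvd_of_pow_eq_one hzr)
        rw [hπ'mem]
        refine ⟨hC q hq (her ▸ Dvd.dvd.mul_left h1 _), ?_⟩
        rintro rfl
        exact hr h1
      refine ⟨⟨⟨g * y * g⁻¹, hu⟩, ⟨ConjClasses.mk ⟨g * z * g⁻¹, hv⟩, hD⟩⟩, ?_⟩
      apply Subtype.ext
      show ConjClasses.mk ((g * y * g⁻¹) * ((Quotient.out (ConjClasses.mk
        (⟨g * z * g⁻¹, hv⟩ : ↥(Subgroup.centralizer ({g * y * g⁻¹} : Set G)))) :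
          ↥(Subgroup.centralizer ({g * y * g⁻¹} : Set G))) : G)) = ConjClasses.mk x
      have hout : ConjClasses.mk (Quotient.out (ConjClasses.mk
          (⟨g * z * g⁻¹, hv⟩ : ↥(Subgroup.centralizer ({g * y * g⁻¹} : Set G))))) =
          ConjClasses.mk (⟨g * z * g⁻¹, hv⟩ : ↥(Subgroup.centralizer ({g * y * g⁻¹} : Set G))) :=
        Quotient.out_eq _
      rw [ConjClasses.mk_eq_mk_iff_isConj, isConj_iff] at hout
      obtain ⟨c, hc⟩ := hout
      have hc' : (c : G) * ((Quotient.out (ConjClasses.mk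
          (⟨g * z * g⁻¹, hv⟩ : ↥(Subgroup.centralizer ({g * y * g⁻¹} : Set G)))) :
          ↥(Subgroup.centralizer ({g * y * g⁻¹} : Set G))) : G) * (c : G)⁻¹ = g * z * g⁻¹ := by
        have := congrArg Subtype.val hc
        simpa using this
      have hcu : (g * y * g⁻¹) * (c : G) = (c : G) * (g * y * g⁻¹) :=
        Subgroup.mem_centralizer_iff.mp c.2 _ rfl
      rw [ConjClasses.mk_eq_mk_iff_isConj, isConj_iff]
      refine ⟨g⁻¹ * (c : G), ?_⟩
      obtain ⟨o, ho⟩ : ∃ o : G, o = ((Quotient.out (ConjClasses.mk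
          (⟨g * z * g⁻¹, hv⟩ : ↥(Subgroup.centralizer ({g * y * g⁻¹} : Set G)))) :
          ↥(Subgroup.centralizer ({g * y * g⁻¹} : Set G))) : G) := ⟨_, rfl⟩
      rw [← ho] at hc' ⊢
      have e1 : g⁻¹ * (c : G) * (g * y * g⁻¹ * o) * (g⁻¹ * (c : G))⁻¹
          = g⁻¹ * ((c : G) * (g * y * g⁻¹) * (c : G)⁻¹ * ((c : G) * o * (c : G)⁻¹)) * g := by group
      rw [e1, hc', ← hcu, hxyz]
      group
    have hcard := Nat.card_le_card_of_surjective f hf
    haveI : Fintype (P : Subgroup G) := Fintype.ofFinite _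
    rw [Nat.card_sigma] at hcard
    calc Nat.card {C : ConjClasses G // piClass G π C}
        ≤ ∑ u : (P : Subgroup G), Nat.card {D : ConjClasses ↥(Subgroup.centralizer ({(u : G)} : Set G)) //
          piClass ↥(Subgroup.centralizer ({(u : G)} : Set G)) π' D} := hcard
      _ ≤ ∑ _u : (P : Subgroup G), m₁ := Finset.sum_le_sum (fun u _ => hbound u)
      _ = m := by
        rw [Finset.sum_const, Finset.card_univ, ← Nat.card_eq_fintype_card, haP, smul_eq_mul, hm₁]

/-- Let G be a finite group, π a set of primes and m the π-part of the order of G. Then the number of conjugacy classes of G consisting of π-elements (elements whose order is divisible only by primes in π) is at most m. -/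
theorem result {G : Type*} [Group G] [Finite G]
    (π : Set ℕ) (hπ : ∀ q ∈ π, q.Prime)
    (m : ℕ) (hm : m ∣ Nat.card G) (hmπ : ∀ q : ℕ, q.Prime → q ∣ m → q ∈ π)
    (hm' : ∀ q ∈ π, ¬ q ∣ Nat.card G / m) :
    Nat.card {C : ConjClasses G // ∀ q : ℕ, q.Prime → (∃ g : G, ConjClasses.mk g = C ∧ q ∣ orderOf g) → q ∈ π} ≤ m := by
  exact main m G π hπ hm hmπ hm'

end Cfsg.Agent.S4106
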