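import Cfsg.Statements.S4107
import Mathlib
import Cfsg.Agent.Lib.Helper24.Fitting

set_option autoImplicit false
open Cfsg

namespace Cfsg.Agent.S4107


open Cfsg.Agent.Lib.Helper24 in
theorem key {G : Type*} [Group G] [Finite G] (N : Subgroup G) [N.Normal]
    (heq : ∀ x : G, x ∉ N → ∀ n ∈ N, orderOf (x * n) = orderOf x)
    (q : ℕ) [hq : Fact q.Prime] (Q₁ : Subgroup G) [hQn : Q₁.Normal] (hQ₁ : IsPGroup q Q₁)
    (x : G) (hx : x ∈ Q₁) (hxN : x ∉ N) : IsPGroup q N := by
  have hprime : ∀ r : ℕ, r.Prime → r ∣ Nat.card N → r = q := by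
    intro r hr hrd
    by_contra hrq
    have : Fact r.Prime := ⟨hr⟩
    obtain ⟨ρ, hρ⟩ := exists_prime_orderOf_dvd_card' r hrd
    have hρ' : orderOf (ρ : G) = r := by rw [Subgroup.orderOf_coe]; exact hρ
    let R : Subgroup G := Subgroup.zpowers (ρ : G)
    have hRN : R ≤ N := by
      rw [Subgroup.zpowers_le]; exact ρ.2
    have hR : IsPGroup r R := by
      apply IsPGroup.of_card (n := 1)
      rw [pow_one, Nat.card_zpowers, hρ']
    let Q₀ : Subgroup G := Q₁ ⊓ N
    have hQ₀ : IsPGroup q Q₀ := hQ₁.to_le inf_le_left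
    have hmem : ∀ (a : R) (n₀ : Q₀), x⁻¹ * (a : G) * x * (n₀ : G) * (a : G)⁻¹ ∈ Q₀ := by
      intro a n₀
      have haN : (a : G) ∈ N := hRN a.2
      constructor
      · have e : x⁻¹ * (a : G) * x * (n₀ : G) * (a : G)⁻¹
            = x⁻¹ * ((a : G) * x * (a : G)⁻¹) * ((a : G) * (n₀ : G) * (a : G)⁻¹) := by group
        rw [e]
        exact Q₁.mul_mem (Q₁.mul_mem (Q₁.inv_mem hx) (hQn.conj_mem _ hx _))
          (hQn.conj_mem _ n₀.2.1 _)
      · have e : x⁻¹ * (a : G) * x * (n₀ : G) * (a : G)⁻¹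
            = (x⁻¹ * (a : G) * x⁻¹⁻¹) * (n₀ : G) * (a : G)⁻¹ := by group
        rw [e]
        exact N.mul_mem (N.mul_mem (‹N.Normal›.conj_mem _ haN _) n₀.2.2) (N.inv_mem haN)
    let act : MulAction R Q₀ :=
      { smul := fun a n₀ => ⟨x⁻¹ * (a : G) * x * (n₀ : G) * (a : G)⁻¹, hmem a n₀⟩
        one_smul := by
          intro n₀
          apply Subtype.ext
          change x⁻¹ * ((1 : R) : G) * x * (n₀ : G) * ((1 : R) : G)⁻¹ = n₀
          simp
        mul_smul := by
          intro a b n₀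
          apply Subtype.ext
          change x⁻¹ * ((a * b : R) : G) * x * (n₀ : G) * ((a * b : R) : G)⁻¹
            = x⁻¹ * (a : G) * x * (x⁻¹ * (b : G) * x * (n₀ : G) * (b : G)⁻¹) * (a : G)⁻¹
          rw [Subgroup.coe_mul]; group }
    obtain ⟨k, hk⟩ := IsPGroup.iff_card.1 hQ₀
    have hnd : ¬ r ∣ Nat.card Q₀ := by
      rw [hk]
      intro h
      exact hrq ((Nat.prime_dvd_prime_iff_eq hr hq.out).1 (hr.dvd_of_dvd_pow h))
    obtain ⟨n₀, hn₀⟩ := hR.nonempty_fixed_point_of_prime_not_dvd_card Q₀ hnd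
    have hfix : x⁻¹ * (ρ : G) * x * (n₀ : G) * (ρ : G)⁻¹ = n₀ := by
      have := hn₀ ⟨(ρ : G), Subgroup.mem_zpowers _⟩
      exact congrArg Subtype.val this
    have hcomm : Commute (x * (n₀ : G)) (ρ : G) := by
      change x * (n₀ : G) * (ρ : G) = (ρ : G) * (x * (n₀ : G))
      have e : (ρ : G) * (x * (n₀ : G)) = x * (x⁻¹ * (ρ : G) * x * (n₀ : G) * (ρ : G)⁻¹) * (ρ : G) := by
        group
      rw [e, hfix]
    have hcN : x * (n₀ : G) ∉ N := by
      intro h
      apply hxN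
      have := N.mul_mem h (N.inv_mem n₀.2.2)
      simpa using this
    have ho1 : orderOf (x * (n₀ : G)) = orderOf x := heq x hxN _ n₀.2.2
    have ho2 : orderOf (x * (n₀ : G) * (ρ : G)) = orderOf (x * (n₀ : G)) := heq _ hcN _ ρ.2
    obtain ⟨e, he⟩ := (IsPGroup.iff_orderOf.1 hQ₁) ⟨x, hx⟩
    have he' : orderOf x = q ^ e := by rw [← he, Subgroup.orderOf_mk]
    have hcop : (orderOf (x * (n₀ : G))).Coprime (orderOf (ρ : G)) := by
      rw [ho1, he', hρ']
      apply Nat.Coprime.pow_left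
      exact (Nat.coprime_primes hq.out hr).2 (fun h => hrq h.symm)
    have ho3 := hcomm.orderOf_mul_eq_mul_orderOf_of_coprime hcop
    rw [ho2, hρ'] at ho3
    have hpos : 0 < orderOf (x * (n₀ : G)) := orderOf_pos _
    have : r = 1 := by nlinarith
    exact hr.one_lt.ne' this
  have hc : Nat.card N = q ^ (Nat.card N).primeFactorsList.length :=
    Nat.eq_prime_pow_of_unique_prime_dvd Nat.card_pos.ne' (fun {d} hd hdd => hprime d hd hdd)
  exact IsPGroup.of_card hc

/-- Let G be a finite group and N a proper non-trivial normal subgroup such that for every x outside N all elements of the coset xN have the same order as x. Then N ≤ F(G) or F(G) ≤ N, where F(G) is the Fitting subgroup; and if N is properly contained in F(G) then F(G) has prime-power order. -/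
theorem result {G : Type*} [Group G] [Finite G] (N : Subgroup G) [N.Normal] (hN1 : N ≠ ⊥) (hN2 : N ≠ ⊤)
    (heq : ∀ x : G, x ∉ N → ∀ n ∈ N, orderOf (x * n) = orderOf x) :
    (N ≤ Cfsg.fittingSubgroup G ∨ Cfsg.fittingSubgroup G ≤ N) ∧
    (N < Cfsg.fittingSubgroup G → IsPrimePow (Nat.card (Cfsg.fittingSubgroup G))) := by
  classical
  have hFn : (Cfsg.fittingSubgroup G).Normal := Cfsg.Agent.Lib.Helper24.fitting_normal'
  have hFnil : Group.IsNilpotent (Cfsg.fittingSubgroup G) := Cfsg.Agent.Lib.Helper24.fitting_nilpotent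
  -- Claim A
  have hA : ∀ (q : ℕ) [Fact q.Prime] (y : G), y ∈ Cfsg.fittingSubgroup G → y ∉ N →
      (∃ e : ℕ, orderOf y = q ^ e) → IsPGroup q N := by
    intro q hq y hyF hyN ⟨e, he⟩
    obtain ⟨Q₁, hQn, hQF, hQp, hQi⟩ :=
      Cfsg.Agent.Lib.Helper24.exists_normal_sylow_of_nilpotent (Cfsg.fittingSubgroup G) hFnil q
    have hyQ : y ∈ Q₁ := by
      have h1 : (⟨y, hyF⟩ : Cfsg.fittingSubgroup G) ^ (Q₁.subgroupOf (Cfsg.fittingSubgroup G)).index
          ∈ Q₁.subgroupOf (Cfsg.fittingSubgroup G) := by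
        have : (Q₁.subgroupOf (Cfsg.fittingSubgroup G)).Normal := hQn.subgroupOf _
        exact Subgroup.pow_index_mem _ _
      have h2 : y ^ (Q₁.relIndex (Cfsg.fittingSubgroup G)) ∈ Q₁ := by
        have := Subgroup.mem_subgroupOf.1 h1
        simpa [Subgroup.relIndex] using this
      have h3 : ((QuotientGroup.mk y : G ⧸ Q₁)) ^ (Q₁.relIndex (Cfsg.fittingSubgroup G)) = 1 := by
        rw [← QuotientGroup.mk_pow, QuotientGroup.eq_one_iff]; exact h2
      have h4 : ((QuotientGroup.mk y : G ⧸ Q₁)) ^ (q ^ e) = 1 := by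
        rw [← QuotientGroup.mk_pow, ← he, pow_orderOf_eq_one]; rfl
      have h5 : orderOf (QuotientGroup.mk y : G ⧸ Q₁) ∣ Nat.gcd (Q₁.relIndex (Cfsg.fittingSubgroup G)) (q ^ e) :=
        Nat.dvd_gcd (orderOf_dvd_of_pow_eq_one h3) (orderOf_dvd_of_pow_eq_one h4)
      have h6 : Nat.gcd (Q₁.relIndex (Cfsg.fittingSubgroup G)) (q ^ e) = 1 := by
        apply Nat.Coprime.pow_right
        exact Nat.Coprime.symm ((Nat.Prime.coprime_iff_not_dvd hq.out).2 hQi)
      rw [h6, Nat.dvd_one, orderOf_eq_one_iff, QuotientGroup.eq_one_iff] at h5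
      exact h5
    exact key N heq q Q₁ hQp y hyQ hyN
  -- Claim B
  have hB : ¬ Cfsg.fittingSubgroup G ≤ N → ∃ (q : ℕ) (_ : Fact q.Prime) (y : G),
      y ∈ Cfsg.fittingSubgroup G ∧ y ∉ N ∧ ∃ e : ℕ, orderOf y = q ^ e := by
    intro hle
    obtain ⟨x, hxF, hxN⟩ := SetLike.not_le_iff_exists.1 hle
    have hx1 : orderOf (QuotientGroup.mk x : G ⧸ N) ≠ 1 := by
      rw [Ne, orderOf_eq_one_iff, QuotientGroup.eq_one_iff]; exact hxN
    have hqp : (orderOf (QuotientGroup.mk x : G ⧸ N)).minFac.Prime := Nat.minFac_prime hx1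
    set q := (orderOf (QuotientGroup.mk x : G ⧸ N)).minFac with hq
    obtain ⟨e, m, hm, hem⟩ := Nat.exists_eq_pow_mul_and_not_dvd (orderOf_pos x).ne' q hqp.ne_one
    refine ⟨q, ⟨hqp⟩, x ^ m, Subgroup.pow_mem _ hxF m, ?_, e, ?_⟩
    · intro hmem
      apply hm
      have h1 : (QuotientGroup.mk x : G ⧸ N) ^ m = 1 := by
        rw [← QuotientGroup.mk_pow, QuotientGroup.eq_one_iff]; exact hmem
      exact dvd_trans (Nat.minFac_dvd _) (orderOf_dvd_of_pow_eq_one h1)
    · have hm0 : m ≠ 0 := by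
        rintro rfl
        exact hm (dvd_zero _)
      rw [orderOf_pow_of_dvd hm0 (hem ▸ Dvd.intro_left _ rfl), hem]
      exact Nat.mul_div_cancel _ (Nat.pos_of_ne_zero hm0)
  constructor
  · by_cases hle : Cfsg.fittingSubgroup G ≤ N
    · exact Or.inr hle
    · left
      obtain ⟨q, hq, y, hyF, hyN, he⟩ := hB hle
      have hNq : IsPGroup q N := hA q y hyF hyN he
      exact Cfsg.Agent.Lib.Helper24.le_fitting N inferInstance hNq.isNilpotent
  · intro hlt
    have hle : ¬ Cfsg.fittingSubgroup G ≤ N := not_le_of_gt hlt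
    obtain ⟨q, hq, y, hyF, hyN, he⟩ := hB hle
    have hNq : IsPGroup q N := hA q y hyF hyN he
    obtain ⟨a, ha⟩ := IsPGroup.iff_card.1 hNq
    have hNcard : 1 < Nat.card N := by
      rw [Subgroup.one_lt_card_iff_ne_bot]; exact hN1
    have hprime : ∀ r : ℕ, r.Prime → r ∣ Nat.card (Cfsg.fittingSubgroup G) → r = q := by
      intro r hr hrd
      by_contra hrq
      have : Fact r.Prime := ⟨hr⟩
      obtain ⟨w, hw⟩ := exists_prime_orderOf_dvd_card' r hrd
      have hw' : orderOf (w : G) = r := by rw [Subgroup.orderOf_coe]; exact hw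
      have hwN : (w : G) ∉ N := by
        intro hwN
        obtain ⟨k, hk⟩ := (IsPGroup.iff_orderOf.1 hNq) ⟨(w : G), hwN⟩
        rw [Subgroup.orderOf_mk, hw'] at hk
        have : q ∣ r := by
          rcases Nat.eq_zero_or_pos k with rfl | hkpos
          · rw [pow_zero] at hk; exact absurd hk hr.one_lt.ne'
          · rw [hk]; exact dvd_pow_self q hkpos.ne'
        exact hrq ((Nat.prime_dvd_prime_iff_eq hq.out hr).1 this).symm
      have hNr : IsPGroup r N := hA r (w : G) w.2 hwN ⟨1, by rw [pow_one]; exact hw'⟩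
      obtain ⟨b, hb⟩ := IsPGroup.iff_card.1 hNr
      have hqa : q ∣ Nat.card N := by
        rcases Nat.eq_zero_or_pos a with rfl | hapos
        · rw [pow_zero] at ha; omega
        · rw [ha]; exact dvd_pow_self q hapos.ne'
      rw [hb] at hqa
      exact hrq ((Nat.prime_dvd_prime_iff_eq hq.out hr).1 (hq.out.dvd_of_dvd_pow hqa)).symm
    have hc : Nat.card (Cfsg.fittingSubgroup G) = q ^ (Nat.card (Cfsg.fittingSubgroup G)).primeFactorsList.length :=
      Nat.eq_prime_pow_of_unique_prime_dvd Nat.card_pos.ne' (fun {d} hd hdd => hprime d hd hdd)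
    rw [isPrimePow_nat_iff]
    refine ⟨q, _, hq.out, ?_, hc.symm⟩
    by_contra h0
    have h0' : (Nat.card (Cfsg.fittingSubgroup G)).primeFactorsList.length = 0 := by omega
    rw [h0', pow_zero] at hc
    have : Nat.card N ≤ Nat.card (Cfsg.fittingSubgroup G) := Subgroup.card_le_of_le hlt.le
    omega

end Cfsg.Agent.S4107
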