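import Cfsg.Statements.S4108
import Mathlib

set_option autoImplicit false
open Cfsg

namespace Cfsg.Agent.S4108

open scoped Pointwise

theorem mem_conj_smul {G : Type*} [Group G] (H : Subgroup G) (g z : G) :
    z ∈ MulAut.conj g • H ↔ g⁻¹ * z * g ∈ H := by
  rw [Subgroup.mem_pointwise_smul_iff_inv_smul_mem]
  simp [MulAut.smul_def]

/-- Let G be a finite group, p a prime and N a proper non-trivial normal p-subgroup such that for every x outside N all elements of the coset xN have the same order as x. Then every non-trivial subgroup H of G of order prime to p acts fixed-point-freely on N: NH is a Frobenius group with complement H and kernel N. -/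
theorem result {G : Type*} [Group G] [Finite G] (N : Subgroup G) [N.Normal] (hN1 : N ≠ ⊥) (hN2 : N ≠ ⊤)
    (heq : ∀ x : G, x ∉ N → ∀ n ∈ N, orderOf (x * n) = orderOf x)
    (p : ℕ) [Fact p.Prime] (hNp : IsPGroup p N) :
    ∀ H : Subgroup G, H ≠ ⊥ → (Nat.card H).Coprime p →
      Cfsg.IsFrobeniusComplement (H.subgroupOf (N ⊔ H)) ∧ Cfsg.frobeniusKernel (H.subgroupOf (N ⊔ H)) = (N.subgroupOf (N ⊔ H) : Set ↥(N ⊔ H)) := by
  intro H hH1 hcop
  have hNn : N.Normal := inferInstance
  have hordN : ∀ n ∈ N, ∃ k : ℕ, orderOf n ∣ p ^ k := by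
    intro n hn
    obtain ⟨k, hk⟩ := hNp ⟨n, hn⟩
    refine ⟨k, orderOf_dvd_of_pow_eq_one ?_⟩
    have := congrArg Subtype.val hk
    simpa using this
  have hordH : ∀ h ∈ H, orderOf h ∣ Nat.card H := by
    intro h hh
    have := orderOf_dvd_natCard (⟨h, hh⟩ : H)
    rwa [Subgroup.orderOf_mk] at this
  have hcopo : ∀ h ∈ H, ∀ n ∈ N, (orderOf h).Coprime (orderOf n) := by
    intro h hh n hn
    obtain ⟨k, hk⟩ := hordN n hn
    exact Nat.Coprime.coprime_dvd_left (hordH h hh)
      (Nat.Coprime.coprime_dvd_right hk (Nat.Coprime.pow_right k hcop))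
  have F1 : ∀ g, g ∈ N → g ∈ H → g = 1 := by
    intro g hgN hgH
    have := hcopo g hgH g hgN
    rw [Nat.coprime_self] at this
    exact orderOf_eq_one_iff.mp this
  have F2 : ∀ h ∈ H, h ≠ 1 → ∀ n ∈ N, n * h = h * n → n = 1 := by
    intro h hh hh1 n hn hc
    have hhN : h ∉ N := fun hN => hh1 (F1 h hN hh)
    have h1 := heq h hhN n hn
    have hcomm : Commute h n := hc.symm
    rw [hcomm.orderOf_mul_eq_mul_orderOf_of_coprime (hcopo h hh n hn)] at h1
    have hpos : 0 < orderOf h := orderOf_pos h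
    have : orderOf n = 1 := by
      have : orderOf h * orderOf n = orderOf h * 1 := by rw [h1, mul_one]
      exact Nat.eq_of_mul_eq_mul_left hpos this
    exact orderOf_eq_one_iff.mp this
  have F3 : ∀ n ∈ N, ∀ h ∈ H, ∀ h' ∈ H, h ≠ 1 → n * h' * n⁻¹ = h → n = 1 := by
    intro n hn h hh h' hh' hh1 e
    have h1 : h * h'⁻¹ ∈ N := by
      rw [← e]
      have : n * h' * n⁻¹ * h'⁻¹ = n * (h' * n⁻¹ * h'⁻¹) := by group
      rw [this]
      exact N.mul_mem hn (hNn.conj_mem _ (N.inv_mem hn) h')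
    have h2 : h * h'⁻¹ = 1 := F1 _ h1 (H.mul_mem hh (H.inv_mem hh'))
    have h3 : h' = h := (mul_inv_eq_one.mp h2).symm
    rw [h3] at e
    apply F2 h hh hh1 n hn
    exact mul_inv_eq_iff_eq_mul.mp e
  have F4 : ∀ h ∈ H, h ≠ 1 → ∀ n ∈ N, ∃ m ∈ N, m * h * m⁻¹ = n * h := by
    intro h hh hh1 n hn
    let φ : N → N := fun m => ⟨m * h * (m : G)⁻¹ * h⁻¹, by
      have : (m : G) * h * (m : G)⁻¹ * h⁻¹ = m * (h * (m : G)⁻¹ * h⁻¹) := by group
      rw [this]
      exact N.mul_mem m.2 (hNn.conj_mem _ (N.inv_mem m.2) h)⟩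
    have hinj : Function.Injective φ := by
      intro m m' hmm
      have e : (m : G) * h * (m : G)⁻¹ * h⁻¹ = m' * h * (m' : G)⁻¹ * h⁻¹ :=
        congrArg Subtype.val hmm
      have e3 : (m : G) * h * (m : G)⁻¹ = m' * h * (m' : G)⁻¹ := mul_right_cancel e
      have e2 : ((m' : G)⁻¹ * m) * h = h * ((m' : G)⁻¹ * m) := by
        calc ((m' : G)⁻¹ * m) * h = (m' : G)⁻¹ * ((m : G) * h * (m : G)⁻¹) * m := by group
          _ = (m' : G)⁻¹ * ((m' : G) * h * (m' : G)⁻¹) * m := by rw [e3]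
          _ = h * ((m' : G)⁻¹ * m) := by group
      have e4 := F2 h hh hh1 _ (N.mul_mem (N.inv_mem m'.2) m.2) e2
      exact Subtype.ext (inv_mul_eq_one.mp e4).symm
    have hsurj : Function.Surjective φ := Finite.surjective_of_injective hinj
    obtain ⟨m, hm⟩ := hsurj ⟨n, hn⟩
    refine ⟨m, m.2, ?_⟩
    have e : (m : G) * h * (m : G)⁻¹ * h⁻¹ = n := congrArg Subtype.val hm
    rw [← e]; group
  have hdec : ∀ g ∈ N ⊔ H, ∃ n ∈ N, ∃ h ∈ H, n * h = g := by
    intro g hg
    have : g ∈ ((N ⊔ H : Subgroup G) : Set G) := hg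
    rw [Subgroup.normal_mul] at this
    exact Set.mem_mul.mp this
  refine ⟨⟨?_, ?_, ?_⟩, ?_⟩
  · intro hbot
    obtain ⟨⟨h, hh⟩, hh1⟩ := (Subgroup.ne_bot_iff_exists_ne_one).mp hH1
    have : (⟨h, Subgroup.mem_sup_right hh⟩ : ↥(N ⊔ H)) ∈ H.subgroupOf (N ⊔ H) := by
      rw [Subgroup.mem_subgroupOf]; exact hh
    rw [hbot, Subgroup.mem_bot] at this
    apply hh1
    have h1 : h = 1 := congrArg Subtype.val this
    exact Subtype.ext h1
  · intro htop
    obtain ⟨⟨n, hn⟩, hn1⟩ := (Subgroup.ne_bot_iff_exists_ne_one).mp hN1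
    have : (⟨n, Subgroup.mem_sup_left hn⟩ : ↥(N ⊔ H)) ∈ H.subgroupOf (N ⊔ H) := by
      rw [htop]; exact Subgroup.mem_top _
    rw [Subgroup.mem_subgroupOf] at this
    apply hn1
    exact Subtype.ext (F1 n hn this)
  · intro g hg
    rw [eq_bot_iff]
    intro z hz
    rw [Subgroup.mem_bot]
    obtain ⟨hz1, hz2⟩ := Subgroup.mem_inf.mp hz
    rw [mem_conj_smul, Subgroup.mem_subgroupOf] at hz2
    rw [Subgroup.mem_subgroupOf] at hz1 hg
    by_contra hz0
    obtain ⟨n, hn, h₀, hh₀, e⟩ := hdec g g.2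
    have hz0' : (z : G) ≠ 1 := fun h => hz0 (Subtype.ext h)
    have hz2' : (g : G)⁻¹ * z * g ∈ H := hz2
    have : n = 1 := by
      apply F3 n hn (z : G) hz1 (h₀ * ((g : G)⁻¹ * z * g) * h₀⁻¹)
        (H.mul_mem (H.mul_mem hh₀ hz2') (H.inv_mem hh₀)) hz0'
      rw [← e]; group
    apply hg
    rw [← e, this, one_mul]; exact hh₀
  · ext x
    constructor
    · intro hx
      rcases hx with rfl | hx
      · exact Subgroup.one_mem _
      · show x ∈ N.subgroupOf (N ⊔ H)
        rw [Subgroup.mem_subgroupOf]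
        obtain ⟨n, hn, h, hh, e⟩ := hdec x x.2
        by_cases hh1 : h = 1
        · rw [← e, hh1, mul_one]; exact hn
        · exfalso
          obtain ⟨m, hm, hme⟩ := F4 h hh hh1 n hn
          apply hx ⟨m, Subgroup.mem_sup_left hm⟩
          rw [mem_conj_smul, Subgroup.mem_subgroupOf]
          show (m : G)⁻¹ * x * m ∈ H
          rw [← e, ← hme]
          have : m⁻¹ * (m * h * m⁻¹) * m = h := by group
          rw [this]; exact hh
    · intro hx
      have hxN : (x : G) ∈ N := Subgroup.mem_subgroupOf.mp hx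
      by_cases hx1 : x = 1
      · exact Or.inl hx1
      · refine Or.inr ?_
        intro g hxg
        rw [mem_conj_smul, Subgroup.mem_subgroupOf] at hxg
        have hxg' : (g : G)⁻¹ * x * g ∈ H := hxg
        have hN' : (g : G)⁻¹ * x * g ∈ N := by
          have := hNn.conj_mem _ hxN (g : G)⁻¹
          simpa using this
        have h1 := F1 _ hN' hxg'
        apply hx1
        apply Subtype.ext
        have : (x : G) = g * ((g : G)⁻¹ * x * g) * (g : G)⁻¹ := by group
        rw [this, h1]; simp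

end Cfsg.Agent.S4108
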