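import Cfsg.Statements.S4112
import Mathlib

set_option autoImplicit false
open Cfsg

namespace Cfsg.Agent.S4112

universe u

theorem coprime_of_fpf {G : Type*} [Group G] [Finite G] (N M : Subgroup G) [N.Normal]
    [hMn : M.Normal]
    (h1 : ∀ x ∈ M, x ≠ 1 → Subgroup.centralizer ({x} : Set G) ≤ N) :
    N.index.Coprime (Nat.card M) := by
  by_contra hcon
  obtain ⟨p, hp, hp1, hp2⟩ := Nat.Prime.not_coprime_iff_dvd.mp hcon
  have : Fact p.Prime := ⟨hp⟩
  have hp1' : p ∣ Nat.card (G ⧸ N) := hp1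
  obtain ⟨q, hq⟩ := exists_prime_orderOf_dvd_card' p hp1'
  obtain ⟨g, rfl⟩ := QuotientGroup.mk_surjective q
  have ho : orderOf g ≠ 0 := (orderOf_pos g).ne'
  obtain ⟨e, o', ho', hoe⟩ := Nat.exists_eq_pow_mul_and_not_dvd ho p hp.ne_one
  have ho'0 : o' ≠ 0 := by rintro rfl; simp at ho'
  have hg'ord : orderOf (g ^ o') = p ^ e := by
    rw [orderOf_pow_of_dvd ho'0 (Dvd.intro_left _ hoe.symm), hoe]
    exact Nat.mul_div_cancel _ (Nat.pos_of_ne_zero ho'0)
  have hg'N : g ^ o' ∉ N := by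
    intro hmem
    have h2 : ((g ^ o' : G) : G ⧸ N) = 1 := (QuotientGroup.eq_one_iff _).mpr hmem
    rw [QuotientGroup.mk_pow] at h2
    have h3 := orderOf_dvd_of_pow_eq_one h2
    rw [hq] at h3
    exact ho' h3
  obtain ⟨Z, hZdef⟩ : ∃ Z : Subgroup G, Z = Subgroup.zpowers (g ^ o') := ⟨_, rfl⟩
  have hZ : IsPGroup p Z := by
    apply IsPGroup.of_card (n := e)
    rw [hZdef, Nat.card_zpowers, hg'ord]
  let _ : MulAction Z M := MulAction.compHom M ((MulAut.conjNormal (H := M)).comp Z.subtype)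
  have hsmul : ∀ (z : Z) (m : M), ((z • m : M) : G) = z * m * (z : G)⁻¹ := fun z m => rfl
  have hfix1 : (1 : M) ∈ MulAction.fixedPoints Z M := by
    intro z
    apply Subtype.ext
    rw [hsmul]; simp
  obtain ⟨b, hb, hb1⟩ := hZ.exists_fixed_point_of_prime_dvd_card_of_fixed_point M hp2 hfix1
  have hbG : (b : G) ≠ 1 := fun h => hb1 (Subtype.ext h.symm)
  have hcomm := hb ⟨g ^ o', by rw [hZdef]; exact Subgroup.mem_zpowers _⟩
  have hcomm' : (g ^ o') * b * (g ^ o')⁻¹ = b := by
    have := congrArg Subtype.val hcomm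
    rwa [hsmul] at this
  apply hg'N
  apply h1 b b.2 hbG
  rw [Subgroup.mem_centralizer_iff]
  intro w hw
  rw [Set.mem_singleton_iff.mp hw]
  exact (mul_inv_eq_iff_eq_mul.mp hcomm').symm

theorem fpf_of_coprime {G : Type*} [Group G] [Finite G] (N M : Subgroup G) [N.Normal]
    [M.Normal]
    (hcam : ∀ g : G, g ∉ N → ∀ m ∈ M, ∃ x : G, x * g * x⁻¹ = g * m)
    (hcop : N.index.Coprime (Nat.card M)) :
    ∀ x ∈ M, x ≠ 1 → Subgroup.centralizer ({x} : Set G) ≤ N := by
  intro x hxM hx1 c hc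
  by_contra hcN
  have hcx : Commute c x := by
    rw [Subgroup.mem_centralizer_iff] at hc
    exact (hc x rfl).symm
  have hox : orderOf x ≠ 1 := fun h => hx1 (orderOf_eq_one_iff.mp h)
  obtain ⟨r, hr, hrx⟩ := Nat.exists_prime_and_dvd hox
  obtain ⟨x', hx'⟩ : ∃ x' : G, x' = x ^ (orderOf x / r) := ⟨_, rfl⟩
  have hx'ord : orderOf x' = r := by
    rw [hx']; exact orderOf_pow_orderOf_div (orderOf_pos x).ne' hrx
  have hx'M : x' ∈ M := by rw [hx']; exact M.pow_mem hxM _
  have hcx' : Commute c x' := by rw [hx']; exact hcx.pow_right _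
  have hrM : r ∣ Nat.card M := by
    have := orderOf_dvd_natCard (⟨x', hx'M⟩ : M)
    rw [Subgroup.orderOf_mk, hx'ord] at this
    exact this
  have ho : orderOf c ≠ 0 := (orderOf_pos c).ne'
  obtain ⟨e, o', ho', hoe⟩ := Nat.exists_eq_pow_mul_and_not_dvd ho r hr.ne_one
  have ho'0 : o' ≠ 0 := by rintro rfl; simp at ho'
  have hgord : orderOf (c ^ (r ^ e)) = o' := by
    rw [orderOf_pow_of_dvd (pow_ne_zero _ hr.ne_zero) (Dvd.intro _ hoe.symm), hoe]
    exact Nat.mul_div_cancel_left _ (pow_pos hr.pos _)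
  have hgN : c ^ (r ^ e) ∉ N := by
    intro hmem
    have h1 : ((c : G) : G ⧸ N) ^ (r ^ e) = 1 := by
      rw [← QuotientGroup.mk_pow]; exact (QuotientGroup.eq_one_iff _).mpr hmem
    have h2 : orderOf ((c : G) : G ⧸ N) ∣ r ^ e := orderOf_dvd_of_pow_eq_one h1
    have h3 : orderOf ((c : G) : G ⧸ N) ∣ N.index := orderOf_dvd_natCard _
    have h4 : (N.index).Coprime (r ^ e) :=
      Nat.Coprime.pow_right _ (Nat.Coprime.coprime_dvd_right hrM hcop)
    have h5 : orderOf ((c : G) : G ⧸ N) = 1 := Nat.eq_one_of_dvd_coprimes h4 h3 h2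
    have h6 := orderOf_eq_one_iff.mp h5
    exact hcN ((QuotientGroup.eq_one_iff _).mp h6)
  obtain ⟨y, hy⟩ := hcam _ hgN x' hx'M
  have h7 : orderOf (c ^ (r ^ e) * x') = orderOf (c ^ (r ^ e)) := by
    rw [← hy]
    exact (MulAut.conj y).orderOf_eq (c ^ (r ^ e))
  have hcomm : Commute (c ^ (r ^ e)) x' := hcx'.pow_left _
  have hcop' : (orderOf (c ^ (r ^ e))).Coprime (orderOf x') := by
    rw [hgord, hx'ord]
    exact (Nat.Coprime.symm ((Nat.Prime.coprime_iff_not_dvd hr).mpr ho'))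
  rw [hcomm.orderOf_mul_eq_mul_orderOf_of_coprime hcop', hgord, hx'ord] at h7
  have ho'pos : 0 < o' := Nat.pos_of_ne_zero ho'0
  have : r = 1 := by
    have : o' * r = o' * 1 := by rw [h7, mul_one]
    exact Nat.eq_of_mul_eq_mul_left ho'pos this
  exact hr.ne_one this

theorem exists_proper_supp {G : Type*} [Group G] [Finite G] (N M : Subgroup G)
    [hNn : N.Normal] [M.Normal] (hMN : M ≤ N) (hM1 : M ≠ ⊥)
    (h1 : ∀ x ∈ M, x ≠ 1 → Subgroup.centralizer ({x} : Set G) ≤ N) :
    ∃ G' : Subgroup G, G' ≠ ⊤ ∧ G' ⊔ N = ⊤ := by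
  have hcop := coprime_of_fpf N M h1
  have hcardM : Nat.card M ≠ 1 := fun h => hM1 (Subgroup.card_eq_one.mp h)
  obtain ⟨p, hp, hpM⟩ := Nat.exists_prime_and_dvd hcardM
  have : Fact p.Prime := ⟨hp⟩
  have hpN : ¬ p ∣ N.index := fun h => hp.one_lt.ne' (Nat.eq_one_of_dvd_coprimes hcop h hpM)
  have hpcardN : p ∣ Nat.card N := hpM.trans (Subgroup.card_dvd_of_le hMN)
  obtain ⟨T⟩ : Nonempty (Sylow p N) := inferInstance
  obtain ⟨T', hT'⟩ : ∃ T' : Subgroup G, T' = (T : Subgroup N).map N.subtype := ⟨_, rfl⟩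
  have hfr : Subgroup.normalizer (T' : Set G) ⊔ N = ⊤ := by
    rw [hT']; exact Sylow.normalizer_sup_eq_top T
  by_cases hnT : Subgroup.normalizer (T' : Set G) = ⊤
  · have hT'n : T'.Normal := Subgroup.normalizer_eq_top_iff.mp hnT
    have hcardT' : Nat.card T' = p ^ (Nat.card N).factorization p := by
      rw [hT', Subgroup.card_map_of_injective (Subgroup.subtype_injective _)]
      exact Sylow.card_eq_multiplicity T
    have hT'bot : T' ≠ ⊥ := by
      intro h
      rw [h, Subgroup.card_bot] at hcardT'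
      have hpos : 0 < (Nat.card N).factorization p :=
        Nat.Prime.factorization_pos_of_dvd hp Nat.card_pos.ne' hpcardN
      have : 1 < p ^ (Nat.card N).factorization p := Nat.one_lt_pow hpos.ne' hp.one_lt
      omega
    have hidx : ¬ p ∣ T'.index := by
      rw [hT', Subgroup.index_map_subtype]
      intro h
      rcases (Nat.Prime.dvd_mul hp).mp h with h | h
      · exact T.not_dvd_index h
      · exact hpN h
    have hcopT : (Nat.card T').Coprime T'.index := by
      rw [hcardT']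
      exact Nat.Coprime.pow_left _ ((Nat.Prime.coprime_iff_not_dvd hp).mpr hidx)
    obtain ⟨H₀, hH₀⟩ := Subgroup.exists_right_complement'_of_coprime hcopT
    refine ⟨H₀, ?_, ?_⟩
    · rintro rfl
      exact hT'bot (Subgroup.isComplement'_top_right.mp hH₀)
    · have h2 : T' ⊔ H₀ = ⊤ := hH₀.sup_eq_top
      have hT'N : T' ≤ N := by
        rw [hT']; exact Subgroup.map_subtype_le _
      rw [eq_top_iff, ← h2]
      exact sup_le (le_sup_of_le_right hT'N) le_sup_left
  · exact ⟨_, hnT, hfr⟩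

theorem exists_supp_aux : ∀ (n : ℕ) (G : Type u) [Group G] [Finite G], Nat.card G = n →
    ∀ (N M : Subgroup G) [N.Normal] [M.Normal], M ≤ N →
    (∀ x ∈ M, x ≠ 1 → Subgroup.centralizer ({x} : Set G) ≤ N) →
    ∃ H : Subgroup G, H ⊔ N = ⊤ ∧ H ⊓ M = ⊥ := by
  intro n
  induction n using Nat.strong_induction_on with
  | _ n ih =>
    intro G _ _ hn N M _ _ hMN h1
    by_cases hM1 : M = ⊥
    · exact ⟨⊤, top_sup_eq _, by rw [hM1, inf_bot_eq]⟩
    · obtain ⟨G', hG'top, hG'N⟩ := exists_proper_supp N M hMN hM1 h1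
      have hlt : Nat.card G' < n := by
        rw [← hn]
        exact lt_of_le_of_ne (Subgroup.card_le_card_group G')
          (fun h => hG'top ((Subgroup.card_eq_iff_eq_top G').mp h))
      obtain ⟨H', hH'1, hH'2⟩ := ih (Nat.card G') hlt G' rfl (N.subgroupOf G')
        (M.subgroupOf G')
        (fun z hz => Subgroup.mem_subgroupOf.mpr (hMN (Subgroup.mem_subgroupOf.mp hz)))
        (by
          intro x hx hx1 c hc
          rw [Subgroup.mem_subgroupOf] at hx ⊢
          apply h1 (x : G) hx (fun h => hx1 (Subtype.ext h))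
          rw [Subgroup.mem_centralizer_iff] at hc ⊢
          intro w hw
          rw [Set.mem_singleton_iff.mp hw]
          have := hc x rfl
          exact congrArg Subtype.val this)
      refine ⟨H'.map G'.subtype, ?_, ?_⟩
      · rw [eq_top_iff, ← hG'N]
        apply sup_le _ le_sup_right
        intro g hg
        have h3 : (⟨g, hg⟩ : G') ∈ H' ⊔ N.subgroupOf G' := by
          rw [hH'1]; exact Subgroup.mem_top _
        have h2 : g ∈ (H' ⊔ N.subgroupOf G').map G'.subtype := ⟨⟨g, hg⟩, h3, rfl⟩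
        rw [Subgroup.map_sup] at h2
        have h4 : (N.subgroupOf G').map G'.subtype ≤ N := by
          rintro _ ⟨w, hw, rfl⟩
          exact Subgroup.mem_subgroupOf.mp hw
        exact (sup_le_sup_left h4 _) h2
      · rw [eq_bot_iff]
        rintro z ⟨⟨z', hz', rfl⟩, hzM⟩
        have h5 : z' ∈ H' ⊓ M.subgroupOf G' := ⟨hz', Subgroup.mem_subgroupOf.mpr hzM⟩
        rw [hH'2, Subgroup.mem_bot] at h5
        rw [h5]; exact Subgroup.one_mem _

/-- Let G be a finite group and M ≤ N non-trivial proper normal subgroups such that for every g outside N the conjugacy class of g is a union of cosets of M (equivalently gm is conjugate to g for every m ∈ M). Then (1) and (2) below are equivalent, and they imply (3): (1) every g outside N acts fixed-point-freely on M, that is C_G(x) ≤ N for every x ∈ M, x ≠ 1; (2) the index of N in G is coprime to the order of M; (3) there is a subgroup H of G with HN = G and H ∩ M = 1. -/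
theorem result {G : Type*} [Group G] [Finite G] (N M : Subgroup G) [N.Normal] [M.Normal] (hMN : M ≤ N) (hM1 : M ≠ ⊥) (hN2 : N ≠ ⊤)
    (hcam : ∀ g : G, g ∉ N → ∀ m ∈ M, ∃ x : G, x * g * x⁻¹ = g * m) :
    ((∀ x ∈ M, x ≠ 1 → Subgroup.centralizer ({x} : Set G) ≤ N) ↔ N.index.Coprime (Nat.card M)) ∧
    ((∀ x ∈ M, x ≠ 1 → Subgroup.centralizer ({x} : Set G) ≤ N) → ∃ H : Subgroup G, H ⊔ N = ⊤ ∧ H ⊓ M = ⊥) := by
  refine ⟨⟨coprime_of_fpf N M, fpf_of_coprime N M hcam⟩, fun h1 => ?_⟩
  exact exists_supp_aux _ G rfl N M hMN h1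

end Cfsg.Agent.S4112
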