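import Cfsg.Statements.S4117
import Mathlib

set_option autoImplicit false
open Cfsg

namespace Cfsg.Agent.S4117


open scoped commutatorElement
open scoped Pointwise

theorem cyc_unique {H : Type*} [Group H] [Finite H] [IsCyclic H] (p : ℕ) [hp : Fact p.Prime]
    (u c : H) (hu : orderOf u = p) (hc : orderOf c = p) : c ∈ Subgroup.zpowers u := by
  classical
  haveI := Fintype.ofFinite H
  have h1 : (Finset.univ.filter (fun a : H => a ^ p = 1)).card ≤ p :=
    IsCyclic.card_pow_eq_one_le hp.out.pos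
  obtain ⟨t, ht⟩ : ∃ t : Finset H, t = Finset.univ.filter (fun a : H => a ∈ Subgroup.zpowers u) :=
    ⟨_, rfl⟩
  have htc : t.card = p := by
    have h2 : t.card = Nat.card (Subgroup.zpowers u) := by
      rw [ht, Nat.card_eq_fintype_card, Fintype.card_subtype]
    rw [h2, Nat.card_zpowers, hu]
  have hsub : t ⊆ Finset.univ.filter (fun a : H => a ^ p = 1) := by
    intro x hx
    rw [ht, Finset.mem_filter] at hx
    rw [Finset.mem_filter]
    obtain ⟨k, rfl⟩ := Subgroup.mem_zpowers_iff.mp hx.2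
    refine ⟨Finset.mem_univ _, ?_⟩
    rw [← zpow_natCast, ← zpow_mul, mul_comm, zpow_mul, zpow_natCast, ← hu, pow_orderOf_eq_one,
      one_zpow]
  have heq := Finset.eq_of_subset_of_card_le hsub (by rw [htc]; exact h1)
  have hcm : c ∈ Finset.univ.filter (fun a : H => a ^ p = 1) := by
    rw [Finset.mem_filter]; exact ⟨Finset.mem_univ _, by rw [← hc]; exact pow_orderOf_eq_one c⟩
  rw [← heq, ht] at hcm
  exact (Finset.mem_filter.mp hcm).2

/-- Let A be a finite group acting on the finite group G by automorphisms with the orders of A and G coprime, and suppose every Sylow subgroup of G is cyclic. Then the fixed-point subgroup C_G(A) is a Hall subgroup of G (its order is coprime to its index), the subgroup [G, A] generated by the elements g⁻¹·a(g) is cyclic and normal with [G, A] ∩ C_G(A) = 1 and [G, A]·C_G(A) = G. -/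
theorem result {G A : Type*} [Group G] [Finite G] [Group A] [Finite A]
    [MulDistribMulAction A G] (hcop : (Nat.card A).Coprime (Nat.card G))
    (hcyc : ∀ (p : ℕ) [Fact p.Prime] (P : Sylow p G), IsCyclic (P : Subgroup G)) :
    (Nat.card (MulAction.fixedPoints A G : Set G)).Coprime (Nat.card G / Nat.card (MulAction.fixedPoints A G : Set G)) ∧
    IsCyclic (Subgroup.closure {y : G | ∃ (a : A) (g : G), y = g⁻¹ * a • g}) ∧
    (Subgroup.closure {y : G | ∃ (a : A) (g : G), y = g⁻¹ * a • g}).Normal ∧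
    (Subgroup.closure {y : G | ∃ (a : A) (g : G), y = g⁻¹ * a • g} : Set G) ∩ MulAction.fixedPoints A G = {1} ∧
    Subgroup.closure {y : G | ∃ (a : A) (g : G), y = g⁻¹ * a • g} ⊔ Subgroup.closure (MulAction.fixedPoints A G) = ⊤ := by
  classical
  haveI : Fintype A := Fintype.ofFinite A
  haveI hZG : IsZGroup G := ⟨fun p hp P => by haveI : Fact p.Prime := ⟨hp⟩; exact hcyc p P⟩
  obtain ⟨S, hS⟩ : ∃ S : Set G, S = {y : G | ∃ (a : A) (g : G), y = g⁻¹ * a • g} := ⟨_, rfl⟩
  obtain ⟨K, hK⟩ : ∃ K : Subgroup G, K = Subgroup.closure S := ⟨_, rfl⟩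
  rw [← hS, ← hK]
  have hSK : ∀ (a : A) (g : G), g⁻¹ * a • g ∈ K := by
    intro a g; rw [hK]; apply Subgroup.subset_closure; rw [hS]; exact ⟨a, g, rfl⟩
  have hKn : K.Normal := by
    constructor
    intro n hn h
    have hle : Subgroup.closure S ≤ K.comap (MulAut.conj h).toMonoidHom := by
      rw [Subgroup.closure_le]
      intro y hy
      rw [hS] at hy
      obtain ⟨a, x, rfl⟩ := hy
      rw [SetLike.mem_coe, Subgroup.mem_comap]
      show h * (x⁻¹ * a • x) * h⁻¹ ∈ K
      have e : h * (x⁻¹ * a • x) * h⁻¹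
          = ((x * h⁻¹)⁻¹ * a • (x * h⁻¹)) * ((h⁻¹)⁻¹ * a • h⁻¹)⁻¹ := by
        rw [smul_mul', smul_inv']; group
      rw [e]
      exact K.mul_mem (hSK a _) (K.inv_mem (hSK a _))
    exact hle (hK ▸ hn)
  haveI := hKn
  have hKinv : ∀ (a : A) (k : G), k ∈ K → a • k ∈ K := by
    intro a k hk
    have hle : Subgroup.closure S ≤ K.comap (MulDistribMulAction.toMonoidHom G a) := by
      rw [Subgroup.closure_le]
      intro y hy
      rw [hS] at hy
      obtain ⟨b, x, rfl⟩ := hy
      rw [SetLike.mem_coe, Subgroup.mem_comap]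
      show a • (x⁻¹ * b • x) ∈ K
      have e : a • (x⁻¹ * b • x) = (x⁻¹ * a • x)⁻¹ * (x⁻¹ * (a * b) • x) := by
        rw [smul_mul', smul_inv', mul_smul]; group
      rw [e]
      exact K.mul_mem (K.inv_mem (hSK a x)) (hSK (a * b) x)
    exact hle (hK ▸ hk)
  obtain ⟨Z, hZ⟩ : ∃ Z : Subgroup G, Z = commutator G := ⟨_, rfl⟩
  haveI hZc : IsCyclic ↥Z := by rw [hZ]; exact IsZGroup.isCyclic_commutator G
  haveI hZn : Z.Normal := by rw [hZ]; infer_instance
  have hZinv : ∀ (a : A) (z : G), z ∈ Z → a • z ∈ Z := by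
    intro a z hz
    have hchar : Z.Characteristic := by rw [hZ, commutator_def]; infer_instance
    have h := Subgroup.characteristic_iff_comap_eq.mp hchar (MulDistribMulAction.toMulEquiv G a)
    rw [← h] at hz
    exact hz
  obtain ⟨⟨z₀, hz₀Z⟩, hz₀gen⟩ := hZc.exists_generator
  have hZgen : ∀ z ∈ Z, z ∈ Subgroup.zpowers z₀ := by
    intro z hz
    obtain ⟨k, hk⟩ := Subgroup.mem_zpowers_iff.mp (hz₀gen ⟨z, hz⟩)
    rw [Subgroup.mem_zpowers_iff]
    refine ⟨k, ?_⟩
    have := congrArg Subtype.val hk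
    simpa using this
  have hScent : ∀ y ∈ S, y * z₀ = z₀ * y := by
    intro y hy
    rw [hS] at hy
    obtain ⟨a, x, rfl⟩ := hy
    obtain ⟨n, hn⟩ := Subgroup.mem_zpowers_iff.mp (hZgen _ (hZn.conj_mem z₀ hz₀Z x))
    obtain ⟨j, hj⟩ := Subgroup.mem_zpowers_iff.mp (hZgen _ (hZinv a⁻¹ z₀ hz₀Z))
    have hsz : ∀ (g : G) (i : ℤ), a • (g ^ i) = (a • g) ^ i := fun g i =>
      map_zpow (MulDistribMulAction.toMonoidHom G a) g i
    have key : (a • x) * z₀ * (a • x)⁻¹ = x * z₀ * x⁻¹ := by
      calc (a • x) * z₀ * (a • x)⁻¹ = a • (x * (a⁻¹ • z₀) * x⁻¹) := by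
            rw [smul_mul', smul_mul', smul_inv', smul_inv_smul]
        _ = a • (x * z₀ ^ j * x⁻¹) := by rw [hj]
        _ = a • ((x * z₀ * x⁻¹) ^ j) := by rw [conj_zpow]
        _ = a • ((z₀ ^ n) ^ j) := by rw [hn]
        _ = a • ((z₀ ^ j) ^ n) := by rw [← zpow_mul, ← zpow_mul, mul_comm]
        _ = (a • (a⁻¹ • z₀)) ^ n := by rw [hj, hsz]
        _ = z₀ ^ n := by rw [smul_inv_smul]
        _ = x * z₀ * x⁻¹ := hn
    calc x⁻¹ * a • x * z₀ = x⁻¹ * ((a • x) * z₀ * (a • x)⁻¹) * (a • x) := by group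
      _ = x⁻¹ * (x * z₀ * x⁻¹) * (a • x) := by rw [key]
      _ = z₀ * (x⁻¹ * a • x) := by group
  have hKcent : ∀ k ∈ K, ∀ z ∈ Z, k * z = z * k := by
    have hle : Subgroup.closure S ≤ Subgroup.centralizer ({z₀} : Set G) := by
      rw [Subgroup.closure_le]
      intro y hy
      rw [SetLike.mem_coe, Subgroup.mem_centralizer_iff]
      intro h hh
      rw [Set.mem_singleton_iff] at hh; subst hh
      exact (hScent y hy).symm
    intro k hk z hz
    have hk' := hle (hK ▸ hk)
    have hkz : k * z₀ = z₀ * k :=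
      (Subgroup.mem_centralizer_iff.mp hk' z₀ (Set.mem_singleton _)).symm
    obtain ⟨i, rfl⟩ := Subgroup.mem_zpowers_iff.mp (hZgen z hz)
    have hcm : Commute k z₀ := hkz
    exact (hcm.zpow_right i).eq
  have hKc : commutator ↥K ≤ Subgroup.center ↥K := by
    rw [commutator_def, Subgroup.commutator_le]
    intro g₁ _ g₂ _
    rw [Subgroup.mem_center_iff]
    intro h
    apply Subtype.ext
    have hmem : ((⁅g₁, g₂⁆ : ↥K) : G) ∈ Z := by
      rw [hZ, commutator_def]
      have h0 : ((⁅g₁, g₂⁆ : ↥K) : G) = ⁅(g₁ : G), (g₂ : G)⁆ := rfl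
      rw [h0]
      exact Subgroup.commutator_mem_commutator (Subgroup.mem_top _) (Subgroup.mem_top _)
    exact hKcent h.1 h.2 _ hmem
  haveI hKnil : Group.IsNilpotent ↥K := by
    haveI hcq : IsMulCommutative (↥K ⧸ Subgroup.center ↥K) :=
      Subgroup.Normal.quotient_commutative_iff_commutator_le.mpr hKc
    letI : CommGroup (↥K ⧸ Subgroup.center ↥K) :=
      { (inferInstance : Group (↥K ⧸ Subgroup.center ↥K)) with
        mul_comm := fun a b => hcq.is_comm.comm a b }
    exact Group.of_quotient_center_nilpotent inferInstance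
  haveI hKcyc : IsCyclic ↥K := inferInstance
  letI : CommGroup ↥K := IsCyclic.commGroup
  let φ : A → (↥K →* ↥K) := fun a =>
    { toFun := fun k => ⟨a • k.1, hKinv a k.1 k.2⟩
      map_one' := by
        apply Subtype.ext
        show a • (1 : G) = 1
        exact smul_one a
      map_mul' := by
        intro k₁ k₂
        apply Subtype.ext
        show a • ((k₁ : G) * (k₂ : G)) = a • (k₁ : G) * a • (k₂ : G)
        exact smul_mul' a _ _ }
  have hφval : ∀ (a : A) (k : ↥K), ((φ a k : ↥K) : G) = a • (k : G) := fun a k => rfl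
  have hφmul : ∀ (a b : A) (k : ↥K), φ a (φ b k) = φ (a * b) k := by
    intro a b k; apply Subtype.ext; rw [hφval, hφval, hφval, mul_smul]
  have hm : (Nat.card ↥K).Coprime (Fintype.card A) := by
    rw [← Nat.card_eq_fintype_card]
    exact (Nat.Coprime.coprime_dvd_right (Subgroup.card_subgroup_dvd_card K) hcop).symm
  obtain ⟨e, he⟩ : ∃ e : ℤ, ∀ k : ↥K, (k ^ Fintype.card A) ^ e = k :=
    ⟨(Nat.card ↥K).gcdB (Fintype.card A), fun k => (powCoprime hm).left_inv k⟩
  have havg : ∀ g : G, ∃ c ∈ K, ∀ a : A, a • (g * c) = g * c := by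
    intro g
    obtain ⟨κ, hκdef⟩ : ∃ κ : A → ↥K, ∀ a, ((κ a : ↥K) : G) = g⁻¹ * a • g :=
      ⟨fun a => ⟨g⁻¹ * a • g, hSK a g⟩, fun a => rfl⟩
    have hκ : ∀ a b : A, κ (a * b) = κ a * φ a (κ b) := by
      intro a b
      apply Subtype.ext
      show ((κ (a * b) : ↥K) : G) = ((κ a : ↥K) : G) * a • ((κ b : ↥K) : G)
      rw [hκdef, hκdef, hκdef, smul_mul', smul_inv', mul_smul]; group
    obtain ⟨ks, hksdef⟩ : ∃ ks : ↥K, ks = ∏ b : A, κ b := ⟨_, rfl⟩
    have hks : ∀ a : A, φ a ks = (κ a)⁻¹ ^ Fintype.card A * ks := by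
      intro a
      rw [hksdef, map_prod]
      have h1 : ∀ b : A, φ a (κ b) = (κ a)⁻¹ * κ (a * b) := by
        intro b; rw [hκ, inv_mul_cancel_left]
      rw [Finset.prod_congr rfl (fun b _ => h1 b), Finset.prod_mul_distrib, Finset.prod_const,
        Finset.card_univ]
      congr 1
      exact Fintype.prod_bijective (fun b => a * b) (Group.mulLeft_bijective a) _ _ (fun b => rfl)
    refine ⟨((ks ^ e : ↥K) : G), (ks ^ e).2, ?_⟩
    intro a
    have h2 : φ a (ks ^ e) = (κ a)⁻¹ * ks ^ e := by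
      rw [map_zpow, hks, mul_zpow, he]
    have h3 : a • ((ks ^ e : ↥K) : G) = (g⁻¹ * a • g)⁻¹ * ((ks ^ e : ↥K) : G) := by
      have h := congrArg Subtype.val h2
      rw [← hκdef a]
      exact h
    rw [smul_mul', h3]; group
  have h5 : K ⊔ Subgroup.closure (MulAction.fixedPoints A G) = ⊤ := by
    rw [eq_top_iff]
    intro g _
    obtain ⟨c, hc, hfix⟩ := havg g
    have hg : g = (g * c) * c⁻¹ := by group
    rw [hg]
    exact Subgroup.mul_mem _
      (Subgroup.mem_sup_right (Subgroup.subset_closure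
        (by rw [MulAction.mem_fixedPoints]; exact hfix)))
      (Subgroup.mem_sup_left (K.inv_mem hc))
  obtain ⟨ν, hν⟩ : ∃ ν : ↥K →* ↥K, ∀ k : ↥K, ν k = ∏ a : A, φ a k :=
    ⟨∏ a : A, φ a, fun k => MonoidHom.finset_prod_apply _ _ _⟩
  have hνφ : ∀ (b : A) (k : ↥K), ν (φ b k) = ν k := by
    intro b k
    rw [hν, hν]
    rw [Finset.prod_congr rfl (fun a _ => hφmul a b k)]
    exact Fintype.prod_bijective (fun a => a * b) (Group.mulRight_bijective b) _ _ (fun a => rfl)
  have hνker : ∀ k : ↥K, ν k = 1 := by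
    have hle : Subgroup.closure S ≤ (ν.ker).map K.subtype := by
      rw [Subgroup.closure_le]
      intro y hy
      rw [hS] at hy
      obtain ⟨a, x, rfl⟩ := hy
      obtain ⟨c, hc, hfix⟩ := havg x
      rw [SetLike.mem_coe, Subgroup.mem_map]
      refine ⟨(⟨c⁻¹, K.inv_mem hc⟩ : ↥K)⁻¹ * φ a ⟨c⁻¹, K.inv_mem hc⟩, ?_, ?_⟩
      · rw [MonoidHom.mem_ker, map_mul, map_inv, hνφ]; exact inv_mul_cancel _
      · show (c⁻¹)⁻¹ * a • c⁻¹ = x⁻¹ * a • x
        have hx : x = (x * c) * c⁻¹ := by group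
        have h1 : a • x = (x * c) * a • c⁻¹ := by
          conv_lhs => rw [hx]
          rw [smul_mul', hfix a]
        rw [h1]; group
    intro k
    have hk : (k : G) ∈ (ν.ker).map K.subtype := hle (hK ▸ k.2)
    obtain ⟨k', hk', hkk⟩ := Subgroup.mem_map.mp hk
    have hkeq : k' = k := Subtype.ext hkk
    rw [← hkeq]; exact hk'
  have h4 : (K : Set G) ∩ MulAction.fixedPoints A G = {1} := by
    ext x
    constructor
    · rintro ⟨hxK, hxF⟩
      rw [Set.mem_singleton_iff]
      rw [MulAction.mem_fixedPoints] at hxF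
      have hφk : ∀ a : A, φ a ⟨x, hxK⟩ = ⟨x, hxK⟩ := fun a => Subtype.ext (hxF a)
      have h1 := hνker ⟨x, hxK⟩
      rw [hν, Finset.prod_congr rfl (fun a _ => hφk a), Finset.prod_const, Finset.card_univ] at h1
      have h2 := he ⟨x, hxK⟩
      rw [h1, one_zpow] at h2
      exact congrArg Subtype.val h2.symm
    · intro hx
      rw [Set.mem_singleton_iff] at hx
      subst hx
      exact ⟨K.one_mem, by rw [MulAction.mem_fixedPoints]; intro a; exact smul_one a⟩
  obtain ⟨C, hC⟩ : ∃ C : Subgroup G, (C : Set G) = MulAction.fixedPoints A G :=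
    ⟨{ carrier := MulAction.fixedPoints A G
       mul_mem' := by
         intro x y hx hy
         rw [MulAction.mem_fixedPoints] at *
         intro a; rw [smul_mul', hx a, hy a]
       one_mem' := by rw [MulAction.mem_fixedPoints]; intro a; exact smul_one a
       inv_mem' := by
         intro x hx
         rw [MulAction.mem_fixedPoints] at *
         intro a; rw [smul_inv', hx a] }, rfl⟩
  have hCmem : ∀ x, x ∈ C ↔ ∀ a : A, a • x = x := by
    intro x
    rw [← SetLike.mem_coe, hC, MulAction.mem_fixedPoints]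
  have hCcard : Nat.card (MulAction.fixedPoints A G : Set G) = Nat.card ↥C := by
    rw [← hC]; rfl
  have hdisj : Disjoint C K := by
    rw [Subgroup.disjoint_def]
    intro x hxC hxK
    have hx : x ∈ (K : Set G) ∩ MulAction.fixedPoints A G :=
      ⟨hxK, by rw [← hC]; exact hxC⟩
    rw [h4] at hx; exact hx
  have hmul : (C : Set G) * (K : Set G) = Set.univ := by
    rw [Set.eq_univ_iff_forall]
    intro g
    obtain ⟨c, hc, hfix⟩ := havg g
    exact ⟨g * c, (hCmem _).mpr hfix, c⁻¹, K.inv_mem hc, by group⟩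
  have hcompl := Subgroup.isComplement'_of_disjoint_and_mul_eq_univ hdisj hmul
  have hcard := hcompl.card_mul_card
  have hdiv : Nat.card G / Nat.card ↥C = Nat.card ↥K := by
    rw [← hcard]; exact Nat.mul_div_cancel_left _ Nat.card_pos
  have h1 : (Nat.card ↥C).Coprime (Nat.card ↥K) := by
    by_contra hnc
    obtain ⟨p, hp, hpC, hpK⟩ := Nat.Prime.not_coprime_iff_dvd.mp hnc
    haveI : Fact p.Prime := ⟨hp⟩
    obtain ⟨c, hc⟩ := exists_prime_orderOf_dvd_card' p hpC
    obtain ⟨u, hu⟩ := exists_prime_orderOf_dvd_card' p hpK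
    have hcG : orderOf (c : G) = p := by rw [Subgroup.orderOf_coe]; exact hc
    have huG : orderOf (u : G) = p := by rw [Subgroup.orderOf_coe]; exact hu
    have hun : (Subgroup.zpowers (u : G)).Normal := by
      constructor
      intro n hn g
      obtain ⟨i, rfl⟩ := Subgroup.mem_zpowers_iff.mp hn
      have hconjK : g * (u : G) * g⁻¹ ∈ K := hKn.conj_mem _ u.2 g
      have hord : orderOf (⟨g * (u : G) * g⁻¹, hconjK⟩ : ↥K) = p := by
        rw [← Subgroup.orderOf_coe]
        show orderOf (MulAut.conj g (u : G)) = p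
        rw [MulEquiv.orderOf_eq]; exact huG
      have hmem := cyc_unique p u ⟨g * (u : G) * g⁻¹, hconjK⟩ hu hord
      obtain ⟨j, hj⟩ := Subgroup.mem_zpowers_iff.mp hmem
      have hj' : (u : G) ^ j = g * (u : G) * g⁻¹ := by
        have := congrArg Subtype.val hj
        simpa using this
      rw [← conj_zpow, ← hj', ← zpow_mul]
      exact Subgroup.zpow_mem_zpowers _ _
    haveI := hun
    have hHp : IsPGroup p ↥(Subgroup.zpowers (c : G) ⊔ Subgroup.zpowers (u : G)) := by
      apply IsPGroup.to_sup_of_normal_right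
      · exact IsPGroup.of_card (n := 1) (by rw [Nat.card_zpowers, hcG, pow_one])
      · exact IsPGroup.of_card (n := 1) (by rw [Nat.card_zpowers, huG, pow_one])
    haveI : IsCyclic ↥(Subgroup.zpowers (c : G) ⊔ Subgroup.zpowers (u : G)) :=
      IsPGroup.isCyclic_of_isZGroup hHp
    have hcH : (c : G) ∈ Subgroup.zpowers (c : G) ⊔ Subgroup.zpowers (u : G) :=
      Subgroup.mem_sup_left (Subgroup.mem_zpowers _)
    have huH : (u : G) ∈ Subgroup.zpowers (c : G) ⊔ Subgroup.zpowers (u : G) :=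
      Subgroup.mem_sup_right (Subgroup.mem_zpowers _)
    have hmem := cyc_unique p
      (⟨(u : G), huH⟩ : ↥(Subgroup.zpowers (c : G) ⊔ Subgroup.zpowers (u : G))) ⟨(c : G), hcH⟩
      (by rw [← Subgroup.orderOf_coe]; exact huG) (by rw [← Subgroup.orderOf_coe]; exact hcG)
    obtain ⟨j, hj⟩ := Subgroup.mem_zpowers_iff.mp hmem
    have hj' : (u : G) ^ j = (c : G) := by
      have := congrArg Subtype.val hj
      simpa using this
    have hcK : (c : G) ∈ K := by rw [← hj']; exact K.zpow_mem u.2 j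
    have hc1 : (c : G) = 1 := by
      have hx : (c : G) ∈ (K : Set G) ∩ MulAction.fixedPoints A G :=
        ⟨hcK, by rw [← hC]; exact c.2⟩
      rw [h4] at hx; exact hx
    rw [hc1, orderOf_one] at hcG
    exact hp.one_lt.ne hcG
  refine ⟨?_, hKcyc, hKn, h4, h5⟩
  rw [hCcard, hdiv]; exact h1

end Cfsg.Agent.S4117
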