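import Cfsg.Statements.S4134
import Mathlib
import Cfsg.Agent.Lib.Helper23.Ito
import Cfsg.Agent.S4127

set_option autoImplicit false
open Cfsg

namespace Cfsg.Agent.S4134

/-- Let G be a finite group whose conjugacy classes have exactly two sizes, 1 and n > 1. Then n is a power of a prime p and G is the direct product of a p-group and an abelian group of order prime to p: its Sylow p-subgroup P is normal with an abelian normal complement centralizing it; moreover P has an abelian normal subgroup A with P/A of exponent dividing p. -/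
theorem result {G : Type*} [Group G] [Finite G] (n : ℕ) (hn : 1 < n)
    (h : ∀ x : G, (Subgroup.centralizer ({x} : Set G)).index = 1 ∨ (Subgroup.centralizer ({x} : Set G)).index = n) (hex : ∃ x : G, (Subgroup.centralizer ({x} : Set G)).index = n) :
    ∃ (p : ℕ) (_ : Fact p.Prime) (a : ℕ), n = p ^ a ∧ ∀ P : Sylow p G, (P : Subgroup G).Normal ∧
      (∃ N : Subgroup G, N.Normal ∧ N.IsComplement' (P : Subgroup G) ∧ IsMulCommutative N ∧
        ∀ x ∈ N, ∀ y ∈ (P : Subgroup G), x * y = y * x) ∧
      ∃ A : Subgroup (P : Subgroup G), A.Normal ∧ IsMulCommutative A ∧ ∀ y : (P : Subgroup G), y ^ p ∈ A := by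
  have hT : Cfsg.Agent.Lib.Helper23.TwoCl G n := ⟨hn, h, hex⟩
  obtain ⟨p, a, hp, hna⟩ := Cfsg.Agent.Lib.Helper23.ito_prime_power n hT
  haveI hpF : Fact p.Prime := ⟨hp⟩
  refine ⟨p, hpF, a, hna, ?_⟩
  have ha0 : a ≠ 0 := by
    rintro rfl
    rw [pow_zero] at hna
    omega
  have hpn : p ∣ n := hna ▸ dvd_pow_self p ha0
  have hcen : ∀ y : G, (orderOf y).Coprime p → y ∈ Subgroup.center G := by
    intro y hy
    by_contra hyZ
    obtain ⟨q, v, k, hq, hvy, hvZ, hvk⟩ := Cfsg.Agent.Lib.Helper23.ito_exists_prime_power y hyZ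
    have hk0 : k ≠ 0 := by
      rintro rfl
      rw [pow_zero, orderOf_eq_one_iff] at hvk
      exact hvZ (hvk ▸ Subgroup.one_mem _)
    have hqy : q ∣ orderOf y := by
      have h1 : orderOf v ∣ orderOf y := orderOf_dvd_of_mem_zpowers hvy
      rw [hvk] at h1
      exact (dvd_pow_self q hk0).trans h1
    have hqp : q ≠ p := by
      rintro rfl
      exact (Nat.Prime.coprime_iff_not_dvd hq).mp hy.symm hqy
    haveI : Fact q.Prime := ⟨hq⟩
    have hqn : ¬ q ∣ n := by
      rw [hna]
      intro hd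
      exact hqp ((Nat.prime_dvd_prime_iff_eq hq hp).mp (hq.dvd_of_dvd_pow hd))
    have hvp : IsPGroup q (Subgroup.zpowers v) := by
      apply IsPGroup.of_card (n := k)
      rw [Nat.card_zpowers, hvk]
    obtain ⟨Q, hQ⟩ := hvp.exists_le_sylow
    exact hvZ (Cfsg.Agent.Lib.Helper23.ito_sylow_le_center n hT q hqn Q
      (hQ (Subgroup.mem_zpowers v)))
  intro P
  have hPn : (P : Subgroup G).Normal := by
    apply Cfsg.Agent.S4127.lemD p _ P
    intro y hy
    exact ⟨P, fun u _ => Subgroup.mem_center_iff.mp (hcen y hy) u⟩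
  refine ⟨hPn, ?_, ?_⟩
  · haveI := hPn
    have hcop : (Nat.card (P : Subgroup G)).Coprime (P : Subgroup G).index := by
      obtain ⟨m, hm⟩ := P.isPGroup'.exists_card_eq
      rw [hm]
      exact Nat.Coprime.pow_left m ((Nat.Prime.coprime_iff_not_dvd hp).mpr P.not_dvd_index)
    obtain ⟨K, hK⟩ := Subgroup.exists_right_complement'_of_coprime hcop
    have hKcop : (Nat.card K).Coprime p := by
      rw [← hK.symm.index_eq_card]
      exact ((Nat.Prime.coprime_iff_not_dvd hp).mpr P.not_dvd_index).symm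
    have hKZ : K ≤ Subgroup.center G := by
      intro x hx
      apply hcen
      exact Nat.Coprime.coprime_dvd_left (Subgroup.orderOf_dvd_natCard K hx) hKcop
    refine ⟨K, ?_, hK.symm, ?_, ?_⟩
    · constructor
      intro a ha g
      have h1 := Subgroup.mem_center_iff.mp (hKZ ha) g
      rw [h1, mul_inv_cancel_right]
      exact ha
    · exact ⟨⟨fun a b => Subtype.ext (Subgroup.mem_center_iff.mp (hKZ b.2) a.1)⟩⟩
    · intro x hx y _
      exact (Subgroup.mem_center_iff.mp (hKZ hx) y).symm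
  · obtain ⟨u, huP, huZ, hucomm, hup⟩ :=
      Cfsg.Agent.Lib.Helper23.ito_exists_special n hT p hpn P
    obtain ⟨D, hD⟩ : ∃ D : Subgroup G, D = Subgroup.centralizer ({u} : Set G) := ⟨_, rfl⟩
    obtain ⟨M, hM⟩ : ∃ M : Subgroup G, M = Subgroup.centralizer (D : Set G) := ⟨_, rfl⟩
    have hDmem : ∀ g, g ∈ D ↔ g * u = u * g := by
      intro g
      rw [hD]
      exact Subgroup.mem_centralizer_singleton_iff
    have hMmem : ∀ g, g ∈ M ↔ ∀ d ∈ D, d * g = g * d := by
      intro g
      rw [hM]
      exact Subgroup.mem_centralizer_iff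
    have huD : u ∈ D := (hDmem u).mpr rfl
    have hPD : ∀ x ∈ (P : Subgroup G), ∀ d ∈ D, x * d * x⁻¹ ∈ D := by
      intro x hx d hd
      rw [hDmem] at hd ⊢
      exact Cfsg.Agent.Lib.Helper23.ito_conj_comm u x d (hucomm x hx) hd
    refine ⟨M.subgroupOf (P : Subgroup G), ?_, ?_, ?_⟩
    · constructor
      intro a ha g
      rw [Subgroup.mem_subgroupOf] at ha ⊢
      show (g : G) * (a : G) * (g : G)⁻¹ ∈ M
      rw [hMmem] at ha ⊢
      intro d hd
      have hd' : (g : G)⁻¹ * d * ((g : G)⁻¹)⁻¹ ∈ D := hPD _ (Subgroup.inv_mem _ g.2) d hd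
      rw [inv_inv] at hd'
      have h1 := ha _ hd'
      calc d * ((g : G) * (a : G) * (g : G)⁻¹)
          = (g : G) * (((g : G)⁻¹ * d * (g : G)) * (a : G)) * (g : G)⁻¹ := by group
        _ = (g : G) * ((a : G) * ((g : G)⁻¹ * d * (g : G))) * (g : G)⁻¹ := by rw [h1]
        _ = (g : G) * (a : G) * (g : G)⁻¹ * d := by group
    · refine ⟨⟨fun a b => Subtype.ext (Subtype.ext ?_)⟩⟩
      have ha : ((a : ↥(P : Subgroup G)) : G) ∈ M := Subgroup.mem_subgroupOf.mp a.2
      have hb : ((b : ↥(P : Subgroup G)) : G) ∈ M := Subgroup.mem_subgroupOf.mp b.2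
      have haD : ((a : ↥(P : Subgroup G)) : G) ∈ D := by
        rw [hDmem]
        exact ((hMmem _).mp ha u huD).symm
      exact (hMmem _).mp hb _ haD
    · intro y
      rw [Subgroup.mem_subgroupOf]
      show (y : G) ^ p ∈ M
      rcases Cfsg.Agent.Lib.Helper23.ito_three n hT p u huZ hup (y : G) (hucomm _ y.2) with
        h1 | h1
      · rw [hMmem]
        intro d _
        exact Subgroup.mem_center_iff.mp h1 d
      · apply Subgroup.pow_mem
        rw [hMmem]
        intro d hd
        rw [hD, ← h1, Subgroup.mem_centralizer_singleton_iff] at hd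
        exact hd

end Cfsg.Agent.S4134
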