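import Cfsg.Statements.S4142
import Mathlib

set_option autoImplicit false
open Cfsg

namespace Cfsg.Agent.S4142

theorem count {G : Type*} [Group G] [Finite G] (N : Subgroup G) [hN : N.Normal] (g : G) :
    {y : G | g⁻¹ * y ∈ N ∧ ∃ x : G, x * g * x⁻¹ = y}.ncard *
        Nat.card (Subgroup.centralizer ({g} : Set G)) =
      Nat.card N * Nat.card (Subgroup.centralizer ({(QuotientGroup.mk g : G ⧸ N)} : Set (G ⧸ N))) := by
  classical
  have := Fintype.ofFinite G
  obtain ⟨C, hC⟩ : ∃ C : Subgroup G, C = Subgroup.centralizer ({g} : Set G) := ⟨_, rfl⟩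
  obtain ⟨K, hK⟩ : ∃ K : Subgroup (G ⧸ N),
      K = Subgroup.centralizer ({(QuotientGroup.mk g : G ⧸ N)} : Set (G ⧸ N)) := ⟨_, rfl⟩
  obtain ⟨D, hD⟩ : ∃ D : Subgroup G, D = K.comap (QuotientGroup.mk' N) := ⟨_, rfl⟩
  rw [← hC, ← hK]
  have memC : ∀ c : G, c ∈ C ↔ g * c = c * g := by
    intro c
    rw [hC, Subgroup.mem_centralizer_iff]
    constructor
    · intro h; exact h g rfl
    · intro h w hw; rw [Set.mem_singleton_iff.mp hw]; exact h
  have memD : ∀ x : G, x ∈ D ↔ g⁻¹ * (x * g * x⁻¹) ∈ N := by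
    intro x
    rw [hD, Subgroup.mem_comap, hK, Subgroup.mem_centralizer_iff]
    have h1 : (∀ h ∈ ({(QuotientGroup.mk g : G ⧸ N)} : Set (G ⧸ N)),
        h * (QuotientGroup.mk' N) x = (QuotientGroup.mk' N) x * h) ↔
        (g * x)⁻¹ * (x * g) ∈ N := by
      rw [← QuotientGroup.eq]
      constructor
      · intro h; exact h _ rfl
      · intro h w hw; rw [Set.mem_singleton_iff.mp hw]; exact h
    rw [h1]
    constructor
    · intro h
      have := hN.conj_mem _ h x
      have e : x * ((g * x)⁻¹ * (x * g)) * x⁻¹ = g⁻¹ * (x * g * x⁻¹) := by group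
      rwa [e] at this
    · intro h
      have := hN.conj_mem _ h x⁻¹
      have e : x⁻¹ * (g⁻¹ * (x * g * x⁻¹)) * x⁻¹⁻¹ = (g * x)⁻¹ * (x * g) := by group
      rwa [e] at this
  -- card D
  have hcardD : Nat.card D = Nat.card N * Nat.card K := by
    have h1 : D.index = K.index := by
      rw [hD]; exact Subgroup.index_comap_of_surjective K (QuotientGroup.mk'_surjective N)
    have h2 := Subgroup.card_mul_index D
    have h3 := Subgroup.card_mul_index K
    have h4 := Subgroup.card_mul_index N
    have h5 : Nat.card (G ⧸ N) = N.index := rfl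
    have hpos : 0 < K.index := Nat.pos_of_ne_zero Subgroup.index_ne_zero_of_finite
    apply Nat.eq_of_mul_eq_mul_right hpos
    calc Nat.card D * K.index = Nat.card D * D.index := by rw [h1]
      _ = Nat.card G := h2
      _ = Nat.card N * N.index := h4.symm
      _ = Nat.card N * (Nat.card K * K.index) := by rw [← h5, h3]
      _ = Nat.card N * Nat.card K * K.index := by ring
  -- fibres
  let f : G → G := fun x => x * g * x⁻¹
  let Dfin : Finset G := Finset.univ.filter (fun x => x ∈ D)
  let Cfin : Finset G := Finset.univ.filter (fun x => x ∈ C)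
  have hDcard : Nat.card D = Dfin.card := by
    rw [Nat.card_eq_fintype_card]
    exact Fintype.card_of_subtype Dfin (fun x => by simp [Dfin])
  have hCcard : Nat.card C = Cfin.card := by
    rw [Nat.card_eq_fintype_card]
    exact Fintype.card_of_subtype Cfin (fun x => by simp [Cfin])
  have hfib : ∀ y ∈ Dfin.image f, (Dfin.filter (fun x => f x = y)).card = Cfin.card := by
    intro y hy
    obtain ⟨x₀, hx₀, rfl⟩ := Finset.mem_image.mp hy
    have hx₀D : x₀ ∈ D := by simpa [Dfin] using hx₀
    have : Dfin.filter (fun x => f x = f x₀) = Cfin.image (fun c => x₀ * c) := by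
      ext x
      simp only [Finset.mem_filter, Finset.mem_image, Dfin, Cfin, Finset.mem_univ, true_and, f]
      constructor
      · rintro ⟨_, hx⟩
        refine ⟨x₀⁻¹ * x, ?_, by group⟩
        rw [memC]
        calc g * (x₀⁻¹ * x) = x₀⁻¹ * (x₀ * g * x₀⁻¹) * x := by group
          _ = x₀⁻¹ * (x * g * x⁻¹) * x := by rw [hx]
          _ = x₀⁻¹ * x * g := by group
      · rintro ⟨c, hc, rfl⟩
        rw [memC] at hc
        refine ⟨?_, ?_⟩
        · rw [memD]
          have e : g⁻¹ * (x₀ * c * g * (x₀ * c)⁻¹) = g⁻¹ * (x₀ * (c * g) * c⁻¹ * x₀⁻¹) := by group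
          rw [e, ← hc]
          have e2 : g⁻¹ * (x₀ * (g * c) * c⁻¹ * x₀⁻¹) = g⁻¹ * (x₀ * g * x₀⁻¹) := by group
          rw [e2]
          exact (memD x₀).mp hx₀D
        · calc x₀ * c * g * (x₀ * c)⁻¹ = x₀ * (c * g) * c⁻¹ * x₀⁻¹ := by group
            _ = x₀ * (g * c) * c⁻¹ * x₀⁻¹ := by rw [hc]
            _ = x₀ * g * x₀⁻¹ := by group
    rw [this, Finset.card_image_of_injective _ (mul_right_injective x₀)]
  have hsum : Dfin.card = (Dfin.image f).card * Cfin.card := by
    rw [Finset.card_eq_sum_card_image f Dfin, Finset.sum_congr rfl hfib, Finset.sum_const,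
      smul_eq_mul]
  have hO : {y : G | g⁻¹ * y ∈ N ∧ ∃ x : G, x * g * x⁻¹ = y} = ↑(Dfin.image f) := by
    ext y
    simp only [Set.mem_ofPred_eq, Finset.coe_image, Set.mem_image, Finset.mem_coe, Dfin,
      Finset.mem_filter, Finset.mem_univ, true_and, f]
    constructor
    · rintro ⟨hy, x, rfl⟩
      exact ⟨x, (memD x).mpr hy, rfl⟩
    · rintro ⟨x, hx, rfl⟩
      exact ⟨(memD x).mp hx, x, rfl⟩
  rw [hO, Set.ncard_coe_finset, ← hcardD, hDcard, hsum, hCcard]

/-- Let G be a finite group and N a normal subgroup. Then the conjugacy class of every element g outside N is a union of cosets of N (gn is conjugate to g for all n ∈ N) if and only if for every g outside N the centralizer of g in G has the same order as the centralizer of gN in G/N. -/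
theorem result {G : Type*} [Group G] [Finite G] (N : Subgroup G) [N.Normal] :
    (∀ g : G, g ∉ N → ∀ n ∈ N, ∃ x : G, x * g * x⁻¹ = g * n) ↔
      ∀ g : G, g ∉ N → Nat.card (Subgroup.centralizer ({g} : Set G)) =
        Nat.card (Subgroup.centralizer ({(QuotientGroup.mk g : G ⧸ N)} : Set (G ⧸ N))) := by
  have hS : ∀ g : G, {y : G | g⁻¹ * y ∈ N}.ncard = Nat.card N := by
    intro g
    have e : {y : G | g⁻¹ * y ∈ N} = (fun n => g * n) '' (N : Set G) := by
      ext y
      simp only [Set.mem_ofPred_eq, Set.mem_image, SetLike.mem_coe]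
      constructor
      · intro hy; exact ⟨g⁻¹ * y, hy, by group⟩
      · rintro ⟨n, hn, rfl⟩
        have : g⁻¹ * (g * n) = n := by group
        rw [this]; exact hn
    rw [e, Set.ncard_image_of_injective _ (mul_right_injective g)]
    exact (Nat.card_coe_set_eq (N : Set G)).symm
  have hNpos : 0 < Nat.card N := Nat.card_pos
  apply forall_congr'
  intro g
  apply imp_congr_right
  intro _
  have hcount := count N g
  have hsub : {y : G | g⁻¹ * y ∈ N ∧ ∃ x : G, x * g * x⁻¹ = y} ⊆ {y : G | g⁻¹ * y ∈ N} :=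
    fun y hy => hy.1
  constructor
  · intro hcam
    have hO : {y : G | g⁻¹ * y ∈ N ∧ ∃ x : G, x * g * x⁻¹ = y} = {y : G | g⁻¹ * y ∈ N} := by
      apply Set.Subset.antisymm hsub
      intro y hy
      refine ⟨hy, ?_⟩
      obtain ⟨x, hx⟩ := hcam (g⁻¹ * y) hy
      exact ⟨x, by rw [hx]; group⟩
    rw [hO, hS] at hcount
    exact Nat.eq_of_mul_eq_mul_left hNpos hcount
  · intro hcard n hn
    rw [← hcard] at hcount
    have hCpos : 0 < Nat.card (Subgroup.centralizer ({g} : Set G)) := Nat.card_pos
    have h1 := Nat.eq_of_mul_eq_mul_right hCpos hcount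
    have hO := Set.eq_of_subset_of_ncard_le hsub (by rw [hS, h1])
    have : g * n ∈ {y : G | g⁻¹ * y ∈ N} := by
      show g⁻¹ * (g * n) ∈ N
      have : g⁻¹ * (g * n) = n := by group
      rw [this]; exact hn
    rw [← hO] at this
    exact this.2

end Cfsg.Agent.S4142
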