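import Cfsg.Statements.S4152
import Mathlib
import Cfsg.Agent.S4106

set_option autoImplicit false
open Cfsg

namespace Cfsg.Agent.S4152


/-- `x` is a `π`-element -/
def PiE {G : Type*} [Group G] (π : Set ℕ) (x : G) : Prop :=
  ∀ q : ℕ, q.Prime → q ∣ orderOf x → q ∈ π

theorem piE_of_dvd {G H : Type*} [Group G] [Group H] (π : Set ℕ) (x : G) (y : H)
    (h : orderOf y ∣ orderOf x) (hx : PiE π x) : PiE π y :=
  fun q hq hd => hx q hq (hd.trans h)

theorem piE_conj {G : Type*} [Group G] (π : Set ℕ) (x g : G) (hx : PiE π x) :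
    PiE π (g * x * g⁻¹) := by
  apply piE_of_dvd π x _ _ hx
  rw [Cfsg.Agent.S4106.orderOf_conj']

theorem piE_mul {G : Type*} [Group G] (π : Set ℕ) (x y : G) (hc : Commute x y)
    (hx : PiE π x) (hy : PiE π y) : PiE π (x * y) := by
  intro q hq hd
  have h1 : orderOf (x * y) ∣ Nat.lcm (orderOf x) (orderOf y) := hc.orderOf_mul_dvd_lcm
  have h2 : q ∣ orderOf x * orderOf y := (hd.trans h1).trans (Nat.lcm_dvd_mul _ _)
  rcases (Nat.Prime.dvd_mul hq).mp h2 with h3 | h3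
  · exact hx q hq h3
  · exact hy q hq h3

theorem piE_inv {G : Type*} [Group G] (π : Set ℕ) (x : G) (hx : PiE π x) : PiE π x⁻¹ := by
  intro q hq hd
  rw [orderOf_inv] at hd
  exact hx q hq hd

theorem eq_one_of_piE {G : Type*} [Group G] (π : Set ℕ) (x : G) (h1 : PiE π x)
    (h2 : PiE πᶜ x) : x = 1 := by
  by_contra hx
  have h3 : orderOf x ≠ 1 := fun h => hx (orderOf_eq_one_iff.mp h)
  obtain ⟨q, hq, hqd⟩ := Nat.exists_prime_and_dvd h3
  exact h2 q hq hqd (h1 q hq hqd)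

theorem piE_coprime {G : Type*} [Group G] [Finite G] (π : Set ℕ) (x c : G) (hx : PiE π x)
    (hc : PiE πᶜ c) : (orderOf x).Coprime (orderOf c) := by
  apply Nat.coprime_of_dvd
  intro k hk h1 h2
  exact hc k hk h2 (hx k hk h1)

theorem decomp {G : Type*} [Group G] [Finite G] (π : Set ℕ) (x : G) :
    ∃ e e' : ℕ, PiE π (x ^ e) ∧ PiE πᶜ (x ^ e') ∧ x ^ e * x ^ e' = x := by
  have hn : 0 < orderOf x := orderOf_pos x
  obtain ⟨m, hm1, hm2, hm3⟩ := Cfsg.Agent.S4106.exists_pi_part π (orderOf x) hn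
  obtain ⟨m', hm'⟩ := hm1
  have hm0 : 0 < m := by
    rcases Nat.eq_zero_or_pos m with h | h
    · rw [h, zero_mul] at hm'
      omega
    · exact h
  have hdiv : orderOf x / m = m' := by
    rw [hm', Nat.mul_div_cancel_left _ hm0]
  rw [hdiv] at hm3
  have hcop : m.Coprime m' := by
    apply Nat.coprime_of_dvd
    intro k hk h1 h2
    exact hm3 k (hm2 k hk h1) hk h2
  obtain ⟨e, he1, he2⟩ := Nat.chineseRemainder hcop 1 0
  obtain ⟨e', he'1, he'2⟩ := Nat.chineseRemainder hcop 0 1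
  refine ⟨e, e', ?_, ?_, ?_⟩
  · have h1 : (x ^ e) ^ m = 1 := by
      rw [← pow_mul]
      apply orderOf_dvd_iff_pow_eq_one.mp
      rw [hm', mul_comm e m]
      exact Nat.mul_dvd_mul_left m ((Nat.modEq_zero_iff_dvd).mp he2)
    intro q hq hd
    exact hm2 q hq (hd.trans (orderOf_dvd_of_pow_eq_one h1))
  · have h1 : (x ^ e') ^ m' = 1 := by
      rw [← pow_mul]
      apply orderOf_dvd_iff_pow_eq_one.mp
      rw [hm']
      exact Nat.mul_dvd_mul_right ((Nat.modEq_zero_iff_dvd).mp he'1) m'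
    intro q hq hd hqπ
    exact hm3 q hqπ hq (hd.trans (orderOf_dvd_of_pow_eq_one h1))
  · rw [← pow_add]
    have h1 : e + e' ≡ 1 [MOD orderOf x] := by
      rw [hm', ← Nat.modEq_and_modEq_iff_modEq_mul hcop]
      exact ⟨by simpa using he1.add he'1, by simpa using he2.add he'2⟩
    have h2 := (pow_eq_pow_iff_modEq (x := x)).mpr h1
    rw [h2, pow_one]

theorem exists_pow_eq_left {G : Type*} [Group G] [Finite G] (π : Set ℕ) (x c : G)
    (hxc : Commute x c) (hx : PiE π x) (hc : PiE πᶜ c) :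
    ∃ e e' : ℕ, (x * c) ^ e = x ∧ (x * c) ^ e' = c := by
  have hcop := piE_coprime π x c hx hc
  obtain ⟨e, he1, he2⟩ := Nat.chineseRemainder hcop 1 0
  obtain ⟨e', he'1, he'2⟩ := Nat.chineseRemainder hcop 0 1
  refine ⟨e, e', ?_, ?_⟩
  · rw [hxc.mul_pow, (pow_eq_pow_iff_modEq (x := x)).mpr he1,
      (pow_eq_pow_iff_modEq (x := c)).mpr he2, pow_one, pow_zero, mul_one]
  · rw [hxc.mul_pow, (pow_eq_pow_iff_modEq (x := x)).mpr he'1,
      (pow_eq_pow_iff_modEq (x := c)).mpr he'2, pow_one, pow_zero, one_mul]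

theorem uniq {G : Type*} [Group G] [Finite G] (π : Set ℕ) (x₁ c₁ x₂ c₂ : G)
    (h : x₁ * c₁ = x₂ * c₂) (hc1 : Commute x₁ c₁) (hc2 : Commute x₂ c₂)
    (hx1 : PiE π x₁) (hx2 : PiE π x₂) (hcc1 : PiE πᶜ c₁) (hcc2 : PiE πᶜ c₂) :
    x₁ = x₂ ∧ c₁ = c₂ := by
  obtain ⟨e, e', he, he'⟩ := exists_pow_eq_left π x₁ c₁ hc1 hx1 hcc1
  have hb2 : Commute x₂ (x₁ * c₁) := by
    rw [h]
    exact (Commute.refl x₂).mul_right hc2
  have hb3 : Commute c₂ (x₁ * c₁) := by
    rw [h]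
    exact hc2.symm.mul_right (Commute.refl c₂)
  have hxx : Commute x₂ x₁ := by
    rw [← he]
    exact hb2.pow_right e
  have hcc : Commute c₂ c₁ := by
    rw [← he']
    exact hb3.pow_right e'
  have h1 : x₂⁻¹ * x₁ = c₂ * c₁⁻¹ := by
    have : x₁ = x₂ * c₂ * c₁⁻¹ := by rw [← h]; group
    rw [this]
    group
  have h2 : PiE π (x₂⁻¹ * x₁) :=
    piE_mul π _ _ (hxx.inv_left) (piE_inv π _ hx2) hx1
  have h3 : PiE πᶜ (x₂⁻¹ * x₁) := by
    rw [h1]
    exact piE_mul πᶜ _ _ (hcc.inv_right) hcc2 (piE_inv πᶜ _ hcc1)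
  have h4 := eq_one_of_piE π _ h2 h3
  have h5 : x₁ = x₂ := by
    have := inv_mul_eq_one.mp h4
    exact this.symm
  refine ⟨h5, ?_⟩
  rw [h5] at h
  exact mul_left_cancel h

theorem orbits_mul_card {Γ X : Type*} [Group Γ] [Finite Γ] [MulAction Γ X] [Finite X] :
    Nat.card (MulAction.orbitRel.Quotient Γ X) * Nat.card Γ
      = Nat.card {p : Γ × X // p.1 • p.2 = p.2} := by
  classical
  haveI : Fintype Γ := Fintype.ofFinite Γ
  haveI : Fintype X := Fintype.ofFinite X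
  haveI : Fintype (MulAction.orbitRel.Quotient Γ X) := Fintype.ofFinite _
  have h := MulAction.sum_card_fixedBy_eq_card_orbits_mul_card_group (G := Γ) (X := X)
  rw [Nat.card_eq_fintype_card, Nat.card_eq_fintype_card, ← h,
    Nat.card_congr (Equiv.subtypeProdEquivSigmaSubtype (fun (a : Γ) (b : X) => a • b = b)),
    Nat.card_sigma]
  apply Finset.sum_congr rfl
  intro a _
  rw [← Nat.card_eq_fintype_card]
  rfl

/-- conjugation action of a normal subgroup on the `π`-elements of a coset -/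
def cosetAct {G : Type*} [Group G] (N : Subgroup G) [N.Normal] (π : Set ℕ) (g : G) :
    MulAction N {x : G // (x : G ⧸ N) = (g : G ⧸ N) ∧ PiE π x} where
  smul n x := ⟨n * x.1 * (n : G)⁻¹, by
    constructor
    · rw [QuotientGroup.mk_mul, QuotientGroup.mk_mul, QuotientGroup.mk_inv,
        (QuotientGroup.eq_one_iff (n : G)).mpr n.2, x.2.1]
      simp
    · exact piE_conj π _ _ x.2.2⟩
  one_smul x := by
    apply Subtype.ext
    show ((1 : N) : G) * x.1 * ((1 : N) : G)⁻¹ = x.1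
    simp
  mul_smul a b x := by
    apply Subtype.ext
    show ((a * b : N) : G) * x.1 * ((a * b : N) : G)⁻¹ = (a : G) * ((b : G) * x.1 * (b : G)⁻¹) * (a : G)⁻¹
    rw [Subgroup.coe_mul]
    group

/-- conjugation action of a group on its `π`-elements -/
def selfAct (N : Type*) [Group N] (π : Set ℕ) : MulAction N {m : N // PiE π m} where
  smul n m := ⟨n * m.1 * n⁻¹, piE_conj π _ _ m.2⟩
  one_smul m := by
    apply Subtype.ext
    show (1 : N) * m.1 * (1 : N)⁻¹ = m.1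
    simp
  mul_smul a b m := by
    apply Subtype.ext
    show (a * b) * m.1 * (a * b)⁻¹ = a * (b * m.1 * b⁻¹) * a⁻¹
    group

theorem self_bound (N : Type*) [Group N] [Finite N] (π : Set ℕ) :
    letI := selfAct N π
    Nat.card (MulAction.orbitRel.Quotient N {m : N // PiE π m})
      ≤ Nat.card {C : ConjClasses N // Cfsg.Agent.S4106.piClass N π C} := by
  letI := selfAct N π
  let F : MulAction.orbitRel.Quotient N {m : N // PiE π m} →
      {C : ConjClasses N // Cfsg.Agent.S4106.piClass N π C} :=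
    Quotient.lift (fun m : {m : N // PiE π m} =>
      (⟨ConjClasses.mk m.1, (Cfsg.Agent.S4106.piClass_mk π m.1).mpr m.2⟩ :
        {C : ConjClasses N // Cfsg.Agent.S4106.piClass N π C})) (by
      intro m₁ m₂ h
      have h' : m₁ ∈ MulAction.orbit N m₂ := h
      obtain ⟨n, hn⟩ := h'
      apply Subtype.ext
      show ConjClasses.mk m₁.1 = ConjClasses.mk m₂.1
      rw [ConjClasses.mk_eq_mk_iff_isConj, isConj_comm, isConj_iff]
      exact ⟨n, congrArg Subtype.val hn⟩)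
  apply Nat.card_le_card_of_injective F
  intro q₁ q₂ h
  induction q₁ using Quotient.inductionOn with
  | _ m₁ =>
    induction q₂ using Quotient.inductionOn with
    | _ m₂ =>
      have h1 : ConjClasses.mk m₁.1 = ConjClasses.mk m₂.1 := congrArg Subtype.val h
      rw [ConjClasses.mk_eq_mk_iff_isConj, isConj_comm, isConj_iff] at h1
      obtain ⟨c, hc⟩ := h1
      apply Quotient.sound
      show m₁ ∈ MulAction.orbit N m₂
      exact ⟨c, Subtype.ext hc⟩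

theorem coset_bound {G : Type*} [Group G] [Finite G] (N : Subgroup G) [N.Normal] (π : Set ℕ)
    (g : G) :
    letI := cosetAct N π g
    Nat.card (MulAction.orbitRel.Quotient N {x : G // (x : G ⧸ N) = (g : G ⧸ N) ∧ PiE π x})
      ≤ Nat.card {C : ConjClasses N // Cfsg.Agent.S4106.piClass N π C} := by
  classical
  letI actX := cosetAct N π g
  letI actY := selfAct N π
  have h1 := orbits_mul_card (Γ := N) (X := {x : G // (x : G ⧸ N) = (g : G ⧸ N) ∧ PiE π x})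
  have h2 := orbits_mul_card (Γ := N) (X := {m : N // PiE π m})
  have h3 := self_bound N π
  choose ef ef' hef1 hef2 hef3 using (fun n : N => decomp π n)
  let b₀ : {m : N // PiE π m} → G := fun m =>
    if h : ∃ b : G, (b : G ⧸ N) = (g : G ⧸ N) ∧ b * (m.1 : G) = (m.1 : G) * b then h.choose else 1
  have hb0 : ∀ m : {m : N // PiE π m},
      (∃ b : G, (b : G ⧸ N) = (g : G ⧸ N) ∧ b * (m.1 : G) = (m.1 : G) * b) →
      ((b₀ m : G ⧸ N) = (g : G ⧸ N) ∧ b₀ m * (m.1 : G) = (m.1 : G) * b₀ m) := by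
    intro m h
    simp only [b₀, dif_pos h]
    exact h.choose_spec
  -- data attached to a fixed pair
  have hdata : ∀ p : {p : N × {x : G // (x : G ⧸ N) = (g : G ⧸ N) ∧ PiE π x} // p.1 • p.2 = p.2},
      Commute ((p.1.1 : N) : G) p.1.2.1 := by
    intro p
    have h4 : ((p.1.1 : N) : G) * p.1.2.1 * ((p.1.1 : N) : G)⁻¹ = p.1.2.1 :=
      congrArg Subtype.val p.2
    show ((p.1.1 : N) : G) * p.1.2.1 = p.1.2.1 * ((p.1.1 : N) : G)
    calc ((p.1.1 : N) : G) * p.1.2.1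
        = (((p.1.1 : N) : G) * p.1.2.1 * ((p.1.1 : N) : G)⁻¹) * ((p.1.1 : N) : G) := by group
      _ = p.1.2.1 * ((p.1.1 : N) : G) := by rw [h4]
  have hex : ∀ p : {p : N × {x : G // (x : G ⧸ N) = (g : G ⧸ N) ∧ PiE π x} // p.1 • p.2 = p.2},
      ((p.1.2.1 * ((p.1.1 ^ ef' p.1.1 : N) : G) : G) : G ⧸ N) = (g : G ⧸ N) ∧
      (p.1.2.1 * ((p.1.1 ^ ef' p.1.1 : N) : G)) * ((p.1.1 ^ ef p.1.1 : N) : G)
        = ((p.1.1 ^ ef p.1.1 : N) : G) * (p.1.2.1 * ((p.1.1 ^ ef' p.1.1 : N) : G)) := by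
    intro p
    constructor
    · rw [QuotientGroup.mk_mul, p.1.2.2.1,
        (QuotientGroup.eq_one_iff ((p.1.1 ^ ef' p.1.1 : N) : G)).mpr (p.1.1 ^ ef' p.1.1).2,
        mul_one]
    · have hc := hdata p
      rw [Subgroup.coe_pow, Subgroup.coe_pow]
      have hc1 : Commute (p.1.2.1 * ((p.1.1 : N) : G) ^ ef' p.1.1) (((p.1.1 : N) : G) ^ ef p.1.1) :=
        (hc.symm.pow_right _).mul_left ((Commute.refl _).pow_pow _ _)
      exact hc1.eq
  have hmem : ∀ p : {p : N × {x : G // (x : G ⧸ N) = (g : G ⧸ N) ∧ PiE π x} // p.1 • p.2 = p.2},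
      (b₀ ⟨p.1.1 ^ ef p.1.1, hef1 p.1.1⟩)⁻¹ * (p.1.2.1 * ((p.1.1 ^ ef' p.1.1 : N) : G)) ∈ N := by
    intro p
    have h5 := hb0 ⟨p.1.1 ^ ef p.1.1, hef1 p.1.1⟩ ⟨_, hex p⟩
    rw [← QuotientGroup.eq, h5.1, (hex p).1]
  let Φ : {p : N × {x : G // (x : G ⧸ N) = (g : G ⧸ N) ∧ PiE π x} // p.1 • p.2 = p.2} →
      {p : N × {m : N // PiE π m} // p.1 • p.2 = p.2} := fun p =>
    ⟨(⟨_, hmem p⟩, ⟨p.1.1 ^ ef p.1.1, hef1 p.1.1⟩), by
      apply Subtype.ext
      apply Subtype.ext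
      have h5 := hb0 ⟨p.1.1 ^ ef p.1.1, hef1 p.1.1⟩ ⟨_, hex p⟩
      have h6 := (hex p).2
      show (b₀ ⟨p.1.1 ^ ef p.1.1, hef1 p.1.1⟩)⁻¹ * (p.1.2.1 * ((p.1.1 ^ ef' p.1.1 : N) : G))
          * ((p.1.1 ^ ef p.1.1 : N) : G)
          * ((b₀ ⟨p.1.1 ^ ef p.1.1, hef1 p.1.1⟩)⁻¹ * (p.1.2.1 * ((p.1.1 ^ ef' p.1.1 : N) : G)))⁻¹
          = ((p.1.1 ^ ef p.1.1 : N) : G)
      have h7 : (b₀ ⟨p.1.1 ^ ef p.1.1, hef1 p.1.1⟩)⁻¹ * ((p.1.1 ^ ef p.1.1 : N) : G)
          = ((p.1.1 ^ ef p.1.1 : N) : G) * (b₀ ⟨p.1.1 ^ ef p.1.1, hef1 p.1.1⟩)⁻¹ := by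
        have h8 := h5.2
        calc (b₀ ⟨p.1.1 ^ ef p.1.1, hef1 p.1.1⟩)⁻¹ * ((p.1.1 ^ ef p.1.1 : N) : G)
            = (b₀ ⟨p.1.1 ^ ef p.1.1, hef1 p.1.1⟩)⁻¹ * (((p.1.1 ^ ef p.1.1 : N) : G)
                * b₀ ⟨p.1.1 ^ ef p.1.1, hef1 p.1.1⟩) * (b₀ ⟨p.1.1 ^ ef p.1.1, hef1 p.1.1⟩)⁻¹ := by
              group
          _ = ((p.1.1 ^ ef p.1.1 : N) : G) * (b₀ ⟨p.1.1 ^ ef p.1.1, hef1 p.1.1⟩)⁻¹ := by
              rw [← h8]
              group
      rw [mul_assoc (b₀ _)⁻¹, h6, ← mul_assoc, h7]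
      group⟩
  have hΦ : Function.Injective Φ := by
    intro p₁ p₂ h
    have hm : p₁.1.1 ^ ef p₁.1.1 = p₂.1.1 ^ ef p₂.1.1 := by
      have := congrArg (fun q : {p : N × {m : N // PiE π m} // p.1 • p.2 = p.2} => (q.1.2.1 : N)) h
      exact this
    have hn : (b₀ ⟨p₁.1.1 ^ ef p₁.1.1, hef1 p₁.1.1⟩)⁻¹ * (p₁.1.2.1 * ((p₁.1.1 ^ ef' p₁.1.1 : N) : G))
        = (b₀ ⟨p₂.1.1 ^ ef p₂.1.1, hef1 p₂.1.1⟩)⁻¹ * (p₂.1.2.1 * ((p₂.1.1 ^ ef' p₂.1.1 : N) : G)) := by
      have := congrArg (fun q : {p : N × {m : N // PiE π m} // p.1 • p.2 = p.2} => ((q.1.1 : N) : G)) h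
      exact this
    have hbeq : b₀ ⟨p₁.1.1 ^ ef p₁.1.1, hef1 p₁.1.1⟩ = b₀ ⟨p₂.1.1 ^ ef p₂.1.1, hef1 p₂.1.1⟩ := by
      congr 1
      exact Subtype.ext hm
    rw [hbeq] at hn
    have hb : p₁.1.2.1 * ((p₁.1.1 ^ ef' p₁.1.1 : N) : G)
        = p₂.1.2.1 * ((p₂.1.1 ^ ef' p₂.1.1 : N) : G) := mul_left_cancel hn
    have hpi' : ∀ n : N, PiE πᶜ ((n ^ ef' n : N) : G) := by
      intro n
      apply piE_of_dvd πᶜ (n ^ ef' n) _ _ (hef2 n)
      rw [Subgroup.orderOf_coe]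
    have hcomm : ∀ p : {p : N × {x : G // (x : G ⧸ N) = (g : G ⧸ N) ∧ PiE π x} // p.1 • p.2 = p.2},
        Commute p.1.2.1 ((p.1.1 ^ ef' p.1.1 : N) : G) := by
      intro p
      rw [Subgroup.coe_pow]
      exact (hdata p).symm.pow_right _
    obtain ⟨hx, hc⟩ := uniq π _ _ _ _ hb (hcomm p₁) (hcomm p₂) p₁.1.2.2.2 p₂.1.2.2.2
      (hpi' p₁.1.1) (hpi' p₂.1.1)
    have hc' : p₁.1.1 ^ ef' p₁.1.1 = p₂.1.1 ^ ef' p₂.1.1 := Subtype.ext hc
    have hn12 : p₁.1.1 = p₂.1.1 := by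
      rw [← hef3 p₁.1.1, ← hef3 p₂.1.1, hm, hc']
    apply Subtype.ext
    apply Prod.ext hn12
    exact Subtype.ext hx
  have h4 := Nat.card_le_card_of_injective Φ hΦ
  rw [← h1, ← h2] at h4
  have h5 : 0 < Nat.card N := Nat.card_pos
  exact (Nat.le_of_mul_le_mul_right h4 h5).trans h3

/-- Let G be a finite group, N a normal subgroup and π a set of primes. Then the number of conjugacy classes of π-elements of G (elements whose order is divisible only by primes in π) is at most the number of conjugacy classes of π-elements of N (under conjugation by N) times the number of conjugacy classes of π-elements of G/N. -/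
theorem result {G : Type*} [Group G] [Finite G] (N : Subgroup G) [N.Normal] (π : Set ℕ) :
    Nat.card {C : ConjClasses G // ∀ q : ℕ, q.Prime → (∃ g : G, ConjClasses.mk g = C ∧ q ∣ orderOf g) → q ∈ π} ≤ Nat.card {C : ConjClasses N // ∀ q : ℕ, q.Prime → (∃ g : N, ConjClasses.mk g = C ∧ q ∣ orderOf g) → q ∈ π} * Nat.card {C : ConjClasses (G ⧸ N) // ∀ q : ℕ, q.Prime → (∃ g : (G ⧸ N), ConjClasses.mk g = C ∧ q ∣ orderOf g) → q ∈ π} := by
  classical
  show Nat.card {C : ConjClasses G // Cfsg.Agent.S4106.piClass G π C}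
    ≤ Nat.card {C : ConjClasses N // Cfsg.Agent.S4106.piClass N π C}
      * Nat.card {C : ConjClasses (G ⧸ N) // Cfsg.Agent.S4106.piClass (G ⧸ N) π C}
  have hrep : ∀ a : {C : ConjClasses G // Cfsg.Agent.S4106.piClass G π C},
      ∃ x : G, ConjClasses.mk x = a.1 ∧ PiE π x := by
    intro a
    obtain ⟨x, hx⟩ := ConjClasses.mk_surjective a.1
    refine ⟨x, hx, ?_⟩
    have h1 := a.2
    rw [← hx, Cfsg.Agent.S4106.piClass_mk] at h1
    exact h1
  choose r hr1 hr2 using hrep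
  let f : {C : ConjClasses G // Cfsg.Agent.S4106.piClass G π C} →
      {C : ConjClasses (G ⧸ N) // Cfsg.Agent.S4106.piClass (G ⧸ N) π C} := fun a =>
    ⟨ConjClasses.mk ((r a : G) : G ⧸ N), (Cfsg.Agent.S4106.piClass_mk π _).mpr
      (piE_of_dvd π (r a) ((r a : G) : G ⧸ N) (orderOf_map_dvd (QuotientGroup.mk' N) (r a)) (hr2 a))⟩
  have hfib : ∀ b : {C : ConjClasses (G ⧸ N) // Cfsg.Agent.S4106.piClass (G ⧸ N) π C},
      Nat.card {a : {C : ConjClasses G // Cfsg.Agent.S4106.piClass G π C} // f a = b}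
        ≤ Nat.card {C : ConjClasses N // Cfsg.Agent.S4106.piClass N π C} := by
    intro b
    obtain ⟨g', hg'⟩ := ConjClasses.mk_surjective b.1
    obtain ⟨g, rfl⟩ := QuotientGroup.mk_surjective g'
    letI := cosetAct N π g
    refine le_trans ?_ (coset_bound N π g)
    have hφ : ∀ a : {a : {C : ConjClasses G // Cfsg.Agent.S4106.piClass G π C} // f a = b},
        ∃ x : {x : G // (x : G ⧸ N) = (g : G ⧸ N) ∧ PiE π x}, ConjClasses.mk x.1 = a.1.1 := by
      intro a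
      have h1 : ConjClasses.mk ((r a.1 : G) : G ⧸ N) = ConjClasses.mk (g : G ⧸ N) := by
        have h2 : (f a.1).1 = b.1 := congrArg Subtype.val a.2
        rw [← hg'] at h2
        exact h2
      rw [ConjClasses.mk_eq_mk_iff_isConj, isConj_iff] at h1
      obtain ⟨c', hc'⟩ := h1
      obtain ⟨c, rfl⟩ := QuotientGroup.mk_surjective c'
      refine ⟨⟨c * r a.1 * c⁻¹, ?_, piE_conj π _ _ (hr2 a.1)⟩, ?_⟩
      · rw [QuotientGroup.mk_mul, QuotientGroup.mk_mul, QuotientGroup.mk_inv]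
        exact hc'
      · show ConjClasses.mk (c * r a.1 * c⁻¹) = a.1.1
        rw [← hr1 a.1, ConjClasses.mk_eq_mk_iff_isConj, isConj_comm, isConj_iff]
        exact ⟨c, rfl⟩
    choose φ hφ' using hφ
    apply Nat.card_le_card_of_injective (fun a => (Quotient.mk'' (φ a) :
      MulAction.orbitRel.Quotient N {x : G // (x : G ⧸ N) = (g : G ⧸ N) ∧ PiE π x}))
    intro a₁ a₂ h
    have h1 : φ a₁ ∈ MulAction.orbit N (φ a₂) := Quotient.exact h
    obtain ⟨n, hn⟩ := h1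
    have h2 : (n : G) * (φ a₂).1 * (n : G)⁻¹ = (φ a₁).1 := congrArg Subtype.val hn
    apply Subtype.ext
    apply Subtype.ext
    rw [← hφ' a₁, ← hφ' a₂, ConjClasses.mk_eq_mk_iff_isConj, isConj_comm, isConj_iff]
    exact ⟨(n : G), h2⟩
  haveI : Fintype {C : ConjClasses (G ⧸ N) // Cfsg.Agent.S4106.piClass (G ⧸ N) π C} :=
    Fintype.ofFinite _
  rw [Nat.card_congr (Equiv.sigmaFiberEquiv f).symm, Nat.card_sigma]
  have h3 := Finset.sum_le_card_nsmul (Finset.univ : Finset {C : ConjClasses (G ⧸ N) //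
      Cfsg.Agent.S4106.piClass (G ⧸ N) π C})
    (fun b => Nat.card {a : {C : ConjClasses G // Cfsg.Agent.S4106.piClass G π C} // f a = b})
    (Nat.card {C : ConjClasses N // Cfsg.Agent.S4106.piClass N π C}) (fun b _ => hfib b)
  rw [Finset.card_univ, ← Nat.card_eq_fintype_card, smul_eq_mul, mul_comm] at h3
  exact h3

end Cfsg.Agent.S4152
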