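import Cfsg.Statements.S4153
import Mathlib

set_option autoImplicit false
open Cfsg

namespace Cfsg.Agent.S4153

theorem pelem_iff {G : Type*} [Group G] [Finite G] (p : ℕ) [Fact p.Prime] (g : G) :
    (∃ k : ℕ, orderOf g = p ^ k) ↔ ∃ P₀ : Sylow p G, g ∈ (P₀ : Subgroup G) := by
  constructor
  · rintro ⟨k, hk⟩
    have h1 : IsPGroup p (Subgroup.zpowers g) :=
      IsPGroup.of_card (n := k) (by rw [Nat.card_zpowers, hk])
    obtain ⟨Q, hQ⟩ := h1.exists_le_sylow
    exact ⟨Q, hQ (Subgroup.mem_zpowers g)⟩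
  · rintro ⟨P₀, hg⟩
    obtain ⟨k, hk⟩ := (IsPGroup.iff_orderOf.mp P₀.isPGroup') ⟨g, hg⟩
    exact ⟨k, by rw [← hk, Subgroup.orderOf_mk]⟩

theorem card_inf_mul {G : Type*} [Group G] [Finite G] (p : ℕ) [Fact p.Prime] (N : Subgroup G)
    [N.Normal] (P P₀ : Sylow p G) (Pbar : Sylow p (G ⧸ N)) :
    Nat.card ↥((P₀ : Subgroup G) ⊓ N) * Nat.card (Pbar : Subgroup (G ⧸ N)) =
      Nat.card (P : Subgroup G) := by
  have h1 : Nat.card (P₀ : Subgroup G) = Nat.card (P : Subgroup G) := by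
    rw [Sylow.card_eq_multiplicity, Sylow.card_eq_multiplicity]
  have h2 : Nat.card ((P₀ : Subgroup G).map (QuotientGroup.mk' N)) =
      Nat.card (Pbar : Subgroup (G ⧸ N)) := by
    have := Sylow.card_eq_multiplicity (P₀.mapSurjective (QuotientGroup.mk'_surjective N))
    rw [Sylow.card_eq_multiplicity Pbar]; exact this
  have h3 : (QuotientGroup.mk' N).ker.relIndex (P₀ : Subgroup G) =
      Nat.card ((P₀ : Subgroup G).map (QuotientGroup.mk' N)) :=
    Subgroup.relIndex_ker (K := (P₀ : Subgroup G)) (QuotientGroup.mk' N)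
  rw [QuotientGroup.ker_mk'] at h3
  have h4 := Subgroup.card_mul_index (N.subgroupOf (P₀ : Subgroup G))
  have h5 : Nat.card (N.subgroupOf (P₀ : Subgroup G)) = Nat.card ↥((P₀ : Subgroup G) ⊓ N) := by
    rw [← Subgroup.inf_subgroupOf_left]
    exact Nat.card_congr (Subgroup.subgroupOfEquivOfLe inf_le_left).toEquiv
  rw [← h1, ← h2, ← h3, ← h5]
  exact h4

/-- Let G be a finite group, p a prime, N a normal subgroup, P a Sylow p-subgroup of G and P̄ a Sylow p-subgroup of G/N. Count the elements of p-power order, the identity included. Then (number of such elements of G/N)/#P̄ ≤ (number of such elements of G)/#P, stated as a cross-multiplied inequality, with equality when N is central. -/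
theorem result {G : Type*} [Group G] [Finite G] (p : ℕ) [Fact p.Prime] (N : Subgroup G) [N.Normal]
    (P : Sylow p G) (Pbar : Sylow p (G ⧸ N)) :
    Nat.card {g : (G ⧸ N) // ∃ k : ℕ, orderOf g = p ^ k} * Nat.card (P : Subgroup G) ≤ Nat.card {g : G // ∃ k : ℕ, orderOf g = p ^ k} * Nat.card (Pbar : Subgroup (G ⧸ N)) ∧
    (N ≤ Subgroup.center G → Nat.card {g : (G ⧸ N) // ∃ k : ℕ, orderOf g = p ^ k} * Nat.card (P : Subgroup G) = Nat.card {g : G // ∃ k : ℕ, orderOf g = p ^ k} * Nat.card (Pbar : Subgroup (G ⧸ N))) := by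
  classical
  have := Fintype.ofFinite G
  have := Fintype.ofFinite (G ⧸ N)
  have hpp : p.Prime := Fact.out
  obtain ⟨m, hm⟩ : ∃ m : ℕ, ∀ P₀ : Sylow p G, Nat.card ↥((P₀ : Subgroup G) ⊓ N) = m := by
    refine ⟨Nat.card ↥((P : Subgroup G) ⊓ N), fun P₀ => ?_⟩
    have h1 := card_inf_mul p N P P₀ Pbar
    have h2 := card_inf_mul p N P P Pbar
    exact Nat.eq_of_mul_eq_mul_right Nat.card_pos (h1.trans h2.symm)
  have hmP : m * Nat.card (Pbar : Subgroup (G ⧸ N)) = Nat.card (P : Subgroup G) := by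
    rw [← hm P]; exact card_inf_mul p N P P Pbar
  let TG : Finset G := Finset.univ.filter (fun g => ∃ k : ℕ, orderOf g = p ^ k)
  let TQ : Finset (G ⧸ N) := Finset.univ.filter (fun g => ∃ k : ℕ, orderOf g = p ^ k)
  have hTG : Nat.card {g : G // ∃ k : ℕ, orderOf g = p ^ k} = TG.card := by
    rw [Nat.card_eq_fintype_card]
    exact Fintype.card_of_subtype TG (fun x => by simp [TG])
  have hTQ : Nat.card {g : (G ⧸ N) // ∃ k : ℕ, orderOf g = p ^ k} = TQ.card := by
    rw [Nat.card_eq_fintype_card]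
    exact Fintype.card_of_subtype TQ (fun x => by simp [TQ])
  have hmaps : ∀ g ∈ TG, (g : G ⧸ N) ∈ TQ := by
    intro g hg
    simp only [TG, TQ, Finset.mem_filter, Finset.mem_univ, true_and] at hg ⊢
    obtain ⟨k, hk⟩ := hg
    have hdvd : orderOf (g : G ⧸ N) ∣ p ^ k := by
      rw [← hk]
      exact orderOf_dvd_of_pow_eq_one (by rw [← QuotientGroup.mk_pow, pow_orderOf_eq_one]; rfl)
    obtain ⟨j, -, hj⟩ := (Nat.dvd_prime_pow hpp).mp hdvd
    exact ⟨j, hj⟩
  have hsum : TG.card = ∑ q ∈ TQ, (TG.filter (fun g : G => (QuotientGroup.mk g : G ⧸ N) = q)).card :=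
    Finset.card_eq_sum_card_fiberwise
      (fun g hg => Finset.mem_coe.mpr (hmaps g (Finset.mem_coe.mp hg)))
  have hfib : ∀ q ∈ TQ, ∃ (P₀ : Sylow p G) (g₀ : G),
      g₀ ∈ (P₀ : Subgroup G) ∧ (g₀ : G ⧸ N) = q := by
    intro q hq
    simp only [TQ, Finset.mem_filter, Finset.mem_univ, true_and] at hq
    obtain ⟨Qb, hQb⟩ := (pelem_iff p q).mp hq
    obtain ⟨P₀, hP₀⟩ := Sylow.mapSurjective_surjective (QuotientGroup.mk'_surjective N) p Qb
    have h1 : q ∈ ((P₀.mapSurjective (QuotientGroup.mk'_surjective N) : Sylow p (G ⧸ N)) :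
        Subgroup (G ⧸ N)) := by rw [hP₀]; exact hQb
    obtain ⟨g₀, hg₀, hg₀q⟩ := h1
    exact ⟨P₀, g₀, hg₀, hg₀q⟩
  have hlow : ∀ q ∈ TQ, m ≤ (TG.filter (fun g : G => (QuotientGroup.mk g : G ⧸ N) = q)).card := by
    intro q hq
    obtain ⟨P₀, g₀, hg₀, hg₀q⟩ := hfib q hq
    let Dfin : Finset G := Finset.univ.filter (fun n => n ∈ (P₀ : Subgroup G) ⊓ N)
    have hD : Nat.card ↥((P₀ : Subgroup G) ⊓ N) = Dfin.card := by
      rw [Nat.card_eq_fintype_card]
      exact Fintype.card_of_subtype Dfin (fun x => by simp [Dfin])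
    rw [← hm P₀, hD, ← Finset.card_image_of_injective Dfin (mul_right_injective g₀)]
    apply Finset.card_le_card
    intro g hg
    obtain ⟨n, hn, rfl⟩ := Finset.mem_image.mp hg
    simp only [Dfin, Finset.mem_filter, Finset.mem_univ, true_and] at hn
    simp only [TG, Finset.mem_filter, Finset.mem_univ, true_and]
    refine ⟨(pelem_iff p _).mpr ⟨P₀, Subgroup.mul_mem _ hg₀ hn.1⟩, ?_⟩
    rw [QuotientGroup.mk_mul, hg₀q, (QuotientGroup.eq_one_iff n).mpr hn.2, mul_one]
  refine ⟨?_, ?_⟩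
  · rw [hTG, hTQ, ← hmP]
    have h1 : TQ.card * m ≤ TG.card := by
      rw [hsum]
      calc TQ.card * m = ∑ q ∈ TQ, m := by rw [Finset.sum_const, smul_eq_mul]
        _ ≤ _ := Finset.sum_le_sum hlow
    calc TQ.card * (m * Nat.card (Pbar : Subgroup (G ⧸ N)))
        = (TQ.card * m) * Nat.card (Pbar : Subgroup (G ⧸ N)) := by ring
      _ ≤ TG.card * Nat.card (Pbar : Subgroup (G ⧸ N)) := Nat.mul_le_mul_right _ h1
  · intro hcen
    have hup : ∀ q ∈ TQ, (TG.filter (fun g : G => (QuotientGroup.mk g : G ⧸ N) = q)).card ≤ m := by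
      intro q hq
      obtain ⟨P₀, g₀, hg₀, hg₀q⟩ := hfib q hq
      let Dfin : Finset G := Finset.univ.filter (fun n => n ∈ (P₀ : Subgroup G) ⊓ N)
      have hD : Nat.card ↥((P₀ : Subgroup G) ⊓ N) = Dfin.card := by
        rw [Nat.card_eq_fintype_card]
        exact Fintype.card_of_subtype Dfin (fun x => by simp [Dfin])
      rw [← hm P₀, hD, ← Finset.card_image_of_injective Dfin (mul_right_injective g₀)]
      apply Finset.card_le_card
      intro g hg
      simp only [TG, Finset.mem_filter, Finset.mem_univ, true_and] at hg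
      obtain ⟨⟨k, hk⟩, hgq⟩ := hg
      rw [Finset.mem_image]
      refine ⟨g₀⁻¹ * g, ?_, by group⟩
      simp only [Dfin, Finset.mem_filter, Finset.mem_univ, true_and]
      have hnN : g₀⁻¹ * g ∈ N := QuotientGroup.eq.mp (hg₀q.trans hgq.symm)
      refine Subgroup.mem_inf.mpr ⟨?_, hnN⟩
      have hncen : ∀ z : G, z * (g₀⁻¹ * g) = (g₀⁻¹ * g) * z :=
        fun z => Subgroup.mem_center_iff.mp (hcen hnN) z
      obtain ⟨j, hj⟩ := (IsPGroup.iff_orderOf.mp P₀.isPGroup') ⟨g₀, hg₀⟩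
      rw [Subgroup.orderOf_mk] at hj
      have hpow : (g₀⁻¹ * g) ^ (p ^ (j + k)) = 1 := by
        have hc : Commute g₀⁻¹ g := by
          show g₀⁻¹ * g = g * g₀⁻¹
          calc g₀⁻¹ * g = (g₀⁻¹ * g) * g₀ * g₀⁻¹ := by group
            _ = g₀ * (g₀⁻¹ * g) * g₀⁻¹ := by rw [hncen g₀]
            _ = g * g₀⁻¹ := by group
        have h_g₀ : g₀ ^ (p ^ (j + k)) = 1 := by
          rw [pow_add, pow_mul, ← hj, pow_orderOf_eq_one, one_pow]
        have h_g : g ^ (p ^ (j + k)) = 1 := by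
          rw [pow_add, mul_comm, pow_mul, ← hk, pow_orderOf_eq_one, one_pow]
        rw [hc.mul_pow, inv_pow, h_g₀, h_g, inv_one, one_mul]
      have hZ : IsPGroup p (Subgroup.zpowers (g₀⁻¹ * g)) := by
        obtain ⟨i, -, hi⟩ := (Nat.dvd_prime_pow hpp).mp (orderOf_dvd_of_pow_eq_one hpow)
        exact IsPGroup.of_card (n := i) (by rw [Nat.card_zpowers, hi])
      have hZc : Subgroup.zpowers (g₀⁻¹ * g) ≤ Subgroup.center G :=
        Subgroup.zpowers_le.mpr (hcen hnN)
      have hZn : (Subgroup.zpowers (g₀⁻¹ * g)).Normal := ⟨fun a ha z => by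
        have h1 := Subgroup.mem_center_iff.mp (hZc ha) z
        have : z * a * z⁻¹ = a := by rw [h1, mul_inv_cancel_right]
        rw [this]; exact ha⟩
      have hsup : IsPGroup p (Subgroup.zpowers (g₀⁻¹ * g) ⊔ (P₀ : Subgroup G) : Subgroup G) :=
        IsPGroup.to_sup_of_normal_left hZ P₀.isPGroup'
      have h2 := P₀.is_maximal' hsup le_sup_right
      rw [← h2]; exact Subgroup.mem_sup_left (Subgroup.mem_zpowers _)
    rw [hTG, hTQ, ← hmP]
    have h1 : TG.card = TQ.card * m := by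
      rw [hsum]
      have : ∀ q ∈ TQ, (TG.filter (fun g : G => (QuotientGroup.mk g : G ⧸ N) = q)).card = m :=
        fun q hq => le_antisymm (hup q hq) (hlow q hq)
      rw [Finset.sum_congr rfl this, Finset.sum_const, smul_eq_mul]
    rw [h1]; ring

end Cfsg.Agent.S4153
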