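import Cfsg.Statements.S4154
import Mathlib

set_option autoImplicit false
open Cfsg

namespace Cfsg.Agent.S4154

/-- Let G be a finite group and α an automorphism of G such that every element of G is the product of an element fixed by α and an element of the form g⁻¹α(g). If N is a normal α-invariant subgroup, then the automorphism ᾱ induced on G/N has the same property, and every coset fixed by ᾱ contains an element fixed by α (so the fixed points of ᾱ are the images of the fixed points of α). -/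
theorem result {G : Type*} [Group G] [Finite G] (α : MulAut G)
    (hccp : ∀ x : G, ∃ c g : G, α c = c ∧ x = c * (g⁻¹ * α g))
    (N : Subgroup G) [N.Normal] (hN : ∀ n ∈ N, α n ∈ N) :
    (∀ x : G, ∃ c g : G, c⁻¹ * α c ∈ N ∧ x⁻¹ * (c * (g⁻¹ * α g)) ∈ N) ∧
    (∀ x : G, x⁻¹ * α x ∈ N → ∃ c : G, α c = c ∧ c⁻¹ * x ∈ N) := by
  refine ⟨fun x => ?_, fun x hx => ?_⟩
  · obtain ⟨c, g, hc, hx⟩ := hccp x
    refine ⟨c, g, ?_, ?_⟩
    · rw [hc, inv_mul_cancel]; exact N.one_mem
    · rw [← hx, inv_mul_cancel]; exact N.one_mem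
  · -- the subgroup of elements fixed modulo N
    let F : Subgroup G :=
      { carrier := {y | y⁻¹ * α y ∈ N}
        one_mem' := by
          show (1 : G)⁻¹ * α 1 ∈ N
          rw [map_one, inv_one, one_mul]; exact N.one_mem
        mul_mem' := by
          intro a b ha hb
          show (a * b)⁻¹ * α (a * b) ∈ N
          have e : (a * b)⁻¹ * α (a * b) = b⁻¹ * (a⁻¹ * α a) * b⁻¹⁻¹ * (b⁻¹ * α b) := by
            rw [map_mul]; group
          rw [e]
          exact N.mul_mem (‹N.Normal›.conj_mem _ ha _) hb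
        inv_mem' := by
          intro a ha
          show a⁻¹⁻¹ * α a⁻¹ ∈ N
          have e : a⁻¹⁻¹ * α a⁻¹ = a * (a⁻¹ * α a)⁻¹ * a⁻¹ := by
            rw [map_inv]; group
          rw [e]
          exact ‹N.Normal›.conj_mem _ (N.inv_mem ha) _ }
    let C : Subgroup G :=
      { carrier := {y | α y = y}
        one_mem' := map_one α
        mul_mem' := by
          intro a b ha hb
          show α (a * b) = a * b
          rw [map_mul, ha, hb]
        inv_mem' := by
          intro a ha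
          show α a⁻¹ = a⁻¹
          rw [map_inv, ha] }
    have hCF : C ≤ F := by
      intro y hy
      show y⁻¹ * α y ∈ N
      have : α y = y := hy
      rw [this, inv_mul_cancel]; exact N.one_mem
    have hNF : N ≤ F := by
      intro y hy
      show y⁻¹ * α y ∈ N
      exact N.mul_mem (N.inv_mem hy) (hN y hy)
    have hle : C ⊔ N ≤ F := sup_le hCF hNF
    -- counting
    have hsurj : Function.Surjective
        (fun pr : ↥(C ⊔ N) × (G ⧸ F) => (pr.1 : G) * ((Quotient.out pr.2)⁻¹⁻¹ * α (Quotient.out pr.2)⁻¹)) := by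
      intro y
      obtain ⟨c, g, hc, hy⟩ := hccp y
      obtain ⟨o, ho⟩ : ∃ o : G, o = Quotient.out (QuotientGroup.mk g⁻¹ : G ⧸ F) := ⟨_, rfl⟩
      have hof : o⁻¹ * g⁻¹ ∈ F := by
        have h1 : (QuotientGroup.mk o : G ⧸ F) = QuotientGroup.mk g⁻¹ := by
          rw [ho]; exact Quotient.out_eq _
        exact QuotientGroup.eq.mp h1
      have hfN : (o⁻¹ * g⁻¹)⁻¹⁻¹ * α (o⁻¹ * g⁻¹)⁻¹ ∈ N := (F.inv_mem hof : (o⁻¹ * g⁻¹)⁻¹ ∈ F)
      have hn1 : o * ((o⁻¹ * g⁻¹)⁻¹⁻¹ * α (o⁻¹ * g⁻¹)⁻¹) * o⁻¹ ∈ N := ‹N.Normal›.conj_mem _ hfN _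
      have hcC : c ∈ C := hc
      refine ⟨(⟨c * (o * ((o⁻¹ * g⁻¹)⁻¹⁻¹ * α (o⁻¹ * g⁻¹)⁻¹) * o⁻¹),
        Subgroup.mul_mem _ (Subgroup.mem_sup_left hcC) (Subgroup.mem_sup_right hn1)⟩,
        (QuotientGroup.mk g⁻¹ : G ⧸ F)), ?_⟩
      show c * (o * ((o⁻¹ * g⁻¹)⁻¹⁻¹ * α (o⁻¹ * g⁻¹)⁻¹) * o⁻¹) *
        ((Quotient.out (QuotientGroup.mk g⁻¹ : G ⧸ F))⁻¹⁻¹ *
          α (Quotient.out (QuotientGroup.mk g⁻¹ : G ⧸ F))⁻¹) = y
      rw [← ho, hy]
      simp only [map_mul, map_inv, inv_inv, mul_inv_rev]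
      group
    have hcard := Nat.card_le_card_of_surjective _ hsurj
    rw [Nat.card_prod] at hcard
    have hF := Subgroup.card_mul_index F
    have hidx : Nat.card (G ⧸ F) = F.index := rfl
    rw [hidx, ← hF] at hcard
    have hpos : 0 < F.index := Nat.pos_of_ne_zero (Subgroup.index_ne_zero_of_finite)
    have hcard' : Nat.card F ≤ Nat.card ↥(C ⊔ N) := Nat.le_of_mul_le_mul_right hcard hpos
    have heq : C ⊔ N = F := Subgroup.eq_of_le_of_card_ge hle hcard'
    have hxF : x ∈ F := hx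
    rw [← heq] at hxF
    obtain ⟨c, hc, n, hn, hcn⟩ := Subgroup.mem_sup_of_normal_right.mp hxF
    refine ⟨c, hc, ?_⟩
    rw [← hcn]
    have e : c⁻¹ * (c * n) = n := by group
    rw [e]; exact hn

end Cfsg.Agent.S4154
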