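import Cfsg.Statements.S4156

set_option autoImplicit false
open Cfsg

namespace Cfsg.Agent.S4156

universe u

/-- matrix of a permutation on the quotient of the permutation module by the all-ones vector -/
def dm (n : ℕ) (F : Type u) [Field F] (σ : Equiv.Perm (Fin (n + 1))) : Matrix (Fin n) (Fin n) F :=
  fun i j => (if σ j.castSucc = i.castSucc then 1 else 0) - (if σ j.castSucc = Fin.last n then 1 else 0)

theorem dm_apply (n : ℕ) (F : Type u) [Field F] (σ : Equiv.Perm (Fin (n + 1))) (i j : Fin n) :
    dm n F σ i j = (if σ j.castSucc = i.castSucc then 1 else 0) - (if σ j.castSucc = Fin.last n then 1 else 0) := rfl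

theorem sum_ind (n : ℕ) (F : Type u) [Field F] (σ : Equiv.Perm (Fin (n + 1))) (x : Fin (n + 1)) :
    ∑ j : Fin n, (if σ j.castSucc = x then (1 : F) else 0) = 1 - (if σ (Fin.last n) = x then 1 else 0) := by
  have h1 : ∑ j : Fin (n + 1), (if σ j = x then (1 : F) else 0) = 1 := by
    have : ∀ j : Fin (n + 1), (if σ j = x then (1 : F) else 0) = if j = σ.symm x then 1 else 0 := by
      intro j
      have : σ j = x ↔ j = σ.symm x := by
        constructor
        · intro h; rw [← h]; simp
        · intro h; rw [h]; simp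
      simp only [this]
    simp only [this]
    simp
  rw [Fin.sum_univ_castSucc] at h1
  rw [eq_sub_iff_add_eq]; exact h1

theorem dm_one (n : ℕ) (F : Type u) [Field F] : dm n F 1 = 1 := by
  ext i j
  have e : (1 : Equiv.Perm (Fin (n + 1))) j.castSucc = j.castSucc := rfl
  rw [dm_apply, e, Matrix.one_apply]
  have h1 : ¬ (j.castSucc = Fin.last n) := (Fin.castSucc_lt_last j).ne
  rw [if_neg h1, sub_zero]
  by_cases h : i = j
  · subst h; simp
  · rw [if_neg h, if_neg]
    intro h2
    exact h (Fin.castSucc_injective _ h2).symm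

theorem dm_mul (n : ℕ) (F : Type u) [Field F] (σ τ : Equiv.Perm (Fin (n + 1))) :
    dm n F (σ * τ) = dm n F σ * dm n F τ := by
  ext i k
  rw [Matrix.mul_apply]
  by_cases hk : τ k.castSucc = Fin.last n
  · have h1 : ∀ j : Fin n, dm n F σ i j * dm n F τ j k = - dm n F σ i j := by
      intro j
      have : dm n F τ j k = -1 := by
        simp only [dm]
        rw [if_pos hk, if_neg, zero_sub]
        rw [hk]
        exact (Fin.castSucc_lt_last j).ne'
      rw [this]; ring
    simp only [h1]
    rw [Finset.sum_neg_distrib]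
    simp only [dm]
    rw [Finset.sum_sub_distrib, sum_ind, sum_ind]
    simp only [Equiv.Perm.mul_apply, hk]
    ring
  · obtain ⟨j₀, hj₀⟩ := Fin.exists_castSucc_eq.mpr hk
    have h1 : ∀ j : Fin n, dm n F σ i j * dm n F τ j k = if j = j₀ then dm n F σ i j₀ else 0 := by
      intro j
      have : dm n F τ j k = if j = j₀ then 1 else 0 := by
        simp only [dm]
        rw [if_neg hk, sub_zero, ← hj₀]
        by_cases h : j = j₀
        · subst h; simp
        · rw [if_neg h, if_neg]
          intro h2
          exact h (Fin.castSucc_injective _ h2).symm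
      rw [this]
      by_cases h : j = j₀
      · subst h; simp
      · simp [h]
    simp only [h1]
    rw [Finset.sum_ite_eq' Finset.univ j₀]
    simp only [Finset.mem_univ, if_true]
    rw [dm_apply, dm_apply, Equiv.Perm.mul_apply, hj₀]

theorem phi_three {α : Type*} [Fintype α] [DecidableEq α] {M : Type*} [CommMonoid M]
    (φ : Equiv.Perm α →* M) (c : Equiv.Perm α) (hc : c.IsThreeCycle) : φ c = 1 := by
  have h2 : IsConj c (c * c) := by
    rw [Equiv.Perm.isConj_iff_cycleType_eq]
    have := hc.isThreeCycle_sq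
    exact hc.trans this.symm
  obtain ⟨g, hg⟩ := isConj_iff.mp h2
  have h3 : φ c * φ c = φ c := by
    rw [← map_mul, ← hg, map_mul, map_mul, mul_right_comm, ← map_mul, mul_inv_cancel, map_one, one_mul]
  have h4 : φ c ^ 3 = 1 := by
    rw [← map_pow, ← hc.orderOf, pow_orderOf_eq_one, map_one]
  have h5 : φ c ^ 3 = φ c := by
    rw [pow_succ, pow_two, h3, h3]
  rw [← h5, h4]

theorem phi_alt {α : Type*} [Fintype α] [DecidableEq α] {M : Type*} [CommMonoid M]
    (φ : Equiv.Perm α →* M) (σ : Equiv.Perm α) (hσ : σ ∈ alternatingGroup α) : φ σ = 1 := by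
  rw [← Equiv.Perm.closure_three_cycles_eq_alternating] at hσ
  induction hσ using Subgroup.closure_induction with
  | mem x hx => exact phi_three φ x hx
  | one => exact map_one φ
  | mul x y _ _ hx hy => rw [map_mul, hx, hy, mul_one]
  | inv x _ hx =>
    have : φ x⁻¹ * φ x = 1 := by rw [← map_mul, inv_mul_cancel, map_one]
    rwa [hx, mul_one] at this

/-- the monoid hom -/
def dmHom (n : ℕ) (F : Type u) [Field F] : Equiv.Perm (Fin (n + 1)) →* Matrix (Fin n) (Fin n) F where
  toFun := dm n F
  map_one' := dm_one n F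
  map_mul' := dm_mul n F

theorem dm_det (n : ℕ) (F : Type u) [Field F] (σ : Equiv.Perm (Fin (n + 1)))
    (hσ : σ ∈ alternatingGroup (Fin (n + 1))) : (dm n F σ).det = 1 :=
  phi_alt ((Matrix.detMonoidHom).comp (dmHom n F)) σ hσ

/-- the hom to SL -/
def dmSL (n : ℕ) (F : Type u) [Field F] :
    alternatingGroup (Fin (n + 1)) →* Matrix.SpecialLinearGroup (Fin n) F where
  toFun σ := ⟨dm n F σ.1, dm_det n F σ.1 σ.2⟩
  map_one' := Subtype.ext (dm_one n F)
  map_mul' a b := Subtype.ext (dm_mul n F a.1 b.1)

theorem dm_scalar (n : ℕ) (hn : 2 ≤ n) (F : Type u) [Field F] (σ : Equiv.Perm (Fin (n + 1)))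
    (h : ∀ i j : Fin n, i ≠ j → dm n F σ i j = 0) : σ = 1 := by
  have hfix : ∀ j : Fin n, σ j.castSucc = j.castSucc := by
    intro j
    obtain ⟨i, hij⟩ : ∃ i : Fin n, i ≠ j := by
      by_cases hj : j = ⟨0, by omega⟩
      · exact ⟨⟨1, by omega⟩, by rw [hj]; simp [Fin.ext_iff]⟩
      · exact ⟨⟨0, by omega⟩, fun h => hj h.symm⟩
    have hne : σ j.castSucc ≠ Fin.last n := by
      intro hl
      have := h i j hij
      simp only [dm] at this
      rw [if_pos hl, if_neg, zero_sub] at this
      · simp at this
      · rw [hl]; exact (Fin.castSucc_lt_last i).ne'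
    obtain ⟨m, hm⟩ := Fin.exists_castSucc_eq.mpr hne
    by_cases hmj : m = j
    · rw [← hm, hmj]
    · have := h m j hmj
      simp only [dm] at this
      rw [if_pos hm.symm, if_neg hne, sub_zero] at this
      simp at this
  have hlast : σ (Fin.last n) = Fin.last n := by
    by_contra hne
    obtain ⟨m, hm⟩ := Fin.exists_castSucc_eq.mpr hne
    have := hfix m
    rw [hm] at this
    have h2 := σ.injective this
    exact hne h2
  ext x
  refine Fin.lastCases ?_ ?_ x
  · rw [hlast]; rfl
  · intro j; rw [hfix]; rfl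

theorem main (n : ℕ) (hn : 5 ≤ n) (F : Type u) [Field F] [Finite F] :
    ∃ f : alternatingGroup (Fin (n + 1)) →* Matrix.ProjectiveSpecialLinearGroup (Fin n) F, Function.Injective f := by
  refine ⟨(QuotientGroup.mk' _).comp (dmSL n F), ?_⟩
  rw [injective_iff_map_eq_one]
  intro σ hσ
  rw [MonoidHom.comp_apply, QuotientGroup.mk'_apply, QuotientGroup.eq_one_iff,
    Matrix.SpecialLinearGroup.mem_center_iff] at hσ
  obtain ⟨r, -, hr⟩ := hσ
  have : σ.1 = 1 := by
    apply dm_scalar n (by omega) F
    intro i j hij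
    have h1 : dm n F σ.1 i j = (Matrix.scalar (Fin n) r) i j := by
      rw [hr]; rfl
    rw [h1]
    simp [Matrix.scalar_apply, hij]
  exact Subtype.ext this

/-- Let n ≥ 5 and F a finite field. Then the projective special linear group PSL_n(F) contains a subgroup isomorphic to the alternating group of degree n + 1. -/
theorem result (n : ℕ) (hn : 5 ≤ n) (F : Type*) [Field F] [Finite F] :
    ∃ f : alternatingGroup (Fin (n + 1)) →* Matrix.ProjectiveSpecialLinearGroup (Fin n) F, Function.Injective f := by
  exact main n hn F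

end Cfsg.Agent.S4156
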