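import Cfsg.Statements.S4160
import Mathlib

set_option autoImplicit false
open Cfsg

namespace Cfsg.Agent.S4160


theorem key {G : Type*} [Group G] [Finite G] (p : ℕ) [hp : Fact p.Prime] (x : G)
    (hx : ¬ p ∣ (Subgroup.centralizer ({x} : Set G)).index) :
    ∃ S : Sylow p G, x ∈ Subgroup.centralizer ((S : Subgroup G) : Set G) := by
  obtain ⟨C, hC⟩ : ∃ C : Subgroup G, C = Subgroup.centralizer ({x} : Set G) := ⟨_, rfl⟩
  rw [← hC] at hx
  have hCx : ∀ c ∈ C, c * x = x * c := by
    intro c hc
    rw [hC, Subgroup.mem_centralizer_iff] at hc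
    exact (hc x rfl).symm
  obtain ⟨S₁⟩ : Nonempty (Sylow p C) := inferInstance
  obtain ⟨T, hT⟩ : ∃ T : Subgroup G, T = (S₁ : Subgroup C).map C.subtype := ⟨_, rfl⟩
  have hcard : Nat.card T = p ^ (Nat.card G).factorization p := by
    rw [hT, Subgroup.card_map_of_injective C.subtype_injective, S₁.card_eq_multiplicity]
    congr 1
    have h1 : Nat.card G = Nat.card C * C.index := (Subgroup.card_mul_index C).symm
    rw [h1, Nat.factorization_mul Nat.card_pos.ne' Subgroup.index_ne_zero_of_finite,
      Finsupp.add_apply, Nat.factorization_eq_zero_of_not_dvd hx, add_zero]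
  refine ⟨Sylow.ofCard T hcard, ?_⟩
  rw [Sylow.coe_ofCard, Subgroup.mem_centralizer_iff]
  intro t ht
  rw [SetLike.mem_coe, hT] at ht
  obtain ⟨c, -, rfl⟩ := ht
  exact hCx c c.2

theorem two_mul_le {G : Type*} [Group G] [Finite G] (p : ℕ) [hp : Fact p.Prime]
    (hnpc : ¬ Cfsg.HasNormalPComplement p G) (S : Sylow p G) :
    2 * Nat.card (Sylow p G) * Nat.card (Subgroup.centralizer ((S : Subgroup G) : Set G))
      ≤ Nat.card G := by
  obtain ⟨C, hC⟩ : ∃ C : Subgroup G, C = Subgroup.centralizer ((S : Subgroup G) : Set G) :=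
    ⟨_, rfl⟩
  obtain ⟨N, hN⟩ : ∃ N : Subgroup G, N = Subgroup.normalizer ((S : Subgroup G) : Set G) :=
    ⟨_, rfl⟩
  rw [← hC]
  have hCN : C ≤ N := by rw [hC, hN]; exact Subgroup.centralizer_le_normalizer _
  have hne : ¬ N ≤ C := by
    intro hle
    apply hnpc
    rw [hN, hC] at hle
    exact ⟨S, (MonoidHom.transferSylow S hle).ker, inferInstance,
      MonoidHom.ker_transferSylow_isComplement' S hle⟩
  have h1 : Nat.card (Sylow p G) = N.index := by
    rw [hN]; exact Sylow.card_eq_index_normalizer S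
  have h2 : Nat.card N * N.index = Nat.card G := Subgroup.card_mul_index N
  have h3 : 2 * Nat.card C ≤ Nat.card N := by
    have h4 := Subgroup.relIndex_mul_relIndex ⊥ C N bot_le hCN
    rw [Subgroup.relIndex_bot_left, Subgroup.relIndex_bot_left] at h4
    have h5 : C.relIndex N ≠ 1 := fun h => hne (Subgroup.relIndex_eq_one.mp h)
    have h6 : C.relIndex N ≠ 0 := by
      unfold Subgroup.relIndex; exact Subgroup.index_ne_zero_of_finite
    have h7 : 2 ≤ C.relIndex N := by omega
    calc 2 * Nat.card C ≤ C.relIndex N * Nat.card C := Nat.mul_le_mul_right _ h7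
      _ = Nat.card N := by rw [mul_comm]; exact h4
  calc 2 * Nat.card (Sylow p G) * Nat.card C = (2 * Nat.card C) * N.index := by rw [h1]; ring
    _ ≤ Nat.card N * N.index := Nat.mul_le_mul_right _ h3
    _ = Nat.card G := h2

theorem cover_bound {G : Type*} [Group G] [Finite G] (p : ℕ) [hp : Fact p.Prime]
    (hnpc : ¬ Cfsg.HasNormalPComplement p G) :
    2 * Set.ncard {x : G | x ≠ 1 ∧
        ∃ S : Sylow p G, x ∈ Subgroup.centralizer ((S : Subgroup G) : Set G)}
      + 2 * Nat.card (Sylow p G) ≤ Nat.card G := by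
  classical
  haveI : Fintype (Sylow p G) := Fintype.ofFinite _
  have hset : {x : G | x ≠ 1 ∧
        ∃ S : Sylow p G, x ∈ Subgroup.centralizer ((S : Subgroup G) : Set G)}
      = ⋃ S : Sylow p G, ((Subgroup.centralizer ((S : Subgroup G) : Set G) : Set G) \ {1}) := by
    ext x
    simp only [Set.mem_setOf_eq, Set.mem_iUnion, Set.mem_diff, SetLike.mem_coe,
      Set.mem_singleton_iff]
    constructor
    · rintro ⟨h1, S, hS⟩; exact ⟨S, hS, h1⟩
    · rintro ⟨S, hS, h1⟩; exact ⟨h1, S, hS⟩
  rw [hset]
  have h1 := Set.ncard_iUnion_le_of_fintype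
    (fun S : Sylow p G => ((Subgroup.centralizer ((S : Subgroup G) : Set G) : Set G) \ {1}))
  have h2 : ∀ S : Sylow p G,
      Set.ncard (((Subgroup.centralizer ((S : Subgroup G) : Set G) : Set G) \ {1})) + 1
        = Nat.card (Subgroup.centralizer ((S : Subgroup G) : Set G)) := by
    intro S
    rw [Set.ncard_diff_singleton_add_one (Subgroup.one_mem _)]
    exact (Nat.card_coe_set_eq _).symm
  have h3 := fun S : Sylow p G => two_mul_le p hnpc S
  have h4 : ∑ S : Sylow p G,
      (Set.ncard (((Subgroup.centralizer ((S : Subgroup G) : Set G) : Set G) \ {1})) + 1)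
        = ∑ S : Sylow p G, Nat.card (Subgroup.centralizer ((S : Subgroup G) : Set G)) :=
    Finset.sum_congr rfl (fun S _ => h2 S)
  rw [Finset.sum_add_distrib, Finset.sum_const, Finset.card_univ, smul_eq_mul, mul_one] at h4
  have h5 : 2 * Nat.card (Sylow p G) *
      ∑ S : Sylow p G, Nat.card (Subgroup.centralizer ((S : Subgroup G) : Set G))
        ≤ Nat.card (Sylow p G) * Nat.card G := by
    rw [Finset.mul_sum]
    calc ∑ S : Sylow p G, 2 * Nat.card (Sylow p G) *
          Nat.card (Subgroup.centralizer ((S : Subgroup G) : Set G))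
          ≤ ∑ S : Sylow p G, Nat.card G := Finset.sum_le_sum (fun S _ => h3 S)
      _ = Nat.card (Sylow p G) * Nat.card G := by
          rw [Finset.sum_const, Finset.card_univ, smul_eq_mul,
            Nat.card_eq_fintype_card (α := Sylow p G)]
  have hpos : 0 < Nat.card (Sylow p G) := Nat.card_pos
  have h6 : 2 * ∑ S : Sylow p G, Nat.card (Subgroup.centralizer ((S : Subgroup G) : Set G))
      ≤ Nat.card G := by
    have h7 : Nat.card (Sylow p G) *
        (2 * ∑ S : Sylow p G, Nat.card (Subgroup.centralizer ((S : Subgroup G) : Set G)))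
          ≤ Nat.card (Sylow p G) * Nat.card G := by
      calc Nat.card (Sylow p G) *
            (2 * ∑ S : Sylow p G, Nat.card (Subgroup.centralizer ((S : Subgroup G) : Set G)))
            = 2 * Nat.card (Sylow p G) *
              ∑ S : Sylow p G, Nat.card (Subgroup.centralizer ((S : Subgroup G) : Set G)) := by
            ring
        _ ≤ _ := h5
    exact Nat.le_of_mul_le_mul_left h7 hpos
  rw [Nat.card_eq_fintype_card (α := Sylow p G)]
  omega

/-- Let G be a finite group and p ≠ q primes each dividing the size of some conjugacy class of G, such that no conjugacy class size is divisible by pq. Then G has a normal p-complement or a normal q-complement. -/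
theorem result {G : Type*} [Group G] [Finite G] (p q : ℕ) (hp : p.Prime) (hq : q.Prime) (hpq : p ≠ q)
    (hp' : ∃ x : G, p ∣ (Subgroup.centralizer ({x} : Set G)).index) (hq' : ∃ x : G, q ∣ (Subgroup.centralizer ({x} : Set G)).index) (h : ∀ x : G, ¬ p * q ∣ (Subgroup.centralizer ({x} : Set G)).index) :
    Cfsg.HasNormalPComplement p G ∨ Cfsg.HasNormalPComplement q G := by
  classical
  by_contra hcon
  push Not at hcon
  obtain ⟨hnp, hnq⟩ := hcon
  haveI : Fact p.Prime := ⟨hp⟩
  haveI : Fact q.Prime := ⟨hq⟩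
  have h1 := cover_bound p hnp
  have h2 := cover_bound q hnq
  have hcov : ({1}ᶜ : Set G) ⊆ {x : G | x ≠ 1 ∧
        ∃ S : Sylow p G, x ∈ Subgroup.centralizer ((S : Subgroup G) : Set G)} ∪
      {x : G | x ≠ 1 ∧
        ∃ S : Sylow q G, x ∈ Subgroup.centralizer ((S : Subgroup G) : Set G)} := by
    intro x hx
    have hx1 : x ≠ 1 := hx
    have hx2 := h x
    by_cases hpd : p ∣ (Subgroup.centralizer ({x} : Set G)).index
    · right
      have hqd : ¬ q ∣ (Subgroup.centralizer ({x} : Set G)).index := by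
        intro hqd
        exact hx2 (Nat.Coprime.mul_dvd_of_dvd_of_dvd ((Nat.coprime_primes hp hq).mpr hpq) hpd hqd)
      exact ⟨hx1, key q x hqd⟩
    · left
      exact ⟨hx1, key p x hpd⟩
  have h3 := Set.ncard_le_ncard hcov
  have h4 := Set.ncard_union_le {x : G | x ≠ 1 ∧
        ∃ S : Sylow p G, x ∈ Subgroup.centralizer ((S : Subgroup G) : Set G)}
      {x : G | x ≠ 1 ∧
        ∃ S : Sylow q G, x ∈ Subgroup.centralizer ((S : Subgroup G) : Set G)}
  have h5 : ({1}ᶜ : Set G).ncard = Nat.card G - 1 := by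
    rw [Set.ncard_compl, Set.ncard_singleton]
  have h6 : 0 < Nat.card (Sylow p G) := Nat.card_pos
  have h7 : 0 < Nat.card (Sylow q G) := Nat.card_pos
  have h8 : 0 < Nat.card G := Nat.card_pos
  omega

end Cfsg.Agent.S4160
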