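import Cfsg.Statements.S4163
import Mathlib

set_option autoImplicit false
open Cfsg

namespace Cfsg.Agent.S4163


open scoped commutatorElement

/-- the core count: commutators of an element with a largest noncentral centralizer with a normal
abelian subgroup are central -/
theorem lemA {G : Type*} [Group G] [Finite G] (A : Subgroup G) [hAn : A.Normal]
    (hAc : ∀ a ∈ A, ∀ b ∈ A, a * b = b * a) (x : G)
    (hmin : ∀ y : G, y ∉ Subgroup.center G →
      Nat.card (Subgroup.centralizer ({y} : Set G)) ≤ Nat.card (Subgroup.centralizer ({x} : Set G)))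
    (a₀ : G) (ha₀ : a₀ ∈ A) : x * a₀ * x⁻¹ * a₀⁻¹ ∈ Subgroup.center G := by
  classical
  by_contra hc
  obtain ⟨c, hcdef⟩ : ∃ c : G, c = x * a₀ * x⁻¹ * a₀⁻¹ := ⟨_, rfl⟩
  rw [← hcdef] at hc
  have hcard := hmin c hc
  have hconjA : ∀ g : G, ∀ b ∈ A, g * b * g⁻¹ ∈ A := fun g b hb => hAn.conj_mem b hb g
  have hxb : ∀ b ∈ A, x * b * x⁻¹ * b⁻¹ ∈ A :=
    fun b hb => A.mul_mem (hconjA x b hb) (A.inv_mem hb)
  have hcA : c ∈ A := hcdef ▸ hxb a₀ ha₀
  have hc1 : c ≠ 1 := fun h => hc (h ▸ Subgroup.one_mem _)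
  obtain ⟨D, hDdef⟩ : ∃ D : Set G, D = {z | ∃ b ∈ A, z = x * b * x⁻¹ * b⁻¹} := ⟨_, rfl⟩
  have hDmem : ∀ z : G, z ∈ D ↔ ∃ b ∈ A, z = x * b * x⁻¹ * b⁻¹ := by
    intro z; rw [hDdef]; rfl
  have h1D : (1 : G) ∈ D := (hDmem 1).mpr ⟨1, A.one_mem, by group⟩
  have hβ : ∀ z : D, ∃ b ∈ A, (z : G) = x * b * x⁻¹ * b⁻¹ := fun z => (hDmem z).mp z.2
  choose β hβA hβz using hβ
  have horb : ∀ g ∈ Subgroup.centralizer ({x} : Set G), g * c * g⁻¹ ∈ D \ {1} := by
    intro g hg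
    have hgx : g * x = x * g := (Subgroup.mem_centralizer_iff.mp hg x rfl).symm
    have e1 : g * x * g⁻¹ = x := by rw [hgx, mul_assoc, mul_inv_cancel, mul_one]
    refine ⟨(hDmem _).mpr ⟨g * a₀ * g⁻¹, hconjA g a₀ ha₀, ?_⟩, ?_⟩
    · rw [hcdef]
      calc g * (x * a₀ * x⁻¹ * a₀⁻¹) * g⁻¹
          = (g * x * g⁻¹) * (g * a₀ * g⁻¹) * (g * x * g⁻¹)⁻¹ * (g * a₀ * g⁻¹)⁻¹ := by group
        _ = x * (g * a₀ * g⁻¹) * x⁻¹ * (g * a₀ * g⁻¹)⁻¹ := by rw [e1]
    · rw [Set.mem_singleton_iff]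
      intro h
      apply hc1
      have e : c = g⁻¹ * (g * c * g⁻¹) * g := by group
      rw [e, h]
      group
  have hγ : ∀ c' : ↥(D \ {1}), ∃ γ : G,
      (∃ g ∈ Subgroup.centralizer ({x} : Set G), g * c * g⁻¹ = (c' : G)) →
        (γ ∈ Subgroup.centralizer ({x} : Set G) ∧ γ * c * γ⁻¹ = (c' : G)) := by
    intro c'
    by_cases h : ∃ g ∈ Subgroup.centralizer ({x} : Set G), g * c * g⁻¹ = (c' : G)
    · obtain ⟨g, hg, hgc⟩ := h
      exact ⟨g, fun _ => ⟨hg, hgc⟩⟩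
    · exact ⟨1, fun h' => absurd h' h⟩
  choose γ hγ' using hγ
  have hmemCc : ∀ (g : ↥(Subgroup.centralizer ({x} : Set G))) (z : D),
      β z * ((γ ⟨(g : G) * c * (g : G)⁻¹, horb g g.2⟩)⁻¹ * (g : G)) ∈
        Subgroup.centralizer ({c} : Set G) := by
    intro g z
    rw [Subgroup.mem_centralizer_iff]
    intro h hh
    rw [Set.mem_singleton_iff] at hh
    rw [hh]
    obtain ⟨hγ1, hγ2⟩ := hγ' ⟨(g : G) * c * (g : G)⁻¹, horb g g.2⟩ ⟨g, g.2, rfl⟩
    obtain ⟨γ₀, hγ₀⟩ : ∃ γ₀ : G, γ₀ = γ ⟨(g : G) * c * (g : G)⁻¹, horb g g.2⟩ := ⟨_, rfl⟩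
    rw [← hγ₀] at hγ1 hγ2 ⊢
    have hγ2' : γ₀ * c * γ₀⁻¹ = (g : G) * c * (g : G)⁻¹ := hγ2
    have hs : (γ₀⁻¹ * (g : G)) * c = c * (γ₀⁻¹ * (g : G)) := by
      calc γ₀⁻¹ * (g : G) * c = γ₀⁻¹ * ((g : G) * c * (g : G)⁻¹) * (g : G) := by group
        _ = γ₀⁻¹ * (γ₀ * c * γ₀⁻¹) * (g : G) := by rw [hγ2']
        _ = c * (γ₀⁻¹ * (g : G)) := by group
    have hb : β z * c = c * β z := hAc _ (hβA z) c hcA
    calc c * (β z * (γ₀⁻¹ * (g : G))) = (c * β z) * (γ₀⁻¹ * (g : G)) := by group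
      _ = β z * (c * (γ₀⁻¹ * (g : G))) := by rw [← hb]; group
      _ = β z * (γ₀⁻¹ * (g : G)) * c := by rw [← hs]; group
  have hinj : Function.Injective
      (fun q : ↥(Subgroup.centralizer ({x} : Set G)) × D =>
        ((⟨(q.1 : G) * c * (q.1 : G)⁻¹, horb q.1 q.1.2⟩ : ↥(D \ {1})),
          (⟨β q.2 * ((γ ⟨(q.1 : G) * c * (q.1 : G)⁻¹, horb q.1 q.1.2⟩)⁻¹ * (q.1 : G)),
            hmemCc q.1 q.2⟩ : ↥(Subgroup.centralizer ({c} : Set G))))) := by
    rintro ⟨g, z⟩ ⟨g', z'⟩ h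
    simp only [Prod.mk.injEq, Subtype.mk.injEq] at h
    obtain ⟨h1, h2⟩ := h
    have hγeq : γ ⟨(g : G) * c * (g : G)⁻¹, horb g g.2⟩
        = γ ⟨(g' : G) * c * (g' : G)⁻¹, horb g' g'.2⟩ := by
      congr 1
      exact Subtype.ext h1
    rw [hγeq] at h2
    obtain ⟨hγ1, -⟩ := hγ' ⟨(g' : G) * c * (g' : G)⁻¹, horb g' g'.2⟩ ⟨g', g'.2, rfl⟩
    obtain ⟨γ₀, hγ₀⟩ : ∃ γ₀ : G, γ₀ = γ ⟨(g' : G) * c * (g' : G)⁻¹, horb g' g'.2⟩ := ⟨_, rfl⟩
    rw [← hγ₀] at hγ1 h2
    obtain ⟨e, hedef⟩ : ∃ e : G, e = (β z')⁻¹ * β z := ⟨_, rfl⟩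
    have he : e = (γ₀⁻¹ * (g' : G)) * (γ₀⁻¹ * (g : G))⁻¹ := by
      have h3 : β z = β z' * (γ₀⁻¹ * (g' : G)) * (γ₀⁻¹ * (g : G))⁻¹ := by
        rw [← h2]; group
      rw [hedef, h3]; group
    have heA : e ∈ A := hedef ▸ A.mul_mem (A.inv_mem (hβA z')) (hβA z)
    have heC : e ∈ Subgroup.centralizer ({x} : Set G) := by
      rw [he]
      exact Subgroup.mul_mem _ (Subgroup.mul_mem _ (Subgroup.inv_mem _ hγ1) g'.2)
        (Subgroup.inv_mem _ (Subgroup.mul_mem _ (Subgroup.inv_mem _ hγ1) g.2))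
    have hex : x * e = e * x := Subgroup.mem_centralizer_iff.mp heC x rfl
    have hex' : e * x⁻¹ = x⁻¹ * e := by
      calc e * x⁻¹ = x⁻¹ * (x * e) * x⁻¹ := by group
        _ = x⁻¹ * (e * x) * x⁻¹ := by rw [hex]
        _ = x⁻¹ * e := by group
    have hzz : (z : G) = (z' : G) := by
      rw [hβz z, hβz z']
      have hb : β z = β z' * e := by rw [hedef]; group
      rw [hb]
      calc x * (β z' * e) * x⁻¹ * (β z' * e)⁻¹
          = x * β z' * (e * x⁻¹) * e⁻¹ * (β z')⁻¹ := by group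
        _ = x * β z' * (x⁻¹ * e) * e⁻¹ * (β z')⁻¹ := by rw [hex']
        _ = x * β z' * x⁻¹ * (β z')⁻¹ := by group
    have hz : z = z' := Subtype.ext hzz
    subst hz
    have hgg : (g : G) = (g' : G) := mul_left_cancel (mul_left_cancel h2)
    exact Prod.ext (Subtype.ext hgg) rfl
  have hle := Nat.card_le_card_of_injective _ hinj
  rw [Nat.card_prod, Nat.card_prod] at hle
  have hD1 : Nat.card ↥(D \ {1}) + 1 = Nat.card D := by
    rw [Nat.card_coe_set_eq, Nat.card_coe_set_eq]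
    exact Set.ncard_diff_singleton_add_one h1D (Set.toFinite D)
  have hpos : 0 < Nat.card (Subgroup.centralizer ({x} : Set G)) := Nat.card_pos
  have h3 := Nat.mul_le_mul_left (Nat.card ↥(D \ {1})) hcard
  nlinarith [hle, h3, hD1, hpos]

/-- commutators of elements acting centrally on `A` centralize `A` -/
theorem comm_mem_cent {G : Type*} [Group G] (A : Subgroup G) (u v : G)
    (hu : ∀ a ∈ A, u * a * u⁻¹ * a⁻¹ ∈ Subgroup.center G)
    (hv : ∀ a ∈ A, v * a * v⁻¹ * a⁻¹ ∈ Subgroup.center G) :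
    u⁻¹ * v⁻¹ * u * v ∈ Subgroup.centralizer (A : Set G) := by
  rw [Subgroup.mem_centralizer_iff]
  intro a ha
  have h1 : u * a * u⁻¹ = (u * a * u⁻¹ * a⁻¹) * a := by group
  have h2 : v * a * v⁻¹ = (v * a * v⁻¹ * a⁻¹) * a := by group
  obtain ⟨z₁, hz₁⟩ : ∃ z : G, z = u * a * u⁻¹ * a⁻¹ := ⟨_, rfl⟩
  obtain ⟨z₂, hz₂⟩ : ∃ z : G, z = v * a * v⁻¹ * a⁻¹ := ⟨_, rfl⟩
  rw [← hz₁] at h1
  rw [← hz₂] at h2
  have hz₁c : ∀ g : G, g * z₁ = z₁ * g :=
    fun g => Subgroup.mem_center_iff.mp (hz₁ ▸ hu a ha) g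
  have hz₂c : ∀ g : G, g * z₂ = z₂ * g :=
    fun g => Subgroup.mem_center_iff.mp (hz₂ ▸ hv a ha) g
  have e1 : (u * v) * a * (u * v)⁻¹ = z₂ * z₁ * a := by
    calc (u * v) * a * (u * v)⁻¹ = u * (v * a * v⁻¹) * u⁻¹ := by group
      _ = u * (z₂ * a) * u⁻¹ := by rw [h2]
      _ = (u * z₂) * a * u⁻¹ := by group
      _ = (z₂ * u) * a * u⁻¹ := by rw [hz₂c u]
      _ = z₂ * (u * a * u⁻¹) := by group
      _ = z₂ * (z₁ * a) := by rw [h1]
      _ = z₂ * z₁ * a := by group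
  have e2 : (v * u) * a * (v * u)⁻¹ = z₂ * z₁ * a := by
    calc (v * u) * a * (v * u)⁻¹ = v * (u * a * u⁻¹) * v⁻¹ := by group
      _ = v * (z₁ * a) * v⁻¹ := by rw [h1]
      _ = (v * z₁) * a * v⁻¹ := by group
      _ = (z₁ * v) * a * v⁻¹ := by rw [hz₁c v]
      _ = z₁ * (v * a * v⁻¹) := by group
      _ = z₁ * (z₂ * a) := by rw [h2]
      _ = (z₁ * z₂) * a := by group
      _ = z₂ * z₁ * a := by rw [← hz₁c z₂]
  have e3 : (u * v) * a * (u * v)⁻¹ = (v * u) * a * (v * u)⁻¹ := by rw [e1, e2]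
  calc a * (u⁻¹ * v⁻¹ * u * v) = (v * u)⁻¹ * ((v * u) * a * (v * u)⁻¹) * (u * v) := by group
    _ = (v * u)⁻¹ * ((u * v) * a * (u * v)⁻¹) * (u * v) := by rw [e3]
    _ = u⁻¹ * v⁻¹ * u * v * a := by group

theorem comm_mem_A {G : Type*} [Group G] (A : Subgroup G) [hAn : A.Normal]
    (hCA : Subgroup.centralizer (A : Set G) = A) (u v : G)
    (hu : ∀ a ∈ A, u * a * u⁻¹ * a⁻¹ ∈ Subgroup.center G)
    (hv : ∀ a ∈ A, v * a * v⁻¹ * a⁻¹ ∈ Subgroup.center G) :
    u * v * u⁻¹ * v⁻¹ ∈ A := by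
  have h1 := comm_mem_cent A u v hu hv
  rw [hCA] at h1
  have e : u * v * u⁻¹ * v⁻¹ = (v * u) * (u⁻¹ * v⁻¹ * u * v) * (v * u)⁻¹ := by group
  rw [e]
  exact hAn.conj_mem _ h1 _

/-- a three-step central chain -/
theorem ucs3 {H : Type*} [Group H] (A₀ Z₀ : Subgroup H) (hZ : Z₀ ≤ Subgroup.center H)
    (h3 : ∀ a ∈ A₀, ∀ v : H, a * v * a⁻¹ * v⁻¹ ∈ Z₀)
    (h2 : ∀ u v : H, u * v * u⁻¹ * v⁻¹ ∈ A₀) : Subgroup.upperCentralSeries H 3 = ⊤ := by
  have U1 : Z₀ ≤ Subgroup.upperCentralSeries H 1 := by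
    rw [Subgroup.upperCentralSeries_one]; exact hZ
  have U2 : A₀ ≤ Subgroup.upperCentralSeries H (1 + 1) := by
    intro a ha
    rw [Subgroup.mem_upperCentralSeries_succ_iff]
    intro y
    exact U1 (h3 a ha y)
  rw [eq_top_iff]
  intro u _
  show u ∈ Subgroup.upperCentralSeries H (2 + 1)
  rw [Subgroup.mem_upperCentralSeries_succ_iff]
  intro y
  exact U2 (h2 u y)

/-- a largest noncentral centralizer, in terms of indices -/
theorem card_le_of_index {G : Type*} [Group G] [Finite G] (m : ℕ) (hm1 : 1 < m)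
    (hmin : ∀ x : G, 1 < (Subgroup.centralizer ({x} : Set G)).index →
      m ≤ (Subgroup.centralizer ({x} : Set G)).index) (x : G)
    (hx : (Subgroup.centralizer ({x} : Set G)).index = 1 ∨
      (Subgroup.centralizer ({x} : Set G)).index = m) :
    ∀ y : G, y ∉ Subgroup.center G →
      Nat.card (Subgroup.centralizer ({y} : Set G)) ≤
        Nat.card (Subgroup.centralizer ({x} : Set G)) := by
  intro y hy
  have hy1 : (Subgroup.centralizer ({y} : Set G)).index ≠ 1 := by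
    intro h
    apply hy
    rw [Subgroup.index_eq_one] at h
    rw [Subgroup.mem_center_iff]
    intro g
    have hg : g ∈ Subgroup.centralizer ({y} : Set G) := by rw [h]; exact Subgroup.mem_top g
    exact (Subgroup.mem_centralizer_iff.mp hg y rfl).symm
  have hy0 : (Subgroup.centralizer ({y} : Set G)).index ≠ 0 := Subgroup.index_ne_zero_of_finite
  have hym : m ≤ (Subgroup.centralizer ({y} : Set G)).index := hmin y (by omega)
  have hxm : (Subgroup.centralizer ({x} : Set G)).index ≤ m := by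
    rcases hx with h | h <;> omega
  have hx0 : 0 < (Subgroup.centralizer ({x} : Set G)).index :=
    Nat.pos_of_ne_zero Subgroup.index_ne_zero_of_finite
  have e1 := Subgroup.card_mul_index (Subgroup.centralizer ({y} : Set G))
  have e2 := Subgroup.card_mul_index (Subgroup.centralizer ({x} : Set G))
  have h4 : Nat.card (Subgroup.centralizer ({y} : Set G)) *
      (Subgroup.centralizer ({x} : Set G)).index ≤
      Nat.card (Subgroup.centralizer ({x} : Set G)) *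
        (Subgroup.centralizer ({x} : Set G)).index := by
    calc Nat.card (Subgroup.centralizer ({y} : Set G)) *
          (Subgroup.centralizer ({x} : Set G)).index
        ≤ Nat.card (Subgroup.centralizer ({y} : Set G)) *
          (Subgroup.centralizer ({y} : Set G)).index :=
          Nat.mul_le_mul_left _ (hxm.trans hym)
      _ = Nat.card (Subgroup.centralizer ({x} : Set G)) *
          (Subgroup.centralizer ({x} : Set G)).index := by rw [e1, e2]
  exact Nat.le_of_mul_le_mul_right h4 hx0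

/-- Let G be a finite group with a normal abelian subgroup A satisfying C_G(A) = A. Suppose some conjugacy class of G has size greater than 1, let m be the smallest such size, and let M be the subgroup generated by the elements whose class has size 1 or m. Then M is nilpotent of class at most 3. -/
theorem result {G : Type*} [Group G] [Finite G]
    (A : Subgroup G) [A.Normal] (hA : IsMulCommutative A) (hCA : Subgroup.centralizer (A : Set G) = A)
    (m : ℕ) (hm1 : 1 < m) (hm : ∃ x : G, (Subgroup.centralizer ({x} : Set G)).index = m) (hmin : ∀ x : G, 1 < (Subgroup.centralizer ({x} : Set G)).index → m ≤ (Subgroup.centralizer ({x} : Set G)).index) :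
    Subgroup.upperCentralSeries ↥(Subgroup.closure {x : G | (Subgroup.centralizer ({x} : Set G)).index = 1 ∨ (Subgroup.centralizer ({x} : Set G)).index = m}) 3 = ⊤ := by
  classical
  have hAc : ∀ a ∈ A, ∀ b ∈ A, a * b = b * a := fun a ha b hb =>
    congrArg Subtype.val (hA.is_comm.comm ⟨a, ha⟩ ⟨b, hb⟩)
  obtain ⟨M, hMdef⟩ : ∃ M : Subgroup G, M = Subgroup.closure {x : G |
      (Subgroup.centralizer ({x} : Set G)).index = 1 ∨
        (Subgroup.centralizer ({x} : Set G)).index = m} := ⟨_, rfl⟩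
  rw [← hMdef]
  have L1 : ∀ u ∈ M, ∀ a ∈ A, u * a * u⁻¹ * a⁻¹ ∈ Subgroup.center G := by
    intro u hu a ha
    rw [hMdef] at hu
    induction hu using Subgroup.closure_induction with
    | mem u hu => exact lemA A hAc u (card_le_of_index m hm1 hmin u hu) a ha
    | one => simp
    | mul u w hu hw ihu ihw =>
      have e : u * w * a * (u * w)⁻¹ * a⁻¹
          = u * (w * a * w⁻¹ * a⁻¹) * u⁻¹ * (u * a * u⁻¹ * a⁻¹) := by group
      have hz := Subgroup.mem_center_iff.mp ihw u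
      rw [e, hz, mul_assoc _ u u⁻¹, mul_inv_cancel, mul_one]
      exact Subgroup.mul_mem _ ihw ihu
    | inv u hu ih =>
      have e : u⁻¹ * a * u⁻¹⁻¹ * a⁻¹ = u⁻¹ * (u * a * u⁻¹ * a⁻¹)⁻¹ * u := by group
      have hz := Subgroup.mem_center_iff.mp (Subgroup.inv_mem _ ih) u⁻¹
      rw [e, hz, mul_assoc, inv_mul_cancel, mul_one]
      exact Subgroup.inv_mem _ ih
  apply ucs3 (A.subgroupOf M) ((Subgroup.center G).subgroupOf M)
  · intro z hz
    rw [Subgroup.mem_subgroupOf] at hz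
    rw [Subgroup.mem_center_iff]
    intro g
    exact Subtype.ext (Subgroup.mem_center_iff.mp hz g)
  · intro a ha v
    rw [Subgroup.mem_subgroupOf] at ha ⊢
    have h := L1 v v.2 a ha
    have e : (a : G) * (v : G) * (a : G)⁻¹ * (v : G)⁻¹
        = ((v : G) * a * (v : G)⁻¹ * (a : G)⁻¹)⁻¹ := by group
    show (a : G) * (v : G) * (a : G)⁻¹ * (v : G)⁻¹ ∈ Subgroup.center G
    rw [e]
    exact Subgroup.inv_mem _ h
  · intro u v
    rw [Subgroup.mem_subgroupOf]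
    exact comm_mem_A A hCA u v (L1 u u.2) (L1 v v.2)

end Cfsg.Agent.S4163
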