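import Cfsg.Statements.S4168
import Mathlib

set_option autoImplicit false
open Cfsg

namespace Cfsg.Agent.S4168

open scoped IsMulCommutative

/-- Let L be a finite quasisimple group (perfect with L/Z(L) simple). Then every prime dividing the order of the centre Z(L) also divides the order of L/Z(L). -/
theorem result {L : Type*} [Group L] [Finite L] (hL : Cfsg.IsQuasisimple L)
    (p : ℕ) (hp : p.Prime) (hdiv : p ∣ Nat.card (Subgroup.center L)) : p ∣ (Subgroup.center L).index := by
  have := hL.1
  have : Fact p.Prime := ⟨hp⟩
  obtain ⟨z, hz⟩ := exists_prime_orderOf_dvd_card' p hdiv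
  have hker : ∀ g : L, g ^ (Subgroup.center L).index = 1 := by
    intro g
    have hsub := Abelianization.commutator_subset_ker (G := L) (A := Subgroup.center L)
      (MonoidHom.transferCenterPow L)
    have hg : g ∈ commutator L := by
      rw [Group.IsPerfect.commutator_eq_top]
      trivial
    have h1 : g ∈ (MonoidHom.transferCenterPow L).ker := hsub hg
    have h2 := MonoidHom.transferCenterPow_apply (G := L) g
    rw [MonoidHom.mem_ker.mp h1] at h2
    simpa using h2.symm
  have h3 := hker (z : L)
  rw [← hz, ← Subgroup.orderOf_coe]
  exact orderOf_dvd_of_pow_eq_one h3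

end Cfsg.Agent.S4168
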