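import Cfsg.Statements.S4169
import Mathlib
import Cfsg.Agent.S4163
import Cfsg.Agent.Lib.Helper12.SCN

set_option autoImplicit false
open Cfsg

namespace Cfsg.Agent.S4169

/-- Let P be a finite p-group whose conjugacy classes have exactly two sizes (1 and one other value). Then P has nilpotency class at most 3. -/
theorem result {P : Type*} [Group P] [Finite P] {p : ℕ} [Fact p.Prime] (hP : IsPGroup p P)
    (m : ℕ) (hm : 1 < m) (h : ∀ x : P, (Subgroup.centralizer ({x} : Set P)).index = 1 ∨ (Subgroup.centralizer ({x} : Set P)).index = m) :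
    upperCentralSeries P 3 = ⊤ := by
  classical
  have hnil : Group.IsNilpotent P := hP.isNilpotent
  obtain ⟨A, -, hAmax⟩ := Set.Finite.exists_le_maximal
    (s := {B : Subgroup P | B.Normal ∧ ∀ a ∈ B, ∀ b ∈ B, a * b = b * a}) (Set.toFinite _)
    (a := ⊥) ⟨Subgroup.normal_bot, by
      intro a ha b hb
      rw [Subgroup.mem_bot] at ha hb
      rw [ha, hb]⟩
  have hAn : A.Normal := hAmax.1.1
  have hAc : ∀ a ∈ A, ∀ b ∈ A, a * b = b * a := hAmax.1.2
  have hCA : Subgroup.centralizer (A : Set P) = A :=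
    Cfsg.Agent.Lib.Helper12.centralizer_eq_of_max_normal_abelian A hAc
      (fun B hB hBc hAB => le_antisymm (hAmax.2 ⟨hB, hBc⟩ hAB) hAB)
  have hmin : ∀ x : P, 1 < (Subgroup.centralizer ({x} : Set P)).index →
      m ≤ (Subgroup.centralizer ({x} : Set P)).index := by
    intro x hx
    rcases h x with h1 | h1
    · omega
    · omega
  have L1 : ∀ u : P, ∀ a ∈ A, u * a * u⁻¹ * a⁻¹ ∈ Subgroup.center P := fun u a ha =>
    Cfsg.Agent.S4163.lemA A hAc u (Cfsg.Agent.S4163.card_le_of_index m hm hmin u (h u)) a ha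
  apply Cfsg.Agent.S4163.ucs3 A (Subgroup.center P) le_rfl
  · intro a ha v
    have h0 := L1 v a ha
    have e : a * v * a⁻¹ * v⁻¹ = (v * a * v⁻¹ * a⁻¹)⁻¹ := by group
    rw [e]
    exact Subgroup.inv_mem _ h0
  · intro u v
    exact Cfsg.Agent.S4163.comm_mem_A A hCA u v (L1 u) (L1 v)

end Cfsg.Agent.S4169
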