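import Cfsg.Statements.S4177
import Mathlib
import Cfsg.Agent.Lib.Helper23.Coprime

set_option autoImplicit false
open Cfsg

namespace Cfsg.Agent.S4177

/-- Let k be a field whose characteristic does not divide the order of the finite group H (for instance a field of characteristic zero), and ρ a k-linear representation of H on V. Let a be a vector whose H-orbit spans V. Then the space of H-fixed vectors has dimension at most 1, and every vector b whose H-orbit has size coprime to the size of the orbit of a is fixed by H. -/
theorem result {k V H : Type*} [Field k] [AddCommGroup V] [Module k V] [Group H] [Finite H]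
    (hchar : ¬ ringChar k ∣ Nat.card H) (ρ : Representation k H V) (a : V)
    (hspan : Submodule.span k {u : V | ∃ h : H, ρ h a = u} = ⊤) :
    Module.finrank k ρ.invariants ≤ 1 ∧
    ∀ b : V, (Nat.card {u : V | ∃ h : H, ρ h a = u}).Coprime (Nat.card {u : V | ∃ h : H, ρ h b = u}) → ∀ h : H, ρ h b = b := by
  classical
  have := Fintype.ofFinite H
  have hHne : (Nat.card H : k) ≠ 0 := by
    intro h0
    exact hchar ((ringChar.spec k _).mp h0)
  obtain ⟨z, hz⟩ : ∃ z : V, z = ∑ g : H, ρ g a := ⟨_, rfl⟩
  have hzinv : ∀ h : H, ρ h z = z := by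
    intro h
    rw [hz, map_sum]
    have : ∀ g : H, ρ h (ρ g a) = ρ (h * g) a := by
      intro g; rw [map_mul]; rfl
    simp_rw [this]
    exact Fintype.sum_equiv (Equiv.mulLeft h) _ _ (fun g => rfl)
  have hsum_orbit : ∀ h : H, ∑ g : H, ρ g (ρ h a) = z := by
    intro h
    have : ∀ g : H, ρ g (ρ h a) = ρ (g * h) a := by
      intro g; rw [map_mul]; rfl
    simp_rw [this]
    rw [hz]
    exact Fintype.sum_equiv (Equiv.mulRight h) _ _ (fun g => rfl)
  refine ⟨?_, ?_⟩
  · have hle : ρ.invariants ≤ Submodule.span k {z} := by
      intro v hv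
      have hv' : ∀ g : H, ρ g v = v := (Representation.mem_invariants ρ v).mp hv
      let E : V →ₗ[k] V := ∑ g : H, ρ g
      have hE : ∀ w, E w = ∑ g : H, ρ g w := by intro w; simp [E, LinearMap.sum_apply]
      have htop : Submodule.span k {u : V | ∃ h : H, ρ h a = u} ≤
          (Submodule.span k {z}).comap E := by
        rw [Submodule.span_le]
        rintro u ⟨h, rfl⟩
        show E (ρ h a) ∈ Submodule.span k {z}
        rw [hE, hsum_orbit]
        exact Submodule.mem_span_singleton_self z
      rw [hspan] at htop
      have h1 : E v ∈ Submodule.span k {z} := htop Submodule.mem_top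
      rw [hE] at h1
      simp_rw [hv'] at h1
      rw [Finset.sum_const, Finset.card_univ, ← Nat.card_eq_fintype_card,
        ← Nat.cast_smul_eq_nsmul k] at h1
      have := Submodule.smul_mem _ ((Nat.card H : k)⁻¹) h1
      rwa [smul_smul, inv_mul_cancel₀ hHne, one_smul] at this
    calc Module.finrank k ρ.invariants ≤ Module.finrank k (Submodule.span k {z}) :=
          Submodule.finrank_mono hle
      _ ≤ 1 := by
          exact (finrank_span_le_card ({z} : Set V)).trans (by simp)
  · intro b hcop
    let _ : MulAction H V := MulAction.compHom V ρ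
    have hA : (MulAction.stabilizer H a).index = Nat.card {u : V | ∃ h : H, ρ h a = u} := by
      rw [MulAction.index_stabilizer, ← Nat.card_coe_set_eq]; rfl
    have hB : (MulAction.stabilizer H b).index = Nat.card {u : V | ∃ h : H, ρ h b = u} := by
      rw [MulAction.index_stabilizer, ← Nat.card_coe_set_eq]; rfl
    have hcop' : (MulAction.stabilizer H a).index.Coprime (MulAction.stabilizer H b).index := by
      rw [hA, hB]; exact hcop
    have hBA := Cfsg.Agent.Lib.Helper23.exists_mul_of_coprime_index _ _ hcop'
    obtain ⟨B, hBdef⟩ : ∃ B : Subgroup H, B = MulAction.stabilizer H b := ⟨_, rfl⟩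
    rw [← hBdef] at hBA
    have hBfix : ∀ β : B, ρ (β : H) b = b := by
      intro β
      have h1 := β.2
      have h2 : (β : H) ∈ MulAction.stabilizer H b := by rw [← hBdef]; exact h1
      exact h2
    have hBne : (Nat.card B : k) ≠ 0 := by
      intro h0
      exact hchar (((ringChar.spec k _).mp h0).trans (Subgroup.card_subgroup_dvd_card B))
    let EB : V →ₗ[k] V := ∑ β : B, ρ (β : H)
    have hEB : ∀ w, EB w = ∑ β : B, ρ (β : H) w := by intro w; simp [EB, LinearMap.sum_apply]
    have h4 : ∀ h : H, EB (ρ h a) = EB a := by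
      intro h
      obtain ⟨β, hβ, α, hα, rfl⟩ := hBA h
      have hα' : ρ α a = a := hα
      rw [hEB, hEB]
      have : ∀ β' : B, ρ (β' : H) (ρ (β * α) a) = ρ ((β' * ⟨β, hβ⟩ : B) : H) a := by
        intro β'
        rw [map_mul ρ β α, Module.End.mul_apply, hα', Subgroup.coe_mul, map_mul]; rfl
      simp_rw [this]
      exact Fintype.sum_equiv (Equiv.mulRight ⟨β, hβ⟩) _ _ (fun g => rfl)
    have h3 : (Nat.card H : k) • EB a = (Nat.card B : k) • z := by
      have e1 : ∑ g : H, EB (ρ g a) = (Nat.card H : k) • EB a := by
        simp_rw [h4]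
        rw [Finset.sum_const, Finset.card_univ, ← Nat.card_eq_fintype_card,
          Nat.cast_smul_eq_nsmul]
      have e2 : ∑ g : H, EB (ρ g a) = (Nat.card B : k) • z := by
        simp_rw [hEB]
        rw [Finset.sum_comm]
        have : ∀ β : B, ∑ g : H, ρ (β : H) (ρ g a) = z := by
          intro β
          rw [← map_sum, ← hz]; exact hzinv β
        simp_rw [this]
        rw [Finset.sum_const, Finset.card_univ, ← Nat.card_eq_fintype_card,
          Nat.cast_smul_eq_nsmul]
      rw [← e1, e2]
    have hEBa_inv : ∀ h : H, ρ h (EB a) = EB a := by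
      intro h
      have : EB a = (Nat.card H : k)⁻¹ • ((Nat.card B : k) • z) := by
        rw [← h3, smul_smul, inv_mul_cancel₀ hHne, one_smul]
      rw [this, map_smul, map_smul, hzinv]
    have htop : Submodule.span k {u : V | ∃ h : H, ρ h a = u} ≤ (ρ.invariants).comap EB := by
      rw [Submodule.span_le]
      rintro u ⟨h, rfl⟩
      show EB (ρ h a) ∈ ρ.invariants
      rw [h4]
      exact (Representation.mem_invariants ρ _).mpr hEBa_inv
    rw [hspan] at htop
    have h5 : EB b ∈ ρ.invariants := htop Submodule.mem_top
    have h6 : EB b = (Nat.card B : k) • b := by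
      rw [hEB]
      simp_rw [hBfix]
      rw [Finset.sum_const, Finset.card_univ, ← Nat.card_eq_fintype_card,
        Nat.cast_smul_eq_nsmul]
    rw [h6] at h5
    have h7 := Submodule.smul_mem _ ((Nat.card B : k)⁻¹) h5
    rw [smul_smul, inv_mul_cancel₀ hBne, one_smul] at h7
    exact (Representation.mem_invariants ρ _).mp h7

end Cfsg.Agent.S4177
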