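import Cfsg.Statements.S4178
import Mathlib

set_option autoImplicit false
open Cfsg

namespace Cfsg.Agent.S4178

theorem index_le_card {G : Type*} [Group G] (R : Subgroup G) {X : Type*} [Finite X]
    (f : G → X) (hf : ∀ a b, f a = f b → a⁻¹ * b ∈ R) : R.index ≤ Nat.card X := by
  rw [Subgroup.index]
  refine Nat.card_le_card_of_injective (fun c : G ⧸ R => f (Quotient.out c)) ?_
  intro c c' h
  have h1 := hf _ _ h
  have h2 : ((Quotient.out c : G) : G ⧸ R) = (Quotient.out c' : G) := QuotientGroup.eq.mpr h1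
  simpa using h2

theorem card_nonzero {M : Type*} [AddCommGroup M] [Finite M] :
    Nat.card {x : M // x ≠ 0} = Nat.card M - 1 := by
  classical
  have := Fintype.ofFinite M
  rw [Nat.card_eq_fintype_card, Nat.card_eq_fintype_card]
  exact Set.card_ne_eq (0 : M)

theorem exists_fixed_of_quot {F V : Type*} [Field F] [AddCommGroup V] [Module F V] [Finite V]
    (g : V ≃ₗ[F] V) (W : Submodule F V) (hW : ∀ w ∈ W, g w ∈ W) (v : V) (hv : v ∉ W)
    (hgv : g v - v ∈ W) : ∃ u : V, u ≠ 0 ∧ g u = u := by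
  by_contra hcon
  push Not at hcon
  have hinj : Function.Injective (fun u : V => g u - u) := by
    intro a b hab
    have h1 : g (a - b) = a - b := by
      have : g a - a = g b - b := hab
      rw [map_sub]
      calc g a - g b = (g a - a) - (g b - b) + (a - b) := by abel
        _ = a - b := by rw [this]; abel
    by_contra hne
    exact hcon (a - b) (sub_ne_zero.mpr hne) h1
  have hWinj : Function.Injective (fun w : W => (⟨g w - w, W.sub_mem (hW w w.2) w.2⟩ : W)) := by
    intro a b hab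
    have : g (a : V) - a = g (b : V) - b := congrArg Subtype.val hab
    exact Subtype.ext (hinj this)
  have hWsurj := Finite.injective_iff_surjective.mp hWinj
  obtain ⟨w, hw⟩ := hWsurj ⟨g v - v, hgv⟩
  have : g (w : V) - w = g v - v := congrArg Subtype.val hw
  have := hinj this
  exact hv (this ▸ w.2)

theorem real_bound (q d e n : ℕ) (hq : 1 ≤ q) (he : 2 * e ≤ d) (hn : n ≤ q ^ e - 1) :
    (n : ℝ) ≤ Real.sqrt ((q : ℝ) ^ d) - 1 := by
  have h1 : 1 ≤ q ^ e := Nat.one_le_pow _ _ hq
  have h2 : (n : ℝ) ≤ (q : ℝ) ^ e - 1 := by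
    have : ((q ^ e - 1 : ℕ) : ℝ) = (q : ℝ) ^ e - 1 := by
      rw [Nat.cast_sub h1]; simp
    rw [← this]
    exact_mod_cast hn
  have hq' : (1 : ℝ) ≤ q := by exact_mod_cast hq
  have h3 : (q : ℝ) ^ e ≤ Real.sqrt ((q : ℝ) ^ d) := by
    rw [Real.le_sqrt (by positivity) (by positivity), ← pow_mul]
    exact pow_le_pow_right₀ hq' (by omega)
  linarith

/-- Let F be a finite field with q elements, V a non-zero finite-dimensional F-space of dimension d, H a group of invertible linear maps of V, and R the subgroup of H generated by the elements of H that fix some non-zero vector (have eigenvalue 1). Then the index of R in H is at most q^d − 1; and if H leaves invariant some proper non-zero subspace, the index is at most q^(d/2) − 1. -/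
theorem result {F V : Type*} [Field F] [Fintype F] [AddCommGroup V] [Module F V] [FiniteDimensional F V] [Nontrivial V]
    (H : Subgroup (V ≃ₗ[F] V)) :
    (Subgroup.closure {h : ↥H | ∃ v : V, v ≠ 0 ∧ (h : V ≃ₗ[F] V) v = v}).index ≤ Fintype.card F ^ Module.finrank F V - 1 ∧
    ((∃ W : Submodule F V, W ≠ ⊥ ∧ W ≠ ⊤ ∧ ∀ h ∈ H, ∀ w ∈ W, h w ∈ W) →
      ((Subgroup.closure {h : ↥H | ∃ v : V, v ≠ 0 ∧ (h : V ≃ₗ[F] V) v = v}).index : ℝ) ≤ Real.sqrt ((Fintype.card F : ℝ) ^ Module.finrank F V) - 1) := by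
  have hVfin : Finite V := Module.finite_of_finite F
  set R := Subgroup.closure {h : ↥H | ∃ v : V, v ≠ 0 ∧ (h : V ≃ₗ[F] V) v = v} with hR
  have hmemR : ∀ g : ↥H, (∃ v : V, v ≠ 0 ∧ (g : V ≃ₗ[F] V) v = v) → g ∈ R :=
    fun g hg => Subgroup.subset_closure hg
  have hq : 1 ≤ Fintype.card F := Fintype.card_pos
  have hcardV : Nat.card V = Fintype.card F ^ Module.finrank F V := by
    rw [Module.natCard_eq_pow_finrank (K := F), Nat.card_eq_fintype_card]
  -- the basic estimate on an invariant submodule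
  have sub_est : ∀ W : Submodule F V, W ≠ ⊥ → (∀ h ∈ H, ∀ w ∈ W, h w ∈ W) →
      R.index ≤ Fintype.card F ^ Module.finrank F W - 1 := by
    intro W hW0 hWinv
    obtain ⟨v, hvW, hv0⟩ := (Submodule.ne_bot_iff W).mp hW0
    have hcardW : Nat.card W = Fintype.card F ^ Module.finrank F W := by
      rw [Module.natCard_eq_pow_finrank (K := F), Nat.card_eq_fintype_card]
    rw [← hcardW, ← card_nonzero]
    refine index_le_card R (fun h : ↥H => (⟨⟨(h : V ≃ₗ[F] V) v, hWinv h h.2 v hvW⟩, ?_⟩ :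
      {x : W // x ≠ 0})) ?_
    · intro h0
      have : (h : V ≃ₗ[F] V) v = 0 := congrArg Subtype.val h0
      exact hv0 (by simpa using this)
    · intro a b hab
      apply hmemR
      refine ⟨v, hv0, ?_⟩
      have h1 : (a : V ≃ₗ[F] V) v = (b : V ≃ₗ[F] V) v := by
        have := congrArg (fun x : {x : W // x ≠ 0} => ((x : W) : V)) hab
        exact this
      have h2 : ((a⁻¹ * b : ↥H) : V ≃ₗ[F] V) v = (a : V ≃ₗ[F] V)⁻¹ ((b : V ≃ₗ[F] V) v) := rfl
      rw [h2, ← h1]
      exact (a : V ≃ₗ[F] V).symm_apply_apply v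
  have quot_est : ∀ W : Submodule F V, W ≠ ⊤ → (∀ h ∈ H, ∀ w ∈ W, h w ∈ W) →
      R.index ≤ Fintype.card F ^ Module.finrank F (V ⧸ W) - 1 := by
    intro W hWtop hWinv
    obtain ⟨v, hvW⟩ : ∃ v : V, v ∉ W := by
      by_contra hcon
      push Not at hcon
      exact hWtop (eq_top_iff.mpr fun x _ => hcon x)
    have hQfin : Finite (V ⧸ W) := Module.finite_of_finite F
    have hcardQ : Nat.card (V ⧸ W) = Fintype.card F ^ Module.finrank F (V ⧸ W) := by
      rw [Module.natCard_eq_pow_finrank (K := F), Nat.card_eq_fintype_card]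
    rw [← hcardQ, ← card_nonzero]
    have hinvW : ∀ h : ↥H, ∀ x : V, (h : V ≃ₗ[F] V) x ∈ W → x ∈ W := by
      intro h x hx
      have := hWinv (h⁻¹ : ↥H) (h⁻¹).2 _ hx
      have e : ((h⁻¹ : ↥H) : V ≃ₗ[F] V) ((h : V ≃ₗ[F] V) x) = x :=
        (h : V ≃ₗ[F] V).symm_apply_apply x
      rwa [e] at this
    refine index_le_card R (fun h : ↥H => (⟨Submodule.Quotient.mk ((h : V ≃ₗ[F] V) v), ?_⟩ :
      {x : V ⧸ W // x ≠ 0})) ?_
    · intro h0
      exact hvW (hinvW h v ((Submodule.Quotient.mk_eq_zero W).mp h0))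
    · intro a b hab
      apply hmemR
      have h1 : (Submodule.Quotient.mk ((a : V ≃ₗ[F] V) v) : V ⧸ W) =
          Submodule.Quotient.mk ((b : V ≃ₗ[F] V) v) := congrArg Subtype.val hab
      have h2 : (b : V ≃ₗ[F] V) v - (a : V ≃ₗ[F] V) v ∈ W := by
        have := (Submodule.Quotient.eq W).mp h1.symm
        exact this
      have h3 : ((a⁻¹ * b : ↥H) : V ≃ₗ[F] V) v - v ∈ W := by
        apply hinvW a
        have e : (a : V ≃ₗ[F] V) (((a⁻¹ * b : ↥H) : V ≃ₗ[F] V) v - v) =
            (b : V ≃ₗ[F] V) v - (a : V ≃ₗ[F] V) v := by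
          rw [map_sub]
          congr 1
          exact (a : V ≃ₗ[F] V).apply_symm_apply _
        rw [e]; exact h2
      exact exists_fixed_of_quot _ W (fun w hw => hWinv _ (a⁻¹ * b : ↥H).2 w hw) v hvW h3
  constructor
  · have h := sub_est ⊤ (by simp) (fun _ _ _ _ => Submodule.mem_top)
    rwa [finrank_top] at h
  · rintro ⟨W, hW0, hWtop, hWinv⟩
    have hsum := Submodule.finrank_quotient_add_finrank W
    rcases le_or_gt (2 * Module.finrank F W) (Module.finrank F V) with hle | hgt
    · exact real_bound _ _ _ _ hq hle (sub_est W hW0 hWinv)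
    · exact real_bound _ _ _ _ hq (by omega) (quot_est W hWtop hWinv)

end Cfsg.Agent.S4178
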