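import Cfsg.Statements.S4182
import Mathlib

set_option autoImplicit false
open Cfsg

namespace Cfsg.Agent.S4182


universe u

open scoped Pointwise commutatorElement

/-- the set of `p`-elements -/
def PE (p : ℕ) (G : Type*) [Group G] : Set G := {g : G | ∃ k : ℕ, orderOf g = p ^ k}

theorem ppart {G : Type*} [Group G] [Finite G] (p : ℕ) [hp : Fact p.Prime] (g : G) :
    ∃ c : ℕ, g ^ c ∈ PE p G ∧ ∀ (N : Subgroup G) [N.Normal],
      (∃ l : ℕ, orderOf (g : G ⧸ N) = p ^ l) → ((g ^ c : G) : G ⧸ N) = (g : G ⧸ N) := by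
  have hpos : orderOf g ≠ 0 := (orderOf_pos g).ne'
  obtain ⟨a, m, hm, hgm⟩ := Nat.exists_eq_pow_mul_and_not_dvd hpos p hp.out.ne_one
  have hcop : Nat.Coprime (p ^ a) m :=
    Nat.Coprime.pow_left _ ((Nat.Prime.coprime_iff_not_dvd hp.out).mpr hm)
  obtain ⟨c, hc1, hc2⟩ := Nat.chineseRemainder hcop 1 0
  refine ⟨c, ?_, ?_⟩
  · have h1 : (g ^ c) ^ (p ^ a) = 1 := by
      rw [← pow_mul]
      apply orderOf_dvd_iff_pow_eq_one.mp
      rw [hgm, mul_comm c]
      exact Nat.mul_dvd_mul_left _ ((Nat.modEq_zero_iff_dvd).mp hc2)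
    obtain ⟨k, _, hk⟩ := (Nat.dvd_prime_pow hp.out).mp (orderOf_dvd_of_pow_eq_one h1)
    exact ⟨k, hk⟩
  · intro N _ ⟨l, hl⟩
    rw [QuotientGroup.mk_pow]
    have h2 : p ^ l ∣ p ^ a := by
      have h3 : orderOf (g : G ⧸ N) ∣ orderOf g := orderOf_map_dvd (QuotientGroup.mk' N) g
      rw [hl, hgm] at h3
      exact (Nat.Coprime.dvd_mul_right
        (Nat.Coprime.pow_left _ ((Nat.Prime.coprime_iff_not_dvd hp.out).mpr hm))).mp h3
    have h4 : c ≡ 1 [MOD orderOf (g : G ⧸ N)] := by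
      rw [hl]
      exact Nat.ModEq.of_dvd h2 hc1
    have h5 := (pow_eq_pow_iff_modEq (x := (g : G ⧸ N))).mpr h4
    rw [h5, pow_one]

theorem quot_pgroup {G : Type*} [Group G] [Finite G] (p : ℕ) [hp : Fact p.Prime]
    (hgen : Subgroup.closure (PE p G) = ⊤) (M : Subgroup G) [M.Normal]
    (hM : ⁅(⊤ : Subgroup G), (⊤ : Subgroup G)⁆ ≤ M) :
    ∀ g : G, ∃ l : ℕ, orderOf (g : G ⧸ M) = p ^ l := by
  have hcomm : ∀ a b : G ⧸ M, a * b = b * a := by
    intro a b
    obtain ⟨a, rfl⟩ := QuotientGroup.mk_surjective a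
    obtain ⟨b, rfl⟩ := QuotientGroup.mk_surjective b
    show ((a * b : G) : G ⧸ M) = ((b * a : G) : G ⧸ M)
    rw [QuotientGroup.eq]
    apply hM
    have h1 : (a * b)⁻¹ * (b * a) = ⁅b⁻¹, a⁻¹⁆ := by
      rw [commutatorElement_def]
      group
    rw [h1]
    exact Subgroup.commutator_mem_commutator (Subgroup.mem_top _) (Subgroup.mem_top _)
  have key : ∀ g : G, ∃ l : ℕ, (g : G ⧸ M) ^ (p ^ l) = 1 := by
    intro g
    have hg : g ∈ Subgroup.closure (PE p G) := by
      rw [hgen]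
      exact Subgroup.mem_top g
    induction hg using Subgroup.closure_induction with
    | mem x hx =>
      obtain ⟨k, hk⟩ := hx
      refine ⟨k, ?_⟩
      rw [← QuotientGroup.mk_pow, ← hk, pow_orderOf_eq_one]
      rfl
    | one => exact ⟨0, by simp⟩
    | mul x y _ _ hx hy =>
      obtain ⟨l, hl⟩ := hx
      obtain ⟨l', hl'⟩ := hy
      refine ⟨l + l', ?_⟩
      have hc : Commute (x : G ⧸ M) (y : G ⧸ M) := hcomm _ _
      rw [QuotientGroup.mk_mul, hc.mul_pow, pow_add, pow_mul, hl, one_pow,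
        mul_comm (p ^ l) (p ^ l'), pow_mul, hl', one_pow, mul_one]
    | inv x _ hx =>
      obtain ⟨l, hl⟩ := hx
      exact ⟨l, by rw [QuotientGroup.mk_inv, inv_pow, hl, inv_one]⟩
  intro g
  obtain ⟨l, hl⟩ := key g
  obtain ⟨k, _, hk⟩ := (Nat.dvd_prime_pow hp.out).mp (orderOf_dvd_of_pow_eq_one hl)
  exact ⟨k, hk⟩

theorem base {G : Type*} [Group G] [Finite G] (p : ℕ) [hp : Fact p.Prime]
    (hgen : Subgroup.closure (PE p G) = ⊤) (𝒜 : Finset (Subgroup G)) (hcard : 𝒜.card ≤ p)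
    (h𝒜 : ∀ M ∈ 𝒜, M.Normal ∧ M ≠ ⊤ ∧ ⁅(⊤ : Subgroup G), (⊤ : Subgroup G)⁆ ≤ M) :
    ∃ x ∈ PE p G, ∀ M ∈ 𝒜, x ∉ M := by
  classical
  haveI : Fintype G := Fintype.ofFinite G
  have hex : ∃ g : G, ∀ M ∈ 𝒜, g ∉ M := by
    by_contra hcon
    push Not at hcon
    have hsub : (Finset.univ : Finset G).erase 1 ⊆
        𝒜.biUnion (fun M => (Finset.univ.filter (fun g => g ∈ M)).erase 1) := by
      intro g hg
      rw [Finset.mem_erase] at hg
      obtain ⟨M, hM, hgM⟩ := hcon g
      rw [Finset.mem_biUnion]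
      exact ⟨M, hM, Finset.mem_erase.mpr ⟨hg.1, Finset.mem_filter.mpr ⟨Finset.mem_univ _, hgM⟩⟩⟩
    have h1 := Finset.card_le_card hsub
    have h2 := Finset.card_biUnion_le (s := 𝒜)
      (t := fun M => (Finset.univ.filter (fun g => g ∈ M)).erase 1)
    have h3 : ∀ M ∈ 𝒜, p * (((Finset.univ.filter (fun g => g ∈ M)).erase 1).card + 1)
        ≤ Fintype.card G := by
      intro M hM
      obtain ⟨hMn, hMtop, hMc⟩ := h𝒜 M hM
      haveI := hMn
      have hc : ((Finset.univ.filter (fun g => g ∈ M)).erase 1).card + 1 = Nat.card M := by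
        rw [Finset.card_erase_of_mem (Finset.mem_filter.mpr ⟨Finset.mem_univ _, M.one_mem⟩)]
        have h4 : 0 < (Finset.univ.filter (fun g => g ∈ M)).card :=
          Finset.card_pos.mpr ⟨1, Finset.mem_filter.mpr ⟨Finset.mem_univ _, M.one_mem⟩⟩
        rw [Nat.sub_add_cancel h4, Nat.card_eq_fintype_card, Fintype.card_subtype]
      rw [hc]
      obtain ⟨g, hg⟩ : ∃ g, g ∉ M := by
        by_contra h
        push Not at h
        exact hMtop (eq_top_iff.mpr (fun x _ => h x))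
      obtain ⟨l, hl⟩ := quot_pgroup p hgen M hMc g
      have hl0 : l ≠ 0 := by
        intro h0
        rw [h0, pow_zero, orderOf_eq_one_iff, QuotientGroup.eq_one_iff] at hl
        exact hg hl
      have hdvd : p ∣ M.index := by
        have h4 : orderOf (g : G ⧸ M) ∣ Nat.card (G ⧸ M) := orderOf_dvd_natCard _
        rw [hl] at h4
        exact (dvd_pow_self p hl0).trans h4
      obtain ⟨t, ht⟩ := hdvd
      have h5 := Subgroup.card_mul_index M
      rw [← Nat.card_eq_fintype_card, ← h5, ht]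
      have ht0 : 0 < t := by
        rcases Nat.eq_zero_or_pos t with h0 | h0
        · rw [h0, mul_zero] at ht
          exact absurd ht Subgroup.index_ne_zero_of_finite
        · exact h0
      calc p * Nat.card M = Nat.card M * (p * 1) := by ring
        _ ≤ Nat.card M * (p * t) := Nat.mul_le_mul_left _ (Nat.mul_le_mul_left _ ht0)
    obtain ⟨M₀, hM₀, _⟩ := hcon 1
    have h6 := h3 M₀ hM₀
    have hq1 : 1 ≤ Fintype.card G / p := by
      rw [Nat.le_div_iff_mul_le hp.out.pos]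
      nlinarith
    obtain ⟨q', hq'⟩ : ∃ q', Fintype.card G / p = q' + 1 := ⟨Fintype.card G / p - 1, by omega⟩
    have h7 : ∀ M ∈ 𝒜, ((Finset.univ.filter (fun g => g ∈ M)).erase 1).card ≤ q' := by
      intro M hM
      have h8 := h3 M hM
      have h9 : ((Finset.univ.filter (fun g => g ∈ M)).erase 1).card + 1 ≤ Fintype.card G / p := by
        rw [Nat.le_div_iff_mul_le hp.out.pos, mul_comm]
        exact h8
      omega
    have h8 := Finset.sum_le_card_nsmul 𝒜
      (fun M => ((Finset.univ.filter (fun g => g ∈ M)).erase 1).card) q' h7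
    rw [smul_eq_mul] at h8
    have h9 : 𝒜.card * q' ≤ p * q' := Nat.mul_le_mul_right q' hcard
    have h10 : p * q' + p ≤ Fintype.card G := by
      have h11 := Nat.div_mul_le_self (Fintype.card G) p
      rw [hq'] at h11
      nlinarith
    rw [Finset.card_erase_of_mem (Finset.mem_univ _), Finset.card_univ] at h1
    have hp2 := hp.out.two_le
    omega
  obtain ⟨g, hg⟩ := hex
  obtain ⟨c, hc1, hc2⟩ := ppart p g
  refine ⟨g ^ c, hc1, ?_⟩
  intro M hM hgM
  obtain ⟨hMn, hMtop, hMc⟩ := h𝒜 M hM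
  haveI := hMn
  have h1 := hc2 M (quot_pgroup p hgen M hMc g)
  rw [(QuotientGroup.eq_one_iff _).mpr hgM] at h1
  exact hg M hM ((QuotientGroup.eq_one_iff _).mp h1.symm)

/-- maximal normal subgroup -/
def MaxN {G : Type*} [Group G] (M : Subgroup G) : Prop :=
  M.Normal ∧ M ≠ ⊤ ∧ ∀ M' : Subgroup G, M'.Normal → M ≤ M' → M' = M ∨ M' = ⊤

theorem exists_maxN {G : Type*} [Group G] [Finite G] (L : Subgroup G) (hL : L.Normal)
    (hL1 : L ≠ ⊤) : ∃ M : Subgroup G, MaxN M ∧ L ≤ M := by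
  obtain ⟨M, hLM, hM⟩ := Set.Finite.exists_le_maximal
    (Set.toFinite {M : Subgroup G | M.Normal ∧ M ≠ ⊤}) (a := L) ⟨hL, hL1⟩
  refine ⟨M, ⟨hM.1.1, hM.1.2, ?_⟩, hLM⟩
  intro M' hM'n hMM'
  by_cases h1 : M' = ⊤
  · exact Or.inr h1
  · left
    exact le_antisymm (hM.2 ⟨hM'n, h1⟩ hMM') hMM'

theorem dm {G : Type*} [Group G] (M : Subgroup G) (hM : MaxN M)
    (hMc : ¬ ⁅(⊤ : Subgroup G), (⊤ : Subgroup G)⁆ ≤ M) (𝒮 : Finset (Subgroup G))
    (h𝒮 : ∀ M' ∈ 𝒮, M'.Normal ∧ M' ⊔ M = ⊤) :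
    (𝒮.inf id).Normal ∧ 𝒮.inf id ⊔ M = ⊤ := by
  classical
  induction 𝒮 using Finset.induction_on with
  | empty =>
    rw [Finset.inf_empty]
    exact ⟨inferInstance, top_sup_eq _⟩
  | insert M₁ 𝒮 hnot ih =>
    obtain ⟨hDn, hD⟩ := ih (fun M' hM' => h𝒮 M' (Finset.mem_insert_of_mem hM'))
    obtain ⟨hM₁n, hM₁⟩ := h𝒮 M₁ (Finset.mem_insert_self _ _)
    rw [Finset.inf_insert, id]
    haveI := hDn
    haveI := hM₁n
    haveI := hM.1
    have hKn : (M₁ ⊓ 𝒮.inf id).Normal := inferInstance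
    refine ⟨hKn, ?_⟩
    have hn : (M₁ ⊓ 𝒮.inf id ⊔ M).Normal := inferInstance
    rcases hM.2.2 _ hn le_sup_right with h1 | h1
    · exfalso
      apply hMc
      have hle : M₁ ⊓ 𝒮.inf id ≤ M := by
        rw [← h1]
        exact le_sup_left
      rw [Subgroup.commutator_le]
      intro g _ g' _
      have hg : g ∈ 𝒮.inf id ⊔ M := by
        rw [hD]
        exact Subgroup.mem_top g
      have hg' : g' ∈ M₁ ⊔ M := by
        rw [hM₁]
        exact Subgroup.mem_top g'
      obtain ⟨d, hd, m, hm, rfl⟩ := Subgroup.mem_sup_of_normal_right.mp hg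
      obtain ⟨e, he, m', hm', rfl⟩ := Subgroup.mem_sup_of_normal_right.mp hg'
      have hde : ⁅d, e⁆ ∈ M := by
        apply hle
        refine ⟨?_, ?_⟩
        · rw [commutatorElement_def]
          exact M₁.mul_mem (hM₁n.conj_mem e he d) (M₁.inv_mem he)
        · have h2 : ⁅d, e⁆ = d * (e * d⁻¹ * e⁻¹) := by
            rw [commutatorElement_def]
            group
          rw [h2]
          exact (𝒮.inf id).mul_mem hd (hDn.conj_mem d⁻¹ ((𝒮.inf id).inv_mem hd) e)
      have h2 : ((⁅d * m, e * m'⁆ : G) : G ⧸ M) = ((⁅d, e⁆ : G) : G ⧸ M) := by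
        have hm1 : ((m : G) : G ⧸ M) = 1 := (QuotientGroup.eq_one_iff m).mpr hm
        have hm2 : ((m' : G) : G ⧸ M) = 1 := (QuotientGroup.eq_one_iff m').mpr hm'
        simp only [commutatorElement_def, QuotientGroup.mk_mul, QuotientGroup.mk_inv, hm1, hm2,
          mul_one]
      rw [← QuotientGroup.eq_one_iff, h2, QuotientGroup.eq_one_iff]
      exact hde
    · exact h1

theorem pe_quot {G : Type*} [Group G] (p : ℕ) [hp : Fact p.Prime] (N : Subgroup G) [N.Normal]
    (g : G) (hg : g ∈ PE p G) : ∃ l : ℕ, orderOf (g : G ⧸ N) = p ^ l := by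
  obtain ⟨k, hk⟩ := hg
  have h1 : orderOf (g : G ⧸ N) ∣ p ^ k := by
    rw [← hk]
    exact orderOf_map_dvd (QuotientGroup.mk' N) g
  obtain ⟨l, _, hl⟩ := (Nat.dvd_prime_pow hp.out).mp h1
  exact ⟨l, hl⟩

theorem ncl {G : Type*} [Group G] [Finite G] (p : ℕ) [hp : Fact p.Prime]
    (hgen : Subgroup.closure (PE p G) = ⊤) (𝒯 : Finset (Subgroup G)) (hcard : 𝒯.card ≤ p)
    (h𝒯 : ∀ M ∈ 𝒯, MaxN M) : ∃ x ∈ PE p G, ∀ M ∈ 𝒯, x ∉ M := by
  classical
  obtain ⟨𝒜, h𝒜def⟩ : ∃ 𝒜, 𝒜 = 𝒯.filter (fun M => ⁅(⊤ : Subgroup G), (⊤ : Subgroup G)⁆ ≤ M) :=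
    ⟨_, rfl⟩
  have h𝒜mem : ∀ M, M ∈ 𝒜 ↔ M ∈ 𝒯 ∧ ⁅(⊤ : Subgroup G), (⊤ : Subgroup G)⁆ ≤ M := by
    intro M
    rw [h𝒜def, Finset.mem_filter]
  have hbase := base p hgen 𝒜 (by
    rw [h𝒜def]
    exact (Finset.card_filter_le _ _).trans hcard) (by
    intro M hM
    rw [h𝒜mem] at hM
    exact ⟨(h𝒯 M hM.1).1, (h𝒯 M hM.1).2.1, hM.2⟩)
  have hstep : ∀ ℬ : Finset (Subgroup G), ℬ ⊆ 𝒯 →
      (∀ M ∈ ℬ, ¬ ⁅(⊤ : Subgroup G), (⊤ : Subgroup G)⁆ ≤ M) →
      ∃ x ∈ PE p G, (∀ M ∈ 𝒜, x ∉ M) ∧ ∀ M ∈ ℬ, x ∉ M := by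
    intro ℬ
    induction ℬ using Finset.induction_on with
    | empty =>
      intro _ _
      obtain ⟨x, hx, hxA⟩ := hbase
      exact ⟨x, hx, hxA, by simp⟩
    | insert M ℬ hnot ih =>
      intro hsub hnc
      obtain ⟨x, hx, hxA, hxB⟩ := ih (fun N hN => hsub (Finset.mem_insert_of_mem hN))
        (fun N hN => hnc N (Finset.mem_insert_of_mem hN))
      by_cases hxM : x ∉ M
      · refine ⟨x, hx, hxA, ?_⟩
        intro N hN
        rcases Finset.mem_insert.mp hN with h1 | h1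
        · rw [h1]
          exact hxM
        · exact hxB N h1
      · push Not at hxM
        have hMmax : MaxN M := h𝒯 M (hsub (Finset.mem_insert_self _ _))
        have hMc := hnc M (Finset.mem_insert_self _ _)
        haveI := hMmax.1
        obtain ⟨hDn, hD⟩ := dm M hMmax hMc (𝒜 ∪ ℬ) (by
          intro M' hM'
          have hM'T : M' ∈ 𝒯 := by
            rcases Finset.mem_union.mp hM' with h1 | h1
            · exact ((h𝒜mem M').mp h1).1
            · exact hsub (Finset.mem_insert_of_mem h1)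
          have hM'max := h𝒯 M' hM'T
          have hne : M' ≠ M := by
            intro hMM
            rw [hMM] at hM'
            rcases Finset.mem_union.mp hM' with h1 | h1
            · exact hMc ((h𝒜mem M).mp h1).2
            · exact hnot h1
          refine ⟨hM'max.1, ?_⟩
          haveI := hM'max.1
          rcases hMmax.2.2 (M' ⊔ M) inferInstance le_sup_right with h2 | h2
          · exfalso
            have h3 : M' ≤ M := by
              rw [← h2]
              exact le_sup_left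
            rcases hM'max.2.2 M hMmax.1 h3 with h4 | h4
            · exact hne h4.symm
            · exact hMmax.2.1 h4
          · exact h2)
        obtain ⟨y, hy, hyM⟩ : ∃ y ∈ PE p G, y ∉ M := by
          by_contra hcon
          push Not at hcon
          apply hMmax.2.1
          rw [eq_top_iff, ← hgen, Subgroup.closure_le]
          exact fun y hy => hcon y hy
        have hyD : y ∈ (𝒜 ∪ ℬ).inf id ⊔ M := by
          rw [hD]
          exact Subgroup.mem_top y
        obtain ⟨d₀, hd₀, m, hm, hdm⟩ := Subgroup.mem_sup_of_normal_right.mp hyD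
        obtain ⟨c, hc1, hc2⟩ := ppart p d₀
        have hd₀M : ((d₀ : G) : G ⧸ M) = ((y : G) : G ⧸ M) := by
          rw [← hdm, QuotientGroup.mk_mul, (QuotientGroup.eq_one_iff m).mpr hm, mul_one]
        have hdM : d₀ ^ c ∉ M := by
          intro h1
          have h2 := hc2 M (by
            rw [hd₀M]
            exact pe_quot p M y hy)
          rw [(QuotientGroup.eq_one_iff _).mpr h1, hd₀M] at h2
          exact hyM ((QuotientGroup.eq_one_iff _).mp h2.symm)
        have hdD : d₀ ^ c ∈ (𝒜 ∪ ℬ).inf id := Subgroup.pow_mem _ hd₀ c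
        obtain ⟨c', hz1, hz2⟩ := ppart p (x * d₀ ^ c)
        have hother : ∀ N ∈ 𝒜 ∪ ℬ, N.Normal → x ∉ N → (x * d₀ ^ c) ^ c' ∉ N := by
          intro N hN hNn hxN hzN
          haveI := hNn
          have hdN : d₀ ^ c ∈ N := (Finset.inf_le (f := id) hN) hdD
          have h1 : ((x * d₀ ^ c : G) : G ⧸ N) = (x : G ⧸ N) := by
            rw [QuotientGroup.mk_mul, (QuotientGroup.eq_one_iff _).mpr hdN, mul_one]
          have h2 := hz2 N (by
            rw [h1]
            exact pe_quot p N x hx)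
          rw [(QuotientGroup.eq_one_iff _).mpr hzN, h1] at h2
          exact hxN ((QuotientGroup.eq_one_iff _).mp h2.symm)
        refine ⟨(x * d₀ ^ c) ^ c', hz1, ?_, ?_⟩
        · intro N hN
          exact hother N (Finset.mem_union_left _ hN) (h𝒯 N ((h𝒜mem N).mp hN).1).1 (hxA N hN)
        · intro N hN hzN
          rcases Finset.mem_insert.mp hN with h0 | h0
          · rw [h0] at hzN
            have h1 : ((x * d₀ ^ c : G) : G ⧸ M) = ((d₀ ^ c : G) : G ⧸ M) := by
              rw [QuotientGroup.mk_mul, (QuotientGroup.eq_one_iff _).mpr hxM, one_mul]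
            have h2 := hz2 M (by
              rw [h1]
              exact pe_quot p M _ hc1)
            rw [(QuotientGroup.eq_one_iff _).mpr hzN, h1] at h2
            exact hdM ((QuotientGroup.eq_one_iff _).mp h2.symm)
          · exact hother N (Finset.mem_union_right _ h0)
              (h𝒯 N (hsub (Finset.mem_insert_of_mem h0))).1 (hxB N h0) hzN
  obtain ⟨x, hx, hxA, hxB⟩ := hstep
    (𝒯.filter (fun M => ¬ ⁅(⊤ : Subgroup G), (⊤ : Subgroup G)⁆ ≤ M))
    (Finset.filter_subset _ _) (fun M hM => (Finset.mem_filter.mp hM).2)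
  refine ⟨x, hx, ?_⟩
  intro M hM
  by_cases hc : ⁅(⊤ : Subgroup G), (⊤ : Subgroup G)⁆ ≤ M
  · exact hxA M ((h𝒜mem M).mpr ⟨hM, hc⟩)
  · exact hxB M (Finset.mem_filter.mpr ⟨hM, hc⟩)

theorem main (p : ℕ) [hp : Fact p.Prime] : ∀ (n : ℕ) (G : Type u) [Group G] [Finite G],
    Nat.card G = n → Subgroup.closure (PE p G) = ⊤ → ∀ 𝒦 : Finset (Subgroup G),
    (∀ K ∈ 𝒦, K ≠ ⊤) → (∀ g ∈ PE p G, ∃ K ∈ 𝒦, g ∈ K) → p + 1 ≤ 𝒦.card := by
  intro n
  induction n using Nat.strong_induction_on with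
  | _ n ih =>
    intro G _ _ hn hgen 𝒦 hK hcov
    classical
    by_contra hcard
    have hcard' : 𝒦.card ≤ p := by omega
    -- Step A
    have hA : ∀ S : Set G, S ⊆ PE p G → Subgroup.closure S ≠ ⊤ →
        ∃ K ∈ 𝒦, Subgroup.closure S ≤ K := by
      intro S hS hne
      by_contra hcon
      push Not at hcon
      have hlt : Nat.card (Subgroup.closure S) < n := by
        rw [← hn]
        have h1 := Subgroup.card_le_card_group (Subgroup.closure S)
        have h2 : Nat.card (Subgroup.closure S) ≠ Nat.card G := fun h3 =>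
          hne ((Subgroup.card_eq_iff_eq_top _).mp h3)
        omega
      have h1 := ih _ hlt (Subgroup.closure S) rfl (by
          have h2 := Subgroup.closure_closure_coe_preimage (k := S)
          rw [eq_top_iff, ← h2]
          apply Subgroup.closure_mono
          intro h hh
          obtain ⟨k, hk⟩ := hS hh
          exact ⟨k, by rw [← hk, Subgroup.orderOf_coe]⟩)
        (𝒦.image (fun K => K.subgroupOf (Subgroup.closure S)))
        (by
          intro K' hK'
          obtain ⟨K, hKm, rfl⟩ := Finset.mem_image.mp hK'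
          intro h3
          exact hcon K hKm (Subgroup.subgroupOf_eq_top.mp h3))
        (by
          intro h hh
          obtain ⟨k, hk⟩ := hh
          obtain ⟨K, hKm, hhK⟩ := hcov (h : G) ⟨k, by rw [Subgroup.orderOf_coe]; exact hk⟩
          exact ⟨K.subgroupOf _, Finset.mem_image_of_mem _ hKm, Subgroup.mem_subgroupOf.mpr hhK⟩)
      have h4 := Finset.card_image_le (s := 𝒦) (f := fun K => K.subgroupOf (Subgroup.closure S))
      omega
    -- Step B
    obtain ⟨𝒦', h𝒦'def⟩ : ∃ 𝒦', 𝒦' = 𝒦.image (fun K : Subgroup G => Subgroup.closure (PE p G ∩ (K : Set G))) :=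
      ⟨_, rfl⟩
    have hB0 : 𝒦'.card ≤ p := by
      rw [h𝒦'def]
      exact le_trans Finset.card_image_le hcard'
    have hB1 : ∀ L ∈ 𝒦', L ≠ ⊤ ∧ ∃ S : Set G, S ⊆ PE p G ∧ L = Subgroup.closure S := by
      intro L hL
      rw [h𝒦'def] at hL
      obtain ⟨K, hKm, rfl⟩ := Finset.mem_image.mp hL
      refine ⟨?_, PE p G ∩ (K : Set G), Set.inter_subset_left, rfl⟩
      intro h1
      apply hK K hKm
      rw [eq_top_iff, ← h1, Subgroup.closure_le]
      exact Set.inter_subset_right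
    have hB2 : ∀ g ∈ PE p G, ∃ L ∈ 𝒦', g ∈ L := by
      intro g hg
      obtain ⟨K, hKm, hgK⟩ := hcov g hg
      refine ⟨Subgroup.closure (PE p G ∩ (K : Set G)), ?_, Subgroup.subset_closure ⟨hg, hgK⟩⟩
      rw [h𝒦'def]
      exact Finset.mem_image_of_mem _ hKm
    have hB3 : ∀ S : Set G, S ⊆ PE p G → Subgroup.closure S ≠ ⊤ →
        ∃ L ∈ 𝒦', Subgroup.closure S ≤ L := by
      intro S hS hne
      obtain ⟨K, hKm, hSK⟩ := hA S hS hne
      refine ⟨Subgroup.closure (PE p G ∩ (K : Set G)), ?_, ?_⟩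
      · rw [h𝒦'def]
        exact Finset.mem_image_of_mem _ hKm
      · apply Subgroup.closure_mono
        intro s hs
        exact ⟨hS hs, hSK (Subgroup.subset_closure hs)⟩
    -- Step C
    obtain ⟨𝓜, h𝓜def⟩ : ∃ 𝓜, 𝓜 = 𝒦'.filter (fun L => Maximal (fun x => x ∈ 𝒦') L) := ⟨_, rfl⟩
    have h𝓜mem : ∀ L, L ∈ 𝓜 ↔ L ∈ 𝒦' ∧ Maximal (fun x => x ∈ 𝒦') L := by
      intro L
      rw [h𝓜def, Finset.mem_filter]
    have hC0 : 𝓜.card ≤ p := by
      rw [h𝓜def]
      exact (Finset.card_filter_le _ _).trans hB0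
    have hC1 : ∀ L ∈ 𝒦', ∃ M ∈ 𝓜, L ≤ M := by
      intro L hL
      obtain ⟨M, hLM, hM⟩ := Finset.exists_le_maximal 𝒦' hL
      exact ⟨M, (h𝓜mem M).mpr ⟨hM.1, hM⟩, hLM⟩
    have hB4 : ∀ L ∈ 𝒦', ∀ a : MulAut G, ∃ M ∈ 𝓜, a • L ≤ M := by
      intro L hL a
      obtain ⟨hLtop, S, hS, rfl⟩ := hB1 L hL
      have h1 : a • Subgroup.closure S = Subgroup.closure (a • S) := Subgroup.smul_closure a S
      have h2 : a • S ⊆ PE p G := by
        intro x hx
        obtain ⟨s, hs, rfl⟩ := Set.mem_smul_set.mp hx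
        obtain ⟨k, hk⟩ := hS hs
        exact ⟨k, by rw [← hk]; exact MulEquiv.orderOf_eq a s⟩
      have h3 : Subgroup.closure (a • S) ≠ ⊤ := by
        intro h4
        apply hLtop
        rw [eq_top_iff]
        intro y _
        have h5 : a • y ∈ a • Subgroup.closure S := by
          rw [h1, h4]
          exact Subgroup.mem_top _
        exact Subgroup.smul_mem_pointwise_smul_iff.mp h5
      obtain ⟨L₁, hL₁, hle⟩ := hB3 (a • S) h2 h3
      obtain ⟨M, hM, hLM⟩ := hC1 L₁ hL₁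
      exact ⟨M, hM, by rw [h1]; exact hle.trans hLM⟩
    -- Step D
    have hD : ∀ L ∈ 𝓜, ∀ a : MulAut G, a • L ∈ 𝓜 := by
      intro L hL a
      have hL' := (h𝓜mem L).mp hL
      obtain ⟨M₁, hM₁, h1⟩ := hB4 L hL'.1 a
      obtain ⟨M₂, hM₂, h2⟩ := hB4 M₁ ((h𝓜mem M₁).mp hM₁).1 a⁻¹
      have h3 : L ≤ a⁻¹ • M₁ := by
        have h4 : a⁻¹ • (a • L) ≤ a⁻¹ • M₁ := Subgroup.pointwise_smul_le_pointwise_smul_iff.mpr h1
        rw [inv_smul_smul] at h4
        exact h4
      have h5 : M₂ ≤ L := hL'.2.2 ((h𝓜mem M₂).mp hM₂).1 (h3.trans h2)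
      have h6 : M₁ ≤ a • L := by
        have h7 : a • (a⁻¹ • M₁) ≤ a • L :=
          Subgroup.pointwise_smul_le_pointwise_smul_iff.mpr (h2.trans h5)
        rw [smul_inv_smul] at h7
        exact h7
      rw [le_antisymm h1 h6]
      exact hM₁
    -- Step E
    have hE : ∀ L ∈ 𝓜, ∀ y ∈ PE p G, MulAut.conj y • L = L := by
      intro L hL y hy
      obtain ⟨k, hk⟩ := hy
      obtain ⟨L₀, hL₀, hyL₀⟩ := hB2 y ⟨k, hk⟩
      obtain ⟨L', hL'mem, hL₀L'⟩ := hC1 L₀ hL₀
      have hyL' : y ∈ L' := hL₀L' hyL₀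
      have hZ : IsPGroup p (Subgroup.zpowers y) :=
        IsPGroup.of_card (n := k) (by rw [Nat.card_zpowers, hk])
      letI act : MulAction (Subgroup.zpowers y) (Subgroup G) :=
        MulAction.compHom (Subgroup G) ((MulAut.conj (G := G)).comp (Subgroup.zpowers y).subtype)
      have hsmul : ∀ (z : Subgroup.zpowers y) (H : Subgroup G),
          z • H = MulAut.conj (z : G) • H := fun _ _ => rfl
      by_cases hL'O : L' ∈ MulAction.orbit (Subgroup.zpowers y) L
      · obtain ⟨z, hz⟩ := hL'O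
        have h1 : MulAut.conj (z : G) • L = L' := hz
        have hzL' : (z : G) ∈ L' := (Subgroup.zpowers_le.mpr hyL') z.2
        have h2 : MulAut.conj (z : G) • L' = L' := Subgroup.conj_smul_eq_self_of_mem hzL'
        have h3 : L = L' := smul_left_cancel _ (h1.trans h2.symm)
        rw [h3]
        exact Subgroup.conj_smul_eq_self_of_mem hyL'
      · have hsub : MulAction.orbit (Subgroup.zpowers y) L ⊆ ↑(𝓜.erase L') := by
          rintro _ ⟨z, rfl⟩
          rw [Finset.coe_erase]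
          refine ⟨hD L hL (MulAut.conj (z : G)), ?_⟩
          intro h1
          exact hL'O ⟨z, h1⟩
        haveI : Finite (MulAction.orbit (Subgroup.zpowers y) L) :=
          Set.Finite.subset (Finset.finite_toSet _) hsub
        obtain ⟨m, hm⟩ := IsPGroup.card_orbit hZ L
        have hle : Nat.card (MulAction.orbit (Subgroup.zpowers y) L) ≤ (𝓜.erase L').card := by
          have h1 := Set.ncard_le_ncard hsub (Finset.finite_toSet _)
          rw [Set.ncard_coe_finset] at h1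
          exact h1
        have hcard2 : (𝓜.erase L').card ≤ p - 1 := by
          rw [Finset.card_erase_of_mem hL'mem]
          omega
        have hm0 : m = 0 := by
          by_contra h0
          have h1 : p ≤ p ^ m := Nat.le_self_pow h0 p
          have hp2 := hp.out.two_le
          omega
        rw [hm0, pow_zero] at hm
        have hy_orbit : (⟨y, Subgroup.mem_zpowers y⟩ : Subgroup.zpowers y) • L
            ∈ MulAction.orbit (Subgroup.zpowers y) L := MulAction.mem_orbit _ _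
        have hL_orbit : L ∈ MulAction.orbit (Subgroup.zpowers y) L := MulAction.mem_orbit_self _
        haveI := (Nat.card_eq_one_iff_unique.mp hm).1
        have h3 : (⟨_, hy_orbit⟩ : MulAction.orbit (Subgroup.zpowers y) L) = ⟨_, hL_orbit⟩ :=
          Subsingleton.elim _ _
        exact congrArg Subtype.val h3
    have hnormal : ∀ L ∈ 𝓜, L.Normal := by
      intro L hL
      rw [← Subgroup.normalizer_eq_top_iff, eq_top_iff, ← hgen, Subgroup.closure_le]
      intro y hy
      have h1 := hE L hL y hy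
      show y ∈ Subgroup.normalizer (L : Set G)
      rw [Subgroup.mem_normalizer_iff]
      intro h
      have h2 : MulAut.conj y • h ∈ MulAut.conj y • L ↔ h ∈ L :=
        Subgroup.smul_mem_pointwise_smul_iff
      rw [h1] at h2
      exact h2.symm
    -- Step F
    have hF : ∀ L ∈ 𝓜, ∃ M, MaxN M ∧ L ≤ M := by
      intro L hL
      exact exists_maxN L (hnormal L hL) (hB1 L ((h𝓜mem L).mp hL).1).1
    choose! f hf using hF
    obtain ⟨x, hx, hxT⟩ := ncl p hgen (𝓜.image f) (le_trans Finset.card_image_le hC0) (by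
      intro M hM
      obtain ⟨L, hL, rfl⟩ := Finset.mem_image.mp hM
      exact (hf L hL).1)
    obtain ⟨L₀, hL₀, hxL₀⟩ := hB2 x hx
    obtain ⟨L', hL'mem, hL₀L'⟩ := hC1 L₀ hL₀
    exact hxT (f L') (Finset.mem_image_of_mem _ hL'mem) ((hf L' hL'mem).2 (hL₀L' hxL₀))

/-- Let p be a prime and G a finite group generated by its p-elements. If a finite family of proper subgroups of G covers the set of p-elements of G (every element of p-power order lies in one of them), then the family has at least p + 1 members. -/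
theorem result {G : Type*} [Group G] [Finite G] (p : ℕ) [Fact p.Prime] (hgen : Subgroup.closure {g : G | ∃ k : ℕ, orderOf g = p ^ k} = ⊤)
    {ι : Type*} [Fintype ι] (K : ι → Subgroup G) (hK : ∀ i, K i ≠ ⊤)
    (hcov : ∀ g : G, (∃ k : ℕ, orderOf g = p ^ k) → ∃ i, g ∈ K i) :
    p + 1 ≤ Fintype.card ι := by
  classical
  have h := main p (Nat.card G) G rfl hgen (Finset.univ.image K) (by
      intro K' hK'
      obtain ⟨i, _, rfl⟩ := Finset.mem_image.mp hK'
      exact hK i) (by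
      intro g hg
      obtain ⟨i, hi⟩ := hcov g hg
      exact ⟨K i, Finset.mem_image_of_mem _ (Finset.mem_univ i), hi⟩)
  exact le_trans h (le_trans Finset.card_image_le (by rw [Finset.card_univ]))

end Cfsg.Agent.S4182
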