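import Cfsg.Statements.S4186
import Mathlib

set_option autoImplicit false
open Cfsg

namespace Cfsg.Agent.S4186

/-- Let T and X be subgroups of a group with T a finite 2-group normalizing X but not centralizing it. Then some element of T inverts some non-identity element of X under conjugation. -/
theorem result {G : Type*} [Group G] (T X : Subgroup G) [Finite ↥T] (hT : IsPGroup 2 ↥T) (hTN : T ≤ Subgroup.normalizer (X : Set G)) (hTC : ¬ T ≤ Subgroup.centralizer (X : Set G)) : ∃ t ∈ T, ∃ x ∈ X, x ≠ 1 ∧ t * x * t⁻¹ = x⁻¹ := by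
  obtain ⟨t, htT, htC⟩ := SetLike.not_le_iff_exists.mp hTC
  have hex : ∃ k : ℕ, t ^ (2 ^ k) ∈ Subgroup.centralizer (X : Set G) := by
    obtain ⟨k, hk⟩ := hT ⟨t, htT⟩
    refine ⟨k, ?_⟩
    have : t ^ (2 ^ k) = 1 := by
      have := congrArg Subtype.val hk
      simpa using this
    rw [this]; exact Subgroup.one_mem _
  classical
  set j := Nat.find hex with hj
  have hjspec : t ^ (2 ^ j) ∈ Subgroup.centralizer (X : Set G) := Nat.find_spec hex
  have hj0 : j ≠ 0 := by
    intro h0
    rw [h0] at hjspec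
    simp at hjspec
    exact htC hjspec
  obtain ⟨i, hi⟩ := Nat.exists_eq_succ_of_ne_zero hj0
  set s := t ^ (2 ^ i) with hs
  have hsT : s ∈ T := Subgroup.pow_mem _ htT _
  have hsC : s ∉ Subgroup.centralizer (X : Set G) := by
    have := Nat.find_min hex (m := i) (by rw [← hj, hi]; exact Nat.lt_succ_self i)
    exact this
  have hs2 : s ^ 2 ∈ Subgroup.centralizer (X : Set G) := by
    have : s ^ 2 = t ^ (2 ^ j) := by
      rw [hs, ← pow_mul, hi, pow_succ]
    rw [this]; exact hjspec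
  have hsN : s ∈ Subgroup.normalizer (X : Set G) := hTN hsT
  have : ∃ y ∈ X, y * s ≠ s * y := by
    by_contra hcon
    push_neg at hcon
    exact hsC (Subgroup.mem_centralizer_iff.mpr fun y hy => hcon y hy)
  obtain ⟨y, hyX, hys⟩ := this
  have hconj : s * y * s⁻¹ ∈ X := (Subgroup.mem_normalizer_iff.mp hsN y).mp hyX
  refine ⟨s, hsT, y⁻¹ * (s * y * s⁻¹), X.mul_mem (X.inv_mem hyX) hconj, ?_, ?_⟩
  · intro h1
    apply hys
    have : s * y * s⁻¹ = y := by
      have := congrArg (fun z => y * z) h1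
      simpa using this
    calc y * s = (s * y * s⁻¹) * s := by rw [this]
      _ = s * y := by group
  · have hcomm : y * s ^ 2 = s ^ 2 * y := Subgroup.mem_centralizer_iff.mp hs2 y hyX
    have h2 : s * s * y = y * (s * s) := by
      rw [pow_two] at hcomm
      rw [hcomm]
    calc s * (y⁻¹ * (s * y * s⁻¹)) * s⁻¹ = (s * y⁻¹ * s⁻¹) * ((s * s * y) * s⁻¹ * s⁻¹) := by group
      _ = (s * y⁻¹ * s⁻¹) * ((y * (s * s)) * s⁻¹ * s⁻¹) := by rw [h2]
      _ = (y⁻¹ * (s * y * s⁻¹))⁻¹ := by group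

end Cfsg.Agent.S4186
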