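import Cfsg.Statements.S4189
import Mathlib
import Cfsg.Agent.Lib.Helper18.PGroupFrat
import Cfsg.Agent.Lib.Lead.UniqueSubgroup

set_option autoImplicit false
open Cfsg

namespace Cfsg.Agent.S4189


open scoped commutatorElement

theorem enum4 {Q : Type*} [Finite Q] (hQ : Nat.card Q = 4) (w x y z : Q) (h1 : w ≠ x)
    (h2 : w ≠ y) (h3 : w ≠ z) (h4 : x ≠ y) (h5 : x ≠ z) (h6 : y ≠ z) (t : Q) :
    t = w ∨ t = x ∨ t = y ∨ t = z := by
  classical
  haveI := Fintype.ofFinite Q
  have hcard : ({w, x, y, z} : Finset Q).card = Fintype.card Q := by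
    rw [← Nat.card_eq_fintype_card, hQ]
    rw [Finset.card_insert_of_notMem, Finset.card_insert_of_notMem,
      Finset.card_insert_of_notMem, Finset.card_singleton]
    all_goals simp [*]
  have huniv := Finset.eq_univ_of_card _ hcard
  have ht : t ∈ ({w, x, y, z} : Finset Q) := huniv ▸ Finset.mem_univ t
  simpa using ht

theorem q4 {Q : Type*} [Group Q] [Finite Q] (hQ : Nat.card Q = 4) (σ : Q ≃* Q) (q : ℕ)
    (hq : Odd q) (hσ : ∀ x, (⇑σ)^[q] x = x) (u : Q) (hu : σ u ≠ u) :
    u ^ 2 = 1 ∧ (σ u) ^ 2 = 1 ∧ σ (σ u) = u * σ u ∧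
      ∀ x : Q, x = 1 ∨ x = u ∨ x = σ u ∨ x = u * σ u := by
  haveI : Fact (Nat.Prime 2) := ⟨Nat.prime_two⟩
  have hcomm : ∀ x y : Q, x * y = y * x :=
    (IsPGroup.isMulCommutative_of_card_eq_prime_sq (p := 2) (by rw [hQ]; norm_num)).is_comm.comm
  obtain ⟨v, hv⟩ : ∃ v, v = σ u := ⟨_, rfl⟩
  obtain ⟨w, hw⟩ : ∃ w, w = σ v := ⟨_, rfl⟩
  have hinj := σ.injective
  have hu1 : u ≠ 1 := by
    intro h; apply hu; rw [h, map_one]
  have hv1 : v ≠ 1 := by
    intro h; apply hu1; apply hinj; rw [← hv, h, map_one]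
  have hvu : v ≠ u := by rw [hv]; exact hu
  have hw1 : w ≠ 1 := by
    intro h; apply hv1; apply hinj; rw [← hw, h, map_one]
  have hwv : w ≠ v := by
    intro h; apply hvu; apply hinj; rw [← hw, ← hv]; exact h
  have hwu : w ≠ u := by
    intro h
    have hσv : σ v = u := by rw [← hw]; exact h
    have h2 : ∀ t, σ (σ t) = t := by
      intro t
      by_cases ht1 : t = 1
      · rw [ht1, map_one, map_one]
      by_cases htu : t = u
      · rw [htu, ← hv, hσv]
      by_cases htv : t = v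
      · rw [htv, hσv, ← hv]
      have henum := enum4 hQ 1 u v t (Ne.symm hu1) (Ne.symm hv1) (Ne.symm ht1) (Ne.symm hvu)
        (Ne.symm htu) (Ne.symm htv) (σ t)
      rcases henum with h' | h' | h' | h'
      · exfalso; apply ht1; apply hinj; rw [h', map_one]
      · exfalso; apply htv; apply hinj; rw [h', hσv]
      · exfalso; apply htu; apply hinj; rw [h', ← hv]
      · rw [h', h']
    have hit : ∀ k : ℕ, ∀ t, (⇑σ)^[2 * k] t = t := by
      intro k
      induction k with
      | zero => intro t; rfl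
      | succ k ih =>
        intro t
        rw [Nat.mul_succ, Function.iterate_add_apply]
        show (⇑σ)^[2 * k] (σ (σ t)) = t
        rw [h2, ih]
    obtain ⟨k, rfl⟩ := hq
    have h3 := hσ u
    have h4 : (⇑σ)^[2 * k + 1] u = (⇑σ)^[2 * k] (σ u) := Function.iterate_succ_apply _ _ _
    rw [h4, hit] at h3
    exact hu h3
  have henum := enum4 hQ 1 u v w (Ne.symm hu1) (Ne.symm hv1) (Ne.symm hw1) (Ne.symm hvu)
    (Ne.symm hwu) (Ne.symm hwv)
  have huv : u * v = w := by
    rcases henum (u * v) with h | h | h | h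
    · exfalso
      have h' : v * w = 1 := by
        have h'' : σ (u * v) = σ 1 := by rw [h]
        rw [map_mul, map_one, ← hv, ← hw] at h''; exact h''
      apply hwu
      calc w = (u * v) * w := by rw [h, one_mul]
        _ = u * (v * w) := mul_assoc _ _ _
        _ = u := by rw [h', mul_one]
    · exfalso; apply hv1; exact mul_left_cancel (a := u) (by rw [h, mul_one])
    · exfalso; apply hu1; exact mul_right_cancel (b := v) (by rw [h, one_mul])
    · exact h
  have hσw : σ w = u := by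
    rcases henum (σ w) with h | h | h | h
    · exfalso; apply hw1; apply hinj; rw [h, map_one]
    · exact h
    · exfalso; apply hwu; apply hinj; rw [h, ← hv]
    · exfalso; apply hwv; apply hinj; rw [h, ← hw]
  have hvw : v * w = u := by
    have h : σ (u * v) = σ w := by rw [huv]
    rw [map_mul, ← hv, ← hw, hσw] at h; exact h
  have hwu' : w * u = v := by
    have h : σ (v * w) = σ u := by rw [hvw]
    rw [map_mul, ← hw, hσw, ← hv] at h; exact h
  have hv2 : v ^ 2 = 1 := by
    have h : u * (v * v) = u * 1 := by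
      rw [mul_one, ← mul_assoc, huv, hcomm w v, hvw]
    rw [pow_two]; exact mul_left_cancel h
  have hu2 : u ^ 2 = 1 := by
    have h : (u * u) * v = 1 * v := by
      rw [one_mul, mul_assoc, hcomm u v, ← mul_assoc, huv, hwu']
    rw [pow_two]; exact mul_right_cancel h
  refine ⟨hu2, ?_, ?_, ?_⟩
  · rw [← hv]; exact hv2
  · rw [← hv, ← hw]; exact huv.symm
  · intro x; rw [← hv, huv]; exact henum x

theorem nf {P : Type*} [Group P] [Finite P] [Group.IsNilpotent P] (F : Subgroup P)
    (h : F ⊔ commutator P = ⊤) : F = ⊤ := by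
  apply frattini_nongenerating
  apply top_le_iff.mp
  rw [← h]
  exact sup_le_sup_left Cfsg.Agent.Lib.Helper18.commutator_le_frattini_of_isNilpotent F

theorem nil' {P : Type*} [Group P] [hn : Group.IsNilpotent P] (K : Subgroup P)
    (h : K ≤ ⁅K, (⊤ : Subgroup P)⁆) : K = ⊥ := by
  obtain ⟨n, hn⟩ := Subgroup.nilpotent_iff_lowerCentralSeries.mp hn
  have hall : ∀ m, K ≤ Subgroup.lowerCentralSeries (⊤ : Subgroup P) m := by
    intro m
    induction m with
    | zero => exact le_top
    | succ m ih =>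
      rw [Subgroup.lowerCentralSeries_succ]
      exact h.trans (Subgroup.commutator_mono ih le_rfl)
  exact le_bot_iff.mp (hn ▸ hall n)

theorem cent_of_gen {H : Type*} [Group H] (A B : H)
    (hgen : Subgroup.closure ({A, B} : Set H) = ⊤) (x : H) (hA : x * A = A * x)
    (hB : x * B = B * x) : x ∈ Subgroup.center H := by
  rw [Subgroup.mem_center_iff]
  intro g
  have hle : Subgroup.closure ({A, B} : Set H) ≤ Subgroup.centralizer ({x} : Set H) := by
    rw [Subgroup.closure_le]
    intro y hy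
    rw [SetLike.mem_coe, Subgroup.mem_centralizer_iff]
    intro h hh
    rw [Set.mem_singleton_iff] at hh; subst hh
    rcases hy with rfl | rfl
    · exact hA
    · exact hB
  rw [hgen] at hle
  exact (Subgroup.mem_centralizer_iff.mp (hle (Subgroup.mem_top g)) x (Set.mem_singleton _)).symm

theorem comm_of_gen {H : Type*} [Group H] (A B : H)
    (hgen : Subgroup.closure ({A, B} : Set H) = ⊤) (hAB : A * B = B * A) :
    ∀ x y : H, x * y = y * x := by
  have hA : A ∈ Subgroup.center H := cent_of_gen A B hgen A rfl hAB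
  have hB : B ∈ Subgroup.center H := cent_of_gen A B hgen B hAB.symm rfl
  intro x y
  have hx : x ∈ Subgroup.center H := cent_of_gen A B hgen x
    (Subgroup.mem_center_iff.mp hA x) (Subgroup.mem_center_iff.mp hB x)
  exact (Subgroup.mem_center_iff.mp hx y).symm

theorem map_gen {G H : Type*} [Group G] [Group H] (f : G →* H) (hf : Function.Surjective f)
    (a b : G) (hgen : Subgroup.closure ({a, b} : Set G) = ⊤) :
    Subgroup.closure ({f a, f b} : Set H) = ⊤ := by
  have h1 : (Subgroup.closure ({a, b} : Set G)).map f = ⊤ := by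
    rw [hgen]; exact Subgroup.map_top_of_surjective f hf
  rw [MonoidHom.map_closure, Set.image_pair] at h1
  exact h1

theorem t2 {G : Type*} [Group G] (a b : G) (hgen : Subgroup.closure ({a, b} : Set G) = ⊤)
    (N : Subgroup G) [N.Normal] (hab : a * b * a⁻¹ * b⁻¹ ∈ N) : commutator G ≤ N := by
  rw [← Subgroup.Normal.quotient_commutative_iff_commutator_le]
  have hgen' := map_gen (QuotientGroup.mk' N) (QuotientGroup.mk'_surjective N) a b hgen
  have hAB : QuotientGroup.mk' N a * QuotientGroup.mk' N b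
      = QuotientGroup.mk' N b * QuotientGroup.mk' N a := by
    rw [← commutatorElement_eq_one_iff_mul_comm, ← map_commutatorElement]
    exact (QuotientGroup.eq_one_iff _).mpr hab
  exact ⟨⟨comm_of_gen _ _ hgen' hAB⟩⟩

theorem structure_lemma {P : Type*} [Group P] [Finite P] [Group.IsNilpotent P] (a b : P)
    (hgen : Subgroup.closure ({a, b} : Set P) = ⊤) (ha2 : a ^ 2 ∈ commutator P)
    (hb2 : b ^ 2 ∈ commutator P) (β : P ≃* P) (hβa : β a = b)
    (hβb : (a * b)⁻¹ * β b ∈ commutator P) (hne : commutator P ≠ ⊥) :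
    a * b * a⁻¹ * b⁻¹ ≠ 1 ∧ a ^ 2 = a * b * a⁻¹ * b⁻¹ ∧ b ^ 2 = a * b * a⁻¹ * b⁻¹ ∧
    (a * b * a⁻¹ * b⁻¹) ^ 2 = 1 ∧ (∀ x ∈ commutator P, x = 1 ∨ x = a * b * a⁻¹ * b⁻¹) ∧
    a * b * a⁻¹ * b⁻¹ ∈ Subgroup.center P := by
  classical
  obtain ⟨c, hc⟩ : ∃ c : P, c = a * b * a⁻¹ * b⁻¹ := ⟨_, rfl⟩
  rw [← hc]
  obtain ⟨L₃, hL₃⟩ : ∃ L : Subgroup P, L = ⁅commutator P, (⊤ : Subgroup P)⁆ := ⟨_, rfl⟩
  haveI hL₃n : L₃.Normal := by rw [hL₃]; infer_instance
  haveI hL₃c : L₃.Characteristic := by rw [hL₃, commutator_def]; infer_instance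
  have hcP' : c ∈ commutator P := by
    rw [commutator_def, hc]
    exact Subgroup.commutator_mem_commutator (Subgroup.mem_top a) (Subgroup.mem_top b)
  obtain ⟨π, hπ⟩ : ∃ π : P →* P ⧸ L₃, π = QuotientGroup.mk' L₃ := ⟨_, rfl⟩
  have hπker : ∀ x, π x = 1 ↔ x ∈ L₃ := by
    intro x; rw [hπ]; exact QuotientGroup.eq_one_iff x
  have hπsurj : Function.Surjective π := by rw [hπ]; exact QuotientGroup.mk'_surjective L₃
  have hcen : ∀ x ∈ commutator P, π x ∈ Subgroup.center (P ⧸ L₃) := by
    intro x hx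
    rw [Subgroup.mem_center_iff]
    intro g
    obtain ⟨y, rfl⟩ := hπsurj g
    have h1 : ⁅x, y⁆ ∈ L₃ := by
      rw [hL₃]; exact Subgroup.commutator_mem_commutator hx (Subgroup.mem_top y)
    have h2 := (hπker _).mpr h1
    rw [map_commutatorElement, commutatorElement_eq_one_iff_mul_comm] at h2
    exact h2.symm
  obtain ⟨A, hA⟩ : ∃ A, A = π a := ⟨_, rfl⟩
  obtain ⟨B, hB⟩ : ∃ B, B = π b := ⟨_, rfl⟩
  obtain ⟨C, hC'⟩ : ∃ C, C = π c := ⟨_, rfl⟩
  have hC : C = A * B * A⁻¹ * B⁻¹ := by
    rw [hC', hc, hA, hB, map_mul, map_mul, map_mul, map_inv, map_inv]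
  have hCcen : C ∈ Subgroup.center (P ⧸ L₃) := hC' ▸ hcen c hcP'
  have hA2cen : A ^ 2 ∈ Subgroup.center (P ⧸ L₃) := by
    have := hcen _ ha2; rwa [map_pow, ← hA] at this
  have hB2cen : B ^ 2 ∈ Subgroup.center (P ⧸ L₃) := by
    have := hcen _ hb2; rwa [map_pow, ← hB] at this
  have hgenQ : Subgroup.closure ({A, B} : Set (P ⧸ L₃)) = ⊤ := by
    rw [hA, hB]; exact map_gen π hπsurj a b hgen
  have hCc : ∀ g, g * C = C * g := Subgroup.mem_center_iff.mp hCcen
  have hAB : A * B = C * B * A := by rw [hC]; group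
  have hA2B : B * A ^ 2 = A ^ 2 * B := Subgroup.mem_center_iff.mp hA2cen B
  have hC2 : C ^ 2 = 1 := by
    have h2 : A ^ 2 * B = C ^ 2 * (B * A ^ 2) := by
      calc A ^ 2 * B = A * (A * B) := by rw [pow_two, mul_assoc]
        _ = A * (C * B * A) := by rw [← hAB]
        _ = (A * C) * (B * A) := by group
        _ = (C * A) * (B * A) := by rw [hCc A]
        _ = C * (A * B) * A := by group
        _ = C * (C * B * A) * A := by rw [← hAB]
        _ = C ^ 2 * (B * A ^ 2) := by rw [pow_two, pow_two]; group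
    rw [← hA2B] at h2
    have h3 : 1 * (B * A ^ 2) = C ^ 2 * (B * A ^ 2) := by rw [one_mul]; exact h2
    exact (mul_right_cancel h3).symm
  have hZCn : (Subgroup.zpowers C).Normal := by
    constructor
    intro n hn g
    obtain ⟨k, rfl⟩ := Subgroup.mem_zpowers_iff.mp hn
    have hcomm : Commute g (C ^ k) := Commute.zpow_right (hCc g) k
    have : g * C ^ k * g⁻¹ = C ^ k := by
      rw [hcomm.eq, mul_inv_cancel_right]
    rw [this]; exact Subgroup.zpow_mem_zpowers C k
  have hcomQ : commutator (P ⧸ L₃) ≤ Subgroup.zpowers C := by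
    haveI := hZCn
    apply t2 A B hgenQ
    rw [← hC]; exact Subgroup.mem_zpowers C
  have hpow : ∀ k : ℤ, C ^ k = 1 ∨ C ^ k = C := by
    intro k
    rcases Int.emod_two_eq_zero_or_one k with h | h
    · left
      have hk : k = 2 * (k / 2) := by omega
      rw [hk, zpow_mul, zpow_ofNat, hC2, one_zpow]
    · right
      have hk : k = 2 * (k / 2) + 1 := by omega
      rw [hk, zpow_add, zpow_mul, zpow_ofNat, hC2, one_zpow, one_mul, zpow_one]
  have hF5 : ∀ x ∈ commutator P, π x = 1 ∨ π x = C := by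
    intro x hx
    have h1 : π x ∈ commutator (P ⧸ L₃) := by
      rw [commutator_def] at hx ⊢
      have h := Subgroup.mem_map_of_mem π hx
      rw [Subgroup.map_commutator] at h
      exact Subgroup.commutator_mono le_top le_top h
    obtain ⟨k, hk⟩ := Subgroup.mem_zpowers_iff.mp (hcomQ h1)
    rw [← hk]; exact hpow k
  have hCne : C ≠ 1 := by
    intro hC1
    apply hne
    apply nil' (commutator P)
    intro x hx
    rw [← hL₃, ← hπker]
    rcases hF5 x hx with h | h
    · exact h
    · rw [h, hC1]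
  have hchar : ∀ x, β x ∈ L₃ ↔ x ∈ L₃ := by
    intro x
    have h := Subgroup.characteristic_iff_comap_eq.mp hL₃c β
    constructor
    · intro hx; rw [← h]; exact hx
    · intro hx; rw [← h] at hx; exact hx
  have hA2 : A ^ 2 = 1 ∨ A ^ 2 = C := by
    have := hF5 _ ha2; rwa [map_pow, ← hA] at this
  have hB2 : B ^ 2 = 1 ∨ B ^ 2 = C := by
    have := hF5 _ hb2; rwa [map_pow, ← hB] at this
  obtain ⟨d, hd⟩ : ∃ d, d = (a * b)⁻¹ * β b := ⟨_, rfl⟩
  have hβb' : β b = a * b * d := by rw [hd]; group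
  have hdP' : d ∈ commutator P := hd ▸ hβb
  have hD : π d = 1 ∨ π d = C := hF5 d hdP'
  have hDc : ∀ g, g * π d = π d * g := Subgroup.mem_center_iff.mp (hcen d hdP')
  have hD2 : (π d) ^ 2 = 1 := by
    rcases hD with h | h
    · rw [h, one_pow]
    · rw [h, hC2]
  have hc'2 : π (β b) ^ 2 = C * A ^ 2 * B ^ 2 := by
    rw [hβb', map_mul, map_mul, ← hA, ← hB]
    calc (A * B * π d) ^ 2 = (A * B) * ((π d) * (A * B)) * π d := by rw [pow_two]; group
      _ = (A * B) * ((A * B) * π d) * π d := by rw [hDc (A * B)]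
      _ = (A * B) * (A * B) * (π d) ^ 2 := by rw [pow_two]; group
      _ = (C * B * A) * (A * B) := by rw [hD2, mul_one, ← hAB]
      _ = C * (B * A ^ 2) * B := by rw [pow_two]; group
      _ = C * (A ^ 2 * B) * B := by rw [hA2B]
      _ = C * A ^ 2 * B ^ 2 := by rw [pow_two, pow_two]; group
  have hAL : A ^ 2 = 1 ↔ a ^ 2 ∈ L₃ := by rw [hA, ← map_pow, hπker]
  have hBL : B ^ 2 = 1 ↔ b ^ 2 ∈ L₃ := by rw [hB, ← map_pow, hπker]
  have hab_iff : a ^ 2 ∈ L₃ ↔ b ^ 2 ∈ L₃ := by rw [← hchar (a ^ 2), map_pow, hβa]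
  have hbc_iff : b ^ 2 ∈ L₃ ↔ (β b) ^ 2 ∈ L₃ := by rw [← hchar (b ^ 2), map_pow]
  have hA2C : A ^ 2 = C := by
    rcases hA2 with h | h
    · exfalso
      have h1 : a ^ 2 ∈ L₃ := hAL.mp h
      have h2 : b ^ 2 ∈ L₃ := hab_iff.mp h1
      have h3 : (β b) ^ 2 ∈ L₃ := hbc_iff.mp h2
      have h4 : π (β b) ^ 2 = 1 := by rw [← map_pow, hπker]; exact h3
      rw [hc'2, h, hBL.mpr h2, mul_one, mul_one] at h4
      exact hCne h4
    · exact h
  have hB2C : B ^ 2 = C := by
    rcases hB2 with h | h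
    · exfalso
      have h2 : b ^ 2 ∈ L₃ := hBL.mp h
      have h1 : a ^ 2 ∈ L₃ := hab_iff.mpr h2
      rw [hAL.mpr h1] at hA2C
      exact hCne hA2C.symm
    · exact h
  -- second quotient
  obtain ⟨L₄, hL₄⟩ : ∃ L : Subgroup P, L = ⁅L₃, (⊤ : Subgroup P)⁆ := ⟨_, rfl⟩
  haveI hL₄n : L₄.Normal := by rw [hL₄]; infer_instance
  obtain ⟨ρ, hρ⟩ : ∃ ρ : P →* P ⧸ L₄, ρ = QuotientGroup.mk' L₄ := ⟨_, rfl⟩
  have hρker : ∀ x, ρ x = 1 ↔ x ∈ L₄ := by
    intro x; rw [hρ]; exact QuotientGroup.eq_one_iff x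
  have hρsurj : Function.Surjective ρ := by rw [hρ]; exact QuotientGroup.mk'_surjective L₄
  have hcen4 : ∀ x ∈ L₃, ρ x ∈ Subgroup.center (P ⧸ L₄) := by
    intro x hx
    rw [Subgroup.mem_center_iff]
    intro g
    obtain ⟨y, rfl⟩ := hρsurj g
    have h1 : ⁅x, y⁆ ∈ L₄ := by
      rw [hL₄]; exact Subgroup.commutator_mem_commutator hx (Subgroup.mem_top y)
    have h2 := (hρker _).mpr h1
    rw [map_commutatorElement, commutatorElement_eq_one_iff_mul_comm] at h2
    exact h2.symm
  have hu₁ : c⁻¹ * a ^ 2 ∈ L₃ := by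
    rw [← hπker, map_mul, map_inv, map_pow, ← hA, ← hC', hA2C]; exact inv_mul_cancel C
  have hu₂ : c⁻¹ * b ^ 2 ∈ L₃ := by
    rw [← hπker, map_mul, map_inv, map_pow, ← hB, ← hC', hB2C]; exact inv_mul_cancel C
  have hcomm_aux : ∀ t : P, c⁻¹ * t ^ 2 ∈ L₃ → ρ c * ρ t = ρ t * ρ c := by
    intro t ht
    have h1 := Subgroup.mem_center_iff.mp (hcen4 _ ht) (ρ t)
    rw [map_mul, map_inv, map_pow] at h1
    calc ρ c * ρ t = ρ c * (ρ t * ((ρ c)⁻¹ * ρ t ^ 2)) * (ρ t ^ 2)⁻¹ * ρ c := by
          rw [pow_two]; group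
      _ = ρ c * ((ρ c)⁻¹ * ρ t ^ 2 * ρ t) * (ρ t ^ 2)⁻¹ * ρ c := by rw [h1]
      _ = ρ t * ρ c := by rw [pow_two]; group
  have hgen4 : Subgroup.closure ({ρ a, ρ b} : Set (P ⧸ L₄)) = ⊤ := map_gen ρ hρsurj a b hgen
  have hc4 : ρ c ∈ Subgroup.center (P ⧸ L₄) :=
    cent_of_gen (ρ a) (ρ b) hgen4 (ρ c) (hcomm_aux a hu₁) (hcomm_aux b hu₂)
  have hP'4 : ∀ x ∈ commutator P, ρ x ∈ Subgroup.center (P ⧸ L₄) := by
    intro x hx
    rcases hF5 x hx with h | h
    · exact hcen4 x ((hπker x).mp h)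
    · have h1 : c⁻¹ * x ∈ L₃ := by
        rw [← hπker, map_mul, map_inv, h, ← hC']; exact inv_mul_cancel C
      have h2 := hcen4 _ h1
      have h3 : ρ x = ρ c * ρ (c⁻¹ * x) := by
        rw [← map_mul]; congr 1; group
      rw [h3]; exact Subgroup.mul_mem _ hc4 h2
  have hL34 : L₃ ≤ L₄ := by
    rw [hL₃, Subgroup.commutator_le]
    intro x hx y _
    rw [← hρker, map_commutatorElement, commutatorElement_eq_one_iff_mul_comm]
    exact (Subgroup.mem_center_iff.mp (hP'4 x hx) (ρ y)).symm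
  have hL₃bot : L₃ = ⊥ := nil' L₃ (by rw [← hL₄]; exact hL34)
  have hinj : ∀ x y, π x = π y → x = y := by
    intro x y h
    have h1 : x⁻¹ * y ∈ L₃ := by
      rw [← hπker, map_mul, map_inv, h]; exact inv_mul_cancel _
    rw [hL₃bot, Subgroup.mem_bot] at h1
    exact inv_mul_eq_one.mp h1
  refine ⟨?_, ?_, ?_, ?_, ?_, ?_⟩
  · intro h; apply hCne; rw [hC', h, map_one]
  · apply hinj; rw [map_pow, ← hA, ← hC']; exact hA2C
  · apply hinj; rw [map_pow, ← hB, ← hC']; exact hB2C
  · apply hinj; rw [map_pow, map_one, ← hC']; exact hC2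
  · intro x hx
    rcases hF5 x hx with h | h
    · left; apply hinj; rw [h, map_one]
    · right; apply hinj; rw [h, hC']
  · rw [Subgroup.mem_center_iff]
    intro g
    apply hinj
    rw [map_mul, map_mul, ← hC']
    exact hCc (π g)

/-- Let P be a finite non-abelian 2-group whose commutator subgroup has index 4 and whose automorphism group is not a 2-group (some automorphism has order that is not a power of 2). Then P is isomorphic to the quaternion group of order 8. -/
theorem result {P : Type*} [Group P] [Finite P] (hP : IsPGroup 2 P) (hna : ¬ IsMulCommutative P) (h4 : (commutator P).index = 4) (haut : ¬ IsPGroup 2 (MulAut P)) : Nonempty (P ≃* QuaternionGroup 2) := by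
  classical
  haveI : Fintype P := Fintype.ofFinite P
  haveI : Fact (Nat.Prime 2) := ⟨Nat.prime_two⟩
  haveI hnil : Group.IsNilpotent P := hP.isNilpotent
  haveI hfin : Finite (MulAut P) := inferInstance
  obtain ⟨q, hqprime, hqdvd, hq2⟩ :
      ∃ q : ℕ, q.Prime ∧ q ∣ Nat.card (MulAut P) ∧ q ≠ 2 := by
    by_contra hcon
    push Not at hcon
    apply haut
    have h := Nat.eq_prime_pow_of_unique_prime_dvd (n := Nat.card (MulAut P)) (p := 2)
      Nat.card_pos.ne' (fun {d} hd hdv => hcon d hd hdv)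
    exact IsPGroup.of_card h
  haveI : Fact q.Prime := ⟨hqprime⟩
  obtain ⟨β, hβ⟩ := exists_prime_orderOf_dvd_card' q hqdvd
  have hqodd : Odd q := hqprime.odd_of_ne_two hq2
  have hβq : β ^ q = 1 := by rw [← hβ]; exact pow_orderOf_eq_one β
  have hβne : β ≠ 1 := by
    intro h; rw [h, orderOf_one] at hβ; exact hqprime.one_lt.ne hβ
  have hq2' : ¬ q ∣ Nat.card (commutator P) := by
    obtain ⟨k, hk⟩ := IsPGroup.iff_card.mp (hP.to_subgroup (commutator P))
    rw [hk]
    intro hdvd
    have := (Nat.prime_dvd_prime_iff_eq hqprime Nat.prime_two).mp (hqprime.dvd_of_dvd_pow hdvd)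
    exact hq2 this
  have hex : ∃ a : P, a⁻¹ * β a ∉ commutator P := by
    by_contra hcon
    push Not at hcon
    apply hβne
    let F : Subgroup P :=
      { carrier := {y | β y = y}
        mul_mem' := by
          intro x y hx hy
          show β (x * y) = x * y
          rw [map_mul, hx, hy]
        one_mem' := map_one β
        inv_mem' := by
          intro x hx
          show β x⁻¹ = x⁻¹
          rw [map_inv, hx] }
    have hF : F = ⊤ := by
      apply nf
      rw [eq_top_iff]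
      intro x _
      have hiff : ∀ y : P, x⁻¹ * (MulAut.toPerm P β) y ∈ commutator P ↔
          x⁻¹ * y ∈ commutator P := by
        intro y
        have h1 : x⁻¹ * β y = (x⁻¹ * y) * (y⁻¹ * β y) := by group
        show x⁻¹ * β y ∈ commutator P ↔ x⁻¹ * y ∈ commutator P
        rw [h1]
        exact Subgroup.mul_mem_cancel_right _ (hcon y)
      let σ : Equiv.Perm {y : P // x⁻¹ * y ∈ commutator P} :=
        (MulAut.toPerm P β).subtypePerm hiff
      have hσq : σ ^ q ^ 1 = 1 := by
        rw [pow_one]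
        show ((MulAut.toPerm P β).subtypePerm hiff) ^ q = 1
        rw [Equiv.Perm.subtypePerm_pow]
        ext ⟨y, hy⟩
        show ((MulAut.toPerm P β) ^ q) y = y
        rw [← map_pow, hβq, map_one]; rfl
      have hcardT : Fintype.card {y : P // x⁻¹ * y ∈ commutator P}
          = Nat.card (commutator P) := by
        rw [← Nat.card_eq_fintype_card]
        apply Nat.card_congr
        exact
          { toFun := fun y => ⟨x⁻¹ * y.1, y.2⟩
            invFun := fun z => ⟨x * z.1, by simp⟩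
            left_inv := by intro y; apply Subtype.ext; simp
            right_inv := by intro z; apply Subtype.ext; simp }
      obtain ⟨y, hy⟩ := Equiv.Perm.exists_fixed_point_of_prime (p := q) (n := 1)
        (by rw [hcardT]; exact hq2') hσq
      have hyF : (y : P) ∈ F := by
        show β (y : P) = (y : P)
        exact congrArg Subtype.val hy
      have hxy : x = (y : P) * ((y : P)⁻¹ * x) := by group
      rw [hxy]
      refine Subgroup.mul_mem_sup hyF ?_
      have := Subgroup.inv_mem _ y.2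
      simpa using this
    ext x
    have hx : x ∈ F := hF ▸ Subgroup.mem_top x
    exact hx
  obtain ⟨a, ha⟩ := hex
  obtain ⟨b, hb⟩ : ∃ b, b = β a := ⟨_, rfl⟩
  have hmapeq : (commutator P).map (β : P →* P) = commutator P := by
    have hchar : (commutator P).Characteristic := by rw [commutator_def]; infer_instance
    exact Subgroup.characteristic_iff_map_eq.mp hchar β
  obtain ⟨σ, hσmk⟩ : ∃ σ : (P ⧸ commutator P) ≃* (P ⧸ commutator P),
      ∀ x : P, σ (QuotientGroup.mk x) = QuotientGroup.mk (β x) :=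
    ⟨QuotientGroup.congr (commutator P) (commutator P) β hmapeq,
      fun x => QuotientGroup.congr_mk _ _ _ _ x⟩
  have hσit : ∀ (n : ℕ) (x : P), (⇑σ)^[n] (QuotientGroup.mk x) = QuotientGroup.mk ((β ^ n) x) := by
    intro n
    induction n with
    | zero => intro x; rfl
    | succ n ih =>
      intro x
      rw [Function.iterate_succ_apply, hσmk, ih, pow_succ]; rfl
  have hQcard : Nat.card (P ⧸ commutator P) = 4 := h4
  have hσq : ∀ x, (⇑σ)^[q] x = x := by
    intro x
    obtain ⟨y, rfl⟩ := QuotientGroup.mk_surjective x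
    rw [hσit, hβq]; rfl
  have hu : σ (QuotientGroup.mk a) ≠ QuotientGroup.mk a := by
    rw [hσmk]
    intro h
    apply ha
    exact QuotientGroup.eq.mp h.symm
  obtain ⟨h1, h2, h3, h4'⟩ := q4 hQcard σ q hqodd hσq (QuotientGroup.mk a) hu
  rw [hσmk, ← hb] at h2 h3 h4'
  rw [hσmk] at h3
  have ha2 : a ^ 2 ∈ commutator P := by
    rw [← QuotientGroup.eq_one_iff, QuotientGroup.mk_pow]; exact h1
  have hb2 : b ^ 2 ∈ commutator P := by
    rw [← QuotientGroup.eq_one_iff, QuotientGroup.mk_pow]; exact h2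
  have hβb : (a * b)⁻¹ * β b ∈ commutator P := by
    apply QuotientGroup.eq.mp
    rw [QuotientGroup.mk_mul]; exact h3.symm
  have hgen : Subgroup.closure ({a, b} : Set P) = ⊤ := by
    apply nf
    rw [eq_top_iff]
    intro x _
    have haC : a ∈ Subgroup.closure ({a, b} : Set P) := Subgroup.subset_closure (by simp)
    have hbC : b ∈ Subgroup.closure ({a, b} : Set P) := Subgroup.subset_closure (by simp)
    have key : ∀ g ∈ Subgroup.closure ({a, b} : Set P),
        (QuotientGroup.mk x : P ⧸ commutator P) = QuotientGroup.mk g →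
        x ∈ Subgroup.closure ({a, b} : Set P) ⊔ commutator P := by
      intro g hg h
      have h' : g⁻¹ * x ∈ commutator P := QuotientGroup.eq.mp h.symm
      have hx : x = g * (g⁻¹ * x) := by group
      rw [hx]; exact Subgroup.mul_mem_sup hg h'
    rcases h4' (QuotientGroup.mk x) with h | h | h | h
    · exact key 1 (Subgroup.one_mem _) h
    · exact key a haC h
    · exact key b hbC h
    · exact key (a * b) (Subgroup.mul_mem _ haC hbC) (by rw [QuotientGroup.mk_mul]; exact h)
  have hne : commutator P ≠ ⊥ := by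
    intro h
    apply hna
    refine ⟨⟨fun x y => ?_⟩⟩
    have hxy : ⁅x, y⁆ ∈ commutator P := by
      rw [commutator_def]
      exact Subgroup.commutator_mem_commutator (Subgroup.mem_top x) (Subgroup.mem_top y)
    rw [h, Subgroup.mem_bot, commutatorElement_eq_one_iff_mul_comm] at hxy
    exact hxy
  obtain ⟨hc1, hca, hcb, hc2, hP', hcz⟩ :=
    structure_lemma a b hgen ha2 hb2 β hb.symm hβb hne
  obtain ⟨c, hc⟩ : ∃ c : P, c = a * b * a⁻¹ * b⁻¹ := ⟨_, rfl⟩
  rw [← hc] at hc1 hca hcb hc2 hP' hcz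
  have hcP' : c ∈ commutator P := by
    rw [commutator_def, hc]
    exact Subgroup.commutator_mem_commutator (Subgroup.mem_top a) (Subgroup.mem_top b)
  have hoa : orderOf a = 2 ^ (1 + 1) := by
    apply orderOf_eq_prime_pow
    · rw [pow_one, hca]; exact hc1
    · have : a ^ 2 ^ (1 + 1) = (a ^ 2) ^ 2 := by rw [← pow_mul]; norm_num
      rw [this, hca, hc2]
  have hb2' : b ^ 2 = a ^ 2 ^ 1 := by rw [pow_one, hca, hcb]
  have hba : b * a * b⁻¹ = a⁻¹ := by
    have h : b * a * b⁻¹ = (a * b * a⁻¹ * b⁻¹)⁻¹ * a := by group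
    rw [h, ← hc, ← hca, pow_two]; group
  have hbnot : b ∉ Subgroup.zpowers a := by
    intro h
    obtain ⟨k, hk⟩ := Subgroup.mem_zpowers_iff.mp h
    apply hc1
    rw [hc, ← hk]; group
  have hcardP' : Nat.card (commutator P) = 2 := by
    rw [Nat.card_eq_two_iff' (1 : commutator P)]
    refine ⟨⟨c, hcP'⟩, ?_, ?_⟩
    · intro h; exact hc1 (congrArg Subtype.val h)
    · intro y hy
      apply Subtype.ext
      rcases hP' y.1 y.2 with h | h
      · exfalso; exact hy (Subtype.ext h)
      · exact h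
  have hcardP : Nat.card P = 8 := by
    rw [← Subgroup.card_mul_index (commutator P), hcardP', h4]
  have hidx : (Subgroup.zpowers a).index = 2 := by
    have h := Subgroup.card_mul_index (Subgroup.zpowers a)
    rw [Nat.card_zpowers, hoa, hcardP] at h
    norm_num at h
    omega
  have hres := Cfsg.Agent.Lib.Lead.quaternion_equiv_of_relations 1 a b hoa hb2' hba hbnot hidx
  simpa using hres

end Cfsg.Agent.S4189
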