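import Cfsg.Statements.S4194
import Cfsg.Agent.Lib.Helper5.TwoCentral

set_option autoImplicit false
open Cfsg

namespace Cfsg.Agent.S4194

/-- A finite group G has commutative Sylow 2-subgroups if and only if every 2-element of G (element of order a power of 2) is 2-central, that is, its centralizer contains a Sylow 2-subgroup of G. -/
theorem result {G : Type*} [Group G] [Finite G] (P : Sylow 2 G) :
    IsMulCommutative (P : Subgroup G) ↔ ∀ x : G, (∃ k : ℕ, orderOf x = 2 ^ k) → (∃ Q : Sylow 2 G, (Q : Subgroup G) ≤ Subgroup.centralizer ({x} : Set G)) := by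
  have : Fact (Nat.Prime 2) := ⟨Nat.prime_two⟩
  constructor
  · intro hP x hx
    obtain ⟨k, hk⟩ := hx
    have hpx : IsPGroup 2 (Subgroup.zpowers x) := by
      apply Cfsg.Agent.Lib.Helper5.sc_isPGroup_zpowers x k
      rw [← hk]
      exact pow_orderOf_eq_one x
    obtain ⟨Q, hQ⟩ := hpx.exists_le_sylow
    obtain ⟨g, hg⟩ := MulAction.exists_smul_eq G P Q
    refine ⟨Q, ?_⟩
    intro y hy
    have hxQ : x ∈ (Q : Subgroup G) := hQ (Subgroup.mem_zpowers x)
    rw [← hg, Cfsg.Agent.Lib.Helper5.iso_mem_smul_sylow] at hy hxQ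
    have h1 := hP.is_comm.comm ⟨_, hxQ⟩ ⟨_, hy⟩
    have h2 : (g⁻¹ * x * g) * (g⁻¹ * y * g) = (g⁻¹ * y * g) * (g⁻¹ * x * g) :=
      congrArg Subtype.val h1
    have h3 : Commute x y := Cfsg.Agent.Lib.Helper5.tc_commute_of_conj h2
    rw [Subgroup.mem_centralizer_iff]
    intro z hz
    rw [Set.mem_singleton_iff] at hz
    rw [hz]
    exact h3.eq
  · intro hc
    refine ⟨⟨fun a b => Subtype.ext ?_⟩⟩
    exact Cfsg.Agent.Lib.Helper5.tc_sylow_abelian hc P a.1 b.1 a.2 b.2

end Cfsg.Agent.S4194
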