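import Cfsg.Statements.S4196
import Mathlib
import Cfsg.Agent.Lib.Helper23.Basic

set_option autoImplicit false
open Cfsg

namespace Cfsg.Agent.S4196

/-- A finite group G has elementary abelian Sylow 2-subgroups (commutative with every element squaring to the identity) if and only if every 2-element of G has a Sylow 2-subgroup in its centralizer and is conjugate to its inverse. -/
theorem result {G : Type*} [Group G] [Finite G] (P : Sylow 2 G) :
    (IsMulCommutative (P : Subgroup G) ∧ ∀ x ∈ (P : Subgroup G), x ^ 2 = 1) ↔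
      ∀ x : G, (∃ k : ℕ, orderOf x = 2 ^ k) → (∃ Q : Sylow 2 G, (Q : Subgroup G) ≤ Subgroup.centralizer ({x} : Set G)) ∧ IsConj x x⁻¹ := by
  have hfact : Fact (Nat.Prime 2) := ⟨Nat.prime_two⟩
  constructor
  · rintro ⟨hcomm, hexp⟩ x ⟨k, hk⟩
    have hx2 : IsPGroup 2 (Subgroup.zpowers x) := by
      apply IsPGroup.of_card (n := k)
      rw [Nat.card_zpowers, hk]
    obtain ⟨Q, hQ⟩ := hx2.exists_le_sylow
    obtain ⟨g, rfl⟩ := MulAction.exists_smul_eq G P Q
    have hmem : ∀ a : G, a ∈ ((g • P : Sylow 2 G) : Subgroup G) ↔ g⁻¹ * a * g ∈ (P : Subgroup G) := by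
      intro a
      rw [Sylow.coe_subgroup_smul, Subgroup.mem_pointwise_smul_iff_inv_smul_mem]
      simp [MulAut.smul_def]
    have hxQ : x ∈ ((g • P : Sylow 2 G) : Subgroup G) := hQ (Subgroup.mem_zpowers x)
    have hxP := (hmem x).mp hxQ
    refine ⟨⟨g • P, ?_⟩, ?_⟩
    · intro y hy
      have hyP := (hmem y).mp hy
      rw [Subgroup.mem_centralizer_iff]
      intro z hz
      rw [Set.mem_singleton_iff.mp hz]
      have h1 : (⟨g⁻¹ * x * g, hxP⟩ : (P : Subgroup G)) * ⟨g⁻¹ * y * g, hyP⟩ =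
          ⟨g⁻¹ * y * g, hyP⟩ * ⟨g⁻¹ * x * g, hxP⟩ := hcomm.is_comm.comm _ _
      have h2 : (g⁻¹ * x * g) * (g⁻¹ * y * g) = (g⁻¹ * y * g) * (g⁻¹ * x * g) :=
        congrArg Subtype.val h1
      calc x * y = g * ((g⁻¹ * x * g) * (g⁻¹ * y * g)) * g⁻¹ := by group
        _ = g * ((g⁻¹ * y * g) * (g⁻¹ * x * g)) * g⁻¹ := by rw [h2]
        _ = y * x := by group
    · have h1 : (g⁻¹ * x * g) ^ 2 = 1 := hexp _ hxP
      have h2 : x ^ 2 = 1 := by
        have e : x ^ 2 = g * (g⁻¹ * x * g) ^ 2 * g⁻¹ := by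
          rw [pow_two, pow_two]; group
        rw [e, h1]; group
      have h3 : x⁻¹ = x := by
        rw [inv_eq_iff_mul_eq_one, ← pow_two, h2]
      rw [h3]
  · intro h
    have hsq : ∀ x ∈ (P : Subgroup G), x ^ 2 = 1 := by
      intro x hx
      obtain ⟨k, hk⟩ := P.2 ⟨x, hx⟩
      have hk' : x ^ 2 ^ k = 1 := by
        have := congrArg Subtype.val hk
        simpa using this
      obtain ⟨j, -, hj⟩ := (Nat.dvd_prime_pow Nat.prime_two).mp (orderOf_dvd_of_pow_eq_one hk')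
      obtain ⟨⟨Q, hQ⟩, hreal⟩ := h x ⟨j, hj⟩
      have hodd : ¬ 2 ∣ (Subgroup.centralizer ({x} : Set G)).index := fun h2 =>
        Q.not_dvd_index (h2.trans (Subgroup.index_dvd_of_le hQ))
      exact Cfsg.Agent.Lib.Helper23.sq_eq_one_of_isConj_inv_of_odd x hreal hodd
    refine ⟨⟨⟨fun a b => ?_⟩⟩, hsq⟩
    apply Subtype.ext
    have ha := hsq a a.2
    have hb := hsq b b.2
    have hab := hsq (a * b) ((P : Subgroup G).mul_mem a.2 b.2)
    show (a : G) * (b : G) = (b : G) * (a : G)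
    have e1 : (a : G)⁻¹ = a := by rw [inv_eq_iff_mul_eq_one, ← pow_two, ha]
    have e2 : (b : G)⁻¹ = b := by rw [inv_eq_iff_mul_eq_one, ← pow_two, hb]
    have e3 : ((a : G) * b)⁻¹ = a * b := by rw [inv_eq_iff_mul_eq_one, ← pow_two, hab]
    calc (a : G) * b = ((a : G) * b)⁻¹ := e3.symm
      _ = (b : G)⁻¹ * (a : G)⁻¹ := mul_inv_rev _ _
      _ = b * a := by rw [e1, e2]

end Cfsg.Agent.S4196
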