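import Cfsg.Statements.S4211
import Mathlib
import Cfsg.Agent.Lib.Helper2.CyclicMax
import Cfsg.Agent.Lib.Lead.UniqueSubgroup

set_option autoImplicit false
open Cfsg

namespace Cfsg.Agent.S4211


theorem pw1 {G : Type*} [Group G] (u v z : G) (hz : z = v * u * v⁻¹ * u⁻¹)
    (hzv : Commute z v) : ∀ n : ℕ, v ^ n * u = z ^ n * u * v ^ n := by
  have hvu : v * u = z * u * v := by rw [hz]; group
  intro n
  induction n with
  | zero => simp
  | succ n ih =>
    have e : v * z ^ n = z ^ n * v := ((hzv.pow_left n).eq).symm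
    calc v ^ (n + 1) * u = v * (v ^ n * u) := by rw [pow_succ']; group
      _ = v * (z ^ n * u * v ^ n) := by rw [ih]
      _ = (v * z ^ n) * u * v ^ n := by group
      _ = (z ^ n * v) * u * v ^ n := by rw [e]
      _ = z ^ n * (v * u) * v ^ n := by group
      _ = z ^ n * (z * u * v) * v ^ n := by rw [hvu]
      _ = z ^ (n + 1) * u * v ^ (n + 1) := by rw [pow_succ, pow_succ']; group

theorem pw2 {G : Type*} [Group G] (u v z : G) (hz : z = v * u * v⁻¹ * u⁻¹)
    (hzu : Commute z u) (hzv : Commute z v) :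
    ∀ n : ℕ, (u * v) ^ n = z ^ (n.choose 2) * u ^ n * v ^ n := by
  have h1 := pw1 u v z hz hzv
  intro n
  induction n with
  | zero => simp
  | succ n ih =>
    have hc : (n + 1).choose 2 = n + n.choose 2 := by
      rw [show (2 : ℕ) = 1 + 1 from rfl, Nat.choose_succ_succ, Nat.choose_one_right]
    have e : u ^ n * z ^ n = z ^ n * u ^ n := (((hzu.pow_left n).pow_right n).eq).symm
    calc (u * v) ^ (n + 1) = (u * v) ^ n * (u * v) := pow_succ _ _
      _ = z ^ (n.choose 2) * u ^ n * v ^ n * (u * v) := by rw [ih]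
      _ = z ^ (n.choose 2) * u ^ n * (v ^ n * u) * v := by group
      _ = z ^ (n.choose 2) * u ^ n * (z ^ n * u * v ^ n) * v := by rw [h1 n]
      _ = z ^ (n.choose 2) * (u ^ n * z ^ n) * u * v ^ n * v := by group
      _ = z ^ (n.choose 2) * (z ^ n * u ^ n) * u * v ^ n * v := by rw [e]
      _ = z ^ ((n + 1).choose 2) * u ^ (n + 1) * v ^ (n + 1) := by
          rw [hc, pow_add, pow_succ, pow_succ]; group

theorem cyc_unique {H : Type*} [Group H] [Finite H] [IsCyclic H] (p : ℕ) [hp : Fact p.Prime]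
    (u c : H) (hu : orderOf u = p) (hc : orderOf c = p) : c ∈ Subgroup.zpowers u := by
  classical
  haveI := Fintype.ofFinite H
  have h1 : (Finset.univ.filter (fun a : H => a ^ p = 1)).card ≤ p :=
    IsCyclic.card_pow_eq_one_le hp.out.pos
  obtain ⟨t, ht⟩ : ∃ t : Finset H, t = Finset.univ.filter (fun a : H => a ∈ Subgroup.zpowers u) :=
    ⟨_, rfl⟩
  have htc : t.card = p := by
    have h2 : t.card = Nat.card (Subgroup.zpowers u) := by
      rw [ht, Nat.card_eq_fintype_card, Fintype.card_subtype]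
    rw [h2, Nat.card_zpowers, hu]
  have hsub : t ⊆ Finset.univ.filter (fun a : H => a ^ p = 1) := by
    intro x hx
    rw [ht, Finset.mem_filter] at hx
    rw [Finset.mem_filter]
    obtain ⟨k, rfl⟩ := Subgroup.mem_zpowers_iff.mp hx.2
    refine ⟨Finset.mem_univ _, ?_⟩
    rw [← zpow_natCast, ← zpow_mul, mul_comm, zpow_mul, zpow_natCast, ← hu, pow_orderOf_eq_one,
      one_zpow]
  have heq := Finset.eq_of_subset_of_card_le hsub (by rw [htc]; exact h1)
  have hcm : c ∈ Finset.univ.filter (fun a : H => a ^ p = 1) := by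
    rw [Finset.mem_filter]; exact ⟨Finset.mem_univ _, by rw [← hc]; exact pow_orderOf_eq_one c⟩
  rw [← heq, ht] at hcm
  exact (Finset.mem_filter.mp hcm).2

theorem cyc_unique' {G : Type*} [Group G] [Finite G] (p : ℕ) [Fact p.Prime] (g u c : G)
    (hu : u ∈ Subgroup.zpowers g) (hc : c ∈ Subgroup.zpowers g) (hou : orderOf u = p)
    (hoc : orderOf c = p) : c ∈ Subgroup.zpowers u := by
  have h := cyc_unique p (⟨u, hu⟩ : ↥(Subgroup.zpowers g)) ⟨c, hc⟩
    (by rw [← Subgroup.orderOf_coe]; exact hou) (by rw [← Subgroup.orderOf_coe]; exact hoc)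
  obtain ⟨j, hj⟩ := Subgroup.mem_zpowers_iff.mp h
  rw [Subgroup.mem_zpowers_iff]
  exact ⟨j, by have := congrArg Subtype.val hj; simpa using this⟩

/-- an element of the group generated by an involution is trivial or the involution -/
theorem inv2 {G : Type*} [Group G] (c Y : G) (hc2 : c ^ 2 = 1) (hY : Y ∈ Subgroup.zpowers c)
    (hY1 : Y ≠ 1) : Y = c := by
  obtain ⟨k, rfl⟩ := Subgroup.mem_zpowers_iff.mp hY
  rcases Int.emod_two_eq_zero_or_one k with h | h
  · exfalso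
    apply hY1
    have hk : k = 2 * (k / 2) := by omega
    rw [hk, zpow_mul, zpow_ofNat, hc2, one_zpow]
  · have hk : k = 2 * (k / 2) + 1 := by omega
    rw [hk, zpow_add, zpow_mul, zpow_ofNat, hc2, one_zpow, one_mul, zpow_one]

theorem red4 {G : Type*} [Group G] (t s : G) (ht4 : t ^ 4 = 1) (hs : s ∈ Subgroup.zpowers t) :
    s = 1 ∨ s = t ∨ s = t ^ 2 ∨ s = t ^ 3 := by
  obtain ⟨k, rfl⟩ := Subgroup.mem_zpowers_iff.mp hs
  have hk : k = 4 * (k / 4) + k % 4 := by omega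
  have h0 : 0 ≤ k % 4 := Int.emod_nonneg k (by norm_num)
  have h4 : k % 4 < 4 := Int.emod_lt_of_pos k (by norm_num)
  have hred : t ^ k = t ^ (k % 4) := by
    conv_lhs => rw [hk]
    rw [zpow_add, zpow_mul, zpow_ofNat, ht4, one_zpow, one_mul]
  rw [hred]
  obtain ⟨r, hr⟩ : ∃ r : ℤ, r = k % 4 := ⟨_, rfl⟩
  rw [← hr] at h0 h4 ⊢
  interval_cases r
  · left; exact zpow_zero t
  · right; left; exact zpow_one t
  · right; right; left; exact zpow_ofNat t 2
  · right; right; right; exact zpow_ofNat t 3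

theorem hn_sub {G : Type*} [Group G] (hn : ∀ H : Subgroup G, H.Normal) (K : Subgroup G)
    (H : Subgroup ↥K) : H.Normal := by
  constructor
  intro h hh g
  have h1 : (g : G) * (h : G) * (g : G)⁻¹ ∈ H.map K.subtype :=
    (hn (H.map K.subtype)).conj_mem _ (Subgroup.mem_map_of_mem K.subtype hh) g
  obtain ⟨h', hh', he⟩ := Subgroup.mem_map.mp h1
  have : h' = g * h * g⁻¹ := Subtype.ext he
  rw [← this]; exact hh'

theorem ded_pair {G : Type*} [Group G] [Finite G] (hn : ∀ H : Subgroup G, H.Normal)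
    (hna : ∃ x y : G, x * y ≠ y * x) :
    ∃ x y : G, orderOf x = 4 ∧ orderOf y = 4 ∧ y ^ 2 = x ^ 2 ∧ x * y * x⁻¹ * y⁻¹ = x ^ 2 := by
  classical
  obtain ⟨x, y, hxy, hmin, hle⟩ : ∃ x y : G, x * y ≠ y * x ∧
      (∀ x' y' : G, x' * y' ≠ y' * x' → orderOf x + orderOf y ≤ orderOf x' + orderOf y') ∧
      orderOf y ≤ orderOf x := by
    have hex : ∃ n : ℕ, ∃ x y : G, x * y ≠ y * x ∧ orderOf x + orderOf y = n := by
      obtain ⟨x, y, h⟩ := hna; exact ⟨_, x, y, h, rfl⟩
    obtain ⟨x, y, hxy, hsum⟩ := Nat.find_spec hex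
    have hmin : ∀ x' y' : G, x' * y' ≠ y' * x' →
        orderOf x + orderOf y ≤ orderOf x' + orderOf y' := by
      intro x' y' h'
      rw [hsum]
      exact Nat.find_min' hex ⟨x', y', h', rfl⟩
    rcases le_total (orderOf y) (orderOf x) with h | h
    · exact ⟨x, y, hxy, hmin, h⟩
    · refine ⟨y, x, fun h' => hxy h'.symm, ?_, h⟩
      intro x' y' h'
      rw [add_comm]; exact hmin x' y' h'
  obtain ⟨c, hc⟩ : ∃ c : G, c = x * y * x⁻¹ * y⁻¹ := ⟨_, rfl⟩
  have hc1 : c ≠ 1 := by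
    intro h; apply hxy
    rw [hc] at h
    exact commutatorElement_eq_one_iff_mul_comm.mp h
  have hcx : c ∈ Subgroup.zpowers x := by
    have h1 : y * x⁻¹ * y⁻¹ ∈ Subgroup.zpowers x :=
      (hn (Subgroup.zpowers x)).conj_mem _ (Subgroup.inv_mem _ (Subgroup.mem_zpowers x)) y
    have h2 : c = x * (y * x⁻¹ * y⁻¹) := by rw [hc]; group
    rw [h2]; exact Subgroup.mul_mem _ (Subgroup.mem_zpowers x) h1
  have hcy : c ∈ Subgroup.zpowers y := by
    have h1 : x * y * x⁻¹ ∈ Subgroup.zpowers y :=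
      (hn (Subgroup.zpowers y)).conj_mem _ (Subgroup.mem_zpowers y) x
    rw [hc]; exact Subgroup.mul_mem _ h1 (Subgroup.inv_mem _ (Subgroup.mem_zpowers y))
  have hccx : Commute c x := by
    obtain ⟨k, hk⟩ := Subgroup.mem_zpowers_iff.mp hcx
    rw [← hk]; exact (Commute.refl x).zpow_left k
  have hccy : Commute c y := by
    obtain ⟨k, hk⟩ := Subgroup.mem_zpowers_iff.mp hcy
    rw [← hk]; exact (Commute.refl y).zpow_left k
  have hF2 : ∀ n : ℕ, x ^ n * y = c ^ n * y * x ^ n := pw1 y x c hc hccx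
  have hcinv : c⁻¹ = y * x * y⁻¹ * x⁻¹ := by rw [hc]; group
  have hF2' : ∀ n : ℕ, y ^ n * x = c⁻¹ ^ n * x * y ^ n := pw1 x y c⁻¹ hcinv hccy.inv_left
  have hx1 : x ≠ 1 := by rintro rfl; exact hxy (by simp)
  have hy1 : y ≠ 1 := by rintro rfl; exact hxy (by simp)
  have hA : ∀ q : ℕ, q.Prime → q ∣ orderOf x → c ^ q = 1 := by
    intro q hq hdvd
    by_contra hne
    have hnc : x ^ q * y ≠ y * x ^ q := by
      intro h
      rw [hF2 q] at h
      apply hne
      have h' : c ^ q * (y * x ^ q) = 1 * (y * x ^ q) := by rw [one_mul, ← mul_assoc]; exact h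
      exact mul_right_cancel h'
    have h1 := hmin (x ^ q) y hnc
    have h2 : orderOf (x ^ q) < orderOf x := by
      rw [orderOf_pow_of_dvd hq.ne_zero hdvd]
      exact Nat.div_lt_self (orderOf_pos x) hq.one_lt
    omega
  have hA' : ∀ q : ℕ, q.Prime → q ∣ orderOf y → c ^ q = 1 := by
    intro q hq hdvd
    by_contra hne
    have hnc : x * y ^ q ≠ y ^ q * x := by
      intro h
      rw [hF2' q] at h
      apply hne
      have h' : 1 * (x * y ^ q) = c⁻¹ ^ q * (x * y ^ q) := by rw [one_mul, ← mul_assoc]; exact h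
      have h'' := mul_right_cancel h'
      rw [inv_pow] at h''
      exact inv_eq_one.mp h''.symm
    have h1 := hmin x (y ^ q) hnc
    have h2 : orderOf (y ^ q) < orderOf y := by
      rw [orderOf_pow_of_dvd hq.ne_zero hdvd]
      exact Nat.div_lt_self (orderOf_pos y) hq.one_lt
    omega
  obtain ⟨p, hp, hpx⟩ := Nat.exists_prime_and_dvd (n := orderOf x)
    (by rw [ne_eq, orderOf_eq_one_iff]; exact hx1)
  haveI : Fact p.Prime := ⟨hp⟩
  have hcp : orderOf c = p := orderOf_eq_prime (hA p hp hpx) hc1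
  have hux : ∀ q : ℕ, q.Prime → q ∣ orderOf x → q = p := by
    intro q hq hdvd
    have h0 := hA q hq hdvd
    have h1 : p ∣ q := by rw [← hcp]; exact orderOf_dvd_of_pow_eq_one h0
    exact ((Nat.prime_dvd_prime_iff_eq hp hq).mp h1).symm
  have huy : ∀ q : ℕ, q.Prime → q ∣ orderOf y → q = p := by
    intro q hq hdvd
    have h0 := hA' q hq hdvd
    have h1 : p ∣ q := by rw [← hcp]; exact orderOf_dvd_of_pow_eq_one h0
    exact ((Nat.prime_dvd_prime_iff_eq hp hq).mp h1).symm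
  obtain ⟨a, ha⟩ : ∃ a, orderOf x = p ^ a :=
    ⟨_, Nat.eq_prime_pow_of_unique_prime_dvd (orderOf_pos x).ne' (fun {d} hd hdv => hux d hd hdv)⟩
  obtain ⟨b, hb⟩ : ∃ b, orderOf y = p ^ b :=
    ⟨_, Nat.eq_prime_pow_of_unique_prime_dvd (orderOf_pos y).ne' (fun {d} hd hdv => huy d hd hdv)⟩
  have hb1 : 1 ≤ b := by
    by_contra h0
    have hb0 : b = 0 := by omega
    rw [hb0, pow_zero, orderOf_eq_one_iff] at hb; exact hy1 hb
  have hab : b ≤ a := by
    rw [ha, hb] at hle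
    exact (Nat.pow_le_pow_iff_right hp.one_lt).mp hle
  have how : orderOf (x ^ p ^ (a - 1)) = p := by
    rw [orderOf_pow_of_dvd (pow_ne_zero _ hp.ne_zero)
      (by rw [ha]; exact pow_dvd_pow p (by omega)), ha, Nat.pow_div (by omega) hp.pos]
    have : a - (a - 1) = 1 := by omega
    rw [this, pow_one]
  have hoY : orderOf (y ^ p ^ (b - 1)) = p := by
    rw [orderOf_pow_of_dvd (pow_ne_zero _ hp.ne_zero)
      (by rw [hb]; exact pow_dvd_pow p (by omega)), hb, Nat.pow_div (by omega) hp.pos]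
    have : b - (b - 1) = 1 := by omega
    rw [this, pow_one]
  have hYc : y ^ p ^ (b - 1) ∈ Subgroup.zpowers c :=
    cyc_unique' p y c (y ^ p ^ (b - 1)) hcy (Subgroup.pow_mem _ (Subgroup.mem_zpowers y) _) hcp hoY
  have hcw : c ∈ Subgroup.zpowers (x ^ p ^ (a - 1)) :=
    cyc_unique' p x (x ^ p ^ (a - 1)) c (Subgroup.pow_mem _ (Subgroup.mem_zpowers x) _) hcx how hcp
  have hYw : (y ^ p ^ (b - 1))⁻¹ ∈ Subgroup.zpowers (x ^ p ^ (a - 1)) := by
    apply Subgroup.inv_mem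
    exact (Subgroup.zpowers_le.mpr hcw) hYc
  obtain ⟨j, hj⟩ : ∃ j : ℕ, (x ^ p ^ (a - 1)) ^ j = (y ^ p ^ (b - 1))⁻¹ := by
    rw [← mem_powers_iff_mem_zpowers] at hYw
    exact (Submonoid.mem_powers_iff _ _).mp hYw
  have hgen : ∀ s n : ℕ, (x ^ s * y) ^ n = (c⁻¹ ^ s) ^ (n.choose 2) * (x ^ s) ^ n * y ^ n := by
    intro s n
    have hz : c⁻¹ ^ s = y * x ^ s * y⁻¹ * (x ^ s)⁻¹ := by
      have h := hF2 s
      have h2 : c ^ s * (y * x ^ s * y⁻¹ * (x ^ s)⁻¹) = 1 := by
        calc c ^ s * (y * x ^ s * y⁻¹ * (x ^ s)⁻¹)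
            = (c ^ s * y * x ^ s) * y⁻¹ * (x ^ s)⁻¹ := by group
          _ = (x ^ s * y) * y⁻¹ * (x ^ s)⁻¹ := by rw [← h]
          _ = 1 := by group
      rw [inv_pow]; exact (eq_inv_of_mul_eq_one_right h2).symm
    exact pw2 (x ^ s) y (c⁻¹ ^ s) hz (((hccx.inv_left).pow_left s).pow_right s)
      ((hccy.inv_left).pow_left s) n
  have hncs : ∀ s : ℕ, x * (x ^ s * y) ≠ (x ^ s * y) * x := by
    intro s h
    apply hxy
    have hxu : x * x ^ s = x ^ s * x := ((Commute.refl x).pow_right s).eq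
    have h' : x ^ s * (x * y) = x ^ s * (y * x) := by
      rw [← mul_assoc, ← hxu, mul_assoc, h, mul_assoc]
    exact mul_left_cancel h'
  have hcsp : ∀ s : ℕ, (c⁻¹ ^ s) ^ p = 1 := by
    intro s
    rw [← pow_mul, mul_comm, pow_mul, inv_pow, ← hcp, pow_orderOf_eq_one, inv_one, one_pow]
  have hndvd : ¬ p ∣ (p ^ (b - 1)).choose 2 := by
    intro hd
    obtain ⟨t, ht⟩ := hd
    have hun : (x ^ (j * p ^ (a - b))) ^ p ^ (b - 1) = (y ^ p ^ (b - 1))⁻¹ := by
      rw [← hj, ← pow_mul, ← pow_mul]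
      congr 1
      have h0 : p ^ (a - b) * p ^ (b - 1) = p ^ (a - 1) := by rw [← pow_add]; congr 1; omega
      rw [mul_assoc, h0, mul_comm]
    have h1 : (x ^ (j * p ^ (a - b)) * y) ^ p ^ (b - 1) = 1 := by
      rw [hgen, hun, ht, pow_mul, hcsp, one_pow, one_mul, inv_mul_cancel]
    have h2 : orderOf (x ^ (j * p ^ (a - b)) * y) ∣ p ^ (b - 1) := orderOf_dvd_of_pow_eq_one h1
    have h3 : orderOf (x ^ (j * p ^ (a - b)) * y) ≤ p ^ (b - 1) :=
      Nat.le_of_dvd (pow_pos hp.pos _) h2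
    have h4 : p ^ (b - 1) < p ^ b := Nat.pow_lt_pow_right hp.one_lt (by omega)
    have hmin₁ := hmin x (x ^ (j * p ^ (a - b)) * y) (hncs _)
    rw [hb] at hmin₁
    omega
  have hp2b : p = 2 ∧ b = 2 := by
    have hb2 : 2 ≤ b := by
      by_contra hlt
      have hb1' : b = 1 := by omega
      apply hndvd
      rw [hb1']
      norm_num
    obtain ⟨b', rfl⟩ : ∃ b', b = b' + 2 := ⟨b - 2, by omega⟩
    have hn : p ^ (b' + 2 - 1) = p * p ^ b' := by
      have : b' + 2 - 1 = b' + 1 := by omega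
      rw [this, pow_succ, mul_comm]
    rw [hn, Nat.choose_two_right] at hndvd
    have hp2 : p = 2 := by
      by_contra hpne
      apply hndvd
      have hodd : Odd p := hp.odd_of_ne_two hpne
      have hodd2 : Odd (p * p ^ b') := hodd.mul hodd.pow
      have h2 : 2 ∣ p * p ^ b' - 1 := by
        obtain ⟨k, hk⟩ := hodd2
        rw [hk]; exact ⟨k, by omega⟩
      rw [Nat.mul_div_assoc _ h2, mul_assoc]
      exact Dvd.intro _ rfl
    refine ⟨hp2, ?_⟩
    by_contra hb'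
    have hb'1 : 1 ≤ b' := by omega
    apply hndvd
    rw [hp2]
    obtain ⟨b'', rfl⟩ : ∃ b'', b' = b'' + 1 := ⟨b' - 1, by omega⟩
    have e : 2 * 2 ^ (b'' + 1) * (2 * 2 ^ (b'' + 1) - 1) / 2
        = 2 * (2 ^ b'' * (2 * 2 ^ (b'' + 1) - 1)) := by
      have e1 : 2 * 2 ^ (b'' + 1) * (2 * 2 ^ (b'' + 1) - 1)
          = 2 * (2 * (2 ^ b'' * (2 * 2 ^ (b'' + 1) - 1))) := by
        rw [pow_succ]; ring
      rw [e1, Nat.mul_div_cancel_left _ (by norm_num : 0 < 2)]
    rw [e]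
    exact Dvd.intro _ rfl
  obtain ⟨hp2, hb2⟩ := hp2b
  subst hp2
  subst hb2
  have hc2 : c ^ 2 = 1 := by rw [← hcp]; exact pow_orderOf_eq_one c
  have hoy4 : orderOf y = 4 := by rw [hb]; norm_num
  have hy2c : y ^ 2 = c := by
    have h1 : y ^ 2 ^ (2 - 1) ∈ Subgroup.zpowers c := hYc
    have h2 : y ^ 2 ^ (2 - 1) = y ^ 2 := by norm_num
    rw [h2] at h1
    apply inv2 c _ hc2 h1
    intro h
    have := orderOf_dvd_of_pow_eq_one h
    rw [hoy4] at this
    omega
  have hxc : x ^ 2 ^ (a - 1) = c := by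
    have h1 : (x ^ 2 ^ (a - 1)) ^ 2 = 1 := by
      have h0 := pow_orderOf_eq_one (x ^ 2 ^ (a - 1))
      rw [how] at h0; exact h0
    exact (inv2 _ c h1 hcw hc1).symm
  have ha2 : a = 2 := by
    by_contra hane
    have ha3 : 3 ≤ a := by omega
    have h1 : (x ^ (2 ^ (a - 2)) * y) ^ 2 = 1 := by
      rw [hgen]
      have e1 : c⁻¹ ^ 2 ^ (a - 2) = 1 := by
        have : 2 ^ (a - 2) = 2 * 2 ^ (a - 3) := by
          rw [← pow_succ']; congr 1; omega
        rw [this, pow_mul, inv_pow, hc2, inv_one, one_pow]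
      have e2 : (x ^ 2 ^ (a - 2)) ^ 2 = c := by
        rw [← pow_mul, ← hxc]
        congr 1
        rw [← pow_succ]; congr 1; omega
      rw [e1, one_pow, one_mul, e2, hy2c, ← pow_two, hc2]
    have h2 : orderOf (x ^ (2 ^ (a - 2)) * y) ≤ 2 :=
      Nat.le_of_dvd (by norm_num) (orderOf_dvd_of_pow_eq_one h1)
    have hmin₁ := hmin x (x ^ (2 ^ (a - 2)) * y) (hncs _)
    rw [hoy4] at hmin₁
    omega
  subst ha2
  have hox4 : orderOf x = 4 := by rw [ha]; norm_num
  have hx2c : x ^ 2 = c := by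
    have h2 : x ^ 2 ^ (2 - 1) = x ^ 2 := by norm_num
    rw [← h2]; exact hxc
  exact ⟨x, y, hox4, hoy4, by rw [hy2c, hx2c], by rw [← hc, hx2c]⟩

theorem conj4 {G : Type*} [Group G] (hn : ∀ H : Subgroup G, H.Normal) (t : G)
    (ht : orderOf t = 4) (g : G) : g * t * g⁻¹ = t ∨ g * t * g⁻¹ = t⁻¹ := by
  have ht4 : t ^ 4 = 1 := by rw [← ht]; exact pow_orderOf_eq_one t
  have hmem : g * t * g⁻¹ ∈ Subgroup.zpowers t :=
    (hn _).conj_mem _ (Subgroup.mem_zpowers t) g
  rcases red4 t _ ht4 hmem with h | h | h | h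
  · exfalso
    have h1 : t = 1 := conj_eq_one_iff.mp h
    rw [h1, orderOf_one] at ht; omega
  · left; exact h
  · exfalso
    have h2 : (g * t * g⁻¹) ^ 2 = 1 := by
      rw [h]; exact (pow_mul t 2 2).symm.trans ht4
    rw [conj_pow] at h2
    have h3 : t ^ 2 = 1 := conj_eq_one_iff.mp h2
    have := orderOf_dvd_of_pow_eq_one h3
    rw [ht] at this; omega
  · right
    rw [h]
    apply eq_inv_of_mul_eq_one_left
    rw [← pow_succ]; exact ht4

/-- A finite non-abelian group in which every subgroup is normal is the internal direct product of a subgroup isomorphic to the quaternion group of order `8`, an elementary abelian `2`-subgroup and an abelian subgroup of odd order. -/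
theorem result {G : Type*} [Group G] [Finite G] (hna : ¬ IsMulCommutative G) (hn : ∀ H : Subgroup G, H.Normal) : ∃ Q E A : Subgroup G, Nonempty (Q ≃* QuaternionGroup 2) ∧ Cfsg.IsElementaryAbelian 2 E ∧ IsMulCommutative A ∧ Odd (Nat.card A) ∧ E ⊓ A = ⊥ ∧ Q ⊓ (E ⊔ A) = ⊥ ∧ Q ⊔ (E ⊔ A) = ⊤ := by
  classical
  have hna' : ∃ x y : G, x * y ≠ y * x := by
    by_contra h
    push Not at h
    exact hna ⟨⟨h⟩⟩
  obtain ⟨x, y, hox, hoy, hy2, hcomm⟩ := ded_pair hn hna'
  obtain ⟨c, hc⟩ : ∃ c : G, c = x ^ 2 := ⟨_, rfl⟩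
  rw [← hc] at hy2 hcomm
  have hx4 : x ^ 4 = 1 := by rw [← hox]; exact pow_orderOf_eq_one x
  have hy4 : y ^ 4 = 1 := by rw [← hoy]; exact pow_orderOf_eq_one y
  have hc2 : c ^ 2 = 1 := by rw [hc]; exact (pow_mul x 2 2).symm.trans hx4
  have hc1 : c ≠ 1 := by
    intro h; rw [hc] at h
    have := orderOf_dvd_of_pow_eq_one h
    rw [hox] at this; omega
  have hy3 : y ^ 3 = y⁻¹ := by
    apply eq_inv_of_mul_eq_one_left
    rw [← pow_succ]; exact hy4
  have hx3 : x ^ 3 = x⁻¹ := by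
    apply eq_inv_of_mul_eq_one_left
    rw [← pow_succ]; exact hx4
  have hxyx : x * y * x⁻¹ = y⁻¹ := by
    have h1 : x * y * x⁻¹ = c * y := by rw [← hcomm]; group
    rw [h1, ← hy2, ← pow_succ]; exact hy3
  have hyxy : y * x * y⁻¹ = x⁻¹ := by
    have h1 : y * x⁻¹ * y⁻¹ = x := by
      have : x * (y * x⁻¹ * y⁻¹) = x * x := by
        rw [← pow_two, ← hc, ← hcomm]; group
      exact mul_left_cancel this
    have h2 : y * x * y⁻¹ = (y * x⁻¹ * y⁻¹)⁻¹ := by group
    rw [h2, h1]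
  obtain ⟨Q, hQ⟩ : ∃ Q : Subgroup G, Q = Subgroup.zpowers x ⊔ Subgroup.zpowers y := ⟨_, rfl⟩
  have hxQ : x ∈ Q := by
    rw [hQ]; exact (le_sup_left : Subgroup.zpowers x ≤ _) (Subgroup.mem_zpowers x)
  have hyQ : y ∈ Q := by
    rw [hQ]; exact (le_sup_right : Subgroup.zpowers y ≤ _) (Subgroup.mem_zpowers y)
  have hcQ : c ∈ Q := by rw [hc]; exact Q.pow_mem hxQ 2
  obtain ⟨C, hC⟩ : ∃ C : Subgroup G, ∀ g : G, g ∈ C ↔ (g * x = x * g ∧ g * y = y * g) := by
    refine ⟨Subgroup.centralizer ({x, y} : Set G), fun g => ?_⟩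
    rw [Subgroup.mem_centralizer_iff]
    constructor
    · intro h; exact ⟨(h x (by simp)).symm, (h y (by simp)).symm⟩
    · rintro ⟨h1, h2⟩ z hz
      simp only [Set.mem_insert_iff, Set.mem_singleton_iff] at hz
      rcases hz with rfl | rfl
      · exact h1.symm
      · exact h2.symm
  have hxy_nc : x * y ≠ y * x := by
    intro h
    have h1 : x * y * x⁻¹ = y := by rw [h]; group
    rw [hxyx] at h1
    have h2 : y ^ 2 = 1 := by
      rw [pow_two]; nth_rewrite 1 [← h1]; exact inv_mul_cancel y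
    have := orderOf_dvd_of_pow_eq_one h2
    rw [hoy] at this; omega
  -- step 2
  have hstep2 : ∀ g : G, ∃ q ∈ Q, (g * q) * x = x * (g * q) ∧ (g * q) * y = y * (g * q) := by
    intro g
    have hA : ∃ q₁ ∈ Q, (g * q₁) * x = x * (g * q₁) := by
      rcases conj4 hn x hox g with h | h
      · refine ⟨1, Subgroup.one_mem _, ?_⟩
        rw [mul_one]
        exact mul_inv_eq_iff_eq_mul.mp h
      · refine ⟨y, hyQ, ?_⟩
        have h1 : (g * y) * x * (g * y)⁻¹ = x := by
          have e1 : (g * y) * x * (g * y)⁻¹ = (g * x * g⁻¹)⁻¹ := by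
            have : (g * y) * x * (g * y)⁻¹ = g * (y * x * y⁻¹) * g⁻¹ := by group
            rw [this, hyxy]; group
          rw [e1, h, inv_inv]
        exact mul_inv_eq_iff_eq_mul.mp h1
    obtain ⟨q₁, hq₁, hc₁⟩ := hA
    rcases conj4 hn y hoy (g * q₁) with h | h
    · exact ⟨q₁, hq₁, hc₁, mul_inv_eq_iff_eq_mul.mp h⟩
    · refine ⟨q₁ * x, Q.mul_mem hq₁ hxQ, ?_, ?_⟩
      · rw [← mul_assoc, ← mul_assoc x, ← hc₁]
      · have h1 : (g * q₁ * x) * y * (g * q₁ * x)⁻¹ = y := by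
          have e1 : (g * q₁ * x) * y * (g * q₁ * x)⁻¹ = ((g * q₁) * y * (g * q₁)⁻¹)⁻¹ := by
            have : (g * q₁ * x) * y * (g * q₁ * x)⁻¹
                = (g * q₁) * (x * y * x⁻¹) * (g * q₁)⁻¹ := by group
            rw [this, hxyx]; group
          rw [e1, h, inv_inv]
        rw [← mul_assoc]; exact mul_inv_eq_iff_eq_mul.mp h1
  -- step 3
  have hstep3 : ∀ g : G, g * x = x * g → g * y = y * g → g ^ 4 = 1 → g ^ 2 = 1 := by
    intro g hgx hgy hg4
    have hcgy : Commute g y := hgy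
    have hu4 : (g * y) ^ 4 = 1 := by rw [hcgy.mul_pow, hg4, hy4, one_mul]
    have hmem : x * (g * y) * x⁻¹ ∈ Subgroup.zpowers (g * y) :=
      (hn _).conj_mem _ (Subgroup.mem_zpowers _) x
    have hconj : x * (g * y) * x⁻¹ = g * y⁻¹ := by
      have e1 : x * (g * y) * x⁻¹ = (x * g) * y * x⁻¹ := by group
      rw [e1, ← hgx]
      have e2 : g * x * y * x⁻¹ = g * (x * y * x⁻¹) := by group
      rw [e2, hxyx]
    rw [hconj] at hmem
    have hgney : g ≠ y := by rintro rfl; exact hxy_nc hgx.symm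
    have hy2ne : y ^ 2 ≠ 1 := by
      intro h
      have := orderOf_dvd_of_pow_eq_one h
      rw [hoy] at this; omega
    rcases red4 (g * y) _ hu4 hmem with h | h | h | h
    · exact absurd (mul_inv_eq_one.mp h) hgney
    · exfalso; apply hy2ne
      have h1 := mul_left_cancel h
      rw [pow_two]; nth_rewrite 1 [← h1]; exact inv_mul_cancel y
    · exfalso
      rw [hcgy.mul_pow] at h
      apply hgney
      have h1 : g * y⁻¹ = g * (g * y ^ 2) := by rw [h, pow_two, mul_assoc]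
      have h2 := mul_left_cancel h1
      have h3 : g = y⁻¹ * (y ^ 2)⁻¹ := by rw [h2, mul_assoc, mul_inv_cancel, mul_one]
      rw [h3]
      have h4 : y * (y ^ 2 * y) = 1 := by
        rw [← pow_succ, ← pow_succ']; exact hy4
      rw [← mul_inv_rev]; exact (eq_inv_of_mul_eq_one_left h4).symm
    · rw [hcgy.mul_pow, hy3] at h
      have h1 := mul_right_cancel h
      have h2 : g * 1 = g * g ^ 2 := by rw [mul_one, ← pow_succ']; exact h1
      exact (mul_left_cancel h2).symm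
  have hstep3' : ∀ k : ℕ, ∀ g : G, g * x = x * g → g * y = y * g → g ^ (2 ^ k) = 1 →
      g ^ 2 = 1 := by
    intro k
    induction k with
    | zero => intro g _ _ h; rw [pow_zero, pow_one] at h; rw [h, one_pow]
    | succ k ih =>
      intro g hgx hgy h
      rcases Nat.lt_or_ge k 2 with hk | hk
      · interval_cases k
        · rw [zero_add, pow_one] at h; exact h
        · exact hstep3 g hgx hgy h
      · apply ih g hgx hgy
        have h1 : (g ^ (2 ^ (k - 1))) ^ 4 = 1 := by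
          rw [← pow_mul]
          have e : 2 ^ (k - 1) * 4 = 2 ^ (k + 1) := by
            have e' : k + 1 = (k - 1) + 2 := by omega
            rw [e', pow_add]; norm_num
          rw [e]; exact h
        have h2 := hstep3 (g ^ (2 ^ (k - 1))) ((show Commute g x from hgx).pow_left _).eq
          ((show Commute g y from hgy).pow_left _).eq h1
        rw [← pow_mul] at h2
        have e : 2 ^ (k - 1) * 2 = 2 ^ k := by rw [← pow_succ]; congr 1; omega
        rw [e] at h2; exact h2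
  -- step 4
  have hCcomm : ∀ u v : G, u ∈ C → v ∈ C → u * v = v * u := by
    by_contra hcon
    push Not at hcon
    obtain ⟨u, v, hu, hv, huv⟩ := hcon
    obtain ⟨x', y', hox', -, -, -⟩ := ded_pair (hn_sub hn C)
      ⟨⟨u, hu⟩, ⟨v, hv⟩, fun h => huv (congrArg Subtype.val h)⟩
    have h4 : (x' : G) ^ 4 = 1 := by
      have h0 := pow_orderOf_eq_one x'
      rw [hox'] at h0
      have h0' := congrArg Subtype.val h0
      simpa using h0'
    have h2 := hstep3 (x' : G) ((hC _).mp x'.2).1 ((hC _).mp x'.2).2 h4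
    have h2' : x' ^ 2 = 1 := Subtype.ext (by simpa using h2)
    have := orderOf_dvd_of_pow_eq_one h2'
    rw [hox'] at this; omega
  have hcC : c ∈ C := by
    rw [hC]
    constructor
    · rw [hc]; exact ((Commute.refl x).pow_left 2).eq
    · rw [← hy2]; exact ((Commute.refl y).pow_left 2).eq
  -- step 5
  obtain ⟨k, M, hMo, hcard⟩ := Nat.exists_eq_two_pow_mul_odd (n := Nat.card G) Nat.card_pos.ne'
  obtain ⟨t, ht⟩ := hMo
  have hpowC : ∀ g ∈ C, (g ^ M) ^ 2 = 1 := by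
    intro g hg
    have hgM : g ^ M ∈ C := C.pow_mem hg M
    apply hstep3' k (g ^ M) ((hC _).mp hgM).1 ((hC _).mp hgM).2
    rw [← pow_mul, mul_comm, ← hcard]; exact pow_card_eq_one'
  obtain ⟨A, hA⟩ : ∃ A : Subgroup G, ∀ g : G, g ∈ A ↔ (g ∈ C ∧ g ^ M = 1) :=
    ⟨{ carrier := {g | g ∈ C ∧ g ^ M = 1}
       mul_mem' := by
         rintro a b ⟨ha, ha'⟩ ⟨hb, hb'⟩
         refine ⟨C.mul_mem ha hb, ?_⟩
         rw [(show Commute a b from hCcomm a b ha hb).mul_pow, ha', hb', one_mul]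
       one_mem' := ⟨C.one_mem, one_pow _⟩
       inv_mem' := by
         rintro a ⟨ha, ha'⟩
         exact ⟨C.inv_mem ha, by rw [inv_pow, ha', inv_one]⟩ }, fun g => Iff.rfl⟩
  obtain ⟨E₀, hE₀⟩ : ∃ E₀ : Subgroup G, ∀ g : G, g ∈ E₀ ↔ (g ∈ C ∧ g ^ 2 = 1) :=
    ⟨{ carrier := {g | g ∈ C ∧ g ^ 2 = 1}
       mul_mem' := by
         rintro a b ⟨ha, ha'⟩ ⟨hb, hb'⟩
         refine ⟨C.mul_mem ha hb, ?_⟩
         rw [(show Commute a b from hCcomm a b ha hb).mul_pow, ha', hb', one_mul]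
       one_mem' := ⟨C.one_mem, one_pow _⟩
       inv_mem' := by
         rintro a ⟨ha, ha'⟩
         exact ⟨C.inv_mem ha, by rw [inv_pow, ha', inv_one]⟩ }, fun g => Iff.rfl⟩
  have hdecomp : ∀ g ∈ C, ∃ e ∈ E₀, ∃ a ∈ A, g = e * a := by
    intro g hg
    refine ⟨g ^ M, (hE₀ _).mpr ⟨C.pow_mem hg M, hpowC g hg⟩, (g ^ (2 * t))⁻¹,
      (hA _).mpr ⟨C.inv_mem (C.pow_mem hg _), ?_⟩, ?_⟩
    · rw [inv_pow, ← pow_mul, mul_comm, pow_mul, pow_mul, hpowC g hg, one_pow, inv_one]
    · rw [ht, pow_succ', mul_inv_cancel_right]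
  have hAcomm : IsMulCommutative A :=
    ⟨⟨fun a b => Subtype.ext (hCcomm a b ((hA a).mp a.2).1 ((hA b).mp b.2).1)⟩⟩
  have hF2 : Fact (Nat.Prime 2) := ⟨Nat.prime_two⟩
  have hAodd : Odd (Nat.card A) := by
    by_contra hodd
    rw [Nat.not_odd_iff_even] at hodd
    obtain ⟨a, ha⟩ := exists_prime_orderOf_dvd_card' (G := A) 2 hodd.two_dvd
    have h1 : (a : G) ^ M = 1 := ((hA a).mp a.2).2
    have h2 : orderOf (a : G) = 2 := by rw [Subgroup.orderOf_coe]; exact ha
    have h3 : 2 ∣ M := by rw [← h2]; exact orderOf_dvd_of_pow_eq_one h1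
    omega
  obtain ⟨E, hEmax⟩ : ∃ E : Subgroup G,
      Maximal (· ∈ {E : Subgroup G | E ≤ E₀ ∧ c ∉ E}) E := by
    obtain ⟨E, -, hE⟩ := Set.Finite.exists_le_maximal
      (Set.toFinite {E : Subgroup G | E ≤ E₀ ∧ c ∉ E}) (a := ⊥)
      (And.intro bot_le (fun h => hc1 (Subgroup.mem_bot.mp h)))
    exact ⟨E, hE⟩
  obtain ⟨hE1, hE2⟩ : E ≤ E₀ ∧ c ∉ E := hEmax.prop
  have hEsplit : ∀ e₀ ∈ E₀, e₀ ∈ E ∨ e₀ * c ∈ E := by
    intro e₀ he₀
    by_cases hmem : e₀ ∈ E
    · left; exact hmem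
    · right
      have hcE' : c ∈ E ⊔ Subgroup.zpowers e₀ := by
        by_contra hcn
        have hle : E ⊔ Subgroup.zpowers e₀ ≤ E :=
          hEmax.2 (And.intro (sup_le hE1 (Subgroup.zpowers_le.mpr he₀)) hcn) le_sup_left
        exact hmem (hle ((le_sup_right : Subgroup.zpowers e₀ ≤ _) (Subgroup.mem_zpowers e₀)))
      have := hn (Subgroup.zpowers e₀)
      obtain ⟨e, he, z, hz, hez⟩ := Subgroup.mem_sup_of_normal_right.mp hcE'
      have he₀2 : e₀ ^ 2 = 1 := ((hE₀ e₀).mp he₀).2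
      by_cases hz1 : z = 1
      · exfalso; rw [hz1, mul_one] at hez; rw [hez] at he; exact hE2 he
      · have hze : z = e₀ := inv2 e₀ z he₀2 hz hz1
        have hecomm : e * e₀ = e₀ * e :=
          hCcomm e e₀ ((hE₀ e).mp (hE1 he)).1 ((hE₀ e₀).mp he₀).1
        have hfin : e₀ * c = e := by
          rw [← hez, hze, hecomm, ← mul_assoc, ← pow_two, he₀2, one_mul]
        rw [hfin]; exact he
  have hE2' : ∀ e ∈ E, e ∈ C ∧ e ^ 2 = 1 := fun e he => (hE₀ e).mp (hE1 he)
  -- Q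
  have hynx : y ∉ Subgroup.zpowers x := by
    intro h
    obtain ⟨j, hj⟩ := Subgroup.mem_zpowers_iff.mp h
    apply hxy_nc
    rw [← hj]
    exact ((Commute.refl x).zpow_right j).eq
  have hnx := hn (Subgroup.zpowers x)
  have hcardQ : Nat.card Q = 8 := by
    rw [hQ, Cfsg.Agent.Lib.Helper2.card_sup_zpowers_of_pow_mem (Subgroup.zpowers x) y 2 hynx
      (by rw [hy2, hc]; exact Subgroup.pow_mem _ (Subgroup.mem_zpowers x) 2), Nat.card_zpowers,
      hox]
  have hQCz : ∀ g ∈ Q, g ∈ C → g = 1 ∨ g = c := by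
    intro g hgQ hgC
    have := hn (Subgroup.zpowers y)
    rw [hQ] at hgQ
    obtain ⟨s, hs, u, hu, hsu⟩ := Subgroup.mem_sup_of_normal_right.mp hgQ
    obtain ⟨hgx, hgy⟩ := (hC g).mp hgC
    have hucy : u * y = y * u := by
      obtain ⟨j, rfl⟩ := Subgroup.mem_zpowers_iff.mp hu
      exact ((Commute.refl y).zpow_left j).eq
    have hsy : s * y = y * s := by
      have hs' : s = g * u⁻¹ := by rw [← hsu]; group
      rw [hs']
      have hucy' : u⁻¹ * y = y * u⁻¹ := ((show Commute u y from hucy).inv_left).eq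
      rw [mul_assoc, hucy', ← mul_assoc, hgy, mul_assoc]
    have hsc : s = 1 ∨ s = c := by
      rcases red4 x s hx4 hs with h | h | h | h
      · left; exact h
      · exfalso; rw [h] at hsy; exact hxy_nc hsy
      · right; rw [h, hc]
      · exfalso
        rw [h, hx3] at hsy
        apply hxy_nc
        have h0 := ((show Commute x⁻¹ y from hsy).inv_left).eq
        rwa [inv_inv] at h0
    have hgy' : g ∈ Subgroup.zpowers y := by
      rw [← hsu]
      refine Subgroup.mul_mem _ ?_ hu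
      rcases hsc with h | h
      · rw [h]; exact Subgroup.one_mem _
      · rw [h, ← hy2]; exact Subgroup.pow_mem _ (Subgroup.mem_zpowers y) 2
    rcases red4 y g hy4 hgy' with h | h | h | h
    · left; exact h
    · exfalso; rw [h] at hgx; exact hxy_nc hgx.symm
    · right; rw [h, hy2]
    · exfalso
      rw [h, hy3] at hgx
      apply hxy_nc
      have h0 := ((show Commute y⁻¹ x from hgx).inv_left).eq
      rw [inv_inv] at h0
      exact h0.symm
  refine ⟨Q, E, A, ?_, ⟨⟨⟨fun a b => Subtype.ext (hCcomm a b (hE2' a a.2).1 (hE2' b b.2).1)⟩⟩,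
    fun a ha => (hE2' a ha).2⟩, hAcomm, hAodd, ?_, ?_, ?_⟩
  · obtain ⟨a, ha⟩ : ∃ a : ↥Q, a = ⟨x, hxQ⟩ := ⟨_, rfl⟩
    obtain ⟨b, hb⟩ : ∃ b : ↥Q, b = ⟨y, hyQ⟩ := ⟨_, rfl⟩
    have hoa : orderOf a = 2 ^ (1 + 1) := by rw [ha, Subgroup.orderOf_mk, hox]; norm_num
    have hb2 : b ^ 2 = a ^ (2 ^ 1) := by
      rw [ha, hb]; apply Subtype.ext
      simp only [Subgroup.coe_pow, pow_one]
      rw [hy2, hc]
    have hba : b * a * b⁻¹ = a⁻¹ := by rw [ha, hb]; exact Subtype.ext hyxy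
    have hbn : b ∉ Subgroup.zpowers a := by
      intro h
      obtain ⟨j, hj⟩ := Subgroup.mem_zpowers_iff.mp h
      apply hynx
      rw [Subgroup.mem_zpowers_iff]
      refine ⟨j, ?_⟩
      have h0 := congrArg Subtype.val hj
      rw [ha, hb] at h0
      simpa using h0
    have hidx : (Subgroup.zpowers a).index = 2 := by
      have h1 := Subgroup.card_mul_index (Subgroup.zpowers a)
      rw [Nat.card_zpowers, hoa, hcardQ] at h1
      norm_num at h1
      omega
    exact Cfsg.Agent.Lib.Lead.quaternion_equiv_of_relations 1 a b hoa hb2 hba hbn hidx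
  · rw [eq_bot_iff]
    intro g hg
    rw [Subgroup.mem_inf] at hg
    rw [Subgroup.mem_bot]
    have h1 := (hE2' g hg.1).2
    have h2 := ((hA g).mp hg.2).2
    rw [ht, pow_succ, pow_mul, h1, one_pow, one_mul] at h2
    exact h2
  · rw [eq_bot_iff]
    intro g hg
    rw [Subgroup.mem_inf] at hg
    obtain ⟨hgQ, hgEA⟩ := hg
    rw [Subgroup.mem_bot]
    have := hn A
    obtain ⟨e, he, a, ha, hea⟩ := Subgroup.mem_sup_of_normal_right.mp hgEA
    have heC := (hE2' e he).1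
    have he2 := (hE2' e he).2
    have haC := ((hA a).mp ha).1
    have haM := ((hA a).mp ha).2
    have hg8 : g ^ 8 = 1 := by
      have h0 := pow_card_eq_one' (G := Q) (x := ⟨g, hgQ⟩)
      rw [hcardQ] at h0
      simpa using congrArg Subtype.val h0
    have hgC : g ∈ C := by rw [← hea]; exact C.mul_mem heC haC
    have ha8 : a ^ 8 = 1 := by
      have hag : a = e⁻¹ * g := by rw [← hea]; group
      have hcm : Commute e⁻¹ g := (show Commute e g from hCcomm e g heC hgC).inv_left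
      rw [hag, hcm.mul_pow, hg8, mul_one, inv_pow]
      have e8 : e ^ 8 = 1 := by
        have e8' : e ^ 8 = (e ^ 2) ^ 4 := (pow_mul e 2 4)
        rw [e8', he2, one_pow]
      rw [e8, inv_one]
    have ha1 : a = 1 := by
      have h8 : orderOf a ∣ 2 ^ 3 := orderOf_dvd_of_pow_eq_one ha8
      have hM : orderOf a ∣ M := orderOf_dvd_of_pow_eq_one haM
      have hodd : Odd M := ⟨t, ht⟩
      have hcop : Nat.Coprime (2 ^ 3) M := Nat.Coprime.pow_left 3 hodd.coprime_two_left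
      exact orderOf_eq_one_iff.mp (Nat.eq_one_of_dvd_coprimes hcop h8 hM)
    rw [ha1, mul_one] at hea
    rw [hea] at he
    rcases hQCz g hgQ hgC with h | h
    · exact h
    · exfalso; rw [h] at he; exact hE2 he
  · rw [eq_top_iff]
    intro g _
    obtain ⟨q, hq, hgx, hgy⟩ := hstep2 g
    have hgqC : g * q ∈ C := (hC _).mpr ⟨hgx, hgy⟩
    obtain ⟨e₀, he₀, a, ha, hea⟩ := hdecomp (g * q) hgqC
    have haS : a ∈ Q ⊔ (E ⊔ A) := (le_sup_right : E ⊔ A ≤ _) ((le_sup_right : A ≤ E ⊔ A) ha)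
    have hEle : E ≤ Q ⊔ (E ⊔ A) := le_sup_left.trans le_sup_right
    have hQle : Q ≤ Q ⊔ (E ⊔ A) := le_sup_left
    have he₀S : e₀ ∈ Q ⊔ (E ⊔ A) := by
      rcases hEsplit e₀ he₀ with h | h
      · exact hEle h
      · have e1 : e₀ = e₀ * c * c := by rw [mul_assoc, ← pow_two, hc2, mul_one]
        rw [e1]; exact Subgroup.mul_mem _ (hEle h) (hQle hcQ)
    have e2 : g = e₀ * a * q⁻¹ := by rw [← hea]; group
    rw [e2]
    exact Subgroup.mul_mem _ (Subgroup.mul_mem _ he₀S haS) (Subgroup.inv_mem _ (hQle hq))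

end Cfsg.Agent.S4211
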