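import Cfsg.Statements.S4250
import Cfsg.Agent.Lib.Helper14.AlperinP

set_option autoImplicit false
open Cfsg

namespace Cfsg.Agent.S4250

open Cfsg.Agent.Lib.Helper14
open scoped commutatorElement

/-- Along a chain of tame steps, `a⁻¹ a^g` is a product of the local commutators. -/
theorem chain_focal {G : Type*} [Group G] [Finite G] (p : ℕ) [Fact p.Prime] (P : Sylow p G)
    (R : Subgroup G)
    (h1 : ⁅(P : Subgroup G), Subgroup.normalizer ((P : Subgroup G) : Set G)⁆ ≤ R)
    (h2 : ∀ Q : Sylow p G, (¬ p ∣ ((P : Subgroup G) ⊓ Subgroup.normalizer (((P : Subgroup G) ⊓ (Q : Subgroup G) : Subgroup G) : Set G)).relIndex (Subgroup.normalizer (((P : Subgroup G) ⊓ (Q : Subgroup G) : Subgroup G) : Set G)) ∧ ¬ p ∣ ((Q : Subgroup G) ⊓ Subgroup.normalizer (((P : Subgroup G) ⊓ (Q : Subgroup G) : Subgroup G) : Set G)).relIndex (Subgroup.normalizer (((P : Subgroup G) ⊓ (Q : Subgroup G) : Subgroup G) : Set G))) →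
      ∀ x : G, x ∈ Subgroup.normalizer (((P : Subgroup G) ⊓ (Q : Subgroup G) : Subgroup G) : Set G) →
        (∃ k : ℕ, orderOf x = p ^ k) →
        ⁅(P : Subgroup G) ⊓ (Q : Subgroup G), Subgroup.zpowers x⁆ ≤ R)
    (A : Set G) (g : G) (hch : RChain (TameStep P) A g) :
    ∀ a ∈ A, a⁻¹ * (g⁻¹ * a * g) ∈ R := by
  induction hch with
  | nil A =>
    intro a _
    have : a⁻¹ * ((1 : G)⁻¹ * a * 1) = 1 := by group
    rw [this]
    exact one_mem _
  | cons A T x g hR hAT _ ih =>
    intro a ha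
    obtain ⟨Q, hT, hxN, ht1, ht2, hor⟩ := hR
    have e : a⁻¹ * ((x * g)⁻¹ * a * (x * g)) =
        (a⁻¹ * (x⁻¹ * a * x)) * ((x⁻¹ * a * x)⁻¹ * (g⁻¹ * (x⁻¹ * a * x) * g)) := by group
    rw [e]
    refine mul_mem ?_ (ih (x⁻¹ * a * x) (mem_conjR_of_mem ha))
    have e2 : a⁻¹ * (x⁻¹ * a * x) = ⁅a⁻¹, x⁻¹⁆ := by
      rw [commutatorElement_def]
      group
    rw [e2]
    have haT : a ∈ T := hAT ha
    subst hT
    rcases hor with hQP | ⟨k, hk⟩
    · apply h1
      rw [hQP, inf_idem] at haT hxN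
      exact Subgroup.commutator_mem_commutator (inv_mem haT) (inv_mem hxN)
    · apply h2 Q ⟨ht1, ht2⟩ x hxN ⟨k, hk⟩
      exact Subgroup.commutator_mem_commutator (inv_mem haT)
        (inv_mem (Subgroup.mem_zpowers x))

/-- Let P be a Sylow p-subgroup of a finite group G. Call an intersection H = P ∩ Q with a Sylow p-subgroup Q tame when N_P(H) and N_Q(H) are Sylow p-subgroups of N_G(H). Then P ∩ G′ is generated by [P, N_G(P)] together with the commutator subgroups [P ∩ Q, ⟨x⟩] for all tame intersections P ∩ Q and all p-elements x of N_G(P ∩ Q). -/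
theorem result {G : Type*} [Group G] [Finite G] (p : ℕ) [Fact p.Prime] (P : Sylow p G) :
    (P : Subgroup G) ⊓ commutator G =
      ⁅(P : Subgroup G), Subgroup.normalizer ((P : Subgroup G) : Set G)⁆ ⊔
        ⨆ (Q : Sylow p G) (_ : (¬ p ∣ ((P : Subgroup G) ⊓ Subgroup.normalizer (((P : Subgroup G) ⊓ (Q : Subgroup G) : Subgroup G) : Set G)).relIndex (Subgroup.normalizer (((P : Subgroup G) ⊓ (Q : Subgroup G) : Subgroup G) : Set G)) ∧ ¬ p ∣ ((Q : Subgroup G) ⊓ Subgroup.normalizer (((P : Subgroup G) ⊓ (Q : Subgroup G) : Subgroup G) : Set G)).relIndex (Subgroup.normalizer (((P : Subgroup G) ⊓ (Q : Subgroup G) : Subgroup G) : Set G))))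
          (x : G) (_ : x ∈ Subgroup.normalizer (((P : Subgroup G) ⊓ (Q : Subgroup G) : Subgroup G) : Set G) ∧ ∃ k : ℕ, orderOf x = p ^ k),
          ⁅(P : Subgroup G) ⊓ (Q : Subgroup G), Subgroup.zpowers x⁆ := by
  apply le_antisymm
  · rw [inf_comm, Subgroup.commutator_inf_eq_focalSubgroup, Subgroup.focalSubgroup_def,
      Subgroup.closure_le]
    rintro g ⟨hgP, x, hxP, u, rfl⟩
    have hux : u * x * u⁻¹ ∈ (P : Subgroup G) := by
      have h1 : x⁻¹ * ⁅x, u⁆ ∈ (P : Subgroup G) := mul_mem (inv_mem hxP) hgP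
      have h2 : u * x * u⁻¹ = (x⁻¹ * ⁅x, u⁆)⁻¹ := by
        rw [commutatorElement_def]
        group
      rw [h2]
      exact inv_mem h1
    have hmap : (Subgroup.zpowers x).map (MulAut.conj (u⁻¹)⁻¹).toMonoidHom ≤ (P : Subgroup G) := by
      rw [Subgroup.map_le_iff_le_comap, Subgroup.zpowers_le]
      show (MulAut.conj (u⁻¹)⁻¹) x ∈ (P : Subgroup G)
      rw [MulAut.conj_apply, inv_inv]
      exact hux
    have hch := rchain_tame P _ (Subgroup.zpowers x) u⁻¹ rfl
      ((Subgroup.zpowers_le).mpr hxP) hmap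
    have e : ⁅x, u⁆ = (x⁻¹)⁻¹ * ((u⁻¹)⁻¹ * x⁻¹ * u⁻¹) := by
      rw [commutatorElement_def]
      group
    rw [SetLike.mem_coe, e]
    refine chain_focal p P _ le_sup_left ?_ _ _ hch x⁻¹ (inv_mem (Subgroup.mem_zpowers x))
    · intro Q htame y hy hk
      exact le_sup_of_le_right
        (le_iSup_of_le Q (le_iSup_of_le htame (le_iSup_of_le y (le_iSup_of_le ⟨hy, hk⟩ le_rfl))))
  · apply sup_le
    · apply le_inf
      · rw [Subgroup.commutator_le]
        intro a ha n hn
        rw [commutatorElement_def]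
        have h1 : n * a⁻¹ * n⁻¹ ∈ (P : Subgroup G) :=
          (Subgroup.mem_normalizer_iff.mp hn a⁻¹).mp (inv_mem ha)
        have e : a * n * a⁻¹ * n⁻¹ = a * (n * a⁻¹ * n⁻¹) := by group
        rw [e]
        exact mul_mem ha h1
      · rw [commutator_def]
        exact Subgroup.commutator_mono le_top le_top
    · apply iSup_le
      intro Q
      apply iSup_le
      intro _
      apply iSup_le
      intro x
      apply iSup_le
      rintro ⟨hx, -⟩
      apply le_inf
      · refine le_trans ?_ (inf_le_left : (P : Subgroup G) ⊓ (Q : Subgroup G) ≤ (P : Subgroup G))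
        rw [Subgroup.commutator_le]
        intro a ha n hn
        have hnN : n ∈ Subgroup.normalizer
            (((P : Subgroup G) ⊓ (Q : Subgroup G) : Subgroup G) : Set G) :=
          (Subgroup.zpowers_le.mpr hx) hn
        rw [commutatorElement_def]
        have h1 : n * a⁻¹ * n⁻¹ ∈ (P : Subgroup G) ⊓ (Q : Subgroup G) :=
          (Subgroup.mem_normalizer_iff.mp hnN a⁻¹).mp (inv_mem ha)
        have e : a * n * a⁻¹ * n⁻¹ = a * (n * a⁻¹ * n⁻¹) := by group
        rw [e]
        exact mul_mem ha h1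
      · rw [commutator_def]
        exact Subgroup.commutator_mono le_top le_top

end Cfsg.Agent.S4250
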