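import Cfsg.Statements.S4216
import Cfsg.Agent.S4250
import Cfsg.Agent.Lib.Helper14.SylowAux

set_option autoImplicit false
open Cfsg

namespace Cfsg.Agent.S4216

open Cfsg.Agent.Lib.Helper14
open scoped commutatorElement

/-- Grün's first Theorem: if `P` is a Sylow `p`-subgroup of the finite group `G`, then `P ∩ G'` is the subgroup generated by `P ∩ N_G(P)'` together with the subgroups `P ∩ z P' z⁻¹` for all `z ∈ G`, where `'` denotes the derived subgroup and `N_G(P)` the normalizer of `P`. -/
theorem result {G : Type*} [Group G] [Finite G] {p : ℕ} [Fact p.Prime] (P : Sylow p G) : (P : Subgroup G) ⊓ commutator G = ((P : Subgroup G) ⊓ ⁅Subgroup.normalizer ((P : Subgroup G) : Set G), Subgroup.normalizer ((P : Subgroup G) : Set G)⁆) ⊔ ⨆ z : G, (P : Subgroup G) ⊓ (⁅(P : Subgroup G), (P : Subgroup G)⁆).map (MulAut.conj z).toMonoidHom := by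
  have hSp : IsPGroup p (P : Subgroup G) := P.isPGroup'
  apply le_antisymm
  · rw [Cfsg.Agent.S4250.result p P]
    apply sup_le
    · refine le_sup_of_le_left (le_inf ?_ ?_)
      · rw [Subgroup.commutator_le]
        intro a ha n hn
        rw [commutatorElement_def]
        have h1 : n * a⁻¹ * n⁻¹ ∈ (P : Subgroup G) :=
          (Subgroup.mem_normalizer_iff.mp hn a⁻¹).mp (inv_mem ha)
        have e : a * n * a⁻¹ * n⁻¹ = a * (n * a⁻¹ * n⁻¹) := by group
        rw [e]
        exact mul_mem ha h1
      · exact Subgroup.commutator_mono Subgroup.le_normalizer le_rfl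
    · apply iSup_le
      intro Q
      apply iSup_le
      rintro ⟨ht1, -⟩
      apply iSup_le
      intro x
      apply iSup_le
      rintro ⟨hx, k, hk⟩
      have hxp : IsPGroup p (Subgroup.zpowers x) := by
        rw [IsPGroup.iff_card, Nat.card_zpowers]
        exact ⟨k, hk⟩
      have hxN : Subgroup.zpowers x ≤
          Subgroup.normalizer (((P : Subgroup G) ⊓ (Q : Subgroup G) : Subgroup G) : Set G) :=
        Subgroup.zpowers_le.mpr hx
      obtain ⟨h, hhN, hh⟩ := exists_conj_mem_of_relIndex (hSp.to_le inf_le_left) ht1 hxp hxN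
      refine le_sup_of_le_right (le_iSup_of_le h⁻¹ ?_)
      rw [Subgroup.commutator_le]
      intro a ha b hb
      refine Subgroup.mem_inf.mpr ⟨?_, ?_⟩
      · have hbN := hxN hb
        rw [commutatorElement_def]
        have h1 : b * a⁻¹ * b⁻¹ ∈ (P : Subgroup G) ⊓ (Q : Subgroup G) :=
          (Subgroup.mem_normalizer_iff.mp hbN a⁻¹).mp (inv_mem ha)
        have e : a * b * a⁻¹ * b⁻¹ = a * (b * a⁻¹ * b⁻¹) := by group
        rw [e]
        exact mul_mem (Subgroup.mem_inf.mp ha).1 (Subgroup.mem_inf.mp h1).1
      · have h1 : h * a * h⁻¹ ∈ (P : Subgroup G) :=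
          (Subgroup.mem_inf.mp ((Subgroup.mem_normalizer_iff.mp hhN a).mp ha)).1
        have h2 : h * b * h⁻¹ ∈ (P : Subgroup G) := (Subgroup.mem_inf.mp (hh b hb)).1
        refine ⟨⁅h * a * h⁻¹, h * b * h⁻¹⁆, Subgroup.commutator_mem_commutator h1 h2, ?_⟩
        show (MulAut.conj h⁻¹) ⁅h * a * h⁻¹, h * b * h⁻¹⁆ = ⁅a, b⁆
        rw [MulAut.conj_apply, commutatorElement_def, commutatorElement_def]
        group
  · apply sup_le
    · refine le_inf inf_le_left (inf_le_right.trans ?_)
      rw [commutator_def]
      exact Subgroup.commutator_mono le_top le_top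
    · apply iSup_le
      intro z
      refine le_inf inf_le_left (inf_le_right.trans ?_)
      rintro _ ⟨c, hc, rfl⟩
      have hc' : c ∈ commutator G := by
        rw [commutator_def]
        exact Subgroup.commutator_mono le_top le_top hc
      have hn : (commutator G).Normal := inferInstance
      exact hn.conj_mem c hc' z

end Cfsg.Agent.S4216
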