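import Cfsg.Statements.S4230
import Mathlib

set_option autoImplicit false
open Cfsg

namespace Cfsg.Agent.S4230

/-- Let p be an odd prime, q a natural number not divisible by p, and e the multiplicative order of q modulo p. For a natural number f, p divides the value at q of the f-th cyclotomic polynomial if and only if f = e·p^j for some j ≥ 0. -/
theorem result (p q f : ℕ) (hp : p.Prime) (hp2 : p ≠ 2) (hpq : ¬ p ∣ q) :
    ((p : ℤ) ∣ (Polynomial.cyclotomic f ℤ).eval (q : ℤ)) ↔ ∃ j : ℕ, f = orderOf (q : ZMod p) * p ^ j := by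
  have : Fact p.Prime := ⟨hp⟩
  have hq0 : (q : ZMod p) ≠ 0 := by
    rw [Ne, ZMod.natCast_eq_zero_iff]; exact hpq
  have key : ∀ g : ℕ, ((p : ℤ) ∣ (Polynomial.cyclotomic g ℤ).eval (q : ℤ)) ↔
      (Polynomial.cyclotomic g (ZMod p)).IsRoot (q : ZMod p) := by
    intro g
    rw [← ZMod.intCast_zmod_eq_zero_iff_dvd, Polynomial.IsRoot.def,
      ← Polynomial.map_cyclotomic g (Int.castRingHom (ZMod p)), Polynomial.eval_map]
    have : ((q : ℕ) : ZMod p) = Int.castRingHom (ZMod p) (q : ℤ) := by simp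
    rw [this, Polynomial.eval₂_at_apply]
    simp
  have hroot : ∀ m : ℕ, ¬ p ∣ m →
      ((Polynomial.cyclotomic m (ZMod p)).IsRoot (q : ZMod p) ↔ m = orderOf (q : ZMod p)) := by
    intro m hm
    have : NeZero ((m : ℕ) : ZMod p) := ⟨by rwa [Ne, ZMod.natCast_eq_zero_iff]⟩
    rw [Polynomial.isRoot_cyclotomic_iff]
    constructor
    · intro h; exact h.eq_orderOf
    · intro h; rw [h]; exact IsPrimitiveRoot.orderOf _
  have hpow : ∀ (m j : ℕ), ¬ p ∣ m →
      ((Polynomial.cyclotomic (m * p ^ j) (ZMod p)).IsRoot (q : ZMod p) ↔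
        (Polynomial.cyclotomic m (ZMod p)).IsRoot (q : ZMod p)) := by
    intro m j hm
    rcases Nat.eq_zero_or_pos j with rfl | hj
    · simp
    · rw [mul_comm, Polynomial.cyclotomic_mul_prime_pow_eq (ZMod p) hm hj]
      rw [Polynomial.IsRoot.def, Polynomial.IsRoot.def, Polynomial.eval_pow, pow_eq_zero_iff]
      have h1 : p ^ (j - 1) < p ^ j := Nat.pow_lt_pow_right hp.one_lt (by omega)
      omega
  have he : ¬ p ∣ orderOf (q : ZMod p) := by
    intro h
    have h1 : orderOf (q : ZMod p) ∣ p - 1 := ZMod.orderOf_dvd_card_sub_one hq0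
    have h2 := hp.two_le
    have := Nat.le_of_dvd (by omega) (h.trans h1)
    omega
  rw [key]
  constructor
  · intro h
    have hf0 : f ≠ 0 := by
      rintro rfl
      simp [Polynomial.cyclotomic_zero] at h
    obtain ⟨j, m, hm, rfl⟩ := Nat.exists_eq_pow_mul_and_not_dvd hf0 p hp.ne_one
    rw [mul_comm, hpow m j hm, hroot m hm] at h
    exact ⟨j, by rw [h, mul_comm]⟩
  · rintro ⟨j, rfl⟩
    rw [hpow _ j he, hroot _ he]

end Cfsg.Agent.S4230
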