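import Cfsg.Statements.S4236
-- import your own Cfsg.Agent.* helpers here
import Mathlib
import Cfsg.Agent.Lib.Lead.SylowTwoP

set_option autoImplicit false
open Cfsg

namespace Cfsg.Agent.S4236

open Cfsg.Agent.Lib.Lead.SylowTwoP

universe u

local instance fact17 : Fact (Nat.Prime 17) := ⟨by norm_num⟩

theorem main_aux : ∀ (n : ℕ) (G : Type u) [Group G] [Finite G], Nat.card G = n →
    Nat.card (Sylow 17 G) ≠ 35 := by
  intro n
  induction n using Nat.strong_induction_on with
  | _ n ih =>
    intro G _ _ hn h35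
    obtain ⟨hF1, hF⟩ := minimal_facts (p := 17) 35 n ih hn h35
    obtain ⟨e, he, hG, z, hz⟩ := structure_thm (p := 17) (by norm_num) h35 hF hF1
    have he16 : e ∣ 2 ^ 4 := he
    obtain ⟨k, hk, rfl⟩ := (Nat.dvd_prime_pow Nat.prime_two).mp he16
    have h2 : Fact (Nat.Prime 2) := ⟨Nat.prime_two⟩
    have h5 : Fact (Nat.Prime 5) := ⟨by norm_num⟩
    rcases Nat.eq_zero_or_pos k with rfl | hkpos
    · obtain ⟨Q⟩ : Nonempty (Sylow 5 G) := inferInstance
      exact transfer_contra hF1 5 (by norm_num) Q
        (sylow_card_of 5 Q 119 (by rw [hG]; norm_num) (by norm_num)) (by rw [hG]; decide)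
    · have hfac : (Nat.card G).factorization 2 = k := by
        rw [hG]
        have h1 : 17 * (2 ^ k * (2 * 17 + 1)) = 2 ^ k * 595 := by ring
        rw [h1, Nat.factorization_mul (by positivity) (by norm_num),
          Nat.Prime.factorization_pow Nat.prime_two]
        simp [Nat.factorization_eq_zero_of_not_dvd (by norm_num : ¬ 2 ∣ 595)]
      have hmin : (Nat.card G).minFac = 2 := by
        rw [Nat.minFac_eq_two_iff, hG]
        exact Dvd.dvd.mul_left (Dvd.dvd.mul_right (dvd_pow_self 2 hkpos.ne') _) _
      have hNC := IsCyclic.normalizer_le_centralizer hmin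
        (P := Sylow.ofCard (Subgroup.zpowers z) (by rw [Nat.card_zpowers, hz, hfac]))
        (by show IsCyclic ↥(Subgroup.zpowers z); infer_instance)
      refine sylow_contra hF1 2 (by norm_num) _ ?_ hNC
      show Nat.card ↥(Subgroup.zpowers z) ≠ 1
      rw [Nat.card_zpowers, hz]
      exact (Nat.one_lt_two_pow hkpos.ne').ne'


/-- No finite group has exactly 35 Sylow 17-subgroups. -/
theorem result {G : Type*} [Group G] [Finite G] : Nat.card (Sylow 17 G) ≠ 35 := by
  exact main_aux _ G rfl

end Cfsg.Agent.S4236
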