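import Cfsg.Statements.S4244
-- import your own Cfsg.Agent.* helpers here

set_option autoImplicit false
open Cfsg

namespace Cfsg.Agent.S4244

theorem key {G : Type*} [Group G] [Finite G] (H K : Subgroup G) [H.Normal] :
    (H ⊓ K).relIndex H ∣ K.index := by
  have h1 := Subgroup.relIndex_mul_relIndex ⊥ (H ⊓ K) H bot_le inf_le_left
  have h2 := Subgroup.relIndex_mul_relIndex ⊥ (H ⊓ K) K bot_le inf_le_right
  have h3 := Subgroup.relIndex_mul_relIndex ⊥ H (H ⊔ K) bot_le le_sup_left
  have h4 := Subgroup.relIndex_mul_relIndex ⊥ K (H ⊔ K) bot_le le_sup_right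
  have h5 : H.relIndex (H ⊔ K) = (H ⊓ K).relIndex K := by
    rw [Subgroup.relIndex_sup_left, Subgroup.inf_relIndex_right]
  have h6 : (H ⊓ K).relIndex H = K.relIndex (H ⊔ K) := by
    have hne : (⊥ : Subgroup G).relIndex (H ⊓ K) * (H ⊓ K).relIndex K ≠ 0 := by
      rw [h2, Subgroup.relIndex_bot_left]
      exact Nat.card_pos.ne'
    apply Nat.eq_of_mul_eq_mul_left (Nat.pos_of_ne_zero hne)
    calc (⊥ : Subgroup G).relIndex (H ⊓ K) * (H ⊓ K).relIndex K * (H ⊓ K).relIndex H
        = ((⊥ : Subgroup G).relIndex (H ⊓ K) * (H ⊓ K).relIndex H) * (H ⊓ K).relIndex K := by ring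
      _ = (⊥ : Subgroup G).relIndex (H ⊔ K) := by rw [h1, ← h5, h3]
      _ = (⊥ : Subgroup G).relIndex (H ⊓ K) * (H ⊓ K).relIndex K * K.relIndex (H ⊔ K) := by
          rw [h2, h4]
  rw [h6]
  exact Subgroup.relIndex_dvd_index_of_le le_sup_right

theorem key_rel {G : Type*} [Group G] [Finite G] (H N K : Subgroup G) (hHN : H ≤ N)
    (hn : (H.subgroupOf N).Normal) :
    (H ⊓ K).relIndex H ∣ (N ⊓ K).relIndex N := by
  have h := key (H.subgroupOf N) (K.subgroupOf N)
  have e1 : H.subgroupOf N ⊓ K.subgroupOf N = (H ⊓ K).subgroupOf N := by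
    ext x; simp [Subgroup.mem_subgroupOf]
  rw [e1, Subgroup.relIndex_subgroupOf hHN] at h
  have e2 : (K.subgroupOf N).index = (N ⊓ K).relIndex N := by
    rw [Subgroup.inf_relIndex_left]; rfl
  rw [e2] at h
  exact h

/-- Let H be a subnormal subgroup of a finite group G. Then for every subgroup K of G the index of H ∩ K in H divides the index of K in G. -/
theorem result {G : Type*} [Group G] [Finite G] (H : Subgroup G) (hH : H.IsSubnormal) (K : Subgroup G) :
    (H ⊓ K).relIndex H ∣ K.index := by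
  induction hH with
  | top => simp
  | step H N hHN hN hn ih =>
    exact dvd_trans (key_rel H N K hHN hn) ih

end Cfsg.Agent.S4244
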