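import Cfsg.Statements.S4260

set_option autoImplicit false
open Cfsg

namespace Cfsg.Agent.S4260

/-- Let H be a Hall subgroup of a finite group G (the order of H is coprime to its index) such that x^[G : H] lies in H for every x in G. Then H is normal in G. -/
theorem result {G : Type*} [Group G] [Finite G] (H : Subgroup G) (hHall : (Nat.card H).Coprime H.index)
    (hexp : ∀ x : G, x ^ H.index ∈ H) : H.Normal := by
  constructor
  intro n hn g
  set y := g * n * g⁻¹ with hy
  have hord : orderOf y ∣ Nat.card H := by
    have h1 : orderOf y = orderOf n := by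
      have hs : SemiconjBy g n y := by
        unfold SemiconjBy; rw [hy]; group
      exact (hs.orderOf_eq).symm
    rw [h1]
    have : orderOf (⟨n, hn⟩ : H) = orderOf n := Subgroup.orderOf_mk n hn
    rw [← this]
    exact orderOf_dvd_natCard _
  have hcop : Nat.Coprime H.index (orderOf y) :=
    (Nat.Coprime.coprime_dvd_left hord hHall).symm
  obtain ⟨m, hm⟩ := exists_pow_eq_self_of_coprime hcop
  rw [← hm]
  exact H.pow_mem (hexp y) m

end Cfsg.Agent.S4260
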