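import Cfsg.Statements.S4261
-- import your own Cfsg.Agent.* helpers here

set_option autoImplicit false
open Cfsg

namespace Cfsg.Agent.S4261

theorem index_eq_card_of_compl {G : Type*} [Group G] [Finite G] (H K : Subgroup G) [H.Normal]
    (hsup : H ⊔ K = ⊤) (hinf : H ⊓ K = ⊥) : K.index = Nat.card H := by
  have h1 := Subgroup.relIndex_mul_relIndex ⊥ (H ⊓ K) H bot_le inf_le_left
  have h2 := Subgroup.relIndex_mul_relIndex ⊥ (H ⊓ K) K bot_le inf_le_right
  have h3 := Subgroup.relIndex_mul_relIndex ⊥ H (H ⊔ K) bot_le le_sup_left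
  have h4 := Subgroup.relIndex_mul_relIndex ⊥ K (H ⊔ K) bot_le le_sup_right
  have h5 : H.relIndex (H ⊔ K) = (H ⊓ K).relIndex K := by
    rw [Subgroup.relIndex_sup_left, Subgroup.inf_relIndex_right]
  have h6 : (H ⊓ K).relIndex H = K.relIndex (H ⊔ K) := by
    have hne : (⊥ : Subgroup G).relIndex (H ⊓ K) * (H ⊓ K).relIndex K ≠ 0 := by
      rw [h2, Subgroup.relIndex_bot_left]
      exact Nat.card_pos.ne'
    apply Nat.eq_of_mul_eq_mul_left (Nat.pos_of_ne_zero hne)
    calc (⊥ : Subgroup G).relIndex (H ⊓ K) * (H ⊓ K).relIndex K * (H ⊓ K).relIndex H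
        = ((⊥ : Subgroup G).relIndex (H ⊓ K) * (H ⊓ K).relIndex H) * (H ⊓ K).relIndex K := by ring
      _ = (⊥ : Subgroup G).relIndex (H ⊔ K) := by rw [h1, ← h5, h3]
      _ = (⊥ : Subgroup G).relIndex (H ⊓ K) * (H ⊓ K).relIndex K * K.relIndex (H ⊔ K) := by
          rw [h2, h4]
  rw [hinf, hsup, Subgroup.relIndex_bot_left, Subgroup.relIndex_top_right] at h6
  exact h6.symm

theorem le_normalizer_of_conj {G : Type*} [Group G] (K N : Subgroup G)
    (h : ∀ k ∈ K, ∀ n ∈ N, k * n * k⁻¹ ∈ N) : K ≤ Subgroup.normalizer (N : Set G) := by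
  intro k hk
  rw [Subgroup.mem_normalizer_iff]
  intro x
  constructor
  · exact h k hk x
  · intro hx
    have := h k⁻¹ (K.inv_mem hk) _ hx
    simpa [mul_assoc] using this

theorem normal_of_sup_top {G : Type*} [Group G] (N A M : Subgroup G) (hsup : A ⊔ M = ⊤)
    (hA : A ≤ Subgroup.normalizer (N : Set G)) (hM : M ≤ Subgroup.normalizer (N : Set G)) :
    N.Normal := by
  rw [← Subgroup.normalizer_eq_top_iff]
  exact top_le_iff.mp (hsup ▸ sup_le hA hM)

theorem corefree_case {G : Type*} [Group G] [Finite G] (M : Subgroup G) (hM : IsCoatom M)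
    (hexp : ∀ x : G, x ^ M.index ∈ M) (hcore : M.normalCore = ⊥) (A : Subgroup G) [hAn : A.Normal]
    (hAne : A ≠ ⊥) (hAcomm : ∀ a ∈ A, ∀ b ∈ A, a * b = b * a) : M.Normal := by
  classical
  have hfree : ∀ N : Subgroup G, N.Normal → N ≤ M → N = ⊥ := by
    intro N hN hle
    have := Subgroup.normal_le_normalCore.mpr hle
    rw [hcore] at this
    exact le_bot_iff.mp this
  have hsupN : ∀ N : Subgroup G, N.Normal → N ≠ ⊥ → N ⊔ M = ⊤ := by
    intro N hN hne
    apply hM.2
    refine lt_of_le_of_ne le_sup_right (fun h => hne (hfree N hN ?_))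
    exact sup_eq_right.mp h.symm
  have hAM := hsupN A hAn hAne
  have hD : A ⊓ M = ⊥ := by
    apply hfree _ _ inf_le_right
    apply normal_of_sup_top _ A M hAM
    · apply le_normalizer_of_conj
      intro a ha d hd
      have h1 : a * d * a⁻¹ = d := by
        rw [hAcomm a ha d hd.1, mul_inv_cancel_right]
      rw [h1]; exact hd
    · apply le_normalizer_of_conj
      intro m hm d hd
      exact ⟨hAn.conj_mem d hd.1 m, M.mul_mem (M.mul_mem hm hd.2) (M.inv_mem hm)⟩
  have hidx : M.index = Nat.card A := index_eq_card_of_compl A M hAM hD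
  have hcent : ∀ m ∈ M, (orderOf m).Coprime (Nat.card A) → ∀ a ∈ A, a * m = m * a := by
    intro m hm hcop a ha
    obtain ⟨j, hj⟩ := exists_pow_eq_self_of_coprime hcop.symm
    have h1 : (a * m * a⁻¹) ^ M.index ∈ M := hexp _
    have h2 : a * m * a⁻¹ ∈ M := by
      have e : a * m * a⁻¹ = ((a * m * a⁻¹) ^ M.index) ^ j := by
        rw [conj_pow, conj_pow, hidx, hj]
      rw [e]; exact M.pow_mem h1 j
    have h3 : m⁻¹ * (a * m * a⁻¹) ∈ A ⊓ M := by
      refine ⟨?_, M.mul_mem (M.inv_mem hm) h2⟩
      have e : m⁻¹ * (a * m * a⁻¹) = (m⁻¹ * a * m⁻¹⁻¹) * a⁻¹ := by group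
      rw [e]; exact A.mul_mem (hAn.conj_mem a ha m⁻¹) (A.inv_mem ha)
    rw [hD, Subgroup.mem_bot] at h3
    calc a * m = m * (m⁻¹ * (a * m * a⁻¹)) * a := by group
      _ = m * a := by rw [h3, mul_one]
  have hC : Subgroup.centralizer (A : Set G) ⊓ M = ⊥ := by
    apply hfree _ _ inf_le_right
    apply normal_of_sup_top _ A M hAM
    · apply le_normalizer_of_conj
      intro a ha c hc
      have h1 : a * c * a⁻¹ = c := by
        have h2 := Subgroup.mem_centralizer_iff.mp hc.1 a ha
        rw [h2, mul_inv_cancel_right]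
      rw [h1]; exact hc
    · apply le_normalizer_of_conj
      intro m hm c hc
      exact ⟨(Subgroup.normal_centralizer).conj_mem c hc.1 m,
        M.mul_mem (M.mul_mem hm hc.2) (M.inv_mem hm)⟩
  have htriv : ∀ m ∈ M, (orderOf m).Coprime (Nat.card A) → m = 1 := by
    intro m hm hcop
    have h1 : m ∈ Subgroup.centralizer (A : Set G) ⊓ M :=
      ⟨Subgroup.mem_centralizer_iff.mpr (fun a ha => hcent m hm hcop a ha), hm⟩
    rwa [hC, Subgroup.mem_bot] at h1
  have hprimes : ∀ r : ℕ, r.Prime → r ∣ Nat.card M → r ∣ Nat.card A := by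
    intro r hr hdvd
    by_contra hnd
    have : Fact r.Prime := ⟨hr⟩
    obtain ⟨m, hm⟩ := exists_prime_orderOf_dvd_card' r hdvd
    have hcop : (orderOf (m : G)).Coprime (Nat.card A) := by
      rw [Subgroup.orderOf_coe, hm]; exact (Nat.Prime.coprime_iff_not_dvd hr).mpr hnd
    have h1 := htriv m m.2 hcop
    have h2 : orderOf (m : G) = 1 := by rw [h1, orderOf_one]
    rw [Subgroup.orderOf_coe, hm] at h2
    exact hr.one_lt.ne' h2
  have hA1 : Nat.card A ≠ 1 := fun h => hAne (Subgroup.eq_bot_of_card_eq A h)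
  obtain ⟨p, hp, hpA⟩ := Nat.exists_prime_and_dvd hA1
  have hpf : Fact p.Prime := ⟨hp⟩
  let Ap : Subgroup G :=
    { carrier := {a | a ∈ A ∧ a ^ p = 1}
      mul_mem' := by
        rintro a b ⟨ha, ha'⟩ ⟨hb, hb'⟩
        refine ⟨A.mul_mem ha hb, ?_⟩
        rw [(show Commute a b from hAcomm a ha b hb).mul_pow, ha', hb', one_mul]
      one_mem' := ⟨A.one_mem, one_pow p⟩
      inv_mem' := by
        rintro a ⟨ha, ha'⟩
        exact ⟨A.inv_mem ha, by rw [inv_pow, ha', inv_one]⟩ }
  have hApmem : ∀ a : G, a ∈ Ap ↔ a ∈ A ∧ a ^ p = 1 := fun a => Iff.rfl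
  have hApN : Ap.Normal := ⟨fun a ha g => (hApmem _).mpr
    ⟨hAn.conj_mem a ((hApmem a).mp ha).1 g, by rw [conj_pow, ((hApmem a).mp ha).2]; group⟩⟩
  have hApne : Ap ≠ ⊥ := by
    obtain ⟨a, ha⟩ := exists_prime_orderOf_dvd_card' p hpA
    intro hbot
    have h1 : (a : G) ∈ Ap := by
      refine (hApmem _).mpr ⟨a.2, ?_⟩
      rw [← Subgroup.orderOf_coe] at ha
      rw [← ha, pow_orderOf_eq_one]
    rw [hbot, Subgroup.mem_bot] at h1
    have h2 : orderOf (a : G) = 1 := by rw [h1, orderOf_one]
    rw [Subgroup.orderOf_coe, ha] at h2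
    exact hp.one_lt.ne' h2
  have hAple : Ap ≤ A := fun a ha => ((hApmem a).mp ha).1
  have hAp_inf : Ap ⊓ M = ⊥ := le_bot_iff.mp (hD ▸ inf_le_inf_right M hAple)
  have hidx2 : M.index = Nat.card Ap :=
    @index_eq_card_of_compl G _ _ Ap M hApN (hsupN Ap hApN hApne) hAp_inf
  have hApA : Ap = A := Subgroup.eq_of_le_of_card_ge hAple (by rw [← hidx, hidx2])
  have hAP : IsPGroup p A := by
    intro a
    refine ⟨1, ?_⟩
    have h1 : (a : G) ∈ Ap := by rw [hApA]; exact a.2
    apply Subtype.ext
    simpa using ((hApmem _).mp h1).2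
  obtain ⟨k, hk⟩ := IsPGroup.iff_card.mp hAP
  have hMcard : Nat.card M = p ^ (Nat.card M).primeFactorsList.length := by
    apply Nat.eq_prime_pow_of_unique_prime_dvd Nat.card_pos.ne'
    intro r hr hdvd
    have h1 := hprimes r hr hdvd
    rw [hk] at h1
    exact (Nat.prime_dvd_prime_iff_eq hr hp).mp (hr.dvd_of_dvd_pow h1)
  have hGP : IsPGroup p G := by
    apply IsPGroup.of_card (n := (Nat.card M).primeFactorsList.length + k)
    rw [← M.card_mul_index, hidx, hk, pow_add, ← hMcard]
  have hnil : Group.IsNilpotent G := hGP.isNilpotent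
  exact Subgroup.NormalizerCondition.normal_of_coatom M Group.normalizerCondition_of_isNilpotent hM

universe u

open scoped commutatorElement in
theorem aux : ∀ n : ℕ, ∀ (G : Type u) [Group G] [Finite G], Nat.card G = n →
    Group.IsSolvable G → ∀ M : Subgroup G, IsCoatom M → (∀ x : G, x ^ M.index ∈ M) → M.Normal := by
  intro n
  induction n using Nat.strong_induction_on with
  | _ n ih =>
    intro G _ _ hn hG M hM hexp
    classical
    by_cases hN : M.normalCore = ⊥
    · have hsol := hG.solvable
      have hk0 := Nat.find_spec hsol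
      cases hk0' : Nat.find hsol with
      | zero =>
        rw [hk0'] at hk0
        have h1 : (⊤ : Subgroup G) = ⊥ := hk0
        have h2 : M = ⊥ := le_bot_iff.mp (h1 ▸ le_top)
        rw [h2]; infer_instance
      | succ j =>
        have hAne : derivedSeries G j ≠ ⊥ := Nat.find_min hsol (by omega : j < Nat.find hsol)
        have hcomm : ∀ a ∈ derivedSeries G j, ∀ b ∈ derivedSeries G j, a * b = b * a := by
          intro a ha b hb
          have h1 : ⁅a, b⁆ ∈ derivedSeries G (j + 1) := Subgroup.commutator_mem_commutator ha hb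
          rw [← hk0', hk0, Subgroup.mem_bot, commutatorElement_eq_one_iff_mul_comm] at h1
          exact h1
        have hnorm := derivedSeries_normal G j
        exact corefree_case M hM hexp hN (derivedSeries G j) hAne hcomm
    · have hker : (QuotientGroup.mk' M.normalCore).ker ≤ M := by
        rw [QuotientGroup.ker_mk']; exact M.normalCore_le
      have hsurj := QuotientGroup.mk'_surjective M.normalCore
      have hcard : Nat.card (G ⧸ M.normalCore) < n := by
        rw [← hn, ← M.normalCore.index_mul_card]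
        have h1 : 1 < Nat.card M.normalCore := by
          by_contra h
          exact hN (Subgroup.eq_bot_of_card_le _ (by omega))
        have h2 : 0 < M.normalCore.index := Nat.pos_of_ne_zero Subgroup.index_ne_zero_of_finite
        calc Nat.card (G ⧸ M.normalCore) = M.normalCore.index * 1 := by
              rw [mul_one]; rfl
          _ < M.normalCore.index * Nat.card M.normalCore := Nat.mul_lt_mul_of_pos_left h1 h2
      have hM' : IsCoatom (M.map (QuotientGroup.mk' M.normalCore)) := by
        constructor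
        · intro htop
          have h1 := congrArg (Subgroup.comap (QuotientGroup.mk' M.normalCore)) htop
          rw [Subgroup.comap_map_eq, Subgroup.comap_top, sup_of_le_left hker] at h1
          exact hM.1 h1
        · intro K hK
          have h1 : M < K.comap (QuotientGroup.mk' M.normalCore) := by
            have h0 := (Subgroup.comap_lt_comap_of_surjective hsurj).mpr hK
            rwa [Subgroup.comap_map_eq, sup_of_le_left hker] at h0
          have h2 := hM.2 _ h1
          have h3 := congrArg (Subgroup.map (QuotientGroup.mk' M.normalCore)) h2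
          rwa [Subgroup.map_comap_eq_self_of_surjective hsurj,
            Subgroup.map_top_of_surjective _ hsurj] at h3
      have hidx : (M.map (QuotientGroup.mk' M.normalCore)).index = M.index :=
        Subgroup.index_map_eq _ hsurj hker
      have hexp' : ∀ y : G ⧸ M.normalCore, y ^ (M.map (QuotientGroup.mk' M.normalCore)).index ∈
          M.map (QuotientGroup.mk' M.normalCore) := by
        intro y
        obtain ⟨x, rfl⟩ := hsurj y
        rw [hidx, ← map_pow]
        exact Subgroup.mem_map_of_mem _ (hexp x)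
      have hsolv' : Group.IsSolvable (G ⧸ M.normalCore) := inferInstance
      have hn' := ih _ hcard (G ⧸ M.normalCore) rfl hsolv' _ hM' hexp'
      have e : M = (M.map (QuotientGroup.mk' M.normalCore)).comap (QuotientGroup.mk' M.normalCore) := by
        rw [Subgroup.comap_map_eq, sup_of_le_left hker]
      rw [e]
      exact hn'.comap _


/-- Let M be a maximal subgroup of a finite solvable group G such that x^[G : M] lies in M for every x in G. Then M is normal in G. -/
theorem result {G : Type*} [Group G] [Finite G] (hG : Group.IsSolvable G) (M : Subgroup G) (hM : IsCoatom M)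
    (hexp : ∀ x : G, x ^ M.index ∈ M) : M.Normal := by
  exact aux _ G rfl hG M hM hexp

end Cfsg.Agent.S4261
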