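import Cfsg.Statements.S4262
import Mathlib
import Cfsg.Agent.S4314
import Cfsg.Agent.Lib.Lead.FrobeniusMore
import Cfsg.Agent.Lib.Lead.FrobComplement

set_option autoImplicit false
open Cfsg

namespace Cfsg.Agent.S4262

universe u

theorem coatom_eq {G : Type*} [Group G] {A B : Subgroup G} (hA : IsCoatom A) (hAB : A ≤ B)
    (hB : B ≠ ⊤) : A = B := by
  rcases hA.le_iff.mp hAB with h | h
  · exact absurd h hB
  · exact h.symm

theorem cent_pow_le {G : Type*} [Group G] (g : G) (k : ℕ) :
    Subgroup.centralizer ({g} : Set G) ≤ Subgroup.centralizer ({g ^ k} : Set G) := by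
  intro u hu
  rw [Subgroup.mem_centralizer_singleton_iff] at hu ⊢
  have hc : Commute u g := hu
  exact hc.pow_right k

theorem cent_zpow_le {G : Type*} [Group G] (g : G) (k : ℤ) :
    Subgroup.centralizer ({g} : Set G) ≤ Subgroup.centralizer ({g ^ k} : Set G) := by
  intro u hu
  rw [Subgroup.mem_centralizer_singleton_iff] at hu ⊢
  have hc : Commute u g := hu
  exact hc.zpow_right k

theorem orderOf_prime_pow {G : Type*} [Group G] [Finite G] (g : G) {q : ℕ}
    (hqd : q ∣ orderOf g) : orderOf (g ^ (orderOf g / q)) = q :=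
  orderOf_pow_orderOf_div (orderOf_pos g).ne' hqd

/-- Commuting nonidentity elements of coprime orders have the same centralizer. -/
theorem cent_eq_of_coprime {G : Type*} [Group G] [Finite G]
    (H : ∀ g : G, g ≠ 1 → IsCoatom (Subgroup.centralizer ({g} : Set G)))
    {x y : G} (hx : x ≠ 1) (hy : y ≠ 1) (hxy : x * y = y * x)
    (hcop : (orderOf x).Coprime (orderOf y)) :
    Subgroup.centralizer ({x} : Set G) = Subgroup.centralizer ({y} : Set G) := by
  have hc : Commute x y := hxy
  obtain ⟨m1, hm1⟩ := exists_pow_eq_self_of_coprime (x := x) hcop.symm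
  obtain ⟨m2, hm2⟩ := exists_pow_eq_self_of_coprime (x := y) hcop
  have h1 : (x * y) ^ (orderOf y * m1) = x := by
    rw [pow_mul, hc.mul_pow, pow_orderOf_eq_one, mul_one, hm1]
  have h2 : (x * y) ^ (orderOf x * m2) = y := by
    rw [pow_mul, hc.mul_pow, pow_orderOf_eq_one, one_mul, hm2]
  have hxy1 : x * y ≠ 1 := by
    intro h
    rw [h, one_pow] at h1
    exact hx h1.symm
  have hle1 : Subgroup.centralizer ({x * y} : Set G) ≤ Subgroup.centralizer ({x} : Set G) := by
    have := cent_pow_le (x * y) (orderOf y * m1)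
    rwa [h1] at this
  have hle2 : Subgroup.centralizer ({x * y} : Set G) ≤ Subgroup.centralizer ({y} : Set G) := by
    have := cent_pow_le (x * y) (orderOf x * m2)
    rwa [h2] at this
  have e1 := coatom_eq (H _ hxy1) hle1 (H x hx).1
  have e2 := coatom_eq (H _ hxy1) hle2 (H y hy).1
  rw [← e1, ← e2]

/-- If all centralizers are maximal and nonabelian, the centralizer of an element of prime order
`p` is a `p`-group. -/
theorem isPGroup_cent {G : Type*} [Group G] [Finite G]
    (H : ∀ g : G, g ≠ 1 → IsCoatom (Subgroup.centralizer ({g} : Set G)))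
    (hna : ∀ g : G, g ≠ 1 → ∃ a ∈ Subgroup.centralizer ({g} : Set G),
      ∃ b ∈ Subgroup.centralizer ({g} : Set G), a * b ≠ b * a)
    {x : G} {p : ℕ} (hp : p.Prime) (hx : orderOf x = p) :
    IsPGroup p (Subgroup.centralizer ({x} : Set G)) := by
  have hx1 : x ≠ 1 := by
    rintro rfl
    rw [orderOf_one] at hx
    exact hp.ne_one hx.symm
  have key : ∀ b ∈ Subgroup.centralizer ({x} : Set G), ∀ q : ℕ, q.Prime → q ∣ orderOf b → q = p := by
    intro b hb q hq hqb
    by_contra hqp
    set c := b ^ (orderOf b / q) with hc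
    have hco : orderOf c = q := orderOf_prime_pow b hqb
    have hc1 : c ≠ 1 := by
      intro h
      rw [h, orderOf_one] at hco
      exact hq.ne_one hco.symm
    have hcM : c ∈ Subgroup.centralizer ({x} : Set G) := Subgroup.pow_mem _ hb _
    have hcx : x * c = c * x := (Subgroup.mem_centralizer_singleton_iff.mp hcM).symm
    have hM : Subgroup.centralizer ({x} : Set G) = Subgroup.centralizer ({c} : Set G) :=
      cent_eq_of_coprime H hx1 hc1 hcx (by rw [hx, hco]; exact (Nat.coprime_primes hp hq).mpr (Ne.symm hqp))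
    obtain ⟨b1, hb1, b2, hb2, hne⟩ := hna x hx1
    obtain ⟨z1, z2, u, v, hz, hz1, hz2, ⟨k, hk⟩, hz2p⟩ := Cfsg.Agent.S4314.split_elt b1 p hp
    have hzle : Subgroup.zpowers b1 ≤ Subgroup.centralizer ({x} : Set G) :=
      (Subgroup.zpowers_le).mpr hb1
    have hz2c : Commute z2 b2 := by
      by_cases h21 : z2 = 1
      · rw [h21]; exact Commute.one_left b2
      · have hz2x : x * z2 = z2 * x :=
          (Subgroup.mem_centralizer_singleton_iff.mp (hzle hz2)).symm
        have e := cent_eq_of_coprime H hx1 h21 hz2x (by rw [hx]; exact hz2p.symm)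
        rw [e] at hb2
        exact (Subgroup.mem_centralizer_singleton_iff.mp hb2).symm
    have hz1c : Commute z1 b2 := by
      by_cases h11 : z1 = 1
      · rw [h11]; exact Commute.one_left b2
      · have hz1c' : c * z1 = z1 * c := by
          have : z1 ∈ Subgroup.centralizer ({c} : Set G) := hM ▸ hzle hz1
          exact (Subgroup.mem_centralizer_singleton_iff.mp this).symm
        have e := cent_eq_of_coprime H hc1 h11 hz1c' (by
          rw [hco, hk]
          exact Nat.Coprime.pow_right k ((Nat.coprime_primes hq hp).mpr hqp))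
        have hb2' : b2 ∈ Subgroup.centralizer ({c} : Set G) := hM ▸ hb2
        rw [e] at hb2'
        exact (Subgroup.mem_centralizer_singleton_iff.mp hb2').symm
    apply hne
    rw [hz]
    exact ((hz1c.zpow_left u).mul_left (hz2c.zpow_left v))
  intro ⟨b, hb⟩
  have hpow : orderOf b = p ^ (orderOf b).primeFactorsList.length :=
    Nat.eq_prime_pow_of_unique_prime_dvd (orderOf_pos b).ne' (fun {d} hd hdb => key b hb d hd hdb)
  refine ⟨(orderOf b).primeFactorsList.length, ?_⟩
  apply Subtype.ext
  rw [Subgroup.coe_pow, Subgroup.coe_mk, ← hpow, pow_orderOf_eq_one]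
  rfl

/-- The centralizer of a nonidentity element of a `p`-subgroup is a `p`-group. -/
theorem cent_pgroup_of_mem {G : Type*} [Group G] [Finite G]
    (H : ∀ g : G, g ≠ 1 → IsCoatom (Subgroup.centralizer ({g} : Set G)))
    (hna : ∀ g : G, g ≠ 1 → ∃ a ∈ Subgroup.centralizer ({g} : Set G),
      ∃ b ∈ Subgroup.centralizer ({g} : Set G), a * b ≠ b * a)
    {p : ℕ} (hp : p.Prime) {P : Subgroup G} (hP : IsPGroup p P) {h : G} (hh : h ∈ P) (h1 : h ≠ 1) :
    IsPGroup p (Subgroup.centralizer ({h} : Set G)) ∧ p ∣ orderOf h := by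
  have hpf : Fact p.Prime := ⟨hp⟩
  obtain ⟨k, hk⟩ := (IsPGroup.iff_orderOf.mp hP) ⟨h, hh⟩
  rw [Subgroup.orderOf_mk] at hk
  have hk0 : k ≠ 0 := by
    rintro rfl
    rw [pow_zero, orderOf_eq_one_iff] at hk
    exact h1 hk
  have hpd : p ∣ orderOf h := by
    rw [hk]
    exact dvd_pow_self p hk0
  have ho : orderOf (h ^ (orderOf h / p)) = p := orderOf_prime_pow h hpd
  have h01 : h ^ (orderOf h / p) ≠ 1 := by
    intro e
    rw [e, orderOf_one] at ho
    exact hp.ne_one ho.symm
  have e := coatom_eq (H h h1) (cent_pow_le h (orderOf h / p)) (H _ h01).1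
  rw [e]
  exact ⟨isPGroup_cent H hna hp ho, hpd⟩

/-- The case where every centralizer is nonabelian is contradictory. -/
theorem caseB2 {G : Type u} [Group G] [Finite G] [Nontrivial G]
    (hZ : Subgroup.center G = ⊥)
    (H : ∀ g : G, g ≠ 1 → IsCoatom (Subgroup.centralizer ({g} : Set G)))
    (hna : ∀ g : G, g ≠ 1 → ∃ a ∈ Subgroup.centralizer ({g} : Set G),
      ∃ b ∈ Subgroup.centralizer ({g} : Set G), a * b ≠ b * a) : False := by
  classical
  obtain ⟨g, hg1⟩ := exists_ne (1 : G)
  have hog : orderOf g ≠ 1 := fun h => hg1 (orderOf_eq_one_iff.mp h)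
  obtain ⟨p, hp, hpg⟩ := Nat.exists_prime_and_dvd hog
  have hpf : Fact p.Prime := ⟨hp⟩
  set x := g ^ (orderOf g / p) with hxdef
  have hxo : orderOf x = p := orderOf_prime_pow g hpg
  have hx1 : x ≠ 1 := by
    intro h
    rw [h, orderOf_one] at hxo
    exact hp.ne_one hxo.symm
  set P := Subgroup.centralizer ({x} : Set G) with hPdef
  have hP : IsPGroup p P := isPGroup_cent H hna hp hxo
  have hxP : x ∈ P := Subgroup.mem_centralizer_singleton_iff.mpr rfl
  have hPco : IsCoatom P := H x hx1
  obtain ⟨b1, hb1, b2, hb2, hne⟩ := hna x hx1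
  -- an element of the second centre of `P`
  have hZP : Subgroup.center P ≠ ⊤ := by
    intro h
    have hb : (⟨b1, hb1⟩ : P) ∈ Subgroup.center P := by rw [h]; trivial
    have := (Subgroup.mem_center_iff.mp hb) ⟨b2, hb2⟩
    exact hne (congrArg Subtype.val this).symm
  have hnt : Nontrivial (P ⧸ Subgroup.center P) := by
    have h1 : 1 < (Subgroup.center P).index := Subgroup.one_lt_index_of_ne_top hZP
    exact Finite.one_lt_card_iff_nontrivial.mp h1
  have hPq : IsPGroup p (P ⧸ Subgroup.center P) := hP.to_quotient _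
  have hcn : Nontrivial (Subgroup.center (P ⧸ Subgroup.center P)) := hPq.center_nontrivial
  obtain ⟨⟨yb, hyb⟩, hyb1⟩ := exists_ne (1 : Subgroup.center (P ⧸ Subgroup.center P))
  have hyb1' : yb ≠ 1 := fun h => hyb1 (Subtype.ext h)
  obtain ⟨y, rfl⟩ := QuotientGroup.mk_surjective yb
  have hyZ : y ∉ Subgroup.center P := fun h => hyb1' ((QuotientGroup.eq_one_iff y).mpr h)
  have hyz : ∀ u : P, u * y * u⁻¹ * y⁻¹ ∈ Subgroup.center P := by
    intro u
    rw [← QuotientGroup.eq_one_iff]
    have hc := (Subgroup.mem_center_iff.mp hyb) (u : P ⧸ Subgroup.center P)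
    rw [QuotientGroup.mk_mul, QuotientGroup.mk_mul, QuotientGroup.mk_mul, QuotientGroup.mk_inv,
      QuotientGroup.mk_inv, hc, mul_assoc, mul_assoc, mul_inv_cancel_left, mul_inv_cancel]
  set yG : G := (y : G) with hyG
  have hyP : yG ∈ P := y.2
  have hyG1 : yG ≠ 1 := by
    intro h
    apply hyZ
    have : y = 1 := Subtype.ext h
    rw [this]
    exact Subgroup.one_mem _
  set P' := Subgroup.centralizer ({yG} : Set G) with hP'def
  have hP'co : IsCoatom P' := H yG hyG1
  have hP'p : IsPGroup p P' := (cent_pgroup_of_mem H hna hp hP hyP hyG1).1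
  have hP'ne : P' ≠ P := by
    intro h
    apply hyZ
    rw [Subgroup.mem_center_iff]
    intro u
    have hu : (u : G) ∈ P' := by rw [h]; exact u.2
    have := Subgroup.mem_centralizer_singleton_iff.mp hu
    exact Subtype.ext this
  set D := P ⊓ P' with hD
  have hxD : x ∈ D := by
    refine Subgroup.mem_inf.mpr ⟨hxP, ?_⟩
    rw [Subgroup.mem_centralizer_singleton_iff]
    exact (Subgroup.mem_centralizer_singleton_iff.mp hyP).symm
  have hDconj : ∀ u ∈ P, ∀ d ∈ D, u * d * u⁻¹ ∈ D := by
    intro u hu d hd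
    have hdP : d ∈ P := (Subgroup.mem_inf.mp hd).1
    have hdy : d * yG = yG * d := Subgroup.mem_centralizer_singleton_iff.mp (Subgroup.mem_inf.mp hd).2
    refine Subgroup.mem_inf.mpr ⟨P.mul_mem (P.mul_mem hu hdP) (P.inv_mem hu), ?_⟩
    rw [Subgroup.mem_centralizer_singleton_iff]
    have hz := hyz (⟨u, hu⟩⁻¹ : P)
    have hzc := (Subgroup.mem_center_iff.mp hz) ⟨d, hdP⟩
    have hzc' : d * (u⁻¹ * yG * u * yG⁻¹) = (u⁻¹ * yG * u * yG⁻¹) * d := by
      have := congrArg Subtype.val hzc
      simpa using this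
    calc (u * d * u⁻¹) * yG = u * (d * (u⁻¹ * yG * u * yG⁻¹)) * yG * u⁻¹ := by group
      _ = u * ((u⁻¹ * yG * u * yG⁻¹) * d) * yG * u⁻¹ := by rw [hzc']
      _ = u * (u⁻¹ * yG * u * yG⁻¹) * (d * yG) * u⁻¹ := by group
      _ = u * (u⁻¹ * yG * u * yG⁻¹) * (yG * d) * u⁻¹ := by rw [hdy]
      _ = yG * (u * d * u⁻¹) := by group
  have hDP' : D ≠ P' := by
    intro h
    have hle : P' ≤ P := h ▸ (inf_le_left : D ≤ P)
    exact hP'ne (coatom_eq hP'co hle hPco.1)
  -- normalizer growth inside `P'`
  have hnilP' : Group.IsNilpotent P' := hP'p.isNilpotent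
  have hsub : D.subgroupOf P' < ⊤ := by
    rw [lt_top_iff_ne_top]
    intro h
    rw [Subgroup.subgroupOf_eq_top] at h
    exact hDP' (le_antisymm inf_le_right h)
  have hgrow := Group.normalizerCondition_of_isNilpotent (G := P') (D.subgroupOf P') hsub
  obtain ⟨u, huN, huD⟩ := SetLike.exists_of_lt hgrow
  have huD' : (u : G) ∉ D := fun h => huD (Subgroup.mem_subgroupOf.mpr h)
  have huP : (u : G) ∉ P := fun h => huD' (Subgroup.mem_inf.mpr ⟨h, u.2⟩)
  have huN' : (u : G) ∈ Subgroup.normalizer (D : Set G) := by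
    apply Cfsg.Agent.S4314.mem_normalizer_of_conj_mem
    intro d hd
    have hdP' : d ∈ P' := (Subgroup.mem_inf.mp hd).2
    have h1 : (⟨d, hdP'⟩ : P') ∈ D.subgroupOf P' := Subgroup.mem_subgroupOf.mpr hd
    have h2 := (Subgroup.mem_normalizer_iff.mp huN ⟨d, hdP'⟩).mp h1
    exact Subgroup.mem_subgroupOf.mp h2
  have hPN : P ≤ Subgroup.normalizer (D : Set G) := by
    intro v hv
    exact Cfsg.Agent.S4314.mem_normalizer_of_conj_mem D v (hDconj v hv)
  have hNtop : Subgroup.normalizer (D : Set G) = ⊤ := by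
    rcases hPco.le_iff.mp hPN with h | h
    · exact h
    · exact absurd (h ▸ huN') huP
  have hDn : D.Normal := Subgroup.normalizer_eq_top_iff.mp hNtop
  have hD1 : D ≠ ⊥ := by
    intro h
    rw [h, Subgroup.mem_bot] at hxD
    exact hx1 hxD
  have hDp : IsPGroup p D := hP.to_le inf_le_left
  -- a second prime
  have hnp : ¬ IsPGroup p G := by
    intro h
    have := h.center_nontrivial
    rw [hZ] at this
    obtain ⟨⟨a, ha⟩, ha1⟩ := exists_ne (1 : (⊥ : Subgroup G))
    exact ha1 (Subtype.ext (Subgroup.mem_bot.mp ha))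
  obtain ⟨g0, hg0⟩ := not_forall.mp hnp
  have hq : ∃ q : ℕ, q.Prime ∧ q ∣ orderOf g0 ∧ q ≠ p := by
    by_contra hcon
    apply hg0
    have hpow : orderOf g0 = p ^ (orderOf g0).primeFactorsList.length :=
      Nat.eq_prime_pow_of_unique_prime_dvd (orderOf_pos g0).ne' (fun {d} hd hdb => by
        by_contra hne'
        exact hcon ⟨d, hd, hdb, hne'⟩)
    exact ⟨_, by rw [← hpow, pow_orderOf_eq_one]⟩
  obtain ⟨q, hq, hqg, hqp⟩ := hq
  have hqf : Fact q.Prime := ⟨hq⟩
  set w := g0 ^ (orderOf g0 / q) with hwdef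
  have hwo : orderOf w = q := orderOf_prime_pow g0 hqg
  have hw1 : w ≠ 1 := by
    intro h
    rw [h, orderOf_one] at hwo
    exact hq.ne_one hwo.symm
  set Q := Subgroup.centralizer ({w} : Set G) with hQdef
  have hQ : IsPGroup q Q := isPGroup_cent H hna hq hwo
  have hwQ : w ∈ Q := Subgroup.mem_centralizer_singleton_iff.mpr rfl
  have hfpf : ∀ h ∈ Q, h ≠ 1 → D ⊓ Subgroup.centralizer {h} = ⊥ := by
    intro h hh h1
    have hCq : IsPGroup q (Subgroup.centralizer ({h} : Set G)) :=
      (cent_pgroup_of_mem H hna hq hQ hh h1).1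
    exact disjoint_iff.mp (IsPGroup.disjoint_of_ne p q (Ne.symm hqp) _ _ hDp hCq)
  have hU := Cfsg.Agent.Lib.Lead.fpf_pgroup_uniq D hD1 q Q hQ hfpf
  obtain ⟨c1, hc1, c2, hc2, hcne⟩ := hna w hw1
  have hc11 : c1 ≠ 1 := by
    rintro rfl
    apply hcne
    rw [one_mul, mul_one]
  obtain ⟨hCc1, hqc1⟩ := cent_pgroup_of_mem H hna hq hQ hc1 hc11
  set c0 := c1 ^ (orderOf c1 / q) with hc0def
  have hc0o : orderOf c0 = q := orderOf_prime_pow c1 hqc1
  have hc01 : c0 ≠ 1 := by
    intro h
    rw [h, orderOf_one] at hc0o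
    exact hq.ne_one hc0o.symm
  have hc0Q : c0 ∈ Q := Q.pow_mem hc1 _
  have hmem := hU ⟨w, hwQ⟩ ⟨c0, hc0Q⟩
    (by apply Subtype.ext; rw [Subgroup.coe_pow, Subgroup.coe_mk, ← hwo, pow_orderOf_eq_one]; rfl)
    (by apply Subtype.ext; rw [Subgroup.coe_pow, Subgroup.coe_mk, ← hc0o, pow_orderOf_eq_one]; rfl)
    (fun h => hw1 (congrArg Subtype.val h))
  obtain ⟨j, hj⟩ := Subgroup.mem_zpowers_iff.mp hmem
  have hj' : w ^ j = c0 := by
    have := congrArg Subtype.val hj
    rwa [Subgroup.coe_zpow] at this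
  have hQc0 : Q = Subgroup.centralizer ({c0} : Set G) := by
    apply coatom_eq (H w hw1) _ (H c0 hc01).1
    have := cent_zpow_le w j
    rwa [hj'] at this
  have hc1Q : Subgroup.centralizer ({c1} : Set G) = Q := by
    rw [hQc0]
    exact coatom_eq (H c1 hc11) (cent_pow_le c1 _) (H c0 hc01).1
  have hc2' : c2 ∈ Subgroup.centralizer ({c1} : Set G) := hc1Q ▸ hc2
  exact hcne (Subgroup.mem_centralizer_singleton_iff.mp hc2').symm

/-- The case of an abelian self-normalizing centralizer: a Frobenius group with abelian kernel. -/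
theorem caseB1 {G : Type u} [Group G] [Finite G]
    (H : ∀ g : G, g ≠ 1 → IsCoatom (Subgroup.centralizer ({g} : Set G)))
    {x : G} (hx1 : x ≠ 1)
    (hself : Subgroup.normalizer ((Subgroup.centralizer ({x} : Set G) : Subgroup G) : Set G)
      = Subgroup.centralizer ({x} : Set G))
    (hab : ∀ a ∈ Subgroup.centralizer ({x} : Set G), ∀ b ∈ Subgroup.centralizer ({x} : Set G),
      a * b = b * a) : Group.IsSolvable G := by
  classical
  set M := Subgroup.centralizer ({x} : Set G) with hMdef
  have hMco : IsCoatom M := H x hx1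
  have hxM : x ∈ M := Subgroup.mem_centralizer_singleton_iff.mpr rfl
  have hcent : ∀ y ∈ M, y ≠ 1 → Subgroup.centralizer ({y} : Set G) = M := by
    intro y hy hy1
    refine (coatom_eq hMco ?_ (H y hy1).1).symm
    intro m hm
    rw [Subgroup.mem_centralizer_singleton_iff]
    exact hab m hm y hy
  have hF : Cfsg.IsFrobeniusComplement M := by
    refine ⟨?_, hMco.1, ?_⟩
    · intro h
      rw [h, Subgroup.mem_bot] at hxM
      exact hx1 hxM
    · intro g hg
      rw [eq_bot_iff]
      intro y hy
      rw [Subgroup.mem_bot]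
      by_contra hy1
      have hyM : y ∈ M := (Subgroup.mem_inf.mp hy).1
      have hyg : g⁻¹ * y * g ∈ M :=
        (Cfsg.Agent.Lib.Lead.mem_conj_smul M g y).mp (Subgroup.mem_inf.mp hy).2
      have hy'1 : g⁻¹ * y * g ≠ 1 := by
        intro h
        apply hy1
        calc y = g * (g⁻¹ * y * g) * g⁻¹ := by group
          _ = 1 := by rw [h]; group
      have hC1 := hcent y hyM hy1
      have hC2 := hcent _ hyg hy'1
      apply hg
      rw [← hself]
      apply Cfsg.Agent.S4314.mem_normalizer_of_conj_mem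
      intro m hm
      have hm' : m ∈ Subgroup.centralizer ({g⁻¹ * y * g} : Set G) := by rw [hC2]; exact hm
      have hmc : m * (g⁻¹ * y * g) = (g⁻¹ * y * g) * m :=
        Subgroup.mem_centralizer_singleton_iff.mp hm'
      rw [← hC1, Subgroup.mem_centralizer_singleton_iff]
      calc (g * m * g⁻¹) * y = g * (m * (g⁻¹ * y * g)) * g⁻¹ := by group
        _ = g * ((g⁻¹ * y * g) * m) * g⁻¹ := by rw [hmc]
        _ = y * (g * m * g⁻¹) := by group
  set K := Cfsg.Agent.Lib.Lead.frobKer M hF with hKdef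
  have hKn : K.Normal := Cfsg.Agent.Lib.Lead.frobKer_normal M hF
  have hKtop : K ≠ ⊤ := by
    intro h
    have h1 := Cfsg.Agent.Lib.Lead.frobKer_inf M hF
    rw [← hKdef, h, top_inf_eq] at h1
    rw [h1, Subgroup.mem_bot] at hxM
    exact hx1 hxM
  have hKab : ∀ a b : K, a * b = b * a := by
    intro a b
    by_cases ha : (a : G) = 1
    · have : a = 1 := Subtype.ext ha
      rw [this, one_mul, mul_one]
    · have hle := Cfsg.Agent.Lib.Lead.frob_centralizer_le M hF a.2 ha
      have e := coatom_eq (H _ ha) hle hKtop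
      have hb : (b : G) ∈ Subgroup.centralizer ({(a : G)} : Set G) := by rw [e]; exact b.2
      apply Subtype.ext
      exact (Subgroup.mem_centralizer_singleton_iff.mp hb).symm
  have hKs : Group.IsSolvable K := Group.isSolvable_of_comm hKab
  have hMs : Group.IsSolvable M := Group.isSolvable_of_comm (fun a b => Subtype.ext (hab a a.2 b b.2))
  have hQs : Group.IsSolvable (G ⧸ K) := by
    let f : M →* G ⧸ K := (QuotientGroup.mk' K).comp M.subtype
    have hf : Function.Surjective f := by
      intro q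
      obtain ⟨g, rfl⟩ := QuotientGroup.mk_surjective q
      have hc := Cfsg.Agent.Lib.Lead.frobKer_isComplement' M hF
      obtain ⟨⟨k, m⟩, hkm⟩ := hc.2 g
      refine ⟨m, ?_⟩
      have hkm' : (k : G) * (m : G) = g := hkm
      show (QuotientGroup.mk (m : G) : G ⧸ K) = QuotientGroup.mk g
      rw [← hkm', QuotientGroup.mk_mul, (QuotientGroup.eq_one_iff (k : G)).mpr k.2, one_mul]
    exact Group.isSolvable_of_surjective hf
  exact Group.isSolvable_of_ker_le_range K.subtype (QuotientGroup.mk' K)
    (by rw [QuotientGroup.ker_mk', Subgroup.range_subtype])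

/-- The case of a normal centralizer. -/
theorem caseA {G : Type u} [Group G] [Finite G]
    (H : ∀ g : G, g ≠ 1 → IsCoatom (Subgroup.centralizer ({g} : Set G)))
    {x : G} (hx1 : x ≠ 1) (hn : (Subgroup.centralizer ({x} : Set G)).Normal) : Group.IsSolvable G := by
  classical
  set M := Subgroup.centralizer ({x} : Set G) with hMdef
  have hMco : IsCoatom M := H x hx1
  have hxM : x ∈ M := Subgroup.mem_centralizer_singleton_iff.mpr rfl
  set A := Subgroup.centralizer (M : Set G) with hAdef
  have hAM : A ≤ M := by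
    intro a ha
    rw [Subgroup.mem_centralizer_singleton_iff]
    exact ((Subgroup.mem_centralizer_iff.mp ha) x hxM).symm
  have hxA : x ∈ A := by
    rw [Subgroup.mem_centralizer_iff]
    intro m hm
    exact Subgroup.mem_centralizer_singleton_iff.mp hm
  have hAn : A.Normal := by
    refine ⟨fun a ha g => ?_⟩
    rw [Subgroup.mem_centralizer_iff]
    intro m hm
    have hm' : g⁻¹ * m * g ∈ M := by
      have := hn.conj_mem m hm g⁻¹
      rwa [inv_inv] at this
    have hc : (g⁻¹ * m * g) * a = a * (g⁻¹ * m * g) := (Subgroup.mem_centralizer_iff.mp ha) _ hm'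
    calc m * (g * a * g⁻¹) = g * ((g⁻¹ * m * g) * a) * g⁻¹ := by group
      _ = g * (a * (g⁻¹ * m * g)) * g⁻¹ := by rw [hc]
      _ = g * a * g⁻¹ * m := by group
  have hCa : ∀ a ∈ A, a ≠ 1 → Subgroup.centralizer ({a} : Set G) = M := by
    intro a ha ha1
    refine (coatom_eq hMco ?_ (H a ha1).1).symm
    intro m hm
    rw [Subgroup.mem_centralizer_singleton_iff]
    exact (Subgroup.mem_centralizer_iff.mp ha) m hm
  obtain ⟨g, hg⟩ : ∃ g : G, g ∉ M := by
    by_contra hcon
    apply hMco.1
    rw [eq_top_iff]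
    intro g _
    by_contra hg
    exact hcon ⟨g, hg⟩
  have hg1 : g ≠ 1 := by
    rintro rfl
    exact hg M.one_mem
  set L := Subgroup.centralizer ({g} : Set G) with hLdef
  have hLco : IsCoatom L := H g hg1
  have hAL : A ⊓ L = ⊥ := by
    rw [eq_bot_iff]
    intro a ha
    rw [Subgroup.mem_bot]
    by_contra ha1
    have h1 := hCa a (Subgroup.mem_inf.mp ha).1 ha1
    apply hg
    rw [← h1, Subgroup.mem_centralizer_singleton_iff]
    exact (Subgroup.mem_centralizer_singleton_iff.mp (Subgroup.mem_inf.mp ha).2).symm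
  have hsup : A ⊔ L = ⊤ := by
    rcases hLco.le_iff.mp (le_sup_right : L ≤ A ⊔ L) with h | h
    · exact h
    · exfalso
      have hAL' : A ≤ L := by rw [← h]; exact le_sup_left
      have : x ∈ A ⊓ L := Subgroup.mem_inf.mpr ⟨hxA, hAL' hxA⟩
      rw [hAL, Subgroup.mem_bot] at this
      exact hx1 this
  have hdec : ∀ u : G, ∃ a ∈ A, ∃ l ∈ L, u = a * l := by
    intro u
    have hu : u ∈ ((A ⊔ L : Subgroup G) : Set G) := by rw [hsup]; trivial
    rw [Subgroup.normal_mul A L] at hu
    obtain ⟨a, ha, l, hl, rfl⟩ := Set.mem_mul.mp hu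
    exact ⟨a, ha, l, hl, rfl⟩
  set D := M ⊓ L with hDdef
  have hDA : D ⊓ A = ⊥ := by
    rw [eq_bot_iff]
    intro d hd
    have : d ∈ A ⊓ L :=
      Subgroup.mem_inf.mpr ⟨(Subgroup.mem_inf.mp hd).2, (Subgroup.mem_inf.mp (Subgroup.mem_inf.mp hd).1).2⟩
    rw [hAL] at this
    exact this
  have hDconj : ∀ u : G, ∀ d ∈ D, u * d * u⁻¹ ∈ D := by
    intro u d hd
    obtain ⟨a, ha, l, hl, rfl⟩ := hdec u
    have hdM : d ∈ M := (Subgroup.mem_inf.mp hd).1
    have hdL : d ∈ L := (Subgroup.mem_inf.mp hd).2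
    have h1 : l * d * l⁻¹ ∈ M := hn.conj_mem d hdM l
    have h2 : l * d * l⁻¹ ∈ L := L.mul_mem (L.mul_mem hl hdL) (L.inv_mem hl)
    have hc : (l * d * l⁻¹) * a = a * (l * d * l⁻¹) := (Subgroup.mem_centralizer_iff.mp ha) _ h1
    have e : (a * l) * d * (a * l)⁻¹ = l * d * l⁻¹ := by
      calc (a * l) * d * (a * l)⁻¹ = (a * (l * d * l⁻¹)) * a⁻¹ := by group
        _ = ((l * d * l⁻¹) * a) * a⁻¹ := by rw [hc]
        _ = l * d * l⁻¹ := by group
    rw [e]
    exact Subgroup.mem_inf.mpr ⟨h1, h2⟩
  have hDbot : D = ⊥ := by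
    rw [eq_bot_iff]
    intro d hd
    rw [Subgroup.mem_bot]
    by_contra hd1
    have hdM : d ∈ M := (Subgroup.mem_inf.mp hd).1
    have hdx : d * x = x * d := Subgroup.mem_centralizer_singleton_iff.mp hdM
    have he1 : d * x ≠ 1 := by
      intro h
      have hdA : d ∈ A := by
        have : d = x⁻¹ := eq_inv_of_mul_eq_one_left h
        rw [this]
        exact A.inv_mem hxA
      have : d ∈ D ⊓ A := Subgroup.mem_inf.mpr ⟨hd, hdA⟩
      rw [hDA, Subgroup.mem_bot] at this
      exact hd1 this
    have hsplit : ∀ u ∈ Subgroup.centralizer ({d * x} : Set G), u * d = d * u ∧ u * x = x * u := by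
      intro u hu
      have hu' : u * (d * x) = (d * x) * u := Subgroup.mem_centralizer_singleton_iff.mp hu
      have h1 : u * d * u⁻¹ ∈ D := hDconj u d hd
      have h2 : u * x * u⁻¹ ∈ A := hAn.conj_mem x hxA u
      have h3 : (u * d * u⁻¹) * (u * x * u⁻¹) = d * x := by
        calc (u * d * u⁻¹) * (u * x * u⁻¹) = (u * (d * x)) * u⁻¹ := by group
          _ = ((d * x) * u) * u⁻¹ := by rw [hu']
          _ = d * x := by group
      have h4 : d⁻¹ * (u * d * u⁻¹) = x * (u * x * u⁻¹)⁻¹ := by
        calc d⁻¹ * (u * d * u⁻¹) = d⁻¹ * ((u * d * u⁻¹) * (u * x * u⁻¹)) * (u * x * u⁻¹)⁻¹ := by group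
          _ = d⁻¹ * (d * x) * (u * x * u⁻¹)⁻¹ := by rw [h3]
          _ = x * (u * x * u⁻¹)⁻¹ := by group
      have h5 : d⁻¹ * (u * d * u⁻¹) ∈ D ⊓ A := by
        refine Subgroup.mem_inf.mpr ⟨D.mul_mem (D.inv_mem hd) h1, ?_⟩
        rw [h4]
        exact A.mul_mem hxA (A.inv_mem h2)
      rw [hDA, Subgroup.mem_bot] at h5
      have h6 : x * (u * x * u⁻¹)⁻¹ = 1 := by rw [← h4]; exact h5
      constructor
      · calc u * d = d * (d⁻¹ * (u * d * u⁻¹)) * u := by group
          _ = d * u := by rw [h5, mul_one]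
      · calc u * x = ((x * (u * x * u⁻¹)⁻¹)⁻¹ * x) * u := by group
          _ = x * u := by rw [h6, inv_one, one_mul]
    have hle : Subgroup.centralizer ({d * x} : Set G) ≤ M := by
      intro u hu
      rw [Subgroup.mem_centralizer_singleton_iff]
      exact (hsplit u hu).2
    have heq : Subgroup.centralizer ({d * x} : Set G) = M := coatom_eq (H _ he1) hle hMco.1
    have hdA : d ∈ A := by
      rw [Subgroup.mem_centralizer_iff]
      intro m hm
      have hm' : m ∈ Subgroup.centralizer ({d * x} : Set G) := by rw [heq]; exact hm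
      exact (hsplit m hm').1
    have : d ∈ D ⊓ A := Subgroup.mem_inf.mpr ⟨hd, hdA⟩
    rw [hDA, Subgroup.mem_bot] at this
    exact hd1 this
  have hMA : M ≤ A := by
    intro m hm
    obtain ⟨a, ha, l, hl, rfl⟩ := hdec m
    have hlM : l ∈ M := by
      have : l = a⁻¹ * (a * l) := by group
      rw [this]
      exact M.mul_mem (M.inv_mem (hAM ha)) hm
    have hlD : l ∈ D := Subgroup.mem_inf.mpr ⟨hlM, hl⟩
    rw [hDbot, Subgroup.mem_bot] at hlD
    rw [hlD, mul_one]
    exact ha
  have hMab : ∀ a b : M, a * b = b * a := by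
    intro a b
    apply Subtype.ext
    exact (Subgroup.mem_centralizer_iff.mp (hMA b.2)) a a.2
  have hMs : Group.IsSolvable M := Group.isSolvable_of_comm hMab
  have hQs : Group.IsSolvable (G ⧸ M) := by
    have hsup2 : M ⊔ Subgroup.zpowers g = ⊤ := by
      rcases hMco.le_iff.mp (le_sup_left : M ≤ M ⊔ Subgroup.zpowers g) with h | h
      · exact h
      · exfalso
        apply hg
        rw [← h]
        exact (le_sup_right : Subgroup.zpowers g ≤ M ⊔ Subgroup.zpowers g) (Subgroup.mem_zpowers g)
    let f : Subgroup.zpowers g →* G ⧸ M := (QuotientGroup.mk' M).comp (Subgroup.zpowers g).subtype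
    have hf : Function.Surjective f := by
      intro q
      obtain ⟨u, rfl⟩ := QuotientGroup.mk_surjective q
      have hu : u ∈ ((M ⊔ Subgroup.zpowers g : Subgroup G) : Set G) := by rw [hsup2]; trivial
      rw [Subgroup.normal_mul M (Subgroup.zpowers g)] at hu
      obtain ⟨m, hm, z, hz, rfl⟩ := Set.mem_mul.mp hu
      refine ⟨⟨z, hz⟩, ?_⟩
      show (QuotientGroup.mk z : G ⧸ M) = QuotientGroup.mk (m * z)
      rw [QuotientGroup.mk_mul, (QuotientGroup.eq_one_iff m).mpr hm, one_mul]
    have hzs : Group.IsSolvable (Subgroup.zpowers g) := by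
      apply Group.isSolvable_of_comm
      intro a b
      obtain ⟨i, hi⟩ := Subgroup.mem_zpowers_iff.mp a.2
      obtain ⟨j, hj⟩ := Subgroup.mem_zpowers_iff.mp b.2
      apply Subtype.ext
      show (a : G) * (b : G) = (b : G) * (a : G)
      rw [← hi, ← hj, ← zpow_add, ← zpow_add, add_comm]
    exact Group.isSolvable_of_surjective hf
  exact Group.isSolvable_of_ker_le_range M.subtype (QuotientGroup.mk' M)
    (by rw [QuotientGroup.ker_mk', Subgroup.range_subtype])

/-- The hypothesis passes to the quotient by the centre. -/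
theorem quot_hyp {G : Type u} [Group G]
    (h : ∀ g : G, g ∉ Subgroup.center G → IsCoatom (Subgroup.centralizer ({g} : Set G))) :
    ∀ q : G ⧸ Subgroup.center G, q ∉ Subgroup.center (G ⧸ Subgroup.center G) →
      IsCoatom (Subgroup.centralizer ({q} : Set (G ⧸ Subgroup.center G))) := by
  intro q hq
  obtain ⟨g, rfl⟩ := QuotientGroup.mk_surjective q
  set π := QuotientGroup.mk' (Subgroup.center G) with hπ
  have hπs : Function.Surjective π := QuotientGroup.mk'_surjective _
  have hg : g ∉ Subgroup.center G := by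
    intro hg
    apply hq
    rw [(QuotientGroup.eq_one_iff g).mpr hg]
    exact Subgroup.one_mem _
  have hC : IsCoatom (Subgroup.centralizer ({g} : Set G)) := h g hg
  set T := Subgroup.centralizer ({(π g)} : Set (G ⧸ Subgroup.center G)) with hT
  have hTtop : T ≠ ⊤ := by
    intro htop
    apply hq
    rw [Subgroup.mem_center_iff]
    intro a
    have ha : a ∈ T := by rw [htop]; trivial
    exact Subgroup.mem_centralizer_singleton_iff.mp ha
  have hle : Subgroup.centralizer ({g} : Set G) ≤ T.comap π := by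
    intro u hu
    rw [Subgroup.mem_comap, hT, Subgroup.mem_centralizer_singleton_iff, ← map_mul, ← map_mul,
      Subgroup.mem_centralizer_singleton_iff.mp hu]
  have htop_of_comap : ∀ K : Subgroup (G ⧸ Subgroup.center G), K.comap π = ⊤ → K = ⊤ := by
    intro K hK
    rw [eq_top_iff]
    intro a _
    obtain ⟨u, rfl⟩ := hπs a
    have : u ∈ K.comap π := by rw [hK]; trivial
    exact this
  have hcomap : T.comap π = Subgroup.centralizer ({g} : Set G) :=
    (coatom_eq hC hle (fun h => hTtop (htop_of_comap T h))).symm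
  refine ⟨hTtop, ?_⟩
  intro K hK
  apply htop_of_comap
  have h1 : Subgroup.centralizer ({g} : Set G) ≤ K.comap π := by
    rw [← hcomap]
    exact Subgroup.comap_mono hK.le
  rcases hC.le_iff.mp h1 with h2 | h2
  · exact h2
  · exfalso
    have h3 : K = T := by
      rw [← Subgroup.map_comap_eq_self_of_surjective hπs K, h2, ← hcomap,
        Subgroup.map_comap_eq_self_of_surjective hπs T]
    exact hK.ne h3.symm

theorem main : ∀ (n : ℕ) (G : Type u) [Group G] [Finite G], Nat.card G = n →
    (∀ g : G, g ∉ Subgroup.center G → IsCoatom (Subgroup.centralizer ({g} : Set G))) →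
    Group.IsSolvable G := by
  intro n
  induction n using Nat.strong_induction_on with
  | _ n ih =>
    intro G _ _ hn h
    by_cases hZ : Subgroup.center G = ⊥
    · by_cases hsub : Subsingleton G
      · exact Group.isSolvable_of_comm (fun a b => by rw [Subsingleton.elim a b])
      have hnt : Nontrivial G := not_subsingleton_iff_nontrivial.mp hsub
      have H : ∀ g : G, g ≠ 1 → IsCoatom (Subgroup.centralizer ({g} : Set G)) := by
        intro g hg
        apply h g
        rw [hZ, Subgroup.mem_bot]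
        exact hg
      by_cases hA : ∃ x : G, x ≠ 1 ∧ (Subgroup.centralizer ({x} : Set G)).Normal
      · obtain ⟨x, hx1, hxn⟩ := hA
        exact caseA H hx1 hxn
      by_cases hB : ∃ x : G, x ≠ 1 ∧ ∀ a ∈ Subgroup.centralizer ({x} : Set G),
          ∀ b ∈ Subgroup.centralizer ({x} : Set G), a * b = b * a
      · obtain ⟨x, hx1, hxab⟩ := hB
        refine caseB1 H hx1 ?_ hxab
        refine (coatom_eq (H x hx1) Subgroup.le_normalizer ?_).symm
        intro htop
        exact hA ⟨x, hx1, Subgroup.normalizer_eq_top_iff.mp htop⟩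
      · exfalso
        apply caseB2 hZ H
        intro g hg
        by_contra hcon
        apply hB
        refine ⟨g, hg, ?_⟩
        intro a ha b hb
        by_contra hab
        exact hcon ⟨a, ha, b, hb, hab⟩
    · have hcard : Nat.card (G ⧸ Subgroup.center G) < n := by
        have h1 : Nat.card (Subgroup.center G) * (Subgroup.center G).index = Nat.card G :=
          Subgroup.card_mul_index _
        have h2 : 1 < Nat.card (Subgroup.center G) := (Subgroup.one_lt_card_iff_ne_bot _).mpr hZ
        have h3 : 0 < (Subgroup.center G).index := Nat.pos_of_ne_zero Subgroup.index_ne_zero_of_finite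
        have h4 : (Subgroup.center G).index = Nat.card (G ⧸ Subgroup.center G) := rfl
        rw [← h4, ← hn, ← h1]
        nlinarith
      have hQ : Group.IsSolvable (G ⧸ Subgroup.center G) :=
        ih _ hcard (G ⧸ Subgroup.center G) rfl (quot_hyp h)
      have hZs : Group.IsSolvable (Subgroup.center G) :=
        Group.isSolvable_of_comm (fun a b => Subtype.ext ((Subgroup.mem_center_iff.mp b.2) a))
      exact Group.isSolvable_of_ker_le_range (Subgroup.center G).subtype
        (QuotientGroup.mk' (Subgroup.center G))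
        (by rw [QuotientGroup.ker_mk', Subgroup.range_subtype])

/-- Let G be a finite group in which the centralizer of every non-central element is a maximal subgroup of G. Then G is solvable. -/
theorem result {G : Type*} [Group G] [Finite G]
    (h : ∀ g : G, g ∉ Subgroup.center G → IsCoatom (Subgroup.centralizer ({g} : Set G))) :
    Group.IsSolvable G := by
  exact main (Nat.card G) G rfl h

end Cfsg.Agent.S4262
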