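import Cfsg.Statements.S4263
import Cfsg.Agent.Lib.Helper24.Fitting

set_option autoImplicit false
open Cfsg

namespace Cfsg.Agent.S4263

open Cfsg.Agent.Lib.Helper24

theorem mem_of_pow_mem_of_coprime {G : Type*} [Group G] (H : Subgroup G) (y : G) (a b : ℕ)
    (hab : a.Coprime b) (ha : y ^ a ∈ H) (hb : y ^ b = 1) : y ∈ H := by
  have h := Int.gcd_eq_gcd_ab a b
  have h1 : ((a : ℤ).gcd (b : ℤ) : ℤ) = 1 := by
    rw [Int.gcd_natCast_natCast]; exact_mod_cast hab
  rw [h1] at h
  have h2 : y = (y ^ a) ^ (Int.gcdA a b) * (y ^ b) ^ (Int.gcdB a b) := by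
    rw [← zpow_natCast, ← zpow_natCast, ← zpow_mul, ← zpow_mul, ← zpow_add, ← h, zpow_one]
  rw [h2, hb, one_zpow, mul_one]
  exact H.zpow_mem ha _

/-- A `p`-element all of whose index-powers lie in the corresponding subgroups lies in the
Fitting subgroup. -/
theorem pelem_mem {G : Type*} [Group G] [Finite G] (p : ℕ) [Fact p.Prime] (k : ℕ) (y : G)
    (hy : y ^ (p ^ k) = 1) (hgood : ∀ H : Subgroup G, y ^ H.index ∈ H) :
    y ∈ Cfsg.fittingSubgroup G := by
  obtain ⟨P⟩ := (Sylow.nonempty : Nonempty (Sylow p G))
  have hcore : y ∈ (P : Subgroup G).normalCore := by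
    intro b
    have hQ := hgood ((b⁻¹ • P : Sylow p G) : Subgroup G)
    have hcop : ((b⁻¹ • P : Sylow p G) : Subgroup G).index.Coprime (p ^ k) := by
      apply Nat.Coprime.pow_right
      rw [Nat.coprime_comm]
      exact (Nat.Prime.coprime_iff_not_dvd Fact.out).mpr (Sylow.not_dvd_index _)
    have hmem := mem_of_pow_mem_of_coprime _ y _ _ hcop hQ hy
    rw [Sylow.smul_def, Sylow.pointwise_smul_def, Subgroup.mem_pointwise_smul_iff_inv_smul_mem] at hmem
    simpa using hmem
  have hp : IsPGroup p (P : Subgroup G).normalCore :=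
    P.isPGroup'.to_le (Subgroup.normalCore_le _)
  exact le_fitting _ (Subgroup.normalCore_normal _) hp.isNilpotent hcore

theorem mem_fitting_of_good {G : Type*} [Group G] [Finite G] :
    ∀ (n : ℕ) (x : G), orderOf x = n → (∀ H : Subgroup G, x ^ H.index ∈ H) →
      x ∈ Cfsg.fittingSubgroup G := by
  intro n
  induction n using Nat.strong_induction_on with
  | _ n ih =>
    intro x hx hgood
    by_cases h1 : n = 1
    · rw [h1, orderOf_eq_one_iff] at hx
      rw [hx]; exact Subgroup.one_mem _
    · have hn0 : n ≠ 0 := by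
        rw [← hx]; exact (orderOf_pos x).ne'
      have hp : (Nat.minFac n).Prime := Nat.minFac_prime h1
      have : Fact (Nat.minFac n).Prime := ⟨hp⟩
      set p := Nat.minFac n with hpdef
      set a := p ^ n.factorization p with ha
      set m := n / a with hm
      have ham : a * m = n := Nat.mul_div_cancel' (Nat.ordProj_dvd n p)
      have hcop : a.Coprime m := Nat.Coprime.pow_left _ (Nat.coprime_ordCompl hp hn0)
      have hfpos : 0 < n.factorization p :=
        hp.factorization_pos_of_dvd hn0 (Nat.minFac_dvd n)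
      have ha1 : 1 < a := Nat.one_lt_pow hfpos.ne' hp.one_lt
      have hmpos : 0 < m := by
        rcases Nat.eq_zero_or_pos m with h0 | h0
        · rw [h0, mul_zero] at ham; exact absurd ham.symm hn0
        · exact h0
      have hmlt : m < n := by
        calc m = 1 * m := (one_mul m).symm
          _ < a * m := Nat.mul_lt_mul_of_pos_right ha1 hmpos
          _ = n := ham
      -- x ^ m is a p-element
      have hxm : (x ^ m) ^ (p ^ n.factorization p) = 1 := by
        rw [← pow_mul, mul_comm, ← ha, ham, ← hx]; exact pow_orderOf_eq_one x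
      have hgm : ∀ H : Subgroup G, (x ^ m) ^ H.index ∈ H := by
        intro H
        rw [← pow_mul, mul_comm, pow_mul]
        exact H.pow_mem (hgood H) m
      have hxmF := pelem_mem p _ (x ^ m) hxm hgm
      -- x ^ a has order m < n
      have hord : orderOf (x ^ a) = m := by
        rw [orderOf_pow' x (by omega : a ≠ 0), hx, ← ham, Nat.gcd_eq_right (Dvd.intro m rfl)]
        exact Nat.mul_div_cancel_left m (by omega)
      have hga : ∀ H : Subgroup G, (x ^ a) ^ H.index ∈ H := by
        intro H
        rw [← pow_mul, mul_comm, pow_mul]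
        exact H.pow_mem (hgood H) a
      have hxaF := ih m hmlt (x ^ a) hord hga
      -- combine
      have hxn : x ^ (a * m) = 1 := by rw [ham, ← hx]; exact pow_orderOf_eq_one x
      have hb := Int.gcd_eq_gcd_ab a m
      have hb1 : ((a : ℤ).gcd (m : ℤ) : ℤ) = 1 := by
        rw [Int.gcd_natCast_natCast]; exact_mod_cast hcop
      rw [hb1] at hb
      have hxe : x = (x ^ a) ^ (Int.gcdA a m) * (x ^ m) ^ (Int.gcdB a m) := by
        rw [← zpow_natCast, ← zpow_natCast, ← zpow_mul, ← zpow_mul, ← zpow_add, ← hb, zpow_one]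
      rw [hxe]
      exact Subgroup.mul_mem _ (Subgroup.zpow_mem _ hxaF _) (Subgroup.zpow_mem _ hxmF _)


/-- Let G be a finite group. An element x lies in the Fitting subgroup F(G) if and only if, for every subgroup H of G, the power x^[G : H] lies in H. -/
theorem result {G : Type*} [Group G] [Finite G] (x : G) :
    x ∈ Cfsg.fittingSubgroup G ↔ ∀ H : Subgroup G, x ^ H.index ∈ H := by
  constructor
  · intro hx H
    have := fitting_normal' (G := G)
    exact pow_index_mem_of_mem_normal_nilpotent _ fitting_nilpotent hx H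
  · intro h
    exact mem_fitting_of_good _ x rfl h

end Cfsg.Agent.S4263
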