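import Cfsg.Statements.S4269
-- import your own Cfsg.Agent.* helpers here

set_option autoImplicit false
open Cfsg

namespace Cfsg.Agent.S4269

open scoped commutatorElement

theorem map_conj_mul {G : Type*} [Group G] (K : Subgroup G) (a b : G) :
    K.map (MulAut.conj (a * b)).toMonoidHom =
      (K.map (MulAut.conj b).toMonoidHom).map (MulAut.conj a).toMonoidHom := by
  rw [Subgroup.map_map]
  congr 1
  ext t
  simp [MulAut.conj_apply, mul_assoc]

theorem map_conj_one {G : Type*} [Group G] (K : Subgroup G) :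
    K.map (MulAut.conj (1 : G)).toMonoidHom = K := by
  ext t
  simp [Subgroup.mem_map]

theorem map_conj_cancel {G : Type*} [Group G] (K : Subgroup G) (a : G) :
    (K.map (MulAut.conj a).toMonoidHom).map (MulAut.conj a⁻¹).toMonoidHom = K := by
  rw [← map_conj_mul, inv_mul_cancel, map_conj_one]

theorem mem_normalizer_iff_map {G : Type*} [Group G] {H : Subgroup G} {g : G} :
    g ∈ Subgroup.normalizer (H : Set G) ↔ H.map (MulAut.conj g).toMonoidHom = H :=
  Subgroup.mem_normalizer_iff_map_conj_eq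

theorem exists_mul_of_mem_sup {G : Type*} [Group G] (C A : Subgroup G)
    (hA : ∀ a ∈ A, C.map (MulAut.conj a).toMonoidHom = C) {x : G} (hx : x ∈ C ⊔ A) :
    ∃ c ∈ C, ∃ a ∈ A, x = c * a := by
  have hle : A ≤ Subgroup.normalizer (C : Set G) := fun a ha =>
    mem_normalizer_iff_map.mpr (hA a ha)
  have h1 := Subgroup.coe_mul_of_right_le_normalizer_left C A hle
  have hx' : x ∈ ((C ⊔ A : Subgroup G) : Set G) := hx
  rw [h1] at hx'
  obtain ⟨c, hc, a, ha, rfl⟩ := Set.mem_mul.mp hx'
  exact ⟨c, hc, a, ha, rfl⟩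

theorem commutator_le_of_invariant {G : Type*} [Group G] (H U : Subgroup G)
    (hUH : ∀ h ∈ H, U.map (MulAut.conj h).toMonoidHom = U) : ⁅H, U⁆ ≤ U := by
  rw [Subgroup.commutator_le]
  intro h hh u hu
  have h1 : h * u * h⁻¹ ∈ U := by
    have : h * u * h⁻¹ ∈ U.map (MulAut.conj h).toMonoidHom :=
      ⟨u, hu, by simp [MulAut.conj_apply]⟩
    rwa [hUH h hh] at this
  have : ⁅h, u⁆ = h * u * h⁻¹ * u⁻¹ := rfl
  rw [this]
  exact U.mul_mem h1 (U.inv_mem hu)


/-- Let G be a finite group, V an abelian normal subgroup and H a subgroup with HV = G. Then H is pronormal in G (H and gHg⁻¹ are conjugate inside the subgroup they generate, for every g) if and only if every H-invariant subgroup U of V satisfies U = N_U(H)·[H, U], that is, U is the join of U ∩ N_G(H) and the commutator subgroup [H, U]. -/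
theorem result {G : Type*} [Group G] [Finite G]
    (V : Subgroup G) [V.Normal] (hV : IsMulCommutative ↥V) (H : Subgroup G) (hHV : H ⊔ V = ⊤) :
    Cfsg.IsPronormal H ↔
      ∀ U : Subgroup G, U ≤ V → (∀ h ∈ H, U.map (MulAut.conj h).toMonoidHom = U) →
        U = (U ⊓ Subgroup.normalizer (H : Set G)) ⊔ ⁅H, U⁆ := by
  have hVn : V.Normal := inferInstance
  have hcomm : ∀ a ∈ V, ∀ b ∈ V, a * b = b * a := fun a ha b hb =>
    congrArg Subtype.val (mul_comm' (⟨a, ha⟩ : V) ⟨b, hb⟩)
  constructor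
  · intro hpro U hUV hUH
    have hCU : ⁅H, U⁆ ≤ U := commutator_le_of_invariant H U hUH
    apply le_antisymm
    · intro u hu
      obtain ⟨x, hx, hxe⟩ := hpro u
      have hCH : ∀ h ∈ H, (⁅H, U⁆).map (MulAut.conj h).toMonoidHom = ⁅H, U⁆ := by
        intro h hh
        rw [Subgroup.map_commutator, hUH h hh,
          mem_normalizer_iff_map.mp (Subgroup.le_normalizer hh)]
      have hle : H ⊔ H.map (MulAut.conj u).toMonoidHom ≤ ⁅H, U⁆ ⊔ H := by
        apply sup_le le_sup_right
        rintro _ ⟨h, hh, rfl⟩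
        have : (MulAut.conj u).toMonoidHom h = ⁅h, u⁆⁻¹ * h := by
          simp only [commutatorElement_def, MulEquiv.coe_toMonoidHom, MulAut.conj_apply]
          group
        rw [this]
        exact Subgroup.mul_mem _
          (Subgroup.mem_sup_left (Subgroup.inv_mem _ (Subgroup.commutator_mem_commutator hh hu)))
          (Subgroup.mem_sup_right hh)
      obtain ⟨c, hc, h, hh, rfl⟩ := exists_mul_of_mem_sup _ _ hCH (hle hx)
      have hcn : c⁻¹ * u ∈ Subgroup.normalizer (H : Set G) := by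
        rw [mem_normalizer_iff_map, map_conj_mul, hxe, map_conj_mul,
          mem_normalizer_iff_map.mp (Subgroup.le_normalizer hh), map_conj_cancel]
      have hcu : c⁻¹ * u ∈ U := U.mul_mem (U.inv_mem (hCU hc)) hu
      have : u = c * (c⁻¹ * u) := by group
      rw [this]
      exact Subgroup.mul_mem _ (Subgroup.mem_sup_right hc) (Subgroup.mem_sup_left ⟨hcu, hcn⟩)
    · exact sup_le inf_le_left hCU
  · intro hcond g
    have hg : g ∈ V ⊔ H := by rw [sup_comm, hHV]; trivial
    obtain ⟨v, hv, h, hh, rfl⟩ := Subgroup.mem_sup_of_normal_left.mp hg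
    have hHh : H.map (MulAut.conj h).toMonoidHom = H :=
      mem_normalizer_iff_map.mp (Subgroup.le_normalizer hh)
    rw [map_conj_mul, hHh]
    have hUV : Subgroup.closure {y | ∃ k ∈ H, y = k * v * k⁻¹} ≤ V := by
      rw [Subgroup.closure_le]
      rintro _ ⟨k, hk, rfl⟩
      exact hVn.conj_mem v hv k
    have hUle : ∀ h ∈ H, (Subgroup.closure {y | ∃ k ∈ H, y = k * v * k⁻¹}).map
        (MulAut.conj h).toMonoidHom ≤ Subgroup.closure {y | ∃ k ∈ H, y = k * v * k⁻¹} := by
      intro h hh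
      rw [MonoidHom.map_closure, Subgroup.closure_le]
      rintro _ ⟨_, ⟨k, hk, rfl⟩, rfl⟩
      apply Subgroup.subset_closure
      exact ⟨h * k, H.mul_mem hh hk, by simp [MulAut.conj_apply, mul_assoc]⟩
    have hUH : ∀ h ∈ H, (Subgroup.closure {y | ∃ k ∈ H, y = k * v * k⁻¹}).map
        (MulAut.conj h).toMonoidHom = Subgroup.closure {y | ∃ k ∈ H, y = k * v * k⁻¹} := by
      intro h hh
      apply le_antisymm (hUle h hh)
      have := Subgroup.map_mono (f := (MulAut.conj h).toMonoidHom) (hUle h⁻¹ (H.inv_mem hh))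
      rwa [← map_conj_mul, mul_inv_cancel, map_conj_one] at this
    have hvU : v ∈ Subgroup.closure {y | ∃ k ∈ H, y = k * v * k⁻¹} :=
      Subgroup.subset_closure ⟨1, H.one_mem, by simp⟩
    have hdec := hcond _ hUV hUH
    have hCU := commutator_le_of_invariant H _ hUH
    have hCJ : ⁅H, Subgroup.closure {y | ∃ k ∈ H, y = k * v * k⁻¹}⁆ ≤
        H ⊔ H.map (MulAut.conj v).toMonoidHom := by
      rw [Subgroup.commutator_le]
      intro h hh u hu
      revert h
      refine Subgroup.closure_induction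
        (p := fun u _ => ∀ h ∈ H, ⁅h, u⁆ ∈ H ⊔ H.map (MulAut.conj v).toMonoidHom) ?_ ?_ ?_ ?_ hu
      · rintro _ ⟨k, hk, rfl⟩ h hh
        have : ⁅h, k * v * k⁻¹⁆ =
            k * ((k⁻¹ * h * k) * (v * (k⁻¹ * h * k)⁻¹ * v⁻¹)) * k⁻¹ := by
          simp only [commutatorElement_def]; group
        rw [this]
        have hkJ : k ∈ H ⊔ H.map (MulAut.conj v).toMonoidHom := Subgroup.mem_sup_left hk
        have hk' : k⁻¹ * h * k ∈ H := H.mul_mem (H.mul_mem (H.inv_mem hk) hh) hk
        refine Subgroup.mul_mem _ (Subgroup.mul_mem _ hkJ (Subgroup.mul_mem _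
          (Subgroup.mem_sup_left hk') (Subgroup.mem_sup_right ?_))) (Subgroup.inv_mem _ hkJ)
        exact ⟨(k⁻¹ * h * k)⁻¹, H.inv_mem hk', by simp [MulAut.conj_apply]⟩
      · intro h hh
        have : ⁅h, (1 : G)⁆ = 1 := by simp [commutatorElement_def]
        rw [this]; exact Subgroup.one_mem _
      · intro u1 u2 hu1 hu2 ih1 ih2 h hh
        have h1V : u1 ∈ V := hUV hu1
        have h2V : u2 ∈ V := hUV hu2
        have hc2 : ⁅h, u2⁆ ∈ V := by
          rw [commutatorElement_def]
          exact V.mul_mem (hVn.conj_mem u2 h2V h) (V.inv_mem h2V)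
        have : ⁅h, u1 * u2⁆ = ⁅h, u1⁆ * ⁅h, u2⁆ := by
          have e : ⁅h, u1 * u2⁆ = ⁅h, u1⁆ * (u1 * ⁅h, u2⁆ * u1⁻¹) := by
            simp only [commutatorElement_def]; group
          rw [e, hcomm u1 h1V _ hc2, mul_inv_cancel_right]
        rw [this]; exact Subgroup.mul_mem _ (ih1 h hh) (ih2 h hh)
      · intro u hu ih h hh
        have hVu : u ∈ V := hUV hu
        have hc : ⁅h, u⁆ ∈ V := by
          rw [commutatorElement_def]
          exact V.mul_mem (hVn.conj_mem u hVu h) (V.inv_mem hVu)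
        have : ⁅h, u⁻¹⁆ = (⁅h, u⁆)⁻¹ := by
          have e : ⁅h, u⁻¹⁆ = u⁻¹ * (⁅h, u⁆)⁻¹ * u := by
            simp only [commutatorElement_def]; group
          rw [e, hcomm u⁻¹ (V.inv_mem hVu) _ (V.inv_mem hc), inv_mul_cancel_right]
        rw [this]; exact Subgroup.inv_mem _ (ih h hh)
    have hvdec : v ∈ ⁅H, Subgroup.closure {y | ∃ k ∈ H, y = k * v * k⁻¹}⁆ ⊔
        (Subgroup.closure {y | ∃ k ∈ H, y = k * v * k⁻¹} ⊓ Subgroup.normalizer (H : Set G)) := by
      rw [sup_comm, ← hdec]; exact hvU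
    have hnorm : ∀ a ∈ Subgroup.closure {y | ∃ k ∈ H, y = k * v * k⁻¹} ⊓
        Subgroup.normalizer (H : Set G),
        (⁅H, Subgroup.closure {y | ∃ k ∈ H, y = k * v * k⁻¹}⁆).map (MulAut.conj a).toMonoidHom =
          ⁅H, Subgroup.closure {y | ∃ k ∈ H, y = k * v * k⁻¹}⁆ := by
      intro a ha
      have hfix : ∀ c ∈ ⁅H, Subgroup.closure {y | ∃ k ∈ H, y = k * v * k⁻¹}⁆,
          (MulAut.conj a).toMonoidHom c = c := by
        intro c hc
        have hcV : c ∈ V := hUV (hCU hc)
        simp only [MulEquiv.coe_toMonoidHom, MulAut.conj_apply]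
        rw [hcomm a (hUV ha.1) c hcV, mul_inv_cancel_right]
      ext t
      constructor
      · rintro ⟨c, hc, rfl⟩
        rw [hfix c hc]; exact hc
      · intro hc
        exact ⟨t, hc, hfix t hc⟩
    obtain ⟨c, hc, n, hn, hvcn⟩ := exists_mul_of_mem_sup _ _ hnorm hvdec
    refine ⟨c, hCJ hc, ?_⟩
    have e : H.map (MulAut.conj (c * n)).toMonoidHom = H.map (MulAut.conj c).toMonoidHom := by
      rw [map_conj_mul, mem_normalizer_iff_map.mp hn.2]
    rw [← e, ← hvcn]

end Cfsg.Agent.S4269
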