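import Cfsg.Statements.S4331
import Mathlib
import Cfsg.Agent.Lib.Helper5.WielandtFamily2
import Cfsg.Agent.Lib.Helper17.PCore

set_option autoImplicit false
open Cfsg

namespace Cfsg.Agent.S4331

section model

variable {F : Type} [Field F]

theorem cube_add (h3 : (3 : F) = 0) (x y : F) : (x + y) ^ 3 = x ^ 3 + y ^ 3 := by
  linear_combination (x ^ 2 * y + x * y ^ 2) * h3

theorem cube_sub (h3 : (3 : F) = 0) (x y : F) : (x - y) ^ 3 = x ^ 3 - y ^ 3 := by
  linear_combination (- x ^ 2 * y + x * y ^ 2) * h3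

/-- affine maps -/
def aff (c b : F) (hc : c ≠ 0) : Equiv.Perm F where
  toFun x := c * x + b
  invFun y := c⁻¹ * (y - b)
  left_inv x := by
    show c⁻¹ * (c * x + b - b) = x
    field_simp
    ring
  right_inv y := by
    show c * (c⁻¹ * (y - b)) + b = y
    field_simp
    ring

theorem aff_apply (c b : F) (hc : c ≠ 0) (x : F) : aff c b hc x = c * x + b := rfl

/-- semi-affine maps -/
def saff (h9 : ∀ x : F, x ^ 9 = x) (c b : F) (hc : c ≠ 0) : Equiv.Perm F where
  toFun x := c * x ^ 3 + b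
  invFun y := (c⁻¹ * (y - b)) ^ 3
  left_inv x := by
    show (c⁻¹ * (c * x ^ 3 + b - b)) ^ 3 = x
    have : c⁻¹ * (c * x ^ 3 + b - b) = x ^ 3 := by
      field_simp
      ring
    rw [this, ← pow_mul]
    exact h9 x
  right_inv y := by
    show c * ((c⁻¹ * (y - b)) ^ 3) ^ 3 + b = y
    rw [← pow_mul, h9]
    field_simp
    ring

theorem saff_apply (h9 : ∀ x : F, x ^ 9 = x) (c b : F) (hc : c ≠ 0) (x : F) :
    saff h9 c b hc x = c * x ^ 3 + b := rfl

/-- the group of semi-affine maps of a field of order nine -/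
def GG (h9 : ∀ x : F, x ^ 9 = x) (h3 : (3 : F) = 0) : Subgroup (Equiv.Perm F) where
  carrier := {σ | ∃ c b : F, c ≠ 0 ∧ ((∀ x, σ x = c * x + b) ∨ (∀ x, σ x = c * x ^ 3 + b))}
  mul_mem' := by
    rintro σ τ ⟨c, b, hc, h1⟩ ⟨d, e, hd, h2⟩
    rcases h1 with h1 | h1 <;> rcases h2 with h2 | h2
    · refine ⟨c * d, c * e + b, mul_ne_zero hc hd, Or.inl ?_⟩
      intro x
      rw [Equiv.Perm.mul_apply, h2, h1]; ring
    · refine ⟨c * d, c * e + b, mul_ne_zero hc hd, Or.inr ?_⟩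
      intro x
      rw [Equiv.Perm.mul_apply, h2, h1]; ring
    · refine ⟨c * d ^ 3, c * e ^ 3 + b, mul_ne_zero hc (pow_ne_zero 3 hd), Or.inr ?_⟩
      intro x
      rw [Equiv.Perm.mul_apply, h2, h1, cube_add h3, mul_pow]; ring
    · refine ⟨c * d ^ 3, c * e ^ 3 + b, mul_ne_zero hc (pow_ne_zero 3 hd), Or.inl ?_⟩
      intro x
      rw [Equiv.Perm.mul_apply, h2, h1, cube_add h3, mul_pow, ← pow_mul, h9]; ring
  one_mem' := ⟨1, 0, one_ne_zero, Or.inl (fun x => by simp)⟩
  inv_mem' := by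
    rintro σ ⟨c, b, hc, h1⟩
    rcases h1 with h1 | h1
    · refine ⟨c⁻¹, -(c⁻¹ * b), inv_ne_zero hc, Or.inl ?_⟩
      intro y
      rw [Equiv.Perm.inv_eq_iff_eq, h1]
      field_simp
      ring
    · refine ⟨(c⁻¹) ^ 3, -((c⁻¹) ^ 3 * b ^ 3), pow_ne_zero 3 (inv_ne_zero hc), Or.inr ?_⟩
      intro y
      rw [Equiv.Perm.inv_eq_iff_eq, h1]
      have e1 : (c⁻¹ ^ 3 * y ^ 3 + -(c⁻¹ ^ 3 * b ^ 3)) = (c⁻¹ * (y - b)) ^ 3 := by
        rw [mul_pow, cube_sub h3]; ring
      rw [e1, ← pow_mul, h9]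
      field_simp
      ring

theorem mem_GG (h9 : ∀ x : F, x ^ 9 = x) (h3 : (3 : F) = 0) (σ : Equiv.Perm F) :
    σ ∈ GG h9 h3 ↔ ∃ c b : F, c ≠ 0 ∧ ((∀ x, σ x = c * x + b) ∨ (∀ x, σ x = c * x ^ 3 + b)) :=
  Iff.rfl

theorem aff_mem (h9 : ∀ x : F, x ^ 9 = x) (h3 : (3 : F) = 0) (c b : F) (hc : c ≠ 0) :
    aff c b hc ∈ GG h9 h3 := ⟨c, b, hc, Or.inl (fun _ => rfl)⟩

theorem saff_mem (h9 : ∀ x : F, x ^ 9 = x) (h3 : (3 : F) = 0) (c b : F) (hc : c ≠ 0) :
    saff h9 c b hc ∈ GG h9 h3 := ⟨c, b, hc, Or.inr (fun _ => rfl)⟩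

/-- every element is conjugate to one fixing zero or one commuting with the field automorphism -/
theorem key [Finite F] (h9 : ∀ x : F, x ^ 9 = x) (h3 : (3 : F) = 0) (σ : Equiv.Perm F)
    (hσ : σ ∈ GG h9 h3) :
    ∃ u ∈ GG h9 h3, ∃ g ∈ GG h9 h3, σ * u = u * g ∧
      (g 0 = 0 ∨ saff h9 1 0 one_ne_zero * g = g * saff h9 1 0 one_ne_zero) := by
  obtain ⟨c, b, hc, h1 | h1⟩ := hσ
  · by_cases hc1 : c = 1
    · by_cases hb : b = 0
      · refine ⟨1, Subgroup.one_mem _, 1, Subgroup.one_mem _, ?_, Or.inl rfl⟩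
        have : σ = 1 := by
          ext x
          rw [h1, hc1, hb]; simp
        rw [this]
      · refine ⟨aff b 0 hb, aff_mem h9 h3 _ _ _, aff 1 1 one_ne_zero, aff_mem h9 h3 _ _ _, ?_,
          Or.inr ?_⟩
        · ext x
          rw [Equiv.Perm.mul_apply, Equiv.Perm.mul_apply, h1, aff_apply, aff_apply, aff_apply,
            hc1]
          ring
        · ext x
          rw [Equiv.Perm.mul_apply, Equiv.Perm.mul_apply, saff_apply, aff_apply, aff_apply,
            saff_apply, cube_add h3]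
          ring
    · have h1c : 1 - c ≠ 0 := fun h => hc1 (by linear_combination -h)
      refine ⟨aff 1 (b / (1 - c)) one_ne_zero, aff_mem h9 h3 _ _ _, aff c 0 hc,
        aff_mem h9 h3 _ _ _, ?_, Or.inl ?_⟩
      · ext x
        rw [Equiv.Perm.mul_apply, Equiv.Perm.mul_apply, h1, aff_apply, aff_apply, aff_apply]
        field_simp
        ring
      · rw [aff_apply]; ring
  · by_cases hinj : Function.Injective (fun x : F => c * x ^ 3 - x)
    · obtain ⟨x₀, hx₀⟩ := (Finite.injective_iff_surjective.mp hinj) (-b)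
      have hx₀' : c * x₀ ^ 3 - x₀ = -b := hx₀
      refine ⟨aff 1 x₀ one_ne_zero, aff_mem h9 h3 _ _ _, saff h9 c 0 hc, saff_mem h9 h3 _ _ _,
        ?_, Or.inl ?_⟩
      · ext x
        rw [Equiv.Perm.mul_apply, Equiv.Perm.mul_apply, h1, aff_apply, aff_apply, saff_apply,
          one_mul, cube_add h3]
        linear_combination hx₀'
      · rw [saff_apply]; ring
    · obtain ⟨x₁, x₂, h12, hne⟩ : ∃ x₁ x₂ : F, c * x₁ ^ 3 - x₁ = c * x₂ ^ 3 - x₂ ∧ x₁ ≠ x₂ := by
        by_contra hno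
        apply hinj
        intro x₁ x₂ h
        by_contra hne
        exact hno ⟨x₁, x₂, h, hne⟩
      obtain ⟨y, hy⟩ : ∃ y : F, y = x₁ - x₂ := ⟨_, rfl⟩
      have hy0 : y ≠ 0 := by
        rw [hy]; exact sub_ne_zero.mpr hne
      have hcy : c * y ^ 3 = y := by
        rw [hy, cube_sub h3]
        linear_combination h12
      obtain ⟨b', hb'⟩ : ∃ b' : F, b' = b / y := ⟨_, rfl⟩
      have hbb : b = y * b' := by
        rw [hb']; field_simp
      have hfix : (-(b' ^ 3 + b')) ^ 3 = -(b' ^ 3 + b') := by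
        have e : (-(b' ^ 3 + b')) ^ 3 = -((b' ^ 3 + b') ^ 3) := by ring
        rw [e, cube_add h3, ← pow_mul, h9]
        ring
      refine ⟨aff y (-(y * b')) hy0, aff_mem h9 h3 _ _ _, saff h9 1 (-(b' ^ 3 + b')) one_ne_zero,
        saff_mem h9 h3 _ _ _, ?_, Or.inr ?_⟩
      · ext x
        rw [Equiv.Perm.mul_apply, Equiv.Perm.mul_apply, h1, aff_apply, aff_apply, saff_apply]
        have e : (y * x + -(y * b')) ^ 3 = y ^ 3 * x ^ 3 - y ^ 3 * b' ^ 3 := by
          have : y * x + -(y * b') = y * x - y * b' := by ring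
          rw [this, cube_sub h3, mul_pow, mul_pow]
        rw [e, hbb]
        linear_combination (x ^ 3 - b' ^ 3) * hcy + (y * b') * h3
      · ext x
        rw [Equiv.Perm.mul_apply, Equiv.Perm.mul_apply, saff_apply, saff_apply, saff_apply,
          saff_apply, cube_add h3, mul_pow, hfix]
        ring

/-- the square of every element is affine with a multiplier of order dividing four -/
theorem sq_aff (h9 : ∀ x : F, x ^ 9 = x) (h3 : (3 : F) = 0) (h8 : ∀ x : F, x ≠ 0 → x ^ 8 = 1)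
    (σ : Equiv.Perm F) (hσ : σ ∈ GG h9 h3) :
    ∃ c b : F, c ^ 4 = 1 ∧ ∀ x, (σ * σ) x = c * x + b := by
  obtain ⟨c, b, hc, h1 | h1⟩ := hσ
  · refine ⟨c ^ 2, c * b + b, ?_, ?_⟩
    · rw [← pow_mul]; exact h8 c hc
    · intro x
      rw [Equiv.Perm.mul_apply, h1, h1]; ring
  · refine ⟨c ^ 4, c * b ^ 3 + b, ?_, ?_⟩
    · rw [← pow_mul]
      have : c ^ (4 * 4) = (c ^ 8) ^ 2 := by ring
      rw [this, h8 c hc, one_pow]
    · intro x
      rw [Equiv.Perm.mul_apply, h1, h1, cube_add h3, mul_pow, ← pow_mul, h9]; ring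

theorem pow_aff (σ : Equiv.Perm F) (c b : F) (h : ∀ x, σ x = c * x + b) (n : ℕ) :
    ∃ d : F, ∀ x, (σ ^ n) x = c ^ n * x + d := by
  induction n with
  | zero => exact ⟨0, fun x => by simp⟩
  | succ n ih =>
    obtain ⟨d, hd⟩ := ih
    refine ⟨c ^ n * b + d, fun x => ?_⟩
    rw [pow_succ, Equiv.Perm.mul_apply, hd, h]; ring

/-- the eighth power of every element is a translation -/
theorem pow_eight (h9 : ∀ x : F, x ^ 9 = x) (h3 : (3 : F) = 0) (h8 : ∀ x : F, x ≠ 0 → x ^ 8 = 1)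
    (σ : Equiv.Perm F) (hσ : σ ∈ GG h9 h3) : ∃ d : F, ∀ x, (σ ^ 8) x = x + d := by
  obtain ⟨c, b, hc, h⟩ := sq_aff h9 h3 h8 σ hσ
  obtain ⟨d, hd⟩ := pow_aff (σ * σ) c b h 4
  refine ⟨d, fun x => ?_⟩
  have e : σ ^ 8 = (σ * σ) ^ 4 := by
    rw [← pow_two, ← pow_mul]
  rw [e, hd, hc, one_mul]

end model

section abstract

variable {Γ : Type*} [Group Γ] [Finite Γ]

theorem subn_of_two_group (S : Subgroup Γ) (hS : IsPGroup 2 S) (a g : Γ) (ha : a ∈ S)
    (hg : g ∈ S) :
    ((Subgroup.zpowers a).subgroupOf (Subgroup.zpowers a ⊔ Subgroup.zpowers g)).IsSubnormal := by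
  have hle : Subgroup.zpowers a ⊔ Subgroup.zpowers g ≤ S :=
    sup_le (by rw [Subgroup.zpowers_le]; exact ha) (by rw [Subgroup.zpowers_le]; exact hg)
  have hK : IsPGroup 2 ↥(Subgroup.zpowers a ⊔ Subgroup.zpowers g) := hS.to_le hle
  have : Fact (Nat.Prime 2) := ⟨Nat.prime_two⟩
  have hnil : Group.IsNilpotent ↥(Subgroup.zpowers a ⊔ Subgroup.zpowers g) := hK.isNilpotent
  exact Cfsg.Agent.Lib.Helper5.isSubnormal_of_isNilpotent _

omit [Finite Γ] in
theorem subn_of_commute (a g : Γ) (h : a * g = g * a) :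
    ((Subgroup.zpowers a).subgroupOf (Subgroup.zpowers a ⊔ Subgroup.zpowers g)).IsSubnormal := by
  have hle : Subgroup.zpowers a ⊔ Subgroup.zpowers g ≤ Subgroup.centralizer {a} := by
    apply sup_le
    · rw [Subgroup.zpowers_le]; exact Subgroup.mem_centralizer_singleton_iff.mpr rfl
    · rw [Subgroup.zpowers_le]; exact Subgroup.mem_centralizer_singleton_iff.mpr h.symm
  have hn : ((Subgroup.zpowers a).subgroupOf
      (Subgroup.zpowers a ⊔ Subgroup.zpowers g)).Normal := by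
    constructor
    intro n hn k
    rw [Subgroup.mem_subgroupOf] at hn ⊢
    have hk : (k : Γ) * a = a * (k : Γ) := Subgroup.mem_centralizer_singleton_iff.mp (hle k.2)
    obtain ⟨i, hi⟩ := Subgroup.mem_zpowers_iff.mp hn
    have hcomm : Commute (k : Γ) (a ^ i) := (Commute.zpow_right hk i)
    have : ((k * n * k⁻¹ : ↥(Subgroup.zpowers a ⊔ Subgroup.zpowers g)) : Γ) = a ^ i := by
      push_cast
      rw [← hi, hcomm.eq, mul_inv_cancel_right]
    rw [this]
    exact Subgroup.zpow_mem _ (Subgroup.mem_zpowers a) i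
  exact hn.isSubnormal

end abstract

theorem main {F : Type} [Field F] [Fintype F] (h9 : ∀ x : F, x ^ 9 = x) (h3 : (3 : F) = 0)
    (h8 : ∀ x : F, x ≠ 0 → x ^ 8 = 1) (hex : ∃ b : F, b ^ 3 ≠ b) :
    ∃ (G : Type) (_ : Group G) (_ : Finite G) (A : Subgroup G), Group.IsSolvable G ∧
      Nat.card A = 2 ∧
      (∀ c : G, ∃ g : G, IsConj c g ∧ (A.subgroupOf (A ⊔ Subgroup.zpowers g)).IsSubnormal) ∧
      ¬ A ≤ Cfsg.pCore 2 G := by
  classical
  have : Fact (Nat.Prime 2) := ⟨Nat.prime_two⟩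
  obtain ⟨a, ha⟩ : ∃ a : ↥(GG h9 h3), a = ⟨saff h9 1 0 one_ne_zero, saff_mem h9 h3 _ _ _⟩ :=
    ⟨_, rfl⟩
  have ha_apply : ∀ x : F, (a : Equiv.Perm F) x = x ^ 3 := by
    intro x
    rw [ha]
    show saff h9 1 0 one_ne_zero x = x ^ 3
    rw [saff_apply]; ring
  -- the translation subgroup
  let V : Subgroup ↥(GG h9 h3) :=
    { carrier := {σ | ∃ b : F, ∀ x, (σ : Equiv.Perm F) x = x + b}
      mul_mem' := by
        rintro σ τ ⟨b, hb⟩ ⟨e, he⟩
        refine ⟨e + b, fun x => ?_⟩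
        rw [Subgroup.coe_mul, Equiv.Perm.mul_apply, he, hb]; ring
      one_mem' := ⟨0, fun x => by simp⟩
      inv_mem' := by
        rintro σ ⟨b, hb⟩
        refine ⟨-b, fun x => ?_⟩
        rw [Subgroup.coe_inv, Equiv.Perm.inv_eq_iff_eq, hb]; ring }
  have hVmem : ∀ σ : ↥(GG h9 h3), σ ∈ V ↔ ∃ b : F, ∀ x, (σ : Equiv.Perm F) x = x + b :=
    fun σ => Iff.rfl
  have hVn : V.Normal := by
    constructor
    intro n hn g
    obtain ⟨b, hb⟩ := (hVmem n).mp hn
    obtain ⟨c, d, hc, h1 | h1⟩ := g.2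
    · refine (hVmem _).mpr ⟨c * b, fun y => ?_⟩
      have e : y = c * ((g : Equiv.Perm F)⁻¹ y) + d := by
        rw [← h1]; simp
      rw [Subgroup.coe_mul, Subgroup.coe_mul, Subgroup.coe_inv, Equiv.Perm.mul_apply,
        Equiv.Perm.mul_apply, hb, h1]
      linear_combination -e
    · refine (hVmem _).mpr ⟨c * b ^ 3, fun y => ?_⟩
      have e : y = c * ((g : Equiv.Perm F)⁻¹ y) ^ 3 + d := by
        rw [← h1]; simp
      rw [Subgroup.coe_mul, Subgroup.coe_mul, Subgroup.coe_inv, Equiv.Perm.mul_apply,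
        Equiv.Perm.mul_apply, hb, h1, cube_add h3]
      linear_combination -e
  have hVcomm : ∀ x y : V, x * y = y * x := by
    intro x y
    obtain ⟨b, hb⟩ := (hVmem x).mp x.2
    obtain ⟨e, he⟩ := (hVmem y).mp y.2
    apply Subtype.ext
    apply Subtype.ext
    ext z
    show ((x : ↥(GG h9 h3)) : Equiv.Perm F) (((y : ↥(GG h9 h3)) : Equiv.Perm F) z)
      = ((y : ↥(GG h9 h3)) : Equiv.Perm F) (((x : ↥(GG h9 h3)) : Equiv.Perm F) z)
    rw [he, hb, hb, he]; ring
  have hV3 : ∀ v ∈ V, v ^ 3 = 1 := by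
    intro v hv
    obtain ⟨b, hb⟩ := (hVmem v).mp hv
    apply Subtype.ext
    ext z
    show ((v ^ 3 : ↥(GG h9 h3)) : Equiv.Perm F) z = z
    rw [Subgroup.coe_pow, pow_succ, pow_two, Equiv.Perm.mul_apply, Equiv.Perm.mul_apply, hb, hb,
      hb]
    linear_combination b * h3
  have hpow8 : ∀ σ : ↥(GG h9 h3), σ ^ 8 ∈ V := by
    intro σ
    obtain ⟨d, hd⟩ := pow_eight h9 h3 h8 σ σ.2
    exact (hVmem _).mpr ⟨d, fun x => by rw [Subgroup.coe_pow]; exact hd x⟩
  -- the stabilizer of zero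
  let S : Subgroup ↥(GG h9 h3) :=
    { carrier := {σ | (σ : Equiv.Perm F) 0 = 0}
      mul_mem' := by
        intro σ τ hσ hτ
        show ((σ * τ : ↥(GG h9 h3)) : Equiv.Perm F) 0 = 0
        rw [Subgroup.coe_mul, Equiv.Perm.mul_apply]
        rw [show ((τ : Equiv.Perm F) 0 = 0) from hτ]
        exact hσ
      one_mem' := rfl
      inv_mem' := by
        intro σ hσ
        show ((σ⁻¹ : ↥(GG h9 h3)) : Equiv.Perm F) 0 = 0
        rw [Subgroup.coe_inv, Equiv.Perm.inv_eq_iff_eq]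
        exact (show ((σ : Equiv.Perm F) 0 = 0) from hσ).symm }
  have hSmem : ∀ σ : ↥(GG h9 h3), σ ∈ S ↔ (σ : Equiv.Perm F) 0 = 0 := fun σ => Iff.rfl
  have hS2 : IsPGroup 2 S := by
    intro σ
    refine ⟨3, ?_⟩
    obtain ⟨d, hd⟩ := pow_eight h9 h3 h8 (σ : ↥(GG h9 h3)) (σ : ↥(GG h9 h3)).2
    have h0 : (((σ : ↥(GG h9 h3)) : Equiv.Perm F) ^ 8) 0 = 0 := by
      have := (hSmem _).mp (S.pow_mem σ.2 8)
      rwa [Subgroup.coe_pow] at this
    have hd0 : d = 0 := by
      have := hd 0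
      rw [h0] at this
      linear_combination -this
    apply Subtype.ext
    apply Subtype.ext
    ext x
    show (((σ ^ 2 ^ 3 : S) : ↥(GG h9 h3)) : Equiv.Perm F) x = x
    have e : (((σ ^ 2 ^ 3 : S) : ↥(GG h9 h3)) : Equiv.Perm F)
        = ((σ : ↥(GG h9 h3)) : Equiv.Perm F) ^ 8 := by
      norm_num
    rw [e, hd, hd0, add_zero]
  have haS : a ∈ S := by
    rw [hSmem, ha_apply]; ring
  have ha2 : a ^ 2 = 1 := by
    apply Subtype.ext
    ext x
    show ((a ^ 2 : ↥(GG h9 h3)) : Equiv.Perm F) x = x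
    rw [Subgroup.coe_pow, pow_two, Equiv.Perm.mul_apply, ha_apply, ha_apply, ← pow_mul]
    exact h9 x
  obtain ⟨b₀, hb₀⟩ := hex
  have ha1 : a ≠ 1 := by
    intro h
    apply hb₀
    have := ha_apply b₀
    rw [h] at this
    exact this.symm
  refine ⟨↥(GG h9 h3), inferInstance, inferInstance, Subgroup.zpowers a, ?_, ?_, ?_, ?_⟩
  · -- solvable
    have hVs : Group.IsSolvable V := Group.isSolvable_of_comm hVcomm
    have hQ : IsPGroup 2 (↥(GG h9 h3) ⧸ V) := by
      intro q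
      induction q using QuotientGroup.induction_on with
      | H σ =>
        refine ⟨3, ?_⟩
        rw [← QuotientGroup.mk_pow]
        exact (QuotientGroup.eq_one_iff _).mpr (by norm_num; exact hpow8 σ)
    have hQn : Group.IsNilpotent (↥(GG h9 h3) ⧸ V) := hQ.isNilpotent
    have hQs : Group.IsSolvable (↥(GG h9 h3) ⧸ V) := inferInstance
    apply Group.isSolvable_of_ker_le_range V.subtype (QuotientGroup.mk' V)
    rw [QuotientGroup.ker_mk', Subgroup.range_subtype]
  · rw [Nat.card_zpowers]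
    exact orderOf_eq_prime ha2 ha1
  · intro c
    obtain ⟨u, hu, g, hg, hcu, hcase⟩ := key h9 h3 (c : Equiv.Perm F) c.2
    refine ⟨⟨g, hg⟩, ?_, ?_⟩
    · rw [isConj_iff]
      refine ⟨(⟨u, hu⟩ : ↥(GG h9 h3))⁻¹, ?_⟩
      apply Subtype.ext
      show u⁻¹ * (c : Equiv.Perm F) * u⁻¹⁻¹ = g
      rw [inv_inv, mul_assoc, hcu, inv_mul_cancel_left]
    · rcases hcase with h0 | hcomm
      · exact subn_of_two_group S hS2 a ⟨g, hg⟩ haS ((hSmem _).mpr h0)
      · apply subn_of_commute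
        apply Subtype.ext
        rw [ha]
        exact hcomm
  · intro hA
    have haO : a ∈ Cfsg.pCore 2 ↥(GG h9 h3) := hA (Subgroup.mem_zpowers a)
    have hOn : (Cfsg.pCore 2 ↥(GG h9 h3)).Normal := Cfsg.Agent.Lib.Helper17.pCore_normal
    have hO2 : IsPGroup 2 (Cfsg.pCore 2 ↥(GG h9 h3)) := Cfsg.Agent.Lib.Helper17.pCore_isPGroup
    obtain ⟨t, ht⟩ : ∃ t : ↥(GG h9 h3), t = ⟨aff 1 b₀ one_ne_zero, aff_mem h9 h3 _ _ _⟩ :=
      ⟨_, rfl⟩
    have ht_apply : ∀ x : F, (t : Equiv.Perm F) x = x + b₀ := by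
      intro x
      rw [ht]
      show aff 1 b₀ one_ne_zero x = x + b₀
      rw [aff_apply]; ring
    have htV : t ∈ V := (hVmem t).mpr ⟨b₀, ht_apply⟩
    have hk1 : a * t * a⁻¹ * t⁻¹ ∈ Cfsg.pCore 2 ↥(GG h9 h3) := by
      have h1 : t * a⁻¹ * t⁻¹ ∈ Cfsg.pCore 2 ↥(GG h9 h3) :=
        hOn.conj_mem _ (Subgroup.inv_mem _ haO) t
      have h2 := Subgroup.mul_mem _ haO h1
      have e : a * (t * a⁻¹ * t⁻¹) = a * t * a⁻¹ * t⁻¹ := by group
      rwa [e] at h2
    have hk2 : a * t * a⁻¹ * t⁻¹ ∈ V :=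
      V.mul_mem (hVn.conj_mem _ htV a) (V.inv_mem htV)
    have hk : a * t * a⁻¹ * t⁻¹ = 1 := by
      obtain ⟨j, hj⟩ := hO2 ⟨_, hk1⟩
      have hj' : (a * t * a⁻¹ * t⁻¹) ^ (2 ^ j) = 1 := by
        have := congrArg Subtype.val hj
        simpa using this
      have h3' := hV3 _ hk2
      rw [← orderOf_eq_one_iff]
      have d1 := orderOf_dvd_of_pow_eq_one hj'
      have d2 := orderOf_dvd_of_pow_eq_one h3'
      have hc : Nat.Coprime (2 ^ j) 3 := Nat.Coprime.pow_left j (by norm_num)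
      exact Nat.dvd_one.mp (hc ▸ Nat.dvd_gcd d1 d2)
    have hat : a * t = t * a := by
      have : a * t * a⁻¹ * t⁻¹ * (t * a) = a * t := by group
      rw [hk, one_mul] at this
      exact this.symm
    apply hb₀
    have h1 := congrArg (fun σ : ↥(GG h9 h3) => (σ : Equiv.Perm F) 0) hat
    simp only [Subgroup.coe_mul, Equiv.Perm.mul_apply] at h1
    rw [ht_apply, ha_apply, ha_apply, ht_apply] at h1
    have h2 : b₀ ^ 3 = b₀ := by linear_combination h1
    exact h2


/-- There is a finite solvable group G with a subgroup A of order 2 such that every conjugacy class of G contains an element g for which A is subnormal in the subgroup generated by A and g, and yet A is not contained in O_2(G). (So the corresponding criteria for odd primes fail at the prime 2, even for solvable groups.) -/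
theorem result :
    ∃ (G : Type) (_ : Group G) (_ : Finite G) (A : Subgroup G), Group.IsSolvable G ∧ Nat.card A = 2 ∧
      (∀ c : G, ∃ g : G, IsConj c g ∧ (A.subgroupOf (A ⊔ Subgroup.zpowers g)).IsSubnormal) ∧
      ¬ A ≤ Cfsg.pCore 2 G := by
  classical
  have : Fact (Nat.Prime 3) := ⟨by norm_num⟩
  have : Fintype (GaloisField 3 2) := Fintype.ofFinite _
  have hcard : Fintype.card (GaloisField 3 2) = 9 := by
    rw [← Nat.card_eq_fintype_card, GaloisField.card 3 2 (by norm_num)]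
    norm_num
  have h9 : ∀ x : GaloisField 3 2, x ^ 9 = x := by
    intro x
    have := FiniteField.pow_card x
    rwa [hcard] at this
  have h3 : (3 : GaloisField 3 2) = 0 := by
    have := CharP.cast_eq_zero (GaloisField 3 2) 3
    exact_mod_cast this
  have h8 : ∀ x : GaloisField 3 2, x ≠ 0 → x ^ 8 = 1 := by
    intro x hx
    have := FiniteField.pow_card_sub_one_eq_one x hx
    rwa [hcard] at this
  have hex : ∃ b : GaloisField 3 2, b ^ 3 ≠ b := by
    by_contra hno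
    have hall : ∀ b : GaloisField 3 2, b ^ 3 = b := by
      intro b
      by_contra h
      exact hno ⟨b, h⟩
    have hsub : (Finset.univ : Finset (GaloisField 3 2)) ⊆ {0, 1, -1} := by
      intro x _
      have hx := hall x
      have : x * (x - 1) * (x + 1) = 0 := by linear_combination hx
      rcases mul_eq_zero.mp this with h | h
      · rcases mul_eq_zero.mp h with h | h
        · simp [h]
        · have : x = 1 := by linear_combination h
          simp [this]
      · have : x = -1 := by linear_combination h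
        simp [this]
    have h1 := Finset.card_le_card hsub
    have h2 : ({0, 1, -1} : Finset (GaloisField 3 2)).card ≤ 3 := Finset.card_le_three
    rw [Finset.card_univ, hcard] at h1
    omega
  exact main h9 h3 h8 hex

end Cfsg.Agent.S4331
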