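import Cfsg.Statements.S4334
import Cfsg.Agent.Lib.Helper21.HallDirect
import Cfsg.Agent.Lib.Helper21.Basic
import Cfsg.Agent.Lib.Helper21.Subnormal
import Cfsg.Agent.S0581

set_option autoImplicit false
open Cfsg

namespace Cfsg.Agent.S4334

/-- Let σ and τ be disjoint sets of primes with union π. Suppose a finite group G has a Hall π-subgroup H which is the direct product of a nilpotent σ-subgroup and a τ-subgroup (two elementwise-commuting subgroups generating H), and that the maximal τ-subgroups of G are pairwise conjugate. Then the maximal π-subgroups of G are pairwise conjugate. -/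
theorem result {G : Type*} [Group G] [Finite G]
    (σ τ π : Set ℕ) (hπ : π = σ ∪ τ) (hd : Disjoint σ τ) (H Hs Ht : Subgroup G) (hH : Cfsg.IsPiHall π H)
    (hs : Cfsg.IsPiSubgroup σ Hs) (ht : Cfsg.IsPiSubgroup τ Ht) (hsn : Group.IsNilpotent Hs)
    (hjoin : Hs ⊔ Ht = H) (hcomm : ∀ a ∈ Hs, ∀ b ∈ Ht, a * b = b * a) (hD : Cfsg.IsDPiGroup τ G) :
    Cfsg.IsDPiGroup π G := by
  classical
  subst hπ
  have hdisj : ∀ p : ℕ, p ∈ σ → p ∈ τ → False := fun p h1 h2 =>
    (Set.disjoint_left.mp hd h1 h2)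
  have hHsle : Hs ≤ H := hjoin ▸ le_sup_left
  have hHtle : Ht ≤ H := hjoin ▸ le_sup_right
  have hHsN : Hs ≤ Subgroup.normalizer (Ht : Set G) := by
    refine le_trans ?_ (Subgroup.centralizer_le_normalizer _)
    intro a ha
    rw [Subgroup.mem_centralizer_iff]
    intro b hb
    exact (hcomm a ha b hb).symm
  have hcardH : Nat.card H ∣ Nat.card Hs * Nat.card Ht := by
    rw [← hjoin]
    exact Cfsg.Agent.Lib.Helper21.card_sup_dvd_of_le_normalizer hHsN
  have hrel_s : Hs.relIndex H ∣ Nat.card Ht := by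
    have h1 := Cfsg.Agent.Lib.Helper21.card_mul_relIndex hHsle
    rw [← h1] at hcardH
    exact Nat.dvd_of_mul_dvd_mul_left Nat.card_pos hcardH
  have hrel_t : Ht.relIndex H ∣ Nat.card Hs := by
    have h1 := Cfsg.Agent.Lib.Helper21.card_mul_relIndex hHtle
    rw [← h1, mul_comm (Nat.card Hs)] at hcardH
    exact Nat.dvd_of_mul_dvd_mul_left Nat.card_pos hcardH
  -- Hall properties
  have hσidx : ∀ p : ℕ, p.Prime → p ∈ σ → ¬ p ∣ Hs.index := by
    intro p hp hpσ hdvd
    rw [← Subgroup.relIndex_mul_index hHsle] at hdvd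
    rcases (Nat.Prime.dvd_mul hp).mp hdvd with h1 | h1
    · exact hdisj p hpσ (ht p hp (h1.trans hrel_s))
    · exact hH.2 p hp (Or.inl hpσ) h1
  have hτidx : ∀ p : ℕ, p.Prime → p ∈ τ → ¬ p ∣ Ht.index := by
    intro p hp hpτ hdvd
    rw [← Subgroup.relIndex_mul_index hHtle] at hdvd
    rcases (Nat.Prime.dvd_mul hp).mp hdvd with h1 | h1
    · exact hdisj p (hs p hp (h1.trans hrel_t)) hpτ
    · exact hH.2 p hp (Or.inr hpτ) h1
  have hidx_conj : ∀ (L : Subgroup G) (x : G),
      (L.map (MulAut.conj x).toMonoidHom).index = L.index := fun L x =>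
    Subgroup.index_map_equiv L (MulAut.conj x)
  have hcard_conj : ∀ (L : Subgroup G) (x : G),
      Nat.card (L.map (MulAut.conj x).toMonoidHom) = Nat.card L := fun L x =>
    Cfsg.Agent.Lib.Helper21.card_map_conj L x
  -- conjugates of Hs and Ht commute
  have hcomm_conj : ∀ x : G, ∀ a ∈ Hs.map (MulAut.conj x).toMonoidHom,
      ∀ b ∈ Ht.map (MulAut.conj x).toMonoidHom, a * b = b * a := by
    rintro x _ ⟨s, hs', rfl⟩ _ ⟨t, ht', rfl⟩
    simp only [MulEquiv.coe_toMonoidHom, MulAut.conj_apply]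
    have h1 := hcomm s hs' t ht'
    calc x * s * x⁻¹ * (x * t * x⁻¹) = x * (s * t) * x⁻¹ := by group
      _ = x * (t * s) * x⁻¹ := by rw [h1]
      _ = x * t * x⁻¹ * (x * s * x⁻¹) := by group
  -- D_τ: every τ-subgroup lies in a conjugate of Ht
  have hHtmax : Maximal (Cfsg.IsPiSubgroup τ) Ht := by
    refine ⟨ht, ?_⟩
    intro Y hY hle
    have h1 : Ht.relIndex Y = 1 := by
      by_contra hne
      obtain ⟨r, hr, hrd⟩ := Nat.exists_prime_and_dvd hne
      have h2 : r ∣ Nat.card Y :=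
        hrd.trans (Dvd.intro_left _ (Cfsg.Agent.Lib.Helper21.card_mul_relIndex hle))
      exact hτidx r hr (hY r hr h2) (hrd.trans (Subgroup.relIndex_dvd_index_of_le hle))
    exact Subgroup.relIndex_eq_one.mp h1
  have hF2 : ∀ T : Subgroup G, Cfsg.IsPiSubgroup τ T →
      ∃ x : G, T ≤ Ht.map (MulAut.conj x).toMonoidHom := by
    intro T hT
    obtain ⟨T', hTT', hT'max⟩ := Set.Finite.exists_le_maximal
      (Set.toFinite {Y : Subgroup G | Cfsg.IsPiSubgroup τ Y}) (show T ∈ _ from hT)
    have hT'max' : Maximal (Cfsg.IsPiSubgroup τ) T' := ⟨hT'max.1, fun Y hY h => hT'max.2 hY h⟩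
    obtain ⟨g, hg⟩ := hD Ht T' hHtmax hT'max'
    exact ⟨g, hg ▸ hTT'⟩
  -- Wielandt: every σ-subgroup lies in a conjugate of Hs
  have hcopHs : (Nat.card Hs).Coprime Hs.index := by
    by_contra hnc
    obtain ⟨p, hp, h1, h2⟩ := Nat.Prime.not_coprime_iff_dvd.mp hnc
    exact hσidx p hp (hs p hp h1) h2
  have hdvdHs : ∀ p : ℕ, p.Prime → p ∈ σ → p ∣ Nat.card G → p ∣ Nat.card Hs := by
    intro p hp hpσ hdvd
    rw [← Subgroup.card_mul_index Hs] at hdvd
    rcases (Nat.Prime.dvd_mul hp).mp hdvd with h1 | h1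
    · exact h1
    · exact absurd h1 (hσidx p hp hpσ)
  have hF3 : ∀ L : Subgroup G, Cfsg.IsPiSubgroup σ L →
      ∃ x : G, L ≤ Hs.map (MulAut.conj x).toMonoidHom := by
    intro L hL
    obtain ⟨x, hx⟩ := Cfsg.Agent.S0581.result Hs L hsn hcopHs (fun p hp hdvd =>
      hdvdHs p hp (hL p hp hdvd) (hdvd.trans (Subgroup.card_subgroup_dvd_card L)))
    exact ⟨x, hx⟩
  -- centralizer indices
  have hM2 : ∀ T : Subgroup G, Cfsg.IsPiSubgroup τ T → ∀ r : ℕ, r.Prime → r ∈ σ →
      ¬ r ∣ (Subgroup.centralizer (T : Set G)).index := by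
    intro T hT r hr hrσ hdvd
    obtain ⟨x, hx⟩ := hF2 T hT
    have hle : Hs.map (MulAut.conj x).toMonoidHom ≤ Subgroup.centralizer (T : Set G) := by
      intro a ha
      rw [Subgroup.mem_centralizer_iff]
      intro b hb
      exact (hcomm_conj x a ha b (hx hb)).symm
    have h1 := hdvd.trans (Subgroup.index_dvd_of_le hle)
    rw [hidx_conj] at h1
    exact hσidx r hr hrσ h1
  have hM1 : ∀ p : ℕ, p.Prime → p ∈ σ → ∀ Q : Subgroup G, IsPGroup p Q → ∀ r : ℕ, r.Prime →
      r ∈ σ ∪ τ → r ≠ p → ¬ r ∣ (Subgroup.centralizer (Q : Set G)).index := by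
    intro p hp hpσ Q hQ r hr hrπ hrp hdvd
    haveI : Fact p.Prime := ⟨hp⟩
    have hQσ : Cfsg.IsPiSubgroup σ Q := by
      intro q hq hqd
      obtain ⟨k, hk⟩ := IsPGroup.iff_card.mp hQ
      rw [hk] at hqd
      have := (Nat.prime_dvd_prime_iff_eq hq hp).mp (hq.dvd_of_dvd_pow hqd)
      rw [this]; exact hpσ
    obtain ⟨x, hx⟩ := hF3 Q hQσ
    rcases hrπ with hrσ | hrτ
    · -- a Sylow r-subgroup of Hs
      haveI : Fact r.Prime := ⟨hr⟩
      obtain ⟨R₀⟩ : Nonempty (Sylow r ↥Hs) := inferInstance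
      obtain ⟨R, hRdef⟩ : ∃ R : Subgroup G, R = (R₀ : Subgroup ↥Hs).map Hs.subtype := ⟨_, rfl⟩
      have hRidx : ¬ r ∣ R.index := by
        rw [hRdef, Subgroup.index_map_subtype]
        intro h
        rcases (Nat.Prime.dvd_mul hr).mp h with h1 | h1
        · exact R₀.not_dvd_index h1
        · exact hσidx r hr hrσ h1
      have hle : R.map (MulAut.conj x).toMonoidHom ≤ Subgroup.centralizer (Q : Set G) := by
        rintro _ ⟨y, hy, rfl⟩
        rw [Subgroup.mem_centralizer_iff]
        intro q hq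
        obtain ⟨s, hs', hsq⟩ := hx hq
        rw [hRdef] at hy
        obtain ⟨y₀, hy₀, rfl⟩ := hy
        have hcop : (orderOf y₀).Coprime (orderOf (⟨s, hs'⟩ : ↥Hs)) := by
          obtain ⟨k, hk⟩ := R₀.isPGroup' ⟨y₀, hy₀⟩
          have hk' : y₀ ^ r ^ k = 1 := congrArg Subtype.val hk
          have hos : orderOf (⟨s, hs'⟩ : ↥Hs) = orderOf q := by
            rw [← Subgroup.orderOf_coe, ← hsq]
            exact (orderOf_injective (MulAut.conj x).toMonoidHom (MulAut.conj x).injective s).symm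
          obtain ⟨j, hj⟩ := hQ ⟨q, hq⟩
          have hj' : q ^ p ^ j = 1 := congrArg Subtype.val hj
          rw [hos]
          exact Nat.Coprime.coprime_dvd_left (orderOf_dvd_of_pow_eq_one hk')
            (Nat.Coprime.coprime_dvd_right (orderOf_dvd_of_pow_eq_one hj')
              (Nat.Coprime.pow _ _ ((Nat.coprime_primes hr hp).mpr hrp)))
        haveI : Group.IsNilpotent ↥Hs := hsn
        have hc := Cfsg.Agent.Lib.Helper21.mul_comm_of_coprime_of_isNilpotent y₀
          (⟨s, hs'⟩ : ↥Hs) hcop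
        have hc' : (y₀ : G) * s = s * (y₀ : G) := congrArg Subtype.val hc
        rw [← hsq]
        simp only [MulEquiv.coe_toMonoidHom, MulAut.conj_apply, Subgroup.coe_subtype]
        calc x * s * x⁻¹ * (x * (y₀ : G) * x⁻¹) = x * (s * (y₀ : G)) * x⁻¹ := by group
          _ = x * ((y₀ : G) * s) * x⁻¹ := by rw [hc']
          _ = x * (y₀ : G) * x⁻¹ * (x * s * x⁻¹) := by group
      have h1 := hdvd.trans (Subgroup.index_dvd_of_le hle)
      rw [hidx_conj] at h1
      exact hRidx h1
    · have hle : Ht.map (MulAut.conj x).toMonoidHom ≤ Subgroup.centralizer (Q : Set G) := by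
        intro b hb
        rw [Subgroup.mem_centralizer_iff]
        intro a ha
        exact hcomm_conj x a (hx ha) b hb
      have h1 := hdvd.trans (Subgroup.index_dvd_of_le hle)
      rw [hidx_conj] at h1
      exact hτidx r hr hrτ h1
  -- every π-subgroup lies in a conjugate of H
  have hmain : ∀ K : Subgroup G, Cfsg.IsPiSubgroup (σ ∪ τ) K →
      ∃ g : G, K ≤ H.map (MulAut.conj g).toMonoidHom := by
    intro K hK
    have hfrob : ∀ p : ℕ, p.Prime → p ∈ σ → Cfsg.Agent.Lib.Helper1.FrobCond p ↥K := by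
      intro p hp hpσ Q hQ g hg hcop
      have h1 : (g : G) ∈ Subgroup.normalizer ((Q.map K.subtype : Subgroup G) : Set G) :=
        Subgroup.le_normalizer_map K.subtype ⟨g, hg, rfl⟩
      have hcop' : (orderOf (g : G)).Coprime
          (Subgroup.centralizer ((Q.map K.subtype : Subgroup G) : Set G)).index := by
        by_contra hnc
        obtain ⟨r, hr, hr1, hr2⟩ := Nat.Prime.not_coprime_iff_dvd.mp hnc
        have hrK : r ∣ Nat.card K := by
          rw [Subgroup.orderOf_coe] at hr1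
          exact hr1.trans (orderOf_dvd_natCard g)
        have hrp : r ≠ p := by
          rintro rfl
          rw [Subgroup.orderOf_coe] at hr1
          have := Nat.Coprime.eq_one_of_dvd hcop.symm hr1
          exact hr.one_lt.ne' this
        exact hM1 p hp hpσ _ (hQ.map K.subtype) r hr (hK r hr hrK) hrp hr2
      have h2 := Cfsg.Agent.Lib.Helper21.mem_centralizer_of_coprime_index _ h1 hcop'
      rw [Subgroup.mem_centralizer_iff] at h2 ⊢
      intro q hq
      apply Subtype.ext
      exact h2 q ⟨q, hq, rfl⟩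
    obtain ⟨T, S, hTn, hTS, hT, hS⟩ :=
      Cfsg.Agent.Lib.Helper21.exists_normal_hall_of_frobCond (K := ↥K) σ hfrob
    obtain ⟨T', hT'def⟩ : ∃ T' : Subgroup G, T' = T.map K.subtype := ⟨_, rfl⟩
    obtain ⟨S', hS'def⟩ : ∃ S' : Subgroup G, S' = S.map K.subtype := ⟨_, rfl⟩
    have hT'card : Nat.card T' = Nat.card T := by
      rw [hT'def]; exact Subgroup.card_map_of_injective K.subtype_injective
    have hS'card : Nat.card S' = Nat.card S := by
      rw [hS'def]; exact Subgroup.card_map_of_injective K.subtype_injective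
    have hT'τ : Cfsg.IsPiSubgroup τ T' := by
      intro p hp hdvd
      rw [hT'card] at hdvd
      rcases hK p hp (hdvd.trans (Subgroup.card_subgroup_dvd_card T)) with h1 | h1
      · exact absurd h1 (hT p hp hdvd)
      · exact h1
    have hS'σ : Cfsg.IsPiSubgroup σ S' := by
      intro p hp hdvd
      rw [hS'card] at hdvd
      exact hS p hp hdvd
    have hsup : T' ⊔ S' = K := by
      rw [hT'def, hS'def, ← Subgroup.map_sup, hTS.sup_eq_top, ← MonoidHom.range_eq_map,
        Subgroup.range_subtype]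
    have hS'N : S' ≤ Subgroup.normalizer (T' : Set G) := by
      rw [hS'def, hT'def]
      rintro _ ⟨s, -, rfl⟩
      apply Subgroup.le_normalizer_map K.subtype
      refine ⟨s, ?_, rfl⟩
      rw [Subgroup.normalizer_eq_top]
      exact Subgroup.mem_top s
    have hS'C : S' ≤ Subgroup.centralizer (T' : Set G) := by
      intro s hs'
      apply Cfsg.Agent.Lib.Helper21.mem_centralizer_of_coprime_index _ (hS'N hs')
      by_contra hnc
      obtain ⟨r, hr, hr1, hr2⟩ := Nat.Prime.not_coprime_iff_dvd.mp hnc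
      have hrS : r ∣ Nat.card S' := by
        have := orderOf_dvd_natCard (⟨s, hs'⟩ : ↥S')
        rw [Subgroup.orderOf_mk] at this
        exact hr1.trans this
      exact hM2 T' hT'τ r hr (hS'σ r hr hrS) hr2
    obtain ⟨x, hx⟩ := hF2 T' hT'τ
    obtain ⟨C, hCdef⟩ : ∃ C : Subgroup G, C = Subgroup.centralizer (T' : Set G) := ⟨_, rfl⟩
    rw [← hCdef] at hS'C
    obtain ⟨Hx, hHxdef⟩ : ∃ Hx : Subgroup G, Hx = Hs.map (MulAut.conj x).toMonoidHom :=
      ⟨_, rfl⟩
    have hHxC : Hx ≤ C := by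
      rw [hHxdef, hCdef]
      intro a ha
      rw [Subgroup.mem_centralizer_iff]
      intro b hb
      exact (hcomm_conj x a ha b (hx hb)).symm
    have hHxnil : Group.IsNilpotent ↥Hx := by
      haveI : Group.IsNilpotent ↥Hs := hsn
      rw [hHxdef]
      exact Group.nilpotent_of_mulEquiv ((MulAut.conj x).subgroupMap Hs)
    have hH₀nil : Group.IsNilpotent ↥(Hx.subgroupOf C) := by
      haveI := hHxnil
      exact Group.nilpotent_of_mulEquiv (Subgroup.subgroupOfEquivOfLe hHxC).symm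
    have hH₀card : Nat.card ↥(Hx.subgroupOf C) = Nat.card Hs := by
      rw [Nat.card_congr (Subgroup.subgroupOfEquivOfLe hHxC).toEquiv, hHxdef, hcard_conj]
    have hH₀cop : (Nat.card ↥(Hx.subgroupOf C)).Coprime (Hx.subgroupOf C).index := by
      rw [hH₀card]
      have h1 : (Hx.subgroupOf C).index ∣ Hs.index := by
        have h2 : Hx.relIndex C ∣ Hx.index := Subgroup.relIndex_dvd_index_of_le hHxC
        rw [hHxdef, hidx_conj] at h2
        rw [hHxdef]
        exact h2
      exact Nat.Coprime.coprime_dvd_right h1 hcopHs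
    obtain ⟨c, hc⟩ := Cfsg.Agent.S0581.result (Hx.subgroupOf C) (S'.subgroupOf C) hH₀nil hH₀cop
      (by
        intro p hp hdvd
        rw [hH₀card]
        rw [Nat.card_congr (Subgroup.subgroupOfEquivOfLe hS'C).toEquiv] at hdvd
        exact hdvdHs p hp (hS'σ p hp hdvd) (hdvd.trans (Subgroup.card_subgroup_dvd_card S')))
    refine ⟨(c : G) * x, ?_⟩
    rw [← hsup]
    apply sup_le
    · -- T' ≤ conj (c x) H
      intro t ht'
      have h1 : t ∈ Ht.map (MulAut.conj x).toMonoidHom := hx ht'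
      have hcC : (c : G) ∈ Subgroup.centralizer (T' : Set G) := hCdef ▸ c.2
      have h2 : t = (c : G) * t * (c : G)⁻¹ := by
        have := Subgroup.mem_centralizer_iff.mp hcC t ht'
        rw [← this]; group
      rw [Cfsg.Agent.Lib.Helper21.map_conj_mul]
      rw [h2]
      apply Cfsg.Agent.Lib.Helper21.conj_mem_map_conj
      exact Subgroup.map_mono hHtle h1
    · intro s hs'
      have h1 : (⟨s, hS'C hs'⟩ : ↥C) ∈ S'.subgroupOf C := by
        rw [Subgroup.mem_subgroupOf]; exact hs'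
      have h2 := hc h1
      rw [← Cfsg.Agent.Lib.Helper21.map_conj_eq_smul, Cfsg.Agent.Lib.Helper21.mem_map_conj,
        Subgroup.mem_subgroupOf] at h2
      have h3 : (c : G)⁻¹ * s * (c : G) ∈ Hx := h2
      rw [Cfsg.Agent.Lib.Helper21.map_conj_mul]
      have h4 : s = (c : G) * ((c : G)⁻¹ * s * (c : G)) * (c : G)⁻¹ := by group
      rw [h4]
      apply Cfsg.Agent.Lib.Helper21.conj_mem_map_conj
      rw [hHxdef] at h3
      exact Subgroup.map_mono hHsle h3
  -- conclusion
  have hHconj : ∀ g : G, Cfsg.IsPiSubgroup (σ ∪ τ) (H.map (MulAut.conj g).toMonoidHom) := by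
    intro g p hp hdvd
    rw [hcard_conj] at hdvd
    exact hH.1 p hp hdvd
  intro A B hA hB
  obtain ⟨g, hg⟩ := hmain A hA.1
  obtain ⟨g', hg'⟩ := hmain B hB.1
  have hAeq : A = H.map (MulAut.conj g).toMonoidHom := le_antisymm hg (hA.2 (hHconj g) hg)
  have hBeq : B = H.map (MulAut.conj g').toMonoidHom := le_antisymm hg' (hB.2 (hHconj g') hg')
  refine ⟨g' * g⁻¹, ?_⟩
  rw [hAeq, hBeq, ← Cfsg.Agent.Lib.Helper21.map_conj_mul]
  congr 3
  group

end Cfsg.Agent.S4334
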