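import Cfsg.Statements.S4337
-- import your own Cfsg.Agent.* helpers here

set_option autoImplicit false
open Cfsg

namespace Cfsg.Agent.S4337

open scoped commutatorElement

set_option maxRecDepth 100000 in
theorem comm_mem_V4 : ∀ σ τ : Equiv.Perm (Fin 4), Equiv.Perm.sign σ = 1 → Equiv.Perm.sign τ = 1 →
    (⁅σ, τ⁆ * ⁅σ, τ⁆ = 1 ∧ (⁅σ, τ⁆ = 1 ∨ ∀ i, ⁅σ, τ⁆ i ≠ i)) := by decide

set_option maxRecDepth 100000 in
theorem V4_comm : ∀ σ τ : Equiv.Perm (Fin 4), (σ * σ = 1 ∧ (σ = 1 ∨ ∀ i, σ i ≠ i)) →
    (τ * τ = 1 ∧ (τ = 1 ∨ ∀ i, τ i ≠ i)) → σ * τ = τ * σ := by decide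

theorem solvable_perm_fin4 : Group.IsSolvable (Equiv.Perm (Fin 4)) := by
  rw [Group.isSolvable_def]
  refine ⟨3, ?_⟩
  have h1 : derivedSeries (Equiv.Perm (Fin 4)) 1 ≤
      (Equiv.Perm.sign : Equiv.Perm (Fin 4) →* ℤˣ).ker := by
    rw [derivedSeries_succ, derivedSeries_zero, Subgroup.commutator_le]
    intro g1 _ g2 _
    rw [MonoidHom.mem_ker, map_commutatorElement]
    exact commutatorElement_eq_one_iff_commute.mpr (Commute.all _ _)
  have h2 : derivedSeries (Equiv.Perm (Fin 4)) 2 ≤
      Subgroup.closure {σ : Equiv.Perm (Fin 4) | σ * σ = 1 ∧ (σ = 1 ∨ ∀ i, σ i ≠ i)} := by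
    rw [derivedSeries_succ]
    refine (Subgroup.commutator_mono h1 h1).trans ?_
    rw [Subgroup.commutator_le]
    intro g1 hg1 g2 hg2
    exact Subgroup.subset_closure
      (comm_mem_V4 g1 g2 (MonoidHom.mem_ker.mp hg1) (MonoidHom.mem_ker.mp hg2))
  have h3 : ∀ x ∈ Subgroup.closure {σ : Equiv.Perm (Fin 4) | σ * σ = 1 ∧ (σ = 1 ∨ ∀ i, σ i ≠ i)},
      ∀ y ∈ Subgroup.closure {σ : Equiv.Perm (Fin 4) | σ * σ = 1 ∧ (σ = 1 ∨ ∀ i, σ i ≠ i)},
      x * y = y * x := by
    intro x hx y hy
    have hcomm : ∀ x ∈ {σ : Equiv.Perm (Fin 4) | σ * σ = 1 ∧ (σ = 1 ∨ ∀ i, σ i ≠ i)},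
        ∀ y ∈ {σ : Equiv.Perm (Fin 4) | σ * σ = 1 ∧ (σ = 1 ∨ ∀ i, σ i ≠ i)}, x * y = y * x :=
      fun x hx y hy => V4_comm x y hx hy
    have inst := Subgroup.isMulCommutative_closure hcomm
    exact congrArg Subtype.val (inst.is_comm.comm ⟨x, hx⟩ ⟨y, hy⟩)
  rw [derivedSeries_succ, eq_bot_iff]
  refine (Subgroup.commutator_mono h2 h2).trans ?_
  rw [Subgroup.commutator_le]
  intro g1 hg1 g2 hg2
  rw [Subgroup.mem_bot, commutatorElement_eq_one_iff_commute]
  exact h3 g1 hg1 g2 hg2

theorem solvable_of_le {G : Type*} [Group G] {K L : Subgroup G} (h : K ≤ L) [Group.IsSolvable L] :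
    Group.IsSolvable K :=
  Group.isSolvable_of_isSolvable_injective (Subgroup.inclusion_injective h)

theorem solvable_range {G G' : Type*} [Group G] [Group G'] (f : G →* G') [Group.IsSolvable G] :
    Group.IsSolvable f.range :=
  Group.isSolvable_of_surjective f.rangeRestrict_surjective

/-- Permutations supported on a set of at most four points generate a solvable group. -/
theorem solvable_of_support_le {n : ℕ} (T : Finset (Fin n)) (hT : T.card ≤ 4)
    (S : Set (Equiv.Perm (Fin n))) (hS : ∀ σ ∈ S, σ.support ⊆ T) :
    Group.IsSolvable (Subgroup.closure S) := by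
  classical
  have h4 : Group.IsSolvable (Equiv.Perm (Fin 4)) := solvable_perm_fin4
  have hT' : Fintype.card {x // x ∈ T} ≤ Fintype.card (Fin 4) := by simpa using hT
  obtain ⟨ι⟩ := Function.Embedding.nonempty_of_card_le hT'
  have hT4 : Group.IsSolvable (Equiv.Perm {x // x ∈ T}) :=
    Group.isSolvable_of_isSolvable_injective (Equiv.Perm.viaEmbeddingHom_injective ι)
  have hr : Group.IsSolvable
      (Equiv.Perm.ofSubtype : Equiv.Perm {x // x ∈ T} →* Equiv.Perm (Fin n)).range :=
    solvable_range _
  refine solvable_of_le (L := (Equiv.Perm.ofSubtype :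
    Equiv.Perm {x // x ∈ T} →* Equiv.Perm (Fin n)).range) ?_
  rw [Subgroup.closure_le]
  intro σ hσ
  have h₁ : ∀ x, σ x ∈ T ↔ x ∈ T := by
    intro x
    by_cases hx : x ∈ σ.support
    · exact ⟨fun _ => hS σ hσ hx, fun _ => hS σ hσ (Equiv.Perm.apply_mem_support.mpr hx)⟩
    · rw [Equiv.Perm.notMem_support.mp hx]
  have h₂ : ∀ x, σ x ≠ x → x ∈ T := fun x hx => hS σ hσ (Equiv.Perm.mem_support.mpr hx)
  exact ⟨σ.subtypePerm h₁, Equiv.Perm.ofSubtype_subtypePerm h₁ h₂⟩

theorem solvable_closure_insert_of_commute {G : Type*} [Group G] (z : G) (S : Set G)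
    (hz : ∀ s ∈ S, Commute z s) [hS : Group.IsSolvable (Subgroup.closure S)] :
    Group.IsSolvable (Subgroup.closure (insert z S)) := by
  have hZ : Group.IsSolvable (Subgroup.zpowers z) := by
    apply Group.isSolvable_of_comm
    rintro ⟨x, hx⟩ ⟨y, hy⟩
    obtain ⟨i, rfl⟩ := Subgroup.mem_zpowers_iff.mp hx
    obtain ⟨j, rfl⟩ := Subgroup.mem_zpowers_iff.mp hy
    apply Subtype.ext
    exact ((Commute.refl z).zpow_zpow i j).eq
  have hcz : ∀ m ∈ Subgroup.closure S, Commute m z := by
    intro m hm
    have hle : Subgroup.closure S ≤ Subgroup.centralizer {z} := by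
      rw [Subgroup.closure_le]
      intro s hs
      rw [SetLike.mem_coe, Subgroup.mem_centralizer_iff]
      intro h hh
      rw [Set.mem_singleton_iff] at hh
      rw [hh]
      exact (hz s hs).eq
    have := Subgroup.mem_centralizer_iff.mp (hle hm) z rfl
    exact this.symm
  have comm : ∀ (m : Subgroup.closure S) (k : Subgroup.zpowers z),
      Commute ((Subgroup.closure S).subtype m) ((Subgroup.zpowers z).subtype k) := by
    rintro ⟨m, hm⟩ ⟨k, hk⟩
    obtain ⟨i, rfl⟩ := Subgroup.mem_zpowers_iff.mp hk
    exact (hcz m hm).zpow_right i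
  have hr : Group.IsSolvable
      (MonoidHom.noncommCoprod (Subgroup.closure S).subtype (Subgroup.zpowers z).subtype comm).range :=
    solvable_range _
  refine solvable_of_le (L := (MonoidHom.noncommCoprod (Subgroup.closure S).subtype
    (Subgroup.zpowers z).subtype comm).range) ?_
  rw [Subgroup.closure_le]
  rintro x (rfl | hx)
  · exact ⟨(1, ⟨x, Subgroup.mem_zpowers x⟩), by simp [MonoidHom.noncommCoprod_apply]⟩
  · exact ⟨(⟨x, Subgroup.subset_closure hx⟩, 1), by simp [MonoidHom.noncommCoprod_apply]⟩

theorem card_union3 {α : Type*} [DecidableEq α] (X Y Z : Finset α) (hX : X.card = 2)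
    (hY : Y.card = 2) (hZ : Z.card = 2) (hXY : ¬Disjoint X Y) (hXZ : ¬Disjoint X Z) :
    (X ∪ Y ∪ Z).card ≤ 4 := by
  have h1 := Finset.card_union_add_card_inter X Y
  have h2 : 1 ≤ (X ∩ Y).card :=
    Finset.card_pos.mpr (Finset.not_disjoint_iff_nonempty_inter.mp hXY)
  have h3 := Finset.card_union_add_card_inter (X ∪ Y) Z
  have h4 : 1 ≤ ((X ∪ Y) ∩ Z).card := by
    apply Finset.card_pos.mpr
    obtain ⟨w, hw⟩ := Finset.not_disjoint_iff_nonempty_inter.mp hXZ
    rw [Finset.mem_inter] at hw
    exact ⟨w, Finset.mem_inter.mpr ⟨Finset.mem_union_left _ hw.1, hw.2⟩⟩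
  omega

theorem card_union2 {α : Type*} [DecidableEq α] (X Y : Finset α) (hX : X.card = 2)
    (hY : Y.card = 2) : (X ∪ Y).card ≤ 4 := by
  have := Finset.card_union_le X Y
  omega

theorem commute_of_disjoint_support {n : ℕ} {f g : Equiv.Perm (Fin n)}
    (h : Disjoint f.support g.support) : Commute f g :=
  (Equiv.Perm.disjoint_iff_disjoint_support.mpr h).commute


/-- In a finite symmetric group, any three transpositions generate a solvable subgroup. -/
theorem result (n : ℕ) (a b c : Equiv.Perm (Fin n))
    (ha : a.IsSwap) (hb : b.IsSwap) (hc : c.IsSwap) :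
    Group.IsSolvable (Subgroup.closure ({a, b, c} : Set (Equiv.Perm (Fin n)))) := by
  classical
  have hA : a.support.card = 2 := Equiv.Perm.card_support_eq_two.mpr ha
  have hB : b.support.card = 2 := Equiv.Perm.card_support_eq_two.mpr hb
  have hC : c.support.card = 2 := Equiv.Perm.card_support_eq_two.mpr hc
  -- case (i): common set X meets both others
  have caseI : ∀ T : Finset (Fin n), T.card ≤ 4 → a.support ⊆ T → b.support ⊆ T →
      c.support ⊆ T →
      Group.IsSolvable (Subgroup.closure ({a, b, c} : Set (Equiv.Perm (Fin n)))) := by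
    intro T hT h1 h2 h3
    apply solvable_of_support_le T hT
    rintro σ (rfl | rfl | rfl)
    · exact h1
    · exact h2
    · exact h3
  by_cases hAB : Disjoint a.support b.support
  · by_cases hAC : Disjoint a.support c.support
    · -- a commutes with b and c
      have hbc : Group.IsSolvable (Subgroup.closure ({b, c} : Set (Equiv.Perm (Fin n)))) := by
        apply solvable_of_support_le (b.support ∪ c.support) (card_union2 _ _ hB hC)
        rintro σ (rfl | rfl)
        · exact Finset.subset_union_left
        · exact Finset.subset_union_right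
      apply solvable_closure_insert_of_commute a {b, c}
      rintro s (rfl | rfl)
      · exact commute_of_disjoint_support hAB
      · exact commute_of_disjoint_support hAC
    · by_cases hBC : Disjoint b.support c.support
      · -- b commutes with a and c
        have hac : Group.IsSolvable (Subgroup.closure ({a, c} : Set (Equiv.Perm (Fin n)))) := by
          apply solvable_of_support_le (a.support ∪ c.support) (card_union2 _ _ hA hC)
          rintro σ (rfl | rfl)
          · exact Finset.subset_union_left
          · exact Finset.subset_union_right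
        have hset : ({a, b, c} : Set (Equiv.Perm (Fin n))) = insert b {a, c} :=
          Set.insert_comm a b {c}
        rw [hset]
        apply solvable_closure_insert_of_commute b {a, c}
        rintro s (rfl | rfl)
        · exact commute_of_disjoint_support hAB.symm
        · exact commute_of_disjoint_support hBC
      · -- c meets a and b
        have hCA : ¬Disjoint c.support a.support := fun h => hAC h.symm
        have hCB : ¬Disjoint c.support b.support := fun h => hBC h.symm
        refine caseI (c.support ∪ a.support ∪ b.support) (card_union3 _ _ _ hC hA hB hCA hCB)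
          ?_ ?_ ?_
        · exact Finset.subset_union_left.trans' Finset.subset_union_right
        · exact Finset.subset_union_right
        · exact Finset.subset_union_left.trans' Finset.subset_union_left
  · by_cases hAC : Disjoint a.support c.support
    · by_cases hBC : Disjoint b.support c.support
      · -- c commutes with a and b
        have hab : Group.IsSolvable (Subgroup.closure ({a, b} : Set (Equiv.Perm (Fin n)))) := by
          apply solvable_of_support_le (a.support ∪ b.support) (card_union2 _ _ hA hB)
          rintro σ (rfl | rfl)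
          · exact Finset.subset_union_left
          · exact Finset.subset_union_right
        have hset : ({a, b, c} : Set (Equiv.Perm (Fin n))) = insert c {a, b} := by
          ext x
          simp only [Set.mem_insert_iff, Set.mem_singleton_iff]
          tauto
        rw [hset]
        apply solvable_closure_insert_of_commute c {a, b}
        rintro s (rfl | rfl)
        · exact commute_of_disjoint_support hAC.symm
        · exact commute_of_disjoint_support hBC.symm
      · -- b meets a and c
        have hBA : ¬Disjoint b.support a.support := fun h => hAB h.symm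
        refine caseI (b.support ∪ a.support ∪ c.support) (card_union3 _ _ _ hB hA hC hBA hBC)
          ?_ ?_ ?_
        · exact Finset.subset_union_left.trans' Finset.subset_union_right
        · exact Finset.subset_union_left.trans' Finset.subset_union_left
        · exact Finset.subset_union_right
    · -- a meets b and c
      refine caseI (a.support ∪ b.support ∪ c.support) (card_union3 _ _ _ hA hB hC hAB hAC)
        ?_ ?_ ?_
      · exact Finset.subset_union_left.trans' Finset.subset_union_left
      · exact Finset.subset_union_left.trans' Finset.subset_union_right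
      · exact Finset.subset_union_right

end Cfsg.Agent.S4337
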