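import Cfsg.Statements.S4342
-- import your own Cfsg.Agent.* helpers here

set_option autoImplicit false
open Cfsg

namespace Cfsg.Agent.S4342

theorem relIndex_inf_eq {G : Type*} [Group G] [Finite G] (H K : Subgroup G) [H.Normal] :
    (H ⊓ K).relIndex H = K.relIndex (H ⊔ K) := by
  have h1 := Subgroup.relIndex_mul_relIndex ⊥ (H ⊓ K) H bot_le inf_le_left
  have h2 := Subgroup.relIndex_mul_relIndex ⊥ (H ⊓ K) K bot_le inf_le_right
  have h3 := Subgroup.relIndex_mul_relIndex ⊥ H (H ⊔ K) bot_le le_sup_left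
  have h4 := Subgroup.relIndex_mul_relIndex ⊥ K (H ⊔ K) bot_le le_sup_right
  have h5 : H.relIndex (H ⊔ K) = (H ⊓ K).relIndex K := by
    rw [Subgroup.relIndex_sup_left, Subgroup.inf_relIndex_right]
  have hne : (⊥ : Subgroup G).relIndex (H ⊓ K) * (H ⊓ K).relIndex K ≠ 0 := by
    rw [h2, Subgroup.relIndex_bot_left]
    exact Nat.card_pos.ne'
  apply Nat.eq_of_mul_eq_mul_left (Nat.pos_of_ne_zero hne)
  calc (⊥ : Subgroup G).relIndex (H ⊓ K) * (H ⊓ K).relIndex K * (H ⊓ K).relIndex H
      = ((⊥ : Subgroup G).relIndex (H ⊓ K) * (H ⊓ K).relIndex H) * (H ⊓ K).relIndex K := by ring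
    _ = (⊥ : Subgroup G).relIndex (H ⊔ K) := by rw [h1, ← h5, h3]
    _ = (⊥ : Subgroup G).relIndex (H ⊓ K) * (H ⊓ K).relIndex K * K.relIndex (H ⊔ K) := by
        rw [h2, h4]

theorem relIndex_eq_index_of_sup_top {G : Type*} [Group G] [Finite G] (H N : Subgroup G)
    [H.Normal] (h : H ⊔ N = ⊤) : N.relIndex H = N.index := by
  have h1 := relIndex_inf_eq H N
  rw [h, Subgroup.relIndex_top_right, Subgroup.inf_relIndex_left] at h1
  exact h1

theorem le_normalizer_of_conj {G : Type*} [Group G] (K N : Subgroup G)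
    (h : ∀ k ∈ K, ∀ n ∈ N, k * n * k⁻¹ ∈ N) : K ≤ Subgroup.normalizer (N : Set G) := by
  intro k hk
  rw [Subgroup.mem_normalizer_iff]
  intro x
  constructor
  · exact h k hk x
  · intro hx
    have := h k⁻¹ (K.inv_mem hk) _ hx
    simpa [mul_assoc] using this

theorem card_sylow_of_normal {G : Type*} [Group G] [Finite G] (p : ℕ) [Fact p.Prime]
    (H : Subgroup G) [H.Normal] (hp : ¬ p ∣ H.index) :
    Nat.card (Sylow p H) = Nat.card (Sylow p G) := by
  obtain ⟨P⟩ := (Sylow.nonempty : Nonempty (Sylow p H))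
  have hP'p : IsPGroup p ((P : Subgroup H).map H.subtype) := P.isPGroup'.map H.subtype
  have hidx : ¬ p ∣ ((P : Subgroup H).map H.subtype).index := by
    rw [Subgroup.index_map_subtype]
    exact (Nat.Prime.dvd_mul Fact.out).not.mpr (not_or.mpr ⟨P.not_dvd_index, hp⟩)
  rw [Sylow.card_eq_index_normalizer (hP'p.toSylow hidx), Sylow.card_eq_index_normalizer P]
  have hfr : Subgroup.normalizer (((P : Subgroup H).map H.subtype : Subgroup G) : Set G) ⊔ H = ⊤ :=
    Sylow.normalizer_sup_eq_top P
  have hle : (P : Subgroup H).map H.subtype ≤ H := Subgroup.map_subtype_le _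
  have e1 := Subgroup.subgroupOf_normalizer_eq hle
  have e2 : ((P : Subgroup H).map H.subtype).subgroupOf H = (P : Subgroup H) :=
    Subgroup.comap_map_eq_self_of_injective H.subtype_injective _
  rw [e2] at e1
  change (Subgroup.normalizer ((P : Subgroup H) : Set H)).index =
    (Subgroup.normalizer (((P : Subgroup H).map H.subtype : Subgroup G) : Set G)).index
  rw [← e1]
  rw [sup_comm] at hfr
  exact relIndex_eq_index_of_sup_top H _ hfr

theorem card_sylow_quot_center {K : Type*} [Group K] [Finite K] (p : ℕ) [Fact p.Prime] :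
    Nat.card (Sylow p (K ⧸ Subgroup.center K)) = Nat.card (Sylow p K) := by
  have hf := QuotientGroup.mk'_surjective (Subgroup.center K)
  obtain ⟨P⟩ := (Sylow.nonempty : Nonempty (Sylow p K))
  rw [Sylow.card_eq_index_normalizer (P.mapSurjective hf), Sylow.card_eq_index_normalizer P]
  change (Subgroup.normalizer ((((P : Subgroup K).map (QuotientGroup.mk' (Subgroup.center K)) :
    Subgroup (K ⧸ Subgroup.center K))) : Set (K ⧸ Subgroup.center K))).index =
    (Subgroup.normalizer ((P : Subgroup K) : Set K)).index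
  rw [← Subgroup.index_comap_of_surjective _ hf,
    Subgroup.comap_normalizer_eq_of_surjective _ hf, Subgroup.comap_map_eq, QuotientGroup.ker_mk']
  congr 1
  apply le_antisymm
  · apply le_normalizer_of_conj
    intro g hg x hx
    have hy : g * x * g⁻¹ ∈ (P : Subgroup K) ⊔ Subgroup.center K :=
      (Subgroup.mem_normalizer_iff.mp hg x).mp (Subgroup.mem_sup_left hx)
    rw [← SetLike.mem_coe, Subgroup.mul_normal] at hy
    obtain ⟨a, ha, z, hz, hyz⟩ := Set.mem_mul.mp hy
    have hzc : ∀ t : K, t * z = z * t := Subgroup.mem_center_iff.mp hz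
    obtain ⟨i, hi⟩ := P.isPGroup' ⟨a, ha⟩
    obtain ⟨j, hj⟩ := P.isPGroup' ⟨x, hx⟩
    have hai : a ^ p ^ i = 1 := congrArg Subtype.val hi
    have hxj : x ^ p ^ j = 1 := congrArg Subtype.val hj
    have hz_eq : z = a⁻¹ * (g * x * g⁻¹) := by rw [← hyz]; group
    have hcomm : Commute a⁻¹ (g * x * g⁻¹) := by
      rw [← hyz]
      show a⁻¹ * (a * z) = a * z * a⁻¹
      rw [inv_mul_cancel_left, mul_assoc, ← hzc a⁻¹, mul_inv_cancel_left]
    have hzpow : z ^ p ^ (i + j) = 1 := by
      rw [hz_eq, hcomm.mul_pow, pow_add, inv_pow, pow_mul, hai, one_pow, inv_one, one_mul,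
        conj_pow, mul_comm (p ^ i) (p ^ j), pow_mul, hxj, one_pow]
      group
    have hzP : IsPGroup p (Subgroup.zpowers z) := by
      rintro ⟨w, hw⟩
      obtain ⟨n, rfl⟩ := Subgroup.mem_zpowers_iff.mp hw
      refine ⟨i + j, Subtype.ext ?_⟩
      show (z ^ n) ^ p ^ (i + j) = 1
      rw [← zpow_natCast, ← zpow_mul, mul_comm, zpow_mul, zpow_natCast, hzpow, one_zpow]
    have hzN : (Subgroup.zpowers z).Normal := by
      refine ⟨fun n hn t => ?_⟩
      obtain ⟨k, rfl⟩ := Subgroup.mem_zpowers_iff.mp hn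
      have hk : z ^ k ∈ Subgroup.center K := Subgroup.zpow_mem _ hz k
      have h1 : t * z ^ k * t⁻¹ = z ^ k := by
        rw [Subgroup.mem_center_iff.mp hk t, mul_inv_cancel_right]
      rw [h1]
      exact Subgroup.zpow_mem_zpowers z k
    have hsupP : IsPGroup p ((P : Subgroup K) ⊔ Subgroup.zpowers z : Subgroup K) :=
      P.isPGroup'.to_sup_of_normal_right hzP
    have hsup_eq := P.is_maximal' hsupP le_sup_left
    have hzmem : z ∈ (P : Subgroup K) := by
      rw [← hsup_eq]
      exact Subgroup.mem_sup_right (Subgroup.mem_zpowers z)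
    rw [← hyz]
    exact Subgroup.mul_mem _ ha hzmem
  · have h1 := Subgroup.normalizer_inf_normalizer_le_normalizer_sup (P : Subgroup K)
      (Subgroup.center K)
    rw [Subgroup.normalizer_eq_top (H := Subgroup.center K), inf_top_eq] at h1
    exact h1


/-- Let H be a normal subgroup of a finite group G and p a prime not dividing the index of H. Then the number of Sylow p-subgroups of H/Z(H) equals the number of Sylow p-subgroups of G. -/
theorem result {G : Type*} [Group G] [Finite G]
    (p : ℕ) [Fact p.Prime] (H : Subgroup G) [H.Normal] (hp : ¬ p ∣ H.index) :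
    Nat.card (Sylow p (H ⧸ Subgroup.center H)) = Nat.card (Sylow p G) := by
  rw [card_sylow_quot_center, card_sylow_of_normal p H hp]

end Cfsg.Agent.S4342
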