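import Cfsg.Statements.S4343
-- import your own Cfsg.Agent.* helpers here

set_option autoImplicit false
open Cfsg

namespace Cfsg.Agent.S4343

open scoped Pointwise

variable {G : Type*} [Group G]

theorem mem_of_pow_mem (H : Subgroup G) (z : G) (a b : ℕ) (hab : a.Coprime b)
    (ha : z ^ a ∈ H) (hb : z ^ b ∈ H) : z ∈ H := by
  have h := Int.gcd_eq_gcd_ab a b
  have h1 : ((a : ℤ).gcd (b : ℤ) : ℤ) = 1 := by
    rw [Int.gcd_natCast_natCast]; exact_mod_cast hab
  rw [h1] at h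
  have h2 : z = (z ^ a) ^ (Int.gcdA a b) * (z ^ b) ^ (Int.gcdB a b) := by
    rw [← zpow_natCast, ← zpow_natCast, ← zpow_mul, ← zpow_mul, ← zpow_add, ← h, zpow_one]
  rw [h2]
  exact H.mul_mem (H.zpow_mem ha _) (H.zpow_mem hb _)

theorem card_mul_relIndex {H K : Subgroup G} (h : H ≤ K) :
    Nat.card H * H.relIndex K = Nat.card K := by
  have h1 := Subgroup.card_mul_index (H.subgroupOf K)
  rw [Nat.card_congr (Subgroup.subgroupOfEquivOfLe h).toEquiv] at h1
  exact h1

theorem pow_inj_of_index_prime {p : ℕ} (hp : p.Prime) (H K : Subgroup G)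
    (hn : (H.subgroupOf K).Normal) (hidx : H.relIndex K = p)
    (z : G) (hzK : z ∈ K) (hzH : z ∉ H) (i j : ℕ) (hi : i < p) (hj : j < p)
    (h : (z ^ j)⁻¹ * z ^ i ∈ H) : i = j := by
  have hzp : z ^ p ∈ H := by
    have h1 := Subgroup.pow_index_mem (H.subgroupOf K) ⟨z, hzK⟩
    rw [Subgroup.mem_subgroupOf] at h1
    have h2 : (H.subgroupOf K).index = p := hidx
    rw [h2] at h1
    simpa using h1
  rcases lt_trichotomy i j with hij | hij | hij
  · exfalso
    have h1 : z ^ (j - i) ∈ H := by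
      have h2 : (z ^ j)⁻¹ * z ^ i = (z ^ (j - i))⁻¹ := by
        rw [eq_inv_iff_mul_eq_one, mul_assoc, ← pow_add, Nat.add_sub_cancel' hij.le,
          inv_mul_cancel]
      rw [h2] at h
      exact (H.inv_mem_iff).mp h
    exact hzH (mem_of_pow_mem H z (j - i) p
      (Nat.Coprime.symm (Nat.coprime_of_lt_prime (by omega) (by omega) hp)) h1 hzp)
  · exact hij
  · exfalso
    have h1 : z ^ (i - j) ∈ H := by
      have h2 : (z ^ j)⁻¹ * z ^ i = z ^ (i - j) := by
        rw [inv_mul_eq_iff_eq_mul, ← pow_add, Nat.add_sub_cancel' hij.le]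
      rw [h2] at h
      exact h
    exact hzH (mem_of_pow_mem H z (i - j) p
      (Nat.Coprime.symm (Nat.coprime_of_lt_prime (by omega) (by omega) hp)) h1 hzp)

theorem conj_mem_iff_of_normal (H K : Subgroup G) (hn : (H.subgroupOf K).Normal)
    (g : G) (hg : g ∈ K) (a : G) (ha : a ∈ K) : g⁻¹ * a * g ∈ H ↔ a ∈ H := by
  constructor
  · intro h
    have h1 : (⟨g⁻¹ * a * g, K.mul_mem (K.mul_mem (K.inv_mem hg) ha) hg⟩ : K) ∈ H.subgroupOf K :=
      Subgroup.mem_subgroupOf.mpr h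
    have h2 := hn.conj_mem _ h1 ⟨g, hg⟩
    rw [Subgroup.mem_subgroupOf] at h2
    simpa [mul_assoc] using h2
  · intro h
    have h1 : (⟨a, ha⟩ : K) ∈ H.subgroupOf K := Subgroup.mem_subgroupOf.mpr h
    have h2 := hn.conj_mem _ h1 ⟨g⁻¹, K.inv_mem hg⟩
    rw [Subgroup.mem_subgroupOf] at h2
    simpa [mul_assoc] using h2

theorem mem_smul_sylow {p : ℕ} (g : G) (Q : Sylow p G) (a : G) :
    a ∈ ((g • Q : Sylow p G) : Subgroup G) ↔ g⁻¹ * a * g ∈ (Q : Subgroup G) := by
  rw [Sylow.smul_def, Sylow.pointwise_smul_def, Subgroup.mem_pointwise_smul_iff_inv_smul_mem]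
  simp

theorem sylow_eq_of_le {p : ℕ} (P Q : Sylow p G) (h : (P : Subgroup G) ≤ Q) : P = Q :=
  Sylow.ext (P.is_maximal' Q.isPGroup' h).symm

theorem inf_normalizer_sylow' {p : ℕ} {H : Subgroup G} (hH : IsPGroup p H) (Q : Sylow p G) :
    H ⊓ Subgroup.normalizer ((Q : Subgroup G) : Set G) = H ⊓ (Q : Subgroup G) :=
  hH.inf_normalizer_sylow Q

theorem smul_eq_iff_mem_normalizer' {p : ℕ} (g : G) (Q : Sylow p G) :
    g • Q = Q ↔ g ∈ Subgroup.normalizer ((Q : Subgroup G) : Set G) :=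
  Sylow.smul_eq_iff_mem_normalizer

/-- Two distinct Sylow `p`-subgroups meet in a subgroup of index `p` when there are fewer than
`p ^ 2` of them. -/
theorem relIndex_inf [Finite G] (p : ℕ) [Fact p.Prime] (hn : Nat.card (Sylow p G) < p ^ 2)
    (P Q : Sylow p G) (hne : P ≠ Q) : ((P : Subgroup G) ⊓ Q).relIndex P = p := by
  have hp : p.Prime := Fact.out
  have hstab : MulAction.stabilizer (P : Subgroup G) Q =
      (Subgroup.normalizer ((Q : Subgroup G) : Set G)).subgroupOf P := by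
    ext x
    rw [MulAction.mem_stabilizer_iff, Subgroup.mem_subgroupOf]
    exact smul_eq_iff_mem_normalizer' (x : G) Q
  have hidx := MulAction.index_stabilizer (P : Subgroup G) Q
  rw [hstab] at hidx
  have hle : (Subgroup.normalizer ((Q : Subgroup G) : Set G)).relIndex P < p ^ 2 := by
    change ((Subgroup.normalizer ((Q : Subgroup G) : Set G)).subgroupOf P).index < p ^ 2
    rw [hidx]
    exact lt_of_le_of_lt (Set.ncard_le_card _) hn
  have heq : ((P : Subgroup G) ⊓ Q).relIndex P =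
      (Subgroup.normalizer ((Q : Subgroup G) : Set G)).relIndex P := by
    rw [← inf_normalizer_sylow' P.isPGroup' Q, Subgroup.inf_relIndex_left]
  rw [heq]
  obtain ⟨k, hk⟩ := (IsPGroup.iff_card).mp P.isPGroup'
  have hdvd : (Subgroup.normalizer ((Q : Subgroup G) : Set G)).relIndex P ∣ p ^ k :=
    hk ▸ Subgroup.relIndex_dvd_card _ _
  obtain ⟨j, -, hj⟩ := (Nat.dvd_prime_pow hp).mp hdvd
  rw [hj] at hle
  have hj2 : j < 2 := (Nat.pow_lt_pow_iff_right hp.one_lt).mp hle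
  interval_cases j
  · exfalso
    rw [pow_zero, Subgroup.relIndex_eq_one] at hj
    have h1 := inf_normalizer_sylow' P.isPGroup' Q
    rw [inf_eq_left.mpr hj] at h1
    exact hne (sylow_eq_of_le P Q (h1 ▸ inf_le_right))
  · rw [hj, pow_one]

/-- With fewer than `p ^ 2` Sylow `p`-subgroups, all intersections `P ∩ Q` (`Q ≠ P`) agree. -/
theorem inf_eq_of_card_lt [Finite G] (p : ℕ) [Fact p.Prime] (hn : Nat.card (Sylow p G) < p ^ 2)
    (P Q1 Q2 : Sylow p G) (h1 : P ≠ Q1) (h2 : P ≠ Q2) :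
    (P : Subgroup G) ⊓ Q1 = (P : Subgroup G) ⊓ Q2 := by
  have hp : p.Prime := Fact.out
  by_contra hD
  have hD1idx := relIndex_inf p hn P Q1 h1
  have hD2idx := relIndex_inf p hn P Q2 h2
  have hc1 := card_mul_relIndex (inf_le_left : (P : Subgroup G) ⊓ Q1 ≤ P)
  have hc2 := card_mul_relIndex (inf_le_left : (P : Subgroup G) ⊓ Q2 ≤ P)
  rw [hD1idx] at hc1
  rw [hD2idx] at hc2
  have hcardP : ∀ R : Sylow p G, Nat.card (R : Subgroup G) = Nat.card (P : Subgroup G) := by
    intro R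
    rw [Sylow.card_eq_multiplicity, Sylow.card_eq_multiplicity]
  -- D1 is not contained in Q2
  have hD1Q2 : ¬ (P : Subgroup G) ⊓ Q1 ≤ Q2 := by
    intro hle
    apply hD
    apply Subgroup.eq_of_le_of_card_ge (le_inf inf_le_left hle)
    have : Nat.card ((P : Subgroup G) ⊓ Q2 : Subgroup G) * p =
        Nat.card ((P : Subgroup G) ⊓ Q1 : Subgroup G) * p := by rw [hc1, hc2]
    exact (Nat.eq_of_mul_eq_mul_right hp.pos this).le
  -- normality of index-p subgroups
  have hnormal : ∀ (R : Sylow p G) (H : Subgroup G), H ≤ R → H.relIndex R = p →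
      (H.subgroupOf R).Normal := by
    intro R H hHR hidx
    apply Subgroup.normal_of_index_eq_minFac_card
    obtain ⟨k, hk⟩ := (IsPGroup.iff_card).mp R.isPGroup'
    have hk0 : k ≠ 0 := by
      rintro rfl
      have h3 := card_mul_relIndex hHR
      rw [hidx] at h3
      have h4 : Nat.card (R : Subgroup G) = 1 := by rw [hk, pow_zero]
      have h5 : p ∣ 1 := h4 ▸ Dvd.intro_left _ h3
      exact hp.one_lt.ne' (Nat.dvd_one.mp h5)
    change H.relIndex R = (Nat.card (R : Subgroup G)).minFac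
    rw [hidx, hk, hp.pow_minFac hk0]
  have hD1n := hnormal P _ inf_le_left hD1idx
  -- choose x
  have hx : ∃ x ∈ (P : Subgroup G), x ∉ (P : Subgroup G) ⊓ Q1 := by
    by_contra hcon
    have hle : (P : Subgroup G) ≤ (P : Subgroup G) ⊓ Q1 := by
      intro x hx
      by_contra hx'
      exact hcon ⟨x, hx, hx'⟩
    have := Subgroup.relIndex_eq_one.mpr hle
    rw [hD1idx] at this
    exact hp.one_lt.ne' this
  obtain ⟨x, hxP, hxD⟩ := hx
  have hxi : ∀ i : ℕ, x ^ i ∈ (P : Subgroup G) := fun i => Subgroup.pow_mem _ hxP i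
  -- D1 ≤ R i
  have hD1R : ∀ i : ℕ, (P : Subgroup G) ⊓ Q1 ≤ ((x ^ i • Q1 : Sylow p G) : Subgroup G) := by
    intro i d hd
    rw [mem_smul_sylow]
    have := (conj_mem_iff_of_normal _ _ hD1n (x ^ i) (hxi i) d hd.1).mpr hd
    exact this.2
  have hRQ2 : ∀ i : ℕ, Q2 ≠ (x ^ i • Q1 : Sylow p G) := by
    intro i h
    apply hD1Q2
    rw [h]
    exact hD1R i
  have hEidx : ∀ i : ℕ, ((Q2 : Subgroup G) ⊓ ((x ^ i • Q1 : Sylow p G) : Subgroup G)).relIndex Q2 = p :=
    fun i => relIndex_inf p hn Q2 _ (hRQ2 i)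
  have hEn : ∀ i : ℕ, (((Q2 : Subgroup G) ⊓ ((x ^ i • Q1 : Sylow p G) : Subgroup G)).subgroupOf Q2).Normal :=
    fun i => hnormal Q2 _ inf_le_left (hEidx i)
  have hy : ∀ i : ℕ, ∃ y ∈ (Q2 : Subgroup G), y ∉ ((x ^ i • Q1 : Sylow p G) : Subgroup G) := by
    intro i
    by_contra hcon
    have hle : (Q2 : Subgroup G) ≤ ((x ^ i • Q1 : Sylow p G) : Subgroup G) := by
      intro y hy
      by_contra hy'
      exact hcon ⟨y, hy, hy'⟩
    exact hRQ2 i (sylow_eq_of_le _ _ hle)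
  choose y hyQ2 hyR using hy
  -- R i injective
  have hRinj : ∀ i j : ℕ, i < p → j < p → (x ^ i • Q1 : Sylow p G) = x ^ j • Q1 → i = j := by
    intro i j hi hj h
    have h3 : ((x ^ j)⁻¹ * x ^ i) • Q1 = Q1 := by
      rw [mul_smul, h, inv_smul_smul]
    rw [smul_eq_iff_mem_normalizer'] at h3
    have h4 : (x ^ j)⁻¹ * x ^ i ∈ (P : Subgroup G) ⊓ Subgroup.normalizer ((Q1 : Subgroup G) : Set G) :=
      ⟨Subgroup.mul_mem _ (Subgroup.inv_mem _ (hxi j)) (hxi i), h3⟩
    rw [inf_normalizer_sylow' P.isPGroup' Q1] at h4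
    exact pow_inj_of_index_prime hp _ _ hD1n hD1idx x hxP hxD i j hi hj h4
  -- intersection of Q2 with f(i,j)
  have hinter : ∀ (i j : ℕ), (Q2 : Subgroup G) ⊓ ((y i ^ j • (x ^ i • Q1) : Sylow p G) : Subgroup G) =
      (Q2 : Subgroup G) ⊓ ((x ^ i • Q1 : Sylow p G) : Subgroup G) := by
    intro i j
    have hyj : y i ^ j ∈ (Q2 : Subgroup G) := Subgroup.pow_mem _ (hyQ2 i) j
    ext a
    rw [Subgroup.mem_inf, Subgroup.mem_inf, mem_smul_sylow]
    constructor
    · rintro ⟨ha, hb⟩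
      refine ⟨ha, ?_⟩
      have hb' : (y i ^ j)⁻¹ * a * y i ^ j ∈ (Q2 : Subgroup G) ⊓ ((x ^ i • Q1 : Sylow p G) : Subgroup G) :=
        ⟨Subgroup.mul_mem _ (Subgroup.mul_mem _ (Subgroup.inv_mem _ hyj) ha) hyj, hb⟩
      exact ((conj_mem_iff_of_normal _ _ (hEn i) (y i ^ j) hyj a ha).mp hb').2
    · rintro ⟨ha, hb⟩
      refine ⟨ha, ?_⟩
      exact ((conj_mem_iff_of_normal _ _ (hEn i) (y i ^ j) hyj a ha).mpr ⟨ha, hb⟩).2
  -- the injection
  have hinj : Function.Injective (fun ij : Fin p × Fin p =>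
      (y ij.1 ^ (ij.2 : ℕ) • (x ^ (ij.1 : ℕ) • Q1) : Sylow p G)) := by
    rintro ⟨i, j⟩ ⟨i', j'⟩ h
    simp only at h
    have hE : (Q2 : Subgroup G) ⊓ ((x ^ (i : ℕ) • Q1 : Sylow p G) : Subgroup G) =
        (Q2 : Subgroup G) ⊓ ((x ^ (i' : ℕ) • Q1 : Sylow p G) : Subgroup G) := by
      rw [← hinter i j, ← hinter i' j', h]
    have hii : (i : ℕ) = i' := by
      by_contra hne
      have hRne : (x ^ (i : ℕ) • Q1 : Sylow p G) ≠ x ^ (i' : ℕ) • Q1 :=
        fun h' => hne (hRinj i i' i.2 i'.2 h')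
      have h5 := relIndex_inf p hn _ _ hRne
      have h6 := card_mul_relIndex (inf_le_left :
        ((x ^ (i : ℕ) • Q1 : Sylow p G) : Subgroup G) ⊓ ((x ^ (i' : ℕ) • Q1 : Sylow p G) : Subgroup G) ≤ _)
      rw [h5, hcardP] at h6
      have h7 := card_mul_relIndex (inf_le_left :
        (Q2 : Subgroup G) ⊓ ((x ^ (i : ℕ) • Q1 : Sylow p G) : Subgroup G) ≤ _)
      rw [hEidx, hcardP] at h7
      have hEle : (Q2 : Subgroup G) ⊓ ((x ^ (i : ℕ) • Q1 : Sylow p G) : Subgroup G) ≤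
          ((x ^ (i : ℕ) • Q1 : Sylow p G) : Subgroup G) ⊓ ((x ^ (i' : ℕ) • Q1 : Sylow p G) : Subgroup G) :=
        le_inf inf_le_right (hE ▸ inf_le_right)
      have hEeq := Subgroup.eq_of_le_of_card_ge hEle
        ((Nat.eq_of_mul_eq_mul_right hp.pos (h6.trans h7.symm)).le)
      apply hD1Q2
      have h8 : (P : Subgroup G) ⊓ Q1 ≤
          ((x ^ (i : ℕ) • Q1 : Sylow p G) : Subgroup G) ⊓ ((x ^ (i' : ℕ) • Q1 : Sylow p G) : Subgroup G) :=
        le_inf (hD1R i) (hD1R i')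
      rw [← hEeq] at h8
      exact h8.trans inf_le_left
    have hi' : i = i' := Fin.ext hii
    subst hi'
    have h3 : ((y i ^ (j' : ℕ))⁻¹ * y i ^ (j : ℕ)) • (x ^ (i : ℕ) • Q1 : Sylow p G) =
        x ^ (i : ℕ) • Q1 := by
      rw [mul_smul, h, inv_smul_smul]
    rw [smul_eq_iff_mem_normalizer'] at h3
    have h4 : (y i ^ (j' : ℕ))⁻¹ * y i ^ (j : ℕ) ∈ (Q2 : Subgroup G) ⊓
        Subgroup.normalizer (((x ^ (i : ℕ) • Q1 : Sylow p G) : Subgroup G) : Set G) :=
      ⟨Subgroup.mul_mem _ (Subgroup.inv_mem _ (Subgroup.pow_mem _ (hyQ2 i) _))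
        (Subgroup.pow_mem _ (hyQ2 i) _), h3⟩
    rw [inf_normalizer_sylow' Q2.isPGroup'] at h4
    have hjj := pow_inj_of_index_prime hp _ _ (hEn i) (hEidx i) (y i) (hyQ2 i)
      (fun h => hyR i h.2) j j' j.2 j'.2 h4
    rw [Prod.mk.injEq]
    exact ⟨rfl, Fin.ext hjj⟩
  have hcard := Nat.card_le_card_of_injective _ hinj
  rw [Nat.card_prod, Nat.card_fin] at hcard
  rw [pow_two] at hn
  omega

/-- With fewer than `p ^ 2` Sylow `p`-subgroups, the normal core of a Sylow `p`-subgroup has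
index dividing `p` in it. -/
theorem card_dvd_card_normalCore_mul [Finite G] (p : ℕ) [Fact p.Prime]
    (hn : Nat.card (Sylow p G) < p ^ 2) (P : Sylow p G) :
    Nat.card (P : Subgroup G) ∣ Nat.card (P : Subgroup G).normalCore * p := by
  by_cases h : ∃ Q : Sylow p G, P ≠ Q
  · obtain ⟨Q1, hQ1⟩ := h
    have hidx := relIndex_inf p hn P Q1 hQ1
    have hc := card_mul_relIndex (inf_le_left : (P : Subgroup G) ⊓ Q1 ≤ P)
    rw [hidx] at hc
    have hle : (P : Subgroup G) ⊓ Q1 ≤ (P : Subgroup G).normalCore := by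
      intro a ha b
      by_cases hb : P = b⁻¹ • P
      · have h1 : a ∈ ((b⁻¹ • P : Sylow p G) : Subgroup G) := hb ▸ ha.1
        rw [mem_smul_sylow] at h1
        simpa using h1
      · have h1 := inf_eq_of_card_lt p hn P Q1 (b⁻¹ • P) hQ1 hb
        have h2 : a ∈ (P : Subgroup G) ⊓ ((b⁻¹ • P : Sylow p G) : Subgroup G) := h1 ▸ ha
        have h3 : a ∈ ((b⁻¹ • P : Sylow p G) : Subgroup G) := (Subgroup.mem_inf.mp h2).2
        rw [mem_smul_sylow] at h3
        simpa using h3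
    rw [← hc]
    exact Nat.mul_dvd_mul_right (Subgroup.card_dvd_of_le hle) p
  · have hall : ∀ Q : Sylow p G, P = Q := by
      intro Q
      by_contra hQ
      exact h ⟨Q, hQ⟩
    have hle : (P : Subgroup G) ≤ (P : Subgroup G).normalCore := by
      intro a ha b
      have h1 : a ∈ ((b⁻¹ • P : Sylow p G) : Subgroup G) := hall (b⁻¹ • P) ▸ ha
      rw [mem_smul_sylow] at h1
      simpa using h1
    exact Dvd.dvd.mul_right (Subgroup.card_dvd_of_le hle) p


/-- Let S be a finite non-abelian simple group and p a prime dividing its order. If S has fewer than p² Sylow p-subgroups, then its Sylow p-subgroups have order p. -/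
theorem result {S : Type*} [Group S] [Finite S]
    [IsSimpleGroup S] (hS : ¬ IsMulCommutative S) (p : ℕ) [Fact p.Prime] (hp : p ∣ Nat.card S)
    (hn : Nat.card (Sylow p S) < p ^ 2) (P : Sylow p S) : Nat.card P = p := by
  have hpp : p.Prime := Fact.out
  have hdvd := card_dvd_card_normalCore_mul p hn P
  have hPcard : p ∣ Nat.card (P : Subgroup S) := by
    rw [Sylow.card_eq_multiplicity]
    exact dvd_pow_self p (hpp.factorization_pos_of_dvd Nat.card_pos.ne' hp).ne'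
  rcases Subgroup.Normal.eq_bot_or_eq_top (Subgroup.normalCore_normal (P : Subgroup S)) with h | h
  · rw [h, Subgroup.card_bot, one_mul] at hdvd
    rcases (Nat.dvd_prime hpp).mp hdvd with h1 | h1
    · rw [h1] at hPcard
      exact absurd (Nat.dvd_one.mp hPcard) hpp.one_lt.ne'
    · exact h1
  · exfalso
    have hPtop : (P : Subgroup S) = ⊤ := top_le_iff.mp (h ▸ Subgroup.normalCore_le _)
    have hSp : IsPGroup p S := by
      intro g
      obtain ⟨k, hk⟩ := P.isPGroup' ⟨g, hPtop ▸ Subgroup.mem_top g⟩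
      exact ⟨k, congrArg Subtype.val hk⟩
    have hcn := hSp.center_nontrivial
    rcases Subgroup.Normal.eq_bot_or_eq_top (inferInstance : (Subgroup.center S).Normal) with hc | hc
    · rw [hc] at hcn
      exact not_nontrivial _ hcn
    · apply hS
      refine ⟨⟨fun a b => ?_⟩⟩
      have hb : b ∈ Subgroup.center S := hc ▸ Subgroup.mem_top b
      exact Subgroup.mem_center_iff.mp hb a

end Cfsg.Agent.S4343
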