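import Cfsg.Statements.S4344
-- import your own Cfsg.Agent.* helpers here

set_option autoImplicit false
open Cfsg

namespace Cfsg.Agent.S4344

theorem cyclic_sub_unique {C : Type*} [Group C] [Finite C] [IsCyclic C] (P1 P2 : Subgroup C)
    (h : Nat.card P1 = Nat.card P2) : P1 = P2 := by
  classical
  let _ := Fintype.ofFinite C
  have key : ∀ P : Subgroup C, Nat.card P = Nat.card P1 →
      (P : Set C) = {a : C | a ^ Nat.card P1 = 1} := by
    intro P hP
    have hpos : 0 < Nat.card P1 := Nat.card_pos
    have hle := IsCyclic.card_pow_eq_one_le (α := C) hpos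
    have hsub : (P : Set C).toFinset ⊆ Finset.univ.filter (fun a : C => a ^ Nat.card P1 = 1) := by
      intro x hx
      simp only [Set.mem_toFinset, SetLike.mem_coe] at hx
      simp only [Finset.mem_filter, Finset.mem_univ, true_and]
      have h1 := pow_card_eq_one' (G := P) (x := ⟨x, hx⟩)
      rw [hP] at h1
      exact congrArg Subtype.val h1
    have hcard : (P : Set C).toFinset.card = Nat.card P1 := by
      rw [Set.toFinset_card, ← Nat.card_eq_fintype_card]; exact hP
    have heq := Finset.eq_of_subset_of_card_le hsub (by rw [hcard]; exact hle)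
    ext x
    have h2 := congrArg (fun s => x ∈ s) heq
    simpa using h2
  have h3 := (key P1 rfl).trans (key P2 h.symm).symm
  exact SetLike.coe_injective h3


/-- Let S be a finite non-abelian simple group, M a maximal subgroup of S and C a cyclic normal subgroup of M. If a Sylow p-subgroup P of S (for a prime p dividing the order of S) is contained in C, then the number of Sylow p-subgroups of S equals the index of M. -/
theorem result {S : Type*} [Group S] [Finite S]
    [IsSimpleGroup S] (hS : ¬ IsMulCommutative S) (p : ℕ) [Fact p.Prime] (hp : p ∣ Nat.card S)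
    (M : Subgroup S) (hM : IsCoatom M) (C : Subgroup S) (hCM : C ≤ M) (hCn : (C.subgroupOf M).Normal)
    (hC : IsCyclic C) (P : Sylow p S) (hP : (P : Subgroup S) ≤ C) :
    Nat.card (Sylow p S) = M.index := by
  rw [Sylow.card_eq_index_normalizer P]
  congr 1
  have hMC : M ≤ Subgroup.normalizer (C : Set S) :=
    (Subgroup.normal_subgroupOf_iff_le_normalizer hCM).mp hCn
  have hMN : M ≤ Subgroup.normalizer ((P : Subgroup S) : Set S) := by
    intro m hm
    rw [Subgroup.mem_normalizer_iff_map_conj_eq]
    have hCm : C.map (MulAut.conj m).toMonoidHom = C :=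
      Subgroup.mem_normalizer_iff_map_conj_eq.mp (hMC hm)
    have hle : (P : Subgroup S).map (MulAut.conj m).toMonoidHom ≤ C := by
      rw [← hCm]; exact Subgroup.map_mono hP
    have hcard : Nat.card (((P : Subgroup S).map (MulAut.conj m).toMonoidHom).subgroupOf C) =
        Nat.card ((P : Subgroup S).subgroupOf C) := by
      rw [Nat.card_congr (Subgroup.subgroupOfEquivOfLe hle).toEquiv,
        Nat.card_congr (Subgroup.subgroupOfEquivOfLe hP).toEquiv]
      exact Subgroup.card_map_of_injective (MulAut.conj m).injective
    have heq := cyclic_sub_unique _ _ hcard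
    rw [Subgroup.subgroupOf_inj, inf_of_le_left hle, inf_of_le_left hP] at heq
    exact heq
  have hne : Subgroup.normalizer ((P : Subgroup S) : Set S) ≠ ⊤ := by
    intro htop
    have hn : (P : Subgroup S).Normal := Subgroup.normalizer_eq_top_iff.mp htop
    rcases hn.eq_bot_or_eq_top with hbot | htop'
    · exact P.ne_bot_of_dvd_card hp hbot
    · apply hS
      have hCtop : C = ⊤ := top_le_iff.mp (htop' ▸ hP)
      constructor
      constructor
      intro a b
      have ha : a ∈ C := hCtop ▸ Subgroup.mem_top a
      have hb : b ∈ C := hCtop ▸ Subgroup.mem_top b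
      obtain ⟨g, hg⟩ := hC.exists_generator
      obtain ⟨i, hi⟩ := Subgroup.mem_zpowers_iff.mp (hg ⟨a, ha⟩)
      obtain ⟨j, hj⟩ := Subgroup.mem_zpowers_iff.mp (hg ⟨b, hb⟩)
      have hi' : (g : S) ^ i = a := by
        have := congrArg Subtype.val hi; simpa using this
      have hj' : (g : S) ^ j = b := by
        have := congrArg Subtype.val hj; simpa using this
      rw [← hi', ← hj', ← zpow_add, ← zpow_add, add_comm]
  exact ((hM.le_iff_eq hne).mp hMN)

end Cfsg.Agent.S4344
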