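import Cfsg.Statements.S4345
import Cfsg.Agent.Lib.Helper24.SylowCount
import Cfsg.Agent.Lib.Helper24.Solvable

set_option autoImplicit false
open Cfsg

namespace Cfsg.Agent.S4345

open Cfsg.Agent.Lib.Helper24

universe u

/-- For a normal `r`-subgroup `K`, the number of Sylow `p`-subgroups of `PK` is a power of `r`
congruent to `1` modulo `p`. -/
theorem card_sylow_sup_pGroup {G : Type*} [Group G] [Finite G] (p : ℕ) [Fact p.Prime]
    (r : ℕ) (hr : r.Prime) (K : Subgroup G) [K.Normal] (hK : IsPGroup r K) (P : Sylow p G) :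
    ∃ c : ℕ, Nat.card (Sylow p ((P : Subgroup G) ⊔ K : Subgroup G)) = r ^ c ∧
      r ^ c ≡ 1 [MOD p] := by
  have hfr : Fact r.Prime := ⟨hr⟩
  have h1 : Nat.card (Sylow p ((P : Subgroup G) ⊔ K : Subgroup G)) ∣ Nat.card K := by
    rw [card_sylow_of_le p P _ le_sup_left]
    have h2 : (Subgroup.normalizer ((P : Subgroup G) : Set G)).relIndex ((P : Subgroup G) ⊔ K) ∣
        (P : Subgroup G).relIndex ((P : Subgroup G) ⊔ K) :=
      Subgroup.relIndex_dvd_of_le_left _ Subgroup.le_normalizer
    have h3 : (P : Subgroup G).relIndex ((P : Subgroup G) ⊔ K) = (K ⊓ (P : Subgroup G)).relIndex K := by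
      rw [relIndex_inf_eq_sup K (P : Subgroup G), sup_comm]
    have h4 : (K ⊓ (P : Subgroup G)).relIndex K ∣ Nat.card K := Subgroup.index_dvd_card _
    exact h2.trans (h3 ▸ h4)
  obtain ⟨b, hb⟩ := (IsPGroup.iff_card).mp hK
  rw [hb] at h1
  obtain ⟨c, -, hc⟩ := (Nat.dvd_prime_pow hr).mp h1
  refine ⟨c, hc, ?_⟩
  rw [← hc]
  exact card_sylow_modEq_one p _

theorem aux (p : ℕ) [Fact p.Prime] : ∀ n : ℕ, ∀ (G : Type u) [Group G] [Finite G],
    Nat.card G = n → Group.IsSolvable G → ∀ ℓ : ℕ, ℓ.Prime →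
      ℓ ^ (Nat.card (Sylow p G)).factorization ℓ ≡ 1 [MOD p] := by
  intro n
  induction n using Nat.strong_induction_on with
  | _ n ih =>
    intro G _ _ hn hG ℓ hℓ
    by_cases htriv : Subsingleton G
    · obtain ⟨P⟩ := (Sylow.nonempty : Nonempty (Sylow p G))
      have h1 : Nat.card (Sylow p G) = 1 := by
        rw [Sylow.card_eq_index_normalizer P]
        have : Subgroup.normalizer (P : Set G) = ⊤ := Subsingleton.elim _ _
        rw [this, Subgroup.index_top]
      rw [h1]
      simp [Nat.ModEq]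
    · have hnt : Nontrivial G := not_subsingleton_iff_nontrivial.mp htriv
      obtain ⟨r, K, hr, hKn, hKne, hKr⟩ := exists_normal_pGroup_of_solvable hG
      obtain ⟨P⟩ := (Sylow.nonempty : Nonempty (Sylow p G))
      have hmul := card_sylow_eq_mul p K P
      obtain ⟨c, hc, hc1⟩ := card_sylow_sup_pGroup p r hr K hKr P
      have hlt : Nat.card (G ⧸ K) < n := by
        rw [← hn, Subgroup.card_eq_card_quotient_mul_card_subgroup K]
        have h1 : 1 < Nat.card K := (Subgroup.one_lt_card_iff_ne_bot K).mpr hKne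
        have h2 : 0 < Nat.card (G ⧸ K) := Nat.card_pos
        calc Nat.card (G ⧸ K) = Nat.card (G ⧸ K) * 1 := (mul_one _).symm
          _ < Nat.card (G ⧸ K) * Nat.card K := Nat.mul_lt_mul_of_pos_left h1 h2
      have hsolq : Group.IsSolvable (G ⧸ K) := inferInstance
      have hih := ih _ hlt (G ⧸ K) rfl hsolq ℓ hℓ
      have ha0 : Nat.card (Sylow p (G ⧸ K)) ≠ 0 := Nat.card_pos.ne'
      have hb0 : r ^ c ≠ 0 := (pow_pos hr.pos c).ne'
      rw [hmul, hc, Nat.factorization_mul ha0 hb0, Finsupp.add_apply,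
        Nat.Prime.factorization_pow hr, pow_add]
      by_cases hlr : ℓ = r
      · subst hlr
        rw [Finsupp.single_eq_same]
        simpa using hih.mul hc1
      · rw [Finsupp.single_eq_of_ne hlr, pow_zero, mul_one]
        exact hih


/-- Let G be a finite solvable group and p, ℓ primes. Then the largest power of ℓ dividing the number of Sylow p-subgroups of G is congruent to 1 modulo p. -/
theorem result {G : Type*} [Group G] [Finite G]
    (hG : Group.IsSolvable G) (p ℓ : ℕ) [Fact p.Prime] (hℓ : ℓ.Prime) :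
    ℓ ^ (Nat.card (Sylow p G)).factorization ℓ ≡ 1 [MOD p] := by
  exact aux p _ G rfl hG ℓ hℓ

end Cfsg.Agent.S4345
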