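import Cfsg.Statements.S4354
-- import your own Cfsg.Agent.* helpers here

set_option autoImplicit false
open Cfsg

namespace Cfsg.Agent.S4354

section aux

variable {G : Type*} [Group G] [Finite G]

/-- for a normal subgroup `N`, the index of `H ∩ N` in `N` divides the index of `H` -/
theorem relIndex_dvd_index_right (H N : Subgroup G) [N.Normal] : H.relIndex N ∣ H.index := by
  have h1 : (H ⊓ N).relIndex N * N.index = (H ⊓ N).index := Subgroup.relIndex_mul_index inf_le_right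
  have h2 : (H ⊓ N).relIndex H * H.index = (H ⊓ N).index := Subgroup.relIndex_mul_index inf_le_left
  rw [Subgroup.inf_relIndex_right] at h1
  rw [Subgroup.inf_relIndex_left] at h2
  obtain ⟨m, hm⟩ : N.relIndex H ∣ N.index := Subgroup.relIndex_dvd_index_of_normal N H
  have h0 : N.relIndex H ≠ 0 := by
    show (N.subgroupOf H).index ≠ 0
    exact Subgroup.index_ne_zero_of_finite
  refine ⟨m, ?_⟩
  have h3 : N.relIndex H * H.index = N.relIndex H * (H.relIndex N * m) := by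
    rw [h2, ← h1, hm]; ring
  exact Nat.eq_of_mul_eq_mul_left (Nat.pos_of_ne_zero h0) h3

/-- Bezout in a subgroup -/
theorem mem_of_pow_mem_of_pow_mem {K : Subgroup G} {g : G} {a b : ℕ} (ha : g ^ a ∈ K)
    (hb : g ^ b ∈ K) (hab : a.Coprime b) : g ∈ K := by
  have h1 : ((a : ℤ) * Nat.gcdA a b + (b : ℤ) * Nat.gcdB a b) = 1 := by
    have := Nat.gcd_eq_gcd_ab a b
    rw [hab] at this
    exact_mod_cast this.symm
  have h2 : g = (g ^ a) ^ (Nat.gcdA a b) * (g ^ b) ^ (Nat.gcdB a b) := by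
    rw [← zpow_natCast, ← zpow_natCast, ← zpow_mul, ← zpow_mul, ← zpow_add, h1, zpow_one]
  rw [h2]
  exact K.mul_mem (K.zpow_mem ha _) (K.zpow_mem hb _)

variable {p : ℕ} [Fact p.Prime]

/-- a subgroup of index prime to `p` contains a Sylow `p`-subgroup above any given
`p`-subgroup of it -/
theorem exists_sylow_between (H : Subgroup G) (hH : ¬ p ∣ H.index) (D : Subgroup G)
    (hD : IsPGroup p D) (hDH : D ≤ H) :
    ∃ Q : Sylow p G, D ≤ (Q : Subgroup G) ∧ (Q : Subgroup G) ≤ H := by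
  have hD' : IsPGroup p (D.subgroupOf H) := hD.comap_subtype
  obtain ⟨S, hS⟩ := hD'.exists_le_sylow
  have hp : IsPGroup p ((S : Subgroup H).map H.subtype) := S.isPGroup'.map _
  have hidx : ¬ p ∣ ((S : Subgroup H).map H.subtype).index := by
    rw [Subgroup.index_map_subtype]
    intro hdvd
    rcases (Nat.Prime.dvd_mul (Fact.out : p.Prime)).mp hdvd with h | h
    · exact S.not_dvd_index h
    · exact hH h
  refine ⟨hp.toSylow hidx, ?_, ?_⟩
  · intro x hx
    show x ∈ (S : Subgroup H).map H.subtype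
    exact ⟨⟨x, hDH hx⟩, hS (show (⟨x, hDH hx⟩ : H) ∈ D.subgroupOf H from hx), rfl⟩
  · show (S : Subgroup H).map H.subtype ≤ H
    exact Subgroup.map_subtype_le _

/-- the intersection of a Sylow subgroup with a normal subgroup has index prime to `p` -/
theorem not_dvd_relIndex_inf (P : Sylow p G) (N : Subgroup G) [N.Normal] :
    ¬ p ∣ ((P : Subgroup G) ⊓ N).relIndex N := by
  rw [Subgroup.inf_relIndex_right]
  intro h
  exact P.not_dvd_index (h.trans (relIndex_dvd_index_right _ N))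

/-- a `p`-subgroup of `N` containing `P ∩ N` equals it -/
theorem eq_inf_of_le (P : Sylow p G) (N : Subgroup G) [N.Normal] (R : Subgroup G)
    (hR : IsPGroup p R) (hRN : R ≤ N) (hle : (P : Subgroup G) ⊓ N ≤ R) :
    R = (P : Subgroup G) ⊓ N := by
  refine le_antisymm ?_ hle
  have h1 := Subgroup.relIndex_mul_relIndex ((P : Subgroup G) ⊓ N) R N hle hRN
  have h2 : ¬ p ∣ ((P : Subgroup G) ⊓ N).relIndex R := by
    intro h
    apply not_dvd_relIndex_inf P N
    rw [← h1]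
    exact Dvd.dvd.mul_right h _
  obtain ⟨k, hk⟩ := IsPGroup.iff_card.mp hR
  have h3 : ((P : Subgroup G) ⊓ N).relIndex R ∣ p ^ k := by
    rw [← hk]; exact Subgroup.relIndex_dvd_card _ _
  obtain ⟨j, -, hj⟩ := (Nat.dvd_prime_pow (Fact.out : p.Prime)).mp h3
  have hj0 : j = 0 := by
    by_contra hne
    apply h2
    rw [hj]
    exact dvd_pow_self p hne
  rw [hj0, pow_zero] at hj
  exact Subgroup.relIndex_eq_one.mp hj

/-- Sylow conjugacy inside a normal subgroup -/
theorem exists_conj_inf (P Q : Sylow p G) (N : Subgroup G) [N.Normal] :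
    ∃ n ∈ N, ∀ e ∈ (P : Subgroup G) ⊓ N, n⁻¹ * e * n ∈ (Q : Subgroup G) ⊓ N := by
  have hPp : IsPGroup p (((P : Subgroup G) ⊓ N).subgroupOf N) :=
    (P.isPGroup'.to_le inf_le_left).comap_subtype
  have hQp : IsPGroup p (((Q : Subgroup G) ⊓ N).subgroupOf N) :=
    (Q.isPGroup'.to_le inf_le_left).comap_subtype
  let SP : Sylow p N := hPp.toSylow (not_dvd_relIndex_inf P N)
  let SQ : Sylow p N := hQp.toSylow (not_dvd_relIndex_inf Q N)
  obtain ⟨n, hn⟩ := MulAction.exists_smul_eq N SQ SP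
  refine ⟨n, n.2, ?_⟩
  intro e he
  have heN : e ∈ N := (Subgroup.mem_inf.mp he).2
  have h1 : (⟨e, heN⟩ : N) ∈ (SP : Subgroup N) := by
    show (⟨e, heN⟩ : N) ∈ ((P : Subgroup G) ⊓ N).subgroupOf N
    exact he
  rw [← hn, Sylow.coe_subgroup_smul, Subgroup.mem_pointwise_smul_iff_inv_smul_mem] at h1
  have h2 : (n⁻¹ * ⟨e, heN⟩ * n : N) ∈ ((Q : Subgroup G) ⊓ N).subgroupOf N := by
    have : (MulAut.conj n)⁻¹ • (⟨e, heN⟩ : N) = n⁻¹ * ⟨e, heN⟩ * n := by
      rw [MulAut.smul_def, MulAut.conj_inv_apply]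
    rw [← this]
    exact h1
  exact h2

/-- a Sylow `p`-subgroup centralizes its intersection with `N` when that is abelian and
all `p`-elements are centralized by Sylow subgroups -/
theorem sylow_centralizes_inf (N : Subgroup G) [N.Normal]
    (hcl : ∀ x : G, (∃ k : ℕ, orderOf x = p ^ k) →
      ¬ p ∣ (Subgroup.centralizer ({x} : Set G)).index)
    (P : Sylow p G)
    (hab : ∀ a ∈ (P : Subgroup G) ⊓ N, ∀ b ∈ (P : Subgroup G) ⊓ N, a * b = b * a)
    (x : G) (hx : x ∈ (P : Subgroup G)) (d : G) (hd : d ∈ (P : Subgroup G) ⊓ N) :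
    x * d = d * x := by
  set D : Subgroup G := (P : Subgroup G) ⊓ N with hDdef
  obtain ⟨k, hk⟩ : ∃ k : ℕ, orderOf x = p ^ k := by
    obtain ⟨k, hk⟩ := (IsPGroup.iff_orderOf.mp P.isPGroup') ⟨x, hx⟩
    exact ⟨k, by rw [← hk, Subgroup.orderOf_mk]⟩
  have hidx := hcl x ⟨k, hk⟩
  obtain ⟨Q₀, -, hQ₀⟩ := exists_sylow_between (Subgroup.centralizer ({x} : Set G)) hidx ⊥
    IsPGroup.of_bot bot_le
  obtain ⟨n, hnN, hn⟩ := exists_conj_inf P Q₀ N
  -- x normalizes D
  have hxD : ∀ e ∈ D, x * e * x⁻¹ ∈ D := by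
    intro e he
    obtain ⟨he1, he2⟩ := Subgroup.mem_inf.mp he
    exact Subgroup.mem_inf.mpr ⟨(P : Subgroup G).mul_mem ((P : Subgroup G).mul_mem hx he1)
      ((P : Subgroup G).inv_mem hx), ‹N.Normal›.conj_mem e he2 x⟩
  have hxD' : ∀ e ∈ D, x⁻¹ * e * x ∈ D := by
    intro e he
    obtain ⟨he1, he2⟩ := Subgroup.mem_inf.mp he
    refine Subgroup.mem_inf.mpr ⟨(P : Subgroup G).mul_mem ((P : Subgroup G).mul_mem
      ((P : Subgroup G).inv_mem hx) he1) hx, ?_⟩
    have := ‹N.Normal›.conj_mem e he2 x⁻¹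
    rwa [inv_inv] at this
  -- x' = n x n⁻¹ centralizes D
  have hx' : ∀ e ∈ D, (n * x * n⁻¹) * e = e * (n * x * n⁻¹) := by
    intro e he
    have h1 : n⁻¹ * e * n ∈ Subgroup.centralizer ({x} : Set G) :=
      hQ₀ (Subgroup.mem_inf.mp (hn e he)).1
    rw [Subgroup.mem_centralizer_singleton_iff] at h1
    -- h1 : (n⁻¹ * e * n) * x = x * (n⁻¹ * e * n)
    have h2 : e = n * (n⁻¹ * e * n) * n⁻¹ := by group
    calc (n * x * n⁻¹) * e = n * (x * (n⁻¹ * e * n)) * n⁻¹ := by group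
      _ = n * ((n⁻¹ * e * n) * x) * n⁻¹ := by rw [h1]
      _ = e * (n * x * n⁻¹) := by group
  -- m = x'⁻¹ x
  set m : G := (n * x * n⁻¹)⁻¹ * x with hmdef
  have hmN : m ∈ N := by
    have h1 : x⁻¹ * n⁻¹ * x ∈ N := by
      have := ‹N.Normal›.conj_mem n⁻¹ (N.inv_mem hnN) x⁻¹
      rwa [inv_inv] at this
    have h2 : m = n * (x⁻¹ * n⁻¹ * x) := by rw [hmdef]; group
    rw [h2]
    exact N.mul_mem hnN h1
  have hmx : ∀ e ∈ D, m * e * m⁻¹ = x * e * x⁻¹ := by
    intro e he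
    have h1 := hx' (x * e * x⁻¹) (hxD e he)
    have h2 : m * e * m⁻¹ = (n * x * n⁻¹)⁻¹ * ((x * e * x⁻¹) * (n * x * n⁻¹)) := by
      rw [hmdef]; group
    rw [h2, ← h1]; group
  have hmx' : ∀ e ∈ D, m⁻¹ * e * m = x⁻¹ * e * x := by
    intro e he
    have h1 := hx' e he
    have h2 : m⁻¹ * e * m = x⁻¹ * ((n * x * n⁻¹) * e) * (n * x * n⁻¹)⁻¹ * x := by
      rw [hmdef]; group
    rw [h2, h1]; group
  -- m normalizes D
  have hmnorm : m ∈ Subgroup.normalizer (D : Set G) := by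
    rw [Subgroup.mem_normalizer_iff]
    intro e
    constructor
    · intro he
      rw [hmx e he]; exact hxD e he
    · intro he
      have h1 := hxD' _ he
      rw [← hmx' _ he] at h1
      have h2 : m⁻¹ * (m * e * m⁻¹) * m = e := by group
      rwa [h2] at h1
  set A : Subgroup G := N ⊓ Subgroup.normalizer (D : Set G) with hAdef
  have hDA : D ≤ A := le_inf inf_le_right Subgroup.le_normalizer
  have hAN : A ≤ N := inf_le_left
  haveI hnorm : (D.subgroupOf A).Normal :=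
    (Subgroup.normal_subgroupOf_iff_le_normalizer hDA).mpr inf_le_right
  have hmA : m ∈ A := Subgroup.mem_inf.mpr ⟨hmN, hmnorm⟩
  have hpow : m ^ (D.relIndex A) ∈ D := by
    have h1 := Subgroup.pow_index_mem (D.subgroupOf A) (⟨m, hmA⟩ : A)
    exact h1
  have hj : ¬ p ∣ D.relIndex A := by
    intro hdvd
    apply not_dvd_relIndex_inf P N
    rw [← Subgroup.relIndex_mul_relIndex D A N hDA hAN]
    exact Dvd.dvd.mul_right hdvd _
  -- powers
  have hpowx : ∀ i : ℕ, ∀ e ∈ D, x ^ i * e * (x ^ i)⁻¹ = m ^ i * e * (m ^ i)⁻¹ := by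
    intro i
    induction i with
    | zero => intro e _; simp
    | succ i ih =>
      intro e he
      have h1 := ih (x * e * x⁻¹) (hxD e he)
      have h2 : x ^ (i + 1) * e * (x ^ (i + 1))⁻¹ = x ^ i * (x * e * x⁻¹) * (x ^ i)⁻¹ := by
        rw [pow_succ]; group
      have h3 : m ^ (i + 1) * e * (m ^ (i + 1))⁻¹ = m ^ i * (m * e * m⁻¹) * (m ^ i)⁻¹ := by
        rw [pow_succ]; group
      rw [h2, h3, h1, hmx e he]
  have hxk : x ^ (p ^ k) = 1 := by rw [← hk]; exact pow_orderOf_eq_one x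
  have hm1 : m ^ (p ^ k) ∈ Subgroup.centralizer (D : Set G) := by
    rw [Subgroup.mem_centralizer_iff]
    intro e he
    have h1 := hpowx (p ^ k) e he
    rw [hxk] at h1
    simp only [one_mul, inv_one, mul_one] at h1
    -- h1 : e = m^(p^k) * e * (m^(p^k))⁻¹
    calc e * m ^ (p ^ k) = (m ^ (p ^ k) * e * (m ^ (p ^ k))⁻¹) * m ^ (p ^ k) := by rw [← h1]
      _ = m ^ (p ^ k) * e := by group
  have hm2 : m ^ (D.relIndex A) ∈ Subgroup.centralizer (D : Set G) := by
    rw [Subgroup.mem_centralizer_iff]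
    intro e he
    exact hab e he _ hpow
  have hcop : (p ^ k).Coprime (D.relIndex A) :=
    Nat.Coprime.pow_left k ((Nat.Prime.coprime_iff_not_dvd (Fact.out : p.Prime)).mpr hj)
  have hmc : m ∈ Subgroup.centralizer (D : Set G) := mem_of_pow_mem_of_pow_mem hm1 hm2 hcop
  rw [Subgroup.mem_centralizer_iff] at hmc
  have h1 := hmx d hd
  have h2 := hmc d hd
  -- h2 : d * m = m * d
  have h3 : m * d * m⁻¹ = d := by rw [← h2]; group
  rw [h3] at h1
  calc x * d = (x * d * x⁻¹) * x := by group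
    _ = d * x := by rw [← h1]

/-- KEY: if `N` and `G/N` have abelian Sylow `p`-subgroups and every `p`-element is
centralized by a Sylow `p`-subgroup, then the Sylow `p`-subgroups of `G` are abelian -/
theorem sylow_comm (N : Subgroup G) [N.Normal]
    (hcl : ∀ x : G, (∃ k : ℕ, orderOf x = p ^ k) →
      ¬ p ∣ (Subgroup.centralizer ({x} : Set G)).index)
    (hab : ∀ R : Sylow p G, ∀ a ∈ (R : Subgroup G) ⊓ N, ∀ b ∈ (R : Subgroup G) ⊓ N,
      a * b = b * a)
    (hquot : ∀ R : Sylow p G, ∀ a ∈ (R : Subgroup G), ∀ b ∈ (R : Subgroup G),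
      a * b * a⁻¹ * b⁻¹ ∈ N)
    (P : Sylow p G) (x : G) (hx : x ∈ (P : Subgroup G)) (y : G) (hy : y ∈ (P : Subgroup G)) :
    y * x = x * y := by
  set D : Subgroup G := (P : Subgroup G) ⊓ N with hDdef
  have hDp : IsPGroup p D := P.isPGroup'.to_le inf_le_left
  have hDx : D ≤ Subgroup.centralizer ({x} : Set G) := by
    intro d hd
    rw [Subgroup.mem_centralizer_singleton_iff]
    exact (sylow_centralizes_inf N hcl P (hab P) x hx d hd).symm
  obtain ⟨k, hk⟩ : ∃ k : ℕ, orderOf x = p ^ k := by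
    obtain ⟨k, hk⟩ := (IsPGroup.iff_orderOf.mp P.isPGroup') ⟨x, hx⟩
    exact ⟨k, by rw [← hk, Subgroup.orderOf_mk]⟩
  obtain ⟨Q, hDQ, hQx⟩ := exists_sylow_between (Subgroup.centralizer ({x} : Set G))
    (hcl x ⟨k, hk⟩) D hDp hDx
  have hQN : (Q : Subgroup G) ⊓ N = D :=
    eq_inf_of_le P N _ (Q.isPGroup'.to_le inf_le_left) inf_le_right (le_inf hDQ inf_le_right)
  -- Q centralizes D
  have hQD : ∀ g ∈ (Q : Subgroup G), ∀ d ∈ D, g * d = d * g := by
    intro g hg d hd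
    rw [← hQN] at hd
    exact sylow_centralizes_inf N hcl Q (hab Q) g hg d hd
  have hPD : ∀ g ∈ (P : Subgroup G), ∀ d ∈ D, g * d = d * g := fun g hg d hd =>
    sylow_centralizes_inf N hcl P (hab P) g hg d hd
  have hDab : ∀ a ∈ D, ∀ b ∈ D, a * b = b * a := hab P
  -- the subgroup C*
  let Cs : Subgroup G :=
    { carrier := {g | (∀ d ∈ D, g * d = d * g) ∧ g * x * g⁻¹ * x⁻¹ ∈ D}
      one_mem' := by
        refine ⟨fun d _ => by simp, ?_⟩
        simp only [one_mul, inv_one, mul_one, mul_inv_cancel]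
        exact D.one_mem
      mul_mem' := by
        rintro g h ⟨hg1, hg2⟩ ⟨hh1, hh2⟩
        refine ⟨fun d hd => ?_, ?_⟩
        · rw [mul_assoc, hh1 d hd, ← mul_assoc, hg1 d hd, mul_assoc]
        · have h1 := hg1 _ hh2
          have h2 : g * h * x * (g * h)⁻¹ * x⁻¹ = (g * (h * x * h⁻¹ * x⁻¹)) * x * g⁻¹ * x⁻¹ := by
            group
          rw [h2, h1]
          have h3 : h * x * h⁻¹ * x⁻¹ * g * x * g⁻¹ * x⁻¹ =
              (h * x * h⁻¹ * x⁻¹) * (g * x * g⁻¹ * x⁻¹) := by group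
          rw [h3]
          exact D.mul_mem hh2 hg2
      inv_mem' := by
        rintro g ⟨hg1, hg2⟩
        have hg1' : ∀ d ∈ D, g⁻¹ * d = d * g⁻¹ := by
          intro d hd
          have := hg1 d hd
          calc g⁻¹ * d = g⁻¹ * (d * g) * g⁻¹ := by group
            _ = g⁻¹ * (g * d) * g⁻¹ := by rw [this]
            _ = d * g⁻¹ := by group
        refine ⟨hg1', ?_⟩
        have h1 := hg1' _ (D.inv_mem hg2)
        have h2 : g⁻¹ * x * g⁻¹⁻¹ * x⁻¹ = g⁻¹ * (g * x * g⁻¹ * x⁻¹)⁻¹ * g := by group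
        rw [h2, h1]
        have h3 : (g * x * g⁻¹ * x⁻¹)⁻¹ * g⁻¹ * g = (g * x * g⁻¹ * x⁻¹)⁻¹ := by group
        rw [h3]
        exact D.inv_mem hg2 }
  have hmemCs : ∀ g : G, g ∈ Cs ↔ (∀ d ∈ D, g * d = d * g) ∧ g * x * g⁻¹ * x⁻¹ ∈ D :=
    fun g => Iff.rfl
  have hQCs : (Q : Subgroup G) ≤ Cs := by
    intro g hg
    rw [hmemCs]
    refine ⟨hQD g hg, ?_⟩
    have h1 := hQx hg
    rw [Subgroup.mem_centralizer_singleton_iff] at h1
    -- h1 : g * x = x * g
    have h2 : g * x * g⁻¹ * x⁻¹ = 1 := by rw [h1]; group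
    rw [h2]; exact D.one_mem
  have hPCs : (P : Subgroup G) ≤ Cs := by
    intro g hg
    rw [hmemCs]
    refine ⟨hPD g hg, Subgroup.mem_inf.mpr ⟨?_, hquot P g hg x hx⟩⟩
    exact (P : Subgroup G).mul_mem ((P : Subgroup G).mul_mem ((P : Subgroup G).mul_mem hg hx)
      ((P : Subgroup G).inv_mem hg)) ((P : Subgroup G).inv_mem hx)
  -- the homomorphism
  let ψ : Cs →* D :=
    { toFun := fun g => ⟨(g : G) * x * (g : G)⁻¹ * x⁻¹, ((hmemCs g).mp g.2).2⟩
      map_one' := by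
        apply Subtype.ext
        simp
      map_mul' := by
        intro g h
        apply Subtype.ext
        show ((g : G) * (h : G)) * x * ((g : G) * (h : G))⁻¹ * x⁻¹ =
          ((g : G) * x * (g : G)⁻¹ * x⁻¹) * ((h : G) * x * (h : G)⁻¹ * x⁻¹)
        have hg1 := ((hmemCs g).mp g.2).1
        have hg2 := ((hmemCs g).mp g.2).2
        have hh2 := ((hmemCs h).mp h.2).2
        have h1 := hg1 _ hh2
        have h2 : (g : G) * (h : G) * x * ((g : G) * (h : G))⁻¹ * x⁻¹ =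
            ((g : G) * ((h : G) * x * (h : G)⁻¹ * x⁻¹)) * x * (g : G)⁻¹ * x⁻¹ := by group
        rw [h2, h1]
        have h3 : (h : G) * x * (h : G)⁻¹ * x⁻¹ * (g : G) * x * (g : G)⁻¹ * x⁻¹ =
            ((h : G) * x * (h : G)⁻¹ * x⁻¹) * ((g : G) * x * (g : G)⁻¹ * x⁻¹) := by group
        rw [h3]
        exact hDab _ hh2 _ hg2 }
  have hker : (Q : Subgroup G).subgroupOf Cs ≤ ψ.ker := by
    intro g hg
    rw [MonoidHom.mem_ker]
    apply Subtype.ext
    show (g : G) * x * (g : G)⁻¹ * x⁻¹ = 1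
    have h1 := hQx (show (g : G) ∈ (Q : Subgroup G) from hg)
    rw [Subgroup.mem_centralizer_singleton_iff] at h1
    rw [h1]; group
  have hidx1 : ψ.ker.index ∣ (Q : Subgroup G).index := by
    have h1 : ψ.ker.index ∣ ((Q : Subgroup G).subgroupOf Cs).index :=
      Subgroup.index_dvd_of_le hker
    exact h1.trans (Subgroup.relIndex_dvd_index_of_le hQCs)
  have hidx2 : ψ.ker.index ∣ Nat.card D := by
    rw [Subgroup.index_ker]
    exact Subgroup.card_subgroup_dvd_card _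
  obtain ⟨k', hk'⟩ := IsPGroup.iff_card.mp hDp
  rw [hk'] at hidx2
  obtain ⟨j, -, hj⟩ := (Nat.dvd_prime_pow (Fact.out : p.Prime)).mp hidx2
  have hj0 : j = 0 := by
    by_contra hne
    apply Q.not_dvd_index
    refine dvd_trans ?_ hidx1
    rw [hj]
    exact dvd_pow_self p hne
  rw [hj0, pow_zero] at hj
  have htop : ψ.ker = ⊤ := Subgroup.index_eq_one.mp hj
  have hyk : (⟨y, hPCs hy⟩ : Cs) ∈ ψ.ker := by rw [htop]; trivial
  rw [MonoidHom.mem_ker] at hyk
  have h1 : y * x * y⁻¹ * x⁻¹ = 1 := congrArg Subtype.val hyk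
  calc y * x = (y * x * y⁻¹ * x⁻¹) * x * y := by group
    _ = x * y := by rw [h1, one_mul]

/-- the class condition passes to normal subgroups -/
theorem class_sub (N : Subgroup G) [N.Normal]
    (hcl : ∀ x : G, (∃ k : ℕ, orderOf x = p ^ k) →
      ¬ p ∣ (Subgroup.centralizer ({x} : Set G)).index)
    (x : N) (hx : ∃ k : ℕ, orderOf x = p ^ k) :
    ¬ p ∣ (Subgroup.centralizer ({x} : Set N)).index := by
  obtain ⟨k, hk⟩ := hx
  have h1 := hcl (x : G) ⟨k, by rw [Subgroup.orderOf_coe]; exact hk⟩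
  have h2 : Subgroup.centralizer ({x} : Set N) =
      (Subgroup.centralizer ({(x : G)} : Set G)).subgroupOf N := by
    ext g
    rw [Subgroup.mem_centralizer_singleton_iff, Subgroup.mem_subgroupOf,
      Subgroup.mem_centralizer_singleton_iff]
    constructor
    · intro h; exact congrArg Subtype.val h
    · intro h; exact Subtype.ext h
  rw [h2]
  intro hdvd
  exact h1 (hdvd.trans (relIndex_dvd_index_right _ N))

/-- the class condition passes to quotients -/
theorem class_quot (N : Subgroup G) [N.Normal]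
    (hcl : ∀ x : G, (∃ k : ℕ, orderOf x = p ^ k) →
      ¬ p ∣ (Subgroup.centralizer ({x} : Set G)).index)
    (x : G ⧸ N) (hx : ∃ k : ℕ, orderOf x = p ^ k) :
    ¬ p ∣ (Subgroup.centralizer ({x} : Set (G ⧸ N))).index := by
  obtain ⟨k, hk⟩ := hx
  obtain ⟨y, rfl⟩ := QuotientGroup.mk_surjective x
  have hy0 : orderOf y ≠ 0 := (orderOf_pos y).ne'
  obtain ⟨a, m, hm, hym⟩ := Nat.exists_eq_pow_mul_and_not_dvd hy0 p (Fact.out : p.Prime).ne_one
  have hcop : m.Coprime (orderOf (y : G ⧸ N)) := by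
    rw [hk]
    exact Nat.Coprime.pow_right k
      ((Nat.Prime.coprime_iff_not_dvd (Fact.out : p.Prime)).mpr hm).symm
  obtain ⟨m', hm'⟩ := exists_pow_eq_self_of_coprime hcop
  set z : G := (y ^ m) ^ m' with hz
  have hzq : (z : G ⧸ N) = (y : G ⧸ N) := by
    rw [hz]
    simp only [QuotientGroup.mk_pow]
    exact hm'
  have hzp : z ^ (p ^ a) = 1 := by
    rw [hz, ← pow_mul, ← pow_mul]
    have : m * (m' * p ^ a) = orderOf y * m' := by rw [hym]; ring
    rw [this, pow_mul, pow_orderOf_eq_one, one_pow]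
  obtain ⟨j, -, hj⟩ := (Nat.dvd_prime_pow (Fact.out : p.Prime)).mp (orderOf_dvd_of_pow_eq_one hzp)
  have h1 := hcl z ⟨j, hj⟩
  have hle : (Subgroup.centralizer ({z} : Set G)).map (QuotientGroup.mk' N) ≤
      Subgroup.centralizer ({(z : G ⧸ N)} : Set (G ⧸ N)) := by
    rintro _ ⟨g, hg0, rfl⟩
    have hg : g ∈ Subgroup.centralizer ({z} : Set G) := hg0
    rw [Subgroup.mem_centralizer_singleton_iff] at hg
    rw [Subgroup.mem_centralizer_singleton_iff]
    show (g : G ⧸ N) * (z : G ⧸ N) = (z : G ⧸ N) * (g : G ⧸ N)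
    rw [← QuotientGroup.mk_mul, ← QuotientGroup.mk_mul, hg]
  rw [hzq] at hle
  intro hdvd
  apply h1
  exact (hdvd.trans (Subgroup.index_dvd_of_le hle)).trans
    (Subgroup.index_map_dvd _ (QuotientGroup.mk'_surjective N))

end aux

/-- Let G be a finite group and p a prime such that the Sylow p-subgroups of G are non-abelian while every element of p-power order has conjugacy class size prime to p, and suppose no nontrivial proper normal subgroup N of G has this property and no quotient G/N by such an N has it. Then G is simple. -/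
theorem result {G : Type*} [Group G] [Finite G]
    (p : ℕ) [Fact p.Prime] (h : ((∃ P : Sylow p G, ¬ IsMulCommutative P) ∧ ∀ x : G, (∃ k : ℕ, orderOf x = p ^ k) → ¬ p ∣ (Subgroup.centralizer ({x} : Set G)).index))
    (hmin : ∀ (N : Subgroup G) [N.Normal], N ≠ ⊥ → N ≠ ⊤ →
      ¬ ((∃ P : Sylow p N, ¬ IsMulCommutative P) ∧ ∀ x : N, (∃ k : ℕ, orderOf x = p ^ k) → ¬ p ∣ (Subgroup.centralizer ({x} : Set N)).index) ∧
      ¬ ((∃ P : Sylow p (G ⧸ N), ¬ IsMulCommutative P) ∧ ∀ x : (G ⧸ N), (∃ k : ℕ, orderOf x = p ^ k) → ¬ p ∣ (Subgroup.centralizer ({x} : Set (G ⧸ N))).index)) :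
    IsSimpleGroup G := by
  obtain ⟨⟨P, hP⟩, hcl⟩ := h
  have hnt : Nontrivial G := by
    by_contra hnt
    rw [not_nontrivial_iff_subsingleton] at hnt
    apply hP
    exact ⟨⟨fun a b => Subsingleton.elim _ _⟩⟩
  refine { toNontrivial := hnt, eq_bot_or_eq_top_of_normal := ?_ }
  intro N hN
  by_contra hcon
  rw [not_or] at hcon
  obtain ⟨hbot, htop⟩ := hcon
  haveI := hN
  obtain ⟨h1, h2⟩ := hmin N hbot htop
  have hN_ab : ∀ S : Sylow p N, IsMulCommutative S := by
    intro S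
    by_contra hS
    exact h1 ⟨⟨S, hS⟩, fun x hx => class_sub N hcl x hx⟩
  have hQ_ab : ∀ S : Sylow p (G ⧸ N), IsMulCommutative S := by
    intro S
    by_contra hS
    exact h2 ⟨⟨S, hS⟩, fun x hx => class_quot N hcl x hx⟩
  have hab : ∀ R : Sylow p G, ∀ a ∈ (R : Subgroup G) ⊓ N, ∀ b ∈ (R : Subgroup G) ⊓ N,
      a * b = b * a := by
    intro R a ha b hb
    have hRp : IsPGroup p (((R : Subgroup G) ⊓ N).subgroupOf N) :=
      (R.isPGroup'.to_le inf_le_left).comap_subtype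
    let S : Sylow p N := hRp.toSylow (not_dvd_relIndex_inf R N)
    have haN : a ∈ N := (Subgroup.mem_inf.mp ha).2
    have hbN : b ∈ N := (Subgroup.mem_inf.mp hb).2
    have haS : (⟨a, haN⟩ : N) ∈ S := ha
    have hbS : (⟨b, hbN⟩ : N) ∈ S := hb
    have hc := (hN_ab S).is_comm.comm (⟨⟨a, haN⟩, haS⟩ : S) ⟨⟨b, hbN⟩, hbS⟩
    exact congrArg (fun t : S => ((t : N) : G)) hc
  have hquot : ∀ R : Sylow p G, ∀ a ∈ (R : Subgroup G), ∀ b ∈ (R : Subgroup G),
      a * b * a⁻¹ * b⁻¹ ∈ N := by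
    intro R a ha b hb
    let S : Sylow p (G ⧸ N) := R.mapSurjective (QuotientGroup.mk'_surjective N)
    have haS : (QuotientGroup.mk' N a) ∈ S := by
      show (QuotientGroup.mk' N a) ∈ (S : Subgroup (G ⧸ N))
      rw [Sylow.coe_mapSurjective]; exact Subgroup.mem_map_of_mem _ ha
    have hbS : (QuotientGroup.mk' N b) ∈ S := by
      show (QuotientGroup.mk' N b) ∈ (S : Subgroup (G ⧸ N))
      rw [Sylow.coe_mapSurjective]; exact Subgroup.mem_map_of_mem _ hb
    have hc := (hQ_ab S).is_comm.comm (⟨_, haS⟩ : S) ⟨_, hbS⟩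
    have hc' : QuotientGroup.mk' N a * QuotientGroup.mk' N b =
        QuotientGroup.mk' N b * QuotientGroup.mk' N a := congrArg Subtype.val hc
    rw [← QuotientGroup.eq_one_iff]
    have h3 : ((a * b * a⁻¹ * b⁻¹ : G) : G ⧸ N) = QuotientGroup.mk' N a * QuotientGroup.mk' N b *
        (QuotientGroup.mk' N a)⁻¹ * (QuotientGroup.mk' N b)⁻¹ := rfl
    rw [h3, hc']; group
  apply hP
  exact ⟨⟨fun a b => Subtype.ext (sylow_comm N hcl hab hquot P b.1 b.2 a.1 a.2)⟩⟩

end Cfsg.Agent.S4354
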