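import Cfsg.Statements.S4365
-- import your own Cfsg.Agent.* helpers here

set_option autoImplicit false
open Cfsg

namespace Cfsg.Agent.S4365

section aux

variable {P : Type*} [Group P]

theorem mem_cent {y g : P} : g ∈ Subgroup.centralizer ({y} : Set P) ↔ y * g = g * y := by
  rw [Subgroup.mem_centralizer_iff]
  simp

theorem card_mul_relIndex' {H K : Subgroup P} (h : H ≤ K) :
    Nat.card H * H.relIndex K = Nat.card K := by
  have h1 := Subgroup.card_mul_index (H.subgroupOf K)
  rw [Nat.card_congr (Subgroup.subgroupOfEquivOfLe h).toEquiv] at h1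
  exact h1

theorem eqC {n : ℕ} (hn : n ≠ 0)
    (hidx : ∀ y : P, y ∉ Subgroup.center P → (Subgroup.centralizer ({y} : Set P)).index = n)
    {u v : P} (hu : u ∉ Subgroup.center P) (hv : v ∉ Subgroup.center P)
    (hle : Subgroup.centralizer ({u} : Set P) ≤ Subgroup.centralizer ({v} : Set P)) :
    Subgroup.centralizer ({u} : Set P) = Subgroup.centralizer ({v} : Set P) := by
  have h := Subgroup.relIndex_mul_index hle
  rw [hidx u hu, hidx v hv] at h
  have h1 : (Subgroup.centralizer ({u} : Set P)).relIndex (Subgroup.centralizer ({v} : Set P)) = 1 := by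
    have : (Subgroup.centralizer ({u} : Set P)).relIndex (Subgroup.centralizer ({v} : Set P)) * n
        = 1 * n := by rw [h, one_mul]
    exact Nat.eq_of_mul_eq_mul_right (Nat.pos_of_ne_zero hn) this
  exact le_antisymm hle (Subgroup.relIndex_eq_one.mp h1)

theorem cent_mul_central (u : P) {z : P} (hz : z ∈ Subgroup.center P) :
    Subgroup.centralizer ({u * z} : Set P) = Subgroup.centralizer ({u} : Set P) := by
  ext g
  rw [mem_cent, mem_cent]
  have hzg : g * z = z * g := Subgroup.mem_center_iff.mp hz g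
  constructor
  · intro h
    have : u * g * z = g * u * z := by
      calc u * g * z = u * (g * z) := mul_assoc _ _ _
        _ = u * (z * g) := by rw [hzg]
        _ = u * z * g := (mul_assoc _ _ _).symm
        _ = g * (u * z) := h
        _ = g * u * z := (mul_assoc _ _ _).symm
    exact mul_right_cancel this
  · intro h
    calc u * z * g = u * (z * g) := mul_assoc _ _ _
      _ = u * (g * z) := by rw [hzg]
      _ = u * g * z := (mul_assoc _ _ _).symm
      _ = g * u * z := by rw [h]
      _ = g * (u * z) := mul_assoc _ _ _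

theorem cent_le_pow (u : P) (k : ℕ) :
    Subgroup.centralizer ({u} : Set P) ≤ Subgroup.centralizer ({u ^ k} : Set P) := by
  intro g hg
  rw [mem_cent] at hg ⊢
  have hc : Commute u g := hg
  exact (hc.pow_left k).eq

theorem lemmaL {p n : ℕ} (hn : n ≠ 0)
    (hidx : ∀ y : P, y ∉ Subgroup.center P → (Subgroup.centralizer ({y} : Set P)).index = n)
    {u y : P} (hu : u ^ p ∉ Subgroup.center P) (hy : y ^ p ∈ Subgroup.center P)
    (hc : u * y * u⁻¹ * y⁻¹ ∈ Subgroup.center P) :
    Subgroup.centralizer ({u * y} : Set P) = Subgroup.centralizer ({u} : Set P) := by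
  have hcomm : Commute ((u : P ⧸ Subgroup.center P)) (y : P ⧸ Subgroup.center P) := by
    have h1 : ((u * y * u⁻¹ * y⁻¹ : P) : P ⧸ Subgroup.center P) = 1 :=
      (QuotientGroup.eq_one_iff _).mpr hc
    rw [QuotientGroup.mk_mul, QuotientGroup.mk_mul, QuotientGroup.mk_mul, QuotientGroup.mk_inv,
      QuotientGroup.mk_inv] at h1
    change (u : P ⧸ Subgroup.center P) * y = y * u
    calc (u : P ⧸ Subgroup.center P) * y
        = ((u : P ⧸ Subgroup.center P) * y * (u : P ⧸ Subgroup.center P)⁻¹ *
            (y : P ⧸ Subgroup.center P)⁻¹) * (y * u) := by group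
      _ = y * u := by rw [h1, one_mul]
  have hpow : (((u * y) ^ p : P) : P ⧸ Subgroup.center P) =
      ((u ^ p : P) : P ⧸ Subgroup.center P) := by
    rw [QuotientGroup.mk_pow, QuotientGroup.mk_mul, hcomm.mul_pow, ← QuotientGroup.mk_pow,
      ← QuotientGroup.mk_pow, (QuotientGroup.eq_one_iff (y ^ p)).mpr hy, mul_one]
  have hz : (u ^ p)⁻¹ * (u * y) ^ p ∈ Subgroup.center P := QuotientGroup.eq.mp hpow.symm
  have huy : (u * y) ^ p = u ^ p * ((u ^ p)⁻¹ * (u * y) ^ p) := by group
  have h1 : (u * y) ^ p ∉ Subgroup.center P := by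
    intro h
    apply hu
    have : u ^ p = (u * y) ^ p * ((u ^ p)⁻¹ * (u * y) ^ p)⁻¹ := by group
    rw [this]
    exact Subgroup.mul_mem _ h (Subgroup.inv_mem _ hz)
  have h2 : u * y ∉ Subgroup.center P := fun h => h1 (Subgroup.pow_mem _ h p)
  have h3 : u ∉ Subgroup.center P := fun h => hu (Subgroup.pow_mem _ h p)
  rw [eqC hn hidx h2 h1 (cent_le_pow _ _), huy, cent_mul_central _ hz,
    ← eqC hn hidx h3 hu (cent_le_pow _ _)]

end aux


/-- Let P be a finite p-group whose conjugacy class sizes are exactly 1 and pᵃ for some a ≥ 1. Then every element of P has its p-th power in the center of P (P/Z(P) has exponent p). -/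
theorem result {P : Type*} [Group P] [Finite P] (p : ℕ) [Fact p.Prime]
    (hP : IsPGroup p P) (a : ℕ) (ha : 1 ≤ a)
    (hcs : {k : ℕ | ∃ x : P, (Subgroup.centralizer ({x} : Set P)).index = k} = {1, p ^ a}) (x : P) :
    x ^ p ∈ Subgroup.center P := by
  classical
  have hp : p.Prime := Fact.out
  by_contra hxp
  have hn : p ^ a ≠ 0 := pow_ne_zero _ hp.ne_zero
  have hidx : ∀ y : P, y ∉ Subgroup.center P →
      (Subgroup.centralizer ({y} : Set P)).index = p ^ a := by
    intro y hy
    have hmem : (Subgroup.centralizer ({y} : Set P)).index ∈ ({1, p ^ a} : Set ℕ) := by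
      rw [← hcs]; exact ⟨y, rfl⟩
    rcases hmem with h1 | h1
    · exfalso
      apply hy
      have htop := Subgroup.index_eq_one.mp h1
      rw [Subgroup.mem_center_iff]
      intro g
      have hg : g ∈ Subgroup.centralizer ({y} : Set P) := by rw [htop]; trivial
      exact (mem_cent.mp hg).symm
    · exact h1
  have hx : x ∉ Subgroup.center P := fun h => hxp (Subgroup.pow_mem _ h p)
  have hZn : (Subgroup.center P).Normal := inferInstance
  -- a lift of a central element of order p of P / Z
  obtain ⟨z0, hz0, hz0p, hz0c⟩ : ∃ z0 : P, z0 ∉ Subgroup.center P ∧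
      z0 ^ p ∈ Subgroup.center P ∧ ∀ g : P, g * z0 * g⁻¹ * z0⁻¹ ∈ Subgroup.center P := by
    have hQ : IsPGroup p (P ⧸ Subgroup.center P) := hP.to_quotient _
    have hnt : Nontrivial (P ⧸ Subgroup.center P) := by
      by_contra hss
      rw [not_nontrivial_iff_subsingleton] at hss
      apply hx
      have : (x : P ⧸ Subgroup.center P) = 1 := Subsingleton.elim _ _
      exact (QuotientGroup.eq_one_iff x).mp this
    have hcn : Nontrivial (Subgroup.center (P ⧸ Subgroup.center P)) := hQ.center_nontrivial
    have hdvd : p ∣ Nat.card (Subgroup.center (P ⧸ Subgroup.center P)) := by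
      have hcp : IsPGroup p (Subgroup.center (P ⧸ Subgroup.center P)) := hQ.to_subgroup _
      rcases hcp.card_eq_or_dvd with h | h
      · exfalso
        have := Finite.one_lt_card (α := Subgroup.center (P ⧸ Subgroup.center P))
        omega
      · exact h
    obtain ⟨c, hc⟩ := exists_prime_orderOf_dvd_card' p hdvd
    obtain ⟨z0, hz0⟩ := QuotientGroup.mk'_surjective (Subgroup.center P)
      (c : P ⧸ Subgroup.center P)
    have hz0' : (z0 : P ⧸ Subgroup.center P) = c := hz0
    have hc1 : (c : P ⧸ Subgroup.center P) ≠ 1 := by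
      intro h
      have : c = 1 := Subtype.ext h
      rw [this, orderOf_one] at hc
      exact hp.one_lt.ne hc
    have hcp' : (c : P ⧸ Subgroup.center P) ^ p = 1 := by
      have h1 := pow_orderOf_eq_one c
      rw [hc] at h1
      have h2 := congrArg Subtype.val h1
      simpa using h2
    refine ⟨z0, ?_, ?_, ?_⟩
    · intro h
      apply hc1
      rw [← hz0']
      exact (QuotientGroup.eq_one_iff z0).mpr h
    · apply (QuotientGroup.eq_one_iff (z0 ^ p)).mp
      rw [QuotientGroup.mk_pow, hz0']
      exact hcp'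
    · intro g
      apply (QuotientGroup.eq_one_iff _).mp
      rw [QuotientGroup.mk_mul, QuotientGroup.mk_mul, QuotientGroup.mk_mul, QuotientGroup.mk_inv,
        QuotientGroup.mk_inv, hz0']
      have hcomm := Subgroup.mem_center_iff.mp c.2 (g : P ⧸ Subgroup.center P)
      rw [hcomm]
      group
  -- every element with p-th power outside the centre has centralizer C(z0)
  have hA'' : ∀ g : P, g ^ p ∉ Subgroup.center P →
      Subgroup.centralizer ({g} : Set P) = Subgroup.centralizer ({z0} : Set P) := by
    intro g hg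
    have hL := lemmaL hn hidx hg hz0p (hz0c g)
    have hg0 : g ∉ Subgroup.center P := fun h => hg (Subgroup.pow_mem _ h p)
    apply eqC hn hidx hg0 hz0
    intro c hc
    have h1 : c ∈ Subgroup.centralizer ({g * z0} : Set P) := by rw [hL]; exact hc
    rw [mem_cent] at h1 hc ⊢
    have : g * (z0 * c) = g * (c * z0) := by
      calc g * (z0 * c) = g * z0 * c := (mul_assoc _ _ _).symm
        _ = c * (g * z0) := h1
        _ = c * g * z0 := (mul_assoc _ _ _).symm
        _ = g * c * z0 := by rw [hc]
        _ = g * (c * z0) := mul_assoc _ _ _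
    exact mul_left_cancel this
  have hCx : Subgroup.centralizer ({x} : Set P) = Subgroup.centralizer ({z0} : Set P) :=
    hA'' x hxp
  have hCxp : Subgroup.centralizer ({x ^ p} : Set P) = Subgroup.centralizer ({z0} : Set P) := by
    rw [← hCx]
    exact (eqC hn hidx hx hxp (cent_le_pow x p)).symm
  have hα : ∀ g : P, g ∉ Subgroup.centralizer ({z0} : Set P) → g ^ p ∈ Subgroup.center P := by
    intro g hg
    by_contra h
    apply hg
    rw [← hA'' g h, mem_cent]
  have hab : ∀ y ∈ Subgroup.centralizer ({z0} : Set P),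
      ∀ b ∈ Subgroup.centralizer ({z0} : Set P), y * b = b * y := by
    intro y hy b hb
    by_cases hyp : y ^ p ∈ Subgroup.center P
    · have hxy : x * y = y * x := by rw [← hCx] at hy; exact mem_cent.mp hy
      have hc : x * y * x⁻¹ * y⁻¹ ∈ Subgroup.center P := by
        have : x * y * x⁻¹ * y⁻¹ = 1 := by rw [hxy]; group
        rw [this]; exact Subgroup.one_mem _
      have hL := lemmaL hn hidx hxp hyp hc
      rw [hCx] at hL
      have h1 : b ∈ Subgroup.centralizer ({x * y} : Set P) := by rw [hL]; exact hb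
      have h2 : b ∈ Subgroup.centralizer ({x} : Set P) := by rw [hCx]; exact hb
      rw [mem_cent] at h1 h2
      have : x * (y * b) = x * (b * y) := by
        calc x * (y * b) = x * y * b := (mul_assoc _ _ _).symm
          _ = b * (x * y) := h1
          _ = b * x * y := (mul_assoc _ _ _).symm
          _ = x * b * y := by rw [h2]
          _ = x * (b * y) := mul_assoc _ _ _
      exact mul_left_cancel this
    · have h1 := hA'' y hyp
      have hb' : b ∈ Subgroup.centralizer ({y} : Set P) := by rw [h1]; exact hb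
      exact mem_cent.mp hb'
  have hCu : ∀ u ∈ Subgroup.centralizer ({z0} : Set P), u ∉ Subgroup.center P →
      Subgroup.centralizer ({u} : Set P) = Subgroup.centralizer ({z0} : Set P) := by
    intro u hu hu0
    symm
    apply eqC hn hidx hz0 hu0
    intro b hb
    exact mem_cent.mpr (hab u hu b hb)
  have hconjp : ∀ g : P, (g * x * g⁻¹) ^ p ∉ Subgroup.center P := by
    intro g h
    apply hxp
    rw [conj_pow] at h
    have h1 := hZn.conj_mem _ h g⁻¹
    have h2 : g⁻¹ * (g * x ^ p * g⁻¹) * g⁻¹⁻¹ = x ^ p := by group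
    rwa [h2] at h1
  have hconjx : ∀ g : P, g * x * g⁻¹ ∈ Subgroup.centralizer ({z0} : Set P) := by
    intro g
    rw [← hA'' _ (hconjp g), mem_cent]
  have hxA : x ∈ Subgroup.centralizer ({z0} : Set P) := by
    have := hconjx 1
    simpa using this
  have hAn : (Subgroup.centralizer ({z0} : Set P)).Normal := by
    constructor
    intro b hb g
    rw [← hA'' _ (hconjp g), mem_cent]
    have hbx : x * b = b * x := by rw [← hCx] at hb; exact mem_cent.mp hb
    calc g * x * g⁻¹ * (g * b * g⁻¹) = g * (x * b) * g⁻¹ := by group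
      _ = g * (b * x) * g⁻¹ := by rw [hbx]
      _ = g * b * g⁻¹ * (g * x * g⁻¹) := by group
  -- the order of A / Z is at most p ^ a
  have hAtop : Subgroup.centralizer ({z0} : Set P) ≠ ⊤ := by
    intro h
    apply hz0
    rw [Subgroup.mem_center_iff]
    intro g
    have hg : g ∈ Subgroup.centralizer ({z0} : Set P) := by rw [h]; trivial
    exact (mem_cent.mp hg).symm
  obtain ⟨g0, hg0⟩ : ∃ g0 : P, g0 ∉ Subgroup.centralizer ({z0} : Set P) := by
    by_contra h
    apply hAtop
    rw [Subgroup.eq_top_iff']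
    intro g
    by_contra hg
    exact h ⟨g, hg⟩
  have hg0Z : g0 ∉ Subgroup.center P := by
    intro h
    apply hg0
    rw [mem_cent]
    exact Subgroup.mem_center_iff.mp h z0
  have hinf : Subgroup.centralizer ({z0} : Set P) ⊓ Subgroup.centralizer ({g0} : Set P) =
      Subgroup.center P := by
    apply le_antisymm
    · rintro u ⟨hu1, hu2⟩
      by_contra hu0
      apply hg0
      rw [← hCu u hu1 hu0, mem_cent]
      exact (mem_cent.mp hu2).symm
    · exact le_inf (Subgroup.center_le_centralizer _) (Subgroup.center_le_centralizer _)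
  have hZA := card_mul_relIndex' (Subgroup.center_le_centralizer ({z0} : Set P))
  have hrel : (Subgroup.center P).relIndex (Subgroup.centralizer ({z0} : Set P)) ≤ p ^ a := by
    have h1 := Subgroup.card_mul_index (Subgroup.centralizer ({z0} : Set P))
    have h2 := Subgroup.card_mul_index (Subgroup.centralizer ({g0} : Set P))
    rw [hidx z0 hz0] at h1
    rw [hidx g0 hg0Z] at h2
    have h3 : Nat.card (Subgroup.centralizer ({z0} : Set P)) =
        Nat.card (Subgroup.centralizer ({g0} : Set P)) :=
      Nat.eq_of_mul_eq_mul_right (Nat.pos_of_ne_zero hn) (h1.trans h2.symm)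
    have h4 : (Subgroup.centralizer ({z0} : Set P)).relIndex
        (Subgroup.centralizer ({g0} : Set P)) ∣ p ^ a := by
      have := Subgroup.relIndex_dvd_index_of_normal (Subgroup.centralizer ({z0} : Set P))
        (Subgroup.centralizer ({g0} : Set P))
      rwa [hidx z0 hz0] at this
    have h5 : (Subgroup.center P).relIndex (Subgroup.centralizer ({g0} : Set P)) =
        (Subgroup.centralizer ({z0} : Set P)).relIndex (Subgroup.centralizer ({g0} : Set P)) := by
      rw [← hinf, Subgroup.inf_relIndex_right]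
    have h6 := card_mul_relIndex' (Subgroup.center_le_centralizer ({g0} : Set P))
    rw [h5, ← h3, ← hZA] at h6
    have hZpos : 0 < Nat.card (Subgroup.center P) := Nat.card_pos
    have h7 := Nat.eq_of_mul_eq_mul_left hZpos h6
    rw [← h7]
    exact Nat.le_of_dvd (Nat.pos_of_ne_zero hn) h4
  -- conjugation by k moves x inside x Z only if k ∈ A
  have hk : ∀ k : P, ∀ z ∈ Subgroup.center P, k * x * k⁻¹ = x * z →
      k ∈ Subgroup.centralizer ({z0} : Set P) := by
    intro k z hz hkx
    by_contra hkA
    have hkp := hα k hkA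
    have hpow : ∀ i : ℕ, k ^ i * x * (k ^ i)⁻¹ = x * z ^ i := by
      intro i
      induction i with
      | zero => simp
      | succ i ih =>
        have e1 : k ^ (i + 1) * x * (k ^ (i + 1))⁻¹ = k * (k ^ i * x * (k ^ i)⁻¹) * k⁻¹ := by
          rw [pow_succ']; group
        rw [e1, ih]
        have hzi : k * z ^ i * k⁻¹ = z ^ i := by
          have hc := Subgroup.mem_center_iff.mp (Subgroup.pow_mem _ hz i) k
          rw [hc, mul_inv_cancel_right]
        calc k * (x * z ^ i) * k⁻¹ = (k * x * k⁻¹) * (k * z ^ i * k⁻¹) := by group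
          _ = x * z * z ^ i := by rw [hkx, hzi]
          _ = x * z ^ (i + 1) := by rw [pow_succ', mul_assoc]
    have hzp : z ^ p = 1 := by
      have h1 := hpow p
      have h2 : k ^ p * x * (k ^ p)⁻¹ = x := by
        have hc := Subgroup.mem_center_iff.mp hkp x
        rw [← hc, mul_inv_cancel_right]
      rw [h2] at h1
      have h3 : x * 1 = x * z ^ p := by rw [mul_one]; exact h1
      exact (mul_left_cancel h3).symm
    have hkxp : k * x ^ p * k⁻¹ = x ^ p := by
      have hcz : Commute x z := (Subgroup.mem_center_iff.mp hz x)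
      rw [← conj_pow, hkx, hcz.mul_pow, hzp, mul_one]
    apply hkA
    rw [← hCxp, mem_cent]
    have h4 : k * x ^ p * k⁻¹ * k = x ^ p * k := by rw [hkxp]
    rw [inv_mul_cancel_right] at h4
    exact h4.symm
  -- counting
  have hcardQ : Nat.card (↥(Subgroup.centralizer ({z0} : Set P)) ⧸
      (Subgroup.center P).subgroupOf (Subgroup.centralizer ({z0} : Set P))) ≤
      Nat.card (P ⧸ Subgroup.centralizer ({z0} : Set P)) := by
    have h1 : Nat.card (↥(Subgroup.centralizer ({z0} : Set P)) ⧸
        (Subgroup.center P).subgroupOf (Subgroup.centralizer ({z0} : Set P))) =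
        (Subgroup.center P).relIndex (Subgroup.centralizer ({z0} : Set P)) := rfl
    have h2 : Nat.card (P ⧸ Subgroup.centralizer ({z0} : Set P)) =
        (Subgroup.centralizer ({z0} : Set P)).index := rfl
    rw [h1, h2, hidx z0 hz0]
    exact hrel
  have hFinj : Function.Injective (fun q : P ⧸ Subgroup.centralizer ({z0} : Set P) =>
      (QuotientGroup.mk ⟨q.out * x * q.out⁻¹, hconjx q.out⟩ :
        ↥(Subgroup.centralizer ({z0} : Set P)) ⧸
          (Subgroup.center P).subgroupOf (Subgroup.centralizer ({z0} : Set P)))) := by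
    intro q q' h
    have h1 := QuotientGroup.eq.mp h
    rw [Subgroup.mem_subgroupOf] at h1
    have h2 : (q.out * x * q.out⁻¹)⁻¹ * (q'.out * x * q'.out⁻¹) ∈ Subgroup.center P := h1
    have h3 : q.out⁻¹ * q'.out ∈ Subgroup.centralizer ({z0} : Set P) := by
      apply hk (q.out⁻¹ * q'.out) _ h2
      have hc := Subgroup.mem_center_iff.mp h2 q.out
      calc q.out⁻¹ * q'.out * x * (q.out⁻¹ * q'.out)⁻¹
          = x * (q.out⁻¹ * (((q.out * x * q.out⁻¹)⁻¹ * (q'.out * x * q'.out⁻¹)) * q.out)) := by
            group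
        _ = x * (q.out⁻¹ * (q.out * ((q.out * x * q.out⁻¹)⁻¹ * (q'.out * x * q'.out⁻¹)))) := by
            rw [← hc]
        _ = x * ((q.out * x * q.out⁻¹)⁻¹ * (q'.out * x * q'.out⁻¹)) := by
            rw [inv_mul_cancel_left]
    rw [← QuotientGroup.out_eq' q, ← QuotientGroup.out_eq' q']
    exact QuotientGroup.eq.mpr h3
  have hFbij := hFinj.bijective_of_nat_card_le hcardQ
  obtain ⟨q, hq⟩ := hFbij.2 (QuotientGroup.mk ⟨x * x, Subgroup.mul_mem _ hxA hxA⟩)
  have hq1 := QuotientGroup.eq.mp hq
  rw [Subgroup.mem_subgroupOf] at hq1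
  have hz : (q.out * x * q.out⁻¹)⁻¹ * (x * x) ∈ Subgroup.center P := hq1
  obtain ⟨z', hz', hgx⟩ : ∃ z' ∈ Subgroup.center P, q.out * x * q.out⁻¹ = x * x * z' :=
    ⟨((q.out * x * q.out⁻¹)⁻¹ * (x * x))⁻¹, Subgroup.inv_mem _ hz, by group⟩
  have hcz : ∀ w : P, Commute w z' := fun w => Subgroup.mem_center_iff.mp hz' w
  have hgA : q.out ∉ Subgroup.centralizer ({z0} : Set P) := by
    intro h0
    have h : q.out ∈ Subgroup.centralizer ({x} : Set P) := by rw [hCx]; exact h0
    rw [mem_cent] at h
    have h1 : q.out * x * q.out⁻¹ = x := by rw [← h, mul_inv_cancel_right]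
    rw [h1] at hgx
    apply hx
    have h2 : x * 1 = x * (x * z') := by
      rw [mul_one, ← mul_assoc]; exact hgx
    have h3 := mul_left_cancel h2
    have h4 : x = z'⁻¹ := eq_inv_of_mul_eq_one_left h3.symm
    rw [h4]
    exact Subgroup.inv_mem _ hz'
  have hgp := hα q.out hgA
  have hind : ∀ i : ℕ, ∃ m : ℕ, 2 ^ i = m + 1 ∧ q.out ^ i * x * (q.out ^ i)⁻¹ =
      x ^ (m + 1) * z' ^ m := by
    intro i
    induction i with
    | zero => exact ⟨0, by norm_num, by simp⟩
    | succ i ih =>
      obtain ⟨m, hm, he⟩ := ih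
      refine ⟨2 * m + 1, by rw [pow_succ, hm]; ring, ?_⟩
      have e1 : q.out ^ (i + 1) * x * (q.out ^ (i + 1))⁻¹ =
          q.out * (q.out ^ i * x * (q.out ^ i)⁻¹) * q.out⁻¹ := by
        rw [pow_succ']; group
      rw [e1, he]
      have hzc : q.out * z' ^ m * q.out⁻¹ = z' ^ m := by
        have hc := ((hcz q.out).pow_right m).eq
        rw [hc, mul_inv_cancel_right]
      calc q.out * (x ^ (m + 1) * z' ^ m) * q.out⁻¹
          = (q.out * x * q.out⁻¹) ^ (m + 1) * (q.out * z' ^ m * q.out⁻¹) := by
            rw [conj_pow]; group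
        _ = (x * x * z') ^ (m + 1) * z' ^ m := by
            rw [hzc, ← hgx]
        _ = x ^ (2 * m + 1 + 1) * z' ^ (2 * m + 1) := by
            rw [(hcz (x * x)).mul_pow, ← pow_two, ← pow_mul, mul_assoc, ← pow_add]
            congr 2 <;> ring
  obtain ⟨m, hm, he⟩ := hind p
  have h2 : q.out ^ p * x * (q.out ^ p)⁻¹ = x := by
    have hc := Subgroup.mem_center_iff.mp hgp x
    rw [← hc, mul_inv_cancel_right]
  rw [h2] at he
  have h3 : (x * z') ^ m = 1 := by
    rw [(hcz x).mul_pow]
    have h4 : x * (x ^ m * z' ^ m) = x * 1 := by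
      rw [mul_one, ← mul_assoc, ← pow_succ']
      exact he.symm
    exact mul_left_cancel h4
  have hpm : ¬ p ∣ m := by
    intro hdvd
    have h4 : ((m : ℕ) : ZMod p) = 0 := (ZMod.natCast_eq_zero_iff m p).mpr hdvd
    have h5 : ((2 ^ p : ℕ) : ZMod p) = ((m + 1 : ℕ) : ZMod p) := by rw [hm]
    push_cast at h5
    rw [ZMod.pow_card, h4, zero_add] at h5
    have h6 : (1 : ZMod p) = 0 := by
      have h7 : (2 : ZMod p) - 1 = 1 := by norm_num
      rw [h5, sub_self] at h7
      exact h7.symm
    exact one_ne_zero h6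
  obtain ⟨k, hk'⟩ := hP (x * z')
  have hord1 := orderOf_dvd_of_pow_eq_one h3
  have hord2 := orderOf_dvd_of_pow_eq_one hk'
  have hcop : Nat.Coprime m (p ^ k) :=
    Nat.Coprime.pow_right k ((Nat.Prime.coprime_iff_not_dvd hp).mpr hpm).symm
  have hone : orderOf (x * z') = 1 :=
    Nat.dvd_one.mp (hcop ▸ Nat.dvd_gcd hord1 hord2)
  have hxz := orderOf_eq_one_iff.mp hone
  apply hx
  have h8 : x = z'⁻¹ := eq_inv_of_mul_eq_one_left hxz
  rw [h8]
  exact Subgroup.inv_mem _ hz'

end Cfsg.Agent.S4365
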