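import Cfsg.Statements.S4370
import Mathlib
import Cfsg.Agent.S4314
import Cfsg.Agent.Lib.Lead.UniqueSubgroup

set_option autoImplicit false
open Cfsg

namespace Cfsg.Agent.S4370

/-- In a finite nilpotent group, an element of order prime to `p` commutes with the Sylow
`p`-subgroup. -/
theorem nil_commute {G : Type*} [Group G] [Finite G] (hG : Group.IsNilpotent G) (p : ℕ)
    [hp : Fact p.Prime] (P : Sylow p G) :
    ∀ (n : ℕ) (g : G), orderOf g = n → n.Coprime p → ∀ a ∈ P, g * a = a * g := by
  intro n
  induction n using Nat.strong_induction_on with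
  | _ n ih =>
    intro g hgn hcop a ha
    by_cases hn1 : n = 1
    · rw [hn1, orderOf_eq_one_iff] at hgn
      rw [hgn, one_mul, mul_one]
    obtain ⟨r, hr, hrn⟩ := Nat.exists_prime_and_dvd hn1
    have hr' : Fact r.Prime := ⟨hr⟩
    have hrp : r ≠ p := by
      rintro rfl
      have h1 : r ∣ Nat.gcd n r := Nat.dvd_gcd hrn dvd_rfl
      rw [Nat.Coprime] at hcop
      rw [hcop] at h1
      exact hr.one_lt.ne' (Nat.dvd_one.mp h1)
    obtain ⟨z1, z2, u, v, hz, hz1, hz2, ⟨k, hk⟩, hz2r⟩ := Cfsg.Agent.S4314.split_elt g r hr
    have hc1 : Commute z1 a := by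
      have hpg : IsPGroup r (Subgroup.zpowers z1) := by
        apply IsPGroup.of_card (n := k)
        rw [Nat.card_zpowers, hk]
      obtain ⟨R, hR⟩ := hpg.exists_le_sylow
      have hRn : (R : Subgroup G).Normal := inferInstance
      have hPn : (P : Subgroup G).Normal := inferInstance
      have hdis : Disjoint (R : Subgroup G) (P : Subgroup G) :=
        IsPGroup.disjoint_of_ne r p hrp _ _ R.isPGroup' P.isPGroup'
      exact Subgroup.commute_of_normal_of_disjoint _ _ hRn hPn hdis z1 a
        (hR (Subgroup.mem_zpowers z1)) ha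
    have hc2 : Commute z2 a := by
      have hdvd : orderOf z2 ∣ n := by
        rw [← hgn]
        exact orderOf_dvd_of_mem_zpowers hz2
      have hnpos : 0 < n := by
        rw [← hgn]
        exact orderOf_pos g
      have hne : orderOf z2 ≠ n := by
        intro h
        rw [h] at hz2r
        have h1 : r ∣ Nat.gcd n r := Nat.dvd_gcd hrn dvd_rfl
        rw [Nat.Coprime] at hz2r
        rw [hz2r] at h1
        exact hr.one_lt.ne' (Nat.dvd_one.mp h1)
      have hlt : orderOf z2 < n := lt_of_le_of_ne (Nat.le_of_dvd hnpos hdvd) hne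
      exact ih (orderOf z2) hlt z2 rfl (Nat.Coprime.coprime_dvd_left hdvd hcop) a ha
    have hc : Commute g a := by
      rw [hz]
      exact (hc1.zpow_left u).mul_left (hc2.zpow_left v)
    exact hc

/-- A finite nilpotent group splits as its Sylow `p`-subgroup times a centralizing complement. -/
theorem nil_decomp {G : Type*} [Group G] [Finite G] (hG : Group.IsNilpotent G) (p : ℕ)
    [hp : Fact p.Prime] (P : Sylow p G) :
    ∃ K : Subgroup G, Subgroup.IsComplement' (P : Subgroup G) K ∧ (Nat.card K).Coprime p ∧
      ∀ a ∈ P, ∀ b ∈ K, a * b = b * a := by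
  have hPn : (P : Subgroup G).Normal := inferInstance
  obtain ⟨K, hK⟩ := Subgroup.exists_right_complement'_of_coprime (N := (P : Subgroup G))
    P.card_coprime_index
  have hcard : Nat.card K = (P : Subgroup G).index := (hK.symm.index_eq_card).symm
  have hcop : (Nat.card K).Coprime p := by
    rw [hcard]
    exact ((Nat.Prime.coprime_iff_not_dvd hp.out).mpr P.not_dvd_index).symm
  refine ⟨K, hK, hcop, ?_⟩
  intro a ha b hb
  have hdvd : orderOf b ∣ Nat.card K := by
    have h1 : orderOf (⟨b, hb⟩ : K) ∣ Nat.card K := orderOf_dvd_natCard _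
    rwa [← Subgroup.orderOf_coe, Subgroup.coe_mk] at h1
  exact (nil_commute hG p P (orderOf b) b rfl (Nat.Coprime.coprime_dvd_left hdvd hcop) a ha).symm

/-- A noncommutative finite nilpotent group has a noncommutative Sylow subgroup. -/
theorem exists_nonabelian_sylow {G : Type*} [Group G] [Finite G] (hG : Group.IsNilpotent G)
    (hna : ¬ IsMulCommutative G) :
    ∃ (p : ℕ) (_ : Fact p.Prime) (P : Sylow p G), ∃ a ∈ P, ∃ b ∈ P, a * b ≠ b * a := by
  by_contra hcon
  apply hna
  obtain ⟨φ⟩ := (Group.isNilpotent_of_finite_tfae (G := G)).out 0 4 |>.mp hG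
  rw [isMulCommutative_iff]
  intro x y
  obtain ⟨f, rfl⟩ := φ.surjective x
  obtain ⟨f', rfl⟩ := φ.surjective y
  rw [← map_mul, ← map_mul]
  congr 1
  funext q Q
  have hq : Fact (q : ℕ).Prime := ⟨Nat.prime_of_mem_primeFactors q.2⟩
  apply Subtype.ext
  show ((f q Q : (Q : Subgroup G)) : G) * (f' q Q : (Q : Subgroup G)) = (f' q Q : (Q : Subgroup G)) * (f q Q : (Q : Subgroup G))
  by_contra hne
  exact hcon ⟨q, hq, Q, _, (f q Q).2, _, (f' q Q).2, hne⟩

/-- In a finite cyclic group, the elements killed by a prime `p` lie in any subgroup of order `p`. -/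
theorem cyc_mem {C : Type*} [Group C] [Finite C] [IsCyclic C] (p : ℕ) (hp : p.Prime) (z w : C)
    (hz : orderOf z = p) (hw : w ^ p = 1) : w ∈ Subgroup.zpowers z := by
  classical
  have : Fintype C := Fintype.ofFinite C
  by_contra hcon
  have hzp : z ^ p = 1 := by
    have := pow_orderOf_eq_one z
    rwa [hz] at this
  have h1 : (Finset.univ.filter fun a : C => a ^ p = 1).card ≤ p :=
    IsCyclic.card_pow_eq_one_le hp.pos
  have h2 : insert w ((Finset.univ : Finset (Fin p)).image fun i : Fin p => z ^ (i : ℕ)) ⊆
      (Finset.univ.filter fun a : C => a ^ p = 1) := by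
    intro t ht
    rw [Finset.mem_insert] at ht
    rw [Finset.mem_filter]
    refine ⟨Finset.mem_univ _, ?_⟩
    rcases ht with rfl | ht
    · exact hw
    · rw [Finset.mem_image] at ht
      obtain ⟨i, -, rfl⟩ := ht
      rw [← pow_mul, mul_comm, pow_mul, hzp, one_pow]
  have h3 : (insert w ((Finset.univ : Finset (Fin p)).image fun i : Fin p => z ^ (i : ℕ))).card = p + 1 := by
    rw [Finset.card_insert_of_notMem, Finset.card_image_of_injective, Finset.card_univ, Fintype.card_fin]
    · intro i j hij
      have hij' : z ^ (i : ℕ) = z ^ (j : ℕ) := hij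
      have := pow_injOn_Iio_orderOf (x := z) (by rw [hz]; exact i.2) (by rw [hz]; exact j.2) hij'
      exact Fin.ext this
    · intro hmem
      rw [Finset.mem_image] at hmem
      obtain ⟨i, -, hi⟩ := hmem
      apply hcon
      rw [← hi]
      exact Subgroup.pow_mem _ (Subgroup.mem_zpowers z) _
  have h4 := Finset.card_le_card h2
  omega

theorem two_mul_zero (n : ℕ) [NeZero n] (j : ZMod (2 * n)) (h : j + j = 0) :
    j = 0 ∨ j = (n : ZMod (2 * n)) := by
  have hn : 0 < n := Nat.pos_of_ne_zero (NeZero.ne n)
  have h2n : NeZero (2 * n) := ⟨by omega⟩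
  have hlt : j.val < 2 * n := ZMod.val_lt j
  have hj : ((j.val : ℕ) : ZMod (2 * n)) = j := ZMod.natCast_zmod_val j
  have h1 : ((j.val + j.val : ℕ) : ZMod (2 * n)) = 0 := by
    rw [Nat.cast_add, hj, h]
  rw [ZMod.natCast_eq_zero_iff] at h1
  obtain ⟨t, ht⟩ := h1
  have ht2 : t < 2 := by
    by_contra hcon
    have : 2 * n * 2 ≤ 2 * n * t := Nat.mul_le_mul_left _ (by omega)
    omega
  interval_cases t
  · left
    have : j.val = 0 := by omega
    rw [← hj, this, Nat.cast_zero]
  · right
    have : j.val = n := by omega
    rw [← hj, this]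

/-- Let G be a finite non-abelian nilpotent group. Then the centralizer of every non-central element of G is cyclic if and only if G is isomorphic to the direct product of a generalized quaternion group and a cyclic group of odd order. -/
theorem result {G : Type*} [Group G] [Finite G] (hG : Group.IsNilpotent G)
    (hna : ¬ IsMulCommutative G) :
    (∀ x : G, x ∉ Subgroup.center G → IsCyclic (Subgroup.centralizer ({x} : Set G))) ↔
      ∃ (k m : ℕ), 1 ≤ k ∧ Odd m ∧ Nonempty (G ≃* QuaternionGroup (2 ^ k) × Multiplicative (ZMod m)) := by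
  classical
  constructor
  · intro hcyc
    obtain ⟨p, hp, P, a0, ha0, b0, hb0, hab0⟩ := exists_nonabelian_sylow hG hna
    obtain ⟨K, hKc, hKp, hKcomm⟩ := nil_decomp hG p P
    have ha0c : a0 ∉ Subgroup.center G := fun h => hab0 ((Subgroup.mem_center_iff.mp h b0).symm)
    have hC0 : IsCyclic (Subgroup.centralizer ({a0} : Set G)) := hcyc a0 ha0c
    have hKle : K ≤ Subgroup.centralizer ({a0} : Set G) := fun b hb =>
      Subgroup.mem_centralizer_singleton_iff.mpr (hKcomm a0 ha0 b hb).symm
    have hKcyc : IsCyclic K :=
      isCyclic_of_injective (Subgroup.inclusion hKle) (Subgroup.inclusion_injective hKle)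
    have hPnc : ¬ IsCyclic (P : Subgroup G) := by
      intro hc
      have hcomm := (isMulCommutative_iff.mp hc.isMulCommutative) ⟨a0, ha0⟩ ⟨b0, hb0⟩
      exact hab0 (congrArg Subtype.val hcomm)
    -- a central element of order p
    have hPnt : Nontrivial (P : Subgroup G) := by
      refine ⟨⟨⟨a0, ha0⟩, ⟨b0, hb0⟩, ?_⟩⟩
      intro h
      have h' : a0 = b0 := congrArg Subtype.val h
      exact hab0 (by rw [h'])
    have hPp : IsPGroup p (P : Subgroup G) := P.isPGroup'
    have hZnt : Nontrivial (Subgroup.center (P : Subgroup G)) := hPp.center_nontrivial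
    have hZp : IsPGroup p (Subgroup.center (P : Subgroup G)) := hPp.to_subgroup _
    obtain ⟨n0, hn0, hn0c⟩ := (hZp.nontrivial_iff_card).mp hZnt
    have hpdvd : p ∣ Nat.card (Subgroup.center (P : Subgroup G)) := by
      rw [hn0c]
      exact dvd_pow_self p (by omega)
    obtain ⟨z, hz⟩ := exists_prime_orderOf_dvd_card' p hpdvd
    set zG : G := ((z : (P : Subgroup G)) : G) with hzG
    have hzGo : orderOf zG = p := by
      rw [hzG, Subgroup.orderOf_coe, Subgroup.orderOf_coe, hz]
    have hzGP : zG ∈ P := SetLike.coe_mem _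
    have hzGc : ∀ w ∈ P, zG * w = w * zG := by
      intro w hw
      have h1 := (Subgroup.mem_center_iff.mp z.2) ⟨w, hw⟩
      exact (congrArg Subtype.val h1).symm
    have hmem : ∀ w ∈ P, w ^ p = 1 → w ∈ Subgroup.zpowers zG := by
      intro w hw hwp
      have key : ∀ (C : Subgroup G), IsCyclic C → zG ∈ C → w ∈ C → w ∈ Subgroup.zpowers zG := by
        intro C hC hzC hwC
        have h1 : (⟨w, hwC⟩ : C) ∈ Subgroup.zpowers (⟨zG, hzC⟩ : C) := by
          apply cyc_mem p hp.out
          · rw [← Subgroup.orderOf_coe]
            exact hzGo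
          · apply Subtype.ext
            rw [Subgroup.coe_pow]
            exact hwp
        obtain ⟨k, hk⟩ := Subgroup.mem_zpowers_iff.mp h1
        refine Subgroup.mem_zpowers_iff.mpr ⟨k, ?_⟩
        have := congrArg Subtype.val hk
        rwa [Subgroup.coe_zpow] at this
      by_cases hwc : w ∈ Subgroup.center G
      · refine key _ hC0 ?_ ?_
        · exact Subgroup.mem_centralizer_singleton_iff.mpr (hzGc a0 ha0)
        · exact Subgroup.mem_centralizer_singleton_iff.mpr ((Subgroup.mem_center_iff.mp hwc a0).symm)
      · refine key _ (hcyc w hwc) ?_ ?_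
        · exact Subgroup.mem_centralizer_singleton_iff.mpr (hzGc w hw)
        · exact Subgroup.mem_centralizer_singleton_iff.mpr rfl
    have hU : Cfsg.Agent.Lib.Lead.UniqP p (P : Subgroup G) := by
      intro x y hx hy hx1
      have hxG : (x : G) ∈ Subgroup.zpowers zG := hmem x x.2 (by rw [← Subgroup.coe_pow, hx]; rfl)
      have hyG : (y : G) ∈ Subgroup.zpowers zG := hmem y y.2 (by rw [← Subgroup.coe_pow, hy]; rfl)
      have hxo : orderOf (x : G) = p := by
        rw [Subgroup.orderOf_coe]
        exact orderOf_eq_prime hx hx1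
      have heq : Subgroup.zpowers (x : G) = Subgroup.zpowers zG := by
        apply Subgroup.eq_of_le_of_card_ge
        · rw [Subgroup.zpowers_le]
          exact hxG
        · rw [Nat.card_zpowers, Nat.card_zpowers, hxo, hzGo]
      rw [← heq] at hyG
      obtain ⟨k, hk⟩ := Subgroup.mem_zpowers_iff.mp hyG
      refine Subgroup.mem_zpowers_iff.mpr ⟨k, ?_⟩
      apply Subtype.ext
      rw [Subgroup.coe_zpow]
      exact hk
    rcases Cfsg.Agent.Lib.Lead.uniqP_cyclic_or_quaternion p hPp hU with hc | ⟨hp2, n, ⟨e⟩⟩
    · exact absurd hc hPnc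
    · have hn : 1 ≤ n := by
        by_contra hcon
        have hn0 : n = 0 := by omega
        subst hn0
        apply hPnc
        have hc : IsCyclic (QuaternionGroup (2 ^ 0)) := by
          rw [pow_zero]
          exact QuaternionGroup.quaternionGroup_one_isCyclic
        exact isCyclic_of_surjective e.symm.toMonoidHom e.symm.surjective
      have hodd : Odd (Nat.card K) := by
        rw [hp2] at hKp
        exact Nat.coprime_two_right.mp hKp
      refine ⟨n, Nat.card K, hn, hodd, ⟨?_⟩⟩
      let f : ↥(P : Subgroup G) × ↥K →* G :=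
        MonoidHom.noncommCoprod (P : Subgroup G).subtype K.subtype (fun a b => hKcomm a a.2 b b.2)
      have hf : Function.Bijective f := hKc
      exact (MulEquiv.ofBijective f hf).symm.trans
        (MulEquiv.prodCongr e (zmodCyclicMulEquiv hKcyc).symm)
  · rintro ⟨k, m, hk, hm, ⟨e⟩⟩ x hx
    have h2k : NeZero (2 ^ k) := ⟨by positivity⟩
    have hm0 : NeZero m := ⟨by rintro rfl; exact absurd hm (by decide)⟩
    -- the first component of `e x`
    have hcomm2 : ∀ c d : Multiplicative (ZMod m), c * d = d * c := fun c d => mul_comm c d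
    have hxc : ∀ w ∈ Subgroup.centralizer ({x} : Set G), (e w).1 * (e x).1 = (e x).1 * (e w).1 := by
      intro w hw
      have h1 : w * x = x * w := Subgroup.mem_centralizer_singleton_iff.mp hw
      have h2 := congrArg (fun t => (e t).1) h1
      simpa using h2
    have hcent : ∀ q : QuaternionGroup (2 ^ k), (∀ q' : QuaternionGroup (2 ^ k), q' * q = q * q') →
        (e x).1 = q → False := by
      intro q hq hxq
      apply hx
      rw [Subgroup.mem_center_iff]
      intro g
      apply e.injective
      rw [map_mul, map_mul]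
      apply Prod.ext
      · show (e g).1 * (e x).1 = (e x).1 * (e g).1
        rw [hxq]
        exact hq _
      · exact hcomm2 _ _
    have hgq : ∃ gq : QuaternionGroup (2 ^ k), ∀ w ∈ Subgroup.centralizer ({x} : Set G),
        (e w).1 ∈ Subgroup.zpowers gq := by
      rcases hq : (e x).1 with i | i
      · -- rotation-like element
        have hi : i + i ≠ 0 := by
          intro hi0
          apply hcent _ _ hq
          intro q'
          rcases q' with j | j
          · rw [QuaternionGroup.a_mul_a, QuaternionGroup.a_mul_a, add_comm]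
          · rw [QuaternionGroup.xa_mul_a, QuaternionGroup.a_mul_xa]
            congr 1
            linear_combination hi0
        refine ⟨QuaternionGroup.a 1, ?_⟩
        intro w hw
        have hc := hxc w hw
        rw [hq] at hc
        rcases hw1 : (e w).1 with j | j
        · have : (QuaternionGroup.a 1 : QuaternionGroup (2 ^ k)) ^ j.val = QuaternionGroup.a j := by
            rw [QuaternionGroup.a_one_pow, ZMod.natCast_zmod_val]
          rw [← this]
          exact Subgroup.pow_mem _ (Subgroup.mem_zpowers _) _
        · exfalso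
          rw [hw1, QuaternionGroup.xa_mul_a, QuaternionGroup.a_mul_xa] at hc
          have h1 : j + i = j - i := QuaternionGroup.xa.inj hc
          apply hi
          linear_combination h1
      · refine ⟨QuaternionGroup.xa i, ?_⟩
        intro w hw
        have hc := hxc w hw
        rw [hq] at hc
        have hsq : (QuaternionGroup.xa i : QuaternionGroup (2 ^ k)) ^ 2
            = QuaternionGroup.a ((2 ^ k : ℕ) : ZMod (2 * 2 ^ k)) := by
          rw [pow_two, QuaternionGroup.xa_mul_xa]
          congr 1
          ring
        rcases hw1 : (e w).1 with j | j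
        · rw [hw1, QuaternionGroup.a_mul_xa, QuaternionGroup.xa_mul_a] at hc
          have h1 : i - j = i + j := QuaternionGroup.xa.inj hc
          have h2 : j + j = 0 := by linear_combination -h1
          rcases two_mul_zero (2 ^ k) j h2 with h3 | h3
          · rw [h3]
            exact Subgroup.one_mem _
          · rw [h3, ← hsq]
            exact Subgroup.pow_mem _ (Subgroup.mem_zpowers _) _
        · rw [hw1, QuaternionGroup.xa_mul_xa, QuaternionGroup.xa_mul_xa] at hc
          have h1 : ((2 ^ k : ℕ) : ZMod (2 * 2 ^ k)) + i - j = ((2 ^ k : ℕ) : ZMod (2 * 2 ^ k)) + j - i :=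
            QuaternionGroup.a.inj hc
          have h2 : (j - i) + (j - i) = 0 := by linear_combination -h1
          rcases two_mul_zero (2 ^ k) (j - i) h2 with h3 | h3
          · have : j = i := by linear_combination h3
            rw [this]
            exact Subgroup.mem_zpowers _
          · have h4 : QuaternionGroup.xa j = (QuaternionGroup.xa i : QuaternionGroup (2 ^ k)) ^ 3 := by
              rw [pow_succ', hsq, QuaternionGroup.xa_mul_a]
              congr 1
              linear_combination h3
            rw [h4]
            exact Subgroup.pow_mem _ (Subgroup.mem_zpowers _) _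
    obtain ⟨gq, hgq⟩ := hgq
    let ψ1 : Subgroup.centralizer ({x} : Set G) →* Subgroup.zpowers gq :=
      MonoidHom.codRestrict ((MonoidHom.fst _ _).comp (e.toMonoidHom.comp (Subgroup.subtype _)))
        (Subgroup.zpowers gq) (fun w => hgq w w.2)
    let ψ2 : Subgroup.centralizer ({x} : Set G) →* Multiplicative (ZMod m) :=
      (MonoidHom.snd _ _).comp (e.toMonoidHom.comp (Subgroup.subtype _))
    let ψ : Subgroup.centralizer ({x} : Set G) →* Subgroup.zpowers gq × Multiplicative (ZMod m) :=
      MonoidHom.prod ψ1 ψ2
    have hψ : Function.Injective ψ := by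
      intro w w' hww
      have h1 : (ψ1 w : QuaternionGroup (2 ^ k)) = ψ1 w' := congrArg (fun t => (t.1 : QuaternionGroup (2 ^ k))) hww
      have h2 : ψ2 w = ψ2 w' := congrArg (fun t => t.2) hww
      apply Subtype.ext
      apply e.injective
      exact Prod.ext h1 h2
    have hcyc : IsCyclic (Subgroup.zpowers gq × Multiplicative (ZMod m)) := by
      rw [Group.isCyclic_prod_iff]
      refine ⟨inferInstance, inferInstance, ?_⟩
      have hd : Nat.card (Subgroup.zpowers gq) ∣ Nat.card (QuaternionGroup (2 ^ k)) :=
        Subgroup.card_subgroup_dvd_card _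
      have hcq : Nat.card (QuaternionGroup (2 ^ k)) = 2 ^ (k + 2) := by
        rw [Nat.card_eq_fintype_card, QuaternionGroup.card]
        ring
      have hcm : Nat.card (Multiplicative (ZMod m)) = m := by
        rw [Nat.card_congr (Multiplicative.toAdd : Multiplicative (ZMod m) ≃ ZMod m), Nat.card_zmod]
      rw [hcm]
      rw [hcq] at hd
      exact Nat.Coprime.coprime_dvd_left hd (Nat.Coprime.pow_left _ (Nat.coprime_two_left.mpr hm))
    exact isCyclic_of_injective ψ hψ

end Cfsg.Agent.S4370
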