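import Cfsg.Statements.S4377
-- import your own Cfsg.Agent.* helpers here

set_option autoImplicit false
open Cfsg

namespace Cfsg.Agent.S4377

theorem b_eq (G : Type*) [Group G] [Finite G] (n : ℕ) (hn : n ≠ 0) :
    Nat.card {g : G // g ^ n = 1} = ∑ d ∈ n.divisors, Nat.card {g : G // orderOf g = d} := by
  classical
  let _ := Fintype.ofFinite G
  simp only [Nat.card_eq_fintype_card, Fintype.card_subtype]
  rw [Finset.card_eq_sum_card_fiberwise (f := orderOf) (t := n.divisors)]
  · apply Finset.sum_congr rfl
    intro d hd
    congr 1
    ext g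
    simp only [Finset.mem_filter, Finset.mem_univ, true_and, and_iff_right_iff_imp]
    intro h
    rw [← h] at hd
    exact orderOf_dvd_iff_pow_eq_one.mp (Nat.dvd_of_mem_divisors hd)
  · intro g hg
    simp only [Finset.coe_filter, Finset.mem_univ, true_and, Set.mem_ofPred_eq] at hg
    exact Nat.mem_divisors.mpr ⟨orderOf_dvd_of_pow_eq_one hg, hn⟩

theorem b_all (G : Type*) [Group G] [Finite G] (N : ℕ) (h : ∀ g : G, g ^ N = 1) :
    Nat.card {g : G // g ^ N = 1} = Nat.card G :=
  Nat.card_congr (Equiv.subtypeUnivEquiv h)

theorem a_zero (G : Type*) [Group G] [Finite G] : Nat.card {g : G // orderOf g = 0} = 0 := by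
  have : IsEmpty {g : G // orderOf g = 0} := ⟨fun ⟨g, hg⟩ => (orderOf_pos g).ne' hg⟩
  exact Nat.card_of_isEmpty


/-- Two finite groups have the same number of elements of each order if and only if, for every n, they have the same number of elements g with gⁿ = 1. -/
theorem result {G H : Type*} [Group G] [Finite G] [Group H] [Finite H] :
    (∀ n : ℕ, Nat.card {g : G // orderOf g = n} = Nat.card {h : H // orderOf h = n}) ↔
      ∀ n : ℕ, Nat.card {g : G // g ^ n = 1} = Nat.card {h : H // h ^ n = 1} := by
  constructor
  · intro h n
    have hpos : ∀ n : ℕ, n ≠ 0 →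
        Nat.card {g : G // g ^ n = 1} = Nat.card {h : H // h ^ n = 1} := by
      intro n hn
      rw [b_eq G n hn, b_eq H n hn]
      exact Finset.sum_congr rfl (fun d _ => h d)
    by_cases hn : n = 0
    · subst hn
      have hG : ∀ g : G, g ^ (Nat.card G * Nat.card H) = 1 := by
        intro g; rw [pow_mul, pow_card_eq_one', one_pow]
      have hH : ∀ g : H, g ^ (Nat.card G * Nat.card H) = 1 := by
        intro g; rw [mul_comm, pow_mul, pow_card_eq_one', one_pow]
      have hN : Nat.card G * Nat.card H ≠ 0 :=
        Nat.mul_ne_zero Nat.card_pos.ne' Nat.card_pos.ne'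
      have e1 := b_all G 0 (fun g => pow_zero g)
      have e2 := b_all H 0 (fun g => pow_zero g)
      have e3 := b_all G _ hG
      have e4 := b_all H _ hH
      exact e1.trans (e3.symm.trans ((hpos _ hN).trans (e4.trans e2.symm)))
    · exact hpos n hn
  · intro h n
    induction n using Nat.strong_induction_on with
    | _ n ih =>
      by_cases hn : n = 0
      · subst hn
        rw [a_zero G, a_zero H]
      · have hG := b_eq G n hn
        have hH := b_eq H n hn
        rw [← Nat.insert_self_properDivisors hn,
          Finset.sum_insert Nat.self_notMem_properDivisors] at hG hH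
        have hsum : ∑ d ∈ n.properDivisors, Nat.card {g : G // orderOf g = d} =
            ∑ d ∈ n.properDivisors, Nat.card {g : H // orderOf g = d} :=
          Finset.sum_congr rfl (fun d hd => ih d (Nat.mem_properDivisors.mp hd).2)
        have := h n
        omega

end Cfsg.Agent.S4377
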