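import Cfsg.Statements.S4378
import Mathlib
import Cfsg.Agent.Lib.Helper23.PLen2
import Cfsg.Agent.S4227

set_option autoImplicit false
open Cfsg

namespace Cfsg.Agent.S4378

/-- Let G be a finite solvable group in which every maximal subgroup either has a normal 2-complement or has prime index. Then G has a chain of normal subgroups 1 ≤ A ≤ B ≤ C ≤ G in which A and C/B have odd order and B/A and G/C are 2-groups (so the 2-length of G is at most 2). -/
theorem result {G : Type*} [Group G] [Finite G]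
    (hG : Group.IsSolvable G)
    (hmax : ∀ M : Subgroup G, IsCoatom M → (∃ K : Subgroup ↥M, K.Normal ∧ ¬ 2 ∣ Nat.card K ∧ ∃ k : ℕ, K.index = 2 ^ k) ∨ (M.index).Prime) :
    ∃ A B C : Subgroup G, A.Normal ∧ B.Normal ∧ C.Normal ∧ A ≤ B ∧ B ≤ C ∧ Odd (Nat.card A) ∧
      (∃ k : ℕ, A.relIndex B = 2 ^ k) ∧ Odd (B.relIndex C) ∧ ∃ k : ℕ, C.index = 2 ^ k := by
  haveI : Fact (Nat.Prime 2) := ⟨Nat.prime_two⟩
  have hsol : IsPSolvable 2 G := Cfsg.Agent.S4227.psolv_of_solv 2 Nat.prime_two _ G hG rfl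
  have hT := Cfsg.Agent.Lib.Helper23.ups_four_eq_top (p := 2) hsol hmax
  refine ⟨(upperPSeries 2 G 1).1, (upperPSeries 2 G 2).1, (upperPSeries 2 G 3).1,
    inferInstance, inferInstance, inferInstance, Cfsg.Agent.Lib.Helper23.ups_mono 1,
    Cfsg.Agent.Lib.Helper23.ups_mono 2, ?_, ?_, ?_, ?_⟩
  · have h := Cfsg.Agent.Lib.Helper23.ups_relIndex_even (p := 2) (G := G) (m := 0) (by decide)
    rw [Cfsg.Agent.Lib.Helper6.upperPSeries_zero, Subgroup.relIndex_bot_left] at h
    exact Nat.Coprime.odd_of_right h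
  · exact Cfsg.Agent.Lib.Helper23.ups_relIndex_odd (by decide)
  · exact Nat.Coprime.odd_of_right (Cfsg.Agent.Lib.Helper23.ups_relIndex_even (by decide))
  · have h := Cfsg.Agent.Lib.Helper23.ups_relIndex_odd (p := 2) (G := G) (m := 3) (by decide)
    rw [hT, Subgroup.relIndex_top_right] at h
    exact h

end Cfsg.Agent.S4378
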