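import Cfsg.Statements.S4381
import Cfsg.Agent.Lib.Helper21.CoprimeAbs
import Cfsg.Agent.Lib.Helper21.Basic

set_option autoImplicit false
open Pointwise
open Cfsg

namespace Cfsg.Agent.S4381

/-- Let the finite group A act by automorphisms on the finite group G with the orders of A and G coprime, and assume that A or G is solvable. Call a proper A-invariant subgroup of G maximal A-invariant when no A-invariant subgroup lies strictly between it and G. Then all maximal A-invariant subgroups of G are conjugate under elements of the fixed-point subgroup C_G(A) if and only if G is a p-group for some prime p and A leaves invariant no subgroup strictly between the Frattini subgroup of G and G. In that case, if G is nontrivial, the Frattini subgroup is the only maximal A-invariant subgroup (a trivial G has none). -/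
theorem result {A G : Type*} [Group A] [Finite A]
    [Group G] [Finite G] [MulDistribMulAction A G] (hcop : (Nat.card A).Coprime (Nat.card G)) (hsol : Group.IsSolvable A ∨ Group.IsSolvable G) :
    ((∀ M N : Subgroup G, (M ≠ ⊤ ∧ (∀ a : A, ∀ x ∈ M, a • x ∈ M) ∧ ∀ L : Subgroup G, M < L → (∀ a : A, ∀ x ∈ L, a • x ∈ L) → L = ⊤) → (N ≠ ⊤ ∧ (∀ a : A, ∀ x ∈ N, a • x ∈ N) ∧ ∀ L : Subgroup G, N < L → (∀ a : A, ∀ x ∈ L, a • x ∈ L) → L = ⊤) →
        ∃ c : G, (∀ a : A, a • c = c) ∧ N = MulAut.conj c • M) ↔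
      ((∃ p : ℕ, p.Prime ∧ IsPGroup p G) ∧ ∀ L : Subgroup G, frattini G < L → (∀ a : A, ∀ x ∈ L, a • x ∈ L) → L = ⊤)) ∧
    (((∃ p : ℕ, p.Prime ∧ IsPGroup p G) ∧ ∀ L : Subgroup G, frattini G < L → (∀ a : A, ∀ x ∈ L, a • x ∈ L) → L = ⊤) →
      ∀ M : Subgroup G, (M ≠ ⊤ ∧ (∀ a : A, ∀ x ∈ M, a • x ∈ M) ∧ ∀ L : Subgroup G, M < L → (∀ a : A, ∀ x ∈ L, a • x ∈ L) → L = ⊤) ↔ (M = frattini G ∧ M ≠ ⊤)) := by
  classical
  have hfinv : ∀ a : A, ∀ x ∈ frattini G, a • x ∈ frattini G := by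
    intro a x hx
    have hc : (frattini G).Characteristic := frattini_characteristic
    have := Subgroup.characteristic_iff_map_le.mp hc (MulDistribMulAction.toMulAut A G a)
    exact this (Subgroup.mem_map_of_mem _ hx)
  have hsupinv : ∀ L₁ L₂ : Subgroup G, (∀ a : A, ∀ x ∈ L₁, a • x ∈ L₁) →
      (∀ a : A, ∀ x ∈ L₂, a • x ∈ L₂) → ∀ a : A, ∀ x ∈ L₁ ⊔ L₂, a • x ∈ L₁ ⊔ L₂ := by
    intro L₁ L₂ h₁ h₂ a x hx
    have hle : L₁ ⊔ L₂ ≤ (L₁ ⊔ L₂).comap (MulDistribMulAction.toMonoidHom G a) := by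
      apply sup_le
      · intro y hy
        exact Subgroup.mem_comap.mpr (le_sup_left (a := L₁) (b := L₂) (h₁ a y hy))
      · intro y hy
        exact Subgroup.mem_comap.mpr (le_sup_right (a := L₁) (b := L₂) (h₂ a y hy))
    exact hle hx
  have key2 : (∀ L : Subgroup G, frattini G < L → (∀ a : A, ∀ x ∈ L, a • x ∈ L) → L = ⊤) →
      ∀ M : Subgroup G, (M ≠ ⊤ ∧ (∀ a : A, ∀ x ∈ M, a • x ∈ M) ∧
        ∀ L : Subgroup G, M < L → (∀ a : A, ∀ x ∈ L, a • x ∈ L) → L = ⊤) ↔
        (M = frattini G ∧ M ≠ ⊤) := by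
    intro hirr M
    constructor
    · rintro ⟨hM, hMinv, hMmax⟩
      refine ⟨?_, hM⟩
      have hsup : M ⊔ frattini G ≠ ⊤ := fun h => hM (frattini_nongenerating h)
      have hle : frattini G ≤ M := by
        by_contra hn
        have hlt : M < M ⊔ frattini G :=
          lt_of_le_of_ne le_sup_left (fun h => hn (h ▸ le_sup_right))
        exact hsup (hMmax _ hlt (hsupinv _ _ hMinv hfinv))
      by_contra hne
      exact hM (hirr M (lt_of_le_of_ne hle (Ne.symm hne)) hMinv)
    · rintro ⟨rfl, hM⟩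
      exact ⟨hM, hfinv, hirr⟩
  have key1 : (∀ M N : Subgroup G, (M ≠ ⊤ ∧ (∀ a : A, ∀ x ∈ M, a • x ∈ M) ∧
        ∀ L : Subgroup G, M < L → (∀ a : A, ∀ x ∈ L, a • x ∈ L) → L = ⊤) →
      (N ≠ ⊤ ∧ (∀ a : A, ∀ x ∈ N, a • x ∈ N) ∧
        ∀ L : Subgroup G, N < L → (∀ a : A, ∀ x ∈ L, a • x ∈ L) → L = ⊤) →
        ∃ c : G, (∀ a : A, a • c = c) ∧ N = MulAut.conj c • M) →
      ((∃ p : ℕ, p.Prime ∧ IsPGroup p G) ∧
        ∀ L : Subgroup G, frattini G < L → (∀ a : A, ∀ x ∈ L, a • x ∈ L) → L = ⊤) := by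
    intro hconj
    have hexmax : ∀ L : Subgroup G, L ≠ ⊤ → (∀ a : A, ∀ x ∈ L, a • x ∈ L) →
        ∃ M : Subgroup G, L ≤ M ∧ (M ≠ ⊤ ∧ (∀ a : A, ∀ x ∈ M, a • x ∈ M) ∧
          ∀ L' : Subgroup G, M < L' → (∀ a : A, ∀ x ∈ L', a • x ∈ L') → L' = ⊤) := by
      intro L hL hLinv
      obtain ⟨M, ⟨hLM, hM, hMinv⟩, hmax⟩ := Set.exists_max_image
        {M : Subgroup G | L ≤ M ∧ M ≠ ⊤ ∧ ∀ a : A, ∀ x ∈ M, a • x ∈ M}
        (fun M => Nat.card M) (Set.toFinite _) ⟨L, le_rfl, hL, hLinv⟩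
      refine ⟨M, hLM, hM, hMinv, ?_⟩
      intro L' hlt hL'inv
      by_contra hne
      have := hmax L' ⟨hLM.trans hlt.le, hne, hL'inv⟩
      exact hlt.ne (Subgroup.eq_of_le_of_card_ge hlt.le this)
    have hcard : ∀ M N : Subgroup G, (M ≠ ⊤ ∧ (∀ a : A, ∀ x ∈ M, a • x ∈ M) ∧
        ∀ L : Subgroup G, M < L → (∀ a : A, ∀ x ∈ L, a • x ∈ L) → L = ⊤) →
      (N ≠ ⊤ ∧ (∀ a : A, ∀ x ∈ N, a • x ∈ N) ∧
        ∀ L : Subgroup G, N < L → (∀ a : A, ∀ x ∈ L, a • x ∈ L) → L = ⊤) →
        Nat.card N = Nat.card M := by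
      intro M N hM hN
      obtain ⟨c, -, hc⟩ := hconj M N hM hN
      rw [hc]
      exact Cfsg.Agent.Lib.Helper21.card_map_conj M c
    have hpgrp : ∃ p : ℕ, p.Prime ∧ IsPGroup p G := by
      by_cases htriv : Subsingleton G
      · refine ⟨2, Nat.prime_two, ?_⟩
        intro g
        exact ⟨0, Subsingleton.elim _ _⟩
      · by_contra hno
        push Not at hno
        have hS : ∀ r : ℕ, r.Prime → ∃ M : Subgroup G, (M ≠ ⊤ ∧ (∀ a : A, ∀ x ∈ M, a • x ∈ M) ∧
            ∀ L : Subgroup G, M < L → (∀ a : A, ∀ x ∈ L, a • x ∈ L) → L = ⊤) ∧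
            r ^ (Nat.card G).factorization r ∣ Nat.card M := by
          intro r hr
          haveI : Fact r.Prime := ⟨hr⟩
          obtain ⟨P, hP⟩ := Cfsg.Agent.Lib.Helper21.exists_invariant_sylow_abs hcop hsol r
          have hPne : (P : Subgroup G) ≠ ⊤ := by
            intro h
            apply hno r hr
            intro g
            have hg : g ∈ (P : Subgroup G) := h ▸ Subgroup.mem_top g
            obtain ⟨k, hk⟩ := P.isPGroup' ⟨g, hg⟩
            exact ⟨k, congrArg Subtype.val hk⟩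
          obtain ⟨M, hPM, hM⟩ := hexmax P hPne hP
          refine ⟨M, hM, ?_⟩
          rw [← Sylow.card_eq_multiplicity P]
          exact Subgroup.card_dvd_of_le hPM
        obtain ⟨M₀, hM₀, -⟩ := hS 2 Nat.prime_two
        apply hM₀.1
        have hdvd : Nat.card G ∣ Nat.card M₀ := by
          rw [← Nat.factorization_prime_le_iff_dvd Nat.card_pos.ne' Nat.card_pos.ne']
          intro r hr
          obtain ⟨M, hM, hd⟩ := hS r hr
          rw [hcard M₀ M hM₀ hM] at hd
          exact (hr.pow_dvd_iff_le_factorization Nat.card_pos.ne').mp hd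
        exact Subgroup.eq_top_of_le_card _ (Nat.le_of_dvd Nat.card_pos hdvd)
    refine ⟨hpgrp, ?_⟩
    obtain ⟨p, hp, hG⟩ := hpgrp
    haveI : Fact p.Prime := ⟨hp⟩
    intro L hfL hLinv
    by_contra hLne
    haveI : Group.IsNilpotent G := hG.isNilpotent
    have hcomm_le : ∀ g n : G, g * n * g⁻¹ * n⁻¹ ∈ frattini G := by
      intro g n
      apply Cfsg.Agent.Lib.Helper18.commutator_le_frattini_of_isNilpotent
      rw [commutator_def]
      exact Subgroup.commutator_mem_commutator (Subgroup.mem_top g) (Subgroup.mem_top n)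
    have hVcomm : ∀ x y : G ⧸ frattini G, x * y = y * x := by
      intro x y
      induction x using QuotientGroup.induction_on with
      | H x =>
      induction y using QuotientGroup.induction_on with
      | H y =>
      rw [← QuotientGroup.mk_mul, ← QuotientGroup.mk_mul, QuotientGroup.eq]
      have : (x * y)⁻¹ * (y * x) = y⁻¹ * x⁻¹ * (y⁻¹)⁻¹ * (x⁻¹)⁻¹ := by group
      rw [this]
      exact hcomm_le _ _
    have hle : ∀ a : A, frattini G ≤ (frattini G).comap (MulDistribMulAction.toMonoidHom G a) :=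
      fun a x hx => hfinv a x hx
    obtain ⟨ρ, hρ⟩ : ∃ ρ : A → (G ⧸ frattini G) →* (G ⧸ frattini G),
        ∀ a (x : G), ρ a (x : G ⧸ frattini G) = ((a • x : G) : G ⧸ frattini G) :=
      ⟨fun a => QuotientGroup.map (frattini G) (frattini G)
        (MulDistribMulAction.toMonoidHom G a) (hle a), fun a x => rfl⟩
    have hρ1 : ∀ v, ρ 1 v = v := by
      intro v
      induction v using QuotientGroup.induction_on with
      | H x => rw [hρ, one_smul]
    have hρmul : ∀ a b v, ρ (a * b) v = ρ a (ρ b v) := by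
      intro a b v
      induction v using QuotientGroup.induction_on with
      | H x => rw [hρ, hρ, hρ, mul_smul]
    have hexp : ∀ v : G ⧸ frattini G, v ^ p = 1 := by
      intro v
      induction v using QuotientGroup.induction_on with
      | H x =>
        rw [← QuotientGroup.mk_pow, QuotientGroup.eq_one_iff]
        exact Cfsg.Agent.Lib.Helper21.pow_mem_frattini' hG x
    have hcopp : (Nat.card A).Coprime p := by
      obtain ⟨n, hn⟩ := IsPGroup.iff_card.mp hG
      have hn0 : n ≠ 0 := by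
        rintro rfl
        rw [pow_zero] at hn
        haveI : Subsingleton G := (Nat.card_eq_one_iff_unique.mp hn).1
        exact hfL.ne (Subsingleton.elim _ _)
      exact Nat.Coprime.coprime_dvd_right (hn ▸ dvd_pow_self p hn0) hcop
    obtain ⟨W, hWinv, hinf, hsup⟩ := Cfsg.Agent.Lib.Helper21.maschke_elem hVcomm ρ hρ1 hρmul p hp
      hexp hcopp (L.map (QuotientGroup.mk' (frattini G))) (by
        rintro a _ ⟨x, hx, rfl⟩
        exact ⟨a • x, hLinv a x hx, (hρ a x).symm⟩)
    obtain ⟨L', hL'⟩ : ∃ L' : Subgroup G, L' = W.comap (QuotientGroup.mk' (frattini G)) :=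
      ⟨_, rfl⟩
    have hL'inv : ∀ a : A, ∀ x ∈ L', a • x ∈ L' := by
      intro a x hx
      rw [hL'] at hx ⊢
      have h1 : ρ a (x : G ⧸ frattini G) ∈ W := hWinv a _ hx
      rw [hρ] at h1
      exact h1
    have hLcm : L = (L.map (QuotientGroup.mk' (frattini G))).comap
        (QuotientGroup.mk' (frattini G)) := by
      rw [Subgroup.comap_map_eq, QuotientGroup.ker_mk', sup_eq_left.mpr hfL.le]
    have hLL' : L ⊔ L' = ⊤ := by
      rw [hLcm, hL', Subgroup.comap_sup_eq _ _ _ (QuotientGroup.mk'_surjective _), hsup,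
        Subgroup.comap_top]
    have hL'ne : L' ≠ ⊤ := by
      intro h
      have h2 : L ⊓ L' = frattini G := by
        rw [hLcm, hL', ← Subgroup.comap_inf, hinf, MonoidHom.comap_bot, QuotientGroup.ker_mk']
      rw [h, inf_top_eq] at h2
      exact hfL.ne h2.symm
    obtain ⟨M, hLM, hM⟩ := hexmax L hLne hLinv
    obtain ⟨M', hLM', hM'⟩ := hexmax L' hL'ne hL'inv
    obtain ⟨c, -, hc⟩ := hconj M M' hM hM'
    haveI hMn : M.Normal := by
      constructor
      intro n hn g
      have : g * n * g⁻¹ = (g * n * g⁻¹ * n⁻¹) * n := by group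
      rw [this]
      exact mul_mem (hLM (hfL.le (hcomm_le g n))) hn
    have hMM' : M' = M := by
      rw [hc]; exact Subgroup.Normal.conj_smul_eq_self c M
    apply hM.1
    rw [eq_top_iff, ← hLL']
    exact sup_le hLM (hMM' ▸ hLM')
  refine ⟨⟨key1, ?_⟩, fun h => key2 h.2⟩
  rintro ⟨-, hirr⟩ M N hM hN
  have h1 := ((key2 hirr M).mp hM).1
  have h2 := ((key2 hirr N).mp hN).1
  refine ⟨1, fun a => smul_one a, ?_⟩
  rw [map_one, one_smul, h1, h2]

end Cfsg.Agent.S4381
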