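import Cfsg.Statements.S4399
import Mathlib
import Cfsg.Agent.Lib.Helper2.MaxClass2
import Cfsg.Agent.Lib.Helper21.Dihedral
import Cfsg.Agent.Lib.Lead.UniqueSubgroup

set_option autoImplicit false
open Cfsg

namespace Cfsg.Agent.S4399

/-- Let S be a finite 2-group whose commutator quotient S/[S,S] is a Klein four-group (order 4 and exponent 2). Then S itself has order 4, or S is dihedral of order at least 8, semidihedral of order at least 16 (order 2^(k+4) with an element a of order 2^(k+3) and an involution b with b a b⁻¹ = a^(2^(k+2)−1)), or generalized quaternion of order at least 8. -/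
theorem result {S : Type*} [Group S] [Finite S] (h2 : IsPGroup 2 S) (hab : Nat.card (Abelianization S) = 4)
    (hexp : ∀ x : Abelianization S, x ^ 2 = 1) :
    Nat.card S = 4 ∨
    ((∃ k : ℕ, Nonempty (S ≃* DihedralGroup (2 ^ (k + 2)))) ∨
      (∃ k : ℕ, Nat.card S = 2 ^ (k + 4) ∧ ∃ a b : S, orderOf a = 2 ^ (k + 3) ∧ orderOf b = 2 ∧ b * a * b⁻¹ = a ^ (2 ^ (k + 2) - 1)) ∨
      (∃ k : ℕ, Nonempty (S ≃* QuaternionGroup (2 ^ (k + 1))))) := by
  classical
  have : Fact (Nat.Prime 2) := ⟨Nat.prime_two⟩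
  obtain ⟨n, hn⟩ := IsPGroup.iff_card.mp h2
  have hi : (commutator S).index = 4 := by
    rw [Subgroup.index_eq_card]; exact hab
  have h4 : 4 ∣ Nat.card S := hi ▸ Subgroup.index_dvd_card _
  have hn2 : 2 ≤ n := by
    rw [hn] at h4
    have h5 : (2 : ℕ) ^ 2 ∣ 2 ^ n := by simpa using h4
    exact (Nat.pow_dvd_pow_iff_le_right (by norm_num)).mp h5
  rcases Nat.lt_or_ge n 3 with hlt | hge
  · left
    have : n = 2 := by omega
    rw [hn, this]; norm_num
  right
  obtain ⟨k, rfl⟩ : ∃ k, n = k + 3 := ⟨n - 3, by omega⟩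
  have hc := Cfsg.Agent.Lib.Helper2.taussky k S hn hi
  have hZcard : Nat.card (Subgroup.center S) = 2 :=
    Cfsg.Agent.Lib.Helper2.card_center_of_maxClass (k + 3) (by omega) hn (by rw [hc]; rfl)
  obtain ⟨a, haidx⟩ := Cfsg.Agent.Lib.Helper2.exists_zpowers_index_two (k + 3) (by omega) S hn
    (by rw [hc]; rfl)
  have hoa : orderOf a = 2 ^ (k + 2) := by
    have h1 := Subgroup.card_mul_index (Subgroup.zpowers a)
    rw [haidx, hn, Nat.card_zpowers] at h1
    have h2' : 2 ^ (k + 3) = 2 ^ (k + 2) * 2 := by rw [← pow_succ]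
    omega
  have hpow8 : 8 ≤ 2 ^ (k + 3) := by
    have : 2 ^ 3 ≤ 2 ^ (k + 3) := Nat.pow_le_pow_right (by norm_num) (by omega)
    simpa using this
  have hncomm : ¬ ∀ u v : S, u * v = v * u := by
    intro h
    have h1 := Cfsg.Agent.Lib.Helper2.center_eq_top_of_comm h
    rw [h1, Subgroup.card_top, hn] at hZcard
    omega
  obtain ⟨x, hx⟩ : ∃ x, x ∉ Subgroup.zpowers a := by
    by_contra hall
    have hall' : ∀ x, x ∈ Subgroup.zpowers a := by
      intro x
      by_contra h
      exact hall ⟨x, h⟩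
    have : Subgroup.zpowers a = ⊤ := (Subgroup.eq_top_iff' _).mpr hall'
    rw [this, Subgroup.index_top] at haidx
    omega
  have hcl : Subgroup.closure ({x, a} : Set S) = ⊤ := by
    apply Cfsg.Agent.Lib.Lead.eq_top_of_index_prime (M := Subgroup.zpowers a)
    · rw [Subgroup.zpowers_le]; exact Subgroup.subset_closure (by simp)
    · rw [haidx]; exact Nat.prime_two
    · intro h; exact hx (h (Subgroup.subset_closure (by simp)))
  have hcomm_of : x * a = a * x → False := by
    intro hxc
    apply hncomm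
    have hcc : IsMulCommutative (Subgroup.closure ({x, a} : Set S)) :=
      Subgroup.isMulCommutative_closure (by
        rintro u (rfl | rfl) v (rfl | rfl)
        · rfl
        · exact hxc
        · exact hxc.symm
        · rfl)
    intro u v
    have hu : u ∈ Subgroup.closure ({x, a} : Set S) := by rw [hcl]; trivial
    have hv : v ∈ Subgroup.closure ({x, a} : Set S) := by rw [hcl]; trivial
    exact congrArg Subtype.val (hcc.is_comm.comm ⟨u, hu⟩ ⟨v, hv⟩)
  have hCn : (Subgroup.zpowers a).Normal := Subgroup.normal_of_index_eq_two haidx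
  obtain ⟨r, hr⟩ : ∃ r : ℕ, a ^ r = x * a * x⁻¹ :=
    mem_powers_iff_mem_zpowers.mpr (hCn.conj_mem a (Subgroup.mem_zpowers a) x)
  have hx2 : x ^ 2 ∈ Subgroup.zpowers a := Subgroup.sq_mem_of_index_two haidx x
  obtain ⟨i, hi'⟩ : ∃ i : ℕ, a ^ i = x ^ 2 := mem_powers_iff_mem_zpowers.mpr hx2
  have hrr : r ^ 2 ≡ 1 [MOD 2 ^ (k + 1 + 1)] := by
    have h1 : x ^ 2 * a * (x ^ 2)⁻¹ = a ^ (r ^ 2) := by
      have : x ^ 2 * a * (x ^ 2)⁻¹ = x * (x * a * x⁻¹) * x⁻¹ := by rw [sq]; group
      rw [this, ← hr, ← conj_pow, ← hr, ← pow_mul, sq]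
    have h2' : x ^ 2 * a * (x ^ 2)⁻¹ = a := by
      rw [← hi', ← pow_succ, pow_succ', mul_inv_cancel_right]
    rw [h2'] at h1
    have h3 : a ^ (r ^ 2) = a ^ 1 := by rw [pow_one]; exact h1.symm
    have := pow_eq_pow_iff_modEq.mp h3
    rwa [hoa] at this
  -- the central involution
  obtain ⟨z, hzdef⟩ : ∃ z : S, z = a ^ (2 ^ (k + 1)) := ⟨_, rfl⟩
  have hz2 : z ^ 2 = 1 := by
    rw [hzdef, ← pow_mul, ← pow_succ, ← hoa, pow_orderOf_eq_one]
  have hz1 : z ≠ 1 := by
    rw [hzdef]
    apply pow_ne_one_of_lt_orderOf (by positivity)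
    rw [hoa]
    exact Nat.pow_lt_pow_right (by norm_num) (by omega)
  have hza : z * a = a * z := by
    rw [hzdef, ← pow_succ, ← pow_succ']
  have hzpow : ∀ u : ℕ, z ^ u = 1 ∨ z ^ u = z := by
    intro u
    rcases Nat.even_or_odd u with ⟨u', hu'⟩ | ⟨u', hu'⟩
    · left; rw [hu', ← two_mul, pow_mul, hz2, one_pow]
    · right; rw [hu', pow_succ, pow_mul, hz2, one_pow, one_mul]
  have hkey : x * a * x⁻¹ = a⁻¹ ∨ (1 ≤ k ∧ x * a * x⁻¹ = z * a⁻¹) := by
    rcases Cfsg.Agent.Lib.Helper2.sq_modEq_one_two_pow (k + 1) r (by omega) hrr with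
      ⟨t, rfl, ht⟩ | ⟨t, rfl, ht⟩
    · exfalso
      obtain ⟨u, hu⟩ := ht
      have h1 : x * a * x⁻¹ = z ^ u * a := by
        rw [← hr, pow_succ, hu, pow_mul, hzdef]
      rcases Nat.even_or_odd u with ⟨u', hu'⟩ | ⟨u', hu'⟩
      · rw [hu', ← two_mul, pow_mul, hz2, one_pow, one_mul] at h1
        apply hcomm_of
        calc x * a = x * a * x⁻¹ * x := by group
          _ = a * x := by rw [h1]
      · rw [hu', pow_succ, pow_mul, hz2, one_pow, one_mul] at h1
        -- a ^ 2 is central
        have hxa2 : x * a ^ 2 * x⁻¹ = a ^ 2 := by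
          rw [← conj_pow, h1, sq, sq]
          calc z * a * (z * a) = z * (a * z) * a := by group
            _ = z * (z * a) * a := by rw [hza]
            _ = z ^ 2 * (a * a) := by rw [sq]; group
            _ = a * a := by rw [hz2, one_mul]
        have ha2Z : a ^ 2 ∈ Subgroup.center S := by
          have hle : Subgroup.closure ({x, a} : Set S) ≤ Subgroup.centralizer {a ^ 2} := by
            rw [Subgroup.closure_le]
            rintro y (rfl | rfl)
            · rw [SetLike.mem_coe, Subgroup.mem_centralizer_singleton_iff]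
              calc y * a ^ 2 = y * a ^ 2 * y⁻¹ * y := by group
                _ = a ^ 2 * y := by rw [hxa2]
            · rw [SetLike.mem_coe, Subgroup.mem_centralizer_singleton_iff, ← pow_succ',
                ← pow_succ]
          rw [hcl] at hle
          rw [Subgroup.mem_center_iff]
          intro g
          exact Subgroup.mem_centralizer_singleton_iff.mp (hle (Subgroup.mem_top g))
        have hzZ : z ∈ Subgroup.center S := by
          have e : z = (a ^ 2) ^ (2 ^ k) := by
            rw [hzdef, ← pow_mul, ← pow_succ']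
          rw [e]
          exact Subgroup.pow_mem _ ha2Z _
        have ha21 : a ^ 2 ≠ 1 := by
          apply pow_ne_one_of_lt_orderOf (by norm_num)
          rw [hoa]
          have : 2 ^ 2 ≤ 2 ^ (k + 2) := Nat.pow_le_pow_right (by norm_num) (by omega)
          omega
        obtain ⟨y, hy1, hy2⟩ := (Nat.card_eq_two_iff' (1 : Subgroup.center S)).mp hZcard
        have e1 : (⟨a ^ 2, ha2Z⟩ : Subgroup.center S) = y :=
          hy2 _ (fun h => ha21 (congrArg Subtype.val h))
        have e2 : (⟨z, hzZ⟩ : Subgroup.center S) = y :=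
          hy2 _ (fun h => hz1 (congrArg Subtype.val h))
        have e3 : a ^ 2 = z := by
          have := e1.trans e2.symm
          exact congrArg Subtype.val this
        rw [hzdef] at e3
        have e4 := pow_eq_pow_iff_modEq.mp e3
        rw [hoa] at e4
        have hk0 : k = 0 := by
          by_contra hk
          have h2lt : 2 < 2 ^ (k + 2) := by
            have : 2 ^ 2 ≤ 2 ^ (k + 2) := Nat.pow_le_pow_right (by norm_num) (by omega)
            omega
          have hlt : 2 ^ (k + 1) < 2 ^ (k + 2) := Nat.pow_lt_pow_right (by norm_num) (by omega)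
          have h4le : 2 ^ 2 ≤ 2 ^ (k + 1) := Nat.pow_le_pow_right (by norm_num) (by omega)
          unfold Nat.ModEq at e4
          rw [Nat.mod_eq_of_lt h2lt, Nat.mod_eq_of_lt hlt] at e4
          omega
        subst hk0
        simp at hu
        omega
    · obtain ⟨u, hu⟩ := ht
      have h1 : x * a * x⁻¹ = z ^ u * a⁻¹ := by
        rw [← hr]
        have e : 4 * t + 3 + 1 = 2 ^ (k + 1) * u := by rw [← hu]; ring
        have e2 : a ^ (4 * t + 3) = a ^ (4 * t + 3 + 1) * a⁻¹ := by
          rw [pow_succ a (4 * t + 3), mul_inv_cancel_right]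
        rw [e2, e, pow_mul, hzdef]
      rcases Nat.even_or_odd u with ⟨u', hu'⟩ | ⟨u', hu'⟩
      · left
        rw [h1, hu', ← two_mul, pow_mul, hz2, one_pow, one_mul]
      · right
        have h2' : x * a * x⁻¹ = z * a⁻¹ := by
          rw [h1, hu', pow_succ, pow_mul, hz2, one_pow, one_mul]
        refine ⟨?_, h2'⟩
        by_contra hk0
        have hk : k = 0 := by omega
        subst hk
        apply hcomm_of
        have e : z * a⁻¹ = a := by
          rw [hzdef]
          simp [pow_two]
        rw [e] at h2'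
        calc x * a = x * a * x⁻¹ * x := by group
          _ = a * x := by rw [h2']
  -- the square of x
  have hxi : x * a ^ i * x⁻¹ = a ^ i := by
    rw [hi']; group
  have h2i : a ^ (2 * i) = 1 := by
    rcases hkey with hA | ⟨hk1, hB⟩
    · have h1 : a ^ i = (a⁻¹) ^ i := by
        rw [← hA, conj_pow, hxi]
      rw [two_mul, pow_add]
      nth_rewrite 2 [h1]
      rw [inv_pow, mul_inv_cancel]
    · have hcz : Commute z a⁻¹ := (Commute.inv_right (show Commute z a from hza))
      have h1 : a ^ i = z ^ i * (a⁻¹) ^ i := by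
        rw [← hcz.mul_pow, ← hB, conj_pow, hxi]
      have h2' : a ^ (2 * i) = z ^ i := by
        rw [two_mul, pow_add]
        nth_rewrite 2 [h1]
        rw [inv_pow]
        calc a ^ i * (z ^ i * (a ^ i)⁻¹) = z ^ i * (a ^ i * (a ^ i)⁻¹) := by
              have hc2 : Commute (a ^ i) (z ^ i) :=
                (Commute.pow_pow (show Commute a z from hza.symm) i i)
              rw [← mul_assoc, hc2.eq, mul_assoc]
          _ = z ^ i := by rw [mul_inv_cancel, mul_one]
      rcases hzpow i with h3 | h3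
      · rw [h2', h3]
      · exfalso
        rw [h3, hzdef] at h2'
        have e4 := pow_eq_pow_iff_modEq.mp h2'
        rw [hoa] at e4
        have hd4 : 4 ∣ 2 ^ (k + 2) := by
          have : (2 : ℕ) ^ 2 ∣ 2 ^ (k + 2) := pow_dvd_pow 2 (by omega)
          simpa using this
        have e5 := Nat.ModEq.of_dvd hd4 e4
        have hd4' : 4 ∣ 2 ^ (k + 1) := by
          have : (2 : ℕ) ^ 2 ∣ 2 ^ (k + 1) := pow_dvd_pow 2 (by omega)
          simpa using this
        have hodd : i % 2 = 1 := by
          by_contra hev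
          obtain ⟨j, rfl⟩ : ∃ j, i = 2 * j := ⟨i / 2, by omega⟩
          have : z ^ (2 * j) = 1 := by rw [pow_mul, hz2, one_pow]
          rw [this] at h3
          exact hz1 h3.symm
        unfold Nat.ModEq at e5
        rw [Nat.mod_eq_zero_of_dvd hd4'] at e5
        omega
  have hx2cases : x ^ 2 = 1 ∨ x ^ 2 = z := by
    have h1 : 2 ^ (k + 2) ∣ 2 * i := by
      rw [← hoa]; exact orderOf_dvd_of_pow_eq_one h2i
    have h2' : 2 ^ (k + 1) ∣ i := by
      rw [pow_succ'] at h1
      exact Nat.dvd_of_mul_dvd_mul_left (by norm_num) h1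
    obtain ⟨j, rfl⟩ := h2'
    rw [← hi', pow_mul, ← hzdef]
    exact hzpow j
  have hx1 : x ≠ 1 := fun h => hx (h ▸ Subgroup.one_mem _)
  rcases hkey with hA | ⟨hk1, hB⟩
  · rcases hx2cases with hx2 | hx2
    · left
      obtain ⟨e⟩ := Cfsg.Agent.Lib.Helper21.nonempty_dihedral_mulEquiv x a (2 ^ (k + 2))
        (by rw [← sq]; exact hx2) hoa (by positivity) hA hcl hx
      exact ⟨k, ⟨e.symm⟩⟩
    · right; right
      exact ⟨k, Cfsg.Agent.Lib.Lead.quaternion_equiv_of_relations (k + 1) a x hoa
        (by rw [hx2, hzdef]) hA hx haidx⟩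
  · right; left
    obtain ⟨k', rfl⟩ : ∃ k', k = k' + 1 := ⟨k - 1, by omega⟩
    have hzinv : z * a⁻¹ = a ^ (2 ^ (k' + 2) - 1) := by
      rw [hzdef, pow_sub a (Nat.one_le_two_pow), pow_one]
    rcases hx2cases with hx2 | hx2
    · refine ⟨k', hn, a, x, hoa, orderOf_eq_prime hx2 hx1, ?_⟩
      rw [hB, hzinv]
    · refine ⟨k', hn, a, a * x, hoa, ?_, ?_⟩
      · apply orderOf_eq_prime
        · have e : (a * x) ^ 2 = a * (x * a * x⁻¹) * x ^ 2 := by rw [sq, sq]; group
          rw [e, hB, hx2]
          calc a * (z * a⁻¹) * z = (a * z) * a⁻¹ * z := by group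
            _ = (z * a) * a⁻¹ * z := by rw [hza]
            _ = z ^ 2 := by rw [sq]; group
            _ = 1 := hz2
        · intro h
          apply hx
          have hxa : x = a⁻¹ := by
            rw [← mul_right_inj a, h, mul_inv_cancel]
          rw [hxa]
          exact Subgroup.inv_mem _ (Subgroup.mem_zpowers a)
      · have e : a * x * a * (a * x)⁻¹ = a * (x * a * x⁻¹) * a⁻¹ := by group
        rw [e, hB, ← hzinv]
        calc a * (z * a⁻¹) * a⁻¹ = (a * z) * a⁻¹ * a⁻¹ := by group
          _ = (z * a) * a⁻¹ * a⁻¹ := by rw [hza]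
          _ = z * a⁻¹ := by group

end Cfsg.Agent.S4399
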