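import Cfsg.Statements.S4400
import Cfsg.Agent.Lib.Helper21.PGroup
import Cfsg.Agent.Lib.Helper28.ESDecomp

set_option autoImplicit false
open Cfsg

namespace Cfsg.Agent.S4400

section aux

variable {S : Type*} [Group S]

/-- the centre of a subgroup, inside the group -/
theorem mem_center_map (P : Subgroup S) (z : S) :
    z ∈ (Subgroup.center ↥P).map P.subtype ↔ z ∈ P ∧ ∀ y ∈ P, y * z = z * y := by
  constructor
  · rintro ⟨c, hc, rfl⟩
    refine ⟨c.2, fun y hy => ?_⟩
    have := Subgroup.mem_center_iff.mp hc ⟨y, hy⟩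
    exact congrArg Subtype.val this
  · rintro ⟨hz, hcomm⟩
    refine ⟨⟨z, hz⟩, Subgroup.mem_center_iff.mpr ?_, rfl⟩
    intro y
    exact Subtype.ext (hcomm y y.2)

/-- a subgroup of order two consists of the identity and one more element -/
theorem eq_of_card_two (Z : Subgroup S) (hZ : Nat.card Z = 2) {z y : S} (hz : z ∈ Z)
    (hz1 : z ≠ 1) (hy : y ∈ Z) : y = 1 ∨ y = z := by
  by_contra h
  rw [not_or] at h
  obtain ⟨w, -, hw⟩ := (Nat.card_eq_two_iff' (1 : Z)).mp hZ
  have h1 := hw ⟨z, hz⟩ (fun e => hz1 (congrArg Subtype.val e))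
  have h2 := hw ⟨y, hy⟩ (fun e => h.1 (congrArg Subtype.val e))
  exact h.2 (congrArg Subtype.val (h2.trans h1.symm))

/-- a nontrivial normal subgroup inside `P` contains the centre of `P` when it has order two -/
theorem center_le_of_normal [Finite S] (h2 : IsPGroup 2 S) (P : Subgroup S)
    (hZP : Nat.card ↥(Subgroup.center ↥P) = 2) (N : Subgroup S) [N.Normal] (hNP : N ≤ P)
    (hN : N ≠ ⊥) : (Subgroup.center ↥P).map P.subtype ≤ N := by
  haveI : Fact (Nat.Prime 2) := ⟨Nat.prime_two⟩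
  have hP2 : IsPGroup 2 ↥P := h2.to_subgroup P
  have hN' : N.subgroupOf P ≠ ⊥ := by
    intro h
    apply hN
    rw [eq_bot_iff]
    intro n hn
    have : (⟨n, hNP hn⟩ : P) ∈ N.subgroupOf P := hn
    rw [h, Subgroup.mem_bot] at this
    exact Subgroup.mem_bot.mpr (congrArg Subtype.val this)
  obtain ⟨z, hzN, hzc, hz1⟩ :=
    Cfsg.Agent.Lib.Helper21.exists_mem_center_of_normal hP2 (N.subgroupOf P) hN'
  rintro _ ⟨c, hc, rfl⟩
  rcases eq_of_card_two (Subgroup.center ↥P) hZP hzc hz1 hc with h | h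
  · rw [h]; exact N.one_mem
  · rw [h]; exact hzN

/-- the subgroup generated by the squares of the elements of `P` -/
def sq (P : Subgroup S) : Subgroup S := Subgroup.closure {s : S | ∃ u ∈ P, s = u ^ 2}

theorem sq_le (P : Subgroup S) : sq P ≤ P := by
  unfold sq
  rw [Subgroup.closure_le]
  rintro _ ⟨u, hu, rfl⟩
  exact P.pow_mem hu 2

theorem sq_mem (P : Subgroup S) {u : S} (hu : u ∈ P) : u ^ 2 ∈ sq P :=
  Subgroup.subset_closure ⟨u, hu, rfl⟩

instance sq_normal (P : Subgroup S) [hPn : P.Normal] : (sq P).Normal := by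
  have h : sq P = Subgroup.normalClosure {s : S | ∃ u ∈ P, s = u ^ 2} := by
    apply le_antisymm Subgroup.closure_le_normalClosure
    show Subgroup.closure (Group.conjugatesOfSet {s : S | ∃ u ∈ P, s = u ^ 2})
      ≤ Subgroup.closure {s : S | ∃ u ∈ P, s = u ^ 2}
    apply Subgroup.closure_mono
    intro s hs
    rw [Group.mem_conjugatesOfSet_iff] at hs
    obtain ⟨a, ⟨u, hu, rfl⟩, hconj⟩ := hs
    obtain ⟨g, rfl⟩ := isConj_iff.mp hconj
    refine ⟨g * u * g⁻¹, hPn.conj_mem u hu g, ?_⟩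
    rw [conj_pow]
  rw [h]
  infer_instance

/-- a group all of whose squares are trivial is commutative -/
theorem comm_of_sq {K : Type*} [Group K] (h : ∀ a : K, a * a = 1) (a b : K) : a * b = b * a := by
  have ha : a⁻¹ = a := inv_eq_of_mul_eq_one_right (h a)
  have hb : b⁻¹ = b := inv_eq_of_mul_eq_one_right (h b)
  have hab : (a * b)⁻¹ = a * b := inv_eq_of_mul_eq_one_right (h (a * b))
  rw [← hab, mul_inv_rev, ha, hb]

theorem sq_ne_bot (P : Subgroup S) (hP : ¬ IsMulCommutative ↥P) : sq P ≠ ⊥ := by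
  intro h
  apply hP
  have h1 : ∀ a : P, a * a = 1 := by
    intro a
    have := sq_mem P a.2
    rw [h, Subgroup.mem_bot] at this
    apply Subtype.ext
    rw [Subgroup.coe_mul, ← pow_two, this]
    rfl
  exact ⟨⟨fun a b => comm_of_sq h1 a b⟩⟩

/-- the squares of a nonabelian `2`-group generate a subgroup of index at least four -/
theorem four_le [Finite S] (h2 : IsPGroup 2 S) (P : Subgroup S) (hP : ¬ IsMulCommutative ↥P) :
    4 * Nat.card ↥(sq P) ≤ Nat.card ↥P := by
  haveI : Fact (Nat.Prime 2) := ⟨Nat.prime_two⟩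
  have hP2 : IsPGroup 2 ↥P := h2.to_subgroup P
  obtain ⟨T, hT⟩ : ∃ T : Subgroup ↥P, T = (sq P).subgroupOf P := ⟨_, rfl⟩
  have hcardT : Nat.card T = Nat.card ↥(sq P) := by
    rw [hT]
    exact Nat.card_congr (Subgroup.subgroupOfEquivOfLe (sq_le P)).toEquiv
  have hmul : Nat.card T * T.index = Nat.card ↥P := Subgroup.card_mul_index T
  have hTfr : T ≤ frattini ↥P := by
    have h1 : sq P ≤ (frattini ↥P).map P.subtype := by
      unfold sq
      rw [Subgroup.closure_le]
      rintro _ ⟨u, hu, rfl⟩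
      exact ⟨(⟨u, hu⟩ : P) ^ 2, Cfsg.Agent.Lib.Helper28.pow_mem_frattini hP2 _, rfl⟩
    intro x hx
    rw [hT, Subgroup.mem_subgroupOf] at hx
    obtain ⟨f, hf, hfx⟩ := h1 hx
    have : f = x := Subtype.ext hfx
    rw [← this]
    exact hf
  have hgen : ∀ g : ↥P, Subgroup.zpowers g ⊔ T = ⊤ → False := by
    intro g hg
    have h1 : Subgroup.zpowers g ⊔ frattini ↥P = ⊤ := by
      rw [eq_top_iff, ← hg]
      exact sup_le_sup_left hTfr _
    have h3 : Subgroup.zpowers g = ⊤ := frattini_nongenerating h1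
    apply hP
    refine ⟨⟨fun a b => ?_⟩⟩
    have ha : a ∈ Subgroup.zpowers g := h3 ▸ Subgroup.mem_top a
    have hb : b ∈ Subgroup.zpowers g := h3 ▸ Subgroup.mem_top b
    obtain ⟨i, rfl⟩ := Subgroup.mem_zpowers_iff.mp ha
    obtain ⟨j, rfl⟩ := Subgroup.mem_zpowers_iff.mp hb
    rw [← zpow_add, ← zpow_add, add_comm]
  obtain ⟨n, hn⟩ := IsPGroup.iff_card.mp hP2
  have hdvd : T.index ∣ 2 ^ n := by
    rw [← hn]
    exact Subgroup.index_dvd_card T
  obtain ⟨i, -, hi⟩ := (Nat.dvd_prime_pow Nat.prime_two).mp hdvd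
  have hi2 : 2 ≤ i := by
    by_contra hlt
    have hcases : i = 0 ∨ i = 1 := by omega
    rcases hcases with h0 | h1
    · rw [h0, pow_zero] at hi
      have hTtop : T = ⊤ := Subgroup.index_eq_one.mp hi
      apply hgen 1
      rw [hTtop]
      exact sup_top_eq _
    · rw [h1, pow_one] at hi
      have hTne : T ≠ ⊤ := by
        intro h
        rw [h, Subgroup.index_top] at hi
        omega
      obtain ⟨g, hg⟩ : ∃ g : ↥P, g ∉ T := by
        by_contra hall
        apply hTne
        rw [eq_top_iff]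
        intro x _
        by_contra hx
        exact hall ⟨x, hx⟩
      apply hgen g
      rw [eq_top_iff]
      intro b _
      by_cases hb : b ∈ T
      · exact (le_sup_right : T ≤ Subgroup.zpowers g ⊔ T) hb
      · have h3 : b * g⁻¹ ∈ T := by
          rw [Subgroup.mul_mem_iff_of_index_two hi]
          constructor
          · intro h; exact absurd h hb
          · intro h; exact absurd (T.inv_mem_iff.mp h) hg
        have h4 : b = (b * g⁻¹) * g := by group
        rw [h4]
        exact Subgroup.mul_mem _ ((le_sup_right : T ≤ Subgroup.zpowers g ⊔ T) h3)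
          ((le_sup_left : Subgroup.zpowers g ≤ Subgroup.zpowers g ⊔ T) (Subgroup.mem_zpowers g))
  have h4 : 4 ≤ T.index := by
    rw [hi]
    calc 4 = 2 ^ 2 := by norm_num
      _ ≤ 2 ^ i := Nat.pow_le_pow_right (by norm_num) hi2
  rw [← hmul, ← hcardT]
  calc 4 * Nat.card T = Nat.card T * 4 := by ring
    _ ≤ Nat.card T * T.index := Nat.mul_le_mul_left _ h4

end aux

/-- Let S be a finite 2-group of sectional 2-rank at most 4, and let P and Q be normal non-abelian subgroups of S whose centres have order 2 and are different. Then P and Q commute elementwise and intersect trivially, and PQ contains its own centralizer in S. -/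
theorem result {S : Type*} [Group S] [Finite S] (h2 : IsPGroup 2 S) (hr : Cfsg.SectionalPRankLE 2 4 S)
    (P Q : Subgroup S) [P.Normal] [Q.Normal] (hP : ¬ IsMulCommutative ↥P) (hQ : ¬ IsMulCommutative ↥Q)
    (hZP : Nat.card ↥(Subgroup.center ↥P) = 2) (hZQ : Nat.card ↥(Subgroup.center ↥Q) = 2)
    (hne : (Subgroup.center ↥P).map P.subtype ≠ (Subgroup.center ↥Q).map Q.subtype) :
    ⁅P, Q⁆ = ⊥ ∧ P ⊓ Q = ⊥ ∧ Subgroup.centralizer ((P ⊔ Q : Subgroup S) : Set S) ≤ P ⊔ Q := by
  classical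
  haveI : Fact (Nat.Prime 2) := ⟨Nat.prime_two⟩
  have hPn : P.Normal := inferInstance
  have hQn : Q.Normal := inferInstance
  obtain ⟨ZP, hZPdef⟩ : ∃ ZP : Subgroup S, ZP = (Subgroup.center ↥P).map P.subtype := ⟨_, rfl⟩
  obtain ⟨ZQ, hZQdef⟩ : ∃ ZQ : Subgroup S, ZQ = (Subgroup.center ↥Q).map Q.subtype := ⟨_, rfl⟩
  rw [← hZPdef, ← hZQdef] at hne
  have hZPmem : ∀ z, z ∈ ZP ↔ z ∈ P ∧ ∀ y ∈ P, y * z = z * y := by
    rw [hZPdef]; exact mem_center_map P
  have hZQmem : ∀ z, z ∈ ZQ ↔ z ∈ Q ∧ ∀ y ∈ Q, y * z = z * y := by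
    rw [hZQdef]; exact mem_center_map Q
  have hZPcard : Nat.card ZP = 2 := by
    rw [hZPdef, Subgroup.card_map_of_injective P.subtype_injective]
    exact hZP
  have hZQcard : Nat.card ZQ = 2 := by
    rw [hZQdef, Subgroup.card_map_of_injective Q.subtype_injective]
    exact hZQ
  -- (1) trivial intersection
  have hPQ : P ⊓ Q = ⊥ := by
    by_contra hD
    have h1 : ZP ≤ P ⊓ Q := hZPdef ▸ center_le_of_normal h2 P hZP (P ⊓ Q) inf_le_left hD
    obtain ⟨z, hz, hz1⟩ : ∃ z ∈ ZP, z ≠ 1 := by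
      by_contra hall
      have hbot : ZP = ⊥ := by
        rw [eq_bot_iff]
        intro z hz
        rw [Subgroup.mem_bot]
        by_contra hz1
        exact hall ⟨z, hz, hz1⟩
      rw [hbot, Subgroup.card_bot] at hZPcard
      omega
    have hzc : ∀ g : S, g * z * g⁻¹ = z := by
      intro g
      have hmem : g * z * g⁻¹ ∈ ZP := by
        rw [hZPmem] at hz ⊢
        refine ⟨hPn.conj_mem z hz.1 g, ?_⟩
        intro y hy
        have h3 := hz.2 (g⁻¹ * y * g) (by simpa using hPn.conj_mem y hy g⁻¹)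
        calc y * (g * z * g⁻¹) = g * ((g⁻¹ * y * g) * z) * g⁻¹ := by group
          _ = g * (z * (g⁻¹ * y * g)) * g⁻¹ := by rw [h3]
          _ = g * z * g⁻¹ * y := by group
      rcases eq_of_card_two ZP hZPcard hz hz1 hmem with h | h
      · exfalso
        apply hz1
        have e : z = g⁻¹ * (g * z * g⁻¹) * g := by group
        rw [e, h]
        group
      · exact h
    have hzQ : z ∈ ZQ := by
      rw [hZQmem]
      refine ⟨(h1 hz).2, fun y _ => ?_⟩
      have := hzc y
      calc y * z = (y * z * y⁻¹) * y := by group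
        _ = z * y := by rw [this]
    apply hne
    apply Subgroup.eq_of_le_of_card_ge
    · intro w hw
      rcases eq_of_card_two ZP hZPcard hz hz1 hw with h | h
      · rw [h]; exact ZQ.one_mem
      · rw [h]; exact hzQ
    · rw [hZPcard, hZQcard]
  -- (2) commuting
  have hcomm : ⁅P, Q⁆ = ⊥ := by
    rw [eq_bot_iff, ← hPQ]
    exact Subgroup.commutator_le_inf P Q
  have hcomm' : ∀ u ∈ P, ∀ v ∈ Q, u * v = v * u := by
    intro u hu v hv
    have h1 := Subgroup.commutator_eq_bot_iff_le_centralizer.mp hcomm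
    exact (Subgroup.mem_centralizer_iff.mp (h1 hu) v hv).symm
  refine ⟨hcomm, hPQ, ?_⟩
  -- (3) the centralizer
  by_contra hC
  obtain ⟨c, hcC, hcPQ⟩ := SetLike.not_le_iff_exists.mp hC
  -- an element of the centralizer outside with square inside
  obtain ⟨x, hxC, hxPQ, hx2⟩ : ∃ x ∈ Subgroup.centralizer ((P ⊔ Q : Subgroup S) : Set S),
      x ∉ P ⊔ Q ∧ x ^ 2 ∈ P ⊔ Q := by
    have hex : ∃ k : ℕ, c ^ 2 ^ k ∈ P ⊔ Q := by
      obtain ⟨n, hn⟩ := h2 c
      exact ⟨n, by rw [hn]; exact Subgroup.one_mem _⟩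
    have hk0 : Nat.find hex ≠ 0 := by
      intro h0
      have := Nat.find_spec hex
      rw [h0, pow_zero, pow_one] at this
      exact hcPQ this
    obtain ⟨k, hk⟩ : ∃ k, Nat.find hex = k + 1 := ⟨Nat.find hex - 1, by omega⟩
    refine ⟨c ^ 2 ^ k, Subgroup.pow_mem _ hcC _, ?_, ?_⟩
    · exact Nat.find_min hex (by omega)
    · have := Nat.find_spec hex
      rw [hk, pow_succ, pow_mul] at this
      exact this
  have hxcomm : ∀ y ∈ P ⊔ Q, y * x = x * y := fun y hy =>
    Subgroup.mem_centralizer_iff.mp hxC y hy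
  obtain ⟨M, hMdef⟩ : ∃ M : Subgroup S, M = sq P ⊔ sq Q := ⟨_, rfl⟩
  have hsqPM : sq P ≤ M := hMdef ▸ le_sup_left
  have hsqQM : sq Q ≤ M := hMdef ▸ le_sup_right
  haveI hMn : M.Normal := by rw [hMdef]; infer_instance
  -- the square of x lies in M
  have hx2M : x ^ 2 ∈ M := by
    obtain ⟨u, hu, v, hv, huv⟩ := Subgroup.mem_sup_of_normal_right.mp hx2
    have hx2c : ∀ y ∈ P ⊔ Q, y * x ^ 2 = x ^ 2 * y := by
      intro y hy
      have := hxcomm y hy
      rw [pow_two, ← mul_assoc, this, mul_assoc, this, mul_assoc]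
    have huZ : u ∈ ZP := by
      rw [hZPmem]
      refine ⟨hu, fun y hy => ?_⟩
      have h1 := hx2c y ((le_sup_left : P ≤ P ⊔ Q) hy)
      rw [← huv] at h1
      have h3 : y * v = v * y := hcomm' y hy v hv
      have h4 : y * u * v = u * y * v := by
        calc y * u * v = y * (u * v) := by group
          _ = u * v * y := h1
          _ = u * (v * y) := by group
          _ = u * (y * v) := by rw [h3]
          _ = u * y * v := by group
      exact mul_right_cancel h4
    have hvZ : v ∈ ZQ := by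
      rw [hZQmem]
      refine ⟨hv, fun y hy => ?_⟩
      have h1 := hx2c y ((le_sup_right : Q ≤ P ⊔ Q) hy)
      rw [← huv] at h1
      have h3 : u * y = y * u := hcomm' u hu y hy
      have h4 : u * (y * v) = u * (v * y) := by
        calc u * (y * v) = (u * y) * v := by group
          _ = (y * u) * v := by rw [h3]
          _ = y * (u * v) := by group
          _ = u * v * y := h1
          _ = u * (v * y) := by group
      exact mul_left_cancel h4
    have h5 : ZP ≤ sq P := hZPdef ▸ center_le_of_normal h2 P hZP (sq P) (sq_le P) (sq_ne_bot P hP)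
    have h6 : ZQ ≤ sq Q := hZQdef ▸ center_le_of_normal h2 Q hZQ (sq Q) (sq_le Q) (sq_ne_bot Q hQ)
    rw [← huv]
    exact M.mul_mem (hsqPM (h5 huZ)) (hsqQM (h6 hvZ))
  obtain ⟨H, hHdef⟩ : ∃ H : Subgroup S, H = (P ⊔ Q) ⊔ Subgroup.zpowers x := ⟨_, rfl⟩
  have hPQH : P ⊔ Q ≤ H := hHdef ▸ le_sup_left
  have hxH : x ∈ H := hHdef ▸ (le_sup_right : Subgroup.zpowers x ≤ (P ⊔ Q) ⊔ Subgroup.zpowers x)
    (Subgroup.mem_zpowers x)
  -- squares of H lie in M
  have hsqH : ∀ h ∈ H, h * h ∈ M := by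
    intro h hh
    rw [hHdef] at hh
    obtain ⟨y, hy, z, hz, rfl⟩ := Subgroup.mem_sup_of_normal_left.mp hh
    obtain ⟨u, hu, v, hv, rfl⟩ := Subgroup.mem_sup_of_normal_right.mp hy
    obtain ⟨m, rfl⟩ := Subgroup.mem_zpowers_iff.mp hz
    have hzc : ∀ y ∈ P ⊔ Q, y * x ^ m = x ^ m * y := by
      intro y hy
      have hc : x ^ m ∈ Subgroup.centralizer ((P ⊔ Q : Subgroup S) : Set S) :=
        Subgroup.zpow_mem _ hxC m
      exact Subgroup.mem_centralizer_iff.mp hc y hy
    have e1 : u * v * x ^ m * (u * v * x ^ m) = (u * v) * (u * v) * (x ^ m * x ^ m) := by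
      have := hzc (u * v) hy
      calc u * v * x ^ m * (u * v * x ^ m) = (u * v) * (x ^ m * (u * v)) * x ^ m := by group
        _ = (u * v) * ((u * v) * x ^ m) * x ^ m := by rw [this]
        _ = (u * v) * (u * v) * (x ^ m * x ^ m) := by group
    have e2 : (u * v) * (u * v) = u ^ 2 * v ^ 2 := by
      have := hcomm' u hu v hv
      calc (u * v) * (u * v) = u * (v * u) * v := by group
        _ = u * (u * v) * v := by rw [this]
        _ = u ^ 2 * v ^ 2 := by rw [pow_two, pow_two]; simp only [mul_assoc]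
    have e3 : x ^ m * x ^ m = (x ^ 2) ^ m := by
      rw [← zpow_natCast x 2, ← zpow_mul, ← zpow_add]
      congr 1
      push_cast
      ring
    rw [e1, e2, e3]
    exact M.mul_mem (M.mul_mem (hsqPM (sq_mem P hu)) (hsqQM (sq_mem Q hv))) (M.zpow_mem hx2M m)
  have hMH : M ≤ H := by
    rw [hMdef]
    exact sup_le ((sq_le P).trans (le_sup_left.trans hPQH)) ((sq_le Q).trans (le_sup_right.trans hPQH))
  -- the section H / M
  obtain ⟨N, hNdef⟩ : ∃ N : Subgroup ↥H, N = M.subgroupOf H := ⟨_, rfl⟩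
  haveI hNn : N.Normal := by rw [hNdef]; infer_instance
  have hsqQuot : ∀ a : ↥H ⧸ N, a * a = 1 := by
    intro a
    induction a using QuotientGroup.induction_on with
    | H h =>
      rw [← QuotientGroup.mk_mul, QuotientGroup.eq_one_iff, hNdef, Subgroup.mem_subgroupOf]
      exact hsqH h h.2
  have hrank := hr H N ⊤ ⟨⟨fun a b => Subtype.ext (comm_of_sq hsqQuot a.1 b.1)⟩⟩ (by
    intro a _
    rw [pow_two]
    exact hsqQuot a)
  rw [Subgroup.card_top] at hrank
  have hidx : N.index ≤ 2 ^ 4 := hrank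
  -- counting
  have hcardN : Nat.card N = Nat.card M := by
    rw [hNdef]
    exact Nat.card_congr (Subgroup.subgroupOfEquivOfLe hMH).toEquiv
  have hmul : Nat.card N * N.index = Nat.card ↥H := Subgroup.card_mul_index N
  have hPQcard : Nat.card ↥(P ⊔ Q) = Nat.card P * Nat.card Q := by
    have := Cfsg.Agent.Lib.Helper21.card_sup_mul_card_inf P Q
    rw [hPQ, Subgroup.card_bot, mul_one] at this
    exact this
  have hMcard : Nat.card M ≤ Nat.card ↥(sq P) * Nat.card ↥(sq Q) := by
    have := Cfsg.Agent.Lib.Helper21.card_sup_mul_card_inf (sq P) (sq Q)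
    rw [← hMdef] at this
    rw [← this]
    exact Nat.le_mul_of_pos_right _ Nat.card_pos
  have hHcard : 2 * Nat.card ↥(P ⊔ Q) ≤ Nat.card ↥H := by
    obtain ⟨k, hk⟩ := Subgroup.card_dvd_of_le hPQH
    have hk1 : k ≠ 1 := by
      intro h1
      rw [h1, mul_one] at hk
      have := Subgroup.eq_of_le_of_card_ge hPQH hk.le
      exact hxPQ (this ▸ hxH)
    have hk0 : k ≠ 0 := by
      intro h0
      rw [h0, mul_zero] at hk
      have : 0 < Nat.card ↥H := Nat.card_pos
      omega
    rw [hk]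
    calc 2 * Nat.card ↥(P ⊔ Q) = Nat.card ↥(P ⊔ Q) * 2 := by ring
      _ ≤ Nat.card ↥(P ⊔ Q) * k := Nat.mul_le_mul_left _ (by omega)
  have h4P := four_le h2 P hP
  have h4Q := four_le h2 Q hQ
  have hMpos : 0 < Nat.card M := Nat.card_pos
  have hfinal : 32 * Nat.card M ≤ 16 * Nat.card M := by
    calc 32 * Nat.card M ≤ 32 * (Nat.card ↥(sq P) * Nat.card ↥(sq Q)) :=
          Nat.mul_le_mul_left _ hMcard
      _ = 2 * ((4 * Nat.card ↥(sq P)) * (4 * Nat.card ↥(sq Q))) := by ring
      _ ≤ 2 * (Nat.card P * Nat.card Q) := Nat.mul_le_mul_left _ (Nat.mul_le_mul h4P h4Q)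
      _ = 2 * Nat.card ↥(P ⊔ Q) := by rw [hPQcard]
      _ ≤ Nat.card ↥H := hHcard
      _ = Nat.card N * N.index := hmul.symm
      _ = Nat.card M * N.index := by rw [hcardN]
      _ ≤ Nat.card M * 2 ^ 4 := Nat.mul_le_mul_left _ hidx
      _ = 16 * Nat.card M := by ring
  omega

end Cfsg.Agent.S4400
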