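import Cfsg.Statements.S4403
import Mathlib
import Cfsg.Agent.Lib.Helper11.Bender
import Cfsg.Agent.Lib.Helper11.GenFit
import Cfsg.Agent.Lib.Helper10.PComp
import Cfsg.Agent.Lib.Helper24.Fitting
import Cfsg.Agent.Lib.Helper17.PCore
import Cfsg.Agent.Lib.Helper1.SZ
import Cfsg.Agent.Lib.Helper1.Cores

set_option autoImplicit false
open Cfsg

namespace Cfsg.Agent.S4403

open scoped Pointwise

universe u

section basic

variable {K : Type*} [Group K]

/-- if two coprime powers of an element lie in a subgroup, so does the element -/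
theorem mem_of_coprime_pows (H : Subgroup K) (x : K) (a b : ℕ) (hab : Nat.Coprime a b)
    (ha : x ^ a ∈ H) (hb : x ^ b ∈ H) : x ∈ H := by
  have h1 : (a : ℤ) * Nat.gcdA a b + (b : ℤ) * Nat.gcdB a b = 1 := by
    have := Nat.gcd_eq_gcd_ab a b
    rw [hab] at this
    exact_mod_cast this.symm
  have h2 : x = (x ^ a) ^ (Nat.gcdA a b) * (x ^ b) ^ (Nat.gcdB a b) := by
    rw [← zpow_natCast, ← zpow_natCast, ← zpow_mul, ← zpow_mul, ← zpow_add, h1, zpow_one]
  rw [h2]
  exact H.mul_mem (H.zpow_mem ha _) (H.zpow_mem hb _)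

/-- an automorphism of order prime to `p` of an abelian `p`-group that fixes every element of
order dividing `p` is trivial (elementwise form for conjugation by `n`) -/
theorem coprime_fix [Finite K] (p : ℕ) [hp : Fact p.Prime] (P : Subgroup K)
    (hPp : IsPGroup p P) (hPc : ∀ a ∈ P, ∀ b ∈ P, a * b = b * a) (n : K)
    (hn : ∀ a ∈ P, n * a * n⁻¹ ∈ P) (hcop : (orderOf n).Coprime p)
    (hfix : ∀ u ∈ P, u ^ p = 1 → n * u = u * n) : ∀ y ∈ P, n * y = y * n := by
  intro y hy
  by_contra hne
  obtain ⟨w, hw⟩ : ∃ w, w = y⁻¹ * (n * y * n⁻¹) := ⟨_, rfl⟩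
  have hwP : w ∈ P := by
    rw [hw]; exact P.mul_mem (P.inv_mem hy) (hn y hy)
  have hw1 : w ≠ 1 := by
    intro h
    apply hne
    rw [hw, inv_mul_eq_one] at h
    calc n * y = n * y * n⁻¹ * n := by group
      _ = y * n := by rw [← h]
  obtain ⟨j', hj'⟩ := hPp ⟨w, hwP⟩
  have hwj : w ^ (p ^ j') = 1 := by
    have := congrArg Subtype.val hj'
    simpa using this
  obtain ⟨j, -, hj⟩ := (Nat.dvd_prime_pow hp.out).mp (orderOf_dvd_of_pow_eq_one hwj)
  have hj1 : j ≠ 0 := by
    intro h0
    rw [h0, pow_zero, orderOf_eq_one_iff] at hj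
    exact hw1 hj
  obtain ⟨i, rfl⟩ : ∃ i, j = i + 1 := ⟨j - 1, by omega⟩
  have hw'p : (w ^ (p ^ i)) ^ p = 1 := by
    rw [← pow_mul, ← pow_succ, ← hj, pow_orderOf_eq_one]
  have hw'1 : w ^ (p ^ i) ≠ 1 := by
    apply pow_ne_one_of_lt_orderOf (by have := hp.out.pos; positivity)
    rw [hj]; exact Nat.pow_lt_pow_right hp.out.one_lt (by omega)
  have hconj : n * y ^ (p ^ i) * n⁻¹ = y ^ (p ^ i) * w ^ (p ^ i) := by
    rw [← conj_pow]
    have e : n * y * n⁻¹ = y * w := by rw [hw]; group
    rw [e]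
    exact (show Commute y w from hPc y hy w hwP).mul_pow _
  have hnw : n * w ^ (p ^ i) = w ^ (p ^ i) * n := hfix _ (P.pow_mem hwP _) hw'p
  have hind : ∀ k : ℕ, n ^ k * y ^ (p ^ i) * (n ^ k)⁻¹ = y ^ (p ^ i) * (w ^ (p ^ i)) ^ k := by
    intro k
    induction k with
    | zero => simp
    | succ k ih =>
      have e : n ^ (k + 1) * y ^ (p ^ i) * (n ^ (k + 1))⁻¹
          = n * (n ^ k * y ^ (p ^ i) * (n ^ k)⁻¹) * n⁻¹ := by
        rw [pow_succ']; group
      rw [e, ih]
      have e2 : n * (y ^ (p ^ i) * (w ^ (p ^ i)) ^ k) * n⁻¹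
          = (n * y ^ (p ^ i) * n⁻¹) * (n * (w ^ (p ^ i)) ^ k * n⁻¹) := by group
      have e3 : n * (w ^ (p ^ i)) ^ k * n⁻¹ = (w ^ (p ^ i)) ^ k := by
        have hc : Commute n ((w ^ (p ^ i)) ^ k) :=
          (show Commute n (w ^ (p ^ i)) from hnw).pow_right k
        rw [hc.eq, mul_inv_cancel_right]
      rw [e2, e3, hconj, mul_assoc, ← pow_succ']
  have h1 := hind (orderOf n)
  rw [pow_orderOf_eq_one, one_mul, inv_one, mul_one] at h1
  have h2 : (w ^ (p ^ i)) ^ (orderOf n) = 1 := by
    have h3 : y ^ (p ^ i) * (w ^ (p ^ i)) ^ (orderOf n) = y ^ (p ^ i) * 1 := by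
      rw [mul_one]; exact h1.symm
    exact mul_left_cancel h3
  have d1 := orderOf_dvd_of_pow_eq_one h2
  have d2 := orderOf_dvd_of_pow_eq_one hw'p
  have h5 : orderOf (w ^ (p ^ i)) = 1 := Nat.dvd_one.mp (hcop ▸ Nat.dvd_gcd d1 d2)
  exact hw'1 (orderOf_eq_one_iff.mp h5)

/-- elements of order dividing `p` in a cyclic group of order `p ^ (e + 1)` -/
theorem cyc_omega (p : ℕ) [hp : Fact p.Prime] (y : K) (e : ℕ) (hy : orderOf y = p ^ (e + 1))
    (c : ℕ) (h : (y ^ c) ^ p = 1) : ∃ c', y ^ c = (y ^ (p ^ e)) ^ c' := by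
  rw [← pow_mul] at h
  have h1 : p ^ (e + 1) ∣ c * p := by
    rw [← hy]; exact orderOf_dvd_of_pow_eq_one h
  rw [pow_succ] at h1
  have h2 : p ^ e ∣ c := Nat.dvd_of_mul_dvd_mul_right hp.out.pos h1
  obtain ⟨c', rfl⟩ := h2
  exact ⟨c', by rw [pow_mul]⟩

theorem cyc_omega_order (p : ℕ) [hp : Fact p.Prime] (y : K) (e : ℕ)
    (hy : orderOf y = p ^ (e + 1)) : orderOf (y ^ (p ^ e)) = p := by
  apply orderOf_eq_prime
  · rw [← pow_mul, ← pow_succ, ← hy, pow_orderOf_eq_one]
  · apply pow_ne_one_of_lt_orderOf (by have := hp.out.pos; positivity)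
    rw [hy]; exact Nat.pow_lt_pow_right hp.out.one_lt (by omega)

/-- a conjugation acting nontrivially on the elements of order `p` of a cyclic `p`-group `⟨y⟩`
is fixed-point-free on it, and `y` is a power of the commutator -/
theorem cyc_fpf (p : ℕ) [hp : Fact p.Prime] (y : K) (e : ℕ) (hy : orderOf y = p ^ (e + 1))
    (n : K) (hn : n * y * n⁻¹ ∈ Subgroup.zpowers y) (c₀ : ℕ) (hu : (y ^ c₀) ^ p = 1)
    (hnu : n * y ^ c₀ ≠ y ^ c₀ * n) :
    (∀ c : ℕ, n * y ^ c = y ^ c * n → y ^ c = 1) ∧
      y ∈ Subgroup.zpowers (n * y * n⁻¹ * y⁻¹) := by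
  have hfin : IsOfFinOrder y := by
    rw [← orderOf_pos_iff, hy]; have := hp.out.pos; positivity
  obtain ⟨r, hr⟩ : ∃ r : ℕ, y ^ r = n * y * n⁻¹ :=
    (hfin.mem_powers_iff_mem_zpowers).mpr hn
  have hconj : ∀ c : ℕ, n * y ^ c * n⁻¹ = (y ^ c) ^ r := by
    intro c
    rw [← conj_pow, ← hr, ← pow_mul, mul_comm, pow_mul]
  have hr1 : r % p ≠ 1 := by
    intro h
    apply hnu
    have h1 := hconj c₀
    have h2 : (y ^ c₀) ^ r = y ^ c₀ := by
      conv_lhs => rw [← Nat.div_add_mod r p, h, pow_add, pow_mul, hu, one_pow, one_mul, pow_one]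
    rw [h2] at h1
    calc n * y ^ c₀ = n * y ^ c₀ * n⁻¹ * n := by group
      _ = y ^ c₀ * n := by rw [h1]
  have hr0 : r ≠ 0 := by
    intro h0
    rw [h0, pow_zero] at hr
    have h1 : y = 1 := by
      have : n * y * n⁻¹ = 1 := hr.symm
      have h2 : y = n⁻¹ * (n * y * n⁻¹) * n := by group
      rw [h2, this]; group
    rw [h1, orderOf_one] at hy
    have := Nat.one_lt_pow (n := e + 1) (by omega) hp.out.one_lt
    omega
  obtain ⟨r', rfl⟩ : ∃ r', r = r' + 1 := ⟨r - 1, by omega⟩
  have hpr : ¬ p ∣ r' := by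
    intro hd
    apply hr1
    obtain ⟨t, rfl⟩ := hd
    rw [Nat.add_mod, Nat.mul_mod_right, zero_add, Nat.mod_mod, Nat.mod_eq_of_lt hp.out.one_lt]
  constructor
  · intro c hc
    have h1 := hconj c
    have h2 : n * y ^ c * n⁻¹ = y ^ c := by
      rw [hc, mul_inv_cancel_right]
    rw [h2, pow_succ] at h1
    have h3 : (y ^ c) ^ r' = 1 := by
      have h4 : (y ^ c) ^ r' * y ^ c = 1 * y ^ c := by rw [one_mul]; exact h1.symm
      exact mul_right_cancel h4
    have d1 := orderOf_dvd_of_pow_eq_one h3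
    have h5 : (y ^ c) ^ (p ^ (e + 1)) = 1 := by
      rw [← pow_mul, mul_comm, pow_mul, ← hy, pow_orderOf_eq_one, one_pow]
    obtain ⟨j, -, hj⟩ := (Nat.dvd_prime_pow hp.out).mp (orderOf_dvd_of_pow_eq_one h5)
    rcases Nat.eq_zero_or_pos j with h0 | hpos
    · rw [h0, pow_zero, orderOf_eq_one_iff] at hj
      exact hj
    · exfalso
      apply hpr
      rw [hj] at d1
      exact (dvd_pow_self p (by omega)).trans d1
  · have e1 : n * y * n⁻¹ * y⁻¹ = y ^ r' := by
      rw [← hr, pow_succ, mul_inv_cancel_right]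
    rw [e1]
    have hcop : Nat.Coprime r' (orderOf y) := by
      rw [hy]
      exact Nat.Coprime.pow_right _ ((Nat.Prime.coprime_iff_not_dvd hp.out).mpr hpr).symm
    obtain ⟨m, hm⟩ := exists_pow_eq_self_of_coprime hcop
    have h6 : (y ^ r') ^ m ∈ Subgroup.zpowers (y ^ r') :=
      Subgroup.pow_mem _ (Subgroup.mem_zpowers _) m
    rw [hm] at h6
    exact h6

end basic


section general

variable {K : Type*} [Group K] [Finite K] (p : ℕ) [hp : Fact p.Prime]

/-- Burnside's transfer theorem, packaged: the normal `p`-complement contains every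
element of order prime to `p` -/
theorem burn (P : Sylow p K)
    (hP : Subgroup.normalizer ((P : Subgroup K) : Set K) ≤
      Subgroup.centralizer ((P : Subgroup K) : Set K)) :
    ∃ T : Subgroup K, (Nat.card T).Coprime p ∧ ∀ g : K, (orderOf g).Coprime p → g ∈ T := by
  refine ⟨(MonoidHom.transferSylow P hP).ker, ?_, ?_⟩
  · exact ((Nat.Prime.coprime_iff_not_dvd hp.out).mpr
      (MonoidHom.not_dvd_card_ker_transferSylow P hP)).symm
  · intro g hg
    rw [MonoidHom.mem_ker]
    have h1 : orderOf (MonoidHom.transferSylow P hP g) ∣ orderOf g := orderOf_map_dvd _ g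
    obtain ⟨k, hk⟩ := P.2 (MonoidHom.transferSylow P hP g)
    have h2 : orderOf (MonoidHom.transferSylow P hP g) ∣ p ^ k := orderOf_dvd_of_pow_eq_one hk
    have h3 : orderOf (MonoidHom.transferSylow P hP g) = 1 :=
      Nat.Coprime.eq_one_of_dvd (Nat.Coprime.coprime_dvd_left h1 (Nat.Coprime.pow_right k hg)) h2
    exact orderOf_eq_one_iff.mp h3

/-- Burnside's transfer theorem inside a subgroup `M` containing the Sylow subgroup -/
theorem burn_sub (P : Sylow p K) (M : Subgroup K) (hPM : (P : Subgroup K) ≤ M)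
    (h : ∀ n ∈ M, n ∈ Subgroup.normalizer ((P : Subgroup K) : Set K) →
      ∀ a ∈ (P : Subgroup K), n * a = a * n) :
    ∃ T : Subgroup K, (Nat.card T).Coprime p ∧
      ∀ g ∈ M, (orderOf g).Coprime p → g ∈ T := by
  have hN : Subgroup.normalizer (((P.subtype hPM : Sylow p M) : Subgroup M) : Set M) ≤
      Subgroup.centralizer (((P.subtype hPM : Sylow p M) : Subgroup M) : Set M) := by
    intro m hm
    rw [Subgroup.mem_centralizer_iff]
    intro a ha
    have haP : (a : K) ∈ (P : Subgroup K) := by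
      have : a ∈ ((P.subtype hPM : Sylow p M) : Subgroup M) := ha
      rw [Sylow.coe_subtype, Subgroup.mem_subgroupOf] at this
      exact this
    have hmN : (m : K) ∈ Subgroup.normalizer ((P : Subgroup K) : Set K) := by
      rw [Subgroup.mem_normalizer_iff]
      intro x
      rw [Subgroup.mem_normalizer_iff] at hm
      constructor
      · intro hx
        have h1 := (hm ⟨x, hPM hx⟩).mp (by
          rw [Sylow.coe_subtype, Subgroup.mem_subgroupOf]; exact hx)
        rw [Sylow.coe_subtype, Subgroup.mem_subgroupOf] at h1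
        exact h1
      · intro hx
        have hxM : x ∈ M := by
          have h2 : x = (m : K)⁻¹ * ((m : K) * x * (m : K)⁻¹) * (m : K) := by group
          rw [h2]
          exact M.mul_mem (M.mul_mem (M.inv_mem m.2) (hPM hx)) m.2
        have h1 := (hm ⟨x, hxM⟩).mpr (by
          rw [Sylow.coe_subtype, Subgroup.mem_subgroupOf]; exact hx)
        rw [Sylow.coe_subtype, Subgroup.mem_subgroupOf] at h1
        exact h1
    exact Subtype.ext (h (m : K) m.2 hmN (a : K) haP).symm
  obtain ⟨T₀, hT₀c, hT₀⟩ := burn p (P.subtype hPM) hN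
  refine ⟨T₀.map M.subtype, ?_, ?_⟩
  · rw [Subgroup.card_map_of_injective M.subtype_injective]
    exact hT₀c
  · intro g hg hgo
    refine ⟨⟨g, hg⟩, hT₀ _ ?_, rfl⟩
    rw [← Subgroup.orderOf_coe]
    exact hgo

theorem mem_sylow_of_normalizer (P : Sylow p K) (x : K)
    (hx : x ∈ Subgroup.normalizer ((P : Subgroup K) : Set K))
    (k : ℕ) (hxk : x ^ (p ^ k) = 1) : x ∈ (P : Subgroup K) := by
  have h1 : IsPGroup p (Subgroup.zpowers x) := by
    intro g
    obtain ⟨i, hi⟩ := Subgroup.mem_zpowers_iff.mp g.2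
    refine ⟨k, Subtype.ext ?_⟩
    rw [Subgroup.coe_pow, Subgroup.coe_one, ← hi, ← zpow_natCast, ← zpow_mul, mul_comm, zpow_mul,
      zpow_natCast, hxk, one_zpow]
  have h2 : Subgroup.zpowers x ≤ Subgroup.normalizer ((P : Subgroup K) : Set K) := by
    rw [Subgroup.zpowers_le]; exact hx
  have h3 : IsPGroup p (Subgroup.zpowers x ⊔ (P : Subgroup K) : Subgroup K) :=
    IsPGroup.to_sup_of_normal_right' h1 P.2 h2
  have h4 := P.is_maximal' h3 le_sup_right
  have h5 : x ∈ Subgroup.zpowers x ⊔ (P : Subgroup K) :=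
    (le_sup_left : Subgroup.zpowers x ≤ _) (Subgroup.mem_zpowers x)
  rw [h4] at h5
  exact h5

end general

/-- Let K be a finite group, p a prime dividing its order with O_{p'}(K) = 1 (no nontrivial normal subgroup of order prime to p), and P a cyclic Sylow p-subgroup of K. Then either P is normal and self-centralizing in K with K/P cyclic of order dividing p − 1 (so K is the semidirect product of P by a group of automorphisms of P of order dividing p − 1), or the generalized Fitting subgroup F*(K) is a non-abelian simple group and p does not divide the index of F*(K) in K. -/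
theorem result {K : Type*} [Group K] [Finite K] (p : ℕ) [Fact p.Prime] (hp : p ∣ Nat.card K) (hO : Cfsg.pPrimeCore p K = ⊥)
    (P : Sylow p K) (hP : IsCyclic ↥(P : Subgroup K)) :
    ((P : Subgroup K).Normal ∧ Subgroup.centralizer ((P : Subgroup K) : Set K) = (P : Subgroup K) ∧
      (∀ (_ : (P : Subgroup K).Normal), IsCyclic (K ⧸ (P : Subgroup K))) ∧ (P : Subgroup K).index ∣ p - 1) ∨
    (IsSimpleGroup ↥(Cfsg.generalizedFittingSubgroup K) ∧ ¬ IsMulCommutative ↥(Cfsg.generalizedFittingSubgroup K) ∧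
      ¬ p ∣ (Cfsg.generalizedFittingSubgroup K).index) := by
  classical
  have hpp : p.Prime := Fact.out
  obtain ⟨y0, hy0⟩ := hP.exists_generator
  obtain ⟨y, hyy⟩ : ∃ y : K, y = (y0 : K) := ⟨_, rfl⟩
  have hyP : y ∈ (P : Subgroup K) := hyy ▸ y0.2
  have hgen : ∀ x ∈ (P : Subgroup K), ∃ c : ℕ, y ^ c = x := by
    intro x hx
    have h1 := hy0 ⟨x, hx⟩
    have h2 : (⟨x, hx⟩ : ↥(P : Subgroup K)) ∈ Submonoid.powers y0 :=
      (isOfFinOrder_of_finite y0).mem_powers_iff_mem_zpowers.mpr h1
    obtain ⟨c, hc⟩ := h2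
    refine ⟨c, ?_⟩
    have := congrArg Subtype.val hc
    simpa [hyy] using this
  have hPc : ∀ a ∈ (P : Subgroup K), ∀ b ∈ (P : Subgroup K), a * b = b * a := by
    intro a ha b hb
    obtain ⟨i, rfl⟩ := hgen a ha
    obtain ⟨j, rfl⟩ := hgen b hb
    rw [← pow_add, ← pow_add, add_comm]
  have hcardP : Nat.card (P : Subgroup K) = orderOf y := by
    rw [hyy, Subgroup.orderOf_coe]
    exact (orderOf_eq_card_of_forall_mem_zpowers hy0).symm
  obtain ⟨e', he'⟩ : ∃ e', Nat.card (P : Subgroup K) = p ^ e' := IsPGroup.iff_card.mp P.2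
  have he'0 : e' ≠ 0 := by
    intro h0
    rw [h0, pow_zero] at he'
    have := P.dvd_card_of_dvd_card hp
    rw [he'] at this
    exact hpp.one_lt.ne' (Nat.dvd_one.mp this)
  obtain ⟨e, rfl⟩ : ∃ e, e' = e + 1 := ⟨e' - 1, by omega⟩
  have hy : orderOf y = p ^ (e + 1) := by rw [← hcardP, he']
  have hnorm : ∀ x ∈ Subgroup.normalizer ((P : Subgroup K) : Set K), ∀ a ∈ (P : Subgroup K),
      x * a * x⁻¹ ∈ (P : Subgroup K) :=
    fun x hx a ha => (Subgroup.mem_normalizer_iff.mp hx a).mp ha
  -- the Fitting subgroup is a `p`-group inside `P`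
  have hFn : (Cfsg.fittingSubgroup K).Normal := Cfsg.Agent.Lib.Helper24.fitting_normal'
  have hFnil : Group.IsNilpotent (Cfsg.fittingSubgroup K) :=
    Cfsg.Agent.Lib.Helper24.fitting_nilpotent
  have hFp : IsPGroup p (Cfsg.fittingSubgroup K) := by
    have hcard : ∀ q : ℕ, q.Prime → q ∣ Nat.card (Cfsg.fittingSubgroup K) → q = p := by
      intro q hq hqd
      by_contra hne
      haveI : Fact q.Prime := ⟨hq⟩
      obtain ⟨Q, hQn, hQF, hQq, hQi⟩ :=
        Cfsg.Agent.Lib.Helper24.exists_normal_sylow_of_nilpotent (Cfsg.fittingSubgroup K) hFnil q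
      have hQc : (Nat.card Q).Coprime p := by
        obtain ⟨k, hk⟩ := IsPGroup.iff_card.mp hQq
        rw [hk]
        exact Nat.Coprime.pow_left _ ((Nat.coprime_primes hq hpp).mpr hne)
      have hQbot : Q = ⊥ := by
        have := Cfsg.Agent.Lib.Helper1.le_pPrimeCore p hQn hQc
        rw [hO] at this
        exact le_bot_iff.mp this
      apply hQi
      rw [hQbot, Subgroup.relIndex_bot_left]
      exact hqd
    exact IsPGroup.of_card
      (Nat.eq_prime_pow_of_unique_prime_dvd Nat.card_pos.ne' (fun {q} hq hqd => hcard q hq hqd))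
  have hFP : Cfsg.fittingSubgroup K ≤ (P : Subgroup K) :=
    Cfsg.Agent.Lib.Helper1.normal_pgroup_le_sylow hFn hFp P
  by_cases hE : Cfsg.layer K = ⊥
  · left
    have hgF : Cfsg.generalizedFittingSubgroup K = Cfsg.fittingSubgroup K := by
      unfold Cfsg.generalizedFittingSubgroup; rw [hE, bot_sup_eq]
    have hcen := Cfsg.Agent.Lib.Helper11.centralizer_genFitting_le (G := K)
    rw [hgF] at hcen
    have hPF : (P : Subgroup K) ≤ Cfsg.fittingSubgroup K := by
      intro x hx
      apply hcen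
      rw [Subgroup.mem_centralizer_iff]
      intro f hf
      exact hPc f (hFP hf) x hx
    have hPeq : (P : Subgroup K) = Cfsg.fittingSubgroup K := le_antisymm hPF hFP
    have hPn : (P : Subgroup K).Normal := hPeq ▸ hFn
    have hCP : Subgroup.centralizer ((P : Subgroup K) : Set K) = (P : Subgroup K) := by
      apply le_antisymm
      · rw [hPeq]; exact hcen
      · intro x hx
        rw [Subgroup.mem_centralizer_iff]
        intro a ha
        exact hPc a ha x hx
    obtain ⟨ω, hω⟩ : ∃ ω, ω = y ^ (p ^ e) := ⟨_, rfl⟩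
    have hωo : orderOf ω = p := hω ▸ cyc_omega_order p y e hy
    have hωP : ω ∈ (P : Subgroup K) := hω ▸ Subgroup.pow_mem _ hyP _
    have hΩ : ∀ u ∈ (P : Subgroup K), u ^ p = 1 → u ∈ Subgroup.zpowers ω := by
      intro u hu hup
      obtain ⟨c, rfl⟩ := hgen u hu
      obtain ⟨c', hc'⟩ := cyc_omega p y e hy c hup
      rw [hc', ← hω]
      exact Subgroup.pow_mem _ (Subgroup.mem_zpowers ω) c'
    have hΩP : Subgroup.zpowers ω ≤ (P : Subgroup K) := by
      rw [Subgroup.zpowers_le]; exact hωP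
    have hΩn : (Subgroup.zpowers ω).Normal := by
      constructor
      intro x hx g
      apply hΩ
      · exact hPn.conj_mem x (hΩP hx) g
      · rw [conj_pow]
        obtain ⟨i, rfl⟩ := Subgroup.mem_zpowers_iff.mp hx
        have : (ω ^ i) ^ p = 1 := by
          rw [← zpow_natCast, ← zpow_mul, mul_comm, zpow_mul, zpow_natCast, ← hωo,
            pow_orderOf_eq_one, one_zpow]
        rw [this]; group
    have hker : (MulAut.conjNormal (H := Subgroup.zpowers ω)).ker = (P : Subgroup K) := by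
      ext x
      rw [MonoidHom.mem_ker]
      constructor
      · intro hx
        have hxω : x * ω = ω * x := by
          have h1 := congrArg (fun f : MulAut (Subgroup.zpowers ω) =>
            ((f ⟨ω, Subgroup.mem_zpowers ω⟩ : Subgroup.zpowers ω) : K)) hx
          simp only [MulAut.conjNormal_apply, MulAut.one_apply] at h1
          calc x * ω = x * ω * x⁻¹ * x := by group
            _ = ω * x := by rw [h1]
        obtain ⟨j, m', hm', hjm⟩ :=
          Nat.exists_eq_pow_mul_and_not_dvd (orderOf_pos x).ne' p hpp.ne_one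
        have hcop : Nat.Coprime m' (p ^ j) :=
          (Nat.Coprime.pow_left _ ((Nat.Prime.coprime_iff_not_dvd hpp).mpr hm')).symm
        have hall : ∀ g : K, g ∈ Subgroup.normalizer ((P : Subgroup K) : Set K) := by
          intro g
          rw [Subgroup.normalizer_eq_top]
          exact Subgroup.mem_top g
        apply mem_of_coprime_pows _ x m' (p ^ j) hcop
        · exact mem_sylow_of_normalizer p P _ (hall _) j
            (by rw [← pow_mul, mul_comm, ← hjm, pow_orderOf_eq_one])
        · rw [← hCP, Subgroup.mem_centralizer_iff]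
          intro a ha
          symm
          have ho : (orderOf (x ^ (p ^ j))).Coprime p := by
            have : (x ^ (p ^ j)) ^ m' = 1 := by rw [← pow_mul, ← hjm, pow_orderOf_eq_one]
            exact Nat.Coprime.coprime_dvd_left (orderOf_dvd_of_pow_eq_one this)
              ((Nat.Prime.coprime_iff_not_dvd hpp).mpr hm').symm
          refine coprime_fix p (P : Subgroup K) P.2 hPc (x ^ (p ^ j)) (hnorm _ (hall _)) ho ?_ a ha
          intro u hu hup
          obtain ⟨i, rfl⟩ := Subgroup.mem_zpowers_iff.mp (hΩ u hu hup)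
          exact ((show Commute x ω from hxω).pow_left (p ^ j)).zpow_right i
      · intro hx
        ext ⟨w, hw⟩
        simp only [MulAut.conjNormal_apply, MulAut.one_apply]
        rw [hPc x hx w (hΩP hw), mul_inv_cancel_right]
    haveI : IsCyclic (Subgroup.zpowers ω) := inferInstance
    have hcardΩ : Nat.card (Subgroup.zpowers ω) = p := by rw [Nat.card_zpowers, hωo]
    haveI hcycAut : IsCyclic (MulAut (Subgroup.zpowers ω)) := by
      have h1 : IsCyclic (ZMod (Nat.card (Subgroup.zpowers ω)))ˣ := by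
        rw [hcardΩ]; exact ZMod.isCyclic_units_prime hpp
      exact isCyclic_of_surjective (IsCyclic.mulAutMulEquiv (Subgroup.zpowers ω)).symm
        (IsCyclic.mulAutMulEquiv (Subgroup.zpowers ω)).symm.surjective
    refine ⟨hPn, hCP, ?_, ?_⟩
    · intro hPn'
      have h1 : IsCyclic (K ⧸ (MulAut.conjNormal (H := Subgroup.zpowers ω)).ker) :=
        isCyclic_of_surjective
          (QuotientGroup.quotientKerEquivRange (MulAut.conjNormal (H := Subgroup.zpowers ω))).symm
          (QuotientGroup.quotientKerEquivRange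
            (MulAut.conjNormal (H := Subgroup.zpowers ω))).symm.surjective
      exact isCyclic_of_surjective (QuotientGroup.quotientMulEquivOfEq hker)
        (QuotientGroup.quotientMulEquivOfEq hker).surjective
    · rw [← hker, Subgroup.index_ker]
      have h1 := Subgroup.card_subgroup_dvd_card
        (MulAut.conjNormal (H := Subgroup.zpowers ω)).range
      rw [IsCyclic.card_mulAut, hcardΩ, Nat.totient_prime hpp] at h1
      exact h1
  · right
    have hEn : (Cfsg.layer K).Normal := Cfsg.Agent.Lib.Helper11.layer_normal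
    have hEperf : ⁅Cfsg.layer K, Cfsg.layer K⁆ = Cfsg.layer K :=
      Cfsg.Agent.Lib.Helper11.layer_perfect
    obtain ⟨M, hM⟩ : ∃ M, M = Cfsg.layer K ⊔ (P : Subgroup K) := ⟨_, rfl⟩
    have hEM : Cfsg.layer K ≤ M := hM ▸ le_sup_left
    have hPM : (P : Subgroup K) ≤ M := hM ▸ le_sup_right
    have hB1 : ∃ n ∈ M, n ∈ Subgroup.normalizer ((P : Subgroup K) : Set K) ∧
        ¬ ∀ a ∈ (P : Subgroup K), n * a = a * n := by
      by_contra hcon
      have hcon' : ∀ n ∈ M, n ∈ Subgroup.normalizer ((P : Subgroup K) : Set K) →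
          ∀ a ∈ (P : Subgroup K), n * a = a * n := by
        intro n hn hnn
        by_contra h
        exact hcon ⟨n, hn, hnn, h⟩
      obtain ⟨T, hTc, hT⟩ := burn_sub p P M hPM hcon'
      have hXn : (T ⊓ Cfsg.layer K).Normal := by
        constructor
        intro x hx g
        have hxE : g * x * g⁻¹ ∈ Cfsg.layer K := hEn.conj_mem x hx.2 g
        refine ⟨hT _ (hEM hxE) ?_, hxE⟩
        have h1 : orderOf (g * x * g⁻¹) = orderOf x :=
          (SemiconjBy.orderOf_eq g (show SemiconjBy g x (g * x * g⁻¹) by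
            simp [SemiconjBy])).symm
        rw [h1]
        have h2 : orderOf x ∣ Nat.card T := by
          have := orderOf_dvd_natCard (⟨x, hx.1⟩ : T)
          rwa [← Subgroup.orderOf_coe] at this
        exact Nat.Coprime.coprime_dvd_left h2 hTc
      have hXc : (Nat.card (T ⊓ Cfsg.layer K : Subgroup K)).Coprime p :=
        Nat.Coprime.coprime_dvd_left (Subgroup.card_dvd_of_le inf_le_left) hTc
      have hXbot : T ⊓ Cfsg.layer K = ⊥ := by
        have := Cfsg.Agent.Lib.Helper1.le_pPrimeCore p hXn hXc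
        rw [hO] at this
        exact le_bot_iff.mp this
      have hEp : IsPGroup p (Cfsg.layer K) := by
        intro g
        obtain ⟨j, m', hm', hjm⟩ :=
          Nat.exists_eq_pow_mul_and_not_dvd (orderOf_pos (g : K)).ne' p hpp.ne_one
        refine ⟨j, Subtype.ext ?_⟩
        have h1 : (g : K) ^ (p ^ j) ∈ T ⊓ Cfsg.layer K := by
          refine ⟨hT _ (hEM (Subgroup.pow_mem _ g.2 _)) ?_, Subgroup.pow_mem _ g.2 _⟩
          have : ((g : K) ^ (p ^ j)) ^ m' = 1 := by rw [← pow_mul, ← hjm, pow_orderOf_eq_one]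
          exact Nat.Coprime.coprime_dvd_left (orderOf_dvd_of_pow_eq_one this)
            ((Nat.Prime.coprime_iff_not_dvd hpp).mpr hm').symm
        rw [hXbot, Subgroup.mem_bot] at h1
        simpa using h1
      haveI : Group.IsNilpotent (Cfsg.layer K) := hEp.isNilpotent
      haveI : Group.IsSolvable (Cfsg.layer K) := inferInstance
      have := Cfsg.Agent.Lib.Helper1.commutator_lt_of_solvable hE
      rw [hEperf] at this
      exact lt_irrefl _ this
    obtain ⟨n, hnM, hnN, hnC⟩ := hB1
    obtain ⟨j, m', hm', hjm⟩ :=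
      Nat.exists_eq_pow_mul_and_not_dvd (orderOf_pos n).ne' p hpp.ne_one
    have hcop : Nat.Coprime m' (p ^ j) :=
      (Nat.Coprime.pow_left _ ((Nat.Prime.coprime_iff_not_dvd hpp).mpr hm')).symm
    have hn1P : n ^ m' ∈ (P : Subgroup K) :=
      mem_sylow_of_normalizer p P _ (Subgroup.pow_mem _ hnN _) j
        (by rw [← pow_mul, mul_comm, ← hjm, pow_orderOf_eq_one])
    obtain ⟨n₂, hn₂⟩ : ∃ n₂, n₂ = n ^ (p ^ j) := ⟨_, rfl⟩
    have hn₂M : n₂ ∈ M := hn₂ ▸ Subgroup.pow_mem _ hnM _
    have hn₂N : n₂ ∈ Subgroup.normalizer ((P : Subgroup K) : Set K) :=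
      hn₂ ▸ Subgroup.pow_mem _ hnN _
    have hn₂o : (orderOf n₂).Coprime p := by
      have : n₂ ^ m' = 1 := by rw [hn₂, ← pow_mul, ← hjm, pow_orderOf_eq_one]
      exact Nat.Coprime.coprime_dvd_left (orderOf_dvd_of_pow_eq_one this)
        ((Nat.Prime.coprime_iff_not_dvd hpp).mpr hm').symm
    have hn₂C : ¬ ∀ a ∈ (P : Subgroup K), n₂ * a = a * n₂ := by
      intro hall
      apply hnC
      have h1 : n ∈ Subgroup.centralizer ((P : Subgroup K) : Set K) := by
        apply mem_of_coprime_pows _ n m' (p ^ j) hcop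
        · rw [Subgroup.mem_centralizer_iff]; intro a ha; exact hPc a ha _ hn1P
        · rw [Subgroup.mem_centralizer_iff]; intro a ha; rw [← hn₂]; exact (hall a ha).symm
      intro a ha
      exact ((Subgroup.mem_centralizer_iff.mp h1) a ha).symm
    have hu : ∃ u ∈ (P : Subgroup K), u ^ p = 1 ∧ n₂ * u ≠ u * n₂ := by
      by_contra hcon
      apply hn₂C
      apply coprime_fix p (P : Subgroup K) P.2 hPc n₂ (hnorm n₂ hn₂N) hn₂o
      intro u hu hup
      by_contra h
      exact hcon ⟨u, hu, hup, h⟩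
    obtain ⟨u, huP, hup, hnu⟩ := hu
    obtain ⟨c₀, rfl⟩ := hgen u huP
    have hny : n₂ * y * n₂⁻¹ ∈ Subgroup.zpowers y := by
      obtain ⟨c, hc⟩ := hgen _ (hnorm n₂ hn₂N y hyP)
      rw [← hc]; exact Subgroup.pow_mem _ (Subgroup.mem_zpowers y) c
    obtain ⟨hfpf, hyz⟩ := cyc_fpf p y e hy n₂ hny c₀ hup hnu
    obtain ⟨e₀, he₀, u₀, hu₀, he₀u₀⟩ :
        ∃ e₀ ∈ Cfsg.layer K, ∃ u₀ ∈ (P : Subgroup K), e₀ * u₀ = n₂ := by
      have := hn₂M
      rw [hM] at this
      exact (Subgroup.mem_sup_of_normal_left).mp this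
    have hcomm : n₂ * y * n₂⁻¹ * y⁻¹ ∈ Cfsg.layer K := by
      have h1 : n₂ * y * n₂⁻¹ * y⁻¹ = e₀ * (y * e₀⁻¹ * y⁻¹) := by
        rw [← he₀u₀]
        have : u₀ * y = y * u₀ := hPc u₀ hu₀ y hyP
        calc e₀ * u₀ * y * (e₀ * u₀)⁻¹ * y⁻¹ = e₀ * (u₀ * y) * u₀⁻¹ * e₀⁻¹ * y⁻¹ := by group
          _ = e₀ * (y * u₀) * u₀⁻¹ * e₀⁻¹ * y⁻¹ := by rw [this]
          _ = e₀ * (y * e₀⁻¹ * y⁻¹) := by group
      rw [h1]
      exact Subgroup.mul_mem _ he₀ (hEn.conj_mem _ (Subgroup.inv_mem _ he₀) y)
    have hyE : y ∈ Cfsg.layer K := by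
      have : Subgroup.zpowers (n₂ * y * n₂⁻¹ * y⁻¹) ≤ Cfsg.layer K := by
        rw [Subgroup.zpowers_le]; exact hcomm
      exact this hyz
    have hPE : (P : Subgroup K) ≤ Cfsg.layer K := by
      intro x hx
      obtain ⟨c, rfl⟩ := hgen x hx
      exact Subgroup.pow_mem _ hyE c
    have hFbot : Cfsg.fittingSubgroup K = ⊥ := by
      rw [eq_bot_iff]
      intro x hx
      obtain ⟨c, hc⟩ := hgen x (hFP hx)
      rw [Subgroup.mem_bot, ← hc]
      apply hfpf
      rw [hc, ← he₀u₀]
      have h1 : e₀ * x = x * e₀ := by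
        have := Cfsg.Agent.Lib.Helper11.layer_comm_fitting (G := K)
        rw [Subgroup.commutator_eq_bot_iff_le_centralizer] at this
        exact ((Subgroup.mem_centralizer_iff.mp (this he₀)) x hx).symm
      have h2 : u₀ * x = x * u₀ := hPc u₀ hu₀ x (hFP hx)
      rw [mul_assoc, h2, ← mul_assoc, h1, mul_assoc]
    have hgE : Cfsg.generalizedFittingSubgroup K = Cfsg.layer K := by
      unfold Cfsg.generalizedFittingSubgroup; rw [hFbot, sup_bot_eq]
    have hZ : Cfsg.layer K ⊓ Subgroup.centralizer (Cfsg.layer K : Set K) = ⊥ := by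
      have := Cfsg.Agent.Lib.Helper11.layer_inf_centralizer_le_fitting (G := K)
      rw [hFbot] at this
      exact le_bot_iff.mp this
    have hcompP : ∀ L : Subgroup K, Cfsg.IsComponent L → ∃ v ∈ L, orderOf v = p := by
      intro L hL
      have hdiv : p ∣ Nat.card L := by
        by_contra hnd
        have h1 := Cfsg.Agent.Lib.Helper10.subnormal_coprime_le_pPrimeCore p hL.1
          ((Nat.Prime.coprime_iff_not_dvd hpp).mpr hnd).symm
        rw [hO] at h1
        have h2 : L = ⊥ := le_bot_iff.mp h1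
        haveI := Cfsg.Agent.Lib.Helper11.qs_nontrivial hL.2
        exact (Subgroup.nontrivial_iff_ne_bot L).mp this h2
      obtain ⟨v, hv⟩ := exists_prime_orderOf_dvd_card' p hdiv
      exact ⟨v, v.2, by rw [Subgroup.orderOf_coe]; exact hv⟩
    have htwo : ∀ v w : K, orderOf v = p → orderOf w = p → v * w = w * v →
        w ∈ Subgroup.zpowers v := by
      intro v w hv hw hvw
      have h1 : IsPGroup p (Subgroup.zpowers v) :=
        IsPGroup.of_card (n := 1) (by rw [Nat.card_zpowers, hv, pow_one])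
      have h2 : IsPGroup p (Subgroup.zpowers w) :=
        IsPGroup.of_card (n := 1) (by rw [Nat.card_zpowers, hw, pow_one])
      have h3 : Subgroup.zpowers v ≤
          Subgroup.normalizer ((Subgroup.zpowers w : Subgroup K) : Set K) := by
        rw [Subgroup.zpowers_le]
        apply Subgroup.centralizer_le_normalizer
        rw [Subgroup.mem_centralizer_iff]
        intro h hh
        obtain ⟨i, rfl⟩ := Subgroup.mem_zpowers_iff.mp hh
        exact ((show Commute v w from hvw).zpow_right i).eq.symm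
      have h4 := IsPGroup.to_sup_of_normal_right' h1 h2 h3
      obtain ⟨Q, hQ⟩ := h4.exists_le_sylow
      obtain ⟨g, rfl⟩ := MulAction.exists_smul_eq K Q P
      have hvQ : g * v * g⁻¹ ∈ ((g • Q : Sylow p K) : Subgroup K) := by
        have h5 : MulAut.conj g • v ∈ MulAut.conj g • (Q : Subgroup K) :=
          Subgroup.smul_mem_pointwise_smul _ _ _ (hQ ((le_sup_left : Subgroup.zpowers v ≤ _) (Subgroup.mem_zpowers v)))
        exact h5
      have hwQ : g * w * g⁻¹ ∈ ((g • Q : Sylow p K) : Subgroup K) := by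
        have h5 : MulAut.conj g • w ∈ MulAut.conj g • (Q : Subgroup K) :=
          Subgroup.smul_mem_pointwise_smul _ _ _ (hQ ((le_sup_right : Subgroup.zpowers w ≤ _) (Subgroup.mem_zpowers w)))
        exact h5
      obtain ⟨a, ha⟩ := hgen _ hvQ
      obtain ⟨b, hb⟩ := hgen _ hwQ
      have hvp : (y ^ a) ^ p = 1 := by
        rw [ha, conj_pow, ← hv, pow_orderOf_eq_one]; group
      have hwp : (y ^ b) ^ p = 1 := by
        rw [hb, conj_pow, ← hw, pow_orderOf_eq_one]; group
      obtain ⟨a', ha'⟩ := cyc_omega p y e hy a hvp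
      obtain ⟨b', hb'⟩ := cyc_omega p y e hy b hwp
      have hωo : orderOf (y ^ (p ^ e)) = p := cyc_omega_order p y e hy
      have hpa : ¬ p ∣ a' := by
        intro hd
        have h6 : (y ^ (p ^ e)) ^ a' = 1 := by
          rw [← hωo] at hd
          exact orderOf_dvd_iff_pow_eq_one.mp hd
        rw [← ha', ha] at h6
        have h7 : v = 1 := by
          have h8 : v = g⁻¹ * (g * v * g⁻¹) * g := by group
          rw [h8, h6]; group
        rw [h7, orderOf_one] at hv
        exact hpp.one_lt.ne hv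
      have hcop' : Nat.Coprime a' (orderOf (y ^ (p ^ e))) := by
        rw [hωo]; exact ((Nat.Prime.coprime_iff_not_dvd hpp).mpr hpa).symm
      obtain ⟨m, hm⟩ := exists_pow_eq_self_of_coprime hcop'
      have h9 : g * w * g⁻¹ = (g * v * g⁻¹) ^ (m * b') := by
        rw [← hb, hb', ← ha, ha', pow_mul, hm]
      have h10 : w = v ^ (m * b') := by
        have h11 : w = g⁻¹ * (g * w * g⁻¹) * g := by group
        rw [h11, h9, conj_pow]; group
      rw [h10]
      exact Subgroup.pow_mem _ (Subgroup.mem_zpowers v) _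
    have huniq : ∀ L₁ L₂ : Subgroup K, Cfsg.IsComponent L₁ → Cfsg.IsComponent L₂ → L₁ = L₂ := by
      intro L₁ L₂ h₁ h₂
      by_contra hne
      obtain ⟨v₁, hv₁L, hv₁⟩ := hcompP L₁ h₁
      obtain ⟨v₂, hv₂L, hv₂⟩ := hcompP L₂ h₂
      have hc12 := Cfsg.Agent.Lib.Helper11.components_comm h₁ h₂ hne
      rw [Subgroup.commutator_eq_bot_iff_le_centralizer] at hc12
      have hcomm' : ∀ a ∈ L₁, ∀ b ∈ L₂, a * b = b * a :=
        fun a ha b hb => ((Subgroup.mem_centralizer_iff.mp (hc12 ha)) b hb).symm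
      have hv₂z := htwo v₁ v₂ hv₁ hv₂ (hcomm' v₁ hv₁L v₂ hv₂L)
      have hv₂L₁ : v₂ ∈ L₁ := by
        have : Subgroup.zpowers v₁ ≤ L₁ := by rw [Subgroup.zpowers_le]; exact hv₁L
        exact this hv₂z
      have hv₂c : v₂ ∈ Subgroup.centralizer (Cfsg.layer K : Set K) := by
        have hle : Cfsg.layer K ≤ Subgroup.centralizer ({v₂} : Set K) := by
          apply sSup_le
          intro L hL x hx
          rw [Subgroup.mem_centralizer_singleton_iff]
          by_cases hLL : L = L₂
          · subst hLL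
            exact (hcomm' v₂ hv₂L₁ x hx).symm
          · have hc := Cfsg.Agent.Lib.Helper11.components_comm hL h₂ hLL
            rw [Subgroup.commutator_eq_bot_iff_le_centralizer] at hc
            exact ((Subgroup.mem_centralizer_iff.mp (hc hx)) v₂ hv₂L).symm
        rw [Subgroup.mem_centralizer_iff]
        intro x hx
        exact Subgroup.mem_centralizer_singleton_iff.mp (hle hx)
      have h12 : v₂ ∈ Cfsg.layer K ⊓ Subgroup.centralizer (Cfsg.layer K : Set K) :=
        ⟨Cfsg.Agent.Lib.Helper11.component_le_layer h₂ hv₂L, hv₂c⟩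
      rw [hZ, Subgroup.mem_bot] at h12
      rw [h12, orderOf_one] at hv₂
      exact hpp.one_lt.ne hv₂
    obtain ⟨L, hL⟩ : ∃ L : Subgroup K, Cfsg.IsComponent L := by
      by_contra hnone
      apply hE
      unfold Cfsg.layer
      rw [eq_bot_iff]
      apply sSup_le
      intro L hL
      exact absurd ⟨L, hL⟩ hnone
    have hEL : Cfsg.layer K = L := by
      apply le_antisymm
      · apply sSup_le
        intro L' hL'
        rw [huniq L' L hL' hL]
      · exact Cfsg.Agent.Lib.Helper11.component_le_layer hL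
    have hqs : Cfsg.IsQuasisimple ↥(Cfsg.layer K) := by rw [hEL]; exact hL.2
    have hcenter : Subgroup.center ↥(Cfsg.layer K) = ⊥ := by
      rw [eq_bot_iff]
      intro z hz
      rw [Subgroup.mem_bot]
      have h13 : (z : K) ∈ Cfsg.layer K ⊓ Subgroup.centralizer (Cfsg.layer K : Set K) := by
        refine Subgroup.mem_inf.mpr ⟨z.2, ?_⟩
        rw [Subgroup.mem_centralizer_iff]
        intro x hx
        have := Subgroup.mem_center_iff.mp hz ⟨x, hx⟩
        exact congrArg Subtype.val this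
      rw [hZ, Subgroup.mem_bot] at h13
      exact Subtype.ext h13
    haveI hnt : Nontrivial ↥(Cfsg.layer K) := (Subgroup.nontrivial_iff_ne_bot _).mpr hE
    have hsimple : IsSimpleGroup ↥(Cfsg.layer K) := by
      haveI h1 := hqs.2
      exact IsSimpleGroup.isSimpleGroup_of_surjective
        ((QuotientGroup.quotientMulEquivOfEq hcenter).trans QuotientGroup.quotientBot).toMonoidHom
        ((QuotientGroup.quotientMulEquivOfEq hcenter).trans QuotientGroup.quotientBot).surjective
    rw [hgE]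
    refine ⟨hsimple, ?_, ?_⟩
    · intro hcm
      exact Cfsg.Agent.Lib.Helper11.qs_not_solvable hqs
        (Group.isSolvable_of_comm (fun a b => hcm.is_comm.comm a b))
    · intro hdiv
      have h14 : (Cfsg.layer K).index ∣ (P : Subgroup K).index := Subgroup.index_dvd_of_le hPE
      exact P.not_dvd_index (hdiv.trans h14)

end Cfsg.Agent.S4403
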