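import Mathlib
import Cfsg.Statements.S4405
import Cfsg.Agent.Lib.Helper2.ExtraIso

set_option autoImplicit false
open Cfsg

namespace Cfsg.Agent.S4405

/-- abstract setting: `H` normal of order 32 in `G` of order 320, with a central involution `z`
of `G`; commutators and squares of `H` lie in `{1,z}`; `H` is the 2-core and the Fitting subgroup -/
structure St {G : Type*} [Group G] (H : Subgroup G) (z : G) : Prop where
  hn : ∀ g : G, ∀ h ∈ H, g * h * g⁻¹ ∈ H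
  zH : z ∈ H
  z1 : z ≠ 1
  z2 : z * z = 1
  zc : ∀ g : G, g * z = z * g
  comm : ∀ a ∈ H, ∀ b ∈ H, a * b * a⁻¹ * b⁻¹ = 1 ∨ a * b * a⁻¹ * b⁻¹ = z
  cent : ∀ a ∈ H, (∀ b ∈ H, a * b = b * a) → a = 1 ∨ a = z
  sq : ∀ a ∈ H, a * a = 1 ∨ a * a = z
  cG : Nat.card G = 320
  cH : Nat.card H = 32
  fit : ∀ N : Subgroup G, N.Normal → Group.IsNilpotent N → N ≤ H
  core : ∀ N : Subgroup G, N.Normal → IsPGroup 2 N → N ≤ H

/-- membership in `{1, z}` -/
def InZ {G : Type*} [Group G] (z x : G) : Prop := x = 1 ∨ x = z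

section
variable {G : Type*} [Group G] {H : Subgroup G} {z : G}

theorem inz_mul (s : St H z) {x y : G} (hx : InZ z x) (hy : InZ z y) : InZ z (x * y) := by
  rcases hx with rfl | rfl <;> rcases hy with rfl | rfl
  · left; simp
  · right; simp
  · right; simp
  · left; exact s.z2

theorem inz_inv (s : St H z) {x : G} (hx : InZ z x) : InZ z x⁻¹ := by
  rcases hx with rfl | rfl
  · left; simp
  · right; exact inv_eq_of_mul_eq_one_left s.z2

theorem inz_comm (s : St H z) {x : G} (hx : InZ z x) (g : G) : g * x = x * g := by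
  rcases hx with rfl | rfl
  · simp
  · exact s.zc g

theorem inz_conj (s : St H z) {x : G} (hx : InZ z x) (g : G) : g * x * g⁻¹ = x := by
  rw [inz_comm s hx g]; simp

theorem inz_mem (s : St H z) {x : G} (hx : InZ z x) : x ∈ H := by
  rcases hx with rfl | rfl
  · exact H.one_mem
  · exact s.zH

theorem inz_cmul (s : St H z) {a b h : G} (ha : InZ z (a * h * a⁻¹ * h⁻¹))
    (hb : InZ z (b * h * b⁻¹ * h⁻¹)) : InZ z ((a * b) * h * (a * b)⁻¹ * h⁻¹) := by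
  have e : (a * b) * h * (a * b)⁻¹ * h⁻¹
      = (a * (b * h * b⁻¹ * h⁻¹) * a⁻¹) * (a * h * a⁻¹ * h⁻¹) := by group
  rw [e, inz_conj s hb a]
  exact inz_mul s hb ha

theorem inz_cinv (s : St H z) {a h : G} (ha : InZ z (a * h * a⁻¹ * h⁻¹)) :
    InZ z (a⁻¹ * h * a⁻¹⁻¹ * h⁻¹) := by
  have e : a⁻¹ * h * a⁻¹⁻¹ * h⁻¹ = a⁻¹ * (a * h * a⁻¹ * h⁻¹)⁻¹ * a⁻¹⁻¹ := by group
  rw [e, inz_conj s (inz_inv s ha) a⁻¹]
  exact inz_inv s ha

theorem inz_cpow (s : St H z) {a h : G} (ha : InZ z (a * h * a⁻¹ * h⁻¹)) (n : ℕ) :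
    InZ z (a ^ n * h * (a ^ n)⁻¹ * h⁻¹) := by
  induction n with
  | zero => left; simp
  | succ n ih => rw [pow_succ]; exact inz_cmul s ih ha

theorem inz_cmul' (s : St H z) {t a b : G} (ha : InZ z (t * a * t⁻¹ * a⁻¹))
    (hb : InZ z (t * b * t⁻¹ * b⁻¹)) : InZ z (t * (a * b) * t⁻¹ * (a * b)⁻¹) := by
  have e : t * (a * b) * t⁻¹ * (a * b)⁻¹
      = (t * a * t⁻¹ * a⁻¹) * (a * (t * b * t⁻¹ * b⁻¹) * a⁻¹) := by group
  rw [e, inz_conj s hb a]
  exact inz_mul s ha hb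

theorem inz_cinv' (s : St H z) {t a : G} (ha : InZ z (t * a * t⁻¹ * a⁻¹)) :
    InZ z (t * a⁻¹ * t⁻¹ * a⁻¹⁻¹) := by
  have e : t * a⁻¹ * t⁻¹ * a⁻¹⁻¹ = a⁻¹ * (t * a * t⁻¹ * a⁻¹)⁻¹ * a⁻¹⁻¹ := by group
  rw [e, inz_conj s (inz_inv s ha) a⁻¹]
  exact inz_inv s ha

/-- elements of `H` on which `t` acts trivially modulo `{1,z}` -/
def Dsub (s : St H z) (t : G) : Subgroup G where
  carrier := {h | h ∈ H ∧ InZ z (t * h * t⁻¹ * h⁻¹)}
  mul_mem' := fun {a b} ha hb => ⟨H.mul_mem ha.1 hb.1, inz_cmul' s ha.2 hb.2⟩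
  one_mem' := ⟨H.one_mem, by left; simp⟩
  inv_mem' := fun {a} ha => ⟨H.inv_mem ha.1, inz_cinv' s ha.2⟩

theorem dsub_le (s : St H z) (t : G) : Dsub s t ≤ H := fun _ hh => hh.1

theorem dsub_conj (s : St H z) (t f h : G) (hh : h ∈ Dsub s t) :
    f * h * f⁻¹ ∈ Dsub s (f * t * f⁻¹) := by
  refine ⟨s.hn f h hh.1, ?_⟩
  have e : (f * t * f⁻¹) * (f * h * f⁻¹) * (f * t * f⁻¹)⁻¹ * (f * h * f⁻¹)⁻¹
      = f * (t * h * t⁻¹ * h⁻¹) * f⁻¹ := by group
  rw [e, inz_conj s hh.2 f]; exact hh.2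

theorem inz_mem_dsub (s : St H z) (t : G) {x : G} (hx : InZ z x) : x ∈ Dsub s t :=
  ⟨inz_mem s hx, by rw [inz_conj s hx t]; left; simp⟩

/-- an element of order dividing 5 acting trivially modulo `{1,z}` on `h` centralizes `h` -/
theorem comm5 (s : St H z) (f h : G) (hf : f ^ 5 = 1) (hz : InZ z (f * h * f⁻¹ * h⁻¹)) :
    f * h = h * f := by
  have key : ∀ n : ℕ, f ^ n * h * (f ^ n)⁻¹ * h⁻¹ = (f * h * f⁻¹ * h⁻¹) ^ n := by
    intro n
    induction n with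
    | zero => simp
    | succ n ih =>
      have e : f ^ (n + 1) * h * (f ^ (n + 1))⁻¹ * h⁻¹
          = (f ^ n * (f * h * f⁻¹ * h⁻¹) * (f ^ n)⁻¹) * (f ^ n * h * (f ^ n)⁻¹ * h⁻¹) := by
        rw [pow_succ]; group
      rw [e, inz_conj s hz (f ^ n), ih, pow_succ']
  have h5 := key 5
  rw [hf] at h5
  rcases hz with h1 | h1
  · exact mul_inv_eq_iff_eq_mul.1 (mul_inv_eq_one.1 h1)
  · exfalso
    rw [h1] at h5
    have hz5 : z ^ 5 = z := by
      rw [show (5 : ℕ) = 2 + 2 + 1 from rfl, pow_add, pow_add, pow_two, s.z2]; simp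
    rw [hz5] at h5
    apply s.z1
    rw [← h5]; simp

theorem pow_eq_one_of_mem (s : St H z) {h : G} (hh : h ∈ H) : h ^ 32 = 1 := by
  have h1 : (⟨h, hh⟩ : H) ^ 32 = 1 := by rw [← s.cH]; exact pow_card_eq_one'
  simpa using congrArg Subtype.val h1

theorem eq_one_of_pow5 (s : St H z) {h : G} (hh : h ∈ H) (h5 : h ^ 5 = 1) : h = 1 := by
  have h32 := pow_eq_one_of_mem s hh
  have e : h ^ 65 = h ^ 64 * h := pow_succ h 64
  have a : h ^ 65 = 1 := by rw [show 65 = 5 * 13 from rfl, pow_mul, h5, one_pow]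
  have b : h ^ 64 = 1 := by rw [show 64 = 32 * 2 from rfl, pow_mul, h32, one_pow]
  rw [a, b, one_mul] at e; exact e.symm

theorem no_normal5 [Finite G] (s : St H z) (f : G) (hf : orderOf f = 5) :
    ¬ ∀ g : G, g * f * g⁻¹ ∈ Subgroup.zpowers f := by
  intro hall
  have hp5 : Fact (Nat.Prime 5) := ⟨by norm_num⟩
  have hN : (Subgroup.zpowers f).Normal := by
    constructor
    intro x hx g
    obtain ⟨k, rfl⟩ := Subgroup.mem_zpowers_iff.1 hx
    rw [← conj_zpow]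
    exact Subgroup.zpow_mem _ (hall g) k
  have hnil : Group.IsNilpotent (Subgroup.zpowers f) := by
    have hp : IsPGroup 5 (Subgroup.zpowers f) :=
      IsPGroup.of_card (n := 1) (by rw [Nat.card_zpowers, hf]; norm_num)
    exact hp.isNilpotent
  have hfH : f ∈ H := s.fit _ hN hnil (Subgroup.mem_zpowers f)
  have h5 : f ^ 5 = 1 := by rw [← hf]; exact pow_orderOf_eq_one f
  have := eq_one_of_pow5 s hfH h5
  rw [this, orderOf_one] at hf; norm_num at hf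

theorem sup_normal [Finite G] (s : St H z) (f : G) (hf : orderOf f = 5) :
    (H ⊔ Subgroup.zpowers f).Normal := by
  have h1 : Nat.card H ∣ Nat.card (H ⊔ Subgroup.zpowers f : Subgroup G) :=
    Subgroup.card_dvd_of_le le_sup_left
  have h2 : Nat.card (Subgroup.zpowers f) ∣ Nat.card (H ⊔ Subgroup.zpowers f : Subgroup G) :=
    Subgroup.card_dvd_of_le le_sup_right
  rw [s.cH] at h1; rw [Nat.card_zpowers, hf] at h2
  have h3 : 32 * 5 ∣ Nat.card (H ⊔ Subgroup.zpowers f : Subgroup G) :=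
    Nat.Coprime.mul_dvd_of_dvd_of_dvd (by norm_num : Nat.Coprime 32 5) h1 h2
  have h4 := Subgroup.index_mul_card (H ⊔ Subgroup.zpowers f)
  rw [s.cG] at h4
  obtain ⟨k, hk⟩ := h3
  rw [hk] at h4
  have h6 : (H ⊔ Subgroup.zpowers f).index * k = 2 := by
    have : 160 * ((H ⊔ Subgroup.zpowers f).index * k) = 160 * 2 := by
      rw [show 160 * 2 = 320 from rfl, ← h4]; ring
    exact Nat.eq_of_mul_eq_mul_left (by norm_num) this
  rcases (Nat.dvd_prime Nat.prime_two).1 ⟨k, h6.symm⟩ with hi | hi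
  · rw [Subgroup.index_eq_one] at hi; rw [hi]; infer_instance
  · exact Subgroup.normal_of_index_eq_two hi

theorem mem_sup_iff' (s : St H z) (f x : G) (hx : x ∈ H ⊔ Subgroup.zpowers f) :
    ∃ h ∈ H, ∃ y ∈ Subgroup.zpowers f, h * y = x := by
  have hHn : H.Normal := ⟨fun h hh g => s.hn g h hh⟩
  have h1 : x ∈ ((H ⊔ Subgroup.zpowers f : Subgroup G) : Set G) := hx
  rw [Subgroup.normal_mul] at h1
  exact Set.mem_mul.1 h1

theorem zpow5 (f : G) (h5 : f ^ 5 = 1) (k : ℤ) : (f ^ k) ^ 5 = 1 := by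
  rw [← zpow_natCast, ← zpow_mul, mul_comm, zpow_mul, zpow_natCast, h5, one_zpow]

/-- no element of order 5 centralizes `H` -/
theorem not_cent5 [Finite G] (s : St H z) (f : G) (hf : orderOf f = 5) :
    ¬ ∀ h ∈ H, f * h = h * f := by
  intro hc
  have h5 : f ^ 5 = 1 := by rw [← hf]; exact pow_orderOf_eq_one f
  apply no_normal5 s f hf
  intro g
  have hMn := sup_normal s f hf
  have hfM : f ∈ H ⊔ Subgroup.zpowers f :=
    (le_sup_right : Subgroup.zpowers f ≤ _) (Subgroup.mem_zpowers f)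
  have hg : g * f * g⁻¹ ∈ H ⊔ Subgroup.zpowers f :=
    hMn.conj_mem f hfM g
  obtain ⟨h, hh, y, hy, hxy⟩ := mem_sup_iff' s f _ hg
  obtain ⟨k, rfl⟩ := Subgroup.mem_zpowers_iff.1 hy
  have hcomm : Commute h (f ^ k) := (show Commute h f from (hc h hh).symm).zpow_right k
  have e5 : (h * f ^ k) ^ 5 = h ^ 5 * (f ^ k) ^ 5 := hcomm.mul_pow 5
  have e7 : (g * f * g⁻¹) ^ 5 = 1 := by rw [conj_pow, h5]; simp
  rw [← hxy, e5, zpow5 f h5 k, mul_one] at e7
  rw [← hxy, eq_one_of_pow5 s hh e7, one_mul]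
  exact Subgroup.zpow_mem _ (Subgroup.mem_zpowers f) k

theorem pow5_mem [Finite G] (s : St H z) (f : G) (hf : orderOf f = 5) (g : G) :
    (g * f * g⁻¹ * f⁻¹) ^ 5 ∈ H := by
  have h5 : f ^ 5 = 1 := by rw [← hf]; exact pow_orderOf_eq_one f
  have hMn := sup_normal s f hf
  have hHn : H.Normal := ⟨fun h hh g => s.hn g h hh⟩
  have hfM : f ∈ H ⊔ Subgroup.zpowers f :=
    (le_sup_right : Subgroup.zpowers f ≤ _) (Subgroup.mem_zpowers f)
  have hg : g * f * g⁻¹ ∈ H ⊔ Subgroup.zpowers f :=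
    hMn.conj_mem f hfM g
  have hw : g * f * g⁻¹ * f⁻¹ ∈ H ⊔ Subgroup.zpowers f :=
    Subgroup.mul_mem _ hg (Subgroup.inv_mem _ hfM)
  obtain ⟨h, hh, y, hy, hxy⟩ := mem_sup_iff' s f _ hw
  obtain ⟨k, rfl⟩ := Subgroup.mem_zpowers_iff.1 hy
  rw [← hxy, ← QuotientGroup.eq_one_iff (N := H), QuotientGroup.mk_pow, QuotientGroup.mk_mul,
    (QuotientGroup.eq_one_iff h).2 hh, one_mul, ← QuotientGroup.mk_pow, zpow5 f h5 k]
  rfl

/-- elements acting trivially on `H` modulo `{1,z}` -/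
def Nsub (s : St H z) : Subgroup G where
  carrier := {g | ∀ h ∈ H, InZ z (g * h * g⁻¹ * h⁻¹)}
  mul_mem' := fun {_ _} ha hb h hh => inz_cmul s (ha h hh) (hb h hh)
  one_mem' := fun h _ => by left; simp
  inv_mem' := fun {_} ha h hh => inz_cinv s (ha h hh)

theorem nsub_normal (s : St H z) : (Nsub s).Normal := by
  constructor
  intro n hn g h hh
  have hh' : g⁻¹ * h * g⁻¹⁻¹ ∈ H := s.hn g⁻¹ h hh
  have e : (g * n * g⁻¹) * h * (g * n * g⁻¹)⁻¹ * h⁻¹
      = g * (n * (g⁻¹ * h * g⁻¹⁻¹) * n⁻¹ * (g⁻¹ * h * g⁻¹⁻¹)⁻¹) * g⁻¹ := by group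
  rw [e, inz_conj s (hn _ hh') g]
  exact hn _ hh'

theorem nsub_pgroup [Finite G] (s : St H z) : IsPGroup 2 (Nsub s) := by
  rintro ⟨g, hg⟩
  refine ⟨6, ?_⟩
  apply Subtype.ext
  show g ^ 2 ^ 6 = 1
  by_contra hne
  have hp5 : Fact (Nat.Prime 5) := ⟨by norm_num⟩
  have h5 : (g ^ 2 ^ 6) ^ 5 = 1 := by
    rw [← pow_mul]
    have := pow_card_eq_one' (G := G) (x := g)
    rw [s.cG] at this; exact this
  have ho : orderOf (g ^ 2 ^ 6) = 5 := orderOf_eq_prime h5 hne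
  apply not_cent5 s (g ^ 2 ^ 6) ho
  intro h hh
  exact comm5 s (g ^ 2 ^ 6) h h5 (inz_cpow s (hg h hh) (2 ^ 6))

theorem claim1 [Finite G] (s : St H z) (g : G) (hg : ∀ h ∈ H, InZ z (g * h * g⁻¹ * h⁻¹)) :
    g ∈ H :=
  s.core (Nsub s) (nsub_normal s) (nsub_pgroup s) hg

end

/-- fixed points of an element of order dividing 5 acting on an invariant subgroup -/
theorem fix5 {G : Type*} [Group G] [Finite G] (S : Subgroup G) (f : G) (hf : f ^ 5 = 1)
    (hS : ∀ x ∈ S, f * x * f⁻¹ ∈ S) :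
    Nat.card S ≡ Nat.card (S ⊓ Subgroup.centralizer ({f} : Set G) : Subgroup G) [MOD 5] := by
  classical
  have hfin : Fintype S := Fintype.ofFinite _
  have hp5 : Fact (Nat.Prime 5) := ⟨by norm_num⟩
  let e : Function.End S := fun x => ⟨f * x.1 * f⁻¹, hS x.1 x.2⟩
  have he : ∀ n : ℕ, ∀ x : S, (((e ^ n) x : S) : G) = f ^ n * x.1 * (f ^ n)⁻¹ := by
    intro n
    induction n with
    | zero =>
      intro x
      rw [pow_zero, pow_zero]
      show (x : G) = 1 * x.1 * 1⁻¹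
      simp
    | succ n ih =>
      intro x
      rw [pow_succ']
      show f * (((e ^ n) x : S) : G) * f⁻¹ = _
      rw [ih x, pow_succ']; group
  have h5 : e ^ 5 ^ 1 = 1 := by
    funext x
    apply Subtype.ext
    rw [pow_one, he 5 x, hf]
    show 1 * (x : G) * 1⁻¹ = x
    simp
  have hmod := Equiv.Perm.card_fixedPoints_modEq (p := 5) (n := 1) h5
  rw [← Nat.card_eq_fintype_card, ← Nat.card_eq_fintype_card] at hmod
  have hc : Nat.card (Function.fixedPoints e)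
      = Nat.card (S ⊓ Subgroup.centralizer ({f} : Set G) : Subgroup G) := by
    apply Nat.card_congr
    refine ⟨fun x => ⟨x.1.1, x.1.2, ?_⟩, fun y => ⟨⟨y.1, y.2.1⟩, ?_⟩, fun x => rfl, fun y => rfl⟩
    · show (x.1.1 : G) ∈ Subgroup.centralizer ({f} : Set G)
      rw [Subgroup.mem_centralizer_singleton_iff]
      have h : f * (x.1 : G) * f⁻¹ = x.1 := congrArg Subtype.val x.2
      exact (mul_inv_eq_iff_eq_mul.1 h).symm
    · show e ⟨y.1, y.2.1⟩ = ⟨y.1, y.2.1⟩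
      apply Subtype.ext
      show f * y.1 * f⁻¹ = y.1
      have := Subgroup.mem_centralizer_singleton_iff.1 y.2.2
      rw [← this]; simp
  rw [hc] at hmod; exact hmod

theorem num1 : ∀ k ≤ 5, 32 ≡ 2 ^ k [MOD 5] → 2 ^ k ≠ 32 → 2 ^ k = 2 := by decide

theorem num2 : ∀ k ≤ 5, 2 ^ k ≡ 2 [MOD 5] → 2 ^ k ≠ 32 → 2 ^ k ≤ 8 := by decide

theorem num3 : ∀ k ≤ 5, 8 < 2 ^ k → 16 ≤ 2 ^ k := by decide

theorem num4 : ∀ k ≤ 5, 4 < 2 ^ k → 2 ^ k ≤ 8 → 2 ^ k = 8 := by decide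

section
variable {G : Type*} [Group G] {H : Subgroup G} {z : G}

theorem card_cent5 [Finite G] (s : St H z) (f : G) (hf : orderOf f = 5) :
    Nat.card (H ⊓ Subgroup.centralizer ({f} : Set G) : Subgroup G) = 2 := by
  have h5 : f ^ 5 = 1 := by rw [← hf]; exact pow_orderOf_eq_one f
  have hmod := fix5 H f h5 (fun x hx => s.hn f x hx)
  have hdvd : Nat.card (H ⊓ Subgroup.centralizer ({f} : Set G) : Subgroup G) ∣ Nat.card H :=
    Subgroup.card_dvd_of_le inf_le_left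
  rw [s.cH] at hmod hdvd
  have hne : Nat.card (H ⊓ Subgroup.centralizer ({f} : Set G) : Subgroup G) ≠ 32 := by
    intro h32
    have hEq : H ⊓ Subgroup.centralizer ({f} : Set G) = H :=
      Subgroup.eq_of_le_of_card_ge inf_le_left (by rw [h32, s.cH])
    apply not_cent5 s f hf
    intro x hx
    have hx' : x ∈ H ⊓ Subgroup.centralizer ({f} : Set G) := by rw [hEq]; exact hx
    exact (Subgroup.mem_centralizer_singleton_iff.1 hx'.2).symm
  obtain ⟨k, hk, hkc⟩ := (Nat.dvd_prime_pow Nat.prime_two).1 (show _ ∣ 2 ^ 5 from hdvd)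
  rw [hkc] at hmod hne ⊢
  exact num1 k hk hmod hne

/-- the centralizer in `H` of an element of order 5 is `{1,z}` -/
theorem cent5 [Finite G] (s : St H z) (f : G) (hf : orderOf f = 5) (h : G) (hh : h ∈ H)
    (hc : f * h = h * f) : InZ z h := by
  have h2 := card_cent5 s f hf
  have hzC : z ∈ H ⊓ Subgroup.centralizer ({f} : Set G) :=
    ⟨s.zH, Subgroup.mem_centralizer_singleton_iff.2 (s.zc f).symm⟩
  have hhC : h ∈ H ⊓ Subgroup.centralizer ({f} : Set G) :=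
    ⟨hh, Subgroup.mem_centralizer_singleton_iff.2 hc.symm⟩
  obtain ⟨y, -, hu⟩ := (Nat.card_eq_two_iff' (1 : (H ⊓ Subgroup.centralizer ({f} : Set G) : Subgroup G))).1 h2
  by_cases h1 : h = 1
  · left; exact h1
  · right
    have a := hu ⟨z, hzC⟩ (fun e => s.z1 (congrArg Subtype.val e))
    have b := hu ⟨h, hhC⟩ (fun e => h1 (congrArg Subtype.val e))
    exact congrArg Subtype.val (b.trans a.symm)

theorem card_mul_relIndex' (K L : Subgroup G) (h : K ≤ L) :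
    Nat.card K * K.relIndex L = Nat.card L := by
  have := Subgroup.relIndex_mul_relIndex (⊥ : Subgroup G) K L bot_le h
  rwa [Subgroup.relIndex_bot_left, Subgroup.relIndex_bot_left] at this

theorem orderOf_z (s : St H z) : orderOf z = 2 := by
  have hp2 : Fact (Nat.Prime 2) := ⟨Nat.prime_two⟩
  exact orderOf_eq_prime (by rw [pow_two]; exact s.z2) s.z1

theorem card_dsub_le [Finite G] (s : St H z) (T : G) (hTH : T ∉ H) :
    Nat.card (Dsub s T) ≤ 8 := by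
  have hp5 : Fact (Nat.Prime 5) := ⟨by norm_num⟩
  obtain ⟨f, hf⟩ := exists_prime_orderOf_dvd_card' 5 (by rw [s.cG]; norm_num : 5 ∣ Nat.card G)
  have h5 : f ^ 5 = 1 := by rw [← hf]; exact pow_orderOf_eq_one f
  have hdvd : Nat.card (Dsub s T) ∣ 2 ^ 5 := by
    rw [show 2 ^ 5 = 32 from rfl, ← s.cH]; exact Subgroup.card_dvd_of_le (dsub_le s T)
  have hneH : Nat.card (Dsub s T) ≠ 32 := by
    intro h32
    have hEq : Dsub s T = H := Subgroup.eq_of_le_of_card_ge (dsub_le s T) (by rw [h32, s.cH])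
    apply hTH
    apply claim1 s T
    intro h hh
    have : h ∈ Dsub s T := by rw [hEq]; exact hh
    exact this.2
  obtain ⟨k, hk, hkc⟩ := (Nat.dvd_prime_pow Nat.prime_two).1 hdvd
  by_cases hw : T * f * T⁻¹ * f⁻¹ ∈ H
  · have hinv : ∀ h ∈ Dsub s T, f * h * f⁻¹ ∈ Dsub s T := by
      intro h hh
      have h1 := dsub_conj s T f h hh
      refine ⟨h1.1, ?_⟩
      have h2 : InZ z ((T * f * T⁻¹ * f⁻¹) * (f * h * f⁻¹) * (T * f * T⁻¹ * f⁻¹)⁻¹
          * (f * h * f⁻¹)⁻¹) := s.comm _ hw _ h1.1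
      have h3 := inz_cmul s h2 h1.2
      have e : T * f * T⁻¹ * f⁻¹ * (f * T * f⁻¹) = T := by group
      rw [e] at h3
      exact h3
    have hmod := fix5 (Dsub s T) f h5 hinv
    have hCeq : Dsub s T ⊓ Subgroup.centralizer ({f} : Set G)
        = H ⊓ Subgroup.centralizer ({f} : Set G) := by
      apply le_antisymm
      · exact inf_le_inf_right _ (dsub_le s T)
      · intro x hx
        have hxz : InZ z x :=
          cent5 s f hf x hx.1 (Subgroup.mem_centralizer_singleton_iff.1 hx.2).symm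
        exact ⟨inz_mem_dsub s T hxz, hx.2⟩
    rw [hCeq, card_cent5 s f hf] at hmod
    rw [hkc] at hmod hneH ⊢
    exact num2 k hk hmod hneH
  · have hw5 : (T * f * T⁻¹ * f⁻¹) ^ 5 ∈ H := pow5_mem s f hf T
    have hf25 : ((T * f * T⁻¹ * f⁻¹) ^ 32) ^ 5 = 1 := by
      rw [← pow_mul, mul_comm, pow_mul]; exact pow_eq_one_of_mem s hw5
    have hf2ne : (T * f * T⁻¹ * f⁻¹) ^ 32 ≠ 1 := by
      intro h1
      apply hw
      have e : (T * f * T⁻¹ * f⁻¹) ^ 65 = (T * f * T⁻¹ * f⁻¹) ^ 64 * (T * f * T⁻¹ * f⁻¹) :=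
        pow_succ _ 64
      have e1 : (T * f * T⁻¹ * f⁻¹) ^ 64 = 1 := by
        rw [show 64 = 32 * 2 from rfl, pow_mul, h1, one_pow]
      have e2 : (T * f * T⁻¹ * f⁻¹) ^ 65 = ((T * f * T⁻¹ * f⁻¹) ^ 5) ^ 13 := by rw [← pow_mul]
      rw [e1, one_mul] at e
      rw [← e, e2]; exact H.pow_mem hw5 13
    have hf2o : orderOf ((T * f * T⁻¹ * f⁻¹) ^ 32) = 5 := orderOf_eq_prime hf25 hf2ne
    have hint : ∀ x ∈ Dsub s T ⊓ Dsub s (f * T * f⁻¹), InZ z x := by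
      intro x hx
      have h1 : InZ z (T * x * T⁻¹ * x⁻¹) := hx.1.2
      have h2 : InZ z ((f * T * f⁻¹)⁻¹ * x * (f * T * f⁻¹)⁻¹⁻¹ * x⁻¹) := inz_cinv s hx.2.2
      have h3 := inz_cmul s h1 h2
      have e : T * (f * T * f⁻¹)⁻¹ = T * f * T⁻¹ * f⁻¹ := by group
      rw [e] at h3
      have h4 := inz_cpow s h3 32
      exact cent5 s _ hf2o x hx.1.1 (comm5 s _ x hf25 h4)
    have hc2 : Nat.card (Dsub s T ⊓ Dsub s (f * T * f⁻¹) : Subgroup G) ≤ 2 := by
      have hle : Dsub s T ⊓ Dsub s (f * T * f⁻¹) ≤ Subgroup.zpowers z := by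
        intro x hx
        rcases hint x hx with rfl | rfl
        · exact Subgroup.one_mem _
        · exact Subgroup.mem_zpowers _
      have := Subgroup.card_le_of_le hle
      rwa [Nat.card_zpowers, orderOf_z s] at this
    have hcard : Nat.card (Dsub s T) ≤ Nat.card (Dsub s (f * T * f⁻¹)) := by
      apply Nat.card_le_card_of_injective
        (fun x : Dsub s T => (⟨f * x.1 * f⁻¹, dsub_conj s T f x.1 x.2⟩ : Dsub s (f * T * f⁻¹)))
      intro a b hab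
      have h1 : f * a.1 * f⁻¹ = f * b.1 * f⁻¹ := congrArg Subtype.val hab
      exact Subtype.ext (by simpa using h1)
    have hri := Subgroup.relIndex_inf_le (H := Dsub s T) (K := Dsub s (f * T * f⁻¹)) (L := H)
    have r1 := card_mul_relIndex' (Dsub s T) H (dsub_le s T)
    have r2 := card_mul_relIndex' (Dsub s (f * T * f⁻¹)) H (dsub_le s _)
    have r3 := card_mul_relIndex' (Dsub s T ⊓ Dsub s (f * T * f⁻¹)) H
      (inf_le_left.trans (dsub_le s T))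
    rw [s.cH] at r1 r2 r3
    by_contra hcon
    push Not at hcon
    have ha16 : 16 ≤ Nat.card (Dsub s T) := by
      rw [hkc] at hcon ⊢
      exact num3 k hk hcon
    have hr1 : (Dsub s T).relIndex H ≤ 2 := by nlinarith
    have hr2 : (Dsub s (f * T * f⁻¹)).relIndex H ≤ 2 := by nlinarith
    have hr : (Dsub s T ⊓ Dsub s (f * T * f⁻¹)).relIndex H ≤ 4 :=
      le_trans hri (by nlinarith)
    nlinarith

end

/-- the `H`-class of `d` has as many elements as the relative index of the centralizer -/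
theorem card_conjs {G : Type*} [Group G] [Finite G] (d : G) (H : Subgroup G) :
    Nat.card {a : G // ∃ h ∈ H, a = h * d * h⁻¹}
      = (Subgroup.centralizer ({d} : Set G)).relIndex H := by
  classical
  rw [Subgroup.relIndex, Subgroup.index]
  symm
  refine Nat.card_congr (Equiv.ofBijective
    (Quotient.lift (s := QuotientGroup.leftRel
        ((Subgroup.centralizer ({d} : Set G)).subgroupOf H))
      (fun g : H => (⟨(g : G) * d * (g : G)⁻¹, ⟨g, g.2, rfl⟩⟩ :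
        {a : G // ∃ h ∈ H, a = h * d * h⁻¹})) ?_) ⟨?_, ?_⟩)
  · intro a b hab
    have hab := QuotientGroup.leftRel_apply.1 hab
    rw [Subgroup.mem_subgroupOf, Subgroup.mem_centralizer_singleton_iff] at hab
    simp only [Subgroup.coe_mul, Subgroup.coe_inv] at hab
    apply Subtype.ext
    show (a : G) * d * (a : G)⁻¹ = (b : G) * d * (b : G)⁻¹
    have : (b : G) * d * (b : G)⁻¹ = (a : G) * ((a : G)⁻¹ * (b : G) * d) * (b : G)⁻¹ := by group
    rw [this, hab]; group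
  · intro x y
    refine QuotientGroup.induction_on x (fun a => ?_)
    refine QuotientGroup.induction_on y (fun b => ?_)
    intro hxy
    have h : (a : G) * d * (a : G)⁻¹ = (b : G) * d * (b : G)⁻¹ := congrArg Subtype.val hxy
    apply QuotientGroup.eq.2
    rw [Subgroup.mem_subgroupOf, Subgroup.mem_centralizer_singleton_iff]
    simp only [Subgroup.coe_mul, Subgroup.coe_inv]
    have : (a : G)⁻¹ * (b : G) * d = (a : G)⁻¹ * ((b : G) * d * (b : G)⁻¹) * (b : G) := by group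
    rw [this, ← h]; group
  · rintro ⟨w, h, hh, rfl⟩
    exact ⟨QuotientGroup.mk (⟨h, hh⟩ : H), rfl⟩

section
variable {G : Type*} [Group G] {H : Subgroup G} {z : G}

/-- if the involution `T` centralizes the order-8 group `Dsub s T` then that group has exponent 2 -/
theorem claim4 [Finite G] (s : St H z) (T : G) (hT : T * T = 1)
    (hCD : ∀ h ∈ Dsub s T, T * h = h * T) (h8 : Nat.card (Dsub s T) = 8)
    (hC8 : Nat.card (H ⊓ Subgroup.centralizer ({T} : Set G) : Subgroup G) = 8) :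
    ∀ d ∈ Dsub s T, d * d = 1 := by
  have hk : ∀ h ∈ H, (T * h * T⁻¹ * h⁻¹) ∈ Dsub s T
      ∧ (T * h * T⁻¹ * h⁻¹) * (T * h * T⁻¹ * h⁻¹) = 1 := by
    intro h hh
    have hkH : T * h * T⁻¹ * h⁻¹ ∈ H := H.mul_mem (s.hn T h hh) (H.inv_mem hh)
    have e0 : T * (T * h * T⁻¹ * h⁻¹) * T⁻¹ * (T * h * T⁻¹ * h⁻¹)
        = (T * T) * h * (T * T)⁻¹ * h⁻¹ := by group
    have e : T * (T * h * T⁻¹ * h⁻¹) * T⁻¹ = (T * h * T⁻¹ * h⁻¹)⁻¹ :=
      eq_inv_of_mul_eq_one_left (e0.trans (by rw [hT]; group))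
    have hmem : T * h * T⁻¹ * h⁻¹ ∈ Dsub s T := by
      refine ⟨hkH, ?_⟩
      rw [e]
      have e2 : (T * h * T⁻¹ * h⁻¹)⁻¹ * (T * h * T⁻¹ * h⁻¹)⁻¹
          = ((T * h * T⁻¹ * h⁻¹) * (T * h * T⁻¹ * h⁻¹))⁻¹ := by group
      rw [e2]
      exact inz_inv s (s.sq _ hkH)
    refine ⟨hmem, ?_⟩
    have hc := hCD _ hmem
    have e3 : (T * h * T⁻¹ * h⁻¹)⁻¹ = T * h * T⁻¹ * h⁻¹ := by
      rw [← e, hc]; group
    calc (T * h * T⁻¹ * h⁻¹) * (T * h * T⁻¹ * h⁻¹)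
        = (T * h * T⁻¹ * h⁻¹)⁻¹ * (T * h * T⁻¹ * h⁻¹) := by rw [e3]
      _ = 1 := inv_mul_cancel _
  have hS : Nat.card {a : G // ∃ h ∈ H, a = h * T * h⁻¹} = 4 := by
    rw [card_conjs T H, ← Subgroup.inf_relIndex_left]
    have := card_mul_relIndex' (H ⊓ Subgroup.centralizer ({T} : Set G)) H inf_le_left
    rw [hC8, s.cH] at this
    omega
  have hmemK : ∀ a : {a : G // ∃ h ∈ H, a = h * T * h⁻¹}, T * a.1⁻¹ ∈ Dsub s T := by
    rintro ⟨a, h, hh, rfl⟩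
    have e : T * (h * T * h⁻¹)⁻¹ = T * h * T⁻¹ * h⁻¹ := by group
    show T * (h * T * h⁻¹)⁻¹ ∈ Dsub s T
    rw [e]; exact (hk h hh).1
  have hdisj : ∀ a b : {a : G // ∃ h ∈ H, a = h * T * h⁻¹}, a.1⁻¹ ≠ b.1⁻¹ * z := by
    rintro ⟨_, h₁, hh₁, rfl⟩ ⟨_, h₂, hh₂, rfl⟩ heq
    have heq' : (h₁ * T * h₁⁻¹)⁻¹ = (h₂ * T * h₂⁻¹)⁻¹ * z := heq
    have e1 : T * (h₁⁻¹ * h₂) * T⁻¹ * (h₁⁻¹ * h₂)⁻¹
        = T * h₁⁻¹ * (h₂ * T * h₂⁻¹)⁻¹ * h₁ := by group
    have e2 : (h₂ * T * h₂⁻¹)⁻¹ = (h₁ * T * h₁⁻¹)⁻¹ * z⁻¹ := by rw [heq']; group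
    have e3 : T * h₁⁻¹ * ((h₁ * T * h₁⁻¹)⁻¹ * z⁻¹) * h₁ = h₁⁻¹ * z⁻¹ * h₁⁻¹⁻¹ := by group
    have e4 : T * (h₁⁻¹ * h₂) * T⁻¹ * (h₁⁻¹ * h₂)⁻¹ = z⁻¹ := by
      rw [e1, e2, e3, inz_conj s (inz_inv s (Or.inr rfl)) h₁⁻¹]
    have hgD : h₁⁻¹ * h₂ ∈ Dsub s T :=
      ⟨H.mul_mem (H.inv_mem hh₁) hh₂, by rw [e4]; exact inz_inv s (Or.inr rfl)⟩
    have hc := hCD _ hgD
    have e5 : T * (h₁⁻¹ * h₂) * T⁻¹ * (h₁⁻¹ * h₂)⁻¹ = 1 := by rw [hc]; group
    rw [e4] at e5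
    exact s.z1 (inv_eq_one.1 e5)
  let Φ : {a : G // ∃ h ∈ H, a = h * T * h⁻¹} ⊕ {a : G // ∃ h ∈ H, a = h * T * h⁻¹} → Dsub s T :=
    Sum.elim (fun a => ⟨T * a.1⁻¹, hmemK a⟩)
      (fun a => ⟨T * a.1⁻¹ * z, (Dsub s T).mul_mem (hmemK a) (inz_mem_dsub s T (Or.inr rfl))⟩)
  have hinj : Function.Injective Φ := by
    rintro (a | a) (b | b) hab
    · have h1 : T * a.1⁻¹ = T * b.1⁻¹ := congrArg Subtype.val hab
      exact congrArg Sum.inl (Subtype.ext (inv_injective (mul_left_cancel h1)))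
    · have h1 : T * a.1⁻¹ = T * b.1⁻¹ * z := congrArg Subtype.val hab
      rw [mul_assoc] at h1
      exact absurd (mul_left_cancel h1) (hdisj a b)
    · have h1 : T * a.1⁻¹ * z = T * b.1⁻¹ := congrArg Subtype.val hab
      rw [mul_assoc] at h1
      exact absurd (mul_left_cancel h1).symm (hdisj b a)
    · have h1 : T * a.1⁻¹ * z = T * b.1⁻¹ * z := congrArg Subtype.val hab
      exact congrArg Sum.inr (Subtype.ext (inv_injective (mul_left_cancel (mul_right_cancel h1))))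
  have hbij : Function.Bijective Φ :=
    hinj.bijective_of_nat_card_le (by rw [h8, Nat.card_sum, hS])
  intro d hd
  obtain ⟨x, hx⟩ := hbij.2 ⟨d, hd⟩
  rcases x with ⟨a, h, hh, rfl⟩ | ⟨a, h, hh, rfl⟩
  · have h1 : T * (h * T * h⁻¹)⁻¹ = d := congrArg Subtype.val hx
    have e : T * (h * T * h⁻¹)⁻¹ = T * h * T⁻¹ * h⁻¹ := by group
    rw [← h1, e]; exact (hk h hh).2
  · have h1 : T * (h * T * h⁻¹)⁻¹ * z = d := congrArg Subtype.val hx
    have e : T * (h * T * h⁻¹)⁻¹ = T * h * T⁻¹ * h⁻¹ := by group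
    rw [← h1, e]
    have hkk := (hk h hh).2
    calc T * h * T⁻¹ * h⁻¹ * z * (T * h * T⁻¹ * h⁻¹ * z)
        = T * h * T⁻¹ * h⁻¹ * (z * (T * h * T⁻¹ * h⁻¹)) * z := by group
      _ = T * h * T⁻¹ * h⁻¹ * ((T * h * T⁻¹ * h⁻¹) * z) * z := by rw [← s.zc (T * h * T⁻¹ * h⁻¹)]
      _ = ((T * h * T⁻¹ * h⁻¹) * (T * h * T⁻¹ * h⁻¹)) * (z * z) := by group
      _ = 1 := by rw [hkk, s.z2, one_mul]

end

theorem result {G : Type*} [Group G] [Finite G]
    (hG : Nat.card G = 320) (hHF : Cfsg.pCore 2 G = Cfsg.fittingSubgroup G)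
    (hex : Cfsg.IsExtraspecial 2 ↥(Cfsg.pCore 2 G)) (h32 : Nat.card ↥(Cfsg.pCore 2 G) = 32)
    (hminus : ∀ A : Subgroup G, A ≤ Cfsg.pCore 2 G → Cfsg.IsElementaryAbelian 2 A → Nat.card ↥A ≤ 4)
    (T : G) (hT : orderOf T = 2) (hTH : T ∉ Cfsg.pCore 2 G)
    (V : Subgroup G) (hV : V ≤ Cfsg.pCore 2 G ⊓ Subgroup.centralizer ({T} : Set G)) (hV4 : Nat.card ↥V = 4) (hVe : Cfsg.IsElementaryAbelian 2 V) :
    Nat.card ↥(Cfsg.pCore 2 G ⊓ Subgroup.centralizer ({T} : Set G)) = 4 ∧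
      Cfsg.IsElementaryAbelian 2 (Cfsg.pCore 2 G ⊓ Subgroup.centralizer ({T} : Set G)) := by
  have hp2 : Fact (Nat.Prime 2) := ⟨Nat.prime_two⟩
  obtain ⟨z₀, hw⟩ := Cfsg.Agent.Lib.Helper2.wg_of_extraspecial hex
  have hnorm : (Cfsg.pCore 2 G).Normal := Subgroup.sSup_normal _ (fun _ h => h.1)
  have hz2 : (z₀ : G) * (z₀ : G) = 1 := by
    have h1 := hw.zp
    rw [pow_two] at h1
    exact congrArg Subtype.val h1
  have hpow : ∀ k : ℕ, ((z₀ ^ k : ↥(Cfsg.pCore 2 G)) : G) = 1 ∨ ((z₀ ^ k : ↥(Cfsg.pCore 2 G)) : G) = z₀ := by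
    intro k
    rcases Nat.even_or_odd k with ⟨m, rfl⟩ | ⟨m, rfl⟩
    · left; rw [← two_mul, pow_mul, hw.zp, one_pow]; rfl
    · right; rw [pow_succ, pow_mul, hw.zp, one_pow, one_mul]
  have s : St (Cfsg.pCore 2 G) (z₀ : G) :=
    { hn := fun g h hh => hnorm.conj_mem h hh g
      zH := z₀.2
      z1 := fun h => hw.z1 (Subtype.ext h)
      z2 := hz2
      zc := by
        intro g
        have hy : g * (z₀ : G) * g⁻¹ ∈ Cfsg.pCore 2 G := hnorm.conj_mem _ z₀.2 g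
        have hyc : ∀ b : ↥(Cfsg.pCore 2 G), Commute (⟨g * (z₀ : G) * g⁻¹, hy⟩ : ↥(Cfsg.pCore 2 G)) b := by
          intro b
          apply Subtype.ext
          show g * (z₀ : G) * g⁻¹ * (b : G) = (b : G) * (g * (z₀ : G) * g⁻¹)
          have hb' : g⁻¹ * (b : G) * g⁻¹⁻¹ ∈ Cfsg.pCore 2 G := hnorm.conj_mem _ b.2 g⁻¹
          have hc' : (z₀ : G) * (g⁻¹ * (b : G) * g⁻¹⁻¹) = (g⁻¹ * (b : G) * g⁻¹⁻¹) * (z₀ : G) :=
            congrArg Subtype.val (hw.zc ⟨_, hb'⟩).eq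
          calc g * (z₀ : G) * g⁻¹ * (b : G)
              = g * ((z₀ : G) * (g⁻¹ * (b : G) * g⁻¹⁻¹)) * g⁻¹ := by group
            _ = g * ((g⁻¹ * (b : G) * g⁻¹⁻¹) * (z₀ : G)) * g⁻¹ := by rw [hc']
            _ = _ := by group
        obtain ⟨k, hk⟩ := hw.cent ⟨_, hy⟩ hyc
        have hk' : g * (z₀ : G) * g⁻¹ = ((z₀ ^ k : ↥(Cfsg.pCore 2 G)) : G) := congrArg Subtype.val hk
        rcases hpow k with h1 | h1
        · exfalso
          rw [h1] at hk'
          exact hw.z1 (Subtype.ext (conj_eq_one_iff.1 hk'))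
        · rw [h1] at hk'
          exact mul_inv_eq_iff_eq_mul.1 hk'
      comm := by
        intro a ha b hb
        obtain ⟨k, hk⟩ := hw.comm ⟨a, ha⟩ ⟨b, hb⟩
        have hk' : a * b * a⁻¹ * b⁻¹ = ((z₀ ^ k : ↥(Cfsg.pCore 2 G)) : G) := congrArg Subtype.val hk
        rw [hk']; exact hpow k
      cent := by
        intro a ha hab
        obtain ⟨k, hk⟩ := hw.cent ⟨a, ha⟩ (fun b => Subtype.ext (hab b.1 b.2))
        have hk' : a = ((z₀ ^ k : ↥(Cfsg.pCore 2 G)) : G) := congrArg Subtype.val hk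
        rw [hk']; exact hpow k
      sq := by
        intro a ha
        obtain ⟨k, hk⟩ := hw.pow ⟨a, ha⟩
        rw [pow_two] at hk
        have hk' : a * a = ((z₀ ^ k : ↥(Cfsg.pCore 2 G)) : G) := congrArg Subtype.val hk
        rw [hk']; exact hpow k
      cG := hG
      cH := h32
      fit := fun N hN hnil => by rw [hHF]; exact le_sSup ⟨hN, hnil⟩
      core := fun N hN hp => le_sSup ⟨hN, hp⟩ }
  have hT2 : T * T = 1 := by rw [← pow_two, ← hT]; exact pow_orderOf_eq_one T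
  have hCD : Cfsg.pCore 2 G ⊓ Subgroup.centralizer ({T} : Set G) ≤ Dsub s T := by
    intro x hx
    refine ⟨hx.1, ?_⟩
    have h1 := Subgroup.mem_centralizer_singleton_iff.1 hx.2
    left
    rw [← h1]; group
  have hD8 := card_dsub_le s T hTH
  have hCle : Nat.card ↥(Cfsg.pCore 2 G ⊓ Subgroup.centralizer ({T} : Set G)) ≤ 4 := by
    by_contra hcon
    push Not at hcon
    have hdvd1 : Nat.card ↥(Cfsg.pCore 2 G ⊓ Subgroup.centralizer ({T} : Set G))
        ∣ Nat.card (Dsub s T) := Subgroup.card_dvd_of_le hCD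
    have hdvd2 : Nat.card (Dsub s T) ∣ 2 ^ 5 := by
      rw [show 2 ^ 5 = 32 from rfl, ← s.cH]; exact Subgroup.card_dvd_of_le (dsub_le s T)
    have hDpos : 0 < Nat.card (Dsub s T) := Nat.card_pos
    obtain ⟨m, hm⟩ := hdvd1
    have hm1 : m = 1 := by
      have hm0 : m ≠ 0 := by rintro rfl; rw [mul_zero] at hm; omega
      have : m < 2 := by
        by_contra h2
        push Not at h2
        nlinarith
      omega
    rw [hm1, mul_one] at hm
    have hCeq : Cfsg.pCore 2 G ⊓ Subgroup.centralizer ({T} : Set G) = Dsub s T :=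
      Subgroup.eq_of_le_of_card_ge hCD (by rw [hm])
    have h8 : Nat.card (Dsub s T) = 8 := by
      obtain ⟨k, hk, hkc⟩ := (Nat.dvd_prime_pow Nat.prime_two).1 hdvd2
      have h4 : 4 < Nat.card (Dsub s T) := by rw [hm]; exact hcon
      rw [hkc] at h4 hD8 ⊢
      exact num4 k hk h4 hD8
    have hall := claim4 s T hT2 (fun h hh => by
        have h1 : h ∈ Cfsg.pCore 2 G ⊓ Subgroup.centralizer ({T} : Set G) := by
          rw [hCeq]; exact hh
        exact (Subgroup.mem_centralizer_singleton_iff.1 h1.2).symm) h8 (by rw [← hm]; exact h8)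
    have hel : Cfsg.IsElementaryAbelian 2 (Dsub s T) := by
      refine ⟨⟨⟨fun a b => ?_⟩⟩, fun a ha => by rw [pow_two]; exact hall a ha⟩
      apply Subtype.ext
      show (a : G) * (b : G) = (b : G) * (a : G)
      have ha := hall a.1 a.2
      have hb := hall b.1 b.2
      have hab := hall (a.1 * b.1) ((Dsub s T).mul_mem a.2 b.2)
      calc (a : G) * b = ((a : G) * b)⁻¹ := (inv_eq_of_mul_eq_one_left hab).symm
        _ = (b : G)⁻¹ * (a : G)⁻¹ := mul_inv_rev _ _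
        _ = (b : G) * a := by rw [inv_eq_of_mul_eq_one_left hb, inv_eq_of_mul_eq_one_left ha]
    have := hminus (Dsub s T) (dsub_le s T) hel
    omega
  have hVC : V = Cfsg.pCore 2 G ⊓ Subgroup.centralizer ({T} : Set G) :=
    Subgroup.eq_of_le_of_card_ge hV (by rw [hV4]; exact hCle)
  rw [← hVC]; exact ⟨hV4, hVe⟩

end Cfsg.Agent.S4405
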