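import Cfsg.Statements.S4406
import Cfsg.Agent.Lib.Helper18.Basic

set_option autoImplicit false
open Cfsg

namespace Cfsg.Agent.S4406

open Cfsg.Agent.Lib.Helper18

/-- The alternating group of degree four. -/
abbrev A4 : Type := ↥(alternatingGroup (Fin 4))

set_option maxRecDepth 100000 in
theorem d1 : ∀ x : A4, x ^ 16 = 1 → x * x = 1 := by decide

set_option maxRecDepth 100000 in
theorem d2 : ∀ x : A4, x ^ 9 = 1 → x * x * x = 1 := by decide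

set_option maxRecDepth 100000 in
theorem d3 : ∀ y y' : A4, (y * y * y = 1 ∧ y' * y' * y' = 1 ∧
    (y * y') * (y * y') * (y * y') = 1 ∧ (y * y'⁻¹) * (y * y'⁻¹) * (y * y'⁻¹) = 1) →
    y = 1 ∨ y' = 1 ∨ y' = y ∨ y' = y⁻¹ := by
  decide

set_option synthInstance.maxHeartbeats 400000 in
set_option synthInstance.maxSize 4096 in
set_option maxRecDepth 100000 in
theorem d4 : ∀ s u w : A4, (s ≠ 1 ∧ s * s * s = 1 ∧ u ≠ 1 ∧ u * u = 1 ∧ w ≠ 1 ∧ w * w = 1 ∧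
    w ≠ u) → (w = s * u * s⁻¹ ∨ w = s⁻¹ * u * s) := by
  decide

set_option maxRecDepth 100000 in
theorem d5 : ∀ s u : A4, (s ≠ 1 ∧ s * s * s = 1 ∧ u * u = 1) →
    s * (s * u * s⁻¹) * s⁻¹ = s * u * s⁻¹ * u := by
  decide

set_option synthInstance.maxHeartbeats 400000 in
set_option synthInstance.maxSize 4096 in
set_option maxRecDepth 100000 in
theorem d6 : ∀ u w x : A4, (u ≠ 1 ∧ u * u = 1 ∧ w ≠ 1 ∧ w * w = 1 ∧ w ≠ u ∧ x * x = 1) →
    (x = 1 ∨ x = u ∨ x = w ∨ x = u * w) := by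
  decide

theorem card_A4 : Nat.card A4 = 12 := by
  rw [Nat.card_eq_fintype_card]; decide

theorem card_G : Nat.card (A4 × A4) = 144 := by
  rw [Nat.card_prod, card_A4]

theorem sq_of_mem (X : Sylow 2 (A4 × A4)) {g : A4 × A4}
    (hg : g ∈ (X : Subgroup (A4 × A4))) : g.1 * g.1 = 1 ∧ g.2 * g.2 = 1 := by
  obtain ⟨n, hn⟩ := IsPGroup.iff_card.1 X.isPGroup'
  have hdvd : Nat.card (X : Subgroup (A4 × A4)) ∣ 144 := by
    rw [← card_G]; exact Subgroup.card_subgroup_dvd_card _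
  rw [hn] at hdvd
  have hn4 : n ≤ 4 := by
    by_contra h
    push Not at h
    have h5 : 2 ^ 5 ∣ 144 := (pow_dvd_pow 2 h).trans hdvd
    norm_num at h5
  have h16 : orderOf g ∣ 16 := by
    have h1 : orderOf g ∣ Nat.card (X : Subgroup (A4 × A4)) := Subgroup.orderOf_dvd_natCard _ hg
    rw [hn] at h1
    exact h1.trans (pow_dvd_pow 2 hn4)
  have hg16 : g ^ 16 = 1 := orderOf_dvd_iff_pow_eq_one.1 h16
  exact ⟨d1 _ (by rw [← Prod.pow_fst, hg16]; rfl), d1 _ (by rw [← Prod.pow_snd, hg16]; rfl)⟩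

theorem card_Q (Q : Sylow 3 (A4 × A4)) : Nat.card (Q : Subgroup (A4 × A4)) = 9 := by
  obtain ⟨m, hm⟩ := IsPGroup.iff_card.1 Q.isPGroup'
  have hdvd : Nat.card (Q : Subgroup (A4 × A4)) ∣ 144 := by
    rw [← card_G]; exact Subgroup.card_subgroup_dvd_card _
  have hm2 : m ≤ 2 := by
    by_contra h
    push Not at h
    have h3 : 3 ^ 3 ∣ 144 := by
      rw [hm] at hdvd
      exact (pow_dvd_pow 3 h).trans hdvd
    norm_num at h3
  have h9 : 3 ^ 2 ∣ Nat.card (Q : Subgroup (A4 × A4)) :=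
    Q.pow_dvd_card_of_pow_dvd_card (by rw [card_G]; norm_num)
  rw [hm] at h9
  have h2m : 2 ≤ m := (Nat.pow_dvd_pow_iff_le_right (by norm_num)).1 h9
  have : m = 2 := le_antisymm hm2 h2m
  rw [hm, this]; norm_num

theorem pow9_of_mem (Q : Sylow 3 (A4 × A4)) {g : A4 × A4}
    (hg : g ∈ (Q : Subgroup (A4 × A4))) : g ^ 9 = 1 := by
  have h1 : orderOf g ∣ Nat.card (Q : Subgroup (A4 × A4)) := Subgroup.orderOf_dvd_natCard _ hg
  rw [card_Q] at h1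
  exact orderOf_dvd_iff_pow_eq_one.1 h1

theorem cube_of_mem (Q : Sylow 3 (A4 × A4)) {g : A4 × A4}
    (hg : g ∈ (Q : Subgroup (A4 × A4))) : g.1 * g.1 * g.1 = 1 ∧ g.2 * g.2 * g.2 = 1 := by
  have hg9 := pow9_of_mem Q hg
  exact ⟨d2 _ (by rw [← Prod.pow_fst, hg9]; rfl), d2 _ (by rw [← Prod.pow_snd, hg9]; rfl)⟩

theorem pig (Q : Sylow 3 (A4 × A4)) (π : A4 × A4 →* A4) :
    ∃ g ∈ (Q : Subgroup (A4 × A4)), g ≠ 1 ∧ π g = 1 := by
  have hcube : ∀ g ∈ (Q : Subgroup (A4 × A4)), π g * π g * π g = 1 := by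
    intro g hg
    apply d2
    rw [← map_pow, pow9_of_mem Q hg, map_one]
  obtain ⟨T, hTc, hT⟩ : ∃ T : Finset A4, T.card ≤ 3 ∧
      ∀ g ∈ (Q : Subgroup (A4 × A4)), π g ∈ T := by
    by_cases hall : ∀ g ∈ (Q : Subgroup (A4 × A4)), π g = 1
    · exact ⟨{1}, by simp, fun g hg => by simp [hall g hg]⟩
    · push Not at hall
      obtain ⟨g0, hg0, hne⟩ := hall
      refine ⟨{1, π g0, (π g0)⁻¹}, Finset.card_le_three, ?_⟩
      intro g hg
      have e1 := hcube (g0 * g) (Subgroup.mul_mem _ hg0 hg)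
      have e2 := hcube (g0 * g⁻¹) (Subgroup.mul_mem _ hg0 (Subgroup.inv_mem _ hg))
      rw [map_mul] at e1
      rw [map_mul, map_inv] at e2
      rcases d3 (π g0) (π g) ⟨hcube g0 hg0, hcube g hg, e1, e2⟩ with h | h | h | h
      · exact absurd h hne
      · simp [h]
      · simp [h]
      · simp [h]
  by_contra hcon
  push Not at hcon
  have hinj : Function.Injective
      (fun g : (Q : Subgroup (A4 × A4)) => (⟨π (g : A4 × A4), hT g g.2⟩ : {x // x ∈ T})) := by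
    intro g g' h
    have h' : π (g : A4 × A4) = π (g' : A4 × A4) := congrArg Subtype.val h
    by_contra hne
    apply hcon ((g : A4 × A4) * (g' : A4 × A4)⁻¹)
      (Subgroup.mul_mem _ g.2 (Subgroup.inv_mem _ g'.2))
    · intro h1
      exact hne (Subtype.ext (mul_inv_eq_one.1 h1))
    · rw [map_mul, map_inv, h', mul_inv_cancel]
  have h1 := Nat.card_le_card_of_injective _ hinj
  rw [card_Q, Nat.card_eq_fintype_card, Fintype.card_coe] at h1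
  omega

theorem exists_fst (Q : Sylow 3 (A4 × A4)) :
    ∃ s : A4, s ≠ 1 ∧ s * s * s = 1 ∧ ((s, 1) : A4 × A4) ∈ (Q : Subgroup (A4 × A4)) := by
  obtain ⟨g, hg, hne, h1⟩ := pig Q (MonoidHom.snd A4 A4)
  have h1' : g.2 = 1 := h1
  have hg' : g = (g.1, 1) := Prod.ext rfl h1'
  refine ⟨g.1, ?_, (cube_of_mem Q hg).1, by rw [← hg']; exact hg⟩
  intro h; apply hne; rw [hg', h]; rfl

theorem exists_snd (Q : Sylow 3 (A4 × A4)) :
    ∃ t : A4, t ≠ 1 ∧ t * t * t = 1 ∧ ((1, t) : A4 × A4) ∈ (Q : Subgroup (A4 × A4)) := by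
  obtain ⟨g, hg, hne, h1⟩ := pig Q (MonoidHom.fst A4 A4)
  have h1' : g.1 = 1 := h1
  have hg' : g = (1, g.2) := Prod.ext h1' rfl
  refine ⟨g.2, ?_, (cube_of_mem Q hg).2, by rw [← hg']; exact hg⟩
  intro h; apply hne; rw [hg', h]; rfl

theorem mem_normalizer_of_conj_mem {G : Type*} [Group G] (B : Subgroup G) [Finite B] {g : G}
    (h : ∀ b ∈ B, g * b * g⁻¹ ∈ B) : g ∈ Subgroup.normalizer (B : Set G) := by
  apply mem_normalizer_of_map_conj_eq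
  apply Subgroup.eq_of_le_of_card_ge
  · rintro _ ⟨b, hb, rfl⟩
    exact h b hb
  · rw [card_map_conj]

theorem inv_cube {s : A4} (hs3 : s * s * s = 1) : s⁻¹ * s⁻¹ * s⁻¹ = 1 := by
  have : (s * s * s)⁻¹ = s⁻¹ * s⁻¹ * s⁻¹ := by simp only [mul_inv_rev, mul_assoc]
  rw [← this, hs3, inv_one]

theorem result
    (X : Sylow 2 (↥(alternatingGroup (Fin 4)) × ↥(alternatingGroup (Fin 4))))
    (Q : Sylow 3 (↥(alternatingGroup (Fin 4)) × ↥(alternatingGroup (Fin 4))))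
    (B : Subgroup (↥(alternatingGroup (Fin 4)) × ↥(alternatingGroup (Fin 4)))) (hBX : B ≤ (X : Subgroup _)) (hB4 : Nat.card ↥B = 4) :
    B ⊓ ((X : Subgroup _) ⊓ Subgroup.prod ⊤ ⊥) ≠ ⊥ ∨ B ⊓ ((X : Subgroup _) ⊓ Subgroup.prod ⊥ ⊤) ≠ ⊥ ∨
      ∃ R : Subgroup (↥(alternatingGroup (Fin 4)) × ↥(alternatingGroup (Fin 4))), R ≤ (Q : Subgroup _) ∧ Nat.card ↥R = 3 ∧
        R ≠ (Q : Subgroup _) ⊓ Subgroup.prod ⊤ ⊥ ∧ R ≠ (Q : Subgroup _) ⊓ Subgroup.prod ⊥ ⊤ ∧ R ≤ Subgroup.normalizer (B : Set _) := by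
  by_cases h1 : B ⊓ ((X : Subgroup (A4 × A4)) ⊓ Subgroup.prod ⊤ ⊥) = ⊥
  swap
  · exact Or.inl h1
  by_cases h2 : B ⊓ ((X : Subgroup (A4 × A4)) ⊓ Subgroup.prod ⊥ ⊤) = ⊥
  swap
  · exact Or.inr (Or.inl h2)
  right; right
  have hBsq : ∀ b ∈ B, b.1 * b.1 = 1 ∧ b.2 * b.2 = 1 := fun b hb => sq_of_mem X (hBX hb)
  have hB1 : ∀ b ∈ B, b.2 = 1 → b = 1 := by
    intro b hb h
    have : b ∈ B ⊓ ((X : Subgroup (A4 × A4)) ⊓ Subgroup.prod ⊤ ⊥) :=
      ⟨hb, hBX hb, Subgroup.mem_prod.2 ⟨Subgroup.mem_top _, Subgroup.mem_bot.2 h⟩⟩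
    rw [h1] at this
    exact Subgroup.mem_bot.1 this
  have hB2 : ∀ b ∈ B, b.1 = 1 → b = 1 := by
    intro b hb h
    have : b ∈ B ⊓ ((X : Subgroup (A4 × A4)) ⊓ Subgroup.prod ⊥ ⊤) :=
      ⟨hb, hBX hb, Subgroup.mem_prod.2 ⟨Subgroup.mem_bot.2 h, Subgroup.mem_top _⟩⟩
    rw [h2] at this
    exact Subgroup.mem_bot.1 this
  have hinj : ∀ b ∈ B, ∀ b' ∈ B, b.1 = b'.1 → b = b' := by
    intro b hb b' hb' h
    have := hB2 (b * b'⁻¹) (B.mul_mem hb (B.inv_mem hb'))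
      (by rw [Prod.fst_mul, Prod.fst_inv, h, mul_inv_cancel])
    exact mul_inv_eq_one.1 this
  have hBne : B ≠ ⊥ := by
    intro h; rw [h, Subgroup.card_bot] at hB4; norm_num at hB4
  obtain ⟨b1, hb1B, hb1⟩ : ∃ b1 ∈ B, b1 ≠ 1 := by
    by_contra hcon
    push Not at hcon
    exact hBne ((Subgroup.eq_bot_iff_forall B).2 hcon)
  have hb1sq : b1 * b1 = 1 := Prod.ext (hBsq b1 hb1B).1 (hBsq b1 hb1B).2
  obtain ⟨b2, hb2B, hb21, hb2b1⟩ : ∃ b2 ∈ B, b2 ≠ 1 ∧ b2 ≠ b1 := by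
    by_contra hcon
    push Not at hcon
    have hle : B ≤ Subgroup.zpowers b1 := by
      intro b hb
      by_cases hb' : b = 1
      · rw [hb']; exact Subgroup.one_mem _
      · rw [hcon b hb hb']; exact Subgroup.mem_zpowers b1
    have h2' : Nat.card (Subgroup.zpowers b1) = 2 := by
      rw [Nat.card_zpowers]
      have : Fact (Nat.Prime 2) := ⟨Nat.prime_two⟩
      exact orderOf_eq_prime (by rw [pow_two]; exact hb1sq) hb1
    have := Subgroup.card_le_of_le hle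
    rw [hB4, h2'] at this
    omega
  have hu : b1.1 ≠ 1 := fun h => hb1 (hB2 b1 hb1B h)
  have hu' : b1.2 ≠ 1 := fun h => hb1 (hB1 b1 hb1B h)
  have hw : b2.1 ≠ 1 := fun h => hb21 (hB2 b2 hb2B h)
  have hw' : b2.2 ≠ 1 := fun h => hb21 (hB1 b2 hb2B h)
  have hwu : b2.1 ≠ b1.1 := fun h => hb2b1 (hinj b2 hb2B b1 hb1B h)
  have hwu' : b2.2 ≠ b1.2 := by
    intro h
    have := hB1 (b2 * b1⁻¹) (B.mul_mem hb2B (B.inv_mem hb1B))
      (by rw [Prod.snd_mul, Prod.snd_inv, h, mul_inv_cancel])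
    exact hb2b1 (mul_inv_eq_one.1 this)
  have hBel : ∀ b ∈ B, b = 1 ∨ b = b1 ∨ b = b2 ∨ b = b1 * b2 := by
    intro b hb
    rcases d6 b1.1 b2.1 b.1
      ⟨hu, (hBsq b1 hb1B).1, hw, (hBsq b2 hb2B).1, hwu, (hBsq b hb).1⟩ with h | h | h | h
    · exact Or.inl (hB2 b hb h)
    · exact Or.inr (Or.inl (hinj b hb b1 hb1B h))
    · exact Or.inr (Or.inr (Or.inl (hinj b hb b2 hb2B h)))
    · exact Or.inr (Or.inr (Or.inr (hinj b hb (b1 * b2) (B.mul_mem hb1B hb2B)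
        (by rw [h, Prod.fst_mul]))))
  obtain ⟨s, hs1, hs3, hsQ⟩ := exists_fst Q
  obtain ⟨t, ht1, ht3, htQ⟩ := exists_snd Q
  have key : ∀ s' t' : A4, s' ≠ 1 → s' * s' * s' = 1 → t' ≠ 1 → t' * t' * t' = 1 →
      b2.1 = s' * b1.1 * s'⁻¹ → b2.2 = t' * b1.2 * t'⁻¹ →
      ((s', t') : A4 × A4) ∈ Subgroup.normalizer (B : Set (A4 × A4)) := by
    intro s' t' hs'1 hs'3 ht'1 ht'3 e1 e2
    have c1 : ((s', t') : A4 × A4) * b1 * ((s', t') : A4 × A4)⁻¹ = b2 := by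
      apply Prod.ext
      · simp only [Prod.fst_mul, Prod.fst_inv]; exact e1.symm
      · simp only [Prod.snd_mul, Prod.snd_inv]; exact e2.symm
    have c2 : ((s', t') : A4 × A4) * b2 * ((s', t') : A4 × A4)⁻¹ = b2 * b1 := by
      apply Prod.ext
      · simp only [Prod.fst_mul, Prod.fst_inv]
        rw [e1]; exact d5 s' b1.1 ⟨hs'1, hs'3, (hBsq b1 hb1B).1⟩
      · simp only [Prod.snd_mul, Prod.snd_inv]
        rw [e2]; exact d5 t' b1.2 ⟨ht'1, ht'3, (hBsq b1 hb1B).2⟩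
    have hBfin : Finite B := inferInstance
    apply mem_normalizer_of_conj_mem
    intro b hb
    rcases hBel b hb with rfl | rfl | rfl | rfl
    · rw [mul_one, mul_inv_cancel]; exact B.one_mem
    · rw [c1]; exact hb2B
    · rw [c2]; exact B.mul_mem hb2B hb1B
    · have : ((s', t') : A4 × A4) * (b1 * b2) * ((s', t') : A4 × A4)⁻¹ =
          (((s', t') : A4 × A4) * b1 * ((s', t') : A4 × A4)⁻¹) *
            (((s', t') : A4 × A4) * b2 * ((s', t') : A4 × A4)⁻¹) := by group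
      rw [this, c1, c2]; exact B.mul_mem hb2B (B.mul_mem hb2B hb1B)
  have fin : ∀ t' : A4, t' ≠ 1 → t' * t' * t' = 1 →
      ((1, t') : A4 × A4) ∈ (Q : Subgroup (A4 × A4)) →
      ((s, t') : A4 × A4) ∈ Subgroup.normalizer (B : Set (A4 × A4)) →
      ∃ R : Subgroup (A4 × A4), R ≤ (Q : Subgroup (A4 × A4)) ∧ Nat.card ↥R = 3 ∧
        R ≠ (Q : Subgroup (A4 × A4)) ⊓ Subgroup.prod ⊤ ⊥ ∧
        R ≠ (Q : Subgroup (A4 × A4)) ⊓ Subgroup.prod ⊥ ⊤ ∧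
        R ≤ Subgroup.normalizer (B : Set (A4 × A4)) := by
    intro t' ht'1 ht'3 ht'Q hN
    have hmem : ((s, t') : A4 × A4) ∈ (Q : Subgroup (A4 × A4)) := by
      have := (Q : Subgroup (A4 × A4)).mul_mem hsQ ht'Q
      rw [Prod.mk_mul_mk, mul_one, one_mul] at this
      exact this
    refine ⟨Subgroup.zpowers (s, t'), ?_, ?_, ?_, ?_, ?_⟩
    · rw [Subgroup.zpowers_le]; exact hmem
    · rw [Nat.card_zpowers]
      have : Fact (Nat.Prime 3) := ⟨Nat.prime_three⟩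
      apply orderOf_eq_prime
      · rw [pow_succ, pow_two]
        exact Prod.ext hs3 ht'3
      · intro h; exact hs1 (congrArg Prod.fst h)
    · intro h
      have : ((s, t') : A4 × A4) ∈ (Q : Subgroup (A4 × A4)) ⊓ Subgroup.prod ⊤ ⊥ := by
        rw [← h]; exact Subgroup.mem_zpowers _
      exact ht'1 (Subgroup.mem_bot.1 (Subgroup.mem_prod.1 this.2).2)
    · intro h
      have : ((s, t') : A4 × A4) ∈ (Q : Subgroup (A4 × A4)) ⊓ Subgroup.prod ⊥ ⊤ := by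
        rw [← h]; exact Subgroup.mem_zpowers _
      exact hs1 (Subgroup.mem_bot.1 (Subgroup.mem_prod.1 this.2).1)
    · rw [Subgroup.zpowers_le]; exact hN
  have hsi1 : s⁻¹ ≠ 1 := inv_ne_one.2 hs1
  have hsi3 : s⁻¹ * s⁻¹ * s⁻¹ = 1 := inv_cube hs3
  have hti1 : t⁻¹ ≠ 1 := inv_ne_one.2 ht1
  have hti3 : t⁻¹ * t⁻¹ * t⁻¹ = 1 := inv_cube ht3
  have htiQ : ((1, t⁻¹) : A4 × A4) ∈ (Q : Subgroup (A4 × A4)) := by
    have := (Q : Subgroup (A4 × A4)).inv_mem htQ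
    rw [Prod.inv_mk, inv_one] at this
    exact this
  rcases d4 s b1.1 b2.1 ⟨hs1, hs3, hu, (hBsq b1 hb1B).1, hw, (hBsq b2 hb2B).1, hwu⟩ with e1 | e1 <;>
  rcases d4 t b1.2 b2.2 ⟨ht1, ht3, hu', (hBsq b1 hb1B).2, hw', (hBsq b2 hb2B).2, hwu'⟩ with e2 | e2
  · exact fin t ht1 ht3 htQ (key s t hs1 hs3 ht1 ht3 e1 e2)
  · exact fin t⁻¹ hti1 hti3 htiQ (key s t⁻¹ hs1 hs3 hti1 hti3 e1 (by rw [inv_inv]; exact e2))
  · have hN := key s⁻¹ t hsi1 hsi3 ht1 ht3 (by rw [inv_inv]; exact e1) e2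
    have hN' := (Subgroup.normalizer (B : Set (A4 × A4))).inv_mem hN
    rw [Prod.inv_mk, inv_inv] at hN'
    exact fin t⁻¹ hti1 hti3 htiQ hN'
  · have hN := key s⁻¹ t⁻¹ hsi1 hsi3 hti1 hti3 (by rw [inv_inv]; exact e1)
      (by rw [inv_inv]; exact e2)
    have hN' := (Subgroup.normalizer (B : Set (A4 × A4))).inv_mem hN
    rw [Prod.inv_mk, inv_inv, inv_inv] at hN'
    exact fin t ht1 ht3 htQ hN'

end Cfsg.Agent.S4406
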