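import Cfsg.Statements.S4408
import Mathlib
import Cfsg.Agent.S0044
import Cfsg.Agent.S4314
import Cfsg.Agent.Lib.Helper24.Fitting

set_option autoImplicit false
open Cfsg

namespace Cfsg.Agent.S4408

/-- Commuting involutions normalizing an abelian subgroup have a common eigenvector. -/
theorem eigen_exists {G : Type*} [Group G] (V : Subgroup G)
    (hab : ∀ a ∈ V, ∀ b ∈ V, a * b = b * a) (hV : V ≠ ⊥)
    (J : Finset G) (hJ2 : ∀ s ∈ J, s * s = 1) (hJV : ∀ s ∈ J, ∀ v ∈ V, s * v * s⁻¹ ∈ V)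
    (hJc : ∀ s ∈ J, ∀ s' ∈ J, s * s' = s' * s) :
    ∃ x ∈ V, x ≠ 1 ∧ ∀ s ∈ J, s * x * s⁻¹ = x ∨ s * x * s⁻¹ = x⁻¹ := by
  classical
  induction J using Finset.induction_on with
  | empty =>
    obtain ⟨⟨x, hx⟩, hx1⟩ := (Subgroup.ne_bot_iff_exists_ne_one).mp hV
    exact ⟨x, hx, fun h => hx1 (Subtype.ext h), fun s hs => absurd hs (Finset.notMem_empty s)⟩
  | insert ψ J' hψ ih =>
    obtain ⟨x, hx, hx1, hxe⟩ := ih (fun s hs => hJ2 s (Finset.mem_insert_of_mem hs))
      (fun s hs => hJV s (Finset.mem_insert_of_mem hs))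
      (fun s hs s' hs' => hJc s (Finset.mem_insert_of_mem hs) s' (Finset.mem_insert_of_mem hs'))
    have hψJ : ψ ∈ insert ψ J' := Finset.mem_insert_self ψ J'
    by_cases hcase : ψ * x * ψ⁻¹ = x⁻¹
    · refine ⟨x, hx, hx1, ?_⟩
      intro s hs
      rcases Finset.mem_insert.mp hs with rfl | hs'
      · exact Or.inr hcase
      · exact hxe s hs'
    · set u := ψ * x * ψ⁻¹ with hu
      have huV : u ∈ V := hJV ψ hψJ x hx
      have hψψ : ψ * ψ = 1 := hJ2 ψ hψJ
      have hψinv : ψ⁻¹ = ψ := inv_eq_of_mul_eq_one_left hψψ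
      have hψu : ψ * u * ψ⁻¹ = x := by
        rw [hu, hψinv]
        calc ψ * (ψ * x * ψ) * ψ = (ψ * ψ) * x * (ψ * ψ) := by group
          _ = x := by rw [hψψ, one_mul, mul_one]
      refine ⟨x * u, V.mul_mem hx huV, ?_, ?_⟩
      · intro h
        apply hcase
        exact (eq_inv_of_mul_eq_one_right h)
      · intro s hs
        rcases Finset.mem_insert.mp hs with rfl | hs'
        · left
          calc s * (x * u) * s⁻¹ = (s * x * s⁻¹) * (s * u * s⁻¹) := by group
            _ = u * x := by rw [hψu]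
            _ = x * u := hab u huV x hx
        · have hcomm : s * ψ = ψ * s := hJc s hs ψ hψJ
          have hsu : ∀ y : G, s * (ψ * y * ψ⁻¹) * s⁻¹ = ψ * (s * y * s⁻¹) * ψ⁻¹ := by
            intro y
            have h1 : s * ψ⁻¹ = ψ⁻¹ * s := by
              rw [hψinv]; exact hcomm
            calc s * (ψ * y * ψ⁻¹) * s⁻¹ = (s * ψ) * y * (s * ψ)⁻¹ := by group
              _ = (ψ * s) * y * (ψ * s)⁻¹ := by rw [hcomm]
              _ = ψ * (s * y * s⁻¹) * ψ⁻¹ := by group
          rcases hxe s hs' with h | h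
          · left
            calc s * (x * u) * s⁻¹ = (s * x * s⁻¹) * (s * u * s⁻¹) := by group
              _ = x * u := by rw [hu, hsu, h]
          · right
            calc s * (x * u) * s⁻¹ = (s * x * s⁻¹) * (s * u * s⁻¹) := by group
              _ = x⁻¹ * (ψ * x⁻¹ * ψ⁻¹) := by rw [hu, hsu, h]
              _ = x⁻¹ * u⁻¹ := by rw [hu]; group
              _ = (u * x)⁻¹ := by group
              _ = (x * u)⁻¹ := by rw [hab u huV x hx]

/-- An element of prime order in an abelian subgroup, inverted by a given involution and an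
eigenvector for all the commuting involutions. -/
theorem key {G : Type*} [Group G] [Finite G] (M I : Subgroup G)
    (hab : ∀ a ∈ M, ∀ b ∈ M, a * b = b * a)
    (hIc : ∀ s ∈ I, ∀ s' ∈ I, s * s' = s' * s) (hI2 : ∀ s ∈ I, s * s = 1)
    (hIM : ∀ s ∈ I, ∀ v ∈ M, s * v * s⁻¹ ∈ M)
    (t : G) (ht : t ∈ I) (htM : ∃ v ∈ M, t * v * t⁻¹ ≠ v) :
    ∃ x ∈ M, (orderOf x).Prime ∧ (∀ s ∈ I, s * x * s⁻¹ = x ∨ s * x * s⁻¹ = x⁻¹) ∧
      t * x * t⁻¹ = x⁻¹ := by
  classical
  have htt : t * t = 1 := hI2 t ht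
  have htinv : t⁻¹ = t := inv_eq_of_mul_eq_one_left htt
  let V : Subgroup G :=
    { carrier := {y | y ∈ M ∧ t * y * t⁻¹ = y⁻¹}
      mul_mem' := by
        rintro a b ⟨ha, ha'⟩ ⟨hb, hb'⟩
        refine ⟨M.mul_mem ha hb, ?_⟩
        calc t * (a * b) * t⁻¹ = (t * a * t⁻¹) * (t * b * t⁻¹) := by group
          _ = a⁻¹ * b⁻¹ := by rw [ha', hb']
          _ = (b * a)⁻¹ := by group
          _ = (a * b)⁻¹ := by rw [hab b hb a ha]
      one_mem' := ⟨M.one_mem, by group⟩
      inv_mem' := by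
        rintro a ⟨ha, ha'⟩
        refine ⟨M.inv_mem ha, ?_⟩
        calc t * a⁻¹ * t⁻¹ = (t * a * t⁻¹)⁻¹ := by group
          _ = a⁻¹⁻¹ := by rw [ha'] }
  have hVmem : ∀ y, y ∈ V ↔ y ∈ M ∧ t * y * t⁻¹ = y⁻¹ := fun y => Iff.rfl
  have hVab : ∀ a ∈ V, ∀ b ∈ V, a * b = b * a := fun a ha b hb => hab a ha.1 b hb.1
  have hVne : V ≠ ⊥ := by
    obtain ⟨v, hv, hvne⟩ := htM
    intro hbot
    have hy : v⁻¹ * (t * v * t⁻¹) ∈ V := by
      rw [hVmem]
      refine ⟨M.mul_mem (M.inv_mem hv) (hIM t ht v hv), ?_⟩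
      rw [htinv]
      calc t * (v⁻¹ * (t * v * t)) * t = t * v⁻¹ * t * v * (t * t) := by group
        _ = t * v⁻¹ * t * v := by rw [htt, mul_one]
        _ = (v⁻¹ * (t * v * t))⁻¹ := by
          rw [mul_inv_rev, inv_inv, mul_inv_rev, mul_inv_rev, htinv]
          group
    rw [hbot, Subgroup.mem_bot] at hy
    apply hvne
    have := eq_inv_of_mul_eq_one_right hy
    rw [inv_inv] at this
    exact this
  let J : Finset G := (Set.toFinite (I : Set G)).toFinset
  have hJ : ∀ s, s ∈ J ↔ s ∈ I := fun s => by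
    simp only [J, Set.Finite.mem_toFinset, SetLike.mem_coe]
  obtain ⟨x, hxV, hx1, hxe⟩ := eigen_exists V hVab hVne J
    (fun s hs => hI2 s ((hJ s).mp hs))
    (fun s hs v hv => by
      have hsI := (hJ s).mp hs
      rw [hVmem] at hv ⊢
      refine ⟨hIM s hsI v hv.1, ?_⟩
      have hc : t * s = s * t := hIc t ht s hsI
      calc t * (s * v * s⁻¹) * t⁻¹ = (t * s) * v * (t * s)⁻¹ := by group
        _ = (s * t) * v * (s * t)⁻¹ := by rw [hc]
        _ = s * (t * v * t⁻¹) * s⁻¹ := by group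
        _ = s * v⁻¹ * s⁻¹ := by rw [hv.2]
        _ = (s * v * s⁻¹)⁻¹ := by group)
    (fun s hs s' hs' => hIc s ((hJ s).mp hs) s' ((hJ s').mp hs'))
  have hxM : x ∈ M := hxV.1
  have hxt : t * x * t⁻¹ = x⁻¹ := hxV.2
  have hk1 : orderOf x ≠ 1 := fun h => hx1 (orderOf_eq_one_iff.mp h)
  obtain ⟨q, hq, hqk⟩ := Nat.exists_prime_and_dvd hk1
  have hk0 : orderOf x ≠ 0 := (orderOf_pos x).ne'
  refine ⟨x ^ (orderOf x / q), M.pow_mem hxM _, ?_, ?_, ?_⟩
  · rw [orderOf_pow_orderOf_div hk0 hqk]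
    exact hq
  · intro s hs
    rcases hxe s ((hJ s).mpr hs) with h | h
    · left
      rw [← conj_pow, h]
    · right
      rw [← conj_pow, h, inv_pow]
  · rw [← conj_pow, hxt, inv_pow]

/-- A maximal abelian subgroup normalized by `F` and `I` inside a normal nilpotent subgroup `F`
is self-centralizing in `F`. -/
theorem cent_le {S : Type*} [Group S] [Finite S] (F I M : Subgroup S) [hFn : F.Normal]
    (hFnil : Group.IsNilpotent F)
    (hIc : ∀ s ∈ I, ∀ s' ∈ I, s * s' = s' * s) (hI2 : ∀ s ∈ I, s * s = 1)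
    (hMF : M ≤ F) (hab : ∀ a ∈ M, ∀ b ∈ M, a * b = b * a)
    (hFM : F ≤ Subgroup.normalizer (M : Set S)) (hIM : I ≤ Subgroup.normalizer (M : Set S))
    (hmax : ∀ M' : Subgroup S, M ≤ M' → M' ≤ F → (∀ a ∈ M', ∀ b ∈ M', a * b = b * a) →
      F ≤ Subgroup.normalizer (M' : Set S) → I ≤ Subgroup.normalizer (M' : Set S) → M' = M) :
    F ⊓ Subgroup.centralizer (M : Set S) ≤ M := by
  classical
  by_contra hcon
  set N := F ⊓ Subgroup.centralizer (M : Set S) with hN
  -- conjugation by normalizing elements preserves `N`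
  have hNconj : ∀ g ∈ Subgroup.normalizer (M : Set S), ∀ a ∈ N, g * a * g⁻¹ ∈ N := by
    intro g hg a ha
    refine Subgroup.mem_inf.mpr ⟨hFn.conj_mem a ha.1 g, ?_⟩
    rw [Subgroup.mem_centralizer_iff]
    intro m hm
    have hm' : g⁻¹ * m * g ∈ M := by
      have := (Subgroup.mem_normalizer_iff.mp (Subgroup.inv_mem _ hg) m).mp hm
      rwa [inv_inv] at this
    have hc : (g⁻¹ * m * g) * a = a * (g⁻¹ * m * g) := (Subgroup.mem_centralizer_iff.mp ha.2) _ hm'
    calc m * (g * a * g⁻¹) = g * ((g⁻¹ * m * g) * a) * g⁻¹ := by group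
      _ = g * (a * (g⁻¹ * m * g)) * g⁻¹ := by rw [hc]
      _ = g * a * g⁻¹ * m := by group
  obtain ⟨n0, hn0⟩ := (Subgroup.isNilpotent_iff_lowerCentralSeries F).mp hFnil
  have hLn : ∀ k, (F.lowerCentralSeries k).Normal := by
    intro k
    induction k with
    | zero => exact hFn
    | succ k ih =>
      rw [Subgroup.lowerCentralSeries_succ]
      exact Subgroup.commutator_normal _ _
  have hex : ∃ k, N ⊓ F.lowerCentralSeries k ≤ M := ⟨n0, by rw [hn0, inf_bot_eq]; exact bot_le⟩
  have hk0 : Nat.find hex ≠ 0 := by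
    intro h0
    have := Nat.find_spec hex
    rw [h0, Subgroup.lowerCentralSeries_zero] at this
    apply hcon
    intro a ha
    exact this ⟨ha, ha.1⟩
  obtain ⟨k, hk⟩ : ∃ k, Nat.find hex = k + 1 := ⟨Nat.find hex - 1, by omega⟩
  have hXk : ¬ N ⊓ F.lowerCentralSeries k ≤ M := Nat.find_min hex (by omega)
  have hXk1 : N ⊓ F.lowerCentralSeries (k + 1) ≤ M := by
    have := Nat.find_spec hex
    rwa [hk] at this
  set X := N ⊓ F.lowerCentralSeries k with hX
  have hXF : X ≤ F := fun a ha => ha.1.1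
  have hXnorm : X ≤ Subgroup.normalizer (M : Set S) := hXF.trans hFM
  have hXconj : ∀ g ∈ Subgroup.normalizer (M : Set S), ∀ a ∈ X, g * a * g⁻¹ ∈ X := by
    intro g hg a ha
    exact ⟨hNconj g hg a ha.1, (hLn k).conj_mem a ha.2 g⟩
  have hX2 : ∀ a ∈ X, ∀ g ∈ F, a * g * a⁻¹ * g⁻¹ ∈ M := by
    intro a ha g hg
    apply hXk1
    refine ⟨?_, ?_⟩
    · have h1 : g * a⁻¹ * g⁻¹ ∈ N := hNconj g (hFM hg) a⁻¹ (N.inv_mem ha.1)
      have h2 : a * (g * a⁻¹ * g⁻¹) ∈ N := N.mul_mem ha.1 h1
      have e : a * g * a⁻¹ * g⁻¹ = a * (g * a⁻¹ * g⁻¹) := by group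
      rw [e]
      exact h2
    · rw [Subgroup.lowerCentralSeries_succ]
      exact Subgroup.commutator_mem_commutator ha.2 hg
  -- the quotient of the normalizer of `M` by `M`
  set NM := Subgroup.normalizer (M : Set S) with hNM
  have hMn : (M.subgroupOf NM).Normal := Subgroup.normal_in_normalizer
  let π : NM →* NM ⧸ M.subgroupOf NM := QuotientGroup.mk' (M.subgroupOf NM)
  have hπ1 : ∀ y : NM, π y = 1 ↔ (y : S) ∈ M := by
    intro y
    show (QuotientGroup.mk y : NM ⧸ M.subgroupOf NM) = 1 ↔ _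
    rw [QuotientGroup.eq_one_iff, Subgroup.mem_subgroupOf]
  let Vb : Subgroup (NM ⧸ M.subgroupOf NM) := (X.subgroupOf NM).map π
  have hVb : ∀ v ∈ Vb, ∃ a : NM, (a : S) ∈ X ∧ π a = v := by
    intro v hv
    obtain ⟨a, ha, rfl⟩ := Subgroup.mem_map.mp hv
    exact ⟨a, Subgroup.mem_subgroupOf.mp ha, rfl⟩
  have hVb' : ∀ a : NM, (a : S) ∈ X → π a ∈ Vb := fun a ha =>
    Subgroup.mem_map.mpr ⟨a, Subgroup.mem_subgroupOf.mpr ha, rfl⟩
  have hVab : ∀ a ∈ Vb, ∀ b ∈ Vb, a * b = b * a := by
    intro a ha b hb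
    obtain ⟨a', ha', rfl⟩ := hVb a ha
    obtain ⟨b', hb', rfl⟩ := hVb b hb
    rw [← map_mul, ← map_mul]
    have h1 : π ((a' * b') * (b' * a')⁻¹) = 1 := by
      rw [hπ1]
      have e : (((a' * b') * (b' * a')⁻¹ : NM) : S) = (a' : S) * b' * (a' : S)⁻¹ * (b' : S)⁻¹ := by
        push_cast
        group
      rw [e]
      exact hX2 _ ha' _ (hXF hb')
    rw [map_mul, map_inv] at h1
    exact mul_inv_eq_one.mp h1
  have hVne : Vb ≠ ⊥ := by
    intro hbot
    apply hXk
    intro a ha
    have h1 : π ⟨a, hXnorm ha⟩ ∈ Vb := hVb' ⟨a, hXnorm ha⟩ ha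
    rw [hbot, Subgroup.mem_bot, hπ1] at h1
    exact h1
  let J : Finset (NM ⧸ M.subgroupOf NM) :=
    (Set.toFinite (((I.subgroupOf NM).map π : Subgroup (NM ⧸ M.subgroupOf NM)) : Set _)).toFinset
  have hJ : ∀ s ∈ J, ∃ a : NM, (a : S) ∈ I ∧ π a = s := by
    intro s hs
    have hs' : s ∈ (I.subgroupOf NM).map π := by
      simpa only [J, Set.Finite.mem_toFinset, SetLike.mem_coe] using hs
    obtain ⟨a, ha, rfl⟩ := Subgroup.mem_map.mp hs'
    exact ⟨a, Subgroup.mem_subgroupOf.mp ha, rfl⟩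
  have hJ' : ∀ a : NM, (a : S) ∈ I → π a ∈ J := by
    intro a ha
    simp only [J, Set.Finite.mem_toFinset, SetLike.mem_coe]
    exact Subgroup.mem_map.mpr ⟨a, Subgroup.mem_subgroupOf.mpr ha, rfl⟩
  obtain ⟨xb, hxb, hxb1, hxbe⟩ := eigen_exists Vb hVab hVne J
    (by
      intro s hs
      obtain ⟨a, ha, rfl⟩ := hJ s hs
      rw [← map_mul]
      have : a * a = 1 := Subtype.ext (hI2 _ ha)
      rw [this, map_one])
    (by
      intro s hs v hv
      obtain ⟨a, ha, rfl⟩ := hJ s hs
      obtain ⟨b, hb, rfl⟩ := hVb v hv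
      rw [← map_inv, ← map_mul, ← map_mul]
      apply hVb'
      exact hXconj _ a.2 _ hb)
    (by
      intro s hs s' hs'
      obtain ⟨a, ha, rfl⟩ := hJ s hs
      obtain ⟨b, hb, rfl⟩ := hJ s' hs'
      rw [← map_mul, ← map_mul]
      have : a * b = b * a := Subtype.ext (hIc _ ha _ hb)
      rw [this])
  obtain ⟨x', hx'X, rfl⟩ := hVb xb hxb
  set x : S := (x' : S) with hx
  have hxM : x ∉ M := fun h => hxb1 ((hπ1 x').mpr h)
  have hxF : x ∈ F := hXF hx'X
  have hxC : x ∈ Subgroup.centralizer (M : Set S) := hx'X.1.2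
  -- the bigger abelian subgroup
  set D := M ⊔ Subgroup.zpowers x with hD
  have hMD : M ≤ D := le_sup_left
  have hxD : x ∈ D := (le_sup_right : Subgroup.zpowers x ≤ D) (Subgroup.mem_zpowers x)
  have hDF : D ≤ F := sup_le hMF ((Subgroup.zpowers_le).mpr hxF)
  have hDab : ∀ a ∈ D, ∀ b ∈ D, a * b = b * a := by
    have h1 : D ≤ Subgroup.centralizer (M : Set S) ⊓ Subgroup.centralizer ({x} : Set S) := by
      apply sup_le
      · intro m hm
        refine Subgroup.mem_inf.mpr ⟨?_, ?_⟩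
        · rw [Subgroup.mem_centralizer_iff]
          intro m' hm'
          exact hab m' hm' m hm
        · rw [Subgroup.mem_centralizer_singleton_iff]
          exact ((Subgroup.mem_centralizer_iff.mp hxC) m hm)
      · rw [Subgroup.zpowers_le]
        refine Subgroup.mem_inf.mpr ⟨hxC, ?_⟩
        rw [Subgroup.mem_centralizer_singleton_iff]
    intro a ha b hb
    have ha' := h1 ha
    have h2 : D ≤ Subgroup.centralizer ({a} : Set S) := by
      apply sup_le
      · intro m hm
        rw [Subgroup.mem_centralizer_singleton_iff]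
        exact (Subgroup.mem_centralizer_iff.mp ha'.1) m hm
      · rw [Subgroup.zpowers_le, Subgroup.mem_centralizer_singleton_iff]
        exact (Subgroup.mem_centralizer_singleton_iff.mp ha'.2).symm
    exact (Subgroup.mem_centralizer_singleton_iff.mp (h2 hb)).symm
  have hnormD : ∀ g : S, (∀ m ∈ M, g * m * g⁻¹ ∈ M) → g * x * g⁻¹ ∈ D →
      g ∈ Subgroup.normalizer (D : Set S) := by
    intro g hgM hgx
    apply Cfsg.Agent.S4314.mem_normalizer_of_conj_mem
    have hle : D ≤ D.comap (MulAut.conj g).toMonoidHom := by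
      apply sup_le
      · intro m hm
        rw [Subgroup.mem_comap]
        exact hMD (hgM m hm)
      · rw [Subgroup.zpowers_le, Subgroup.mem_comap]
        exact hgx
    intro d hd
    exact hle hd
  have hD1 : F ≤ Subgroup.normalizer (D : Set S) := by
    intro g hg
    apply hnormD g
    · intro m hm
      exact (Subgroup.mem_normalizer_iff.mp (hFM hg) m).mp hm
    · have h1 : x * g * x⁻¹ * g⁻¹ ∈ M := hX2 x hx'X g hg
      have e : g * x * g⁻¹ = (x * g * x⁻¹ * g⁻¹)⁻¹ * x := by group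
      rw [e]
      exact D.mul_mem (hMD (M.inv_mem h1)) hxD
  have hD2 : I ≤ Subgroup.normalizer (D : Set S) := by
    intro s hs
    apply hnormD s
    · intro m hm
      exact (Subgroup.mem_normalizer_iff.mp (hIM hs) m).mp hm
    · have hsJ : π ⟨s, hIM hs⟩ ∈ J := hJ' ⟨s, hIM hs⟩ hs
      have hconj : π ⟨s, hIM hs⟩ * π x' * (π ⟨s, hIM hs⟩)⁻¹
          = π (⟨s, hIM hs⟩ * x' * ⟨s, hIM hs⟩⁻¹) := by
        rw [map_mul, map_mul, map_inv]
      rcases hxbe _ hsJ with h | h
      · rw [hconj] at h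
        have h1 : π ((⟨s, hIM hs⟩ * x' * ⟨s, hIM hs⟩⁻¹) * x'⁻¹) = 1 := by
          rw [map_mul, h, map_inv, mul_inv_cancel]
        rw [hπ1] at h1
        have e : s * x * s⁻¹ = (s * x * s⁻¹ * x⁻¹) * x := by group
        rw [e]
        exact D.mul_mem (hMD h1) hxD
      · rw [hconj] at h
        have h1 : π ((⟨s, hIM hs⟩ * x' * ⟨s, hIM hs⟩⁻¹) * x') = 1 := by
          rw [map_mul, h, inv_mul_cancel]
        rw [hπ1] at h1
        have e : s * x * s⁻¹ = (s * x * s⁻¹ * x) * x⁻¹ := by group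
        rw [e]
        exact D.mul_mem (hMD h1) (D.inv_mem hxD)
  have hDM : D = M := hmax D hMD hDF hDab hD1 hD2
  exact hxM (hDM ▸ hxD)

theorem odd_sq {S : Type*} [Group S] [Finite S] (F : Subgroup S) (hF : Odd (Nat.card F))
    (c : S) (hc : c ∈ F) (h : c * c = 1) : c = 1 := by
  have h1 : orderOf c ∣ 2 := orderOf_dvd_of_pow_eq_one (by rw [pow_two]; exact h)
  have h2 : orderOf c ∣ Nat.card F := by
    have := orderOf_dvd_natCard (⟨c, hc⟩ : F)
    rwa [← Subgroup.orderOf_coe, Subgroup.coe_mk] at this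
  have h3 : Nat.Coprime 2 (Nat.card F) := Nat.coprime_two_left.mpr hF
  have h4 : orderOf c ∣ 1 := by
    have := Nat.dvd_gcd h1 h2
    rwa [Nat.Coprime.gcd_eq_one h3] at this
  exact orderOf_eq_one_iff.mp (Nat.dvd_one.mp h4)

/-- An elementary abelian `2`-subgroup acts faithfully on a self-centralizing normal abelian
subgroup of the Fitting subgroup when the latter has odd order. -/
theorem faithful {S : Type*} [Group S] [Finite S] [Group.IsSolvable S]
    (hF : Odd (Nat.card ↥(Cfsg.fittingSubgroup S))) (I M : Subgroup S) (hI2 : ∀ s ∈ I, s * s = 1)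
    (hMF : M ≤ Cfsg.fittingSubgroup S)
    (hFM : Cfsg.fittingSubgroup S ≤ Subgroup.normalizer (M : Set S))
    (hcent : Cfsg.fittingSubgroup S ⊓ Subgroup.centralizer (M : Set S) ≤ M) :
    I ⊓ Subgroup.centralizer (M : Set S) = ⊥ := by
  have hFn : (Cfsg.fittingSubgroup S).Normal := Cfsg.Agent.Lib.Helper24.fitting_normal'
  rw [eq_bot_iff]
  intro s hs
  rw [Subgroup.mem_bot]
  have hsI : s ∈ I := hs.1
  have hsM : ∀ m ∈ M, m * s = s * m := Subgroup.mem_centralizer_iff.mp hs.2
  have hss : s * s = 1 := hI2 s hsI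
  have hsF : s ∈ Subgroup.centralizer (Cfsg.fittingSubgroup S : Set S) := by
    rw [Subgroup.mem_centralizer_iff]
    intro g hg
    set c := g * s * g⁻¹ * s⁻¹ with hc
    have hcF : c ∈ Cfsg.fittingSubgroup S := by
      have h1 : s * g⁻¹ * s⁻¹ ∈ Cfsg.fittingSubgroup S := hFn.conj_mem _ (Subgroup.inv_mem _ hg) s
      have e : c = g * (s * g⁻¹ * s⁻¹) := by rw [hc]; group
      rw [e]
      exact Subgroup.mul_mem _ hg h1
    have hcC : c ∈ Subgroup.centralizer (M : Set S) := by
      rw [Subgroup.mem_centralizer_iff]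
      intro m hm
      have hm' : g⁻¹ * m * g ∈ M := by
        have := (Subgroup.mem_normalizer_iff.mp (Subgroup.inv_mem _ (hFM hg)) m).mp hm
        rwa [inv_inv] at this
      have h1 : s⁻¹ * m * s = m := by
        rw [mul_assoc, hsM m hm, ← mul_assoc, inv_mul_cancel, one_mul]
      have h2 : s * (g⁻¹ * m * g) * s⁻¹ = g⁻¹ * m * g := by
        rw [← hsM _ hm', mul_assoc, mul_inv_cancel, mul_one]
      have e1 : c * m * c⁻¹ = g * (s * (g⁻¹ * (s⁻¹ * m * s) * g) * s⁻¹) * g⁻¹ := by
        rw [hc]; group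
      rw [h1, h2] at e1
      have e2 : c * m * c⁻¹ = m := by
        rw [e1]; group
      calc m * c = (c * m * c⁻¹) * c := by rw [e2]
        _ = c * m := by group
    have hcM : c ∈ M := hcent ⟨hcF, hcC⟩
    have hcs : c * s = s * c := hsM c hcM
    have hcc : c * c = 1 := by
      have e1 : g * s * g⁻¹ = c * s := by rw [hc]; group
      have e2 : (g * s * g⁻¹) * (g * s * g⁻¹) = 1 := by
        calc (g * s * g⁻¹) * (g * s * g⁻¹) = g * (s * s) * g⁻¹ := by group
          _ = 1 := by rw [hss]; group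
      rw [e1] at e2
      calc c * c = c * c * (s * s) := by rw [hss, mul_one]
        _ = c * (c * s) * s := by group
        _ = c * (s * c) * s := by rw [hcs]
        _ = (c * s) * (c * s) := by group
        _ = 1 := e2
    have hc1 : c = 1 := odd_sq _ hF c hcF hcc
    have e : g * s = c * (s * g) := by rw [hc]; group
    rw [e, hc1, one_mul]
  have hsF' : s ∈ Cfsg.fittingSubgroup S := Cfsg.Agent.S0044.result hsF
  exact odd_sq _ hF s hsF' hss

theorem main_ind {S : Type*} [Group S] [Finite S] (M I : Subgroup S)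
    (hab : ∀ a ∈ M, ∀ b ∈ M, a * b = b * a) (hodd : ∀ v ∈ M, v * v = 1 → v = 1)
    (hIc : ∀ s ∈ I, ∀ s' ∈ I, s * s' = s' * s) (hI2 : ∀ s ∈ I, s * s = 1)
    (hIM : I ≤ Subgroup.normalizer (M : Set S))
    (hfaith : I ⊓ Subgroup.centralizer (M : Set S) = ⊥)
    (n : ℕ) (hIn : Nat.card I = 2 ^ n) :
    ∀ m, m ≤ n → ∃ f : Fin m → Subgroup S, (∀ i, (Nat.card (f i)).Prime) ∧ (∀ i, f i ≤ M) ∧
      (∀ i, I ≤ Subgroup.normalizer ((f i) : Set S)) ∧
      Nat.card ↥(⨆ i, f i) = ∏ i, Nat.card ↥(f i) ∧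
      Nat.card ↥(I ⊓ Subgroup.centralizer ((⨆ i, f i : Subgroup S) : Set S)) = 2 ^ (n - m) := by
  classical
  intro m
  induction m with
  | zero =>
    intro _
    refine ⟨fun _ => ⊥, fun i => i.elim0, fun i => i.elim0, fun i => i.elim0, ?_, ?_⟩
    · rw [iSup_of_empty, Subgroup.card_bot, Finset.univ_eq_empty, Finset.prod_empty]
    · rw [iSup_of_empty, Subgroup.coe_bot, Subgroup.centralizer_eq_top_iff_subset.mpr, inf_top_eq,
        hIn, Nat.sub_zero]
      intro y hy
      rw [Set.mem_singleton_iff] at hy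
      rw [hy]
      exact Subgroup.one_mem _
  | succ m ih =>
    intro hm
    obtain ⟨f, hf1, hf2, hf3, hf4, hf5⟩ := ih (by omega)
    set A : Subgroup S := ⨆ i, f i with hA
    have hAM : A ≤ M := iSup_le hf2
    set D : Subgroup S := I ⊓ Subgroup.centralizer (A : Set S) with hD
    have hDne : D ≠ ⊥ := by
      intro h
      rw [h, Subgroup.card_bot] at hf5
      have h2 : 2 ^ (n - m) = 2 ^ 0 := by rw [pow_zero]; exact hf5.symm
      have := Nat.pow_right_injective (le_refl 2) h2
      omega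
    obtain ⟨⟨t, htD⟩, ht1⟩ := (Subgroup.ne_bot_iff_exists_ne_one).mp hDne
    have ht1' : t ≠ 1 := fun h => ht1 (Subtype.ext h)
    have htI : t ∈ I := (Subgroup.mem_inf.mp htD).1
    have htA : ∀ a ∈ A, a * t = t * a := Subgroup.mem_centralizer_iff.mp (Subgroup.mem_inf.mp htD).2
    have hIMel : ∀ s ∈ I, ∀ v ∈ M, s * v * s⁻¹ ∈ M := fun s hs v hv =>
      (Subgroup.mem_normalizer_iff.mp (hIM hs) v).mp hv
    have htM : ∃ v ∈ M, t * v * t⁻¹ ≠ v := by
      by_contra hcon
      apply ht1'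
      have : t ∈ I ⊓ Subgroup.centralizer (M : Set S) := by
        refine Subgroup.mem_inf.mpr ⟨htI, ?_⟩
        rw [Subgroup.mem_centralizer_iff]
        intro v hv
        have h1 : t * v * t⁻¹ = v := by
          by_contra h
          exact hcon ⟨v, hv, h⟩
        calc v * t = (t * v * t⁻¹) * t := by rw [h1]
          _ = t * v := by group
      rw [hfaith, Subgroup.mem_bot] at this
      exact this
    obtain ⟨x, hxM, hxp, hxe, hxt⟩ := key M I hab hIc hI2 hIMel t htI htM
    have hx1 : x ≠ 1 := by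
      rintro rfl
      rw [orderOf_one] at hxp
      exact Nat.not_prime_one hxp
    have hxx : x⁻¹ ≠ x := by
      intro h
      apply hx1
      apply hodd x hxM
      calc x * x = x⁻¹ * x := by rw [h]
        _ = 1 := inv_mul_cancel x
    set B : Subgroup S := Subgroup.zpowers x with hB
    have hBM : B ≤ M := (Subgroup.zpowers_le).mpr hxM
    have hBcard : Nat.card B = orderOf x := Nat.card_zpowers x
    have hBI : I ≤ Subgroup.normalizer (B : Set S) := by
      intro s hs
      apply Cfsg.Agent.S4314.mem_normalizer_of_conj_mem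
      intro b hb
      obtain ⟨k, rfl⟩ := Subgroup.mem_zpowers_iff.mp hb
      rw [← conj_zpow]
      rcases hxe s hs with h | h
      · rw [h]
        exact Subgroup.zpow_mem _ (Subgroup.mem_zpowers x) k
      · rw [h]
        exact Subgroup.zpow_mem _ (Subgroup.inv_mem _ (Subgroup.mem_zpowers x)) k
    have htB : ∀ b ∈ B, t * b * t⁻¹ = b⁻¹ := by
      intro b hb
      obtain ⟨k, rfl⟩ := Subgroup.mem_zpowers_iff.mp hb
      rw [← conj_zpow, hxt, inv_zpow]
    have hdisj : A ⊓ B = ⊥ := by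
      rw [eq_bot_iff]
      intro a ha
      rw [Subgroup.mem_bot]
      have h1 : t * a * t⁻¹ = a := by
        rw [← htA a (Subgroup.mem_inf.mp ha).1]
        group
      have h2 : t * a * t⁻¹ = a⁻¹ := htB a (Subgroup.mem_inf.mp ha).2
      apply hodd a (hAM (Subgroup.mem_inf.mp ha).1)
      have h3 : a = a⁻¹ := h1.symm.trans h2
      calc a * a = a * a⁻¹ := by rw [← h3]
        _ = 1 := mul_inv_cancel a
    have hcardAB : Nat.card ↥(A ⊔ B) = Nat.card A * Nat.card B := by
      let φ : ↥A × ↥B →* S := MonoidHom.noncommCoprod A.subtype B.subtype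
        (fun a b => hab a (hAM a.2) b (hBM b.2))
      have hφinj : Function.Injective φ := by
        refine (MonoidHom.noncommCoprod_injective _ _ _).mpr
          ⟨A.subtype_injective, B.subtype_injective, ?_⟩
        rw [Subgroup.range_subtype, Subgroup.range_subtype, disjoint_iff]
        exact hdisj
      have hφr : φ.range = A ⊔ B := by
        have h1 : φ.range = A.subtype.range ⊔ B.subtype.range :=
          MonoidHom.noncommCoprod_range _ _ _
        rw [h1, Subgroup.range_subtype, Subgroup.range_subtype]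
      rw [← hφr, ← Nat.card_prod]
      exact (Nat.card_congr (Equiv.ofInjective φ hφinj)).symm
    refine ⟨Fin.snoc (α := fun _ => Subgroup S) f B, ?_, ?_, ?_, ?_, ?_⟩
    · intro i
      refine Fin.lastCases ?_ (fun j => ?_) i
      · rw [Fin.snoc_last, hBcard]
        exact hxp
      · rw [Fin.snoc_castSucc]
        exact hf1 j
    · intro i
      refine Fin.lastCases ?_ (fun j => ?_) i
      · rw [Fin.snoc_last]
        exact hBM
      · rw [Fin.snoc_castSucc]
        exact hf2 j
    · intro i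
      refine Fin.lastCases ?_ (fun j => ?_) i
      · rw [Fin.snoc_last]
        exact hBI
      · rw [Fin.snoc_castSucc]
        exact hf3 j
    all_goals
      have hsup : (⨆ i, (Fin.snoc (α := fun _ => Subgroup S) f B : Fin (m + 1) → Subgroup S) i)
          = A ⊔ B := by
        apply le_antisymm
        · apply iSup_le
          intro i
          refine Fin.lastCases ?_ (fun j => ?_) i
          · rw [Fin.snoc_last]
            exact le_sup_right
          · rw [Fin.snoc_castSucc]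
            exact (le_iSup f j).trans le_sup_left
        · apply sup_le
          · apply iSup_le
            intro j
            have := le_iSup (Fin.snoc (α := fun _ => Subgroup S) f B : Fin (m + 1) → Subgroup S)
              (Fin.castSucc j)
            rwa [Fin.snoc_castSucc] at this
          · have := le_iSup (Fin.snoc (α := fun _ => Subgroup S) f B : Fin (m + 1) → Subgroup S)
              (Fin.last m)
            rwa [Fin.snoc_last] at this
    · rw [hsup, hcardAB, Fin.prod_univ_castSucc, hf4]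
      congr 1
      · apply Finset.prod_congr rfl
        intro j _
        rw [Fin.snoc_castSucc]
      · rw [Fin.snoc_last]
    · rw [hsup]
      set D' : Subgroup S := I ⊓ Subgroup.centralizer ((A ⊔ B : Subgroup S) : Set S) with hD'
      have hD'D : D' ≤ D := by
        intro b hb
        refine Subgroup.mem_inf.mpr ⟨(Subgroup.mem_inf.mp hb).1, ?_⟩
        exact Subgroup.centralizer_le (SetLike.coe_subset_coe.mpr le_sup_left) (Subgroup.mem_inf.mp hb).2
      have hchar : ∀ b ∈ D, (b ∈ D' ↔ b * x * b⁻¹ = x) := by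
        intro b hb
        constructor
        · intro hb'
          have h1 : x * b = b * x :=
            (Subgroup.mem_centralizer_iff.mp (Subgroup.mem_inf.mp hb').2) x
              ((le_sup_right : B ≤ A ⊔ B) (Subgroup.mem_zpowers x))
          rw [← h1]
          group
        · intro hbx
          refine Subgroup.mem_inf.mpr ⟨(Subgroup.mem_inf.mp hb).1, ?_⟩
          have hle : A ⊔ B ≤ Subgroup.centralizer ({b} : Set S) := by
            apply sup_le
            · intro a ha
              rw [Subgroup.mem_centralizer_singleton_iff]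
              exact (Subgroup.mem_centralizer_iff.mp (Subgroup.mem_inf.mp hb).2) a ha
            · rw [Subgroup.zpowers_le, Subgroup.mem_centralizer_singleton_iff]
              calc x * b = (b * x * b⁻¹) * b := by rw [hbx]
                _ = b * x := by group
          rw [Subgroup.mem_centralizer_iff]
          intro h hh
          exact Subgroup.mem_centralizer_singleton_iff.mp (hle hh)
      have hrel : D'.relIndex D = 2 := by
        rw [Subgroup.relIndex_eq_two_iff]
        refine ⟨t, htD, ?_⟩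
        intro b hb
        have hbt : b * t ∈ D := D.mul_mem hb htD
        have hconj : (b * t) * x * (b * t)⁻¹ = (b * x * b⁻¹)⁻¹ := by
          calc (b * t) * x * (b * t)⁻¹ = b * (t * x * t⁻¹) * b⁻¹ := by group
            _ = b * x⁻¹ * b⁻¹ := by rw [hxt]
            _ = (b * x * b⁻¹)⁻¹ := by group
        rw [hchar (b * t) hbt, hchar b hb, hconj]
        rcases hxe b (Subgroup.mem_inf.mp hb).1 with h | h
        · right
          rw [h]
          exact ⟨rfl, hxx⟩
        · left
          rw [h, inv_inv]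
          exact ⟨rfl, hxx⟩
      have hmul : Nat.card D' * 2 = Nat.card D := by
        have := Subgroup.relIndex_mul_relIndex (⊥ : Subgroup S) D' D bot_le hD'D
        rwa [Subgroup.relIndex_bot_left, Subgroup.relIndex_bot_left, hrel] at this
      rw [hf5] at hmul
      have hpow : 2 ^ (n - m) = 2 ^ (n - (m + 1)) * 2 := by
        rw [← pow_succ]
        congr 1
        omega
      rw [hpow] at hmul
      exact Nat.eq_of_mul_eq_mul_right (by norm_num) hmul

/-- Let S be a finite solvable group whose Fitting subgroup F(S) has odd order, and let I be an elementary abelian 2-subgroup of S of order 2ⁿ with n ≥ 1. Then F(S) contains subgroups A₁, …, Aₙ of prime order, each normalized by I, pairwise commuting and generating a subgroup A of order |A₁|⋯|Aₙ| (their internal direct product), such that no non-identity element of I centralizes A. -/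
theorem result {S : Type*} [Group S] [Finite S]
    [Group.IsSolvable S] (hF : Odd (Nat.card ↥(Cfsg.fittingSubgroup S)))
    (I : Subgroup S) (hI : Cfsg.IsElementaryAbelian 2 I) (n : ℕ) (hn : 1 ≤ n) (hIn : Nat.card ↥I = 2 ^ n) :
    ∃ f : Fin n → Subgroup S, (∀ i, (Nat.card ↥(f i)).Prime) ∧ (∀ i, f i ≤ Cfsg.fittingSubgroup S) ∧
      (∀ i, I ≤ Subgroup.normalizer ((f i) : Set S)) ∧ (∀ i j, i ≠ j → ∀ a ∈ f i, ∀ b ∈ f j, a * b = b * a) ∧
      Nat.card ↥(⨆ i, f i) = ∏ i, Nat.card ↥(f i) ∧ I ⊓ Subgroup.centralizer ((⨆ i, f i : Subgroup S) : Set S) = ⊥ := by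
  classical
  set F := Cfsg.fittingSubgroup S with hFdef
  have hFn : F.Normal := Cfsg.Agent.Lib.Helper24.fitting_normal'
  have hFnil : Group.IsNilpotent F := Cfsg.Agent.Lib.Helper24.fitting_nilpotent
  have hI2 : ∀ s ∈ I, s * s = 1 := by
    intro s hs
    have := hI.2 s hs
    rwa [pow_two] at this
  have hIc : ∀ s ∈ I, ∀ s' ∈ I, s * s' = s' * s := by
    intro s hs s' hs'
    have := (isMulCommutative_iff.mp hI.1) ⟨s, hs⟩ ⟨s', hs'⟩
    exact congrArg Subtype.val this
  -- a maximal abelian subgroup of `F` normalized by `F` and `I`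
  let 𝓜 : Set (Subgroup S) := {M | M ≤ F ∧ (∀ a ∈ M, ∀ b ∈ M, a * b = b * a) ∧
    F ≤ Subgroup.normalizer (M : Set S) ∧ I ≤ Subgroup.normalizer (M : Set S)}
  have hbot : (⊥ : Subgroup S) ∈ 𝓜 := by
    refine ⟨bot_le, ?_, ?_, ?_⟩
    · intro a ha b hb
      rw [Subgroup.mem_bot] at ha hb
      rw [ha, hb]
    · intro g _
      apply Cfsg.Agent.S4314.mem_normalizer_of_conj_mem
      intro m hm
      rw [Subgroup.mem_bot] at hm ⊢
      rw [hm]; group
    · intro g _
      apply Cfsg.Agent.S4314.mem_normalizer_of_conj_mem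
      intro m hm
      rw [Subgroup.mem_bot] at hm ⊢
      rw [hm]; group
  obtain ⟨M, hM𝓜, hMmax⟩ := (wellFounded_gt (α := Subgroup S)).has_min 𝓜 ⟨⊥, hbot⟩
  obtain ⟨hMF, hab, hFM, hIM⟩ := hM𝓜
  have hcent : F ⊓ Subgroup.centralizer (M : Set S) ≤ M := by
    apply cent_le F I M hFnil hIc hI2 hMF hab hFM hIM
    intro M' hMM' hM'F hM'ab hM'1 hM'2
    by_contra hne
    exact hMmax M' ⟨hM'F, hM'ab, hM'1, hM'2⟩ (lt_of_le_of_ne hMM' (Ne.symm hne))
  have hfaith : I ⊓ Subgroup.centralizer (M : Set S) = ⊥ :=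
    faithful hF I M hI2 hMF hFM hcent
  have hodd : ∀ v ∈ M, v * v = 1 → v = 1 := fun v hv h => odd_sq F hF v (hMF hv) h
  obtain ⟨f, hf1, hf2, hf3, hf4, hf5⟩ := main_ind M I hab hodd hIc hI2 hIM hfaith n hIn n le_rfl
  refine ⟨f, hf1, fun i => (hf2 i).trans hMF, hf3, ?_, hf4, ?_⟩
  · intro i j _ a ha b hb
    exact hab a (hf2 i ha) b (hf2 j hb)
  · rw [Nat.sub_self, pow_zero] at hf5
    exact (Subgroup.card_eq_one).mp hf5

end Cfsg.Agent.S4408
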