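import Mathlib
import Cfsg.Statements.S4410
import Cfsg.Agent.S0044
import Cfsg.Agent.Lib.Helper24.Fitting

set_option autoImplicit false
open Cfsg

namespace Cfsg.Agent.S4410

/-- Pointwise core: `t = 1 + N` and `t' = 1 + N'` are transvections with centres `a`, `b`,
`P` commutes with `N`, fixes `a` and has square `t`; `U = t' t` and `g = U * (P U P⁻¹)`.
Then `U⁴ = 1`, or `g⁴` fixes `a` while `g` does not. -/
theorem core {V : Type*} [AddCommGroup V] [Module (ZMod 2) V]
    (N N' Pm Pi : V →ₗ[ZMod 2] V) (a b : V) (ha : a ≠ 0)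
    (hNa : ∀ v, N v = 0 ∨ N v = a) (hN'b : ∀ v, N' v = 0 ∨ N' v = b)
    (hNa0 : N a = 0) (hN'b0 : N' b = 0)
    (hPN : ∀ v, N (Pm v) = Pm (N v)) (hPa : Pm a = a)
    (hPi : ∀ v, Pi (Pm v) = v)
    (hPP : ∀ v, Pm (Pm v) = v + N v)
    (U g : V →ₗ[ZMod 2] V)
    (hU : ∀ v, U v = v + N v + N' v + N' (N v))
    (hg : ∀ v, g v = U (Pm (U (Pi v)))) :
    (∀ v, U (U (U (U v))) = v) ∨ (g (g (g (g a))) = a ∧ g a ≠ a) := by
  have h2 : ∀ v : V, v + v = 0 := fun v => ZModModule.add_self v
  have hNN : ∀ v, N (N v) = 0 := by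
    intro v
    rcases hNa v with h | h <;> rw [h]
    · exact map_zero N
    · exact hNa0
  have hN'N' : ∀ v, N' (N' v) = 0 := by
    intro v
    rcases hN'b v with h | h <;> rw [h]
    · exact map_zero N'
    · exact hN'b0
  rcases hNa b with hNb | hNb
  · left
    have hNN' : ∀ v, N (N' v) = 0 := by
      intro v
      rcases hN'b v with h | h <;> rw [h]
      · exact map_zero N
      · exact hNb
    have hU2 : ∀ v, U (U v) = v + N' (N v) := by
      intro v
      rw [hU (U v), hU v]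
      simp only [map_add, hNN, hNN', hN'N', add_zero, zero_add, map_zero]
      linear_combination (norm := abel) h2 (N v) + h2 (N' v) + h2 (N' (N v))
    intro v
    rw [hU2 (U (U v)), hU2 v]
    simp only [map_add, hNN', map_zero, add_zero]
    linear_combination (norm := abel) h2 (N' (N v))
  · rcases hN'b a with hN'a | hN'a
    · left
      have hN'N : ∀ v, N' (N v) = 0 := by
        intro v
        rcases hNa v with h | h <;> rw [h]
        · exact map_zero N'
        · exact hN'a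
      have hU2 : ∀ v, U (U v) = v + N (N' v) := by
        intro v
        rw [hU (U v), hU v]
        simp only [map_add, hNN, hN'N, hN'N', add_zero, zero_add, map_zero]
        linear_combination (norm := abel) h2 (N v) + h2 (N' v)
      intro v
      rw [hU2 (U (U v)), hU2 v]
      simp only [map_add, hN'N, map_zero, add_zero]
      linear_combination (norm := abel) h2 (N (N' v))
    · right
      have hNc : N (Pm b) = a := by rw [hPN, hNb, hPa]
      have hPc : Pm (Pm b) = b + a := by rw [hPP, hNb]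
      have hPia : Pi a = a := by
        have h1 := hPi a
        rwa [hPa] at h1
      have hPic : Pi (Pm b) = b := hPi b
      have hPib : Pi b = Pm b + a := by
        have h1 := hPi (Pm b + a)
        rw [map_add, hPc, hPa] at h1
        have h3 : b + a + a = b := by linear_combination (norm := abel) h2 a
        rwa [h3] at h1
      have hUa : U a = a + b := by
        rw [hU, hNa0, hN'a, map_zero]; abel
      have hUb : U b = a := by
        rw [hU, hNb, hN'b0, hN'a]
        linear_combination (norm := abel) h2 b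
      have hUc : U (Pm b) = Pm b + a + N' (Pm b) + b := by rw [hU, hNc, hN'a]
      have hgc : g (Pm b) = a + b := by rw [hg, hPic, hUb, hPa, hUa]
      have hga : g a = a + b + U (Pm b) := by
        rw [hg, hPia, hUa, map_add, hPa, map_add, hUa]
      rcases hN'b (Pm b) with hl | hl
      · rw [hl, add_zero] at hUc
        have hga' : g a = Pm b := by
          rw [hga, hUc]; linear_combination (norm := abel) h2 a + h2 b
        have hgb : g b = b := by
          rw [hg, hPib, map_add, hUc, hUa]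
          have h3 : Pm b + a + b + (a + b) = Pm b := by
            linear_combination (norm := abel) h2 a + h2 b
          rw [h3, hPc, map_add, hUb, hUa]
          linear_combination (norm := abel) h2 a
        refine ⟨?_, ?_⟩
        · rw [hga', hgc, map_add, hga', hgb, map_add, hgc, hgb]
          linear_combination (norm := abel) h2 b
        · rw [hga']
          intro h
          have h4 : b = a := by
            have h1 := hPi b
            rw [h, hPia] at h1
            exact h1.symm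
          rw [h4, hNa0] at hNb
          exact ha hNb.symm
      · rw [hl] at hUc
        have hUc' : U (Pm b) = Pm b + a := by
          rw [hUc]; linear_combination (norm := abel) h2 b
        have hga' : g a = b + Pm b := by
          rw [hga, hUc']; linear_combination (norm := abel) h2 a
        have hgb : g b = a + b + Pm b := by
          rw [hg, hPib, map_add, hUc', hUa]
          have h3 : Pm b + a + (a + b) = Pm b + b := by
            linear_combination (norm := abel) h2 a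
          rw [h3, map_add, hPc, map_add, map_add, hUb, hUa, hUc']
          linear_combination (norm := abel) h2 a
        refine ⟨?_, ?_⟩
        · rw [hga', map_add, hgb, hgc]
          have h3 : a + b + Pm b + (a + b) = Pm b := by
            linear_combination (norm := abel) h2 a + h2 b
          rw [h3, hgc, map_add, hga', hgb]
          linear_combination (norm := abel) h2 b + h2 (Pm b)
        · rw [hga']
          intro h
          have h5 : Pm b = a + b := by linear_combination (norm := abel) h - h2 b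
          have h6 := hPc
          rw [h5, map_add, hPa, h5] at h6
          have h7 : a = 0 := by linear_combination (norm := abel) h6
          exact ha h7

theorem fix_pow {V : Type*} [AddCommGroup V] [Module (ZMod 2) V] (e : V ≃ₗ[ZMod 2] V) (a : V)
    (h : e a = a) (m : ℕ) : (e ^ m) a = a := by
  induction m with
  | zero => simp
  | succ m ih => rw [pow_succ, LinearEquiv.mul_apply, h, ih]

theorem pow4_apply {V : Type*} [AddCommGroup V] [Module (ZMod 2) V] (e : V ≃ₗ[ZMod 2] V) (v : V) :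
    (e ^ 4) v = e (e (e (e v))) := by
  rw [pow_succ, pow_succ, pow_succ, pow_one]; rfl

theorem z2_cases : ∀ c : ZMod 2, c = 0 ∨ c = 1 := by decide

theorem result
    {V : Type*} [AddCommGroup V] [Module (ZMod 2) V] [Finite V]
    (S : Subgroup (V ≃ₗ[ZMod 2] V)) (hS : Group.IsSolvable ↥S) (hO2 : Cfsg.pCore 2 ↥S = ⊥)
    (P : V ≃ₗ[ZMod 2] V) (hPS : P ∈ S) (hP4 : orderOf P = 4)
    (hcub : ((P : V →ₗ[ZMod 2] V) - LinearMap.id) ^ 3 = 0) :
    4 ≤ Nat.card ↥(LinearMap.range (((P : V →ₗ[ZMod 2] V) - LinearMap.id) ^ 2)) := by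
  by_contra hcon
  push Not at hcon
  have h2 : ∀ v : V, v + v = 0 := fun v => ZModModule.add_self v
  have hp2 : Fact (Nat.Prime 2) := ⟨Nat.prime_two⟩
  have hfinGL : Finite (V ≃ₗ[ZMod 2] V) :=
    Finite.of_injective (fun e : V ≃ₗ[ZMod 2] V => (e : V → V)) DFunLike.coe_injective
  -- the map `N = (P - 1)^2`
  have hNv : ∀ v, ((((P : V →ₗ[ZMod 2] V) - LinearMap.id) ^ 2 : V →ₗ[ZMod 2] V)) v
      = P (P v) + v := by
    intro v
    rw [pow_two]
    simp only [Module.End.mul_apply, LinearMap.sub_apply, LinearEquiv.coe_coe, LinearMap.id_apply,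
      map_sub]
    linear_combination (norm := abel) -h2 (P v)
  generalize hNdef : ((P : V →ₗ[ZMod 2] V) - LinearMap.id) ^ 2 = N at hNv hcon
  -- `P^4 = 1`
  have hP4' : P ^ 4 = 1 := by rw [← hP4]; exact pow_orderOf_eq_one P
  have h4 : ∀ v, P (P (P (P v))) = v := by
    intro v
    have h1 := LinearEquiv.congr_fun hP4' v
    rw [pow4_apply] at h1
    exact h1
  -- the range of `N` has at most two elements
  have hrank : Module.finrank (ZMod 2) (LinearMap.range N) ≤ 1 := by
    have h1 := Module.natCard_eq_pow_finrank (K := ZMod 2) (V := LinearMap.range N)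
    rw [Nat.card_zmod] at h1
    by_contra h3
    push Not at h3
    have h5 : 2 ^ 2 ≤ 2 ^ Module.finrank (ZMod 2) (LinearMap.range N) :=
      Nat.pow_le_pow_right (by norm_num) h3
    omega
  obtain ⟨⟨a, haR⟩, hspan⟩ := finrank_le_one_iff.1 hrank
  have hNa : ∀ v, N v = 0 ∨ N v = a := by
    intro v
    obtain ⟨c, hc⟩ := hspan ⟨N v, LinearMap.mem_range_self N v⟩
    have hc' : c • a = N v := congrArg Subtype.val hc
    rcases z2_cases c with rfl | rfl
    · left; rw [← hc', zero_smul]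
    · right; rw [← hc', one_smul]
  -- `P^2 ≠ 1`
  have hPP1 : P * P ≠ 1 := by
    intro h
    have h1 : orderOf P ∣ 2 := orderOf_dvd_of_pow_eq_one (by rw [pow_two]; exact h)
    rw [hP4] at h1
    norm_num at h1
  have hex : ∃ v₀, N v₀ = a := by
    by_contra hne
    push Not at hne
    apply hPP1
    ext v
    have h1 : N v = 0 := by
      rcases hNa v with h | h
      · exact h
      · exact absurd h (hne v)
    rw [hNv] at h1
    show P (P v) = v
    linear_combination (norm := abel) h1 - h2 v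
  obtain ⟨v₀, hv₀⟩ := hex
  have ha : a ≠ 0 := by
    intro h0
    apply hPP1
    ext v
    have h1 : N v = 0 := by
      rcases hNa v with h | h
      · exact h
      · rw [h, h0]
    rw [hNv] at h1
    show P (P v) = v
    linear_combination (norm := abel) h1 - h2 v
  have hNa0 : N a = 0 := by
    rw [← hv₀, hNv, hNv, map_add, map_add, h4]
    linear_combination (norm := abel) h2 v₀ + h2 (P (P v₀))
  have hPN : ∀ v, N (P v) = P (N v) := by
    intro v
    rw [hNv, hNv, map_add]
  have hPa : P a = a := by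
    have h1 : P a = N (P v₀) := by rw [hPN, hv₀]
    rcases hNa (P v₀) with h | h
    · exfalso
      rw [h] at h1
      exact ha ((LinearEquiv.map_eq_zero_iff P).1 h1)
    · rw [h1, h]
  have hPP : ∀ v, P (P v) = v + N v := by
    intro v
    rw [hNv]
    linear_combination (norm := abel) -h2 v
  have hTinv : ∀ v, (P * P)⁻¹ v = P (P v) := by
    intro v
    rw [LinearEquiv.coe_inv, LinearEquiv.symm_apply_eq]
    exact (h4 v).symm
  -- group theory in `S`
  have hFn : (Cfsg.fittingSubgroup ↥S).Normal := Cfsg.Agent.Lib.Helper24.fitting_normal'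
  have hFnil : Group.IsNilpotent (Cfsg.fittingSubgroup ↥S) :=
    Cfsg.Agent.Lib.Helper24.fitting_nilpotent
  have hodd : ¬ 2 ∣ Nat.card (Cfsg.fittingSubgroup ↥S) := by
    obtain ⟨Q, hQn, hQle, hQp, hQi⟩ :=
      Cfsg.Agent.Lib.Helper24.exists_normal_sylow_of_nilpotent (Cfsg.fittingSubgroup ↥S) hFnil 2
    have hQbot : Q = ⊥ := by
      rw [eq_bot_iff, ← hO2]
      exact le_sSup ⟨hQn, hQp⟩
    rw [hQbot, Subgroup.relIndex_bot_left] at hQi
    exact hQi
  have hcop : ∀ w ∈ Cfsg.fittingSubgroup ↥S, ∃ m : ℕ, (w ^ 4) ^ m = w := by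
    intro w hw
    apply exists_pow_eq_self_of_coprime
    have h1 : orderOf w ∣ Nat.card (Cfsg.fittingSubgroup ↥S) := Subgroup.orderOf_dvd_natCard _ hw
    have h3 : ¬ 2 ∣ orderOf w := fun h => hodd (h.trans h1)
    have h5 : Nat.Coprime 2 (orderOf w) := (Nat.Prime.coprime_iff_not_dvd Nat.prime_two).2 h3
    exact Nat.Coprime.pow_left 2 h5
  have htS : (⟨P * P, S.mul_mem hPS hPS⟩ : ↥S) ≠ 1 := fun h => hPP1 (congrArg Subtype.val h)
  have htS2 : (⟨P * P, S.mul_mem hPS hPS⟩ : ↥S) ^ 2 = 1 := by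
    apply Subtype.ext
    show (P * P) ^ 2 = 1
    rw [← pow_two, ← pow_mul]; exact hP4'
  have hexy : ∃ y ∈ Cfsg.fittingSubgroup ↥S,
      y * (⟨P * P, S.mul_mem hPS hPS⟩ : ↥S) ≠ (⟨P * P, S.mul_mem hPS hPS⟩ : ↥S) * y := by
    by_contra hne
    push Not at hne
    have h1 : (⟨P * P, S.mul_mem hPS hPS⟩ : ↥S)
        ∈ Subgroup.centralizer (Cfsg.fittingSubgroup ↥S : Set ↥S) := by
      rw [Subgroup.mem_centralizer_iff]
      intro y hy
      exact hne y hy
    have h3 := Cfsg.Agent.S0044.result h1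
    have h5 : orderOf (⟨P * P, S.mul_mem hPS hPS⟩ : ↥S) = 2 := orderOf_eq_prime htS2 htS
    have h6 := Subgroup.orderOf_dvd_natCard _ h3
    rw [h5] at h6
    exact hodd h6
  obtain ⟨y, hyF, hyt⟩ := hexy
  -- the elements `u = [y, t]` and `g = u * u^P`
  have huF : y * (⟨P * P, S.mul_mem hPS hPS⟩ : ↥S) * y⁻¹ * (⟨P * P, S.mul_mem hPS hPS⟩ : ↥S)⁻¹
      ∈ Cfsg.fittingSubgroup ↥S := by
    have h1 := hFn.conj_mem y⁻¹ (Subgroup.inv_mem _ hyF) (⟨P * P, S.mul_mem hPS hPS⟩ : ↥S)
    have h3 := Subgroup.mul_mem _ hyF h1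
    have e : y * ((⟨P * P, S.mul_mem hPS hPS⟩ : ↥S) * y⁻¹ * (⟨P * P, S.mul_mem hPS hPS⟩ : ↥S)⁻¹)
        = y * (⟨P * P, S.mul_mem hPS hPS⟩ : ↥S) * y⁻¹ * (⟨P * P, S.mul_mem hPS hPS⟩ : ↥S)⁻¹ := by
      group
    rwa [e] at h3
  have hu1 : y * (⟨P * P, S.mul_mem hPS hPS⟩ : ↥S) * y⁻¹ * (⟨P * P, S.mul_mem hPS hPS⟩ : ↥S)⁻¹ ≠ 1 := by
    intro h
    apply hyt
    have h1 := mul_inv_eq_one.1 h
    exact mul_inv_eq_iff_eq_mul.1 h1
  generalize huS : y * (⟨P * P, S.mul_mem hPS hPS⟩ : ↥S) * y⁻¹ * (⟨P * P, S.mul_mem hPS hPS⟩ : ↥S)⁻¹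
    = uS at huF hu1
  have hgF : uS * ((⟨P, hPS⟩ : ↥S) * uS * (⟨P, hPS⟩ : ↥S)⁻¹) ∈ Cfsg.fittingSubgroup ↥S :=
    Subgroup.mul_mem _ huF (hFn.conj_mem uS huF _)
  -- linear maps
  have hT' : ∀ w, (y : V ≃ₗ[ZMod 2] V) (P (P ((y : V ≃ₗ[ZMod 2] V).symm w)))
      = w + (y : V ≃ₗ[ZMod 2] V) (N ((y : V ≃ₗ[ZMod 2] V).symm w)) := by
    intro w
    rw [hNv, map_add, LinearEquiv.apply_symm_apply]
    linear_combination (norm := abel) -h2 w
  have hUv : ∀ v, (uS : V ≃ₗ[ZMod 2] V) v
      = v + N v + (y : V ≃ₗ[ZMod 2] V) (N ((y : V ≃ₗ[ZMod 2] V).symm v))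
        + (y : V ≃ₗ[ZMod 2] V) (N ((y : V ≃ₗ[ZMod 2] V).symm (N v))) := by
    intro v
    rw [← huS]
    show (y : V ≃ₗ[ZMod 2] V) (P (P ((y : V ≃ₗ[ZMod 2] V).symm ((P * P)⁻¹ v)))) = _
    rw [hTinv, hT', hPP, map_add, map_add, map_add]
    abel
  have key := core N
    (((y : V ≃ₗ[ZMod 2] V) : V →ₗ[ZMod 2] V) ∘ₗ N ∘ₗ ((y : V ≃ₗ[ZMod 2] V).symm : V →ₗ[ZMod 2] V))
    (P : V →ₗ[ZMod 2] V) (P.symm : V →ₗ[ZMod 2] V) a ((y : V ≃ₗ[ZMod 2] V) a) ha hNa
    (by
      intro v
      show (y : V ≃ₗ[ZMod 2] V) (N ((y : V ≃ₗ[ZMod 2] V).symm v)) = 0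
        ∨ (y : V ≃ₗ[ZMod 2] V) (N ((y : V ≃ₗ[ZMod 2] V).symm v)) = (y : V ≃ₗ[ZMod 2] V) a
      rcases hNa ((y : V ≃ₗ[ZMod 2] V).symm v) with h | h
      · left; rw [h, map_zero]
      · right; rw [h])
    hNa0
    (by
      show (y : V ≃ₗ[ZMod 2] V) (N ((y : V ≃ₗ[ZMod 2] V).symm ((y : V ≃ₗ[ZMod 2] V) a))) = 0
      rw [LinearEquiv.symm_apply_apply, hNa0, map_zero])
    hPN hPa (fun v => LinearEquiv.symm_apply_apply P v) hPP
    ((uS : V ≃ₗ[ZMod 2] V) : V →ₗ[ZMod 2] V)
    (((uS * ((⟨P, hPS⟩ : ↥S) * uS * (⟨P, hPS⟩ : ↥S)⁻¹) : ↥S) : V ≃ₗ[ZMod 2] V) : V →ₗ[ZMod 2] V)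
    hUv (fun v => rfl)
  rcases key with hk | ⟨hk1, hk2⟩
  · -- `u^4 = 1`
    apply hu1
    obtain ⟨m, hm⟩ := hcop uS huF
    have h1 : uS ^ 4 = 1 := by
      apply Subtype.ext
      ext v
      show ((uS : V ≃ₗ[ZMod 2] V) ^ 4) v = v
      rw [pow4_apply]
      exact hk v
    rw [h1, one_pow] at hm
    exact hm.symm
  · obtain ⟨m, hm⟩ := hcop _ hgF
    apply hk2
    have h1 := congrArg (fun w : ↥S => (w : V ≃ₗ[ZMod 2] V) a) hm
    simp only [Subgroup.coe_pow] at h1
    have h3 : ((((uS * ((⟨P, hPS⟩ : ↥S) * uS * (⟨P, hPS⟩ : ↥S)⁻¹) : ↥S) : V ≃ₗ[ZMod 2] V) ^ 4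
        : V ≃ₗ[ZMod 2] V)) a = a := by
      rw [pow4_apply]; exact hk1
    rw [fix_pow _ a h3 m] at h1
    exact h1.symm

end Cfsg.Agent.S4410
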