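import Cfsg.Statements.S4412
import Mathlib

set_option autoImplicit false
open Cfsg

namespace Cfsg.Agent.S4412


theorem exists_sqrt {Q : Type*} [Group Q] [Finite Q] (hodd : Odd (Nat.card Q)) (q : Q) :
    ∃ f ∈ Subgroup.zpowers q, f * f = q := by
  have h1 : Odd (orderOf q) := Odd.of_dvd_nat hodd (orderOf_dvd_natCard q)
  obtain ⟨k, hk⟩ := h1
  refine ⟨q ^ (k + 1), Subgroup.npow_mem_zpowers q _, ?_⟩
  rw [← pow_add]
  have : k + 1 + (k + 1) = orderOf q + 1 := by omega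
  rw [this, pow_succ, pow_orderOf_eq_one, one_mul]

theorem odd_pow {Q : Type*} [Group Q] [Finite Q] (hodd : Odd (Nat.card Q)) (r : Q) :
    ∃ k : ℕ, r ^ (2 * k + 1) = 1 := by
  have h1 : Odd (orderOf r) := Odd.of_dvd_nat hodd (orderOf_dvd_natCard r)
  obtain ⟨k, hk⟩ := h1
  exact ⟨k, by rw [← hk, pow_orderOf_eq_one]⟩

theorem eq_one_of_sq {Q : Type*} [Group Q] [Finite Q] (hodd : Odd (Nat.card Q)) (x : Q)
    (h : x * x = 1) : x = 1 := by
  have h1 : Odd (orderOf x) := Odd.of_dvd_nat hodd (orderOf_dvd_natCard x)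
  have h2 : orderOf x ∣ 2 := orderOf_dvd_of_pow_eq_one (by rw [pow_two]; exact h)
  have h3 : orderOf x = 1 := by
    rcases (Nat.dvd_prime Nat.prime_two).mp h2 with h | h
    · exact h
    · rw [h] at h1; exact absurd h1 (by decide)
  exact orderOf_eq_one_iff.mp h3

theorem conj_pow' {Q : Type*} [Group Q] (u v : Q) (k : ℕ) :
    (u⁻¹ * v * u) ^ k = u⁻¹ * v ^ k * u := by
  induction k with
  | zero => simp
  | succ n ih => rw [pow_succ, ih, pow_succ]; group

/-- product decomposition for a four-group of automorphisms of an odd order group -/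
theorem prod_decomp {Q : Type*} [Group Q] [Finite Q] (hodd : Odd (Nat.card Q)) (a b : MulAut Q)
    (ha : ∀ x, a (a x) = x) (hb : ∀ x, b (b x) = x) (hab : ∀ x, a (b x) = b (a x))
    (S : Subgroup Q) (hSa : ∀ y ∈ S, a y ∈ S) (hSb : ∀ y ∈ S, b y ∈ S) (x : Q) (hx : x ∈ S) :
    ∃ f ∈ S, ∃ g ∈ S, ∃ h ∈ S, a f = f ∧ a (b g) = g ∧ b h = h ∧ x = f * g * h := by
  obtain ⟨s, hs⟩ : ∃ s, s = x * (b x)⁻¹ := ⟨_, rfl⟩
  obtain ⟨t, ht⟩ : ∃ t, t = a s := ⟨_, rfl⟩
  obtain ⟨r, hr⟩ : ∃ r, r = t * s⁻¹ := ⟨_, rfl⟩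
  have hsS : s ∈ S := hs ▸ S.mul_mem hx (S.inv_mem (hSb x hx))
  have htS : t ∈ S := ht ▸ hSa s hsS
  have hrS : r ∈ S := hr ▸ S.mul_mem htS (S.inv_mem hsS)
  have bs : b s = s⁻¹ := by rw [hs, map_mul, map_inv, hb]; group
  have at_ : a t = s := by rw [ht, ha]
  have bt : b t = t⁻¹ := by rw [ht, ← hab, bs, map_inv]
  obtain ⟨k, hk⟩ := odd_pow hodd r
  obtain ⟨q, hq⟩ : ∃ q, q = r ^ k * t := ⟨_, rfl⟩
  have hqS : q ∈ S := hq ▸ S.mul_mem (S.pow_mem hrS k) htS
  have ar : a r = r⁻¹ := by rw [hr, map_mul, map_inv, at_, ← ht]; group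
  have br : b r = t⁻¹ * r⁻¹ * t := by rw [hr, map_mul, map_inv, bt, bs]; group
  have hk2 : r ^ k = (r ^ (k + 1))⁻¹ := by
    apply eq_inv_of_mul_eq_one_left
    rw [← pow_add]
    have : k + (k + 1) = 2 * k + 1 := by ring
    rw [this, hk]
  have hs' : s = r⁻¹ * t := by rw [hr]; group
  have aq : a q = q := by
    rw [hq, map_mul, map_pow, ar, at_, hs', hk2, inv_pow, pow_succ]; group
  have bq : b q = q⁻¹ := by
    rw [hq, map_mul, map_pow, br, bt, conj_pow', inv_pow]; group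
  have cq : a (b q) = q⁻¹ := by rw [bq, map_inv, aq]
  obtain ⟨f, hfz, hff⟩ := exists_sqrt hodd q
  have hfS : f ∈ S := (Subgroup.zpowers_le.mpr hqS) hfz
  have af : a f = f := by
    obtain ⟨n, rfl⟩ := Subgroup.mem_zpowers_iff.mp hfz
    rw [map_zpow, aq]
  have cf : a (b f) = f⁻¹ := by
    obtain ⟨n, rfl⟩ := Subgroup.mem_zpowers_iff.mp hfz
    rw [map_zpow, map_zpow, cq, inv_zpow]
  obtain ⟨q', hq'⟩ : ∃ q', q' = x⁻¹ * q * a (b x) := ⟨_, rfl⟩
  have hq'S : q' ∈ S := hq' ▸ S.mul_mem (S.mul_mem (S.inv_mem hx) hqS) (hSa _ (hSb x hx))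
  have key : q * s⁻¹ * q = t := by
    have e1 : q * s⁻¹ * q = r ^ k * (t * s⁻¹) * r ^ k * t := by rw [hq]; group
    rw [e1, ← hr, ← pow_succ, ← pow_add]
    have : k + 1 + k = 2 * k + 1 := by ring
    rw [this, hk, one_mul]
  have hax : a x = q * b x * x⁻¹ * q * a (b x) := by
    have e2 : t = a x * (a (b x))⁻¹ := by rw [ht, hs, map_mul, map_inv]
    have e3 : s⁻¹ = b x * x⁻¹ := by rw [hs]; group
    rw [e3, e2] at key
    have e7 : a x = (a x * (a (b x))⁻¹) * a (b x) := by group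
    rw [e7, ← key]; group
  have bq' : b q' = q' := by
    rw [hq', map_mul, map_mul, map_inv, bq, ← hab, hb, hax]; group
  have cq' : a (b q') = q'⁻¹ := by
    have e4 : a (b (a (b x))) = x := by rw [← hab, ha, hb]
    rw [hq', map_mul, map_mul, map_mul, map_mul, map_inv, map_inv, cq, e4]; group
  obtain ⟨f', hf'z, hf'f⟩ := exists_sqrt hodd q'
  have hf'S : f' ∈ S := (Subgroup.zpowers_le.mpr hq'S) hf'z
  have bf' : b f' = f' := by
    obtain ⟨n, rfl⟩ := Subgroup.mem_zpowers_iff.mp hf'z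
    rw [map_zpow, bq']
  have cf' : a (b f') = f'⁻¹ := by
    obtain ⟨n, rfl⟩ := Subgroup.mem_zpowers_iff.mp hf'z
    rw [map_zpow, map_zpow, cq', inv_zpow]
  refine ⟨f, hfS, f⁻¹ * x * f', S.mul_mem (S.mul_mem (S.inv_mem hfS) hx) hf'S, f'⁻¹, S.inv_mem hf'S,
    af, ?_, by rw [map_inv, bf'], by group⟩
  have e5 : x * (f' * f') = (f * f) * a (b x) := by rw [hf'f, hff, hq']; group
  have e6 : a (b x) = f⁻¹ * f⁻¹ * x * f' * f' := by
    have : a (b x) = (f * f)⁻¹ * (x * (f' * f')) := by rw [e5]; group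
    rw [this]; group
  rw [map_mul, map_mul, map_mul, map_mul, map_inv, map_inv, cf, cf', e6]; group

theorem inv_of_fpf {Q : Type*} [Group Q] [Finite Q] (z : MulAut Q) (hz : ∀ x, z (z x) = x)
    (hfix : ∀ x, z x = x → x = 1) : ∀ x, z x = x⁻¹ := by
  have hinj : Function.Injective (fun x : Q => x⁻¹ * z x) := by
    intro x y hxy
    simp only at hxy
    have h1 : z (y * x⁻¹) = y * x⁻¹ := by
      rw [map_mul, map_inv]
      have : z y = y * (x⁻¹ * z x) := by rw [hxy]; group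
      rw [this]; group
    have h2 := hfix _ h1
    have : y = x := by rw [mul_inv_eq_one] at h2; exact h2
    exact this.symm
  have hsurj := Finite.surjective_of_injective hinj
  intro w
  obtain ⟨x, rfl⟩ := hsurj w
  simp only [map_mul, map_inv, hz]
  group

theorem comm_of_inv {Q : Type*} [Group Q] (z : MulAut Q) (hz : ∀ x, z x = x⁻¹) (x y : Q) :
    x * y = y * x := by
  have h1 : z (x⁻¹ * y⁻¹) = (x⁻¹ * y⁻¹)⁻¹ := hz _
  rw [map_mul, hz, hz] at h1
  simpa using h1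

theorem pm_lemma {P : Type*} [Group P] [Finite P] {p : ℕ} (hp : p.Prime) (hp2 : p ≠ 2)
    (hP : IsPGroup p P) (T : MulAut P) (hT : ∀ x, T (T x) = x) (g : P)
    (hg : T g ∈ Subgroup.zpowers g) : T g = g ∨ T g = g⁻¹ := by
  obtain ⟨m, hm⟩ := Subgroup.mem_zpowers_iff.mp hg
  have h1 : g ^ (m * m) = g := by rw [zpow_mul, hm, ← map_zpow, hm, hT]
  have h2 : g ^ (m * m - 1) = 1 := by rw [zpow_sub, zpow_one, h1, mul_inv_cancel]
  have h3 : (orderOf g : ℤ) ∣ m * m - 1 := orderOf_dvd_iff_zpow_eq_one.mpr h2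
  obtain ⟨e, he⟩ : ∃ e, orderOf g = p ^ e := by
    obtain ⟨k, hk⟩ := hP g
    obtain ⟨e, -, he⟩ := (Nat.dvd_prime_pow hp).mp (orderOf_dvd_of_pow_eq_one hk)
    exact ⟨e, he⟩
  have h4 : ((p : ℤ) ^ e) ∣ (m - 1) * (m + 1) := by
    have : (m - 1) * (m + 1) = m * m - 1 := by ring
    rw [this]; rw [he] at h3; exact_mod_cast h3
  have hpZ : Prime (p : ℤ) := Nat.prime_iff_prime_int.mp hp
  by_cases hd : (p : ℤ) ∣ m + 1
  · have hnd : ¬ (p : ℤ) ∣ m - 1 := by
      intro h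
      have h5 : (p : ℤ) ∣ 2 := by
        have := dvd_sub hd h
        have e : m + 1 - (m - 1) = 2 := by ring
        rwa [e] at this
      have h6 : p ∣ 2 := by exact_mod_cast h5
      exact hp2 ((Nat.prime_dvd_prime_iff_eq hp Nat.prime_two).mp h6)
    have hc : IsCoprime ((p : ℤ) ^ e) (m - 1) := (hpZ.coprime_iff_not_dvd.mpr hnd).pow_left
    have h7 : ((p : ℤ) ^ e) ∣ m + 1 := hc.dvd_of_dvd_mul_left h4
    right
    have h8 : g ^ (m + 1) = 1 := by
      apply orderOf_dvd_iff_zpow_eq_one.mp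
      rw [he]; exact_mod_cast h7
    rw [← hm]
    rw [zpow_add, zpow_one] at h8
    exact eq_inv_of_mul_eq_one_left h8
  · have hc : IsCoprime ((p : ℤ) ^ e) (m + 1) := (hpZ.coprime_iff_not_dvd.mpr hd).pow_left
    have h7 : ((p : ℤ) ^ e) ∣ m - 1 := hc.dvd_of_dvd_mul_right h4
    left
    have h8 : g ^ (m - 1) = 1 := by
      apply orderOf_dvd_iff_zpow_eq_one.mp
      rw [he]; exact_mod_cast h7
    rw [← hm]
    rw [zpow_sub, zpow_one] at h8
    exact mul_inv_eq_one.mp h8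


/-- the fixed points of `T` form a cyclic subgroup -/
abbrev NB {P : Type*} [Group P] (T : MulAut P) : Prop :=
  ∃ g : P, ∀ x : P, (T x = x ↔ x ∈ Subgroup.zpowers g)

theorem I_mul_comm {P : Type*} [Group P] {I : Subgroup (MulAut P)}
    (hI : Cfsg.IsElementaryAbelian 2 I) {T T' : MulAut P}
    (hT : T ∈ I) (hT' : T' ∈ I) : T * T' = T' * T := by
  have := hI.1.is_comm.comm (⟨T, hT⟩ : I) ⟨T', hT'⟩
  exact congrArg Subtype.val this

theorem I_mul_self {P : Type*} [Group P] {I : Subgroup (MulAut P)}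
    (hI : Cfsg.IsElementaryAbelian 2 I) {T : MulAut P}
    (hT : T ∈ I) : T * T = 1 := by
  have := hI.2 T hT
  rwa [pow_two] at this

theorem I_sq {P : Type*} [Group P] {I : Subgroup (MulAut P)}
    (hI : Cfsg.IsElementaryAbelian 2 I) {T : MulAut P} (hT : T ∈ I) (x : P) : T (T x) = x := by
  have := congrArg (fun f : MulAut P => f x) (I_mul_self hI hT)
  simpa [MulAut.mul_apply] using this

theorem I_comm {P : Type*} [Group P] {I : Subgroup (MulAut P)}
    (hI : Cfsg.IsElementaryAbelian 2 I) {T T' : MulAut P} (hT : T ∈ I) (hT' : T' ∈ I) (x : P) :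
    T (T' x) = T' (T x) := by
  have := congrArg (fun f : MulAut P => f x) (I_mul_comm hI hT hT')
  simpa [MulAut.mul_apply] using this

theorem mult_pat {P : Type*} [Group P] (T T' : MulAut P) (g : P) (h1 : T g = g ∨ T g = g⁻¹)
    (h2 : T' g = g ∨ T' g = g⁻¹) : ((T * T') g = g ↔ (T g = g ↔ T' g = g)) := by
  rw [MulAut.mul_apply]
  by_cases hT : T g = g
  · by_cases hT' : T' g = g
    · simp [hT, hT']
    · have h3 : T' g = g⁻¹ := h2.resolve_left hT'
      have hne : T (T' g) ≠ g := by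
        rw [h3, map_inv, hT]
        intro h; exact hT' (by rw [h3, h])
      simp [hT, hT', hne]
  · have h4 : T g = g⁻¹ := h1.resolve_left hT
    by_cases hT' : T' g = g
    · simp [hT, hT']
    · have h3 : T' g = g⁻¹ := h2.resolve_left hT'
      simp [hT', h3, h4]

theorem broad_of {P : Type*} [Group P] [Finite P] {p : ℕ} (hp : p.Prime) (hp2 : p ≠ 2)
    (hP : IsPGroup p P) (hodd : Odd (Nat.card P)) (e d : MulAut P) (hd2 : ∀ x, d (d x) = x)
    (hed : ∀ x, e (d x) = d (e x)) (g1 g2 : P) (he1 : e g1 = g1) (he2 : e g2 = g2)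
    (hd1 : d g1 ≠ g1) (hd2' : d g2 = g2) (hg2 : g2 ≠ 1) : ¬ NB e := by
  rintro ⟨h, hh⟩
  have hhh : e h = h := (hh h).mpr (Subgroup.mem_zpowers h)
  have hdh : d h ∈ Subgroup.zpowers h := (hh (d h)).mp (by rw [hed, hhh])
  obtain ⟨n1, hn1⟩ := Subgroup.mem_zpowers_iff.mp ((hh g1).mp he1)
  obtain ⟨n2, hn2⟩ := Subgroup.mem_zpowers_iff.mp ((hh g2).mp he2)
  rcases pm_lemma hp hp2 hP d hd2 h hdh with h5 | h5
  · apply hd1; rw [← hn1, map_zpow, h5]
  · apply hg2
    have h6 : d g2 = g2⁻¹ := by rw [← hn2, map_zpow, h5, inv_zpow]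
    rw [hd2'] at h6
    exact eq_one_of_sq hodd g2 (mul_eq_one_iff_eq_inv.mpr h6)

theorem fix_inter_trivial {P : Type*} [Group P] [Finite P] {p : ℕ} (hp : p.Prime) (hp2 : p ≠ 2)
    (hP : IsPGroup p P) (hodd : Odd (Nat.card P))
    (u z : MulAut P) (hz2 : ∀ x, z (z x) = x) (huz : ∀ x, u (z x) = z (u x)) (hu : NB u)
    (g0 : P) (hu0 : u g0 = g0) (hz0 : z g0 ≠ g0) (f : P) (huf : u f = f) (hzf : z f = f) :
    f = 1 := by
  obtain ⟨h, hh⟩ := hu
  have hhh : u h = h := (hh h).mpr (Subgroup.mem_zpowers h)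
  have hzh : z h ∈ Subgroup.zpowers h := (hh (z h)).mp (by rw [huz, hhh])
  obtain ⟨n0, hn0⟩ := Subgroup.mem_zpowers_iff.mp ((hh g0).mp hu0)
  obtain ⟨n, hn⟩ := Subgroup.mem_zpowers_iff.mp ((hh f).mp huf)
  rcases pm_lemma hp hp2 hP z hz2 h hzh with h5 | h5
  · exact absurd (by rw [← hn0, map_zpow, h5]) hz0
  · have h6 : z f = f⁻¹ := by rw [← hn, map_zpow, h5, inv_zpow]
    rw [hzf] at h6
    exact eq_one_of_sq hodd f (mul_eq_one_iff_eq_inv.mpr h6)

theorem exists_order_p {P : Type*} [Group P] [Finite P] {p : ℕ} (hp : p.Prime)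
    (hP : IsPGroup p P) (g : P) (hg : g ≠ 1) : ∃ n : ℕ, orderOf (g ^ n) = p := by
  obtain ⟨k, hk⟩ := hP g
  obtain ⟨e, -, he⟩ := (Nat.dvd_prime_pow hp).mp (orderOf_dvd_of_pow_eq_one hk)
  have he0 : e ≠ 0 := by
    rintro rfl
    rw [pow_zero, orderOf_eq_one_iff] at he; exact hg he
  refine ⟨p ^ (e - 1), ?_⟩
  rw [orderOf_pow' g (pow_ne_zero _ hp.ne_zero), he,
    Nat.gcd_eq_right (pow_dvd_pow p (Nat.sub_le e 1)), Nat.pow_div (Nat.sub_le e 1) hp.pos]
  have : e - (e - 1) = 1 := by omega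
  rw [this, pow_one]

theorem idx_eq {P : Type*} [Group P] {p : ℕ} (hp : p.Prime) (hp2 : p ≠ 2) (w : P)
    (hw : orderOf w = p) (i i' : ℕ) (hi : i < p) (hi' : i' < p)
    (h : w ^ i * w ^ i = w ^ i' * w ^ i') : i = i' := by
  rw [← pow_add, ← pow_add, pow_eq_pow_iff_modEq, hw] at h
  have h2 : (2 * i) ≡ (2 * i') [MOD p] := by simpa [two_mul] using h
  have hc : Nat.gcd p 2 = 1 := (Nat.coprime_primes hp Nat.prime_two).mpr hp2
  have h3 := Nat.ModEq.cancel_left_of_coprime hc h2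
  exact Nat.ModEq.eq_of_lt_of_lt h3 hi hi'

theorem idx_eq' {P : Type*} [Group P] {p : ℕ} (w : P)
    (hw : orderOf w = p) (i i' : ℕ) (hi : i < p) (hi' : i' < p)
    (h : w ^ i = w ^ i') : i = i' := by
  rw [pow_eq_pow_iff_modEq, hw] at h
  exact Nat.ModEq.eq_of_lt_of_lt h hi hi'

theorem not_two_gen {P : Type*} [Group P] [Finite P] (hcomm : ∀ x y : P, x * y = y * x) (p : ℕ)
    (hp : p.Prime) (w1 w2 w3 : P) (h1 : w1 ^ p = 1) (h2 : w2 ^ p = 1) (h3 : w3 ^ p = 1)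
    (hindep : ∀ i j k i' j' k' : ℕ, i < p → j < p → k < p → i' < p → j' < p → k' < p →
      w1 ^ i * w2 ^ j * w3 ^ k = w1 ^ i' * w2 ^ j' * w3 ^ k' → i = i' ∧ j = j' ∧ k = k') :
    ¬ ∃ u v : P, Subgroup.closure {u, v} = ⊤ := by
  rintro ⟨u, v, huv⟩
  letI : CommGroup P := { (inferInstance : Group P) with mul_comm := hcomm }
  let φ : P →* P := powMonoidHom p
  have hcard : Nat.card P = Nat.card φ.ker * Nat.card φ.range := by
    rw [← Subgroup.card_mul_index φ.ker, Subgroup.index_ker]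
  have hlow : p * p * p ≤ Nat.card φ.ker := by
    let F : Fin p × Fin p × Fin p → φ.ker := fun t =>
      ⟨w1 ^ (t.1 : ℕ) * w2 ^ (t.2.1 : ℕ) * w3 ^ (t.2.2 : ℕ), by
        rw [MonoidHom.mem_ker]
        show (w1 ^ (t.1 : ℕ) * w2 ^ (t.2.1 : ℕ) * w3 ^ (t.2.2 : ℕ)) ^ p = 1
        rw [mul_pow, mul_pow, ← pow_mul, ← pow_mul, ← pow_mul, mul_comm _ p, mul_comm _ p,
          mul_comm _ p, pow_mul, pow_mul, pow_mul, h1, h2, h3]
        simp⟩
    have hF : Function.Injective F := by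
      intro t t' htt
      have h4 := congrArg Subtype.val htt
      obtain ⟨e1, e2, e3⟩ := hindep _ _ _ _ _ _ t.1.2 t.2.1.2 t.2.2.2 t'.1.2 t'.2.1.2 t'.2.2.2 h4
      exact Prod.ext (Fin.ext e1) (Prod.ext (Fin.ext e2) (Fin.ext e3))
    have h5 := Nat.card_le_card_of_injective F hF
    simp only [Nat.card_prod, Nat.card_eq_fintype_card, Fintype.card_fin] at h5
    calc p * p * p = p * (p * p) := by ring
      _ ≤ _ := by simpa [Nat.card_eq_fintype_card] using h5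
  have hup : Nat.card P ≤ p * p * Nat.card φ.range := by
    let G : Fin p × Fin p × φ.range → P := fun t => u ^ (t.1 : ℕ) * v ^ (t.2.1 : ℕ) * (t.2.2 : P)
    have hp0 : (p : ℤ) ≠ 0 := by exact_mod_cast hp.ne_zero
    have hpp : (0 : ℤ) < p := by exact_mod_cast hp.pos
    have hdec : ∀ (y : P) (m : ℤ), y ^ m = y ^ ((m % p).toNat) * (y ^ (m / p)) ^ p := by
      intro y m
      have hi : (((m % p).toNat : ℕ) : ℤ) = m % p := Int.toNat_of_nonneg (Int.emod_nonneg m hp0)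
      calc y ^ m = y ^ (m % p + p * (m / p)) := by rw [Int.emod_add_mul_ediv]
        _ = y ^ (m % p) * (y ^ (m / p)) ^ (p : ℤ) := by rw [zpow_add, mul_comm (p : ℤ), zpow_mul]
        _ = y ^ ((m % p).toNat) * (y ^ (m / p)) ^ p := by rw [← hi, zpow_natCast, zpow_natCast, hi]
    have hG : Function.Surjective G := by
      intro x
      have hx : x ∈ Subgroup.closure {u, v} := by rw [huv]; trivial
      obtain ⟨m, n, rfl⟩ := Subgroup.mem_closure_pair.mp hx
      refine ⟨(⟨(m % p).toNat, ?_⟩, ⟨(n % p).toNat, ?_⟩,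
        ⟨(u ^ (m / p) * v ^ (n / p)) ^ p, ⟨_, rfl⟩⟩), ?_⟩
      · have := Int.emod_lt_of_pos m hpp
        have h0 := Int.emod_nonneg m hp0
        omega
      · have := Int.emod_lt_of_pos n hpp
        have h0 := Int.emod_nonneg n hp0
        omega
      · show u ^ ((m % p).toNat) * v ^ ((n % p).toNat) * (u ^ (m / p) * v ^ (n / p)) ^ p
          = u ^ m * v ^ n
        rw [hdec u m, hdec v n, mul_pow, mul_mul_mul_comm]
    have h5 := Nat.card_le_card_of_surjective G hG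
    simp only [Nat.card_prod, Nat.card_eq_fintype_card, Fintype.card_fin] at h5
    calc Nat.card P ≤ p * (p * Nat.card φ.range) := by simpa [Nat.card_eq_fintype_card] using h5
      _ = p * p * Nat.card φ.range := by ring
  have hr : 0 < Nat.card φ.range := Nat.card_pos
  have h6 : p * p * p * Nat.card φ.range ≤ p * p * Nat.card φ.range :=
    calc p * p * p * Nat.card φ.range ≤ Nat.card φ.ker * Nat.card φ.range :=
          Nat.mul_le_mul_right _ hlow
      _ = Nat.card P := hcard.symm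
      _ ≤ _ := hup
  have h7 : (p * p * Nat.card φ.range) * p ≤ (p * p * Nat.card φ.range) * 1 := by
    calc (p * p * Nat.card φ.range) * p = p * p * p * Nat.card φ.range := by ring
      _ ≤ p * p * Nat.card φ.range := h6
      _ = _ := by ring
  have h8 : 0 < p * p * Nat.card φ.range := Nat.mul_pos (Nat.mul_pos hp.pos hp.pos) hr
  have h9 := Nat.le_of_mul_le_mul_left h7 h8
  have := hp.two_le
  omega


theorem pick4 {P : Type*} [Group P] (I : Subgroup (MulAut P)) (hI8 : Nat.card ↥I = 8)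
    (x1 x2 x3 x4 : MulAut P) : ∃ γ ∈ I, γ ≠ x1 ∧ γ ≠ x2 ∧ γ ≠ x3 ∧ γ ≠ x4 := by
  by_contra h
  push_neg at h
  have hsub : (I : Set (MulAut P)) ⊆ {x1, x2, x3, x4} := by
    intro γ hγ
    by_cases h1 : γ = x1
    · simp [h1]
    by_cases h2 : γ = x2
    · simp [h2]
    by_cases h3 : γ = x3
    · simp [h3]
    simp [h γ hγ h1 h2 h3]
  have hfin : ({x1, x2, x3, x4} : Set (MulAut P)).Finite := Set.toFinite _
  have h1 := Set.ncard_le_ncard hsub hfin
  have h2 : ({x1, x2, x3, x4} : Set (MulAut P)).ncard ≤ 4 := by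
    have e1 := Set.ncard_insert_le x1 ({x2, x3, x4} : Set (MulAut P))
    have e2 := Set.ncard_insert_le x2 ({x3, x4} : Set (MulAut P))
    have e3 := Set.ncard_insert_le x3 ({x4} : Set (MulAut P))
    have e4 : ({x4} : Set (MulAut P)).ncard = 1 := Set.ncard_singleton x4
    omega
  have h3 : (I : Set (MulAut P)).ncard = 8 := by
    rw [← hI8]; exact (Nat.card_coe_set_eq (I : Set (MulAut P))).symm
  omega

theorem exists_pair {P : Type*} [Group P] (I : Subgroup (MulAut P))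
    (hI : Cfsg.IsElementaryAbelian 2 I) (hI8 : Nat.card ↥I = 8)
    (I₀ : Subgroup (MulAut P)) (hI₀ : I₀ ≤ I)
    (hdisj : ∀ T ∈ I₀, T ≠ 1 → NB T)
    (hprod : ∀ T ∈ I, ∀ T' ∈ I, T ≠ 1 → T' ≠ 1 → ¬ NB T → ¬ NB T' → T * T' ∈ I₀) :
    ∃ a ∈ I, ∃ b ∈ I, NB a ∧ NB b ∧ NB (a * b) := by
  have msq : ∀ T ∈ I, T * T = 1 := fun T hT => I_mul_self hI hT
  have mcm : ∀ T ∈ I, ∀ T' ∈ I, T * T' = T' * T := fun T hT T' hT' => I_mul_comm hI hT hT'
  have canc : ∀ T ∈ I, ∀ T' : MulAut P, T' = T * (T * T') := by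
    intro T hT T'
    rw [← mul_assoc, msq T hT, one_mul]
  by_cases h1 : ∃ a ∈ I₀, ∃ b ∈ I₀, a ≠ 1 ∧ b ≠ 1 ∧ a ≠ b
  · obtain ⟨a, ha, b, hb, ha1, hb1, hab⟩ := h1
    refine ⟨a, hI₀ ha, b, hI₀ hb, hdisj a ha ha1, hdisj b hb hb1, hdisj _ (I₀.mul_mem ha hb) ?_⟩
    intro h
    apply hab
    calc a = a * (b * b) := by rw [msq b (hI₀ hb), mul_one]
      _ = (a * b) * b := by rw [mul_assoc]
      _ = b := by rw [h, one_mul]
  · push_neg at h1
    have key : ∃ T ∈ I, ∃ t₀ ∈ I, (t₀ = 1 ∨ NB t₀) ∧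
        ∀ T' ∈ I, T' ≠ 1 → ¬ NB T' → T' = T ∨ T' = T * t₀ := by
      by_cases hB : ∃ T ∈ I, T ≠ 1 ∧ ¬ NB T
      · obtain ⟨T, hT, hT1, hTb⟩ := hB
        by_cases h2 : ∃ t ∈ I₀, t ≠ 1
        · obtain ⟨t₀, ht₀, ht₀1⟩ := h2
          refine ⟨T, hT, t₀, hI₀ ht₀, Or.inr (hdisj t₀ ht₀ ht₀1), ?_⟩
          intro T' hT' hT'1 hT'b
          have h3 : T * T' ∈ I₀ := hprod T hT T' hT' hT1 hT'1 hTb hT'b
          by_cases h4 : T * T' = 1
          · left
            rw [canc T hT T', h4, mul_one]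
          · right
            have h5 : T * T' = t₀ := h1 _ h3 _ ht₀ h4 ht₀1
            rw [canc T hT T', h5]
        · push_neg at h2
          refine ⟨T, hT, 1, I.one_mem, Or.inl rfl, ?_⟩
          intro T' hT' hT'1 hT'b
          have h3 : T * T' ∈ I₀ := hprod T hT T' hT' hT1 hT'1 hTb hT'b
          have h4 : T * T' = 1 := h2 _ h3
          left
          rw [canc T hT T', h4, mul_one]
      · push_neg at hB
        exact ⟨1, I.one_mem, 1, I.one_mem, Or.inl rfl,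
          fun T' hT' hT'1 hT'b => absurd (hB T' hT' hT'1) hT'b⟩
    obtain ⟨T, hT, t₀, ht₀, ht₀NB, hbr⟩ := key
    have nb : ∀ γ ∈ I, γ ≠ 1 → γ ≠ T → γ ≠ T * t₀ → NB γ := by
      intro γ hγ h1 h2 h3
      by_contra h
      rcases hbr γ hγ h1 h with h4 | h4
      · exact h2 h4
      · exact h3 h4
    by_cases ht1 : t₀ = 1
    · subst ht1
      obtain ⟨a, haI, ha1, ha2, -, -⟩ := pick4 I hI8 1 T 1 1
      obtain ⟨b, hbI, hb1, hb2, hb3, hb4⟩ := pick4 I hI8 1 a T (a * T)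
      have hne1 : a * b ≠ 1 := by
        intro h; apply hb2
        rw [canc a haI b, h, mul_one]
      have hneT : a * b ≠ T := by
        intro h; apply hb4
        rw [canc a haI b, h]
      refine ⟨a, haI, b, hbI, nb a haI ha1 ha2 (by rwa [mul_one]),
        nb b hbI hb1 hb3 (by rwa [mul_one]), nb _ (I.mul_mem haI hbI) hne1 hneT (by rwa [mul_one])⟩
    · have hNB0 : NB t₀ := ht₀NB.resolve_left ht1
      obtain ⟨γ, hγI, hγ1, hγ2, hγ3, hγ4⟩ := pick4 I hI8 1 T t₀ (T * t₀)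
      refine ⟨t₀, ht₀, γ, hγI, hNB0, nb γ hγI hγ1 hγ2 hγ4, nb _ (I.mul_mem ht₀ hγI) ?_ ?_ ?_⟩
      · intro h; apply hγ3
        rw [canc t₀ ht₀ γ, h, mul_one]
      · intro h; apply hγ4
        rw [canc t₀ ht₀ γ, h]
        exact mcm t₀ ht₀ T hT
      · intro h; apply hγ2
        rw [canc t₀ ht₀ γ, h, mcm T hT t₀ ht₀, ← mul_assoc, msq t₀ ht₀, one_mul]


theorem core {P : Type*} [Group P] [Finite P] (p : ℕ) (hp : p.Prime) (hp2 : p ≠ 2)
    (hP : IsPGroup p P)
    (I : Subgroup (MulAut P)) (hI : Cfsg.IsElementaryAbelian 2 I) (hI8 : Nat.card ↥I = 8)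
    (I₀ : Subgroup (MulAut P)) (hI₀ : I₀ ≤ I)
    (hdisj : ∀ T ∈ I₀, T ≠ 1 → NB T)
    (hprod : ∀ T ∈ I, ∀ T' ∈ I, T ≠ 1 → T' ≠ 1 → ¬ NB T → ¬ NB T' → T * T' ∈ I₀)
    (a b : MulAut P) (haI : a ∈ I) (hbI : b ∈ I) (ha : NB a) (hb : NB b) (hc : NB (a * b)) :
    IsMulCommutative P ∧ (∃ a b c : P, Subgroup.closure {a, b, c} = ⊤) ∧
      (¬ ∃ a b : P, Subgroup.closure {a, b} = ⊤) ∧
      Nat.card {T : MulAut P // T ∈ I ∧ T ≠ 1 ∧ ¬ NB T} = 3 ∧
      Subgroup.closure {T : MulAut P | T ∈ I ∧ T ≠ 1 ∧ ¬ NB T} = I ∧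
      (I₀ : Set (MulAut P)) = {S : MulAut P | ∃ T T' : MulAut P, T ∈ I ∧ T' ∈ I ∧ T ≠ 1 ∧ T' ≠ 1 ∧
        (¬ NB T) ∧ (¬ NB T') ∧ S = T * T'} := by
  classical
  have hodd : Odd (Nat.card P) := by
    haveI : Fact p.Prime := ⟨hp⟩
    obtain ⟨n, hn⟩ := IsPGroup.iff_card.mp hP
    rw [hn]; exact (hp.odd_of_ne_two hp2).pow
  obtain ⟨ga, hga⟩ := ha
  obtain ⟨gb, hgb⟩ := hb
  obtain ⟨gc, hgc⟩ := hc
  have sq : ∀ T ∈ I, ∀ x, T (T x) = x := fun T hT x => I_sq hI hT x
  have cm : ∀ T ∈ I, ∀ T' ∈ I, ∀ x, T (T' x) = T' (T x) :=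
    fun T hT T' hT' x => I_comm hI hT hT' x
  have aga : a ga = ga := (hga ga).mpr (Subgroup.mem_zpowers ga)
  have bgb : b gb = gb := (hgb gb).mpr (Subgroup.mem_zpowers gb)
  have cgc : (a * b) gc = gc := (hgc gc).mpr (Subgroup.mem_zpowers gc)
  have habI : a * b ∈ I := I.mul_mem haI hbI
  have gen : ∀ x : P, ∃ i j k : ℤ, x = ga ^ i * gc ^ j * gb ^ k := by
    intro x
    obtain ⟨f, -, g, -, h, -, hf, hg, hh, rfl⟩ := prod_decomp hodd a b (sq a haI) (sq b hbI)
      (cm a haI b hbI) ⊤ (fun _ _ => trivial) (fun _ _ => trivial) x trivial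
    obtain ⟨i, rfl⟩ := Subgroup.mem_zpowers_iff.mp ((hga f).mp hf)
    obtain ⟨j, rfl⟩ := Subgroup.mem_zpowers_iff.mp
      ((hgc g).mp (by rw [MulAut.mul_apply]; exact hg))
    obtain ⟨k, rfl⟩ := Subgroup.mem_zpowers_iff.mp ((hgb h).mp hh)
    exact ⟨i, j, k, rfl⟩
  have fix_all : ∀ T : MulAut P, T ga = ga → T gb = gb → T gc = gc → T = 1 := by
    intro T h1 h2 h3
    ext x
    obtain ⟨i, j, k, rfl⟩ := gen x
    simp [map_mul, map_zpow, h1, h2, h3]
  have pma : ∀ T ∈ I, T ga = ga ∨ T ga = ga⁻¹ := fun T hT =>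
    pm_lemma hp hp2 hP T (sq T hT) ga ((hga _).mp (by rw [cm a haI T hT, aga]))
  have pmb : ∀ T ∈ I, T gb = gb ∨ T gb = gb⁻¹ := fun T hT =>
    pm_lemma hp hp2 hP T (sq T hT) gb ((hgb _).mp (by rw [cm b hbI T hT, bgb]))
  have pmc : ∀ T ∈ I, T gc = gc ∨ T gc = gc⁻¹ := fun T hT =>
    pm_lemma hp hp2 hP T (sq T hT) gc ((hgc _).mp (by rw [cm (a * b) habI T hT, cgc]))
  have mpa : ∀ T ∈ I, ∀ T' ∈ I, ((T * T') ga = ga ↔ (T ga = ga ↔ T' ga = ga)) :=
    fun T hT T' hT' => mult_pat T T' ga (pma T hT) (pma T' hT')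
  have mpb : ∀ T ∈ I, ∀ T' ∈ I, ((T * T') gb = gb ↔ (T gb = gb ↔ T' gb = gb)) :=
    fun T hT T' hT' => mult_pat T T' gb (pmb T hT) (pmb T' hT')
  have mpc : ∀ T ∈ I, ∀ T' ∈ I, ((T * T') gc = gc ↔ (T gc = gc ↔ T' gc = gc)) :=
    fun T hT T' hT' => mult_pat T T' gc (pmc T hT) (pmc T' hT')
  have det : ∀ T ∈ I, ∀ T' ∈ I, (T ga = ga ↔ T' ga = ga) → (T gb = gb ↔ T' gb = gb) →
      (T gc = gc ↔ T' gc = gc) → T = T' := by
    intro T hT T' hT' h1 h2 h3
    have h4 : T * T' = 1 := fix_all _ ((mpa T hT T' hT').mpr h1) ((mpb T hT T' hT').mpr h2)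
      ((mpc T hT T' hT').mpr h3)
    have h5 : T' * T' = 1 := I_mul_self hI hT'
    calc T = T * (T' * T') := by rw [h5, mul_one]
      _ = (T * T') * T' := by rw [mul_assoc]
      _ = T' := by rw [h4, one_mul]
  let σ : I → Bool × Bool × Bool :=
    fun T => (decide (T.1 ga = ga), decide (T.1 gb = gb), decide (T.1 gc = gc))
  have σinj : Function.Injective σ := by
    intro T T' h
    simp only [σ, Prod.mk.injEq, decide_eq_decide] at h
    exact Subtype.ext (det T.1 T.2 T'.1 T'.2 h.1 h.2.1 h.2.2)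
  have σbij : Function.Bijective σ :=
    σinj.bijective_of_nat_card_le (by rw [hI8]; simp [Nat.card_prod])
  obtain ⟨⟨ea, heaI⟩, hea⟩ := σbij.2 (false, true, true)
  obtain ⟨⟨eb, hebI⟩, heb⟩ := σbij.2 (true, false, true)
  obtain ⟨⟨ec, hecI⟩, hec⟩ := σbij.2 (true, true, false)
  obtain ⟨⟨z, hzI⟩, hz⟩ := σbij.2 (false, false, false)
  simp only [σ, Prod.mk.injEq, decide_eq_true_eq, decide_eq_false_iff_not] at hea heb hec hz
  obtain ⟨ea1, ea2, ea3⟩ := hea
  obtain ⟨eb1, eb2, eb3⟩ := heb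
  obtain ⟨ec1, ec2, ec3⟩ := hec
  obtain ⟨z1, z2, z3⟩ := hz
  have hga1 : ga ≠ 1 := fun h => ea1 (by rw [h, map_one])
  have hgb1 : gb ≠ 1 := fun h => eb2 (by rw [h, map_one])
  have hgc1 : gc ≠ 1 := fun h => ec3 (by rw [h, map_one])
  have Bea : ¬ NB ea := broad_of hp hp2 hP hodd ea eb (sq eb hebI) (cm ea heaI eb hebI)
    gb gc ea2 ea3 eb2 eb3 hgc1
  have Beb : ¬ NB eb := broad_of hp hp2 hP hodd eb ea (sq ea heaI) (cm eb hebI ea heaI)
    ga gc eb1 eb3 ea1 ea3 hgc1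
  have Bec : ¬ NB ec := broad_of hp hp2 hP hodd ec ea (sq ea heaI) (cm ec hecI ea heaI)
    ga gb ec1 ec2 ea1 ea2 hgb1
  have hea1' : ea ≠ 1 := fun h => ea1 (by rw [h]; rfl)
  have heb1' : eb ≠ 1 := fun h => eb2 (by rw [h]; rfl)
  have hec1' : ec ≠ 1 := fun h => ec3 (by rw [h]; rfl)
  have hab0 : ea * eb ∈ I₀ := hprod ea heaI eb hebI hea1' heb1' Bea Beb
  have hac0 : ea * ec ∈ I₀ := hprod ea heaI ec hecI hea1' hec1' Bea Bec
  have hbc0 : eb * ec ∈ I₀ := hprod eb hebI ec hecI heb1' hec1' Beb Bec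
  have habI' : ea * eb ∈ I := I.mul_mem heaI hebI
  have hacI' : ea * ec ∈ I := I.mul_mem heaI hecI
  have hbcI' : eb * ec ∈ I := I.mul_mem hebI hecI
  have hab1 : ea * eb ≠ 1 := by
    intro h
    have h2 := mpa ea heaI eb hebI
    rw [h] at h2
    simp [ea1, eb1] at h2
  have hac1 : ea * ec ≠ 1 := by
    intro h
    have h2 := mpa ea heaI ec hecI
    rw [h] at h2
    simp [ea1, ec1] at h2
  have hbc1 : eb * ec ≠ 1 := by
    intro h
    have h2 := mpb eb hebI ec hecI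
    rw [h] at h2
    simp [eb2, ec2] at h2
  have enum : ∀ T ∈ I, T = 1 ∨ T = ea ∨ T = eb ∨ T = ec ∨ T = ea * eb ∨ T = ea * ec ∨
      T = eb * ec ∨ T = z := by
    intro T hT
    by_cases h1 : T ga = ga <;> by_cases h2 : T gb = gb <;> by_cases h3 : T gc = gc
    · left
      exact det T hT 1 I.one_mem (by simp [h1]) (by simp [h2]) (by simp [h3])
    · right; right; right; left
      exact det T hT ec hecI (by simp [h1, ec1]) (by simp [h2, ec2]) (by simp [h3, ec3])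
    · right; right; left
      exact det T hT eb hebI (by simp [h1, eb1]) (by simp [h2, eb2]) (by simp [h3, eb3])
    · right; right; right; right; right; right; left
      exact det T hT _ hbcI' (by rw [mpa eb hebI ec hecI]; simp [h1, eb1, ec1])
        (by rw [mpb eb hebI ec hecI]; simp [h2, eb2, ec2]) (by rw [mpc eb hebI ec hecI]; simp [h3, eb3, ec3])
    · right; left
      exact det T hT ea heaI (by simp [h1, ea1]) (by simp [h2, ea2]) (by simp [h3, ea3])
    · right; right; right; right; right; left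
      exact det T hT _ hacI' (by rw [mpa ea heaI ec hecI]; simp [h1, ea1, ec1])
        (by rw [mpb ea heaI ec hecI]; simp [h2, ea2, ec2]) (by rw [mpc ea heaI ec hecI]; simp [h3, ea3, ec3])
    · right; right; right; right; left
      exact det T hT _ habI' (by rw [mpa ea heaI eb hebI]; simp [h1, ea1, eb1])
        (by rw [mpb ea heaI eb hebI]; simp [h2, ea2, eb2]) (by rw [mpc ea heaI eb hebI]; simp [h3, ea3, eb3])
    · right; right; right; right; right; right; right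
      exact det T hT z hzI (by simp [h1, z1]) (by simp [h2, z2]) (by simp [h3, z3])
  have hz' : z = ea * eb * ec := det z hzI _ (I.mul_mem habI' hecI)
    (by rw [mpa _ habI' ec hecI, mpa ea heaI eb hebI]; simp [z1, ea1, eb1, ec1])
    (by rw [mpb _ habI' ec hecI, mpb ea heaI eb hebI]; simp [z2, ea2, eb2, ec2])
    (by rw [mpc _ habI' ec hecI, mpc ea heaI eb hebI]; simp [z3, ea3, eb3, ec3])
  -- the fixed points of z
  have hFz : ∀ x, z x = x → x = 1 := by
    intro x hx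
    let S : Subgroup P :=
      { carrier := {y | z y = y}
        mul_mem' := fun {u v} hu hv => by
          show z (u * v) = u * v
          rw [map_mul, show z u = u from hu, show z v = v from hv]
        one_mem' := map_one z
        inv_mem' := fun {u} hu => by
          show z u⁻¹ = u⁻¹
          rw [map_inv, show z u = u from hu] }
    have hSI : ∀ T ∈ I, ∀ y ∈ S, T y ∈ S := fun T hT y hy => by
      show z (T y) = T y
      rw [cm z hzI T hT, show z y = y from hy]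
    obtain ⟨f, hfS, g, hgS, h, hhS, hf, hg, hh, rfl⟩ := prod_decomp hodd (ea * eb) (ea * ec)
      (sq _ habI') (sq _ hacI') (cm _ habI' _ hacI') S (hSI _ habI') (hSI _ hacI') x hx
    have f1 : f = 1 := fix_inter_trivial hp hp2 hP hodd (ea * eb) z (sq z hzI)
      (cm _ habI' z hzI) (hdisj _ hab0 hab1) gc (by simp [MulAut.mul_apply, ea3, eb3]) z3 f hf hfS
    have h1 : h = 1 := fix_inter_trivial hp hp2 hP hodd (ea * ec) z (sq z hzI)
      (cm _ hacI' z hzI) (hdisj _ hac0 hac1) gb (by simp [MulAut.mul_apply, ea2, ec2]) z2 h hh hhS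
    have hg' : (eb * ec) g = g := by
      rw [MulAut.mul_apply]
      simp only [MulAut.mul_apply] at hg
      rw [cm ea heaI eb hebI, sq ea heaI] at hg
      exact hg
    have g1 : g = 1 := fix_inter_trivial hp hp2 hP hodd (eb * ec) z (sq z hzI)
      (cm _ hbcI' z hzI) (hdisj _ hbc0 hbc1) ga (by simp [MulAut.mul_apply, eb1, ec1]) z1 g hg' hgS
    rw [f1, g1, h1]; simp
  have hzinv := inv_of_fpf z (sq z hzI) hFz
  have hcomm : ∀ x y : P, x * y = y * x := comm_of_inv z hzinv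
  have NBz : NB z := ⟨1, fun x => ⟨fun h => by rw [hFz x h]; exact one_mem _, fun h => by
    rw [Subgroup.zpowers_one_eq_bot, Subgroup.mem_bot] at h; rw [h, map_one]⟩⟩
  have hne_ab : ea ≠ eb := fun h => ea1 (h ▸ eb1)
  have hne_ac : ea ≠ ec := fun h => ea1 (h ▸ ec1)
  have hne_bc : eb ≠ ec := fun h => eb2 (h ▸ ec2)
  have hB : {T : MulAut P | T ∈ I ∧ T ≠ 1 ∧ ¬ NB T} = {ea, eb, ec} := by
    ext T
    simp only [Set.mem_setOf_eq, Set.mem_insert_iff, Set.mem_singleton_iff]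
    constructor
    · rintro ⟨hT, hT1, hTb⟩
      rcases enum T hT with rfl | rfl | rfl | rfl | rfl | rfl | rfl | rfl
      · exact absurd rfl hT1
      · left; rfl
      · right; left; rfl
      · right; right; rfl
      · exact absurd (hdisj _ hab0 hab1) hTb
      · exact absurd (hdisj _ hac0 hac1) hTb
      · exact absurd (hdisj _ hbc0 hbc1) hTb
      · exact absurd NBz hTb
    · rintro (rfl | rfl | rfl)
      · exact ⟨heaI, hea1', Bea⟩
      · exact ⟨hebI, heb1', Beb⟩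
      · exact ⟨hecI, hec1', Bec⟩
  refine ⟨⟨⟨hcomm⟩⟩, ?_, ?_, ?_, ?_, ?_⟩
  · refine ⟨ga, gb, gc, ?_⟩
    rw [eq_top_iff]
    intro x _
    obtain ⟨i, j, k, rfl⟩ := gen x
    exact mul_mem (mul_mem (zpow_mem (Subgroup.subset_closure (by simp)) i)
      (zpow_mem (Subgroup.subset_closure (by simp)) j))
      (zpow_mem (Subgroup.subset_closure (by simp)) k)
  · obtain ⟨na, hna⟩ := exists_order_p hp hP ga hga1
    obtain ⟨nb, hnb⟩ := exists_order_p hp hP gb hgb1
    obtain ⟨nc, hnc⟩ := exists_order_p hp hP gc hgc1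
    have eaga : ea ga = ga⁻¹ := (pma ea heaI).resolve_left ea1
    have ecgc : ec gc = gc⁻¹ := (pmc ec hecI).resolve_left ec3
    have l1 : ∀ A B C : P, A * B * C * (A⁻¹ * B * C)⁻¹ = A * A := by intros; group
    have l2 : ∀ A B C : P, (A * B * C⁻¹)⁻¹ * (A * B * C) = C * C := by intros; group
    apply not_two_gen hcomm p hp (ga ^ na) (gb ^ nb) (gc ^ nc)
      (by rw [← hna]; exact pow_orderOf_eq_one _) (by rw [← hnb]; exact pow_orderOf_eq_one _)
      (by rw [← hnc]; exact pow_orderOf_eq_one _)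
    intro i j k i' j' k' hi hj hk hi' hj' hk' heq
    have hA : (ga ^ na) ^ i * (ga ^ na) ^ i = (ga ^ na) ^ i' * (ga ^ na) ^ i' := by
      have h5 := congrArg (fun x => x * (ea x)⁻¹) heq
      simp only [map_mul, map_pow, eaga, ea2, ea3, inv_pow] at h5
      rw [l1, l1] at h5
      exact h5
    have hC : (gc ^ nc) ^ k * (gc ^ nc) ^ k = (gc ^ nc) ^ k' * (gc ^ nc) ^ k' := by
      have h5 := congrArg (fun x => (ec x)⁻¹ * x) heq
      simp only [map_mul, map_pow, ecgc, ec1, ec2, inv_pow] at h5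
      rw [l2, l2] at h5
      exact h5
    have hii : i = i' := idx_eq hp hp2 _ hna i i' hi hi' hA
    have hkk : k = k' := idx_eq hp hp2 _ hnc k k' hk hk' hC
    subst hii; subst hkk
    have hBB : (gb ^ nb) ^ j = (gb ^ nb) ^ j' := by
      have h6 := mul_right_cancel heq
      exact mul_left_cancel h6
    exact ⟨rfl, idx_eq' _ hnb j j' hj hj' hBB, rfl⟩
  · have h3 : Nat.card ↥({T : MulAut P | T ∈ I ∧ T ≠ 1 ∧ ¬ NB T}) = 3 := by
      rw [hB, Nat.card_coe_set_eq, Set.ncard_eq_three]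
      exact ⟨ea, eb, ec, hne_ab, hne_ac, hne_bc, rfl⟩
    exact h3
  · rw [hB]
    apply le_antisymm
    · rw [Subgroup.closure_le]
      rintro T (rfl | rfl | rfl)
      · exact heaI
      · exact hebI
      · exact hecI
    · intro T hT
      have mea : ea ∈ Subgroup.closure ({ea, eb, ec} : Set (MulAut P)) :=
        Subgroup.subset_closure (by simp)
      have meb : eb ∈ Subgroup.closure ({ea, eb, ec} : Set (MulAut P)) :=
        Subgroup.subset_closure (by simp)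
      have mec : ec ∈ Subgroup.closure ({ea, eb, ec} : Set (MulAut P)) :=
        Subgroup.subset_closure (by simp)
      rcases enum T hT with rfl | rfl | rfl | rfl | rfl | rfl | rfl | rfl
      · exact one_mem _
      · exact mea
      · exact meb
      · exact mec
      · exact mul_mem mea meb
      · exact mul_mem mea mec
      · exact mul_mem meb mec
      · rw [hz']
        exact mul_mem (mul_mem mea meb) mec
  · ext S
    simp only [SetLike.mem_coe, Set.mem_setOf_eq]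
    constructor
    · intro hS
      rcases enum S (hI₀ hS) with rfl | rfl | rfl | rfl | rfl | rfl | rfl | rfl
      · exact ⟨ea, ea, heaI, heaI, hea1', hea1', Bea, Bea, (I_mul_self hI heaI).symm⟩
      · exact absurd (hdisj _ hS hea1') Bea
      · exact absurd (hdisj _ hS heb1') Beb
      · exact absurd (hdisj _ hS hec1') Bec
      · exact ⟨ea, eb, heaI, hebI, hea1', heb1', Bea, Beb, rfl⟩
      · exact ⟨ea, ec, heaI, hecI, hea1', hec1', Bea, Bec, rfl⟩
      · exact ⟨eb, ec, hebI, hecI, heb1', hec1', Beb, Bec, rfl⟩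
      · have h1 : (ea * eb) * S ∈ I₀ := I₀.mul_mem hab0 hS
        have h2 : (ea * eb) * S = ec := det _ (I.mul_mem habI' hzI) ec hecI
          (by rw [mpa _ habI' S hzI, mpa ea heaI eb hebI]; simp [z1, ea1, eb1, ec1])
          (by rw [mpb _ habI' S hzI, mpb ea heaI eb hebI]; simp [z2, ea2, eb2, ec2])
          (by rw [mpc _ habI' S hzI, mpc ea heaI eb hebI]; simp [z3, ea3, eb3, ec3])
        rw [h2] at h1
        exact absurd (hdisj _ h1 hec1') Bec
    · rintro ⟨T, T', hT, hT', hT1, hT'1, hTb, hT'b, rfl⟩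
      exact hprod T hT T' hT' hT1 hT'1 hTb hT'b

/-- Let p be an odd prime, P a finite p-group and I an elementary abelian subgroup of order 8 of Aut(P). Call T ∈ I, T ≠ 1, broad when its fixed-point subgroup C_P(T) is not cyclic. Suppose I has a proper subgroup I₀ containing no broad element such that the product of any two broad elements lies in I₀. Then P is abelian of rank exactly 3 (generated by three elements but not by two), there are exactly three broad elements and they generate I, and I₀ is exactly the set of products of two broad elements. -/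
theorem result
    {P : Type*} [Group P] [Finite P] (p : ℕ) (hp : p.Prime) (hp2 : p ≠ 2) (hP : IsPGroup p P)
    (I : Subgroup (MulAut P)) (hI : Cfsg.IsElementaryAbelian 2 I) (hI8 : Nat.card ↥I = 8)
    (I₀ : Subgroup (MulAut P)) (hI₀ : I₀ < I)
    (hdisj : ∀ T ∈ I₀, T ≠ 1 → ∃ g : P, ∀ x : P, (T x = x ↔ x ∈ Subgroup.zpowers g))
    (hprod : ∀ T ∈ I, ∀ T' ∈ I, T ≠ 1 → T' ≠ 1 → (¬ ∃ g : P, ∀ x : P, (T x = x ↔ x ∈ Subgroup.zpowers g)) →
      (¬ ∃ g : P, ∀ x : P, (T' x = x ↔ x ∈ Subgroup.zpowers g)) → T * T' ∈ I₀) :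
    IsMulCommutative P ∧ (∃ a b c : P, Subgroup.closure {a, b, c} = ⊤) ∧ (¬ ∃ a b : P, Subgroup.closure {a, b} = ⊤) ∧
      Nat.card {T : MulAut P // T ∈ I ∧ T ≠ 1 ∧ ¬ ∃ g : P, ∀ x : P, (T x = x ↔ x ∈ Subgroup.zpowers g)} = 3 ∧
      Subgroup.closure {T : MulAut P | T ∈ I ∧ T ≠ 1 ∧ ¬ ∃ g : P, ∀ x : P, (T x = x ↔ x ∈ Subgroup.zpowers g)} = I ∧
      (I₀ : Set (MulAut P)) = {S : MulAut P | ∃ T T' : MulAut P, T ∈ I ∧ T' ∈ I ∧ T ≠ 1 ∧ T' ≠ 1 ∧
        (¬ ∃ g : P, ∀ x : P, (T x = x ↔ x ∈ Subgroup.zpowers g)) ∧ (¬ ∃ g : P, ∀ x : P, (T' x = x ↔ x ∈ Subgroup.zpowers g)) ∧ S = T * T'} := by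
  obtain ⟨a, haI, b, hbI, ha, hb, hc⟩ := exists_pair I hI hI8 I₀ hI₀.le hdisj hprod
  exact core p hp hp2 hP I hI hI8 I₀ hI₀.le hdisj hprod a b haI hbI ha hb hc

end Cfsg.Agent.S4412
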