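import Cfsg.Statements.S4420
-- import your own Cfsg.Agent.* helpers here

set_option autoImplicit false
open Cfsg

namespace Cfsg.Agent.S4420

/-- Structure of groups in which every element outside some proper subgroup has square 1. Let H be a finite group with a proper subgroup A such that every element outside A has square 1. Then H has an abelian normal subgroup B of index 2 such that every element outside B is an involution inverting every element of B; and if H is not an elementary abelian 2-group, B is the only abelian normal subgroup of index 2 with this property. -/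
theorem result {H : Type*} [Group H] [Finite H] (A : Subgroup H) (hA : A ≠ ⊤) (hD : ∀ x : H, x ∉ A → x ^ 2 = 1) :
    ∃ B : Subgroup H, B.Normal ∧ IsMulCommutative ↥B ∧ B.index = 2 ∧
      (∀ x : H, x ∉ B → x ^ 2 = 1 ∧ ∀ b ∈ B, x * b * x⁻¹ = b⁻¹) ∧
      (¬ (IsMulCommutative H ∧ ∀ x : H, x ^ 2 = 1) →
        ∀ B' : Subgroup H, B'.Normal → IsMulCommutative ↥B' → B'.index = 2 →
          (∀ x : H, x ∉ B' → x ^ 2 = 1 ∧ ∀ b ∈ B', x * b * x⁻¹ = b⁻¹) → B' = B) := by
  classical
  have hinv : ∀ x : H, x ∉ A → ∀ a ∈ A, x * a * x⁻¹ = a⁻¹ := by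
    intro x hx a ha
    have hxa : x * a ∉ A := fun h => hx (by simpa using A.mul_mem h (A.inv_mem ha))
    have h1 := hD x hx
    have h2 := hD (x * a) hxa
    have hxinv : x⁻¹ = x := by rw [inv_eq_iff_mul_eq_one, ← sq]; exact h1
    rw [hxinv, eq_inv_iff_mul_eq_one]
    rw [sq] at h2
    simpa [mul_assoc] using h2
  obtain ⟨x0, hx0⟩ : ∃ x0, x0 ∉ A := by
    by_contra h
    exact hA (top_le_iff.mp fun x _ => by_contra fun hx => h ⟨x, hx⟩)
  by_cases hall : ∀ g : H, g ^ 2 = 1
  · have hcomm : ∀ a b : H, a * b = b * a := by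
      intro a b
      have ha := hall a
      have hb := hall b
      have hab := hall (a * b)
      have hainv : a⁻¹ = a := by rw [inv_eq_iff_mul_eq_one, ← sq]; exact ha
      have hbinv : b⁻¹ = b := by rw [inv_eq_iff_mul_eq_one, ← sq]; exact hb
      have h3 : a * b = (a * b)⁻¹ := by rw [eq_inv_iff_mul_eq_one, ← sq]; exact hab
      rw [h3, mul_inv_rev, hainv, hbinv]
    have hP : IsPGroup 2 H := by
      intro g
      exact ⟨1, by simpa using hall g⟩
    have : Fact (Nat.Prime 2) := ⟨Nat.prime_two⟩
    obtain ⟨n, hn⟩ := IsPGroup.iff_card.mp hP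
    have hn0 : n ≠ 0 := by
      rintro rfl
      rw [pow_zero] at hn
      have hsub : Subsingleton H := (Nat.card_eq_one_iff_unique.mp hn).1
      exact hx0 ((Subsingleton.elim 1 x0) ▸ A.one_mem)
    obtain ⟨m, rfl⟩ := Nat.exists_eq_succ_of_ne_zero hn0
    obtain ⟨B, hB⟩ := Sylow.exists_subgroup_card_pow_prime 2 (n := m) (G := H)
      (by rw [hn]; exact pow_dvd_pow 2 (Nat.le_succ m))
    refine ⟨B, ⟨fun b hb g => ?_⟩, ?_, ?_, ?_, ?_⟩
    · rw [hcomm g b, mul_inv_cancel_right]; exact hb
    · exact isMulCommutative_iff.mpr (fun a b => Subtype.ext (hcomm a b))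
    · have h1 := B.card_mul_index
      rw [hB, hn, pow_succ] at h1
      exact Nat.eq_of_mul_eq_mul_left (pow_pos (by norm_num) m) h1
    · intro x _
      refine ⟨hall x, fun b _ => ?_⟩
      rw [hcomm x b, mul_inv_cancel_right, eq_inv_iff_mul_eq_one, ← sq]
      exact hall b
    · intro hneg
      exact absurd ⟨isMulCommutative_iff.mpr hcomm, hall⟩ hneg
  · obtain ⟨g0, hg0⟩ : ∃ g0 : H, g0 ^ 2 ≠ 1 := by
      by_contra h
      exact hall fun g => by_contra fun hg => h ⟨g, hg⟩
    have hg0A : g0 ∈ A := by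
      by_contra h
      exact hg0 (hD g0 h)
    have hsq : g0 = g0⁻¹ → False := by
      intro h1
      apply hg0
      rw [sq]
      nth_rewrite 1 [h1]
      exact inv_mul_cancel g0
    have hprod : ∀ x y : H, x ∉ A → y ∉ A → x * y ∈ A := by
      intro x y hx hy
      by_contra hxy
      have h1 := hinv (x * y) hxy g0 hg0A
      have h2 := hinv y hy g0 hg0A
      have h3 := hinv x hx g0⁻¹ (A.inv_mem hg0A)
      have h4 : x * y * g0 * (x * y)⁻¹ = g0 := by
        calc x * y * g0 * (x * y)⁻¹ = x * (y * g0 * y⁻¹) * x⁻¹ := by group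
          _ = x * g0⁻¹ * x⁻¹ := by rw [h2]
          _ = g0 := by rw [h3, inv_inv]
      rw [h4] at h1
      exact hsq h1
    have hidx : A.index = 2 := by
      rw [Subgroup.index_eq_two_iff]
      refine ⟨x0, fun b => ?_⟩
      by_cases hb : b ∈ A
      · right
        exact ⟨hb, fun h => hx0 (by simpa using A.mul_mem (A.inv_mem hb) h)⟩
      · left
        exact ⟨hprod b x0 hb hx0, hb⟩
    refine ⟨A, Subgroup.normal_of_index_eq_two hidx, ?_, hidx, fun x hx => ⟨hD x hx, hinv x hx⟩, ?_⟩
    · refine isMulCommutative_iff.mpr ?_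
      rintro ⟨a, ha⟩ ⟨b, hb⟩
      apply Subtype.ext
      show a * b = b * a
      have h1 := hinv x0 hx0 (a * b) (A.mul_mem ha hb)
      have h2 := hinv x0 hx0 a ha
      have h3 := hinv x0 hx0 b hb
      have h4 : x0 * (a * b) * x0⁻¹ = (x0 * a * x0⁻¹) * (x0 * b * x0⁻¹) := by group
      rw [h1, h2, h3] at h4
      have h5 := congrArg Inv.inv h4
      simpa using h5
    · intro _ B' hB'n hB'c hB'i hB'inv
      have hg0B : g0 ∈ B' := by
        by_contra h
        exact hg0 (hB'inv g0 h).1
      have hcB := isMulCommutative_iff.mp hB'c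
      have hle1 : B' ≤ A := by
        intro b hb
        by_contra hbA
        have h1 := hinv b hbA g0 hg0A
        have h2 : b * g0 = g0 * b := congrArg Subtype.val (hcB ⟨b, hb⟩ ⟨g0, hg0B⟩)
        rw [h2, mul_inv_cancel_right] at h1
        exact hsq h1
      apply Subgroup.eq_of_le_of_card_ge hle1
      have e1 := A.card_mul_index
      have e2 := B'.card_mul_index
      rw [hidx] at e1
      rw [hB'i] at e2
      omega

end Cfsg.Agent.S4420
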