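import Cfsg.Statements.S4430
import Cfsg.Agent.Lib.Helper8.SecondMain2
import Cfsg.Agent.Lib.Helper8.InducedBlock
import Cfsg.Agent.Lib.Helper25.MinMax
import Cfsg.Agent.Lib.Helper25.Defect0

set_option autoImplicit false
open Cfsg

namespace Cfsg.Agent.S4430

section aux

open Cfsg.Agent.Lib.Helper2 Cfsg.Agent.Lib.Helper25
open scoped ComplexConjugate

/-- valuations of a quotient of natural numbers that is a local integer -/
theorem val_aux {p : ℕ} [Fact p.Prime] {M : Ideal AlgInt} (hM : IsPModular p M)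
    (i j n' D' : ℕ) (hn' : ¬ p ∣ n') (hD' : ¬ p ∣ D') :
    (MemLocalRing M (((p ^ i * n' : ℕ) : ℂ) / ((p ^ j * D' : ℕ) : ℂ)) → j ≤ i) ∧
    (j < i → MemLocalIdeal M (((p ^ i * n' : ℕ) : ℂ) / ((p ^ j * D' : ℕ) : ℂ))) ∧
    (MemLocalIdeal M (((p ^ i * n' : ℕ) : ℂ) / ((p ^ j * D' : ℕ) : ℂ)) → j < i) := by
  haveI := isPrime_of_isPModular hM
  have hp : p.Prime := Fact.out
  have hp0 : (p : ℂ) ≠ 0 := by exact_mod_cast hp.ne_zero
  have hD0 : (D' : ℂ) ≠ 0 := by
    have : D' ≠ 0 := by rintro rfl; exact hD' (dvd_zero p)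
    exact_mod_cast this
  have h1 : MemLocalRing M (((p ^ i * n' : ℕ) : ℂ) / ((p ^ j * D' : ℕ) : ℂ)) → j ≤ i := by
    intro hX
    by_contra hlt
    obtain ⟨k, rfl⟩ : ∃ k, j = i + 1 + k := ⟨j - i - 1, by omega⟩
    have e : (n' : ℂ) = ((p ^ i * n' : ℕ) : ℂ) / ((p ^ (i + 1 + k) * D' : ℕ) : ℂ)
        * ((p : ℂ) * ((p ^ k * D' : ℕ) : ℂ)) := by
      push_cast
      field_simp
      ring
    apply hn'
    rw [← memLocalIdeal_natCast_iff hM, e]
    exact MemLocalIdeal.mul_left M hX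
      (MemLocalIdeal.mul_right M (memLocalIdeal_p hM) (memLocalRing_natCast M _))
  refine ⟨h1, ?_, ?_⟩
  · intro hlt
    obtain ⟨k, rfl⟩ : ∃ k, i = j + 1 + k := ⟨i - j - 1, by omega⟩
    have e : ((p ^ (j + 1 + k) * n' : ℕ) : ℂ) / ((p ^ j * D' : ℕ) : ℂ)
        = (p : ℂ) * ((p ^ k * n' : ℕ) : ℂ) * ((D' : ℂ))⁻¹ := by
      push_cast
      field_simp
      ring
    rw [e]
    exact MemLocalIdeal.mul_right M
      (MemLocalIdeal.mul_right M (memLocalIdeal_p hM) (memLocalRing_natCast M _))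
      (memLocalRing_inv_natCast hM hD')
  · intro hX
    have h2 := h1 (MemLocalIdeal.memLocalRing M hX)
    by_contra hlt
    have hij : i = j := by omega
    subst hij
    have e : (n' : ℂ) = ((p ^ i * n' : ℕ) : ℂ) / ((p ^ i * D' : ℕ) : ℂ) * (D' : ℂ) := by
      push_cast
      field_simp
    apply hn'
    rw [← memLocalIdeal_natCast_iff hM, e]
    exact MemLocalIdeal.mul_right M hX (memLocalRing_natCast M _)

/-- the decomposed form of a nonzero natural number -/
theorem decomp (p : ℕ) [Fact p.Prime] {n : ℕ} (hn : n ≠ 0) :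
    p ^ n.factorization p * (n / p ^ n.factorization p) = n ∧
      ¬ p ∣ n / p ^ n.factorization p :=
  ⟨Nat.ordProj_mul_ordCompl_eq_self n p, Nat.not_dvd_ordCompl Fact.out hn⟩

/-- a quotient congruent to one has numerator and denominator of equal valuation -/
theorem val_one {p : ℕ} [Fact p.Prime] {M : Ideal AlgInt} (hM : IsPModular p M)
    (n D : ℕ) (hD : D ≠ 0) (h : MemLocalIdeal M ((n : ℂ) / (D : ℂ) - 1)) :
    n ≠ 0 ∧ n.factorization p = D.factorization p := by
  haveI := isPrime_of_isPModular hM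
  have hn : n ≠ 0 := by
    rintro rfl
    apply not_memLocalIdeal_one M
    have := MemLocalIdeal.neg M h
    simpa using this
  refine ⟨hn, ?_⟩
  obtain ⟨e1, e2⟩ := decomp p hn
  obtain ⟨e3, e4⟩ := decomp p hD
  obtain ⟨a1, a2, -⟩ := val_aux hM (n.factorization p) (D.factorization p) _ _ e2 e4
  rw [e1, e3] at a1 a2
  have hR : MemLocalRing M ((n : ℂ) / (D : ℂ)) := by
    have := MemLocalRing.add M (MemLocalIdeal.memLocalRing M h) (memLocalRing_one M)
    simpa using this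
  have h1 := a1 hR
  by_contra hne
  have hlt : D.factorization p < n.factorization p := by omega
  have h2 := a2 hlt
  apply not_memLocalIdeal_one M
  have := MemLocalIdeal.sub M h2 h
  simpa using this

/-- a quotient in the local ideal has numerator zero or of larger valuation -/
theorem val_zero {p : ℕ} [Fact p.Prime] {M : Ideal AlgInt} (hM : IsPModular p M)
    (n D : ℕ) (hD : D ≠ 0) (h : MemLocalIdeal M ((n : ℂ) / (D : ℂ))) :
    n = 0 ∨ D.factorization p < n.factorization p := by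
  by_cases hn : n = 0
  · exact Or.inl hn
  · right
    obtain ⟨e1, e2⟩ := decomp p hn
    obtain ⟨e3, e4⟩ := decomp p hD
    obtain ⟨-, -, a3⟩ := val_aux hM (n.factorization p) (D.factorization p) _ _ e2 e4
    rw [e1, e3] at a3
    exact a3 h

variable {G : Type*} [Group G] [Fintype G]

/-- the value at one of the block part of the induced character, compared with the degree -/
theorem key {p : ℕ} [Fact p.Prime] {M : Ideal AlgInt} (hM : IsPModular p M) (H : Subgroup G)
    [Fintype H] (b : Set (IrrCharacter H)) (B₀ : Set (IrrCharacter G))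
    (hind : IsInducedBlock M H b B₀) (ξ : IrrCharacter H) (hξ : ξ ∈ b)
    (χ₀ : IrrCharacter G) (hχ₀ : χ₀ ∈ B₀) (B : Set (IrrCharacter G)) (hB : IsPBlock M B)
    [DecidablePred (· ∈ B)] :
    charDegree (indFun H (ξ : H → ℂ)) ≠ 0 ∧
    ∃ n : ℕ, blockPart B (indFun H (ξ : H → ℂ)) 1 = (n : ℂ) ∧
      MemLocalIdeal M ((n : ℂ) / (charDegree (indFun H (ξ : H → ℂ)) : ℂ)
        - (if χ₀ ∈ B then 1 else 0)) := by
  classical
  haveI := isPrime_of_isPModular hM
  haveI : Fintype (IrrCharacter G) := Fintype.ofFinite _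
  set Φ := indFun H (ξ : H → ℂ) with hΦ
  have hΦcf : IsClassFunction G Φ := indFun_isClassFunction H _
  have hΦc : IsCharacter G Φ := indFun_isCharacter H (isCharacter_of_isIrrCharacter ξ.2)
  obtain ⟨d, hd1, hdpos, -, -⟩ := irr_degree ξ
  have hidx : H.index ≠ 0 := Subgroup.index_ne_zero_of_finite
  have hΦ1 : Φ 1 = ((H.index * d : ℕ) : ℂ) := by
    rw [hΦ, Cfsg.Agent.Lib.Helper8.indFun_one, hd1]; push_cast; ring
  have hdeg : charDegree Φ = H.index * d := by
    unfold charDegree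
    rw [hΦ1]
    have hre : ((H.index * d : ℕ) : ℂ).re = ((H.index * d : ℕ) : ℝ) := Complex.natCast_re _
    rw [hre, Nat.floor_natCast]
  have hD0 : H.index * d ≠ 0 := Nat.mul_ne_zero hidx hdpos.ne'
  have hD0' : ((H.index * d : ℕ) : ℂ) ≠ 0 := by exact_mod_cast hD0
  refine ⟨by rw [hdeg]; exact hD0, ?_⟩
  -- the natural number
  have hnat : ∀ χ : IrrCharacter G, ∃ m : ℕ,
      classInner Φ (χ : G → ℂ) * (χ : G → ℂ) 1 = (m : ℂ) := by
    intro χ
    obtain ⟨a, ha⟩ := classInner_isCharacter_nat hΦc (isCharacter_of_isIrrCharacter χ.2)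
    obtain ⟨e, he, -⟩ := irr_degree χ
    exact ⟨a * e, by rw [ha, he]; push_cast; ring⟩
  choose m hm using hnat
  have hsum : ∑ k : G, blockCoeff B k * Φ k
      = ((∑ χ : IrrCharacter G, if χ ∈ B then m χ else 0 : ℕ) : ℂ) := by
    rw [Cfsg.Agent.Lib.Helper8.sum_blockCoeff_mul B Φ hΦcf]
    push_cast
    apply Finset.sum_congr rfl
    intro χ _
    split_ifs
    · exact hm χ
    · rfl
  have hpart : blockPart B Φ 1
      = ((∑ χ : IrrCharacter G, if χ ∈ B then m χ else 0 : ℕ) : ℂ) := by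
    rw [Cfsg.Agent.Lib.Helper8.blockPart_eq_sum B Φ hΦcf 1, ← hsum]
    apply Finset.sum_congr rfl
    intro k _
    rw [mul_one]
  refine ⟨_, hpart, ?_⟩
  have hom : omegaFun Φ (blockCoeff B)
      = ((∑ χ : IrrCharacter G, if χ ∈ B then m χ else 0 : ℕ) : ℂ) / (charDegree Φ : ℂ) := by
    unfold omegaFun
    rw [hsum, hΦ1, hdeg]
  rw [← hom, ← Cfsg.Agent.Lib.Helper25.omegaFun_blockCoeff B χ₀,
    Cfsg.Agent.Lib.Helper8.omegaFun_eq_sum_classes Φ hΦcf _ (blockCoeff_isClassFunction B),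
    Cfsg.Agent.Lib.Helper8.omegaFun_eq_sum_classes (χ₀ : G → ℂ)
      (isClassFunction_of_isIrrCharacter χ₀.2) _ (blockCoeff_isClassFunction B),
    ← Finset.sum_sub_distrib]
  apply memLocalIdeal_sum
  intro c _
  rw [← mul_sub]
  apply MemLocalIdeal.mul_left M
    (blockCoeff_memLocalRing hM B (blockClosed_of_isPBlock M hB) _)
  rw [hΦ, ← Cfsg.Agent.Lib.Helper8.inducedCentralChar_eq H _ (irr_one_ne_zero ξ.2)]
  exact hind.2.2 ξ hξ χ₀ hχ₀ _

end aux

open Cfsg.Agent.Lib.Helper2 Cfsg.Agent.Lib.Helper25 in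
/-- Let H be a subgroup of the finite group G, b a block of H whose induced block B₀ in G is defined (relative to a maximal ideal M of the algebraic integers containing p), and ξ ∈ b. For a block B of G let n_B be the value at 1 of the B-part of the induced character ξ^G (a natural number: the sum over χ ∈ B of the multiplicity of χ in ξ^G times χ(1)). Then for B = B₀ the exact power of p dividing n_B equals the exact power of p dividing ξ^G(1), while for every other block B either n_B = 0 or n_B is divisible by a strictly higher power of p than ξ^G(1). -/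
theorem result {G : Type*} [Group G] [Fintype G] (p : ℕ) [Fact p.Prime] (M : Ideal Cfsg.AlgInt) (hM : Cfsg.IsPModular p M) (H : Subgroup G) [Fintype H] (b : Set (Cfsg.IrrCharacter H)) (B₀ : Set (Cfsg.IrrCharacter G)) (hind : Cfsg.IsInducedBlock M H b B₀) (ξ : Cfsg.IrrCharacter H) (hξ : ξ ∈ b) : (∃ n : ℕ, Cfsg.blockPart B₀ (Cfsg.indFun H (ξ : H → ℂ)) 1 = (n : ℂ) ∧ n ≠ 0 ∧ n.factorization p = (Cfsg.charDegree (Cfsg.indFun H (ξ : H → ℂ))).factorization p) ∧ ∀ B : Set (Cfsg.IrrCharacter G), Cfsg.IsPBlock M B → B ≠ B₀ → ∃ n : ℕ, Cfsg.blockPart B (Cfsg.indFun H (ξ : H → ℂ)) 1 = (n : ℂ) ∧ (n = 0 ∨ (Cfsg.charDegree (Cfsg.indFun H (ξ : H → ℂ))).factorization p < n.factorization p) := by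
  classical
  obtain ⟨χ₀, hχ₀⟩ := isPBlock_nonempty hM hind.2.1
  constructor
  · obtain ⟨hD, n, hn, hloc⟩ := key hM H b B₀ hind ξ hξ χ₀ hχ₀ B₀ hind.2.1
    rw [if_pos hχ₀] at hloc
    obtain ⟨h1, h2⟩ := val_one hM n _ hD hloc
    exact ⟨n, hn, h1, h2⟩
  · intro B hB hne
    obtain ⟨hD, n, hn, hloc⟩ := key hM H b B₀ hind ξ hξ χ₀ hχ₀ B hB
    have hχB : χ₀ ∉ B := fun h => hne (isPBlock_eq_of_mem hM hB hind.2.1 h hχ₀)
    rw [if_neg hχB, sub_zero] at hloc
    exact ⟨n, hn, val_zero hM n _ hD hloc⟩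

end Cfsg.Agent.S4430
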