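import Cfsg.Statements.S4435
import Cfsg.Agent.Lib.Helper24.FongReynolds

set_option autoImplicit false
open Cfsg

namespace Cfsg.Agent.S4435

open Cfsg.Agent.Lib.Helper2 Cfsg.Agent.Lib.Helper8 Cfsg.Agent.Lib.Helper25 Cfsg.Agent.Lib.Helper24 in
/-- Let N be a normal subgroup of the finite group G, b a block of N (relative to a maximal ideal M of the algebraic integers containing p), and T the stabilizer of b in G (the elements g such that conjugating any member of b by g gives a member of b); N ≤ T. Say that a block of T (or of G) covers b when some member has a constituent in b on restriction to N. Then: (i) every block B′ of T covering b induces a block B of G, B covers b, every ψ ∈ B′ induces to an irreducible character of G, and B consists exactly of the characters induced from members of B′; (ii) distinct blocks of T covering b induce distinct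 blocks of G; (iii) every block of G covering b is induced by some block of T covering b. -/
theorem result {G : Type*} [Group G] [Fintype G] (p : ℕ) [Fact p.Prime] (M : Ideal Cfsg.AlgInt) (hM : Cfsg.IsPModular p M) (N : Subgroup G) [hN : N.Normal] [Fintype N] (b : Set (Cfsg.IrrCharacter N)) (hb : Cfsg.IsPBlock M b) (T : Subgroup G) [Fintype T] (hT : ∀ g : G, g ∈ T ↔ ∀ θ ∈ b, ∀ θ' : Cfsg.IrrCharacter N, (∀ n : N, (θ' : N → ℂ) n = (θ : N → ℂ) ⟨g * n * g⁻¹, hN.conj_mem n n.2 g⟩) → θ' ∈ b) (hNT : N ≤ T) : (∀ B' : Set (Cfsg.IrrCharacter T), Cfsg.IsPBlock M B' → (∃ ψ ∈ B', ∃ θ ∈ b, Cfsg.classInner (fun n : N => (ψ : T → ℂ) ⟨(n : G), hNT n.2⟩) (θ : N → ℂ) ≠ 0) → ∃ B : Set (Cfsg.IrrCharacter G), Cfsg.IsInducedBlock M T B' B ∧ (∃ χ ∈ B, ∃ θ ∈ b, Cfsg.classInner (fun n : N => (χ : G → ℂ) n) (θ : N → ℂ) ≠ 0) ∧ (∀ ψ ∈ B', Cfsg.IsIrrCharacter G (Cfsg.indFun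 T (ψ : T → ℂ))) ∧ ∀ χ : Cfsg.IrrCharacter G, χ ∈ B ↔ ∃ ψ ∈ B', (χ : G → ℂ) = Cfsg.indFun T (ψ : T → ℂ)) ∧ (∀ B'₁ B'₂ : Set (Cfsg.IrrCharacter T), Cfsg.IsPBlock M B'₁ → Cfsg.IsPBlock M B'₂ → (∃ ψ ∈ B'₁, ∃ θ ∈ b, Cfsg.classInner (fun n : N => (ψ : T → ℂ) ⟨(n : G), hNT n.2⟩) (θ : N → ℂ) ≠ 0) → (∃ ψ ∈ B'₂, ∃ θ ∈ b, Cfsg.classInner (fun n : N => (ψ : T → ℂ) ⟨(n : G), hNT n.2⟩) (θ : N → ℂ) ≠ 0) → ∀ B : Set (Cfsg.IrrCharacter G), Cfsg.IsInducedBlock M T B'₁ B → Cfsg.IsInducedBlock M T B'₂ B → B'₁ = B'₂) ∧ (∀ B : Set (Cfsg.IrrCharacter G), Cfsg.IsPBlock M B → (∃ χ ∈ B, ∃ θ ∈ b, Cfsg.classInner (fun n : N => (χ : G → ℂ) n) (θ : N → ℂ) ≠ 0) → ∃ B' : Set (Cfsg.IrrCharacter T), Cfsg.IsPBlock M B' ∧ (∃ ψ ∈ B', ∃ θ ∈ b, Cfsg.classInner (fun n : N => (ψ : T → ℂ) ⟨(n : G), hNT n.2⟩) (θ : N → ℂ) ≠ 0) ∧ Cfsg.IsInducedBlock M T B' B) := by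
  classical
  have hT' := stab_iff N b T hT
  have hst : ∀ t ∈ T, ∀ θ ∈ b, conjIrr N θ t ∈ b := fun t ht => (hT' t).mp ht
  have hpr := isPrime_of_isPModular hM
  -- all members of a covering block lie over `b`
  have hall : ∀ B' : Set (IrrCharacter T), IsPBlock M B' →
      (∃ ψ ∈ B', ∃ θ ∈ b,
        classInner (fun n : N => (ψ : T → ℂ) ⟨(n : G), hNT n.2⟩) (θ : N → ℂ) ≠ 0) →
      ∀ ψ ∈ B', ∃ θ ∈ b,
        classInner (fun n : N => (ψ : T → ℂ) ⟨(n : G), hNT n.2⟩) (θ : N → ℂ) ≠ 0 := by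
    rintro B' hB' ⟨ψ₀, hψ₀, θ₀, hθ₀, he₀⟩ ψ hψ
    exact over_of_sameBlock N hM b hb T hNT hst ψ₀ ψ (isPBlock_sameBlock' hM hB' hψ₀ hψ)
      θ₀ hθ₀ he₀
  -- induced characters of members of a block inducing `B` lie in `B`
  have hmemB : ∀ (B' : Set (IrrCharacter T)) (B : Set (IrrCharacter G)),
      IsInducedBlock M T B' B → ∀ ψ ∈ B',
      ∀ hirr : IsIrrCharacter G (indFun T (ψ : T → ℂ)), (⟨_, hirr⟩ : IrrCharacter G) ∈ B := by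
    intro B' B hind ψ hψ hirr
    obtain ⟨χ₀, hχ₀⟩ := isPBlock_nonempty hM hind.2.1
    have hs : SameBlock M (χ₀ : G → ℂ) (indFun T (ψ : T → ℂ)) := by
      intro g
      have h1 := hind.2.2 ψ hψ χ₀ hχ₀ g
      rw [inducedCentralChar_eq T _ (irr_one_ne_zero ψ.2)] at h1
      have h2 := MemLocalIdeal.neg M h1
      rwa [neg_sub] at h2
    exact blockClosed_of_isPBlock M hind.2.1 χ₀ hχ₀ ⟨_, hirr⟩ hs
  refine ⟨?_, ?_, ?_⟩
  · rintro B' hB' hcov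
    obtain ⟨ψ₀, hψ₀, θ₀, hθ₀, he₀⟩ := hcov
    obtain ⟨hirr₀, ⟨θ₂, hθ₂, hχ₀over⟩, -⟩ :=
      ind_irr_of_over N hM b hb T hNT hT' ψ₀ θ₀ hθ₀ he₀
    have hB'eq : B' = blockOf M (ψ₀ : T → ℂ) :=
      isPBlock_eq_of_mem hM hB' ⟨ψ₀, rfl⟩ hψ₀ (sameBlock_refl M _)
    have hind : IsInducedBlock M T B' (blockOf M (indFun T (ψ₀ : T → ℂ))) := by
      rw [hB'eq]
      exact Cfsg.Agent.S0933.result p M hM T ψ₀ hirr₀
    set B := blockOf M (indFun T (ψ₀ : T → ℂ)) with hB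
    have hχ₀B : (⟨_, hirr₀⟩ : IrrCharacter G) ∈ B := sameBlock_refl M _
    refine ⟨B, hind, ⟨⟨_, hirr₀⟩, hχ₀B, θ₂, hθ₂, hχ₀over⟩, ?_, ?_⟩
    · intro ψ hψ
      obtain ⟨θ, hθ, he⟩ := hall B' hB' ⟨ψ₀, hψ₀, θ₀, hθ₀, he₀⟩ ψ hψ
      exact (ind_irr_of_over N hM b hb T hNT hT' ψ θ hθ he).1
    · intro χ
      constructor
      · intro hχ
        have hχres : IsCharacter N (fun n : N => (χ : G → ℂ) n) :=
          IsCharacter.restrict (isCharacter_of_isIrrCharacter χ.2) N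
        obtain ⟨θ₁, hθ₁irr, hθ₁⟩ := exists_irr_constituent hχres
          (fun h0 => irr_one_ne_zero χ.2 (congrFun h0 1))
        obtain ⟨g, θ', hθ', hconj⟩ := Cfsg.Agent.S0964.result p M hM N B hind.2.1 b hb
          ⟨_, hirr₀⟩ hχ₀B θ₂ hθ₂ hχ₀over χ hχ ⟨θ₁, hθ₁irr⟩ hθ₁
        have hθ'ne : classInner (fun n : N => (χ : G → ℂ) n) (θ' : N → ℂ) ≠ 0 := by
          have e : θ₁ = Cfsg.Agent.Lib.Helper2.conjFun N (θ' : N → ℂ) g :=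
            funext (fun n => by rw [Cfsg.Agent.Lib.Helper2.conjFun_apply]; exact hconj n)
          rw [← classInner_restrict_conjFun N (isClassFunction_of_isIrrCharacter χ.2)
            (θ' : N → ℂ) g, ← e]
          exact hθ₁
        obtain ⟨ξ, ⟨θ'', hθ'', he''⟩, hξχ⟩ :=
          exists_ind_eq_of_over N hM b hb T hNT hT' χ θ' hθ' hθ'ne
        refine ⟨ξ, ?_, hξχ.symm⟩
        have hs : SameBlock M (indFun T (ψ₀ : T → ℂ)) (indFun T (ξ : T → ℂ)) := by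
          rw [hξχ]
          exact hχ
        have h3 := sameBlock_of_ind N hM b hb T hNT hT' ψ₀ ξ θ₀ θ'' hθ₀ hθ'' he₀ he'' hs
        rw [hB'eq]
        exact h3
      · rintro ⟨ψ, hψ, hχψ⟩
        obtain ⟨θ, hθ, he⟩ := hall B' hB' ⟨ψ₀, hψ₀, θ₀, hθ₀, he₀⟩ ψ hψ
        have hirr := (ind_irr_of_over N hM b hb T hNT hT' ψ θ hθ he).1
        have h4 := hmemB B' B hind ψ hψ hirr
        have e : χ = ⟨_, hirr⟩ := Subtype.ext hχψ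
        rw [e]
        exact h4
  · intro B'₁ B'₂ hB'₁ hB'₂ hcov₁ hcov₂ B hind₁ hind₂
    obtain ⟨ψ₁, hψ₁, θ₁, hθ₁, he₁⟩ := hcov₁
    obtain ⟨ψ₂, hψ₂, θ₂, hθ₂, he₂⟩ := hcov₂
    have hirr₁ := (ind_irr_of_over N hM b hb T hNT hT' ψ₁ θ₁ hθ₁ he₁).1
    have hirr₂ := (ind_irr_of_over N hM b hb T hNT hT' ψ₂ θ₂ hθ₂ he₂).1
    have hm₁ := hmemB B'₁ B hind₁ ψ₁ hψ₁ hirr₁
    have hm₂ := hmemB B'₂ B hind₂ ψ₂ hψ₂ hirr₂
    have hs : SameBlock M (indFun T (ψ₁ : T → ℂ)) (indFun T (ψ₂ : T → ℂ)) :=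
      isPBlock_sameBlock' hM hind₁.2.1 (χ := ⟨_, hirr₁⟩) (ψ := ⟨_, hirr₂⟩) hm₁ hm₂
    have hs' := sameBlock_of_ind N hM b hb T hNT hT' ψ₁ ψ₂ θ₁ θ₂ hθ₁ hθ₂ he₁ he₂ hs
    have hψ₂' : ψ₂ ∈ B'₁ := blockClosed_of_isPBlock M hB'₁ ψ₁ hψ₁ ψ₂ hs'
    exact isPBlock_eq_of_mem hM hB'₁ hB'₂ hψ₂' hψ₂
  · rintro B hB ⟨χ, hχ, θ, hθ, he⟩
    obtain ⟨ξ, ⟨θ', hθ', he'⟩, hξχ⟩ := exists_ind_eq_of_over N hM b hb T hNT hT' χ θ hθ he
    have hirr : IsIrrCharacter G (indFun T (ξ : T → ℂ)) := by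
      rw [hξχ]
      exact χ.2
    refine ⟨blockOf M (ξ : T → ℂ), ⟨ξ, rfl⟩, ⟨ξ, sameBlock_refl M _, θ', hθ', he'⟩, ?_⟩
    have h1 := Cfsg.Agent.S0933.result p M hM T ξ hirr
    have hBeq : B = blockOf M (indFun T (ξ : T → ℂ)) := by
      rw [hξχ]
      exact isPBlock_eq_of_mem hM hB ⟨χ, rfl⟩ hχ (sameBlock_refl M _)
    rw [hBeq]
    exact h1

end Cfsg.Agent.S4435
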