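import Mathlib
import Cfsg.Statements.S4444
import Cfsg.Agent.Lib.Helper2.GlaubPGroup

set_option autoImplicit false

open Cfsg

namespace Cfsg.Agent.S4444

open Cfsg.Agent.Lib.Helper2

/-- The Glauberman correspondence for a p-group of operators. Inside a finite group Γ let S normalise G with the orders of G and S coprime, S a p-group, and let C = G ⊓ C(S) be the fixed points. Call an irreducible character χ of G S-invariant when χ(s g s⁻¹) = χ(g) for s ∈ S, g ∈ G. Then: (i) for every S-invariant χ there is exactly one irreducible character β of C whose multiplicity [χ_C, β] in the restriction of χ is not divisible by p; (ii) that multiplicity is ≡ 1 or ≡ −1 (mod p); (iii) distinct S-invariant χ give distinct β; (iv) every irreducible character of C arises in this way. So χ ↦ β is a bijection from the S-invariant irreducible characters of G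 onto the irreducible characters of C. -/
theorem result {Γ : Type*} [Group Γ] [Fintype Γ] (G S : Subgroup Γ) [Fintype G] (hnorm : ∀ s ∈ S, ∀ g ∈ G, s * g * s⁻¹ ∈ G) (hcop : (Nat.card G).Coprime (Nat.card S)) (p : ℕ) (hp : p.Prime) (hS : IsPGroup p S) (C : Subgroup Γ) [Fintype C] (hC : C = G ⊓ Subgroup.centralizer (S : Set Γ)) (hCG : C ≤ G) : (∀ χ : Cfsg.IrrCharacter G, (∀ s ∈ S, ∀ g g' : G, (g' : Γ) = s * g * s⁻¹ → (χ : G → ℂ) g' = (χ : G → ℂ) g) → ∃! β : Cfsg.IrrCharacter C, ∃ m : ℕ, Cfsg.classInner (fun c : C => (χ : G → ℂ) ⟨c, hCG c.2⟩) (β : C → ℂ) = (m : ℂ) ∧ ¬ p ∣ m) ∧ (∀ χ : Cfsg.IrrCharacter G, (∀ s ∈ S, ∀ g g' : G, (g' : Γ) = s * g * s⁻¹ → (χ : G → ℂ) g' = (χ : G → ℂ) g) → ∀ β : Cfsg.IrrCharacter C, ∀ m : ℕ, Cfsg.classInner (fun c : C => (χ : G → ℂ) ⟨c, hCG c.2⟩) (β : C → ℂ) = (m : ℂ) → ¬ p ∣ m → ((m : ℤ) ≡ 1 [ZMOD p] ∨ (m : ℤ) ≡ -1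 [ZMOD p])) ∧ (∀ χ χ' : Cfsg.IrrCharacter G, (∀ s ∈ S, ∀ g g' : G, (g' : Γ) = s * g * s⁻¹ → (χ : G → ℂ) g' = (χ : G → ℂ) g) → (∀ s ∈ S, ∀ g g' : G, (g' : Γ) = s * g * s⁻¹ → (χ' : G → ℂ) g' = (χ' : G → ℂ) g) → ∀ β : Cfsg.IrrCharacter C, ∀ m m' : ℕ, Cfsg.classInner (fun c : C => (χ : G → ℂ) ⟨c, hCG c.2⟩) (β : C → ℂ) = (m : ℂ) → ¬ p ∣ m → Cfsg.classInner (fun c : C => (χ' : G → ℂ) ⟨c, hCG c.2⟩) (β : C → ℂ) = (m' : ℂ) → ¬ p ∣ m' → χ = χ') ∧ (∀ β : Cfsg.IrrCharacter C, ∃ χ : Cfsg.IrrCharacter G, (∀ s ∈ S, ∀ g g' : G, (g' : Γ) = s * g * s⁻¹ → (χ : G → ℂ) g' = (χ : G → ℂ) g) ∧ ∃ m : ℕ, Cfsg.classInner (fun c : C => (χ : G → ℂ) ⟨c, hCG c.2⟩) (β : C → ℂ) = (m : ℂ) ∧ ¬ p ∣ m) := by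
  haveI : Fact p.Prime := ⟨hp⟩
  obtain ⟨hex, hinj, hsur⟩ := glaub_pgroup p G S C hnorm hS hcop hC hCG
  have hcast : ∀ {a b : ℕ}, (a : ℂ) = (b : ℂ) → a = b := fun h => by exact_mod_cast h
  refine ⟨?_, ?_, ?_, ?_⟩
  · intro χ hinv
    obtain ⟨β₀, ⟨m₀, hm₀, hm₀'⟩, hoth⟩ := hex χ.1 χ.2 hinv
    refine ⟨β₀, ⟨m₀, hm₀, not_dvd_of_pm_one p hp m₀ hm₀'⟩, ?_⟩
    rintro β ⟨m, hm, hmd⟩
    by_contra hne
    obtain ⟨m', hm', hd⟩ := hoth β hne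
    have h1 : Cfsg.classInner ((χ : G → ℂ) ∘ Subgroup.inclusion hCG) (β : C → ℂ) = (m : ℂ) := hm
    rw [hm'] at h1
    exact hmd (hcast h1 ▸ hd)
  · intro χ hinv β m hm hmd
    obtain ⟨β₀, ⟨m₀, hm₀, hm₀'⟩, hoth⟩ := hex χ.1 χ.2 hinv
    have hβ : β = β₀ := by
      by_contra hne
      obtain ⟨m', hm', hd⟩ := hoth β hne
      have h1 : Cfsg.classInner ((χ : G → ℂ) ∘ Subgroup.inclusion hCG) (β : C → ℂ) = (m : ℂ) := hm
      rw [hm'] at h1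
      exact hmd (hcast h1 ▸ hd)
    subst hβ
    have h1 : Cfsg.classInner ((χ : G → ℂ) ∘ Subgroup.inclusion hCG) (β : C → ℂ) = (m : ℂ) := hm
    rw [hm₀] at h1
    rw [← hcast h1]
    exact hm₀'
  · intro χ χ' hinv hinv' β m m' hm hmd hm' hmd'
    exact Subtype.ext (hinj χ.1 χ'.1 χ.2 χ'.2 hinv hinv' β m m' hm hmd hm' hmd')
  · intro β
    obtain ⟨χ, hχ, hinv, m, hm, hmd⟩ := hsur β
    exact ⟨⟨χ, hχ⟩, hinv, m, hm, hmd⟩

end Cfsg.Agent.S4444
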