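import Mathlib
import Cfsg.Statements.S4455
import Cfsg.Agent.Lib.Helper2.PResSquares

set_option autoImplicit false
open Cfsg

namespace Cfsg.Agent.S4455

open Cfsg.Agent.Lib.Helper2

/-- #O^p(G) ≡ Σ χ(1)² (mod p), the sum over irreducible χ with p ∤ χ(1) and p ∤ o(χ). -/
theorem result {G : Type*} [Group G] [Finite G] (p : ℕ) (hp : p.Prime) : (Nat.card (Cfsg.pResidual p G) : ℤ) ≡ (∑ᶠ χ ∈ {χ : Cfsg.IrrCharacter G | ¬ p ∣ Cfsg.charDegree (χ : G → ℂ) ∧ ¬ p ∣ Cfsg.detOrder (χ : G → ℂ)}, (Cfsg.charDegree (χ : G → ℂ) : ℤ) ^ 2) [ZMOD p] := by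
  have : Fact p.Prime := ⟨hp⟩
  exact pResidual_sq_sum p

end Cfsg.Agent.S4455
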