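import Cfsg.Statements.S4474
import Cfsg.Agent.Lib.Helper26.RealForm
import Cfsg.Agent.Lib.Helper25.FSForm
import Cfsg.Agent.Lib.Helper2.CharCover2
import Cfsg.Agent.Lib.Helper2.CharBasic
import Cfsg.Agent.Lib.Helper8.SchurAux
import Cfsg.Agent.S0895
import Cfsg.Agent.S0914

set_option autoImplicit false
open Cfsg

namespace Cfsg.Agent.S4474

open Cfsg.Agent.Lib.Helper2 Cfsg.Agent.Lib.Helper25 Cfsg.Agent.Lib.Helper26


open scoped ComplexConjugate Matrix ComplexOrder

theorem fs_to_real {G : Type*} [Group G] [Fintype G] (n : ℕ)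
    (ρ : Representation ℂ G (Fin n → ℂ)) (hirr : ρ.IsIrreducible)
    (hν : (Nat.card G : ℂ)⁻¹ * ∑ s : G, ρ.character (s * s) = 1) :
    ∃ ρr : Representation ℝ G (Fin n → ℝ), ∀ g : G,
      ((LinearMap.trace ℝ (Fin n → ℝ) (ρr g) : ℝ) : ℂ) = ρ.character g := by
  classical
  set X : G → Matrix (Fin n) (Fin n) ℂ := fun g => LinearMap.toMatrix' (ρ g) with hX
  have htr : ∀ g : G, ρ.character g = Matrix.trace (X g) := by
    intro g
    have := LinearMap.trace_eq_matrix_trace ℂ (Pi.basisFun ℂ (Fin n)) (ρ g)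
    rw [LinearMap.toMatrix_eq_toMatrix'] at this
    exact this
  have hmul : ∀ g h : G, X (g * h) = X g * X h := fun g h => by
    simp only [hX]
    rw [map_mul, Module.End.mul_eq_comp, LinearMap.toMatrix'_comp]
  have hone : X (1 : G) = 1 := by
    simp only [hX]
    rw [map_one, Module.End.one_eq_id, LinearMap.toMatrix'_id]
  have hinv : ∀ g : G, X g * X g⁻¹ = 1 := fun g => by
    rw [← hmul, mul_inv_cancel, hone]
  have hinv' : ∀ g : G, X g⁻¹ * X g = 1 := fun g => by
    rw [← hmul, inv_mul_cancel, hone]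
  have he : ∀ g : G, ρ g = Matrix.toLin' (X g) := fun g => by
    simp only [hX]
    rw [Matrix.toLin'_toMatrix']
  have hn0 : n ≠ 0 := by
    rintro rfl
    have h0 : ∑ s : G, ρ.character (s * s) = 0 := by
      apply Finset.sum_eq_zero
      intro s _
      rw [htr]
      simp [Matrix.trace]
    rw [h0, mul_zero] at hν
    exact zero_ne_one hν
  -- twist
  have htw : ∀ (M : Matrix (Fin n) (Fin n) ℂ),
      (∀ g : G, (X g)ᵀ * M * X g = M) → ∀ g : G, M * X g = (X g⁻¹)ᵀ * M := by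
    intro M hM g
    calc M * X g = ((X g⁻¹)ᵀ * (X g)ᵀ) * M * X g := by
          rw [← Matrix.transpose_mul, hinv, Matrix.transpose_one, Matrix.one_mul]
      _ = (X g⁻¹)ᵀ * ((X g)ᵀ * M * X g) := by simp only [Matrix.mul_assoc]
      _ = (X g⁻¹)ᵀ * M := by rw [hM g]
  have hunit : ∀ (M : Matrix (Fin n) (Fin n) ℂ), M ≠ 0 →
      (∀ g : G, (X g)ᵀ * M * X g = M) → IsUnit M := by
    intro M h0 hM
    have h1M := htw M hM
    have hU : ∀ g : G, ∀ v ∈ LinearMap.ker (Matrix.toLin' M),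
        ρ g v ∈ LinearMap.ker (Matrix.toLin' M) := by
      intro g v hv
      rw [LinearMap.mem_ker] at hv ⊢
      rw [he g, ← LinearMap.comp_apply, ← Matrix.toLin'_mul, h1M g, Matrix.toLin'_mul,
        LinearMap.comp_apply, hv, map_zero]
    rcases Cfsg.Agent.S0895.invariant_bot_or_top ρ hirr _ hU with hb | ht
    · rw [← Matrix.mulVec_injective_iff_isUnit]
      have hinj : Function.Injective (Matrix.toLin' M) := LinearMap.ker_eq_bot.1 hb
      intro v w hvw
      apply hinj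
      simpa [Matrix.toLin'_apply] using hvw
    · exfalso; apply h0
      have : Matrix.toLin' M = 0 := LinearMap.ker_eq_top.1 ht
      simpa using this
  -- existence of a nonzero invariant form
  have hex : ∃ M : Matrix (Fin n) (Fin n) ℂ, M ≠ 0 ∧ ∀ g : G, (X g)ᵀ * M * X g = M := by
    by_contra hcon
    push Not at hcon
    have havg : ∀ (A : Matrix (Fin n) (Fin n) ℂ) (h : G),
        (X h)ᵀ * (∑ g : G, (X g)ᵀ * A * X g) * X h = ∑ g : G, (X g)ᵀ * A * X g := by
      intro A h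
      rw [Finset.mul_sum, Finset.sum_mul]
      apply Fintype.sum_equiv (Equiv.mulRight h)
      intro g
      simp only [Equiv.coe_mulRight, hmul, Matrix.transpose_mul, Matrix.mul_assoc]
    have hent : ∀ i j a b : Fin n,
        (∑ g : G, (X g)ᵀ * Matrix.single i j (1 : ℂ) * X g) a b
          = ∑ g : G, X g i a * X g j b := by
      intro i j a b
      rw [Matrix.sum_apply]
      apply Finset.sum_congr rfl
      intro g _
      rw [Cfsg.Agent.S0895.entry_single, Matrix.transpose_apply]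
    have hzero : ∀ i j : Fin n,
        (∑ g : G, (X g)ᵀ * Matrix.single i j (1 : ℂ) * X g) = 0 := by
      intro i j
      by_contra hne
      obtain ⟨g, hg⟩ := hcon _ hne
      exact hg (havg _ g)
    have hoff : ∑ i : Fin n, ∑ j : Fin n, (∑ g : G, X g j i * X g i j)
        = ∑ g : G, ρ.character (g * g) := by
      simp only [htr, hmul, Matrix.trace, Matrix.diag, Matrix.mul_apply]
      conv_rhs => rw [Finset.sum_comm]
      apply Finset.sum_congr rfl; intro i _
      rw [Finset.sum_comm]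
      apply Finset.sum_congr rfl; intro g _
      apply Finset.sum_congr rfl; intro j _
      ring
    have h0 : ∑ g : G, ρ.character (g * g) = 0 := by
      rw [← hoff]
      apply Finset.sum_eq_zero; intro i _
      apply Finset.sum_eq_zero; intro j _
      rw [← hent j i i j, hzero j i]
      rfl
    rw [h0, mul_zero] at hν
    exact zero_ne_one hν
  obtain ⟨M₁, hM₁0, hM₁⟩ := hex
  have hu : IsUnit M₁.det := (Matrix.isUnit_iff_isUnit_det M₁).1 (hunit M₁ hM₁0 hM₁)
  -- the character is real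
  have hreal : ∀ g : G, (ρ.character g).im = 0 := by
    intro g
    have h1 : (X g⁻¹)ᵀ = M₁ * X g * M₁⁻¹ := by
      rw [htw M₁ hM₁ g, Matrix.mul_assoc, Matrix.mul_nonsing_inv _ hu, Matrix.mul_one]
    have h2 : ρ.character g⁻¹ = ρ.character g := by
      rw [htr, htr, ← Matrix.trace_transpose, h1, Matrix.trace_mul_cycle,
        Matrix.nonsing_inv_mul _ hu, Matrix.one_mul]
    rw [char_inv] at h2
    exact Complex.conj_eq_iff_im.1 h2
  -- the form is symmetric
  have hfs := (fs_form n ρ hirr hreal).2 M₁ hM₁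
  rw [hν, one_smul] at hfs
  -- the Hermitian average
  let W : Matrix (Fin n) (Fin n) ℂ := ∑ g : G, X g * (X g)ᴴ
  have hWpd : W.PosDef := by
    apply Matrix.posDef_sum Finset.univ_nonempty
    intro g _
    apply Matrix.PosDef.mul_conjTranspose_self
    rw [Matrix.vecMul_injective_iff_isUnit]
    exact ⟨⟨X g, X g⁻¹, hinv g, hinv' g⟩, rfl⟩
  have hWinv : ∀ h : G, X h * W * (X h)ᴴ = W := by
    intro h
    simp only [W]
    rw [Finset.mul_sum, Finset.sum_mul]
    apply Fintype.sum_equiv (Equiv.mulLeft h)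
    intro g
    simp only [Equiv.coe_mulLeft, hmul, Matrix.conjTranspose_mul, Matrix.mul_assoc]
  have hWX : ∀ g : G, X g * W = W * (X g⁻¹)ᴴ := by
    intro g
    calc X g * W = X g * W * ((X g)ᴴ * (X g⁻¹)ᴴ) := by
          rw [← Matrix.conjTranspose_mul, hinv', Matrix.conjTranspose_one, Matrix.mul_one]
      _ = (X g * W * (X g)ᴴ) * (X g⁻¹)ᴴ := by simp only [Matrix.mul_assoc]
      _ = W * (X g⁻¹)ᴴ := by rw [hWinv g]
  obtain ⟨A₀, hA₀def⟩ : ∃ A₀ : Matrix (Fin n) (Fin n) ℂ, A₀ = W * cj M₁ := ⟨_, rfl⟩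
  have hA₀ : ∀ g : G, A₀ * cj (X g) = X g * A₀ := by
    intro g
    calc A₀ * cj (X g) = W * cj (M₁ * X g) := by rw [cj_mul, hA₀def, Matrix.mul_assoc]
      _ = W * cj ((X g⁻¹)ᵀ * M₁) := by rw [htw M₁ hM₁ g]
      _ = (W * (X g⁻¹)ᴴ) * cj M₁ := by rw [cj_mul, cj_transpose, Matrix.mul_assoc]
      _ = X g * A₀ := by rw [← hWX g, hA₀def, Matrix.mul_assoc]
  have hΛc : ∀ g : G, (A₀ * cj A₀) * X g = X g * (A₀ * cj A₀) := by
    intro g
    calc (A₀ * cj A₀) * X g = A₀ * cj (A₀ * cj (X g)) := by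
          rw [cj_mul A₀ (cj (X g)), cj_cj, Matrix.mul_assoc]
      _ = A₀ * cj (X g * A₀) := by rw [hA₀ g]
      _ = (A₀ * cj (X g)) * cj A₀ := by rw [cj_mul (X g) A₀, Matrix.mul_assoc]
      _ = X g * (A₀ * cj A₀) := by rw [hA₀ g, Matrix.mul_assoc]
  obtain ⟨lam, hlam⟩ := Cfsg.Agent.Lib.Helper8.schur_scalar ρ hirr
    (Matrix.toLin' (A₀ * cj A₀)) (by
      intro g
      rw [he g, ← Matrix.toLin'_mul, ← Matrix.toLin'_mul, hΛc g])
  have hlam' : A₀ * cj A₀ = lam • (1 : Matrix (Fin n) (Fin n) ℂ) := by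
    have := congrArg LinearMap.toMatrix' hlam
    rw [LinearMap.toMatrix'_toLin'] at this
    rw [this, map_smul]
    congr 1
    exact LinearMap.toMatrix'_id
  -- positivity of the scalar
  have hMinj : Function.Injective M₁.mulVec :=
    Matrix.mulVec_injective_iff_isUnit.2 ((Matrix.isUnit_iff_isUnit_det _).2 hu)
  have hK : (M₁ᴴ * Wᵀ * M₁).PosDef := hWpd.transpose.conjTranspose_mul_mul_same hMinj
  have hcjM : cj M₁ = M₁ᴴ := by
    conv_lhs => rw [← hfs]
    rw [cj_transpose]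
  have hcjW : cj W = Wᵀ := by
    conv_lhs => rw [← hWpd.isHermitian.eq]
    rw [cj_conjTranspose]
  have hWK : W * (M₁ᴴ * Wᵀ * M₁) = lam • (1 : Matrix (Fin n) (Fin n) ℂ) := by
    rw [← hlam', hA₀def, cj_mul, cj_cj, hcjM, hcjW]
    simp only [Matrix.mul_assoc]
  have hWu : IsUnit W.det := (Matrix.isUnit_iff_isUnit_det _).1 hWpd.isUnit
  have hKeq : M₁ᴴ * Wᵀ * M₁ = lam • W⁻¹ := by
    calc M₁ᴴ * Wᵀ * M₁ = W⁻¹ * (W * (M₁ᴴ * Wᵀ * M₁)) := by
          rw [← Matrix.mul_assoc, Matrix.nonsing_inv_mul _ hWu, Matrix.one_mul]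
      _ = lam • W⁻¹ := by rw [hWK, Matrix.mul_smul, Matrix.mul_one]
  let x : Fin n → ℂ := fun _ => 1
  have hx : x ≠ 0 := by
    intro h
    have := congrFun h ⟨0, Nat.pos_of_ne_zero hn0⟩
    simp [x] at this
  have hp1 := hK.dotProduct_mulVec_pos hx
  have hp2 := hWpd.inv.dotProduct_mulVec_pos hx
  rw [hKeq, Matrix.smul_mulVec, dotProduct_smul, smul_eq_mul] at hp1
  obtain ⟨hc1, hc2⟩ := Complex.pos_iff.1 hp2
  obtain ⟨hd1, hd2⟩ := Complex.pos_iff.1 hp1
  rw [Complex.mul_re, ← hc2, mul_zero, sub_zero] at hd1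
  rw [Complex.mul_im, ← hc2, mul_zero, zero_add] at hd2
  have hlim : lam.im = 0 := by
    rcases mul_eq_zero.1 hd2.symm with h | h
    · exact h
    · exact absurd h hc1.ne'
  have hlre : 0 < lam.re := (mul_pos_iff_of_pos_right hc1).1 hd1
  have hlam_eq : lam = ((lam.re : ℝ) : ℂ) := by
    apply Complex.ext
    · simp
    · simp [hlim]
  -- normalise
  set r : ℝ := Real.sqrt lam.re with hr
  have hr0 : r ≠ 0 := (Real.sqrt_pos.2 hlre).ne'
  have hrr : r * r = lam.re := Real.mul_self_sqrt hlre.le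
  obtain ⟨A, hAdef⟩ : ∃ A : Matrix (Fin n) (Fin n) ℂ, A = ((r : ℂ)⁻¹) • A₀ := ⟨_, rfl⟩
  have hcr : conj ((r : ℂ)⁻¹) = (r : ℂ)⁻¹ := by
    rw [map_inv₀, Complex.conj_ofReal]
  have hAA : A * cj A = 1 := by
    rw [hAdef, cj_smul, hcr, Matrix.smul_mul, Matrix.mul_smul, hlam', smul_smul, smul_smul]
    have hr0' : (r : ℂ) ≠ 0 := Complex.ofReal_ne_zero.2 hr0
    have e : (r : ℂ)⁻¹ * (r : ℂ)⁻¹ * lam = 1 := by
      rw [hlam_eq, ← hrr]
      push_cast
      field_simp
    rw [e, one_smul]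
  have hAX : ∀ g : G, A * cj (X g) = X g * A := by
    intro g
    rw [hAdef, Matrix.smul_mul, Matrix.mul_smul, hA₀ g]
  obtain ⟨S, hS, hAS⟩ := exists_hilbert90 A hAA
  obtain ⟨ρr, hρr⟩ := exists_real_rep (fun g => S⁻¹ * X g * S)
    (by
      show S⁻¹ * X 1 * S = 1
      rw [hone, Matrix.mul_one, Matrix.nonsing_inv_mul _ hS])
    (by
      intro g h
      show S⁻¹ * X (g * h) * S = (S⁻¹ * X g * S) * (S⁻¹ * X h * S)
      rw [hmul]
      have e : (S⁻¹ * X g * S) * (S⁻¹ * X h * S) = S⁻¹ * X g * (S * S⁻¹) * X h * S := by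
        simp only [Matrix.mul_assoc]
      rw [e, Matrix.mul_nonsing_inv _ hS, Matrix.mul_one]
      simp only [Matrix.mul_assoc])
    (fun g => real_of_hilbert90 A S (X g) hS hAS (hAX g))
  refine ⟨ρr, fun g => ?_⟩
  rw [hρr g, htr g]
  show Matrix.trace (S⁻¹ * X g * S) = _
  rw [Matrix.trace_mul_cycle, Matrix.mul_nonsing_inv _ hS, Matrix.one_mul]

theorem real_to_fs {G : Type*} [Group G] [Fintype G] (χ : IrrCharacter G) (n : ℕ)
    (ρr : Representation ℝ G (Fin n → ℝ))
    (h : ∀ g : G, ((LinearMap.trace ℝ (Fin n → ℝ) (ρr g) : ℝ) : ℂ) = (χ : G → ℂ) g) :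
    (Nat.card G : ℂ)⁻¹ * ∑ s : G, (χ : G → ℂ) (s * s) = 1 := by
  classical
  set Z : G → Matrix (Fin n) (Fin n) ℝ := fun g => LinearMap.toMatrix' (ρr g) with hZ
  have hZmul : ∀ g h : G, Z (g * h) = Z g * Z h := fun g h => by
    simp only [hZ]
    rw [map_mul, Module.End.mul_eq_comp, LinearMap.toMatrix'_comp]
  have hZone : Z (1 : G) = 1 := by
    simp only [hZ]
    rw [map_one, Module.End.one_eq_id, LinearMap.toMatrix'_id]
  have hZtr : ∀ g : G, LinearMap.trace ℝ (Fin n → ℝ) (ρr g) = Matrix.trace (Z g) := by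
    intro g
    have := LinearMap.trace_eq_matrix_trace ℝ (Pi.basisFun ℝ (Fin n)) (ρr g)
    rw [LinearMap.toMatrix_eq_toMatrix'] at this
    exact this
  let ρc : Representation ℂ G (Fin n → ℂ) :=
    { toFun := fun g => Matrix.toLin' (rmap (Z g))
      map_one' := by rw [hZone, rmap_one, Matrix.toLin'_one]; rfl
      map_mul' := fun g h => by rw [hZmul, rmap_mul, Matrix.toLin'_mul]; rfl }
  have hmat : ∀ g : G, LinearMap.toMatrix' (ρc g) = rmap (Z g) :=
    fun g => LinearMap.toMatrix'_toLin' _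
  have hchar : ρc.character = (χ : G → ℂ) := by
    funext g
    rw [← h g, hZtr g, ← trace_rmap, ← hmat g]
    have := LinearMap.trace_eq_matrix_trace ℂ (Pi.basisFun ℂ (Fin n)) (ρc g)
    rw [LinearMap.toMatrix_eq_toMatrix'] at this
    exact this
  have hirr : ρc.IsIrreducible := isIrreducible_of_char_irr ρc (by rw [hchar]; exact χ.2)
  have hreal : ∀ g : G, (ρc.character g).im = 0 := by
    intro g
    rw [hchar, ← h g]
    exact Complex.ofReal_im _
  have hfs := (fs_form n ρc hirr hreal).2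
  have hn0 : n ≠ 0 := by
    rintro rfl
    obtain ⟨d, hd, -, hdpos, -⟩ := Cfsg.Agent.S0914.irr_degree_data χ
    rw [← h 1, hZtr] at hd
    have : (d : ℂ) = 0 := by
      rw [← hd]
      simp [Matrix.trace]
    exact hdpos.ne' (by exact_mod_cast this)
  let i0 : Fin n := ⟨0, Nat.pos_of_ne_zero hn0⟩
  let M₀ : Matrix (Fin n) (Fin n) ℝ := ∑ g : G, (Z g)ᵀ * Z g
  have hM₀inv : ∀ h : G, (Z h)ᵀ * M₀ * Z h = M₀ := by
    intro h
    simp only [M₀]
    rw [Finset.mul_sum, Finset.sum_mul]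
    apply Fintype.sum_equiv (Equiv.mulRight h)
    intro g
    simp only [Equiv.coe_mulRight, hZmul, Matrix.transpose_mul, Matrix.mul_assoc]
  have hM₀t : M₀ᵀ = M₀ := by
    simp only [M₀]
    rw [Matrix.transpose_sum]
    apply Finset.sum_congr rfl
    intro g _
    rw [Matrix.transpose_mul, Matrix.transpose_transpose]
  have hpos : 0 < M₀ i0 i0 := by
    have e : M₀ i0 i0 = ∑ g : G, ∑ k : Fin n, Z g k i0 * Z g k i0 := by
      simp only [M₀, Matrix.sum_apply, Matrix.mul_apply, Matrix.transpose_apply]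
    rw [e]
    have h1 : ∀ g ∈ (Finset.univ : Finset G), 0 ≤ ∑ k : Fin n, Z g k i0 * Z g k i0 :=
      fun g _ => Finset.sum_nonneg (fun k _ => mul_self_nonneg _)
    have h2 : (1 : ℝ) ≤ ∑ k : Fin n, Z 1 k i0 * Z 1 k i0 := by
      rw [hZone]
      have := Finset.single_le_sum (f := fun k => (1 : Matrix (Fin n) (Fin n) ℝ) k i0
        * (1 : Matrix (Fin n) (Fin n) ℝ) k i0) (fun k _ => mul_self_nonneg _)
        (Finset.mem_univ i0)
      simpa using this
    have h3 := Finset.single_le_sum h1 (Finset.mem_univ (1 : G))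
    linarith
  have hM0 : rmap M₀ ≠ 0 := by
    intro h0
    have := congrFun (congrFun h0 i0) i0
    rw [rmap_apply, Matrix.zero_apply] at this
    have h4 : M₀ i0 i0 = 0 := by exact_mod_cast this
    exact hpos.ne' h4
  have h3 := hfs (rmap M₀) (by
    intro g
    rw [hmat, ← rmap_transpose, ← rmap_mul, ← rmap_mul, hM₀inv])
  rw [← rmap_transpose, hM₀t, hchar] at h3
  by_contra hne
  apply hM0
  have h5 : (1 - (Nat.card G : ℂ)⁻¹ * ∑ s : G, (χ : G → ℂ) (s * s)) • rmap M₀ = 0 := by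
    rw [sub_smul, one_smul, ← h3, sub_self]
  rcases smul_eq_zero.1 h5 with h | h
  · exact absurd (sub_eq_zero.1 h).symm hne
  · exact h

/-- Let χ be an irreducible character of the finite group G. Then the Frobenius–Schur indicator of χ (the average over s ∈ G of χ(s²)) equals 1 if and only if χ is afforded by a real representation: there is a representation of G on a real coordinate space whose trace function, viewed in ℂ, is χ. -/
theorem result {G : Type*} [Group G] [Fintype G] (χ : Cfsg.IrrCharacter G) : ((Nat.card G : ℂ)⁻¹ * ∑ s : G, (χ : G → ℂ) (s * s)) = 1 ↔ ∃ (n : ℕ) (ρ : Representation ℝ G (Fin n → ℝ)), ∀ g : G, ((LinearMap.trace ℝ (Fin n → ℝ) (ρ g) : ℝ) : ℂ) = (χ : G → ℂ) g := by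

  obtain ⟨m, ρ, hρ, hχ⟩ := χ.2
  constructor
  · intro h
    rw [← hχ] at h
    obtain ⟨ρr, hρr⟩ := fs_to_real m ρ hρ h
    exact ⟨m, ρr, fun g => by rw [hρr g, hχ]⟩
  · rintro ⟨n, ρr, hρr⟩
    exact real_to_fs χ n ρr hρr

end Cfsg.Agent.S4474
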