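import Cfsg.Statements.S4476
-- import your own Cfsg.Agent.* helpers here
import Mathlib
import Cfsg.Agent.S4058
import Cfsg.Agent.S4477
import Cfsg.Agent.Lib.Helper2.CharOrtho
import Cfsg.Agent.Lib.Helper2.CharPerm
import Cfsg.Agent.Lib.Helper2.CharOdd

set_option autoImplicit false
open Cfsg

namespace Cfsg.Agent.S4476

open Cfsg.Agent.Lib.Helper2 Cfsg.Agent.Lib.Lead Cfsg.Agent.S4058
open scoped ComplexConjugate

universe u

section prelim

variable {G : Type u} [Group G] [Fintype G]

theorem irr_inv' (χ : Cfsg.IrrCharacter G) (g : G) :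
    (χ : G → ℂ) g⁻¹ = conj ((χ : G → ℂ) g) := by
  obtain ⟨n, ρ, hρ, hχ⟩ := χ.2
  rw [← hχ]
  exact char_inv ρ g

theorem sum_sq_irr (χ : Cfsg.IrrCharacter G) :
    ∑ x : G, (χ : G → ℂ) x * (χ : G → ℂ) x = (Nat.card G : ℂ) ∨
      ∑ x : G, (χ : G → ℂ) x * (χ : G → ℂ) x = 0 := by
  classical
  have hψ := isIrrCharacter_comp_inv χ.2
  have h1 := classInner_irr χ.2 hψ
  rw [classInner_def] at h1
  have h2 : ∑ x : G, (χ : G → ℂ) x * conj (((χ : G → ℂ) ∘ fun g : G => g⁻¹) x)
      = ∑ x : G, (χ : G → ℂ) x * (χ : G → ℂ) x := by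
    apply Finset.sum_congr rfl
    intro x _
    rw [Function.comp_apply, irr_inv', Complex.conj_conj]
  rw [h2] at h1
  have hne := card_ne_zero_complex G
  split_ifs at h1 with h
  · left
    calc ∑ x : G, (χ : G → ℂ) x * (χ : G → ℂ) x
        = (Nat.card G : ℂ) * ((Nat.card G : ℂ)⁻¹ * ∑ x : G, (χ : G → ℂ) x * (χ : G → ℂ) x) := by
          field_simp
      _ = (Nat.card G : ℂ) := by rw [h1, mul_one]
  · right
    rcases mul_eq_zero.mp h1 with h3 | h3
    · exact absurd (inv_eq_zero.mp h3) hne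
    · exact h3

theorem sum_sq_irr_real (χ : Cfsg.IrrCharacter G) (hre : ∀ g, ((χ : G → ℂ) g).im = 0) :
    ∑ x : G, (χ : G → ℂ) x * (χ : G → ℂ) x = (Nat.card G : ℂ) := by
  have h1 := classInner_irr_self χ.2
  rw [classInner_def] at h1
  have h2 : ∑ x : G, (χ : G → ℂ) x * conj ((χ : G → ℂ) x)
      = ∑ x : G, (χ : G → ℂ) x * (χ : G → ℂ) x := by
    apply Finset.sum_congr rfl
    intro x _
    rw [Complex.conj_eq_iff_im.mpr (hre x)]
  rw [h2] at h1
  have hne := card_ne_zero_complex G
  calc ∑ x : G, (χ : G → ℂ) x * (χ : G → ℂ) x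
      = (Nat.card G : ℂ) * ((Nat.card G : ℂ)⁻¹ * ∑ x : G, (χ : G → ℂ) x * (χ : G → ℂ) x) := by
        field_simp
    _ = (Nat.card G : ℂ) := by rw [h1, mul_one]

theorem sum_irr_sq_col [Fintype (Cfsg.IrrCharacter G)] (x : G) :
    ∑ χ : Cfsg.IrrCharacter G, (χ : G → ℂ) x * (χ : G → ℂ) x = colFun x⁻¹ x := by
  rw [← column_orthogonality x x⁻¹]
  apply Finset.sum_congr rfl
  intro χ _
  rw [irr_inv', Complex.conj_conj]

theorem colFun_cases (x : G) :
    colFun x⁻¹ x = (Nat.card (Subgroup.centralizer ({x} : Set G)) : ℂ) ∨ colFun x⁻¹ x = 0 := by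
  by_cases h : IsConj x x⁻¹
  · left; exact colFun_of_isConj h
  · right; exact colFun_of_not_isConj h

omit [Fintype G] in
theorem card_centralizer_one [Finite G] :
    Nat.card (Subgroup.centralizer ({1} : Set G)) = Nat.card G := by
  have h : Subgroup.centralizer ({1} : Set G) = ⊤ := by
    rw [Subgroup.centralizer_eq_top_iff_subset]
    intro x hx
    rw [Set.mem_singleton_iff] at hx
    rw [hx]
    exact (Subgroup.center G).one_mem
  rw [h, Subgroup.card_top]

theorem sum_deg_sq [Fintype (Cfsg.IrrCharacter G)] :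
    ∑ χ : Cfsg.IrrCharacter G, (χ : G → ℂ) 1 * (χ : G → ℂ) 1 = (Nat.card G : ℂ) := by
  rw [sum_irr_sq_col 1]
  have h : IsConj (1 : G) (1 : G)⁻¹ := by rw [inv_one]
  rw [colFun_of_isConj h, card_centralizer_one]

end prelim


/-- Let G be a finite group of even order g with exactly t involutions, and put α = (g − 1)/t (a rational number). Then (a) some non-identity element x of G has at most α² conjugates; and (b) some non-principal real-valued irreducible character of G has degree at most α. -/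
theorem result {G : Type*} [Group G] [Fintype G] (heven : Even (Nat.card G)) (t : ℕ) (ht : Nat.card {x : G // orderOf x = 2} = t) : (∃ x : G, x ≠ 1 ∧ ((Subgroup.centralizer ({x} : Set G)).index : ℚ) ≤ (((Nat.card G : ℚ) - 1) / t) ^ 2) ∧ ∃ χ : Cfsg.IrrCharacter G, (χ : G → ℂ) ≠ (fun _ => 1) ∧ (∀ g : G, ((χ : G → ℂ) g).im = 0) ∧ (Cfsg.charDegree (χ : G → ℂ) : ℚ) ≤ ((Nat.card G : ℚ) - 1) / t := by
  classical
  have := Fintype.ofFinite (Cfsg.IrrCharacter G)
  have hdegex : ∀ χ : Cfsg.IrrCharacter G, ∃ n : ℕ, 0 < n ∧ (χ : G → ℂ) 1 = (n : ℂ) :=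
    fun χ => irr_apply_one χ.2
  choose deg hdeg_pos hdeg using hdegex
  have hepsex : ∀ χ : Cfsg.IrrCharacter G, ∃ e : ℤ, fsInd (χ : G → ℂ) = (e : ℂ) ∧
      (e = 0 ∨ e = 1 ∨ e = -1) := by
    intro χ
    rcases fsInd_cases χ.2 with h | h | h
    · exact ⟨0, by rw [h]; simp, Or.inl rfl⟩
    · exact ⟨1, by rw [h]; simp, Or.inr (Or.inl rfl)⟩
    · exact ⟨-1, by rw [h]; simp, Or.inr (Or.inr rfl)⟩
  choose eps heps heps_cases using hepsex
  have heps_zero : ∀ χ : Cfsg.IrrCharacter G, eps χ = 0 ↔ ∃ s : G, ((χ : G → ℂ) s).im ≠ 0 := by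
    intro χ
    rw [← Cfsg.Agent.S4477.fsInd_eq_zero_iff χ.2, heps χ]
    exact_mod_cast Iff.rfl
  have hreal_of : ∀ χ : Cfsg.IrrCharacter G, eps χ ≠ 0 → ∀ s : G, ((χ : G → ℂ) s).im = 0 := by
    intro χ h
    by_contra hc
    push Not at hc
    exact h ((heps_zero χ).mpr hc)
  have hcount : (Nat.card {x : G // x ^ 2 = 1} : ℤ) = ∑ χ : Cfsg.IrrCharacter G, eps χ * deg χ := by
    have h1 := count_eq_sum (G := G)
    have h2 : ((Nat.card {x : G // x ^ 2 = 1} : ℤ) : ℂ)
        = ((∑ χ : Cfsg.IrrCharacter G, eps χ * deg χ : ℤ) : ℂ) := by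
      rw [Int.cast_natCast, h1, Int.cast_sum]
      apply Finset.sum_congr rfl
      intro χ _
      rw [heps χ, hdeg χ]
      push_cast
      ring
    exact_mod_cast h2
  -- the trivial character
  let triv : Cfsg.IrrCharacter G := ⟨fun _ => 1, isIrrCharacter_one⟩
  have hdeg_triv : deg triv = 1 := by
    have h1 := hdeg triv
    have h2 : (1 : ℂ) = (deg triv : ℂ) := h1
    exact_mod_cast h2.symm
  have heps_triv : eps triv = 1 := by
    have h1 := heps triv
    have h2 : fsInd ((triv : Cfsg.IrrCharacter G) : G → ℂ) = 1 := by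
      unfold fsInd
      have h3 : ∑ s : G, ((triv : Cfsg.IrrCharacter G) : G → ℂ) (s * s) = (Nat.card G : ℂ) := by
        simp [triv, Nat.card_eq_fintype_card]
      rw [h3]
      exact inv_mul_cancel₀ (card_ne_zero_complex G)
    rw [h2] at h1
    exact_mod_cast h1.symm
  have hsq : ∑ χ : Cfsg.IrrCharacter G, (deg χ) ^ 2 = Nat.card G := by
    have h1 := sum_deg_sq (G := G)
    have h2 : ((∑ χ : Cfsg.IrrCharacter G, (deg χ) ^ 2 : ℕ) : ℂ) = (Nat.card G : ℂ) := by
      rw [← h1]
      push_cast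
      apply Finset.sum_congr rfl
      intro χ _
      rw [hdeg χ]
      ring
    exact_mod_cast h2
  let R : Finset (Cfsg.IrrCharacter G) := Finset.univ.filter (fun χ => χ ≠ triv ∧ eps χ ≠ 0)
  have hR : ∀ χ : Cfsg.IrrCharacter G, χ ∈ R ↔ (χ ≠ triv ∧ eps χ ≠ 0) := by
    intro χ
    simp only [R, Finset.mem_filter, Finset.mem_univ, true_and]
  have ht_pos : 0 < t := by
    rw [← ht]
    obtain ⟨x, hx⟩ := exists_prime_orderOf_dvd_card' (G := G) 2 heven.two_dvd
    have : Nonempty {x : G // orderOf x = 2} := ⟨⟨x, hx⟩⟩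
    exact Nat.card_pos
  have hg2 : 2 ≤ Nat.card G := by
    have h1 : 0 < Nat.card G := Nat.card_pos
    obtain ⟨k, hk⟩ := heven
    omega
  have htR : (t : ℤ) ≤ ∑ χ ∈ R, (deg χ : ℤ) := by
    have h1 : (t : ℤ) + 1 = ∑ χ : Cfsg.IrrCharacter G, eps χ * deg χ := by
      rw [← hcount, Cfsg.Agent.S4477.card_sq_eq, ht]
      push_cast
      ring
    have h2 : ∑ χ : Cfsg.IrrCharacter G, eps χ * (deg χ : ℤ)
        = eps triv * deg triv + ∑ χ ∈ Finset.univ.erase triv, eps χ * (deg χ : ℤ) :=
      (Finset.add_sum_erase _ _ (Finset.mem_univ triv)).symm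
    have h3 : ∑ χ ∈ Finset.univ.erase triv, eps χ * (deg χ : ℤ)
        ≤ ∑ χ ∈ Finset.univ.erase triv, (if eps χ ≠ 0 then (deg χ : ℤ) else 0) := by
      apply Finset.sum_le_sum
      intro χ _
      have hp := hdeg_pos χ
      rcases heps_cases χ with h | h | h
      · rw [h]; simp
      · rw [h]; simp
      · rw [h]; simp
    have h4 : ∑ χ ∈ Finset.univ.erase triv, (if eps χ ≠ 0 then (deg χ : ℤ) else 0)
        = ∑ χ ∈ R, (deg χ : ℤ) := by
      rw [← Finset.sum_filter]
      apply Finset.sum_congr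
      · ext χ
        rw [hR]
        simp only [Finset.mem_filter, Finset.mem_erase, Finset.mem_univ, and_true]
      · intros; rfl
    rw [h2, heps_triv, hdeg_triv] at h1
    push_cast at h1
    linarith
  have hRsq : ∑ χ ∈ R, (deg χ) ^ 2 + 1 ≤ Nat.card G := by
    rw [← hsq]
    have h1 : ∑ χ : Cfsg.IrrCharacter G, (deg χ) ^ 2
        = (deg triv) ^ 2 + ∑ χ ∈ Finset.univ.erase triv, (deg χ) ^ 2 :=
      (Finset.add_sum_erase _ _ (Finset.mem_univ triv)).symm
    have h2 : ∑ χ ∈ R, (deg χ) ^ 2 ≤ ∑ χ ∈ Finset.univ.erase triv, (deg χ) ^ 2 := by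
      apply Finset.sum_le_sum_of_subset
      intro χ hχ
      exact Finset.mem_erase.mpr ⟨((hR χ).mp hχ).1, Finset.mem_univ _⟩
    rw [h1, hdeg_triv]
    omega
  have hqcast : ((Nat.card G : ℚ) - 1) = ((Nat.card G - 1 : ℕ) : ℚ) := by
    rw [Nat.cast_sub (by omega)]
    simp
  have htq : (0 : ℚ) < (t : ℚ) := by exact_mod_cast ht_pos
  refine ⟨?_, ?_⟩
  · -- part (a)
    by_contra hcon
    push Not at hcon
    -- C-S
    have hcs : t ^ 2 ≤ R.card * (Nat.card G - 1) := by
      have h1 : (∑ χ ∈ R, (deg χ : ℤ)) ^ 2 ≤ (R.card : ℤ) * ∑ χ ∈ R, (deg χ : ℤ) ^ 2 :=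
        sq_sum_le_card_mul_sum_sq
      have h2 : (t : ℤ) ^ 2 ≤ (∑ χ ∈ R, (deg χ : ℤ)) ^ 2 :=
        pow_le_pow_left₀ (by positivity) htR 2
      have h3 : (∑ χ ∈ R, (deg χ : ℤ) ^ 2) ≤ ((Nat.card G - 1 : ℕ) : ℤ) := by
        have : ∑ χ ∈ R, (deg χ) ^ 2 ≤ Nat.card G - 1 := by omega
        exact_mod_cast this
      have h4 : (t : ℤ) ^ 2 ≤ (R.card : ℤ) * ((Nat.card G - 1 : ℕ) : ℤ) :=
        h2.trans (h1.trans (mul_le_mul_of_nonneg_left h3 (by positivity)))
      exact_mod_cast h4
    -- the centralizer sum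
    have hcl1 : (R.card + 1) * Nat.card G
        ≤ ∑ x : G, Nat.card (Subgroup.centralizer ({x} : Set G)) := by
      have hswap : ∑ χ : Cfsg.IrrCharacter G, ∑ x : G, (χ : G → ℂ) x * (χ : G → ℂ) x
          = ∑ x : G, colFun x⁻¹ x := by
        rw [Finset.sum_comm]
        apply Finset.sum_congr rfl
        intro x _
        exact sum_irr_sq_col x
      have hre := congrArg Complex.re hswap
      rw [Complex.re_sum, Complex.re_sum] at hre
      have hA_nonneg : ∀ χ : Cfsg.IrrCharacter G,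
          0 ≤ (∑ x : G, (χ : G → ℂ) x * (χ : G → ℂ) x).re := by
        intro χ
        rcases sum_sq_irr χ with h | h
        · rw [h]; simp
        · rw [h]; simp
      have hA_R : ∀ χ ∈ insert triv R,
          (∑ x : G, (χ : G → ℂ) x * (χ : G → ℂ) x).re = (Nat.card G : ℝ) := by
        intro χ hχ
        have hre' : ∀ s : G, ((χ : G → ℂ) s).im = 0 := by
          rcases Finset.mem_insert.mp hχ with h | h
          · intro s
            rw [h]
            simp [triv]
          · exact hreal_of χ ((hR χ).mp h).2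
        rw [sum_sq_irr_real χ hre']
        simp
      have hcol_le : ∀ x : G, (colFun x⁻¹ x).re
          ≤ (Nat.card (Subgroup.centralizer ({x} : Set G)) : ℝ) := by
        intro x
        rcases colFun_cases x with h | h
        · rw [h]; simp
        · rw [h]; simp
      have htrivR : triv ∉ R := by
        intro h
        exact ((hR triv).mp h).1 rfl
      have h5 : (((R.card + 1) * Nat.card G : ℕ) : ℝ)
          ≤ ((∑ x : G, Nat.card (Subgroup.centralizer ({x} : Set G)) : ℕ) : ℝ) := by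
        calc (((R.card + 1) * Nat.card G : ℕ) : ℝ)
            = ∑ χ ∈ insert triv R, (∑ x : G, (χ : G → ℂ) x * (χ : G → ℂ) x).re := by
              rw [Finset.sum_congr rfl hA_R, Finset.sum_const, Finset.card_insert_of_notMem htrivR,
                nsmul_eq_mul]
              push_cast
              ring
          _ ≤ ∑ χ : Cfsg.IrrCharacter G, (∑ x : G, (χ : G → ℂ) x * (χ : G → ℂ) x).re :=
              Finset.sum_le_sum_of_subset_of_nonneg (Finset.subset_univ _)
                (fun χ _ _ => hA_nonneg χ)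
          _ = ∑ x : G, (colFun x⁻¹ x).re := hre
          _ ≤ ∑ x : G, (Nat.card (Subgroup.centralizer ({x} : Set G)) : ℝ) :=
              Finset.sum_le_sum (fun x _ => hcol_le x)
          _ = ((∑ x : G, Nat.card (Subgroup.centralizer ({x} : Set G)) : ℕ) : ℝ) := by
              push_cast; rfl
      exact_mod_cast h5
    have hsplit : ∑ x : G, Nat.card (Subgroup.centralizer ({x} : Set G))
        = Nat.card G + ∑ x ∈ Finset.univ.erase (1 : G),
            Nat.card (Subgroup.centralizer ({x} : Set G)) := by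
      rw [← Finset.add_sum_erase _ _ (Finset.mem_univ (1 : G)), card_centralizer_one]
    have hi : Nat.card G * R.card
        ≤ ∑ x ∈ Finset.univ.erase (1 : G), Nat.card (Subgroup.centralizer ({x} : Set G)) := by
      rw [hsplit] at hcl1
      have : (R.card + 1) * Nat.card G = Nat.card G * R.card + Nat.card G := by ring
      omega
    -- the strict bound on the centralizer sum
    have hterm : ∀ x ∈ Finset.univ.erase (1 : G),
        Nat.card (Subgroup.centralizer ({x} : Set G)) * (Nat.card G - 1) ^ 2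
          < Nat.card G * t ^ 2 := by
      intro x hx
      have hx1 : x ≠ 1 := (Finset.mem_erase.mp hx).1
      have h1 := hcon x hx1
      rw [hqcast, div_pow, div_lt_iff₀ (by positivity)] at h1
      have h2 : (Nat.card G - 1) ^ 2 < (Subgroup.centralizer ({x} : Set G)).index * t ^ 2 := by
        exact_mod_cast h1
      have h3 := Subgroup.index_mul_card (Subgroup.centralizer ({x} : Set G))
      have hpos : 0 < Nat.card (Subgroup.centralizer ({x} : Set G)) := Nat.card_pos
      calc Nat.card (Subgroup.centralizer ({x} : Set G)) * (Nat.card G - 1) ^ 2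
          < Nat.card (Subgroup.centralizer ({x} : Set G))
              * ((Subgroup.centralizer ({x} : Set G)).index * t ^ 2) :=
            Nat.mul_lt_mul_of_pos_left h2 hpos
        _ = Nat.card G * t ^ 2 := by rw [← h3]; ring
    have hne : (Finset.univ.erase (1 : G)).Nonempty := by
      rw [← Finset.card_pos, Finset.card_erase_of_mem (Finset.mem_univ _), Finset.card_univ,
        ← Nat.card_eq_fintype_card]
      omega
    have hii : (∑ x ∈ Finset.univ.erase (1 : G), Nat.card (Subgroup.centralizer ({x} : Set G)))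
        * (Nat.card G - 1) ^ 2 < (Nat.card G - 1) * (Nat.card G * t ^ 2) := by
      rw [Finset.sum_mul]
      have h1 := Finset.sum_lt_sum_of_nonempty hne hterm
      rw [Finset.sum_const, Finset.card_erase_of_mem (Finset.mem_univ _), Finset.card_univ,
        ← Nat.card_eq_fintype_card, smul_eq_mul] at h1
      exact h1
    have hfin : Nat.card G * R.card * (Nat.card G - 1) ^ 2
        < Nat.card G * R.card * (Nat.card G - 1) ^ 2 := by
      calc Nat.card G * R.card * (Nat.card G - 1) ^ 2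
          ≤ (∑ x ∈ Finset.univ.erase (1 : G), Nat.card (Subgroup.centralizer ({x} : Set G)))
              * (Nat.card G - 1) ^ 2 := Nat.mul_le_mul_right _ hi
        _ < (Nat.card G - 1) * (Nat.card G * t ^ 2) := hii
        _ ≤ (Nat.card G - 1) * (Nat.card G * (R.card * (Nat.card G - 1))) :=
            Nat.mul_le_mul_left _ (Nat.mul_le_mul_left _ hcs)
        _ = Nat.card G * R.card * (Nat.card G - 1) ^ 2 := by ring
    exact lt_irrefl _ hfin
  · -- part (b)
    by_contra hcon
    push Not at hcon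
    have hbig : ∀ χ ∈ R, Nat.card G ≤ deg χ * t := by
      intro χ hχ
      have h1 : ((χ : Cfsg.IrrCharacter G) : G → ℂ) ≠ (fun _ => 1) := by
        intro h
        exact ((hR χ).mp hχ).1 (Subtype.ext h)
      have h2 := hcon χ h1 (hreal_of χ ((hR χ).mp hχ).2)
      have h3 : Cfsg.charDegree ((χ : Cfsg.IrrCharacter G) : G → ℂ) = deg χ := by
        unfold Cfsg.charDegree
        rw [hdeg χ]
        simp
      rw [h3, hqcast, div_lt_iff₀ htq] at h2
      have h4 : Nat.card G - 1 < deg χ * t := by exact_mod_cast h2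
      omega
    have h1 : Nat.card G * ∑ χ ∈ R, deg χ ≤ t * ∑ χ ∈ R, (deg χ) ^ 2 := by
      rw [Finset.mul_sum, Finset.mul_sum]
      apply Finset.sum_le_sum
      intro χ hχ
      calc Nat.card G * deg χ ≤ (deg χ * t) * deg χ := Nat.mul_le_mul_right _ (hbig χ hχ)
        _ = t * (deg χ) ^ 2 := by ring
    have h2 : t ≤ ∑ χ ∈ R, deg χ := by exact_mod_cast htR
    have h3 : Nat.card G * t ≤ t * (Nat.card G - 1) := by
      calc Nat.card G * t ≤ Nat.card G * ∑ χ ∈ R, deg χ := Nat.mul_le_mul_left _ h2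
        _ ≤ t * ∑ χ ∈ R, (deg χ) ^ 2 := h1
        _ ≤ t * (Nat.card G - 1) := Nat.mul_le_mul_left _ (by omega)
    have h4 : Nat.card G * t = t * (Nat.card G - 1) + t := by
      have : Nat.card G = (Nat.card G - 1) + 1 := by omega
      nth_rewrite 1 [this]
      ring
    omega

end Cfsg.Agent.S4476
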