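import Cfsg.Statements.S4483
-- import your own Cfsg.Agent.* helpers here
import Mathlib
import Cfsg.Agent.Lib.Helper25.RealBlock
import Cfsg.Agent.S4494

set_option autoImplicit false
open Cfsg

namespace Cfsg.Agent.S4483

open Cfsg.Agent.Lib.Helper2 Cfsg.Agent.Lib.Helper25 Cfsg.Agent.Lib.Helper8 in
/-- Let G be a finite group of order 2^n·g₀ with g₀ odd, and M a maximal ideal of the algebraic integers containing 2. Every real-valued irreducible character of G of odd degree lies in the principal 2-block; consequently G has at most 2^(2n) real-valued irreducible characters of odd degree. -/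
theorem result {G : Type*} [Group G] [Finite G] (M : Ideal Cfsg.AlgInt) (hM : Cfsg.IsPModular 2 M) : (∀ χ : Cfsg.IrrCharacter G, (∀ g : G, ((χ : G → ℂ) g).im = 0) → Odd (Cfsg.charDegree (χ : G → ℂ)) → χ ∈ Cfsg.principalBlock M G) ∧ Nat.card {χ : Cfsg.IrrCharacter G // (∀ g : G, ((χ : G → ℂ) g).im = 0) ∧ Odd (Cfsg.charDegree (χ : G → ℂ))} ≤ 2 ^ (2 * (Nat.card G).factorization 2) := by
  classical
  have : Fintype G := Fintype.ofFinite G
  have hp2 : Fact (Nat.Prime 2) := ⟨Nat.prime_two⟩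
  have part1 : ∀ χ : Cfsg.IrrCharacter G, (∀ g : G, ((χ : G → ℂ) g).im = 0) →
      Odd (Cfsg.charDegree (χ : G → ℂ)) → χ ∈ Cfsg.principalBlock M G :=
    fun χ h1 h2 => real_odd_mem_principal hM χ h1 h2
  refine ⟨part1, ?_⟩
  have : Fintype (Cfsg.IrrCharacter G) := Fintype.ofFinite _
  have hfinB : Finite ↥(Cfsg.principalBlock M G) := Subtype.finite
  let f : {χ : Cfsg.IrrCharacter G // (∀ g : G, ((χ : G → ℂ) g).im = 0) ∧
      Odd (Cfsg.charDegree (χ : G → ℂ))} → ↥(Cfsg.principalBlock M G) :=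
    fun χ => ⟨χ.1, part1 χ.1 χ.2.1 χ.2.2⟩
  have hf : Function.Injective f := by
    intro a b h
    have h' : (f a).1 = (f b).1 := congrArg Subtype.val h
    exact Subtype.ext h'
  have hinj : Nat.card {χ : Cfsg.IrrCharacter G // (∀ g : G, ((χ : G → ℂ) g).im = 0) ∧
      Odd (Cfsg.charDegree (χ : G → ℂ))} ≤ Nat.card ↥(Cfsg.principalBlock M G) :=
    Nat.card_le_card_of_injective f hf
  have hBF := Cfsg.Agent.S4494.result 2 M hM (Cfsg.principalBlock M G)
    ⟨Cfsg.Agent.Lib.Helper8.trivIrr G, rfl⟩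
  have hd : Cfsg.blockDefect 2 (Cfsg.principalBlock M G) ≤ (Nat.card G).factorization 2 := by
    unfold Cfsg.blockDefect
    exact Nat.sub_le _ _
  have hpow : 2 ^ (2 * Cfsg.blockDefect 2 (Cfsg.principalBlock M G))
      ≤ 2 ^ (2 * (Nat.card G).factorization 2) :=
    Nat.pow_le_pow_right (by norm_num) (by omega)
  rcases Nat.eq_zero_or_pos ((Nat.card G).factorization 2) with h0 | hpos
  · rw [h0] at hpow ⊢
    have e : 2 ^ (2 * 0) = 1 := by norm_num
    rw [e] at hpow ⊢
    omega
  · have h4 : 4 ≤ 2 ^ (2 * (Nat.card G).factorization 2) := by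
      calc 4 = 2 ^ 2 := by norm_num
        _ ≤ 2 ^ (2 * (Nat.card G).factorization 2) := Nat.pow_le_pow_right (by norm_num) (by omega)
    omega

end Cfsg.Agent.S4483
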