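import Cfsg.Statements.S4495
import Cfsg.Agent.Lib.Helper21.SelfCent

set_option autoImplicit false
open Cfsg

namespace Cfsg.Agent.S4495

open Cfsg.Agent.Lib.Helper21

/-- Let the finite group G contain an element x of prime order p with C_G(x) = ⟨x⟩, and let t be the number of conjugacy classes of elements of order p. If t ≠ p − 1 then the commutator subgroup has index at most (p − 1)/t; if t = p − 1 it has index exactly p. -/
theorem result {G : Type*} [Group G] [Finite G] (p : ℕ) (hp : p.Prime) (x : G) (hx : orderOf x = p) (hC : Subgroup.centralizer ({x} : Set G) = Subgroup.zpowers x) (t : ℕ) (ht : Nat.card {C : ConjClasses G // ∃ g ∈ C.carrier, orderOf g = p} = t) : (t ≠ p - 1 → (commutator G).index * t ≤ p - 1) ∧ (t = p - 1 → (commutator G).index = p) := by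
  have htr := sc_t_mul_relIndex hp hx hC
  rw [ht] at htr
  obtain ⟨r, hr⟩ : ∃ r, r = (Subgroup.zpowers x).relIndex
      (Subgroup.normalizer ((Subgroup.zpowers x : Subgroup G) : Set G)) := ⟨_, rfl⟩
  rw [← hr] at htr
  have hp1 : 0 < p - 1 := by
    have := hp.two_le
    omega
  constructor
  · intro hne
    have hr1 : r ≠ 1 := by
      intro h
      rw [h, mul_one] at htr
      exact hne htr
    have hN : ¬ Subgroup.normalizer ((Subgroup.zpowers x : Subgroup G) : Set G) ≤
        Subgroup.zpowers x := by
      intro hle
      apply hr1
      rw [hr]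
      exact Subgroup.relIndex_eq_one.2 hle
    have hxD := sc_mem_commutator hp hx hC hN
    have hdvd := sc_index_dvd hp hx hC (commutator G) hxD
    rw [← hr] at hdvd
    have hr0 : 0 < r := by
      rcases Nat.eq_zero_or_pos r with h | h
      · rw [h, mul_zero] at htr
        omega
      · exact h
    have hle := Nat.le_of_dvd hr0 hdvd
    calc (commutator G).index * t ≤ r * t := Nat.mul_le_mul_right t hle
      _ = p - 1 := by rw [mul_comm]; exact htr
  · intro heq
    have hr1 : r = 1 := by
      rw [heq] at htr
      have h1 : (p - 1) * r = (p - 1) * 1 := by rw [mul_one]; exact htr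
      exact Nat.eq_of_mul_eq_mul_left hp1 h1
    have hN : Subgroup.normalizer ((Subgroup.zpowers x : Subgroup G) : Set G) ≤
        Subgroup.zpowers x := by
      rw [← Subgroup.relIndex_eq_one, ← hr]
      exact hr1
    exact (sc_burnside hp hx hC hN).1

end Cfsg.Agent.S4495
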