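import Cfsg.Statements.S4497
import Cfsg.Agent.Lib.Helper21.SelfCent2

set_option autoImplicit false
open Cfsg

namespace Cfsg.Agent.S4497

open Cfsg.Agent.Lib.Helper21

/-- Let the finite group G contain an element x of prime order p with C_G(x) = ⟨x⟩, let t be the number of conjugacy classes of elements of order p, and let S* = O_{p′}(G) be the largest normal subgroup of order prime to p. Then S* ≤ G′; if t ≠ p − 1 the quotient G′/S* is simple (in particular non-trivial); if t = p − 1 then G′ = S*. -/
theorem result {G : Type*} [Group G] [Finite G] (p : ℕ) (hp : p.Prime) (x : G) (hx : orderOf x = p) (hC : Subgroup.centralizer ({x} : Set G) = Subgroup.zpowers x) (t : ℕ) (ht : Nat.card {C : ConjClasses G // ∃ g ∈ C.carrier, orderOf g = p} = t) : Cfsg.pPrimeCore p G ≤ commutator G ∧ (t ≠ p - 1 → ∀ h : ((Cfsg.pPrimeCore p G).subgroupOf (commutator G)).Normal, IsSimpleGroup (↥(commutator G) ⧸ (Cfsg.pPrimeCore p G).subgroupOf (commutator G))) ∧ (t = p - 1 → commutator G = Cfsg.pPrimeCore p G) := by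
  have hScop : (Nat.card (Cfsg.pPrimeCore p G)).Coprime p :=
    Cfsg.Agent.Lib.Helper1.pPrimeCore_coprime p
  haveI hSn : (Cfsg.pPrimeCore p G).Normal := Cfsg.Agent.Lib.Helper1.pPrimeCore_normal p
  have hSp : ¬ p ∣ Nat.card (Cfsg.pPrimeCore p G) := by
    intro h1
    have h2 := Nat.dvd_gcd h1 (dvd_refl p)
    rw [hScop] at h2
    exact hp.one_lt.ne' (Nat.dvd_one.1 h2)
  have hSD := sc_normal_le_commutator hp hx hC (Cfsg.pPrimeCore p G) hSp
  have htr := sc_t_mul_relIndex hp hx hC
  rw [ht] at htr
  obtain ⟨r, hr⟩ : ∃ r, r = (Subgroup.zpowers x).relIndex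
      (Subgroup.normalizer ((Subgroup.zpowers x : Subgroup G) : Set G)) := ⟨_, rfl⟩
  rw [← hr] at htr
  have hp1 : 0 < p - 1 := by
    have := hp.two_le
    omega
  refine ⟨hSD, ?_, ?_⟩
  · intro hne h
    have hr1 : r ≠ 1 := by
      intro h1
      rw [h1, mul_one] at htr
      exact hne htr
    have hN : ¬ Subgroup.normalizer ((Subgroup.zpowers x : Subgroup G) : Set G) ≤
        Subgroup.zpowers x := by
      intro hle
      apply hr1
      rw [hr]
      exact Subgroup.relIndex_eq_one.2 hle
    have hxD := sc_mem_commutator hp hx hC hN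
    exact sc_simple hp hx hC hxD
  · intro heq
    have hr1 : r = 1 := by
      rw [heq] at htr
      have h1 : (p - 1) * r = (p - 1) * 1 := by rw [mul_one]; exact htr
      exact Nat.eq_of_mul_eq_mul_left hp1 h1
    have hN : Subgroup.normalizer ((Subgroup.zpowers x : Subgroup G) : Set G) ≤
        Subgroup.zpowers x := by
      rw [← Subgroup.relIndex_eq_one, ← hr]
      exact hr1
    obtain ⟨-, hDp⟩ := sc_burnside hp hx hC hN
    apply le_antisymm _ hSD
    exact Cfsg.Agent.Lib.Helper1.le_pPrimeCore p inferInstance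
      ((Nat.Prime.coprime_iff_not_dvd hp).2 hDp).symm

end Cfsg.Agent.S4497
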