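import Cfsg.Statements.S4499
import Cfsg.Agent.Lib.Helper24.BlockMat

set_option autoImplicit false
open Cfsg

namespace Cfsg.Agent.S4499

open Cfsg.Agent.Lib.Helper2 Cfsg.Agent.Lib.Helper25 Cfsg.Agent.Lib.Helper24 in
/-- Let G be a finite group whose order has p-part p^a (a ≥ 1), and fix a maximal ideal M of the algebraic integers containing p. If the degree of one irreducible character of a p-block B is divisible by p^(a−1), then the degree of every irreducible character in B is divisible by p^(a−1) (so B has defect at most 1). -/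
theorem result {G : Type*} [Group G] [Finite G] (p : ℕ) [Fact p.Prime] (M : Ideal Cfsg.AlgInt) (hM : Cfsg.IsPModular p M) (hpa : p ∣ Nat.card G) (B : Set (Cfsg.IrrCharacter G)) (hB : Cfsg.IsPBlock M B) (χ : Cfsg.IrrCharacter G) (hχ : χ ∈ B) (hdiv : p ^ ((Nat.card G).factorization p - 1) ∣ Cfsg.charDegree (χ : G → ℂ)) (ψ : Cfsg.IrrCharacter G) (hψ : ψ ∈ B) : p ^ ((Nat.card G).factorization p - 1) ∣ Cfsg.charDegree (ψ : G → ℂ) := by
  classical
  haveI : Fintype G := Fintype.ofFinite G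
  haveI : Fintype (IrrCharacter G) := Fintype.ofFinite _
  have hp : p.Prime := Fact.out
  have hBne := isPBlock_nonempty hM hB
  obtain ⟨χ₀, hχ₀, h0, hmin⟩ := exists_height_zero p B hBne
  set a := (Nat.card G).factorization p with ha
  set h := (charDegree (χ₀ : G → ℂ)).factorization p with hh
  set e := (charDegree (χ : G → ℂ)).factorization p with he
  obtain ⟨hd0, hdd⟩ := Cfsg.Agent.S4424.degree_facts χ
  obtain ⟨hψ0, -⟩ := Cfsg.Agent.S4424.degree_facts ψ
  have hea : e ≤ a := (Nat.factorization_le_iff_dvd hd0 Nat.card_pos.ne').mpr hdd p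
  have he1 : a - 1 ≤ e := (hp.pow_dvd_iff_le_factorization hd0).mp hdiv
  by_cases hcase : a - 1 ≤ h
  · -- every degree in the block is divisible enough
    apply (hp.pow_dvd_iff_le_factorization hψ0).mpr
    exact hcase.trans (hmin ψ hψ)
  · exfalso
    -- `χ` has positive height
    have hhe : h < e := by omega
    have hne : χ ≠ χ₀ := by
      rintro rfl
      omega
    have hSne : ((fun ψ : IrrCharacter G => (charDegree (ψ : G → ℂ)).factorization p) '' B).Nonempty :=
      hBne.image _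
    have hsInf : sInf ((fun ψ : IrrCharacter G => (charDegree (ψ : G → ℂ)).factorization p) '' B) = h := by
      apply le_antisymm
      · exact Nat.sInf_le ⟨χ₀, hχ₀, rfl⟩
      · apply le_csInf hSne
        rintro _ ⟨ξ, hξ, rfl⟩
        exact hmin ξ hξ
    have hpos : blockHeight p B (χ : G → ℂ) ≠ 0 := by
      unfold blockHeight
      rw [hsInf]
      omega
    -- the row of `χ`
    have hrow : ∀ ξ : IrrCharacter G, ∃ c : ℤ, mInt p χ ξ = (p : ℤ) ^ e * c :=
      fun ξ => pow_dvd_mInt_left p χ ξ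
    choose c hc using hrow
    set FB := Finset.univ.filter (· ∈ B) with hFB
    have hsum : ∑ ξ ∈ FB, mInt p χ ξ ^ 2 = (p : ℤ) ^ a * mInt p χ χ := by
      rw [← mInt_sum_sq p χ, hFB, Finset.sum_filter]
      apply Finset.sum_congr rfl
      intro ξ _
      split_ifs with hξ
      · rfl
      · rw [mInt_eq_zero_of_not_mem hM B hB χ hχ ξ hξ]; simp
    have hpz : (p : ℤ) ≠ 0 := by exact_mod_cast hp.ne_zero
    have hsum2 : ∑ ξ ∈ FB, c ξ ^ 2 = (p : ℤ) ^ (a - e) * c χ := by
      have hp0 : ((p : ℤ) ^ e) ^ 2 ≠ 0 := by positivity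
      apply mul_left_cancel₀ hp0
      rw [Finset.mul_sum]
      calc ∑ ξ ∈ FB, ((p : ℤ) ^ e) ^ 2 * c ξ ^ 2 = ∑ ξ ∈ FB, mInt p χ ξ ^ 2 := by
            apply Finset.sum_congr rfl
            intro ξ _
            rw [hc ξ]; ring
        _ = (p : ℤ) ^ a * mInt p χ χ := hsum
        _ = ((p : ℤ) ^ e) ^ 2 * ((p : ℤ) ^ (a - e) * c χ) := by
            rw [hc χ]
            have e1 : (p : ℤ) ^ a = (p : ℤ) ^ e * (p : ℤ) ^ (a - e) := by
              rw [← pow_add]; congr 1; omega
            rw [e1]; ring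
    -- the entry at the character of height zero does not vanish
    have hc0 : c χ₀ ≠ 0 := by
      intro h'
      have h1 := (mInt_of_height_zero hM B hB χ₀ hχ₀ h0 χ hχ).1
      apply h1
      rw [mInt_symm, hc χ₀, h', mul_zero]
    -- `p` divides the diagonal entry
    have hpc : (p : ℤ) ∣ c χ := by
      obtain ⟨w, hw⟩ := pow_succ_dvd_mInt_self hM B hB χ hχ hpos
      rw [hc χ, pow_succ, mul_assoc] at hw
      have hpe : ((p : ℤ) ^ e) ≠ 0 := by positivity
      exact ⟨w, mul_left_cancel₀ hpe hw⟩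
    have hmemχ : χ ∈ FB := Finset.mem_filter.mpr ⟨Finset.mem_univ _, hχ⟩
    have hmem₀ : χ₀ ∈ FB.erase χ :=
      Finset.mem_erase.mpr ⟨fun h' => hne h'.symm, Finset.mem_filter.mpr ⟨Finset.mem_univ _, hχ₀⟩⟩
    have hsplit := Finset.add_sum_erase FB (fun ξ => c ξ ^ 2) hmemχ
    have hsplit2 := Finset.add_sum_erase (FB.erase χ) (fun ξ => c ξ ^ 2) hmem₀
    have hnn : 0 ≤ ∑ ξ ∈ (FB.erase χ).erase χ₀, c ξ ^ 2 :=
      Finset.sum_nonneg (fun ξ _ => sq_nonneg (c ξ))
    have hc0' : 1 ≤ c χ₀ ^ 2 := by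
      have : 0 < c χ₀ ^ 2 := by positivity
      omega
    -- so `c χ ^ 2 + 1 ≤ p ^ (a - e) * c χ`
    have hineq : c χ ^ 2 + 1 ≤ (p : ℤ) ^ (a - e) * c χ := by
      have := hsplit
      have := hsplit2
      linarith
    obtain ⟨w, hw⟩ := hpc
    have hae : a - e = 0 ∨ a - e = 1 := by omega
    have hp1 : (1 : ℤ) < p := by exact_mod_cast hp.one_lt
    rcases hae with hae | hae
    · rw [hae, pow_zero, one_mul, hw] at hineq
      nlinarith [sq_nonneg ((p : ℤ) * w - 1), sq_nonneg ((p : ℤ) * w)]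
    · rw [hae, pow_one, hw] at hineq
      rcases le_or_gt w 0 with hw0 | hw0
      · nlinarith [sq_nonneg ((p : ℤ) * w), mul_nonneg (sq_nonneg (p : ℤ)) (neg_nonneg.mpr hw0)]
      · have hw1 : 0 ≤ w - 1 := by omega
        have hw2 : 0 ≤ w := by omega
        nlinarith [mul_nonneg (mul_nonneg (sq_nonneg (p : ℤ)) hw2) hw1]

end Cfsg.Agent.S4499
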