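import Cfsg.Statements.S4506
import Cfsg.Agent.Lib.Helper2.CharClifford
import Cfsg.Agent.Lib.Helper2.CharExpand
import Cfsg.Agent.Lib.Helper25.WeakOrth
import Cfsg.Agent.Lib.Helper25.Codegree
import Cfsg.Agent.Lib.Helper8.DefectNum
import Cfsg.Agent.Lib.Helper8.BlockNormal
import Cfsg.Agent.S0164
import Cfsg.Agent.S0165
import Cfsg.Agent.S0914

set_option autoImplicit false
open Cfsg

namespace Cfsg.Agent.S4506


open Cfsg.Agent.Lib.Helper2 Cfsg.Agent.Lib.Helper25 Cfsg.Agent.Lib.Helper8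

open scoped ComplexConjugate

theorem mem_of_pow_coprime {G : Type*} [Group G] {K : Subgroup G} {g : G} {a b : ℕ}
    (hab : a.Coprime b) (ha : g ^ a ∈ K) (hb : g ^ b ∈ K) : g ∈ K := by
  have h1 := Nat.gcd_eq_gcd_ab a b
  rw [hab.gcd_eq_one] at h1
  have h2 : g = (g ^ a) ^ (a.gcdA b) * (g ^ b) ^ (a.gcdB b) := by
    rw [← zpow_natCast, ← zpow_natCast, ← zpow_mul, ← zpow_mul, ← zpow_add, ← h1]
    simp
  rw [h2]
  exact K.mul_mem (K.zpow_mem ha _) (K.zpow_mem hb _)

/-- the `p`-regular elements of an elementary group form a subgroup of `p`-power index, and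
the `p`-part of the group order divides the order of the centralizer of each of them -/
theorem elem_pcompl {E : Type*} [Group E] [Finite E] (q : ℕ) (hq : q.Prime)
    (hE : Cfsg.IsElementary q E) (p : ℕ) [hp : Fact p.Prime] :
    ∃ (Q : Subgroup E) (k : ℕ), (∀ y : E, y ∈ Q ↔ ¬ p ∣ orderOf y) ∧
      Nat.card E = p ^ k * Nat.card Q ∧
      ∀ y ∈ Q, p ^ k ∣ Nat.card (Subgroup.centralizer ({y} : Set E)) := by
  obtain ⟨x, hxZ, hxq, j, hj⟩ := hE
  have hle : Subgroup.zpowers x ≤ Subgroup.center E := (Subgroup.zpowers_le).mpr hxZ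
  have hnorm : (Subgroup.zpowers x).Normal := by
    constructor
    intro n hn g
    have e1 : g * n * g⁻¹ = n := by
      have h1 := (Subgroup.mem_center_iff.mp (hle hn)) g
      rw [h1, mul_inv_cancel_right]
    rw [e1]
    exact hn
  by_cases hpq : q = p
  · subst hpq
    refine ⟨Subgroup.zpowers x, j, ?_, ?_, ?_⟩
    · intro y
      constructor
      · intro hy hdvd
        have h1 : orderOf y ∣ orderOf x := orderOf_dvd_of_mem_zpowers hy
        exact (Nat.Prime.coprime_iff_not_dvd hq).mp hxq.symm (hdvd.trans h1)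
      · intro hy
        have h1 : y ^ (q ^ j) ∈ Subgroup.zpowers x := by
          rw [← hj]
          exact Subgroup.pow_index_mem _ y
        have h2 : y ^ (orderOf y) ∈ Subgroup.zpowers x := by
          rw [pow_orderOf_eq_one]
          exact Subgroup.one_mem _
        have hcop : Nat.Coprime (q ^ j) (orderOf y) :=
          Nat.Coprime.pow_left j ((Nat.Prime.coprime_iff_not_dvd hq).mpr hy)
        exact mem_of_pow_coprime hcop h1 h2
    · rw [← hj, mul_comm]
      exact (Subgroup.card_mul_index _).symm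
    · intro y hy
      have h1 : Subgroup.centralizer ({y} : Set E) = ⊤ := by
        rw [Subgroup.centralizer_eq_top_iff_subset]
        intro z hz
        rw [Set.mem_singleton_iff] at hz
        rw [hz]
        exact hle hy
      rw [h1, Subgroup.card_top, ← Subgroup.card_mul_index (Subgroup.zpowers x), hj]
      exact dvd_mul_left _ _
  · let P₁ : Sylow p E := default
    have hP₁le : (P₁ : Subgroup E) ≤ Subgroup.zpowers x := by
      intro u hu
      obtain ⟨i, hi⟩ := (IsPGroup.iff_orderOf.mp P₁.isPGroup') ⟨u, hu⟩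
      rw [Subgroup.orderOf_mk] at hi
      have h1 : u ^ (q ^ j) ∈ Subgroup.zpowers x := by
        rw [← hj]
        exact Subgroup.pow_index_mem _ u
      have h2 : u ^ (p ^ i) ∈ Subgroup.zpowers x := by
        rw [← hi, pow_orderOf_eq_one]
        exact Subgroup.one_mem _
      have hcop : Nat.Coprime (q ^ j) (p ^ i) :=
        Nat.Coprime.pow _ _ ((Nat.coprime_primes hq hp.out).mpr hpq)
      exact mem_of_pow_coprime hcop h1 h2
    have hP₁Z : (P₁ : Subgroup E) ≤ Subgroup.center E := hP₁le.trans hle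
    have hcent : Subgroup.centralizer ((P₁ : Subgroup E) : Set E) = ⊤ := by
      rw [Subgroup.centralizer_eq_top_iff_subset]
      exact hP₁Z
    have hP : Subgroup.normalizer ((P₁ : Subgroup E) : Set E)
        ≤ Subgroup.centralizer ((P₁ : Subgroup E) : Set E) := by
      rw [hcent]
      exact le_top
    have hcompl := MonoidHom.ker_transferSylow_isComplement' P₁ hP
    have hnd := MonoidHom.not_dvd_card_ker_transferSylow P₁ hP
    obtain ⟨k, hk⟩ := IsPGroup.iff_card.mp P₁.isPGroup'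
    have hcard := hcompl.card_mul_card
    have hidx : (MonoidHom.transferSylow P₁ hP).ker.index = p ^ k := by
      have h1 := Subgroup.card_mul_index (MonoidHom.transferSylow P₁ hP).ker
      rw [← hcard, hk] at h1
      exact Nat.eq_of_mul_eq_mul_left Nat.card_pos h1
    refine ⟨(MonoidHom.transferSylow P₁ hP).ker, k, ?_, ?_, ?_⟩
    · intro y
      constructor
      · intro hy hdvd
        apply hnd
        have h1 : orderOf y ∣ Nat.card (MonoidHom.transferSylow P₁ hP).ker := by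
          have := orderOf_dvd_natCard (⟨y, hy⟩ : (MonoidHom.transferSylow P₁ hP).ker)
          rwa [Subgroup.orderOf_mk] at this
        exact hdvd.trans h1
      · intro hy
        have h1 : y ^ (p ^ k) ∈ (MonoidHom.transferSylow P₁ hP).ker := by
          rw [← hidx]
          exact Subgroup.pow_index_mem _ y
        have h2 : y ^ (orderOf y) ∈ (MonoidHom.transferSylow P₁ hP).ker := by
          rw [pow_orderOf_eq_one]
          exact Subgroup.one_mem _
        have hcop : Nat.Coprime (p ^ k) (orderOf y) :=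
          Nat.Coprime.pow_left k ((Nat.Prime.coprime_iff_not_dvd hp.out).mpr hy)
        exact mem_of_pow_coprime hcop h1 h2
    · rw [← hcard, hk, mul_comm]
    · intro y _
      rw [← hk]
      apply Subgroup.card_dvd_of_le
      intro u hu
      rw [Subgroup.mem_centralizer_iff]
      intro z hz
      rw [Set.mem_singleton_iff] at hz
      rw [hz]
      exact (Subgroup.mem_center_iff.mp (hP₁Z hu)) y

theorem galois_fix {G : Type*} [Group G] [Finite G] (χ : IrrCharacter G) (n : ℕ) (hn : n ≠ 0)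
    (σ : ℂ ≃+* ℂ)
    (hσ : σ (Complex.exp (2 * Real.pi * Complex.I / (n : ℕ)))
      = Complex.exp (2 * Real.pi * Complex.I / (n : ℕ)))
    (x : G) (hx : orderOf x ∣ n) : σ ((χ : G → ℂ) x) = (χ : G → ℂ) x := by
  obtain ⟨m, ρ, hρ, hχ⟩ := χ.2
  rw [← hχ, char_eq_sum, map_sum]
  apply Finset.sum_congr rfl
  intro μ hμ
  rw [map_mul, map_natCast]
  congr 1
  have h1 : μ ^ n = 1 := by
    obtain ⟨c, hc⟩ := hx
    rw [hc, pow_mul, eig_pow ρ x hμ, one_pow]
  have : NeZero n := ⟨hn⟩
  obtain ⟨i, -, hi⟩ := (Complex.isPrimitiveRoot_exp n hn).eq_pow_of_pow_eq_one h1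
  rw [← hi, map_pow, hσ]

theorem pow_dvd_of_memLocalRing {p : ℕ} [hp : Fact p.Prime] {M : Ideal AlgInt}
    (hM : IsPModular p M) :
    ∀ (k n : ℕ), MemLocalRing M ((n : ℂ) / (p : ℂ) ^ k) → p ^ k ∣ n := by
  have hpr := isPrime_of_isPModular hM
  have hp0 : (p : ℂ) ≠ 0 := Nat.cast_ne_zero.mpr hp.out.ne_zero
  intro k
  induction k with
  | zero =>
    intro n _
    simp
  | succ k ih =>
    intro n h
    have h1 : MemLocalRing M ((n : ℂ) / (p : ℂ) ^ k) := by
      have e : (n : ℂ) / (p : ℂ) ^ k = (p : ℂ) * ((n : ℂ) / (p : ℂ) ^ (k + 1)) := by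
        field_simp
        ring
      rw [e]
      exact MemLocalRing.mul M (memLocalRing_natCast M p) h
    obtain ⟨n', rfl⟩ := ih n h1
    have h2 : MemLocalIdeal M ((n' : ℕ) : ℂ) := by
      have e : ((n' : ℕ) : ℂ) = (p : ℂ) * (((p ^ k * n' : ℕ) : ℂ) / (p : ℂ) ^ (k + 1)) := by
        push_cast
        field_simp
        ring
      rw [e]
      exact MemLocalIdeal.mul_right M (memLocalIdeal_p hM) h
    obtain ⟨c, rfl⟩ := (memLocalIdeal_natCast_iff hM n').mp h2
    exact ⟨c, by ring⟩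

theorem local_val {G : Type*} [Group G] [Finite G] {p : ℕ} [hp : Fact p.Prime]
    {M : Ideal AlgInt} (hM : IsPModular p M) (χ : IrrCharacter G) (r : ℕ)
    (hdiv : p ^ (Nat.card G).factorization p ∣ r * charDegree (χ : G → ℂ)) (y : G) (k : ℕ)
    (hk : p ^ k ∣ Nat.card (Subgroup.centralizer ({y} : Set G))) :
    MemLocalRing M ((r : ℂ) * (χ : G → ℂ) y / ((p : ℂ) ^ k)) := by
  have hpr := isPrime_of_isPModular hM
  have : Fintype G := Fintype.ofFinite G
  obtain ⟨c₁, hc₁⟩ := hdiv
  obtain ⟨c₂, hc₂⟩ := hk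
  obtain ⟨d, hd1, hd2, hd3⟩ := Cfsg.Agent.S0914.irr_degree_data χ
  have hg' : ¬ p ∣ Nat.card G / p ^ (Nat.card G).factorization p :=
    Nat.not_dvd_ordCompl hp.out Nat.card_pos.ne'
  have hG : p ^ (Nat.card G).factorization p * (Nat.card G / p ^ (Nat.card G).factorization p)
      = Nat.card G := Nat.ordProj_mul_ordCompl_eq_self (Nat.card G) p
  have hω := memLocalRing_of_isIntegral M (centralChar_isIntegral χ y)
  have hinv := memLocalRing_inv_natCast hM hg'
  have key : (r : ℂ) * (χ : G → ℂ) y / ((p : ℂ) ^ k)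
      = (c₁ : ℂ) * centralChar (χ : G → ℂ) y * (c₂ : ℂ)
        * ((Nat.card G / p ^ (Nat.card G).factorization p : ℕ) : ℂ)⁻¹ := by
    unfold centralChar
    rw [hd1]
    have hd0 : (d : ℂ) ≠ 0 := Nat.cast_ne_zero.mpr (by omega)
    have hp0 : (p : ℂ) ≠ 0 := Nat.cast_ne_zero.mpr hp.out.ne_zero
    have hg0 : ((Nat.card G / p ^ (Nat.card G).factorization p : ℕ) : ℂ) ≠ 0 := by
      apply Nat.cast_ne_zero.mpr
      intro h0
      rw [h0] at hg'
      exact hg' (dvd_zero p)
    have e1 : (r : ℂ) * (d : ℂ) = (p : ℂ) ^ (Nat.card G).factorization p * (c₁ : ℂ) := by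
      rw [← hd2]
      exact_mod_cast hc₁
    have e2 : (Nat.card (Subgroup.centralizer ({y} : Set G)) : ℂ) = (p : ℂ) ^ k * (c₂ : ℂ) := by
      exact_mod_cast hc₂
    have e3 : ((Subgroup.centralizer ({y} : Set G)).index : ℂ)
        * (Nat.card (Subgroup.centralizer ({y} : Set G)) : ℂ)
        = (p : ℂ) ^ (Nat.card G).factorization p
          * ((Nat.card G / p ^ (Nat.card G).factorization p : ℕ) : ℂ) := by
      rw [← Nat.cast_mul, mul_comm, Subgroup.card_mul_index]
      exact_mod_cast hG.symm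
    field_simp
    linear_combination ((χ : G → ℂ) y * ((Nat.card G / p ^ (Nat.card G).factorization p : ℕ) : ℂ)) * e1
      - ((χ : G → ℂ) y * (c₁ : ℂ)) * e3
      + ((χ : G → ℂ) y * (c₁ : ℂ) * ((Subgroup.centralizer ({y} : Set G)).index : ℂ)) * e2
  rw [key]
  exact MemLocalRing.mul M (MemLocalRing.mul M (MemLocalRing.mul M (memLocalRing_natCast M _) hω)
    (memLocalRing_natCast M _)) hinv

theorem orderOf_conj' {G : Type*} [Group G] (h g : G) : orderOf (h * g * h⁻¹) = orderOf g :=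
  (MulAut.conj h).orderOf_eq g

/-- the truncation to the `p`-regular elements of `r χ` is a generalized character as soon as
the full `p`-part of the group order divides `r χ(1)` -/
theorem theta_gen {G : Type*} [Group G] [Fintype G] {p : ℕ} [hp : Fact p.Prime]
    {M : Ideal AlgInt} (hM : IsPModular p M) (χ : IrrCharacter G) (r : ℕ)
    (hdiv : p ^ (Nat.card G).factorization p ∣ r * charDegree (χ : G → ℂ)) :
    IsGeneralizedCharacter G
      (fun g => if ¬ p ∣ orderOf g then (r : ℂ) * (χ : G → ℂ) g else 0) := by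
  classical
  have hpr := isPrime_of_isPModular hM
  have hχc := isClassFunction_of_isIrrCharacter χ.2
  apply Cfsg.Agent.S0164.result
  · intro g h
    show (if ¬ p ∣ orderOf (h * g * h⁻¹) then (r : ℂ) * (χ : G → ℂ) (h * g * h⁻¹) else 0) = _
    rw [orderOf_conj', hχc g h]
  · intro E q hq hE
    have : Fintype E := Fintype.ofFinite E
    obtain ⟨Q, k, hQmem, hcard, hcent⟩ := elem_pcompl q hq hE p
    have : Fintype Q := Fintype.ofFinite Q
    have hp0 : (p : ℂ) ≠ 0 := Nat.cast_ne_zero.mpr hp.out.ne_zero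
    have hQ0 : (Nat.card Q : ℂ) ≠ 0 := Nat.cast_ne_zero.mpr Nat.card_pos.ne'
    have hpQ : ¬ p ∣ Nat.card Q := by
      intro hdvd
      obtain ⟨y, hy⟩ := exists_prime_orderOf_dvd_card' (G := Q) p hdvd
      have h1 := (hQmem (y : E)).mp y.2
      apply h1
      rw [Subgroup.orderOf_coe, hy]
    have hfE : ∀ e : E, (if ¬ p ∣ orderOf (e : G) then (r : ℂ) * (χ : G → ℂ) e else 0)
        = if e ∈ Q then (r : ℂ) * (χ : G → ℂ) e else 0 := by
      intro e
      rw [Subgroup.orderOf_coe]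
      by_cases h : e ∈ Q
      · rw [if_pos ((hQmem e).mp h), if_pos h]
      · rw [if_neg (fun h' => h ((hQmem e).mpr h')), if_neg h]
    have hchar : IsCharacter E
        (fun e : E => if ¬ p ∣ orderOf (e : G) then (r : ℂ) * (χ : G → ℂ) e else 0) := by
      apply isCharacter_of_nat_inner
      · intro e h
        show (if ¬ p ∣ orderOf ((h * e * h⁻¹ : E) : G)
          then (r : ℂ) * (χ : G → ℂ) ((h * e * h⁻¹ : E) : G) else 0) = _
        have h1 : ((h * e * h⁻¹ : E) : G) = (h : G) * (e : G) * (h : G)⁻¹ := by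
          simp only [Subgroup.coe_mul, Subgroup.coe_inv]
        rw [h1, orderOf_conj', hχc e h]
      · intro ψ hψ
        obtain ⟨m, hm⟩ := classInner_isCharacter_nat
          (IsCharacter.restrict (IsCharacter.restrict (isCharacter_of_isIrrCharacter χ.2) E) Q)
          (IsCharacter.restrict (isCharacter_of_isIrrCharacter hψ) Q)
        rw [classInner_def] at hm
        have hS : ∑ y : Q, (χ : G → ℂ) ((y : E) : G) * conj (ψ (y : E))
            = (Nat.card Q : ℂ) * (m : ℂ) := by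
          rw [← hm]
          field_simp
        have hsum : ∑ e : E, (if ¬ p ∣ orderOf (e : G) then (r : ℂ) * (χ : G → ℂ) e else 0)
            * conj (ψ e) = (r : ℂ) * ((Nat.card Q : ℂ) * (m : ℂ)) := by
          have e1 : ∀ e : E, (if ¬ p ∣ orderOf (e : G) then (r : ℂ) * (χ : G → ℂ) e else 0)
              * conj (ψ e) = if e ∈ Q then (r : ℂ) * ((χ : G → ℂ) e * conj (ψ e)) else 0 := by
            intro e
            rw [hfE e]
            split_ifs
            · ring
            · rw [zero_mul]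
          rw [Finset.sum_congr rfl (fun e _ => e1 e),
            sum_ite_mem_eq_sum_subtype Q (fun e => (r : ℂ) * ((χ : G → ℂ) e * conj (ψ e))),
            ← Finset.mul_sum, hS]
        have hinner : classInner
            (fun e : E => if ¬ p ∣ orderOf (e : G) then (r : ℂ) * (χ : G → ℂ) e else 0) ψ
            = ((r * m : ℕ) : ℂ) / (p : ℂ) ^ k := by
          rw [classInner_def, hsum, hcard]
          push_cast
          field_simp
        have hloc : MemLocalRing M (((r * m : ℕ) : ℂ) / (p : ℂ) ^ k) := by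
          have e2 : ((r * m : ℕ) : ℂ) / (p : ℂ) ^ k
              = ((Nat.card Q : ℕ) : ℂ)⁻¹ * ∑ y : Q,
                ((r : ℂ) * (χ : G → ℂ) ((y : E) : G) / (p : ℂ) ^ k) * conj (ψ (y : E)) := by
            have e3 : ∑ y : Q,
                ((r : ℂ) * (χ : G → ℂ) ((y : E) : G) / (p : ℂ) ^ k) * conj (ψ (y : E))
                = (r : ℂ) / (p : ℂ) ^ k * ∑ y : Q, (χ : G → ℂ) ((y : E) : G) * conj (ψ (y : E)) := by
              rw [Finset.mul_sum]
              apply Finset.sum_congr rfl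
              intro y _
              ring
            rw [e3, hS]
            push_cast
            field_simp
          rw [e2]
          apply MemLocalRing.mul M (memLocalRing_inv_natCast hM hpQ)
          apply memLocalRing_sum
          intro y _
          apply MemLocalRing.mul M
          · apply local_val hM χ r hdiv
            have h1 := hcent (y : E) y.2
            have h2 : Nat.card (Subgroup.centralizer ({(y : E)} : Set E))
                ∣ Nat.card (Subgroup.centralizer ({((y : E) : G)} : Set G)) := by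
              rw [← Subgroup.card_map_of_injective E.subtype_injective]
              apply Subgroup.card_dvd_of_le
              rintro _ ⟨z, hz, rfl⟩
              have hz' := Subgroup.mem_centralizer_iff.mp hz
              rw [Subgroup.mem_centralizer_iff]
              intro w hw
              rw [Set.mem_singleton_iff] at hw
              rw [hw]
              have h3 := hz' (y : E) (Set.mem_singleton _)
              exact congrArg Subtype.val h3
            exact h1.trans h2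
          · have h4 := irr_conj_eq_inv (⟨ψ, hψ⟩ : IrrCharacter E) (y : E)
            change conj (ψ (y : E)) = ψ (y : E)⁻¹ at h4
            rw [h4]
            exact memLocalRing_of_isIntegral M (irr_isIntegral (⟨ψ, hψ⟩ : IrrCharacter E) _)
        obtain ⟨c, hc⟩ := pow_dvd_of_memLocalRing hM k (r * m) hloc
        refine ⟨c, ?_⟩
        rw [hinner, hc]
        push_cast
        field_simp
    exact ⟨_, 0, hchar, IsCharacter.zero, by simp⟩

/-- if the full `p`-part of the group order divides `|𝒪| χ(1)` for a set `𝒪` of irreducible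
characters agreeing with `χ` on the `p`-regular elements, then the sum of `𝒪` vanishes on the
`p`-singular elements -/
theorem orbit_vanish {G : Type*} [Group G] [Fintype G] {p : ℕ} [hp : Fact p.Prime]
    {M : Ideal AlgInt} (hM : IsPModular p M) (χ : IrrCharacter G)
    (𝒪 : Finset (IrrCharacter G)) (hχ𝒪 : χ ∈ 𝒪)
    (hreg : ∀ ψ ∈ 𝒪, ∀ x : G, ¬ p ∣ orderOf x → (ψ : G → ℂ) x = (χ : G → ℂ) x)
    (hdiv : p ^ (Nat.card G).factorization p ∣ 𝒪.card * charDegree (χ : G → ℂ))
    (u : G) (hu : p ∣ orderOf u) : ∑ ψ ∈ 𝒪, (ψ : G → ℂ) u = 0 := by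
  classical
  have : Fintype (IrrCharacter G) := Fintype.ofFinite _
  obtain ⟨r, hr⟩ : ∃ r : ℕ, r = 𝒪.card := ⟨_, rfl⟩
  rw [← hr] at hdiv
  obtain ⟨θ, hθ⟩ : ∃ θ : G → ℂ, θ = fun g => if ¬ p ∣ orderOf g then (r : ℂ) * (χ : G → ℂ) g
      else 0 := ⟨_, rfl⟩
  have hθsing : ∀ g : G, p ∣ orderOf g → θ g = 0 := by
    intro g hg
    rw [hθ]
    exact if_neg (not_not.mpr hg)
  have hθreg : ∀ g : G, ¬ p ∣ orderOf g → θ g = (r : ℂ) * (χ : G → ℂ) g := by
    intro g hg
    rw [hθ]
    exact if_pos hg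
  have hgen : IsGeneralizedCharacter G θ := by
    rw [hθ]
    exact theta_gen hM χ r hdiv
  have hθc : IsClassFunction G θ := by
    obtain ⟨χ₁, χ₂, h1, h2, h3⟩ := hgen
    rw [h3]
    exact IsClassFunction.sub (isClassFunction_of_isCharacter h1) (isClassFunction_of_isCharacter h2)
  have hint : ∀ ξ : IrrCharacter G, ∃ n : ℤ, classInner θ (ξ : G → ℂ) = (n : ℂ) := by
    intro ξ
    obtain ⟨χ₁, χ₂, h1, h2, h3⟩ := hgen
    obtain ⟨n₁, hn₁⟩ := classInner_isCharacter_nat h1 (isCharacter_of_isIrrCharacter ξ.2)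
    obtain ⟨n₂, hn₂⟩ := classInner_isCharacter_nat h2 (isCharacter_of_isIrrCharacter ξ.2)
    refine ⟨(n₁ : ℤ) - n₂, ?_⟩
    rw [h3, classInner_sub_left, hn₁, hn₂]
    push_cast
    rfl
  choose n hn using hint
  have hm : ∀ ψ ∈ 𝒪, classInner θ (ψ : G → ℂ) = classInner θ (χ : G → ℂ) := by
    intro ψ hψ
    rw [classInner_def, classInner_def]
    congr 1
    apply Finset.sum_congr rfl
    intro g _
    by_cases hg : p ∣ orderOf g
    · rw [hθsing g hg, zero_mul, zero_mul]
    · rw [hreg ψ hψ g hg]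
  have hnm : ∀ ψ ∈ 𝒪, n ψ = n χ := by
    intro ψ hψ
    have h1 := hm ψ hψ
    rw [hn, hn] at h1
    exact_mod_cast h1
  have hθθ : classInner θ θ = (r : ℂ) * classInner θ (χ : G → ℂ) := by
    rw [classInner_def, classInner_def]
    have e : ∀ g : G, θ g * conj (θ g) = (r : ℂ) * (θ g * conj ((χ : G → ℂ) g)) := by
      intro g
      by_cases hg : p ∣ orderOf g
      · rw [hθsing g hg, zero_mul, zero_mul, mul_zero]
      · rw [hθreg g hg, map_mul, Complex.conj_natCast]
        ring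
    rw [Finset.sum_congr rfl (fun g _ => e g), ← Finset.mul_sum]
    ring
  have hpars := classInner_eq_sum θ θ hθc
  have hsumsq : ∑ ξ : IrrCharacter G, (n ξ) ^ 2 = (r : ℤ) * n χ := by
    have h1 : ((∑ ξ : IrrCharacter G, (n ξ) ^ 2 : ℤ) : ℂ) = (((r : ℤ) * n χ : ℤ) : ℂ) := by
      push_cast
      rw [← hn χ, ← hθθ, hpars]
      apply Finset.sum_congr rfl
      intro ξ _
      rw [hn ξ, map_intCast, pow_two]
    exact_mod_cast h1
  obtain ⟨d, hd1, hd2, hdpos, -⟩ := Cfsg.Agent.S0914.irr_degree_data χ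
  have hrpos : 0 < r := by
    rw [hr]
    exact Finset.card_pos.mpr ⟨χ, hχ𝒪⟩
  have hmpos : 0 < n χ := by
    have hreal : ∀ g : G, θ g * conj ((χ : G → ℂ) g)
        = ((if ¬ p ∣ orderOf g then (r : ℝ) * Complex.normSq ((χ : G → ℂ) g) else 0 : ℝ) : ℂ) := by
      intro g
      by_cases hg : p ∣ orderOf g
      · rw [hθsing g hg, zero_mul, if_neg (not_not.mpr hg)]
        simp
      · rw [hθreg g hg, if_pos hg, mul_assoc, Complex.mul_conj]
        push_cast
        rfl
    have h1 : ((n χ : ℤ) : ℂ) = (((Nat.card G : ℝ)⁻¹ * ∑ g : G,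
        (if ¬ p ∣ orderOf g then (r : ℝ) * Complex.normSq ((χ : G → ℂ) g) else 0) : ℝ) : ℂ) := by
      rw [← hn χ, classInner_def, Finset.sum_congr rfl (fun g _ => hreal g)]
      push_cast
      rfl
    have h2 : ((n χ : ℤ) : ℝ) = (Nat.card G : ℝ)⁻¹ * ∑ g : G,
        (if ¬ p ∣ orderOf g then (r : ℝ) * Complex.normSq ((χ : G → ℂ) g) else 0) := by
      apply Complex.ofReal_injective
      rw [← h1]
      push_cast
      rfl
    have h3 : 0 < ∑ g : G,
        (if ¬ p ∣ orderOf g then (r : ℝ) * Complex.normSq ((χ : G → ℂ) g) else 0) := by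
      apply Finset.sum_pos'
      · intro g _
        by_cases hg : p ∣ orderOf g
        · rw [if_neg (not_not.mpr hg)]
        · rw [if_pos hg]
          exact mul_nonneg (Nat.cast_nonneg r) (Complex.normSq_nonneg _)
      · refine ⟨1, Finset.mem_univ _, ?_⟩
        rw [if_pos (by rw [orderOf_one]; exact hp.out.not_dvd_one)]
        have hne : (χ : G → ℂ) 1 ≠ 0 := by
          rw [hd1]
          exact Nat.cast_ne_zero.mpr (by omega)
        exact mul_pos (Nat.cast_pos.mpr hrpos) (Complex.normSq_pos.mpr hne)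
    have h4 : (0 : ℝ) < ((n χ : ℤ) : ℝ) := by
      rw [h2]
      exact mul_pos (inv_pos.mpr (Nat.cast_pos.mpr Nat.card_pos)) h3
    exact_mod_cast h4
  have hsplit : ∑ ξ : IrrCharacter G, (n ξ) ^ 2
      = ∑ ξ ∈ Finset.univ \ 𝒪, (n ξ) ^ 2 + ∑ ξ ∈ 𝒪, (n ξ) ^ 2 :=
    (Finset.sum_sdiff (Finset.subset_univ 𝒪)).symm
  have h𝒪sum : ∑ ξ ∈ 𝒪, (n ξ) ^ 2 = (r : ℤ) * (n χ) ^ 2 := by
    rw [Finset.sum_congr rfl (fun ξ hξ => by rw [hnm ξ hξ]), Finset.sum_const, ← hr]
    simp
  have hrest_nonneg : 0 ≤ ∑ ξ ∈ Finset.univ \ 𝒪, (n ξ) ^ 2 :=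
    Finset.sum_nonneg (fun _ _ => sq_nonneg _)
  have hrpos' : 0 < (r : ℤ) := by exact_mod_cast hrpos
  have hm1 : n χ = 1 := by
    have h1 : (r : ℤ) * (n χ) ^ 2 ≤ (r : ℤ) * n χ := by
      rw [← hsumsq, hsplit, h𝒪sum]
      linarith
    have h2 : (n χ) ^ 2 ≤ n χ := le_of_mul_le_mul_left h1 hrpos'
    nlinarith
  have hrest : ∑ ξ ∈ Finset.univ \ 𝒪, (n ξ) ^ 2 = 0 := by
    rw [hsplit, h𝒪sum, hm1] at hsumsq
    linarith
  have hzero : ∀ ξ ∈ Finset.univ \ 𝒪, n ξ = 0 := by
    intro ξ hξ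
    have h1 := (Finset.sum_eq_zero_iff_of_nonneg (fun _ _ => sq_nonneg _)).mp hrest ξ hξ
    exact pow_eq_zero_iff (two_ne_zero) |>.mp h1
  have hexp := class_fun_expand θ hθc
  have h5 := congrFun hexp u
  rw [hθsing u hu] at h5
  simp only [Finset.sum_apply, Pi.smul_apply, smul_eq_mul] at h5
  rw [← Finset.sum_sdiff (Finset.subset_univ 𝒪),
    Finset.sum_eq_zero (fun ξ hξ => by rw [hn ξ, hzero ξ hξ]; simp), zero_add] at h5
  rw [h5]
  apply Finset.sum_congr rfl
  intro ψ hψ
  rw [hn ψ, hnm ψ hψ, hm1]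
  simp

/-- Let G be a finite group, p a prime, p^a the p-part of the order of G and g′ its p′-part. Call two irreducible characters p-conjugate when one is obtained from the other by applying a field automorphism of ℂ that fixes the g′-th roots of unity, and let r be the number of characters p-conjugate to the irreducible character χ (χ included). Then the exponent of p in r·χ(1) is at most a; and if p^a divides r·χ(1) then p^a already divides χ(1). -/
theorem result {G : Type*} [Group G] [Finite G] (p : ℕ) (hp : p.Prime) (χ : Cfsg.IrrCharacter G) (r : ℕ) (hr : Nat.card {ψ : Cfsg.IrrCharacter G // ∃ σ : ℂ ≃+* ℂ, σ (Complex.exp (2 * Real.pi * Complex.I / ((Nat.card G / p ^ (Nat.card G).factorization p) : ℕ))) = Complex.exp (2 * Real.pi * Complex.I / ((Nat.card G / p ^ (Nat.card G).factorization p) : ℕ)) ∧ (ψ : G → ℂ) = fun g => σ ((χ : G → ℂ) g)} = r) : (r * Cfsg.charDegree (χ : G → ℂ)).factorization p ≤ (Nat.card G).factorization p ∧ (p ^ (Nat.card G).factorization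 p ∣ r * Cfsg.charDegree (χ : G → ℂ) → p ^ (Nat.card G).factorization p ∣ Cfsg.charDegree (χ : G → ℂ)) := by
  classical
  have : Fintype G := Fintype.ofFinite G
  have : Fact p.Prime := ⟨hp⟩
  have : Fintype (IrrCharacter G) := Fintype.ofFinite _
  obtain ⟨M, hM⟩ := Cfsg.Agent.Lib.Helper25.exists_isPModular p hp
  obtain ⟨a, ha⟩ : ∃ a : ℕ, a = (Nat.card G).factorization p := ⟨_, rfl⟩
  rw [← ha] at hr ⊢
  have hN'0 : Nat.card G / p ^ a ≠ 0 := by
    rw [ha]
    exact (Nat.ordCompl_pos p Nat.card_pos.ne').ne'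
  have hGfac : p ^ a * (Nat.card G / p ^ a) = Nat.card G := by
    rw [ha]
    exact Nat.ordProj_mul_ordCompl_eq_self (Nat.card G) p
  obtain ⟨𝒪, h𝒪def⟩ : ∃ 𝒪 : Finset (IrrCharacter G), 𝒪 = Finset.univ.filter
      (fun ψ : IrrCharacter G => ∃ σ : ℂ ≃+* ℂ,
        σ (Complex.exp (2 * Real.pi * Complex.I / ((Nat.card G / p ^ a : ℕ))))
          = Complex.exp (2 * Real.pi * Complex.I / ((Nat.card G / p ^ a : ℕ)))
        ∧ (ψ : G → ℂ) = fun g => σ ((χ : G → ℂ) g)) := ⟨_, rfl⟩
  have hmem𝒪 : ∀ ψ : IrrCharacter G, ψ ∈ 𝒪 ↔ ∃ σ : ℂ ≃+* ℂ,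
        σ (Complex.exp (2 * Real.pi * Complex.I / ((Nat.card G / p ^ a : ℕ))))
          = Complex.exp (2 * Real.pi * Complex.I / ((Nat.card G / p ^ a : ℕ)))
        ∧ (ψ : G → ℂ) = fun g => σ ((χ : G → ℂ) g) := by
    intro ψ
    rw [h𝒪def, Finset.mem_filter]
    simp
  have hr𝒪 : 𝒪.card = r := by
    rw [← hr, Nat.card_eq_fintype_card, Fintype.card_subtype, h𝒪def]
  have hχ𝒪 : χ ∈ 𝒪 := (hmem𝒪 χ).mpr ⟨RingEquiv.refl ℂ, rfl, rfl⟩
  have hreg : ∀ ψ ∈ 𝒪, ∀ x : G, ¬ p ∣ orderOf x → (ψ : G → ℂ) x = (χ : G → ℂ) x := by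
    intro ψ hψ x hx
    obtain ⟨σ, hσ, hψσ⟩ := (hmem𝒪 ψ).mp hψ
    rw [hψσ]
    apply galois_fix χ (Nat.card G / p ^ a) hN'0 σ hσ x
    have h1 : orderOf x ∣ p ^ a * (Nat.card G / p ^ a) := by
      rw [hGfac]
      exact orderOf_dvd_natCard x
    exact Nat.Coprime.dvd_of_dvd_mul_left
      (Nat.Coprime.pow_right a ((Nat.Prime.coprime_iff_not_dvd hp).mpr hx).symm) h1
  have hdeg : ∀ ψ ∈ 𝒪, (ψ : G → ℂ) 1 = (χ : G → ℂ) 1 := fun ψ hψ =>
    hreg ψ hψ 1 (by rw [orderOf_one]; exact hp.not_dvd_one)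
  obtain ⟨d, hd1, hd2, hdpos, hddvd, -⟩ := Cfsg.Agent.S0914.irr_degree_data χ
  have hrpos : 0 < r := by
    rw [← hr𝒪]
    exact Finset.card_pos.mpr ⟨χ, hχ𝒪⟩
  have part2 : p ^ a ∣ r * charDegree (χ : G → ℂ) → p ^ a ∣ charDegree (χ : G → ℂ) := by
    intro hdiv
    rw [← hr𝒪, ha] at hdiv
    have hvan := orbit_vanish hM χ 𝒪 hχ𝒪 hreg hdiv
    let P : Sylow p G := default
    have : Fintype P := Fintype.ofFinite _
    have hPcard : Nat.card P = p ^ a := by
      rw [ha]
      exact Sylow.card_eq_multiplicity P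
    obtain ⟨n₁, hn₁⟩ := classInner_isCharacter_nat
      (IsCharacter.restrict (isCharacter_of_isIrrCharacter χ.2) (P : Subgroup G))
      (isCharacter_of_isIrrCharacter (isIrrCharacter_one (G := P)))
    rw [classInner_def] at hn₁
    have hP0 : (Nat.card P : ℂ) ≠ 0 := Nat.cast_ne_zero.mpr Nat.card_pos.ne'
    have hsumχ : ∑ u : P, (χ : G → ℂ) u = ((p ^ a : ℕ) : ℂ) * (n₁ : ℂ) := by
      rw [← hPcard, ← hn₁]
      field_simp
      simp
    have hsumψ : ∀ ψ ∈ 𝒪, ∑ u : P, (ψ : G → ℂ) u = ((p ^ a : ℕ) : ℂ) * (n₁ : ℂ) := by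
      intro ψ hψ
      obtain ⟨σ, hσ, hψσ⟩ := (hmem𝒪 ψ).mp hψ
      rw [hψσ]
      show ∑ u : P, σ ((χ : G → ℂ) u) = _
      rw [← map_sum, hsumχ]
      simp
    have hdouble : ∑ u : P, ∑ ψ ∈ 𝒪, (ψ : G → ℂ) u = (r : ℂ) * (d : ℂ) := by
      rw [Finset.sum_eq_single (1 : (P : Subgroup G))]
      · rw [Subgroup.coe_one, Finset.sum_congr rfl (fun ψ hψ => hdeg ψ hψ), Finset.sum_const,
          hr𝒪, hd1]
        simp
      · intro u _ hu1
        apply hvan
        obtain ⟨i, hi⟩ := (IsPGroup.iff_orderOf.mp P.isPGroup') u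
        rw [Subgroup.orderOf_coe, hi]
        apply dvd_pow_self
        rintro rfl
        rw [pow_zero, orderOf_eq_one_iff] at hi
        exact hu1 hi
      · intro h
        exact absurd (Finset.mem_univ _) h
    rw [Finset.sum_comm, Finset.sum_congr rfl hsumψ, Finset.sum_const, hr𝒪] at hdouble
    have hfinal : (d : ℂ) = ((p ^ a * n₁ : ℕ) : ℂ) := by
      have hr0 : (r : ℂ) ≠ 0 := Nat.cast_ne_zero.mpr hrpos.ne'
      apply mul_left_cancel₀ hr0
      rw [← hdouble]
      push_cast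
      simp
    rw [hd2]
    exact ⟨n₁, by exact_mod_cast hfinal⟩
  refine ⟨?_, part2⟩
  by_contra hcon
  push Not at hcon
  have hrd0 : r * charDegree (χ : G → ℂ) ≠ 0 := by
    rw [hd2]
    exact Nat.mul_ne_zero hrpos.ne' hdpos.ne'
  have h1 : p ^ (a + 1) ∣ r * charDegree (χ : G → ℂ) :=
    (Nat.Prime.pow_dvd_iff_le_factorization hp hrd0).mpr hcon
  have h2 : p ^ a ∣ charDegree (χ : G → ℂ) :=
    part2 ((pow_dvd_pow p (Nat.le_succ a)).trans h1)
  obtain ⟨m, ρ, hρ, hχρ⟩ := χ.2
  have hfin : Module.finrank ℂ (Fin m → ℂ) = charDegree (χ : G → ℂ) := by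
    have h3 : ((Module.finrank ℂ (Fin m → ℂ) : ℕ) : ℂ) = (d : ℂ) := by
      rw [← hd1, ← hχρ, Representation.char_one]
    rw [hd2]
    exact_mod_cast h3
  have hvan : ∀ x : G, p ∣ orderOf x → (χ : G → ℂ) x = 0 := by
    intro x hx
    rw [← hχρ]
    haveI := hρ
    exact Cfsg.Agent.S0165.result ρ p a hp (by rw [ha]; exact Nat.ordProj_dvd _ _)
      (by rw [ha]; exact Nat.pow_succ_factorization_not_dvd Nat.card_pos.ne' hp)
      (by rw [hfin]; exact h2) x hx
  have h𝒪 : 𝒪 = {χ} := by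
    ext ψ
    rw [Finset.mem_singleton]
    constructor
    · intro hψ
      apply Subtype.ext
      funext x
      by_cases hx : p ∣ orderOf x
      · obtain ⟨σ, hσ, hψσ⟩ := (hmem𝒪 ψ).mp hψ
        rw [hψσ]
        show σ ((χ : G → ℂ) x) = (χ : G → ℂ) x
        rw [hvan x hx, map_zero]
      · exact hreg ψ hψ x hx
    · rintro rfl
      exact hχ𝒪
  have hr1 : r = 1 := by rw [← hr𝒪, h𝒪, Finset.card_singleton]
  rw [hr1, one_mul] at h1
  have h4 : p ^ (a + 1) ∣ Nat.card G := h1.trans (by rw [hd2]; exact hddvd)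
  rw [ha] at h4
  exact Nat.pow_succ_factorization_not_dvd Nat.card_pos.ne' hp h4

end Cfsg.Agent.S4506
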