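import Cfsg.Statements.S4509
import Cfsg.Agent.Lib.Helper21.SelfCent3

set_option autoImplicit false
open Cfsg

namespace Cfsg.Agent.S4509

open Cfsg.Agent.Lib.Helper21

/-- Let the finite group G contain an element x of prime order p with C_G(x) = ⟨x⟩; let t be the number of conjugacy classes of elements of order p and 1 + n·p the number of subgroups of order p. Then G has a normal subgroup of order 1 + n·p if and only if either t = p − 1, or t < p − 1 and G″ ≠ G′. Moreover, if t = p − 1 then G′ has order 1 + n·p and G/G′ is cyclic of order p; and if t < p − 1 and G″ ≠ G′ then G″ has order 1 + n·p and G′ has order p·(1 + n·p). -/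
theorem result {G : Type*} [Group G] [Finite G] (p : ℕ) (hp : p.Prime) (x : G) (hx : orderOf x = p) (hC : Subgroup.centralizer ({x} : Set G) = Subgroup.zpowers x) (t : ℕ) (ht : Nat.card {C : ConjClasses G // ∃ g ∈ C.carrier, orderOf g = p} = t) (n : ℕ) (hn : Nat.card {H : Subgroup G // Nat.card H = p} = 1 + n * p) : ((∃ S : Subgroup G, S.Normal ∧ Nat.card S = 1 + n * p) ↔ (t = p - 1 ∨ (t < p - 1 ∧ derivedSeries G 2 ≠ derivedSeries G 1))) ∧ (t = p - 1 → Nat.card (commutator G) = 1 + n * p ∧ IsCyclic (G ⧸ commutator G) ∧ (commutator G).index = p) ∧ (t < p - 1 → derivedSeries G 2 ≠ derivedSeries G 1 → Nat.card (derivedSeries G 2) = 1 + n * p ∧ Nat.card (commutator G) = p * (1 + n * p)) := by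
  have htr := sc_t_mul_relIndex hp hx hC
  rw [ht] at htr
  obtain ⟨r, hr⟩ : ∃ r, r = (Subgroup.zpowers x).relIndex
      (Subgroup.normalizer ((Subgroup.zpowers x : Subgroup G) : Set G)) := ⟨_, rfl⟩
  rw [← hr] at htr
  have hp1 : 0 < p - 1 := by
    have := hp.two_le
    omega
  have hr0 : 0 < r := by
    rcases Nat.eq_zero_or_pos r with h | h
    · rw [h, mul_zero] at htr
      omega
    · exact h
  have hcase1 : t = p - 1 → Subgroup.normalizer ((Subgroup.zpowers x : Subgroup G) : Set G) ≤
      Subgroup.zpowers x := by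
    intro heq
    have hr1 : r = 1 := by
      rw [heq] at htr
      have h1 : (p - 1) * r = (p - 1) * 1 := by rw [mul_one]; exact htr
      exact Nat.eq_of_mul_eq_mul_left hp1 h1
    rw [← Subgroup.relIndex_eq_one, ← hr]
    exact hr1
  have hcase2 : t ≠ p - 1 → x ∈ commutator G := by
    intro hne
    have hr1 : r ≠ 1 := by
      intro h1
      rw [h1, mul_one] at htr
      exact hne htr
    have hN : ¬ Subgroup.normalizer ((Subgroup.zpowers x : Subgroup G) : Set G) ≤
        Subgroup.zpowers x := by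
      intro hle
      apply hr1
      rw [hr]
      exact Subgroup.relIndex_eq_one.2 hle
    exact sc_mem_commutator hp hx hC hN
  have hsp : ¬ p ∣ 1 + n * p := by
    intro h
    have h1 : p ∣ 1 := (Nat.dvd_add_left (Dvd.intro_left n rfl)).1 h
    exact hp.one_lt.ne' (Nat.dvd_one.1 h1)
  have htle : t ≤ p - 1 := by
    have h1 : t ≤ t * r := Nat.le_mul_of_pos_right t hr0
    omega
  refine ⟨⟨?_, ?_⟩, ?_, ?_⟩
  · rintro ⟨S₀, hS₀n, hS₀c⟩
    by_cases h1 : t = p - 1
    · left
      exact h1
    · right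
      have hlt : t < p - 1 := by omega
      refine ⟨hlt, ?_⟩
      haveI := hS₀n
      exact sc_part1 hp hx hC (hcase2 h1) S₀ (by rw [hS₀c, hn]) (by rw [hS₀c]; exact hsp)
  · rintro (h1 | ⟨h1, h2⟩)
    · obtain ⟨hc, -, -⟩ := sc_part2 hp hx hC (hcase1 h1)
      exact ⟨commutator G, inferInstance, by rw [hc, hn]⟩
    · obtain ⟨hc, -⟩ := sc_part3 hp hx hC (hcase2 (by omega)) h2
      exact ⟨derivedSeries G 2, derivedSeries_normal G 2, by rw [hc, hn]⟩
  · intro h1
    obtain ⟨hc, hcyc, hidx⟩ := sc_part2 hp hx hC (hcase1 h1)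
    exact ⟨by rw [hc, hn], hcyc, hidx⟩
  · intro h1 h2
    obtain ⟨hc1, hc2⟩ := sc_part3 hp hx hC (hcase2 (by omega)) h2
    exact ⟨by rw [hc1, hn], by rw [hc2, hn]⟩

end Cfsg.Agent.S4509
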