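import Cfsg.Statements.S4558
import Mathlib
import Cfsg.Agent.Lib.Helper2.CharBridge

set_option autoImplicit false
open Cfsg

namespace Cfsg.Agent.S4558

open Cfsg.Agent.Lib.Helper2 Polynomial

theorem charDegree_character {G : Type*} [Group G] {n : ℕ}
    (ρ : Representation ℂ G (Fin n → ℂ)) : Cfsg.charDegree ρ.character = n := by
  unfold Cfsg.charDegree
  rw [Representation.char_one, Module.finrank_fin_fun, Complex.natCast_re, Nat.floor_natCast]

/-- a weighted sum of `p^(k+1)`-th roots of unity that vanishes has total weight divisible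
by `p` -/
theorem dvd_sum_of_sum_roots_eq_zero (p k : ℕ) [Fact p.Prime] (S : Finset ℂ) (m : ℂ → ℕ)
    (hS : ∀ μ ∈ S, μ ^ (p ^ (k + 1)) = 1) (h0 : ∑ μ ∈ S, μ * (m μ : ℂ) = 0) :
    p ∣ ∑ μ ∈ S, m μ := by
  have hp : p.Prime := Fact.out
  have hN : p ^ (k + 1) ≠ 0 := pow_ne_zero _ hp.ne_zero
  have : NeZero (p ^ (k + 1)) := ⟨hN⟩
  set ζ : ℂ := Complex.exp (2 * Real.pi * Complex.I / ((p ^ (k + 1) : ℕ) : ℂ)) with hζ
  have hprim : IsPrimitiveRoot ζ (p ^ (k + 1)) := Complex.isPrimitiveRoot_exp _ hN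
  have hex : ∀ μ : ℂ, ∃ a : ℕ, μ ∈ S → ζ ^ a = μ := by
    intro μ
    by_cases hμ : μ ∈ S
    · obtain ⟨i, _, hi⟩ := hprim.eq_pow_of_pow_eq_one (hS μ hμ)
      exact ⟨i, fun _ => hi⟩
    · exact ⟨0, fun h => absurd h hμ⟩
  choose a ha using hex
  set f : ℤ[X] := ∑ μ ∈ S, C (m μ : ℤ) * X ^ a μ with hf
  have hf0 : aeval ζ f = 0 := by
    rw [hf, map_sum, ← h0]
    apply Finset.sum_congr rfl
    intro μ hμ
    rw [map_mul, map_pow, aeval_X, aeval_C, ha μ hμ, mul_comm]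
    simp
  have hint : IsIntegral ℤ ζ := hprim.isIntegral (Nat.pos_of_ne_zero hN)
  have hdvd : cyclotomic (p ^ (k + 1)) ℤ ∣ f := by
    rw [cyclotomic_eq_minpoly hprim (Nat.pos_of_ne_zero hN)]
    exact minpoly.isIntegrallyClosed_dvd hint hf0
  obtain ⟨q, hq⟩ := hdvd
  have h1 : eval 1 f = ((∑ μ ∈ S, m μ : ℕ) : ℤ) := by
    rw [hf, eval_finsetSum]
    push_cast
    apply Finset.sum_congr rfl
    intro μ _
    simp
  have h2 : eval 1 f = (p : ℤ) * eval 1 q := by
    rw [hq, eval_mul, eval_one_cyclotomic_prime_pow]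
  rw [h1] at h2
  have : (p : ℤ) ∣ ((∑ μ ∈ S, m μ : ℕ) : ℤ) := ⟨_, h2⟩
  exact_mod_cast this

/-- Let χ be a character of the finite group G and g an element of p-power order for the prime p. If χ g = 0, then p divides the degree of χ. -/
theorem result {G : Type*} [Group G] [Finite G] (p : ℕ) [Fact p.Prime] (χ : G → ℂ) (hχ : Cfsg.IsCharacter G χ) (g : G) (hg : ∃ j : ℕ, orderOf g = p ^ j) (h0 : χ g = 0) : p ∣ Cfsg.charDegree χ := by
  obtain ⟨n, ρ, rfl⟩ := hχ
  rw [charDegree_character]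
  obtain ⟨j, hj⟩ := hg
  rcases Nat.eq_zero_or_pos j with rfl | hjpos
  · rw [pow_zero, orderOf_eq_one_iff] at hj
    rw [hj, Representation.char_one, Module.finrank_fin_fun] at h0
    have : n = 0 := by exact_mod_cast h0
    rw [this]
    exact dvd_zero p
  · obtain ⟨k, rfl⟩ := Nat.exists_eq_succ_of_ne_zero hjpos.ne'
    have h := dvd_sum_of_sum_roots_eq_zero p k (eigSet (ρ g)) (eigMult ρ g)
      (fun μ hμ => by rw [← hj]; exact eig_pow ρ g hμ)
      (by rw [← char_eq_sum]; exact h0)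
    rw [sum_eigMult, Module.finrank_fin_fun] at h
    exact h

end Cfsg.Agent.S4558
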