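import Cfsg.Statements.S4566
import Mathlib
import Cfsg.Agent.Lib.Helper25.Central

set_option autoImplicit false
open Cfsg

namespace Cfsg.Agent.S4566

open Cfsg.Agent.Lib.Helper2 Cfsg.Agent.Lib.Helper8 Cfsg.Agent.Lib.Helper25
open scoped ComplexConjugate

/-- Let N be a central subgroup of the finite group G, ψ a faithful irreducible (hence degree-one) character of N, and χ an irreducible character of G whose restriction to N contains ψ. If g ∈ G and some x ∈ G has commutator x⁻¹ g⁻¹ x g in N but different from 1, then χ g = 0. -/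
theorem result {G : Type*} [Group G] [Fintype G] (N : Subgroup G) [Fintype N] (hN : N ≤ Subgroup.center G) (ψ : Cfsg.IrrCharacter ↥N) (hfaith : ∀ n : ↥N, (ψ : ↥N → ℂ) n = (ψ : ↥N → ℂ) 1 → n = 1) (χ : Cfsg.IrrCharacter G) (hover : Cfsg.classInner (fun n : ↥N => (χ : G → ℂ) n) (ψ : ↥N → ℂ) ≠ 0) (g x : G) (hcomm : x⁻¹ * g⁻¹ * x * g ∈ N) (hne : x⁻¹ * g⁻¹ * x * g ≠ 1) : (χ : G → ℂ) g = 0 := by
  obtain ⟨χ, d, ρ, hρ, rfl⟩ := χ
  obtain ⟨ψ, m, σ, hσ, rfl⟩ := ψ
  simp only at hover hfaith ⊢
  -- the scalars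
  have hcN : ∀ n : N, n ∈ Subgroup.center N := by
    intro n
    rw [Subgroup.mem_center_iff]
    intro k
    apply Subtype.ext
    exact Subgroup.mem_center_iff.mp (hN n.2) k
  have hex1 : ∀ n : N, ∃ ω : ℂ, ρ n = ω • 1 := fun n => central_scalar ρ hρ n (hN n.2)
  have hex2 : ∀ n : N, ∃ ω : ℂ, σ n = ω • 1 := fun n => central_scalar σ hσ n (hcN n)
  choose lam hlam using hex1
  choose psi hpsi using hex2
  -- the sum
  set S : ℂ := ∑ n : N, ρ.character n * conj (σ.character n) with hS
  have hS0 : S ≠ 0 := by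
    intro h
    apply hover
    rw [classInner_def]
    change _ * S = 0
    rw [h, mul_zero]
  have hm : m ≠ 0 := by
    rintro rfl
    apply hS0
    rw [hS]
    apply Finset.sum_eq_zero
    intro n _
    have : σ.character n = 0 := by
      have h1 := char_scalar_mul σ (hpsi n) 1
      rw [mul_one, Representation.char_one, Module.finrank_fin_fun] at h1
      simpa using h1
    rw [this, map_zero, mul_zero]
  have hnt : Nontrivial (Fin m → ℂ) := by
    have : Nonempty (Fin m) := ⟨⟨0, Nat.pos_of_ne_zero hm⟩⟩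
    infer_instance
  have hkey : ∀ n₀ : N, lam n₀ = psi n₀ := by
    intro n₀
    have h1 : S = lam n₀ * conj (psi n₀) * S := by
      rw [hS, Finset.mul_sum]
      rw [← Equiv.sum_comp (Equiv.mulLeft n₀)]
      apply Finset.sum_congr rfl
      intro n _
      rw [Equiv.coe_mulLeft, Subgroup.coe_mul, char_scalar_mul ρ (hlam n₀),
        char_scalar_mul σ (hpsi n₀), map_mul]
      ring
    have h2 : lam n₀ * conj (psi n₀) = 1 := by
      have : (lam n₀ * conj (psi n₀) - 1) * S = 0 := by rw [sub_mul, one_mul, ← h1, sub_self]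
      rcases mul_eq_zero.mp this with h | h
      · exact sub_eq_zero.mp h
      · exact absurd h hS0
    have h3 : ‖psi n₀‖ = 1 := scalar_norm σ (hpsi n₀)
    rw [← Complex.inv_eq_conj h3] at h2
    have h4 : psi n₀ ≠ 0 := by
      intro h
      rw [h, norm_zero] at h3
      exact zero_ne_one h3
    field_simp at h2
    exact h2
  -- the commutator
  set c : G := x⁻¹ * g⁻¹ * x * g with hc
  have hcinv : c⁻¹ ∈ N := N.inv_mem hcomm
  have hcne : (⟨c⁻¹, hcinv⟩ : N) ≠ 1 := by
    intro h
    apply hne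
    have : c⁻¹ = 1 := congrArg Subtype.val h
    exact inv_eq_one.mp this
  have hlamne : lam ⟨c⁻¹, hcinv⟩ ≠ 1 := by
    intro h
    apply hcne
    apply hfaith
    have h1 := char_scalar_mul σ (hpsi ⟨c⁻¹, hcinv⟩) 1
    rw [mul_one, ← hkey, h, one_mul] at h1
    exact h1
  have hconj : x⁻¹ * g * x = c⁻¹ * g := by
    have hcz : c⁻¹ ∈ Subgroup.center G := hN hcinv
    have h1 : c⁻¹ * g = g * c⁻¹ := (Subgroup.mem_center_iff.mp hcz g).symm
    rw [h1, hc]
    group
  have h1 : ρ.character (x⁻¹ * g * x) = ρ.character g := by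
    have := ρ.char_conj g x⁻¹
    rw [inv_inv] at this
    exact this
  rw [hconj, char_scalar_mul ρ (hlam ⟨c⁻¹, hcinv⟩)] at h1
  have h2 : (lam ⟨c⁻¹, hcinv⟩ - 1) * ρ.character g = 0 := by rw [sub_mul, one_mul, h1, sub_self]
  rcases mul_eq_zero.mp h2 with h | h
  · exact absurd (sub_eq_zero.mp h) hlamne
  · exact h

end Cfsg.Agent.S4566
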