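import Cfsg.Statements.S4669
-- import your own Cfsg.Agent.* helpers here
import Mathlib
import Cfsg.Agent.Lib.Helper25.MinMax
import Cfsg.Agent.Lib.Helper25.Quot
import Cfsg.Agent.Lib.Helper25.CharSum
import Cfsg.Agent.Lib.Helper8.DefectLocal
import Cfsg.Agent.Lib.Helper8.DefectNum
import Cfsg.Agent.Lib.Helper8.BlockQuot
import Cfsg.Agent.S0907
import Cfsg.Agent.S0914

set_option autoImplicit false
open Cfsg

namespace Cfsg.Agent.S4669

section aux

open Cfsg.Agent.Lib.Helper2 Cfsg.Agent.Lib.Helper25 Cfsg.Agent.Lib.Helper8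

variable {G : Type*} [Group G]

/-- the sum of an irreducible character over a coset of a normal subgroup in its kernel -/
theorem sum_coset_of_ker [Finite G] (N : Subgroup G) [N.Normal] [Fintype N]
    (ψ : IrrCharacter G) (y : G) (hker : ∀ n ∈ N, (ψ : G → ℂ) n = (ψ : G → ℂ) 1) :
    ∑ n : N, (ψ : G → ℂ) ((n : G) * y) = (Nat.card N : ℂ) * (ψ : G → ℂ) y := by
  obtain ⟨d, ρ, hρ, hχ⟩ := ψ.2
  have h1 : ∀ n : N, (ψ : G → ℂ) ((n : G) * y) = (ψ : G → ℂ) y := by
    intro n
    have h2 := hker n n.2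
    rw [← hχ] at h2 ⊢
    rw [Representation.char_one] at h2
    have h3 : ρ (n : G) = 1 := (char_eq_finrank_iff ρ (n : G)).mp h2
    unfold Representation.character
    rw [map_mul, h3, one_mul]
  rw [Finset.sum_congr rfl (fun n _ => h1 n), Finset.sum_const, Finset.card_univ, nsmul_eq_mul,
    Nat.card_eq_fintype_card]

/-- the sum of an irreducible character over a coset of a normal subgroup not in its kernel -/
theorem sum_coset_of_not_ker [Finite G] (N : Subgroup G) [N.Normal] [Fintype N]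
    (ψ : IrrCharacter G) (y : G) (hnk : ∃ n ∈ N, (ψ : G → ℂ) n ≠ (ψ : G → ℂ) 1) :
    ∑ n : N, (ψ : G → ℂ) ((n : G) * y) = 0 := by
  obtain ⟨d, ρ, hρ, hχ⟩ := ψ.2
  have hN' : ∃ n ∈ N, ρ n ≠ 1 := by
    obtain ⟨n, hn, hne⟩ := hnk
    refine ⟨n, hn, fun h => hne ?_⟩
    rw [← hχ]
    have h2 : ρ n = ρ 1 := by rw [h, map_one]
    exact congrArg (LinearMap.trace ℂ _) h2
  have h0 := sum_normal_eq_zero N ρ hN'
  have e : ∑ n : N, (ψ : G → ℂ) ((n : G) * y)
      = LinearMap.trace ℂ _ ((∑ n : N, ρ (n : G)) * ρ y) := by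
    rw [Finset.sum_mul, map_sum]
    apply Finset.sum_congr rfl
    intro n _
    rw [← map_mul, ← hχ]
    rfl
  rw [e, h0, zero_mul, map_zero]

end aux

open Cfsg.Agent.Lib.Helper2 Cfsg.Agent.Lib.Helper25 Cfsg.Agent.Lib.Helper8 in
/-- Fix a prime p and a maximal ideal M of the algebraic integers containing p. If the p-block B of the finite group G has a defect group P contained in the centre of G, then B has p-regular rank one (a single irreducible Brauer character). -/
theorem result {G : Type*} [Group G] [Fintype G] (p : ℕ) [Fact p.Prime] (M : Ideal Cfsg.AlgInt) (hM : Cfsg.IsPModular p M) (B : Set (Cfsg.IrrCharacter G)) (hB : Cfsg.IsPBlock M B) (P : Subgroup G) (hD : Cfsg.IsDefectGroup p M B P) (hPZ : P ≤ Subgroup.center G) : Cfsg.blockRank p B = 1 := by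
  classical
  have hpr := isPrime_of_isPModular hM
  have hp : p.Prime := Fact.out
  have : Fintype (IrrCharacter G) := Fintype.ofFinite _
  have hPn : P.Normal := ⟨fun n hn g => by
    have h1 := Subgroup.mem_center_iff.mp (hPZ hn) g
    rw [h1, mul_inv_cancel_right]
    exact hn⟩
  have : Fintype (G ⧸ P) := Fintype.ofFinite _
  have : Fintype P := Fintype.ofFinite P
  have hPp : IsPGroup p P := isPGroup_of_isDefectGroup hD
  have hC : ∃ k : ℕ, (Subgroup.centralizer (P : Set G)).index = p ^ k := by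
    refine ⟨0, ?_⟩
    have h1 : Subgroup.centralizer (P : Set G) = ⊤ := by
      rw [eq_top_iff]
      intro g _
      rw [Subgroup.mem_centralizer_iff]
      intro z hz
      exact (Subgroup.mem_center_iff.mp (hPZ hz) g).symm
    rw [h1, Subgroup.index_top, pow_zero]
  obtain ⟨χb, θ, hθB, hθ⟩ := exists_inflation_mem hM P hPp hC B hB
  have hθker : ∀ z ∈ P, (θ : G → ℂ) z = (θ : G → ℂ) 1 := by
    intro z hz
    rw [hθ]
    simp only [Function.comp_apply]
    rw [(QuotientGroup.eq_one_iff z).mpr hz, QuotientGroup.mk_one]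
  -- the character of the quotient has defect zero
  have hdz : blockOf M ((χb : IrrCharacter (G ⧸ P)) : G ⧸ P → ℂ) = {χb} := by
    rw [← Cfsg.Agent.S0914.result p M hM χb]
    obtain ⟨d', hd'1, hd'pos, hd'dvd, hd'deg⟩ := irr_degree χb
    obtain ⟨m, hm1, -, hm3, -⟩ := block_min_data hM hB
    have hcardP := card_of_isDefectGroup hM B hB P hD
    have hθdeg : charDegree (θ : G → ℂ) = d' := by
      unfold charDegree
      have h1 : (θ : G → ℂ) 1 = (d' : ℂ) := by
        rw [hθ, Function.comp_apply, QuotientGroup.mk_one, hd'1]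
      rw [h1]
      simp
    have hmd := hm1 θ hθB
    rw [hθdeg] at hmd
    have hq := Subgroup.card_eq_card_quotient_mul_card_subgroup P
    rw [hd'deg]
    obtain ⟨t, ht⟩ := hd'dvd
    rw [ht, Nat.mul_div_cancel_left t hd'pos]
    intro hpt
    have ht0 : t ≠ 0 := by
      rintro rfl
      rw [mul_zero] at ht
      exact Nat.card_pos.ne' ht
    have hf1 : (Nat.card G).factorization p
        = (Nat.card (G ⧸ P)).factorization p + blockDefect p B := by
      rw [hq, Nat.factorization_mul Nat.card_pos.ne' Nat.card_pos.ne', hcardP,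
        Nat.factorization_pow]
      simp [hp.factorization_self]
    have hf2 : (Nat.card (G ⧸ P)).factorization p = d'.factorization p + t.factorization p := by
      rw [ht, Nat.factorization_mul hd'pos.ne' ht0]
      rfl
    have hf3 : 1 ≤ t.factorization p := (hp.dvd_iff_one_le_factorization ht0).mp hpt
    omega
  -- uniqueness of the member with `P` in its kernel
  have huniq : ∀ ψ ∈ B, (∀ z ∈ P, (ψ : G → ℂ) z = (ψ : G → ℂ) 1) → ψ = θ := by
    intro ψ hψB hker
    obtain ⟨ψf, hψirr, hψf⟩ := deflate_irr P ψ.2 hker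
    have hsb : SameBlock M (θ : G → ℂ) (ψ : G → ℂ) := isPBlock_sameBlock hM hB θ hθB ψ hψB
    have hfun : (ψ : G → ℂ) = ψf ∘ QuotientGroup.mk := by
      funext g
      exact (hψf g).symm
    rw [hθ, hfun] at hsb
    have h2 := (sameBlock_inflate_iff hM P hPp hC χb ⟨ψf, hψirr⟩).mpr hsb
    have h3 : (⟨ψf, hψirr⟩ : IrrCharacter (G ⧸ P))
        ∈ blockOf M ((χb : IrrCharacter (G ⧸ P)) : G ⧸ P → ℂ) := h2
    rw [hdz, Set.mem_singleton_iff] at h3
    apply Subtype.ext
    rw [hθ, hfun, ← h3]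
  -- the block sums of products of values
  set S : G → G → ℂ := fun x y => ∑ ψ : IrrCharacter G,
    (if ψ ∈ B then (1 : ℂ) else 0) * ((ψ : G → ℂ) x * (starRingEnd ℂ) ((ψ : G → ℂ) y)) with hS
  have hS0 : ∀ x y : G, ¬ p ∣ orderOf x → p ∣ orderOf y → S x y = 0 := by
    intro x y hx hy
    have h := Cfsg.Agent.S0907.result p M hM B hB x y hx hy
    rw [finsum_mem_eq_sum_indicator] at h
    rw [← h]
    apply Finset.sum_congr rfl
    intro ψ _
    rw [Set.indicator_apply]
    split_ifs <;> simp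
  have hS1 : ∀ x y : G, ¬ p ∣ orderOf x → ¬ p ∣ orderOf y → S x y
      = (Nat.card P : ℂ) * ((θ : G → ℂ) x * (starRingEnd ℂ) ((θ : G → ℂ) y)) := by
    intro x y hx hy
    have e1 : ∑ z : P, S x ((z : G) * y) = S x y := by
      rw [Finset.sum_eq_single (1 : P)]
      · rw [Subgroup.coe_one, one_mul]
      · intro z _ hz
        apply hS0 x _ hx
        have hz1 : (z : G) ≠ 1 := fun h => hz (Subtype.ext h)
        obtain ⟨k, hk⟩ := hPp.exists_orderOf_eq_pow z
        rw [← Subgroup.orderOf_coe] at hk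
        have hk0 : k ≠ 0 := by
          rintro rfl
          rw [pow_zero, orderOf_eq_one_iff] at hk
          exact hz1 hk
        have hcomm : Commute (z : G) y := (Subgroup.mem_center_iff.mp (hPZ z.2) y).symm
        have hcop : (orderOf (z : G)).Coprime (orderOf y) := by
          rw [hk]
          exact Nat.Coprime.pow_left k ((Nat.Prime.coprime_iff_not_dvd hp).mpr hy)
        rw [hcomm.orderOf_mul_eq_mul_orderOf_of_coprime hcop, hk]
        exact dvd_mul_of_dvd_left (dvd_pow_self p hk0) _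
      · intro h
        exact absurd (Finset.mem_univ _) h
    have e2 : ∑ z : P, S x ((z : G) * y)
        = (Nat.card P : ℂ) * ((θ : G → ℂ) x * (starRingEnd ℂ) ((θ : G → ℂ) y)) := by
      simp only [hS]
      rw [Finset.sum_comm, Finset.sum_eq_single θ]
      · rw [if_pos hθB]
        simp only [one_mul]
        rw [← Finset.mul_sum, ← map_sum, sum_coset_of_ker P θ y hθker, map_mul,
          Complex.conj_natCast]
        ring
      · intro ψ _ hψ
        by_cases hψB : ψ ∈ B
        · have hnk : ∃ n ∈ P, (ψ : G → ℂ) n ≠ (ψ : G → ℂ) 1 := by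
            by_contra hcon
            push Not at hcon
            exact hψ (huniq ψ hψB hcon)
          simp only [if_pos hψB, one_mul]
          rw [← Finset.mul_sum, ← map_sum, sum_coset_of_not_ker P ψ y hnk, map_zero, mul_zero]
        · simp only [if_neg hψB, zero_mul, Finset.sum_const_zero]
      · intro h
        exact absurd (Finset.mem_univ _) h
    rw [← e1, e2]
  have h1reg : ¬ p ∣ orderOf (1 : G) := by
    rw [orderOf_one]
    exact hp.one_lt.ne' ∘ Nat.dvd_one.mp
  have hprop : ∀ x : G, ¬ p ∣ orderOf x → ∀ ψ ∈ B,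
      (ψ : G → ℂ) x * (θ : G → ℂ) 1 = (ψ : G → ℂ) 1 * (θ : G → ℂ) x := by
    intro x hx
    have hsum : ∑ ψ : IrrCharacter G, (if ψ ∈ B then (1 : ℂ) else 0)
        * (((ψ : G → ℂ) x * (θ : G → ℂ) 1 - (ψ : G → ℂ) 1 * (θ : G → ℂ) x)
          * (starRingEnd ℂ) ((ψ : G → ℂ) x * (θ : G → ℂ) 1 - (ψ : G → ℂ) 1 * (θ : G → ℂ) x))
        = 0 := by
      have e : ∀ ψ : IrrCharacter G, (if ψ ∈ B then (1 : ℂ) else 0)
          * (((ψ : G → ℂ) x * (θ : G → ℂ) 1 - (ψ : G → ℂ) 1 * (θ : G → ℂ) x)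
            * (starRingEnd ℂ) ((ψ : G → ℂ) x * (θ : G → ℂ) 1 - (ψ : G → ℂ) 1 * (θ : G → ℂ) x))
          = (θ : G → ℂ) 1 * (starRingEnd ℂ) ((θ : G → ℂ) 1) * ((if ψ ∈ B then (1 : ℂ) else 0)
              * ((ψ : G → ℂ) x * (starRingEnd ℂ) ((ψ : G → ℂ) x)))
            - (θ : G → ℂ) 1 * (starRingEnd ℂ) ((θ : G → ℂ) x) * ((if ψ ∈ B then (1 : ℂ) else 0)
              * ((ψ : G → ℂ) x * (starRingEnd ℂ) ((ψ : G → ℂ) 1)))
            - (θ : G → ℂ) x * (starRingEnd ℂ) ((θ : G → ℂ) 1) * ((if ψ ∈ B then (1 : ℂ) else 0)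
              * ((ψ : G → ℂ) 1 * (starRingEnd ℂ) ((ψ : G → ℂ) x)))
            + (θ : G → ℂ) x * (starRingEnd ℂ) ((θ : G → ℂ) x) * ((if ψ ∈ B then (1 : ℂ) else 0)
              * ((ψ : G → ℂ) 1 * (starRingEnd ℂ) ((ψ : G → ℂ) 1))) := by
        intro ψ
        simp only [map_sub, map_mul]
        ring
      rw [Finset.sum_congr rfl (fun ψ _ => e ψ), Finset.sum_add_distrib, Finset.sum_sub_distrib,
        Finset.sum_sub_distrib, ← Finset.mul_sum, ← Finset.mul_sum, ← Finset.mul_sum,
        ← Finset.mul_sum]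
      have a1 := hS1 x x hx hx
      have a2 := hS1 x 1 hx h1reg
      have a3 := hS1 1 x h1reg hx
      have a4 := hS1 1 1 h1reg h1reg
      simp only [hS] at a1 a2 a3 a4
      rw [a1, a2, a3, a4]
      ring
    intro ψ hψ
    have hnn : ∀ ψ : IrrCharacter G, (if ψ ∈ B then (1 : ℂ) else 0)
        * (((ψ : G → ℂ) x * (θ : G → ℂ) 1 - (ψ : G → ℂ) 1 * (θ : G → ℂ) x)
          * (starRingEnd ℂ) ((ψ : G → ℂ) x * (θ : G → ℂ) 1 - (ψ : G → ℂ) 1 * (θ : G → ℂ) x))
        = (((if ψ ∈ B then Complex.normSq ((ψ : G → ℂ) x * (θ : G → ℂ) 1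
            - (ψ : G → ℂ) 1 * (θ : G → ℂ) x) else 0 : ℝ)) : ℂ) := by
      intro ψ
      rw [Complex.mul_conj]
      split_ifs <;> simp
    rw [Finset.sum_congr rfl (fun ψ _ => hnn ψ), ← Complex.ofReal_sum, Complex.ofReal_eq_zero]
      at hsum
    have h0 := (Finset.sum_eq_zero_iff_of_nonneg (fun ψ _ => by
      split_ifs
      · exact Complex.normSq_nonneg _
      · exact le_refl 0)).mp hsum ψ (Finset.mem_univ ψ)
    rw [if_pos hψ, Complex.normSq_eq_zero] at h0
    exact sub_eq_zero.mp h0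
  -- the span
  have hθ1 : (θ : G → ℂ) 1 ≠ 0 := irr_one_ne_zero θ.2
  unfold blockRank
  have hspan : Submodule.span ℂ ((fun χ : IrrCharacter G => pRegularPart p (χ : G → ℂ)) '' B)
      = Submodule.span ℂ {pRegularPart p (θ : G → ℂ)} := by
    apply le_antisymm
    · rw [Submodule.span_le]
      rintro _ ⟨ψ, hψ, rfl⟩
      rw [SetLike.mem_coe, Submodule.mem_span_singleton]
      refine ⟨(ψ : G → ℂ) 1 / (θ : G → ℂ) 1, ?_⟩
      funext g
      rw [Pi.smul_apply, smul_eq_mul]
      change (ψ : G → ℂ) 1 / (θ : G → ℂ) 1 * pRegularPart p (θ : G → ℂ) g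
        = pRegularPart p (ψ : G → ℂ) g
      unfold pRegularPart
      by_cases hg : IsPRegular p g
      · rw [if_pos hg, if_pos hg]
        have h1 := hprop g hg ψ hψ
        field_simp
        rw [← h1, mul_comm]
      · rw [if_neg hg, if_neg hg, mul_zero]
    · apply Submodule.span_mono
      rw [Set.singleton_subset_iff]
      exact ⟨θ, hθB, rfl⟩
  rw [hspan]
  apply finrank_span_singleton
  intro h0
  have h1 := congrFun h0 1
  unfold pRegularPart at h1
  rw [if_pos (show IsPRegular p (1 : G) from h1reg)] at h1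
  exact hθ1 h1

end Cfsg.Agent.S4669
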