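import Cfsg.Statements.S4571
-- import your own Cfsg.Agent.* helpers here
import Mathlib
import Cfsg.Agent.Lib.Helper25.MinMax
import Cfsg.Agent.Lib.Helper25.Quot
import Cfsg.Agent.Lib.Helper25.CharSum
import Cfsg.Agent.Lib.Helper25.GramSpan
import Cfsg.Agent.Lib.Helper8.BlockQuot
import Cfsg.Agent.S0907
import Cfsg.Agent.S4669

set_option autoImplicit false
open Cfsg

namespace Cfsg.Agent.S4571

section aux

open Cfsg.Agent.Lib.Helper2 Cfsg.Agent.Lib.Helper25 Cfsg.Agent.Lib.Helper8

variable {G : Type*} [Group G]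

/-- if `G = Q C_G(Q)` for a normal `p`-subgroup `Q`, the centralizer of `Q` has `p`-power
index -/
theorem index_centralizer_of_sup [Finite G] {p : ℕ} [Fact p.Prime] (Q : Subgroup G) [Q.Normal]
    (hQ : IsPGroup p Q) (hsup : Q ⊔ Subgroup.centralizer (Q : Set G) = ⊤) :
    ∃ k : ℕ, (Subgroup.centralizer (Q : Set G)).index = p ^ k := by
  set C := Subgroup.centralizer (Q : Set G) with hC
  let φ : Q →* G ⧸ C := (QuotientGroup.mk' C).comp Q.subtype
  have hsurj : Function.Surjective φ := by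
    intro q
    obtain ⟨g, rfl⟩ := QuotientGroup.mk_surjective q
    have hg : g ∈ Q ⊔ C := by rw [hsup]; trivial
    obtain ⟨y, hy, z, hz, rfl⟩ := Subgroup.mem_sup_of_normal_right.mp hg
    refine ⟨⟨y, hy⟩, ?_⟩
    change ((y : G) : G ⧸ C) = ((y * z : G) : G ⧸ C)
    rw [QuotientGroup.mk_mul, (QuotientGroup.eq_one_iff z).mpr hz, mul_one]
  have hpg : IsPGroup p (G ⧸ C) := IsPGroup.of_surjective hQ φ hsurj
  obtain ⟨k, hk⟩ := IsPGroup.iff_card.mp hpg
  exact ⟨k, by rw [Subgroup.index_eq_card, hk]⟩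

/-- a `p`-regular element lies in every normal subgroup of `p`-power index -/
theorem mem_of_regular_of_index [Finite G] {p : ℕ} [Fact p.Prime] (C : Subgroup G) [C.Normal]
    {k : ℕ} (hk : C.index = p ^ k) (y : G) (hy : ¬ p ∣ orderOf y) : y ∈ C := by
  have hp : p.Prime := Fact.out
  rw [← QuotientGroup.eq_one_iff, ← orderOf_eq_one_iff]
  have h1 : orderOf (y : G ⧸ C) ∣ orderOf y := by
    apply orderOf_dvd_of_pow_eq_one
    rw [← QuotientGroup.mk_pow, pow_orderOf_eq_one]
    rfl
  have h2 : orderOf (y : G ⧸ C) ∣ p ^ k := by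
    rw [← hk, Subgroup.index_eq_card]
    exact orderOf_dvd_natCard _
  obtain ⟨j, -, hj⟩ := (Nat.dvd_prime_pow hp).mp h2
  rcases Nat.eq_zero_or_pos j with hj0 | hj0
  · rw [hj, hj0, pow_zero]
  · exfalso
    apply hy
    rw [hj] at h1
    exact dvd_trans (dvd_pow_self p hj0.ne') h1

end aux

open Cfsg.Agent.Lib.Helper2 Cfsg.Agent.Lib.Helper25 Cfsg.Agent.Lib.Helper8 in
/-- Let Q be a normal p-subgroup of the finite group G with G = Q·C_G(Q), and M a maximal ideal of the algebraic integers containing p. Then the principal p-blocks of G and of G/Q have the same p-regular rank (the same number of irreducible Brauer characters). -/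
theorem result {G : Type*} [Group G] [Finite G] (p : ℕ) [Fact p.Prime] (M : Ideal Cfsg.AlgInt) (hM : Cfsg.IsPModular p M) (Q : Subgroup G) [Q.Normal] (hQ : IsPGroup p Q) (hsup : Q ⊔ Subgroup.centralizer (Q : Set G) = ⊤) : Cfsg.blockRank p (Cfsg.principalBlock M G) = Cfsg.blockRank p (Cfsg.principalBlock M (G ⧸ Q)) := by
  classical
  have hpr := isPrime_of_isPModular hM
  have hp : p.Prime := Fact.out
  have : Fintype G := Fintype.ofFinite G
  have : Fintype (IrrCharacter G) := Fintype.ofFinite _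
  have : Fintype (G ⧸ Q) := Fintype.ofFinite _
  have : Fintype Q := Fintype.ofFinite Q
  obtain ⟨k, hk⟩ := index_centralizer_of_sup Q hQ hsup
  have hC : ∃ k : ℕ, (Subgroup.centralizer (Q : Set G)).index = p ^ k := ⟨k, hk⟩
  set B := principalBlock M G with hBdef
  have hB : IsPBlock M B := ⟨Cfsg.Agent.Lib.Helper25.trivIrr G, rfl⟩
  set B₁ : Set (IrrCharacter G) :=
    {ψ | ψ ∈ B ∧ ∀ z ∈ Q, (ψ : G → ℂ) z = (ψ : G → ℂ) 1} with hB₁
  have hB₁B : B₁ ⊆ B := fun ψ hψ => hψ.1
  set v : IrrCharacter G → G → ℂ := fun χ => pRegularPart p (χ : G → ℂ) with hv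
  have hvreg : ∀ (ψ : IrrCharacter G) (x : G), ¬ p ∣ orderOf x → v ψ x = (ψ : G → ℂ) x := by
    intro ψ x hx
    change pRegularPart p (ψ : G → ℂ) x = _
    unfold pRegularPart
    rw [if_pos (show IsPRegular p x from hx)]
  have hvsing : ∀ (ψ : IrrCharacter G) (x : G), p ∣ orderOf x → v ψ x = 0 := by
    intro ψ x hx
    change pRegularPart p (ψ : G → ℂ) x = _
    unfold pRegularPart
    rw [if_neg (show ¬ IsPRegular p x from fun h => h hx)]
  -- the Gram identity
  have hgram : ∀ x y : G, ∑ ψ : IrrCharacter G, (if ψ ∈ B then (1 : ℂ) else 0)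
        * (v ψ x * (starRingEnd ℂ) (v ψ y))
      = (Nat.card Q : ℂ) * ∑ ψ : IrrCharacter G, (if ψ ∈ B₁ then (1 : ℂ) else 0)
        * (v ψ x * (starRingEnd ℂ) (v ψ y)) := by
    intro x y
    by_cases hx : p ∣ orderOf x
    · simp only [hvsing _ x hx, zero_mul, mul_zero, Finset.sum_const_zero]
    by_cases hy : p ∣ orderOf y
    · simp only [hvsing _ y hy, map_zero, mul_zero, Finset.sum_const_zero]
    simp only [hvreg _ x hx, hvreg _ y hy]
    set S : G → ℂ := fun y' => ∑ ψ : IrrCharacter G,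
      (if ψ ∈ B then (1 : ℂ) else 0) * ((ψ : G → ℂ) x * (starRingEnd ℂ) ((ψ : G → ℂ) y'))
      with hS
    have hS0 : ∀ y' : G, p ∣ orderOf y' → S y' = 0 := by
      intro y' hy'
      have h := Cfsg.Agent.S0907.result p M hM B hB x y' hx hy'
      rw [finsum_mem_eq_sum_indicator] at h
      rw [← h]
      apply Finset.sum_congr rfl
      intro ψ _
      rw [Set.indicator_apply]
      split_ifs <;> simp
    have hyC : y ∈ Subgroup.centralizer (Q : Set G) := mem_of_regular_of_index _ hk y hy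
    have e1 : ∑ z : Q, S ((z : G) * y) = S y := by
      rw [Finset.sum_eq_single (1 : Q)]
      · rw [Subgroup.coe_one, one_mul]
      · intro z _ hz
        apply hS0
        have hz1 : (z : G) ≠ 1 := fun h => hz (Subtype.ext h)
        obtain ⟨j, hj⟩ := hQ.exists_orderOf_eq_pow z
        rw [← Subgroup.orderOf_coe] at hj
        have hj0 : j ≠ 0 := by
          rintro rfl
          rw [pow_zero, orderOf_eq_one_iff] at hj
          exact hz1 hj
        have hcomm : Commute (z : G) y := Subgroup.mem_centralizer_iff.mp hyC z z.2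
        have hcop : (orderOf (z : G)).Coprime (orderOf y) := by
          rw [hj]
          exact Nat.Coprime.pow_left j ((Nat.Prime.coprime_iff_not_dvd hp).mpr hy)
        rw [hcomm.orderOf_mul_eq_mul_orderOf_of_coprime hcop, hj]
        exact dvd_mul_of_dvd_left (dvd_pow_self p hj0) _
      · intro h
        exact absurd (Finset.mem_univ _) h
    have e2 : ∑ z : Q, S ((z : G) * y)
        = (Nat.card Q : ℂ) * ∑ ψ : IrrCharacter G, (if ψ ∈ B₁ then (1 : ℂ) else 0)
          * ((ψ : G → ℂ) x * (starRingEnd ℂ) ((ψ : G → ℂ) y)) := by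
      simp only [hS]
      rw [Finset.sum_comm, Finset.mul_sum]
      apply Finset.sum_congr rfl
      intro ψ _
      rw [← Finset.mul_sum, ← Finset.mul_sum, ← map_sum]
      by_cases hψB : ψ ∈ B
      · by_cases hker : ∀ z ∈ Q, (ψ : G → ℂ) z = (ψ : G → ℂ) 1
        · have hψ1 : ψ ∈ B₁ := ⟨hψB, hker⟩
          rw [if_pos hψB, if_pos hψ1, Cfsg.Agent.S4669.sum_coset_of_ker Q ψ y hker, map_mul,
            Complex.conj_natCast]
          ring
        · have hψ1 : ψ ∉ B₁ := fun h => hker h.2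
          push Not at hker
          rw [if_neg hψ1, Cfsg.Agent.S4669.sum_coset_of_not_ker Q ψ y hker, map_zero, mul_zero, mul_zero,
            zero_mul, mul_zero]
      · have hψ1 : ψ ∉ B₁ := fun h => hψB h.1
        rw [if_neg hψB, if_neg hψ1, zero_mul, zero_mul, mul_zero]
    rw [← e2, e1]
  -- the spans agree
  have hspan : Submodule.span ℂ (v '' B) = Submodule.span ℂ (v '' B₁) :=
    le_antisymm (span_le_of_gram B B₁ v _ hgram) (Submodule.span_mono (Set.image_mono hB₁B))
  -- transfer to the quotient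
  set Bq := principalBlock M (G ⧸ Q) with hBq
  set vq : IrrCharacter (G ⧸ Q) → (G ⧸ Q) → ℂ :=
    fun χ => pRegularPart p (χ : G ⧸ Q → ℂ) with hvq
  let Φ : (G ⧸ Q → ℂ) →ₗ[ℂ] (G → ℂ) :=
    { toFun := fun f g => if IsPRegular p g then f (g : G ⧸ Q) else 0
      map_add' := by
        intro f₁ f₂
        funext g
        simp only [Pi.add_apply]
        split_ifs <;> simp
      map_smul' := by
        intro c f
        funext g
        simp only [Pi.smul_apply, RingHom.id_apply, smul_eq_mul]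
        split_ifs <;> simp }
  have hlift : ∀ q : G ⧸ Q, ∃ g : G, ¬ p ∣ orderOf q → ((g : G ⧸ Q) = q ∧ ¬ p ∣ orderOf g) := by
    intro q
    by_cases hq : ¬ p ∣ orderOf q
    · obtain ⟨g, hg1, hg2⟩ := exists_regular_lift Q hQ q hq
      exact ⟨g, fun _ => ⟨hg1, hg2⟩⟩
    · exact ⟨1, fun h => absurd h hq⟩
  choose s hs using hlift
  let Θ : (G → ℂ) →ₗ[ℂ] (G ⧸ Q → ℂ) :=
    { toFun := fun f q => if IsPRegular p q then f (s q) else 0
      map_add' := by
        intro f₁ f₂
        funext g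
        simp only [Pi.add_apply]
        split_ifs <;> simp
      map_smul' := by
        intro c f
        funext g
        simp only [Pi.smul_apply, RingHom.id_apply, smul_eq_mul]
        split_ifs <;> simp }
  have hmkreg : ∀ g : G, ¬ p ∣ orderOf g → ¬ p ∣ orderOf (g : G ⧸ Q) := by
    intro g hg h
    apply hg
    apply dvd_trans h
    apply orderOf_dvd_of_pow_eq_one
    rw [← QuotientGroup.mk_pow, pow_orderOf_eq_one]
    rfl
  -- `Φ` on the regular parts
  have hΦ : ∀ χ : IrrCharacter (G ⧸ Q),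
      Φ (vq χ) = pRegularPart p ((χ : G ⧸ Q → ℂ) ∘ QuotientGroup.mk) := by
    intro χ
    funext g
    change (if IsPRegular p g then pRegularPart p (χ : G ⧸ Q → ℂ) (g : G ⧸ Q) else 0)
      = pRegularPart p ((χ : G ⧸ Q → ℂ) ∘ QuotientGroup.mk) g
    unfold pRegularPart
    by_cases hg : IsPRegular p g
    · rw [if_pos hg, if_pos hg, if_pos (show IsPRegular p (g : G ⧸ Q) from hmkreg g hg)]
      rfl
    · rw [if_neg hg, if_neg hg]
  have hΘ : ∀ χ : IrrCharacter (G ⧸ Q),
      Θ (pRegularPart p ((χ : G ⧸ Q → ℂ) ∘ QuotientGroup.mk)) = vq χ := by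
    intro χ
    funext q
    change (if IsPRegular p q then
        pRegularPart p ((χ : G ⧸ Q → ℂ) ∘ QuotientGroup.mk) (s q) else 0)
      = pRegularPart p (χ : G ⧸ Q → ℂ) q
    unfold pRegularPart
    by_cases hq : IsPRegular p q
    · obtain ⟨h1, h2⟩ := hs q hq
      rw [if_pos hq, if_pos hq, if_pos (show IsPRegular p (s q) from h2), Function.comp_apply,
        h1]
    · rw [if_neg hq, if_neg hq]
  -- the two families correspond
  have himage : v '' B₁ = Φ '' (vq '' Bq) := by
    ext w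
    constructor
    · rintro ⟨ψ, ⟨hψB, hker⟩, rfl⟩
      obtain ⟨ψf, hψirr, hψf⟩ := deflate_irr Q ψ.2 hker
      have hfun : (ψ : G → ℂ) = ψf ∘ QuotientGroup.mk := by
        funext g
        exact (hψf g).symm
      have hmem : (⟨ψf, hψirr⟩ : IrrCharacter (G ⧸ Q)) ∈ Bq := by
        have h1 : SameBlock M (((Cfsg.Agent.Lib.Helper25.trivIrr (G ⧸ Q) : IrrCharacter (G ⧸ Q)) : G ⧸ Q → ℂ)
            ∘ QuotientGroup.mk) (ψf ∘ QuotientGroup.mk) := by
          rw [← hfun]
          exact hψB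
        exact (sameBlock_inflate_iff hM Q hQ hC (Cfsg.Agent.Lib.Helper25.trivIrr (G ⧸ Q)) ⟨ψf, hψirr⟩).mpr h1
      refine ⟨vq ⟨ψf, hψirr⟩, ⟨_, hmem, rfl⟩, ?_⟩
      rw [hΦ]
      change pRegularPart p (ψf ∘ QuotientGroup.mk) = pRegularPart p (ψ : G → ℂ)
      rw [hfun]
    · rintro ⟨_, ⟨χ, hχ, rfl⟩, rfl⟩
      have h1 := (sameBlock_inflate_iff hM Q hQ hC (Cfsg.Agent.Lib.Helper25.trivIrr (G ⧸ Q)) χ).mp hχ
      refine ⟨⟨(χ : G ⧸ Q → ℂ) ∘ QuotientGroup.mk, inflate_irr Q χ.2⟩, ⟨h1, ?_⟩, ?_⟩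
      · intro z hz
        change (χ : G ⧸ Q → ℂ) (z : G ⧸ Q) = (χ : G ⧸ Q → ℂ) ((1 : G) : G ⧸ Q)
        rw [(QuotientGroup.eq_one_iff z).mpr hz, QuotientGroup.mk_one]
      · rw [hΦ]
  have hback : Θ '' (Φ '' (vq '' Bq)) = vq '' Bq := by
    rw [Set.image_image, Set.image_image]
    apply Set.image_congr
    intro χ _
    rw [hΦ, hΘ]
  unfold blockRank
  change Module.finrank ℂ (Submodule.span ℂ (v '' B))
    = Module.finrank ℂ (Submodule.span ℂ (vq '' Bq))
  rw [hspan, himage]
  apply le_antisymm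
  · rw [← Submodule.map_span]
    exact Submodule.finrank_map_le Φ _
  · conv_lhs => rw [← hback]
    rw [← Submodule.map_span]
    exact Submodule.finrank_map_le Θ _

end Cfsg.Agent.S4571
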