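import Mathlib
import Cfsg.Statements.S4574
import Cfsg.Agent.Lib.Helper2.GaloisAvg
import Cfsg.Agent.Lib.Helper2.CharLinear

set_option autoImplicit false
open Cfsg

namespace Cfsg.Agent.S4574

open Cfsg.Agent.Lib.Helper2 Module

/-- For χ ∈ Irr(G): #{g : χ(g) = 0} ≥ (χ(1)² − 1)·#Z(χ), with equality if the absolute value of χ takes only the values 0, 1, χ(1). -/
theorem result {G : Type*} [Group G] [Fintype G] [DecidableEq G] (χ : G → ℂ) (hχ : Cfsg.IsIrrCharacter G χ) : (Cfsg.charDegree χ ^ 2 - 1) * (Finset.univ.filter (fun g : G => ‖χ g‖ = (Cfsg.charDegree χ : ℝ))).card ≤ (Finset.univ.filter (fun g : G => χ g = 0)).card ∧ ((∀ g : G, ‖χ g‖ = 0 ∨ ‖χ g‖ = 1 ∨ ‖χ g‖ = (Cfsg.charDegree χ : ℝ)) → (Cfsg.charDegree χ ^ 2 - 1) * (Finset.univ.filter (fun g : G => ‖χ g‖ = (Cfsg.charDegree χ : ℝ))).card = (Finset.univ.filter (fun g : G => χ g = 0)).card) := by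
  classical
  have hself := classInner_irr_self hχ
  obtain ⟨d, hd0, hd1⟩ := irr_apply_one hχ
  obtain ⟨n, ρ, hρ, rfl⟩ := hχ
  have hn : finrank ℂ (Fin n → ℂ) = d := by
    have h1 : ρ.character 1 = (finrank ℂ (Fin n → ℂ) : ℂ) := Representation.char_one ρ
    rw [hd1] at h1
    exact_mod_cast h1.symm
  have hdeg : Cfsg.charDegree ρ.character = d := by
    unfold Cfsg.charDegree
    rw [hd1]
    simp
  rw [hdeg]
  set Z := Finset.univ.filter (fun g : G => ‖ρ.character g‖ = (d : ℝ)) with hZ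
  set O := Finset.univ.filter (fun g : G => ρ.character g = 0) with hO
  -- the sum of squares
  have hsq : ∑ g : G, ‖ρ.character g‖ ^ 2 = (Fintype.card G : ℝ) := by
    unfold Cfsg.classInner at hself
    have h1 : ∑ g : G, ρ.character g * (starRingEnd ℂ) (ρ.character g)
        = ((∑ g : G, ‖ρ.character g‖ ^ 2 : ℝ) : ℂ) := by
      push_cast
      apply Finset.sum_congr rfl
      intro g _
      rw [Complex.mul_conj, Complex.normSq_eq_norm_sq]
      push_cast
      rfl
    rw [h1, Nat.card_eq_fintype_card] at hself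
    have hne : (Fintype.card G : ℂ) ≠ 0 := by exact_mod_cast Fintype.card_ne_zero
    have h2 : ((∑ g : G, ‖ρ.character g‖ ^ 2 : ℝ) : ℂ) = (Fintype.card G : ℂ) := by
      field_simp at hself
      exact hself
    exact_mod_cast h2
  have hge := sum_norm_sq_ge ρ (by rw [hn]; exact hd0)
  rw [hn, hsq] at hge
  have hd1' : 1 ≤ d ^ 2 := Nat.one_le_pow _ _ hd0
  constructor
  · have h3 : ((d : ℝ) ^ 2 - 1) * (Z.card : ℝ) ≤ (O.card : ℝ) := by linarith
    have h4 : (((d ^ 2 - 1) * Z.card : ℕ) : ℝ) ≤ ((O.card : ℕ) : ℝ) := by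
      push_cast [Nat.cast_sub hd1']
      exact h3
    exact_mod_cast h4
  · intro hall
    -- direct computation
    have hdR : (0 : ℝ) < (d : ℝ) := by exact_mod_cast hd0
    have hpt : ∀ g : G, ‖ρ.character g‖ ^ 2
        = (if g ∈ Z then ((d : ℝ) ^ 2 - 1) else 0) + 1 - (if g ∈ O then 1 else 0) := by
      intro g
      by_cases hgZ : g ∈ Z
      · have h1 : ‖ρ.character g‖ = (d : ℝ) := (Finset.mem_filter.mp hgZ).2
        have hgO : g ∉ O := by
          intro hgO
          have h2 : ρ.character g = 0 := (Finset.mem_filter.mp hgO).2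
          rw [h2, norm_zero] at h1
          exact hdR.ne' h1.symm
        rw [if_pos hgZ, if_neg hgO, h1]
        ring
      · have h1 : ‖ρ.character g‖ ≠ (d : ℝ) := fun h => hgZ (Finset.mem_filter.mpr ⟨Finset.mem_univ _, h⟩)
        by_cases hgO : g ∈ O
        · have h2 : ρ.character g = 0 := (Finset.mem_filter.mp hgO).2
          rw [if_neg hgZ, if_pos hgO, h2, norm_zero]
          ring
        · have h2 : ρ.character g ≠ 0 := fun h => hgO (Finset.mem_filter.mpr ⟨Finset.mem_univ _, h⟩)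
          rw [if_neg hgZ, if_neg hgO]
          rcases hall g with h | h | h
          · exact absurd (norm_eq_zero.mp h) h2
          · rw [h]
            ring
          · exact absurd h h1
    have hsum : ∑ g : G, ‖ρ.character g‖ ^ 2
        = ((d : ℝ) ^ 2 - 1) * (Z.card : ℝ) + (Fintype.card G : ℝ) - (O.card : ℝ) := by
      rw [Finset.sum_congr rfl (fun g _ => hpt g), Finset.sum_sub_distrib, Finset.sum_add_distrib,
        Finset.sum_ite_mem, Finset.sum_ite_mem, Finset.univ_inter, Finset.univ_inter,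
        Finset.sum_const, Finset.sum_const, Finset.sum_const, Finset.card_univ]
      simp only [nsmul_eq_mul, mul_one]
      ring
    rw [hsq] at hsum
    have h3 : ((d : ℝ) ^ 2 - 1) * (Z.card : ℝ) = (O.card : ℝ) := by linarith
    have h4 : (((d ^ 2 - 1) * Z.card : ℕ) : ℝ) = ((O.card : ℕ) : ℝ) := by
      push_cast [Nat.cast_sub hd1']
      exact h3
    exact_mod_cast h4

end Cfsg.Agent.S4574
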