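import Cfsg.Statements.S4585
import Mathlib
import Cfsg.Agent.S4584

set_option autoImplicit false
open Cfsg
open scoped commutatorElement

namespace Cfsg.Agent.S4585

open Cfsg.Agent.S4584

/-- A nilpotent group with cyclic abelianization has trivial commutator subgroup. -/
theorem commutator_eq_bot_of_cyclic {G : Type*} [Group G] [Group.IsNilpotent G]
    (hcyc : IsCyclic (G ⧸ commutator G)) : commutator G = ⊥ := by
  set N : Subgroup G := ⁅commutator G, (⊤ : Subgroup G)⁆ with hN
  have hNle : N ≤ commutator G := Subgroup.commutator_le_left _ _
  let f : G ⧸ N →* G ⧸ commutator G :=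
    QuotientGroup.map N (commutator G) (MonoidHom.id G) (by simpa using hNle)
  have hker : f.ker ≤ Subgroup.center (G ⧸ N) := by
    intro q hq
    obtain ⟨a, rfl⟩ := QuotientGroup.mk_surjective q
    have ha : a ∈ commutator G := by
      have h1 : f (a : G ⧸ N) = 1 := hq
      have h2 : f (a : G ⧸ N) = ((a : G) : G ⧸ commutator G) := by
        simp [f]
      rw [h2] at h1
      exact (QuotientGroup.eq_one_iff a).mp h1
    rw [Subgroup.mem_center_iff]
    intro r
    obtain ⟨g, rfl⟩ := QuotientGroup.mk_surjective r
    rw [← QuotientGroup.mk_mul, ← QuotientGroup.mk_mul, QuotientGroup.eq]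
    have h3 : (g * a)⁻¹ * (a * g) = ⁅a⁻¹, g⁻¹⁆ := by
      rw [commutatorElement_def]; group
    rw [h3]
    exact Subgroup.commutator_mem_commutator (inv_mem ha) (Subgroup.mem_top _)
  have hcomm := (f.isMulCommutative_of_isCyclic_of_ker_le_center hker).is_comm.comm
  have hle : commutator G ≤ N := by
    apply commutator_le_of_forall
    intro x y
    have h1 := hcomm ((y⁻¹ : G) : G ⧸ N) ((x⁻¹ : G) : G ⧸ N)
    rw [← QuotientGroup.mk_mul, ← QuotientGroup.mk_mul, QuotientGroup.eq] at h1
    have h3 : (y⁻¹ * x⁻¹)⁻¹ * (x⁻¹ * y⁻¹) = ⁅x, y⁆ := by
      rw [commutatorElement_def]; group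
    rw [h3] at h1
    exact h1
  have heq : N = commutator G := le_antisymm hNle hle
  have hall : ∀ n : ℕ, (⊤ : Subgroup G).lowerCentralSeries (n + 1) = commutator G := by
    intro n
    induction n with
    | zero => rfl
    | succ n ih =>
      rw [Subgroup.lowerCentralSeries_succ, ih]
      exact heq
  have hbot := Subgroup.lowerCentralSeries_nilpotencyClass (G := G)
  rcases Nat.eq_zero_or_pos (Group.nilpotencyClass G) with h0 | hpos
  · have hsub := Group.nilpotencyClass_zero_iff_subsingleton.mp h0
    exact Subsingleton.elim _ _
  · obtain ⟨m, hm⟩ := Nat.exists_eq_succ_of_ne_zero hpos.ne'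
    rw [hm, Nat.succ_eq_add_one, hall m] at hbot
    exact hbot

/-- A group of order `p ^ n` has nilpotency class at most `max 1 (n - 1)`. -/
theorem class_le (p : ℕ) [Fact p.Prime] : ∀ (n : ℕ) (P : Type*) [Group P] [Finite P],
    Nat.card P = p ^ n → Group.nilpotencyClass P ≤ max 1 (n - 1) := by
  have hp : p.Prime := Fact.out
  intro n
  induction n using Nat.strong_induction_on with
  | _ n ih =>
    intro P _ _ hP
    have hPG : IsPGroup p P := IsPGroup.of_card hP
    have : Group.IsNilpotent P := hPG.isNilpotent
    rcases Nat.lt_or_ge n 2 with hn | hn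
    · -- order 1 or p : cyclic, commutative
      have hcyc : IsCyclic P := by
        interval_cases n
        · have : Subsingleton P := (Nat.card_eq_one_iff_unique.mp (by simpa using hP)).1
          exact isCyclic_of_subsingleton
        · exact isCyclic_of_prime_card (by simpa using hP)
      have hc : IsMulCommutative P := ⟨⟨fun a b => by
        obtain ⟨g, hg⟩ := hcyc.exists_generator
        obtain ⟨i, rfl⟩ := Subgroup.mem_zpowers_iff.mp (hg a)
        obtain ⟨j, rfl⟩ := Subgroup.mem_zpowers_iff.mp (hg b)
        exact (Commute.zpow_zpow_self g i j).eq⟩⟩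
      exact (Group.IsNilpotent.nilpotencyClass_le_one_iff.mpr hc).trans (le_max_left _ _)
    · have : Nontrivial P := by
        rw [← Finite.one_lt_card_iff_nontrivial, hP]
        exact Nat.one_lt_pow (by omega) hp.one_lt
      obtain ⟨k, hkn, hk⟩ := card_sub hp hP (Subgroup.center P)
      have hk0 : k ≠ 0 := by
        intro h
        have hnt := IsPGroup.center_nontrivial hPG
        rw [Subgroup.nontrivial_iff_ne_bot] at hnt
        apply hnt
        rw [Subgroup.eq_bot_iff_card, hk, h, pow_zero]
      have hQ : Nat.card (P ⧸ Subgroup.center P) = p ^ (n - k) := by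
        rw [← Subgroup.index_eq_card]
        have := Subgroup.card_mul_index (Subgroup.center P)
        rw [hk, hP] at this
        have h4 : p ^ n = p ^ k * p ^ (n - k) := by
          rw [← pow_add]; congr 1; omega
        rw [h4] at this
        exact Nat.eq_of_mul_eq_mul_left (pow_pos hp.pos k) this
      have hrec := ih (n - k) (by omega) (P ⧸ Subgroup.center P) hQ
      rw [Group.nilpotencyClass_eq_quotient_center_plus_one]
      rcases Nat.lt_or_ge (n - k) 2 with h2 | h2
      · -- quotient of order 1 or p
        rcases Nat.eq_zero_or_pos (n - k) with h0 | h1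
        · have hsub : Subsingleton (P ⧸ Subgroup.center P) := by
            rw [h0, pow_zero] at hQ
            exact (Nat.card_eq_one_iff_unique.mp hQ).1
          have := Group.nilpotencyClass_zero_iff_subsingleton.mpr hsub
          rw [this]
          have : 1 ≤ max 1 (n - 1) := le_max_left _ _
          omega
        · have h11 : n - k = 1 := by omega
          rw [h11, pow_one] at hQ
          have : IsCyclic (P ⧸ Subgroup.center P) := isCyclic_of_prime_card hQ
          have hc := isMulCommutative_of_isCyclic_quotient_center_self P
          have htop := Subgroup.center_eq_top_iff.mpr hc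
          have hsub : Subsingleton (P ⧸ Subgroup.center P) := by
            rw [htop]
            exact QuotientGroup.subsingleton_quotient_top
          have := Group.nilpotencyClass_zero_iff_subsingleton.mpr hsub
          rw [this]
          have : 1 ≤ max 1 (n - 1) := le_max_left _ _
          omega
      · have h3 : max 1 (n - k - 1) = n - k - 1 := max_eq_right (by omega)
        rw [h3] at hrec
        have : n - 1 ≤ max 1 (n - 1) := le_max_right _ _
        omega

/-- Let p be a prime and P a group of order p^4. Then P' has index p^2 in P if and only if P has maximal nilpotency class, that is, nilpotency class exactly 3. -/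
theorem result {P : Type*} [Group P] [Finite P] (p : ℕ) [Fact p.Prime] (hP : Nat.card P = p ^ 4) :
    (commutator P).index = p ^ 2 ↔ Group.nilpotencyClass P = 3 := by
  have hp : p.Prime := Fact.out
  have hPG : IsPGroup p P := IsPGroup.of_card hP
  have : Group.IsNilpotent P := hPG.isNilpotent
  have hcl3 : Group.nilpotencyClass P ≤ 3 := by
    have := class_le p 4 P hP
    simpa using this
  -- class 3 iff commutator not central
  have hclass : Group.nilpotencyClass P = 3 ↔ ¬ (commutator P ≤ Subgroup.center P) := by
    have h2 : Group.nilpotencyClass P ≤ 2 ↔ commutator P ≤ Subgroup.center P := by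
      rw [← Subgroup.lowerCentralSeries_eq_bot_iff_nilpotencyClass_le]
      have : (⊤ : Subgroup P).lowerCentralSeries 2 = ⁅commutator P, (⊤ : Subgroup P)⁆ := rfl
      rw [this, Subgroup.commutator_eq_bot_iff_le_centralizer, Subgroup.coe_top,
        Subgroup.centralizer_univ]
    rw [← h2]
    omega
  rw [hclass]
  have hidx : (commutator P).index = p ^ 2 ↔ Nat.card (commutator P) = p ^ 2 := by
    have := Subgroup.card_mul_index (commutator P)
    rw [hP] at this
    have h4 : p ^ 4 = p ^ 2 * p ^ 2 := by ring
    constructor
    · intro h
      rw [h, h4] at this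
      exact Nat.eq_of_mul_eq_mul_right (pow_pos hp.pos 2) this
    · intro h
      rw [h, h4] at this
      exact Nat.eq_of_mul_eq_mul_left (pow_pos hp.pos 2) this
  rw [hidx]
  constructor
  · intro hc hle
    -- commutator of order p^2 inside the centre
    obtain ⟨k, hk4, hk⟩ := card_sub hp hP (Subgroup.center P)
    have hk2 : 2 ≤ k := by
      have := Subgroup.card_dvd_of_le hle
      rw [hc, hk] at this
      exact (Nat.pow_dvd_pow_iff_le_right hp.one_lt).mp this
    have hidxZ : (Subgroup.center P).index * p ^ k = p ^ 4 := by
      have := Subgroup.card_mul_index (Subgroup.center P)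
      rw [hk, hP] at this
      rw [mul_comm]; exact this
    have hne : commutator P ≠ ⊥ := by
      intro h
      rw [Subgroup.eq_bot_iff_card, hc] at h
      have := Nat.one_lt_pow (n := 2) (by norm_num) hp.one_lt
      omega
    have hZtop : Subgroup.center P ≠ ⊤ := by
      intro h
      apply hne
      rw [eq_bot_iff]
      apply commutator_le_of_forall
      intro x y
      rw [comm_eq_one_of_mem_center x y (by rw [h]; trivial)]
      exact one_mem _
    have hk4' : k ≠ 4 := by
      intro h
      apply hZtop
      rw [← Subgroup.card_eq_iff_eq_top, hk, h, hP]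
    have hk3 : k ≠ 3 := by
      intro h
      rw [h] at hidxZ
      have h4 : p ^ 4 = p * p ^ 3 := by ring
      rw [h4] at hidxZ
      have hi : (Subgroup.center P).index = p :=
        Nat.eq_of_mul_eq_mul_right (pow_pos hp.pos 3) hidxZ
      have hcomm := comm_of_center_index (A := P) (p := p) (Or.inr hi)
      apply hZtop
      rw [eq_top_iff]
      intro x _
      rw [Subgroup.mem_center_iff]
      intro g
      exact hcomm g x
    have hk2' : k = 2 := by omega
    rw [hk2'] at hidxZ
    have h4 : p ^ 4 = p ^ 2 * p ^ 2 := by ring
    rw [h4] at hidxZ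
    have hi : (Subgroup.center P).index = p ^ 2 :=
      Nat.eq_of_mul_eq_mul_right (pow_pos hp.pos 2) hidxZ
    have := backward p hP hi
    rw [hc] at this
    have hp2 := hp.two_le
    nlinarith
  · intro hnle
    obtain ⟨j, hj4, hj⟩ := card_sub hp hP (commutator P)
    have hj0 : j ≠ 0 := by
      intro h
      apply hnle
      have : commutator P = ⊥ := by rw [Subgroup.eq_bot_iff_card, hj, h, pow_zero]
      rw [this]; exact bot_le
    have hj1 : j ≠ 1 := by
      intro h
      apply hnle
      exact normal_prime_le_center hPG (commutator P) (by rw [hj, h, pow_one])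
    have hidxC : (commutator P).index * p ^ j = p ^ 4 := by
      have := Subgroup.card_mul_index (commutator P)
      rw [hj, hP] at this
      rw [mul_comm]; exact this
    have hbot_contra : commutator P = ⊥ → False := by
      intro h
      apply hnle
      rw [h]; exact bot_le
    have hj4' : j ≠ 4 := by
      intro h
      apply hbot_contra
      apply commutator_eq_bot_of_cyclic
      have htop : commutator P = ⊤ := by
        rw [← Subgroup.card_eq_iff_eq_top, hj, h, hP]
      have hsub : Subsingleton (P ⧸ commutator P) := by
        rw [htop]
        exact QuotientGroup.subsingleton_quotient_top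
      exact isCyclic_of_subsingleton
    have hj3 : j ≠ 3 := by
      intro h
      apply hbot_contra
      apply commutator_eq_bot_of_cyclic
      rw [h] at hidxC
      have h4 : p ^ 4 = p * p ^ 3 := by ring
      rw [h4] at hidxC
      have hi : (commutator P).index = p :=
        Nat.eq_of_mul_eq_mul_right (pow_pos hp.pos 3) hidxC
      have : Nat.card (P ⧸ commutator P) = p := by rw [← Subgroup.index_eq_card]; exact hi
      exact isCyclic_of_prime_card this
    have : j = 2 := by omega
    rw [hj, this]

end Cfsg.Agent.S4585
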