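import Cfsg.Statements.S4586
import Mathlib
import Cfsg.Agent.S4584

set_option autoImplicit false
open Cfsg
open scoped commutatorElement

namespace Cfsg.Agent.S4586

open Cfsg.Agent.S4584

/-- elements commuting with `b` modulo a normal subgroup -/
def commSub {P : Type*} [Group P] (K : Subgroup P) [K.Normal] (b : P) : Subgroup P where
  carrier := {a | ⁅a, b⁆ ∈ K}
  mul_mem' := by
    intro a a' ha ha'
    simp only [Set.mem_ofPred_eq] at *
    have h : ⁅a * a', b⁆ = a * ⁅a', b⁆ * a⁻¹ * ⁅a, b⁆ := by
      simp only [commutatorElement_def]; group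
    rw [h]
    exact K.mul_mem (Subgroup.Normal.conj_mem inferInstance _ ha' a) ha
  one_mem' := by simp
  inv_mem' := by
    intro a ha
    simp only [Set.mem_ofPred_eq] at *
    have h : ⁅a⁻¹, b⁆ = a⁻¹ * ⁅a, b⁆⁻¹ * a⁻¹⁻¹ := by
      simp only [commutatorElement_def]; group
    rw [h]
    exact Subgroup.Normal.conj_mem inferInstance _ (K.inv_mem ha) a⁻¹

theorem mem_commSub {P : Type*} [Group P] (K : Subgroup P) [K.Normal] (a b : P) :
    a ∈ commSub K b ↔ ⁅a, b⁆ ∈ K := Iff.rfl

theorem eq_top_of_index_prime {P : Type*} [Group P] {p : ℕ} (hp : p.Prime)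
    {N H : Subgroup P} (hN : N.index = p) (hle : N ≤ H) {x : P} (hx : x ∈ H) (hxN : x ∉ N) :
    H = ⊤ := by
  have h := Subgroup.relIndex_mul_index hle
  rw [hN] at h
  have hd : H.index ∣ p := Dvd.intro_left _ h
  rcases (Nat.dvd_prime hp).mp hd with h1 | h1
  · exact Subgroup.index_eq_one.mp h1
  · exfalso
    rw [h1] at h
    have h2 : N.relIndex H = 1 := by
      have : N.relIndex H * p = 1 * p := by rw [h, one_mul]
      exact Nat.eq_of_mul_eq_mul_right hp.pos this
    exact hxN (Subgroup.relIndex_eq_one.mp h2 hx)

theorem comm_swap_mem {P : Type*} [Group P] (K : Subgroup P) {a b : P} (h : ⁅a, b⁆ ∈ K) :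
    ⁅b, a⁆ ∈ K := by
  have : ⁅b, a⁆ = ⁅a, b⁆⁻¹ := by simp only [commutatorElement_def]; group
  rw [this]; exact K.inv_mem h

theorem commutator_le_of_gen {P : Type*} [Group P] {p : ℕ} (hp : p.Prime)
    (K : Subgroup P) [K.Normal] (N : Subgroup P) (hN : N.index = p) (x : P) (hxN : x ∉ N)
    (h1 : ∀ n ∈ N, ∀ m ∈ N, ⁅n, m⁆ ∈ K) (h2 : ∀ m ∈ N, ⁅x, m⁆ ∈ K) :
    commutator P ≤ K := by
  have s1 : ∀ m ∈ N, commSub K m = ⊤ := by
    intro m hm
    apply eq_top_of_index_prime hp hN (x := x) _ _ hxN
    · intro n hn
      exact h1 n hn m hm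
    · exact h2 m hm
  have s2 : commSub K x = ⊤ := by
    apply eq_top_of_index_prime hp hN (x := x) _ _ hxN
    · intro n hn
      exact comm_swap_mem K (h2 n hn)
    · rw [mem_commSub]; simp
  have s3 : ∀ b : P, commSub K b = ⊤ := by
    intro b
    apply eq_top_of_index_prime hp hN (x := x) _ _ hxN
    · intro n hn
      rw [mem_commSub]
      apply comm_swap_mem
      rw [← mem_commSub, s1 n hn]; trivial
    · rw [mem_commSub]
      apply comm_swap_mem
      rw [← mem_commSub, s2]; trivial
  apply commutator_le_of_forall
  intro a b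
  rw [← mem_commSub, s3 b]; trivial

theorem mem_normalizer_of_conj_mem {P : Type*} [Group P] [Finite P] (K : Subgroup P) (g : P)
    (h : ∀ k ∈ K, g * k * g⁻¹ ∈ K) : g ∈ Subgroup.normalizer (K : Set P) := by
  have hpow : ∀ (j : ℕ), ∀ k ∈ K, g ^ j * k * (g ^ j)⁻¹ ∈ K := by
    intro j
    induction j with
    | zero => intro k hk; simpa using hk
    | succ j ih =>
      intro k hk
      have := h _ (ih k hk)
      have e : g ^ (j + 1) * k * (g ^ (j + 1))⁻¹ = g * (g ^ j * k * (g ^ j)⁻¹) * g⁻¹ := by
        rw [pow_succ']; group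
      rw [e]; exact this
  have hinv : ∀ k ∈ K, g⁻¹ * k * g ∈ K := by
    intro k hk
    have hg : g⁻¹ = g ^ (orderOf g - 1) := by
      apply inv_eq_of_mul_eq_one_right
      rw [← pow_succ']
      have : orderOf g - 1 + 1 = orderOf g := Nat.sub_add_cancel (orderOf_pos g)
      rw [this, pow_orderOf_eq_one]
    have := hpow (orderOf g - 1) k hk
    rw [← hg] at this
    simpa using this
  rw [Subgroup.mem_normalizer_iff]
  intro k
  constructor
  · exact h k
  · intro hk
    have := hinv _ hk
    have e : g⁻¹ * (g * k * g⁻¹) * g = k := by group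
    rw [e] at this
    exact this

section main

variable {P : Type*} [Group P] (N : Subgroup P) [N.Normal] (x : P)

/-- conjugation by `x` on the normal subgroup `N` -/
def cx : N →* N := (MulAut.conjNormal x : MulAut N).toMonoidHom

theorem cx_coe (n : N) : ((cx N x n : N) : P) = x * n * x⁻¹ := by
  simp [cx]

/-- `n ↦ [x, n]` modulo the derived subgroup of `N` -/
def fhom : N →* Abelianization N :=
  (Abelianization.of.comp (cx N x)) / Abelianization.of

theorem fhom_apply (n : N) : fhom N x n = Abelianization.of (cx N x n * n⁻¹) := by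
  simp [fhom, div_eq_mul_inv]

theorem mem_ker_fhom (n : N) :
    n ∈ (fhom N x).ker ↔ x * n * x⁻¹ * (n : P)⁻¹ ∈ (commutator N).map N.subtype := by
  rw [MonoidHom.mem_ker, fhom_apply, ← MonoidHom.mem_ker, Abelianization.ker_of]
  constructor
  · intro h
    refine ⟨_, h, ?_⟩
    simp [cx_coe]
  · rintro ⟨y, hy, hyeq⟩
    have : y = cx N x n * n⁻¹ := by
      apply Subtype.ext
      rw [Subgroup.coe_mul, cx_coe]
      simpa using hyeq
    rw [← this]; exact hy

theorem fhom_cx (n : N) :
    fhom N x (cx N x n) = Abelianization.map (cx N x) (fhom N x n) := by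
  rw [fhom_apply, fhom_apply, Abelianization.map_of]
  congr 1
  rw [map_mul, map_inv]

theorem index_formula [Finite P] {p : ℕ} (hp : p.Prime) (hN : N.index = p) (hx : x ∉ N) :
    (commutator P).index * Nat.card (commutator N) = p * Nat.card (fhom N x).ker := by
  set R : Subgroup (Abelianization N) := (fhom N x).range with hR
  set D : Subgroup N := R.comap Abelianization.of with hD
  set K : Subgroup P := D.map N.subtype with hK
  have hcomm_le_D : commutator N ≤ D := by
    intro c hc
    rw [hD, Subgroup.mem_comap]
    rw [← Abelianization.ker_of, MonoidHom.mem_ker] at hc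
    rw [hc]; exact R.one_mem
  have hDn : D.Normal := by
    have : R.Normal := Subgroup.normal_of_isMulCommutative R
    exact Subgroup.Normal.comap this _
  have hcxD : ∀ d ∈ D, cx N x d ∈ D := by
    intro d hd
    rw [hD, Subgroup.mem_comap] at hd ⊢
    obtain ⟨n, hn⟩ := hd
    refine ⟨cx N x n, ?_⟩
    rw [fhom_cx, hn, Abelianization.map_of]
  have hKle : K ≤ N := Subgroup.map_subtype_le D
  have hKn : K.Normal := by
    rw [← Subgroup.normalizer_eq_top_iff]
    apply eq_top_of_index_prime hp hN (x := x) _ _ hx
    · rw [← Subgroup.normal_subgroupOf_iff_le_normalizer hKle]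
      have : K.subgroupOf N = D := by
        rw [hK]
        ext n
        rw [Subgroup.mem_subgroupOf]
        constructor
        · rintro ⟨d, hd, hdn⟩
          have : d = n := Subtype.ext hdn
          rw [← this]; exact hd
        · intro hn
          exact ⟨n, hn, rfl⟩
      rw [this]; exact hDn
    · apply mem_normalizer_of_conj_mem
      rintro _ ⟨d, hd, rfl⟩
      refine ⟨cx N x d, hcxD d hd, ?_⟩
      simp [cx_coe]
  have h1 : commutator P ≤ K := by
    apply commutator_le_of_gen hp K N hN x hx
    · intro n hn m hm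
      refine ⟨⁅(⟨n, hn⟩ : N), (⟨m, hm⟩ : N)⁆, ?_, ?_⟩
      · apply hcomm_le_D
        exact Subgroup.commutator_mem_commutator (Subgroup.mem_top _) (Subgroup.mem_top _)
      · simp [commutatorElement_def]
    · intro m hm
      refine ⟨cx N x ⟨m, hm⟩ * (⟨m, hm⟩ : N)⁻¹, ?_, ?_⟩
      · change Abelianization.of _ ∈ R
        rw [← fhom_apply]
        exact ⟨_, rfl⟩
      · simp [commutatorElement_def, cx_coe]
  have h2 : K ≤ commutator P := by
    rintro _ ⟨d, hd, rfl⟩
    have hd' : Abelianization.of d ∈ R := hd
    obtain ⟨n, hn⟩ := hd'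
    rw [fhom_apply] at hn
    have hc : (cx N x n * n⁻¹)⁻¹ * d ∈ commutator N := by
      rw [← Abelianization.ker_of, MonoidHom.mem_ker, map_mul, map_inv, hn]
      simp
    have hcP : ∀ c ∈ commutator N, (c : P) ∈ commutator P := by
      intro c hc
      have : (commutator N).map N.subtype ≤ commutator P := by
        rw [commutator_def, Subgroup.map_commutator, commutator_def]
        exact Subgroup.commutator_mono le_top le_top
      exact this ⟨c, hc, rfl⟩
    have hd' : (d : P) = ⁅x, (n : P)⁆ * (((cx N x n * n⁻¹)⁻¹ * d : N) : P) := by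
      rw [commutatorElement_def]
      simp only [Subgroup.coe_mul, Subgroup.coe_inv, cx_coe]
      group
    change (d : P) ∈ commutator P
    rw [hd']
    refine (commutator P).mul_mem ?_ (hcP _ hc)
    exact Subgroup.commutator_mem_commutator (Subgroup.mem_top _) (Subgroup.mem_top _)
  have hKeq : commutator P = K := le_antisymm h1 h2
  have hsurj : Function.Surjective (Abelianization.of : N →* Abelianization N) :=
    QuotientGroup.mk_surjective
  have i1 : K.index = R.index * p := by
    rw [hK, Subgroup.index_map_subtype, hN, hD, Subgroup.index_comap_of_surjective R hsurj]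
  have i2 : R.index * Nat.card R = Nat.card (Abelianization N) := Subgroup.index_mul_card R
  have i3 : Nat.card R = (fhom N x).ker.index := (Subgroup.index_ker (fhom N x)).symm
  have i4 : Nat.card (Abelianization N) = (commutator N).index :=
    (Subgroup.index_eq_card (commutator N)).symm
  have i5 := Subgroup.index_mul_card (commutator N)
  have i6 := Subgroup.index_mul_card (fhom N x).ker
  have hNpos : 0 < Nat.card N := Nat.card_pos
  rw [hKeq, i1]
  rw [i3, i4] at i2
  have : R.index * Nat.card (commutator N) = Nat.card (fhom N x).ker := by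
    have e : (R.index * Nat.card (commutator N)) * Nat.card N
        = Nat.card (fhom N x).ker * Nat.card N := by
      calc (R.index * Nat.card (commutator N)) * Nat.card N
          = (R.index * Nat.card (commutator N)) *
              ((fhom N x).ker.index * Nat.card (fhom N x).ker) := by rw [i6]
        _ = (R.index * (fhom N x).ker.index) * Nat.card (commutator N)
              * Nat.card (fhom N x).ker := by ring
        _ = (commutator N).index * Nat.card (commutator N) * Nat.card (fhom N x).ker := by
              rw [i2]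
        _ = Nat.card (fhom N x).ker * Nat.card N := by rw [i5]; ring
    exact Nat.eq_of_mul_eq_mul_right hNpos e
  calc R.index * p * Nat.card (commutator N) = p * (R.index * Nat.card (commutator N)) := by ring
    _ = p * Nat.card (fhom N x).ker := by rw [this]

end main

/-- Let p be a prime, P a finite p-group and N a normal subgroup of P of index p. For x ∈ P write c(x) for the number of elements n of N whose commutator x n x⁻¹ n⁻¹ lies in the derived subgroup N' (so c(x)/#N' is the order of the centralizer of x acting on N/N'). Then [P : P'] = p² if and only if c(x) = p·#N' for every x ∈ P outside N, and also if and only if c(x) = p·#N' for some x ∈ P outside N. -/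
theorem result {P : Type*} [Group P] [Finite P] (p : ℕ) [Fact p.Prime] (hP : IsPGroup p P) (N : Subgroup P) [N.Normal] (hN : N.index = p) :
    ((commutator P).index = p ^ 2 ↔ ∀ x : P, x ∉ N →
        Nat.card {n : N // x * n * x⁻¹ * (n : P)⁻¹ ∈ (commutator N).map N.subtype} = p * Nat.card (commutator N)) ∧
    ((commutator P).index = p ^ 2 ↔ ∃ x : P, x ∉ N ∧
        Nat.card {n : N // x * n * x⁻¹ * (n : P)⁻¹ ∈ (commutator N).map N.subtype} = p * Nat.card (commutator N)) := by
  have hp : p.Prime := Fact.out
  have hcard : ∀ x : P,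
      Nat.card {n : N // x * n * x⁻¹ * (n : P)⁻¹ ∈ (commutator N).map N.subtype}
        = Nat.card (fhom N x).ker := by
    intro x
    exact Nat.card_congr (Equiv.subtypeEquivRight (fun n => (mem_ker_fhom N x n).symm))
  have hCpos : 0 < Nat.card (commutator N) := Nat.card_pos
  have key : ∀ x : P, x ∉ N → ((commutator P).index = p ^ 2 ↔
      Nat.card {n : N // x * n * x⁻¹ * (n : P)⁻¹ ∈ (commutator N).map N.subtype}
        = p * Nat.card (commutator N)) := by
    intro x hx
    rw [hcard x]
    have hf := index_formula N x hp hN hx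
    constructor
    · intro h
      rw [h] at hf
      have : p * (p * Nat.card (commutator N)) = p * Nat.card (fhom N x).ker := by
        rw [← hf]; ring
      exact (Nat.eq_of_mul_eq_mul_left hp.pos this).symm
    · intro h
      rw [h] at hf
      have : (commutator P).index * Nat.card (commutator N) = p ^ 2 * Nat.card (commutator N) := by
        rw [hf]; ring
      exact Nat.eq_of_mul_eq_mul_right hCpos this
  have hex : ∃ x : P, x ∉ N := by
    by_contra hcon
    push Not at hcon
    have : N = ⊤ := by
      rw [eq_top_iff]; intro y _; exact hcon y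
    rw [this, Subgroup.index_top] at hN
    exact hp.one_lt.ne hN
  refine ⟨⟨fun h x hx => (key x hx).mp h, fun h => ?_⟩, ⟨fun h => ?_, fun h => ?_⟩⟩
  · obtain ⟨x, hx⟩ := hex
    exact (key x hx).mpr (h x hx)
  · obtain ⟨x, hx⟩ := hex
    exact ⟨x, hx, (key x hx).mp h⟩
  · obtain ⟨x, hx, hc⟩ := h
    exact (key x hx).mpr hc

end Cfsg.Agent.S4586
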