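import Cfsg.Statements.S4602
import Cfsg.Agent.Lib.Helper6.PSolv3
import Cfsg.Agent.Lib.Helper17.PCore

set_option autoImplicit false
open Cfsg

namespace Cfsg.Agent.S4602

open Cfsg.Agent.Lib.Helper6

/-- An element whose order divides a power of `p` and a power of `q ≠ p` is trivial. -/
theorem eq_one_of_two_primes {X : Type*} [Group X] {p q : ℕ} (hp : p.Prime) (hq : q.Prime)
    (hpq : p ≠ q) (c : X) (k j : ℕ) (h1 : c ^ p ^ k = 1) (h2 : c ^ q ^ j = 1) : c = 1 := by
  have hcop : Nat.Coprime (p ^ k) (q ^ j) :=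
    Nat.Coprime.pow k j ((Nat.coprime_primes hp hq).mpr hpq)
  exact orderOf_eq_one_iff.mp (Nat.eq_one_of_dvd_coprimes hcop (orderOf_dvd_of_pow_eq_one h1)
    (orderOf_dvd_of_pow_eq_one h2))

theorem forward {G : Type*} [Group G] [Finite G] (p q : ℕ) [Fact p.Prime] [Fact q.Prime]
    (hpq : p ≠ q) (hsolv : Cfsg.IsPSolvable p G) (P : Sylow p G) (Q : Sylow q G)
    (hPQ : (P : Subgroup G) ≤ Subgroup.normalizer ((Q : Subgroup G) : Set G)) :
    ¬ q ∣ (Cfsg.pPrimeCore p G).index := by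
  have hpp : p.Prime := Fact.out
  have hqp : q.Prime := Fact.out
  have hsolv' : Cfsg.IsPSolvable p (G ⧸ Cfsg.pPrimeCore p G) :=
    isPSolvable_quotient hpp (Cfsg.pPrimeCore p G) hsolv
  have hO : Cfsg.pPrimeCore p (G ⧸ Cfsg.pPrimeCore p G) = ⊥ :=
    pPrimeCore_quotient_pPrimeCore_eq_bot
  have hHH := centralizer_pCore_le_of_isPSolvable hsolv' hO
  obtain ⟨π, hπ⟩ : ∃ π : G →* G ⧸ Cfsg.pPrimeCore p G,
      π = QuotientGroup.mk' (Cfsg.pPrimeCore p G) := ⟨_, rfl⟩
  have hπs : Function.Surjective π := by rw [hπ]; exact QuotientGroup.mk'_surjective _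
  have hRn : (Cfsg.pCore p (G ⧸ Cfsg.pPrimeCore p G)).Normal :=
    Cfsg.Agent.Lib.Helper17.pCore_normal
  have hRP : ∀ r ∈ Cfsg.pCore p (G ⧸ Cfsg.pPrimeCore p G), ∃ x ∈ (P : Subgroup G), π x = r := by
    intro r hr
    have h1 := Cfsg.Agent.Lib.Helper17.pCore_le_sylow (P.mapSurjective hπs) hr
    rw [Sylow.coe_mapSurjective] at h1
    exact Subgroup.mem_map.mp h1
  have hQbar : IsPGroup q ((Q : Subgroup G).map π) := Q.isPGroup'.map π
  have hone : ∀ c : G ⧸ Cfsg.pPrimeCore p G, c ∈ Cfsg.pCore p (G ⧸ Cfsg.pPrimeCore p G) →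
      c ∈ (Q : Subgroup G).map π → c = 1 := by
    intro c hc1 hc2
    obtain ⟨k, hk⟩ := exists_pow_eq_one_of_mem_pCore hc1
    obtain ⟨j, hj⟩ := hQbar ⟨c, hc2⟩
    have hj' : c ^ q ^ j = 1 := congrArg Subtype.val hj
    exact eq_one_of_two_primes hpp hqp hpq c k j hk hj'
  have hQK : (Q : Subgroup G) ≤ Cfsg.pPrimeCore p G := by
    intro y hy
    have hy' : π y ∈ (Q : Subgroup G).map π := Subgroup.mem_map_of_mem π hy
    have hcent : π y ∈ Subgroup.centralizer
        (Cfsg.pCore p (G ⧸ Cfsg.pPrimeCore p G) : Set (G ⧸ Cfsg.pPrimeCore p G)) := by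
      rw [Subgroup.mem_centralizer_iff]
      intro r hr
      obtain ⟨x, hx, hxr⟩ := hRP r hr
      have h1 : r * π y * r⁻¹ * (π y)⁻¹ ∈ (Q : Subgroup G).map π := by
        have h2 : x * y * x⁻¹ ∈ (Q : Subgroup G) :=
          (Subgroup.mem_normalizer_iff.mp (hPQ hx) y).mp hy
        have h3 : r * π y * r⁻¹ * (π y)⁻¹ = π (x * y * x⁻¹ * y⁻¹) := by
          rw [map_mul, map_mul, map_mul, map_inv, map_inv, hxr]
        rw [h3]
        exact Subgroup.mem_map_of_mem π (Subgroup.mul_mem _ h2 (Subgroup.inv_mem _ hy))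
      have h4 : r * π y * r⁻¹ * (π y)⁻¹ ∈ Cfsg.pCore p (G ⧸ Cfsg.pPrimeCore p G) := by
        have h5 := hRn.conj_mem r⁻¹ (Subgroup.inv_mem _ hr) (π y)
        have h6 := Subgroup.mul_mem _ hr h5
        have h7 : r * π y * r⁻¹ * (π y)⁻¹ = r * (π y * r⁻¹ * (π y)⁻¹) := by group
        rw [h7]
        exact h6
      have h8 := hone _ h4 h1
      calc r * π y = (r * π y * r⁻¹ * (π y)⁻¹) * (π y * r) := by group
        _ = π y * r := by rw [h8, one_mul]
    have h9 := hone (π y) (hHH hcent) hy'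
    rw [hπ] at h9
    exact (QuotientGroup.eq_one_iff y).mp h9
  intro hdvd
  exact Q.not_dvd_index (hdvd.trans (Subgroup.index_dvd_of_le hQK))

theorem backward {G : Type*} [Group G] [Finite G] (p q : ℕ) [Fact p.Prime] [Fact q.Prime]
    (h : ¬ q ∣ (Cfsg.pPrimeCore p G).index) :
    ∃ (P : Sylow p G) (Q : Sylow q G),
      (P : Subgroup G) ≤ Subgroup.normalizer ((Q : Subgroup G) : Set G) := by
  have hpp : p.Prime := Fact.out
  have hqp : q.Prime := Fact.out
  obtain ⟨Q⟩ : Nonempty (Sylow q G) := inferInstance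
  have hQK : (Q : Subgroup G) ≤ Cfsg.pPrimeCore p G := by
    intro y hy
    rw [← QuotientGroup.eq_one_iff]
    obtain ⟨j, hj⟩ := (IsPGroup.iff_orderOf.mp Q.isPGroup') ⟨y, hy⟩
    rw [Subgroup.orderOf_mk] at hj
    have h1 : orderOf (QuotientGroup.mk y : G ⧸ Cfsg.pPrimeCore p G) ∣ q ^ j := by
      rw [← hj]
      exact orderOf_map_dvd (QuotientGroup.mk' (Cfsg.pPrimeCore p G)) y
    have h2 : orderOf (QuotientGroup.mk y : G ⧸ Cfsg.pPrimeCore p G) ∣
        (Cfsg.pPrimeCore p G).index := by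
      rw [Subgroup.index_eq_card]
      exact orderOf_dvd_natCard _
    have hcop : Nat.Coprime (q ^ j) (Cfsg.pPrimeCore p G).index :=
      Nat.Coprime.pow_left j ((Nat.Prime.coprime_iff_not_dvd hqp).mpr h)
    exact orderOf_eq_one_iff.mp (Nat.eq_one_of_dvd_coprimes hcop h1 h2)
  have hsup : Subgroup.normalizer ((Q : Subgroup G) : Set G) ⊔ Cfsg.pPrimeCore p G = ⊤ :=
    Sylow.normalizer_sup_eq_top' Q hQK
  have hidx : (Cfsg.pPrimeCore p G).index ∣
      Nat.card (Subgroup.normalizer ((Q : Subgroup G) : Set G)) := by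
    have h1 := Subgroup.relIndex_sup_right (H := Subgroup.normalizer ((Q : Subgroup G) : Set G))
      (K := Cfsg.pPrimeCore p G)
    rw [hsup, Subgroup.relIndex_top_right] at h1
    rw [h1]
    exact Subgroup.relIndex_dvd_card _ _
  obtain ⟨PL⟩ : Nonempty (Sylow p ↥(Subgroup.normalizer ((Q : Subgroup G) : Set G))) :=
    inferInstance
  have hH : IsPGroup p ((PL : Subgroup ↥(Subgroup.normalizer ((Q : Subgroup G) : Set G))).map
      (Subgroup.normalizer ((Q : Subgroup G) : Set G)).subtype) := PL.isPGroup'.map _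
  obtain ⟨P, hP⟩ := hH.exists_le_sylow
  refine ⟨P, Q, ?_⟩
  have hpk : p ^ (Nat.card G).factorization p ∣
      Nat.card (Subgroup.normalizer ((Q : Subgroup G) : Set G)) := by
    have h1 : p ^ (Nat.card G).factorization p ∣
        Nat.card (Cfsg.pPrimeCore p G) * (Cfsg.pPrimeCore p G).index := by
      rw [Subgroup.card_mul_index]
      exact Nat.ordProj_dvd _ _
    have hcop : Nat.Coprime (p ^ (Nat.card G).factorization p)
        (Nat.card (Cfsg.pPrimeCore p G)) :=
      Nat.Coprime.pow_left _ (Cfsg.Agent.Lib.Helper14.pPrimeCore_coprime p).symm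
    exact (hcop.dvd_of_dvd_mul_left h1).trans hidx
  have h2 : p ^ (Nat.card G).factorization p ∣ Nat.card PL :=
    PL.pow_dvd_card_of_pow_dvd_card hpk
  have hcardH : Nat.card ((PL : Subgroup ↥(Subgroup.normalizer ((Q : Subgroup G) : Set G))).map
      (Subgroup.normalizer ((Q : Subgroup G) : Set G)).subtype) = Nat.card PL :=
    Subgroup.card_map_of_injective (Subgroup.subtype_injective _)
  have hEq : (PL : Subgroup ↥(Subgroup.normalizer ((Q : Subgroup G) : Set G))).map
      (Subgroup.normalizer ((Q : Subgroup G) : Set G)).subtype = (P : Subgroup G) := by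
    apply Subgroup.eq_of_le_of_card_ge hP
    rw [hcardH, P.card_eq_multiplicity]
    exact Nat.le_of_dvd Nat.card_pos h2
  rw [← hEq]
  exact Subgroup.map_subtype_le _

/-- Let G be a finite p-solvable group and q a prime different from p. Some Sylow p-subgroup of G normalizes some Sylow q-subgroup of G if and only if q does not divide the order of G/O_{p'}(G), the quotient by the largest normal subgroup of order prime to p. -/
theorem result {G : Type*} [Group G] [Finite G] (p q : ℕ) [Fact p.Prime] [Fact q.Prime] (hpq : p ≠ q) (hsolv : Cfsg.IsPSolvable p G) :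
    (∃ (P : Sylow p G) (Q : Sylow q G), (P : Subgroup G) ≤ Subgroup.normalizer ((Q : Subgroup G) : Set G)) ↔ ¬ q ∣ (Cfsg.pPrimeCore p G).index := by
  constructor
  · rintro ⟨P, Q, hPQ⟩
    exact forward p q hpq hsolv P Q hPQ
  · intro h
    exact backward p q h

end Cfsg.Agent.S4602
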