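import Cfsg.Statements.S4604
import Cfsg.Agent.Lib.Helper2.CharBasic
import Cfsg.Agent.Lib.Helper2.CharOrtho
import Cfsg.Agent.Lib.Helper25.MinMax
import Cfsg.Agent.Lib.Helper25.Codegree
import Cfsg.Agent.Lib.Helper25.Local

set_option autoImplicit false
open Cfsg

namespace Cfsg.Agent.S4604

open Cfsg.Agent.Lib.Helper2 Cfsg.Agent.Lib.Helper25


theorem sum_frob {A : Type*} [CommRing A] (p : ℕ) [hp : Fact p.Prime] (n : ℕ) {ι : Type*}
    (s : Finset ι) (f : ι → A) (c : ι → ℕ) :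
    (∑ i ∈ s, f i * (c i : A)) ^ (p ^ n) - ∑ i ∈ s, f i ^ (p ^ n) * (c i : A)
      ∈ Ideal.span {(p : A)} := by
  by_cases htop : Ideal.span {(p : A)} = ⊤
  · rw [htop]; trivial
  · have hnu : (p : A) ∈ nonunits A := by
      intro hu
      exact htop (Ideal.span_singleton_eq_top.2 hu)
    have hch : CharP (A ⧸ Ideal.span {(p : A)}) p := CharP.quotient A p hnu
    have hex : ExpChar (A ⧸ Ideal.span {(p : A)}) p := ExpChar.prime hp.out
    rw [← Ideal.Quotient.eq]
    simp only [map_pow, map_sum, map_mul, map_natCast]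
    rw [sum_pow_char_pow]
    apply Finset.sum_congr rfl
    intro i _
    rw [mul_pow]
    congr 1
    exact (map_natCast (iterateFrobenius (A ⧸ Ideal.span {(p : A)}) p n) (c i))

theorem char_frob {G : Type*} [Group G] [Finite G] (p : ℕ) [Fact p.Prime] (χ : IrrCharacter G)
    (g : G) (n : ℕ) :
    ∃ γ : AlgInt, (χ : G → ℂ) g ^ (p ^ n) - (χ : G → ℂ) (g ^ (p ^ n)) = (p : ℂ) * (γ : ℂ) := by
  classical
  obtain ⟨m, ρ, hρ, hχ⟩ := χ.2
  rw [← hχ, char_eq_sum, char_pow_eq_sum]
  have hint : ∀ μ ∈ eigSet (ρ g), IsIntegral ℤ μ := by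
    intro μ hμ
    refine IsIntegral.of_pow (orderOf_pos g) ?_
    rw [eig_pow ρ g hμ]
    exact isIntegral_one
  let f : ℂ → AlgInt := fun μ => if h : IsIntegral ℤ μ then ⟨μ, h⟩ else 0
  have hf : ∀ μ ∈ eigSet (ρ g), ((f μ : AlgInt) : ℂ) = μ := by
    intro μ hμ
    simp only [f, dif_pos (hint μ hμ)]
  have h1 := sum_frob (A := AlgInt) p n (eigSet (ρ g)) f (fun μ => eigMult ρ g μ)
  obtain ⟨γ, hγ⟩ := Ideal.mem_span_singleton'.1 h1
  refine ⟨γ, ?_⟩
  have h2 := congrArg (fun z : AlgInt => (z : ℂ)) hγ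
  beta_reduce at h2
  push_cast at h2
  have h3 : (p : ℂ) * (γ : ℂ) = (γ : ℂ) * (p : ℂ) := mul_comm _ _
  rw [h3, h2]
  congr 1
  · congr 1
    exact Finset.sum_congr rfl (fun μ hμ => by rw [hf μ hμ])
  · exact Finset.sum_congr rfl (fun μ hμ => by rw [hf μ hμ])

theorem pow_reg {G : Type*} [Group G] [Finite G] (p : ℕ) [hp : Fact p.Prime] (x x' : G)
    (hx : (∃ k : ℕ, orderOf (x * x'⁻¹) = p ^ k) ∧ Commute (x * x'⁻¹) x' ∧ ¬ p ∣ orderOf x') :
    x ^ (p ^ (Nat.card G).factorization p) = x' ^ (p ^ (Nat.card G).factorization p) := by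
  obtain ⟨⟨k, hk⟩, hc, -⟩ := hx
  have h1 : (x * x'⁻¹) ^ (p ^ (Nat.card G).factorization p) = 1 := by
    apply orderOf_dvd_iff_pow_eq_one.1
    rw [hk]
    apply Nat.pow_dvd_pow
    have h2 : p ^ k ∣ Nat.card G := hk ▸ orderOf_dvd_natCard _
    exact (hp.out.pow_dvd_iff_le_factorization Nat.card_pos.ne').1 h2
  have h3 : x = (x * x'⁻¹) * x' := by group
  conv_lhs => rw [h3]
  rw [hc.mul_pow, h1, one_mul]

theorem eq_one_of_reg {G : Type*} [Group G] (p : ℕ) [hp : Fact p.Prime] (u s : G)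
    (hu : ∃ k, orderOf u = p ^ k) (hc : Commute u s) (hs : ¬ p ∣ orderOf s)
    (hus : ¬ p ∣ orderOf (u * s)) : u = 1 := by
  obtain ⟨k, hk⟩ := hu
  have h1 : u ^ (orderOf s * orderOf (u * s)) = 1 := by
    have h2 : (u * s) ^ (orderOf s * orderOf (u * s)) = 1 := by
      rw [mul_comm, pow_mul, pow_orderOf_eq_one, one_pow]
    rw [hc.mul_pow] at h2
    rwa [pow_mul s, pow_orderOf_eq_one, one_pow, mul_one] at h2
  have h3 : orderOf u ∣ orderOf s * orderOf (u * s) := orderOf_dvd_of_pow_eq_one h1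
  rw [hk] at h3
  rcases Nat.eq_zero_or_pos k with rfl | hkpos
  · rw [pow_zero] at hk; exact orderOf_eq_one_iff.1 hk
  · exfalso
    have h4 : p ∣ orderOf s * orderOf (u * s) := dvd_trans (dvd_pow_self p hkpos.ne') h3
    rcases (hp.out.dvd_mul).1 h4 with h | h
    · exact hs h
    · exact hus h

theorem conj_of_congr {G : Type*} [Group G] [Finite G] (p : ℕ) [hp : Fact p.Prime] (s t : G)
    (hs : ¬ p ∣ orderOf s) (ht : ¬ p ∣ orderOf t)
    (h : ∀ χ : IrrCharacter G, ∃ γ : AlgInt,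
      (χ : G → ℂ) s - (χ : G → ℂ) t = (p : ℂ) * (γ : ℂ)) :
    IsConj s t := by
  classical
  by_contra hnc
  have := Fintype.ofFinite G
  have := Fintype.ofFinite (IrrCharacter G)
  obtain ⟨M, hM⟩ := exists_isPModular p hp.out
  let C : Subgroup G := Subgroup.centralizer {s}
  let P0 : Sylow p C := default
  let P : Subgroup G := (P0 : Subgroup C).map C.subtype
  have hPc : ∀ u ∈ P, u * s = s * u := by
    rintro u ⟨v, hv, rfl⟩
    exact (Subgroup.mem_centralizer_iff.1 v.2 s (Set.mem_singleton s)).symm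
  have hPp : ∀ u ∈ P, ∃ k, orderOf u = p ^ k := by
    rintro u ⟨v, hv, rfl⟩
    obtain ⟨k, hk⟩ := IsPGroup.iff_orderOf.1 P0.2 ⟨v, hv⟩
    refine ⟨k, ?_⟩
    rw [← hk, Subgroup.coe_subtype, Subgroup.orderOf_coe]
    exact Subgroup.orderOf_coe (⟨v, hv⟩ : (P0 : Subgroup C))
  set c : ℂ := (Nat.card P : ℂ) with hcdef
  have hc0 : c ≠ 0 := by
    have : 0 < Nat.card P := Nat.card_pos
    rw [hcdef]
    exact_mod_cast this.ne'
  let a : IrrCharacter G → ℂ :=
    fun χ => c⁻¹ * ∑ u : P, (starRingEnd ℂ) ((χ : G → ℂ) ((u : G) * s))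
  have ha : ∀ χ, IsIntegral ℤ (a χ) := by
    intro χ
    obtain ⟨m, ρ, hρ, hχ⟩ := χ.2
    have h1 := avg_char_isIntegral ρ P s hPc
    have h2 := map_isIntegral_int (starRingEnd ℂ) h1
    have e : a χ = (starRingEnd ℂ) ((Nat.card P : ℂ)⁻¹ * ∑ u : P, ρ.character ((u : G) * s)) := by
      simp only [a, map_mul, map_sum, map_inv₀, map_natCast, hχ, hcdef]
    rw [e]
    exact h2
  have key : ∀ g : G, ¬ p ∣ orderOf g →
      ∑ χ : IrrCharacter G, a χ * (χ : G → ℂ) g = c⁻¹ * colFun s g := by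
    intro g hg
    have e1 : ∑ χ : IrrCharacter G, a χ * (χ : G → ℂ) g
        = c⁻¹ * ∑ u : P, colFun ((u : G) * s) g := by
      rw [Finset.mul_sum]
      calc ∑ χ : IrrCharacter G, a χ * (χ : G → ℂ) g
          = ∑ χ : IrrCharacter G, ∑ u : P,
              c⁻¹ * ((χ : G → ℂ) g * (starRingEnd ℂ) ((χ : G → ℂ) ((u : G) * s))) := by
            apply Finset.sum_congr rfl
            intro χ _
            simp only [a]
            rw [Finset.mul_sum, Finset.sum_mul]
            apply Finset.sum_congr rfl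
            intro u _
            ring
        _ = ∑ u : P, ∑ χ : IrrCharacter G,
              c⁻¹ * ((χ : G → ℂ) g * (starRingEnd ℂ) ((χ : G → ℂ) ((u : G) * s))) :=
            Finset.sum_comm
        _ = ∑ u : P, c⁻¹ * colFun ((u : G) * s) g := by
            apply Finset.sum_congr rfl
            intro u _
            rw [← Finset.mul_sum, column_orthogonality]
    rw [e1]
    congr 1
    rw [Finset.sum_eq_single (1 : P)]
    · simp
    · intro u _ hu1
      unfold colFun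
      apply Finset.sum_eq_zero
      intro x _
      rw [if_neg]
      intro hxg
      apply hu1
      have ho : orderOf (x * g * x⁻¹) = orderOf g := (MulAut.conj x).orderOf_eq g
      have hu := eq_one_of_reg p (u : G) s (hPp u u.2) (show Commute (u : G) s from hPc u u.2) hs
        (by rw [← hxg, ho]; exact hg)
      exact Subtype.ext hu
    · intro h
      exact absurd (Finset.mem_univ _) h
  have hss : colFun s s = (Nat.card C : ℂ) := by
    unfold colFun
    rw [Finset.sum_boole]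
    congr 1
    refine (Nat.subtype_card _ (fun x => ?_)).symm
    simp only [Finset.mem_filter, Finset.mem_univ, true_and, C]
    rw [Subgroup.mem_centralizer_singleton_iff, mul_inv_eq_iff_eq_mul, eq_comm]
  have hst : colFun s t = 0 := by
    unfold colFun
    apply Finset.sum_eq_zero
    intro x _
    rw [if_neg]
    intro hx
    apply hnc
    exact isConj_iff.2 ⟨x⁻¹, by rw [← hx]; group⟩
  choose γ hγ using h
  have h1 : ∑ χ : IrrCharacter G, a χ * ((χ : G → ℂ) s - (χ : G → ℂ) t)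
      = c⁻¹ * (Nat.card C : ℂ) := by
    simp only [mul_sub, Finset.sum_sub_distrib]
    rw [key s hs, key t ht, hss, hst]
    ring
  have h2 : ∑ χ : IrrCharacter G, a χ * ((χ : G → ℂ) s - (χ : G → ℂ) t)
      = (p : ℂ) * ∑ χ : IrrCharacter G, a χ * (γ χ : ℂ) := by
    rw [Finset.mul_sum]
    apply Finset.sum_congr rfl
    intro χ _
    rw [hγ χ]
    ring
  have hδ : IsIntegral ℤ (∑ χ : IrrCharacter G, a χ * (γ χ : ℂ)) :=
    IsIntegral.sum _ (fun χ _ => (ha χ).mul (γ χ).2)
  have hidx : c⁻¹ * (Nat.card C : ℂ) = ((P0 : Subgroup C).index : ℂ) := by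
    have e : Nat.card C = Nat.card P * (P0 : Subgroup C).index := by
      rw [← Subgroup.card_mul_index (P0 : Subgroup C)]
      congr 1
      exact Nat.card_congr
        ((P0 : Subgroup C).equivMapOfInjective C.subtype C.subtype_injective).toEquiv
    rw [e, hcdef]
    push_cast
    field_simp
  have hmem : (((P0 : Subgroup C).index : ℕ) : AlgInt) ∈ M := by
    have e : (((P0 : Subgroup C).index : ℕ) : AlgInt) = (p : AlgInt) * ⟨_, hδ⟩ := by
      apply Subtype.ext
      push_cast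
      rw [← hidx, ← h1, h2]
    rw [e]
    exact M.mul_mem_right _ hM.2.2
  exact P0.not_dvd_index ((natCast_mem_iff hM _).1 hmem)

/-- Let G be a finite group, p a prime and p^a the p-part of the order of G. Let x, y ∈ G and let x′, y′ be their p-regular parts: x′ has order prime to p, commutes with x·x′⁻¹, and x·x′⁻¹ has p-power order (likewise for y). Then x′ and y′ are conjugate in G if and only if for every irreducible character χ of G the algebraic integer χ(x)^(p^a) − χ(y)^(p^a) is p times an algebraic integer. -/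
theorem result {G : Type*} [Group G] [Finite G] (p : ℕ) [Fact p.Prime] (x y x' y' : G)
    (hx : (∃ k : ℕ, orderOf (x * x'⁻¹) = p ^ k) ∧ Commute (x * x'⁻¹) x' ∧ ¬ p ∣ orderOf x')
    (hy : (∃ k : ℕ, orderOf (y * y'⁻¹) = p ^ k) ∧ Commute (y * y'⁻¹) y' ∧ ¬ p ∣ orderOf y') :
    IsConj x' y' ↔ ∀ χ : Cfsg.IrrCharacter G, ∃ γ : Cfsg.AlgInt,
      (χ : G → ℂ) x ^ (p ^ (Nat.card G).factorization p) - (χ : G → ℂ) y ^ (p ^ (Nat.card G).factorization p) = (p : ℂ) * (γ : ℂ) := by

  have hp : Fact p.Prime := inferInstance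
  set a := (Nat.card G).factorization p with ha
  have hxs := pow_reg p x x' hx
  have hys := pow_reg p y y' hy
  rw [← ha] at hxs hys
  have hsreg : ¬ p ∣ orderOf (x' ^ (p ^ a)) := fun h => hx.2.2 (dvd_trans h (orderOf_pow_dvd _))
  have htreg : ¬ p ∣ orderOf (y' ^ (p ^ a)) := fun h => hy.2.2 (dvd_trans h (orderOf_pow_dvd _))
  constructor
  · intro hc χ
    obtain ⟨γ1, h1⟩ := char_frob p χ x a
    obtain ⟨γ2, h2⟩ := char_frob p χ y a
    have hcl : (χ : G → ℂ) (x ^ (p ^ a)) = (χ : G → ℂ) (y ^ (p ^ a)) := by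
      rw [hxs, hys]
      obtain ⟨c, hc⟩ := isConj_iff.1 hc
      rw [← hc, conj_pow]
      exact (isClassFunction_of_isIrrCharacter χ.2 _ _).symm
    refine ⟨γ1 - γ2, ?_⟩
    push_cast
    linear_combination h1 - h2 + hcl
  · intro h
    have hst : IsConj (x' ^ (p ^ a)) (y' ^ (p ^ a)) := by
      apply conj_of_congr p _ _ hsreg htreg
      intro χ
      obtain ⟨γ, hγ⟩ := h χ
      obtain ⟨γ1, h1⟩ := char_frob p χ x a
      obtain ⟨γ2, h2⟩ := char_frob p χ y a
      rw [hxs] at h1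
      rw [hys] at h2
      refine ⟨γ - γ1 + γ2, ?_⟩
      push_cast
      linear_combination hγ - h1 + h2
    obtain ⟨c, hc⟩ := isConj_iff.1 hst
    have hcard : Nat.card G = p ^ a * (Nat.card G / p ^ a) :=
      (Nat.mul_div_cancel' (Nat.ordProj_dvd _ _)).symm
    have hcop : Nat.Coprime (p ^ a) (Nat.card G / p ^ a) :=
      (Nat.coprime_ordCompl hp.out Nat.card_pos.ne').pow_left a
    generalize Nat.card G / p ^ a = m' at hcard hcop
    have hpm : ∀ z : G, ¬ p ∣ orderOf z → z ^ m' = 1 := by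
      intro z hz
      apply orderOf_dvd_iff_pow_eq_one.1
      have h1 : orderOf z ∣ p ^ a * m' := hcard ▸ orderOf_dvd_natCard z
      exact (Nat.Coprime.pow_right a ((hp.out.coprime_iff_not_dvd).2 hz).symm).dvd_of_dvd_mul_left h1
    have hb := Nat.gcd_eq_gcd_ab (p ^ a) m'
    rw [hcop.gcd_eq_one] at hb
    have ex : ∀ z : G, z ^ m' = 1 → z = (z ^ (p ^ a)) ^ (Nat.gcdA (p ^ a) m') := by
      intro z hz
      have h5 : z ^ ((1 : ℕ) : ℤ) = z ^ (((p ^ a : ℕ) : ℤ) * Nat.gcdA (p ^ a) m'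
          + (m' : ℤ) * Nat.gcdB (p ^ a) m') := by rw [hb]
      rw [zpow_add, zpow_mul, zpow_mul] at h5
      simp only [zpow_natCast] at h5
      rw [hz, one_zpow, mul_one, pow_one] at h5
      exact h5
    rw [ex x' (hpm x' hx.2.2), ex y' (hpm y' hy.2.2), ← hc, conj_zpow]
    exact isConj_iff.2 ⟨c, rfl⟩

end Cfsg.Agent.S4604
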