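import Cfsg.Statements.S4627
import Cfsg.Agent.S4623
import Cfsg.Agent.Lib.Helper26.MonDet
import Cfsg.Agent.Lib.Helper23.GL2WreathGL
import Cfsg.Agent.Lib.Helper12.SylPermTrans
import Cfsg.Agent.Lib.Helper22.GLTwoPart
import Cfsg.Agent.Lib.Helper17.GL2Good
import Cfsg.Agent.Lib.Helper3.SylowNormalSq

set_option autoImplicit false
open Cfsg

namespace Cfsg.Agent.S4627

/-- Let F be a finite field of odd order q and m ≥ 1. If 4 divides q + 1, or if 4 divides q − 1 and m is a power of 2, then a Sylow 2-subgroup P of SL_{2m}(F) has P/P' elementary abelian: the square of every element of P lies in the derived subgroup of P. -/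
theorem result {F : Type*} [Field F] [Fintype F] (hF : Odd (Fintype.card F)) (m : ℕ) (hm : 1 ≤ m)
    (hq : 4 ∣ Fintype.card F + 1 ∨ (4 ∣ Fintype.card F - 1 ∧ ∃ j : ℕ, m = 2 ^ j)) (P : Sylow 2 (Matrix.SpecialLinearGroup (Fin (2 * m)) F)) :
    ∀ x : (P : Subgroup (Matrix.SpecialLinearGroup (Fin (2 * m)) F)), x ^ 2 ∈ commutator (P : Subgroup (Matrix.SpecialLinearGroup (Fin (2 * m)) F)) := by

  classical
  obtain ⟨ι, π, hstar, hinj, hdι, hdπ⟩ :=
    Cfsg.Agent.Lib.Helper23.exists_gl2_wreath_in_gl (F := F) m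
  let S₀ : Cfsg.Agent.Lib.Helper3.MonSys (Fin m) (Matrix.GeneralLinearGroup (Fin 2) F)
      (Matrix.GeneralLinearGroup (Fin (2 * m)) F) := ⟨ι, π, hstar, hinj⟩
  obtain ⟨T₂⟩ : Nonempty (Sylow 2 (Matrix.GeneralLinearGroup (Fin 2) F)) := inferInstance
  obtain ⟨T₀⟩ : Nonempty (Sylow 2 (Equiv.Perm (Fin m))) := inferInstance
  obtain ⟨Q₀⟩ : Nonempty (Sylow 2 (alternatingGroup (Fin m))) := inferInstance
  have hgood := Cfsg.Agent.Lib.Helper17.GL2Good.sylow_gl2_good hF T₂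
  have hperm : ∀ σ ∈ (T₀ : Subgroup (Equiv.Perm (Fin m))),
      σ ^ 2 ∈ ⁅(T₀ : Subgroup (Equiv.Perm (Fin m))), (T₀ : Subgroup (Equiv.Perm (Fin m)))⁆ :=
    (Cfsg.Agent.Lib.Helper3.sq_level _).mp (Cfsg.Agent.S4623.result 2 m T₀ Q₀).1
  have hcase : (∃ t ∈ (T₂ : Subgroup (Matrix.GeneralLinearGroup (Fin 2) F)), t ^ 2 = 1 ∧
      ∀ s ∈ (T₂ : Subgroup (Matrix.GeneralLinearGroup (Fin 2) F)),
        (Matrix.GeneralLinearGroup.det : Matrix.GeneralLinearGroup (Fin 2) F →* Fˣ) s = 1 ∨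
        (Matrix.GeneralLinearGroup.det : Matrix.GeneralLinearGroup (Fin 2) F →* Fˣ) s =
          (Matrix.GeneralLinearGroup.det : Matrix.GeneralLinearGroup (Fin 2) F →* Fˣ) t) ∨
      (∀ i j : Fin m, ∃ σ ∈ (T₀ : Subgroup (Equiv.Perm (Fin m))), σ i = j) := by
    rcases hq with h | ⟨_, hj⟩
    · exact Or.inl (hgood.2 h)
    · exact Or.inr (Cfsg.Agent.Lib.Helper12.SylPermTrans.sylow_two_perm_transitive m hj T₀)
  have hcore := Cfsg.Agent.Lib.Helper26.MonDet.monsys_det_sq S₀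
    (Matrix.GeneralLinearGroup.det : Matrix.GeneralLinearGroup (Fin (2 * m)) F →* Fˣ)
    (Matrix.GeneralLinearGroup.det : Matrix.GeneralLinearGroup (Fin 2) F →* Fˣ)
    hdι hdπ (T₂ : Subgroup (Matrix.GeneralLinearGroup (Fin 2) F))
    (T₀ : Subgroup (Equiv.Perm (Fin m))) hgood.1 hperm hcase
  -- the monomial subgroup is a Sylow 2-subgroup of `GL_{2m}`
  have hcard : Nat.card ↥(S₀.sub (T₂ : Subgroup (Matrix.GeneralLinearGroup (Fin 2) F))
      (T₀ : Subgroup (Equiv.Perm (Fin m)))) =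
      2 ^ (Nat.card (Matrix.GeneralLinearGroup (Fin (2 * m)) F)).factorization 2 := by
    rw [Cfsg.Agent.Lib.Helper3.MonSys.card_sub,
      Cfsg.Agent.Lib.Helper22.GLTwoPart.gl_even_two_part hF m,
      T₂.card_eq_multiplicity, T₀.card_eq_multiplicity, Nat.card_perm, Nat.card_fin,
      ← pow_mul, ← pow_add, mul_comm]
  have hr : (Matrix.SpecialLinearGroup.toGL :
      Matrix.SpecialLinearGroup (Fin (2 * m)) F →* Matrix.GeneralLinearGroup (Fin (2 * m)) F).range =
      (Matrix.GeneralLinearGroup.det : Matrix.GeneralLinearGroup (Fin (2 * m)) F →* Fˣ).ker := by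
    ext x
    constructor
    · rintro ⟨y, rfl⟩
      exact Matrix.SpecialLinearGroup.coeToGL_det y
    · intro hx
      have h1 : (x : Matrix (Fin (2 * m)) (Fin (2 * m)) F).det = 1 := by
        have := congrArg Units.val (MonoidHom.mem_ker.mp hx)
        simpa using this
      exact ⟨⟨(x : Matrix (Fin (2 * m)) (Fin (2 * m)) F), h1⟩, Units.ext rfl⟩
  have hN : (Matrix.SpecialLinearGroup.toGL :
      Matrix.SpecialLinearGroup (Fin (2 * m)) F →*
        Matrix.GeneralLinearGroup (Fin (2 * m)) F).range.Normal := by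
    rw [hr]
    infer_instance
  refine Cfsg.Agent.Lib.Helper3.sylow_sq_of_normal_range Matrix.SpecialLinearGroup.toGL
    Matrix.SpecialLinearGroup.toGL_injective hN (Sylow.ofCard _ hcard) ?_ P
  rw [hr]
  exact hcore

end Cfsg.Agent.S4627
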