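import Cfsg.Statements.S4628
-- import your own Cfsg.Agent.* helpers here
import Mathlib
import Cfsg.Agent.Lib.Helper25.SLTwoPart
import Cfsg.Agent.Lib.Helper25.WreathSqB
import Cfsg.Agent.Lib.Helper8.GL2WrSL
import Cfsg.Agent.Lib.Helper26.GL2Sq

set_option autoImplicit false
open Cfsg

namespace Cfsg.Agent.S4628

open Cfsg.Agent.Lib.Helper25 in
/-- Let F be a finite field of odd order q with 4 dividing q + 1, and m ≥ 1. Then a Sylow 2-subgroup P of SL_{2m+1}(F) has P/P' elementary abelian: the square of every element of P lies in the derived subgroup of P. -/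
theorem result {F : Type*} [Field F] [Fintype F] (hF : Odd (Fintype.card F)) (hq : 4 ∣ Fintype.card F + 1) (m : ℕ) (hm : 1 ≤ m) (P : Sylow 2 (Matrix.SpecialLinearGroup (Fin (2 * m + 1)) F)) :
    ∀ x : (P : Subgroup (Matrix.SpecialLinearGroup (Fin (2 * m + 1)) F)), x ^ 2 ∈ commutator (P : Subgroup (Matrix.SpecialLinearGroup (Fin (2 * m + 1)) F)) := by
  obtain ⟨ι, π, hstar, hinj⟩ := Cfsg.Agent.Lib.Helper8.GL2WrSL.exists_gl2_wreath_in_sl (F := F) m
  obtain ⟨S⟩ : Nonempty (Sylow 2 (Matrix.GeneralLinearGroup (Fin 2) F)) := inferInstance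
  have hcardS : Nat.card (S : Subgroup (Matrix.GeneralLinearGroup (Fin 2) F))
      = 2 ^ (Nat.card (Matrix.GeneralLinearGroup (Fin 2) F)).factorization 2 := S.card_eq_multiplicity
  have hS2 : (Nat.card (S : Subgroup (Matrix.GeneralLinearGroup (Fin 2) F))).factorization 2
      = (Nat.card (Matrix.GeneralLinearGroup (Fin 2) F)).factorization 2 := by
    rw [hcardS, Nat.factorization_pow, Finsupp.smul_apply, Nat.prime_two.factorization_self,
      smul_eq_mul, mul_one]
  exact Cfsg.Agent.Lib.Helper25.perm_wreath_sq_b m ι π hstar hinj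
    (S : Subgroup (Matrix.GeneralLinearGroup (Fin 2) F)) S.isPGroup'
    (Cfsg.Agent.Lib.Helper26.GL2Sq.gl2_sylow_sq_mem_commutator hq S)
    (by rw [hS2]; exact Cfsg.Agent.Lib.Helper25.card_sl_odd_two_part hF m) P

end Cfsg.Agent.S4628
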