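import Cfsg.Statements.S4633
import Cfsg.Agent.Lib.Helper26.MaxPair
import Cfsg.Agent.Lib.Helper8.DefectLocal

set_option autoImplicit false
open Cfsg

namespace Cfsg.Agent.S4633


open Cfsg.Agent.Lib.Helper2 Cfsg.Agent.Lib.Helper25 Cfsg.Agent.Lib.Helper8 Cfsg.Agent.Lib.Helper26

theorem exists_pow_conj {G : Type*} [Group G] [Finite G] (P : Subgroup G) (hcyc : IsCyclic P)
    (g : G) (hg : g ∈ Subgroup.normalizer (P : Set G)) :
    ∃ k : ℕ, ∀ z ∈ P, g * z * g⁻¹ = z ^ k := by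
  obtain ⟨y₀, hy₀⟩ := IsCyclic.exists_monoid_generator (α := P)
  have hmem : g * (y₀ : G) * g⁻¹ ∈ P := (Subgroup.mem_normalizer_iff.mp hg _).mp y₀.2
  obtain ⟨k, hk⟩ := hy₀ ⟨_, hmem⟩
  have hk' : g * (y₀ : G) * g⁻¹ = (y₀ : G) ^ k := by
    have := congrArg Subtype.val hk
    simpa using this.symm
  refine ⟨k, fun z hz => ?_⟩
  obtain ⟨i, hi⟩ := hy₀ ⟨z, hz⟩
  have hi' : z = (y₀ : G) ^ i := by
    have := congrArg Subtype.val hi
    simpa using this.symm
  rw [hi', ← conj_pow, hk', ← pow_mul, ← pow_mul, mul_comm]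

theorem pow_mem_centralizer_of_fix {G : Type*} [Group G] [Finite G] (p : ℕ) [Fact p.Prime]
    (P : Subgroup G) (hP : IsPGroup p P) (hcyc : IsCyclic P)
    (g : G) (hg : g ∈ Subgroup.normalizer (P : Set G)) (x : G) (hx : x ∈ P) (hx1 : x ≠ 1)
    (hfix : g * x * g⁻¹ = x) : ∃ j : ℕ, g ^ (p ^ j) ∈ Subgroup.centralizer (P : Set G) := by
  have hp : p.Prime := Fact.out
  obtain ⟨k, hk⟩ := exists_pow_conj P hcyc g hg
  have hiter : ∀ j : ℕ, ∀ z ∈ P, g ^ j * z * (g ^ j)⁻¹ = z ^ (k ^ j) := by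
    intro j
    induction j with
    | zero =>
      intro z _
      simp
    | succ j ih =>
      intro z hz
      have e1 : g ^ (j + 1) * z * (g ^ (j + 1))⁻¹ = g * (g ^ j * z * (g ^ j)⁻¹) * g⁻¹ := by
        rw [pow_succ']
        group
      rw [e1, ih z hz, hk _ (P.pow_mem hz _), ← pow_mul, ← pow_succ]
  obtain ⟨n, hn⟩ := IsPGroup.iff_card.mp hP
  -- `k ≡ 1 mod p`
  have hk1 : ((p : ℕ) : ℤ) ∣ (k : ℤ) - 1 := by
    have h1 : x ^ k = x ^ 1 := by rw [pow_one, ← hk x hx, hfix]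
    rw [pow_eq_pow_iff_modEq] at h1
    obtain ⟨i, hi⟩ := (IsPGroup.iff_orderOf.mp hP) ⟨x, hx⟩
    rw [Subgroup.orderOf_mk] at hi
    have hi0 : i ≠ 0 := by
      rintro rfl
      rw [pow_zero, orderOf_eq_one_iff] at hi
      exact hx1 hi
    have h2 : (p : ℕ) ∣ orderOf x := by
      rw [hi]
      exact dvd_pow_self p hi0
    have h3 := (Nat.modEq_iff_dvd.mp h1.symm)
    push_cast at h3
    exact (Int.natCast_dvd_natCast.mpr h2).trans h3
  have hdvd : ((p : ℕ) : ℤ) ^ (n + 1) ∣ (k : ℤ) ^ p ^ n - 1 ^ p ^ n :=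
    dvd_sub_pow_of_dvd_sub hk1 n
  rw [one_pow] at hdvd
  refine ⟨n, ?_⟩
  rw [Subgroup.mem_centralizer_iff]
  intro z hz
  have h4 := hiter (p ^ n) z hz
  have h5 : z ^ (k ^ p ^ n) = z ^ 1 := by
    rw [pow_eq_pow_iff_modEq]
    apply Nat.ModEq.symm
    rw [Nat.modEq_iff_dvd]
    push_cast
    refine dvd_trans ?_ hdvd
    have h6 : orderOf z ∣ p ^ n := by
      have := orderOf_dvd_natCard (⟨z, hz⟩ : P)
      rw [Subgroup.orderOf_mk, hn] at this
      exact this
    have h7 : ((orderOf z : ℕ) : ℤ) ∣ ((p ^ n : ℕ) : ℤ) := Int.natCast_dvd_natCast.mpr h6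
    push_cast at h7
    exact h7.trans (pow_dvd_pow _ (by omega))
  rw [h5, pow_one] at h4
  exact (eq_mul_of_mul_inv_eq h4).symm

/-- Let B be a block of the finite group G relative to a maximal ideal M of the algebraic integers containing the prime p, with a nontrivial cyclic defect group P. Let c be a block of C_G(P) inducing B and T the stabilizer of c in N_G(P) (the elements of N_G(P) conjugating c to itself); T contains C_G(P). Then T/C_G(P) is cyclic of order dividing p − 1, and it acts freely on the non-identity elements of P: an element of T fixing some non-identity element of P under conjugation lies in C_G(P). -/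
theorem result {G : Type*} [Group G] [Finite G] (p : ℕ) [Fact p.Prime] (M : Ideal Cfsg.AlgInt) (hM : Cfsg.IsPModular p M) (B : Set (Cfsg.IrrCharacter G)) (hB : Cfsg.IsPBlock M B) (P : Subgroup G) (hPD : Cfsg.IsDefectGroup p M B P) (hP1 : P ≠ ⊥) (hcyc : IsCyclic P) (c : Set (Cfsg.IrrCharacter (Subgroup.centralizer (P : Set G)))) (hc : Cfsg.IsInducedBlock M (Subgroup.centralizer (P : Set G)) c B) (T : Subgroup G) (hT : ∀ g : G, g ∈ T ↔ (g ∈ Subgroup.normalizer (P : Set G) ∧ Cfsg.StabilizesBlock (Subgroup.centralizer (P : Set G)) c g)) [hn : ((Subgroup.centralizer (P : Set G)).subgroupOf T).Normal] : IsCyclic (T ⧸ (Subgroup.centralizer (P : Set G)).subgroupOf T) ∧ (Subgroup.centralizer (P : Set G)).relIndex T ∣ p - 1 ∧ ∀ g ∈ T, ∀ x ∈ P, x ≠ 1 → g * x * g⁻¹ = x → g ∈ Subgroup.centralizer (P : Set G) := by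
  classical
  have hp : p.Prime := Fact.out
  have : Fintype G := Fintype.ofFinite G
  have : Fintype (Subgroup.centralizer (P : Set G)) := Fintype.ofFinite _
  have hPp : IsPGroup p P := isPGroup_of_isDefectGroup hPD
  have hPC : P ≤ Subgroup.centralizer (P : Set G) := by
    intro x hx
    rw [Subgroup.mem_centralizer_iff]
    intro h hh
    let _ := IsCyclic.commGroup (α := P)
    have h1 := mul_comm (⟨h, hh⟩ : P) ⟨x, hx⟩
    exact congrArg Subtype.val h1
  have hCN : Subgroup.centralizer (P : Set G) ≤ Subgroup.normalizer (P : Set G) :=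
    Subgroup.centralizer_le_normalizer _
  have hNC := normalizer_le_normalizer_centralizer P
  have hbP := defectGroup_of_induced hM P (Subgroup.centralizer (P : Set G)) hPC hCN hc hPD
  have hH : Subgroup.centralizer (P : Set G) = P ⊔ Subgroup.centralizer (P : Set G) :=
    (sup_eq_right.mpr hPC).symm
  have hT' : ∀ g : G, g ∈ T ↔ (g ∈ Subgroup.normalizer (P : Set G) ∧
      ∀ θ ∈ c, ∀ θ' : IrrCharacter (Subgroup.centralizer (P : Set G)),
        (∀ h h' : (Subgroup.centralizer (P : Set G)), (h' : G) = g * h * g⁻¹ →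
          (θ' : (Subgroup.centralizer (P : Set G)) → ℂ) h'
            = (θ : (Subgroup.centralizer (P : Set G)) → ℂ) h) → θ' ∈ c) := by
    intro g
    rw [hT]
    constructor
    · rintro ⟨hgN, -, hgS⟩
      refine ⟨hgN, ?_⟩
      intro θ hθ θ' hθ'
      obtain ⟨χ', hχ', hconj⟩ := hgS θ hθ
      have h3 := eq_nIrr_of_isConjCharOf (Subgroup.centralizer (P : Set G)) ⟨g, hNC hgN⟩ θ θ' hθ'
      have h4 := eq_nIrr_of_isConjCharOf (Subgroup.centralizer (P : Set G)) ⟨g, hNC hgN⟩ θ χ' hconj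
      rw [h3, ← h4]
      exact hχ'
    · rintro ⟨hgN, hgS⟩
      refine ⟨hgN, hNC hgN, ?_⟩
      intro χ hχ
      refine ⟨nIrr (Subgroup.centralizer (P : Set G)) ⟨g, hNC hgN⟩ χ, ?_, ?_⟩
      · exact hgS χ hχ _ (isConjCharOf_nIrr (Subgroup.centralizer (P : Set G)) ⟨g, hNC hgN⟩ χ)
      · exact isConjCharOf_nIrr (Subgroup.centralizer (P : Set G)) ⟨g, hNC hgN⟩ χ
  have hnd := (Cfsg.Agent.S4437.result p M hM P hPp (Subgroup.centralizer (P : Set G)) hH
    c hc.1 hbP B hc T hT').mp hPD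
  have hCT : Subgroup.centralizer (P : Set G) ≤ T := fun g hg =>
    (hT g).mpr ⟨hCN hg, stabilizesBlock_of_mem_centralizer P c hg⟩
  have hTN : T ≤ Subgroup.normalizer (P : Set G) := fun g hg => ((hT g).mp hg).1
  -- freeness
  have hfree : ∀ g ∈ T, ∀ x ∈ P, x ≠ 1 → g * x * g⁻¹ = x →
      g ∈ Subgroup.centralizer (P : Set G) := by
    intro g hgT x hx hx1 hfix
    obtain ⟨j, hj⟩ := pow_mem_centralizer_of_fix p P hPp hcyc g (hTN hgT) x hx hx1 hfix
    have h5 := Subgroup.pow_index_mem ((Subgroup.centralizer (P : Set G)).subgroupOf T)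
      (⟨g, hgT⟩ : T)
    rw [Subgroup.mem_subgroupOf] at h5
    have hcop : Nat.Coprime ((Subgroup.centralizer (P : Set G)).relIndex T) (p ^ j) :=
      Nat.Coprime.pow_right j ((Nat.Prime.coprime_iff_not_dvd hp).mpr hnd).symm
    exact mem_of_pow_mem_coprime_pair hcop h5 hj
  -- an element of order `p`
  have hPne : Nontrivial P := by
    rw [Subgroup.nontrivial_iff_ne_bot]
    exact hP1
  obtain ⟨n, hn⟩ := IsPGroup.iff_card.mp hPp
  have hn0 : n ≠ 0 := by
    rintro rfl
    rw [pow_zero] at hn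
    have := (Subgroup.card_eq_one (H := P)).mp hn
    exact hP1 this
  obtain ⟨z₀, hz₀⟩ := exists_prime_orderOf_dvd_card' (G := P) p (by rw [hn]; exact dvd_pow_self p hn0)
  have hz₀T : (z₀ : G) ∈ T := hCT (hPC z₀.2)
  have hz₀ord : orderOf (⟨(z₀ : G), hz₀T⟩ : T) = p := by
    rw [Subgroup.orderOf_mk, Subgroup.orderOf_coe, hz₀]
  have hz₀1 : (z₀ : G) ≠ 1 := by
    intro h0
    rw [Subgroup.orderOf_mk, h0, orderOf_one] at hz₀ord
    exact hp.one_lt.ne hz₀ord
  have hΩn : (Subgroup.zpowers (⟨(z₀ : G), hz₀T⟩ : T)).Normal := by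
    constructor
    intro y hy g
    obtain ⟨i, rfl⟩ := Subgroup.mem_zpowers_iff.mp hy
    obtain ⟨k, hk⟩ := exists_pow_conj P hcyc (g : G) (hTN g.2)
    have e1 : g * (⟨(z₀ : G), hz₀T⟩ : T) ^ i * g⁻¹ = ((⟨(z₀ : G), hz₀T⟩ : T) ^ k) ^ i := by
      rw [← conj_zpow]
      congr 1
      apply Subtype.ext
      simp only [Subgroup.coe_mul, Subgroup.coe_inv, Subgroup.coe_pow]
      exact hk _ z₀.2
    rw [e1]
    exact Subgroup.zpow_mem _ (Subgroup.pow_mem _ (Subgroup.mem_zpowers _) _) _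
  have hΩcard : Nat.card (Subgroup.zpowers (⟨(z₀ : G), hz₀T⟩ : T)) = p := by
    rw [Nat.card_zpowers, hz₀ord]
  have hker : (MulAut.conjNormal (H := Subgroup.zpowers (⟨(z₀ : G), hz₀T⟩ : T))).ker
      = (Subgroup.centralizer (P : Set G)).subgroupOf T := by
    ext g
    rw [MonoidHom.mem_ker, Subgroup.mem_subgroupOf]
    constructor
    · intro h
      have h1 := congrArg (fun f : MulAut (Subgroup.zpowers (⟨(z₀ : G), hz₀T⟩ : T)) =>
        ((f ⟨⟨(z₀ : G), hz₀T⟩, Subgroup.mem_zpowers _⟩ :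
          Subgroup.zpowers (⟨(z₀ : G), hz₀T⟩ : T)) : T)) h
      simp only [MulAut.conjNormal_apply, MulAut.one_apply] at h1
      have h2 := congrArg Subtype.val h1
      simp only [Subgroup.coe_mul, Subgroup.coe_inv] at h2
      exact hfree g g.2 z₀ z₀.2 hz₀1 h2
    · intro h
      ext y
      simp only [MulAut.conjNormal_apply, MulAut.one_apply, Subgroup.coe_mul, Subgroup.coe_inv]
      have hyP : ((y : T) : G) ∈ P := by
        obtain ⟨i, hi⟩ := Subgroup.mem_zpowers_iff.mp y.2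
        rw [← hi]
        simp only [Subgroup.coe_zpow]
        exact P.zpow_mem z₀.2 _
      have h3 := (Subgroup.mem_centralizer_iff.mp h) _ hyP
      rw [← h3]
      group
  have hcycAut : IsCyclic (MulAut (Subgroup.zpowers (⟨(z₀ : G), hz₀T⟩ : T))) := by
    have h1 : IsCyclic (ZMod (Nat.card (Subgroup.zpowers (⟨(z₀ : G), hz₀T⟩ : T))))ˣ := by
      rw [hΩcard]
      exact ZMod.isCyclic_units_prime hp
    exact isCyclic_of_injective
      (IsCyclic.mulAutMulEquiv (Subgroup.zpowers (⟨(z₀ : G), hz₀T⟩ : T))).toMonoidHom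
      (IsCyclic.mulAutMulEquiv (Subgroup.zpowers (⟨(z₀ : G), hz₀T⟩ : T))).injective
  have hinj : Function.Injective ((QuotientGroup.kerLift
      (MulAut.conjNormal (H := Subgroup.zpowers (⟨(z₀ : G), hz₀T⟩ : T)))).comp
      (QuotientGroup.quotientMulEquivOfEq hker.symm).toMonoidHom) := by
    rw [MonoidHom.coe_comp]
    exact (QuotientGroup.kerLift_injective _).comp (MulEquiv.injective _)
  refine ⟨isCyclic_of_injective _ hinj, ?_, hfree⟩
  have h1 := Subgroup.card_dvd_of_injective _ hinj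
  rw [IsCyclic.card_mulAut, hΩcard, Nat.totient_prime hp] at h1
  have h2 : (Subgroup.centralizer (P : Set G)).relIndex T
      = Nat.card (T ⧸ (Subgroup.centralizer (P : Set G)).subgroupOf T) := rfl
  rw [h2]
  exact h1

end Cfsg.Agent.S4633
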