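import Cfsg.Statements.S4657
-- import your own Cfsg.Agent.* helpers here
import Mathlib
import Cfsg.Agent.Lib.Helper25.MinMax
import Cfsg.Agent.Lib.Helper25.OneBlock
import Cfsg.Agent.Lib.Helper8.BlockBrauer

set_option autoImplicit false
open Cfsg

namespace Cfsg.Agent.S4657

open Cfsg.Agent.Lib.Helper2 Cfsg.Agent.Lib.Helper25 Cfsg.Agent.Lib.Helper8 in
/-- the Brauer central character through the Brauer map on coefficient functions -/
theorem brauerOmega_eq {G : Type*} [Group G] (P : Subgroup G)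
    [Fintype (Subgroup.centralizer (P : Set G))] (β : G → ℂ)
    (ξ : Subgroup.centralizer (P : Set G) → ℂ) :
    Cfsg.brauerOmega P β ξ = omegaFun ξ (brauerMap P (Subgroup.centralizer (P : Set G)) β) := by
  unfold Cfsg.brauerOmega omegaFun brauerMap
  rw [finsum_eq_sum_of_fintype, Finset.sum_div]
  apply Finset.sum_congr rfl
  intro x _
  rw [if_pos x.2]

open Cfsg.Agent.Lib.Helper2 Cfsg.Agent.Lib.Helper25 Cfsg.Agent.Lib.Helper8 in
/-- Fix a prime p and a maximal ideal M of the algebraic integers containing p. Every Brauer pair (P, e) of the finite group G is a Brauer pair of exactly one p-block B of G. -/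
theorem result {G : Type*} [Group G] [Fintype G] (p : ℕ) [Fact p.Prime] (M : Ideal Cfsg.AlgInt) (hM : Cfsg.IsPModular p M) (P : Subgroup G) (e : Set (Cfsg.IrrCharacter (Subgroup.centralizer (P : Set G)))) (hPe : Cfsg.IsBrauerPair p M P e) : ∃! B : Set (Cfsg.IrrCharacter G), Cfsg.IsBrauerPairOf p M B P e := by
  classical
  have hpr := isPrime_of_isPModular hM
  obtain ⟨hPp, he⟩ := hPe
  have : Fintype (Subgroup.centralizer (P : Set G)) := Fintype.ofFinite _
  have : Fintype (IrrCharacter G) := Fintype.ofFinite _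
  obtain ⟨ξ₀, hξ₀⟩ := isPBlock_nonempty hM he
  obtain ⟨χ, -, hχ2⟩ := exists_brauer_correspondent hM P (Subgroup.centralizer (P : Set G)) hPp
    le_rfl (Subgroup.centralizer_le_normalizer _) ξ₀
  have key : ∀ B' : Set (IrrCharacter G), IsPBlock M B' → ∀ ξ ∈ e,
      MemLocalIdeal M (brauerOmega P (blockCoeff B')
        (ξ : Subgroup.centralizer (P : Set G) → ℂ) - (if χ ∈ B' then 1 else 0)) := by
    intro B' hB' ξ hξ
    have hcl := blockClosed_of_isPBlock M hB'
    have hcf := blockCoeff_isClassFunction B'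
    have hR := blockCoeff_memLocalRing hM B' hcl
    have h1 := hχ2 (blockCoeff B') hcf hR
    rw [Cfsg.Agent.Lib.Helper25.omegaFun_blockCoeff B' χ] at h1
    have h2 := omegaFun_sub_mem hM ξ ξ₀ (isPBlock_sameBlock hM he ξ hξ ξ₀ hξ₀)
      (brauerMap P (Subgroup.centralizer (P : Set G)) (blockCoeff B'))
      (brauerMap_isClassFunction P _ (Subgroup.centralizer_le_normalizer _) hcf)
      (fun h => by
        unfold brauerMap
        split_ifs
        · exact hR _
        · exact memLocalRing_zero M)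
    rw [brauerOmega_eq]
    have h3 := MemLocalIdeal.add M h2 h1
    rwa [sub_add_sub_cancel] at h3
  refine ⟨blockOf M (χ : G → ℂ), ⟨⟨hPp, he⟩, ⟨χ, rfl⟩, ?_⟩, ?_⟩
  · intro ξ hξ
    have h1 := key (blockOf M (χ : G → ℂ)) ⟨χ, rfl⟩ ξ hξ
    have hmem : χ ∈ blockOf M ((χ : IrrCharacter G) : G → ℂ) := sameBlock_refl M _
    rwa [if_pos hmem] at h1
  · intro B' hB'
    obtain ⟨-, hB'blk, hB'3⟩ := hB'
    have h1 := key B' hB'blk ξ₀ hξ₀
    have h2 := hB'3 ξ₀ hξ₀
    by_cases hχB' : χ ∈ B'
    · exact isPBlock_eq_of_mem hM hB'blk ⟨χ, rfl⟩ hχB' (sameBlock_refl M _)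
    · exfalso
      rw [if_neg hχB', sub_zero] at h1
      have h3 := MemLocalIdeal.sub M h1 h2
      rw [sub_sub_cancel] at h3
      exact not_memLocalIdeal_one M h3

end Cfsg.Agent.S4657
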