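import Cfsg.Statements.S4666
import Cfsg.Agent.Lib.Helper24.BlockMat

set_option autoImplicit false
open Cfsg

namespace Cfsg.Agent.S4666

section aux

open Cfsg.Agent.Lib.Helper2 Cfsg.Agent.Lib.Helper25 Cfsg.Agent.Lib.Helper24 Cfsg.Agent.S4426

variable {G : Type*} [Group G] [Fintype G]

/-- the truncated function is `p ^ a` times the `p`-regular part -/
theorem trunc_eq (p : ℕ) (χ : G → ℂ) (g : G) :
    trunc p χ g = ((p ^ (Nat.card G).factorization p : ℕ) : ℂ) * pRegularPart p χ g := by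
  unfold trunc pRegularPart IsPRegular
  split_ifs <;> simp

/-- the truncated character as an integer combination of the block -/
theorem trunc_expand {p : ℕ} [Fact p.Prime] {M : Ideal AlgInt} (hM : IsPModular p M)
    [Fintype (IrrCharacter G)] (B : Set (IrrCharacter G)) [DecidablePred (· ∈ B)]
    (hB : IsPBlock M B) (ψ : IrrCharacter G) (hψ : ψ ∈ B) (g : G) :
    trunc p (ψ : G → ℂ) g
      = ∑ ξ ∈ Finset.univ.filter (· ∈ B), (mInt p ψ ξ : ℂ) * (ξ : G → ℂ) g := by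
  have hcf := trunc_isClassFunction p (isClassFunction_of_isIrrCharacter ψ.2)
  have h := class_fun_expand (trunc p (ψ : G → ℂ)) hcf
  rw [Finset.sum_filter]
  have h' := congrFun h g
  rw [h', Finset.sum_apply]
  apply Finset.sum_congr rfl
  intro ξ _
  split_ifs with hξ
  · rw [mInt_spec]; rfl
  · rw [mInt_spec, mInt_eq_zero_of_not_mem hM B hB ψ hψ ξ hξ]; simp

end aux

open Cfsg.Agent.Lib.Helper2 Cfsg.Agent.Lib.Helper25 Cfsg.Agent.Lib.Helper24 Cfsg.Agent.S4426 in
/-- Fix a prime p and a maximal ideal M of the algebraic integers containing p, and a p-block B of the finite group G of defect d. For every integer combination χ of the irreducible characters in B, p^d times the function that agrees with χ on p-regular elements and vanishes elsewhere is again an integer combination of the irreducible characters in B. -/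
theorem result {G : Type*} [Group G] [Fintype G] (p : ℕ) [Fact p.Prime] (M : Ideal Cfsg.AlgInt) (hM : Cfsg.IsPModular p M) (B : Set (Cfsg.IrrCharacter G)) (hB : Cfsg.IsPBlock M B) (χ : G → ℂ) (hχ : (∃ n : Cfsg.IrrCharacter G → ℤ, ∀ g : G, χ g = ∑ᶠ ψ ∈ B, (n ψ : ℂ) * (ψ : G → ℂ) g)) : (∃ n : Cfsg.IrrCharacter G → ℤ, ∀ g : G, (p ^ Cfsg.blockDefect p B : ℂ) * Cfsg.pRegularPart p χ g = ∑ᶠ ψ ∈ B, (n ψ : ℂ) * (ψ : G → ℂ) g) := by
  classical
  haveI : Fintype (IrrCharacter G) := Fintype.ofFinite _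
  have hp : p.Prime := Fact.out
  obtain ⟨n, hn⟩ := hχ
  have hBne := isPBlock_nonempty hM hB
  obtain ⟨χ₀, hχ₀, h0, hmin⟩ := exists_height_zero p B hBne
  set a := (Nat.card G).factorization p with ha
  set h := (charDegree (χ₀ : G → ℂ)).factorization p with hh
  have hha : h ≤ a := by
    obtain ⟨hd0, hdd⟩ := Cfsg.Agent.S4424.degree_facts χ₀
    exact (Nat.factorization_le_iff_dvd hd0 Nat.card_pos.ne').mpr hdd p
  have hSne : ((fun ψ : IrrCharacter G => (charDegree (ψ : G → ℂ)).factorization p) '' B).Nonempty :=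
    hBne.image _
  have hsInf : sInf ((fun ψ : IrrCharacter G => (charDegree (ψ : G → ℂ)).factorization p) '' B) = h := by
    apply le_antisymm
    · exact Nat.sInf_le ⟨χ₀, hχ₀, rfl⟩
    · apply le_csInf hSne
      rintro _ ⟨ξ, hξ, rfl⟩
      exact hmin ξ hξ
  have hdef : blockDefect p B = a - h := by
    unfold blockDefect
    rw [hsInf]
  set FB := Finset.univ.filter (· ∈ B) with hFB
  have hfin : ∀ f : IrrCharacter G → ℂ, ∑ᶠ ψ ∈ B, f ψ = ∑ ψ ∈ FB, f ψ := by
    intro f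
    rw [finsum_mem_eq_sum_indicator, hFB, Finset.sum_filter]
    apply Finset.sum_congr rfl
    intro ψ _
    rw [Set.indicator_apply]
  have hdiv : ∀ ψ ξ : IrrCharacter G, ξ ∈ B →
      mInt p ψ ξ = (p : ℤ) ^ h * (mInt p ψ ξ / (p : ℤ) ^ h) := by
    intro ψ ξ hξ
    have h1 := pow_dvd_mInt_right p ψ ξ
    have h2 : (p : ℤ) ^ h ∣ mInt p ψ ξ := (pow_dvd_pow _ (hmin ξ hξ)).trans h1
    exact (Int.mul_ediv_cancel' h2).symm
  refine ⟨fun ξ => ∑ ψ ∈ FB, n ψ * (mInt p ψ ξ / (p : ℤ) ^ h), fun g => ?_⟩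
  rw [hfin, hdef]
  have hph : ((p : ℂ) ^ h) ≠ 0 := pow_ne_zero _ (by exact_mod_cast hp.ne_zero)
  apply mul_left_cancel₀ hph
  have e1 : (p : ℂ) ^ h * ((p : ℂ) ^ (a - h) * pRegularPart p χ g)
      = ∑ ψ ∈ FB, (n ψ : ℂ) * trunc p (ψ : G → ℂ) g := by
    rw [← mul_assoc, ← pow_add, Nat.add_sub_cancel' hha]
    have e : pRegularPart p χ g = ∑ ψ ∈ FB, (n ψ : ℂ) * pRegularPart p (ψ : G → ℂ) g := by
      unfold pRegularPart
      split_ifs with hr
      · rw [hn g, hfin]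
      · simp
    rw [e, Finset.mul_sum]
    apply Finset.sum_congr rfl
    intro ψ _
    rw [trunc_eq]
    push_cast
    ring
  rw [e1, Finset.mul_sum]
  have e2 : ∀ ψ ∈ FB, (n ψ : ℂ) * trunc p (ψ : G → ℂ) g
      = ∑ ξ ∈ FB, (n ψ : ℂ) * ((mInt p ψ ξ : ℂ) * (ξ : G → ℂ) g) := by
    intro ψ hψ
    rw [trunc_expand hM B hB ψ (Finset.mem_filter.mp hψ).2 g, Finset.mul_sum]
  rw [Finset.sum_congr rfl e2, Finset.sum_comm]
  apply Finset.sum_congr rfl
  intro ξ hξ
  have hξB := (Finset.mem_filter.mp hξ).2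
  push_cast
  rw [Finset.sum_mul, Finset.mul_sum]
  apply Finset.sum_congr rfl
  intro ψ _
  have h3 : (mInt p ψ ξ : ℂ) = (p : ℂ) ^ h * ((mInt p ψ ξ / (p : ℤ) ^ h : ℤ) : ℂ) := by
    exact_mod_cast congrArg (Int.cast : ℤ → ℂ) (hdiv ψ ξ hξB)
  rw [h3]
  ring

end Cfsg.Agent.S4666
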