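import Mathlib
import Cfsg.Statements.S4670
import Cfsg.Agent.Lib.Helper8.FirstMainIdem

set_option autoImplicit false
open Cfsg

namespace Cfsg.Agent.S4670

open Cfsg.Agent.Lib.Helper8 Cfsg.Agent.Lib.Helper2 Cfsg.Agent.Lib.Helper25

/-- Fix a prime p and a maximal ideal M of the algebraic integers containing p. Let P be a p-subgroup of the finite group G and H a subgroup containing N_G(P). For every p-block B of G with defect group P there is exactly one p-block c of H with defect group P whose idempotent agrees with that of B, modulo the local ideal at M, at every element of C_G(P) (their Brauer-map images at P coincide); and every p-block c of H with defect group P arises in this way from exactly one such B. This is the Brauer correspondence over H. -/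
theorem result {G : Type*} [Group G] [Fintype G] (p : ℕ) [Fact p.Prime] (M : Ideal Cfsg.AlgInt) (hM : Cfsg.IsPModular p M) (P H : Subgroup G) (hP : IsPGroup p P) (hH : Subgroup.normalizer (P : Set G) ≤ H) : (∀ B : Set (Cfsg.IrrCharacter G), Cfsg.IsPBlock M B → Cfsg.IsDefectGroup p M B P → ∃! c : Set (Cfsg.IrrCharacter H), Cfsg.IsPBlock M c ∧ Cfsg.IsDefectGroup p M c (P.subgroupOf H) ∧ ∀ x : G, x ∈ Subgroup.centralizer (P : Set G) → Cfsg.MemLocalIdeal M (Cfsg.blockCoeff B x - Cfsg.subgroupBlockCoeff H c x)) ∧ (∀ c : Set (Cfsg.IrrCharacter H), Cfsg.IsPBlock M c → Cfsg.IsDefectGroup p M c (P.subgroupOf H) → ∃! B : Set (Cfsg.IrrCharacter G), Cfsg.IsPBlock M B ∧ Cfsg.IsDefectGroup p M B P ∧ ∀ x : G, x ∈ Subgroup.centralizer (P : Set G) → Cfsg.MemLocalIdeal M (Cfsg.blockCoeff B x - Cfsg.subgroupBlockCoeff H c x)) := by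
  classical
  have hpr := isPrime_of_isPModular hM
  have hPN : P ≤ Subgroup.normalizer (P : Set G) := Subgroup.le_normalizer
  have hPH : P ≤ H := hPN.trans hH
  have hCN := Subgroup.centralizer_le_normalizer (P : Set G)
  have : Fintype ↥H := Fintype.ofFinite _
  have hP' : IsPGroup p (P.subgroupOf H) := hP.comap_subtype
  obtain ⟨φ, hφ⟩ : ∃ φ, φ = normIso P H hPH hH := ⟨_, rfl⟩
  have hsub : ∀ (c : Set (IrrCharacter H)) (x : G) (hx : x ∈ H),
      subgroupBlockCoeff H c x = blockCoeff c ⟨x, hx⟩ := by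
    intro c x hx
    rw [subgroupBlockCoeff_eq, extendByZero_of_mem H _ hx]
  have hcent : ∀ x : G, x ∈ Subgroup.centralizer (P : Set G) → ∀ hx : x ∈ H,
      (⟨x, hx⟩ : H) ∈ Subgroup.centralizer ((P.subgroupOf H : Subgroup H) : Set H) := by
    intro x hx hxH
    rw [Subgroup.mem_centralizer_iff]
    intro u hu
    apply Subtype.ext
    exact Subgroup.mem_centralizer_iff.mp hx (u : G) (Subgroup.mem_subgroupOf.mp hu)
  have hcent' : ∀ x' : H, x' ∈ Subgroup.centralizer ((P.subgroupOf H : Subgroup H) : Set H) →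
      (x' : G) ∈ Subgroup.centralizer (P : Set G) := by
    intro x' hx'
    rw [Subgroup.mem_centralizer_iff]
    intro u hu
    have := Subgroup.mem_centralizer_iff.mp hx' ⟨u, hPH hu⟩ (Subgroup.mem_subgroupOf.mpr hu)
    exact congrArg Subtype.val this
  constructor
  · intro B hB hBP
    obtain ⟨b, hb, hbP, -, hcong⟩ := fm_down hM P hP B hB hBP
    have hb' : IsPBlock M (isoIrr φ.symm '' b) := isPBlock_image_isoIrr φ.symm hb
    have hb'P : IsDefectGroup p M (isoIrr φ.symm '' b) ((P.subgroupOf H).subgroupOf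
        (Subgroup.normalizer ((P.subgroupOf H : Subgroup H) : Set H))) := by
      have := isDefectGroup_image_isoIrr (M := M) (p := p) φ.symm hbP
      rwa [hφ, map_normIso_symm_subgroupOf, ← hφ] at this
    obtain ⟨c, hc, hcP, -, hcong'⟩ := fm_up (G := ↥H) hM (P.subgroupOf H) hP' _ hb' hb'P
    have hBc : ∀ x : G, x ∈ Subgroup.centralizer (P : Set G) →
        MemLocalIdeal M (blockCoeff B x - subgroupBlockCoeff H c x) := by
      intro x hx
      have hxN := hCN hx
      have hxH := hH hxN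
      rw [hsub c x hxH]
      have a1 := hcong ⟨x, hxN⟩ hx
      have a2 := hcong' (φ.symm ⟨x, hxN⟩) (by rw [hφ]; exact hcent x hx hxH)
      have e : blockCoeff (isoIrr φ.symm '' b) (φ.symm ⟨x, hxN⟩) = blockCoeff b ⟨x, hxN⟩ :=
        blockCoeff_image_isoIrr φ.symm b ⟨x, hxN⟩
      rw [e] at a2
      have e2 : ((φ.symm ⟨x, hxN⟩ : ↥(Subgroup.normalizer ((P.subgroupOf H : Subgroup H) : Set H)))
          : H) = ⟨x, hxH⟩ := by
        rw [hφ]
        rfl
      rw [e2] at a2
      have a3 := MemLocalIdeal.sub M a1 a2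
      rw [sub_sub_sub_cancel_right] at a3
      exact a3
    refine ⟨c, ⟨hc, hcP, hBc⟩, ?_⟩
    rintro c₂ ⟨hc₂, hc₂P, hcong₂⟩
    apply block_eq_of_brauer_eq (G := ↥H) hM (P.subgroupOf H) hP' c₂ c hc₂ hc hc₂P
    intro x' hx'
    have hx := hcent' x' hx'
    have a1 := hcong₂ (x' : G) hx
    have a2 := hBc (x' : G) hx
    rw [hsub c₂ _ x'.2] at a1
    rw [hsub c _ x'.2] at a2
    have a3 := MemLocalIdeal.sub M a2 a1
    rw [sub_sub_sub_cancel_left] at a3
    exact a3
  · intro c hc hcP
    obtain ⟨b', hb', hb'P, -, hcong'⟩ := fm_down (G := ↥H) hM (P.subgroupOf H) hP' c hc hcP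
    have hb : IsPBlock M (isoIrr φ '' b') := isPBlock_image_isoIrr φ hb'
    have hbP : IsDefectGroup p M (isoIrr φ '' b')
        (P.subgroupOf (Subgroup.normalizer (P : Set G))) := by
      have := isDefectGroup_image_isoIrr (M := M) (p := p) φ hb'P
      rwa [hφ, map_normIso_subgroupOf, ← hφ] at this
    obtain ⟨B, hB, hBP, -, hcong⟩ := fm_up hM P hP _ hb hbP
    have hBc : ∀ x : G, x ∈ Subgroup.centralizer (P : Set G) →
        MemLocalIdeal M (blockCoeff B x - subgroupBlockCoeff H c x) := by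
      intro x hx
      have hxN := hCN hx
      have hxH := hH hxN
      rw [hsub c x hxH]
      have a1 := hcong ⟨x, hxN⟩ hx
      have a2 := hcong' (φ.symm ⟨x, hxN⟩) (by rw [hφ]; exact hcent x hx hxH)
      have e : blockCoeff (isoIrr φ '' b') (φ (φ.symm ⟨x, hxN⟩))
          = blockCoeff b' (φ.symm ⟨x, hxN⟩) := blockCoeff_image_isoIrr φ b' _
      rw [MulEquiv.apply_symm_apply] at e
      rw [e] at a1
      have e2 : ((φ.symm ⟨x, hxN⟩ : ↥(Subgroup.normalizer ((P.subgroupOf H : Subgroup H) : Set H)))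
          : H) = ⟨x, hxH⟩ := by
        rw [hφ]
        rfl
      rw [e2] at a2
      have a3 := MemLocalIdeal.sub M a1 a2
      rw [sub_sub_sub_cancel_right] at a3
      exact a3
    refine ⟨B, ⟨hB, hBP, hBc⟩, ?_⟩
    rintro B₂ ⟨hB₂, hB₂P, hcong₂⟩
    apply block_eq_of_brauer_eq hM P hP B₂ B hB₂ hB hB₂P
    intro x hx
    have a3 := MemLocalIdeal.sub M (hcong₂ x hx) (hBc x hx)
    rw [sub_sub_sub_cancel_right] at a3
    exact a3

end Cfsg.Agent.S4670
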