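import Cfsg.Statements.S4675
import Mathlib
import Cfsg.Agent.S4491
import Cfsg.Agent.S0908
import Cfsg.Agent.S0961
import Cfsg.Agent.Lib.Helper25.SecondSum
import Cfsg.Agent.Lib.Helper12.GenChar
import Cfsg.Agent.Lib.Helper2.PResSquares
import Cfsg.Agent.Lib.Helper25.ClassProd

set_option autoImplicit false
open Cfsg

namespace Cfsg.Agent.S4675

theorem bezout_finset {ι : Type*} [DecidableEq ι] (S : Finset ι) (f : ι → ℕ) :
    ∃ n : ι → ℤ, ∑ i ∈ S, n i * (f i : ℤ) = ((S.gcd f : ℕ) : ℤ) := by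
  induction S using Finset.induction_on with
  | empty => exact ⟨fun _ => 0, by simp⟩
  | insert a s ha ih =>
    obtain ⟨n, hn⟩ := ih
    refine ⟨fun i => if i = a then Nat.gcdA (f a) (s.gcd f)
      else Nat.gcdB (f a) (s.gcd f) * n i, ?_⟩
    rw [Finset.sum_insert ha, Finset.gcd_insert]
    beta_reduce
    rw [if_pos rfl]
    have h1 : ∑ i ∈ s, (if i = a then Nat.gcdA (f a) (s.gcd f)
        else Nat.gcdB (f a) (s.gcd f) * n i) * (f i : ℤ)
        = Nat.gcdB (f a) (s.gcd f) * ∑ i ∈ s, n i * (f i : ℤ) := by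
      rw [Finset.mul_sum]
      apply Finset.sum_congr rfl
      intro i hi
      have hia : i ≠ a := fun h => ha (by rw [← h]; exact hi)
      rw [if_neg hia]
      ring
    rw [h1, hn]
    have h2 := Nat.gcd_eq_gcd_ab (f a) (s.gcd f)
    rw [show GCDMonoid.gcd (f a) (s.gcd f) = Nat.gcd (f a) (s.gcd f) from rfl, h2]
    ring

open Cfsg.Agent.Lib.Helper2 Cfsg.Agent.Lib.Helper25 Cfsg.Agent.Lib.Helper12 in
open scoped ComplexConjugate in
/-- Fix a prime p and a maximal ideal M of the algebraic integers containing p. Let B be a p-block of the finite group G with defect group P and p-regular rank one (a single irreducible Brauer character). Then there are a function φ on G that is, on the p-regular elements, an integer combination of the members of B, and natural numbers d_χ (χ ∈ B), such that every χ ∈ B agrees with d_χ·φ on the p-regular elements and Σ_{χ ∈ B} d_χ² equals the order of P (the single Cartan invariant of B is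 the order of P). -/
theorem result {G : Type*} [Group G] [Fintype G] (p : ℕ) [Fact p.Prime] (M : Ideal Cfsg.AlgInt) (hM : Cfsg.IsPModular p M) (B : Set (Cfsg.IrrCharacter G)) (hB : Cfsg.IsPBlock M B) (P : Subgroup G) (hP : Cfsg.IsDefectGroup p M B P) (hl : Cfsg.blockRank p B = 1) : ∃ φ : G → ℂ, ∃ d : Cfsg.IrrCharacter G → ℕ, (∃ n : Cfsg.IrrCharacter G → ℤ, ∀ x : G, Cfsg.IsPRegular p x → φ x = ∑ᶠ ψ ∈ B, (n ψ : ℂ) * (ψ : G → ℂ) x) ∧ (∀ χ ∈ B, ∀ x : G, Cfsg.IsPRegular p x → (χ : G → ℂ) x = (d χ : ℂ) * φ x) ∧ ∑ᶠ χ ∈ B, d χ ^ 2 = Nat.card P := by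
  classical
  haveI : Fintype (IrrCharacter G) := Fintype.ofFinite _
  haveI hpr := isPrime_of_isPModular hM
  have hp : p.Prime := Fact.out
  have hBc : BlockClosed M B := blockClosed_of_isPBlock M hB
  obtain ⟨χ₁, hχ₁⟩ := isPBlock_nonempty hM hB
  set S : Finset (IrrCharacter G) := Finset.univ.filter (· ∈ B) with hS
  have hBS : B = ↑S := by ext χ; simp [hS]
  have hmemS : ∀ χ, χ ∈ S ↔ χ ∈ B := by intro χ; simp [hS]
  set deg : IrrCharacter G → ℕ := fun χ => charDegree (χ : G → ℂ) with hdeg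
  have hdeg1 : ∀ χ : IrrCharacter G, (χ : G → ℂ) 1 = (deg χ : ℂ) :=
    fun χ => irr_apply_one_eq_charDegree χ.2
  have hdegpos : ∀ χ : IrrCharacter G, 0 < deg χ := by
    intro χ
    obtain ⟨n, hn, hn1⟩ := irr_apply_one χ.2
    have : deg χ = n := charDegree_eq_of_apply_one _ n hn1
    rw [this]; exact hn
  have hreg1 : IsPRegular p (1 : G) := by
    unfold IsPRegular
    rw [orderOf_one]
    exact hp.one_lt.ne' ∘ Nat.dvd_one.mp
  unfold blockRank at hl
  obtain ⟨v₀, hv₀ne, hv₀⟩ := finrank_eq_one_iff'.mp hl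
  have hc : ∀ χ ∈ B, ∃ c : ℂ, ∀ x, IsPRegular p x →
      (χ : G → ℂ) x = c * (v₀ : G → ℂ) x := by
    intro χ hχ
    obtain ⟨c, hc⟩ := hv₀ ⟨pRegularPart p (χ : G → ℂ), Submodule.subset_span ⟨χ, hχ, rfl⟩⟩
    refine ⟨c, fun x hx => ?_⟩
    have h1 := congrFun (congrArg Subtype.val hc) x
    simp only [Submodule.coe_smul, Pi.smul_apply, smul_eq_mul] at h1
    rw [h1]; unfold pRegularPart; rw [if_pos hx]
  have hv1 : (v₀ : G → ℂ) 1 ≠ 0 := by
    intro h0
    obtain ⟨c, hc⟩ := hc χ₁ hχ₁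
    have h1 := hc 1 hreg1
    rw [h0, mul_zero, hdeg1] at h1
    have h2 := hdegpos χ₁
    exact h2.ne' (by exact_mod_cast h1)
  set ψ₀ : G → ℂ := fun x => (v₀ : G → ℂ) x / (v₀ : G → ℂ) 1 with hψ₀
  have hχψ : ∀ χ ∈ B, ∀ x, IsPRegular p x → (χ : G → ℂ) x = (deg χ : ℂ) * ψ₀ x := by
    intro χ hχ x hx
    obtain ⟨c, hc⟩ := hc χ hχ
    have h1 := hc 1 hreg1
    rw [hdeg1] at h1
    rw [hc x hx, h1, hψ₀]
    field_simp
  set g := S.gcd deg with hg
  have hgdvd : ∀ χ ∈ S, g ∣ deg χ := fun χ hχ => Finset.gcd_dvd hχ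
  have hgpos : 0 < g := by
    have h1 := hgdvd χ₁ ((hmemS χ₁).mpr hχ₁)
    exact Nat.pos_of_dvd_of_pos h1 (hdegpos χ₁)
  set d : IrrCharacter G → ℕ := fun χ => deg χ / g with hd
  have hdg : ∀ χ ∈ S, deg χ = g * d χ :=
    fun χ hχ => (Nat.mul_div_cancel' (hgdvd χ hχ)).symm
  obtain ⟨n, hn⟩ := bezout_finset S deg
  set φ : G → ℂ := fun x => (g : ℂ) * ψ₀ x with hφ
  have hχφ : ∀ χ ∈ B, ∀ x, IsPRegular p x → (χ : G → ℂ) x = (d χ : ℂ) * φ x := by
    intro χ hχ x hx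
    rw [hχψ χ hχ x hx, hφ, hdg χ ((hmemS χ).mpr hχ)]
    push_cast; ring
  have hnd : ∑ χ ∈ S, n χ * (d χ : ℤ) = 1 := by
    have h1 : (g : ℤ) * ∑ χ ∈ S, n χ * (d χ : ℤ) = (g : ℤ) * 1 := by
      rw [Finset.mul_sum, mul_one]
      refine Eq.trans ?_ hn
      apply Finset.sum_congr rfl
      intro χ hχ
      rw [hdg χ hχ]; push_cast; ring
    exact mul_left_cancel₀ (by exact_mod_cast hgpos.ne') h1
  refine ⟨φ, d, ⟨n, ?_⟩, hχφ, ?_⟩
  · intro x hx
    rw [hBS, finsum_mem_coe_finset]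
    have h1 : ∑ χ ∈ S, (n χ : ℂ) * (χ : G → ℂ) x
        = (∑ χ ∈ S, (n χ : ℂ) * (d χ : ℂ)) * φ x := by
      rw [Finset.sum_mul]
      apply Finset.sum_congr rfl
      intro χ hχ
      rw [hχφ χ ((hmemS χ).mp hχ) x hx]; ring
    rw [h1]
    have h2 : (∑ χ ∈ S, (n χ : ℂ) * (d χ : ℂ)) = 1 := by exact_mod_cast hnd
    rw [h2, one_mul]
  · rw [hBS, finsum_mem_coe_finset]
    set c := ∑ χ ∈ S, d χ ^ 2 with hcdef
    set R : ℂ := ∑ s : G, if IsPRegular p s then φ s * conj (φ s) else 0 with hR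
    have hcR : (c : ℂ) * R = (Nat.card G : ℂ) := by
      have h0 := sum_regular_eq_blockRank hM B hBc
      unfold blockRank at h0
      rw [hl, Nat.cast_one, mul_one] at h0
      rw [← h0, hR, Finset.mul_sum]
      apply Finset.sum_congr rfl
      intro s _
      by_cases hs : IsPRegular p s
      · rw [if_pos hs, if_pos hs]
        have h1 : ∑ θ : IrrCharacter G,
            (if θ ∈ B then (θ : G → ℂ) s * (θ : G → ℂ) s⁻¹ else 0)
            = ∑ θ ∈ S, ((d θ : ℂ)) ^ 2 * (φ s * conj (φ s)) := by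
          rw [hS, Finset.sum_filter]
          apply Finset.sum_congr rfl
          intro θ _
          by_cases hθ : θ ∈ B
          · rw [if_pos hθ, if_pos hθ, irr_inv, hχφ θ hθ s hs, map_mul,
              Complex.conj_natCast]; ring
          · rw [if_neg hθ, if_neg hθ]
        rw [h1, ← Finset.sum_mul, hcdef]; push_cast; ring
      · rw [if_neg hs, if_neg hs, mul_zero]
    set a := (Nat.card G).factorization p with ha
    have hdiv : ∀ χ₀ ∈ S, ∀ χ ∈ S,
        (c : ℤ) ∣ ((p ^ a : ℕ) : ℤ) * (d χ₀ : ℤ) * (d χ : ℤ) := by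
      intro χ₀ hχ₀ χ hχ
      have hgen := Cfsg.Agent.S0961.result p χ₀
      obtain ⟨z, hz⟩ := genChar_inner_int hgen
        (isGeneralizedCharacter_of_isCharacter (isCharacter_of_isIrrCharacter χ.2))
      rw [classInner_def] at hz
      have hsum : ∑ x : G, (if p ∣ orderOf x then 0
            else ((p ^ (Nat.card G).factorization p : ℕ) : ℂ) * (χ₀ : G → ℂ) x)
            * conj ((χ : G → ℂ) x)
          = ((p ^ a : ℕ) : ℂ) * (d χ₀ : ℂ) * (d χ : ℂ) * R := by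
        rw [hR, Finset.mul_sum]
        apply Finset.sum_congr rfl
        intro x _
        by_cases hx : p ∣ orderOf x
        · rw [if_pos hx, if_neg (show ¬ IsPRegular p x from fun h => h hx)]; ring
        · rw [if_neg hx, if_pos (show IsPRegular p x from hx), hχφ χ₀ ((hmemS χ₀).mp hχ₀) x hx,
            hχφ χ ((hmemS χ).mp hχ) x hx, map_mul, Complex.conj_natCast]; ring
      rw [hsum] at hz
      refine ⟨z, ?_⟩
      have hne := card_ne_zero_complex G
      have h3 : (((p ^ a : ℕ) : ℂ) * (d χ₀ : ℂ) * (d χ : ℂ)) = (c : ℂ) * (z : ℂ) := by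
        rw [← hz]
        have h4 : (c : ℂ) * ((Nat.card G : ℂ)⁻¹
            * (((p ^ a : ℕ) : ℂ) * (d χ₀ : ℂ) * (d χ : ℂ) * R))
            = (Nat.card G : ℂ)⁻¹ * (((p ^ a : ℕ) : ℂ) * (d χ₀ : ℂ) * (d χ : ℂ))
              * ((c : ℂ) * R) := by ring
        rw [h4, hcR]
        field_simp
      exact_mod_cast h3
    have hcdvd : (c : ℤ) ∣ ((p ^ a : ℕ) : ℤ) := by
      have h1 : ((p ^ a : ℕ) : ℤ) = ∑ χ₀ ∈ S, ∑ χ ∈ S,
          n χ₀ * n χ * (((p ^ a : ℕ) : ℤ) * (d χ₀ : ℤ) * (d χ : ℤ)) := by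
        have h2 : ∀ χ₀ ∈ S, ∑ χ ∈ S,
            n χ₀ * n χ * (((p ^ a : ℕ) : ℤ) * (d χ₀ : ℤ) * (d χ : ℤ))
            = n χ₀ * (d χ₀ : ℤ) * ((p ^ a : ℕ) : ℤ) := by
          intro χ₀ _
          have h3 : ∑ χ ∈ S, n χ₀ * n χ * (((p ^ a : ℕ) : ℤ) * (d χ₀ : ℤ) * (d χ : ℤ))
              = n χ₀ * (d χ₀ : ℤ) * ((p ^ a : ℕ) : ℤ) * ∑ χ ∈ S, n χ * (d χ : ℤ) := by
            rw [Finset.mul_sum]; apply Finset.sum_congr rfl; intro χ _; ring
          rw [h3, hnd, mul_one]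
        rw [Finset.sum_congr rfl h2, ← Finset.sum_mul, hnd, one_mul]
      rw [h1]
      apply Finset.dvd_sum; intro χ₀ hχ₀
      apply Finset.dvd_sum; intro χ hχ
      exact Dvd.dvd.mul_left (hdiv χ₀ hχ₀ χ hχ) _
    have hcdvd' : c ∣ p ^ a := by exact_mod_cast hcdvd
    obtain ⟨j, hja, hj⟩ := (Nat.dvd_prime_pow hp).mp hcdvd'
    have h4491 := Cfsg.Agent.S4491.result p M hM B hB
    have hsumdeg : ∑ᶠ χ ∈ B, charDegree (χ : G → ℂ) ^ 2 = g ^ 2 * c := by
      rw [hBS, finsum_mem_coe_finset, hcdef, Finset.mul_sum]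
      apply Finset.sum_congr rfl
      intro χ hχ
      show deg χ ^ 2 = _
      rw [hdg χ hχ]; ring
    rw [hsumdeg, hj, Nat.factorization_mul (pow_ne_zero 2 hgpos.ne') (pow_ne_zero j hp.ne_zero),
      Nat.factorization_pow, Nat.factorization_pow] at h4491
    simp only [Finsupp.coe_add, Finsupp.coe_smul, Pi.add_apply, Pi.smul_apply, smul_eq_mul,
      Nat.Prime.factorization_self hp, mul_one] at h4491
    have h908 := Cfsg.Agent.S0908.result p M hM B hB P hP
    unfold blockDefect at h4491 h908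
    set h₀ := sInf ((fun χ : IrrCharacter G => (charDegree (χ : G → ℂ)).factorization p) '' B)
      with hh₀
    have hne : ((fun χ : IrrCharacter G => (charDegree (χ : G → ℂ)).factorization p) '' B).Nonempty :=
      ⟨_, χ₁, hχ₁, rfl⟩
    obtain ⟨χ₂, hχ₂, hχ₂h⟩ := Nat.sInf_mem hne
    have hle : ∀ χ ∈ B, h₀ ≤ (deg χ).factorization p := by
      intro χ hχ
      exact Nat.sInf_le ⟨χ, hχ, rfl⟩
    have hg1 : h₀ ≤ g.factorization p := by
      apply (hp.pow_dvd_iff_le_factorization hgpos.ne').mp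
      apply Finset.dvd_gcd
      intro χ hχ
      exact (hp.pow_dvd_iff_le_factorization (hdegpos χ).ne').mpr (hle χ ((hmemS χ).mp hχ))
    have hg2 : g.factorization p ≤ h₀ := by
      rw [hh₀, ← hχ₂h]
      exact (Nat.factorization_le_iff_dvd hgpos.ne' (hdegpos χ₂).ne').mpr
        (hgdvd χ₂ ((hmemS χ₂).mpr hχ₂)) p
    rw [hj, h908]
    congr 1
    omega

end Cfsg.Agent.S4675
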