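import Cfsg.Statements.S4676
import Cfsg.Agent.Lib.Helper24.BlockMat
import Cfsg.Agent.Lib.Helper25.CharSum

set_option autoImplicit false
open Cfsg

namespace Cfsg.Agent.S4676

open Cfsg.Agent.Lib.Helper2 Cfsg.Agent.Lib.Helper25 Cfsg.Agent.Lib.Helper24 in
/-- Fix a prime p and a maximal ideal M of the algebraic integers containing p. Let B be a p-block of the finite group G with defect group P. For χ in B, let the height of χ be the exponent of p in the degree of χ minus the least such exponent over the members of B. Then the sum over χ in B of p raised to twice the height of χ is at most the integer part of (order of P)²/4, plus 1; in particular B has at most that many irreducible characters. -/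
theorem result {G : Type*} [Group G] [Fintype G] (p : ℕ) [Fact p.Prime] (M : Ideal Cfsg.AlgInt) (hM : Cfsg.IsPModular p M) (B : Set (Cfsg.IrrCharacter G)) (hB : Cfsg.IsPBlock M B) (P : Subgroup G) (hP : Cfsg.IsDefectGroup p M B P) : ∑ᶠ χ ∈ B, p ^ (2 * Cfsg.blockHeight p B (χ : G → ℂ)) ≤ Nat.card P ^ 2 / 4 + 1 := by
  classical
  haveI : Fintype (IrrCharacter G) := Fintype.ofFinite _
  have hp : p.Prime := Fact.out
  have hBne := isPBlock_nonempty hM hB
  obtain ⟨χ₀, hχ₀, h0, hmin⟩ := exists_height_zero p B hBne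
  set a := (Nat.card G).factorization p with ha
  set h := (charDegree (χ₀ : G → ℂ)).factorization p with hh
  have hha : h ≤ a := by
    obtain ⟨hd0, hdd⟩ := Cfsg.Agent.S4424.degree_facts χ₀
    exact (Nat.factorization_le_iff_dvd hd0 Nat.card_pos.ne').mpr hdd p
  have hSne : ((fun ψ : IrrCharacter G => (charDegree (ψ : G → ℂ)).factorization p) '' B).Nonempty :=
    hBne.image _
  have hsInf : sInf ((fun ψ : IrrCharacter G => (charDegree (ψ : G → ℂ)).factorization p) '' B) = h := by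
    apply le_antisymm
    · exact Nat.sInf_le ⟨χ₀, hχ₀, rfl⟩
    · apply le_csInf hSne
      rintro _ ⟨ξ, hξ, rfl⟩
      exact hmin ξ hξ
  have hdef : blockDefect p B = a - h := by
    unfold blockDefect
    rw [hsInf]
  have hht : ∀ ξ : IrrCharacter G, blockHeight p B (ξ : G → ℂ)
      = (charDegree (ξ : G → ℂ)).factorization p - h := by
    intro ξ
    unfold blockHeight
    rw [hsInf]
  have hcardP : Nat.card P = p ^ (a - h) := by
    rw [card_of_isDefectGroup hM B hB P hP, hdef]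
  have hpz : (p : ℤ) ≠ 0 := by exact_mod_cast hp.ne_zero
  -- the normalized row of `χ₀`
  have hdiv : ∀ ξ : IrrCharacter G, ξ ∈ B → ∃ n : ℤ, mInt p χ₀ ξ = (p : ℤ) ^ h * n ∧
      (p : ℤ) ^ (2 * blockHeight p B (ξ : G → ℂ)) ≤ n ^ 2 := by
    intro ξ hξ
    obtain ⟨hz0, -⟩ := mInt_of_height_zero hM B hB χ₀ hχ₀ h0 ξ hξ
    obtain ⟨w, hw⟩ := pow_dvd_mInt_right p χ₀ ξ
    have hw0 : w ≠ 0 := by
      rintro rfl
      apply hz0
      rw [hw, mul_zero]
    have hle := hmin ξ hξ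
    refine ⟨(p : ℤ) ^ blockHeight p B (ξ : G → ℂ) * w, ?_, ?_⟩
    · rw [hw, hht ξ, ← mul_assoc, ← pow_add]
      congr 2
      omega
    · have h1 : 1 ≤ w ^ 2 := by
        have : 0 < w ^ 2 := by positivity
        omega
      have h2 : (0 : ℤ) ≤ (p : ℤ) ^ (2 * blockHeight p B (ξ : G → ℂ)) := by positivity
      calc (p : ℤ) ^ (2 * blockHeight p B (ξ : G → ℂ))
          = (p : ℤ) ^ (2 * blockHeight p B (ξ : G → ℂ)) * 1 := by ring
        _ ≤ (p : ℤ) ^ (2 * blockHeight p B (ξ : G → ℂ)) * w ^ 2 :=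
            mul_le_mul_of_nonneg_left h1 h2
        _ = ((p : ℤ) ^ blockHeight p B (ξ : G → ℂ) * w) ^ 2 := by ring
  choose! n hn hn2 using hdiv
  set FB := Finset.univ.filter (· ∈ B) with hFB
  have hsum : ∑ ξ ∈ FB, mInt p χ₀ ξ ^ 2 = (p : ℤ) ^ a * mInt p χ₀ χ₀ := by
    rw [← mInt_sum_sq p χ₀, hFB, Finset.sum_filter]
    apply Finset.sum_congr rfl
    intro ξ _
    split_ifs with hξ
    · rfl
    · rw [mInt_eq_zero_of_not_mem hM B hB χ₀ hχ₀ ξ hξ]; simp
  have hsum2 : ∑ ξ ∈ FB, n ξ ^ 2 = (p : ℤ) ^ (a - h) * n χ₀ := by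
    have hp0 : ((p : ℤ) ^ h) ^ 2 ≠ 0 := by positivity
    apply mul_left_cancel₀ hp0
    rw [Finset.mul_sum]
    calc ∑ ξ ∈ FB, ((p : ℤ) ^ h) ^ 2 * n ξ ^ 2 = ∑ ξ ∈ FB, mInt p χ₀ ξ ^ 2 := by
          apply Finset.sum_congr rfl
          intro ξ hξ
          rw [hn ξ (Finset.mem_filter.mp hξ).2]; ring
      _ = (p : ℤ) ^ a * mInt p χ₀ χ₀ := hsum
      _ = ((p : ℤ) ^ h) ^ 2 * ((p : ℤ) ^ (a - h) * n χ₀) := by
          rw [hn χ₀ hχ₀]
          have e : (p : ℤ) ^ a = (p : ℤ) ^ h * (p : ℤ) ^ (a - h) := by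
            rw [← pow_add]; congr 1; omega
          rw [e]; ring
  have hmem : χ₀ ∈ FB := Finset.mem_filter.mpr ⟨Finset.mem_univ _, hχ₀⟩
  have hsplit := Finset.add_sum_erase FB (fun ξ => n ξ ^ 2) hmem
  have hge : ((∑ ξ ∈ FB.erase χ₀, p ^ (2 * blockHeight p B (ξ : G → ℂ)) : ℕ) : ℤ)
      ≤ ∑ ξ ∈ FB.erase χ₀, n ξ ^ 2 := by
    push_cast
    apply Finset.sum_le_sum
    intro ξ hξ
    exact hn2 ξ (Finset.mem_filter.mp (Finset.mem_of_mem_erase hξ)).2
  have key : 4 * ∑ ξ ∈ FB.erase χ₀, n ξ ^ 2 ≤ ((p : ℤ) ^ (a - h)) ^ 2 := by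
    have e : ∑ ξ ∈ FB.erase χ₀, n ξ ^ 2 = (p : ℤ) ^ (a - h) * n χ₀ - n χ₀ ^ 2 := by
      have := hsplit
      linarith
    rw [e]
    nlinarith [sq_nonneg ((p : ℤ) ^ (a - h) - 2 * n χ₀)]
  -- the finsum
  have hfin : ∑ᶠ χ ∈ B, p ^ (2 * Cfsg.blockHeight p B (χ : G → ℂ))
      = ∑ ξ ∈ FB, p ^ (2 * blockHeight p B (ξ : G → ℂ)) := by
    rw [finsum_mem_eq_sum_indicator, hFB, Finset.sum_filter]
    apply Finset.sum_congr rfl
    intro χ _
    rw [Set.indicator_apply]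
  rw [hfin, ← Finset.add_sum_erase FB _ hmem, h0, mul_zero, pow_zero, add_comm, hcardP]
  apply Nat.add_le_add_right
  rw [Nat.le_div_iff_mul_le (by norm_num)]
  have : ((∑ ξ ∈ FB.erase χ₀, p ^ (2 * blockHeight p B (ξ : G → ℂ)) : ℕ) : ℤ) * 4
      ≤ (((p ^ (a - h)) ^ 2 : ℕ) : ℤ) := by
    push_cast
    push_cast at hge
    linarith
  exact_mod_cast this

end Cfsg.Agent.S4676
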