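import Cfsg.Statements.S4710
import Cfsg.Agent.Lib.Helper24.BlockMat

set_option autoImplicit false
open Cfsg

namespace Cfsg.Agent.S4710

section aux

open Cfsg.Agent.Lib.Helper2 Cfsg.Agent.Lib.Helper25 Cfsg.Agent.Lib.Helper24

variable {G : Type*} [Group G] [Fintype G]

/-- the sum of the squares of a row, over the block -/
theorem row_sum_block {p : ℕ} [Fact p.Prime] {M : Ideal AlgInt} (hM : IsPModular p M)
    [Fintype (IrrCharacter G)] (B : Set (IrrCharacter G)) [DecidablePred (· ∈ B)]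
    (hB : IsPBlock M B) (χ : IrrCharacter G) (hχ : χ ∈ B) :
    ∑ ξ ∈ Finset.univ.filter (· ∈ B), mInt p χ ξ ^ 2
      = (p : ℤ) ^ (Nat.card G).factorization p * mInt p χ χ := by
  rw [← mInt_sum_sq p χ, Finset.sum_filter]
  apply Finset.sum_congr rfl
  intro ξ _
  split_ifs with hξ
  · rfl
  · rw [mInt_eq_zero_of_not_mem hM B hB χ hχ ξ hξ]; simp

/-- the normalized row of a character: dividing by `p ^ e` where `e` is the exponent of `p`
in its degree -/
theorem row_norm {p : ℕ} [Fact p.Prime] {M : Ideal AlgInt} (hM : IsPModular p M)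
    [Fintype (IrrCharacter G)] (B : Set (IrrCharacter G)) [DecidablePred (· ∈ B)]
    (hB : IsPBlock M B) (χ : IrrCharacter G) (hχ : χ ∈ B) :
    ∃ c : IrrCharacter G → ℤ,
      (∀ ξ, mInt p χ ξ = (p : ℤ) ^ (charDegree (χ : G → ℂ)).factorization p * c ξ) ∧
      ∑ ξ ∈ Finset.univ.filter (· ∈ B), c ξ ^ 2
        = (p : ℤ) ^ ((Nat.card G).factorization p - (charDegree (χ : G → ℂ)).factorization p)
          * c χ := by
  have hp : p.Prime := Fact.out
  have hpz : (p : ℤ) ≠ 0 := by exact_mod_cast hp.ne_zero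
  set a := (Nat.card G).factorization p with ha
  set e := (charDegree (χ : G → ℂ)).factorization p with he
  obtain ⟨hd0, hdd⟩ := Cfsg.Agent.S4424.degree_facts χ
  have hea : e ≤ a := (Nat.factorization_le_iff_dvd hd0 Nat.card_pos.ne').mpr hdd p
  have hrow : ∀ ξ : IrrCharacter G, ∃ c : ℤ, mInt p χ ξ = (p : ℤ) ^ e * c :=
    fun ξ => pow_dvd_mInt_left p χ ξ
  choose c hc using hrow
  refine ⟨c, hc, ?_⟩
  have hp0 : ((p : ℤ) ^ e) ^ 2 ≠ 0 := by positivity
  apply mul_left_cancel₀ hp0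
  rw [Finset.mul_sum]
  calc ∑ ξ ∈ Finset.univ.filter (· ∈ B), ((p : ℤ) ^ e) ^ 2 * c ξ ^ 2
      = ∑ ξ ∈ Finset.univ.filter (· ∈ B), mInt p χ ξ ^ 2 := by
        apply Finset.sum_congr rfl
        intro ξ _
        rw [hc ξ]; ring
    _ = (p : ℤ) ^ a * mInt p χ χ := row_sum_block hM B hB χ hχ
    _ = ((p : ℤ) ^ e) ^ 2 * ((p : ℤ) ^ (a - e) * c χ) := by
        rw [hc χ]
        have e1 : (p : ℤ) ^ a = (p : ℤ) ^ e * (p : ℤ) ^ (a - e) := by
          rw [← pow_add]; congr 1; omega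
        rw [e1]; ring

/-- a character of positive height has degree not divisible by `p ^ (a - 1)` -/
theorem pos_height_bound {p : ℕ} [Fact p.Prime] {M : Ideal AlgInt} (hM : IsPModular p M)
    (B : Set (IrrCharacter G)) (hB : IsPBlock M B) (χ : IrrCharacter G) (hχ : χ ∈ B)
    (hpos : blockHeight p B (χ : G → ℂ) ≠ 0) :
    (charDegree (χ : G → ℂ)).factorization p + 2 ≤ (Nat.card G).factorization p := by
  classical
  haveI : Fintype (IrrCharacter G) := Fintype.ofFinite _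
  have hp : p.Prime := Fact.out
  have hpz : (p : ℤ) ≠ 0 := by exact_mod_cast hp.ne_zero
  have hBne := isPBlock_nonempty hM hB
  obtain ⟨χ₀, hχ₀, h0, hmin⟩ := exists_height_zero p B hBne
  set a := (Nat.card G).factorization p with ha
  set e := (charDegree (χ : G → ℂ)).factorization p with he
  obtain ⟨hd0, hdd⟩ := Cfsg.Agent.S4424.degree_facts χ
  have hea : e ≤ a := (Nat.factorization_le_iff_dvd hd0 Nat.card_pos.ne').mpr hdd p
  by_contra hcon
  have hne : χ ≠ χ₀ := by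
    rintro rfl
    exact hpos h0
  obtain ⟨c, hc, hsum2⟩ := row_norm hM B hB χ hχ
  rw [← ha, ← he] at hsum2
  set FB := Finset.univ.filter (· ∈ B) with hFB
  have hc0 : c χ₀ ≠ 0 := by
    intro h'
    have h1 := (mInt_of_height_zero hM B hB χ₀ hχ₀ h0 χ hχ).1
    apply h1
    rw [mInt_symm, hc χ₀, h', mul_zero]
  have hpc : (p : ℤ) ∣ c χ := by
    obtain ⟨w, hw⟩ := pow_succ_dvd_mInt_self hM B hB χ hχ hpos
    rw [hc χ, pow_succ, mul_assoc] at hw
    have hpe : ((p : ℤ) ^ e) ≠ 0 := by positivity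
    exact ⟨w, mul_left_cancel₀ hpe hw⟩
  have hmemχ : χ ∈ FB := Finset.mem_filter.mpr ⟨Finset.mem_univ _, hχ⟩
  have hmem₀ : χ₀ ∈ FB.erase χ :=
    Finset.mem_erase.mpr ⟨fun h' => hne h'.symm, Finset.mem_filter.mpr ⟨Finset.mem_univ _, hχ₀⟩⟩
  have hsplit := Finset.add_sum_erase FB (fun ξ => c ξ ^ 2) hmemχ
  have hsplit2 := Finset.add_sum_erase (FB.erase χ) (fun ξ => c ξ ^ 2) hmem₀
  have hnn : 0 ≤ ∑ ξ ∈ (FB.erase χ).erase χ₀, c ξ ^ 2 :=
    Finset.sum_nonneg (fun ξ _ => sq_nonneg (c ξ))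
  have hc0' : 1 ≤ c χ₀ ^ 2 := by
    have : 0 < c χ₀ ^ 2 := by positivity
    omega
  have hineq : c χ ^ 2 + 1 ≤ (p : ℤ) ^ (a - e) * c χ := by
    have := hsplit
    have := hsplit2
    linarith
  obtain ⟨w, hw⟩ := hpc
  have hae : a - e = 0 ∨ a - e = 1 := by omega
  have hp1 : (1 : ℤ) < p := by exact_mod_cast hp.one_lt
  rcases hae with hae | hae
  · rw [hae, pow_zero, one_mul, hw] at hineq
    nlinarith [sq_nonneg ((p : ℤ) * w - 1), sq_nonneg ((p : ℤ) * w)]
  · rw [hae, pow_one, hw] at hineq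
    rcases le_or_gt w 0 with hw0 | hw0
    · nlinarith [sq_nonneg ((p : ℤ) * w), mul_nonneg (sq_nonneg (p : ℤ)) (neg_nonneg.mpr hw0)]
    · have hw1 : 0 ≤ w - 1 := by omega
      have hw2 : 0 ≤ w := by omega
      nlinarith [mul_nonneg (mul_nonneg (sq_nonneg (p : ℤ)) hw2) hw1]

end aux

open Cfsg.Agent.Lib.Helper2 Cfsg.Agent.Lib.Helper25 Cfsg.Agent.Lib.Helper24 in
/-- Let p be a prime, M a maximal ideal of the algebraic integers containing p, and B a p-block of defect d of the finite group G containing k irreducible characters. If B contains a character of positive height then 2k ≤ p^(2d − 2); and every character in B has height 0 when d ≤ 1 and height at most d − 2 when d ≥ 2. -/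
theorem result {G : Type*} [Group G] [Finite G] (p : ℕ) [Fact p.Prime] (M : Ideal Cfsg.AlgInt) (hM : Cfsg.IsPModular p M) (B : Set (Cfsg.IrrCharacter G)) (hB : Cfsg.IsPBlock M B) (d : ℕ) (hd : Cfsg.blockDefect p B = d) : ((∃ χ ∈ B, 0 < Cfsg.blockHeight p B (χ : G → ℂ)) → 2 * Nat.card B ≤ p ^ (2 * d - 2)) ∧ ∀ χ ∈ B, (d ≤ 1 → Cfsg.blockHeight p B (χ : G → ℂ) = 0) ∧ (2 ≤ d → Cfsg.blockHeight p B (χ : G → ℂ) ≤ d - 2) := by
  classical
  haveI : Fintype G := Fintype.ofFinite G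
  haveI : Fintype (IrrCharacter G) := Fintype.ofFinite _
  have hp : p.Prime := Fact.out
  have hpz : (p : ℤ) ≠ 0 := by exact_mod_cast hp.ne_zero
  have hBne := isPBlock_nonempty hM hB
  obtain ⟨χ₀, hχ₀, h0, hmin⟩ := exists_height_zero p B hBne
  set a := (Nat.card G).factorization p with ha
  set h := (charDegree (χ₀ : G → ℂ)).factorization p with hh
  have hha : h ≤ a := by
    obtain ⟨hd0, hdd⟩ := Cfsg.Agent.S4424.degree_facts χ₀
    exact (Nat.factorization_le_iff_dvd hd0 Nat.card_pos.ne').mpr hdd p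
  have hSne : ((fun ψ : IrrCharacter G => (charDegree (ψ : G → ℂ)).factorization p) '' B).Nonempty :=
    hBne.image _
  have hsInf : sInf ((fun ψ : IrrCharacter G => (charDegree (ψ : G → ℂ)).factorization p) '' B) = h := by
    apply le_antisymm
    · exact Nat.sInf_le ⟨χ₀, hχ₀, rfl⟩
    · apply le_csInf hSne
      rintro _ ⟨ξ, hξ, rfl⟩
      exact hmin ξ hξ
  have hdef : d = a - h := by
    rw [← hd]
    unfold blockDefect
    rw [hsInf]
  have hht : ∀ ξ : IrrCharacter G, blockHeight p B (ξ : G → ℂ)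
      = (charDegree (ξ : G → ℂ)).factorization p - h := by
    intro ξ
    unfold blockHeight
    rw [hsInf]
  -- heights
  have hbound : ∀ χ ∈ B, blockHeight p B (χ : G → ℂ) ≠ 0 →
      blockHeight p B (χ : G → ℂ) + 2 ≤ d := by
    intro χ hχ hpos
    have h1 := pos_height_bound hM B hB χ hχ hpos
    rw [hht χ, hdef]
    rw [← ha] at h1
    have := hmin χ hχ
    omega
  refine ⟨?_, fun χ hχ => ⟨fun hd1 => ?_, fun hd2 => ?_⟩⟩
  · rintro ⟨χ₁, hχ₁, hpos₁⟩
    have hd3 := hbound χ₁ hχ₁ hpos₁.ne'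
    set FB := Finset.univ.filter (· ∈ B) with hFB
    set F0 := FB.filter (fun ξ : IrrCharacter G => blockHeight p B (ξ : G → ℂ) = 0) with hF0
    set F1 := FB.filter (fun ξ : IrrCharacter G => ¬ blockHeight p B (ξ : G → ℂ) = 0) with hF1
    have hcardsum : F0.card + F1.card = FB.card := by
      rw [hF0, hF1]
      convert Finset.card_filter_add_card_filter_not (s := FB)
        (fun ξ : IrrCharacter G => blockHeight p B (ξ : G → ℂ) = 0)
    have hcard : Nat.card B = FB.card := by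
      rw [Nat.card_eq_fintype_card, hFB]
      exact Fintype.card_subtype (· ∈ B)
    -- the row of `χ₁` bounds the number of characters of height zero
    set e₁ := (charDegree (χ₁ : G → ℂ)).factorization p with he₁
    have he₁h : h + 1 ≤ e₁ := by
      have := hht χ₁
      omega
    obtain ⟨c, hc, hsumc⟩ := row_norm hM B hB χ₁ hχ₁
    rw [← ha, ← he₁, ← hFB] at hsumc
    have hmem₁ : χ₁ ∈ FB := Finset.mem_filter.mpr ⟨Finset.mem_univ _, hχ₁⟩
    have hsplit₁ := Finset.add_sum_erase FB (fun ξ => c ξ ^ 2) hmem₁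
    have hF0sub : F0 ⊆ FB.erase χ₁ := by
      intro ξ hξ
      rw [hF0, Finset.mem_filter] at hξ
      refine Finset.mem_erase.mpr ⟨?_, hξ.1⟩
      rintro rfl
      exact hpos₁.ne' hξ.2
    have hK0 : (F0.card : ℤ) ≤ ∑ ξ ∈ FB.erase χ₁, c ξ ^ 2 := by
      have h1 : ∑ ξ ∈ F0, (1 : ℤ) ≤ ∑ ξ ∈ F0, c ξ ^ 2 := by
        apply Finset.sum_le_sum
        intro ξ hξ
        rw [hF0, Finset.mem_filter] at hξ
        have hξB : ξ ∈ B := (Finset.mem_filter.mp hξ.1).2
        have hne0 : c ξ ≠ 0 := by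
          intro h'
          have h2 := (mInt_of_height_zero hM B hB ξ hξB hξ.2 χ₁ hχ₁).1
          apply h2
          rw [mInt_symm, hc ξ, h', mul_zero]
        have : 0 < c ξ ^ 2 := by positivity
        omega
      have h2 : ∑ ξ ∈ F0, c ξ ^ 2 ≤ ∑ ξ ∈ FB.erase χ₁, c ξ ^ 2 :=
        Finset.sum_le_sum_of_subset_of_nonneg hF0sub (fun ξ _ _ => sq_nonneg (c ξ))
      have h3 : ∑ ξ ∈ F0, (1 : ℤ) = (F0.card : ℤ) := by simp
      linarith
    have hK0' : 4 * (F0.card : ℤ) ≤ ((p : ℤ) ^ (a - e₁)) ^ 2 := by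
      have e : ∑ ξ ∈ FB.erase χ₁, c ξ ^ 2 = (p : ℤ) ^ (a - e₁) * c χ₁ - c χ₁ ^ 2 := by
        have := hsplit₁
        linarith
      rw [e] at hK0
      nlinarith [sq_nonneg ((p : ℤ) ^ (a - e₁) - 2 * c χ₁)]
    -- the row of `χ₀` bounds the number of characters of positive height
    obtain ⟨n, hn, hsumn⟩ := row_norm hM B hB χ₀ hχ₀
    rw [← ha, ← hh, ← hFB] at hsumn
    have hmem₀ : χ₀ ∈ FB := Finset.mem_filter.mpr ⟨Finset.mem_univ _, hχ₀⟩
    have hsplit₀ := Finset.add_sum_erase FB (fun ξ => n ξ ^ 2) hmem₀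
    have hF1sub : F1 ⊆ FB.erase χ₀ := by
      intro ξ hξ
      rw [hF1, Finset.mem_filter] at hξ
      refine Finset.mem_erase.mpr ⟨?_, hξ.1⟩
      rintro rfl
      exact hξ.2 h0
    have hK1 : (F1.card : ℤ) * (p : ℤ) ^ 2 ≤ ∑ ξ ∈ FB.erase χ₀, n ξ ^ 2 := by
      have h1 : ∑ ξ ∈ F1, (p : ℤ) ^ 2 ≤ ∑ ξ ∈ F1, n ξ ^ 2 := by
        apply Finset.sum_le_sum
        intro ξ hξ
        rw [hF1, Finset.mem_filter] at hξ
        have hξB : ξ ∈ B := (Finset.mem_filter.mp hξ.1).2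
        obtain ⟨hz0, -⟩ := mInt_of_height_zero hM B hB χ₀ hχ₀ h0 ξ hξB
        obtain ⟨w, hw⟩ := pow_dvd_mInt_right p χ₀ ξ
        have hw0 : w ≠ 0 := by
          rintro rfl
          apply hz0
          rw [hw, mul_zero]
        have hle : h + 1 ≤ (charDegree (ξ : G → ℂ)).factorization p := by
          have h1 := hht ξ
          have h2 := hξ.2
          omega
        obtain ⟨j, hj⟩ : ∃ j, (charDegree (ξ : G → ℂ)).factorization p = h + 1 + j :=
          ⟨(charDegree (ξ : G → ℂ)).factorization p - h - 1, by omega⟩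
        have hnξ : n ξ = (p : ℤ) * ((p : ℤ) ^ j * w) := by
          have h3 := hn ξ
          rw [hw, hj] at h3
          have hph : ((p : ℤ) ^ h) ≠ 0 := by positivity
          apply mul_left_cancel₀ hph
          rw [← h3]; ring
        rw [hnξ]
        have h4 : 1 ≤ ((p : ℤ) ^ j * w) ^ 2 := by
          have hjw : (p : ℤ) ^ j * w ≠ 0 := mul_ne_zero (by positivity) hw0
          have : 0 < ((p : ℤ) ^ j * w) ^ 2 := by positivity
          omega
        nlinarith [sq_nonneg (p : ℤ)]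
      have h2 : ∑ ξ ∈ F1, n ξ ^ 2 ≤ ∑ ξ ∈ FB.erase χ₀, n ξ ^ 2 :=
        Finset.sum_le_sum_of_subset_of_nonneg hF1sub (fun ξ _ _ => sq_nonneg (n ξ))
      have h3 : ∑ ξ ∈ F1, (p : ℤ) ^ 2 = (F1.card : ℤ) * (p : ℤ) ^ 2 := by simp
      linarith
    have hK1' : 4 * ((F1.card : ℤ) * (p : ℤ) ^ 2) ≤ ((p : ℤ) ^ (a - h)) ^ 2 := by
      have e : ∑ ξ ∈ FB.erase χ₀, n ξ ^ 2 = (p : ℤ) ^ (a - h) * n χ₀ - n χ₀ ^ 2 := by
        have := hsplit₀
        linarith
      rw [e] at hK1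
      nlinarith [sq_nonneg ((p : ℤ) ^ (a - h) - 2 * n χ₀)]
    -- combine
    have hD : a - h = d := hdef.symm
    have hpow1 : ((p : ℤ) ^ (a - h)) ^ 2 = (p : ℤ) ^ 2 * (p : ℤ) ^ (2 * d - 2) := by
      rw [hD, ← pow_mul, ← pow_add]
      congr 1
      omega
    have hK1'' : 4 * (F1.card : ℤ) ≤ (p : ℤ) ^ (2 * d - 2) := by
      rw [hpow1] at hK1'
      have hp2 : (0 : ℤ) < (p : ℤ) ^ 2 := by positivity
      have : (p : ℤ) ^ 2 * (4 * (F1.card : ℤ)) ≤ (p : ℤ) ^ 2 * (p : ℤ) ^ (2 * d - 2) := by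
        linarith
      exact le_of_mul_le_mul_left this hp2
    have hpow0 : ((p : ℤ) ^ (a - e₁)) ^ 2 ≤ (p : ℤ) ^ (2 * d - 2) := by
      rw [← pow_mul]
      apply pow_le_pow_right₀
      · exact_mod_cast hp.one_lt.le
      · omega
    have hfinal : (2 * (FB.card : ℤ)) ≤ (p : ℤ) ^ (2 * d - 2) := by
      have : (FB.card : ℤ) = (F0.card : ℤ) + (F1.card : ℤ) := by
        rw [← hcardsum]; push_cast; ring
      linarith
    rw [hcard]
    exact_mod_cast hfinal
  · by_contra hpos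
    have := hbound χ hχ hpos
    omega
  · by_cases hpos : blockHeight p B (χ : G → ℂ) = 0
    · rw [hpos]; exact Nat.zero_le _
    · have := hbound χ hχ hpos
      omega

end Cfsg.Agent.S4710
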