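import Mathlib
import Cfsg.Statements.S4714
import Cfsg.Agent.Lib.Helper8.CentralProd

set_option autoImplicit false
open Cfsg

namespace Cfsg.Agent.S4714

open Cfsg.Agent.Lib.Helper8 Cfsg.Agent.Lib.Helper2 Cfsg.Agent.Lib.Helper25

/-- Let p be a prime, M a maximal ideal of the algebraic integers containing p, D a p-subgroup of the finite group G with G = D·C_G(D), and B a p-block with defect group D. Let χ be a member of B having D in its kernel (there is exactly one, the canonical character of B). Then the irreducible characters in B are exactly the functions θ on G for which there is an irreducible character ζ of D such that θ(yx) = ζ(y)χ(x) whenever y ∈ D, x has order prime to p and x commutes with y, and θ(z) = 0 whenever the p-part of z does not lie in D. -/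
theorem result {G : Type*} [Group G] [Finite G] (p : ℕ) [Fact p.Prime] (M : Ideal Cfsg.AlgInt) (hM : Cfsg.IsPModular p M) (D : Subgroup G) (hD : IsPGroup p D) (hG : D ⊔ Subgroup.centralizer (D : Set G) = ⊤) (B : Set (Cfsg.IrrCharacter G)) (hB : Cfsg.IsPBlock M B) (hBD : Cfsg.IsDefectGroup p M B D) (χ : Cfsg.IrrCharacter G) (hχ : χ ∈ B) (hχD : ∀ y ∈ D, (χ : G → ℂ) y = (χ : G → ℂ) 1) : (∀ θ : Cfsg.IrrCharacter G, θ ∈ B ↔ ∃ ζ : Cfsg.IrrCharacter D, (∀ (y : D) (x : G), ¬ p ∣ orderOf x → Commute (y : G) x → (θ : G → ℂ) ((y : G) * x) = (ζ : D → ℂ) y * (χ : G → ℂ) x) ∧ (∀ z : G, (∀ y : G, Cfsg.IsPPart p z y → y ∉ D) → (θ : G → ℂ) z = 0)) ∧ ∀ ζ : Cfsg.IrrCharacter D, ∃ θ ∈ B, (∀ (y : D) (x : G), ¬ p ∣ orderOf x → Commute (y : G) x → (θ : G → ℂ) ((y : G) * x) = (ζ : D → ℂ) y * (χ : G → ℂ) x) ∧ (∀ z : G, (∀ y : G, Cfsg.IsPPart p z y → y ∉ D) → (θ : G → ℂ) z = 0) := by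
  classical
  have hpart : ∀ θ ∈ B, (∀ (y : D) (x : G), ¬ p ∣ orderOf x → Commute (y : G) x →
      (θ : G → ℂ) ((y : G) * x) = (cpAlpha D hG θ : D → ℂ) y * (χ : G → ℂ) x) ∧
      (∀ z : G, (∀ y : G, Cfsg.IsPPart p z y → y ∉ D) → (θ : G → ℂ) z = 0) := by
    intro θ hθ
    exact ⟨fun y x hx _ => cp_formula hM D hD hG B hB hBD χ hχ hχD θ hθ y x hx,
      fun z hz => cp_vanish hM D hG B hB hBD θ hθ z hz⟩
  have hconv : ∀ (θ : Cfsg.IrrCharacter G) (ζ : Cfsg.IrrCharacter D),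
      ((∀ (y : D) (x : G), ¬ p ∣ orderOf x → Commute (y : G) x →
        (θ : G → ℂ) ((y : G) * x) = (ζ : D → ℂ) y * (χ : G → ℂ) x) ∧
      (∀ z : G, (∀ y : G, Cfsg.IsPPart p z y → y ∉ D) → (θ : G → ℂ) z = 0)) → θ ∈ B := by
    rintro θ ζ ⟨h1, h2⟩
    obtain ⟨θ'', hθ'', hα⟩ := cp_exists hM D hD hG B hB hBD ζ
    obtain ⟨h1', h2'⟩ := hpart θ'' hθ''
    rw [hα] at h1'
    have heq : θ = θ'' := by
      apply Subtype.ext
      funext g
      obtain ⟨y₀, hy₀⟩ := exists_isPPart p g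
      by_cases hyD : y₀ ∈ D
      · obtain ⟨z, hz, hcomm, hord, hreg⟩ := hy₀
        rw [← hz]
        rw [h1 ⟨y₀, hyD⟩ z hreg hcomm, h1' ⟨y₀, hyD⟩ z hreg hcomm]
      · obtain ⟨e, he⟩ := exists_pPart_exponent (G := G) p
        have hall : ∀ y : G, Cfsg.IsPPart p g y → y ∉ D := by
          intro y hy
          rw [he g y hy, ← he g y₀ hy₀]
          exact hyD
        rw [h2 g hall, h2' g hall]
    rw [heq]; exact hθ''
  refine ⟨fun θ => ⟨fun hθ => ⟨cpAlpha D hG θ, hpart θ hθ⟩, fun ⟨ζ, h⟩ => hconv θ ζ h⟩,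
    fun ζ => ?_⟩
  obtain ⟨θ'', hθ'', hα⟩ := cp_exists hM D hD hG B hB hBD ζ
  refine ⟨θ'', hθ'', ?_⟩
  have h3 := hpart θ'' hθ''
  rw [hα] at h3
  exact h3

end Cfsg.Agent.S4714
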