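import Mathlib
import Cfsg.Statements.S4717
import Cfsg.Agent.Lib.Helper8.BrauerCoeff
import Cfsg.Agent.Lib.Helper8.SecondMain2
import Cfsg.Agent.Lib.Helper8.Extended
import Cfsg.Agent.Lib.Helper8.SylowAux
import Cfsg.Agent.S0906
import Cfsg.Agent.S0908
import Cfsg.Agent.S0911
import Cfsg.Agent.S0936

set_option autoImplicit false
open Cfsg

namespace Cfsg.Agent.S4717

open Cfsg.Agent.Lib.Helper8 Cfsg.Agent.Lib.Helper2 Cfsg.Agent.Lib.Helper25

theorem part1 {G : Type*} [Group G] [Finite G] (p : ℕ) [Fact p.Prime] (M : Ideal Cfsg.AlgInt)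
    (hM : Cfsg.IsPModular p M) (r : ℕ)
    (hG : ∀ B' : Set (IrrCharacter G), IsPBlock M B' → B' ≠ principalBlock M G →
      blockDefect p B' < r)
    (y : G) (hy : ∃ k : ℕ, orderOf y = p ^ k)
    (b : Set (IrrCharacter ↥(Subgroup.centralizer ({y} : Set G)))) (hb : IsPBlock M b)
    (hne : b ≠ principalBlock M ↥(Subgroup.centralizer ({y} : Set G))) :
    blockDefect p b < r := by
  classical
  have : Fintype G := Fintype.ofFinite G
  have : Fintype ↥(Subgroup.centralizer ({y} : Set G)) := Fintype.ofFinite _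
  have hpr := isPrime_of_isPModular hM
  have hp : p.Prime := Fact.out
  obtain ⟨χ₁, hind⟩ := exists_induced_of_centralizer hM y hy b hb
  have hBne : blockOf M (χ₁ : G → ℂ) ≠ principalBlock M G := by
    intro heq
    rw [heq] at hind
    exact hne ((Cfsg.Agent.S0936.result p M hM _ b ⟨_, hind⟩).mp hind)
  have h1 := hG _ ⟨χ₁, rfl⟩ hBne
  obtain ⟨g', hg'⟩ := Cfsg.Agent.S0906.result p M hM b hb
  obtain ⟨P'⟩ : Nonempty (Sylow p (Subgroup.centralizer
    ({g'} : Set ↥(Subgroup.centralizer ({y} : Set G))))) := inferInstance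
  have hD : IsDefectGroup p M b ((P' : Subgroup _).map
      (Subgroup.centralizer ({g'} : Set ↥(Subgroup.centralizer ({y} : Set G)))).subtype) :=
    ⟨g', hg', P', rfl⟩
  obtain ⟨E, hE, hle⟩ := defectGroup_le_of_induced hM _ hind _ hD
  have c1 := Cfsg.Agent.S0908.result p M hM b hb _ hD
  have c2 := Cfsg.Agent.S0908.result p M hM _ ⟨χ₁, rfl⟩ E hE
  have c3 := Subgroup.card_dvd_of_le hle
  rw [Subgroup.card_map_of_injective (Subgroup.subtype_injective _), c1, c2] at c3
  have := (Nat.pow_dvd_pow_iff_le_right hp.one_lt).mp c3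
  omega

theorem part2 {G : Type*} [Group G] [Finite G] (p : ℕ) [Fact p.Prime] (M : Ideal Cfsg.AlgInt)
    (hM : Cfsg.IsPModular p M) (r : ℕ) (hr : 0 < r)
    (hC : ∀ y : G, orderOf y = p → (∀ B' : Set (Cfsg.IrrCharacter
      ↥(Subgroup.centralizer ({y} : Set G))), Cfsg.IsPBlock M B' →
      B' ≠ Cfsg.principalBlock M ↥(Subgroup.centralizer ({y} : Set G)) →
      Cfsg.blockDefect p B' < r))
    (B : Set (IrrCharacter G)) (hB : IsPBlock M B) (hne : B ≠ principalBlock M G) :
    blockDefect p B < r := by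
  classical
  have : Fintype G := Fintype.ofFinite G
  have hpr := isPrime_of_isPModular hM
  have hp : p.Prime := Fact.out
  by_contra hcon
  push Not at hcon
  obtain ⟨g, hg⟩ := Cfsg.Agent.S0906.result p M hM B hB
  obtain ⟨P'⟩ : Nonempty (Sylow p (Subgroup.centralizer ({g} : Set G))) := inferInstance
  obtain ⟨D, hDdef⟩ : ∃ D : Subgroup G, D = (P' : Subgroup _).map
      (Subgroup.centralizer ({g} : Set G)).subtype := ⟨_, rfl⟩
  have hD : IsDefectGroup p M B D := ⟨g, hg, P', hDdef⟩
  have cD := Cfsg.Agent.S0908.result p M hM B hB D hD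
  have hDp : IsPGroup p D := IsPGroup.of_card cD
  have hDg : ∀ d ∈ D, d * g = g * d := by
    intro d hd
    rw [hDdef] at hd
    obtain ⟨c, -, rfl⟩ := Subgroup.mem_map.mp hd
    have := c.2
    rw [Subgroup.mem_centralizer_singleton_iff] at this
    exact this
  have hDnt : Nontrivial D := by
    rw [← Finite.one_lt_card_iff_nontrivial, cD]
    exact Nat.one_lt_pow (by omega) hp.one_lt
  have hZnt := hDp.center_nontrivial
  have hZp : IsPGroup p (Subgroup.center D) := hDp.to_subgroup _
  have hdvd : p ∣ Nat.card (Subgroup.center D) := by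
    rcases hZp.card_eq_or_dvd with h | h
    · exfalso
      have := Finite.one_lt_card_iff_nontrivial.mpr hZnt
      omega
    · exact h
  obtain ⟨z, hz⟩ := exists_prime_orderOf_dvd_card' p hdvd
  obtain ⟨y, hydef⟩ : ∃ y : G, y = ((z : D) : G) := ⟨_, rfl⟩
  have hyo : orderOf y = p := by
    rw [hydef, Subgroup.orderOf_coe, Subgroup.orderOf_coe, hz]
  have hyD : ∀ d ∈ D, d * y = y * d := by
    intro d hd
    have := Subgroup.mem_center_iff.mp z.2 ⟨d, hd⟩
    rw [hydef]
    exact congrArg Subtype.val this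
  have hyg : y * g = g * y := by
    rw [hydef]
    exact hDg _ (z : D).2
  have : Fintype ↥(Subgroup.centralizer ({y} : Set G)) := Fintype.ofFinite _
  have hP : IsPGroup p (Subgroup.zpowers y) := by
    apply IsPGroup.of_card (n := 1)
    rw [Nat.card_zpowers, hyo, pow_one]
  have hCe := centralizer_singleton_eq_zpowers y
  have hCH : Subgroup.centralizer (Subgroup.zpowers y : Set G)
      ≤ Subgroup.centralizer ({y} : Set G) := by rw [hCe]
  have hPH : Subgroup.zpowers y ≤ Subgroup.centralizer ({y} : Set G) := by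
    rw [hCe]
    intro u hu
    rw [mem_centralizer_zpowers_iff]
    obtain ⟨n, rfl⟩ := Subgroup.mem_zpowers_iff.mp hu
    exact (Commute.zpow_right (Commute.refl y) n).eq
  have hHN : Subgroup.centralizer ({y} : Set G)
      ≤ Subgroup.normalizer (Subgroup.zpowers y : Set G) := by
    rw [hCe]
    exact Subgroup.centralizer_le_normalizer _
  have hgC : g ∈ Subgroup.centralizer (Subgroup.zpowers y : Set G) := by
    rw [mem_centralizer_zpowers_iff]
    exact hyg
  obtain ⟨ξ, hind, hcoef⟩ := exists_induced_with_coeff hM (Subgroup.zpowers y)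
    (Subgroup.centralizer ({y} : Set G)) hP hPH hCH hHN B hB g hgC hg.2.1
  have hbne : blockOf M (ξ : ↥(Subgroup.centralizer ({y} : Set G)) → ℂ)
      ≠ principalBlock M ↥(Subgroup.centralizer ({y} : Set G)) := by
    intro heq
    have h1 := (Cfsg.Agent.S0936.result p M hM _ _ ⟨_, hind⟩).mpr heq
    exact hne (isInducedBlock_unique hM _ hind h1)
  have hlt := hC y hyo _ ⟨ξ, rfl⟩ hbne
  obtain ⟨g₂, hg₂⟩ := Cfsg.Agent.S0906.result p M hM
    (blockOf M (ξ : ↥(Subgroup.centralizer ({y} : Set G)) → ℂ)) ⟨ξ, rfl⟩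
  obtain ⟨P₂⟩ : Nonempty (Sylow p (Subgroup.centralizer
    ({g₂} : Set ↥(Subgroup.centralizer ({y} : Set G))))) := inferInstance
  have hD₂ : IsDefectGroup p M (blockOf M (ξ : ↥(Subgroup.centralizer ({y} : Set G)) → ℂ))
      ((P₂ : Subgroup _).map
        (Subgroup.centralizer ({g₂} : Set ↥(Subgroup.centralizer ({y} : Set G)))).subtype) :=
    ⟨g₂, hg₂, P₂, rfl⟩
  have c2 := Cfsg.Agent.S0908.result p M hM _ ⟨ξ, rfl⟩ _ hD₂
  obtain ⟨x, Q, hQ⟩ := (Cfsg.Agent.S0911.result p M hM _ ⟨ξ, rfl⟩ g₂ hg₂ P₂ ⟨g, hCH hgC⟩).1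
    (blockCoeff_memLocalRing hM _ (blockClosed_blockOf M _) _) hcoef
  have c3 := Subgroup.card_dvd_of_le hQ
  rw [Subgroup.card_map_of_injective (f := (MulAut.conj x).toMonoidHom) (MulAut.conj x).injective,
    c2, sylow_map_card] at c3
  have c4 := (Nat.pow_dvd_pow_iff_le_right hp.one_lt).mp c3
  have hDH : D ≤ Subgroup.centralizer ({y} : Set G) := by
    intro d hd
    rw [Subgroup.mem_centralizer_singleton_iff]
    exact hyD d hd
  have hDK : D.subgroupOf (Subgroup.centralizer ({y} : Set G))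
      ≤ Subgroup.centralizer ({(⟨g, hCH hgC⟩ : ↥(Subgroup.centralizer ({y} : Set G)))} :
          Set ↥(Subgroup.centralizer ({y} : Set G))) := by
    intro d hd
    rw [Subgroup.mem_centralizer_singleton_iff]
    apply Subtype.ext
    exact hDg d.1 (Subgroup.mem_subgroupOf.mp hd)
  have c5 : Nat.card D ∣ Nat.card (Subgroup.centralizer
      ({(⟨g, hCH hgC⟩ : ↥(Subgroup.centralizer ({y} : Set G)))} :
          Set ↥(Subgroup.centralizer ({y} : Set G)))) := by
    have e1 : Nat.card (D.subgroupOf (Subgroup.centralizer ({y} : Set G))) = Nat.card D :=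
      Nat.card_congr (Subgroup.subgroupOfEquivOfLe hDH).toEquiv
    rw [← e1]
    exact Subgroup.card_dvd_of_le hDK
  rw [cD] at c5
  have c6 := (hp.pow_dvd_iff_le_factorization (Nat.card_pos.ne')).mp c5
  omega

/-- Let p be a prime, M a maximal ideal of the algebraic integers containing p, and r a natural number; say that a finite group X has deficiency class r when X has no non-principal p-block of defect ≥ r. If G has deficiency class r then so does the centralizer of every p-element of G; conversely, if r > 0 and the centralizer of every element of order p has deficiency class r, then G has deficiency class r. -/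
theorem result {G : Type*} [Group G] [Finite G] (p : ℕ) [Fact p.Prime] (M : Ideal Cfsg.AlgInt) (hM : Cfsg.IsPModular p M) (r : ℕ) : ((∀ B' : Set (Cfsg.IrrCharacter G), Cfsg.IsPBlock M B' → B' ≠ Cfsg.principalBlock M G → Cfsg.blockDefect p B' < r) → ∀ y : G, (∃ k : ℕ, orderOf y = p ^ k) → (∀ B' : Set (Cfsg.IrrCharacter ↥(Subgroup.centralizer ({y} : Set G))), Cfsg.IsPBlock M B' → B' ≠ Cfsg.principalBlock M ↥(Subgroup.centralizer ({y} : Set G)) → Cfsg.blockDefect p B' < r)) ∧ (0 < r → (∀ y : G, orderOf y = p → (∀ B' : Set (Cfsg.IrrCharacter ↥(Subgroup.centralizer ({y} : Set G))), Cfsg.IsPBlock M B' → B' ≠ Cfsg.principalBlock M ↥(Subgroup.centralizer ({y} : Set G)) → Cfsg.blockDefect p B' < r)) → (∀ B' : Set (Cfsg.IrrCharacter G), Cfsg.IsPBlock M B' → B' ≠ Cfsg.principalBlock M G → Cfsg.blockDefect p B' < r)) := by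
  exact ⟨fun hG y hy b hb hne => part1 p M hM r hG y hy b hb hne,
    fun hr hC B hB hne => part2 p M hM r hr hC B hB hne⟩

end Cfsg.Agent.S4717
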