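import Cfsg.Statements.S4718
import Cfsg.Agent.Lib.Helper26.Landau
import Cfsg.Agent.S4494
import Cfsg.Agent.Lib.Helper2.CharOrtho
import Cfsg.Agent.Lib.Helper2.CharLinear
import Cfsg.Agent.Lib.Helper2.CharBridge
import Cfsg.Agent.Lib.Helper25.BlockOrth
import Cfsg.Agent.Lib.Helper25.Local

set_option autoImplicit false
universe u
open Cfsg

namespace Cfsg.Agent.S4718

open Cfsg.Agent.Lib.Helper2 Cfsg.Agent.Lib.Helper25 Cfsg.Agent.Lib.Helper8 Cfsg.Agent.Lib.Helper26

/-- Let p be a prime and a a natural number. There is a bound N such that every finite group whose Sylow p-subgroups have order p^a and whose only p-block (relative to a maximal ideal of the algebraic integers containing p) is the principal block has order at most N. -/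
theorem result (p : ℕ) [Fact p.Prime] (a : ℕ) : ∃ N : ℕ, ∀ (G : Type u) [Group G] [Finite G] (M : Ideal Cfsg.AlgInt), Cfsg.IsPModular p M → (Nat.card G).factorization p = a → (∀ B : Set (Cfsg.IrrCharacter G), Cfsg.IsPBlock M B → B = Cfsg.principalBlock M G) → Nat.card G ≤ N := by
  refine ⟨∑ k ∈ Finset.range ((p ^ (2 * a) + 4) / 4 + 1), landauF k 1, ?_⟩
  intro G _ _ M hM ha hone
  classical
  haveI : Fintype G := Fintype.ofFinite G
  haveI : M.IsPrime := isPrime_of_isPModular hM
  haveI : Finite (IrrCharacter G) := irr_finite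
  have hall : ∀ χ : IrrCharacter G, χ ∈ principalBlock M G := by
    intro χ
    have h1 := hone (blockOf M (χ : G → ℂ)) ⟨χ, rfl⟩
    rw [← h1]
    exact sameBlock_refl M (χ : G → ℂ)
  have hB : IsPBlock M (principalBlock M G) :=
    ⟨⟨fun _ => (1 : ℂ), isIrrCharacter_one⟩, rfl⟩
  have h4 := Cfsg.Agent.S4494.result p M hM (principalBlock M G) hB
  have hcard : Nat.card (ConjClasses G) ≤ Nat.card (principalBlock M G) := by
    rw [← card_irr_eq_card_conjClasses]
    exact Nat.card_le_card_of_injective
      (fun χ => (Subtype.mk χ (hall χ) : {χ // χ ∈ principalBlock M G}))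
      (fun x y h => by
        have := congrArg Subtype.val h
        exact this)
  have hd : blockDefect p (principalBlock M G) ≤ a := by
    unfold blockDefect
    rw [ha]
    exact Nat.sub_le _ _
  have hp : 0 < p := (Fact.out : p.Prime).pos
  have h5 : p ^ (2 * blockDefect p (principalBlock M G)) ≤ p ^ (2 * a) :=
    Nat.pow_le_pow_right hp (by omega)
  have h6 : Nat.card (ConjClasses G) ≤ (p ^ (2 * a) + 4) / 4 := by
    rw [Nat.le_div_iff_mul_le (by norm_num)]
    omega
  have h7 : Nat.card G ≤ landauF (Nat.card (ConjClasses G)) 1 := card_le_landau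
  refine le_trans h7 ?_
  exact Finset.single_le_sum (f := fun k => landauF k 1) (fun _ _ => Nat.zero_le _)
    (Finset.mem_range.mpr (by omega))

end Cfsg.Agent.S4718
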