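import Cfsg.Statements.S4725
import Cfsg.Agent.S4430
import Cfsg.Agent.Lib.Helper24.BlockMat

set_option autoImplicit false
open Cfsg

namespace Cfsg.Agent.S4725

open Cfsg.Agent.Lib.Helper2 Cfsg.Agent.Lib.Helper25 Cfsg.Agent.Lib.Helper24 in
/-- Let p be a prime, M a maximal ideal of the algebraic integers containing p, H a subgroup of the finite group G, and b a p-block of H inducing the p-block B of G, with b and B of the same defect. Then for every height-zero ζ ∈ b there is a height-zero χ ∈ B whose multiplicity in the character induced from ζ is not divisible by p. -/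
theorem result {G : Type*} [Group G] [Fintype G] (p : ℕ) [Fact p.Prime] (M : Ideal Cfsg.AlgInt) (hM : Cfsg.IsPModular p M) (H : Subgroup G) (b : Set (Cfsg.IrrCharacter ↥H)) (B : Set (Cfsg.IrrCharacter G)) (hind : Cfsg.IsInducedBlock M H b B) (hdef : Cfsg.blockDefect p b = Cfsg.blockDefect p B) (ζ : Cfsg.IrrCharacter ↥H) (hζ : ζ ∈ b) (hζ0 : Cfsg.blockHeight p b (ζ : ↥H → ℂ) = 0) : ∃ χ ∈ B, Cfsg.blockHeight p B (χ : G → ℂ) = 0 ∧ ∃ a : ℕ, Cfsg.classInner (Cfsg.indFun H (ζ : ↥H → ℂ)) (χ : G → ℂ) = (a : ℂ) ∧ ¬ p ∣ a := by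
  classical
  haveI : Fintype H := Fintype.ofFinite H
  haveI : Fintype (IrrCharacter G) := Fintype.ofFinite _
  have hp : p.Prime := Fact.out
  have hB : IsPBlock M B := hind.2.1
  have hb : IsPBlock M b := hind.1
  set Φ := indFun H (ζ : H → ℂ) with hΦ
  have hΦcf : IsClassFunction G Φ := indFun_isClassFunction H _
  have hΦc : IsCharacter G Φ := indFun_isCharacter H (isCharacter_of_isIrrCharacter ζ.2)
  obtain ⟨d, hd1, hdpos, hddvd, hdcd⟩ := irr_degree ζ
  have hidx : H.index ≠ 0 := Subgroup.index_ne_zero_of_finite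
  have hΦ1 : Φ 1 = ((H.index * d : ℕ) : ℂ) := by
    rw [hΦ, Cfsg.Agent.Lib.Helper8.indFun_one, hd1]; push_cast; ring
  have hdeg : charDegree Φ = H.index * d := by
    unfold charDegree
    rw [hΦ1]
    have hre : ((H.index * d : ℕ) : ℂ).re = ((H.index * d : ℕ) : ℝ) := Complex.natCast_re _
    rw [hre, Nat.floor_natCast]
  -- multiplicities and degrees
  have hnat : ∀ χ : IrrCharacter G, ∃ m : ℕ, classInner Φ (χ : G → ℂ) = (m : ℂ) :=
    fun χ => classInner_isCharacter_nat hΦc (isCharacter_of_isIrrCharacter χ.2)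
  choose m hm using hnat
  have hdegs : ∀ χ : IrrCharacter G, (χ : G → ℂ) 1 = (charDegree (χ : G → ℂ) : ℂ) := by
    intro χ
    obtain ⟨e, he, -, -, hce⟩ := irr_degree χ
    rw [hce, he]
  obtain ⟨n, hn, hn0, hnv⟩ := (Cfsg.Agent.S4430.result p M hM H b B hind ζ hζ).1
  have hpart : blockPart B Φ 1
      = ((∑ χ : IrrCharacter G, if χ ∈ B then m χ * charDegree (χ : G → ℂ) else 0 : ℕ) : ℂ) := by
    rw [Cfsg.Agent.Lib.Helper8.blockPart_eq_sum B Φ hΦcf 1]
    have e : ∑ k : G, blockCoeff B k * Φ (k * 1) = ∑ k : G, blockCoeff B k * Φ k := by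
      apply Finset.sum_congr rfl
      intro k _
      rw [mul_one]
    rw [e, Cfsg.Agent.Lib.Helper8.sum_blockCoeff_mul B Φ hΦcf]
    push_cast
    apply Finset.sum_congr rfl
    intro χ _
    split_ifs
    · rw [hm χ, hdegs χ]
    · rfl
  have hneq : n = ∑ χ : IrrCharacter G, if χ ∈ B then m χ * charDegree (χ : G → ℂ) else 0 := by
    have h1 := hn.symm.trans hpart
    exact_mod_cast h1
  -- valuations in `G`
  have hBne := isPBlock_nonempty hM hB
  obtain ⟨χ₀, hχ₀, h0, hmin⟩ := exists_height_zero p B hBne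
  set aG := (Nat.card G).factorization p with haG
  set hG := (charDegree (χ₀ : G → ℂ)).factorization p with hhG
  have hSneB : ((fun ψ : IrrCharacter G => (charDegree (ψ : G → ℂ)).factorization p) '' B).Nonempty :=
    hBne.image _
  have hsInfB : sInf ((fun ψ : IrrCharacter G => (charDegree (ψ : G → ℂ)).factorization p) '' B) = hG := by
    apply le_antisymm
    · exact Nat.sInf_le ⟨χ₀, hχ₀, rfl⟩
    · apply le_csInf hSneB
      rintro _ ⟨ξ, hξ, rfl⟩
      exact hmin ξ hξ
  have hhGa : hG ≤ aG := by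
    obtain ⟨hd0, hdd⟩ := Cfsg.Agent.S4424.degree_facts χ₀
    exact (Nat.factorization_le_iff_dvd hd0 Nat.card_pos.ne').mpr hdd p
  have hdefB : blockDefect p B = aG - hG := by
    unfold blockDefect
    rw [hsInfB]
  -- valuations in `H`
  have hbne := isPBlock_nonempty hM hb
  obtain ⟨ζ₀, hζ₀, h0b, hminb⟩ := exists_height_zero p b hbne
  set aH := (Nat.card H).factorization p with haH
  set hH := (charDegree (ζ₀ : H → ℂ)).factorization p with hhH
  have hSneb : ((fun ψ : IrrCharacter H => (charDegree (ψ : H → ℂ)).factorization p) '' b).Nonempty :=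
    hbne.image _
  have hsInfb : sInf ((fun ψ : IrrCharacter H => (charDegree (ψ : H → ℂ)).factorization p) '' b) = hH := by
    apply le_antisymm
    · exact Nat.sInf_le ⟨ζ₀, hζ₀, rfl⟩
    · apply le_csInf hSneb
      rintro _ ⟨ξ, hξ, rfl⟩
      exact hminb ξ hξ
  have hhHa : hH ≤ aH := by
    obtain ⟨hd0, hdd⟩ := Cfsg.Agent.S4424.degree_facts ζ₀
    exact (Nat.factorization_le_iff_dvd hd0 Nat.card_pos.ne').mpr hdd p
  have hdefb : blockDefect p b = aH - hH := by
    unfold blockDefect
    rw [hsInfb]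
  have hζv : (charDegree (ζ : H → ℂ)).factorization p = hH := by
    have h1 := hminb ζ hζ
    have h2 : blockHeight p b (ζ : H → ℂ) = (charDegree (ζ : H → ℂ)).factorization p - hH := by
      unfold blockHeight
      rw [hsInfb]
    rw [h2] at hζ0
    omega
  have hcard : Nat.card G = Nat.card H * H.index := (Subgroup.card_mul_index H).symm
  have haGH : aG = aH + H.index.factorization p := by
    rw [haG, hcard, Nat.factorization_mul Nat.card_pos.ne' hidx]
    rfl
  have hvn : n.factorization p = hG := by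
    rw [hnv, hdeg, Nat.factorization_mul hidx hdpos.ne', Finsupp.add_apply, ← hdcd, hζv]
    rw [hdefb, hdefB] at hdef
    omega
  -- the contradiction
  by_contra hcon
  have hall : ∀ χ ∈ B, blockHeight p B (χ : G → ℂ) = 0 → p ∣ m χ := by
    intro χ hχ h0χ
    by_contra hnd
    exact hcon ⟨χ, hχ, h0χ, m χ, hm χ, hnd⟩
  have hdvd : p ^ (hG + 1) ∣ n := by
    rw [hneq]
    apply Finset.dvd_sum
    intro χ _
    split_ifs with hχ
    · have hge := hmin χ hχ
      have hpe : p ^ (charDegree (χ : G → ℂ)).factorization p ∣ charDegree (χ : G → ℂ) :=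
        Nat.ordProj_dvd _ _
      by_cases hz : blockHeight p B (χ : G → ℂ) = 0
      · have h1 := hall χ hχ hz
        have h2 : p ^ hG ∣ charDegree (χ : G → ℂ) := (pow_dvd_pow p hge).trans hpe
        rw [pow_succ, mul_comm]
        exact mul_dvd_mul h1 h2
      · have h3 : hG + 1 ≤ (charDegree (χ : G → ℂ)).factorization p := by
          have h4 : blockHeight p B (χ : G → ℂ)
              = (charDegree (χ : G → ℂ)).factorization p - hG := by
            unfold blockHeight
            rw [hsInfB]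
          omega
        exact Dvd.dvd.mul_left ((pow_dvd_pow p h3).trans hpe) _
    · exact dvd_zero _
  have hle := (hp.pow_dvd_iff_le_factorization hn0).mp hdvd
  omega

end Cfsg.Agent.S4725
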