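import Mathlib
import Cfsg.Statements.S4731
import Cfsg.Agent.Lib.Helper8.BlockIntegral2

set_option autoImplicit false
open Cfsg

namespace Cfsg.Agent.S4731

open Cfsg.Agent.Lib.Helper8 Cfsg.Agent.Lib.Helper2 Cfsg.Agent.Lib.Helper25

/-- Let p ≠ q be primes, M_p and M_q maximal ideals of the algebraic integers containing p and q respectively, and G a finite group with no element of order pq; let q^b be the q-part of the order of G. For a p-block B_p (relative to M_p), a q-block B_q (relative to M_q) and a p-singular element y, the sum of χ(1)χ(y) over the irreducible characters χ lying in both B_p and B_q is q^b times an algebraic integer. -/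
theorem result {G : Type*} [Group G] [Finite G] (p q : ℕ) [Fact p.Prime] [Fact q.Prime] (hpq : p ≠ q) (Mp Mq : Ideal Cfsg.AlgInt) (hMp : Cfsg.IsPModular p Mp) (hMq : Cfsg.IsPModular q Mq) (hno : ∀ g : G, orderOf g ≠ p * q) (b : ℕ) (hb : (Nat.card G).factorization q = b) (Bp : Set (Cfsg.IrrCharacter G)) (hBp : Cfsg.IsPBlock Mp Bp) (Bq : Set (Cfsg.IrrCharacter G)) (hBq : Cfsg.IsPBlock Mq Bq) (y : G) (hy : p ∣ orderOf y) : ∃ ω : Cfsg.AlgInt, ∑ᶠ χ ∈ Bp ∩ Bq, (Cfsg.charDegree (χ : G → ℂ) : ℂ) * (χ : G → ℂ) y = (q : ℂ) ^ b * (ω : ℂ) := by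
  classical
  have : Fintype G := Fintype.ofFinite G
  have : Fintype (IrrCharacter G) := Fintype.ofFinite _
  have hprp := isPrime_of_isPModular hMp
  have hprq := isPrime_of_isPModular hMq
  have hp : p.Prime := Fact.out
  have hq : q.Prime := Fact.out
  have hq0 : (q : ℂ) ≠ 0 := by exact_mod_cast hq.ne_zero
  subst hb
  obtain ⟨u, s, hus, hcomm, ⟨k, hk⟩, hs⟩ := exists_isPPart p y
  have hu1 : u ≠ 1 := by
    rintro rfl
    rw [one_mul] at hus
    rw [hus] at hs
    exact hs hy
  have : Fintype (Subgroup.centralizer ({u} : Set G)) := Fintype.ofFinite _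
  have : Fintype (IrrCharacter (Subgroup.centralizer ({u} : Set G))) := Fintype.ofFinite _
  have hqC : ¬ q ∣ Nat.card (Subgroup.centralizer ({u} : Set G)) := by
    intro hdvd
    obtain ⟨z, hz⟩ := exists_prime_orderOf_dvd_card' q hdvd
    have hk0 : k ≠ 0 := by
      rintro rfl
      rw [pow_zero, orderOf_eq_one_iff] at hk
      exact hu1 hk
    have hu' : orderOf (u ^ p ^ (k - 1)) = p := by
      rw [orderOf_pow_of_dvd (pow_ne_zero _ hp.ne_zero)
        (by rw [hk]; exact pow_dvd_pow p (Nat.sub_le k 1)), hk,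
        Nat.pow_div (Nat.sub_le k 1) hp.pos]
      have h1 : k - (k - 1) = 1 := by omega
      rw [h1, pow_one]
    have hc0 : Commute u (z : G) := (Subgroup.mem_centralizer_singleton_iff.mp z.2).symm
    have hcz : Commute (u ^ p ^ (k - 1)) (z : G) := hc0.pow_left _
    have hzo : orderOf (z : G) = q := by rw [Subgroup.orderOf_coe]; exact hz
    have hcop : (orderOf (u ^ p ^ (k - 1))).Coprime (orderOf (z : G)) := by
      rw [hu', hzo]; exact (Nat.coprime_primes hp hq).mpr hpq
    have h2 := hcz.orderOf_mul_eq_mul_orderOf_of_coprime hcop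
    rw [hu', hzo] at h2
    exact hno _ h2
  have hclq : BlockClosed Mq Bq := blockClosed_of_isPBlock Mq hBq
  have hsC : s ∈ Subgroup.centralizer ({u} : Set G) :=
    Subgroup.mem_centralizer_singleton_iff.mpr hcomm.eq.symm
  have hsp : ¬ p ∣ orderOf (⟨s, hsC⟩ : Subgroup.centralizer ({u} : Set G)) := by
    rw [← Subgroup.orderOf_coe]; exact hs
  have hϑ : IsClassFunction G (fun g => bsum Bq g) := bsum_isClassFunction Bq
  have key := blockPart_section_eq hMp u ⟨k, hk⟩ (fun g => bsum Bq g) hϑ Bp hBp ⟨s, hsC⟩ hsp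
  rw [blockPart_bsum] at key
  have hy' : u * ((⟨s, hsC⟩ : Subgroup.centralizer ({u} : Set G)) : G) = y := hus
  rw [hy'] at key
  -- each local block part is divisible
  have hΨ := isClassFunction_translate u (fun g => bsum Bq g) hϑ
  have claim : ∀ b : Set (IrrCharacter (Subgroup.centralizer ({u} : Set G))),
      ∃ α : ℂ, IsIntegral ℤ α ∧
        (Nat.card (Subgroup.centralizer ({u} : Set G)) : ℂ) *
          blockPart b (fun c : Subgroup.centralizer ({u} : Set G) => bsum Bq (u * (c : G)))
            ⟨s, hsC⟩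
        = (q : ℂ) ^ (Nat.card G).factorization q * α := by
    intro b
    rw [blockPart_eq_sum b _ hΨ]
    refine ⟨∑ k' : Subgroup.centralizer ({u} : Set G), bsum b k'⁻¹ *
      (bsum Bq (u * ((k' * ⟨s, hsC⟩ : Subgroup.centralizer ({u} : Set G)) : G))
        / (q : ℂ) ^ (Nat.card G).factorization q), ?_, ?_⟩
    · apply IsIntegral.sum
      intro k' _
      exact (bsum_isIntegral b _).mul (bsum_div_isIntegral hMq Bq hclq _)
    · rw [Finset.mul_sum, Finset.mul_sum]
      apply Finset.sum_congr rfl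
      intro k' _
      rw [bsum_eq_blockCoeff b k'⁻¹, inv_inv]
      field_simp
  choose α hα1 hα2 using claim
  have hT := degree_sum_isIntegral (Bp ∩ Bq) y
  have hmain : (Nat.card (Subgroup.centralizer ({u} : Set G)) : ℂ) *
      (∑ᶠ χ ∈ Bp ∩ Bq, (charDegree (χ : G → ℂ) : ℂ) * (χ : G → ℂ) y)
      = (q : ℂ) ^ (Nat.card G).factorization q *
        ∑ b ∈ (Finset.univ : Finset (IrrCharacter (Subgroup.centralizer ({u} : Set G)))).image
          (fun ψ : IrrCharacter (Subgroup.centralizer ({u} : Set G)) =>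
            blockOf Mp (ψ : Subgroup.centralizer ({u} : Set G) → ℂ)),
          (if IsInducedBlock Mp (Subgroup.centralizer ({u} : Set G)) b Bp then α b else 0) := by
    rw [key, Finset.mul_sum, Finset.mul_sum]
    apply Finset.sum_congr rfl
    intro b _
    split_ifs
    · exact hα2 b
    · simp
  have hαint : IsIntegral ℤ
      (∑ b ∈ (Finset.univ : Finset (IrrCharacter (Subgroup.centralizer ({u} : Set G)))).image
          (fun ψ : IrrCharacter (Subgroup.centralizer ({u} : Set G)) =>
            blockOf Mp (ψ : Subgroup.centralizer ({u} : Set G) → ℂ)),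
          (if IsInducedBlock Mp (Subgroup.centralizer ({u} : Set G)) b Bp then α b else 0)) := by
    apply IsIntegral.sum
    intro b _
    split_ifs
    · exact hα1 b
    · exact isIntegral_zero
  have hcop : Nat.Coprime (Nat.card (Subgroup.centralizer ({u} : Set G)))
      (q ^ (Nat.card G).factorization q) :=
    Nat.Coprime.pow_right _ ((Nat.Prime.coprime_iff_not_dvd hq).mpr hqC).symm
  obtain ⟨A, B', hAB⟩ := Nat.isCoprime_iff_coprime.mpr hcop
  have hAB' := congrArg (Int.cast : ℤ → ℂ) hAB
  push_cast at hAB'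
  refine ⟨⟨(A : ℂ) * (∑ b ∈ (Finset.univ : Finset (IrrCharacter
      (Subgroup.centralizer ({u} : Set G)))).image
          (fun ψ : IrrCharacter (Subgroup.centralizer ({u} : Set G)) =>
            blockOf Mp (ψ : Subgroup.centralizer ({u} : Set G) → ℂ)),
          (if IsInducedBlock Mp (Subgroup.centralizer ({u} : Set G)) b Bp then α b else 0))
      + (B' : ℂ) * (∑ᶠ χ ∈ Bp ∩ Bq, (charDegree (χ : G → ℂ) : ℂ) * (χ : G → ℂ) y),
    ((isIntegral_intCast_complex A).mul hαint).add ((isIntegral_intCast_complex B').mul hT)⟩, ?_⟩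
  show _ = (q : ℂ) ^ (Nat.card G).factorization q * (_ + _)
  linear_combination (-(∑ᶠ χ ∈ Bp ∩ Bq, (charDegree (χ : G → ℂ) : ℂ) * (χ : G → ℂ) y)) * hAB'
    + (A : ℂ) * hmain

end Cfsg.Agent.S4731
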