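import Mathlib
import Cfsg.Statements.S4735
import Cfsg.Agent.Lib.Helper8.PrincipalQuot2
import Cfsg.Agent.S0942
import Cfsg.Agent.Lib.Helper1.Cores

set_option autoImplicit false
open Cfsg

namespace Cfsg.Agent.S4735

open Cfsg.Agent.Lib.Helper8 Cfsg.Agent.Lib.Helper2 Cfsg.Agent.Lib.Helper25

/-- Let p be a prime, M a maximal ideal of the algebraic integers containing p, G a finite group, H = O_p'(G) and Ḡ = G/H. For x ∈ G write λ(G, x) for the sum of |χ(x)|^2 over the irreducible characters χ in the principal p-block of G. Then λ(G, x) is a positive integer, λ(G, x) = λ(Ḡ, x̄) where x̄ is the image of x, and λ(G, x) ≤ #C_Ḡ(x̄). Moreover λ(G, 1) = [G : H] if and only if the principal block is the only p-block of Ḡ. -/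
theorem result {G : Type*} [Group G] [Finite G] (p : ℕ) [Fact p.Prime] (M : Ideal Cfsg.AlgInt) (hM : Cfsg.IsPModular p M) (x : G) : (∃ n : ℕ, 0 < n ∧ ∑ᶠ χ ∈ Cfsg.principalBlock M G, Complex.normSq ((χ : G → ℂ) x) = n) ∧ ∑ᶠ χ ∈ Cfsg.principalBlock M G, Complex.normSq ((χ : G → ℂ) x) = ∑ᶠ ψ ∈ Cfsg.principalBlock M (G ⧸ Cfsg.pPrimeCore p G), Complex.normSq ((ψ : G ⧸ Cfsg.pPrimeCore p G → ℂ) (QuotientGroup.mk x)) ∧ ∑ᶠ χ ∈ Cfsg.principalBlock M G, Complex.normSq ((χ : G → ℂ) x) ≤ (Nat.card ↥(Subgroup.centralizer ({(QuotientGroup.mk x : G ⧸ Cfsg.pPrimeCore p G)} : Set (G ⧸ Cfsg.pPrimeCore p G))) : ℝ) ∧ ((∑ᶠ χ ∈ Cfsg.principalBlock M G, Cfsg.charDegree (χ : G → ℂ) ^ 2) = (Cfsg.pPrimeCore p G).index ↔ ∀ B : Set (Cfsg.IrrCharacter (G ⧸ Cfsg.pPrimeCore p G)), Cfsg.IsPBlock M B → B = Cfsg.principalBlock M (G ⧸ Cfsg.pPrimeCore p G)) := by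
  classical
  have hpr := isPrime_of_isPModular hM
  have hN : ¬ p ∣ Nat.card (pPrimeCore p G) := by
    have h1 := Cfsg.Agent.Lib.Helper1.pPrimeCore_coprime (G := G) p
    intro hdvd
    have h2 := Nat.Coprime.eq_one_of_dvd h1.symm hdvd
    exact (Fact.out : p.Prime).one_lt.ne' h2
  have hker : ∀ χ ∈ principalBlock M G, ∀ n ∈ pPrimeCore p G,
      (χ : G → ℂ) n = (χ : G → ℂ) 1 :=
    fun χ hχ => Cfsg.Agent.S0942.principal_kernel p M hM χ hχ
  have h2 := principal_normSq_sum_eq hM (pPrimeCore p G) hN hker x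
  refine ⟨principal_normSq_nat hM x, h2, ?_, ?_⟩
  · rw [h2]
    exact sum_normSq_le_centralizer _ _
  · rw [principal_degree_sum_eq hM (pPrimeCore p G) hN hker, Subgroup.index_eq_card,
      sum_degree_sq_eq_card_iff, all_blocks_principal_iff hM]

end Cfsg.Agent.S4735
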