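import Cfsg.Statements.S4741
-- import your own Cfsg.Agent.* helpers here
import Mathlib
import Cfsg.Agent.Lib.Helper25.MinMax
import Cfsg.Agent.Lib.Helper25.ClassProd
import Cfsg.Agent.Lib.Helper25.LocMat
import Cfsg.Agent.Lib.Helper8.DefectLocal
import Cfsg.Agent.Lib.Helper8.DefectNum

set_option autoImplicit false
open Cfsg

namespace Cfsg.Agent.S4741

section aux

open Cfsg.Agent.Lib.Helper2 Cfsg.Agent.Lib.Helper25 Cfsg.Agent.Lib.Helper8

variable {G : Type*} [Group G]

theorem centralizer_inv_eq (g : G) :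
    Subgroup.centralizer ({g⁻¹} : Set G) = Subgroup.centralizer ({g} : Set G) := by
  ext s
  rw [Subgroup.mem_centralizer_singleton_iff, Subgroup.mem_centralizer_singleton_iff]
  constructor
  · intro h
    calc s * g = g * (s * g⁻¹) * g := by rw [h]; group
      _ = g * s := by group
  · intro h
    calc s * g⁻¹ = g⁻¹ * (s * g) * g⁻¹ := by rw [h]; group
      _ = g⁻¹ * s := by group

theorem sum_conj_subgroup [Fintype G] (χ : IrrCharacter G) (P : Subgroup G) [Fintype P] :
    ∑ u : P, (starRingEnd ℂ) ((χ : G → ℂ) (u : G)) = ∑ u : P, (χ : G → ℂ) (u : G) := by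
  apply Fintype.sum_equiv (Equiv.inv P)
  intro u
  rw [Equiv.inv_apply, Subgroup.coe_inv, irr_inv χ (u : G)]

/-- the average of an irreducible character over a subgroup is a local integer -/
theorem avg_memLocalRing [Finite G] (M : Ideal AlgInt) [M.IsPrime] (χ : IrrCharacter G)
    (P : Subgroup G) [Fintype P] :
    MemLocalRing M ((Nat.card P : ℂ)⁻¹ * ∑ u : P, (χ : G → ℂ) (u : G)) := by
  obtain ⟨n, ρ, hρ, hχ⟩ := χ.2
  have h := avg_char_isIntegral ρ P 1 (fun u _ => by rw [mul_one, one_mul])
  simp only [mul_one] at h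
  rw [← hχ]
  exact memLocalRing_of_isIntegral M h

/-- the character identity behind the theorem -/
theorem sep_identity [Fintype G] [Fintype (IrrCharacter G)] (p : ℕ) [Fact p.Prime]
    (P : Sylow p G) [Fintype (P : Subgroup G)] {r : ℕ} (x : Fin r → G)
    (hx : ∀ i j : Fin r, IsConj (x i) (x j) → i = j)
    (hsep : ∀ i j : Fin r, ∀ g h : G, IsConj (x i) g → IsConj (x j) h → ∀ k : ℕ, 0 < k →
      orderOf (g * h⁻¹) ≠ p ^ k) (j i : Fin r) :
    ∑ χ : IrrCharacter G, centralChar (χ : G → ℂ) (x j) *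
        ((starRingEnd ℂ) ((χ : G → ℂ) (x i)) * ((Nat.card (P : Subgroup G) : ℂ)⁻¹
          * ∑ u : (P : Subgroup G), (χ : G → ℂ) (u : G)))
      = if j = i then (((P : Subgroup G).index : ℕ) : ℂ) else 0 := by
  classical
  have hno : ∀ t : G, ∀ u ∈ (P : Subgroup G), u ≠ 1 →
      ¬ IsConj (t * x j * t⁻¹ * (x i)⁻¹) u := by
    intro t u hu hu1 hc
    obtain ⟨k, hk⟩ := P.isPGroup'.exists_orderOf_eq_pow ⟨u, hu⟩
    rw [Subgroup.orderOf_mk] at hk
    have hk0 : 0 < k := by
      rcases Nat.eq_zero_or_pos k with h0 | h0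
      · rw [h0, pow_zero, orderOf_eq_one_iff] at hk
        exact absurd hk hu1
      · exact h0
    obtain ⟨c, hcc⟩ := hc
    have ho := hcc.orderOf_eq
    exact hsep j i (t * x j * t⁻¹) (x i) (isConj_iff.mpr ⟨t, rfl⟩) (IsConj.refl _) k hk0
      (by rw [ho, hk])
  have h1 := sum_avg_eq (x j) (x i)⁻¹ (P : Subgroup G) hno
  have h2 := column_orthogonality (x j) (x i)
  have hP0 : (Nat.card (P : Subgroup G) : ℂ) ≠ 0 := by
    have : 0 < Nat.card (P : Subgroup G) := Nat.card_pos
    exact_mod_cast this.ne'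
  have e1 : ∑ χ : IrrCharacter G, centralChar (χ : G → ℂ) (x j) *
        ((starRingEnd ℂ) ((χ : G → ℂ) (x i)) * ((Nat.card (P : Subgroup G) : ℂ)⁻¹
          * ∑ u : (P : Subgroup G), (χ : G → ℂ) (u : G)))
      = ((Subgroup.centralizer ({x j} : Set G)).index : ℂ) * (Nat.card (P : Subgroup G) : ℂ)⁻¹
        * ∑ χ : IrrCharacter G, (χ : G → ℂ) (x j) * (χ : G → ℂ) (x i)⁻¹
          * (∑ u : (P : Subgroup G), (starRingEnd ℂ) ((χ : G → ℂ) (u : G))) / (χ : G → ℂ) 1 := by
    rw [Finset.mul_sum]
    apply Finset.sum_congr rfl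
    intro χ _
    rw [sum_conj_subgroup χ (P : Subgroup G), irr_inv χ (x i)]
    unfold centralChar
    ring
  have e2 : ∑ χ : IrrCharacter G, (χ : G → ℂ) (x j) * (χ : G → ℂ) (x i)⁻¹
      = colFun (x i) (x j) := by
    rw [← h2]
    apply Finset.sum_congr rfl
    intro χ _
    rw [irr_inv χ (x i)]
  rw [e1, h1, e2]
  by_cases hji : j = i
  · subst hji
    rw [if_pos rfl, colFun_of_isConj (IsConj.refl (x j))]
    have hc1 := Subgroup.card_mul_index (Subgroup.centralizer ({x j} : Set G))
    have hc2 := Subgroup.card_mul_index (P : Subgroup G)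
    have hc3 : ((Subgroup.centralizer ({x j} : Set G)).index : ℂ)
        * (Nat.card (Subgroup.centralizer ({x j} : Set G)) : ℂ)
        = (Nat.card (P : Subgroup G) : ℂ) * ((P : Subgroup G).index : ℂ) := by
      have : (Subgroup.centralizer ({x j} : Set G)).index
          * Nat.card (Subgroup.centralizer ({x j} : Set G))
          = Nat.card (P : Subgroup G) * (P : Subgroup G).index := by
        rw [hc2, mul_comm, hc1]
      exact_mod_cast this
    rw [mul_assoc, mul_comm ((Nat.card (P : Subgroup G) : ℂ)⁻¹), ← mul_assoc, hc3]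
    field_simp
  · rw [if_neg hji, colFun_of_not_isConj (fun hc => hji (hx j i hc)), mul_zero]

/-- the values of the characters of a block at an element of larger defect lie in the local
ideal -/
theorem char_mem_of_defect_lt [Finite G] {p : ℕ} [Fact p.Prime] {M : Ideal AlgInt}
    (hM : IsPModular p M) {B : Set (IrrCharacter G)} (hB : IsPBlock M B)
    (χ : IrrCharacter G) (hχ : χ ∈ B) (g : G)
    (hlt : blockDefect p B < (Nat.card (Subgroup.centralizer ({g} : Set G))).factorization p) :
    MemLocalIdeal M ((χ : G → ℂ) g) := by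
  classical
  have hpr := isPrime_of_isPModular hM
  have hp : p.Prime := Fact.out
  have : Fintype G := Fintype.ofFinite G
  obtain ⟨m, hm1, -, hm3, -⟩ := block_min_data hM hB
  obtain ⟨d, hd, hdpos, hdvd, hdeg⟩ := irr_degree χ
  have hmd := hm1 χ hχ
  rw [hdeg] at hmd
  have hidxf := index_factorization (p := p) g
  set idx := (Subgroup.centralizer ({g} : Set G)).index with hidx
  have hidx0 : idx ≠ 0 := by
    intro h0
    have := Subgroup.card_mul_index (Subgroup.centralizer ({g} : Set G))
    rw [← hidx, h0, mul_zero] at this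
    exact Nat.card_pos.ne' this.symm
  have h1 : MemLocalRing M ((d : ℂ) / ((p * idx : ℕ) : ℂ)) := by
    apply rat_memLocalRing hM d (p * idx) hdpos.ne' (Nat.mul_ne_zero hp.ne_zero hidx0)
    rw [Nat.factorization_mul hp.ne_zero hidx0, Finsupp.add_apply, hp.factorization_self]
    omega
  have hp0 : (p : ℂ) ≠ 0 := by exact_mod_cast hp.ne_zero
  have hi0 : (idx : ℂ) ≠ 0 := by exact_mod_cast hidx0
  have hd0 : (d : ℂ) ≠ 0 := by exact_mod_cast hdpos.ne'
  have e : (χ : G → ℂ) g
      = (p : ℂ) * ((d : ℂ) / ((p * idx : ℕ) : ℂ) * centralChar (χ : G → ℂ) g) := by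
    unfold centralChar
    rw [hd, ← hidx]
    push_cast
    field_simp
  rw [e]
  exact MemLocalIdeal.mul_right M (memLocalIdeal_p hM)
    (MemLocalRing.mul M h1 (memLocalRing_of_isIntegral M (centralChar_isIntegral χ g)))

/-- a Sylow subgroup of the centralizer of `h` of the order of the defect groups of `B` is a
defect group of `B` as soon as the central character of `B` does not vanish at `h` -/
theorem defectGroup_of_sylow_centralizer [Finite G] {p : ℕ} [Fact p.Prime] {M : Ideal AlgInt}
    (hM : IsPModular p M) {B : Set (IrrCharacter G)} (hB : IsPBlock M B) (h : G)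
    (χ : IrrCharacter G) (hχ : χ ∈ B)
    (hne : ¬ MemLocalIdeal M (centralChar (χ : G → ℂ) h)) (D : Subgroup G)
    (hS : ∃ S : Sylow p (Subgroup.centralizer ({h} : Set G)),
      (S : Subgroup (Subgroup.centralizer ({h} : Set G))).map
        (Subgroup.centralizer ({h} : Set G)).subtype = D)
    (hdef : (Nat.card (Subgroup.centralizer ({h} : Set G))).factorization p = blockDefect p B) :
    IsDefectGroup p M B D := by
  classical
  have : Fintype G := Fintype.ofFinite G
  obtain ⟨S, hS⟩ := hS
  have hDp : IsPGroup p D := by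
    rw [← hS]
    exact S.isPGroup'.map _
  have hDcard : Nat.card D = p ^ blockDefect p B := by
    rw [← hS, Subgroup.card_map_of_injective (Subgroup.subtype_injective _),
      S.card_eq_multiplicity, hdef]
  obtain ⟨E₀, hE₀⟩ := exists_defectGroup' hM B hB
  have hE₀card := card_of_isDefectGroup hM B hB E₀ hE₀
  obtain ⟨y, hy⟩ := defectGroup_le_centralizer_conj hM hB hE₀ h hχ hne
  set T := E₀.map (MulAut.conj y⁻¹).toMonoidHom with hT
  have hTp : IsPGroup p T := (isPGroup_of_isDefectGroup hE₀).map _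
  have hTC : T ≤ Subgroup.centralizer ({h} : Set G) := by
    intro s hs
    rw [hT, mem_map_conj] at hs
    have h1 := hy _ hs
    rw [Subgroup.mem_centralizer_iff]
    intro w hw
    rw [Set.mem_singleton_iff.mp hw]
    have e1 : s * h = y⁻¹ * ((y⁻¹)⁻¹ * s * y⁻¹ * (y * h * y⁻¹)) * y := by group
    have e2 : h * s = y⁻¹ * (y * h * y⁻¹ * ((y⁻¹)⁻¹ * s * y⁻¹)) * y := by group
    rw [e1, e2, h1]
  obtain ⟨c, -, hc⟩ := exists_conj_sylow_of_le _ S T hTp hTC
  rw [hS] at hc
  set z := c⁻¹ * y⁻¹ with hz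
  have hle : E₀.map (MulAut.conj z).toMonoidHom ≤ D := by
    intro s hs
    rw [mem_map_conj] at hs
    have ht : c * s * c⁻¹ ∈ T := by
      rw [hT, mem_map_conj]
      have e : (y⁻¹)⁻¹ * (c * s * c⁻¹) * y⁻¹ = z⁻¹ * s * z := by rw [hz]; group
      rw [e]; exact hs
    have h2 := hc ht
    rw [mem_map_conj] at h2
    have e : c⁻¹ * (c * s * c⁻¹) * c = s := by group
    rw [e] at h2
    exact h2
  have hcardE : Nat.card (E₀.map (MulAut.conj z).toMonoidHom) = Nat.card E₀ :=
    Subgroup.card_map_of_injective (f := (MulAut.conj z).toMonoidHom) (MulAut.conj z).injective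
  have heq : E₀.map (MulAut.conj z).toMonoidHom = D :=
    Subgroup.eq_of_le_of_card_ge hle (by rw [hcardE, hE₀card, hDcard])
  have hE₀' := hE₀
  obtain ⟨g₁, hg₁, Q₁, hQ₁⟩ := hE₀'
  have hg' : IsDefectClass M B (z * g₁ * z⁻¹) :=
    isDefectClass_of_isConj hM (isConj_iff.mpr ⟨z, rfl⟩) hg₁
  have hDg' : D ≤ Subgroup.centralizer ({z * g₁ * z⁻¹} : Set G) := by
    rw [← heq]
    intro s hs
    rw [mem_map_conj, hQ₁] at hs
    obtain ⟨q, -, hq⟩ := Subgroup.mem_map.mp hs
    have hq2 := Subgroup.mem_centralizer_iff.mp q.2 g₁ (Set.mem_singleton g₁)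
    have hq' : (q : G) = z⁻¹ * s * z := hq
    rw [hq'] at hq2
    rw [Subgroup.mem_centralizer_iff]
    intro w hw
    rw [Set.mem_singleton_iff.mp hw]
    have e1 : z * g₁ * z⁻¹ * s = z * (g₁ * (z⁻¹ * s * z)) * z⁻¹ := by group
    have e2 : s * (z * g₁ * z⁻¹) = z * ((z⁻¹ * s * z) * g₁) * z⁻¹ := by group
    rw [e1, e2, hq2]
  obtain ⟨E, hE, hDE⟩ := exists_defectGroup_ge hg' D hDp hDg'
  have hEcard := card_of_isDefectGroup hM B hB E hE
  have hDE' : D = E := Subgroup.eq_of_le_of_card_ge hDE (by rw [hEcard, hDcard])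
  rw [hDE']
  exact hE

end aux

open Cfsg.Agent.Lib.Helper2 Cfsg.Agent.Lib.Helper25 Cfsg.Agent.Lib.Helper8 in
/-- Let p be a prime, M a maximal ideal of the algebraic integers containing p, and D a subgroup of the finite group G. Let x₁, …, x_r be pairwise non-conjugate elements of G such that D is a Sylow p-subgroup of the centralizer of each xᵢ, and such that for any conjugates g of some xᵢ and h of some xⱼ the element g h⁻¹ is never a non-identity p-element. Then there are r distinct p-blocks B₁, …, B_r of G, each having D as a defect group, such that for every choice of characters χᵢ ∈ Bᵢ of height zero the determinant of the r × r matrix (χᵢ(xⱼ)) does not lie in the local ideal at M. -/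
theorem result {G : Type*} [Group G] [Finite G] (p : ℕ) [Fact p.Prime] (M : Ideal Cfsg.AlgInt) (hM : Cfsg.IsPModular p M) (D : Subgroup G) {r : ℕ} (x : Fin r → G) (hx : ∀ i j : Fin r, IsConj (x i) (x j) → i = j) (hD : ∀ i : Fin r, ∃ S : Sylow p ↥(Subgroup.centralizer ({x i} : Set G)), (S : Subgroup ↥(Subgroup.centralizer ({x i} : Set G))).map (Subgroup.centralizer ({x i} : Set G)).subtype = D) (hsep : ∀ i j : Fin r, ∀ g h : G, IsConj (x i) g → IsConj (x j) h → ∀ k : ℕ, 0 < k → orderOf (g * h⁻¹) ≠ p ^ k) : ∃ B : Fin r → Set (Cfsg.IrrCharacter G), Function.Injective B ∧ (∀ i : Fin r, Cfsg.IsPBlock M (B i) ∧ Cfsg.IsDefectGroup p M (B i) D) ∧ ∀ χ : Fin r → Cfsg.IrrCharacter G, (∀ i : Fin r, χ i ∈ B i ∧ Cfsg.blockHeight p (B i) (χ i : G → ℂ) = 0) → ¬ Cfsg.MemLocalIdeal M (Matrix.det (Matrix.of fun i j : Fin r => (χ i : G → ℂ) (x j))) := by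
  classical
  have hpr := isPrime_of_isPModular hM
  have hp : p.Prime := Fact.out
  have : Fintype G := Fintype.ofFinite G
  have : Fintype (IrrCharacter G) := Fintype.ofFinite _
  obtain ⟨P⟩ : Nonempty (Sylow p G) := inferInstance
  have : Fintype (P : Subgroup G) := Fintype.ofFinite _
  set N : Matrix (Fin r) (IrrCharacter G) ℂ :=
    Matrix.of fun j χ => centralChar (χ : G → ℂ) (x j) with hN
  set Γ : Matrix (IrrCharacter G) (Fin r) ℂ := Matrix.of fun χ i =>
    (starRingEnd ℂ) ((χ : G → ℂ) (x i)) * ((Nat.card (P : Subgroup G) : ℂ)⁻¹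
      * ∑ u : (P : Subgroup G), (χ : G → ℂ) (u : G)) with hΓ
  have hNΓ : N * Γ = Matrix.diagonal (fun _ : Fin r => (((P : Subgroup G).index : ℕ) : ℂ)) := by
    ext j i
    rw [Matrix.mul_apply, Matrix.diagonal_apply]
    exact sep_identity p P x hx hsep j i
  have hdet : (N * Γ).det = (((P : Subgroup G).index : ℕ) : ℂ) ^ r := by
    rw [hNΓ, Matrix.det_diagonal, Finset.prod_const, Finset.card_univ, Fintype.card_fin]
  have hexp := det_mul_expand N Γ
  have hc : ¬ MemLocalIdeal M ((((P : Subgroup G).index : ℕ) : ℂ) ^ r) := by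
    intro h
    have h1 := MemLocalIdeal.of_pow M (memLocalRing_natCast M _) h
    exact P.not_dvd_index ((memLocalIdeal_natCast_iff hM _).mp h1)
  have hNR : ∀ j χ, MemLocalRing M (N j χ) :=
    fun j χ => memLocalRing_of_isIntegral M (centralChar_isIntegral χ (x j))
  have hΓR : ∀ χ i, MemLocalRing M (Γ χ i) := by
    intro χ i
    apply MemLocalRing.mul M _ (avg_memLocalRing M χ (P : Subgroup G))
    rw [← irr_inv χ (x i)]
    exact memLocalRing_of_isIntegral M (irr_isIntegral χ _)
  obtain ⟨f, hf⟩ : ∃ f : Fin r → IrrCharacter G,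
      ¬ MemLocalIdeal M ((∏ k, Γ (f k) k) * (N.submatrix id f).det) := by
    by_contra hcon
    push Not at hcon
    apply hc
    rw [← hdet, hexp]
    exact memLocalIdeal_sum M _ _ (fun f _ => hcon f)
  have hWR : ∀ j i, MemLocalRing M ((N.submatrix id f) j i) := fun j i => hNR j (f i)
  have hdetW : ¬ MemLocalIdeal M (N.submatrix id f).det := by
    intro h
    exact hf (MemLocalIdeal.mul_left M (memLocalRing_prod M _ _ (fun k _ => hΓR (f k) k)) h)
  have hΓf : ∀ k, ¬ MemLocalIdeal M (Γ (f k) k) := by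
    intro k h
    apply hf
    apply MemLocalIdeal.mul_right M _ (det_memLocalRing M _ hWR)
    exact memLocalIdeal_prod_of_mem M _ _ (fun k _ => hΓR (f k) k) k (Finset.mem_univ k) h
  -- the defects
  set dC : Fin r → ℕ :=
    fun i => (Nat.card (Subgroup.centralizer ({x i} : Set G))).factorization p with hdC
  have hDcard : ∀ i, Nat.card D = p ^ dC i := by
    intro i
    obtain ⟨S, hS⟩ := hD i
    rw [← hS, Subgroup.card_map_of_injective (Subgroup.subtype_injective _),
      S.card_eq_multiplicity]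
  have hdCeq : ∀ i j, dC i = dC j :=
    fun i j => Nat.pow_right_injective hp.two_le ((hDcard i).symm.trans (hDcard j))
  have hBi : ∀ i, IsPBlock M (blockOf M ((f i : IrrCharacter G) : G → ℂ)) := fun i => ⟨f i, rfl⟩
  have hfi : ∀ i, f i ∈ blockOf M ((f i : IrrCharacter G) : G → ℂ) :=
    fun i => sameBlock_refl M _
  have hcol : ∀ i, ∃ j,
      ¬ MemLocalIdeal M (centralChar ((f i : IrrCharacter G) : G → ℂ) (x j)) := by
    intro i
    obtain ⟨j, hj⟩ := exists_not_mem_of_det_col M _ hWR hdetW i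
    exact ⟨j, hj⟩
  have hdefect : ∀ i, blockDefect p (blockOf M ((f i : IrrCharacter G) : G → ℂ)) = dC i := by
    intro i
    apply le_antisymm
    · obtain ⟨j, hj⟩ := hcol i
      by_contra hlt
      push Not at hlt
      apply hj
      apply memLocalIdeal_centralChar_of_defect_lt hM _ (isPBlock_sameBlock hM (hBi i)) (x j) _
        (f i) (hfi i)
      have := hdCeq j i
      rw [hdC] at this
      simp only at this
      rw [this]
      exact hlt
    · by_contra hlt
      push Not at hlt
      apply hΓf i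
      apply MemLocalIdeal.mul_right M _ (avg_memLocalRing M (f i) (P : Subgroup G))
      rw [← irr_inv (f i) (x i)]
      apply char_mem_of_defect_lt hM (hBi i) (f i) (hfi i) (x i)⁻¹
      rw [centralizer_inv_eq]
      exact hlt
  refine ⟨fun i => blockOf M ((f i : IrrCharacter G) : G → ℂ), ?_, ?_, ?_⟩
  · intro i i' hii
    by_contra hne
    obtain ⟨j, hj⟩ := exists_not_mem_sub_of_det_col M _ hWR hdetW i i' hne
    apply hj
    have h1 : f i' ∈ blockOf M ((f i : IrrCharacter G) : G → ℂ) := by
      have h := hfi i'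
      have hii' : blockOf M ((f i : IrrCharacter G) : G → ℂ)
          = blockOf M ((f i' : IrrCharacter G) : G → ℂ) := hii
      rw [hii']
      exact h
    exact h1 (x j)
  · intro i
    refine ⟨hBi i, ?_⟩
    obtain ⟨j, hj⟩ := hcol i
    apply defectGroup_of_sylow_centralizer hM (hBi i) (x j) (f i) (hfi i) hj D (hD j)
    rw [hdefect i]
    exact hdCeq j i
  · intro χ' hχ' hdetA
    set A : Matrix (Fin r) (Fin r) ℂ := Matrix.of fun i j : Fin r => (χ' i : G → ℂ) (x j)
      with hA
    set W' : Matrix (Fin r) (Fin r) ℂ :=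
      Matrix.of fun j i => centralChar ((χ' i : IrrCharacter G) : G → ℂ) (x j) with hW'
    have hW'R : ∀ j i, MemLocalRing M (W' j i) :=
      fun j i => memLocalRing_of_isIntegral M (centralChar_isIntegral (χ' i) (x j))
    have hcong : ∀ j i, MemLocalIdeal M ((N.submatrix id f) j i - W' j i) :=
      fun j i => (hχ' i).1 (x j)
    have hdetW' : ¬ MemLocalIdeal M W'.det :=
      fun h => hdetW ((det_memLocalIdeal_congr M _ _ hWR hW'R hcong).mpr h)
    apply hdetW'
    have hdeg : ∀ i, ∃ d : ℕ, ((χ' i : IrrCharacter G) : G → ℂ) 1 = d ∧ d ≠ 0 ∧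
        MemLocalRing M ((((Subgroup.centralizer ({x i} : Set G)).index : ℕ) : ℂ) / (d : ℂ)) := by
      intro i
      obtain ⟨d, hd, hdpos, -, hdeg⟩ := irr_degree (χ' i)
      refine ⟨d, hd, hdpos.ne', ?_⟩
      obtain ⟨m, hm1, -, hm3, hm4⟩ := block_min_data hM (hBi i)
      have hh := (hχ' i).2
      rw [hm4 (χ' i), hdeg] at hh
      have hm1' := hm1 (χ' i) (hχ' i).1
      rw [hdeg] at hm1'
      have hidxf := index_factorization (p := p) (x i)
      have hdef := hdefect i
      have hidx0 : (Subgroup.centralizer ({x i} : Set G)).index ≠ 0 := by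
        intro h0
        have := Subgroup.card_mul_index (Subgroup.centralizer ({x i} : Set G))
        rw [h0, mul_zero] at this
        exact Nat.card_pos.ne' this.symm
      apply rat_memLocalRing hM _ _ hidx0 hdpos.ne'
      rw [hdC] at hdef
      simp only at hdef
      omega
    choose dd hdd1 hdd0 hddR using hdeg
    have h1 := Matrix.det_mul_column
      (fun j : Fin r => (((Subgroup.centralizer ({x j} : Set G)).index : ℕ) : ℂ))
      (Matrix.of fun j i : Fin r => ((dd i : ℂ))⁻¹ * A.transpose j i)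
    have h2 := Matrix.det_mul_row (fun i : Fin r => ((dd i : ℂ))⁻¹) A.transpose
    have e : W' = Matrix.of fun j i : Fin r =>
        (fun j : Fin r => (((Subgroup.centralizer ({x j} : Set G)).index : ℕ) : ℂ)) j
          * (Matrix.of fun j i : Fin r => ((dd i : ℂ))⁻¹ * A.transpose j i) j i := by
      ext j i
      simp only [hW', hA, Matrix.of_apply, Matrix.transpose_apply]
      unfold centralChar
      rw [hdd1 i]
      ring
    rw [e, h1, h2, Matrix.det_transpose, ← mul_assoc, ← Finset.prod_mul_distrib]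
    apply MemLocalIdeal.mul_left M _ hdetA
    apply memLocalRing_prod
    intro k _
    rw [← div_eq_mul_inv]
    exact hddR k

end Cfsg.Agent.S4741
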