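import Cfsg.Statements.S4742
-- import your own Cfsg.Agent.* helpers here
import Mathlib
import Cfsg.Agent.Lib.Helper25.ClassProd

set_option autoImplicit false
open Cfsg

namespace Cfsg.Agent.S4742

open Cfsg.Agent.Lib.Helper25 in
/-- Let p ≠ q be primes dividing the order of the finite group G, and suppose the centralizer of every non-identity p-element of G has order prime to q. Then either G has an irreducible character of p-defect zero, or for every non-identity q-element z of G there are conjugates g, h of z such that g h⁻¹ is a non-identity p-element. -/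
theorem result {G : Type*} [Group G] [Finite G] (p q : ℕ) [Fact p.Prime] [Fact q.Prime] (hppq : p ≠ q) (hpG : p ∣ Nat.card G) (hqG : q ∣ Nat.card G) (hC : ∀ g : G, g ≠ 1 → (∃ k : ℕ, orderOf g = p ^ k) → ¬ q ∣ Nat.card ↥(Subgroup.centralizer ({g} : Set G))) : (∃ χ : Cfsg.IrrCharacter G, (Cfsg.charDegree (χ : G → ℂ)).factorization p = (Nat.card G).factorization p) ∨ ∀ z : G, z ≠ 1 → (∃ k : ℕ, orderOf z = q ^ k) → ∃ g h : G, IsConj z g ∧ IsConj z h ∧ g * h⁻¹ ≠ 1 ∧ ∃ k : ℕ, orderOf (g * h⁻¹) = p ^ k := by
  classical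
  by_contra hcon
  push Not at hcon
  obtain ⟨hdef, z, hz1, ⟨kz, hkz⟩, hz⟩ := hcon
  have hpp : p.Prime := Fact.out
  -- the centralizer of `z` has order prime to `p`
  have hpC : ¬ p ∣ Nat.card (Subgroup.centralizer ({z} : Set G)) := by
    intro hdvd
    obtain ⟨u, hu⟩ := exists_prime_orderOf_dvd_card' p hdvd
    have hu1 : (u : G) ≠ 1 := by
      intro h1
      have : orderOf (u : G) = 1 := by rw [h1, orderOf_one]
      rw [Subgroup.orderOf_coe, hu] at this
      exact hpp.ne_one this
    apply hC (u : G) hu1 ⟨1, by rw [pow_one, Subgroup.orderOf_coe, hu]⟩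
    have hzmem : z ∈ Subgroup.centralizer ({(u : G)} : Set G) := by
      rw [Subgroup.mem_centralizer_singleton_iff]
      exact (Subgroup.mem_centralizer_singleton_iff.mp u.2).symm
    have h2 : orderOf z ∣ Nat.card (Subgroup.centralizer ({(u : G)} : Set G)) := by
      have := orderOf_dvd_natCard (⟨z, hzmem⟩ : Subgroup.centralizer ({(u : G)} : Set G))
      rwa [Subgroup.orderOf_mk] at this
    have hk : kz ≠ 0 := by
      rintro rfl
      rw [pow_zero, orderOf_eq_one_iff] at hkz
      exact hz1 hkz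
    rw [hkz] at h2
    exact dvd_trans (dvd_pow_self q hk) h2
  let P : Sylow p G := default
  have hPcard : Nat.card (P : Subgroup G) = p ^ (Nat.card G).factorization p :=
    Sylow.card_eq_multiplicity P
  obtain ⟨χ, hχ⟩ := exists_degree_of_no_product p z z⁻¹ (by rw [inv_inv]) (P : Subgroup G) _
    hPcard (by
      intro t u hu hu1 hconj
      have hg : IsConj z (t * z * t⁻¹) := isConj_iff.mpr ⟨t, rfl⟩
      have hne : t * z * t⁻¹ * z⁻¹ ≠ 1 := by
        intro h1
        rw [h1] at hconj
        exact hu1 (isConj_one_right.mp hconj)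
      obtain ⟨k, hk⟩ := (IsPGroup.iff_orderOf.mp P.isPGroup') ⟨u, hu⟩
      rw [Subgroup.orderOf_mk] at hk
      refine hz _ _ hg (IsConj.refl z) hne k ?_
      rw [← hk]
      obtain ⟨s, hs⟩ := hconj
      exact hs.orderOf_eq)
  have ha : (Nat.card (Subgroup.centralizer ({z} : Set G))).factorization p = 0 :=
    Nat.factorization_eq_zero_of_not_dvd hpC
  rw [ha, Nat.sub_zero] at hχ
  apply hdef χ
  obtain ⟨d, hd1, hd0, hdG, hd⟩ := irr_degree χ
  rw [hd] at hχ ⊢
  apply le_antisymm
  · exact (Nat.factorization_le_iff_dvd hd0.ne' Nat.card_pos.ne').mpr hdG p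
  · exact (hpp.pow_dvd_iff_le_factorization hd0.ne').mp hχ

end Cfsg.Agent.S4742
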