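import Cfsg.Statements.S4743
-- import your own Cfsg.Agent.* helpers here
import Mathlib
import Cfsg.Agent.S4742

set_option autoImplicit false
open Cfsg

namespace Cfsg.Agent.S4743

/-- no elements of order `p q`, in the second form -/
theorem swap_hyp {G : Type*} [Group G] [Finite G] (p q : ℕ) [Fact p.Prime] [Fact q.Prime]
    (hC : ∀ g : G, g ≠ 1 → (∃ k : ℕ, orderOf g = p ^ k) →
      ¬ q ∣ Nat.card ↥(Subgroup.centralizer ({g} : Set G))) :
    ∀ g : G, g ≠ 1 → (∃ k : ℕ, orderOf g = q ^ k) →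
      ¬ p ∣ Nat.card ↥(Subgroup.centralizer ({g} : Set G)) := by
  intro z hz1 ⟨kz, hkz⟩ hdvd
  have hpp : p.Prime := Fact.out
  obtain ⟨u, hu⟩ := exists_prime_orderOf_dvd_card' p hdvd
  have hu1 : (u : G) ≠ 1 := by
    intro h1
    have : orderOf (u : G) = 1 := by rw [h1, orderOf_one]
    rw [Subgroup.orderOf_coe, hu] at this
    exact hpp.ne_one this
  apply hC (u : G) hu1 ⟨1, by rw [pow_one, Subgroup.orderOf_coe, hu]⟩
  have hzmem : z ∈ Subgroup.centralizer ({(u : G)} : Set G) := by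
    rw [Subgroup.mem_centralizer_singleton_iff]
    exact (Subgroup.mem_centralizer_singleton_iff.mp u.2).symm
  have h2 : orderOf z ∣ Nat.card (Subgroup.centralizer ({(u : G)} : Set G)) := by
    have := orderOf_dvd_natCard (⟨z, hzmem⟩ : Subgroup.centralizer ({(u : G)} : Set G))
    rwa [Subgroup.orderOf_mk] at this
  have hk : kz ≠ 0 := by
    rintro rfl
    rw [pow_zero, orderOf_eq_one_iff] at hkz
    exact hz1 hkz
  rw [hkz] at h2
  exact dvd_trans (dvd_pow_self q hk) h2

/-- the group-theoretic core: in a `p`-solvable group the two conjugacy properties cannot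
both hold -/
theorem core {G : Type*} [Group G] [Finite G] (p q : ℕ) [Fact p.Prime] [Fact q.Prime]
    (hpq : p ≠ q) (hpG : p ∣ Nat.card G) (hsolv : Cfsg.IsPSolvable p G)
    (h1 : ∀ z : G, z ≠ 1 → (∃ k : ℕ, orderOf z = q ^ k) → ∃ g h : G, IsConj z g ∧ IsConj z h ∧
      g * h⁻¹ ≠ 1 ∧ ∃ k : ℕ, orderOf (g * h⁻¹) = p ^ k)
    (h2 : ∀ z : G, z ≠ 1 → (∃ k : ℕ, orderOf z = p ^ k) → ∃ g h : G, IsConj z g ∧ IsConj z h ∧
      g * h⁻¹ ≠ 1 ∧ ∃ k : ℕ, orderOf (g * h⁻¹) = q ^ k) : False := by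
  classical
  have hpp : p.Prime := Fact.out
  have hqp : q.Prime := Fact.out
  obtain ⟨n, H, h0, hlast, hmono, hnorm, hstep⟩ := hsolv
  -- the first member of the chain whose order is divisible by `p` or `q`
  have hex : ∃ i : Fin (n + 1), p ∣ Nat.card (H i) ∨ q ∣ Nat.card (H i) := by
    refine ⟨Fin.last n, Or.inl ?_⟩
    rw [hlast, Subgroup.card_top]
    exact hpG
  obtain ⟨i, hi, hmin⟩ : ∃ i : Fin (n + 1), (p ∣ Nat.card (H i) ∨ q ∣ Nat.card (H i)) ∧
      ∀ j : Fin (n + 1), j < i → ¬ (p ∣ Nat.card (H j) ∨ q ∣ Nat.card (H j)) := by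
    let s : Finset (Fin (n + 1)) :=
      Finset.univ.filter (fun i => p ∣ Nat.card (H i) ∨ q ∣ Nat.card (H i))
    have hs : s.Nonempty := by
      obtain ⟨i, hi⟩ := hex
      exact ⟨i, by simp [s, hi]⟩
    refine ⟨s.min' hs, ?_, ?_⟩
    · have := Finset.min'_mem s hs
      simpa [s] using this
    · intro j hj hj'
      have hjs : j ∈ s := by simp [s, hj']
      exact absurd (Finset.min'_le s j hjs) (not_le.mpr hj)
  have hi0 : i ≠ 0 := by
    rintro rfl
    rw [h0, Subgroup.card_bot] at hi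
    rcases hi with h | h
    · exact hpp.one_lt.ne' (Nat.dvd_one.mp h)
    · exact hqp.one_lt.ne' (Nat.dvd_one.mp h)
  obtain ⟨j, rfl⟩ := Fin.exists_succ_eq.mpr hi0
  have hA := hmin j.castSucc (Fin.castSucc_lt_succ)
  push Not at hA
  set A := H j.castSucc with hAdef
  set B := H j.succ with hBdef
  have hAB : A ≤ B := hmono (Fin.castSucc_lt_succ).le
  have hAn : A.Normal := hnorm _
  have hBn : B.Normal := hnorm _
  have hcard : Nat.card A * A.relIndex B = Nat.card B := by
    have := Subgroup.relIndex_mul_relIndex (⊥ : Subgroup G) A B bot_le hAB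
    rwa [Subgroup.relIndex_bot_left, Subgroup.relIndex_bot_left] at this
  -- conjugates stay in `B`
  have hconjB : ∀ z g : G, z ∈ B → IsConj z g → g ∈ B := by
    intro z g hz hg
    obtain ⟨t, rfl⟩ := isConj_iff.mp hg
    exact hBn.conj_mem z hz t
  by_cases hpB : p ∣ Nat.card B
  · -- a `p`-element of `B`, and a `q`-element of `B` which must lie in `A`
    obtain ⟨u, hu⟩ := exists_prime_orderOf_dvd_card' p hpB
    have hu1 : (u : G) ≠ 1 := by
      intro h
      have : orderOf (u : G) = 1 := by rw [h, orderOf_one]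
      rw [Subgroup.orderOf_coe, hu] at this
      exact hpp.ne_one this
    obtain ⟨g, h, hg, hh, hne, k, hk⟩ :=
      h2 (u : G) hu1 ⟨1, by rw [pow_one, Subgroup.orderOf_coe, hu]⟩
    have hwB : g * h⁻¹ ∈ B := B.mul_mem (hconjB _ _ u.2 hg) (B.inv_mem (hconjB _ _ u.2 hh))
    have hrel : ∃ m : ℕ, A.relIndex B = p ^ m := by
      rcases hstep j with h | h
      · exact h
      · exfalso
        have h3 : p ∣ Nat.card A * A.relIndex B := by rw [hcard]; exact hpB
        rcases (Nat.Prime.dvd_mul hpp).mp h3 with h4 | h4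
        · exact hA.1 h4
        · exact hpp.one_lt.ne' (Nat.dvd_one.mp (h ▸ Nat.dvd_gcd h4 dvd_rfl))
    obtain ⟨m, hm⟩ := hrel
    have hwA1 : (g * h⁻¹) ^ (p ^ m) ∈ A := by
      rw [← hm]
      exact Subgroup.pow_relIndex_mem A hwB
    have hcop : Nat.Coprime (p ^ m) (q ^ k) :=
      Nat.Coprime.pow _ _ ((Nat.coprime_primes hpp hqp).mpr hpq)
    have hwA : g * h⁻¹ ∈ A := by
      have hw2 : (g * h⁻¹) ^ (q ^ k) = 1 := by rw [← hk, pow_orderOf_eq_one]
      have h5 := Nat.gcd_eq_gcd_ab (p ^ m) (q ^ k)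
      rw [hcop.gcd_eq_one] at h5
      rw [Nat.cast_one] at h5
      have h6 : g * h⁻¹ = ((g * h⁻¹) ^ (p ^ m)) ^ (Nat.gcdA (p ^ m) (q ^ k)) := by
        calc g * h⁻¹ = (g * h⁻¹) ^ (1 : ℤ) := (zpow_one _).symm
          _ = (g * h⁻¹) ^ (((p ^ m : ℕ) : ℤ) * Nat.gcdA (p ^ m) (q ^ k)
                + ((q ^ k : ℕ) : ℤ) * Nat.gcdB (p ^ m) (q ^ k)) := by rw [← h5]
          _ = ((g * h⁻¹) ^ (p ^ m)) ^ (Nat.gcdA (p ^ m) (q ^ k))
                * ((g * h⁻¹) ^ (q ^ k)) ^ (Nat.gcdB (p ^ m) (q ^ k)) := by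
              rw [zpow_add, zpow_mul, zpow_mul, zpow_natCast, zpow_natCast]
          _ = ((g * h⁻¹) ^ (p ^ m)) ^ (Nat.gcdA (p ^ m) (q ^ k)) := by
              rw [hw2, one_zpow, mul_one]
      rw [h6]
      exact A.zpow_mem hwA1 _
    have hk0 : k ≠ 0 := by
      rintro rfl
      rw [pow_zero, orderOf_eq_one_iff] at hk
      exact hne hk
    apply hA.2
    have h8 : orderOf (g * h⁻¹) ∣ Nat.card A := by
      have := orderOf_dvd_natCard (⟨g * h⁻¹, hwA⟩ : A)
      rwa [Subgroup.orderOf_mk] at this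
    rw [hk] at h8
    exact dvd_trans (dvd_pow_self q hk0) h8
  · have hqB : q ∣ Nat.card B := hi.resolve_left hpB
    obtain ⟨u, hu⟩ := exists_prime_orderOf_dvd_card' q hqB
    have hu1 : (u : G) ≠ 1 := by
      intro h
      have : orderOf (u : G) = 1 := by rw [h, orderOf_one]
      rw [Subgroup.orderOf_coe, hu] at this
      exact hqp.ne_one this
    obtain ⟨g, h, hg, hh, hne, k, hk⟩ :=
      h1 (u : G) hu1 ⟨1, by rw [pow_one, Subgroup.orderOf_coe, hu]⟩
    have hwB : g * h⁻¹ ∈ B := B.mul_mem (hconjB _ _ u.2 hg) (B.inv_mem (hconjB _ _ u.2 hh))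
    have hk0 : k ≠ 0 := by
      rintro rfl
      rw [pow_zero, orderOf_eq_one_iff] at hk
      exact hne hk
    apply hpB
    have h8 : orderOf (g * h⁻¹) ∣ Nat.card B := by
      have := orderOf_dvd_natCard (⟨g * h⁻¹, hwB⟩ : B)
      rwa [Subgroup.orderOf_mk] at this
    rw [hk] at h8
    exact dvd_trans (dvd_pow_self p hk0) h8

/-- Let p ≠ q be primes dividing the order of the finite group G, suppose the centralizer of every non-identity p-element has order prime to q, and suppose G is p-solvable or q-solvable. Then G has an irreducible character of p-defect zero or an irreducible character of q-defect zero. -/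
theorem result {G : Type*} [Group G] [Finite G] (p q : ℕ) [Fact p.Prime] [Fact q.Prime] (hppq : p ≠ q) (hpG : p ∣ Nat.card G) (hqG : q ∣ Nat.card G) (hC : ∀ g : G, g ≠ 1 → (∃ k : ℕ, orderOf g = p ^ k) → ¬ q ∣ Nat.card ↥(Subgroup.centralizer ({g} : Set G))) (hsolv : Cfsg.IsPSolvable p G ∨ Cfsg.IsPSolvable q G) : (∃ χ : Cfsg.IrrCharacter G, (Cfsg.charDegree (χ : G → ℂ)).factorization p = (Nat.card G).factorization p) ∨ (∃ χ : Cfsg.IrrCharacter G, (Cfsg.charDegree (χ : G → ℂ)).factorization q = (Nat.card G).factorization q) := by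
  by_contra hcon
  push Not at hcon
  have hC' := swap_hyp p q hC
  have h1 := (Cfsg.Agent.S4742.result p q hppq hpG hqG hC).resolve_left
    (by push Not; exact hcon.1)
  have h2 := (Cfsg.Agent.S4742.result q p hppq.symm hqG hpG hC').resolve_left
    (by push Not; exact hcon.2)
  rcases hsolv with hs | hs
  · exact core p q hppq hpG hs h1 h2
  · exact core q p hppq.symm hqG hs h2 h1

end Cfsg.Agent.S4743
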