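import Cfsg.Statements.S4754
import Mathlib
import Cfsg.Agent.Lib.Helper25.CharTools

set_option autoImplicit false
open Cfsg

namespace Cfsg.Agent.S4754

open Cfsg.Agent.Lib.Helper2 Cfsg.Agent.Lib.Helper25

/-- For elements x, y of a finite group G, the conjugacy class of x y equals the set of all products of a conjugate of x with a conjugate of y if and only if χ(1) χ(a x a⁻¹ b y b⁻¹) = χ(x) χ(y) for all a, b ∈ G and every irreducible character χ. -/
theorem result {G : Type*} [Group G] [Finite G] (x y : G) : (∀ z : G, IsConj (x * y) z ↔ ∃ a b : G, z = a * x * a⁻¹ * (b * y * b⁻¹)) ↔ ∀ (a b : G) (χ : Cfsg.IrrCharacter G), (χ : G → ℂ) 1 * (χ : G → ℂ) (a * x * a⁻¹ * (b * y * b⁻¹)) = (χ : G → ℂ) x * (χ : G → ℂ) y := by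
  classical
  have : Fintype G := Fintype.ofFinite G
  constructor
  · intro h a b χ
    have hcf := isClassFunction_of_isIrrCharacter χ.2
    have hconst : ∀ a b : G, (χ : G → ℂ) (a * x * a⁻¹ * (b * y * b⁻¹)) = (χ : G → ℂ) (x * y) := by
      intro a b
      have hc : IsConj (x * y) (a * x * a⁻¹ * (b * y * b⁻¹)) := (h _).mpr ⟨a, b, rfl⟩
      exact (IsClassFunction.of_isConj hcf hc).symm
    have hsum := irr_sum_conj_mul (χ : G → ℂ) χ.2 x y
    have h2 : ∑ a : G, ∑ b : G, (χ : G → ℂ) (a * x * a⁻¹ * (b * y * b⁻¹))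
        = (Nat.card G : ℂ) ^ 2 * (χ : G → ℂ) (x * y) := by
      simp only [hconst]
      rw [Finset.sum_const, Finset.sum_const, Finset.card_univ, nsmul_eq_mul, nsmul_eq_mul,
        Nat.card_eq_fintype_card]
      ring
    rw [h2] at hsum
    have hne : ((Nat.card G : ℂ) ^ 2) ≠ 0 := pow_ne_zero 2 (card_ne_zero_complex G)
    rw [hconst a b]
    have h3 : (Nat.card G : ℂ) ^ 2 * ((χ : G → ℂ) 1 * (χ : G → ℂ) (x * y))
        = (Nat.card G : ℂ) ^ 2 * ((χ : G → ℂ) x * (χ : G → ℂ) y) := by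
      rw [← hsum]; ring
    exact mul_left_cancel₀ hne h3
  · intro h z
    constructor
    · intro hz
      obtain ⟨c, hc⟩ := isConj_iff.mp hz
      refine ⟨c, c, ?_⟩
      rw [← hc]; group
    · rintro ⟨a, b, rfl⟩
      apply isConj_of_irr_eq
      intro χ
      have h1 := h 1 1 χ
      have h2 := h a b χ
      have e : (1 : G) * x * 1⁻¹ * (1 * y * 1⁻¹) = x * y := by group
      rw [e] at h1
      have hne := irr_one_ne_zero χ.2
      exact mul_left_cancel₀ hne (h1.trans h2.symm)

end Cfsg.Agent.S4754
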