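import Cfsg.Statements.S4755
import Mathlib
import Cfsg.Agent.Lib.Helper25.CharTools

set_option autoImplicit false
open Cfsg

namespace Cfsg.Agent.S4755

open Cfsg.Agent.Lib.Helper2 Cfsg.Agent.Lib.Helper25
open scoped ComplexConjugate commutatorElement

/-- Let x, y be non-identity elements of the finite group G such that χ(x' y') = χ(x') χ(y') for all conjugates x' of x, y' of y and every irreducible character χ. Then the conjugacy class of x y is the set of all products of a conjugate of x with a conjugate of y; every irreducible character of degree greater than 1 vanishes at x y; and the conjugacy class of x y is the coset of the commutator subgroup containing x y. -/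
theorem result {G : Type*} [Group G] [Finite G] (x y : G) (hx : x ≠ 1) (hy : y ≠ 1) (h : ∀ (a b : G) (χ : Cfsg.IrrCharacter G), (χ : G → ℂ) (a * x * a⁻¹ * (b * y * b⁻¹)) = (χ : G → ℂ) (a * x * a⁻¹) * (χ : G → ℂ) (b * y * b⁻¹)) : (∀ z : G, IsConj (x * y) z ↔ ∃ a b : G, z = a * x * a⁻¹ * (b * y * b⁻¹)) ∧ (∀ χ : Cfsg.IrrCharacter G, (χ : G → ℂ) 1 ≠ 1 → (χ : G → ℂ) (x * y) = 0) ∧ (∀ z : G, IsConj (x * y) z ↔ (x * y)⁻¹ * z ∈ commutator G) := by
  classical
  have : Fintype G := Fintype.ofFinite G
  have : Fintype (Cfsg.IrrCharacter G) := Fintype.ofFinite _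
  -- values on products of conjugates
  have hval : ∀ (a b : G) (χ : Cfsg.IrrCharacter G),
      (χ : G → ℂ) (a * x * a⁻¹ * (b * y * b⁻¹)) = (χ : G → ℂ) x * (χ : G → ℂ) y := by
    intro a b χ
    have hcf := isClassFunction_of_isIrrCharacter χ.2
    rw [h a b χ, hcf x a, hcf y b]
  have hxy : ∀ χ : Cfsg.IrrCharacter G, (χ : G → ℂ) (x * y) = (χ : G → ℂ) x * (χ : G → ℂ) y := by
    intro χ
    have := hval 1 1 χ
    have e : (1 : G) * x * 1⁻¹ * (1 * y * 1⁻¹) = x * y := by group
    rw [e] at this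
    exact this
  have hvan : ∀ χ : Cfsg.IrrCharacter G, (χ : G → ℂ) 1 ≠ 1 → (χ : G → ℂ) (x * y) = 0 := by
    intro χ hχ1
    have hsum := irr_sum_conj_mul (χ : G → ℂ) χ.2 x y
    have h2 : ∑ a : G, ∑ b : G, (χ : G → ℂ) (a * x * a⁻¹ * (b * y * b⁻¹))
        = (Nat.card G : ℂ) ^ 2 * ((χ : G → ℂ) x * (χ : G → ℂ) y) := by
      simp only [hval]
      rw [Finset.sum_const, Finset.sum_const, Finset.card_univ, nsmul_eq_mul, nsmul_eq_mul,
        Nat.card_eq_fintype_card]
      ring
    rw [h2] at hsum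
    have hne : ((Nat.card G : ℂ) ^ 2) ≠ 0 := pow_ne_zero 2 (card_ne_zero_complex G)
    have h3 : (Nat.card G : ℂ) ^ 2 * (((χ : G → ℂ) 1 - 1) * ((χ : G → ℂ) x * (χ : G → ℂ) y)) = 0 := by
      have : (Nat.card G : ℂ) ^ 2 * (((χ : G → ℂ) 1 - 1) * ((χ : G → ℂ) x * (χ : G → ℂ) y))
          = (χ : G → ℂ) 1 * ((Nat.card G : ℂ) ^ 2 * ((χ : G → ℂ) x * (χ : G → ℂ) y))
            - (Nat.card G : ℂ) ^ 2 * ((χ : G → ℂ) x * (χ : G → ℂ) y) := by ring
      rw [this, hsum, sub_self]
    rcases mul_eq_zero.mp h3 with h4 | h4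
    · exact absurd h4 hne
    · rcases mul_eq_zero.mp h4 with h5 | h5
      · exact absurd (sub_eq_zero.mp h5) hχ1
      · rw [hxy χ]; exact h5
  have hconjprod : ∀ z : G, IsConj (x * y) z ↔ ∃ a b : G, z = a * x * a⁻¹ * (b * y * b⁻¹) := by
    intro z
    constructor
    · intro hz
      obtain ⟨c, hc⟩ := isConj_iff.mp hz
      refine ⟨c, c, ?_⟩
      rw [← hc]; group
    · rintro ⟨a, b, rfl⟩
      apply isConj_of_irr_eq
      intro χ
      rw [hxy χ, hval a b χ]
  refine ⟨hconjprod, hvan, ?_⟩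
  -- the class is a coset of the commutator subgroup
  set w : G := x * y with hw
  have hfwd : ∀ z : G, IsConj w z → w⁻¹ * z ∈ commutator G := by
    intro z hz
    obtain ⟨c, hc⟩ := isConj_iff.mp hz
    have : w⁻¹ * z = ⁅w⁻¹, c⁆ := by
      rw [← hc, commutatorElement_def]; group
    rw [this]
    exact Subgroup.commutator_mem_commutator (Subgroup.mem_top _) (Subgroup.mem_top _)
  -- centralizer order equals the number of linear characters
  set S := Finset.univ.filter (fun χ : Cfsg.IrrCharacter G => (χ : G → ℂ) 1 = 1) with hS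
  have hcent : (Nat.card (Subgroup.centralizer ({w} : Set G)) : ℂ) = (S.card : ℂ) := by
    rw [← sum_irr_normSq w]
    rw [← Finset.sum_filter_add_sum_filter_not Finset.univ
      (fun χ : Cfsg.IrrCharacter G => (χ : G → ℂ) 1 = 1)]
    have h1 : ∀ χ ∈ Finset.univ.filter (fun χ : Cfsg.IrrCharacter G => (χ : G → ℂ) 1 = 1),
        (χ : G → ℂ) w * conj ((χ : G → ℂ) w) = 1 := by
      intro χ hχ
      have hn := norm_linear χ.2 (Finset.mem_filter.mp hχ).2 w
      rw [Complex.mul_conj, Complex.normSq_eq_norm_sq, hn]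
      simp
    have h2 : ∀ χ ∈ Finset.univ.filter (fun χ : Cfsg.IrrCharacter G => ¬ (χ : G → ℂ) 1 = 1),
        (χ : G → ℂ) w * conj ((χ : G → ℂ) w) = 0 := by
      intro χ hχ
      rw [hvan χ (Finset.mem_filter.mp hχ).2, zero_mul]
    rw [Finset.sum_congr rfl h1, Finset.sum_congr rfl h2, Finset.sum_const, Finset.sum_const_zero,
      add_zero, nsmul_eq_mul, mul_one]
  have hcent' : Nat.card (Subgroup.centralizer ({w} : Set G)) = S.card := by exact_mod_cast hcent
  have hlin := card_linear_le (G := G)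
  rw [← hS, ← hcent'] at hlin
  -- class of w
  have hclass := card_class_mul_card_centralizer w
  have hcard_le : Nat.card (commutator G) ≤ Nat.card {z : G // IsConj w z} := by
    have hpos : 0 < Nat.card (Subgroup.centralizer ({w} : Set G)) := Nat.card_pos
    have : Nat.card (commutator G) * Nat.card (Subgroup.centralizer ({w} : Set G))
        ≤ Nat.card {z : G // IsConj w z} * Nat.card (Subgroup.centralizer ({w} : Set G)) := by
      rw [hclass, mul_comm]; exact hlin
    exact le_of_mul_le_mul_right this hpos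
  -- injection of the class into the coset
  let φ : {z : G // IsConj w z} → commutator G := fun z => ⟨w⁻¹ * z.1, hfwd z.1 z.2⟩
  have hφinj : Function.Injective φ := by
    intro z1 z2 h12
    apply Subtype.ext
    have : w⁻¹ * z1.1 = w⁻¹ * z2.1 := congrArg Subtype.val h12
    exact mul_left_cancel this
  have hφbij : Function.Bijective φ := by
    rw [Nat.bijective_iff_injective_and_card]
    exact ⟨hφinj, le_antisymm (Nat.card_le_card_of_injective φ hφinj) hcard_le⟩
  intro z
  constructor
  · exact hfwd z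
  · intro hz
    obtain ⟨z', hz'⟩ := hφbij.2 ⟨w⁻¹ * z, hz⟩
    have : w⁻¹ * z'.1 = w⁻¹ * z := congrArg Subtype.val hz'
    have hzz : z'.1 = z := mul_left_cancel this
    rw [← hzz]
    exact z'.2

end Cfsg.Agent.S4755
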