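import Cfsg.Statements.S4784
import Cfsg.Agent.Lib.Helper2.CharFS
import Cfsg.Agent.Lib.Helper2.CharClifford
import Cfsg.Agent.Lib.Helper2.CharDecomp
import Cfsg.Agent.Lib.Helper2.CharLinear
import Cfsg.Agent.Lib.Helper25.Quot
import Cfsg.Agent.Lib.Helper26.OddIndex

set_option autoImplicit false
open Cfsg

namespace Cfsg.Agent.S4784

open Cfsg.Agent.Lib.Helper2 Cfsg.Agent.Lib.Helper25 Cfsg.Agent.Lib.Helper26

open scoped ComplexConjugate

theorem sum_sq_indFun_one {G : Type*} [Group G] [Fintype G] [DecidableEq G] (H : Subgroup G)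
    [DecidablePred (· ∈ H)] :
    ∑ y : G, indFun H (fun _ : H => (1 : ℂ)) (y * y)
      = (Nat.card H : ℂ)⁻¹ * ((Nat.card G : ℂ)
          * ((Finset.univ.filter (fun y : G => y * y ∈ H)).card : ℂ)) := by
  have hE : ∀ z : G, extendByZero H (fun _ : H => (1 : ℂ)) z = if z ∈ H then 1 else 0 := by
    intro z
    split_ifs with hz
    · rw [extendByZero_of_mem H _ hz]
    · rw [extendByZero_of_not_mem H _ hz]
  simp only [indFun_apply, hE]
  rw [← Finset.mul_sum, Finset.sum_comm]
  congr 1
  have h1 : ∀ x : G, ∑ y : G, (if x⁻¹ * (y * y) * x ∈ H then (1 : ℂ) else 0)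
      = ((Finset.univ.filter (fun y : G => y * y ∈ H)).card : ℂ) := by
    intro x
    rw [Finset.card_filter]
    push_cast
    apply Fintype.sum_equiv (MulAut.conj x⁻¹).toEquiv
    intro y
    simp only [MulEquiv.toEquiv_eq_coe, EquivLike.coe_coe, MulAut.conj_apply, inv_inv]
    have : x⁻¹ * y * x * (x⁻¹ * y * x) = x⁻¹ * (y * y) * x := by group
    rw [this]
  simp only [h1]
  rw [Finset.sum_const, Finset.card_univ, nsmul_eq_mul, Nat.card_eq_fintype_card]

/-- Let H be a subgroup of the finite group G and consider the permutation character of G on the cosets of H (the function induced from the principal character of H). Then exactly one irreducible constituent of it is real-valued with Frobenius–Schur indicator +1 (namely the principal character) if and only if the normal core of H has odd index in G. -/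
theorem result {G : Type*} [Group G] [Fintype G] (H : Subgroup G) : Nat.card {χ : Cfsg.IrrCharacter G // Cfsg.classInner (Cfsg.indFun H (fun _ : H => (1 : ℂ))) (χ : G → ℂ) ≠ 0 ∧ (∀ g : G, (starRingEnd ℂ) ((χ : G → ℂ) g) = (χ : G → ℂ) g) ∧ (Nat.card G : ℂ)⁻¹ * ∑ g : G, (χ : G → ℂ) (g * g) = 1} = 1 ↔ Odd H.normalCore.index := by
  classical
  have := Fintype.ofFinite (IrrCharacter G)
  have := Fintype.ofFinite H
  set π : G → ℂ := indFun H (fun _ : H => (1 : ℂ)) with hπ
  have hπc : IsCharacter G π :=
    indFun_isCharacter H (isCharacter_of_isIrrCharacter (isIrrCharacter_one (G := H)))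
  let one : IrrCharacter G := ⟨fun _ => 1, isIrrCharacter_one⟩
  have hGne : (Nat.card G : ℂ) ≠ 0 := card_ne_zero_complex G
  have hone_mult : classInner π (one : G → ℂ) = 1 := by
    rw [hπ, frobenius_reciprocity H _ _ (isClassFunction_of_isIrrCharacter one.2)]
    exact classInner_irr_self (isIrrCharacter_one (G := H))
  have hone_fs : (Nat.card G : ℂ)⁻¹ * ∑ g : G, (one : G → ℂ) (g * g) = 1 := by
    have h1 : ∑ g : G, (one : G → ℂ) (g * g) = (Nat.card G : ℂ) := by
      simp [one, Nat.card_eq_fintype_card]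
    rw [h1, inv_mul_cancel₀ hGne]
  have hone_mem : (classInner π (one : G → ℂ) ≠ 0 ∧
      (∀ g : G, (starRingEnd ℂ) ((one : G → ℂ) g) = (one : G → ℂ) g) ∧
      (Nat.card G : ℂ)⁻¹ * ∑ g : G, (one : G → ℂ) (g * g) = 1) :=
    ⟨by rw [hone_mult]; exact one_ne_zero, fun g => by simp [one], hone_fs⟩
  set K := H.normalCore with hK
  constructor
  · intro hcard
    by_contra hodd
    have heven : 2 ∣ K.index := even_iff_two_dvd.mp (Nat.not_odd_iff_even.mp hodd)
    rw [Subgroup.index_eq_card] at heven
    obtain ⟨x, hx⟩ := exists_prime_orderOf_dvd_card' 2 heven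
    obtain ⟨t, rfl⟩ := QuotientGroup.mk_surjective x
    have htK : t ∉ K := by
      intro h
      have h1 : ((t : G) : G ⧸ K) = 1 := (QuotientGroup.eq_one_iff t).mpr h
      rw [h1, orderOf_one] at hx
      omega
    have ht2 : t * t ∈ K := by
      rw [← QuotientGroup.eq_one_iff, QuotientGroup.mk_mul, ← sq, ← hx]
      exact pow_orderOf_eq_one _
    have hex : ∃ b : G, b * t * b⁻¹ ∉ H := by
      by_contra hno
      push Not at hno
      exact htK hno
    obtain ⟨b, hb⟩ := hex
    set g := b * t * b⁻¹ with hg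
    have hgg : g * g ∈ H := by
      have h1 : g * g = b * (t * t) * b⁻¹ := by
        rw [hg]
        group
      rw [h1]
      exact H.normalCore_le ((inferInstance : K.Normal).conj_mem _ ht2 b)
    have hN2 : Nat.card H + 1 ≤ (Finset.univ.filter (fun y : G => y * y ∈ H)).card := by
      have h1 : insert g (Finset.univ.filter (fun y : G => y ∈ H))
          ⊆ Finset.univ.filter (fun y : G => y * y ∈ H) := by
        intro y hy
        rw [Finset.mem_insert] at hy
        rw [Finset.mem_filter]
        refine ⟨Finset.mem_univ _, ?_⟩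
        rcases hy with rfl | hy
        · exact hgg
        · exact H.mul_mem (Finset.mem_filter.mp hy).2 (Finset.mem_filter.mp hy).2
      have h2 := Finset.card_le_card h1
      rw [Finset.card_insert_of_notMem (by simp [hb])] at h2
      have h3 : (Finset.univ.filter (fun y : G => y ∈ H)).card = Nat.card H := by
        rw [Nat.card_eq_fintype_card, Fintype.card_subtype]
      omega
    have hm : ∀ χ : IrrCharacter G, ∃ m : ℕ, classInner π (χ : G → ℂ) = m := fun χ =>
      classInner_isCharacter_nat hπc (isCharacter_of_isIrrCharacter χ.2)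
    choose m hm using hm
    have hfs : ∀ χ : IrrCharacter G, ∃ ε : ℤ,
        (Nat.card G : ℂ)⁻¹ * ∑ s : G, (χ : G → ℂ) (s * s) = ε ∧ (ε = 0 ∨ ε = 1 ∨ ε = -1) ∧
        (ε = 1 → ∀ s : G, (starRingEnd ℂ) ((χ : G → ℂ) s) = (χ : G → ℂ) s) := by
      intro χ
      obtain ⟨n, ρ, hρ, hχρ⟩ := χ.2
      have := hρ
      obtain ⟨h1, h2⟩ := frobenius_schur ρ
      rw [hχρ] at h1 h2
      rcases h1 with h | h | h
      · exact ⟨0, by rw [h]; simp, Or.inl rfl, fun e => absurd e (by norm_num)⟩
      · refine ⟨1, by rw [h]; simp, Or.inr (Or.inl rfl), fun _ s => ?_⟩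
        have h3 : ¬ ∃ s : G, ((χ : G → ℂ) s).im ≠ 0 := fun hs => by
          have h4 := h2.mpr hs
          rw [h] at h4
          exact one_ne_zero h4
        push Not at h3
        exact Complex.conj_eq_iff_im.mpr (h3 s)
      · exact ⟨-1, by rw [h]; simp, Or.inr (Or.inr rfl), fun e => absurd e (by norm_num)⟩
    choose ε hε hε3 hεreal using hfs
    have hid : ((Nat.card H : ℤ)) * ∑ χ : IrrCharacter G, (m χ : ℤ) * ε χ
        = ((Finset.univ.filter (fun y : G => y * y ∈ H)).card : ℤ) := by
      have h1 := sum_sq_indFun_one H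
      have h2 : ∑ y : G, π (y * y)
          = (Nat.card G : ℂ) * ∑ χ : IrrCharacter G, (m χ : ℂ) * (ε χ : ℂ) := by
        have hexp := class_fun_expand π (indFun_isClassFunction H _)
        calc ∑ y : G, π (y * y)
            = ∑ y : G, ∑ χ : IrrCharacter G, (m χ : ℂ) * (χ : G → ℂ) (y * y) := by
              apply Finset.sum_congr rfl
              intro y _
              conv_lhs => rw [hexp]
              rw [Finset.sum_apply]
              apply Finset.sum_congr rfl
              intro χ _
              rw [Pi.smul_apply, smul_eq_mul, hm χ]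
          _ = ∑ χ : IrrCharacter G, (m χ : ℂ) * ∑ y : G, (χ : G → ℂ) (y * y) := by
              rw [Finset.sum_comm]
              apply Finset.sum_congr rfl
              intro χ _
              rw [Finset.mul_sum]
          _ = _ := by
              rw [Finset.mul_sum]
              apply Finset.sum_congr rfl
              intro χ _
              rw [← hε χ]
              field_simp
      have h1' : ∑ y : G, π (y * y) = (Nat.card H : ℂ)⁻¹ * ((Nat.card G : ℂ)
          * ((Finset.univ.filter (fun y : G => y * y ∈ H)).card : ℂ)) := h1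
      rw [h2] at h1'
      have hHne : (Nat.card H : ℂ) ≠ 0 := card_ne_zero_complex H
      have h3 : ((Nat.card H : ℂ)) * ∑ χ : IrrCharacter G, (m χ : ℂ) * (ε χ : ℂ)
          = ((Finset.univ.filter (fun y : G => y * y ∈ H)).card : ℂ) := by
        have h5 : (Nat.card G : ℂ) * ((Nat.card H : ℂ)
            * ∑ χ : IrrCharacter G, (m χ : ℂ) * (ε χ : ℂ))
            = (Nat.card G : ℂ) * ((Finset.univ.filter (fun y : G => y * y ∈ H)).card : ℂ) := by
          calc (Nat.card G : ℂ) * ((Nat.card H : ℂ)
                * ∑ χ : IrrCharacter G, (m χ : ℂ) * (ε χ : ℂ))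
              = (Nat.card H : ℂ) * ((Nat.card G : ℂ)
                * ∑ χ : IrrCharacter G, (m χ : ℂ) * (ε χ : ℂ)) := by ring
            _ = (Nat.card H : ℂ) * ((Nat.card H : ℂ)⁻¹ * ((Nat.card G : ℂ)
                * ((Finset.univ.filter (fun y : G => y * y ∈ H)).card : ℂ))) := by rw [h1']
            _ = _ := by field_simp
        exact mul_left_cancel₀ hGne h5
      exact_mod_cast h3
    have hm1 : m one = 1 := by
      have h1 := hm one
      rw [hone_mult] at h1
      exact_mod_cast h1.symm
    have hε1 : ε one = 1 := by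
      have h1 := hε one
      rw [hone_fs] at h1
      exact_mod_cast h1.symm
    have hsplit : ∑ χ : IrrCharacter G, (m χ : ℤ) * ε χ
        = 1 + ∑ χ ∈ Finset.univ.erase one, (m χ : ℤ) * ε χ := by
      rw [← Finset.add_sum_erase Finset.univ _ (Finset.mem_univ one), hm1, hε1]
      simp
    have hexχ : ∃ χ : IrrCharacter G, χ ≠ one ∧ m χ ≠ 0 ∧ ε χ = 1 := by
      by_contra hno
      push Not at hno
      have hle : ∑ χ ∈ Finset.univ.erase one, (m χ : ℤ) * ε χ ≤ 0 := by
        apply Finset.sum_nonpos
        intro χ hχ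
        have hne : χ ≠ one := Finset.ne_of_mem_erase hχ
        by_cases hm0 : m χ = 0
        · rw [hm0]
          simp
        · have h1 := hno χ hne hm0
          rcases hε3 χ with h | h | h
          · rw [h, mul_zero]
          · exact absurd h h1
          · rw [h]
            have : (0 : ℤ) ≤ (m χ : ℤ) := Int.natCast_nonneg _
            linarith
      have hT : ∑ χ : IrrCharacter G, (m χ : ℤ) * ε χ ≤ 1 := by
        rw [hsplit]
        linarith
      have hHpos : (0 : ℤ) < (Nat.card H : ℤ) := by exact_mod_cast Nat.card_pos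
      have hN2' : ((Nat.card H : ℤ)) + 1
          ≤ ((Finset.univ.filter (fun y : G => y * y ∈ H)).card : ℤ) := by exact_mod_cast hN2
      rw [← hid] at hN2'
      nlinarith
    obtain ⟨χ, hχne, hχm, hχε⟩ := hexχ
    obtain ⟨hsub, _⟩ := Nat.card_eq_one_iff_unique.mp hcard
    have hχmem : (classInner π (χ : G → ℂ) ≠ 0 ∧
        (∀ g : G, (starRingEnd ℂ) ((χ : G → ℂ) g) = (χ : G → ℂ) g) ∧
        (Nat.card G : ℂ)⁻¹ * ∑ g : G, (χ : G → ℂ) (g * g) = 1) := by
      refine ⟨?_, hεreal χ hχε, ?_⟩
      · rw [hm χ]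
        exact_mod_cast hχm
      · rw [hε χ, hχε]
        simp
    have h1 := hsub.elim (⟨χ, hχmem⟩ : {χ : IrrCharacter G // classInner π (χ : G → ℂ) ≠ 0 ∧
        (∀ g : G, (starRingEnd ℂ) ((χ : G → ℂ) g) = (χ : G → ℂ) g) ∧
        (Nat.card G : ℂ)⁻¹ * ∑ g : G, (χ : G → ℂ) (g * g) = 1}) ⟨one, hone_mem⟩
    exact hχne (congrArg Subtype.val h1)
  · intro hodd
    rw [Nat.card_eq_one_iff_unique]
    have key : ∀ χ : IrrCharacter G, classInner π (χ : G → ℂ) ≠ 0 →
        (∀ g : G, (starRingEnd ℂ) ((χ : G → ℂ) g) = (χ : G → ℂ) g) → χ = one := by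
      intro χ hχ hreal
      rw [hπ, frobenius_reciprocity H _ _ (isClassFunction_of_isIrrCharacter χ.2)] at hχ
      obtain ⟨n, ρ, hρ, hχρ⟩ := χ.2
      have := hρ
      have hker : ∀ k ∈ K, ρ k = 1 := by
        by_contra hno
        push Not at hno
        have := Fintype.ofFinite K
        have h1 := sum_normal_eq_zero K ρ hno
        apply hχ
        have h2 : (∑ h : H, ρ (h : G)) * (∑ k : K, ρ (k : G))
            = (Nat.card K : ℂ) • ∑ h : H, ρ (h : G) := by
          rw [Finset.mul_sum]
          have h3 : ∀ k : K, (∑ h : H, ρ (h : G)) * ρ (k : G) = ∑ h : H, ρ (h : G) := by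
            intro k
            rw [Finset.sum_mul]
            have hkH : (k : G) ∈ H := H.normalCore_le k.2
            apply Fintype.sum_equiv (Equiv.mulRight (⟨(k : G), hkH⟩ : H))
            intro h
            rw [← map_mul]
            rfl
          simp only [h3]
          rw [Finset.sum_const, Finset.card_univ, Nat.card_eq_fintype_card,
            Nat.cast_smul_eq_nsmul]
        rw [h1, mul_zero] at h2
        have h3 : ∑ h : H, ρ (h : G) = 0 := by
          have hKne : (Nat.card K : ℂ) ≠ 0 := card_ne_zero_complex K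
          exact (smul_eq_zero.mp h2.symm).resolve_left hKne
        rw [classInner_def]
        have h4 : ∑ h : H, (fun _ : H => (1 : ℂ)) h * conj ((χ : G → ℂ) h)
            = conj (LinearMap.trace ℂ _ (∑ h : H, ρ (h : G))) := by
          rw [map_sum, map_sum]
          apply Finset.sum_congr rfl
          intro h _
          rw [one_mul, ← hχρ]
          rfl
        rw [h4, h3, map_zero, map_zero, mul_zero]
      have hkerχ : ∀ k ∈ K, (χ : G → ℂ) k = (χ : G → ℂ) 1 := by
        intro k hk
        rw [← hχρ]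
        unfold Representation.character
        rw [hker k hk, map_one ρ]
      obtain ⟨ψ, hψ, hψχ⟩ := deflate_irr K χ.2 hkerχ
      have hψreal : ψ ∘ (fun q : G ⧸ K => q⁻¹) = ψ := by
        funext q
        obtain ⟨g, rfl⟩ := QuotientGroup.mk_surjective q
        show ψ ((g : G ⧸ K))⁻¹ = ψ (g : G ⧸ K)
        rw [← QuotientGroup.mk_inv, hψχ, hψχ, ← hχρ, char_inv, hχρ, hreal]
      have hψ1 := real_irr_of_odd (Q := G ⧸ K) (by rw [← Subgroup.index_eq_card]; exact hodd)
        ⟨ψ, hψ⟩ hψreal
      apply Subtype.ext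
      funext g
      rw [← hψχ g]
      exact congrFun hψ1 (g : G ⧸ K)
    refine ⟨⟨fun a b => ?_⟩, ⟨⟨one, hone_mem⟩⟩⟩
    exact Subtype.ext ((key a.1 a.2.1 a.2.2.1).trans (key b.1 b.2.1 b.2.2.1).symm)

end Cfsg.Agent.S4784
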