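import Cfsg.Statements.S4797
-- import your own Cfsg.Agent.* helpers here
import Mathlib
import Cfsg.Agent.Lib.Helper25.Quot
import Cfsg.Agent.Lib.Helper2.CharIntegral
import Cfsg.Agent.Lib.Helper2.CharLinear

set_option autoImplicit false
open Cfsg

namespace Cfsg.Agent.S4797

open Cfsg.Agent.Lib.Helper2 Cfsg.Agent.Lib.Helper25 Module

open scoped ComplexConjugate

/-- a hom from a perfect group to a commutative group is trivial -/
theorem hom_trivial {H A : Type*} [Group H] [CommGroup A] (hperf : commutator H = ⊤) (f : H →* A)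
    (h : H) : f h = 1 := by
  have := Abelianization.commutator_subset_ker f
  rw [hperf] at this
  exact this (Subgroup.mem_top h)

/-- degree bound: a faithful irreducible representation of a group of order `p * d` has `d < p` -/
theorem deg_lt {H : Type*} [Group H] [Finite H] {V : Type*} [AddCommGroup V] [Module ℂ V]
    [FiniteDimensional ℂ V] (σ : Representation ℂ H V) [σ.IsIrreducible]
    (hinj : Function.Injective σ) (p : ℕ) (hp : p.Prime)
    (hcard : Nat.card H = p * finrank ℂ V) : finrank ℂ V < p := by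
  classical
  have := Fintype.ofFinite H
  have := Fintype.ofFinite (Cfsg.IrrCharacter H)
  by_contra hcon
  push Not at hcon
  have hsum := sum_irr_normSq (1 : H)
  have hcen : Subgroup.centralizer ({1} : Set H) = ⊤ := by
    rw [Subgroup.centralizer_eq_top_iff_subset]
    intro x hx
    rw [Set.mem_singleton_iff] at hx
    rw [hx]
    exact Subgroup.one_mem _
  rw [hcen, Subgroup.card_top] at hsum
  have hsum' : ∑ ψ : Cfsg.IrrCharacter H, Complex.normSq ((ψ : H → ℂ) 1) = (Nat.card H : ℝ) := by
    have : ((∑ ψ : Cfsg.IrrCharacter H, Complex.normSq ((ψ : H → ℂ) 1) : ℝ) : ℂ)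
        = ((Nat.card H : ℝ) : ℂ) := by
      rw [Complex.ofReal_sum, Complex.ofReal_natCast, ← hsum]
      apply Finset.sum_congr rfl
      intro ψ _
      rw [Complex.mul_conj]
    exact_mod_cast this
  let t : Cfsg.IrrCharacter H := ⟨fun _ => 1, isIrrCharacter_one⟩
  let c : Cfsg.IrrCharacter H := ⟨σ.character, isIrrCharacter_of_rep σ⟩
  by_cases htc : t = c
  · have h1 : ∀ h : H, σ.character h = 1 := by
      intro h
      have := congrArg (fun χ : Cfsg.IrrCharacter H => (χ : H → ℂ) h) htc
      exact this.symm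
    have hd : (finrank ℂ V : ℂ) = 1 := by
      rw [← Representation.char_one σ]; exact h1 1
    have htriv : ∀ h : H, h = 1 := by
      intro h
      apply hinj
      rw [map_one]
      have := (char_eq_finrank_iff σ h).mp (by rw [h1 h, hd])
      exact this
    have hc1 : Nat.card H = 1 := by
      rw [Nat.card_eq_one_iff_unique]
      exact ⟨⟨fun a b => by rw [htriv a, htriv b]⟩, ⟨1⟩⟩
    have hd' : finrank ℂ V = 1 := by exact_mod_cast hd
    rw [hc1, hd', mul_one] at hcard
    exact hp.one_lt.ne hcard
  · have hle : ∑ ψ ∈ ({t, c} : Finset (Cfsg.IrrCharacter H)), Complex.normSq ((ψ : H → ℂ) 1)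
        ≤ ∑ ψ : Cfsg.IrrCharacter H, Complex.normSq ((ψ : H → ℂ) 1) := by
      apply Finset.sum_le_sum_of_subset_of_nonneg (Finset.subset_univ _)
      intro ψ _ _
      exact Complex.normSq_nonneg _
    rw [Finset.sum_pair htc, hsum'] at hle
    have ht : Complex.normSq ((t : H → ℂ) 1) = 1 := by
      change Complex.normSq (1 : ℂ) = 1
      simp
    have hc : Complex.normSq ((c : H → ℂ) 1) = (finrank ℂ V : ℝ) ^ 2 := by
      change Complex.normSq (σ.character 1) = _
      rw [Representation.char_one, Complex.normSq_natCast]; ring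
    rw [ht, hc, hcard] at hle
    have hle' : 1 + (finrank ℂ V) ^ 2 ≤ p * finrank ℂ V := by exact_mod_cast hle
    nlinarith

/-- a perfect group of order `p * d` has no faithful irreducible representation of degree `d` -/
theorem core {H : Type*} [Group H] [Finite H] {V : Type*} [AddCommGroup V] [Module ℂ V]
    [FiniteDimensional ℂ V] (σ : Representation ℂ H V) [σ.IsIrreducible]
    (hinj : Function.Injective σ) (hperf : commutator H = ⊤) (p : ℕ) (hp : p.Prime)
    (hcard : Nat.card H = p * finrank ℂ V) : False := by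
  classical
  have : Fact p.Prime := ⟨hp⟩
  have hd0 : 0 < finrank ℂ V := irr_finrank_pos σ
  have hdp : finrank ℂ V < p := deg_lt σ hinj p hp hcard
  have hndvd : ¬ p ∣ finrank ℂ V := Nat.not_dvd_of_pos_of_lt hd0 hdp
  obtain ⟨P⟩ : Nonempty (Sylow p H) := inferInstance
  have hfac : (Nat.card H).factorization p = 1 := by
    rw [hcard, Nat.factorization_mul hp.ne_zero hd0.ne', Finsupp.add_apply,
      hp.factorization_self, Nat.factorization_eq_zero_of_not_dvd hndvd]
  have hPcard : Nat.card P = p := by
    rw [Sylow.card_eq_multiplicity, hfac, pow_one]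
  have hPidx : (P : Subgroup H).index = finrank ℂ V := by
    have h1 := Subgroup.card_mul_index (P : Subgroup H)
    rw [hPcard, hcard] at h1
    exact Nat.eq_of_mul_eq_mul_left hp.pos h1
  have hsyl : Nat.card (Sylow p H) = 1 := by
    have h1 := Sylow.card_dvd_index P
    rw [hPidx] at h1
    have h2 := card_sylow_modEq_one p H
    have h3 : Nat.card (Sylow p H) < p := lt_of_le_of_lt (Nat.le_of_dvd hd0 h1) hdp
    have h4 : Nat.card (Sylow p H) % p = 1 % p := h2
    rw [Nat.mod_eq_of_lt h3, Nat.mod_eq_of_lt hp.one_lt] at h4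
    exact h4
  have : Subsingleton (Sylow p H) := (Nat.card_eq_one_iff_unique.mp hsyl).1
  have hPn : (P : Subgroup H).Normal := Sylow.normal_of_subsingleton P
  have hPc : IsCyclic (P : Subgroup H) := isCyclic_of_prime_card hPcard
  have hcentral : ∀ (h : H) (z : (P : Subgroup H)), h * (z : H) * h⁻¹ = z := by
    intro h z
    let f : H →* (ZMod (Nat.card (P : Subgroup H)))ˣ :=
      (IsCyclic.mulAutMulEquiv (G := (P : Subgroup H))).toMonoidHom.comp MulAut.conjNormal
    have h1 : f h = 1 := hom_trivial hperf f h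
    have h2 : (MulAut.conjNormal h : MulAut (P : Subgroup H)) = 1 := by
      apply (IsCyclic.mulAutMulEquiv (G := (P : Subgroup H))).injective
      rw [map_one]
      exact h1
    have h3 := congrArg (fun e : MulAut (P : Subgroup H) => ((e z : (P : Subgroup H)) : H)) h2
    simp only [MulAut.conjNormal_apply, MulAut.one_apply] at h3
    exact h3
  have : Nontrivial (P : Subgroup H) := Finite.one_lt_card_iff_nontrivial.mp (by
    rw [hPcard]; exact hp.one_lt)
  obtain ⟨z, hz⟩ := exists_ne (1 : (P : Subgroup H))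
  have hcomm : ∀ h : H, σ (z : H) ∘ₗ σ h = σ h ∘ₗ σ (z : H) := by
    intro h
    change σ (z : H) * σ h = σ h * σ (z : H)
    rw [← map_mul, ← map_mul]
    congr 1
    have := hcentral h z
    calc (z : H) * h = (h * (z : H) * h⁻¹) * h := by rw [this]
      _ = h * (z : H) := by group
  obtain ⟨c, hc⟩ := schur_scalar σ _ hcomm
  have hzp : (z : H) ^ p = 1 := by
    have := pow_card_eq_one' (G := (P : Subgroup H)) (x := z)
    rw [hPcard] at this
    have h2 := congrArg (Subtype.val) this
    simpa using h2
  have hVnt : Nontrivial V := irr_nontrivial σ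
  have hcp : c ^ p = 1 := by
    have h1 : σ ((z : H) ^ p) = 1 := by rw [hzp, map_one]
    rw [map_pow, hc] at h1
    have h2 : (c • (LinearMap.id : V →ₗ[ℂ] V)) ^ p = c ^ p • (1 : Module.End ℂ V) := by
      rw [smul_pow]; congr 1; exact one_pow p
    rw [h2] at h1
    obtain ⟨v, hv⟩ := exists_ne (0 : V)
    have h3 := congrArg (fun T : Module.End ℂ V => T v) h1
    simp only [LinearMap.smul_apply, Module.End.one_apply] at h3
    have h4 : (c ^ p - 1) • v = 0 := by rw [sub_smul, h3, one_smul, sub_self]
    rcases smul_eq_zero.mp h4 with h5 | h5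
    · exact sub_eq_zero.mp h5
    · exact absurd h5 hv
  have hcd : c ^ finrank ℂ V = 1 := by
    let f : H →* ℂˣ := ((LinearMap.det : (V →ₗ[ℂ] V) →* ℂ).comp σ).toHomUnits
    have h1 : f (z : H) = 1 := hom_trivial hperf f _
    have h2 : LinearMap.det (σ (z : H)) = 1 := by
      have := congrArg (fun u : ℂˣ => (u : ℂ)) h1
      simpa [f] using this
    rw [hc, LinearMap.det_smul, LinearMap.det_id, mul_one] at h2
    exact h2
  have hc1 : c = 1 := by
    have h1 := pow_gcd_eq_one.mpr ⟨hcp, hcd⟩
    have h2 : Nat.gcd p (finrank ℂ V) = 1 := (Nat.Prime.coprime_iff_not_dvd hp).mpr hndvd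
    rw [h2, pow_one] at h1
    exact h1
  apply hz
  apply Subtype.ext
  apply hinj
  rw [hc, hc1, one_smul, OneMemClass.coe_one, map_one]
  rfl

/-- a non-perfect finite group has a linear character whose kernel has prime index -/
theorem exists_prime_index {G : Type*} [Group G] [Finite G] (h : commutator G ≠ ⊤) :
    ∃ (μ : G →* ℂˣ) (p : ℕ), p.Prime ∧ Nat.card G = p * Nat.card μ.ker := by
  classical
  obtain ⟨g, hg⟩ : ∃ g : G, g ∉ commutator G := by
    by_contra hcon
    push Not at hcon
    exact h (Subgroup.eq_top_iff' _ |>.mpr hcon)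
  have hne : (Abelianization.of g : Abelianization G) ≠ 1 := by
    intro h1
    apply hg
    exact (QuotientGroup.eq_one_iff g).mp h1
  have : NeZero ((Monoid.exponent (Abelianization G) : ℕ) : ℂ) :=
    ⟨by exact_mod_cast Monoid.exponent_ne_zero_of_finite⟩
  obtain ⟨φ, hφ⟩ := CommGroup.exists_apply_ne_one_of_hasEnoughRootsOfUnity (Abelianization G) ℂ hne
  let lam : G →* ℂˣ := φ.comp Abelianization.of
  have hlam : lam g ≠ 1 := hφ
  have hfin : Finite lam.range :=
    Finite.of_surjective lam.rangeRestrict lam.rangeRestrict_surjective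
  have hcyc : IsCyclic lam.range := inferInstance
  set M := Nat.card lam.range with hM
  have hM1 : 1 < M := by
    rw [hM, Finite.one_lt_card_iff_nontrivial]
    refine ⟨⟨⟨lam g, g, rfl⟩, 1, ?_⟩⟩
    intro h1
    exact hlam (congrArg Subtype.val h1)
  let p := M.minFac
  have hp : p.Prime := Nat.minFac_prime hM1.ne'
  have hpM : p ∣ M := Nat.minFac_dvd M
  let μ : G →* ℂˣ := (powMonoidHom (M / p)).comp lam
  have hμ : ∀ x, μ x = lam x ^ (M / p) := fun x => rfl
  have hfin' : Finite μ.range :=
    Finite.of_surjective μ.rangeRestrict μ.rangeRestrict_surjective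
  have hcyc' : IsCyclic μ.range := inferInstance
  have hexp : ∀ y : μ.range, y ^ p = 1 := by
    rintro ⟨y, x, rfl⟩
    apply Subtype.ext
    change (μ x) ^ p = 1
    rw [hμ, ← pow_mul, Nat.div_mul_cancel hpM]
    have := pow_card_eq_one' (G := lam.range) (x := ⟨lam x, x, rfl⟩)
    exact congrArg Subtype.val this
  have hnt : Nontrivial μ.range := by
    obtain ⟨⟨y, x, rfl⟩, hy⟩ := IsCyclic.exists_ofOrder_eq_natCard (α := lam.range)
    have hy' : orderOf (lam x) = M := by
      rw [hM, ← hy]
      exact (Subgroup.orderOf_mk (lam x) (MonoidHom.mem_range.mpr ⟨x, rfl⟩)).symm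
    refine ⟨⟨⟨μ x, x, rfl⟩, 1, ?_⟩⟩
    intro h1
    have h2 : lam x ^ (M / p) = 1 := congrArg Subtype.val h1
    have h3 : M / p ≠ 0 := by
      have := Nat.div_pos (Nat.le_of_dvd (by omega) hpM) hp.pos
      omega
    have h4 : M / p < orderOf (lam x) := by
      rw [hy']
      exact Nat.div_lt_self (by omega) hp.one_lt
    exact pow_ne_one_of_lt_orderOf h3 h4 h2
  have hcardr : Nat.card μ.range = p := by
    have h1 : Monoid.exponent μ.range ∣ p := Monoid.exponent_dvd_of_forall_pow_eq_one hexp
    rw [IsCyclic.exponent_eq_card] at h1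
    rcases (Nat.dvd_prime hp).mp h1 with h2 | h2
    · exfalso
      have := Finite.one_lt_card_iff_nontrivial.mpr hnt
      omega
    · exact h2
  refine ⟨μ, p, hp, ?_⟩
  rw [← hcardr, ← Subgroup.index_ker, mul_comm]
  exact (Subgroup.card_mul_index μ.ker).symm

theorem perfect_quot {G : Type*} [Group G] (K : Subgroup G) [K.Normal] (h : commutator G = ⊤) :
    commutator (G ⧸ K) = ⊤ := by
  have h1 : Subgroup.map (QuotientGroup.mk' K) ⊤ = ⊤ :=
    Subgroup.map_top_of_surjective _ (QuotientGroup.mk'_surjective K)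
  rw [commutator_def, ← h1, ← Subgroup.map_commutator, ← commutator_def, h]

/-- A nontrivial finite group is perfect iff none of its irreducible characters has prime codegree. -/
theorem result {G : Type*} [Group G] [Finite G] [Nontrivial G] : commutator G = ⊤ ↔ ∀ χ : Cfsg.IrrCharacter G, ¬ ((Nat.card G / (Nat.card {g : G // (χ : G → ℂ) g = (χ : G → ℂ) 1} * Cfsg.charDegree (χ : G → ℂ)))).Prime := by
  classical
  constructor
  · intro hperf χ hprime
    obtain ⟨n, ρ, hρ, hχ⟩ := χ.2
    let K : Subgroup G := MonoidHom.ker ρ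
    have hK : ∀ g, g ∈ K ↔ (χ : G → ℂ) g = (χ : G → ℂ) 1 := by
      intro g
      rw [← hχ, Representation.char_one, char_eq_finrank_iff, MonoidHom.mem_ker]; rfl
    obtain ⟨ψ, hψ, hψχ⟩ := deflate_irr K χ.2 (fun n hn => (hK n).1 hn)
    obtain ⟨m, σ, hσ, hσψ⟩ := hψ
    have hm : (m : ℂ) = n := by
      have h1 := hψχ 1
      rw [← hσψ, ← hχ] at h1
      rw [QuotientGroup.mk_one, Representation.char_one, Representation.char_one] at h1
      simpa using h1
    have hmn : m = n := by exact_mod_cast hm
    have hinj : Function.Injective σ := by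
      rw [injective_iff_map_eq_one]
      intro q hq
      obtain ⟨g, rfl⟩ := QuotientGroup.mk_surjective q
      rw [QuotientGroup.eq_one_iff, hK, ← hψχ g, ← hψχ 1, ← hσψ, QuotientGroup.mk_one,
        Representation.char_one, char_eq_finrank_iff]
      exact hq
    have hcardK : Nat.card {g : G // (χ : G → ℂ) g = (χ : G → ℂ) 1} = Nat.card K :=
      Nat.card_congr (Equiv.subtypeEquivRight (fun g => (hK g).symm))
    have hdeg : Cfsg.charDegree (χ : G → ℂ) = n := by
      unfold Cfsg.charDegree
      rw [← hχ, Representation.char_one]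
      simp
    rw [hcardK, hdeg] at hprime
    have hdvd : m ∣ Nat.card (G ⧸ K) := by
      have := irr_degree_dvd_card σ
      simpa using this
    have hcard := Subgroup.card_eq_card_quotient_mul_card_subgroup K
    have hKpos : 0 < Nat.card K := Nat.card_pos
    have hmpos : 0 < m := by have := irr_finrank_pos σ; simpa using this
    have hcq : Nat.card (G ⧸ K) = (Nat.card G / (Nat.card K * n)) * m := by
      obtain ⟨k, hk⟩ := hdvd
      rw [hcard, hk, ← hmn,
        show m * k * Nat.card K = k * (Nat.card K * m) by ring,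
        Nat.mul_div_cancel _ (Nat.mul_pos hKpos hmpos)]
      ring
    exact core σ hinj (perfect_quot K hperf) _ hprime (by rw [hcq]; simp)
  · intro hall
    by_contra hnp
    obtain ⟨μ, p, hp, hcard⟩ := exists_prime_index hnp
    apply hall ⟨fun g => (μ g : ℂ), isIrrCharacter_of_hom μ⟩
    have hcardK : Nat.card {g : G // ((μ g : ℂˣ) : ℂ) = ((μ 1 : ℂˣ) : ℂ)} = Nat.card μ.ker :=
      Nat.card_congr (Equiv.subtypeEquivRight (fun g => by rw [map_one, MonoidHom.mem_ker]; simp))
    have hdeg : Cfsg.charDegree (fun g => ((μ g : ℂˣ) : ℂ)) = 1 := by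
      unfold Cfsg.charDegree; simp
    change (Nat.card G / (Nat.card {g : G // ((μ g : ℂˣ) : ℂ) = ((μ 1 : ℂˣ) : ℂ)}
      * Cfsg.charDegree (fun g => ((μ g : ℂˣ) : ℂ)))).Prime
    rw [hcardK, hdeg, mul_one, hcard, Nat.mul_div_cancel _ Nat.card_pos]
    exact hp

end Cfsg.Agent.S4797
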