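import Cfsg.Statements.S4798
import Cfsg.Agent.Lib.Helper2.CharMore
import Cfsg.Agent.Lib.Helper2.CharClifford
import Cfsg.Agent.Lib.Helper2.CharDecomp
import Cfsg.Agent.Lib.Helper25.Defect0

set_option autoImplicit false
open Cfsg

namespace Cfsg.Agent.S4798

open Cfsg.Agent.Lib.Helper2 Cfsg.Agent.Lib.Helper25

open scoped ComplexConjugate

theorem char_zero_of_degree_zero {G : Type*} [Group G] {Ψ : G → ℂ} (hΨ : IsCharacter G Ψ)
    (h1 : Ψ 1 = 0) : Ψ = 0 := by
  obtain ⟨m, σ, rfl⟩ := hΨ
  rw [Representation.char_one] at h1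
  have hm : m = 0 := by
    have : (Module.finrank ℂ (Fin m → ℂ) : ℂ) = 0 := h1
    simpa using this
  subst hm
  funext g
  have : σ g = 0 := Subsingleton.elim _ _
  simp [Representation.character, this]

theorem isCharacter_degree {G : Type*} [Group G] {Ψ : G → ℂ} (hΨ : IsCharacter G Ψ) :
    ∃ m : ℕ, Ψ 1 = (m : ℂ) := by
  obtain ⟨m, σ, rfl⟩ := hΨ
  refine ⟨m, ?_⟩
  rw [Representation.char_one]
  simp

/-- Let p be a prime and χ a faithful irreducible complex character of the finite group G (χ(g) = χ(1) only for g = 1), so that its codegree is #G / χ(1). Then #G / χ(1) is a power of p if and only if χ is induced from a character of a Sylow p-subgroup of G. -/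
theorem result {G : Type*} [Group G] [Fintype G] (p : ℕ) [Fact p.Prime] (χ : Cfsg.IrrCharacter G) (hfaith : ∀ g : G, (χ : G → ℂ) g = (χ : G → ℂ) 1 → g = 1) : (∃ k : ℕ, Nat.card G = p ^ k * Cfsg.charDegree (χ : G → ℂ)) ↔ ∃ (P : Sylow p G) (θ : ↥(P : Subgroup G) → ℂ), Cfsg.IsCharacter ↥(P : Subgroup G) θ ∧ (χ : G → ℂ) = Cfsg.indFun (P : Subgroup G) θ := by
  classical
  have hp : p.Prime := Fact.out
  obtain ⟨d, hd1, hdpos, hddvd, hdeg⟩ := irr_degree χ
  rw [hdeg]
  have hG0 : Nat.card G ≠ 0 := Nat.card_pos.ne'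
  constructor
  · rintro ⟨k, hk⟩
    obtain ⟨P⟩ := (inferInstance : Nonempty (Sylow p G))
    have := Fintype.ofFinite (P : Subgroup G)
    have := Fintype.ofFinite (IrrCharacter (P : Subgroup G))
    set a := (Nat.card G).factorization p with ha
    have hPc : Nat.card (P : Subgroup G) = p ^ a := P.card_eq_multiplicity
    have hidx : ¬ p ∣ (P : Subgroup G).index := P.not_dvd_index
    have hka : k ≤ a := by
      apply (Nat.Prime.pow_dvd_iff_le_factorization hp hG0).mp
      exact Dvd.intro _ hk.symm
    have hcard : (P : Subgroup G).index * p ^ a = Nat.card G := by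
      rw [← hPc, mul_comm]
      exact (P : Subgroup G).card_mul_index
    have hd : d = (P : Subgroup G).index * p ^ (a - k) := by
      have h1 : p ^ k * d = p ^ k * ((P : Subgroup G).index * p ^ (a - k)) := by
        rw [← hk, ← hcard]
        have : p ^ a = p ^ k * p ^ (a - k) := by rw [← pow_add, Nat.add_sub_cancel' hka]
        rw [this]
        ring
      exact Nat.eq_of_mul_eq_mul_left (pow_pos hp.pos k) h1
    -- the restriction of χ to P
    have hres : IsCharacter (P : Subgroup G) (fun x : (P : Subgroup G) => (χ : G → ℂ) x) :=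
      Cfsg.Agent.Lib.Helper2.IsCharacter.restrict (isCharacter_of_isIrrCharacter χ.2) _
    have hmult : ∀ θ : IrrCharacter (P : Subgroup G), ∃ m : ℕ,
        classInner (fun x : (P : Subgroup G) => (χ : G → ℂ) x) (θ : ↥(P : Subgroup G) → ℂ) = m :=
      fun θ => classInner_isCharacter_nat hres (isCharacter_of_isIrrCharacter θ.2)
    choose mult hmult using hmult
    have hθdeg : ∀ θ : IrrCharacter (P : Subgroup G), ∃ j : ℕ,
        (θ : ↥(P : Subgroup G) → ℂ) 1 = ((p ^ j : ℕ) : ℂ) := by
      intro θ
      obtain ⟨e, he1, _, hedvd, _⟩ := irr_degree θ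
      rw [hPc] at hedvd
      obtain ⟨j, _, hj⟩ := (Nat.dvd_prime_pow hp).mp hedvd
      exact ⟨j, by rw [he1, hj]⟩
    choose jj hjj using hθdeg
    have hexp := congrFun (class_fun_expand (fun x : (P : Subgroup G) => (χ : G → ℂ) x)
      (isClassFunction_of_isCharacter hres)) 1
    rw [Finset.sum_apply] at hexp
    have hexp' : (d : ℂ) = ∑ θ : IrrCharacter (P : Subgroup G),
        ((mult θ * p ^ jj θ : ℕ) : ℂ) := by
      rw [← hd1]
      have hexp2 : (χ : G → ℂ) 1 = ∑ c : IrrCharacter (P : Subgroup G),
          (classInner (fun x : (P : Subgroup G) => (χ : G → ℂ) x)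
            (c : ↥(P : Subgroup G) → ℂ) • (c : ↥(P : Subgroup G) → ℂ)) 1 := hexp
      rw [hexp2]
      apply Finset.sum_congr rfl
      intro θ _
      rw [Pi.smul_apply, smul_eq_mul, hmult θ, hjj θ]
      push_cast
      ring
    have hexpN : d = ∑ θ : IrrCharacter (P : Subgroup G), mult θ * p ^ jj θ := by
      have : (d : ℂ) = ((∑ θ : IrrCharacter (P : Subgroup G), mult θ * p ^ jj θ : ℕ) : ℂ) := by
        rw [hexp']
        push_cast
        rfl
      exact_mod_cast this
    -- lower bound on the degrees of the constituents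
    have hlow : ∀ θ : IrrCharacter (P : Subgroup G), mult θ ≠ 0 →
        IsCharacter G (indFun (P : Subgroup G) (θ : ↥(P : Subgroup G) → ℂ) - (χ : G → ℂ)) := by
      intro θ hθ
      apply Cfsg.Agent.Lib.Helper2.IsCharacter.sub_irr (indFun_isCharacter _ (isCharacter_of_isIrrCharacter θ.2)) χ.2
      rw [frobenius_reciprocity _ _ _ (isClassFunction_of_isIrrCharacter χ.2),
        ← classInner_conj_symm, hmult θ]
      simpa using hθ
    have hge : ∀ θ : IrrCharacter (P : Subgroup G), mult θ ≠ 0 → a - k ≤ jj θ := by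
      intro θ hθ
      obtain ⟨m, hm⟩ := isCharacter_degree (hlow θ hθ)
      rw [Pi.sub_apply, indFun_apply_one, hjj θ, hd1] at hm
      have h1 : (((P : Subgroup G).index * p ^ jj θ : ℕ) : ℂ) = ((m + d : ℕ) : ℂ) := by
        push_cast
        rw [← hm]
        push_cast
        ring
      have h2 : (P : Subgroup G).index * p ^ jj θ = m + d := by exact_mod_cast h1
      have h3 : (P : Subgroup G).index * p ^ (a - k) ≤ (P : Subgroup G).index * p ^ jj θ := by
        rw [← hd, h2]
        exact Nat.le_add_left _ _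
      have hipos : 0 < (P : Subgroup G).index := Nat.pos_of_ne_zero (fun h => hidx (by rw [h]; exact dvd_zero p))
      have h4 := Nat.le_of_mul_le_mul_left h3 hipos
      exact (Nat.pow_le_pow_iff_right hp.one_lt).mp h4
    -- some constituent has exactly the minimal degree
    have hex : ∃ θ : IrrCharacter (P : Subgroup G), mult θ ≠ 0 ∧ jj θ = a - k := by
      by_contra hno
      push Not at hno
      apply hidx
      have hdvd : p ^ (a - k + 1) ∣ d := by
        rw [hexpN]
        apply Finset.dvd_sum
        intro θ _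
        by_cases hθ : mult θ = 0
        · rw [hθ, zero_mul]
          exact dvd_zero _
        · have h1 := hge θ hθ
          have h2 := hno θ hθ
          have h3 : a - k + 1 ≤ jj θ := by omega
          exact Dvd.dvd.mul_left (pow_dvd_pow p h3) _
      rw [hd, pow_succ] at hdvd
      have h5 : p ^ (a - k) * p ∣ p ^ (a - k) * (P : Subgroup G).index := by
        rw [mul_comm (p ^ (a - k)) (P : Subgroup G).index]
        exact hdvd
      exact (Nat.mul_dvd_mul_iff_left (pow_pos hp.pos _)).mp h5
    obtain ⟨θ, hθ, hj⟩ := hex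
    refine ⟨P, (θ : ↥(P : Subgroup G) → ℂ), isCharacter_of_isIrrCharacter θ.2, ?_⟩
    have hz := char_zero_of_degree_zero (hlow θ hθ) (by
      rw [Pi.sub_apply, indFun_apply_one, hjj θ, hd1, hj, hd]
      push_cast
      ring)
    have := sub_eq_zero.mp hz
    exact this.symm
  · rintro ⟨P, θ, hθ, hχθ⟩
    obtain ⟨m, hm⟩ := isCharacter_degree hθ
    have h1 : (d : ℂ) = (((P : Subgroup G).index * m : ℕ) : ℂ) := by
      rw [← hd1, hχθ, indFun_apply_one, hm]
      push_cast
      rfl
    have h2 : d = (P : Subgroup G).index * m := by exact_mod_cast h1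
    set a := (Nat.card G).factorization p with ha
    have hPc : Nat.card (P : Subgroup G) = p ^ a := P.card_eq_multiplicity
    have hcard : (P : Subgroup G).index * p ^ a = Nat.card G := by
      rw [← hPc, mul_comm]
      exact (P : Subgroup G).card_mul_index
    have hipos : 0 < (P : Subgroup G).index :=
      Nat.pos_of_ne_zero (fun h => P.not_dvd_index (by rw [h]; exact dvd_zero p))
    have hmdvd : m ∣ p ^ a := by
      rw [h2, ← hcard] at hddvd
      exact (Nat.mul_dvd_mul_iff_left hipos).mp hddvd
    obtain ⟨j, hja, hj⟩ := (Nat.dvd_prime_pow hp).mp hmdvd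
    refine ⟨a - j, ?_⟩
    rw [h2, hj, ← hcard]
    have : p ^ a = p ^ (a - j) * p ^ j := by rw [← pow_add, Nat.sub_add_cancel hja]
    rw [this]
    ring

end Cfsg.Agent.S4798
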