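import Cfsg.Statements.S4802
-- import your own Cfsg.Agent.* helpers here
import Mathlib
import Cfsg.Agent.Lib.Helper25.Quot

set_option autoImplicit false
open Cfsg

namespace Cfsg.Agent.S4802

open Cfsg.Agent.Lib.Helper2 Cfsg.Agent.Lib.Helper25

open scoped ComplexConjugate

/-- Let N < M be normal subgroups of the finite group G and g ∈ M ∖ N. Then the conjugacy class of g is exactly M ∖ N if and only if every irreducible complex character of G whose kernel contains N takes the same value at all elements of M ∖ N, and every irreducible complex character of G whose kernel does not contain N vanishes at g. -/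
theorem result {G : Type*} [Group G] [Finite G] (N M : Subgroup G) [N.Normal] [M.Normal] (hNM : N < M) (g : G) (hgM : g ∈ M) (hgN : g ∉ N) : {h : G | IsConj g h} = (M : Set G) \ (N : Set G) ↔ ((∀ χ : Cfsg.IrrCharacter G, (∀ x ∈ N, (χ : G → ℂ) x = (χ : G → ℂ) 1) → ∀ x ∈ M, x ∉ N → ∀ y ∈ M, y ∉ N → (χ : G → ℂ) x = (χ : G → ℂ) y) ∧ (∀ χ : Cfsg.IrrCharacter G, (∃ x ∈ N, (χ : G → ℂ) x ≠ (χ : G → ℂ) 1) → (χ : G → ℂ) g = 0)) := by
  classical
  have : Fintype G := Fintype.ofFinite G
  have : Fintype (Cfsg.IrrCharacter G) := Fintype.ofFinite _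
  constructor
  · intro hcl
    have hconj : ∀ x ∈ M, x ∉ N → IsConj g x := by
      intro x hxM hxN
      have : x ∈ (M : Set G) \ (N : Set G) := ⟨hxM, hxN⟩
      rw [← hcl] at this
      exact this
    constructor
    · intro χ _ x hxM hxN y hyM hyN
      have hcf := isClassFunction_of_isIrrCharacter χ.2
      rw [← IsClassFunction.of_isConj hcf (hconj x hxM hxN),
        ← IsClassFunction.of_isConj hcf (hconj y hyM hyN)]
    · intro χ hχ
      apply irr_vanish_of_const_coset N χ.2 hχ g
      intro n hn
      have hcf := isClassFunction_of_isIrrCharacter χ.2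
      have h1 : g * n ∈ M := M.mul_mem hgM (hNM.le hn)
      have h2 : g * n ∉ N := by
        intro h
        apply hgN
        have := N.mul_mem h (N.inv_mem hn)
        simpa using this
      exact (IsClassFunction.of_isConj hcf (hconj (g * n) h1 h2)).symm
  · rintro ⟨ha, hb⟩
    ext h
    simp only [Set.mem_ofPred_eq, Set.mem_sdiff, SetLike.mem_coe]
    constructor
    · intro hc
      obtain ⟨c, rfl⟩ := isConj_iff.mp hc
      refine ⟨‹M.Normal›.conj_mem g hgM c, fun hh => hgN ?_⟩
      have := ‹N.Normal›.conj_mem _ hh c⁻¹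
      simpa [mul_assoc] using this
    · rintro ⟨hM, hN⟩
      by_contra hcon
      have hcon' : ¬ IsConj h g := fun h' => hcon h'.symm
      have h1 := column_orthogonality h g
      rw [colFun_of_not_isConj hcon'] at h1
      have h2 := sum_irr_normSq g
      have h3 : ∑ χ : Cfsg.IrrCharacter G, (χ : G → ℂ) h * conj ((χ : G → ℂ) g)
          = ∑ χ : Cfsg.IrrCharacter G, (χ : G → ℂ) g * conj ((χ : G → ℂ) g) := by
        apply Finset.sum_congr rfl
        intro χ _
        by_cases hχ : ∀ x ∈ N, (χ : G → ℂ) x = (χ : G → ℂ) 1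
        · rw [ha χ hχ h hM hN g hgM hgN]
        · push Not at hχ
          rw [hb χ hχ, map_zero, mul_zero, mul_zero]
      rw [h1, h2] at h3
      exact card_ne_zero_complex _ h3.symm

end Cfsg.Agent.S4802
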