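import Cfsg.Statements.S4808
-- import your own Cfsg.Agent.* helpers here
import Mathlib
import Cfsg.Agent.Lib.Helper25.Codegree

set_option autoImplicit false
open Cfsg

namespace Cfsg.Agent.S4808

open Cfsg.Agent.Lib.Helper2 Cfsg.Agent.Lib.Helper25

open scoped ComplexConjugate

/-- π(G) = π(cod(G)): the primes dividing #G are exactly the primes dividing some codegree [G : ker χ]/χ(1). -/
theorem result {G : Type*} [Group G] [Finite G] (p : ℕ) (hp : p.Prime) : p ∣ Nat.card G ↔ ∃ χ : Cfsg.IrrCharacter G, p ∣ (Nat.card G / (Nat.card {g : G // (χ : G → ℂ) g = (χ : G → ℂ) 1} * Cfsg.charDegree (χ : G → ℂ))) := by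
  classical
  have : Fintype G := Fintype.ofFinite G
  have : Fintype (Cfsg.IrrCharacter G) := Fintype.ofFinite _
  have : Fact p.Prime := ⟨hp⟩
  constructor
  · intro hpG
    by_contra hcon
    push Not at hcon
    obtain ⟨M, hM⟩ := exists_isPModular p hp
    obtain ⟨g, hg⟩ := exists_prime_orderOf_dvd_card' p hpG
    have hg1 : g ≠ 1 := by
      intro h
      rw [h, orderOf_one] at hg
      exact hp.one_lt.ne hg
    -- every irreducible character is `χ 1` or `0` at `g`
    have hval : ∀ χ : Cfsg.IrrCharacter G,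
        (χ : G → ℂ) g = (χ : G → ℂ) 1 ∨ (χ : G → ℂ) g = 0 := by
      intro χ
      obtain ⟨K, hKn, ψ, d, hK, hψχ, hψ1, hχ1, hdpos, hdvd, hcard, hcod⟩ := codegree_data χ
      by_cases hgK : g ∈ K
      · left; exact (hK g).mp hgK
      · right
        have : Fintype (G ⧸ K) := Fintype.ofFinite _
        have hnd := hcon χ
        rw [hcod] at hnd
        have hord : p ∣ orderOf (g : G ⧸ K) := by
          have h1 : (g : G ⧸ K) ^ p = 1 := by
            rw [← QuotientGroup.mk_pow, ← hg, pow_orderOf_eq_one, QuotientGroup.mk_one]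
          have h2 : (g : G ⧸ K) ≠ 1 := by
            intro h
            exact hgK ((QuotientGroup.eq_one_iff g).mp h)
          rw [orderOf_eq_prime h1 h2]
        rw [← hψχ g]
        exact irr_vanish_of_defect_zero hM ψ d hψ1 hdvd hnd _ hord
    have h1 := column_orthogonality g 1
    rw [colFun_of_not_isConj (g := g) (h := 1) (fun h => hg1 (isConj_one_left.mp h))] at h1
    have h2 := congrArg Complex.re h1
    rw [Complex.re_sum, Complex.zero_re] at h2
    have hnn : ∀ χ : Cfsg.IrrCharacter G, 0 ≤ ((χ : G → ℂ) g * conj ((χ : G → ℂ) 1)).re := by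
      intro χ
      rcases hval χ with h | h
      · rw [h, Complex.mul_conj]
        exact_mod_cast Complex.normSq_nonneg _
      · rw [h, zero_mul]; simp
    have h3 := (Finset.sum_eq_zero_iff_of_nonneg (fun χ _ => hnn χ)).mp h2
      ⟨fun _ => 1, isIrrCharacter_one⟩ (Finset.mem_univ _)
    simp at h3
  · rintro ⟨χ, hχ⟩
    obtain ⟨K, hKn, ψ, d, hK, hψχ, hψ1, hχ1, hdpos, hdvd, hcard, hcod⟩ := codegree_data χ
    rw [hcod] at hχ
    rw [hcard]
    exact dvd_trans hχ (dvd_trans (Nat.div_dvd_of_dvd hdvd) (dvd_mul_right _ _))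

end Cfsg.Agent.S4808
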