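import Cfsg.Statements.S4812
import Cfsg.Agent.S2300
import Cfsg.Agent.Lib.Helper25.Quot
import Cfsg.Agent.Lib.Helper2.CharCover


set_option autoImplicit false
open Cfsg

namespace Cfsg.Agent.S4812

open Cfsg.Agent.Lib.Helper25 Cfsg.Agent.Lib.Helper2

theorem deg_nat {G : Type*} [Group G] (ψ : G → ℂ) (m : ℕ) (h : ψ 1 = (m : ℂ)) :
    Cfsg.charDegree ψ = m := by
  unfold Cfsg.charDegree
  rw [h, Complex.natCast_re, Nat.floor_natCast]

theorem deg_comp {G H : Type*} [Group G] [Group H] (χ : G → ℂ) (f : H →* G) :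
    Cfsg.charDegree (χ ∘ f) = Cfsg.charDegree χ := by
  unfold Cfsg.charDegree
  rw [Function.comp_apply, map_one]

theorem not_dvd_one {p : ℕ} (hp : p.Prime) (h : p ∣ 1) : False :=
  absurd (Nat.dvd_one.mp h) hp.one_lt.ne'

theorem sq_sub_one (q : ℕ) (h : 1 ≤ q) : q ^ 2 - 1 = (q - 1) * (q + 1) := by
  obtain ⟨k, rfl⟩ := Nat.exists_eq_add_of_le' h
  simp only [Nat.add_sub_cancel]
  exact Nat.sub_eq_of_eq_add (by ring)

theorem exists_of_card_eq {α : Type*} {P : α → Prop} {k : ℕ} (h : Nat.card {a : α // P a} = k)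
    (hk : 0 < k) : ∃ a, P a := by
  rw [← h] at hk
  obtain ⟨⟨a, ha⟩⟩ := (Nat.card_pos_iff.mp hk).1
  exact ⟨a, ha⟩

theorem degrees_iso {S : Type*} {G : Type*} [Group S] [Group G] (e : S ≃* G) (d : ℕ) :
    d ∈ Cfsg.charDegrees S ↔ d ∈ Cfsg.charDegrees G := by
  constructor
  · rintro ⟨χ, rfl⟩
    exact ⟨⟨(χ : S → ℂ) ∘ e.symm.toMonoidHom,
      isIrrCharacter_comp_of_surjective χ.2 e.symm.toMonoidHom e.symm.surjective⟩, deg_comp _ _⟩
  · rintro ⟨χ, rfl⟩
    exact ⟨⟨(χ : G → ℂ) ∘ e.toMonoidHom,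
      isIrrCharacter_comp_of_surjective χ.2 e.toMonoidHom e.surjective⟩, deg_comp _ _⟩

theorem center_trivial {F : Type*} [Field F] [CharP F 2]
    (z : Matrix.SpecialLinearGroup (Fin 2) F)
    (hz : z ∈ Subgroup.center (Matrix.SpecialLinearGroup (Fin 2) F)) : z = 1 := by
  obtain ⟨r, hr, hrz⟩ := Matrix.SpecialLinearGroup.mem_center_iff.mp hz
  rw [Fintype.card_fin] at hr
  have h2 : (2 : F) = 0 := CharTwo.two_eq_zero
  have h3 : (r - 1) ^ 2 = 0 := by linear_combination hr - (r - 1) * h2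
  have h4 : r = 1 := sub_eq_zero.mp ((pow_eq_zero_iff two_ne_zero).mp h3)
  apply Subtype.ext
  show (z : Matrix (Fin 2) (Fin 2) F) = 1
  rw [← hrz, h4, map_one]

theorem degrees_psl {F : Type*} [Field F] [Fintype F] [CharP F 2] (d : ℕ) :
    d ∈ Cfsg.charDegrees (Matrix.ProjectiveSpecialLinearGroup (Fin 2) F) ↔
      d ∈ Cfsg.charDegrees (Matrix.SpecialLinearGroup (Fin 2) F) := by
  have hfin : Finite (Matrix.SpecialLinearGroup (Fin 2) F) := inferInstance
  constructor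
  · rintro ⟨χ, rfl⟩
    exact ⟨⟨_, inflate_irr (Subgroup.center (Matrix.SpecialLinearGroup (Fin 2) F)) χ.2⟩, rfl⟩
  · rintro ⟨ψ, rfl⟩
    obtain ⟨χ, hχ, hv⟩ := deflate_irr (Subgroup.center (Matrix.SpecialLinearGroup (Fin 2) F)) ψ.2
      (fun z hz => by rw [center_trivial z hz])
    have h1 : χ 1 = (ψ : Matrix.SpecialLinearGroup (Fin 2) F → ℂ) 1 := hv 1
    exact ⟨⟨χ, hχ⟩, congrArg (fun c : ℂ => ⌊c.re⌋₊) h1⟩

theorem degrees_sl {F : Type*} [Field F] [Fintype F] [CharP F 2] (hF : 4 ≤ Fintype.card F)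
    (d : ℕ) :
    d ∈ Cfsg.charDegrees (Matrix.SpecialLinearGroup (Fin 2) F) ↔
      (d = 1 ∨ d = Fintype.card F - 1 ∨ d = Fintype.card F ∨ d = Fintype.card F + 1) := by
  obtain ⟨hdeg, hcnt⟩ := Cfsg.Agent.S2300.result (F := F)
  obtain ⟨c1, cq, cp, cm⟩ := hcnt hF
  have hsub : ((Fintype.card F : ℂ) - 1) = ((Fintype.card F - 1 : ℕ) : ℂ) := by
    rw [Nat.cast_sub (by omega)]; simp
  have hadd : ((Fintype.card F : ℂ) + 1) = ((Fintype.card F + 1 : ℕ) : ℂ) := by
    push_cast; ring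
  constructor
  · rintro ⟨χ, rfl⟩
    rcases hdeg χ.1 χ.2 with h | h | h | h
    · left; exact deg_nat _ 1 (by rw [h]; simp)
    · right; left; exact deg_nat _ _ (by rw [h, hsub])
    · right; right; left; exact deg_nat _ _ h
    · right; right; right; exact deg_nat _ _ (by rw [h, hadd])
  · rintro (rfl | rfl | rfl | rfl)
    · obtain ⟨χ, h⟩ := exists_of_card_eq c1 (by norm_num)
      exact ⟨χ, deg_nat _ 1 (by rw [h]; simp)⟩
    · obtain ⟨χ, h⟩ := exists_of_card_eq cm (by omega)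
      exact ⟨χ, deg_nat _ _ (by rw [h, hsub])⟩
    · obtain ⟨χ, h⟩ := exists_of_card_eq cq (by norm_num)
      exact ⟨χ, deg_nat _ _ h⟩
    · obtain ⟨χ, h⟩ := exists_of_card_eq cp (by omega)
      exact ⟨χ, deg_nat _ _ (by rw [h, hadd])⟩

/-- Let F be a finite field of characteristic 2 with q ≥ 4 elements and let S be isomorphic to PSL(2,F) or to SL(2,F). Then the vertices of the character degree graph of S are the primes dividing q(q²−1), and two distinct primes are adjacent exactly when both divide q + 1 or both divide q − 1; so the graph has the three connected components {2}, the primes dividing q + 1 and the primes dividing q − 1, each complete. -/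
theorem result (F : Type*) [Field F] [Fintype F] [CharP F 2] (q : ℕ) (hq : Fintype.card F = q) (h4 : 4 ≤ q) {S : Type*} [Group S] [Finite S] (hS : Nonempty (S ≃* Matrix.ProjectiveSpecialLinearGroup (Fin 2) F) ∨ Nonempty (S ≃* Matrix.SpecialLinearGroup (Fin 2) F)) : Cfsg.degreePrimes S = {r : ℕ | r.Prime ∧ r ∣ q * (q ^ 2 - 1)} ∧ ∀ r s : ℕ, (Cfsg.degreeGraph S).Adj r s ↔ (r ≠ s ∧ r.Prime ∧ s.Prime ∧ ((r ∣ q + 1 ∧ s ∣ q + 1) ∨ (r ∣ q - 1 ∧ s ∣ q - 1))) := by
  subst hq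
  have hD : ∀ d, d ∈ Cfsg.charDegrees S ↔
      (d = 1 ∨ d = Fintype.card F - 1 ∨ d = Fintype.card F ∨ d = Fintype.card F + 1) := by
    intro d
    rcases hS with ⟨⟨e⟩⟩ | ⟨⟨e⟩⟩
    · rw [degrees_iso e, degrees_psl, degrees_sl h4]
    · rw [degrees_iso e, degrees_sl h4]
  have hfac : Fintype.card F ^ 2 - 1 = (Fintype.card F - 1) * (Fintype.card F + 1) :=
    sq_sub_one _ (by omega)
  obtain ⟨n, -, hqn⟩ := FiniteField.card F 2
  constructor
  · ext r
    constructor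
    · rintro ⟨hr, d, hd, hrd⟩
      refine ⟨hr, ?_⟩
      rcases (hD d).mp hd with rfl | rfl | rfl | rfl
      · exact (not_dvd_one hr hrd).elim
      · rw [hfac]; exact Dvd.dvd.mul_left (Dvd.dvd.mul_right hrd _) _
      · exact Dvd.dvd.mul_right hrd _
      · rw [hfac]; exact Dvd.dvd.mul_left (Dvd.dvd.mul_left hrd _) _
    · rintro ⟨hr, hdvd⟩
      refine ⟨hr, ?_⟩
      rcases (Nat.Prime.dvd_mul hr).mp hdvd with h | h
      · exact ⟨Fintype.card F, (hD _).mpr (Or.inr (Or.inr (Or.inl rfl))), h⟩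
      · rw [hfac] at h
        rcases (Nat.Prime.dvd_mul hr).mp h with h | h
        · exact ⟨Fintype.card F - 1, (hD _).mpr (Or.inr (Or.inl rfl)), h⟩
        · exact ⟨Fintype.card F + 1, (hD _).mpr (Or.inr (Or.inr (Or.inr rfl))), h⟩
  · intro r s
    constructor
    · rintro ⟨hne, hr, hs, d, hd, hdvd⟩
      refine ⟨hne, hr, hs, ?_⟩
      have hrd : r ∣ d := dvd_trans (dvd_mul_right r s) hdvd
      have hsd : s ∣ d := dvd_trans (dvd_mul_left s r) hdvd
      rcases (hD d).mp hd with rfl | rfl | rfl | rfl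
      · exact (not_dvd_one hr hrd).elim
      · exact Or.inr ⟨hrd, hsd⟩
      · exfalso
        rw [hqn] at hrd hsd
        have h1 : r = 2 :=
          (Nat.prime_dvd_prime_iff_eq hr Nat.prime_two).mp (hr.dvd_of_dvd_pow hrd)
        have h2 : s = 2 :=
          (Nat.prime_dvd_prime_iff_eq hs Nat.prime_two).mp (hs.dvd_of_dvd_pow hsd)
        exact hne (h1.trans h2.symm)
      · exact Or.inl ⟨hrd, hsd⟩
    · rintro ⟨hne, hr, hs, h⟩
      refine ⟨hne, hr, hs, ?_⟩
      have hcop : Nat.Coprime r s := (Nat.coprime_primes hr hs).mpr hne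
      rcases h with ⟨h1, h2⟩ | ⟨h1, h2⟩
      · exact ⟨Fintype.card F + 1, (hD _).mpr (Or.inr (Or.inr (Or.inr rfl))),
          hcop.mul_dvd_of_dvd_of_dvd h1 h2⟩
      · exact ⟨Fintype.card F - 1, (hD _).mpr (Or.inr (Or.inl rfl)),
          hcop.mul_dvd_of_dvd_of_dvd h1 h2⟩

end Cfsg.Agent.S4812
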