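import Cfsg.Statements.S4837
import Cfsg.Agent.Lib.Helper26.TwoClass2

set_option autoImplicit false
open Cfsg

namespace Cfsg.Agent.S4837

open Cfsg.Agent.Lib.Helper26

/-- Let G be a finite group of order greater than 2 with an irreducible character χ nonzero on exactly two conjugacy classes, and let N be the set of elements where χ is nonzero, given as a nontrivial normal p-subgroup of G for the prime p. Then for every nonidentity x in N the centralizer C_G(x) is a Sylow p-subgroup of G, and for every irreducible character λ ≠ 1 of N the stabilizer of λ in G (its inertia group) is a Sylow p-subgroup of G. -/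
theorem result {G : Type*} [Group G] [Finite G] (hG : 2 < Nat.card G) (χ : Cfsg.IrrCharacter G) (hχ : Nat.card {C : ConjClasses G // ∃ g ∈ C.carrier, (χ : G → ℂ) g ≠ 0} = 2) (p : ℕ) [Fact p.Prime] (N : Subgroup G) [N.Normal] (hN : ∀ g : G, g ∈ N ↔ (χ : G → ℂ) g ≠ 0) (hNp : IsPGroup p N) (hN1 : N ≠ ⊥) :
    (∀ x ∈ N, x ≠ 1 → ∃ P : Sylow p G, Subgroup.centralizer ({x} : Set G) = P) ∧
      (∀ μ : Cfsg.IrrCharacter N, (μ : N → ℂ) ≠ (fun _ => (1 : ℂ)) → ∃ P : Sylow p G, ∀ g : G, g ∈ (P : Subgroup G) ↔ ∀ n n' : N, (n' : G) = g * n * g⁻¹ → (μ : N → ℂ) n' = (μ : N → ℂ) n) := by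
  have hNeq : N = coKernel χ := by
    ext g
    rw [hN, mem_coKernel_iff_ne_zero hG χ hχ]
  subst hNeq
  refine ⟨fun x hx hx1 => centralizer_sylow hG χ hχ p hNp hx hx1, ?_⟩
  intro μ hμ
  have hT := card_inertia_mul hG χ hχ μ hμ
  obtain ⟨x, hx1, hx0, hsupp, hker, hxne, -, hnet⟩ := two_class_data hG χ hχ
  have hxN : x ∈ coKernel χ := (mem_coKernel_iff_ne_zero hG χ hχ x).mpr hx0
  have hidx := index_centralizer_coKernel hG χ hχ hxN hx1
  have hC := centralizer_isPGroup hG χ hχ p hNp hxN hx1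
  obtain ⟨k, hk⟩ := IsPGroup.iff_card.mp hNp
  have hk0 : k ≠ 0 := by
    rintro rfl
    rw [pow_zero] at hk
    exact hN1 (Subgroup.card_eq_one.mp hk)
  have hp : p.Prime := Fact.out
  have hN2 : 2 ≤ Nat.card (coKernel χ) := by
    rw [hk]
    calc 2 ≤ p := hp.two_le
      _ = p ^ 1 := (pow_one p).symm
      _ ≤ p ^ k := Nat.pow_le_pow_right hp.pos (Nat.pos_of_ne_zero hk0)
  have hndvd : ¬ p ∣ Nat.card (coKernel χ) - 1 := by
    intro hdvd
    have h3 : p ∣ Nat.card (coKernel χ) := by rw [hk]; exact dvd_pow_self p hk0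
    have h5 : p ∣ 1 := by
      have := Nat.dvd_sub h3 hdvd
      rwa [Nat.sub_sub_self (by omega)] at this
    exact hp.one_lt.ne' (Nat.dvd_one.mp h5)
  have hcard : Nat.card (inertia (coKernel χ) (μ : coKernel χ → ℂ))
      = Nat.card (Subgroup.centralizer ({x} : Set G)) := by
    have h5 := Subgroup.card_mul_index (Subgroup.centralizer ({x} : Set G))
    rw [hidx] at h5
    have hpos : 0 < Nat.card (coKernel χ) - 1 := by omega
    exact Nat.eq_of_mul_eq_mul_right hpos (hT.trans h5.symm)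
  have hTp : IsPGroup p (inertia (coKernel χ) (μ : coKernel χ → ℂ)) := by
    obtain ⟨k, hk⟩ := IsPGroup.iff_card.mp hC
    exact IsPGroup.of_card (hcard.trans hk)
  have hTidx : ¬ p ∣ (inertia (coKernel χ) (μ : coKernel χ → ℂ)).index := by
    have h6 := Subgroup.card_mul_index (inertia (coKernel χ) (μ : coKernel χ → ℂ))
    have h7 : (inertia (coKernel χ) (μ : coKernel χ → ℂ)).index = Nat.card (coKernel χ) - 1 :=
      Nat.eq_of_mul_eq_mul_left Nat.card_pos (h6.trans hT.symm)
    rw [h7]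
    exact hndvd
  refine ⟨hTp.toSylow hTidx, fun g => ?_⟩
  rw [IsPGroup.toSylow_coe, mem_inertia]
  constructor
  · intro h n n' hn'
    have e : MulAut.conjNormal g n = n' :=
      Subtype.ext (by rw [MulAut.conjNormal_apply]; exact hn'.symm)
    rw [← e]
    exact h n
  · intro h n
    exact h n (MulAut.conjNormal g n) (MulAut.conjNormal_apply g n)

end Cfsg.Agent.S4837
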