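import Cfsg.Statements.S4870
import Mathlib
import Cfsg.Agent.Lib.Helper26.IndStab

set_option autoImplicit false
open Cfsg

namespace Cfsg.Agent.S4870

open Cfsg.Agent.Lib.Helper2 Cfsg.Agent.Lib.Helper25 Cfsg.Agent.Lib.Helper26
open scoped ComplexConjugate

/-- Let G be a finite group with a non-abelian minimal normal subgroup N, and let φ be an irreducible complex character of N with stabilizer I in G (the elements g with φ(g n g⁻¹) = φ(n) for all n ∈ N) such that φ extends to an irreducible character of I. Put d = φ(1)·[G : I]. Then the number of linear characters of G is at most [G : I] times the number of irreducible characters of G of degree d. -/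
theorem result {G : Type*} [Group G] [Finite G] (N : Subgroup G) (hN : N.Normal) (hN1 : N ≠ ⊥) (hmin : ∀ M : Subgroup G, M.Normal → M ≤ N → M = ⊥ ∨ M = N) (hna : ¬ IsMulCommutative ↥N) (φ : Cfsg.IrrCharacter ↥N) (I : Subgroup G) (hI : ∀ g : G, g ∈ I ↔ ∀ n n' : ↥N, (n' : G) = g * (n : G) * g⁻¹ → (φ : ↥N → ℂ) n' = (φ : ↥N → ℂ) n) (hNI : N ≤ I) (hext : ∃ ψ : Cfsg.IrrCharacter ↥I, ∀ n : ↥N, (ψ : ↥I → ℂ) (Subgroup.inclusion hNI n) = (φ : ↥N → ℂ) n) : Nat.card {χ : Cfsg.IrrCharacter G // Cfsg.charDegree (χ : G → ℂ) = 1} ≤ I.index * Nat.card {χ : Cfsg.IrrCharacter G // Cfsg.charDegree (χ : G → ℂ) = Cfsg.charDegree (φ : ↥N → ℂ) * I.index} := by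
  classical
  have := Fintype.ofFinite G
  have := Fintype.ofFinite N
  have := Fintype.ofFinite I
  have := Fintype.ofFinite (IrrCharacter G)
  have := hN
  obtain ⟨ψ, hψ⟩ := hext
  have hI' : ∀ g : G, g ∈ I ↔ conjFun N (φ : N → ℂ) g = (φ : N → ℂ) := by
    intro g
    rw [hI g]
    constructor
    · intro h
      funext n
      rw [conjFun_apply]
      exact h n ⟨g * n * g⁻¹, _⟩ rfl
    · intro h n n' hn'
      have h1 := congrFun h n
      rw [conjFun_apply] at h1
      have h2 : n' = ⟨g * (n : G) * g⁻¹, hN.conj_mem n n.2 g⟩ := Subtype.ext hn'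
      rw [← h1, h2]
  obtain ⟨Θ, hΘdef⟩ : ∃ Θ : G → ℂ, Θ = indFun I (ψ : I → ℂ) := ⟨_, rfl⟩
  have hΘirr : IsIrrCharacter G Θ := by
    rw [hΘdef]
    exact indFun_stab_irr N I hNI φ φ.2 ψ ψ.2 hψ hI'
  have hΘnorm : classInner (fun n : N => Θ (n : G)) (fun n : N => Θ (n : G)) = (I.index : ℂ) := by
    rw [hΘdef]
    exact classInner_indFun_restrict_norm N I hNI φ φ.2 ψ hψ hI'
  have hperf := perfect_of_minimal_nonabelian N hmin hna
  obtain ⟨d, hd1, hd0, _, hd⟩ := irr_degree φ
  have hΘ1 : Θ 1 = ((d * I.index : ℕ) : ℂ) := by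
    rw [hΘdef, indFun_apply]
    have h1 : ∀ x : G, extendByZero I (ψ : I → ℂ) (x⁻¹ * 1 * x) = (d : ℂ) := by
      intro x
      have h2 : x⁻¹ * 1 * x = ((1 : I) : G) := by simp
      rw [h2, extendByZero_coe, ← hd1, ← hψ 1, map_one]
    rw [Finset.sum_congr rfl (fun x _ => h1 x), Finset.sum_const, Finset.card_univ, nsmul_eq_mul,
      ← Nat.card_eq_fintype_card, ← Subgroup.card_mul_index I]
    have := card_ne_zero_complex I
    push_cast
    field_simp
  have hlin : ∀ l : {χ : IrrCharacter G // charDegree (χ : G → ℂ) = 1},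
      ∃ lam : G →* ℂˣ, (l.1 : G → ℂ) = fun g => (lam g : ℂ) :=
    fun l => hom_of_charDegree_one l.1 l.2
  choose lam hlam using hlin
  have hmulirr : ∀ l : {χ : IrrCharacter G // charDegree (χ : G → ℂ) = 1},
      IsIrrCharacter G ((l.1 : G → ℂ) * Θ) := by
    intro l
    rw [hlam l]
    exact isIrrCharacter_hom_mul (lam l) hΘirr
  have hmuldeg : ∀ l : {χ : IrrCharacter G // charDegree (χ : G → ℂ) = 1},
      charDegree ((l.1 : G → ℂ) * Θ) = charDegree (φ : N → ℂ) * I.index := by
    intro l
    have h1 : ((l.1 : G → ℂ) * Θ) 1 = ((d * I.index : ℕ) : ℂ) := by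
      rw [Pi.mul_apply, hΘ1, congrFun (hlam l) 1, map_one, Units.val_one, one_mul]
    rw [hd]
    unfold charDegree
    rw [h1, Complex.natCast_re, Nat.floor_natCast]
  obtain ⟨Φ, hΦ⟩ : ∃ Φ : {χ : IrrCharacter G // charDegree (χ : G → ℂ) = 1} →
      {χ : IrrCharacter G // charDegree (χ : G → ℂ) = charDegree (φ : N → ℂ) * I.index},
      ∀ l, ((Φ l).1 : G → ℂ) = (l.1 : G → ℂ) * Θ :=
    ⟨fun l => ⟨⟨(l.1 : G → ℂ) * Θ, hmulirr l⟩, hmuldeg l⟩, fun l => rfl⟩
  have hlN : ∀ (l : {χ : IrrCharacter G // charDegree (χ : G → ℂ) = 1}) (n : N),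
      (l.1 : G → ℂ) n = 1 := by
    intro l n
    rw [congrFun (hlam l) n, hom_eq_one_of_perfect N hperf (lam l) n n.2, Units.val_one]
  have hfiber : ∀ t ∈ (Finset.univ : Finset {χ : IrrCharacter G //
      charDegree (χ : G → ℂ) = 1}).image Φ,
      ((Finset.univ : Finset {χ : IrrCharacter G // charDegree (χ : G → ℂ) = 1}).filter
        (fun l => Φ l = t)).card ≤ I.index := by
    intro t ht
    obtain ⟨l₀, -, rfl⟩ := Finset.mem_image.mp ht
    have hPc : IsCharacter G (fun g => (l₀.1 : G → ℂ) g * (Θ g * conj (Θ g))) :=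
      IsCharacter.mul (isCharacter_of_isIrrCharacter l₀.1.2) (isCharacter_mul_conj hΘirr)
    have hb : ∀ χ : IrrCharacter G, ∃ b : ℕ,
        classInner (fun g => (l₀.1 : G → ℂ) g * (Θ g * conj (Θ g))) χ = (b : ℂ) :=
      fun χ => classInner_isCharacter_nat hPc (isCharacter_of_isIrrCharacter χ.2)
    choose b hb using hb
    have ht : ∀ χ : IrrCharacter G, ∃ t : ℕ,
        classInner (fun n : N => (χ : G → ℂ) n) (fun _ : N => (1 : ℂ)) = (t : ℂ) :=
      fun χ => classInner_isCharacter_nat
        (IsCharacter.restrict (isCharacter_of_isIrrCharacter χ.2) N)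
        (isCharacter_of_isIrrCharacter isIrrCharacter_one)
    choose t ht using ht
    have hb1 : ∀ l : {χ : IrrCharacter G // charDegree (χ : G → ℂ) = 1},
        Φ l = Φ l₀ → b l.1 = 1 := by
      intro l hl
      have h1 : (l.1 : G → ℂ) * Θ = (l₀.1 : G → ℂ) * Θ := by
        rw [← hΦ l, ← hΦ l₀, hl]
      have h2 : (b l.1 : ℂ) = 1 := by
        rw [← hb, ← classInner_irr_self (hmulirr l₀), classInner_def, classInner_def]
        congr 1
        apply Finset.sum_congr rfl
        intro g _
        have h3 := congrFun h1 g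
        simp only [Pi.mul_apply] at h3 ⊢
        calc (l₀.1 : G → ℂ) g * (Θ g * conj (Θ g)) * conj ((l.1 : G → ℂ) g)
            = ((l₀.1 : G → ℂ) g * Θ g) * conj ((l.1 : G → ℂ) g * Θ g) := by
              rw [map_mul]
              ring
          _ = ((l₀.1 : G → ℂ) g * Θ g) * conj ((l₀.1 : G → ℂ) g * Θ g) := by rw [h3]
      exact_mod_cast h2
    have ht1 : ∀ l : {χ : IrrCharacter G // charDegree (χ : G → ℂ) = 1}, t l.1 = 1 := by
      intro l
      have h2 : (t l.1 : ℂ) = 1 := by
        rw [← ht, classInner_def]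
        have h3 : ∀ n : N, (l.1 : G → ℂ) n * conj (1 : ℂ) = 1 := by
          intro n
          rw [hlN l n]
          simp
        rw [Finset.sum_congr rfl (fun n _ => h3 n), Finset.sum_const, Finset.card_univ,
          nsmul_eq_mul, mul_one, ← Nat.card_eq_fintype_card]
        exact inv_mul_cancel₀ (card_ne_zero_complex N)
      exact_mod_cast h2
    have hsum : ∑ χ : IrrCharacter G, b χ * t χ = I.index := by
      have h1 : ((∑ χ : IrrCharacter G, b χ * t χ : ℕ) : ℂ) = (I.index : ℂ) := by
        rw [← hΘnorm]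
        have hexp := class_fun_expand (fun g => (l₀.1 : G → ℂ) g * (Θ g * conj (Θ g)))
          (isClassFunction_of_isCharacter hPc)
        have hres : (fun n : N => (l₀.1 : G → ℂ) n * (Θ n * conj (Θ n)))
            = ∑ χ : IrrCharacter G, (b χ : ℂ) • (fun n : N => (χ : G → ℂ) n) := by
          funext n
          have h5 := congrFun hexp (n : G)
          rw [Finset.sum_apply] at h5 ⊢
          simp only [Pi.smul_apply, smul_eq_mul, hb] at h5 ⊢
          exact h5
        have hPN : classInner (fun n : N => (l₀.1 : G → ℂ) n * (Θ n * conj (Θ n)))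
            (fun _ : N => (1 : ℂ))
            = classInner (fun n : N => Θ (n : G)) (fun n : N => Θ (n : G)) := by
          rw [classInner_def, classInner_def]
          congr 1
          apply Finset.sum_congr rfl
          intro n _
          rw [hlN l₀ n]
          simp
        rw [← hPN, hres, classInner_sum_left]
        push_cast
        apply Finset.sum_congr rfl
        intro χ _
        rw [classInner_smul_left, ht]
      exact_mod_cast h1
    calc ((Finset.univ : Finset {χ : IrrCharacter G // charDegree (χ : G → ℂ) = 1}).filter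
          (fun l => Φ l = Φ l₀)).card
        = (((Finset.univ : Finset {χ : IrrCharacter G // charDegree (χ : G → ℂ) = 1}).filter
          (fun l => Φ l = Φ l₀)).image Subtype.val).card :=
          (Finset.card_image_of_injective _ Subtype.val_injective).symm
      _ = ∑ χ ∈ ((Finset.univ : Finset {χ : IrrCharacter G //
            charDegree (χ : G → ℂ) = 1}).filter (fun l => Φ l = Φ l₀)).image Subtype.val,
            b χ * t χ := by
          rw [Finset.card_eq_sum_ones]
          apply Finset.sum_congr rfl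
          intro χ hχ
          obtain ⟨l, hl, rfl⟩ := Finset.mem_image.mp hχ
          rw [hb1 l (Finset.mem_filter.mp hl).2, ht1 l]
      _ ≤ ∑ χ : IrrCharacter G, b χ * t χ :=
          Finset.sum_le_sum_of_subset (Finset.subset_univ _)
      _ = I.index := hsum
  have hcount := Finset.card_le_mul_card_image (f := Φ) Finset.univ I.index hfiber
  rw [Nat.card_eq_fintype_card, Nat.card_eq_fintype_card]
  calc Fintype.card {χ : IrrCharacter G // charDegree (χ : G → ℂ) = 1}
      = (Finset.univ : Finset {χ : IrrCharacter G // charDegree (χ : G → ℂ) = 1}).card :=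
        Finset.card_univ.symm
    _ ≤ I.index * (Finset.univ.image Φ).card := hcount
    _ ≤ I.index * Fintype.card {χ : IrrCharacter G //
          charDegree (χ : G → ℂ) = charDegree (φ : N → ℂ) * I.index} :=
        Nat.mul_le_mul_left _ (Finset.card_le_univ _)

end Cfsg.Agent.S4870
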