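import Cfsg.Statements.S4888
import Cfsg.Agent.Lib.Helper26.BlockLin
import Cfsg.Agent.Lib.Helper26.NpcExt
import Cfsg.Agent.Lib.Helper8.BlockNormal
import Cfsg.Agent.Lib.Helper8.BlockReg
import Cfsg.Agent.Lib.Helper25.Quot
import Cfsg.Agent.Lib.Helper25.BlockDefect

set_option autoImplicit false
open Cfsg

namespace Cfsg.Agent.S4888

open Cfsg.Agent.Lib.Helper25 Cfsg.Agent.Lib.Helper26

/-- Let G be a finite group, p a prime and M a maximal ideal of the algebraic integers containing p. Then all height-zero irreducible characters of the principal p-block of G (equivalently, all its characters of degree prime to p) have the same degree if and only if G has a normal p-complement. -/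
theorem result {G : Type*} [Group G] [Finite G] (p : ℕ) [Fact p.Prime] (M : Ideal Cfsg.AlgInt) (hM : Cfsg.IsPModular p M) : (∃ d : ℕ, ∀ χ : Cfsg.IrrCharacter G, χ ∈ (Cfsg.principalBlock M G) → Cfsg.blockHeight p (Cfsg.principalBlock M G) (χ : G → ℂ) = 0 → Cfsg.charDegree (χ : G → ℂ) = d) ↔ Cfsg.HasNormalPComplement p G := by
  classical
  have : Fintype G := Fintype.ofFinite G
  have hpp : p.Prime := Fact.out
  have hpr : M.IsPrime := isPrime_of_isPModular hM
  have htriv : trivIrr G ∈ Cfsg.principalBlock M G := sameBlock_refl M _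
  have htd : Cfsg.charDegree ((trivIrr G : Cfsg.IrrCharacter G) : G → ℂ) = 1 := by
    show ⌊((1 : ℂ)).re⌋₊ = 1
    simp
  -- the least exponent of `p` among the degrees in the principal block is zero
  have hinf : sInf ((fun ψ : Cfsg.IrrCharacter G => (Cfsg.charDegree (ψ : G → ℂ)).factorization p) ''
      (Cfsg.principalBlock M G)) = 0 := by
    apply Nat.sInf_eq_zero.mpr
    left
    refine ⟨trivIrr G, htriv, ?_⟩
    show (Cfsg.charDegree ((trivIrr G : Cfsg.IrrCharacter G) : G → ℂ)).factorization p = 0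
    rw [htd]
    simp
  constructor
  · rintro ⟨d, hd⟩
    have hd1 : d = 1 := by
      rw [← hd (trivIrr G) htriv (by unfold Cfsg.blockHeight; rw [htd]; simp), htd]
    have hlin : ∀ χ : Cfsg.IrrCharacter G, χ ∈ Cfsg.principalBlock M G →
        ¬ p ∣ Cfsg.charDegree (χ : G → ℂ) → Cfsg.charDegree (χ : G → ℂ) = 1 := by
      intro χ hχ hnd
      rw [← hd1]
      apply hd χ hχ
      unfold Cfsg.blockHeight
      rw [Nat.factorization_eq_zero_of_not_dvd hnd, Nat.zero_sub]
    obtain ⟨P⟩ : Nonempty (Sylow p G) := inferInstance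
    obtain ⟨N, hN, hcop, hidx⟩ := exists_normal_of_ext p P (ext_lin_block p M hM hlin P)
    exact hasNormalPComplement_of_normal p N hN hcop hidx
  · rintro ⟨P, N, hN, hcompl⟩
    refine ⟨1, ?_⟩
    intro χ hχ hht
    have : Fintype N := Fintype.ofFinite N
    obtain ⟨k, hk⟩ := IsPGroup.iff_card.mp P.isPGroup'
    -- `N` has order prime to `p`
    have hidxN : N.index = p ^ k := by rw [hcompl.symm.index_eq_card, hk]
    have hNp : ¬ p ∣ Nat.card N := by
      have h1 := hcompl.card_mul_card
      have h2 := Subgroup.card_mul_index (P : Subgroup G)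
      have h3 : (P : Subgroup G).index = Nat.card N := by
        apply Nat.eq_of_mul_eq_mul_left (Nat.card_pos : 0 < Nat.card (P : Subgroup G))
        rw [h2, ← h1, mul_comm]
      rw [← h3]
      exact P.not_dvd_index
    -- `N` lies in the kernel of `χ`
    have he : Cfsg.classInner (fun n : N => ((trivIrr G : Cfsg.IrrCharacter G) : G → ℂ) n)
        (((⟨fun _ : N => (1 : ℂ), Cfsg.Agent.Lib.Helper2.isIrrCharacter_one⟩ :
          Cfsg.IrrCharacter N)) : N → ℂ) ≠ 0 :=
      Cfsg.Agent.Lib.Helper8.trivial_constituent_of_kernel N (trivIrr G) (fun _ _ => rfl)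
    have h2 := Cfsg.Agent.Lib.Helper8.same_block_constituent hM N hNp (trivIrr G) χ hχ
      (⟨fun _ : N => (1 : ℂ), Cfsg.Agent.Lib.Helper2.isIrrCharacter_one⟩ : Cfsg.IrrCharacter N) he
    have hker := Cfsg.Agent.Lib.Helper8.kernel_of_trivial_constituent N χ h2
    obtain ⟨ψ, hψ, hψχ⟩ := deflate_irr N χ.2 hker
    obtain ⟨d', hd1, hd0, hddvd, hdc⟩ := irr_degree (⟨ψ, hψ⟩ : Cfsg.IrrCharacter (G ⧸ N))
    have hcq : Nat.card (G ⧸ N) = p ^ k := by rw [← hidxN]; rfl
    rw [hcq] at hddvd
    obtain ⟨j, -, hj⟩ := (Nat.dvd_prime_pow hpp).mp hddvd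
    have hχd : Cfsg.charDegree (χ : G → ℂ) = d' := by
      unfold Cfsg.charDegree
      have h3 := hψχ 1
      rw [QuotientGroup.mk_one] at h3
      rw [← h3]
      exact hdc
    rw [hχd, hj]
    unfold Cfsg.blockHeight at hht
    rw [hinf, hχd, hj, Nat.sub_zero, hpp.factorization_pow] at hht
    simp only [Finsupp.single_eq_same] at hht
    rw [hht, pow_zero]

end Cfsg.Agent.S4888
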