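import Cfsg.Statements.S4916
import Cfsg.Agent.Lib.Helper25.WeakOrth
import Cfsg.Agent.Lib.Helper25.Defect0

set_option autoImplicit false
open Cfsg

namespace Cfsg.Agent.S4916

open Cfsg.Agent.Lib.Helper25
open scoped ComplexConjugate

/-- Let G be a finite group, p a prime and M a maximal ideal of the algebraic integers containing p. Then the principal character is the only irreducible character of degree prime to p in the principal p-block of G if and only if p does not divide the order of G. -/
theorem result {G : Type*} [Group G] [Finite G] (p : ℕ) [Fact p.Prime] (M : Ideal Cfsg.AlgInt) (hM : Cfsg.IsPModular p M) : (∀ χ : Cfsg.IrrCharacter G, χ ∈ Cfsg.principalBlock M G → ¬ p ∣ Cfsg.charDegree (χ : G → ℂ) → (χ : G → ℂ) = fun _ => (1 : ℂ)) ↔ ¬ p ∣ Nat.card G := by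
  classical
  have : Fintype G := Fintype.ofFinite G
  have : Fintype (Cfsg.IrrCharacter G) := Fintype.ofFinite _
  have hpr := isPrime_of_isPModular hM
  have htriv : trivIrr G ∈ Cfsg.principalBlock M G := sameBlock_refl M _
  constructor
  · intro h hp
    obtain ⟨y, hy⟩ := exists_prime_orderOf_dvd_card' p hp
    have horth := block_orth_finsum hM (Cfsg.principalBlock M G) (blockClosed_principal M) 1 y
      (by rw [orderOf_one]; exact (Fact.out : p.Prime).one_lt.ne' ∘ Nat.dvd_one.mp)
      (by rw [hy])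
    rw [finsum_mem_eq_finite_toFinset_sum _ (Set.toFinite _)] at horth
    have hmem : trivIrr G ∈ (Set.toFinite (Cfsg.principalBlock M G)).toFinset := by
      rw [Set.Finite.mem_toFinset]; exact htriv
    rw [← Finset.add_sum_erase _ _ hmem] at horth
    -- the other terms are divisible by p
    have key : ∀ χ ∈ ((Set.toFinite (Cfsg.principalBlock M G)).toFinset).erase (trivIrr G),
        ∃ a : Cfsg.AlgInt, (χ : G → ℂ) 1 * conj ((χ : G → ℂ) y) = (p : ℂ) * (a : ℂ) := by
      intro χ hχ
      rw [Finset.mem_erase, Set.Finite.mem_toFinset] at hχ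
      obtain ⟨d, hd1, hd0, hdvd, hdeg⟩ := irr_degree χ
      have hpd : p ∣ d := by
        by_contra hnd
        apply hχ.1
        apply Subtype.ext
        rw [← hdeg] at hnd
        exact h χ hχ.2 hnd
      obtain ⟨e, rfl⟩ := hpd
      refine ⟨⟨(e : ℂ) * conj ((χ : G → ℂ) y), ?_⟩, ?_⟩
      · rw [irr_conj_eq_inv]
        exact IsIntegral.mul (isIntegral_natCast e) (irr_isIntegral χ y⁻¹)
      · rw [hd1]; push_cast; ring
    choose! a ha using key
    rw [Finset.sum_congr rfl ha, ← Finset.mul_sum] at horth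
    have h1 : (trivIrr G : G → ℂ) 1 * conj ((trivIrr G : G → ℂ) y) = 1 := by
      show (1 : ℂ) * conj (1 : ℂ) = 1
      simp
    rw [h1] at horth
    -- so 1 lies in M
    have h2 : (1 : Cfsg.AlgInt) + (p : Cfsg.AlgInt) *
        ∑ χ ∈ ((Set.toFinite (Cfsg.principalBlock M G)).toFinset).erase (trivIrr G), a χ = 0 := by
      apply Subtype.ext
      push_cast
      exact horth
    have h3 : (1 : Cfsg.AlgInt) ∈ M := by
      have h4 : (1 : Cfsg.AlgInt) = - ((p : Cfsg.AlgInt) *
          ∑ χ ∈ ((Set.toFinite (Cfsg.principalBlock M G)).toFinset).erase (trivIrr G), a χ) :=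
        eq_neg_of_add_eq_zero_left h2
      rw [h4]
      exact M.neg_mem (M.mul_mem_right _ hM.2.2)
    exact hpr.ne_top ((Ideal.eq_top_iff_one M).mpr h3)
  · intro hp χ hχ _
    have hsb : Cfsg.SameBlock M ((trivIrr G : Cfsg.IrrCharacter G) : G → ℂ) (χ : G → ℂ) := hχ
    have h1 := eq_of_sameBlock_of_defect_zero hM (trivIrr G) χ hsb 1
      (by show (1 : ℂ) = ((1 : ℕ) : ℂ); simp) (one_dvd _) (by simpa using hp)
    rw [h1]
    rfl

end Cfsg.Agent.S4916
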