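import Cfsg.Statements.S4989
import Cfsg.Agent.S0191

set_option autoImplicit false
open Cfsg

namespace Cfsg.Agent.S4989

open Cfsg.Agent.Lib.Helper2 Representation Module in
/-- Galois AM–GM: for `g` with `χ(g) ≠ 0`, the Galois conjugates of `χ(g)` are nonzero and their
squared absolute values sum to at least the order of the Galois group. -/
theorem galois_key {G : Type*} [Group G] [Fintype G] {V : Type*} [AddCommGroup V] [Module ℂ V]
    [FiniteDimensional ℂ V] (ρ : Representation ℂ G V) [NeZero (Nat.card G)]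
    (m : (CycK (Nat.card G) ≃ₐ[ℚ] CycK (Nat.card G)) → ℕ)
    (hmσ : ∀ σ : CycK (Nat.card G) ≃ₐ[ℚ] CycK (Nat.card G),
      σ (cycZeta (Nat.card G)) = cycZeta (Nat.card G) ^ m σ)
    (g : G) (hg : ρ.character g ≠ 0) :
    (Fintype.card (CycK (Nat.card G) ≃ₐ[ℚ] CycK (Nat.card G)) : ℝ)
      ≤ ∑ σ : CycK (Nat.card G) ≃ₐ[ℚ] CycK (Nat.card G), ‖ρ.character (g ^ m σ)‖ ^ 2 ∧
    ∀ σ : CycK (Nat.card G) ≃ₐ[ℚ] CycK (Nat.card G), ρ.character (g ^ m σ) ≠ 0 := by
  classical
  have hΓne : Nonempty (CycK (Nat.card G) ≃ₐ[ℚ] CycK (Nat.card G)) := ⟨AlgEquiv.refl⟩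
  obtain ⟨x, hx1, hx⟩ := char_lift_self (Nat.card G) ρ g (orderOf_dvd_natCard g)
  have hxint : IsIntegral ℤ x := by
    have h1 := char_isIntegral ρ g
    rw [← hx1] at h1
    exact (isIntegral_algHom_iff ((cycEmb (Nat.card G)).restrictScalars ℤ)
      (cycEmb_injective (Nat.card G))).mp h1
  have hx0 : x ≠ 0 := by
    intro e
    apply hg
    rw [← hx1, e, map_zero]
  refine ⟨?_, fun σ => ?_⟩
  · obtain ⟨k, hk⟩ := IsIntegrallyClosed.isIntegral_iff.mp (Algebra.isIntegral_norm ℚ hxint)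
    have hk0 : k ≠ 0 := by
      intro e
      rw [e] at hk
      have h2 : Algebra.norm ℚ x = 0 := by
        rw [← hk]
        simp
      exact hx0 (Algebra.norm_eq_zero_iff.mp h2)
    have hprodC := congrArg (cycEmb (Nat.card G)) (Algebra.norm_eq_prod_automorphisms ℚ x)
    rw [map_prod] at hprodC
    have hL : cycEmb (Nat.card G) (algebraMap ℚ (CycK (Nat.card G)) (Algebra.norm ℚ x))
        = (k : ℂ) := by
      rw [AlgHom.commutes, ← hk]
      simp
    rw [hL] at hprodC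
    have hprodnorm : (1 : ℝ)
        ≤ ∏ σ : CycK (Nat.card G) ≃ₐ[ℚ] CycK (Nat.card G), ‖ρ.character (g ^ m σ)‖ ^ 2 := by
      have h1 : ∏ σ : CycK (Nat.card G) ≃ₐ[ℚ] CycK (Nat.card G), ‖ρ.character (g ^ m σ)‖
          = ‖(k : ℂ)‖ := by
        rw [hprodC, norm_prod]
        apply Finset.prod_congr rfl
        intro σ _
        rw [hx σ (m σ) (hmσ σ)]
      rw [Finset.prod_pow, h1, Complex.norm_intCast]
      have h2 : (1 : ℝ) ≤ |(k : ℝ)| := by
        have h3 : (1 : ℤ) ≤ |k| := Int.one_le_abs hk0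
        exact_mod_cast h3
      nlinarith [h2]
    exact Cfsg.Agent.S0191.sum_ge_card_of_prod_ge_one _ (fun σ => by positivity) hprodnorm
  · rw [← hx σ (m σ) (hmσ σ)]
    intro h0
    have h1 : σ x = 0 := cycEmb_injective (Nat.card G) (by rw [h0, map_zero])
    exact hx0 (by simpa using h1)

/-- Let H be a subgroup of the finite group G and χ an irreducible complex character of G. Then the inner product of the restriction of χ to H with itself, (1/#H)·Σ_{h ∈ H} |χ(h)|², is at most 1 + #(Z ∖ H)/#H, where Z is the set of zeros of χ in G. -/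
theorem result {G : Type*} [Group G] [Finite G] (H : Subgroup G) (χ : Cfsg.IrrCharacter G) : (Nat.card ↥H : ℝ)⁻¹ * ∑ᶠ h : ↥H, ‖(χ : G → ℂ) h‖ ^ 2 ≤ 1 + (Set.ncard ({x : G | (χ : G → ℂ) x = 0} \ (H : Set G)) : ℝ) / (Nat.card ↥H : ℝ) := by
  classical
  have hGf : Fintype G := Fintype.ofFinite G
  obtain ⟨χ, n, ρ, hρ, rfl⟩ := χ
  show (Nat.card ↥H : ℝ)⁻¹ * ∑ᶠ h : ↥H, ‖ρ.character h‖ ^ 2 ≤
    1 + (Set.ncard ({x : G | ρ.character x = 0} \ (H : Set G)) : ℝ) / (Nat.card ↥H : ℝ)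
  have hnz : NeZero (Nat.card G) := ⟨Nat.card_pos.ne'⟩
  have hm : ∀ σ : Cfsg.Agent.Lib.Helper2.CycK (Nat.card G) ≃ₐ[ℚ]
      Cfsg.Agent.Lib.Helper2.CycK (Nat.card G),
      ∃ m : ℕ, m.Coprime (Nat.card G) ∧ σ (Cfsg.Agent.Lib.Helper2.cycZeta (Nat.card G)) =
        Cfsg.Agent.Lib.Helper2.cycZeta (Nat.card G) ^ m :=
    Cfsg.Agent.Lib.Helper2.aut_zeta (Nat.card G)
  choose m hmcop hmσ using hm
  have hΓne : Nonempty (Cfsg.Agent.Lib.Helper2.CycK (Nat.card G) ≃ₐ[ℚ]
      Cfsg.Agent.Lib.Helper2.CycK (Nat.card G)) := ⟨AlgEquiv.refl⟩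
  have hΓpos : (0 : ℝ) < (Fintype.card (Cfsg.Agent.Lib.Helper2.CycK (Nat.card G) ≃ₐ[ℚ]
      Cfsg.Agent.Lib.Helper2.CycK (Nat.card G)) : ℝ) := by
    exact_mod_cast Fintype.card_pos
  let sH : Finset G := Finset.univ.filter (fun g => g ∈ H)
  let sA : Finset G := Finset.univ.filter (fun g => g ∉ H ∧ ρ.character g ≠ 0)
  let sZ : Finset G := Finset.univ.filter (fun g => g ∉ H ∧ ρ.character g = 0)
  have hcH : (sH.card : ℝ) = (Nat.card ↥H : ℝ) := by
    rw [Nat.card_eq_fintype_card, Fintype.card_subtype]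
  have hcZ : (sZ.card : ℝ) = (Set.ncard ({x : G | ρ.character x = 0} \ (H : Set G)) : ℝ) := by
    have : ({x : G | ρ.character x = 0} \ (H : Set G)) = (sZ : Set G) := by
      ext x
      simp [sZ, and_comm]
    rw [this, Set.ncard_coe_finset]
  -- the key inequality
  have hkey : (sA.card : ℝ) ≤ ∑ g ∈ sA, ‖ρ.character g‖ ^ 2 := by
    have h1 : ∀ σ : Cfsg.Agent.Lib.Helper2.CycK (Nat.card G) ≃ₐ[ℚ]
        Cfsg.Agent.Lib.Helper2.CycK (Nat.card G),
        ∑ g ∈ sA, ‖ρ.character (g ^ m σ)‖ ^ 2 = ∑ g ∈ sA, ‖ρ.character g‖ ^ 2 := by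
      intro σ
      have hcop : (Nat.card G).Coprime (m σ) := (hmcop σ).symm
      have hinj : Function.Injective (fun g : G => g ^ m σ) := (powCoprime hcop).injective
      have hmaps : ∀ g ∈ sA, g ^ m σ ∈ sA := by
        intro g hg
        rw [Finset.mem_filter] at hg ⊢
        refine ⟨Finset.mem_univ _, ?_, (galois_key ρ m hmσ g hg.2.2).2 σ⟩
        intro hmem
        apply hg.2.1
        have h2 : (powCoprime hcop).symm ((powCoprime hcop) g) = g := Equiv.symm_apply_apply _ _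
        have h3 : (g ^ m σ) ^ ((Nat.card G).gcdB (m σ)) = g := h2
        rw [← h3]
        exact H.zpow_mem hmem _
      have himg : sA.image (fun g : G => g ^ m σ) = sA := by
        apply Finset.eq_of_subset_of_card_le
        · intro y hy
          obtain ⟨g, hg, rfl⟩ := Finset.mem_image.mp hy
          exact hmaps g hg
        · rw [Finset.card_image_of_injective _ hinj]
      calc ∑ g ∈ sA, ‖ρ.character (g ^ m σ)‖ ^ 2
          = ∑ y ∈ sA.image (fun g : G => g ^ m σ), ‖ρ.character y‖ ^ 2 :=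
            (Finset.sum_image (f := fun y => ‖ρ.character y‖ ^ 2) (g := fun g : G => g ^ m σ)
              (s := sA) (fun a _ b _ hab => hinj hab)).symm
        _ = ∑ g ∈ sA, ‖ρ.character g‖ ^ 2 := by rw [himg]
    have h2 : ∑ g ∈ sA, (Fintype.card (Cfsg.Agent.Lib.Helper2.CycK (Nat.card G) ≃ₐ[ℚ]
        Cfsg.Agent.Lib.Helper2.CycK (Nat.card G)) : ℝ) ≤
        ∑ g ∈ sA, ∑ σ : Cfsg.Agent.Lib.Helper2.CycK (Nat.card G) ≃ₐ[ℚ]
          Cfsg.Agent.Lib.Helper2.CycK (Nat.card G), ‖ρ.character (g ^ m σ)‖ ^ 2 := by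
      apply Finset.sum_le_sum
      intro g hg
      exact (galois_key ρ m hmσ g (Finset.mem_filter.mp hg).2.2).1
    rw [Finset.sum_comm, Finset.sum_congr rfl (fun σ _ => h1 σ), Finset.sum_const,
      Finset.sum_const, Finset.card_univ, nsmul_eq_mul, nsmul_eq_mul] at h2
    rw [mul_comm] at h2
    exact le_of_mul_le_mul_left h2 hΓpos
  -- the partition
  have hsplit1 : ∑ g : G, ‖ρ.character g‖ ^ 2 =
      ∑ g ∈ sH, ‖ρ.character g‖ ^ 2 + ∑ g ∈ Finset.univ.filter (fun g => g ∉ H),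
        ‖ρ.character g‖ ^ 2 :=
    (Finset.sum_filter_add_sum_filter_not Finset.univ (fun g => g ∈ H) _).symm
  have hsplit2 : ∑ g ∈ Finset.univ.filter (fun g => g ∉ H), ‖ρ.character g‖ ^ 2 =
      ∑ g ∈ sA, ‖ρ.character g‖ ^ 2 := by
    have h3 := (Finset.sum_filter_add_sum_filter_not (Finset.univ.filter (fun g : G => g ∉ H))
      (fun g => ρ.character g ≠ 0) (fun g => ‖ρ.character g‖ ^ 2))
    rw [Finset.filter_filter, Finset.filter_filter] at h3
    have h4 : ∑ g ∈ Finset.univ.filter (fun g : G => g ∉ H ∧ ¬ ρ.character g ≠ 0),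
        ‖ρ.character g‖ ^ 2 = 0 := by
      apply Finset.sum_eq_zero
      intro g hg
      have := (Finset.mem_filter.mp hg).2.2
      push Not at this
      rw [this]
      simp
    rw [h4, add_zero] at h3
    exact h3.symm
  have hcard1 : (Fintype.card G : ℝ) = (sH.card : ℝ) + (sA.card : ℝ) + (sZ.card : ℝ) := by
    have h5 := Finset.card_filter_add_card_filter_not (s := (Finset.univ : Finset G))
      (fun g => g ∈ H)
    have h6 := Finset.card_filter_add_card_filter_not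
      (s := Finset.univ.filter (fun g : G => g ∉ H)) (fun g => ρ.character g ≠ 0)
    rw [Finset.filter_filter, Finset.filter_filter] at h6
    have h7 : (Finset.univ.filter (fun g : G => g ∉ H ∧ ¬ ρ.character g ≠ 0)) = sZ := by
      apply Finset.filter_congr
      intro g _
      simp
    rw [h7] at h6
    have h8 : Fintype.card G = sH.card + sA.card + sZ.card := by
      rw [← Finset.card_univ, ← h5, ← h6]
      ring
    exact_mod_cast h8
  have hsum := Cfsg.Agent.S0191.sum_norm_sq ρ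
  rw [Nat.card_eq_fintype_card] at hsum
  have hfinal : ∑ g ∈ sH, ‖ρ.character g‖ ^ 2 ≤ (sH.card : ℝ) + (sZ.card : ℝ) := by
    rw [hsplit1, hsplit2] at hsum
    linarith
  have hfs : ∑ᶠ h : ↥H, ‖ρ.character h‖ ^ 2 = ∑ g ∈ sH, ‖ρ.character g‖ ^ 2 := by
    rw [finsum_eq_sum_of_fintype]
    exact (Finset.sum_subtype sH (fun g => by simp [sH]) (fun g => ‖ρ.character g‖ ^ 2)).symm
  rw [hfs, ← hcZ, ← hcH]
  have hHpos : (0 : ℝ) < (sH.card : ℝ) := by
    rw [hcH]
    exact_mod_cast Nat.card_pos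
  rw [inv_mul_le_iff₀ hHpos]
  have : (sH.card : ℝ) * (1 + (sZ.card : ℝ) / (sH.card : ℝ)) = (sH.card : ℝ) + (sZ.card : ℝ) := by
    field_simp
  rw [this]
  exact hfinal

end Cfsg.Agent.S4989
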