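import Cfsg.Statements.S5001
import Cfsg.Agent.Lib.Helper26.Constituent

set_option autoImplicit false
open Cfsg

namespace Cfsg.Agent.S5001

open Cfsg.Agent.Lib.Helper2 Cfsg.Agent.Lib.Helper25 Cfsg.Agent.Lib.Helper26

/-- Let p be a prime, G a finite group and B a p-block of G (relative to a maximal ideal M of the algebraic integers containing p) with defect group D. Let Z be a central p-subgroup of G contained in D and λ a linear character of Z (a homomorphism to the nonzero complex numbers). Say an irreducible character χ of G lies over λ when χ(z) = χ(1)λ(z) for all z ∈ Z. If some irreducible character in B lying over λ has height zero, then λ extends to a linear character of D. -/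
theorem result {G : Type*} [Group G] [Finite G] (p : ℕ) [Fact p.Prime] (M : Ideal Cfsg.AlgInt) (hM : Cfsg.IsPModular p M) (B : Set (Cfsg.IrrCharacter G)) (hB : Cfsg.IsPBlock M B) (D : Subgroup G) (hD : Cfsg.IsDefectGroup p M B D) (Z : Subgroup G) (hZc : Z ≤ Subgroup.center G) (hZp : IsPGroup p ↥Z) (hZD : Z ≤ D) (lam : ↥Z →* ℂˣ) (χ : Cfsg.IrrCharacter G) (hχ : χ ∈ B) (hover : (∀ z : ↥Z, (χ : G → ℂ) z = (χ : G → ℂ) 1 * (lam z : ℂ))) (h0 : Cfsg.blockHeight p B (χ : G → ℂ) = 0) : (∃ μ : ↥D →* ℂˣ, ∀ z : ↥Z, μ ⟨(z : G), hZD z.2⟩ = lam z) := by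
  classical
  have : Fintype G := Fintype.ofFinite G
  have hpr := isPrime_of_isPModular hM
  obtain ⟨g, hg, P, rfl⟩ := hD
  -- Step A: the value of χ at the defect class lies outside the local ideal
  have hA : ¬ MemLocalIdeal M ((χ : G → ℂ) g) := by
    intro hmem
    have hcls := defect_of_isDefectClass hM B hB g hg
    obtain ⟨m0, h1, ⟨χ0, hχ0, hχ0m⟩, h3⟩ := blockDefect_spec (p := p) B ⟨χ, hχ⟩
    have h2 := factorization_card_centralizer (p := p) g
    have hidx : ((Subgroup.centralizer ({g} : Set G)).index).factorization p = m0 := by omega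
    obtain ⟨d, hd1, hdpos, hdvd, hcd⟩ := irr_degree χ
    have hle : (charDegree (χ : G → ℂ)).factorization p ≤ m0 := by
      unfold blockHeight at h0
      have h4 : sInf ((fun ψ : IrrCharacter G => (charDegree (ψ : G → ℂ)).factorization p) '' B)
          ≤ m0 := by
        rw [← hχ0m]
        exact Nat.sInf_le ⟨χ0, hχ0, rfl⟩
      omega
    rw [hcd] at hle
    have hpd : p ^ m0 ∣ d := by
      have := h3 χ hχ
      rwa [hcd] at this
    obtain ⟨b, hb⟩ := hpd
    have hpb : ¬ p ∣ b := by
      intro hpb
      obtain ⟨c, hc⟩ := hpb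
      have h5 : p ^ (m0 + 1) ∣ d := ⟨c, by rw [hb, hc, pow_succ]; ring⟩
      have h6 := (Nat.Prime.pow_dvd_iff_le_factorization (Fact.out (p := p.Prime)) hdpos.ne').mp h5
      omega
    have hindex0 : (Subgroup.centralizer ({g} : Set G)).index ≠ 0 := by
      intro h0'
      have h7 := Subgroup.card_mul_index (Subgroup.centralizer ({g} : Set G))
      rw [h0', mul_zero] at h7
      exact Nat.card_pos.ne' h7.symm
    have hpa : p ^ m0 ∣ (Subgroup.centralizer ({g} : Set G)).index := by
      rw [Nat.Prime.pow_dvd_iff_le_factorization (Fact.out (p := p.Prime)) hindex0, hidx]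
    obtain ⟨a, ha⟩ := hpa
    apply hg.2.2 χ hχ
    have hb0 : (b : ℂ) ≠ 0 := by
      apply Nat.cast_ne_zero.mpr
      rintro rfl
      exact hpb (dvd_zero p)
    have hp0 : ((p : ℂ) ^ m0) ≠ 0 := pow_ne_zero _ (Nat.cast_ne_zero.mpr (Fact.out (p := p.Prime)).ne_zero)
    have hval : centralChar (χ : G → ℂ) g = (a : ℂ) * (b : ℂ)⁻¹ * (χ : G → ℂ) g := by
      unfold centralChar
      rw [hd1, ha, hb]
      push_cast
      field_simp
    rw [hval]
    apply MemLocalIdeal.mul_left M _ hmem
    exact MemLocalRing.mul M (memLocalRing_natCast M a) (memLocalRing_inv_natCast hM hpb)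
  -- Step B: a constituent of degree prime to p on the centralizer
  have hgmem : g ∈ Subgroup.centralizer ({g} : Set G) := by
    rw [Subgroup.mem_centralizer_iff]
    intro h hh
    rw [Set.mem_singleton_iff] at hh
    rw [hh]
  have hgC : (⟨g, hgmem⟩ : Subgroup.centralizer ({g} : Set G))
      ∈ Subgroup.center (Subgroup.centralizer ({g} : Set G)) := by
    rw [Subgroup.mem_center_iff]
    intro c
    apply Subtype.ext
    have hc := Subgroup.mem_centralizer_iff.mp c.2 g (Set.mem_singleton g)
    exact hc.symm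
  have hθ : IsCharacter (Subgroup.centralizer ({g} : Set G))
      (fun c : Subgroup.centralizer ({g} : Set G) => (χ : G → ℂ) c) :=
    IsCharacter.restrict (isCharacter_of_isIrrCharacter χ.2) _
  obtain ⟨ψ, hψne, hψp⟩ := exists_constituent_not_dvd hM hθ ⟨g, hgmem⟩ hgC hA
  -- Step C: a linear constituent on the Sylow subgroup
  obtain ⟨dψ, hdψ1, hdψpos, _, hdψcd⟩ := irr_degree ψ
  have hψP : IsCharacter (P : Subgroup (Subgroup.centralizer ({g} : Set G)))
      (fun u : (P : Subgroup (Subgroup.centralizer ({g} : Set G))) =>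
        (ψ : Subgroup.centralizer ({g} : Set G) → ℂ) u) :=
    IsCharacter.restrict (isCharacter_of_isIrrCharacter ψ.2) _
  rw [hdψcd] at hψp
  obtain ⟨μ, hμne, hμ1⟩ := exists_linear_constituent P.isPGroup' hψP dψ hdψ1 hψp
  obtain ⟨μh, hμh⟩ := hom_of_irr_deg_one μ.2 hμ1
  -- Step D: μ is a constituent of the restriction of χ
  have hχP := classInner_restrict_ne_zero (P : Subgroup (Subgroup.centralizer ({g} : Set G)))
    hθ ψ hψne μ hμne
  rw [hμh] at hχP
  -- Step E: the extension
  refine ⟨μh.comp (((P : Subgroup (Subgroup.centralizer ({g} : Set G))).equivMapOfInjective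
    (Subgroup.centralizer ({g} : Set G)).subtype
    (Subgroup.subtype_injective _)).symm.toMonoidHom), ?_⟩
  intro z
  apply Units.ext
  have hnormlam : ‖(lam z : ℂ)‖ = 1 := by
    have : Fintype Z := Fintype.ofFinite Z
    have hpow : (lam z : ℂ) ^ Fintype.card Z = 1 := by
      have h1 : (lam z) ^ Fintype.card Z = 1 := by
        rw [← map_pow, pow_card_eq_one, map_one]
      have h2 := congrArg (fun u : ℂˣ => (u : ℂ)) h1
      simpa using h2
    exact norm_eq_one_of_pow_eq_one Fintype.card_pos hpow
  have hscal : ∀ k : G, (χ : G → ℂ) ((z : G) * k) = (lam z : ℂ) * (χ : G → ℂ) k :=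
    char_mul_of_scalar (isCharacter_of_isIrrCharacter χ.2) hnormlam (hover z)
  set u := ((P : Subgroup (Subgroup.centralizer ({g} : Set G))).equivMapOfInjective
    (Subgroup.centralizer ({g} : Set G)).subtype
    (Subgroup.subtype_injective _)).symm ⟨(z : G), hZD z.2⟩ with hu
  have huz : ((u : Subgroup.centralizer ({g} : Set G)) : G) = (z : G) := by
    have h1 := ((P : Subgroup (Subgroup.centralizer ({g} : Set G))).equivMapOfInjective
      (Subgroup.centralizer ({g} : Set G)).subtype
      (Subgroup.subtype_injective _)).apply_symm_apply ⟨(z : G), hZD z.2⟩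
    rw [← hu] at h1
    have h2 := congrArg (fun w : ↥((P : Subgroup (Subgroup.centralizer ({g} : Set G))).map
      (Subgroup.centralizer ({g} : Set G)).subtype) => (w : G)) h1
    simpa using h2
  have key := linear_constituent_scalar μh hχP u (lam z : ℂ) (by
    intro k
    show (χ : G → ℂ) (((u * k : (P : Subgroup (Subgroup.centralizer ({g} : Set G))))
      : Subgroup.centralizer ({g} : Set G)) : G) = _
    rw [Subgroup.coe_mul, Subgroup.coe_mul, huz]
    exact hscal _)
  exact key

end Cfsg.Agent.S5001
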