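import Cfsg.Statements.S5011
import Mathlib

set_option autoImplicit false
open Cfsg

namespace Cfsg.Agent.S5011

/-- Let G be a finite non-abelian simple group and ρ an irreducible complex representation of G on a space of dimension greater than one (irreducible in the sense that the only subspaces invariant under every ρ(x) are 0 and the whole space). Then for every non-identity element g of G, the centralizer of g does not act irreducibly: there is a non-zero proper subspace invariant under ρ(c) for every c commuting with g. -/
theorem result {G : Type*} [Group G] [Finite G] [IsSimpleGroup G]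
    (hG : ¬ IsMulCommutative G) {V : Type*} [AddCommGroup V] [Module ℂ V] [FiniteDimensional ℂ V]
    (ρ : Representation ℂ G V)
    (hirr : ∀ W : Submodule ℂ V, (∀ x : G, ∀ v ∈ W, ρ x v ∈ W) → W = ⊥ ∨ W = ⊤)
    (hdim : 1 < Module.finrank ℂ V) (g : G) (hg : g ≠ 1) :
    ∃ W : Submodule ℂ V, W ≠ ⊥ ∧ W ≠ ⊤ ∧ ∀ c ∈ Subgroup.centralizer ({g} : Set G), ∀ v ∈ W, ρ c v ∈ W := by
  classical
  have hV : Nontrivial V := Module.nontrivial_of_finrank_pos (R := ℂ) (by omega)
  obtain ⟨μ, hμ⟩ := Module.End.exists_eigenvalue (ρ g)
  by_cases htop : Module.End.eigenspace (ρ g) μ = ⊤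
  · have hscal : ρ g = μ • LinearMap.id := by
      ext v
      have : v ∈ Module.End.eigenspace (ρ g) μ := by rw [htop]; trivial
      simpa using Module.End.mem_eigenspace_iff.mp this
    let Z : Subgroup G :=
      { carrier := {x | ∃ c : ℂ, ρ x = c • LinearMap.id}
        mul_mem' := by
          rintro x y ⟨c, hc⟩ ⟨d, hd⟩
          refine ⟨c * d, ?_⟩
          rw [map_mul, hc, hd]
          ext v
          simp only [Module.End.mul_apply, LinearMap.smul_apply, LinearMap.id_apply, map_smul]
          rw [smul_comm, mul_smul]
        one_mem' := ⟨1, by rw [map_one, one_smul]; rfl⟩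
        inv_mem' := by
          rintro x ⟨c, hc⟩
          have h1 : ρ x⁻¹ * ρ x = 1 := by rw [← map_mul, inv_mul_cancel, map_one]
          rw [hc] at h1
          have hc0 : c ≠ 0 := by
            intro h0
            rw [h0, zero_smul, mul_zero] at h1
            obtain ⟨v, hv⟩ := exists_ne (0 : V)
            have := congrArg (fun f : Module.End ℂ V => f v) h1
            simp at this
            exact hv this.symm
          refine ⟨c⁻¹, ?_⟩
          ext v
          have := congrArg (fun f : Module.End ℂ V => f v) h1
          simp only [Module.End.mul_apply, LinearMap.smul_apply, LinearMap.id_apply, map_smul,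
            Module.End.one_apply] at this
          simp only [LinearMap.smul_apply, LinearMap.id_apply]
          calc (ρ x⁻¹) v = c⁻¹ • (c • (ρ x⁻¹) v) := by
                rw [smul_smul, inv_mul_cancel₀ hc0, one_smul]
            _ = c⁻¹ • v := by rw [this] }
    have hZn : Z.Normal := by
      refine ⟨?_⟩
      rintro x ⟨c, hc⟩ y
      refine ⟨c, ?_⟩
      rw [map_mul, map_mul, hc]
      ext v
      have h1 : ρ y * ρ y⁻¹ = 1 := by rw [← map_mul, mul_inv_cancel, map_one]
      have := congrArg (fun f : Module.End ℂ V => f v) h1
      simp only [Module.End.mul_apply, Module.End.one_apply] at this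
      simp only [Module.End.mul_apply, LinearMap.smul_apply, LinearMap.id_apply, map_smul]
      rw [this]
    have hZ : Z = ⊤ := by
      rcases hZn.eq_bot_or_eq_top with h | h
      · exfalso
        have : g ∈ Z := ⟨μ, hscal⟩
        rw [h] at this
        exact hg this
      · exact h
    obtain ⟨v, hv⟩ := exists_ne (0 : V)
    refine ⟨Submodule.span ℂ {v}, ?_, ?_, ?_⟩
    · intro h
      apply hv
      have : v ∈ Submodule.span ℂ {v} := Submodule.mem_span_singleton_self v
      rw [h] at this
      simpa using this
    · intro h
      have h1 : Module.finrank ℂ (Submodule.span ℂ {v}) = 1 := finrank_span_singleton hv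
      rw [h, finrank_top] at h1
      omega
    · intro c _ w hw
      have hc : c ∈ Z := by rw [hZ]; trivial
      obtain ⟨d, hd⟩ := hc
      rw [hd]
      simpa using Submodule.smul_mem _ d hw
  · refine ⟨Module.End.eigenspace (ρ g) μ, hμ, htop, ?_⟩
    intro c hc v hv
    rw [Module.End.mem_eigenspace_iff] at hv ⊢
    have hcg : g * c = c * g := Subgroup.mem_centralizer_iff.mp hc g rfl
    have h1 : ρ g (ρ c v) = ρ c (ρ g v) := by
      rw [← Module.End.mul_apply, ← Module.End.mul_apply, ← map_mul, ← map_mul, hcg]
    rw [h1, hv, map_smul]

end Cfsg.Agent.S5011
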