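import Cfsg.Statements.S5135
import Cfsg.Agent.Lib.Helper27.FactorSys
import Cfsg.Agent.Lib.Helper27.GroupFusion

set_option autoImplicit false
open Cfsg
open Cfsg.Agent.Lib.Helper27

namespace Cfsg.Agent.S5135

/-- Let G be a finite group, S a Sylow p-subgroup and H a normal subgroup of G. Then the fusion system of G/H on the image SH/H of S is the factor system of the fusion system of G on S modulo S ∩ H, read through the quotient map restricted to S: for each subgroup P' of SH/H, the conjugation maps by elements of G/H defined on P' with values in SH/H are exactly the homomorphisms induced by the conjugation maps by elements of G defined on the full preimage of P' in S with values in S. -/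
theorem result {G : Type*} [Group G] [Finite G] (p : ℕ) [Fact p.Prime] (S : Sylow p G) (H : Subgroup G) [H.Normal] : (Cfsg.groupFusionSystem (S : Subgroup G)).IsFactorSystem ((S : Subgroup G) ⊓ H) ((QuotientGroup.mk' H).comp (S : Subgroup G).subtype) (Cfsg.groupFusionSystem ((S : Subgroup G).map (QuotientGroup.mk' H))) := by
  set θ : ↥(S : Subgroup G) →* G ⧸ H := (QuotientGroup.mk' H).comp (S : Subgroup G).subtype with hθ
  have hθapp : ∀ s : ↥(S : Subgroup G), θ s = QuotientGroup.mk (s : G) := fun s => rfl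
  have hrange : θ.range = (S : Subgroup G).map (QuotientGroup.mk' H) := by
    rw [hθ, MonoidHom.range_comp, Subgroup.range_subtype]
  refine ⟨inf_le_left, ?_, hrange, ?_⟩
  · intro s
    rw [hθapp, QuotientGroup.eq_one_iff]
    exact ⟨fun h => ⟨s.2, h⟩, fun h => h.2⟩
  · intro P' φ'
    constructor
    · rintro ⟨hP', hφ'S, γ, hγ⟩
      refine ⟨hP', ?_⟩
      obtain ⟨g, rfl⟩ := QuotientGroup.mk_surjective γ
      set P := Cfsg.FusionSystem.preimageAlong θ P' with hPdef
      have hPS : P ≤ (S : Subgroup G) := preimageAlong_le θ P'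
      have hK : cj g P ≤ (S : Subgroup G) ⊔ H := by
        rintro _ ⟨x, hx, rfl⟩
        have h0 := hφ'S ⟨θ ⟨x, hPS hx⟩, theta_mem_of_mem_preimageAlong ⟨x, hx⟩⟩
        rw [hγ] at h0
        obtain ⟨s, hs, hsx⟩ := h0
        have h1 : (QuotientGroup.mk s : G ⧸ H) = QuotientGroup.mk (g * x * g⁻¹) := by
          rw [QuotientGroup.mk_mul, QuotientGroup.mk_mul, QuotientGroup.mk_inv]
          exact hsx
        have h2 : s⁻¹ * (g * x * g⁻¹) ∈ H := QuotientGroup.eq.mp h1
        have h3 : g * x * g⁻¹ = s * (s⁻¹ * (g * x * g⁻¹)) := by group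
        show g * x * g⁻¹ ∈ _
        rw [h3]
        exact Subgroup.mul_mem _ (Subgroup.mem_sup_left hs) (Subgroup.mem_sup_right h2)
      obtain ⟨n, hn, hnK⟩ := exists_normal_cj_le S H (isPGroup_cj (S.2.to_le hPS)) hK
      rw [cj_cj] at hnK
      have hval : ∀ x : P, n * g * (x : G) * (n * g)⁻¹ ∈ (S : Subgroup G) := fun x =>
        hnK (conj_mem_cj x.2)
      refine ⟨Cfsg.conjHom P (n * g), ⟨hPS, hval, n * g, fun x => rfl⟩, ?_⟩
      rw [inducedAlong_preimage_iff]
      refine ⟨hval, fun x => ?_⟩
      rw [hγ]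
      have hn1 : (QuotientGroup.mk n : G ⧸ H) = 1 := (QuotientGroup.eq_one_iff n).mpr hn
      show QuotientGroup.mk g * QuotientGroup.mk (x : G) * (QuotientGroup.mk g)⁻¹ =
        QuotientGroup.mk (n * g * (x : G) * (n * g)⁻¹)
      rw [QuotientGroup.mk_mul, QuotientGroup.mk_mul, QuotientGroup.mk_inv, QuotientGroup.mk_mul,
        hn1, one_mul]
    · rintro ⟨hP', φ, ⟨hPS, hφS, g, hg⟩, hind⟩
      obtain ⟨hφS', hind⟩ := inducedAlong_preimage_iff.mp hind
      refine ⟨hP', fun x' => ?_, QuotientGroup.mk g, fun x' => ?_⟩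
      · obtain ⟨x, rfl⟩ := exists_lift hrange hP' x'
        rw [hind x]
        exact ⟨φ x, hφS x, rfl⟩
      · obtain ⟨x, rfl⟩ := exists_lift hrange hP' x'
        rw [hind x]
        show QuotientGroup.mk (φ x) = QuotientGroup.mk g * QuotientGroup.mk (x : G) *
          (QuotientGroup.mk g)⁻¹
        rw [hg, QuotientGroup.mk_mul, QuotientGroup.mk_mul, QuotientGroup.mk_inv]

end Cfsg.Agent.S5135
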