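import Cfsg.Statements.S5198
import Cfsg.Agent.Lib.Helper27.Lift
import Cfsg.Agent.Lib.Helper18.Basic

set_option autoImplicit false
open Cfsg
open Cfsg.Agent.Lib.Helper27 Cfsg.FusionSystem Cfsg.Agent.Lib.Helper26

namespace Cfsg.Agent.S5198

section Aux

variable {Ω : Type*} [Group Ω] {S : Subgroup Ω}

/-- Conjugation by elements of `S` on the strongly closed subgroup `T`, as a homomorphism into
`Aut_F(T)`. -/
def conjT [Finite S] (F : FusionSystem S) {T : Subgroup Ω} (hT : F.StronglyClosed T) :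
    S →* F.autGroup T :=
  (T.normalizerMonoidHom.comp (Subgroup.inclusion (normal_of_stronglyClosed F hT))).codRestrict
    (F.autGroup T) (fun s => Fusion.autInducedBy_le_autGroup F hT.1
      (Subgroup.subset_closure ⟨s, s.2, fun _ => rfl⟩))

theorem conjT_apply [Finite S] (F : FusionSystem S) {T : Subgroup Ω} (hT : F.StronglyClosed T)
    (s : S) (t : T) : ((((conjT F hT s : F.autGroup T) : MulAut T) t : T) : Ω) =
      (s : Ω) * (t : Ω) * (s : Ω)⁻¹ := rfl

/-- `O^p(Aut_F(T)) Inn(T)` inside `Aut_F(T)`. -/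
def nT [Finite S] (F : FusionSystem S) (p : ℕ) (T : Subgroup Ω) : Subgroup (F.autGroup T) :=
  pResidual p (F.autGroup T) ⊔ (Inn T).subgroupOf (F.autGroup T)

instance nT_normal [Finite S] (F : FusionSystem S) (p : ℕ) (T : Subgroup Ω) :
    (nT F p T).Normal := by
  unfold nT
  have h1 : (pResidual p (F.autGroup T)).Normal :=
    Cfsg.Agent.Lib.Helper18.pResidual_normal' p _
  have h2 : ((Inn T).subgroupOf (F.autGroup T)).Normal := inferInstance
  infer_instance

/-- The homomorphism `S → Aut_F(T) / O^p(Aut_F(T)) Inn(T)`. -/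
def qT [Finite S] (F : FusionSystem S) (p : ℕ) {T : Subgroup Ω} (hT : F.StronglyClosed T) :
    S →* F.autGroup T ⧸ nT F p T :=
  (QuotientGroup.mk' (nT F p T)).comp (conjT F hT)

theorem qT_eq_one_of_mem [Finite S] (F : FusionSystem S) (p : ℕ) {T : Subgroup Ω}
    (hT : F.StronglyClosed T) (s : S) (hs : (s : Ω) ∈ T) : qT F p hT s = 1 := by
  show (QuotientGroup.mk (conjT F hT s) : F.autGroup T ⧸ nT F p T) = 1
  rw [QuotientGroup.eq_one_iff]
  apply Subgroup.mem_sup_right
  rw [Subgroup.mem_subgroupOf]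
  refine ⟨⟨s, hs⟩, ?_⟩
  ext t
  rfl

/-- Every automorphism in `Aut_F(P)` acts on the image of `P` in the quotient as conjugation by
some element. -/
theorem exists_conj_qT [Finite S] (p : ℕ) [Fact p.Prime] (hS : IsPGroup p S)
    (F : FusionSystem S) (hF : F.IsSaturated p) {T : Subgroup Ω} (hT : F.StronglyClosed T)
    {P : Subgroup Ω} (hP : P ≤ S) {α : MulAut P} (hα : α ∈ F.autGroup P) :
    ∃ g : F.autGroup T ⧸ nT F p T, ∀ u : P,
      qT F p hT ⟨(α u : P), hP (α u).2⟩ = g * qT F p hT ⟨u, hP u.2⟩ * g⁻¹ := by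
  have hTS : T ≤ S := hT.1
  have hTfin : Finite T := finite_of_le hTS
  have hα' := (Fusion.mem_autGroup_iff F hP).1 hα
  obtain ⟨ψ, hψ, hψv⟩ := exists_lift_mod p hS F hF hT hα'
  have hψT := Fusion.restrict_mem F hψ (le_sup_right : T ≤ P ⊔ T)
  have hr : (ψ.comp (Subgroup.inclusion (le_sup_right : T ≤ P ⊔ T))).range = T := by
    apply Subgroup.eq_of_le_of_card_ge
    · rintro _ ⟨t, rfl⟩
      exact sup_map_mem hT hψ _ t.2
    · exact le_of_eq (Nat.card_congr (Equiv.ofInjective _ (F.injective_of_mem hψT)))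
  have hγ : Fusion.equivOfRange _ (F.injective_of_mem hψT) hr ∈ F.autGroup T :=
    (Fusion.mem_autGroup_iff F hTS).2 (Fusion.isIso_equivOfRange F hψT hr)
  refine ⟨QuotientGroup.mk ⟨Fusion.equivOfRange _ (F.injective_of_mem hψT) hr, hγ⟩, fun u => ?_⟩
  have haS : ψ (Subgroup.inclusion le_sup_left u) ∈ S := (F.le_of_mem hψ).2 _
  have ht₀ := hψv u
  have e1 : (⟨(α u : P), hP (α u).2⟩ : S) =
      ⟨ψ (Subgroup.inclusion le_sup_left u), haS⟩ *
        ⟨(ψ (Subgroup.inclusion le_sup_left u))⁻¹ * (P.subtype.comp α.toMonoidHom) u,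
          hTS ht₀⟩ := by
    apply Subtype.ext
    show ((α u : P) : Ω) = ψ (Subgroup.inclusion le_sup_left u) *
      ((ψ (Subgroup.inclusion le_sup_left u))⁻¹ * ((α u : P) : Ω))
    group
  rw [e1, map_mul, qT_eq_one_of_mem F p hT
    ⟨(ψ (Subgroup.inclusion le_sup_left u))⁻¹ * (P.subtype.comp α.toMonoidHom) u, hTS ht₀⟩ ht₀,
    mul_one]
  have e2 : conjT F hT ⟨ψ (Subgroup.inclusion le_sup_left u), haS⟩ *
      ⟨Fusion.equivOfRange _ (F.injective_of_mem hψT) hr, hγ⟩ =
      ⟨Fusion.equivOfRange _ (F.injective_of_mem hψT) hr, hγ⟩ * conjT F hT ⟨u, hP u.2⟩ := by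
    apply Subtype.ext
    ext t
    show ψ (Subgroup.inclusion le_sup_left u) * ψ (Subgroup.inclusion le_sup_right t) *
        (ψ (Subgroup.inclusion le_sup_left u))⁻¹ =
      ψ (Subgroup.inclusion le_sup_right
        (⟨(u : Ω) * (t : Ω) * (u : Ω)⁻¹,
          (((conjT F hT ⟨u, hP u.2⟩ : F.autGroup T) : MulAut T) t).2⟩ : T))
    rw [← map_mul, ← map_inv, ← map_mul]
    rfl
  show (QuotientGroup.mk (conjT F hT ⟨ψ (Subgroup.inclusion le_sup_left u), haS⟩) :
      F.autGroup T ⧸ nT F p T) = QuotientGroup.mk _ * QuotientGroup.mk (conjT F hT ⟨u, hP u.2⟩) *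
        (QuotientGroup.mk _)⁻¹
  rw [← QuotientGroup.mk_mul, ← e2, QuotientGroup.mk_mul, mul_inv_cancel_right]

/-- Elements of order prime to `p` in `Aut_F(P)` act trivially on the image of `P` in the
quotient. -/
theorem qT_apply_of_coprime [Finite S] (p : ℕ) [Fact p.Prime] (hS : IsPGroup p S)
    (F : FusionSystem S) (hF : F.IsSaturated p) {T : Subgroup Ω} (hT : F.StronglyClosed T)
    {P : Subgroup Ω} (hP : P ≤ S) {α : MulAut P} (hα : α ∈ F.autGroup P)
    (hc : (orderOf α).Coprime p) (u : P) :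
    qT F p hT ⟨(α u : P), hP (α u).2⟩ = qT F p hT ⟨u, hP u.2⟩ := by
  have hTfin : Finite T := finite_of_le hT.1
  obtain ⟨g, hg⟩ := exists_conj_qT p hS F hF hT hP hα
  have hpow : ∀ k : ℕ, ∀ u : P,
      qT F p hT ⟨((α ^ k) u : P), hP ((α ^ k) u).2⟩ = g ^ k * qT F p hT ⟨u, hP u.2⟩ * (g ^ k)⁻¹ := by
    intro k
    induction k with
    | zero =>
      intro u
      simp
    | succ k ih =>
      intro u
      have e : (α ^ (k + 1)) u = α ((α ^ k) u) := by
        rw [pow_succ']
        rfl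
      rw [e, hg, ih, pow_succ']
      group
  have hΓ : IsPGroup p (F.autGroup T ⧸ nT F p T) :=
    Cfsg.Agent.Lib.Helper18.isPGroup_quotient_of_pResidual_le _ le_sup_left
  have hcomm : ∀ u : P, Commute (g ^ orderOf α) (qT F p hT ⟨u, hP u.2⟩) := by
    intro u
    have h1 := hpow (orderOf α) u
    rw [pow_orderOf_eq_one] at h1
    have h2 : qT F p hT ⟨u, hP u.2⟩ = g ^ orderOf α * qT F p hT ⟨u, hP u.2⟩ * (g ^ orderOf α)⁻¹ :=
      h1
    show g ^ orderOf α * qT F p hT ⟨u, hP u.2⟩ = qT F p hT ⟨u, hP u.2⟩ * g ^ orderOf α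
    calc g ^ orderOf α * qT F p hT ⟨u, hP u.2⟩
        = g ^ orderOf α * qT F p hT ⟨u, hP u.2⟩ * (g ^ orderOf α)⁻¹ * g ^ orderOf α := by group
      _ = qT F p hT ⟨u, hP u.2⟩ * g ^ orderOf α := by rw [← h2]
  obtain ⟨k, hk⟩ := hΓ g
  have hcop : (orderOf α).Coprime (orderOf g) := by
    have h1 : orderOf g ∣ p ^ k := orderOf_dvd_of_pow_eq_one hk
    exact Nat.Coprime.coprime_dvd_right h1 (Nat.Coprime.pow_right k hc)
  obtain ⟨m, hm⟩ := exists_pow_eq_self_of_coprime hcop
  have hcomm' : Commute g (qT F p hT ⟨u, hP u.2⟩) := by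
    rw [← hm]
    exact (hcomm u).pow_left m
  rw [hg u, hcomm'.eq, mul_inv_cancel_right]

/-- The automorphisms in `Aut_F(P)` acting trivially on the image of `P` in the quotient. -/
def lamGroup [Finite S] (F : FusionSystem S) (p : ℕ) {T : Subgroup Ω} (hT : F.StronglyClosed T)
    {P : Subgroup Ω} (hP : P ≤ S) : Subgroup (F.autGroup P) where
  carrier := {α | ∀ u : P, qT F p hT ⟨((α : MulAut P) u : P), hP ((α : MulAut P) u).2⟩ =
    qT F p hT ⟨u, hP u.2⟩}
  one_mem' := fun u => rfl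
  mul_mem' := by
    intro α β ha hb u
    show qT F p hT ⟨((α : MulAut P) ((β : MulAut P) u) : P), _⟩ = _
    rw [ha, hb]
  inv_mem' := by
    intro α ha u
    have h1 := ha (((α⁻¹ : F.autGroup P) : MulAut P) u)
    have e0 : ((α : MulAut P) (((α⁻¹ : F.autGroup P) : MulAut P) u)) = u := by
      show ((α : MulAut P) ((α : MulAut P)⁻¹ u)) = u
      simp
    refine h1.symm.trans ?_
    congr 1
    apply Subtype.ext
    show (((α : MulAut P) (((α⁻¹ : F.autGroup P) : MulAut P) u) : P) : Ω) = (u : Ω)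
    rw [e0]

end Aux


/-- Let F be a saturated fusion system over a finite p-group S and T a subgroup of S strongly closed in F (so T is normal in S). Then every element x of the hyperfocal subgroup of F acts on T by conjugation as an element of O^p(Aut_F(T))·Inn(T): there is an automorphism of T in the subgroup generated by the elements of Aut_F(T) of order prime to p together with the inner automorphisms of T that agrees with conjugation by x. -/
theorem result {Ω : Type*} [Group Ω] {S : Subgroup Ω} [Finite S] (p : ℕ) [Fact p.Prime] (hS : IsPGroup p S) (F : Cfsg.FusionSystem S) (hF : F.IsSaturated p) (T : Subgroup Ω) (hT : F.StronglyClosed T) : ∀ x ∈ F.hyperfocalSubgroup p, ∃ α ∈ ((Cfsg.pResidual p ↥(F.autGroup T)).map (F.autGroup T).subtype ⊔ Cfsg.Inn ↥T : Subgroup (MulAut ↥T)), ∀ t : ↥T, ((α t : ↥T) : Ω) = x * (t : Ω) * x⁻¹ := by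
  intro x hx
  have hTS : T ≤ S := hT.1
  have hTfin : Finite T := finite_of_le hTS
  have hle : F.hyperfocalSubgroup p ≤ (qT F p hT).ker.map S.subtype := by
    unfold FusionSystem.hyperfocalSubgroup
    rw [Subgroup.closure_le]
    rintro _ ⟨P, α, u, hP, hα, rfl⟩
    have hres : pResidual p (F.autGroup P) ≤ lamGroup F p hT hP := by
      unfold pResidual
      rw [Subgroup.closure_le]
      intro β hβ u
      have hc : (orderOf (β : MulAut P)).Coprime p := by
        rw [Subgroup.orderOf_coe]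
        exact hβ
      exact qT_apply_of_coprime p hS F hF hT hP β.2 hc u
    have h1 := hres hα u
    refine ⟨(⟨u, hP u.2⟩ : S)⁻¹ * ⟨((α : MulAut P) u : P), hP ((α : MulAut P) u).2⟩, ?_, rfl⟩
    show qT F p hT _ = 1
    rw [map_mul, map_inv, h1, inv_mul_cancel]
  obtain ⟨s, hs, rfl⟩ := hle hx
  have hs' : (QuotientGroup.mk (conjT F hT s) : F.autGroup T ⧸ nT F p T) = 1 := hs
  rw [QuotientGroup.eq_one_iff] at hs'
  refine ⟨(conjT F hT s : MulAut T), ?_, fun t => rfl⟩
  have hmap : (nT F p T).map (F.autGroup T).subtype =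
      (Cfsg.pResidual p ↥(F.autGroup T)).map (F.autGroup T).subtype ⊔ Cfsg.Inn ↥T := by
    unfold nT
    rw [Subgroup.map_sup, Subgroup.map_subgroupOf_eq_of_le]
    rintro _ ⟨g, rfl⟩
    exact Fusion.autInducedBy_le_autGroup F hTS
      (Subgroup.subset_closure ⟨g, hTS g.2, fun x => rfl⟩)
  rw [← hmap]
  exact ⟨conjT F hT s, hs', rfl⟩

end Cfsg.Agent.S5198
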