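import Cfsg.Statements.S5199
import Cfsg.Agent.Lib.Helper27.RestrictSys

set_option autoImplicit false
open Cfsg
open Cfsg.Agent.Lib.Helper27 Cfsg.FusionSystem Cfsg.Agent.Lib.Helper26

namespace Cfsg.Agent.S5199

/-- Let F be a saturated fusion system over a finite p-group S, E a normal subsystem of F over T, and F₀ a normal subsystem of F over a subgroup U containing both T and the hyperfocal subgroup of F, such that F₀ has p-power index in F. Then E is a subsystem of F₀. -/
theorem result {Ω : Type*} [Group Ω] {S : Subgroup Ω} [Finite S] (p : ℕ) [Fact p.Prime] (hS : IsPGroup p S) (F : Cfsg.FusionSystem S) (hF : F.IsSaturated p) {T U : Subgroup Ω} (E : Cfsg.FusionSystem T) (hE : E.IsNormalIn F p) (F₀ : Cfsg.FusionSystem U) (hF₀ : F₀.IsNormalIn F p) (hU : T ⊔ F.hyperfocalSubgroup p ≤ U) (hidx : F₀.HasPPowerIndexIn F p) : E.IsSubsystemOf F₀ := by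
  have hUS : U ≤ S := hF₀.1.2.2.2.1.1
  have hTU : T ≤ U := le_sup_left.trans hU
  have hUfin : Finite U := finite_of_le hUS
  have hUp : IsPGroup p U := hS.to_le hUS
  have hEF : E.IsSubsystemOf F := hE.1.2.2.1
  apply subsystem_of_pResidual_le p hUp hTU E hE.1.1 F₀
  rintro P hPT _ ⟨β, hβ, rfl⟩
  have hle : E.autGroup P ≤ F.autGroup P := by
    apply Subgroup.closure_mono
    intro α hα
    exact hEF P hα
  have h1 := pResidual_map_le p (Subgroup.inclusion hle) ⟨β, hβ, rfl⟩
  exact hidx.2.2 P (hPT.trans hTU) ⟨_, h1, rfl⟩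

end Cfsg.Agent.S5199
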