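import Cfsg.Statements.S5223
import Cfsg.Agent.Lib.Helper27.IterComm

set_option autoImplicit false
open Cfsg
open Cfsg.Agent.Lib.Helper27 Cfsg.FusionSystem Cfsg.Agent.Lib.Helper26

namespace Cfsg.Agent.S5223

/-- Let F be a saturated fusion system over a finite p-group S. Suppose there are subgroups Q₀ = S, Q₁, …, Qₙ = 1 (not required to be nested) such that for each i < n the focal subgroup of Qᵢ (generated by the elements x⁻¹φ(x), x ∈ Qᵢ, φ a map of F defined on the cyclic group generated by x) lies in Qᵢ₊₁. Then F is the inner fusion system of S. -/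
theorem result {Ω : Type*} [Group Ω] {S : Subgroup Ω} [Finite S] (p : ℕ) [Fact p.Prime] (hS : IsPGroup p S) (F : Cfsg.FusionSystem S) (hF : F.IsSaturated p) (n : ℕ) (Q : Fin (n + 1) → Subgroup Ω) (hQ0 : Q 0 = S) (hQn : Q (Fin.last n) = ⊥) (hstep : ∀ i : Fin n, Subgroup.closure {y : Ω | ∃ x ∈ Q i.castSucc, ∃ φ ∈ F.Hom (Subgroup.zpowers x), y = x⁻¹ * φ ⟨x, Subgroup.mem_zpowers x⟩} ≤ Q i.succ) : ∀ P : Subgroup Ω, F.Hom P = (Cfsg.innerFusionSystem S).Hom P := by
  apply eq_inner_of_isPGroup_autGroup p hS F hF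
  intro P hPS
  have hPfin : Finite P := finite_of_le hPS
  obtain ⟨e, he⟩ := IsPGroup.iff_card.1 (hS.to_le hPS)
  rintro ⟨α, hα⟩
  have hαF : P.subtype.comp (α : P ≃* P).toMonoidHom ∈ F.Hom P :=
    (Fusion.mem_autGroup_iff F hPS).1 hα
  have hiter : ∀ (i : ℕ) (hi : i ≤ n) (x : P),
      (((commMap α)^[i] x : P) : Ω) ∈ Q ⟨i, Nat.lt_succ_of_le hi⟩ := by
    intro i
    induction i with
    | zero =>
      intro hi x
      show (x : Ω) ∈ Q 0
      rw [hQ0]
      exact hPS x.2
    | succ i ih =>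
      intro hi x
      rw [Function.iterate_succ_apply']
      have hyQ := ih (Nat.le_of_succ_le hi) x
      generalize (commMap α)^[i] x = y at hyQ
      have hle : Subgroup.zpowers (y : Ω) ≤ P := (Subgroup.zpowers_le).2 y.2
      have hφ := restrict_mem F hαF hle
      have hmem : (y : Ω)⁻¹ * ((P.subtype.comp (α : P ≃* P).toMonoidHom).comp
          (Subgroup.inclusion hle)) ⟨(y : Ω), Subgroup.mem_zpowers _⟩ ∈
          Q (⟨i, hi⟩ : Fin n).succ :=
        hstep ⟨i, hi⟩ (Subgroup.subset_closure ⟨(y : Ω), hyQ, _, hφ, rfl⟩)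
      exact hmem
  have hone : ∀ x : P, (commMap α)^[n] x = 1 := by
    intro x
    have h1 := hiter n le_rfl x
    have e' : (⟨n, Nat.lt_succ_of_le le_rfl⟩ : Fin (n + 1)) = Fin.last n := rfl
    rw [e', hQn, Subgroup.mem_bot] at h1
    exact Subtype.ext h1
  refine ⟨e * n, Subtype.ext ?_⟩
  show α ^ p ^ (e * n) = 1
  apply MulEquiv.ext
  intro x
  rw [pow_mul, ← he]
  exact pow_fix_of_commMap_iter α n x (hone x)

end Cfsg.Agent.S5223
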