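import Cfsg.Statements.S5226
import Cfsg.Agent.Lib.Helper27.Chain
import Cfsg.Agent.Lib.Helper27.GroupFusion

set_option autoImplicit false
open Cfsg
open Cfsg.Agent.Lib.Helper27 Cfsg.FusionSystem Cfsg.Agent.Lib.Helper26
open scoped commutatorElement

namespace Cfsg.Agent.S5226

section Aux

variable {Ω : Type*} [Group Ω] {S : Subgroup Ω}

/-- A weakly closed subgroup contained in `P` is invariant under `Aut_F(P)`. -/
theorem apply_mem_of_weaklyClosed (F : FusionSystem S) {W P : Subgroup Ω}
    (hW : F.WeaklyClosed W) (hWP : W ≤ P) (hP : P ≤ S) {α : MulAut P} (hα : α ∈ F.autGroup P)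
    (x : P) (hx : (x : Ω) ∈ W) : ((α x : P) : Ω) ∈ W := by
  rw [Fusion.mem_autGroup_iff F hP] at hα
  have hres := Fusion.restrict_mem F hα hWP
  have hr := hW.2 _ hres
  rw [← hr]
  exact ⟨⟨x, hx⟩, rfl⟩

theorem normal_of_weaklyClosed [Finite S] (F : FusionSystem S) {W : Subgroup Ω}
    (hW : F.WeaklyClosed W) : S ≤ Subgroup.normalizer (W : Set Ω) := by
  intro g hg
  apply mem_normalizer_of_cj_eq
  have hr := hW.2 _ (F.conj_mem hW.1 hg)
  rw [← range_eq_cj (φ := conjHom W g) (g := g) (fun x => rfl)]
  exact hr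

/-- The upper central series of a subgroup normal in `F` gives a chain of weakly closed
subgroups. -/
theorem weaklyClosed_upperCentralSeries [Finite S] (F : FusionSystem S) {Q : Subgroup Ω}
    (hQ : F.IsNormal Q) (i : ℕ) :
    F.WeaklyClosed ((Subgroup.upperCentralSeries Q i).map Q.subtype) := by
  have hQS : Q ≤ S := hQ.1
  have hQfin : Finite Q := finite_of_le hQS
  have hle : (Subgroup.upperCentralSeries Q i).map Q.subtype ≤ Q := by
    rintro _ ⟨w, -, rfl⟩
    exact w.2
  refine ⟨hle.trans hQS, fun φ hφ => ?_⟩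
  obtain ⟨ψ, hψ, hext, hmap⟩ := hQ.2 _ φ hφ
  have hr := range_restrict_eq ψ (le_sup_right : Q ≤ _ ⊔ Q) hmap
  have hres := Fusion.restrict_mem F hψ (le_sup_right : Q ≤ (Subgroup.upperCentralSeries Q i).map Q.subtype ⊔ Q)
  have hchar : (Subgroup.upperCentralSeries Q i).Characteristic := inferInstance
  have hc := Subgroup.characteristic_iff_map_eq.mp hchar
    (Fusion.equivOfRange _ (F.injective_of_mem hres) hr)
  have hval : ∀ w : Q, ∀ hw : (w : Ω) ∈ (Subgroup.upperCentralSeries Q i).map Q.subtype,
      φ ⟨w, hw⟩ = ((Fusion.equivOfRange _ (F.injective_of_mem hres) hr w : Q) : Ω) := by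
    intro w hw
    rw [← hext ⟨w, hw⟩]
    rfl
  ext z
  constructor
  · rintro ⟨⟨x, hx⟩, rfl⟩
    obtain ⟨w, hw, hwx⟩ := hx
    subst hwx
    have h1 := hval w ⟨w, hw, rfl⟩
    refine ⟨Fusion.equivOfRange _ (F.injective_of_mem hres) hr w, ?_, h1.symm⟩
    exact hc.le ⟨w, hw, rfl⟩
  · rintro ⟨w, hw, rfl⟩
    obtain ⟨w', hw', rfl⟩ := hc.ge hw
    exact ⟨⟨w', ⟨w', hw', rfl⟩⟩, hval w' ⟨w', hw', rfl⟩⟩

end Aux


/-- Let F be a saturated fusion system over a finite p-group S and Q a subgroup of S. Then Q is normal in F (F equals the normalizer system of Q) if and only if Q is strongly closed in F and admits a central series 1 = Q₀ ≤ Q₁ ≤ ⋯ ≤ Qₙ = Q ([Qᵢ₊₁, Q] ≤ Qᵢ) all of whose proper terms are weakly closed in F. -/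
theorem result {Ω : Type*} [Group Ω] {S : Subgroup Ω} [Finite S] (p : ℕ) [Fact p.Prime] (hS : IsPGroup p S) (F : Cfsg.FusionSystem S) (hF : F.IsSaturated p) (Q : Subgroup Ω) : F.IsNormal Q ↔ F.StronglyClosed Q ∧ ∃ (n : ℕ) (C : Fin (n + 1) → Subgroup Ω), C 0 = ⊥ ∧ C (Fin.last n) = Q ∧ Monotone C ∧ (∀ i : Fin n, ⁅C i.succ, Q⁆ ≤ C i.castSucc) ∧ ∀ i : Fin n, F.WeaklyClosed (C i.castSucc) := by
  constructor
  · intro hQ
    have hQS : Q ≤ S := hQ.1
    have hQfin : Finite Q := finite_of_le hQS
    have hnil : Group.IsNilpotent Q := (hS.to_le hQS).isNilpotent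
    obtain ⟨n, hn⟩ := hnil.nilpotent'
    refine ⟨stronglyClosed_of_isNormal F hQ, n,
      fun i => (Subgroup.upperCentralSeries Q i).map Q.subtype, ?_, ?_, ?_, ?_, ?_⟩
    · show (Subgroup.upperCentralSeries Q 0).map Q.subtype = ⊥
      rw [Subgroup.upperCentralSeries_zero, Subgroup.map_bot]
    · show (Subgroup.upperCentralSeries Q n).map Q.subtype = Q
      rw [hn, ← MonoidHom.range_eq_map, Subgroup.range_subtype]
    · intro i j hij
      exact Subgroup.map_mono (Subgroup.upperCentralSeries_mono Q hij)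
    · intro i
      rw [Subgroup.commutator_le]
      rintro _ ⟨x, hx, rfl⟩ g₂ hg₂
      exact ⟨⁅x, ⟨g₂, hg₂⟩⁆, Subgroup.mem_upperCentralSeries_succ_iff.mp hx ⟨g₂, hg₂⟩, rfl⟩
    · intro i
      exact weaklyClosed_upperCentralSeries F hQ _
  · rintro ⟨hsc, n, C, hC0, hCn, hmono, hcomm, hwc⟩
    rw [isNormal_iff_stronglyClosed_radical p hS F hF Q]
    refine ⟨hsc, fun P hPc hPr => ?_⟩
    have hP := hPc.1
    have hcen := hPc.2 P (Fusion.isConj_refl F hP)
    have hSNQ := normal_of_stronglyClosed F hsc
    have hCQ : ∀ i : Fin (n + 1), C i ≤ Q := fun i => hCn ▸ hmono (Fin.le_last i)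
    have key : ∀ j : ℕ, ∀ hj : j ≤ n, C ⟨j, Nat.lt_succ_of_le hj⟩ ≤ P := by
      intro j
      induction j with
      | zero =>
        intro hj
        have : (⟨0, Nat.lt_succ_of_le hj⟩ : Fin (n + 1)) = 0 := rfl
        rw [this, hC0]
        exact bot_le
      | succ j ih =>
        intro hj
        have hjn : j < n := hj
        have hCjP := ih hjn.le
        have hcomm_j := hcomm ⟨j, hjn⟩
        have hcs : (⟨j, hjn⟩ : Fin n).succ = ⟨j + 1, Nat.lt_succ_of_le hj⟩ := rfl
        have hcc : (⟨j, hjn⟩ : Fin n).castSucc = ⟨j, Nat.lt_succ_of_le hjn.le⟩ := rfl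
        rw [hcs, hcc] at hcomm_j
        have hSN : S ≤ Subgroup.normalizer ((C ⟨j + 1, Nat.lt_succ_of_le hj⟩ : Subgroup Ω) : Set Ω) := by
          by_cases hlast : j + 1 = n
          · have : (⟨j + 1, Nat.lt_succ_of_le hj⟩ : Fin (n + 1)) = Fin.last n := Fin.ext hlast
            rw [this, hCn]
            exact hSNQ
          · have hlt : j + 1 < n := lt_of_le_of_ne hj hlast
            have := hwc ⟨j + 1, hlt⟩
            exact normal_of_weaklyClosed F this
        apply le_of_normalizer_le hS hP ((hCQ _).trans hsc.1) (hP.trans hSN)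
        intro g hgC hgN
        have hgQ : g ∈ Q := hCQ _ hgC
        -- weakly closed terms below
        have hwc' : ∀ k : ℕ, ∀ hk : k ≤ j, F.WeaklyClosed (C ⟨k, by omega⟩) := by
          intro k hk
          exact hwc ⟨k, by omega⟩
        have hCkP : ∀ k : ℕ, ∀ hk : k ≤ j, C ⟨k, by omega⟩ ≤ P := by
          intro k hk
          exact (hmono (show (⟨k, by omega⟩ : Fin (n + 1)) ≤ ⟨j, by omega⟩ from hk)).trans hCjP
        refine mem_of_radical_of_chain hS F hcen hPr (j + 2)
          (fun k => if hk : k ≤ j then C ⟨k, by omega⟩ else if k = j + 1 then P ⊓ Q else P)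
          ?_ ?_ ?_ ?_ (hsc.1 hgQ) hgN ?_
        · intro i hi
          by_cases h1 : i + 1 ≤ j
          · have h2 : i ≤ j := by omega
            simp only [dif_pos h1, dif_pos h2]
            exact hmono (show (⟨i, by omega⟩ : Fin (n + 1)) ≤ ⟨i + 1, by omega⟩ from Nat.le_succ i)
          · by_cases h2 : i ≤ j
            · have h3 : i = j := by omega
              subst h3
              simp only [dif_pos h2, dif_neg h1]
              exact le_inf hCjP (hCQ _)
            · have h3 : i = j + 1 := by omega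
              subst h3
              have h4 : ¬ (j + 1 + 1 = j + 1) := by omega
              simp only [dif_neg h1, dif_neg h2, if_neg h4]
              exact inf_le_left
        · intro i hi α hα x hx
          by_cases h2 : i ≤ j
          · simp only [dif_pos h2] at hx ⊢
            exact apply_mem_of_weaklyClosed F (hwc' i h2) (hCkP i h2) hP hα x hx
          · by_cases h3 : i = j + 1
            · simp only [dif_neg h2, if_pos h3] at hx ⊢
              exact ⟨(α x).2, apply_mem_of_stronglyClosed F hsc hP hα x hx.2⟩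
            · simp only [dif_neg h2, if_neg h3] at hx ⊢
              exact (α x).2
        · have h2 : ¬ (j + 2 ≤ j) := by omega
          have h3 : ¬ (j + 2 = j + 1) := by omega
          simp only [dif_neg h2, if_neg h3]
          exact le_rfl
        · intro α hα
          refine ⟨0, fun x hx => ?_⟩
          have h2 : (0 : ℕ) ≤ j := Nat.zero_le j
          simp only [dif_pos h2] at hx
          have h3 : (⟨0, by omega⟩ : Fin (n + 1)) = 0 := rfl
          rw [h3, hC0, Subgroup.mem_bot] at hx
          have h4 : x = 1 := Subtype.ext hx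
          rw [h4, map_one]
        · intro i hi x hx
          have hcomm_eq : (x : Ω)⁻¹ * (g * x * g⁻¹) = ⁅(x : Ω)⁻¹, g⁆ := by
            rw [commutatorElement_def]
            group
          by_cases h1 : i + 1 ≤ j
          · have h2 : i ≤ j := by omega
            simp only [dif_pos h1] at hx
            simp only [dif_pos h2]
            have hc := hcomm ⟨i, by omega⟩
            rw [hcomm_eq]
            exact hc (Subgroup.commutator_mem_commutator (Subgroup.inv_mem _ hx) hgQ)
          · by_cases h2 : i ≤ j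
            · have h3 : i = j := by omega
              subst h3
              simp only [dif_neg h1] at hx
              simp only [dif_pos h2]
              have h5 : (x : Ω)⁻¹ * (g * x * g⁻¹) = (⁅g, (x : Ω)⁻¹⁆)⁻¹ := by
                rw [commutatorElement_def]
                group
              rw [h5]
              exact Subgroup.inv_mem _
                (hcomm_j (Subgroup.commutator_mem_commutator hgC (Q.inv_mem hx.2)))
            · have h3 : i = j + 1 := by omega
              subst h3
              simp only [dif_neg h2]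
              show (x : Ω)⁻¹ * (g * x * g⁻¹) ∈ P ⊓ Q
              refine ⟨P.mul_mem (P.inv_mem x.2)
                ((Subgroup.mem_normalizer_iff.mp hgN x).mp x.2), ?_⟩
              have h6 : (x : Ω)⁻¹ * g * ((x : Ω)⁻¹)⁻¹ ∈ Q :=
                (Subgroup.mem_normalizer_iff.mp (hSNQ (S.inv_mem (hP x.2))) g).mp hgQ
              have h7 : (x : Ω)⁻¹ * (g * x * g⁻¹) = ((x : Ω)⁻¹ * g * ((x : Ω)⁻¹)⁻¹) * g⁻¹ := by
                group
              rw [h7]
              exact Q.mul_mem h6 (Q.inv_mem hgQ)
    have := key n le_rfl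
    have h2 : (⟨n, Nat.lt_succ_of_le le_rfl⟩ : Fin (n + 1)) = Fin.last n := rfl
    rw [h2, hCn] at this
    exact this

end Cfsg.Agent.S5226
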