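import Cfsg.Statements.S5233
import Cfsg.Agent.Lib.Helper27.SCExtraE

set_option autoImplicit false
open Cfsg

namespace Cfsg.Agent.S5233

/-- Let F be a saturated fusion system over a finite p-group S and P a subgroup of S strongly closed in F that is generalized extraspecial (its Frattini subgroup equals its commutator subgroup and has order p) and not isomorphic to E × A with A elementary abelian and E dihedral of order 8 (p = 2) or extraspecial of order p³ and exponent p (p odd). Then P is normal in F. -/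
theorem result {Ω : Type*} [Group Ω] {S : Subgroup Ω} [Finite S] (p : ℕ) [Fact p.Prime] (hS : IsPGroup p S) (F : Cfsg.FusionSystem S) (hF : F.IsSaturated p) (P : Subgroup Ω) (hP : F.StronglyClosed P) (hge : frattini ↥P = commutator ↥P ∧ Nat.card ↥(commutator ↥P) = p) (h2 : p = 2 → ¬ ∃ (A : Type) (_ : CommGroup A), (∀ a : A, a ^ 2 = 1) ∧ Nonempty (↥P ≃* DihedralGroup 4 × A)) (hodd : p ≠ 2 → ¬ ∃ (E : Type) (_ : Group E) (A : Type) (_ : CommGroup A), Cfsg.IsExtraspecial p E ∧ Nat.card E = p ^ 3 ∧ Monoid.exponent E = p ∧ (∀ a : A, a ^ p = 1) ∧ Nonempty (↥P ≃* E × A)) : F.IsNormal P := by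
  by_contra hn
  have hPS : P ≤ S := hP.1
  haveI hPfin : Finite P := Cfsg.Agent.Lib.Helper27.finite_of_le hPS
  obtain ⟨Z, hZP, hZcard, hZc, hZpow, hZS⟩ := Cfsg.Agent.Lib.Helper27.sc_setup p hS F P hP hge
  obtain ⟨E, hE, hPE⟩ := Cfsg.Agent.Lib.Helper27.sc_exists_ess p hS F hF P hP hn
  obtain ⟨z₀, hz₀E, h, x, hz₀, hz₀1, hh, hxP, hxE, hPN, hw, hv, hRab, hRexp, hdec⟩ :=
    Cfsg.Agent.Lib.Helper27.sc_struct p hS F P hP Z hZP hZcard hZc hZpow hZS E hE hPE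
  have hES : E ≤ S := hE.1.1
  have hwP : ((h ⟨z₀, hz₀E⟩ : E) : Ω) ∈ P :=
    Cfsg.Agent.Lib.Helper27.apply_mem_of_stronglyClosed F hP hES hh ⟨z₀, hz₀E⟩ (hZP hz₀)
  have hxodd : p ≠ 2 → x ^ p = 1 := fun hodd' =>
    Cfsg.Agent.Lib.Helper27.sc_odd_exp p hS F hF hodd' P hP Z hZP hZcard hZc hZpow hZS E hE
      z₀ hz₀E h x hz₀ hz₀1 hh hxP (hPN x hxP) (hw x hxP hxE) (hv x hxP hxE) hRab hRexp
  have key := Cfsg.Agent.Lib.Helper27.sc_final (G := ↥P) p (hS.to_le hPS) (Z.subgroupOf P)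
    (E.subgroupOf P)
    (by rw [← hZcard]; exact Nat.card_congr (Subgroup.subgroupOfEquivOfLe hZP).toEquiv)
    (fun a b => Subgroup.mem_subgroupOf.2 (hZc a a.2 b b.2))
    (fun z hz u => Subtype.ext (hZS z (Subgroup.mem_subgroupOf.1 hz) u (hPS u.2)))
    ⟨x, hxP⟩ ⟨_, hwP⟩ (Subgroup.mem_subgroupOf.2 (h ⟨z₀, hz₀E⟩).2)
    (fun heq => hw x hxP hxE (congrArg Subtype.val heq))
    (fun u hu heq => hw u u.2 (fun huE => hu (Subgroup.mem_subgroupOf.2 huE))
      (congrArg Subtype.val heq))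
    (fun a ha b hb => Subtype.ext (hRab a ⟨a.2, Subgroup.mem_subgroupOf.1 ha⟩ b
      ⟨b.2, Subgroup.mem_subgroupOf.1 hb⟩))
    (fun r hr => Subtype.ext (hRexp r ⟨r.2, Subgroup.mem_subgroupOf.1 hr⟩))
    (fun u => by
      obtain ⟨k, hk⟩ := hdec u u.2
      exact ⟨k, Subgroup.mem_subgroupOf.2 hk⟩)
    (Subgroup.mem_subgroupOf.2 (hZpow x hxP))
    (fun hodd' => Subtype.ext (hxodd hodd'))
  by_cases hp2 : p = 2
  · exact h2 hp2 (key.1 hp2)
  · exact hodd hp2 (key.2 hp2)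

end Cfsg.Agent.S5233
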