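import Cfsg.Statements.S5251
import Cfsg.Agent.Lib.Helper27.NonCentric

set_option autoImplicit false
open Cfsg
open Cfsg.Agent.Lib.Helper27 Cfsg.FusionSystem Cfsg.Agent.Lib.Helper26

namespace Cfsg.Agent.S5251

/-- Let F be a saturated fusion system over a finite p-group S, E a normal subsystem of F over T, and P an F-centric subgroup of S such that P ∩ T is not E-centric. Then some F-conjugate P* of P satisfies Out_S(P*) ∩ O_p(Out_F(P*)) ≠ 1: there is an element of N_S(P*) outside P* whose conjugation action on P* lies in O_p(Aut_F(P*)). In particular P is not both centric and radical in F. -/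
theorem result {Ω : Type*} [Group Ω] {S : Subgroup Ω} [Finite S] (p : ℕ) [Fact p.Prime] (hS : IsPGroup p S) (F : Cfsg.FusionSystem S) (hF : F.IsSaturated p) {T : Subgroup Ω} (E : Cfsg.FusionSystem T) (hE : E.IsNormalIn F p) (P : Subgroup Ω) (hP : F.IsCentric P) (hPT : ¬ E.IsCentric (P ⊓ T)) : (∃ φ ∈ F.Hom P, ∃ x ∈ S ⊓ Subgroup.normalizer (φ.range : Set Ω), x ∉ φ.range ∧ ∃ α ∈ ((Cfsg.pCore p ↥(F.autGroup φ.range)).map (F.autGroup φ.range).subtype : Subgroup (MulAut ↥φ.range)), ∀ y : ↥φ.range, ((α y : ↥φ.range) : Ω) = x * (y : Ω) * x⁻¹) ∧ ¬ F.IsRadical p P := by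
  have hF' : F.IsSaturated p := hF
  have hsub : E.IsSubsystemOf F := hE.1.2.2.1
  have hT : F.StronglyClosed T := hE.1.2.2.2.1
  have hPS : P ≤ S := hP.1
  have hex : ∃ R₀ : Subgroup Ω, E.IsConj (P ⊓ T) R₀ ∧ ¬ centralizerIn T R₀ ≤ R₀ := by
    by_contra hcon
    push Not at hcon
    exact hPT ⟨inf_le_right, hcon⟩
  obtain ⟨R₀, ⟨ρ, hρ, hρr⟩, hR₀⟩ := hex
  have hconj : F.IsConj (P ⊓ T) R₀ := ⟨ρ, hsub _ hρ, hρr⟩
  have key := exists_conj_outer_pCore p hS F hF' hT hPS hconj hR₀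
  refine ⟨key, fun hrad => ?_⟩
  obtain ⟨φ, hφ, x, hx, hxP, α, hα, hαx⟩ := key
  have hiso := Fusion.isIso_equivOfRange F hφ rfl
  have hrad' := isRadical_of_isIso hS F hiso hrad
  rw [hrad'.2] at hα
  obtain ⟨y, hy⟩ := hα
  have hcen : centralizerIn S φ.range ≤ φ.range := hP.2 _ ⟨φ, hφ, rfl⟩
  refine hxP (mem_of_conj_eq_inner hrad'.1 hcen hx.1 y (fun z => ?_))
  rw [← hαx z, ← hy]
  rfl

end Cfsg.Agent.S5251
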