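import Mathlib
import Cfsg.Statements.S5274
import Cfsg.Agent.Lib.Helper27.CentralZ
import Cfsg.Agent.S5077
import Cfsg.Agent.S5079

set_option autoImplicit false
open Cfsg

namespace Cfsg.Agent.S5274

/-- Pure group theory core: a finite 2-group `S` in which no element of order bigger than two is
inverted (`D1`) and in which, for every `g`, the centralizer of `g^2` embeds into `S` by a map sending
`g^2` to the square of a central element (`D2`), is abelian. -/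
theorem core {Ω : Type*} [Group Ω] (S : Subgroup Ω) [Finite S] (hS : IsPGroup 2 S)
    (D1 : ∀ x ∈ S, ∀ g ∈ S, g * x * g⁻¹ = x⁻¹ → x * x = 1)
    (D2 : ∀ g ∈ S, ∃ z ∈ S, (∀ s ∈ S, s * z = z * s) ∧ ∃ f : Ω → Ω,
        (∀ a b, a ∈ S → b ∈ S → a * (g * g) = (g * g) * a → b * (g * g) = (g * g) * b →
          f (a * b) = f a * f b) ∧
        (∀ a b, a ∈ S → b ∈ S → a * (g * g) = (g * g) * a → b * (g * g) = (g * g) * b →
          f a = f b → a = b) ∧
        (∀ a, a ∈ S → a * (g * g) = (g * g) * a → f a ∈ S) ∧ f (g * g) = z * z) :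
    ∀ a ∈ S, ∀ b ∈ S, a * b = b * a := by
  classical
  set W : Set Ω := {w | w ∈ S ∧ w * w = 1} with hWdef
  have hWinv : ∀ w ∈ W, w⁻¹ = w := fun w hw => inv_eq_of_mul_eq_one_left hw.2
  have hWmul : ∀ w₁ ∈ W, ∀ w₂ ∈ W, (w₁ * w₂) * (w₁ * w₂) = 1 := by
    intro w₁ h₁ w₂ h₂
    apply D1 _ (S.mul_mem h₁.1 h₂.1) w₁ h₁.1
    rw [mul_inv_rev, hWinv w₁ h₁, hWinv w₂ h₂, ← mul_assoc, h₁.2, one_mul]
  have hWcomm : ∀ w₁ ∈ W, ∀ w₂ ∈ W, w₁ * w₂ = w₂ * w₁ := by
    intro w₁ h₁ w₂ h₂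
    have h := hWmul w₁ h₁ w₂ h₂
    have h' : (w₁ * w₂)⁻¹ = w₁ * w₂ := inv_eq_of_mul_eq_one_left h
    rw [mul_inv_rev, hWinv w₁ h₁, hWinv w₂ h₂] at h'
    exact h'.symm
  set R : Set Ω := {r | r ∈ S ∧ ∀ w ∈ W, r * w = w * r} with hRdef
  set Y : Set Ω := {y | y ∈ R ∧ ∀ r ∈ R, y * r = r * y} with hYdef
  have hWR : W ⊆ R := fun w hw => ⟨hw.1, fun w' hw' => hWcomm w hw w' hw'⟩
  have hWY : W ⊆ Y := fun w hw => ⟨hWR hw, fun r hr => (hr.2 w hw).symm⟩
  have hYmul : ∀ y₁ ∈ Y, ∀ y₂ ∈ Y, y₁ * y₂ ∈ Y := by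
    intro y₁ h₁ y₂ h₂
    refine ⟨⟨S.mul_mem h₁.1.1 h₂.1.1, fun w hw => ?_⟩, fun r hr => ?_⟩
    · rw [mul_assoc, h₂.1.2 w hw, ← mul_assoc, h₁.1.2 w hw, mul_assoc]
    · rw [mul_assoc, h₂.2 r hr, ← mul_assoc, h₁.2 r hr, mul_assoc]
  have hZY : ∀ z ∈ S, (∀ s ∈ S, s * z = z * s) → z ∈ Y := fun z hz hc =>
    ⟨⟨hz, fun w hw => (hc w hw.1).symm⟩, fun r hr => (hc r hr.1).symm⟩
  have hWfin : W.Finite := (Set.toFinite (S : Set Ω)).subset (fun w hw => hw.1)
  have hRfin : R.Finite := (Set.toFinite (S : Set Ω)).subset (fun r hr => hr.1)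
  -- key step
  have key : ∀ g ∈ S, g * g ∈ Y → g ∈ Y := by
    intro g hg hgg
    obtain ⟨z, hzS, hzc, f, hfmul, hfinj, hfS, hfg⟩ := D2 g hg
    have hRN : ∀ r ∈ R, r * (g * g) = (g * g) * r := fun r hr => (hgg.2 r hr).symm
    have hf1 : f 1 = 1 := by
      have h1 := hfmul 1 1 S.one_mem S.one_mem (by simp) (by simp)
      rw [mul_one] at h1
      have h2 : f 1 * f 1 = f 1 * 1 := by rw [mul_one]; exact h1.symm
      exact mul_left_cancel h2
    have hfW : Set.MapsTo f W W := by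
      intro w hw
      have hwN := hRN w (hWR hw)
      refine ⟨hfS w hw.1 hwN, ?_⟩
      rw [← hfmul w w hw.1 hw.1 hwN hwN, hw.2, hf1]
    have hfWinj : Set.InjOn f W := fun a ha b hb hab =>
      hfinj a b ha.1 hb.1 (hRN a (hWR ha)) (hRN b (hWR hb)) hab
    have hfWsurj : Set.SurjOn f W W :=
      ((Set.Finite.injOn_iff_bijOn_of_mapsTo hWfin hfW).1 hfWinj).surjOn
    have hfR : Set.MapsTo f R R := by
      intro r hr
      refine ⟨hfS r hr.1 (hRN r hr), fun w hw => ?_⟩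
      obtain ⟨w', hw', rfl⟩ := hfWsurj hw
      rw [← hfmul r w' hr.1 hw'.1 (hRN r hr) (hRN w' (hWR hw')),
        ← hfmul w' r hw'.1 hr.1 (hRN w' (hWR hw')) (hRN r hr), hr.2 w' hw']
    have hfRinj : Set.InjOn f R := fun a ha b hb hab =>
      hfinj a b ha.1 hb.1 (hRN a ha) (hRN b hb) hab
    have hfRsurj : Set.SurjOn f R R :=
      ((Set.Finite.injOn_iff_bijOn_of_mapsTo hRfin hfR).1 hfRinj).surjOn
    have hzR : z ∈ R := (hZY z hzS hzc).1
    obtain ⟨y₁, hy₁R, hy₁z⟩ := hfRsurj hzR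
    have hN2 : ∀ a ∈ R, ∀ b ∈ R, (a * b) * (g * g) = (g * g) * (a * b) := by
      intro a ha b hb
      rw [mul_assoc, hRN b hb, ← mul_assoc, hRN a ha, mul_assoc]
    have hy₁Y : y₁ ∈ Y := by
      refine ⟨hy₁R, fun r hr => ?_⟩
      apply hfinj _ _ (S.mul_mem hy₁R.1 hr.1) (S.mul_mem hr.1 hy₁R.1) (hN2 _ hy₁R _ hr)
        (hN2 _ hr _ hy₁R)
      rw [hfmul y₁ r hy₁R.1 hr.1 (hRN _ hy₁R) (hRN _ hr),
        hfmul r y₁ hr.1 hy₁R.1 (hRN _ hr) (hRN _ hy₁R), hy₁z]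
      exact (hzc _ (hfS r hr.1 (hRN r hr))).symm
    have hy₁sq : y₁ * y₁ = g * g := by
      apply hfinj _ _ (S.mul_mem hy₁R.1 hy₁R.1) (S.mul_mem hg hg) (hN2 _ hy₁R _ hy₁R) rfl
      rw [hfmul y₁ y₁ hy₁R.1 hy₁R.1 (hRN _ hy₁R) (hRN _ hy₁R), hy₁z, hfg]
    have hg'S : g * y₁⁻¹ ∈ S := S.mul_mem hg (S.inv_mem hy₁R.1)
    have hinv : y₁ * (g * y₁⁻¹) * y₁⁻¹ = (g * y₁⁻¹)⁻¹ := by
      rw [mul_inv_rev, inv_inv]
      have h3 : y₁⁻¹ * y₁⁻¹ = g⁻¹ * g⁻¹ := by rw [← mul_inv_rev, ← mul_inv_rev, hy₁sq]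
      calc y₁ * (g * y₁⁻¹) * y₁⁻¹ = y₁ * (g * (y₁⁻¹ * y₁⁻¹)) := by group
        _ = y₁ * (g * (g⁻¹ * g⁻¹)) := by rw [h3]
        _ = y₁ * g⁻¹ := by group
    have hg'W : g * y₁⁻¹ ∈ W := ⟨hg'S, D1 _ hg'S y₁ hy₁R.1 hinv⟩
    have h4 : g = (g * y₁⁻¹) * y₁ := by group
    rw [h4]
    exact hYmul _ (hWY hg'W) _ hy₁Y
  have hall : ∀ k : ℕ, ∀ g ∈ S, g ^ (2 ^ k) = 1 → g ∈ Y := by
    intro k
    induction k with
    | zero =>
      intro g hg h
      simp at h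
      subst h
      exact hWY ⟨S.one_mem, by simp⟩
    | succ k ih =>
      intro g hg h
      apply key g hg
      apply ih (g * g) (S.mul_mem hg hg)
      rw [← pow_two, ← pow_mul, ← pow_succ']
      exact h
  intro a ha b hb
  obtain ⟨ka, hka⟩ := hS ⟨a, ha⟩
  obtain ⟨kb, hkb⟩ := hS ⟨b, hb⟩
  have haY : a ∈ Y := hall ka a ha (by simpa using congrArg Subtype.val hka)
  have hbY : b ∈ Y := hall kb b hb (by simpa using congrArg Subtype.val hkb)
  exact haY.2 b hbY.1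

open Cfsg.FusionSystem Cfsg.Agent.Lib.Helper27 in
/-- The image of a homomorphism defined on a cyclic subgroup is the cyclic subgroup generated by the
image of the generator. -/
theorem range_zpowers {Ω : Type*} [Group Ω] {x : Ω} (φ : Subgroup.zpowers x →* Ω) :
    φ.range = Subgroup.zpowers (φ ⟨x, Subgroup.mem_zpowers x⟩) := by
  ext y
  constructor
  · rintro ⟨⟨a, ha⟩, rfl⟩
    obtain ⟨k, rfl⟩ := Subgroup.mem_zpowers_iff.mp ha
    have h1 : (⟨x ^ k, ha⟩ : Subgroup.zpowers x) = ⟨x, Subgroup.mem_zpowers x⟩ ^ k :=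
      Subtype.ext (by simp)
    rw [h1, map_zpow]
    exact Subgroup.zpow_mem_zpowers _ k
  · intro hy
    obtain ⟨k, rfl⟩ := Subgroup.mem_zpowers_iff.mp hy
    exact ⟨⟨x, Subgroup.mem_zpowers x⟩ ^ k, by rw [map_zpow]⟩

open Cfsg.FusionSystem Cfsg.Agent.Lib.Helper27 in
/-- No element of `S` of order bigger than two is inverted by an element of `S`. -/
theorem d1 {Ω : Type*} [Group Ω] {S : Subgroup Ω} [Finite S] (hS : IsPGroup 2 ↥S)
    (F : Cfsg.FusionSystem S) (hF : F.IsSaturated 2)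
    (h : ∀ x ∈ S, ∃ z ∈ S ⊓ Subgroup.centralizer (S : Set Ω), F.IsConjElt x z) :
    ∀ x ∈ S, ∀ g ∈ S, g * x * g⁻¹ = x⁻¹ → x * x = 1 := by
  have : Fact (Nat.Prime 2) := ⟨Nat.prime_two⟩
  obtain ⟨hax1, hax2⟩ := (Cfsg.Agent.S5077.result 2 hS F).mp hF
  intro x hx g hg hinv
  obtain ⟨z, hz, φ, hφ, hφx⟩ := h x hx
  have hzS : z ∈ S := hz.1
  have hzc : ∀ s ∈ S, s * z = z * s := fun s hs => Subgroup.mem_centralizer_iff.mp hz.2 s hs
  have hfc : F.IsFullyCentralized (Subgroup.zpowers z) :=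
    fullyCentralized_zpowers_central F hzS hzc
  have hrec : F.IsReceptive (Subgroup.zpowers z) := hax2 _ hfc
  have hcz : centralizerIn S (Subgroup.zpowers z) = S := centralizerIn_zpowers_central hzc
  have hnz : normalizerIn S (Subgroup.zpowers z) = S := by
    refine le_antisymm inf_le_left (fun s hs => ⟨hs, ?_⟩)
    have h1 : s ∈ centralizerIn S (Subgroup.zpowers z) := by rw [hcz]; exact hs
    exact Subgroup.centralizer_le_normalizer _ h1.2
  have hfn : F.IsFullyNormalized (Subgroup.zpowers z) :=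
    ⟨(Subgroup.zpowers_le).2 hzS, fun Q _ => by
      rw [hnz]
      exact Subgroup.card_le_of_le inf_le_left⟩
  have hfa : F.IsFullyAutomized 2 (Subgroup.zpowers z) := (hax1 _ hfn).2
  have hconj : F.IsConj (Subgroup.zpowers x) (Subgroup.zpowers z) :=
    ⟨φ, hφ, by rw [range_zpowers, hφx]⟩
  obtain ⟨ψ, hψ, hψN, hψmap⟩ :=
    Cfsg.Agent.S5079.result 2 hS F (Subgroup.zpowers z) (Subgroup.zpowers x) hfa hrec hconj
  -- `g` normalizes `⟨x⟩`
  have hinv' : g⁻¹ * x * g = x⁻¹ := by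
    have h1 : x = g⁻¹ * x⁻¹ * g := by rw [← hinv]; group
    have h2 : x⁻¹ = (g⁻¹ * x⁻¹ * g)⁻¹ := congrArg (fun t => t⁻¹) h1
    rw [h2]; group
  have hgnorm : g ∈ Subgroup.normalizer (Subgroup.zpowers x : Set Ω) := by
    rw [Subgroup.mem_normalizer_iff]
    intro y
    constructor
    · intro hy
      obtain ⟨k, rfl⟩ := Subgroup.mem_zpowers_iff.mp hy
      have h1 : g * x ^ k * g⁻¹ = (x⁻¹) ^ k := by rw [← hinv, conj_zpow]
      rw [h1]
      exact Subgroup.zpow_mem _ (Subgroup.inv_mem _ (Subgroup.mem_zpowers x)) k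
    · intro hy
      obtain ⟨k, hk⟩ := Subgroup.mem_zpowers_iff.mp hy
      have h1 : y = g⁻¹ * (g * y * g⁻¹) * g := by group
      have h2 : g⁻¹ * x ^ k * g = (x⁻¹) ^ k := by
        rw [← hinv']
        have := conj_zpow (a := g⁻¹) (b := x) (i := k)
        rw [inv_inv] at this
        exact this.symm
      rw [h1, ← hk, h2]
      exact Subgroup.zpow_mem _ (Subgroup.inv_mem _ (Subgroup.mem_zpowers x)) k
  have hgN : g ∈ normalizerIn S (Subgroup.zpowers x) := ⟨hg, hgnorm⟩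
  have hxN : x ∈ normalizerIn S (Subgroup.zpowers x) :=
    ⟨hx, Subgroup.le_normalizer (Subgroup.mem_zpowers x)⟩
  have hψx : ψ ⟨x, hxN⟩ ∈ Subgroup.zpowers z := by
    rw [← hψmap]
    exact ⟨⟨x, hxN⟩, Subgroup.mem_subgroupOf.mpr (Subgroup.mem_zpowers x), rfl⟩
  have hψxc := zpowers_central hzc _ hψx
  have hψgS : ψ ⟨g, hgN⟩ ∈ S := hom_mem F hψ _
  have h1 : (⟨g, hgN⟩ : normalizerIn S (Subgroup.zpowers x)) * ⟨x, hxN⟩ * ⟨g, hgN⟩⁻¹ =
      ⟨x, hxN⟩⁻¹ := Subtype.ext hinv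
  have h2 : ψ ⟨g, hgN⟩ * ψ ⟨x, hxN⟩ * (ψ ⟨g, hgN⟩)⁻¹ = (ψ ⟨x, hxN⟩)⁻¹ := by
    have h0 := congrArg ψ h1
    simpa only [map_mul, map_inv] using h0
  rw [hψxc _ hψgS, mul_inv_cancel_right] at h2
  have h3 : ψ (⟨x, hxN⟩ * ⟨x, hxN⟩) = ψ 1 := by
    rw [map_mul, map_one]
    exact mul_eq_one_iff_eq_inv.mpr h2
  have h4 := F.injective_of_mem hψ h3
  exact congrArg Subtype.val h4

open Cfsg.FusionSystem Cfsg.Agent.Lib.Helper27 in
/-- For every `g ∈ S` the centralizer of `g^2` in `S` embeds into `S` by a map sending `g^2` to the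
square of a central element. -/
theorem d2 {Ω : Type*} [Group Ω] {S : Subgroup Ω} [Finite S] (hS : IsPGroup 2 ↥S)
    (F : Cfsg.FusionSystem S) (hF : F.IsSaturated 2)
    (h : ∀ x ∈ S, ∃ z ∈ S ⊓ Subgroup.centralizer (S : Set Ω), F.IsConjElt x z) :
    ∀ g ∈ S, ∃ z ∈ S, (∀ s ∈ S, s * z = z * s) ∧ ∃ f : Ω → Ω,
        (∀ a b, a ∈ S → b ∈ S → a * (g * g) = (g * g) * a → b * (g * g) = (g * g) * b →
          f (a * b) = f a * f b) ∧
        (∀ a b, a ∈ S → b ∈ S → a * (g * g) = (g * g) * a → b * (g * g) = (g * g) * b →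
          f a = f b → a = b) ∧
        (∀ a, a ∈ S → a * (g * g) = (g * g) * a → f a ∈ S) ∧ f (g * g) = z * z := by
  classical
  have : Fact (Nat.Prime 2) := ⟨Nat.prime_two⟩
  obtain ⟨hax1, hax2⟩ := (Cfsg.Agent.S5077.result 2 hS F).mp hF
  intro g hg
  obtain ⟨z, hz, φ, hφ, hφg⟩ := h g hg
  have hzS : z ∈ S := hz.1
  have hzc : ∀ s ∈ S, s * z = z * s := fun s hs => Subgroup.mem_centralizer_iff.mp hz.2 s hs
  refine ⟨z, hzS, hzc, ?_⟩
  have hzzS : z * z ∈ S := S.mul_mem hzS hzS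
  have hzzc : ∀ s ∈ S, s * (z * z) = (z * z) * s := by
    intro s hs
    rw [← mul_assoc, hzc s hs, mul_assoc, hzc s hs, mul_assoc]
  have hrec : F.IsReceptive (Subgroup.zpowers (z * z)) :=
    hax2 _ (fullyCentralized_zpowers_central F hzzS hzzc)
  have hle : Subgroup.zpowers (g * g) ≤ Subgroup.zpowers g :=
    (Subgroup.zpowers_le).2 (Subgroup.mul_mem _ (Subgroup.mem_zpowers g) (Subgroup.mem_zpowers g))
  have hφ' : φ.comp (Subgroup.inclusion hle) ∈ F.Hom (Subgroup.zpowers (g * g)) :=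
    restrict_mem F hφ hle
  have hval : (φ.comp (Subgroup.inclusion hle)) ⟨g * g, Subgroup.mem_zpowers (g * g)⟩ = z * z := by
    have h1 : (Subgroup.inclusion hle ⟨g * g, Subgroup.mem_zpowers (g * g)⟩ : Subgroup.zpowers g) =
        ⟨g, Subgroup.mem_zpowers g⟩ * ⟨g, Subgroup.mem_zpowers g⟩ := Subtype.ext rfl
    rw [MonoidHom.comp_apply, h1, map_mul, hφg]
  have hrange : (φ.comp (Subgroup.inclusion hle)).range = Subgroup.zpowers (z * z) := by
    rw [range_zpowers, hval]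
  obtain ⟨ψ, hψ, hψext⟩ := hrec.2 _ _ hφ' hrange
  have hCE : ∀ a, a ∈ S → a * (g * g) = (g * g) * a →
      a ∈ extender S (Subgroup.zpowers (g * g)) (φ.comp (Subgroup.inclusion hle)) := by
    intro a ha hc
    apply centralizerIn_le_extender
    refine ⟨ha, ?_⟩
    show a ∈ Subgroup.centralizer (Subgroup.zpowers (g * g) : Set Ω)
    rw [Subgroup.mem_centralizer_iff]
    intro y hy
    obtain ⟨k, rfl⟩ := Subgroup.mem_zpowers_iff.mp hy
    have hcomm : Commute a (g * g) := hc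
    exact (hcomm.zpow_right k).eq.symm
  refine ⟨fun a => if ha : a ∈ extender S (Subgroup.zpowers (g * g))
      (φ.comp (Subgroup.inclusion hle)) then ψ ⟨a, ha⟩ else 1, ?_, ?_, ?_, ?_⟩
  · intro a b ha hb hca hcb
    have haE := hCE a ha hca
    have hbE := hCE b hb hcb
    have habE := Subgroup.mul_mem _ haE hbE
    simp only [dif_pos haE, dif_pos hbE, dif_pos habE]
    rw [← map_mul]
    rfl
  · intro a b ha hb hca hcb hab
    have haE := hCE a ha hca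
    have hbE := hCE b hb hcb
    simp only [dif_pos haE, dif_pos hbE] at hab
    exact congrArg Subtype.val (F.injective_of_mem hψ hab)
  · intro a ha hca
    have haE := hCE a ha hca
    simp only [dif_pos haE]
    exact hom_mem F hψ _
  · have hggE := hCE (g * g) (S.mul_mem hg hg) rfl
    simp only [dif_pos hggE]
    rw [hψext (g * g) (Subgroup.mem_zpowers (g * g)) hggE, hval]

/-- Let F be a saturated fusion system over a finite 2-group S. Suppose that every element of S is F-conjugate to an element of the centre Z(S) (some map of F defined on the cyclic subgroup it generates sends it into Z(S)). Then S is abelian. -/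
theorem result {Ω : Type*} [Group Ω] {S : Subgroup Ω} [Finite S] (hS : IsPGroup 2 ↥S) (F : Cfsg.FusionSystem S) (hF : F.IsSaturated 2) (h : ∀ x ∈ S, ∃ z ∈ S ⊓ Subgroup.centralizer (S : Set Ω), F.IsConjElt x z) : IsMulCommutative ↥S := by
  have hc := core S hS (d1 hS F hF h) (d2 hS F hF h)
  exact ⟨⟨fun a b => Subtype.ext (hc a a.2 b b.2)⟩⟩

end Cfsg.Agent.S5274
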