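import Cfsg.Statements.S5290
import Cfsg.Agent.Lib.Helper27.InnerSys
import Cfsg.Agent.S5106

set_option autoImplicit false
open Cfsg
open Cfsg.Agent.Lib.Helper27 Cfsg.FusionSystem Cfsg.Agent.Lib.Helper26

namespace Cfsg.Agent.S5290

/-- Let F be a saturated fusion system over a finite p-group S and Q a subgroup of S. Then Q is normal in F (F = N_F(Q)) if and only if the inner fusion system of Q, consisting of the conjugations by elements of Q on subgroups of Q, is a weakly normal subsystem of F (both saturated, Q strongly closed, invariant under F-conjugation, with the Frattini property). -/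
theorem result {Ω : Type*} [Group Ω] {S : Subgroup Ω} [Finite S] (p : ℕ) [Fact p.Prime] (hS : IsPGroup p S)
    (F : Cfsg.FusionSystem S) (hF : F.IsSaturated p)
    (Q : Subgroup Ω) (hQ : Q ≤ S) :
    F.IsNormal Q ↔ (Cfsg.innerFusionSystem Q).IsWeaklyNormalIn F p := by
  constructor
  · intro hN
    have hQfin : Finite Q := finite_of_le hQ
    have hcrit := (Cfsg.Agent.S5106.result p hS F hF Q hQ).1 hN
    refine ⟨innerFS_saturated (hS.to_le hQ), hF, innerFS_subsystem F hQ,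
      stronglyClosed_of_isNormal F hN, ?_, ?_⟩
    · rintro P hPQ φ ⟨-, g, hg, h⟩ α hα
      refine ⟨conjHom _ ((α ⟨g, hg⟩ : Q) : Ω), ⟨?_, _, (α ⟨g, hg⟩).2, fun x => rfl⟩, ?_⟩
      · rintro _ ⟨y, -, rfl⟩
        exact (α y).2
      · intro x hφx hαx
        show ((α ⟨g, hg⟩ : Q) : Ω) * ((α ⟨x, hPQ x.2⟩ : Q) : Ω) * ((α ⟨g, hg⟩ : Q) : Ω)⁻¹ =
          ((α ⟨φ x, hφx⟩ : Q) : Ω)
        have h1 : (⟨φ x, hφx⟩ : Q) = ⟨g, hg⟩ * ⟨x, hPQ x.2⟩ * (⟨g, hg⟩ : Q)⁻¹ :=
          Subtype.ext (h x)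
        rw [h1, map_mul, map_mul, map_inv]
        rfl
    · intro P hPQ φ hφ
      obtain ⟨α, hα, hαφ⟩ := hcrit P hPQ φ hφ
      refine ⟨α, hα, P.subtype, ⟨hPQ, 1, Q.one_mem, fun x => ?_⟩, fun x hx => ?_⟩
      · show (x : Ω) = 1 * (x : Ω) * 1⁻¹
        group
      · rw [← hαφ x]
        rfl
  · rintro ⟨-, -, hsub, hsc, hinv, hfrat⟩
    rw [Cfsg.Agent.S5106.result p hS F hF Q hQ]
    intro P hPQ φ hφ
    obtain ⟨α, hα, φ₀, ⟨-, g, hg, h⟩, hval⟩ := hfrat P hPQ φ hφ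
    have hcg : MulAut.conj (⟨g, hg⟩ : Q) ∈ F.autGroup Q :=
      Fusion.autInducedBy_le_autGroup F hQ (Subgroup.subset_closure ⟨g, hQ hg, fun x => rfl⟩)
    refine ⟨α * MulAut.conj (⟨g, hg⟩ : Q), (F.autGroup Q).mul_mem hα hcg, fun x => ?_⟩
    have hx : φ₀ x ∈ Q := by
      rw [h x]
      exact Q.mul_mem (Q.mul_mem hg (hPQ x.2)) (Q.inv_mem hg)
    rw [hval x hx]
    show ((α (MulAut.conj (⟨g, hg⟩ : Q) (Subgroup.inclusion hPQ x)) : Q) : Ω) = _
    congr 2
    apply Subtype.ext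
    show g * (x : Ω) * g⁻¹ = φ₀ x
    rw [h x]

end Cfsg.Agent.S5290
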