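import Cfsg.Statements.S5291
import Cfsg.Agent.Lib.Helper27.WeakNormal

set_option autoImplicit false
open Cfsg
open Cfsg.Agent.Lib.Helper27 Cfsg.FusionSystem Cfsg.Agent.Lib.Helper26

namespace Cfsg.Agent.S5291

/-- Let F be a saturated fusion system over a finite p-group S and E a weakly normal subsystem of F over a subgroup T. Suppose a subgroup R of T is normal in E (E = N_E(R)), and let R* be the subgroup of T generated by the images of R under all maps of F with source R. Then R* is normal in F (F = N_F(R*)). -/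
theorem result {Ω : Type*} [Group Ω] {S : Subgroup Ω} [Finite S] (p : ℕ) [Fact p.Prime] (hS : IsPGroup p S)
    (F : Cfsg.FusionSystem S) (hF : F.IsSaturated p)
    {T : Subgroup Ω} (E : Cfsg.FusionSystem T) (hE : E.IsWeaklyNormalIn F p)
    (R : Subgroup Ω) (hR : E.IsNormal R) :
    F.IsNormal (Subgroup.closure {x : Ω | ∃ φ ∈ F.Hom R, ∃ r : R, x = φ r}) := by
  have hE' := hE
  obtain ⟨hEsat, -, hsub, hsc, hinv, hfrat⟩ := hE
  have hTS : T ≤ S := hsc.1
  have hTfin : Finite T := finite_of_le hTS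
  have hRT : R ≤ T := hR.1
  have hEq : Subgroup.closure {x : Ω | ∃ φ ∈ F.Hom R, ∃ r : R, x = φ r} =
      sSup {Q : Subgroup Ω | ∃ α ∈ F.autGroup T,
        Q = (R.subgroupOf T).map (T.subtype.comp α.toMonoidHom)} := by
    apply le_antisymm
    · rw [Subgroup.closure_le]
      rintro _ ⟨φ, hφ, r, rfl⟩
      obtain ⟨α, hα, φ₀, hφ₀, hval⟩ := hfrat R hRT φ hφ
      have hsR := stronglyClosed_of_isNormal E hR
      have h0 : φ₀ r ∈ R := hsR.2 R le_rfl φ₀ hφ₀ r
      have hle : (R.subgroupOf T).map (T.subtype.comp α.toMonoidHom) ≤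
          sSup {Q : Subgroup Ω | ∃ α ∈ F.autGroup T,
            Q = (R.subgroupOf T).map (T.subtype.comp α.toMonoidHom)} :=
        le_sSup ⟨α, hα, rfl⟩
      apply hle
      show φ r ∈ _
      rw [hval r (hRT h0)]
      exact ⟨⟨φ₀ r, hRT h0⟩, Subgroup.mem_subgroupOf.mpr h0, rfl⟩
    · apply sSup_le
      rintro _ ⟨α, hα, rfl⟩
      rintro _ ⟨y, hy, rfl⟩
      apply Subgroup.subset_closure
      have hα' := (Fusion.mem_autGroup_iff F hTS).1 hα
      exact ⟨_, Fusion.restrict_mem F hα' hRT, ⟨y, Subgroup.mem_subgroupOf.mp hy⟩, rfl⟩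
  rw [hEq]
  have hN : E.IsNormal (sSup {Q : Subgroup Ω | ∃ α ∈ F.autGroup T,
        Q = (R.subgroupOf T).map (T.subtype.comp α.toMonoidHom)}) := by
    refine isNormal_sSup E _ ⟨(R.subgroupOf T).map (T.subtype.comp (1 : MulAut T).toMonoidHom),
      1, one_mem _, rfl⟩ ?_
    rintro _ ⟨α, hα, rfl⟩
    exact isNormal_image_of_invariant p hS F E hE' hR hα
  apply isNormal_of_isNormal_of_invariant p hS F hF E hE' hN
  intro α hα x hx
  have hK : sSup {Q : Subgroup Ω | ∃ α ∈ F.autGroup T,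
        Q = (R.subgroupOf T).map (T.subtype.comp α.toMonoidHom)} ≤
      (((sSup {Q : Subgroup Ω | ∃ α ∈ F.autGroup T,
        Q = (R.subgroupOf T).map (T.subtype.comp α.toMonoidHom)}).subgroupOf T).comap
          α.toMonoidHom).map T.subtype := by
    apply sSup_le
    rintro _ ⟨β, hβ, rfl⟩
    rintro _ ⟨y, hy, rfl⟩
    refine ⟨β y, ?_, rfl⟩
    show ((α (β y) : T) : Ω) ∈ sSup {Q : Subgroup Ω | ∃ α ∈ F.autGroup T,
          Q = (R.subgroupOf T).map (T.subtype.comp α.toMonoidHom)}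
    have hle : (R.subgroupOf T).map (T.subtype.comp (α * β).toMonoidHom) ≤
        sSup {Q : Subgroup Ω | ∃ α ∈ F.autGroup T,
          Q = (R.subgroupOf T).map (T.subtype.comp α.toMonoidHom)} :=
      le_sSup ⟨α * β, (F.autGroup T).mul_mem hα hβ, rfl⟩
    exact hle ⟨y, hy, rfl⟩
  obtain ⟨w, hw, hwx⟩ := hK hx
  have e : w = x := Subtype.ext hwx
  rw [← e]
  exact Subgroup.mem_subgroupOf.mp hw

end Cfsg.Agent.S5291
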