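import Cfsg.Statements.S5395

set_option autoImplicit false
open Cfsg

namespace Cfsg.Agent.S5395

open scoped IsMulCommutative commutatorElement

/-- For a finite extraspecial 2-group E, an automorphism of E that induces the identity on E modulo its centre is inner (so these automorphisms form exactly the inner automorphism group, an elementary abelian 2-group of order |E|/2). -/
theorem result {E : Type*} [Group E] [Finite E] (hE : Cfsg.IsExtraspecial 2 E) (φ : E ≃* E) (hφ : ∀ x : E, φ x * x⁻¹ ∈ Subgroup.center E) : ∃ g : E, ∀ x : E, φ x = g * x * g⁻¹ := by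
  classical
  obtain ⟨⟨hp, hfrat, hcomm⟩, hcard⟩ := hE
  have hcen : ∀ c : E, c ∈ Subgroup.center E → ∀ x, c * x = x * c :=
    fun c hc x => (Subgroup.mem_center_iff.mp hc x).symm
  have hcg : ∀ g x : E, g * x * g⁻¹ * x⁻¹ ∈ Subgroup.center E := by
    intro g x
    rw [← hcomm]
    have : g * x * g⁻¹ * x⁻¹ = ⁅g, x⁆ := rfl
    rw [this]
    exact Subgroup.commutator_mem_commutator (Subgroup.mem_top _) (Subgroup.mem_top _)
  let cg : E → (E →* ↥(Subgroup.center E)) := fun g =>
    { toFun := fun x => ⟨g * x * g⁻¹ * x⁻¹, hcg g x⟩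
      map_one' := by
        apply Subtype.ext
        show g * 1 * g⁻¹ * 1⁻¹ = 1
        group
      map_mul' := by
        intro x y
        apply Subtype.ext
        show g * (x * y) * g⁻¹ * (x * y)⁻¹ = (g * x * g⁻¹ * x⁻¹) * (g * y * g⁻¹ * y⁻¹)
        have h := hcen _ (hcg g y) x⁻¹
        calc g * (x * y) * g⁻¹ * (x * y)⁻¹ = g * x * g⁻¹ * ((g * y * g⁻¹ * y⁻¹) * x⁻¹) := by group
          _ = g * x * g⁻¹ * (x⁻¹ * (g * y * g⁻¹ * y⁻¹)) := by rw [h]
          _ = (g * x * g⁻¹ * x⁻¹) * (g * y * g⁻¹ * y⁻¹) := by group }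
  have hcg_apply : ∀ g x : E, ((cg g x : ↥(Subgroup.center E)) : E) = g * x * g⁻¹ * x⁻¹ :=
    fun g x => rfl
  let c : E →* (E →* ↥(Subgroup.center E)) :=
    { toFun := cg
      map_one' := by
        apply MonoidHom.ext
        intro x
        apply Subtype.ext
        rw [hcg_apply]
        show 1 * x * 1⁻¹ * x⁻¹ = 1
        group
      map_mul' := by
        intro g h
        apply MonoidHom.ext
        intro x
        apply Subtype.ext
        rw [hcg_apply, MonoidHom.mul_apply, Subgroup.coe_mul, hcg_apply, hcg_apply]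
        have e1 := hcen _ (hcg h x) g
        have e2 := hcen _ (hcg h x) (g * x * g⁻¹ * x⁻¹)
        calc g * h * x * (g * h)⁻¹ * x⁻¹ = g * (h * x * h⁻¹ * x⁻¹) * (x * g⁻¹ * x⁻¹) := by group
          _ = (h * x * h⁻¹ * x⁻¹) * g * (x * g⁻¹ * x⁻¹) := by rw [e1]
          _ = (h * x * h⁻¹ * x⁻¹) * (g * x * g⁻¹ * x⁻¹) := by group
          _ = (g * x * g⁻¹ * x⁻¹) * (h * x * h⁻¹ * x⁻¹) := e2 }
  have hc_apply : ∀ g x : E, ((c g x : ↥(Subgroup.center E)) : E) = g * x * g⁻¹ * x⁻¹ :=
    fun g x => rfl
  have hker : c.ker = Subgroup.center E := by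
    ext g
    rw [MonoidHom.mem_ker, Subgroup.mem_center_iff]
    constructor
    · intro h x
      have h1 : ((c g x : ↥(Subgroup.center E)) : E) = 1 := by rw [h]; rfl
      rw [hc_apply] at h1
      calc x * g = (g * x * g⁻¹ * x⁻¹)⁻¹ * (g * x) := by group
        _ = g * x := by rw [h1]; group
    · intro h
      apply MonoidHom.ext
      intro x
      apply Subtype.ext
      rw [hc_apply]
      show g * x * g⁻¹ * x⁻¹ = 1
      rw [← h x]
      group
  have hcard1 : Nat.card E = 2 * Nat.card ↥c.range := by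
    have h1 := Subgroup.card_mul_index c.ker
    have h2 : Nat.card ↥c.ker = 2 := by rw [hker]; exact hcard
    rw [h2, Subgroup.index_ker] at h1
    omega
  -- a faithful character of the centre
  haveI : Nontrivial ↥(Subgroup.center E) :=
    (Finite.one_lt_card_iff_nontrivial).mp (by rw [hcard]; norm_num)
  obtain ⟨z, hz⟩ := exists_ne (1 : ↥(Subgroup.center E))
  haveI := Fintype.ofFinite ↥(Subgroup.center E)
  have hall : ∀ a : ↥(Subgroup.center E), a = 1 ∨ a = z := by
    intro a
    by_contra hcon
    push Not at hcon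
    have h3 : 3 ≤ Nat.card ↥(Subgroup.center E) := by
      rw [Nat.card_eq_fintype_card]
      have : ({1, z, a} : Finset ↥(Subgroup.center E)).card = 3 := by
        rw [Finset.card_insert_of_notMem, Finset.card_insert_of_notMem, Finset.card_singleton]
        · simp [hcon.2.symm]
        · simp [hz.symm, hcon.1.symm]
      rw [← this]
      exact Finset.card_le_univ _
    rw [hcard] at h3
    omega
  obtain ⟨ι, hι⟩ := CommGroup.exists_apply_ne_one_of_hasEnoughRootsOfUnity
    ↥(Subgroup.center E) ℂ hz
  have hιinj : Function.Injective ι := by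
    rw [injective_iff_map_eq_one]
    intro a ha
    rcases hall a with h | h
    · exact h
    · rw [h] at ha
      exact absurd ha hι
  let Θ : (E →* ↥(Subgroup.center E)) → (Abelianization E →* ℂˣ) :=
    fun χ => Abelianization.lift (ι.comp χ)
  have hΘ : Function.Injective Θ := by
    intro χ χ' h
    have h1 : ι.comp χ = ι.comp χ' := Abelianization.lift.injective h
    apply MonoidHom.ext
    intro x
    apply hιinj
    have := DFunLike.congr_fun h1 x
    exact this
  have hcardAb : Nat.card (Abelianization E →* ℂˣ) = Nat.card (Abelianization E) :=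
    CommGroup.card_monoidHom_of_hasEnoughRootsOfUnity (Abelianization E) ℂ
  have hAb : Nat.card E = Nat.card (Abelianization E) * 2 := by
    have h1 := Subgroup.card_mul_index (commutator E)
    rw [hcomm, hcard] at h1
    have h2 : (Subgroup.center E).index = Nat.card (Abelianization E) := by
      rw [← hcomm]
      rfl
    rw [h2] at h1
    omega
  haveI : Finite (Abelianization E →* ℂˣ) := by
    apply Nat.finite_of_card_ne_zero
    rw [hcardAb]
    exact Nat.card_pos.ne'
  have hT : Nat.card (E →* ↥(Subgroup.center E)) ≤ Nat.card (Abelianization E) := by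
    rw [← hcardAb]
    exact Nat.card_le_card_of_injective Θ hΘ
  haveI : Finite (E →* ↥(Subgroup.center E)) := Finite.of_injective Θ hΘ
  have htop : c.range = ⊤ := by
    apply Subgroup.eq_top_of_le_card
    omega
  let dφ : E →* ↥(Subgroup.center E) :=
    { toFun := fun x => ⟨φ x * x⁻¹, hφ x⟩
      map_one' := by
        apply Subtype.ext
        show φ 1 * 1⁻¹ = 1
        rw [map_one]
        group
      map_mul' := by
        intro x y
        apply Subtype.ext
        show φ (x * y) * (x * y)⁻¹ = (φ x * x⁻¹) * (φ y * y⁻¹)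
        have h := hcen _ (hφ y) x⁻¹
        rw [map_mul]
        calc φ x * φ y * (x * y)⁻¹ = φ x * ((φ y * y⁻¹) * x⁻¹) := by group
          _ = φ x * (x⁻¹ * (φ y * y⁻¹)) := by rw [h]
          _ = (φ x * x⁻¹) * (φ y * y⁻¹) := by group }
  have hd : dφ ∈ c.range := by
    rw [htop]
    exact Subgroup.mem_top _
  obtain ⟨g, hg⟩ := hd
  refine ⟨g, fun x => ?_⟩
  have h1 : ((c g x : ↥(Subgroup.center E)) : E) = ((dφ x : ↥(Subgroup.center E)) : E) := by
    rw [hg]
  rw [hc_apply] at h1
  have h2 : ((dφ x : ↥(Subgroup.center E)) : E) = φ x * x⁻¹ := rfl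
  rw [h2] at h1
  calc φ x = (φ x * x⁻¹) * x := by group
    _ = (g * x * g⁻¹ * x⁻¹) * x := by rw [h1]
    _ = g * x * g⁻¹ := by group
end Cfsg.Agent.S5395
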