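import Cfsg.Statements.S5600
import Cfsg.Agent.Lib.Helper28.M24Six

set_option autoImplicit false
open scoped Pointwise
open Cfsg

namespace Cfsg.Agent.S5600

/-- Although the group of the length-24 code is only 5-transitive on the 24 points, it induces the full symmetric group on every 6-element subset: every permutation of a 6-set E is the restriction of an element of the group mapping E to itself. The pointwise stabiliser of E has order 16 when E lies in an octad and order 3 otherwise; in the latter case the setwise stabiliser of E has order 2160. -/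
theorem result (E : Finset Cfsg.GolayPt) (hE : E.card = 6) : (∀ σ : Equiv.Perm ↥E, ∃ g ∈ Cfsg.M24, ∀ p : ↥E, g p = σ p) ∧ ((∃ o ∈ Cfsg.octads, E ⊆ o) → Nat.card {g : Equiv.Perm Cfsg.GolayPt // g ∈ Cfsg.M24 ∧ ∀ p ∈ E, g p = p} = 16) ∧ ((¬ ∃ o ∈ Cfsg.octads, E ⊆ o) → Nat.card {g : Equiv.Perm Cfsg.GolayPt // g ∈ Cfsg.M24 ∧ ∀ p ∈ E, g p = p} = 3 ∧ Nat.card ↥(MulAction.stabilizer Cfsg.M24 E) = 2160) := by
  classical
  obtain ⟨c, hc⟩ : ∃ c : ℕ, (c = 7 ∧ ∃ o ∈ Cfsg.octads, E ⊆ o) ∨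
      (c = 5 ∧ ¬ ∃ o ∈ Cfsg.octads, E ⊆ o) := by
    by_cases h : ∃ o ∈ Cfsg.octads, E ⊆ o
    · exact ⟨7, Or.inl ⟨rfl, h⟩⟩
    · exact ⟨5, Or.inr ⟨rfl, h⟩⟩
  obtain ⟨e, -⟩ : ∃ e : ↥E ≃ Fin 6, True := ⟨E.equivFinOfCardEq hE, trivial⟩
  have hstd : ∀ τ : Equiv.Perm ↥E, ∃ h ∈ Cfsg.M24, ∀ i : Fin 6,
      h ((τ (e.symm i) : ↥E) : Cfsg.GolayPt)
        = Cfsg.Agent.Lib.Helper4.Golay.pt (if i.val < 5 then i.val else c) := by
    intro τ
    have hinj : Function.Injective (fun i : Fin 6 => ((τ (e.symm i) : ↥E) : Cfsg.GolayPt)) := by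
      intro i j hij
      have h1 : τ (e.symm i) = τ (e.symm j) := Subtype.ext hij
      exact e.symm.injective (τ.injective h1)
    have hiff : (∃ o ∈ Cfsg.octads, ∀ i : Fin 6, ((τ (e.symm i) : ↥E) : Cfsg.GolayPt) ∈ o) ↔
        ∃ o ∈ Cfsg.octads, E ⊆ o := by
      constructor
      · rintro ⟨o, ho, h⟩
        refine ⟨o, ho, fun q hq => ?_⟩
        have := h (e (τ⁻¹ ⟨q, hq⟩))
        simpa using this
      · rintro ⟨o, ho, h⟩
        exact ⟨o, ho, fun i => h (τ (e.symm i)).2⟩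
    apply Cfsg.Agent.Lib.Helper28.six_std _ hinj c
    rw [hiff]
    exact hc
  have hperm : ∀ σ : Equiv.Perm ↥E, ∃ g ∈ Cfsg.M24, ∀ p : ↥E, g p = σ p := by
    intro σ
    obtain ⟨h, hh, hmap⟩ := hstd 1
    obtain ⟨h', hh', hmap'⟩ := hstd σ
    refine ⟨h'⁻¹ * h, Subgroup.mul_mem _ (Subgroup.inv_mem _ hh') hh, ?_⟩
    intro p
    have h1 := hmap (e p)
    have h2 := hmap' (e p)
    rw [Equiv.symm_apply_apply] at h1 h2
    rw [Equiv.Perm.mul_apply, Equiv.Perm.inv_eq_iff_eq]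
    rw [h2]
    exact h1
  obtain ⟨h, hh, hmap⟩ := hstd 1
  have hEa : ∀ q, q ∈ E ↔ ∃ i : Fin 6, ((e.symm i : ↥E) : Cfsg.GolayPt) = q := by
    intro q
    constructor
    · intro hq
      exact ⟨e ⟨q, hq⟩, by simp⟩
    · rintro ⟨i, rfl⟩
      exact (e.symm i).2
  have hcard := Cfsg.Agent.Lib.Helper28.fix6_equiv E
    (fun i : Fin 6 => ((e.symm i : ↥E) : Cfsg.GolayPt)) hEa c h hh hmap
  refine ⟨hperm, ?_, ?_⟩
  · intro hoct
    rcases hc with ⟨hc7, -⟩ | ⟨-, hno⟩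
    · rw [hcard, hc7]
      exact Cfsg.Agent.Lib.Helper28.card_KK57
    · exact absurd hoct hno
  · intro hno
    rcases hc with ⟨-, hoct⟩ | ⟨hc5, -⟩
    · exact absurd hoct hno
    · have h3 : Nat.card {g : Equiv.Perm Cfsg.GolayPt // g ∈ Cfsg.M24 ∧ ∀ p ∈ E, g p = p} = 3 := by
        rw [hcard, hc5]
        exact Cfsg.Agent.Lib.Helper4.Golay.card_KK6
      refine ⟨h3, ?_⟩
      rw [Cfsg.Agent.Lib.Helper28.stab_card_of_surj E hperm, h3, hE]
      rfl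
end Cfsg.Agent.S5600
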