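import Cfsg.Statements.S5521
import Cfsg.Agent.Lib.Helper28.M24Six
import Cfsg.Agent.S5600

set_option autoImplicit false
open Cfsg

namespace Cfsg.Agent.S5521

open Cfsg.Agent.Lib.Helper4.Golay

/-- The Mathieu group M₂₄ in its natural action on the 24 coordinate positions of the binary Golay code has minimal base size exactly 7: every set of at most 6 positions is fixed pointwise by some non-identity element of M₂₄, while some set of 7 positions is fixed pointwise only by the identity. -/
theorem result :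
    (∀ B : Finset Cfsg.GolayPt, B.card ≤ 6 → ∃ g ∈ Cfsg.M24, g ≠ 1 ∧ ∀ b ∈ B, g b = b) ∧
    (∃ B : Finset Cfsg.GolayPt, B.card = 7 ∧ ∀ g ∈ Cfsg.M24, (∀ b ∈ B, g b = b) → g = 1) := by
  classical
  constructor
  · intro B hB
    have hcard : 6 ≤ Fintype.card Cfsg.GolayPt := by
      rw [show Fintype.card Cfsg.GolayPt = 24 from by decide]
      norm_num
    obtain ⟨E, hBE, hE⟩ := Finset.exists_superset_card_eq hB hcard
    obtain ⟨-, h16, h3⟩ := Cfsg.Agent.S5600.result E hE
    have key : 1 < Nat.card {g : Equiv.Perm Cfsg.GolayPt // g ∈ Cfsg.M24 ∧ ∀ p ∈ E, g p = p} := by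
      by_cases ho : ∃ o ∈ Cfsg.octads, E ⊆ o
      · rw [h16 ho]; norm_num
      · rw [(h3 ho).1]; norm_num
    haveI := (Finite.one_lt_card_iff_nontrivial).mp key
    obtain ⟨⟨g, hg, hfix⟩, hne⟩ := exists_ne (⟨1, Subgroup.one_mem _, fun p _ => rfl⟩ :
      {g : Equiv.Perm Cfsg.GolayPt // g ∈ Cfsg.M24 ∧ ∀ p ∈ E, g p = p})
    refine ⟨g, hg, ?_, fun b hb => hfix b (hBE hb)⟩
    intro h
    apply hne
    exact Subtype.ext h
  · refine ⟨([7, 5, 4, 3, 2, 1, 0].map pt).toFinset, ?_, ?_⟩
    · rw [List.toFinset_card_of_nodup]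
      · rfl
      · apply List.Nodup.map_on
        · intro x hx y hy hxy
          simp only [List.mem_cons, List.not_mem_nil, or_false] at hx hy
          exact pt_inj (by omega) (by omega) hxy
        · decide
    · intro g hg hfix
      have h1 : g ∈ KK [7, 5, 4, 3, 2, 1, 0] := by
        rw [mem_KK]
        refine ⟨hg, fun f hf => hfix _ ?_⟩
        rw [List.mem_toFinset]
        exact List.mem_map_of_mem hf
      rw [KK7] at h1
      exact Subgroup.mem_bot.mp h1
end Cfsg.Agent.S5521
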