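import Cfsg.Statements.S5562

set_option autoImplicit false
open Cfsg

namespace Cfsg.Agent.S5562

/-- Let G be a finite group, d an involution of G whose conjugates pairwise have products of odd order, and x any involution of G. Then the conjugacy class of d is the disjoint union, over the conjugates a of d commuting with x, of the sets of conjugates of d commuting with ax: every conjugate of d commutes with ax for exactly one conjugate a of d that commutes with x. -/
theorem result {G : Type*} [Group G] [Finite G] (d : G) (hd : orderOf d = 2)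
    (hodd : ∀ a ∈ conjugatesOf d, ∀ b ∈ conjugatesOf d, Odd (orderOf (a * b)))
    (x : G) (hx : orderOf x = 2) :
    ∀ e ∈ conjugatesOf d,
      ∃! a : G, a ∈ conjugatesOf d ∧ Commute a x ∧ Commute e (a * x) := by
  classical
  intro e he
  have hdd : d * d = 1 := by rw [← pow_two, ← hd, pow_orderOf_eq_one]
  have hxx : x * x = 1 := by rw [← pow_two, ← hx, pow_orderOf_eq_one]
  have hxinv : x⁻¹ = x := inv_eq_of_mul_eq_one_left hxx
  -- basic facts on the class D of d
  have hsq : ∀ a ∈ conjugatesOf d, a * a = 1 := by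
    intro a ha
    have ha' : IsConj d a := ha
    obtain ⟨c, rfl⟩ := isConj_iff.mp ha'
    calc c * d * c⁻¹ * (c * d * c⁻¹) = c * (d * d) * c⁻¹ := by group
      _ = 1 := by rw [hdd]; group
  have hinv' : ∀ a ∈ conjugatesOf d, a⁻¹ = a := fun a ha => inv_eq_of_mul_eq_one_left (hsq a ha)
  have hconj : ∀ g : G, ∀ a ∈ conjugatesOf d, g * a * g⁻¹ ∈ conjugatesOf d := by
    intro g a ha
    have ha' : IsConj d a := ha
    exact ha'.trans (isConj_iff.mpr ⟨g, rfl⟩)
  -- odd order and square one force triviality
  have htriv : ∀ u : G, Odd (orderOf u) → u * u = 1 → u = 1 := by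
    intro u hu hu2
    have e2 : orderOf u ∣ 2 := orderOf_dvd_of_pow_eq_one (by rw [pow_two]; exact hu2)
    have e3 : orderOf u = 1 := by
      rcases (Nat.dvd_prime Nat.prime_two).mp e2 with h1 | h1
      · exact h1
      · exfalso
        rw [h1] at hu
        exact (by decide : ¬ Odd 2) hu
    exact orderOf_eq_one_iff.mp e3
  have hee : e * e = 1 := hsq e he
  have heinv : e⁻¹ = e := hinv' e he
  set r := e * x with hr
  have hrinv : r⁻¹ = x * e := by rw [hr, mul_inv_rev, hxinv, heinv]
  have her : ∀ j : ℕ, e * r ^ j = (r ^ j)⁻¹ * e := by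
    intro j
    have h1 : e * r * e⁻¹ = r⁻¹ := by
      rw [hrinv, hr, heinv]
      calc e * (e * x) * e = (e * e) * x * e := by simp only [mul_assoc]
        _ = x * e := by rw [hee]; simp
    have h2 : e * r ^ j * e⁻¹ = (r ^ j)⁻¹ := by
      rw [← conj_pow, h1, inv_pow]
    calc e * r ^ j = (e * r ^ j * e⁻¹) * e := by group
      _ = (r ^ j)⁻¹ * e := by rw [h2]
  have hxr : ∀ j : ℕ, x * r ^ j = (r ^ j)⁻¹ * x := by
    intro j
    have h1 : x * r * x⁻¹ = r⁻¹ := by
      rw [hrinv, hr]
      simp only [mul_assoc, mul_inv_cancel, mul_one]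
    have h2 : x * r ^ j * x⁻¹ = (r ^ j)⁻¹ := by
      rw [← conj_pow, h1, inv_pow]
    calc x * r ^ j = (x * r ^ j * x⁻¹) * x := by group
      _ = (r ^ j)⁻¹ * x := by rw [h2]
  have hxer : x = e * r := by
    rw [hr, ← mul_assoc, hee, one_mul]
  have hpos : 0 < orderOf r := orderOf_pos r
  rcases Nat.even_or_odd (orderOf r) with ⟨k, hk⟩ | ⟨j, hj⟩
  · -- even order 2k
    have hk1 : 1 ≤ k := by omega
    set w := r ^ k with hw
    have hw1 : w ≠ 1 := by
      intro h1
      have := Nat.le_of_dvd (by omega) (orderOf_dvd_of_pow_eq_one h1)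
      omega
    have hw2 : w * w = 1 := by
      rw [hw, ← pow_add, ← hk]; exact pow_orderOf_eq_one _
    have hwinv : w⁻¹ = w := inv_eq_of_mul_eq_one_left hw2
    have hew : e * w = w * e := by rw [hw, her k, ← hw, hwinv]
    have hxw : x * w = w * x := by rw [hw, hxr k, ← hw, hwinv]
    -- k is odd
    have hkodd : Odd k := by
      rcases Nat.even_or_odd k with ⟨j, hj⟩ | h
      · exfalso
        have hD : e * w ∈ conjugatesOf d := by
          have : e * w = (r ^ j)⁻¹ * e * ((r ^ j)⁻¹)⁻¹ := by
            rw [hw, hj, pow_add, ← mul_assoc, her j, inv_inv]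
          rw [this]
          exact hconj _ e he
        have h1 := hodd e he (e * w) hD
        have h2 : e * (e * w) = w := by rw [← mul_assoc, hee, one_mul]
        rw [h2] at h1
        exact hw1 (htriv w h1 hw2)
      · exact h
    obtain ⟨j, hj⟩ := hkodd
    -- the witness
    set a₀ := e * r ^ (k + 1) with ha₀
    have ha₀D : a₀ ∈ conjugatesOf d := by
      have : a₀ = (r ^ (j + 1))⁻¹ * e * ((r ^ (j + 1))⁻¹)⁻¹ := by
        rw [ha₀, inv_inv]
        have e1 : k + 1 = (j + 1) + (j + 1) := by omega
        rw [e1, pow_add, ← mul_assoc, her (j + 1)]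
      rw [this]
      exact hconj _ e he
    have hrk : r ^ (k + 1) * r ^ k = r := by
      rw [← pow_add]
      have : k + 1 + k = orderOf r + 1 := by omega
      rw [this, pow_succ, pow_orderOf_eq_one, one_mul]
    have ha₀x : a₀ * x = w := by
      rw [ha₀, hxer]
      calc e * r ^ (k + 1) * (e * r) = (e * r ^ (k + 1)) * e * r := by simp only [mul_assoc]
        _ = (r ^ (k + 1))⁻¹ * e * e * r := by rw [her (k + 1)]
        _ = (r ^ (k + 1))⁻¹ * r := by
            rw [mul_assoc ((r ^ (k + 1))⁻¹) e e, hee, mul_one]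
        _ = (r ^ (k + 1))⁻¹ * (r ^ (k + 1) * r ^ k) := by rw [hrk]
        _ = r ^ k := by rw [inv_mul_cancel_left]
    have hxa₀ : x * a₀ = w := by
      rw [ha₀]
      calc x * (e * r ^ (k + 1)) = (x * e) * r ^ (k + 1) := by simp only [mul_assoc]
        _ = r⁻¹ * r ^ (k + 1) := by rw [hrinv]
        _ = r ^ k := by rw [pow_succ', inv_mul_cancel_left]
    refine ⟨a₀, ⟨ha₀D, ?_, ?_⟩, ?_⟩
    · show a₀ * x = x * a₀
      rw [ha₀x, hxa₀]
    · show e * (a₀ * x) = a₀ * x * e
      rw [ha₀x, hew]
    · rintro a ⟨haD, hax, hea⟩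
      have hax' : a * x = x * a := hax
      have hea' : e * (a * x) = a * x * e := hea
      obtain ⟨y, hy⟩ : ∃ y, y = a * x := ⟨_, rfl⟩
      rw [← hy] at hea'
      have hyx : y * x = x * y := by
        rw [hy, mul_assoc, ← mul_assoc x a x, ← hax', mul_assoc]
      have hye : y * e = e * y := hea'.symm
      have hyr : y * r = r * y := by
        rw [hr, ← mul_assoc, hye, mul_assoc, hyx, ← mul_assoc]
      have hyw : y * w = w * y := by
        have : Commute y r := hyr
        exact (this.pow_right k)
      have hyy : y * y = 1 := by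
        rw [hy]
        calc a * x * (a * x) = a * (x * a) * x := by simp only [mul_assoc]
          _ = a * (a * x) * x := by rw [hax']
          _ = (a * a) * (x * x) := by simp only [mul_assoc]
          _ = 1 := by rw [hsq a haD, hxx, one_mul]
      have ha_eq : a = y * x := by
        rw [hy, mul_assoc, hxx, mul_one]
      have ha₀_eq : a₀ = w * x := by
        rw [← ha₀x, mul_assoc, hxx, mul_one]
      have hprod : a * a₀ = y * w := by
        rw [ha_eq, ha₀_eq]
        calc y * x * (w * x) = y * (x * w) * x := by simp only [mul_assoc]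
          _ = y * (w * x) * x := by rw [hxw]
          _ = y * w * (x * x) := by simp only [mul_assoc]
          _ = y * w := by rw [hxx, mul_one]
      have hprod2 : (a * a₀) * (a * a₀) = 1 := by
        rw [hprod]
        calc y * w * (y * w) = y * (w * y) * w := by simp only [mul_assoc]
          _ = y * (y * w) * w := by rw [hyw]
          _ = (y * y) * (w * w) := by simp only [mul_assoc]
          _ = 1 := by rw [hyy, hw2, one_mul]
      have h1 := htriv (a * a₀) (hodd a haD a₀ ha₀D) hprod2
      have : a = a₀⁻¹ := eq_inv_of_mul_eq_one_left h1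
      rw [this, hinv' a₀ ha₀D]
  · -- odd order 2j+1: x lies in D
    have hxD : x ∈ conjugatesOf d := by
      have : x = r ^ j * e * (r ^ j)⁻¹ := by
        have e1 : (r ^ j)⁻¹ * e = e * r ^ j := (her j).symm
        have e2 : r ^ j * r ^ j * r = 1 := by
          rw [← pow_add, ← pow_succ]
          have : j + j + 1 = orderOf r := by omega
          rw [this, pow_orderOf_eq_one]
        have e3 : r ^ j * r ^ j = r⁻¹ := eq_inv_of_mul_eq_one_left e2
        have e4 : e * (r ^ j)⁻¹ = r ^ j * e := by
          have := her j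
          calc e * (r ^ j)⁻¹ = r ^ j * ((r ^ j)⁻¹ * e) * (r ^ j)⁻¹ := by group
            _ = r ^ j * (e * r ^ j) * (r ^ j)⁻¹ := by rw [e1]
            _ = r ^ j * e := by group
        calc x = x * e * e := by rw [mul_assoc, hee, mul_one]
          _ = r⁻¹ * e := by rw [hrinv]
          _ = r ^ j * r ^ j * e := by rw [e3]
          _ = r ^ j * (r ^ j * e) := by rw [mul_assoc]
          _ = r ^ j * (e * (r ^ j)⁻¹) := by rw [e4]
          _ = r ^ j * e * (r ^ j)⁻¹ := by rw [mul_assoc]
      rw [this]
      exact hconj _ e he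
    refine ⟨x, ⟨hxD, Commute.refl x, ?_⟩, ?_⟩
    · rw [hxx]; exact Commute.one_right e
    · rintro a ⟨haD, hax, _⟩
      have hax' : a * x = x * a := hax
      have h2 : (a * x) * (a * x) = 1 := by
        calc a * x * (a * x) = a * (x * a) * x := by simp only [mul_assoc]
          _ = a * (a * x) * x := by rw [hax']
          _ = (a * a) * (x * x) := by simp only [mul_assoc]
          _ = 1 := by rw [hsq a haD, hxx, one_mul]
      have h1 := htriv (a * x) (hodd a haD x hxD) h2
      have : a = x⁻¹ := eq_inv_of_mul_eq_one_left h1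
      rw [this, hxinv]
end Cfsg.Agent.S5562
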