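import Cfsg.Statements.S5596
import Cfsg.Agent.Lib.Helper28.LargeES
import Cfsg.Agent.Lib.Helper28.LargeES2
import Cfsg.Agent.Lib.Helper28.DoubleCent

set_option autoImplicit false
open Cfsg

namespace Cfsg.Agent.S5596

/-- Conjugation by an element normalizing `U`, as an automorphism of `U`. -/
def conjU {G : Type*} [Group G] (U : Subgroup G) (q : G) (h1 : ∀ a ∈ U, q * a * q⁻¹ ∈ U)
    (h2 : ∀ a ∈ U, q⁻¹ * a * q ∈ U) : ↥U ≃* ↥U where
  toFun a := ⟨q * a * q⁻¹, h1 a a.2⟩
  invFun a := ⟨q⁻¹ * a * q, h2 a a.2⟩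
  left_inv a := by
    apply Subtype.ext
    simp [mul_assoc]
  right_inv a := by
    apply Subtype.ext
    simp [mul_assoc]
  map_mul' a b := by
    apply Subtype.ext
    simp [mul_assoc]

/-- Setting: `z` is an involution of the finite group `G`; for each element `x`, `Q x` is the largest normal 2-subgroup of the centralizer of `x`; `Q z` is extraspecial and contains its own centralizer in `G`. A subgroup `U` is singular when it is elementary abelian, every non-identity element of `U` is conjugate to `z`, and any two non-identity elements `u`, `v` of `U` are orthogonal (`v ∈ Q u`). Write `QU` for the intersection of the `Q u` and `LU` for the join of the `Q u` over the non-identity `u` in `U`. If `U` is singular of order `2 ^ n` with `n ≥ 2`, then `U ≤ QU ≤ LU`, `LU` normalizes `U`, and `LU` induces on `U` its full automorphism group (the general linear group of dimension `n` over the field with two elements): every automorphism of `U` is conjugation by some element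 of `LU`. -/
theorem result {G : Type*} [Group G] [Finite G]
    (Q : G → Subgroup G)
    (hQ : ∀ x : G, Q x = (Cfsg.pCore 2 ↥(Subgroup.centralizer ({x} : Set G))).map (Subgroup.centralizer ({x} : Set G)).subtype)
    (z : G) (hz : orderOf z = 2) (hE : Cfsg.IsExtraspecial 2 ↥(Q z))
    (hC : Subgroup.centralizer ((Q z : Subgroup G) : Set G) ≤ Q z)
    (U : Subgroup G) (hU2 : ∀ u ∈ U, u * u = 1)
    (hS : ∀ u ∈ U, u ≠ 1 → ∃ g : G, g * z * g⁻¹ = u)
    (hO : ∀ u ∈ U, ∀ v ∈ U, u ≠ 1 → v ≠ 1 → v ∈ Q u)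
    (QU LU : Subgroup G) (hQU : QU = ⨅ u ∈ ((U : Set G) \ {1}), Q u) (hLU : LU = ⨆ u ∈ ((U : Set G) \ {1}), Q u)
    (n : ℕ) (hn : 2 ≤ n) (hcard : Nat.card ↥U = 2 ^ n) :
    U ≤ QU ∧ QU ≤ LU ∧ LU ≤ Subgroup.normalizer (U : Set G) ∧
      ∀ φ : ↥U ≃* ↥U, ∃ g ∈ LU, ∀ u : ↥U, g * (u : G) * g⁻¹ = ((φ u : ↥U) : G) := by
  have hQc : ∀ x, Q x = Cfsg.Agent.Lib.Helper28.Qc x := fun x => hQ x
  rw [hQc z] at hE hC
  have hUQ : ∀ u ∈ U, u ≠ 1 → U ≤ Q u := by
    intro u hu hu1 v hv
    by_cases hv1 : v = 1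
    · rw [hv1]; exact (Q u).one_mem
    · exact hO u hu v hv hu1 hv1
  have hQUle : ∀ u ∈ U, u ≠ 1 → QU ≤ Q u := by
    intro u hu hu1
    rw [hQU]
    exact iInf₂_le u ⟨hu, hu1⟩
  have hQLU : ∀ u ∈ U, u ≠ 1 → Q u ≤ LU := by
    intro u hu hu1
    rw [hLU]
    exact le_iSup₂ (f := fun u (_ : u ∈ (U : Set G) \ {1}) => Q u) u ⟨hu, hu1⟩
  have hUQU : U ≤ QU := by
    rw [hQU]
    refine le_iInf₂ ?_
    intro u hu
    exact hUQ u hu.1 hu.2
  have hcommU : ∀ u ∈ U, u ≠ 1 → ∀ a ∈ Q u, ∀ b ∈ Q u,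
      a * b * a⁻¹ * b⁻¹ = 1 ∨ a * b * a⁻¹ * b⁻¹ = u := by
    intro u hu hu1 a ha b hb
    obtain ⟨g, rfl⟩ := hS u hu hu1
    rw [hQc] at ha hb
    exact Cfsg.Agent.Lib.Helper28.les_comm_conj z hz hE hC g a b ha hb
  have hex : ∃ u ∈ U, u ≠ 1 := by
    by_contra hcon
    push Not at hcon
    have hbot : U = ⊥ := (Subgroup.eq_bot_iff_forall U).mpr hcon
    rw [hbot, Subgroup.card_bot] at hcard
    have : 2 ^ 2 ≤ 2 ^ n := Nat.pow_le_pow_right (by norm_num) hn
    omega
  have hLN : LU ≤ Subgroup.normalizer (U : Set G) := by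
    rw [hLU]
    refine iSup₂_le ?_
    intro u hu g hg
    have key : ∀ g ∈ Q u, ∀ v ∈ U, g * v * g⁻¹ ∈ U := by
      intro g hg v hv
      have hvQ := hUQ u hu.1 hu.2 hv
      have e : g * v * g⁻¹ = (g * v * g⁻¹ * v⁻¹) * v := by group
      rw [e]
      rcases hcommU u hu.1 hu.2 g hg v hvQ with h | h
      · rw [h, one_mul]; exact hv
      · rw [h]; exact U.mul_mem hu.1 hv
    rw [Subgroup.mem_normalizer_iff]
    intro h
    constructor
    · exact key g hg h
    · intro hh
      have := key g⁻¹ ((Q u).inv_mem hg) _ hh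
      have e : g⁻¹ * (g * h * g⁻¹) * g⁻¹⁻¹ = h := by group
      rwa [e] at this
  have main : ∀ k : ℕ, ∀ φ : ↥U ≃* ↥U, Set.ncard {a : ↥U | φ a ≠ a} = k →
      ∃ g ∈ LU, ∀ a : ↥U, g * (a : G) * g⁻¹ = ((φ a : ↥U) : G) := by
    intro k
    induction k using Nat.strong_induction_on with
    | _ k ih =>
      intro φ hk
      by_cases hall : ∀ a : ↥U, φ a = a
      · refine ⟨1, LU.one_mem, ?_⟩
        intro a
        rw [hall a]; group
      · push Not at hall
        obtain ⟨v, hv⟩ := hall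
        obtain ⟨y, hy⟩ : ∃ y : G, y = ((φ v : ↥U) : G) := ⟨_, rfl⟩
        have hyU : y ∈ U := hy ▸ (φ v).2
        have hvU : (v : G) ∈ U := v.2
        have hyv : y ≠ (v : G) := by
          intro h
          apply hv
          apply Subtype.ext
          rw [← hy]; exact h
        have hvv := hU2 _ hvU
        have hw1 : (v : G) * y ≠ 1 := by
          intro h
          apply hyv
          calc y = (v : G)⁻¹ * ((v : G) * y) := by group
            _ = (v : G)⁻¹ * ((v : G) * (v : G)) := by rw [h, hvv]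
            _ = (v : G) := by group
        have hwU : (v : G) * y ∈ U := U.mul_mem hvU hyU
        obtain ⟨h, hh⟩ := hS _ hwU hw1
        obtain ⟨F, hFdef⟩ : ∃ F : Subgroup G,
            F = (MonoidHom.eqLocus φ.toMonoidHom (MonoidHom.id ↥U)).map U.subtype := ⟨_, rfl⟩
        have hFmem : ∀ a : G, a ∈ F ↔ ∃ ha : a ∈ U, φ ⟨a, ha⟩ = ⟨a, ha⟩ := by
          intro a
          rw [hFdef]
          constructor
          · rintro ⟨b, hb, rfl⟩
            exact ⟨b.2, hb⟩
          · rintro ⟨ha, hfix⟩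
            exact ⟨⟨a, ha⟩, hfix, rfl⟩
        have hFU : F ≤ U := by
          intro a ha
          obtain ⟨ha', -⟩ := (hFmem a).mp ha
          exact ha'
        have hUle : U ≤ Q ((v : G) * y) := hUQ _ hwU hw1
        rw [hQc, ← hh] at hUle
        have hyF : y ∉ F := by
          intro hc
          obtain ⟨ha, hfix⟩ := (hFmem y).mp hc
          apply hv
          apply φ.injective
          have e : φ v = ⟨y, ha⟩ := Subtype.ext hy.symm
          rw [e]; exact hfix
        have hvF : h * z * h⁻¹ * y ∉ F := by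
          rw [hh, mul_assoc, hU2 y hyU, mul_one]
          intro hc
          obtain ⟨ha, hfix⟩ := (hFmem _).mp hc
          exact hv hfix
        obtain ⟨q, hq, hqF, hqy⟩ := Cfsg.Agent.Lib.Helper28.les_double_cent z hz hE hC h F
          (hFU.trans hUle) (hUle hyU) hyF hvF
        have hqLU : q ∈ LU := hQLU _ hwU hw1 (by rw [hQc, ← hh]; exact hq)
        have hqN := hLN hqLU
        rw [Subgroup.mem_normalizer_iff] at hqN
        have hq1 : ∀ a ∈ U, q * a * q⁻¹ ∈ U := fun a ha => (hqN a).mp ha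
        have hq2 : ∀ a ∈ U, q⁻¹ * a * q ∈ U := by
          intro a ha
          apply (hqN _).mpr
          have e : q * (q⁻¹ * a * q) * q⁻¹ = a := by group
          rw [e]; exact ha
        obtain ⟨ψ, hψdef⟩ : ∃ ψ : ↥U ≃* ↥U, ψ = φ.trans (conjU U q hq1 hq2) := ⟨_, rfl⟩
        have hψ : ∀ a : ↥U, ((ψ a : ↥U) : G) = q * ((φ a : ↥U) : G) * q⁻¹ := by
          intro a
          rw [hψdef]
          rfl
        have hsub : {a : ↥U | ψ a ≠ a} ⊂ {a : ↥U | φ a ≠ a} := by
          refine ⟨?_, ?_⟩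
          · intro a ha hφ
            apply ha
            apply Subtype.ext
            rw [hψ, hφ]
            have := hqF (a : G) ((hFmem a).mpr ⟨a.2, hφ⟩)
            rw [this]; group
          · intro hcon
            have := hcon (show v ∈ {a : ↥U | φ a ≠ a} from hv)
            apply this
            apply Subtype.ext
            rw [hψ, ← hy, hqy, hh, mul_assoc, hU2 y hyU, mul_one]
        have hlt : Set.ncard {a : ↥U | ψ a ≠ a} < k := by
          rw [← hk]
          exact Set.ncard_lt_ncard hsub (Set.toFinite _)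
        obtain ⟨g', hg', hg'a⟩ := ih _ hlt ψ rfl
        refine ⟨q⁻¹ * g', LU.mul_mem (LU.inv_mem hqLU) hg', ?_⟩
        intro a
        have := hg'a a
        rw [hψ] at this
        calc q⁻¹ * g' * (a : G) * (q⁻¹ * g')⁻¹ = q⁻¹ * (g' * (a : G) * g'⁻¹) * q := by group
          _ = q⁻¹ * (q * ((φ a : ↥U) : G) * q⁻¹) * q := by rw [this]
          _ = ((φ a : ↥U) : G) := by group
  obtain ⟨u0, hu0, hu01⟩ := hex
  exact ⟨hUQU, (hQUle u0 hu0 hu01).trans (hQLU u0 hu0 hu01), hLN, fun φ => main _ φ rfl⟩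
end Cfsg.Agent.S5596
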