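import Cfsg.Statements.S5597
import Cfsg.Agent.Lib.Helper28.LargeES
import Cfsg.Agent.Lib.Helper28.LargeES2
import Cfsg.Agent.Lib.Helper28.DoubleCent

set_option autoImplicit false
open Cfsg

namespace Cfsg.Agent.S5597

/-- Setting: `z` is an involution of the finite group `G`; for each element `x`, `Q x` is the largest normal 2-subgroup of the centralizer of `x`; `Q z` is extraspecial and contains its own centralizer in `G`. A subgroup `U` is singular when it is elementary abelian, every non-identity element of `U` is conjugate to `z`, and any two non-identity elements `u`, `v` of `U` are orthogonal (`v ∈ Q u`). Write `QU` for the intersection of the `Q u` and `LU` for the join of the `Q u` over the non-identity `u` in `U`. If `U` is a non-trivial singular subgroup, then `LU` acts trivially on `QU / U` (every commutator of an element of `LU` with an element of `QU` lies in `U`), and for every `x` in `QU` outside `U` the centralizer of `U` in `LU` permutes the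 coset `x U` transitively: each `x u` with `u ∈ U` is a conjugate of `x` by an element of `LU` centralizing `U`. -/
theorem result {G : Type*} [Group G] [Finite G]
    (Q : G → Subgroup G)
    (hQ : ∀ x : G, Q x = (Cfsg.pCore 2 ↥(Subgroup.centralizer ({x} : Set G))).map (Subgroup.centralizer ({x} : Set G)).subtype)
    (z : G) (hz : orderOf z = 2) (hE : Cfsg.IsExtraspecial 2 ↥(Q z))
    (hC : Subgroup.centralizer ((Q z : Subgroup G) : Set G) ≤ Q z)
    (U : Subgroup G) (hU2 : ∀ u ∈ U, u * u = 1)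
    (hS : ∀ u ∈ U, u ≠ 1 → ∃ g : G, g * z * g⁻¹ = u)
    (hO : ∀ u ∈ U, ∀ v ∈ U, u ≠ 1 → v ≠ 1 → v ∈ Q u)
    (QU LU : Subgroup G) (hQU : QU = ⨅ u ∈ ((U : Set G) \ {1}), Q u) (hLU : LU = ⨆ u ∈ ((U : Set G) \ {1}), Q u)
    (hU : U ≠ ⊥) :
    (∀ g ∈ LU, ∀ x ∈ QU, g * x * g⁻¹ * x⁻¹ ∈ U) ∧
      ∀ x ∈ QU, x ∉ U → ∀ u ∈ U, ∃ g ∈ LU ⊓ Subgroup.centralizer (U : Set G), g * x * g⁻¹ = x * u := by
  have hQc : ∀ x, Q x = Cfsg.Agent.Lib.Helper28.Qc x := fun x => hQ x
  rw [hQc z] at hE hC
  have hUQ : ∀ u ∈ U, u ≠ 1 → U ≤ Q u := by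
    intro u hu hu1 v hv
    by_cases hv1 : v = 1
    · rw [hv1]; exact (Q u).one_mem
    · exact hO u hu v hv hu1 hv1
  have hQUle : ∀ u ∈ U, u ≠ 1 → QU ≤ Q u := by
    intro u hu hu1
    rw [hQU]
    exact iInf₂_le u ⟨hu, hu1⟩
  have hQLU : ∀ u ∈ U, u ≠ 1 → Q u ≤ LU := by
    intro u hu hu1
    rw [hLU]
    exact le_iSup₂ (f := fun u (_ : u ∈ (U : Set G) \ {1}) => Q u) u ⟨hu, hu1⟩
  have hUQU : U ≤ QU := by
    rw [hQU]
    refine le_iInf₂ ?_
    intro u hu
    exact hUQ u hu.1 hu.2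
  have hcommU : ∀ u ∈ U, u ≠ 1 → ∀ a ∈ Q u, ∀ b ∈ Q u,
      a * b * a⁻¹ * b⁻¹ = 1 ∨ a * b * a⁻¹ * b⁻¹ = u := by
    intro u hu hu1 a ha b hb
    obtain ⟨g, rfl⟩ := hS u hu hu1
    rw [hQc] at ha hb
    exact Cfsg.Agent.Lib.Helper28.les_comm_conj z hz hE hC g a b ha hb
  constructor
  · let N : Subgroup G :=
      { carrier := {g | ∀ x ∈ QU, g * x * g⁻¹ * x⁻¹ ∈ U ∧ g⁻¹ * x * g * x⁻¹ ∈ U}
        one_mem' := by
          intro x hx
          simp [U.one_mem]
        mul_mem' := by
          intro g h hg hh x hx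
          obtain ⟨h1, h2⟩ := hh x hx
          obtain ⟨g1, g2⟩ := hg x hx
          constructor
          · have ht := (hg _ (hUQU h1)).1
            have e : g * h * x * (g * h)⁻¹ * x⁻¹
                = (g * (h * x * h⁻¹ * x⁻¹) * g⁻¹ * (h * x * h⁻¹ * x⁻¹)⁻¹) * (h * x * h⁻¹ * x⁻¹)
                  * (g * x * g⁻¹ * x⁻¹) := by group
            rw [e]
            exact U.mul_mem (U.mul_mem ht h1) g1
          · have ht := (hh _ (hUQU g2)).2
            have e : (g * h)⁻¹ * x * (g * h) * x⁻¹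
                = (h⁻¹ * (g⁻¹ * x * g * x⁻¹) * h * (g⁻¹ * x * g * x⁻¹)⁻¹) * (g⁻¹ * x * g * x⁻¹)
                  * (h⁻¹ * x * h * x⁻¹) := by group
            rw [e]
            exact U.mul_mem (U.mul_mem ht g2) h2
        inv_mem' := by
          intro g hg x hx
          obtain ⟨g1, g2⟩ := hg x hx
          rw [inv_inv]
          exact ⟨g2, g1⟩ }
    have hLN : LU ≤ N := by
      rw [hLU]
      refine iSup₂_le ?_
      intro u hu g hg x hx
      have hxu := hQUle u hu.1 hu.2 hx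
      have huU : ∀ t, (t = 1 ∨ t = u) → t ∈ U := by
        rintro t (h | h)
        · rw [h]; exact U.one_mem
        · rw [h]; exact hu.1
      refine ⟨huU _ (hcommU u hu.1 hu.2 g hg x hxu), huU _ ?_⟩
      have := hcommU u hu.1 hu.2 g⁻¹ ((Q u).inv_mem hg) x hxu
      rwa [inv_inv] at this
    intro g hg x hx
    exact (hLN hg x hx).1
  · intro x hx hxU u hu
    by_cases hu1 : u = 1
    · refine ⟨1, Subgroup.one_mem _, ?_⟩
      rw [hu1]; group
    · obtain ⟨g, hg⟩ := hS u hu hu1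
      have hxQ : x ∈ Q u := hQUle u hu hu1 hx
      have hUle : U ≤ Q u := hUQ u hu hu1
      rw [hQc, ← hg] at hxQ hUle
      have hxu : g * z * g⁻¹ * x ∉ U := by
        intro h
        apply hxU
        have : x = (g * z * g⁻¹)⁻¹ * (g * z * g⁻¹ * x) := by group
        rw [this]
        exact U.mul_mem (U.inv_mem (hg ▸ hu)) h
      obtain ⟨q, hq, hqU, hqx⟩ :=
        Cfsg.Agent.Lib.Helper28.les_double_cent z hz hE hC g U hUle hxQ hxU hxu
      refine ⟨q, ?_, ?_⟩
      · rw [Subgroup.mem_inf, Subgroup.mem_centralizer_iff]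
        refine ⟨hQLU u hu hu1 (by rw [hQc, ← hg]; exact hq), ?_⟩
        intro a ha
        exact (hqU a ha).symm
      · rw [hqx, ← hg]
        exact Cfsg.Agent.Lib.Helper28.Qc_le_centralizer _ hxQ
end Cfsg.Agent.S5597
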