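import Cfsg.Statements.S5598
import Cfsg.Agent.Lib.Helper28.LargeES

set_option autoImplicit false
open Cfsg

namespace Cfsg.Agent.S5598

/-- Setting: `z` is an involution of the finite group `G`; for each element `x`, `Q x` is the largest normal 2-subgroup of the centralizer of `x`; `Q z` is extraspecial and contains its own centralizer in `G`. A subgroup `U` is singular when it is elementary abelian, every non-identity element of `U` is conjugate to `z`, and any two non-identity elements `u`, `v` of `U` are orthogonal (`v ∈ Q u`). Write `QU` for the intersection of the `Q u` and `LU` for the join of the `Q u` over the non-identity `u` in `U`. If the singular subgroup `U` is generated by a set `T` of non-identity elements, then `QU` is already the intersection of the `Q t` over `t ∈ T`. -/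
theorem result {G : Type*} [Group G] [Finite G]
    (Q : G → Subgroup G)
    (hQ : ∀ x : G, Q x = (Cfsg.pCore 2 ↥(Subgroup.centralizer ({x} : Set G))).map (Subgroup.centralizer ({x} : Set G)).subtype)
    (z : G) (hz : orderOf z = 2) (hE : Cfsg.IsExtraspecial 2 ↥(Q z))
    (hC : Subgroup.centralizer ((Q z : Subgroup G) : Set G) ≤ Q z)
    (U : Subgroup G) (hU2 : ∀ u ∈ U, u * u = 1)
    (hS : ∀ u ∈ U, u ≠ 1 → ∃ g : G, g * z * g⁻¹ = u)
    (hO : ∀ u ∈ U, ∀ v ∈ U, u ≠ 1 → v ≠ 1 → v ∈ Q u)
    (QU LU : Subgroup G) (hQU : QU = ⨅ u ∈ ((U : Set G) \ {1}), Q u) (hLU : LU = ⨆ u ∈ ((U : Set G) \ {1}), Q u)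
    (T : Set G) (hT : Subgroup.closure T = U) (hT1 : (1 : G) ∉ T) :
    QU = ⨅ t ∈ T, Q t := by
  classical
  have hQc : ∀ x, Q x = Cfsg.Agent.Lib.Helper28.Qc x := fun x => hQ x
  rw [hQc z] at hE hC
  have hTU : ∀ t ∈ T, t ∈ U := fun t ht => hT ▸ Subgroup.subset_closure ht
  apply le_antisymm
  · rw [hQU]
    refine le_iInf₂ (fun t ht => ?_)
    exact iInf₂_le t ⟨hTU t ht, fun h => hT1 (by
      rw [Set.mem_singleton_iff] at h
      rw [← h]
      exact ht)⟩
  · rw [hQU]
    have key : ∀ u ∈ Subgroup.closure T, u = 1 ∨ (⨅ t ∈ T, Q t) ≤ Q u := by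
      intro u hu
      refine Subgroup.closure_induction (p := fun u _ => u = 1 ∨ (⨅ t ∈ T, Q t) ≤ Q u)
        ?_ ?_ ?_ ?_ hu
      · intro t ht
        right
        exact iInf₂_le t ht
      · left
        rfl
      · intro x y hx hy px py
        rw [hT] at hx hy
        by_cases hx1 : x = 1
        · rw [hx1, one_mul]
          exact py
        by_cases hy1 : y = 1
        · rw [hy1, mul_one]
          exact px
        by_cases hxy : x = y
        · left
          rw [hxy]
          exact hU2 y hy
        right
        have px' := px.resolve_left hx1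
        have py' := py.resolve_left hy1
        obtain ⟨g, hg⟩ := hS x hx hx1
        have hyx : y ∈ Q x := hO x hx y hy hx1 hy1
        have hxy1 : x * y ≠ 1 := by
          intro h
          apply hxy
          calc x = x * (y * y) := by rw [hU2 y hy, mul_one]
            _ = (x * y) * y := by rw [mul_assoc]
            _ = y := by rw [h, one_mul]
        have hxxy : x ∈ Q (x * y) := hO (x * y) (U.mul_mem hx hy) x hx hxy1 hx1
        have hinter := Cfsg.Agent.Lib.Helper28.les_inter z hz hE hC g y
          (by rw [hg, ← hQc]; exact hyx) hy1 (by rw [hg]; exact fun h => hxy h.symm)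
          (by rw [hg, ← hQc]; exact hxxy)
        rw [hg, ← hQc, ← hQc, ← hQc] at hinter
        exact (le_inf px' py').trans hinter
      · intro x hx px
        rw [hT] at hx
        have : x⁻¹ = x := inv_eq_of_mul_eq_one_left (hU2 x hx)
        rw [this]
        exact px
    refine le_iInf₂ (fun u hu => ?_)
    rcases key u (by rw [hT]; exact hu.1) with h | h
    · exact absurd (Set.mem_singleton_iff.mpr h) hu.2
    · exact h
end Cfsg.Agent.S5598
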