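import Cfsg.Statements.S5729

set_option autoImplicit false
open Pointwise
open Cfsg

namespace Cfsg.Agent.S5729

open MulAction

theorem burnside {G X : Type*} [Group G] [Fintype G] [MulAction G X] [Finite X] :
    ∑ g : G, Nat.card (fixedBy X g) = Nat.card (Quotient (orbitRel G X)) * Nat.card G := by
  classical
  have := Fintype.ofFinite X
  have := Fintype.ofFinite (Quotient (orbitRel G X))
  have h := MulAction.sum_card_fixedBy_eq_card_orbits_mul_card_group G X
  simp only [Nat.card_eq_fintype_card]
  convert h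

theorem sum_fix {G X : Type*} [Group G] [Fintype G] [MulAction G X] [Finite X] [Nonempty X]
    [IsPretransitive G X] : ∑ g : G, Nat.card (fixedBy X g) = Nat.card G := by
  rw [burnside]
  have h1 : Subsingleton (Quotient (orbitRel G X)) :=
    (pretransitive_iff_subsingleton_quotient G X).mp inferInstance
  have h2 : Nonempty (Quotient (orbitRel G X)) := ⟨Quotient.mk _ (Classical.arbitrary X)⟩
  have : Nat.card (Quotient (orbitRel G X)) = 1 := by
    rw [Nat.card_eq_one_iff_unique]
    exact ⟨h1, h2⟩
  rw [this, one_mul]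

theorem card_fix_prod {G X : Type*} [Group G] [MulAction G X] (g : G) :
    Nat.card (fixedBy (X × X) g) = Nat.card (fixedBy X g) ^ 2 := by
  have e : fixedBy (X × X) g ≃ fixedBy X g × fixedBy X g :=
    (Equiv.subtypeEquivRight (fun c : X × X => by
      show g • c = c ↔ (g • c.1 = c.1 ∧ g • c.2 = c.2)
      rw [Prod.ext_iff]; rfl)).trans Equiv.subtypeProdEquivProd
  rw [Nat.card_congr e, Nat.card_prod, sq]

theorem sum_fix_sq {G X : Type*} [Group G] [Fintype G] [MulAction G X] [Finite X]
    (a b : X) (hab : a ≠ b) : 2 * Nat.card G ≤ ∑ g : G, Nat.card (fixedBy X g) ^ 2 := by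
  have h := burnside (G := G) (X := X × X)
  simp only [card_fix_prod] at h
  rw [h]
  apply Nat.mul_le_mul_right
  have : Nontrivial (Quotient (orbitRel G (X × X))) := by
    refine ⟨Quotient.mk _ (a, a), Quotient.mk _ (a, b), ?_⟩
    intro heq
    have hrel := Quotient.exact heq
    change (a, a) ∈ orbit G (a, b) at hrel
    obtain ⟨g, hg⟩ := hrel
    have h1 : g • a = a := congrArg Prod.fst hg
    have h2 : g • b = a := congrArg Prod.snd hg
    apply hab
    have : g • a = g • b := by rw [h1, h2]
    exact smul_left_cancel g this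
  exact Finite.one_lt_card_iff_nontrivial.mpr this

theorem result {G Ω : Type*} [Group G] [Finite G] [MulAction G Ω] [FaithfulSMul G Ω] [Fintype Ω] (htr : MulAction.IsPretransitive G Ω) (hn : 3 ≤ Fintype.card Ω) :
    ((MulAction.IsPretransitive G Ω ∧ (∃ g : G, g ≠ 1 ∧ ∃ ω : Ω, g • ω = ω) ∧ ∀ g : G, g ≠ 1 → Nat.card (MulAction.fixedBy Ω g) ≤ 1) ∧ Nat.card G = Fintype.card Ω * (Fintype.card Ω - 1) ∧ Fintype.card Ω * Nat.card {g : G // ∀ ω : Ω, g • ω ≠ ω} = Nat.card G) ∨
    Nat.card G < Fintype.card Ω * Nat.card {g : G // ∀ ω : Ω, g • ω ≠ ω} := by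
  classical
  have := Fintype.ofFinite G
  set n := Fintype.card Ω with hn_def
  set N := Nat.card G with hN_def
  set f : G → ℕ := fun g => Nat.card (fixedBy Ω g) with hf_def
  have hne : Nonempty Ω := Fintype.card_pos_iff.mp (by omega)
  obtain ⟨a, b, hab⟩ : ∃ a b : Ω, a ≠ b := by
    have : Nontrivial Ω := Fintype.one_lt_card_iff_nontrivial.mp (by omega)
    exact exists_pair_ne Ω
  have F1 : ∑ g : G, f g = N := sum_fix
  have F2 : 2 * N ≤ ∑ g : G, f g ^ 2 := sum_fix_sq a b hab
  have F3 : ∀ g : G, f g ≤ n := by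
    intro g
    rw [hn_def, ← Nat.card_eq_fintype_card]
    exact Nat.card_le_card_of_injective _ Subtype.val_injective
  have F3' : ∀ g : G, f g = n → g = 1 := by
    intro g hg
    apply FaithfulSMul.eq_of_smul_eq_smul (α := Ω)
    intro ω
    rw [one_smul]
    have huniv : fixedBy Ω g = Set.univ := by
      rw [Set.eq_univ_iff_ncard, Nat.card_eq_fintype_card, ← Nat.card_coe_set_eq]
      exact hg
    have : ω ∈ fixedBy Ω g := by rw [huniv]; trivial
    exact this
  have F30 : f 1 = n := by
    have : fixedBy Ω (1 : G) = Set.univ := by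
      ext ω; simp
    show Nat.card (fixedBy Ω (1 : G)) = n
    rw [this, Nat.card_coe_set_eq, Set.ncard_univ, Nat.card_eq_fintype_card]
  have F4 : ∀ g : G, (∀ ω : Ω, g • ω ≠ ω) ↔ f g = 0 := by
    intro g
    show _ ↔ Nat.card (fixedBy Ω g) = 0
    rw [Nat.card_eq_zero]
    constructor
    · intro h
      left
      exact ⟨fun x => h x.1 x.2⟩
    · rintro (h | h)
      · intro ω hω
        exact h.false ⟨ω, hω⟩
      · exact absurd (inferInstance : Finite (fixedBy Ω g)) (not_finite_iff_infinite.mpr h)
  set d : G → ℕ := fun g => if f g = 0 then 1 else 0 with hd_def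
  have hD : Nat.card {g : G // ∀ ω : Ω, g • ω ≠ ω} = ∑ g : G, d g := by
    rw [Nat.card_eq_fintype_card, Fintype.card_subtype, Finset.card_filter]
    apply Finset.sum_congr rfl
    intro g _
    simp only [hd_def, F4 g]
  -- pointwise inequality
  have hpt : ∀ g : G, f g ^ 2 + n ≤ (n + 1) * f g + n * d g := by
    intro g
    by_cases h0 : f g = 0
    · simp [hd_def, h0]
    · have h1 : 1 ≤ f g := Nat.pos_of_ne_zero h0
      have h2 := F3 g
      simp only [hd_def, h0, if_false, mul_zero, add_zero]
      nlinarith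
  have hsum : ∑ g : G, (f g ^ 2 + n) ≤ ∑ g : G, ((n + 1) * f g + n * d g) :=
    Finset.sum_le_sum (fun g _ => hpt g)
  have hcardG : (Finset.univ : Finset G).card = N := by
    rw [Finset.card_univ, hN_def, Nat.card_eq_fintype_card]
  rw [Finset.sum_add_distrib, Finset.sum_add_distrib, ← Finset.mul_sum, ← Finset.mul_sum, F1, ← hD,
    Finset.sum_const, hcardG, smul_eq_mul] at hsum
  set D := Nat.card {g : G // ∀ ω : Ω, g • ω ≠ ω} with hD_def
  have hle : N ≤ n * D := by nlinarith
  rcases Nat.lt_or_ge N (n * D) with hlt | hge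
  · right; exact hlt
  left
  have hEq : N = n * D := le_antisymm hle hge
  -- equality case
  have hS2 : ∑ g : G, f g ^ 2 = 2 * N := by
    apply le_antisymm _ F2
    nlinarith
  have hpt_eq : ∀ g : G, f g ^ 2 + n = (n + 1) * f g + n * d g := by
    have hsum_eq : ∑ g : G, (f g ^ 2 + n) = ∑ g : G, ((n + 1) * f g + n * d g) := by
      rw [Finset.sum_add_distrib, Finset.sum_add_distrib, ← Finset.mul_sum, ← Finset.mul_sum, F1,
        ← hD, Finset.sum_const, hcardG, smul_eq_mul, hS2]
      nlinarith
    intro g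
    exact (Finset.sum_eq_sum_iff_of_le (fun g _ => hpt g)).mp hsum_eq g (Finset.mem_univ g)
  have hfix1 : ∀ g : G, g ≠ 1 → f g ≤ 1 := by
    intro g hg
    by_contra hcon
    push Not at hcon
    have h0 : f g ≠ 0 := by omega
    have h1 := hpt_eq g
    simp only [hd_def, h0, if_false, mul_zero, add_zero] at h1
    have h2 : f g < n := lt_of_le_of_ne (F3 g) (fun h => hg (F3' g h))
    nlinarith
  have hprod : ∑ g : G, f g * (f g - 1) = N := by
    have : ∑ g : G, f g ^ 2 = ∑ g : G, f g + ∑ g : G, f g * (f g - 1) := by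
      rw [← Finset.sum_add_distrib]
      apply Finset.sum_congr rfl
      intro g _
      rcases Nat.eq_zero_or_pos (f g) with h | h
      · simp [h]
      · obtain ⟨k, hk⟩ : ∃ k, f g = k + 1 := ⟨f g - 1, by omega⟩
        rw [hk]; simp; ring
    rw [hS2, F1] at this
    omega
  have hprod2 : ∑ g : G, f g * (f g - 1) = n * (n - 1) := by
    rw [Finset.sum_eq_single (1 : G)]
    · rw [F30]
    · intro g _ hg
      have := hfix1 g hg
      rcases Nat.le_one_iff_eq_zero_or_eq_one.mp this with h | h <;> simp [h]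
    · intro h; exact absurd (Finset.mem_univ _) h
  have hN : N = n * (n - 1) := by rw [← hprod, hprod2]
  refine ⟨⟨htr, ?_, hfix1⟩, hN, hEq.symm⟩
  by_contra hcon
  push Not at hcon
  have hall : ∀ g : G, g ≠ 1 → f g = 0 := by
    intro g hg
    rw [← F4 g]
    exact hcon g hg
  have : ∑ g : G, f g = n := by
    rw [Finset.sum_eq_single (1 : G)]
    · exact F30
    · intro g _ hg; exact hall g hg
    · intro h; exact absurd (Finset.mem_univ _) h
  rw [F1, hN] at this
  have h3 : n - 1 = 1 := by
    have hnpos : 0 < n := by omega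
    exact Nat.eq_of_mul_eq_mul_left hnpos (by rw [this, mul_one])
  omega

end Cfsg.Agent.S5729
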