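import Cfsg.Statements.S5738

set_option autoImplicit false
open Pointwise
open Cfsg

namespace Cfsg.Agent.S5738

variable {F K : Type*} [Field F] [Field K] [Algebra F K]

theorem lmul_inj (a b : K) (h : Algebra.lmul F K a = Algebra.lmul F K b) : a = b := by
  have := congrArg (fun u : Module.End F K => u 1) h
  simpa using this

theorem units_lmul_apply (k : Kˣ) (x : K) :
    ((Units.map ((Algebra.lmul F K : K →ₐ[F] Module.End F K) : K →* Module.End F K) k :
      (Module.End F K)ˣ) : Module.End F K) x = k * x := by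
  simp

theorem normalizer_form [Finite K] (φ : (Module.End F K)ˣ)
    (hφ : φ ∈ Subgroup.normalizer (((Units.map ((Algebra.lmul F K : K →ₐ[F] Module.End F K) : K →* Module.End F K)).range : Subgroup (Module.End F K)ˣ) : Set (Module.End F K)ˣ)) :
    ∃ (a : Kˣ) (σ : K ≃ₐ[F] K), ∀ x, (φ : Module.End F K) x = a * σ x := by
  rw [Subgroup.mem_set_normalizer_iff] at hφ
  have hc : ∀ k : K, ∃ k' : K, (φ : Module.End F K) * Algebra.lmul F K k *
      ((φ⁻¹ : (Module.End F K)ˣ) : Module.End F K) = Algebra.lmul F K k' := by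
    intro k
    by_cases hk : k = 0
    · exact ⟨0, by subst hk; simp⟩
    · obtain ⟨k', hk'⟩ := (hφ (Units.map ((Algebra.lmul F K : K →ₐ[F] Module.End F K) : K →* Module.End F K) (Units.mk0 k hk))).mp ⟨_, rfl⟩
      refine ⟨k', ?_⟩
      have := congrArg Units.val hk'
      simp only [Units.val_mul, Units.coe_map, MonoidHom.coe_coe, Units.val_mk0] at this
      exact this.symm
  choose c hc using hc
  have hφφ : ((φ⁻¹ : (Module.End F K)ˣ) : Module.End F K) * (φ : Module.End F K) = 1 := Units.inv_mul φ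
  have c_one : c 1 = 1 := by
    apply lmul_inj (F := F)
    rw [← hc, map_one, mul_one, Units.mul_inv]
  have c_mul : ∀ x y, c (x * y) = c x * c y := by
    intro x y
    apply lmul_inj (F := F)
    rw [← hc, map_mul, map_mul, ← hc, ← hc]
    calc (φ : Module.End F K) * (Algebra.lmul F K x * Algebra.lmul F K y) * ((φ⁻¹ : (Module.End F K)ˣ) : Module.End F K)
        = (φ : Module.End F K) * Algebra.lmul F K x * (((φ⁻¹ : (Module.End F K)ˣ) : Module.End F K) * (φ : Module.End F K)) * Algebra.lmul F K y * ((φ⁻¹ : (Module.End F K)ˣ) : Module.End F K) := by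
          rw [hφφ]; simp [mul_assoc]
      _ = _ := by simp [mul_assoc]
  have c_add : ∀ x y, c (x + y) = c x + c y := by
    intro x y
    apply lmul_inj (F := F)
    rw [← hc, map_add, map_add, ← hc, ← hc, mul_add, add_mul]
  have c_zero : c 0 = 0 := by
    have := c_add 0 0
    rw [add_zero] at this
    exact left_eq_add.mp this
  have c_alg : ∀ r : F, c (algebraMap F K r) = algebraMap F K r := by
    intro r
    apply lmul_inj (F := F)
    rw [← hc, AlgHom.commutes, ← Algebra.commutes, mul_assoc, Units.mul_inv, mul_one]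
  let σ₀ : K →ₐ[F] K :=
    { toFun := c
      map_one' := c_one
      map_mul' := c_mul
      map_zero' := c_zero
      map_add' := c_add
      commutes' := c_alg }
  have hbij : Function.Bijective σ₀ :=
    Finite.injective_iff_bijective.mp σ₀.toRingHom.injective
  have key : ∀ x : K, (φ : Module.End F K) x = (φ : Module.End F K) 1 * c x := by
    intro x
    have h1 : (φ : Module.End F K) * Algebra.lmul F K x = Algebra.lmul F K (c x) * (φ : Module.End F K) := by
      rw [← hc, mul_assoc, hφφ, mul_one]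
    have h2 := congrArg (fun u : Module.End F K => u 1) h1
    simp at h2
    rw [h2, mul_comm]
  have h1 : (φ : Module.End F K) 1 ≠ 0 := by
    intro h0
    have h3 : ((φ⁻¹ : (Module.End F K)ˣ) : Module.End F K) ((φ : Module.End F K) 1) = 1 :=
      congrArg (fun u : Module.End F K => u 1) hφφ
    rw [h0, map_zero] at h3
    exact zero_ne_one h3
  exact ⟨Units.mk0 _ h1, AlgEquiv.ofBijective σ₀ hbij, fun x => key x⟩

noncomputable def psi (a : Kˣ) (σ : K ≃ₐ[F] K) : (Module.End F K)ˣ :=
  Units.map ((Algebra.lmul F K : K →ₐ[F] Module.End F K) : K →* Module.End F K) a *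
    LinearMap.GeneralLinearGroup.ofLinearEquiv σ.toLinearEquiv

theorem psi_apply (a : Kˣ) (σ : K ≃ₐ[F] K) (x : K) :
    ((psi a σ : (Module.End F K)ˣ) : Module.End F K) x = a * σ x := by
  simp [psi]

theorem conj_sigma (σ : K ≃ₐ[F] K) (k : Kˣ) :
    LinearMap.GeneralLinearGroup.ofLinearEquiv σ.toLinearEquiv *
      Units.map ((Algebra.lmul F K : K →ₐ[F] Module.End F K) : K →* Module.End F K) k *
      (LinearMap.GeneralLinearGroup.ofLinearEquiv σ.toLinearEquiv)⁻¹ =
    Units.map ((Algebra.lmul F K : K →ₐ[F] Module.End F K) : K →* Module.End F K)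
      (Units.map (σ : K →* K) k) := by
  apply Units.ext
  apply LinearMap.ext
  intro x
  have hinv : (((LinearMap.GeneralLinearGroup.ofLinearEquiv σ.toLinearEquiv)⁻¹ :
      (Module.End F K)ˣ) : Module.End F K) x = σ.symm x := rfl
  simp only [Units.val_mul, Module.End.mul_apply, hinv]
  simp

theorem sigma_mem (σ : K ≃ₐ[F] K) :
    LinearMap.GeneralLinearGroup.ofLinearEquiv σ.toLinearEquiv ∈
      Subgroup.normalizer (((Units.map ((Algebra.lmul F K : K →ₐ[F] Module.End F K) : K →* Module.End F K)).range : Subgroup (Module.End F K)ˣ) : Set (Module.End F K)ˣ) := by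
  rw [Subgroup.mem_set_normalizer_iff]
  intro h
  constructor
  · rintro ⟨k, rfl⟩
    exact ⟨_, (conj_sigma σ k).symm⟩
  · rintro ⟨k, hk⟩
    refine ⟨Units.map (σ.symm : K →* K) k, ?_⟩
    have h2 := conj_sigma σ.symm k
    have hS : LinearMap.GeneralLinearGroup.ofLinearEquiv σ.symm.toLinearEquiv =
        (LinearMap.GeneralLinearGroup.ofLinearEquiv σ.toLinearEquiv)⁻¹ := rfl
    rw [← h2, hk, hS, inv_inv]
    group

theorem psi_mem (a : Kˣ) (σ : K ≃ₐ[F] K) :
    psi a σ ∈ Subgroup.normalizer (((Units.map ((Algebra.lmul F K : K →ₐ[F] Module.End F K) : K →* Module.End F K)).range : Subgroup (Module.End F K)ˣ) : Set (Module.End F K)ˣ) :=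
  Subgroup.mul_mem _ (Subgroup.le_normalizer ⟨a, rfl⟩) (sigma_mem σ)

theorem result {F K : Type*} [Field F] [Fintype F] [Field K] [Fintype K] [Algebra F K] (n : ℕ) (hn : 2 ≤ n) (hdim : Module.finrank F K = n) :
    Nat.card (Subgroup.normalizer (((Units.map ((Algebra.lmul F K : K →ₐ[F] Module.End F K) : K →* Module.End F K)).range : Subgroup (Module.End F K)ˣ) : Set (Module.End F K)ˣ)) = n * (Fintype.card K - 1) := by
  let f : Kˣ × (K ≃ₐ[F] K) → Subgroup.normalizer (((Units.map ((Algebra.lmul F K : K →ₐ[F] Module.End F K) : K →* Module.End F K)).range : Subgroup (Module.End F K)ˣ) : Set (Module.End F K)ˣ) :=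
    fun p => ⟨psi p.1 p.2, psi_mem p.1 p.2⟩
  have hinj : Function.Injective f := by
    rintro ⟨a, σ⟩ ⟨a', σ'⟩ h
    have h' : psi a σ = psi a' σ' := congrArg Subtype.val h
    have h1 : ∀ x, (a : K) * σ x = a' * σ' x := fun x => by rw [← psi_apply, ← psi_apply, h']
    have ha : a = a' := by
      ext
      simpa using h1 1
    subst ha
    have : σ = σ' := by
      ext x
      exact mul_left_cancel₀ a.ne_zero (h1 x)
    rw [this]
  have hsurj : Function.Surjective f := by
    rintro ⟨φ, hφ⟩
    obtain ⟨a, σ, h⟩ := normalizer_form φ hφ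
    refine ⟨(a, σ), Subtype.ext (Units.ext (LinearMap.ext fun x => ?_))⟩
    show ((psi a σ : (Module.End F K)ˣ) : Module.End F K) x = _
    rw [psi_apply, h]
  rw [← Nat.card_congr (Equiv.ofBijective f ⟨hinj, hsurj⟩), Nat.card_prod, Nat.card_units,
    IsGalois.card_aut_eq_finrank, hdim, Nat.card_eq_fintype_card, mul_comm]

end Cfsg.Agent.S5738
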