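import Cfsg.Statements.S5739
import Cfsg.Agent.S5738

set_option autoImplicit false
open Pointwise
open Cfsg

namespace Cfsg.Agent.S5739

variable {F K : Type*} [Field F] [Field K] [Algebra F K]

/-- the elements of `K` whose multiplication map lies in the conjugate by `g` of the multiplications -/
noncomputable def conjAlg (g : (Module.End F K)ˣ) : Subalgebra F K where
  carrier := {k | ∃ k' : K, Algebra.lmul F K k =
    (g : Module.End F K) * Algebra.lmul F K k' * ((g⁻¹ : (Module.End F K)ˣ) : Module.End F K)}
  mul_mem' := by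
    rintro a b ⟨a', ha⟩ ⟨b', hb⟩
    refine ⟨a' * b', ?_⟩
    have hgg : ((g⁻¹ : (Module.End F K)ˣ) : Module.End F K) * (g : Module.End F K) = 1 := Units.inv_mul g
    rw [map_mul, ha, hb, map_mul]
    calc (g : Module.End F K) * Algebra.lmul F K a' * ((g⁻¹ : (Module.End F K)ˣ) : Module.End F K) *
          ((g : Module.End F K) * Algebra.lmul F K b' * ((g⁻¹ : (Module.End F K)ˣ) : Module.End F K))
        = (g : Module.End F K) * Algebra.lmul F K a' * (((g⁻¹ : (Module.End F K)ˣ) : Module.End F K) *
          (g : Module.End F K)) * Algebra.lmul F K b' * ((g⁻¹ : (Module.End F K)ˣ) : Module.End F K) := by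
          simp only [mul_assoc]
      _ = _ := by rw [hgg]; simp only [mul_assoc, mul_one]
  add_mem' := by
    rintro a b ⟨a', ha⟩ ⟨b', hb⟩
    refine ⟨a' + b', ?_⟩
    rw [map_add, ha, hb, map_add, mul_add, add_mul]
  algebraMap_mem' := by
    intro r
    refine ⟨algebraMap F K r, ?_⟩
    rw [AlgHom.commutes, ← Algebra.commutes, mul_assoc, Units.mul_inv, mul_one]

theorem mem_conjAlg (g : (Module.End F K)ˣ) (k : K) :
    k ∈ conjAlg g ↔ ∃ k' : K, Algebra.lmul F K k =
      (g : Module.End F K) * Algebra.lmul F K k' * ((g⁻¹ : (Module.End F K)ˣ) : Module.End F K) :=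
  Iff.rfl

theorem result {F K : Type*} [Field F] [Fintype F] [Field K] [Fintype K] [Algebra F K] (n : ℕ) (hn : 2 ≤ n) (hdim : Module.finrank F K = n)
    (g : (Module.End F K)ˣ) (hg : ((Units.map ((Algebra.lmul F K : K →ₐ[F] Module.End F K) : K →* Module.End F K)).range).map (MulAut.conj g).toMonoidHom ≠ (Units.map ((Algebra.lmul F K : K →ₐ[F] Module.End F K) : K →* Module.End F K)).range) :
    ∃ r : ℕ, 1 ≤ r ∧ r ∣ n ∧ r < n ∧ Nat.card ↥(((Units.map ((Algebra.lmul F K : K →ₐ[F] Module.End F K) : K →* Module.End F K)).range).map (MulAut.conj g).toMonoidHom ⊓ (Units.map ((Algebra.lmul F K : K →ₐ[F] Module.End F K) : K →* Module.End F K)).range) ∣ Fintype.card F ^ r - 1 := by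
  set U : Kˣ →* (Module.End F K)ˣ :=
    Units.map ((Algebra.lmul F K : K →ₐ[F] Module.End F K) : K →* Module.End F K) with hU
  have hUinj : Function.Injective U := by
    apply Units.map_injective
    intro a b hab
    exact Cfsg.Agent.S5738.lmul_inj (F := F) a b hab
  set E' : IntermediateField F K :=
    (conjAlg g).toIntermediateField' (Subalgebra.isField_of_algebraic (conjAlg g)) with hE'
  have hmemE : ∀ k : K, k ∈ E' ↔ ∃ k' : K, Algebra.lmul F K k =
      (g : Module.End F K) * Algebra.lmul F K k' * ((g⁻¹ : (Module.End F K)ˣ) : Module.End F K) := by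
    intro k
    exact Iff.rfl
  have htower : Module.finrank F E' * Module.finrank E' K = Module.finrank F K :=
    Module.finrank_mul_finrank F E' K
  have hrpos : 0 < Module.finrank F E' := Module.finrank_pos
  have hdvd : Module.finrank F E' ∣ n := by
    rw [← hdim, ← htower]; exact dvd_mul_right _ _
  have hfinEnd : Finite (Module.End F K) :=
    Finite.of_injective (fun f : Module.End F K => (f : K → K)) DFunLike.coe_injective
  refine ⟨Module.finrank F E', hrpos, hdvd, ?_, ?_⟩
  · apply lt_of_le_of_ne (Nat.le_of_dvd (by omega) hdvd)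
    intro hEq
    apply hg
    symm
    apply Subgroup.eq_of_le_of_card_ge
    · -- every multiplication is a conjugate
      have htop : (Subalgebra.toSubmodule E'.toSubalgebra) = ⊤ := by
        apply Submodule.eq_top_of_finrank_eq
        rw [hdim]
        exact hEq
      rintro _ ⟨k, rfl⟩
      have hk : (k : K) ∈ E' := by
        have : (k : K) ∈ Subalgebra.toSubmodule E'.toSubalgebra := by rw [htop]; trivial
        exact this
      obtain ⟨k', hk'⟩ := (hmemE k).mp hk
      have hk'0 : k' ≠ 0 := by
        rintro rfl
        rw [map_zero, mul_zero, zero_mul] at hk'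
        have := congrArg (fun u : Module.End F K => u 1) hk'
        simp at this
      refine ⟨U (Units.mk0 k' hk'0), ⟨_, rfl⟩, ?_⟩
      apply Units.ext
      simp only [MulEquiv.toMonoidHom_eq_coe, MonoidHom.coe_coe, MulAut.conj_apply, Units.val_mul, hU,
        Units.coe_map, Units.val_mk0]
      exact hk'.symm
    · rw [Subgroup.card_map_of_injective (MulAut.conj g).injective]
  · -- divisibility
    set D := (U.range).map (MulAut.conj g).toMonoidHom ⊓ U.range with hD
    have hDmap : (D.comap U).map U = D := by
      rw [Subgroup.map_comap_eq, hD]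
      exact inf_eq_right.mpr inf_le_right
    have hcardD : Nat.card D = Nat.card (D.comap U) := by
      rw [← Subgroup.card_map_of_injective hUinj (K := D.comap U), hDmap]
    set ι : E'ˣ →* Kˣ := Units.map (E'.val : E' →* K) with hι
    have hιinj : Function.Injective ι := Units.map_injective (fun a b h => Subtype.ext h)
    have hle : D.comap U ≤ ι.range := by
      intro k hk
      have hk1 : U k ∈ (U.range).map (MulAut.conj g).toMonoidHom := hk.1
      obtain ⟨_, ⟨k'', rfl⟩, hk''⟩ := hk1
      have hkE : (k : K) ∈ E' := by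
        rw [hmemE]
        refine ⟨(k'' : K), ?_⟩
        have := congrArg Units.val hk''
        simp only [MulEquiv.toMonoidHom_eq_coe, MonoidHom.coe_coe, MulAut.conj_apply, Units.val_mul, hU,
          Units.coe_map] at this
        exact this.symm
      refine ⟨Units.mk0 (⟨(k : K), hkE⟩ : E') (fun h => k.ne_zero (congrArg Subtype.val h)), ?_⟩
      apply Units.ext
      rfl
    have h1 := Subgroup.card_dvd_of_le hle
    have h2 : Nat.card ι.range = Nat.card E'ˣ :=
      (Nat.card_congr (MonoidHom.ofInjective hιinj).toEquiv).symm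
    have h3 : Nat.card E' = Fintype.card F ^ Module.finrank F E' := by
      rw [Module.natCard_eq_pow_finrank (K := F), Nat.card_eq_fintype_card]
    rw [hcardD]
    rw [h2, Nat.card_units, h3] at h1
    exact h1

end Cfsg.Agent.S5739
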