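import Cfsg.Statements.S5747

set_option autoImplicit false
open Pointwise
open Cfsg

namespace Cfsg.Agent.S5747

universe u v

def IsB (G : Type u) {Ω : Type v} [Group G] [MulAction G Ω] {t : ℕ} (f : Fin t → Ω) : Prop :=
  ∀ g : G, (∀ i : Fin t, g • f i = f i) → g = 1

def IsIrr (G : Type u) {Ω : Type v} [Group G] [MulAction G Ω] {t : ℕ} (f : Fin t → Ω) : Prop :=
  ∀ i : Fin t, ∃ g : G, (∀ j : Fin t, j < i → g • f j = f j) ∧ g • f i ≠ f i

def Reord (G : Type u) (Ω : Type v) [Group G] [MulAction G Ω] : Prop :=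
  ∀ (t : ℕ) (f : Fin t → Ω) (σ : Equiv.Perm (Fin t)),
    (IsB G f ∧ IsIrr G f) → (IsB G (f ∘ σ) ∧ IsIrr G (f ∘ σ))

theorem reduce (G : Type u) {Ω : Type v} [Group G] [MulAction G Ω] :
    ∀ (s : ℕ) (A : Fin s → Ω), IsB G A →
      ∃ (k : ℕ) (A' : Fin k → Ω), IsB G A' ∧ IsIrr G A' ∧ k ≤ s ∧ (k = s → IsIrr G A) := by
  intro s
  induction s with
  | zero =>
    intro A hA
    exact ⟨0, A, hA, fun i => i.elim0, le_rfl, fun _ i => i.elim0⟩
  | succ s ih =>
    intro A hA
    by_cases h : IsIrr G A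
    · exact ⟨s + 1, A, hA, h, le_rfl, fun _ => h⟩
    · unfold IsIrr at h
      push Not at h
      obtain ⟨i, hi⟩ := h
      have hB : IsB G (fun j => A (i.succAbove j)) := by
        intro g hg
        apply hA
        have hne : ∀ j' : Fin (s + 1), j' ≠ i → g • A j' = A j' := by
          intro j' hj'
          obtain ⟨z, rfl⟩ := Fin.exists_succAbove_eq hj'
          exact hg z
        intro j'
        by_cases hj' : j' = i
        · subst hj'
          exact hi g (fun j hj => hne j (ne_of_lt hj))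
        · exact hne j' hj'
      obtain ⟨k, A', h1, h2, h3, -⟩ := ih _ hB
      exact ⟨k, A', h1, h2, by omega, fun hk => by omega⟩

theorem isB_cons (G : Type u) {Ω : Type v} [Group G] [MulAction G Ω] (b : Ω) {r : ℕ}
    (f : Fin r → Ω) :
    IsB G (Fin.cons b f : Fin (r + 1) → Ω) ↔ IsB (MulAction.stabilizer G b) f := by
  constructor
  · intro h g hg
    have : (g : G) = 1 := by
      apply h
      intro i
      refine Fin.cases ?_ (fun j => ?_) i
      · rw [Fin.cons_zero]; exact g.2
      · rw [Fin.cons_succ]; exact hg j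
    exact Subtype.ext this
  · intro h g hg
    have hb : g • b = b := by simpa using hg 0
    have : (⟨g, hb⟩ : MulAction.stabilizer G b) = 1 := by
      apply h
      intro j
      have := hg j.succ
      rw [Fin.cons_succ] at this
      exact this
    exact congrArg Subtype.val this

theorem isIrr_cons (G : Type u) {Ω : Type v} [Group G] [MulAction G Ω] (b : Ω)
    (hb : ∃ g : G, g • b ≠ b) {r : ℕ} (f : Fin r → Ω) :
    IsIrr G (Fin.cons b f : Fin (r + 1) → Ω) ↔ IsIrr (MulAction.stabilizer G b) f := by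
  constructor
  · intro h i
    obtain ⟨g, hg1, hg2⟩ := h i.succ
    have hgb : g • b = b := by simpa using hg1 0 (Fin.succ_pos i)
    refine ⟨⟨g, hgb⟩, fun j hj => ?_, ?_⟩
    · have := hg1 j.succ (Fin.succ_lt_succ_iff.mpr hj)
      rw [Fin.cons_succ] at this
      exact this
    · have := hg2
      rw [Fin.cons_succ] at this
      exact this
  · intro h i
    refine Fin.cases ?_ (fun i' => ?_) i
    · obtain ⟨g, hg⟩ := hb
      exact ⟨g, fun j hj => absurd hj (Fin.not_lt_zero j), by simpa using hg⟩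
    · obtain ⟨g, hg1, hg2⟩ := h i'
      refine ⟨(g : G), fun j hj => ?_, ?_⟩
      · revert hj
        refine Fin.cases ?_ (fun j' => ?_) j
        · intro _
          rw [Fin.cons_zero]; exact g.2
        · intro hj
          have := hg1 j' (Fin.succ_lt_succ_iff.mp hj)
          rw [Fin.cons_succ]
          exact this
      · rw [Fin.cons_succ]
        exact hg2

theorem reord_stab (G : Type u) {Ω : Type v} [Group G] [MulAction G Ω] (b : Ω)
    (hb : ∃ g : G, g • b ≠ b) (hP : Reord G Ω) : Reord (MulAction.stabilizer G b) Ω := by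
  intro t f σ ⟨h1, h2⟩
  have hc := hP (t + 1) (Fin.cons b f) (Equiv.Perm.decomposeFin.symm (0, σ))
    ⟨(isB_cons G b f).mpr h1, (isIrr_cons G b hb f).mpr h2⟩
  have heq : (Fin.cons b f : Fin (t + 1) → Ω) ∘ (Equiv.Perm.decomposeFin.symm (0, σ)) =
      Fin.cons b (f ∘ σ) := by
    funext i
    refine Fin.cases ?_ (fun j => ?_) i
    · simp
    · simp
  rw [heq] at hc
  exact ⟨(isB_cons G b _).mp hc.1, (isIrr_cons G b hb _).mp hc.2⟩

theorem size_le {Ω : Type v} : ∀ (n : ℕ) (G : Type u) [Group G] [Finite G] [MulAction G Ω],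
    Nat.card G ≤ n → Reord G Ω → ∀ (s t : ℕ) (A : Fin s → Ω) (B : Fin t → Ω),
      IsB G A → IsIrr G A → IsB G B → IsIrr G B → t ≤ s := by
  intro n
  induction n with
  | zero =>
    intro G _ _ _ hcard
    exact absurd hcard (by have := Nat.card_pos (α := G); omega)
  | succ n ih =>
    intro G _ _ _ hcard hP s t A B hA1 hA2 hB1 hB2
    rcases t with _ | t
    · exact Nat.zero_le _
    set b := B 0 with hb_def
    have hb : ∃ g : G, g • b ≠ b := by
      obtain ⟨g, -, hg⟩ := hB2 0
      exact ⟨g, hg⟩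
    have hBeq : (Fin.cons b (Fin.tail B) : Fin (t + 1) → Ω) = B := Fin.cons_self_tail B
    have hT1 : IsB (MulAction.stabilizer G b) (Fin.tail B) := by
      rw [← isB_cons, hBeq]; exact hB1
    have hT2 : IsIrr (MulAction.stabilizer G b) (Fin.tail B) := by
      rw [← isIrr_cons G b hb, hBeq]; exact hB2
    have hA1' : IsB (MulAction.stabilizer G b) A := by
      intro g hg
      exact Subtype.ext (hA1 (g : G) hg)
    obtain ⟨k, A', hk1, hk2, hk3, hk4⟩ := reduce (MulAction.stabilizer G b) s A hA1'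
    have hks : k ≠ s := by
      intro hks
      have hirr := hk4 hks
      have hc := hP (s + 1) (Fin.cons b A) (Equiv.swap 0 (Fin.last s))
        ⟨(isB_cons G b A).mpr hA1', (isIrr_cons G b hb A).mpr hirr⟩
      obtain ⟨g, hg1, hg2⟩ := hc.2 (Fin.last s)
      have hg2' : g • b ≠ b := by
        simpa using hg2
      apply hg2'
      have : g = 1 := by
        apply hA1
        intro m
        have hlt : Equiv.swap 0 (Fin.last s) m.succ < Fin.last s := by
          apply lt_of_le_of_ne (Fin.le_last _)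
          intro h
          have h' : Equiv.swap 0 (Fin.last s) (Equiv.swap 0 (Fin.last s) m.succ) =
              Equiv.swap 0 (Fin.last s) (Fin.last s) := by rw [h]
          rw [Equiv.swap_apply_self, Equiv.swap_apply_right] at h'
          exact Fin.succ_ne_zero m h'
        have := hg1 _ hlt
        simpa using this
      rw [this, one_smul]
    have hcard' : Nat.card (MulAction.stabilizer G b) ≤ n := by
      have h1 : Nat.card (MulAction.stabilizer G b) ≤ Nat.card G := Subgroup.card_le_card_group _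
      have h2 : Nat.card (MulAction.stabilizer G b) ≠ Nat.card G := by
        intro h
        have htop := Subgroup.eq_top_of_card_eq _ h
        obtain ⟨g, hg⟩ := hb
        have : g ∈ MulAction.stabilizer G b := by rw [htop]; trivial
        exact hg this
      omega
    have := ih (MulAction.stabilizer G b) hcard' (reord_stab G b hb hP) k t A' (Fin.tail B)
      hk1 hk2 hT1 hT2
    omega

theorem result {G Ω : Type*} [Group G] [Finite G] [MulAction G Ω] [Fintype Ω] :
    (∀ (t t' : ℕ) (f : Fin t → Ω) (f' : Fin t' → Ω), ((∀ g : G, (∀ i : Fin t, g • f i = f i) → g = 1) ∧ ∀ i : Fin t, ∃ g : G, (∀ j : Fin t, j < i → g • f j = f j) ∧ g • f i ≠ f i) → ((∀ g : G, (∀ i : Fin t', g • f' i = f' i) → g = 1) ∧ ∀ i : Fin t', ∃ g : G, (∀ j : Fin t', j < i → g • f' j = f' j) ∧ g • f' i ≠ f' i) → t = t') ↔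
    (∀ (t : ℕ) (f : Fin t → Ω) (σ : Equiv.Perm (Fin t)), ((∀ g : G, (∀ i : Fin t, g • f i = f i) → g = 1) ∧ ∀ i : Fin t, ∃ g : G, (∀ j : Fin t, j < i → g • f j = f j) ∧ g • f i ≠ f i) → ((∀ g : G, (∀ i : Fin t, g • (f ∘ σ) i = (f ∘ σ) i) → g = 1) ∧ ∀ i : Fin t, ∃ g : G, (∀ j : Fin t, j < i → g • (f ∘ σ) j = (f ∘ σ) j) ∧ g • (f ∘ σ) i ≠ (f ∘ σ) i)) := by
  constructor
  · intro h t f σ ⟨h1, h2⟩
    have hB : IsB G (f ∘ σ) := by
      intro g hg
      apply h1
      intro i
      have := hg (σ.symm i)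
      simpa using this
    obtain ⟨k, A', hk1, hk2, hk3, hk4⟩ := reduce G t (f ∘ σ) hB
    have hkt : k = t := h k t A' f ⟨hk1, hk2⟩ ⟨h1, h2⟩
    exact ⟨hB, hk4 hkt⟩
  · intro h t t' f f' ⟨h1, h2⟩ ⟨h1', h2'⟩
    have hP : Reord G Ω := h
    have e1 := size_le (Nat.card G) G le_rfl hP t t' f f' h1 h2 h1' h2'
    have e2 := size_le (Nat.card G) G le_rfl hP t' t f' f h1' h2' h1 h2
    omega

end Cfsg.Agent.S5747
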