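import Cfsg.Statements.S5754

set_option autoImplicit false
open Pointwise
open Cfsg

namespace Cfsg.Agent.S5754

variable {F V : Type*} [Field F] [AddCommGroup V] [Module F V]

noncomputable def dualOf (Q : QuadraticForm F V) (d : V) : Module.Dual F V :=
  (Q d)⁻¹ • QuadraticMap.polarBilin Q d

theorem dualOf_apply (Q : QuadraticForm F V) (d x : V) :
    dualOf Q d x = (Q d)⁻¹ * QuadraticMap.polar Q d x := by
  simp [dualOf]

theorem dualOf_self (Q : QuadraticForm F V) (d : V) (hd : Q d ≠ 0) : dualOf Q d d = 2 := by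
  rw [dualOf_apply, QuadraticMap.polar_self, two_smul]
  field_simp
  ring

theorem map_sub_eq (Q : QuadraticForm F V) (x y : V) :
    Q (x - y) = Q x + Q y - QuadraticMap.polar Q x y := by
  rw [sub_eq_add_neg, QuadraticMap.map_add (⇑Q), QuadraticMap.map_neg, QuadraticMap.polar_neg_right]
  ring

noncomputable def refl (Q : QuadraticForm F V) (d : V) (hd : Q d ≠ 0) : Q.IsometryEquiv Q :=
  { Module.reflection (dualOf_self Q d hd) with
    map_app' := by
      intro x
      show Q (Module.reflection (dualOf_self Q d hd) x) = Q x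
      rw [Module.reflection_apply, dualOf_apply, map_sub_eq, QuadraticMap.map_smul,
        QuadraticMap.polar_smul_right, QuadraticMap.polar_comm Q x d]
      simp only [smul_eq_mul]
      field_simp
      ring }

theorem refl_apply (Q : QuadraticForm F V) (d : V) (hd : Q d ≠ 0) (x : V) :
    refl Q d hd x = x - ((Q d)⁻¹ * QuadraticMap.polar Q d x) • d := by
  show Module.reflection (dualOf_self Q d hd) x = _
  rw [Module.reflection_apply, dualOf_apply]

theorem refl_fix (Q : QuadraticForm F V) (d : V) (hd : Q d ≠ 0) (x : V)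
    (h : QuadraticMap.polar Q d x = 0) : refl Q d hd x = x := by
  rw [refl_apply, h]; simp

theorem refl_swap (Q : QuadraticForm F V) (w w' : V) (hd : Q (w - w') ≠ 0) (h : Q w = Q w') :
    refl Q (w - w') hd w = w' := by
  rw [refl_apply]
  have h1 : QuadraticMap.polar Q (w - w') w = Q (w - w') := by
    rw [QuadraticMap.polar_sub_left, QuadraticMap.polar_self, map_sub_eq, two_smul, ← h,
      QuadraticMap.polar_comm Q w' w]
  rw [h1, inv_mul_cancel₀ hd, one_smul]
  abel

theorem polar_isom (Q : QuadraticForm F V) (φ : Q.IsometryEquiv Q) (x y : V) :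
    QuadraticMap.polar Q (φ x) (φ y) = QuadraticMap.polar Q x y := by
  unfold QuadraticMap.polar
  rw [← map_add, QuadraticMap.IsometryEquiv.map_app, QuadraticMap.IsometryEquiv.map_app,
    QuadraticMap.IsometryEquiv.map_app]

theorem main (Q : QuadraticForm F V) (hQ : Q.Anisotropic) (n : ℕ) (v v' : Fin n → V)
    (hq : ∀ i, Q (v i) = Q (v' i))
    (hp : ∀ i j, QuadraticMap.polar Q (v i) (v j) = QuadraticMap.polar Q (v' i) (v' j)) :
    ∀ k : ℕ, k ≤ n → ∃ φ : Q.IsometryEquiv Q, ∀ i : Fin n, i.val < k → φ (v i) = v' i := by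
  intro k
  induction k with
  | zero => exact fun _ => ⟨QuadraticMap.IsometryEquiv.refl Q, fun i hi => absurd hi (Nat.not_lt_zero _)⟩
  | succ k ih =>
    intro hk
    obtain ⟨φ, hφ⟩ := ih (Nat.le_of_succ_le hk)
    set idx : Fin n := ⟨k, hk⟩ with hidx
    by_cases hd0 : φ (v idx) - v' idx = 0
    · refine ⟨φ, fun i hi => ?_⟩
      rcases Nat.lt_succ_iff_lt_or_eq.mp hi with h | h
      · exact hφ i h
      · have : i = idx := Fin.ext h
        rw [this]
        exact sub_eq_zero.mp hd0
    · have hd : Q (φ (v idx) - v' idx) ≠ 0 := fun h => hd0 (hQ _ h)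
      refine ⟨φ.trans (refl Q _ hd), fun i hi => ?_⟩
      rcases Nat.lt_succ_iff_lt_or_eq.mp hi with h | h
      · show refl Q _ hd (φ (v i)) = v' i
        rw [hφ i h]
        apply refl_fix
        rw [QuadraticMap.polar_sub_left, ← hφ i h, polar_isom, hφ i h, hp,
          QuadraticMap.polar_comm Q (v' idx) (v' i)]
        ring
      · have : i = idx := Fin.ext h
        rw [this]
        show refl Q _ hd (φ (v idx)) = v' idx
        apply refl_swap
        rw [QuadraticMap.IsometryEquiv.map_app, hq]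

theorem result {F V : Type*} [Field F] [Finite F] [AddCommGroup V] [Module F V] [Module.Finite F V]
    (Q : QuadraticForm F V) (hQ : Q.Anisotropic) (n : ℕ) (hn : 2 ≤ n) (u u' : Fin n → V)
    (h2 : ∀ i j : Fin n, i ≠ j → ∃ (φ : Q.IsometryEquiv Q) (c : V), φ (u i) + c = u' i ∧ φ (u j) + c = u' j) :
    ∃ (φ : Q.IsometryEquiv Q) (c : V), ∀ i, φ (u i) + c = u' i := by
  have hdist : ∀ i j : Fin n, Q (u i - u j) = Q (u' i - u' j) := by
    intro i j
    by_cases hij : i = j
    · subst hij; simp
    · obtain ⟨φ, c, h1, h2'⟩ := h2 i j hij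
      rw [← h1, ← h2', add_sub_add_right_eq_sub, ← map_sub, QuadraticMap.IsometryEquiv.map_app]
  set z : Fin n := ⟨0, by omega⟩ with hz
  have hq : ∀ i, Q (u i - u z) = Q (u' i - u' z) := fun i => hdist i z
  have hp : ∀ i j, QuadraticMap.polar Q (u i - u z) (u j - u z) =
      QuadraticMap.polar Q (u' i - u' z) (u' j - u' z) := by
    intro i j
    have e1 := map_sub_eq Q (u i - u z) (u j - u z)
    have e2 := map_sub_eq Q (u' i - u' z) (u' j - u' z)
    rw [sub_sub_sub_cancel_right] at e1 e2
    rw [hdist i j, hq i, hq j] at e1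
    have : QuadraticMap.polar Q (u i - u z) (u j - u z) =
        Q (u' i - u' z) + Q (u' j - u' z) - Q (u' i - u' j) := by rw [e1]; ring
    rw [this, e2]; ring
  obtain ⟨φ, hφ⟩ := main Q hQ n (fun i => u i - u z) (fun i => u' i - u' z) hq hp n le_rfl
  refine ⟨φ, u' z - φ (u z), fun i => ?_⟩
  have := hφ i i.isLt
  simp only [map_sub] at this
  have h3 : u' i = φ (u i) - φ (u z) + u' z := by rw [this]; abel
  rw [h3]; abel

end Cfsg.Agent.S5754
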