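import Cfsg.Statements.S5887
import Mathlib

set_option autoImplicit false
set_option linter.style.haveILetI false
open Cfsg

namespace Cfsg.Agent.S5887

theorem det_one_add {F : Type*} [Field F] [Fintype F] {n : ℕ} (A : Matrix (Fin n) (Fin n) F)
    (hA : A * A = 0) : (1 + A).det = 1 := by
  have hpow : ∀ k : ℕ, (1 + A) ^ k = 1 + k • A := by
    intro k
    induction k with
    | zero => simp
    | succ k ih =>
      rw [pow_succ, ih, mul_add, mul_one, add_mul, one_mul, smul_mul_assoc, hA, smul_zero,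
        add_zero, succ_nsmul, add_assoc]
  have h1 : (1 + A) ^ (Fintype.card F) = 1 := by
    rw [hpow, ← Nat.cast_smul_eq_nsmul F, FiniteField.cast_card_eq_zero, zero_smul, add_zero]
  have h2 := congrArg Matrix.det h1
  rw [Matrix.det_pow, Matrix.det_one, FiniteField.pow_card] at h2
  exact h2

theorem exists_elts {E : Type*} [Field E] [Finite E] (q r s : ℕ) (hq : 1 < q)
    (hcard : Nat.card E = q ^ r) (hs1 : 1 < s) (hsr : s ∣ r) (hslt : s < r) :
    (∃ y : E, y ^ (q ^ s) ≠ y) ∧ (∃ x : E, x ^ (q ^ s) = x ∧ x ^ q ≠ x) := by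
  obtain ⟨ζ, hζ⟩ := IsCyclic.exists_generator (α := Eˣ)
  have hord : orderOf ζ = q ^ r - 1 := by
    rw [orderOf_eq_card_of_forall_mem_zpowers hζ, Nat.card_units, hcard]
  have hqs : q < q ^ s := by
    calc q = q ^ 1 := (pow_one q).symm
      _ < q ^ s := Nat.pow_lt_pow_right hq hs1
  have hqsr : q ^ s < q ^ r := Nat.pow_lt_pow_right hq hslt
  constructor
  · refine ⟨ζ, fun h => ?_⟩
    have h1 : ζ ^ (q ^ s - 1) = 1 := by
      apply Units.ext
      rw [Units.val_pow_eq_pow_val, Units.val_one]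
      have h2 : (ζ : E) ^ (q ^ s - 1) * ζ = 1 * ζ := by
        rw [← pow_succ, Nat.sub_add_cancel (by omega), h, one_mul]
      exact mul_right_cancel₀ ζ.ne_zero h2
    have h3 := orderOf_dvd_of_pow_eq_one h1
    rw [hord] at h3
    have := Nat.le_of_dvd (by omega) h3
    omega
  · obtain ⟨t, rfl⟩ := hsr
    have hdvd : q ^ s - 1 ∣ q ^ (s * t) - 1 := by
      have := Nat.sub_dvd_pow_sub_pow (q ^ s) 1 t
      rwa [one_pow, ← pow_mul] at this
    obtain ⟨k, hk⟩ := hdvd
    have hk0 : 0 < k := by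
      rcases Nat.eq_zero_or_pos k with h | h
      · rw [h, mul_zero] at hk; omega
      · exact h
    refine ⟨((ζ ^ k : Eˣ) : E), ?_, ?_⟩
    · have h1 : (ζ ^ k) ^ (q ^ s - 1) = 1 := by
        rw [← pow_mul, mul_comm, ← hk, ← hord, pow_orderOf_eq_one]
      have h2 : ((ζ ^ k : Eˣ) : E) ^ (q ^ s - 1) = 1 := by
        rw [← Units.val_pow_eq_pow_val, h1, Units.val_one]
      calc ((ζ ^ k : Eˣ) : E) ^ (q ^ s)
          = ((ζ ^ k : Eˣ) : E) ^ (q ^ s - 1) * ((ζ ^ k : Eˣ) : E) := by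
            rw [← pow_succ, Nat.sub_add_cancel (by omega)]
        _ = _ := by rw [h2, one_mul]
    · intro h
      have h1 : (ζ ^ k) ^ (q - 1) = 1 := by
        apply Units.ext
        rw [Units.val_pow_eq_pow_val, Units.val_one]
        have h2 : ((ζ ^ k : Eˣ) : E) ^ (q - 1) * ((ζ ^ k : Eˣ) : E)
            = 1 * ((ζ ^ k : Eˣ) : E) := by
          rw [← pow_succ, Nat.sub_add_cancel (by omega), h, one_mul]
        exact mul_right_cancel₀ (ζ ^ k).ne_zero h2
      rw [← pow_mul] at h1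
      have h3 := orderOf_dvd_of_pow_eq_one h1
      rw [hord, hk] at h3
      have h4 : q ^ s - 1 ∣ q - 1 := by
        rw [mul_comm] at h3
        exact (Nat.mul_dvd_mul_iff_left hk0).1 h3
      have := Nat.le_of_dvd (by omega) h4
      omega

theorem mem_norm {F : Type*} [Field F] {n : ℕ} (K : Subalgebra F (Matrix (Fin n) (Fin n) F))
    (g : GL (Fin n) F) : g ∈ Geo.subalgebraNormalizer K ↔
      ∀ k : Matrix (Fin n) (Fin n) F, k ∈ K ↔
        (g : Matrix (Fin n) (Fin n) F) * k * ((g⁻¹ : GL (Fin n) F) : Matrix (Fin n) (Fin n) F) ∈ K :=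
  Iff.rfl

theorem conj_inj {F : Type*} [Field F] {n : ℕ} (g : GL (Fin n) F)
    {a b : Matrix (Fin n) (Fin n) F}
    (h : (g : Matrix (Fin n) (Fin n) F) * a * ((g⁻¹ : GL (Fin n) F) : Matrix (Fin n) (Fin n) F) =
      (g : Matrix (Fin n) (Fin n) F) * b * ((g⁻¹ : GL (Fin n) F) : Matrix (Fin n) (Fin n) F)) :
    a = b := by
  have h1 := congrArg (fun z => ((g⁻¹ : GL (Fin n) F) : Matrix (Fin n) (Fin n) F) * z *
    (g : Matrix (Fin n) (Fin n) F)) h
  simpa [mul_assoc] using h1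

theorem mat_ext {F : Type*} [Field F] {n : ℕ} {A B : Matrix (Fin n) (Fin n) F}
    (h : ∀ z, A.mulVec z = B.mulVec z) : A = B := by
  apply Matrix.toLin'.injective
  apply LinearMap.ext
  intro z
  rw [Matrix.toLin'_apply, Matrix.toLin'_apply]
  exact h z

theorem core {F : Type*} [Field F] [Fintype F] {E : Type*} [Field E] [Algebra F E]
    (n r s : ℕ) (hs1 : 1 < s) (hsr : s ∣ r) (hslt : s < r) (hrn : r ∣ n) (hlt : r < n)
    (ρ : E →ₐ[F] Matrix (Fin n) (Fin n) F) (hr : Module.finrank F E = r) :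
    ¬ IsCoatom (Geo.subalgebraNormalizer ρ.range) ∧
      ¬ Geo.IsMaximalIn (Geo.specialLinear (Fin n) F)
        (Geo.subalgebraNormalizer ρ.range ⊓ Geo.specialLinear (Fin n) F) := by
  classical
  have hr0 : 0 < r := by omega
  haveI : Module.Finite F E := Module.finite_of_finrank_pos (by rw [hr]; exact hr0)
  haveI : Finite E := Module.finite_of_finite F
  haveI : NeZero n := ⟨by omega⟩
  obtain ⟨q, hq⟩ : ∃ q, q = Fintype.card F := ⟨_, rfl⟩
  have hq1 : 1 < q := by rw [hq]; exact Fintype.one_lt_card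
  have hcardE : Nat.card E = q ^ r := by
    rw [hq, ← hr, ← Nat.card_eq_fintype_card]; exact Module.natCard_eq_pow_finrank
  obtain ⟨⟨y₀, hy₀⟩, ⟨x₀, hx₀, hx₀'⟩⟩ := exists_elts q r s hq1 hcardE hs1 hsr hslt
  have hρinj : Function.Injective ρ := (ρ : E →+* Matrix (Fin n) (Fin n) F).injective
  -- the module structure
  letI modE : Module E (Fin n → F) := Module.compHom (Fin n → F)
    ((Matrix.toLinAlgEquiv' : Matrix (Fin n) (Fin n) F ≃ₐ[F] _).toAlgHom.comp ρ).toRingHom
  have hsmul : ∀ (e : E) (v : Fin n → F), e • v = (ρ e).mulVec v := fun e v => rfl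
  haveI : IsScalarTower F E (Fin n → F) := ⟨fun c e v => by
    rw [hsmul, hsmul, map_smul, Matrix.smul_mulVec]⟩
  haveI : Module.Finite E (Fin n → F) := Module.Finite.of_restrictScalars_finite F E _
  obtain ⟨m, hmd⟩ : ∃ m, m = Module.finrank E (Fin n → F) := ⟨_, rfl⟩
  have hm : r * m = n := by
    rw [hmd, ← hr, Module.finrank_mul_finrank]; simp
  have hm2 : 2 ≤ m := by
    rcases m with _ | _ | m
    · simp at hm; omega
    · simp at hm; omega
    · omega
  obtain ⟨b⟩ : Nonempty (Module.Basis (Fin (Module.finrank E (Fin n → F))) E (Fin n → F)) :=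
    ⟨Module.finBasis E (Fin n → F)⟩
  obtain ⟨i₁, hi₁⟩ : ∃ i : Fin (Module.finrank E (Fin n → F)), i = ⟨0, by omega⟩ := ⟨_, rfl⟩
  obtain ⟨i₂, hi₂⟩ : ∃ i : Fin (Module.finrank E (Fin n → F)), i = ⟨1, by omega⟩ := ⟨_, rfl⟩
  have hi : i₁ ≠ i₂ := by rw [hi₁, hi₂]; simp [Fin.ext_iff]
  have hb11 : b.repr (b i₁) i₁ = 1 := by simp
  have hb12 : b.repr (b i₁) i₂ = 0 := by simp [hi]
  have hb21 : b.repr (b i₂) i₁ = 0 := by simp [hi.symm]
  have hb22 : b.repr (b i₂) i₂ = 1 := by simp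
  -- the nilpotent maps
  obtain ⟨N, hN⟩ : ∃ N : (E →ₐ[F] E) → ((Fin n → F) →ₗ[F] (Fin n → F)),
      ∀ τ z, N τ z = τ (b.repr z i₁) • b i₂ :=
    ⟨fun τ => ((LinearMap.toSpanSingleton E (Fin n → F) (b i₂)).restrictScalars F).comp
      (τ.toLinearMap.comp ((b.coord i₁).restrictScalars F)), fun τ z => rfl⟩
  have hNN : ∀ τ z, N τ (N τ z) = 0 := by
    intro τ z
    rw [hN, hN, map_smul, Finsupp.smul_apply, hb21, smul_eq_mul, mul_zero, map_zero, zero_smul]
  obtain ⟨A, hAd⟩ : ∃ A : (E →ₐ[F] E) → Matrix (Fin n) (Fin n) F,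
      ∀ τ, A τ = LinearMap.toMatrix' (N τ) := ⟨fun τ => LinearMap.toMatrix' (N τ), fun τ => rfl⟩
  have hA : ∀ τ z, (A τ).mulVec z = N τ z := by
    intro τ z
    rw [hAd, ← Matrix.toLin'_apply, Matrix.toLin'_toMatrix']
  have hAA : ∀ τ, A τ * A τ = 0 := by
    intro τ
    apply mat_ext
    intro z
    rw [← Matrix.mulVec_mulVec, hA, hA, hNN, Matrix.zero_mulVec]
  obtain ⟨g, hg, hginv⟩ : ∃ g : (E →ₐ[F] E) → GL (Fin n) F,
      (∀ τ, ((g τ : GL (Fin n) F) : Matrix (Fin n) (Fin n) F) = 1 + A τ) ∧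
      (∀ τ, (((g τ)⁻¹ : GL (Fin n) F) : Matrix (Fin n) (Fin n) F) = 1 - A τ) :=
    ⟨fun τ => ⟨1 + A τ, 1 - A τ,
      by rw [mul_sub, mul_one, add_mul, one_mul, hAA τ, add_zero, add_sub_cancel_right],
      by rw [mul_add, mul_one, sub_mul, one_mul, hAA τ, sub_zero, sub_add_cancel]⟩,
      fun τ => rfl, fun τ => rfl⟩
  have hgSL : ∀ τ, g τ ∈ Geo.specialLinear (Fin n) F := by
    intro τ
    show Matrix.GeneralLinearGroup.det (g τ) = 1
    apply Units.ext
    rw [Matrix.GeneralLinearGroup.val_det_apply, hg, Units.val_one]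
    exact det_one_add _ (hAA τ)
  -- commutation with the fixed points of `τ`
  have hcomm : ∀ τ x, τ x = x →
      (g τ : Matrix (Fin n) (Fin n) F) * ρ x = ρ x * (g τ : Matrix (Fin n) (Fin n) F) := by
    intro τ x hx
    have h1 : A τ * ρ x = ρ x * A τ := by
      apply mat_ext
      intro z
      rw [← Matrix.mulVec_mulVec, ← Matrix.mulVec_mulVec, hA, hA, ← hsmul, ← hsmul, hN, hN,
        map_smul, Finsupp.smul_apply, smul_eq_mul, map_mul, hx, mul_smul]
    rw [hg, add_mul, mul_add, one_mul, mul_one, h1]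
  have hconj : ∀ τ x, τ x = x → (g τ : Matrix (Fin n) (Fin n) F) * ρ x *
      (((g τ)⁻¹ : GL (Fin n) F) : Matrix (Fin n) (Fin n) F) = ρ x := by
    intro τ x hx
    rw [hcomm τ x hx, mul_assoc, Units.mul_inv, mul_one]
  -- twisting
  have htwist : ∀ τ y y', (g τ : Matrix (Fin n) (Fin n) F) * ρ y *
      (((g τ)⁻¹ : GL (Fin n) F) : Matrix (Fin n) (Fin n) F) = ρ y' → τ y = y := by
    intro τ y y' h
    have h1 : (g τ : Matrix (Fin n) (Fin n) F) * ρ y = ρ y' * (g τ : Matrix (Fin n) (Fin n) F) := by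
      rw [← h, Units.inv_mul_cancel_right]
    have h2 : ((g τ : Matrix (Fin n) (Fin n) F) * ρ y).mulVec (b i₁) =
        (ρ y' * (g τ : Matrix (Fin n) (Fin n) F)).mulVec (b i₁) := by rw [h1]
    rw [← Matrix.mulVec_mulVec, ← Matrix.mulVec_mulVec, hg, Matrix.add_mulVec, Matrix.add_mulVec,
      Matrix.one_mulVec, Matrix.one_mulVec, hA, hA, ← hsmul, ← hsmul, hN, hN, map_smul,
      Finsupp.smul_apply, hb11, smul_eq_mul, mul_one, map_one, one_smul, smul_add] at h2
    have h3 := congrArg (fun v => b.repr v i₁) h2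
    have h4 := congrArg (fun v => b.repr v i₂) h2
    simp only [map_add, map_smul, Finsupp.add_apply, Finsupp.smul_apply, hb11, hb12, hb21, hb22,
      smul_eq_mul, mul_one, mul_zero, add_zero, zero_add] at h3 h4
    rw [h4, ← h3]
  -- Frobenius powers
  have hτ : ∀ (j : ℕ) (x : E), ((FiniteField.frobeniusAlgHom F E) ^ j) x = x ^ (q ^ j) := by
    intro j x
    rw [AlgHom.coe_pow, FiniteField.coe_frobeniusAlgHom, pow_iterate, hq]
  obtain ⟨τs, hτs⟩ : ∃ τs : E →ₐ[F] E, τs = (FiniteField.frobeniusAlgHom F E) ^ s := ⟨_, rfl⟩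
  obtain ⟨τ1, hτ1⟩ : ∃ τ1 : E →ₐ[F] E, τ1 = (FiniteField.frobeniusAlgHom F E) ^ 1 := ⟨_, rfl⟩
  -- the intermediate field
  obtain ⟨L, hLd⟩ : ∃ L : Subalgebra F (Matrix (Fin n) (Fin n) F),
      L = (AlgHom.equalizer τs (AlgHom.id F E)).map ρ := ⟨_, rfl⟩
  have hL : ∀ k, k ∈ L ↔ ∃ x : E, x ^ (q ^ s) = x ∧ ρ x = k := by
    intro k
    rw [hLd, Subalgebra.mem_map]
    constructor
    · rintro ⟨x, hx, rfl⟩
      rw [AlgHom.mem_equalizer, hτs, hτ] at hx
      exact ⟨x, hx, rfl⟩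
    · rintro ⟨x, hx, rfl⟩
      refine ⟨x, ?_, rfl⟩
      rw [AlgHom.mem_equalizer, hτs, hτ]
      exact hx
  have hL' : ∀ k, k ∈ L ↔ k ∈ ρ.range ∧ k ^ (q ^ s) = k := by
    intro k
    rw [hL]
    constructor
    · rintro ⟨x, hx, rfl⟩
      exact ⟨⟨x, rfl⟩, by rw [← map_pow, hx]⟩
    · rintro ⟨⟨x, rfl⟩, hk⟩
      exact ⟨x, hρinj (by rw [map_pow]; exact hk), rfl⟩
  have hle : Geo.subalgebraNormalizer ρ.range ≤ Geo.subalgebraNormalizer L := by
    intro u hu
    rw [mem_norm] at hu ⊢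
    intro k
    have huk := hu k
    rw [hL', hL', Units.conj_pow]
    constructor
    · rintro ⟨h1, h2⟩
      exact ⟨huk.1 h1, by rw [h2]⟩
    · rintro ⟨h1, h2⟩
      exact ⟨huk.2 h1, conj_inj u h2⟩
  have hgs : g τs ∈ Geo.subalgebraNormalizer L := by
    rw [mem_norm]
    intro k
    constructor
    · intro hk
      obtain ⟨x, hx, rfl⟩ := (hL k).1 hk
      rw [hconj τs x (by rw [hτs, hτ]; exact hx)]
      exact hk
    · intro hk
      obtain ⟨x, hx, hxk⟩ := (hL _).1 hk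
      have h1 := hconj τs x (by rw [hτs, hτ]; exact hx)
      rw [← h1] at hxk
      rw [← conj_inj _ hxk]
      exact (hL _).2 ⟨x, hx, rfl⟩
  have hgs' : g τs ∉ Geo.subalgebraNormalizer ρ.range := by
    intro h
    rw [mem_norm] at h
    obtain ⟨y', hy'⟩ := (h (ρ y₀)).1 ⟨y₀, rfl⟩
    have := htwist τs y₀ y' hy'.symm
    rw [hτs, hτ] at this
    exact hy₀ this
  have hg1 : g τ1 ∉ Geo.subalgebraNormalizer L := by
    intro h
    rw [mem_norm] at h
    obtain ⟨x', -, hx'⟩ := (hL _).1 ((h (ρ x₀)).1 ((hL _).2 ⟨x₀, hx₀, rfl⟩))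
    have := htwist τ1 x₀ x' hx'.symm
    rw [hτ1, hτ, pow_one] at this
    exact hx₀' this
  constructor
  · intro hco
    have hlt' : Geo.subalgebraNormalizer ρ.range < Geo.subalgebraNormalizer L :=
      lt_of_le_of_ne hle (fun h => hgs' (h ▸ hgs))
    have htop := hco.2 _ hlt'
    exact hg1 (htop ▸ Subgroup.mem_top _)
  · rintro ⟨-, hmax⟩
    rcases hmax (Geo.subalgebraNormalizer L ⊓ Geo.specialLinear (Fin n) F)
      (inf_le_inf_right _ hle) inf_le_right with h | h
    · have h1 : g τs ∈ Geo.subalgebraNormalizer L ⊓ Geo.specialLinear (Fin n) F :=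
        ⟨hgs, hgSL _⟩
      rw [h] at h1
      exact hgs' h1.1
    · have h1 : g τ1 ∈ Geo.subalgebraNormalizer L ⊓ Geo.specialLinear (Fin n) F := by
        rw [h]; exact hgSL _
      exact hg1 h1.1

/-- Let F be a finite field, n a positive integer and r a composite number (r > 1, not prime) that divides n with r < n. Let K be a subalgebra of the algebra of n × n matrices over F which is a field of degree r over F (commutative, every non-zero element invertible, of dimension r over F). Then the normaliser N of K in GL_n(F) (a group of type ΓL_{n/r}(F_{q^r})) is not a maximal subgroup of GL_n(F), and N ∩ SL_n(F) is not a maximal subgroup of SL_n(F): both lie properly inside the normaliser of an intermediate subfield of prime degree over F. -/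
theorem result {F : Type*} [Field F]
    [Fintype F] (n r : ℕ) (hr1 : 1 < r) (hrp : ¬ r.Prime) (hrn : r ∣ n) (hlt : r < n)
    (K : Subalgebra F (Matrix (Fin n) (Fin n) F)) (hK : Cfsg.Geo.IsFieldSubalgebra r K) :
    ¬ IsCoatom (Cfsg.Geo.subalgebraNormalizer K) ∧
      ¬ Cfsg.Geo.IsMaximalIn (Cfsg.Geo.specialLinear (Fin n) F)
        (Cfsg.Geo.subalgebraNormalizer K ⊓ Cfsg.Geo.specialLinear (Fin n) F) := by
  classical
  haveI : NeZero n := ⟨by omega⟩
  obtain ⟨s, hsr, hs2, hslt⟩ := Nat.exists_dvd_of_not_prime2 hr1 hrp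
  have hfld : IsField K :=
    { exists_pair_ne := ⟨0, 1, fun h => zero_ne_one (congrArg Subtype.val h)⟩
      mul_comm := fun x y => Subtype.ext (hK.comm x.1 x.2 y.1 y.2)
      mul_inv_cancel := fun {x} hx => by
        obtain ⟨y, hy, hxy⟩ := hK.inv x.1 x.2 (fun h => hx (Subtype.ext h))
        exact ⟨⟨y, hy⟩, Subtype.ext hxy⟩ }
  letI : Field K := hfld.toField
  have key := core n r s hs2 hsr hslt hrn hlt K.val hK.finrank_eq
  have hrange : K.val.range = K := Subalgebra.range_val K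
  rwa [hrange] at key

end Cfsg.Agent.S5887
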