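import Mathlib
import Cfsg.Statements.S5896

set_option autoImplicit false
set_option linter.unusedSimpArgs false
open Cfsg

namespace Cfsg.Agent.S5896

open Matrix
open scoped commutatorElement

section sl2

variable {R : Type} [CommRing R]

theorem sl_ext (g h : Matrix.SpecialLinearGroup (Fin 2) R) (h00 : g.1 0 0 = h.1 0 0)
    (h01 : g.1 0 1 = h.1 0 1) (h10 : g.1 1 0 = h.1 1 0) (h11 : g.1 1 1 = h.1 1 1) : g = h := by
  apply Subtype.ext
  ext i j
  fin_cases i <;> fin_cases j <;> assumption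

theorem det_eq (g : Matrix.SpecialLinearGroup (Fin 2) R) :
    g.1 0 0 * g.1 1 1 - g.1 0 1 * g.1 1 0 = 1 := by
  have := g.2
  rwa [Matrix.det_fin_two] at this

theorem mul00 (g h : Matrix.SpecialLinearGroup (Fin 2) R) :
    (g * h).1 0 0 = g.1 0 0 * h.1 0 0 + g.1 0 1 * h.1 1 0 := by
  change (g.1 * h.1) 0 0 = _
  rw [Matrix.mul_apply, Fin.sum_univ_two]

theorem mul01 (g h : Matrix.SpecialLinearGroup (Fin 2) R) :
    (g * h).1 0 1 = g.1 0 0 * h.1 0 1 + g.1 0 1 * h.1 1 1 := by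
  change (g.1 * h.1) 0 1 = _
  rw [Matrix.mul_apply, Fin.sum_univ_two]

theorem mul10 (g h : Matrix.SpecialLinearGroup (Fin 2) R) :
    (g * h).1 1 0 = g.1 1 0 * h.1 0 0 + g.1 1 1 * h.1 1 0 := by
  change (g.1 * h.1) 1 0 = _
  rw [Matrix.mul_apply, Fin.sum_univ_two]

theorem mul11 (g h : Matrix.SpecialLinearGroup (Fin 2) R) :
    (g * h).1 1 1 = g.1 1 0 * h.1 0 1 + g.1 1 1 * h.1 1 1 := by
  change (g.1 * h.1) 1 1 = _
  rw [Matrix.mul_apply, Fin.sum_univ_two]

theorem inv_val (g : Matrix.SpecialLinearGroup (Fin 2) R) :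
    (g⁻¹).1 = !![g.1 1 1, -g.1 0 1; -g.1 1 0, g.1 0 0] := by
  change Matrix.adjugate g.1 = _
  rw [Matrix.adjugate_fin_two]

theorem inv00 (g : Matrix.SpecialLinearGroup (Fin 2) R) : (g⁻¹).1 0 0 = g.1 1 1 := by
  rw [inv_val]; rfl

theorem inv01 (g : Matrix.SpecialLinearGroup (Fin 2) R) : (g⁻¹).1 0 1 = -g.1 0 1 := by
  rw [inv_val]; rfl

theorem inv10 (g : Matrix.SpecialLinearGroup (Fin 2) R) : (g⁻¹).1 1 0 = -g.1 1 0 := by
  rw [inv_val]; rfl

theorem inv11 (g : Matrix.SpecialLinearGroup (Fin 2) R) : (g⁻¹).1 1 1 = g.1 0 0 := by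
  rw [inv_val]; rfl

theorem one00 : (1 : Matrix.SpecialLinearGroup (Fin 2) R).1 0 0 = 1 := rfl
theorem one01 : (1 : Matrix.SpecialLinearGroup (Fin 2) R).1 0 1 = 0 := rfl
theorem one10 : (1 : Matrix.SpecialLinearGroup (Fin 2) R).1 1 0 = 0 := rfl
theorem one11 : (1 : Matrix.SpecialLinearGroup (Fin 2) R).1 1 1 = 1 := rfl

/-- Upper unipotent element. -/
def u (x : R) : Matrix.SpecialLinearGroup (Fin 2) R :=
  ⟨!![1, x; 0, 1], by simp [Matrix.det_fin_two]⟩

/-- Lower unipotent element. -/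
def l (y : R) : Matrix.SpecialLinearGroup (Fin 2) R :=
  ⟨!![1, 0; y, 1], by simp [Matrix.det_fin_two]⟩

/-- Diagonal element. -/
def dgm (a b : R) (h : a * b = 1) : Matrix.SpecialLinearGroup (Fin 2) R :=
  ⟨!![a, 0; 0, b], by simp [Matrix.det_fin_two, h]⟩

theorem u00 (x : R) : (u x).1 0 0 = 1 := rfl
theorem u01 (x : R) : (u x).1 0 1 = x := rfl
theorem u10 (x : R) : (u x).1 1 0 = 0 := rfl
theorem u11 (x : R) : (u x).1 1 1 = 1 := rfl
theorem l00 (x : R) : (l x).1 0 0 = 1 := rfl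
theorem l01 (x : R) : (l x).1 0 1 = 0 := rfl
theorem l10 (x : R) : (l x).1 1 0 = x := rfl
theorem l11 (x : R) : (l x).1 1 1 = 1 := rfl
theorem d00 (a b : R) (h : a * b = 1) : (dgm a b h).1 0 0 = a := rfl
theorem d01 (a b : R) (h : a * b = 1) : (dgm a b h).1 0 1 = 0 := rfl
theorem d10 (a b : R) (h : a * b = 1) : (dgm a b h).1 1 0 = 0 := rfl
theorem d11 (a b : R) (h : a * b = 1) : (dgm a b h).1 1 1 = b := rfl

/-- The subgroup generated by the elementary matrices of level `t`. -/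
def E (t : R) : Subgroup (Matrix.SpecialLinearGroup (Fin 2) R) :=
  Subgroup.closure (Set.range (fun x => u (t * x)) ∪ Set.range (fun y => l (t * y)))

theorem u_mem_E (t x : R) : u (t * x) ∈ E t := Subgroup.subset_closure (Or.inl ⟨x, rfl⟩)

theorem l_mem_E (t y : R) : l (t * y) ∈ E t := Subgroup.subset_closure (Or.inr ⟨y, rfl⟩)

theorem comm_le_self {G : Type*} [Group G] (H : Subgroup G) : ⁅H, H⁆ ≤ H :=
  Subgroup.commutator_le.mpr (fun _ hg _ hh =>
    H.mul_mem (H.mul_mem (H.mul_mem hg hh) (H.inv_mem hg)) (H.inv_mem hh))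

theorem E_cube (t b ωi : R) (hb : (1 + t ^ 2 + t ^ 4) * b = 1)
    (hω : (1 + t ^ 2) * (2 + t ^ 2 + t ^ 4) * ωi = 1) : E (t ^ 3) ≤ ⁅E t, E t⁆ := by
  have hC : ⁅u (t * 1), l (t * 1)⁆ ∈ ⁅E t, E t⁆ :=
    Subgroup.commutator_mem_commutator (u_mem_E t 1) (l_mem_E t 1)
  have hD : dgm (1 + t ^ 2 + t ^ 4) b hb ∈ E t := by
    have e : dgm (1 + t ^ 2 + t ^ 4) b hb
        = l (t * (-(t ^ 2) * b)) * ⁅u (t * 1), l (t * 1)⁆ * u (t * (t ^ 2 * b)) := by
      rw [commutatorElement_def]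
      apply sl_ext <;>
        simp only [mul00, mul01, mul10, mul11, inv00, inv01, inv10, inv11, u00, u01, u10, u11,
          l00, l01, l10, l11, d00, d01, d10, d11]
      · ring
      · linear_combination (-(t ^ 3)) * hb
      · linear_combination (t ^ 3) * hb
      · linear_combination (1 - t ^ 2 + t ^ 6 * b) * hb
    rw [e]
    exact (E t).mul_mem ((E t).mul_mem (l_mem_E t _) (comm_le_self (E t) hC)) (u_mem_E t _)
  unfold E
  rw [Subgroup.closure_le]
  rintro g (⟨x, rfl⟩ | ⟨y, rfl⟩)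
  · have e : u (t ^ 3 * x) = ⁅dgm (1 + t ^ 2 + t ^ 4) b hb, u (t * (ωi * x))⁆ := by
      rw [commutatorElement_def]
      apply sl_ext <;>
        simp only [mul00, mul01, mul10, mul11, inv00, inv01, inv10, inv11, u00, u01, u10, u11,
          d00, d01, d10, d11]
      · linear_combination (-1 : R) * hb
      · linear_combination (-(t ^ 3 * x)) * hω + (t * (ωi * x)) * hb
      · ring
      · linear_combination (-1 : R) * hb
    change u (t ^ 3 * x) ∈ _
    rw [e]
    exact Subgroup.commutator_mem_commutator hD (u_mem_E t _)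
  · have e : l (t ^ 3 * y)
        = ⁅dgm (1 + t ^ 2 + t ^ 4) b hb, l (t * (-((1 + t ^ 2 + t ^ 4) ^ 2) * ωi * y))⁆ := by
      rw [commutatorElement_def]
      apply sl_ext <;>
        simp only [mul00, mul01, mul10, mul11, inv00, inv01, inv10, inv11, l00, l01, l10, l11,
          d00, d01, d10, d11]
      · linear_combination (-1 : R) * hb
      · ring
      · linear_combination (t * ωi * y * ((1 + t ^ 2 + t ^ 4) * b + 1)
          - t * (1 + t ^ 2 + t ^ 4) ^ 2 * ωi * y) * hb - (t ^ 3 * y) * hω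
      · linear_combination (-1 : R) * hb
    change l (t ^ 3 * y) ∈ _
    rw [e]
    exact Subgroup.commutator_mem_commutator hD (l_mem_E t _)

theorem dgm_mem_E1 (a b : R) (h : a * b = 1) : dgm a b h ∈ E (1 : R) := by
  have e : dgm a b h
      = u (1 * a) * l (1 * (-b)) * u (1 * a) * (u (1 * 1) * l (1 * (-1)) * u (1 * 1))⁻¹ := by
    apply sl_ext <;>
      simp only [mul00, mul01, mul10, mul11, inv00, inv01, inv10, inv11, u00, u01, u10, u11,
        l00, l01, l10, l11, d00, d01, d10, d11]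
    · linear_combination a * h
    · linear_combination (-1 : R) * h
    · linear_combination h
    · ring
  rw [e]
  exact (E 1).mul_mem ((E 1).mul_mem ((E 1).mul_mem (u_mem_E 1 _) (l_mem_E 1 _)) (u_mem_E 1 _))
    ((E 1).inv_mem ((E 1).mul_mem ((E 1).mul_mem (u_mem_E 1 _) (l_mem_E 1 _)) (u_mem_E 1 _)))

theorem mem_E1_of_unit (g : Matrix.SpecialLinearGroup (Fin 2) R) (b : R)
    (hb : g.1 0 0 * b = 1) : g ∈ E (1 : R) := by
  have hd := det_eq g
  have e : g = l (1 * (g.1 1 0 * b)) * dgm (g.1 0 0) b hb * u (1 * (g.1 0 1 * b)) := by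
    apply sl_ext <;>
      simp only [mul00, mul01, mul10, mul11, u00, u01, u10, u11, l00, l01, l10, l11,
        d00, d01, d10, d11]
    · ring
    · linear_combination (-(g.1 0 1)) * hb
    · linear_combination (-(g.1 1 0)) * hb
    · linear_combination (-(g.1 1 1) * (g.1 0 0 * b + 1) + b) * hb + (b ^ 2 * g.1 0 0) * hd
  rw [e]
  exact (E 1).mul_mem ((E 1).mul_mem (l_mem_E 1 _) (dgm_mem_E1 _ _ hb)) (u_mem_E 1 _)

theorem gen_top (hloc : ∀ g : Matrix.SpecialLinearGroup (Fin 2) R,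
    (∃ b, g.1 0 0 * b = 1) ∨ (∃ b, (g.1 0 0 + g.1 1 0) * b = 1)) : E (1 : R) = ⊤ := by
  rw [eq_top_iff]
  intro g _
  rcases hloc g with ⟨b, hb⟩ | ⟨b, hb⟩
  · exact mem_E1_of_unit g b hb
  · have h1 : u (1 * 1) * g ∈ E (1 : R) := mem_E1_of_unit _ b (by
      rw [mul00, u00, u01]
      linear_combination hb)
    have e : g = (u (1 * 1))⁻¹ * (u (1 * 1) * g) := by group
    rw [e]
    exact (E 1).mul_mem ((E 1).inv_mem (u_mem_E 1 1)) h1

/-- Upper triangular elements. -/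
def Bor : Subgroup (Matrix.SpecialLinearGroup (Fin 2) R) where
  carrier := {g | g.1 1 0 = 0}
  mul_mem' := by
    intro g h hg hh
    have hg' : g.1 1 0 = 0 := hg
    have hh' : h.1 1 0 = 0 := hh
    change (g * h).1 1 0 = 0
    rw [mul10, hg', hh']
    ring
  one_mem' := one10
  inv_mem' := by
    intro g hg
    have hg' : g.1 1 0 = 0 := hg
    change (g⁻¹).1 1 0 = 0
    rw [inv10, hg', neg_zero]

/-- Upper unitriangular elements. -/
def Uni : Subgroup (Matrix.SpecialLinearGroup (Fin 2) R) where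
  carrier := {g | g.1 1 0 = 0 ∧ g.1 0 0 = 1 ∧ g.1 1 1 = 1}
  mul_mem' := by
    rintro g h ⟨hg1, hg2, hg3⟩ ⟨hh1, hh2, hh3⟩
    refine ⟨?_, ?_, ?_⟩
    · rw [mul10, hg1, hh1]; ring
    · rw [mul00, hg2, hh2, hh1]; ring
    · rw [mul11, hg1, hg3, hh3]; ring
  one_mem' := ⟨one10, one00, one11⟩
  inv_mem' := by
    rintro g ⟨hg1, hg2, hg3⟩
    exact ⟨by rw [inv10, hg1, neg_zero], by rw [inv00, hg3], by rw [inv11, hg2]⟩

theorem comm_Bor : ⁅(Bor : Subgroup (Matrix.SpecialLinearGroup (Fin 2) R)), Bor⁆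
    ≤ (Uni : Subgroup (Matrix.SpecialLinearGroup (Fin 2) R)) := by
  rw [Subgroup.commutator_le]
  intro g hg h hh
  have hg' : g.1 1 0 = 0 := hg
  have hh' : h.1 1 0 = 0 := hh
  have hdg := det_eq g
  have hdh := det_eq h
  rw [hg', mul_zero, sub_zero] at hdg
  rw [hh', mul_zero, sub_zero] at hdh
  rw [commutatorElement_def]
  refine ⟨?_, ?_, ?_⟩
  · simp only [mul00, mul01, mul10, mul11, inv00, inv01, inv10, inv11, hg', hh']
    ring
  · simp only [mul00, mul01, mul10, mul11, inv00, inv01, inv10, inv11, hg', hh']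
    linear_combination (h.1 0 0 * h.1 1 1) * hdg + hdh
  · simp only [mul00, mul01, mul10, mul11, inv00, inv01, inv10, inv11, hg', hh']
    linear_combination (h.1 0 0 * h.1 1 1) * hdg + hdh

theorem comm_Uni : ⁅(Uni : Subgroup (Matrix.SpecialLinearGroup (Fin 2) R)), Uni⁆
    ≤ (⊥ : Subgroup (Matrix.SpecialLinearGroup (Fin 2) R)) := by
  rw [Subgroup.commutator_le]
  rintro g ⟨hg1, hg2, hg3⟩ h ⟨hh1, hh2, hh3⟩
  rw [Subgroup.mem_bot, commutatorElement_def]
  apply sl_ext <;>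
    simp only [mul00, mul01, mul10, mul11, inv00, inv01, inv10, inv11, hg1, hg2, hg3, hh1, hh2,
      hh3, one00, one01, one10, one11] <;>
    ring

/-- Principal congruence subgroup of level `t`. -/
def Gam (t : R) : Subgroup (Matrix.SpecialLinearGroup (Fin 2) R) where
  carrier := {g | ∃ A : Matrix (Fin 2) (Fin 2) R, g.1 = 1 + t • A}
  one_mem' := ⟨0, by simp⟩
  mul_mem' := by
    rintro g h ⟨A, hA⟩ ⟨B, hB⟩
    refine ⟨A + B + t • (A * B), ?_⟩
    change g.1 * h.1 = _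
    rw [hA, hB]
    simp only [mul_add, add_mul, one_mul, mul_one, Matrix.smul_mul, Matrix.mul_smul, smul_add]
    abel
  inv_mem' := by
    rintro g ⟨A, hA⟩
    refine ⟨-((g⁻¹).1 * A), ?_⟩
    have h1 : (g⁻¹).1 * g.1 = 1 := congrArg Subtype.val (inv_mul_cancel g)
    rw [hA, mul_add, mul_one, Matrix.mul_smul] at h1
    rw [smul_neg, ← sub_eq_add_neg, eq_sub_iff_add_eq]
    exact h1

theorem comm_Gam (t t' : R) : ⁅Gam t, Gam t'⁆ ≤ Gam (t * t') := by
  rw [Subgroup.commutator_le]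
  rintro g ⟨A, hA⟩ h ⟨B, hB⟩
  refine ⟨(A * B - B * A) * (g⁻¹).1 * (h⁻¹).1, ?_⟩
  have h1 : g.1 * h.1 = h.1 * g.1 + (t * t') • (A * B - B * A) := by
    rw [hA, hB]
    simp only [mul_add, add_mul, one_mul, mul_one, Matrix.smul_mul, Matrix.mul_smul, smul_add,
      smul_sub, smul_smul, mul_comm t' t]
    abel
  have h2 : h.1 * g.1 * (g⁻¹).1 * (h⁻¹).1 = 1 := by
    have e : h * g * g⁻¹ * h⁻¹ = 1 := by group
    exact congrArg Subtype.val e
  rw [commutatorElement_def]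
  change g.1 * h.1 * (g⁻¹).1 * (h⁻¹).1 = _
  rw [h1, add_mul, add_mul, h2, Matrix.smul_mul, Matrix.smul_mul]

theorem Gam_zero : Gam (0 : R) = ⊥ := by
  rw [eq_bot_iff]
  rintro g ⟨A, hA⟩
  rw [Subgroup.mem_bot]
  apply Subtype.ext
  rw [hA, zero_smul, add_zero]
  rfl

theorem ker_le_Gam (p : R) (g : Matrix.SpecialLinearGroup (Fin 2) R)
    (hg : Matrix.SpecialLinearGroup.map (Ideal.Quotient.mk (Ideal.span {p})) g = 1) :
    g ∈ Gam p := by
  have h : ∀ i j, ∃ a, g.1 i j - (1 : Matrix (Fin 2) (Fin 2) R) i j = p * a := by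
    intro i j
    have h1 : Ideal.Quotient.mk (Ideal.span {p}) (g.1 i j)
        = (1 : Matrix (Fin 2) (Fin 2) (R ⧸ Ideal.span {p})) i j := by
      have := congrArg (fun x : Matrix.SpecialLinearGroup (Fin 2) (R ⧸ Ideal.span {p}) =>
        x.1 i j) hg
      exact this
    have h2 : Ideal.Quotient.mk (Ideal.span {p})
        (g.1 i j - (1 : Matrix (Fin 2) (Fin 2) R) i j) = 0 := by
      rw [map_sub, h1]
      by_cases hij : i = j
      · rw [hij, Matrix.one_apply_eq, Matrix.one_apply_eq, map_one, sub_self]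
      · rw [Matrix.one_apply_ne hij, Matrix.one_apply_ne hij, map_zero, sub_self]
    rw [Ideal.Quotient.eq_zero_iff_mem, Ideal.mem_span_singleton] at h2
    exact h2
  choose A hA using h
  refine ⟨Matrix.of A, ?_⟩
  ext i j
  rw [Matrix.add_apply, Matrix.smul_apply, Matrix.of_apply, smul_eq_mul]
  linear_combination hA i j

/-- The reduction map modulo `p`. -/
noncomputable def red (p : R) : Matrix.SpecialLinearGroup (Fin 2) R →*
    Matrix.SpecialLinearGroup (Fin 2) (R ⧸ Ideal.span {p}) :=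
  Matrix.SpecialLinearGroup.map (Ideal.Quotient.mk (Ideal.span {p}))

theorem red_entry (p : R) (g : Matrix.SpecialLinearGroup (Fin 2) R) (i j : Fin 2) :
    (red p g).1 i j = Ideal.Quotient.mk (Ideal.span {p}) (g.1 i j) := rfl

/-- The preimage of the upper triangular group modulo `p`. -/
noncomputable def Hs (p : R) : Subgroup (Matrix.SpecialLinearGroup (Fin 2) R) :=
  Bor.comap (red p)

theorem mem_Hs (p : R) (g : Matrix.SpecialLinearGroup (Fin 2) R) : g ∈ Hs p ↔ p ∣ g.1 1 0 := by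
  change (red p g).1 1 0 = 0 ↔ _
  rw [red_entry, Ideal.Quotient.eq_zero_iff_mem, Ideal.mem_span_singleton]

theorem comm_Hs (p : R) : ⁅Hs p, Hs p⁆ ≤ Uni.comap (red p) := by
  rw [Subgroup.commutator_le]
  intro g hg h hh
  change red p ⁅g, h⁆ ∈ Uni
  rw [map_commutatorElement]
  exact comm_Bor (Subgroup.commutator_mem_commutator hg hh)

theorem comm_H1 (p : R) : ⁅Uni.comap (red p), Uni.comap (red p)⁆ ≤ Gam p := by
  rw [Subgroup.commutator_le]
  intro g hg h hh
  apply ker_le_Gam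
  change red p ⁅g, h⁆ = 1
  rw [map_commutatorElement, ← Subgroup.mem_bot]
  exact comm_Uni (Subgroup.commutator_mem_commutator hg hh)

theorem solvable_of_chain {G : Type*} [Group G] (H : Subgroup G) (N : ℕ → Subgroup G)
    (h0 : H ≤ N 0) (hstep : ∀ n, ⁅N n, N n⁆ ≤ N (n + 1)) (m : ℕ) (hm : N m = ⊥) :
    Group.IsSolvable H := by
  have key : ∀ n, (derivedSeries H n).map H.subtype ≤ N n := by
    intro n
    induction n with
    | zero =>
      rw [derivedSeries_zero, ← MonoidHom.range_eq_map, Subgroup.range_subtype]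
      exact h0
    | succ n ih =>
      rw [derivedSeries_succ, Subgroup.map_commutator]
      exact (Subgroup.commutator_mono ih ih).trans (hstep n)
  refine ⟨⟨m, ?_⟩⟩
  have := key m
  rw [hm, le_bot_iff, Subgroup.map_eq_bot_iff_of_injective _ H.subtype_injective] at this
  exact this

theorem derived_ge {G : Type*} [Group G] (H : Subgroup G) (N : ℕ → Subgroup G)
    (h0 : N 0 ≤ H) (hstep : ∀ n, N (n + 1) ≤ ⁅N n, N n⁆) :
    ∀ n, N n ≤ (derivedSeries H n).map H.subtype := by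
  intro n
  induction n with
  | zero =>
    rw [derivedSeries_zero, ← MonoidHom.range_eq_map, Subgroup.range_subtype]
    exact h0
  | succ n ih =>
    rw [derivedSeries_succ, Subgroup.map_commutator]
    exact (hstep n).trans (Subgroup.commutator_mono ih ih)

theorem Hs_solvable (p : R) (m : ℕ) (hm : p ^ (2 ^ m) = 0) : Group.IsSolvable (Hs p) := by
  refine solvable_of_chain (Hs p)
    (fun n => if n = 0 then Hs p else if n = 1 then Uni.comap (red p) else Gam (p ^ (2 ^ (n - 2))))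
    (by simp) ?_ (m + 2) ?_
  · intro n
    rcases Nat.lt_or_ge n 2 with h | h
    · interval_cases n
      · simpa using comm_Hs p
      · simpa using comm_H1 p
    · have e1 : ¬ n = 0 := by omega
      have e2 : ¬ n = 1 := by omega
      have e3 : ¬ n + 1 = 0 := by omega
      have e4 : ¬ n + 1 = 1 := by omega
      rw [if_neg e1, if_neg e2, if_neg e3, if_neg e4]
      have e5 : n + 1 - 2 = (n - 2) + 1 := by omega
      rw [e5, pow_succ, pow_mul, pow_two]
      exact comm_Gam _ _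
  · have e1 : ¬ m + 2 = 0 := by omega
    have e2 : ¬ m + 2 = 1 := by omega
    rw [if_neg e1, if_neg e2, Nat.add_sub_cancel, hm, Gam_zero]

theorem Hs_coatom (p : R) (hU : ∀ x : R, ¬ p ∣ x → ∃ b, x * b = 1) (h1 : ¬ p ∣ 1)
    (hgen : E (1 : R) = ⊤) : IsCoatom (Hs p) := by
  refine ⟨?_, ?_⟩
  · intro htop
    have : l (1 : R) ∈ Hs p := by rw [htop]; trivial
    rw [mem_Hs, l10] at this
    exact h1 this
  · intro K hK
    obtain ⟨g, hgK, hgH⟩ := SetLike.exists_of_lt hK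
    rw [mem_Hs] at hgH
    obtain ⟨ci, hci⟩ := hU _ hgH
    have hd := det_eq g
    have hu : ∀ x : R, u x ∈ K := fun x => hK.le (by rw [mem_Hs, u10]; exact dvd_zero p)
    set W := u (-(g.1 0 0) * ci) * g * u (-(g.1 1 1) * ci) with hW
    have hWK : W ∈ K := K.mul_mem (K.mul_mem (hu _) hgK) (hu _)
    have hW00 : W.1 0 0 = 0 := by
      rw [hW]
      simp only [mul00, mul01, mul10, mul11, u00, u01, u10, u11]
      linear_combination (-(g.1 0 0)) * hci
    have hW01 : W.1 0 1 = -ci := by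
      rw [hW]
      simp only [mul00, mul01, mul10, mul11, u00, u01, u10, u11]
      linear_combination (g.1 0 0 * g.1 1 1 * ci - g.1 0 1) * hci - ci * hd
    have hW10 : W.1 1 0 = g.1 1 0 := by
      rw [hW]
      simp only [mul00, mul01, mul10, mul11, u00, u01, u10, u11]
      ring
    have hW11 : W.1 1 1 = 0 := by
      rw [hW]
      simp only [mul00, mul01, mul10, mul11, u00, u01, u10, u11]
      linear_combination (-(g.1 1 1)) * hci
    have hl : ∀ z : R, l z ∈ K := by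
      intro z
      have e : l z = W * u (-(ci ^ 2) * z) * W⁻¹ := by
        apply sl_ext <;>
          simp only [mul00, mul01, mul10, mul11, inv00, inv01, inv10, inv11, u00, u01, u10, u11,
            l00, l01, l10, l11, hW00, hW01, hW10, hW11]
        · linear_combination (-1 : R) * hci
        · ring
        · linear_combination (-(z * (g.1 1 0 * ci + 1))) * hci
        · linear_combination (-1 : R) * hci
      rw [e]
      exact K.mul_mem (K.mul_mem hWK (hu _)) (K.inv_mem hWK)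
    rw [eq_top_iff, ← hgen]
    unfold E
    rw [Subgroup.closure_le]
    rintro x (⟨y, rfl⟩ | ⟨y, rfl⟩)
    · exact hu _
    · exact hl _

end sl2

section zmod

theorem zU (k : ℕ) (x : ZMod (5 ^ (k + 1))) (hx : ¬ (5 : ZMod (5 ^ (k + 1))) ∣ x) :
    ∃ b, x * b = 1 := by
  have h5 : Nat.Prime 5 := by norm_num
  have hx0 : x = ((x.val : ℕ) : ZMod (5 ^ (k + 1))) := (ZMod.natCast_zmod_val x).symm
  have hx' : IsUnit x := by
    rw [hx0, ZMod.isUnit_natCast_iff_not_dvd_pow h5 (Nat.succ_pos k)]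
    intro hdiv
    apply hx
    obtain ⟨c, hc⟩ := hdiv
    refine ⟨(c : ZMod (5 ^ (k + 1))), ?_⟩
    rw [hx0, hc]
    push_cast
    rfl
  obtain ⟨b, hb⟩ := hx'.exists_right_inv
  exact ⟨b, hb⟩

theorem z1 (k : ℕ) : ¬ (5 : ZMod (5 ^ (k + 1))) ∣ 1 := by
  have h5 : Nat.Prime 5 := by norm_num
  rintro ⟨c, hc⟩
  have : IsUnit (((5 : ℕ) : ZMod (5 ^ (k + 1)))) :=
    IsUnit.of_mul_eq_one c (by push_cast; exact hc.symm)
  exact ZMod.prime_natCast_not_isUnit_pow h5 (Nat.succ_pos k) this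

theorem zunit (k : ℕ) (x c y : ZMod (5 ^ (k + 1))) (h : x * c = 1 + 5 * y) : ∃ b, x * b = 1 := by
  apply zU
  rintro ⟨z, hz⟩
  apply z1 k
  refine ⟨z * c - y, ?_⟩
  linear_combination (-1 : ZMod (5 ^ (k + 1))) * h + c * hz

theorem zpow_ne (k : ℕ) : (5 : ZMod (5 ^ (k + 1))) ^ k ≠ 0 := by
  intro h
  have h2 : ((5 ^ k : ℕ) : ZMod (5 ^ (k + 1))) = 0 := by
    push_cast
    exact h
  rw [ZMod.natCast_eq_zero_iff] at h2
  have h3 := Nat.le_of_dvd (by positivity) h2
  have h4 : 5 ^ k < 5 ^ (k + 1) := Nat.pow_lt_pow_right (by norm_num) (Nat.lt_succ_self k)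
  omega

theorem zpow_zero (k N : ℕ) (hN : k + 1 ≤ N) : (5 : ZMod (5 ^ (k + 1))) ^ N = 0 := by
  have h1 : (5 : ZMod (5 ^ (k + 1))) ^ (k + 1) = 0 := by
    have := ZMod.natCast_self (5 ^ (k + 1))
    push_cast at this
    exact this
  obtain ⟨e, rfl⟩ := Nat.exists_eq_add_of_le hN
  rw [pow_add (5 : ZMod (5 ^ (k + 1))) (k + 1) e, h1, zero_mul]

theorem zloc (k : ℕ) (g : Matrix.SpecialLinearGroup (Fin 2) (ZMod (5 ^ (k + 1)))) :
    (∃ b, g.1 0 0 * b = 1) ∨ (∃ b, (g.1 0 0 + g.1 1 0) * b = 1) := by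
  by_cases h : (5 : ZMod (5 ^ (k + 1))) ∣ g.1 0 0
  · right
    apply zU
    intro h'
    obtain ⟨c, hc⟩ := h
    obtain ⟨c', hc'⟩ := h'
    apply z1 k
    have hd := det_eq g
    refine ⟨c * g.1 1 1 - g.1 0 1 * (c' - c), ?_⟩
    linear_combination (-1 : ZMod (5 ^ (k + 1))) * hd + (g.1 1 1 + g.1 0 1) * hc
      - g.1 0 1 * hc'
  · left
    exact zU k _ h

end zmod

/-- Finite perfect groups have solvable maximal subgroups of unbounded derived length: for every d there is a finite perfect group G (equal to its commutator subgroup) with a solvable maximal subgroup H whose derived length exceeds d, i.e. the d-th term of the derived series of H is non-trivial. (Take the derived subgroup of a wreath product S ≀ A₅ with S solvable of large derived length, and H the preimage of a maximal subgroup of A₅.) -/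
theorem result (d : ℕ) :
    ∃ (G : Type) (_ : Group G) (_ : Finite G) (H : Subgroup G), commutator G = ⊤ ∧ IsCoatom H ∧ Group.IsSolvable H ∧
      derivedSeries H d ≠ ⊥ := by
  classical
  have hgen : E (1 : ZMod (5 ^ (3 ^ d + 1))) = ⊤ := gen_top (zloc (3 ^ d))
  refine ⟨Matrix.SpecialLinearGroup (Fin 2) (ZMod (5 ^ (3 ^ d + 1))), inferInstance,
    inferInstance, Hs (5 : ZMod (5 ^ (3 ^ d + 1))), ?_, ?_, ?_, ?_⟩
  · obtain ⟨b, hb⟩ := zunit (3 ^ d) (1 + 1 ^ 2 + 1 ^ 4) 2 1 (by norm_num)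
    obtain ⟨ωi, hω⟩ := zunit (3 ^ d) ((1 + 1 ^ 2) * (2 + 1 ^ 2 + 1 ^ 4)) 2 3 (by norm_num)
    have h1 := E_cube (1 : ZMod (5 ^ (3 ^ d + 1))) b ωi hb hω
    rw [one_pow, hgen] at h1
    exact eq_top_iff.mpr (h1.trans (Subgroup.commutator_mono le_top le_top))
  · exact Hs_coatom 5 (zU (3 ^ d)) (z1 (3 ^ d)) hgen
  · refine Hs_solvable 5 (3 ^ d + 1) (zpow_zero (3 ^ d) _ ?_)
    exact (Nat.lt_two_pow_self).le
  · intro hbot
    have key := derived_ge (Hs (5 : ZMod (5 ^ (3 ^ d + 1))))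
      (fun n => E ((5 : ZMod (5 ^ (3 ^ d + 1))) ^ (3 ^ n))) ?_ ?_ d
    · rw [hbot, Subgroup.map_bot, le_bot_iff] at key
      have h1 : u ((5 : ZMod (5 ^ (3 ^ d + 1))) ^ (3 ^ d) * 1) ∈ E ((5 : ZMod (5 ^ (3 ^ d + 1))) ^ (3 ^ d)) :=
        u_mem_E _ 1
      rw [key, Subgroup.mem_bot] at h1
      have h2 := congrArg (fun g : Matrix.SpecialLinearGroup (Fin 2) (ZMod (5 ^ (3 ^ d + 1))) =>
        g.1 0 1) h1
      simp only [u01, one01, mul_one] at h2
      exact zpow_ne (3 ^ d) h2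
    · unfold E
      rw [Subgroup.closure_le]
      rintro x (⟨y, rfl⟩ | ⟨y, rfl⟩)
      · change u _ ∈ Hs _
        rw [mem_Hs, u10]
        exact dvd_zero _
      · change l _ ∈ Hs _
        rw [mem_Hs, l10, pow_zero, pow_one]
        exact dvd_mul_right _ _
    · intro n
      have hpos : 1 ≤ 3 ^ n := Nat.one_le_pow _ _ (by norm_num)
      obtain ⟨e, he⟩ : ∃ e, 3 ^ n = e + 1 := ⟨3 ^ n - 1, by omega⟩
      have ht : (5 : ZMod (5 ^ (3 ^ d + 1))) ^ (3 ^ n) = 5 * 5 ^ e := by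
        rw [he]
        exact pow_succ' _ _
      obtain ⟨b, hb⟩ := zunit (3 ^ d)
        (1 + ((5 : ZMod (5 ^ (3 ^ d + 1))) ^ (3 ^ n)) ^ 2 + ((5 : ZMod (5 ^ (3 ^ d + 1))) ^ (3 ^ n)) ^ 4) 1
        (5 ^ e * ((5 : ZMod (5 ^ (3 ^ d + 1))) ^ (3 ^ n) + ((5 : ZMod (5 ^ (3 ^ d + 1))) ^ (3 ^ n)) ^ 3))
        (by rw [ht]; ring)
      obtain ⟨ωi, hω⟩ := zunit (3 ^ d)
        ((1 + ((5 : ZMod (5 ^ (3 ^ d + 1))) ^ (3 ^ n)) ^ 2) *
          (2 + ((5 : ZMod (5 ^ (3 ^ d + 1))) ^ (3 ^ n)) ^ 2 + ((5 : ZMod (5 ^ (3 ^ d + 1))) ^ (3 ^ n)) ^ 4)) 3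
        (1 + 5 ^ e * (9 * (5 : ZMod (5 ^ (3 ^ d + 1))) ^ (3 ^ n)
          + 6 * ((5 : ZMod (5 ^ (3 ^ d + 1))) ^ (3 ^ n)) ^ 3 + 3 * ((5 : ZMod (5 ^ (3 ^ d + 1))) ^ (3 ^ n)) ^ 5))
        (by rw [ht]; ring)
      have h1 := E_cube ((5 : ZMod (5 ^ (3 ^ d + 1))) ^ (3 ^ n)) b ωi hb hω
      rw [← pow_mul, ← pow_succ] at h1
      exact h1

end Cfsg.Agent.S5896
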