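import Cfsg.Statements.S5902
import Cfsg.Agent.S5901

set_option autoImplicit false
open Pointwise
open Cfsg

namespace Cfsg.Agent.S5902

theorem compl_conj {G : Type*} [Group G] (H : Subgroup G) (b : G)
    (h : ∃ C : Subgroup G, H.map (MulAut.conj b).toMonoidHom ⊔ C = ⊤ ∧
      H.map (MulAut.conj b).toMonoidHom ⊓ C = ⊥) :
    ∃ C : Subgroup G, H ⊔ C = ⊤ ∧ H ⊓ C = ⊥ := by
  obtain ⟨C, h1, h2⟩ := h
  have hinj : Function.Injective (MulAut.conj b).toMonoidHom := (MulAut.conj b).injective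
  have hsurj : Function.Surjective (MulAut.conj b).toMonoidHom := (MulAut.conj b).surjective
  refine ⟨C.comap (MulAut.conj b).toMonoidHom, ?_, ?_⟩
  · have := congrArg (Subgroup.comap (MulAut.conj b).toMonoidHom) h1
    rw [Subgroup.comap_top, ← Subgroup.comap_sup_eq _ _ _ hsurj,
      Subgroup.comap_map_eq_self_of_injective hinj] at this
    exact this
  · have := congrArg (Subgroup.comap (MulAut.conj b).toMonoidHom) h2
    rw [Subgroup.comap_inf, Subgroup.comap_map_eq_self_of_injective hinj, MonoidHom.comap_bot,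
      (MonoidHom.ker_eq_bot_iff _).mpr hinj] at this
    exact this

theorem part1 {G : Type*} [Group G] [Finite G] (X M : Subgroup G)
    (hK : ComplementedLattice (Subgroup X))
    (hM : IsCoatom M) (hXM : X ≤ M) (huniq : ∀ M' : Subgroup G, IsCoatom M' → X ≤ M' → M' = M)
    (H : Subgroup G) (hH : ¬ H ≤ M.normalCore) : ∃ C : Subgroup G, H ⊔ C = ⊤ ∧ H ⊓ C = ⊥ := by
  have hX : X ≠ ⊤ := by
    rintro rfl
    exact hM.1 (top_le_iff.mp hXM)
  have hint : ∀ Y : Subgroup G, (⊥ : Subgroup G) ≤ Y → Y ≤ X →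
      ∃ C : Subgroup G, ⊥ ≤ C ∧ C ≤ X ∧ Y ⊔ C = X ∧ Y ⊓ C = ⊥ := by
    intro Y _ hYX
    obtain ⟨C', hC'⟩ := hK.exists_isCompl (Y.subgroupOf X)
    refine ⟨C'.map X.subtype, bot_le, ?_, ?_, ?_⟩
    · exact Subgroup.map_subtype_le C'
    · have := congrArg (Subgroup.map X.subtype) hC'.sup_eq_top
      rw [Subgroup.map_sup, Subgroup.map_subgroupOf_eq_of_le hYX] at this
      rw [this, ← MonoidHom.range_eq_map, Subgroup.range_subtype]
    · have := congrArg (Subgroup.map X.subtype) hC'.inf_eq_bot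
      rw [Subgroup.map_inf _ _ _ X.subtype_injective, Subgroup.map_subgroupOf_eq_of_le hYX,
        Subgroup.map_bot] at this
      exact this
  have : ∃ h ∈ H, ∃ b : G, b * h * b⁻¹ ∉ M := by
    by_contra hcon
    push Not at hcon
    exact hH (fun h hh => fun b => hcon h hh b)
  obtain ⟨h, hh, b, hb⟩ := this
  apply compl_conj H b
  apply Cfsg.Agent.S5901.result ⊥ X M bot_le hX hint hM hXM huniq
  · intro hle
    apply hb
    apply hle
    exact ⟨h, hh, by simp [MulAut.conj_apply]⟩
  · simp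

theorem result {G : Type*} [Group G] [Finite G] (X M : Subgroup G)
    (hK : ComplementedLattice (Subgroup X))
    (hM : IsCoatom M) (hXM : X ≤ M) (huniq : ∀ M' : Subgroup G, IsCoatom M' → X ≤ M' → M' = M) :
    (∀ H : Subgroup G, ¬ H ≤ M.normalCore → ∃ C : Subgroup G, H ⊔ C = ⊤ ∧ H ⊓ C = ⊥) ∧
    ComplementedLattice (Subgroup (G ⧸ M.normalCore)) := by
  refine ⟨part1 X M hK hM hXM huniq, ⟨fun Q => ?_⟩⟩
  by_cases hQ : Q = ⊥
  · subst hQ
    exact ⟨⊤, isCompl_bot_top⟩
  · have hsurj : Function.Surjective (QuotientGroup.mk' M.normalCore) := QuotientGroup.mk'_surjective _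
    have hH : ¬ Q.comap (QuotientGroup.mk' M.normalCore) ≤ M.normalCore := by
      intro hle
      apply hQ
      rw [eq_bot_iff]
      intro y hy
      obtain ⟨x, rfl⟩ := hsurj y
      have : x ∈ M.normalCore := hle hy
      rw [Subgroup.mem_bot]
      exact (QuotientGroup.eq_one_iff x).mpr this
    obtain ⟨C, h1, h2⟩ := part1 X M hK hM hXM huniq _ hH
    refine ⟨C.map (QuotientGroup.mk' M.normalCore), ?_, ?_⟩
    · rw [disjoint_iff, eq_bot_iff]
      rintro y ⟨hy1, c, hc, rfl⟩
      have : c ∈ Q.comap (QuotientGroup.mk' M.normalCore) ⊓ C := ⟨hy1, hc⟩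
      rw [h2, Subgroup.mem_bot] at this
      subst this
      simp
    · rw [codisjoint_iff]
      have := congrArg (Subgroup.map (QuotientGroup.mk' M.normalCore)) h1
      rw [Subgroup.map_sup, Subgroup.map_comap_eq_self_of_surjective hsurj,
        Subgroup.map_top_of_surjective _ hsurj] at this
      exact this

end Cfsg.Agent.S5902
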