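import Cfsg.Statements.S5903
import Cfsg.Agent.S5901
import Cfsg.Agent.S5902

set_option autoImplicit false
open Pointwise
open Cfsg

namespace Cfsg.Agent.S5903

theorem interval_compl {G : Type*} [Group G] (X N : Subgroup G) (hNX : N ≤ X)
    [(N.subgroupOf X).Normal] (hK : ComplementedLattice (Subgroup (X ⧸ N.subgroupOf X))) :
    ∀ Y : Subgroup G, N ≤ Y → Y ≤ X → ∃ C : Subgroup G, N ≤ C ∧ C ≤ X ∧ Y ⊔ C = X ∧ Y ⊓ C = N := by
  intro Y hNY hYX
  set π := QuotientGroup.mk' (N.subgroupOf X) with hπ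
  have hsurj : Function.Surjective π := QuotientGroup.mk'_surjective _
  have hker : π.ker = N.subgroupOf X := QuotientGroup.ker_mk' _
  obtain ⟨Q', hQ'⟩ := hK.exists_isCompl ((Y.subgroupOf X).map π)
  have hY' : ((Y.subgroupOf X).map π).comap π = Y.subgroupOf X := by
    apply Subgroup.comap_map_eq_self
    rw [hker]
    exact fun x hx => hNY hx
  have hN' : N.subgroupOf X ≤ Q'.comap π := hker.ge.trans (Subgroup.ker_le_comap π Q')
  refine ⟨(Q'.comap π).map X.subtype, ?_, Subgroup.map_subtype_le _, ?_, ?_⟩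
  · have := Subgroup.map_mono (f := X.subtype) hN'
    rwa [Subgroup.map_subgroupOf_eq_of_le hNX] at this
  · have h1 := congrArg (Subgroup.comap π) hQ'.sup_eq_top
    rw [← Subgroup.comap_sup_eq _ _ _ hsurj, hY', Subgroup.comap_top] at h1
    have h2 := congrArg (Subgroup.map X.subtype) h1
    rw [Subgroup.map_sup, Subgroup.map_subgroupOf_eq_of_le hYX, ← MonoidHom.range_eq_map,
      Subgroup.range_subtype] at h2
    exact h2
  · have h1 := congrArg (Subgroup.comap π) hQ'.inf_eq_bot
    rw [Subgroup.comap_inf, hY', MonoidHom.comap_bot, hker] at h1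
    have h2 := congrArg (Subgroup.map X.subtype) h1
    rw [Subgroup.map_inf _ _ _ X.subtype_injective, Subgroup.map_subgroupOf_eq_of_le hYX,
      Subgroup.map_subgroupOf_eq_of_le hNX] at h2
    exact h2

theorem exists_conj {G : Type*} [Group G] [Finite G] [IsSimpleGroup G] (M N : Subgroup G)
    (hM : IsCoatom M) (hN : (Nat.card N).Prime) (hcen : ∀ n ∈ N, ∀ m ∈ M, m * n = n * m)
    (H : Subgroup G) (hbot : H ≠ ⊥) (htop : H ≠ ⊤) :
    ∃ b : G, ¬ H.map (MulAut.conj b).toMonoidHom ≤ M ∧ H.map (MulAut.conj b).toMonoidHom ⊓ N = ⊥ := by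
  by_contra hcon
  push Not at hcon
  have hNbot : N ≠ ⊥ := by
    rintro rfl
    rw [Subgroup.card_bot] at hN
    exact Nat.not_prime_one hN
  -- reformulated hypothesis
  have hyp : ∀ g : G, (∀ h ∈ H, g⁻¹ * h * g ∈ M) ∨ (∀ n ∈ N, g * n * g⁻¹ ∈ H) := by
    intro g
    by_cases hle : H.map (MulAut.conj g⁻¹).toMonoidHom ≤ M
    · left
      intro h hh
      have : (MulAut.conj g⁻¹).toMonoidHom h ∈ M := hle ⟨h, hh, rfl⟩
      simpa [MulAut.conj_apply] using this
    · right
      have hne := hcon g⁻¹ hle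
      have : Fact (Nat.card N).Prime := ⟨hN⟩
      rcases Subgroup.eq_bot_or_eq_top_of_prime_card
        ((H.map (MulAut.conj g⁻¹).toMonoidHom ⊓ N).subgroupOf N) with h0 | h1
      · exfalso
        apply hne
        rw [Subgroup.subgroupOf_eq_bot] at h0
        have := h0.eq_bot
        rwa [inf_assoc, inf_idem] at this
      · rw [Subgroup.subgroupOf_eq_top] at h1
        intro n hn
        obtain ⟨h, hh, hEq⟩ := (h1 hn).1
        have : g⁻¹ * h * g = n := by simpa [MulAut.conj_apply] using hEq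
        rw [← this]
        simpa [mul_assoc] using hh
  set K : Subgroup G := ⨆ g : {g : G // ∀ n ∈ N, g * n * g⁻¹ ∈ H},
    N.map (MulAut.conj (g : G)).toMonoidHom with hKdef
  have hKH : K ≤ H := by
    apply iSup_le
    rintro ⟨g, hg⟩
    rintro _ ⟨n, hn, rfl⟩
    simpa [MulAut.conj_apply] using hg n hn
  have hnorm : ∀ g : G, ∀ n ∈ N, g * n * g⁻¹ ∈ Subgroup.normalizer (K : Set G) := by
    intro g n hn
    rcases hyp g with hA | hB
    · apply Subgroup.centralizer_le_normalizer
      rw [Subgroup.mem_centralizer_iff]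
      intro k hk
      have hk' := hA k (hKH hk)
      have := hcen n hn _ hk'
      -- (g⁻¹ k g) n = n (g⁻¹ k g)
      calc k * (g * n * g⁻¹) = g * ((g⁻¹ * k * g) * n) * g⁻¹ := by group
        _ = g * (n * (g⁻¹ * k * g)) * g⁻¹ := by rw [this]
        _ = g * n * g⁻¹ * k := by group
    · apply Subgroup.le_normalizer
      have : N.map (MulAut.conj g).toMonoidHom ≤ K :=
        le_iSup (fun g : {g : G // ∀ n ∈ N, g * n * g⁻¹ ∈ H} =>
          N.map (MulAut.conj (g : G)).toMonoidHom) ⟨g, hB⟩
      apply this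
      exact ⟨n, hn, by simp [MulAut.conj_apply]⟩
  have hncl : Subgroup.normalClosure (N : Set G) = ⊤ := by
    rcases (Subgroup.normalClosure_normal (s := (N : Set G))).eq_bot_or_eq_top with h | h
    · exfalso
      apply hNbot
      rw [eq_bot_iff, ← h]
      exact Subgroup.le_normalClosure
    · exact h
  have hKnormal : K.Normal := by
    have : Subgroup.normalizer (K : Set G) = ⊤ := by
      rw [eq_top_iff, ← hncl, Subgroup.normalClosure, Subgroup.closure_le]
      intro x hx
      rw [Group.mem_conjugatesOfSet_iff] at hx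
      obtain ⟨n, hn, hconj⟩ := hx
      obtain ⟨c, hc⟩ := isConj_iff.mp hconj
      rw [← hc]
      exact hnorm c n hn
    exact Subgroup.normalizer_eq_top_iff.mp this
  rcases hKnormal.eq_bot_or_eq_top with hK0 | hK1
  · -- no conjugate of N inside H
    have hall : ∀ g : G, ∀ h ∈ H, g⁻¹ * h * g ∈ M := by
      intro g
      rcases hyp g with hA | hB
      · exact hA
      · exfalso
        have : N.map (MulAut.conj g).toMonoidHom ≤ K :=
          le_iSup (fun g : {g : G // ∀ n ∈ N, g * n * g⁻¹ ∈ H} =>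
            N.map (MulAut.conj (g : G)).toMonoidHom) ⟨g, hB⟩
        rw [hK0, le_bot_iff, Subgroup.map_eq_bot_iff_of_injective _ (MulAut.conj g).injective] at this
        exact hNbot this
    have hcore : H ≤ M.normalCore := by
      intro h hh b
      have := hall b⁻¹ h hh
      simpa using this
    have hcore0 : M.normalCore = ⊥ := by
      rcases (Subgroup.normalCore_normal M).eq_bot_or_eq_top with h | h
      · exact h
      · exfalso
        apply hM.1
        rw [eq_top_iff, ← h]
        exact Subgroup.normalCore_le M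
    apply hbot
    rw [eq_bot_iff, ← hcore0]
    exact hcore
  · apply htop
    rw [eq_top_iff, ← hK1]
    exact hKH

theorem result {G : Type*} [Group G] [Finite G] [IsSimpleGroup G] (X M N : Subgroup G)
    (hM : IsCoatom M) (hXM : X ≤ M) (huniq : ∀ M' : Subgroup G, IsCoatom M' → X ≤ M' → M' = M)
    (hNX : N ≤ X) (hN : (Nat.card N).Prime) (hcen : ∀ n ∈ N, ∀ m ∈ M, m * n = n * m)
    [(N.subgroupOf X).Normal] (hK : ComplementedLattice (Subgroup (X ⧸ N.subgroupOf X))) :
    ComplementedLattice (Subgroup G) := by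
  refine ⟨fun H => ?_⟩
  by_cases hbot : H = ⊥
  · subst hbot
    exact ⟨⊤, isCompl_bot_top⟩
  by_cases htop : H = ⊤
  · subst htop
    exact ⟨⊥, isCompl_top_bot⟩
  have hX : X ≠ ⊤ := by
    rintro rfl
    exact hM.1 (top_le_iff.mp hXM)
  obtain ⟨b, hb1, hb2⟩ := exists_conj M N hM hN hcen H hbot htop
  have h := Cfsg.Agent.S5901.result N X M hNX hX (interval_compl X N hNX hK) hM hXM huniq _ hb1 hb2
  obtain ⟨C, hC1, hC2⟩ := Cfsg.Agent.S5902.compl_conj H b h
  exact ⟨C, IsCompl.of_eq hC2 hC1⟩

end Cfsg.Agent.S5903
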