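import Cfsg.Statements.S5904

set_option autoImplicit false
open Pointwise
open Cfsg

namespace Cfsg.Agent.S5904

theorem result {Ω : Type*} [Fintype Ω] [DecidableEq Ω] (hΩ : 2 < Fintype.card Ω)
    (O : Set Ω) (hO : Nat.card O = Nat.card ↥Oᶜ) :
    ¬ IsCoatom (MulAction.stabilizer (Equiv.Perm Ω) O) := by
  intro hco
  classical
  have hcards : O.ncard + Oᶜ.ncard = Fintype.card Ω := by
    rw [Set.ncard_add_ncard_compl, Nat.card_eq_fintype_card]
  rw [Nat.card_coe_set_eq, Nat.card_coe_set_eq] at hO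
  have h2 : 1 < O.ncard := by omega
  have h2' : 0 < Oᶜ.ncard := by omega
  obtain ⟨x, x', hx, hx', hxx'⟩ := (Set.one_lt_ncard_iff).mp h2
  obtain ⟨y, hy⟩ := (Set.ncard_pos).mp h2'
  have hOne : O ≠ Oᶜ := by
    intro h
    have : x ∈ Oᶜ := h ▸ hx
    exact this hx
  -- the pair stabilizer
  set K : Subgroup (Equiv.Perm Ω) :=
    MulAction.stabilizer (Equiv.Perm Ω) ({O, Oᶜ} : Set (Set Ω)) with hK
  have hpair : ∀ g : Equiv.Perm Ω, g • ({O, Oᶜ} : Set (Set Ω)) = {g • O, (g • O)ᶜ} := by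
    intro g
    rw [Set.smul_set_insert, Set.smul_set_singleton, Set.smul_set_compl]
  have hSK : MulAction.stabilizer (Equiv.Perm Ω) O ≤ K := by
    intro g hg
    rw [MulAction.mem_stabilizer_iff] at hg
    rw [hK, MulAction.mem_stabilizer_iff, hpair, hg]
  -- an element swapping O and its complement
  obtain ⟨e⟩ : Nonempty ({a // a ∈ O} ≃ {a // a ∈ Oᶜ}) := by
    rw [← Finite.card_eq, Nat.card_coe_set_eq, Nat.card_coe_set_eq, hO]
  have hτ : e.extendSubtype • O = Oᶜ := by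
    ext z
    constructor
    · rintro ⟨w, hw, rfl⟩
      show e.extendSubtype w ∈ Oᶜ
      rw [Equiv.extendSubtype_apply_of_mem e w hw]
      exact (e ⟨w, hw⟩).2
    · intro hz
      refine ⟨(e.symm ⟨z, hz⟩ : Ω), (e.symm ⟨z, hz⟩).2, ?_⟩
      show e.extendSubtype (e.symm ⟨z, hz⟩ : Ω) = z
      rw [Equiv.extendSubtype_apply_of_mem e _ (e.symm ⟨z, hz⟩).2]
      simp
  have hτK : e.extendSubtype ∈ K := by
    rw [hK, MulAction.mem_stabilizer_iff, hpair, hτ, compl_compl, Set.pair_comm]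
  have hτS : e.extendSubtype ∉ MulAction.stabilizer (Equiv.Perm Ω) O := by
    rw [MulAction.mem_stabilizer_iff, hτ]
    exact fun h => hOne h.symm
  have hlt : MulAction.stabilizer (Equiv.Perm Ω) O < K :=
    lt_of_le_of_ne hSK (fun h => hτS (h ▸ hτK))
  have hKtop := hco.2 K hlt
  -- a swap that is not in K
  have hσ : Equiv.swap x y ∈ K := by rw [hKtop]; trivial
  rw [hK, MulAction.mem_stabilizer_iff, hpair] at hσ
  have hmem : Equiv.swap x y • O ∈ ({O, Oᶜ} : Set (Set Ω)) := by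
    rw [← hσ]; exact Set.mem_insert _ _
  have hy' : y ∈ Equiv.swap x y • O := ⟨x, hx, by simp⟩
  have hx'' : x' ∈ Equiv.swap x y • O := by
    refine ⟨x', hx', ?_⟩
    have hne : x' ≠ y := fun h => hy (h ▸ hx')
    show Equiv.swap x y x' = x'
    exact Equiv.swap_apply_of_ne_of_ne (Ne.symm hxx') hne
  rcases hmem with h | h
  · rw [h] at hy'
    exact hy hy'
  · rw [Set.mem_singleton_iff] at h
    rw [h] at hx''
    exact hx'' hx'

end Cfsg.Agent.S5904
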