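import Cfsg.Statements.S5908

set_option autoImplicit false
open Cfsg Matrix

namespace Cfsg.Agent.S5908

variable {F : Type*} [Field F]

/-- conjugate transpose over the field with four elements -/
def ct (M : Matrix (Fin 3) (Fin 3) F) : Matrix (Fin 3) (Fin 3) F := fun i j => (M j i) ^ 2

/-- every row has at most one nonzero entry -/
def Mono (M : Matrix (Fin 3) (Fin 3) F) : Prop := ∀ i j k, j ≠ k → M i j = 0 ∨ M i k = 0

theorem mono_one : Mono (1 : Matrix (Fin 3) (Fin 3) F) := by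
  intro i j k hjk
  by_cases hij : i = j
  · right
    subst hij
    exact Matrix.one_apply_ne hjk
  · left
    exact Matrix.one_apply_ne hij

theorem mono_mul {M N : Matrix (Fin 3) (Fin 3) F} (hM : Mono M) (hN : Mono N) :
    Mono (M * N) := by
  intro i j k hjk
  by_cases h : ∃ s, M i s ≠ 0
  · obtain ⟨s, hs⟩ := h
    have h0 : ∀ l, l ≠ s → M i l = 0 := fun l hl => (hM i l s hl).resolve_right hs
    have e : ∀ m, (M * N) i m = M i s * N s m := by
      intro m
      rw [Matrix.mul_apply]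
      rw [Finset.sum_eq_single s]
      · intro l _ hl
        rw [h0 l hl, zero_mul]
      · intro h
        exact absurd (Finset.mem_univ s) h
    rw [e, e]
    rcases hN s j k hjk with h1 | h1
    · left
      rw [h1, mul_zero]
    · right
      rw [h1, mul_zero]
  · push Not at h
    left
    rw [Matrix.mul_apply]
    exact Finset.sum_eq_zero (fun l _ => by rw [h l, zero_mul])

theorem mono_pow {M : Matrix (Fin 3) (Fin 3) F} (hM : Mono M) (n : ℕ) : Mono (M ^ n) := by
  induction n with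
  | zero => rw [pow_zero]; exact mono_one
  | succ n ih => rw [pow_succ]; exact mono_mul ih hM

theorem sum3 (f : Fin 3 → F) (j k l : Fin 3) (hjk : j ≠ k) (hjl : j ≠ l) (hkl : k ≠ l) :
    ∑ m, f m = f j + f k + f l := by
  rw [Fin.sum_univ_three]
  fin_cases j <;> fin_cases k <;> fin_cases l <;> simp at hjk hjl hkl ⊢ <;> ring

section four
variable [Fintype F]

theorem pow4 (hF : Fintype.card F = 4) (x : F) : x ^ 4 = x := by
  have h := FiniteField.pow_card x
  rwa [hF] at h

theorem two0 (hF : Fintype.card F = 4) : (2 : F) = 0 := by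
  have h := Nat.cast_card_eq_zero F
  rw [hF] at h
  have h4 : (2 : F) * 2 = 0 := by
    have : ((4 : ℕ) : F) = 2 * 2 := by norm_num
    rw [← this]
    exact h
  exact mul_self_eq_zero.mp h4

theorem cube (hF : Fintype.card F = 4) {x : F} (hx : x ≠ 0) : x ^ 3 = 1 := by
  have h := FiniteField.pow_card_sub_one_eq_one x hx
  rwa [hF] at h

theorem right_inv_unique {M X Y : Matrix (Fin 3) (Fin 3) F} (hX : M * X = 1) (hY : M * Y = 1) :
    X = Y := by
  have hY' : Y * M = 1 := mul_eq_one_comm.mp hY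
  calc X = (Y * M) * X := by rw [hY', one_mul]
    _ = Y * (M * X) := by rw [mul_assoc]
    _ = Y := by rw [hX, mul_one]

/-- a unitary matrix with a zero entry is monomial -/
theorem mono_of_zero (hF : Fintype.card F = 4) {M : Matrix (Fin 3) (Fin 3) F}
    (hU : M * ct M = 1) (i j : Fin 3) (h0 : M i j = 0) : Mono M := by
  have hrow : ∀ i, (∃ j, M i j = 0) → ∀ j k, j ≠ k → M i j = 0 ∨ M i k = 0 := by
    rintro i ⟨l, hl⟩ j k hjk
    by_contra hcon
    push Not at hcon
    obtain ⟨hj, hk⟩ := hcon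
    have hlj : l ≠ j := fun h => hj (h ▸ hl)
    have hlk : l ≠ k := fun h => hk (h ▸ hl)
    have hn := congrFun (congrFun hU i) i
    rw [Matrix.mul_apply, Matrix.one_apply_eq, sum3 _ j k l hjk hlj.symm hlk.symm] at hn
    simp only [ct] at hn
    have cj := cube hF hj
    have ck := cube hF hk
    rw [hl] at hn
    exact one_ne_zero (by linear_combination hn - cj - ck : (1 : F) = 0)
  have hnz : ∃ s, M i s ≠ 0 := by
    by_contra hcon
    push Not at hcon
    have hn := congrFun (congrFun hU i) i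
    rw [Matrix.mul_apply, Matrix.one_apply_eq] at hn
    rw [Finset.sum_eq_zero (fun k _ => by rw [hcon k, zero_mul])] at hn
    exact zero_ne_one hn
  obtain ⟨s, hs⟩ := hnz
  have hz : ∀ l, l ≠ s → M i l = 0 := fun l hl => (hrow i ⟨j, h0⟩ l s hl).resolve_right hs
  intro i' j' k' hjk
  apply hrow i' _ j' k' hjk
  by_cases hi : i' = i
  · exact ⟨j, hi ▸ h0⟩
  · refine ⟨s, ?_⟩
    have hn := congrFun (congrFun hU i) i'
    rw [Matrix.mul_apply, Matrix.one_apply_ne (Ne.symm hi)] at hn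
    rw [Finset.sum_eq_single s] at hn
    · simp only [ct] at hn
      rcases mul_eq_zero.mp hn with h | h
      · exact absurd h hs
      · exact pow_eq_zero_iff (by norm_num) |>.mp h
    · intro l _ hl
      rw [hz l hl, zero_mul]
    · intro h
      exact absurd (Finset.mem_univ s) h

/-- a unitary matrix whose square is scalar has a zero entry -/
theorem zero_of_sq_scalar (hF : Fintype.card F = 4) {M : Matrix (Fin 3) (Fin 3) F}
    (hU : M * ct M = 1) (c : F) (hc : M * M = c • (1 : Matrix (Fin 3) (Fin 3) F)) :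
    ∃ i j, M i j = 0 := by
  by_contra hfull
  push Not at hfull
  have h2 := two0 hF
  have hc0 : c ≠ 0 := by
    intro h
    rw [h, zero_smul] at hc
    have : M = 0 := by
      calc M = M * (M * ct M) := by rw [hU, mul_one]
        _ = (M * M) * ct M := by rw [mul_assoc]
        _ = 0 := by rw [hc, zero_mul]
    exact hfull 0 0 (by rw [this]; rfl)
  have hinv : M * (c⁻¹ • M) = 1 := by
    rw [Matrix.mul_smul, hc, smul_smul, inv_mul_cancel₀ hc0, one_smul]
  have hct : ct M = c⁻¹ • M := right_inv_unique hU hinv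
  have hd : ∀ i, M i i = c⁻¹ := by
    intro i
    have h := congrFun (congrFun hct i) i
    simp only [ct, Matrix.smul_apply, smul_eq_mul] at h
    have h3 : M i i * (M i i - c⁻¹) = 0 := by linear_combination h
    rcases mul_eq_zero.mp h3 with h4 | h4
    · exact absurd h4 (hfull i i)
    · exact sub_eq_zero.mp h4
  have h01 := congrFun (congrFun hc 0) 1
  rw [Matrix.mul_apply, Fin.sum_univ_three, hd 0, hd 1] at h01
  simp only [Matrix.smul_apply, smul_eq_mul] at h01
  rw [Matrix.one_apply_ne (by decide), mul_zero] at h01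
  have h5 : M 0 2 * M 2 1 = 0 := by linear_combination h01 - c⁻¹ * M 0 1 * h2
  rcases mul_eq_zero.mp h5 with h | h
  · exact hfull 0 2 h
  · exact hfull 2 1 h

theorem adj_eq {M : Matrix (Fin 3) (Fin 3) F} (hU : M * ct M = 1) (hdet : M.det = 1) :
    M.adjugate = ct M := by
  apply right_inv_unique (M := M) _ hU
  rw [Matrix.mul_adjugate, hdet, one_smul]

theorem key01 (hF : Fintype.card F = 4) {M : Matrix (Fin 3) (Fin 3) F}
    (hU : M * ct M = 1) (hdet : M.det = 1) (hfull : ∀ i j, M i j ≠ 0)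
    (hne : M 0 0 ≠ M 1 1) : (M * M) 0 1 = 0 := by
  have h2 := two0 hF
  have hadj := adj_eq hU hdet
  rw [Matrix.adjugate_fin_three] at hadj
  have h22 := congrFun (congrFun hadj 2) 2
  have h01 := congrFun (congrFun hadj 0) 1
  simp [ct] at h22 h01
  have c0 := cube hF (hfull 0 0)
  have c1 := cube hF (hfull 1 1)
  have c10 := cube hF (hfull 1 0)
  have hd : M 0 0 ^ 2 + M 0 0 * M 1 1 + M 1 1 ^ 2 = 0 := by
    have h3 : (M 0 0 - M 1 1) * (M 0 0 ^ 2 + M 0 0 * M 1 1 + M 1 1 ^ 2) = 0 := by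
      linear_combination c0 - c1
    rcases mul_eq_zero.mp h3 with h4 | h4
    · exact absurd (sub_eq_zero.mp h4) hne
    · exact h4
  set t := M 0 0 + M 1 1 + M 2 2 with ht
  have ht2 : M 0 1 * M 1 0 = t ^ 2 := by
    rw [ht]
    linear_combination (-1 : F) * h22 - hd - (M 2 2 ^ 2 + M 0 0 * M 2 2 + M 1 1 * M 2 2) * h2
  have ht0 : t ≠ 0 := by
    intro h
    rw [h] at ht2
    rcases mul_eq_zero.mp (by rw [ht2]; ring : M 0 1 * M 1 0 = 0) with h' | h'
    · exact hfull 0 1 h'
    · exact hfull 1 0 h'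
  have ct3 := cube hF ht0
  have hX : M 1 0 * (M * M) 0 1 = 0 := by
    rw [Matrix.mul_apply, Fin.sum_univ_three]
    linear_combination M 1 0 * h01 + t * ht2 + c10 + ct3 + h2 - M 0 1 * M 1 0 * ht
  rcases mul_eq_zero.mp hX with h | h
  · exact absurd h (hfull 1 0)
  · exact h

/-- a full unitary matrix of determinant one has a square with a zero entry -/
theorem zero_of_full (hF : Fintype.card F = 4) {M : Matrix (Fin 3) (Fin 3) F}
    (hU : M * ct M = 1) (hdet : M.det = 1) (hfull : ∀ i j, M i j ≠ 0) :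
    ∃ i j, (M * M) i j = 0 := by
  by_cases h01 : M 0 0 = M 1 1
  · by_cases h12 : M 1 1 = M 2 2
    · exfalso
      have h2 := two0 hF
      have hadj := adj_eq hU hdet
      rw [Matrix.adjugate_fin_three] at hadj
      have h00 := congrFun (congrFun hadj 0) 0
      simp [ct] at h00
      rw [h01, ← h12] at h00
      have h5 : M 1 2 * M 2 1 = 0 := by linear_combination (-1 : F) * h00
      rcases mul_eq_zero.mp h5 with h | h
      · exact hfull 1 2 h
      · exact hfull 2 1 h
    · -- rotate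
      let e : Fin 3 ≃ Fin 3 := finRotate 3
      have hU' : M.submatrix e e * ct (M.submatrix e e) = 1 := by
        have : ct (M.submatrix e e) = (ct M).submatrix e e := rfl
        rw [this, Matrix.submatrix_mul_equiv, hU, Matrix.submatrix_one_equiv]
      have hdet' : (M.submatrix e e).det = 1 := by
        rw [Matrix.det_submatrix_equiv_self, hdet]
      have hk := key01 hF hU' hdet' (fun i j => hfull (e i) (e j)) (by
        show M (e 0) (e 0) ≠ M (e 1) (e 1)
        exact h12)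
      rw [Matrix.submatrix_mul_equiv] at hk
      exact ⟨e 0, e 1, hk⟩
  · exact ⟨0, 1, key01 hF hU hdet hfull h01⟩

theorem un_of_mem {g : Matrix.SpecialLinearGroup (Fin 3) F} (hg : g ∈ SU 3 F 2) :
    g.1 * ct g.1 = 1 := by
  rw [mul_eq_one_comm]
  ext a b
  have h := hg (Pi.single b 1) (Pi.single a 1)
  change hermForm 3 F 2 (g.1 *ᵥ Pi.single b 1) (g.1 *ᵥ Pi.single a 1) =
    hermForm 3 F 2 (Pi.single b 1) (Pi.single a 1) at h
  rw [Matrix.mulVec_single_one, Matrix.mulVec_single_one] at h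
  simp only [hermForm, Matrix.col_apply] at h
  rw [Matrix.mul_apply]
  simp only [ct]
  rw [Matrix.one_apply]
  have e : ∑ i : Fin 3, (Pi.single b (1 : F) : Fin 3 → F) i * (Pi.single a (1 : F) : Fin 3 → F) i ^ 2 =
      if a = b then 1 else 0 := by
    fin_cases a <;> fin_cases b <;> simp [Fin.sum_univ_three]
  rw [e] at h
  rw [← h]
  exact Finset.sum_congr rfl (fun i _ => mul_comm _ _)

theorem mem_of_un (h2 : (2 : F) = 0) (g : Matrix.SpecialLinearGroup (Fin 3) F)
    (hg : g.1 * ct g.1 = 1) : g ∈ SU 3 F 2 := by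
  intro u v
  change hermForm 3 F 2 (g.1 *ᵥ u) (g.1 *ᵥ v) = hermForm 3 F 2 u v
  have hg' : ct g.1 * g.1 = 1 := mul_eq_one_comm.mp hg
  have H : ∀ a b, (g.1 0 a) ^ 2 * g.1 0 b + (g.1 1 a) ^ 2 * g.1 1 b + (g.1 2 a) ^ 2 * g.1 2 b =
      if a = b then 1 else 0 := by
    intro a b
    have := congrFun (congrFun hg' a) b
    rw [Matrix.mul_apply, Matrix.one_apply, Fin.sum_univ_three] at this
    exact this
  have hsq : ∀ a b : F, (a + b) ^ 2 = a ^ 2 + b ^ 2 := by
    intro a b
    linear_combination (a * b) * h2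
  have H00 := H 0 0
  have H01 := H 0 1
  have H02 := H 0 2
  have H10 := H 1 0
  have H11 := H 1 1
  have H12 := H 1 2
  have H20 := H 2 0
  have H21 := H 2 1
  have H22 := H 2 2
  simp at H00 H01 H02 H10 H11 H12 H20 H21 H22
  simp only [hermForm, Matrix.mulVec, dotProduct, Fin.sum_univ_three, hsq, mul_pow]
  linear_combination u 0 * v 0 ^ 2 * H00 + u 1 * v 0 ^ 2 * H01 + u 2 * v 0 ^ 2 * H02 +
    u 0 * v 1 ^ 2 * H10 + u 1 * v 1 ^ 2 * H11 + u 2 * v 1 ^ 2 * H12 +
    u 0 * v 2 ^ 2 * H20 + u 1 * v 2 ^ 2 * H21 + u 2 * v 2 ^ 2 * H22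

theorem exists_omega (hF : Fintype.card F = 4) :
    ∃ ω : F, ω ≠ 0 ∧ ω ≠ 1 ∧ ω ^ 2 + ω + 1 = 0 := by
  obtain ⟨a, b, c, hab, hac, hbc⟩ := Fintype.two_lt_card_iff.mp (by rw [hF]; norm_num :
    2 < Fintype.card F)
  have hex : ∃ ω : F, ω ≠ 0 ∧ ω ≠ 1 := by
    by_contra hcon
    push Not at hcon
    have h01 : ∀ x : F, x = 0 ∨ x = 1 := by
      intro x
      by_cases h : x = 0
      · exact Or.inl h
      · exact Or.inr (hcon x h)
    rcases h01 a with rfl | rfl <;> rcases h01 b with rfl | rfl <;>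
      rcases h01 c with rfl | rfl <;> simp_all
  obtain ⟨ω, h0, h1⟩ := hex
  refine ⟨ω, h0, h1, ?_⟩
  have h3 := cube hF h0
  have h4 : (ω - 1) * (ω ^ 2 + ω + 1) = 0 := by linear_combination h3
  rcases mul_eq_zero.mp h4 with h | h
  · exact absurd (sub_eq_zero.mp h) h1
  · exact h

/-- the Fourier matrix -/
def Wm (ω : F) : Matrix (Fin 3) (Fin 3) F := !![1, 1, 1; 1, ω, ω ^ 2; 1, ω ^ 2, ω]

/-- the diagonal matrix -/
def Dm (ω : F) : Matrix (Fin 3) (Fin 3) F := !![1, 0, 0; 0, ω, 0; 0, 0, ω ^ 2]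

omit [Fintype F] in
theorem Wm_det (h2 : (2 : F) = 0) {ω : F} (hω : ω ^ 2 + ω + 1 = 0) : (Wm ω).det = 1 := by
  rw [Matrix.det_fin_three]
  simp [Wm]
  grind

omit [Fintype F] in
theorem Dm_det (h2 : (2 : F) = 0) {ω : F} (hω : ω ^ 2 + ω + 1 = 0) : (Dm ω).det = 1 := by
  rw [Matrix.det_fin_three]
  simp [Dm]
  grind

omit [Fintype F] in
theorem Wm_un (h2 : (2 : F) = 0) {ω : F} (hω : ω ^ 2 + ω + 1 = 0) : Wm ω * ct (Wm ω) = 1 := by
  ext i j
  fin_cases i <;> fin_cases j <;>
    simp [ct, Wm, Matrix.mul_apply, Fin.sum_univ_three] <;> grind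

omit [Fintype F] in
theorem Dm_un (h2 : (2 : F) = 0) {ω : F} (hω : ω ^ 2 + ω + 1 = 0) : Dm ω * ct (Dm ω) = 1 := by
  ext i j
  fin_cases i <;> fin_cases j <;>
    simp [ct, Dm, Matrix.mul_apply, Fin.sum_univ_three] <;> grind

/-- central elements are scalar -/
theorem center_scalar (hF : Fintype.card F = 4) (z : SU 3 F 2)
    (hz : z ∈ Subgroup.center (SU 3 F 2)) :
    ∃ c : F, z.1.1 = c • (1 : Matrix (Fin 3) (Fin 3) F) := by
  have h2 := two0 hF
  obtain ⟨ω, h0, h1, hω⟩ := exists_omega hF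
  let Ws : SU 3 F 2 := ⟨⟨Wm ω, Wm_det h2 hω⟩, mem_of_un h2 _ (Wm_un h2 hω)⟩
  let Ds : SU 3 F 2 := ⟨⟨Dm ω, Dm_det h2 hω⟩, mem_of_un h2 _ (Dm_un h2 hω)⟩
  have hzW := Subgroup.mem_center_iff.mp hz Ws
  have hzD := Subgroup.mem_center_iff.mp hz Ds
  have eW : Wm ω * z.1.1 = z.1.1 * Wm ω := congrArg (fun x : SU 3 F 2 => x.1.1) hzW
  have eD : Dm ω * z.1.1 = z.1.1 * Dm ω := congrArg (fun x : SU 3 F 2 => x.1.1) hzD
  have hω1 : ω - 1 ≠ 0 := sub_ne_zero.mpr h1
  have e01 : z.1.1 0 1 * (ω - 1) = 0 := by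
    have h := congrFun (congrFun eD 0) 1
    simp [Dm, Matrix.mul_apply, Fin.sum_univ_three] at h
    grind
  have e02 : z.1.1 0 2 * ω = 0 := by
    have h := congrFun (congrFun eD 0) 2
    simp [Dm, Matrix.mul_apply, Fin.sum_univ_three] at h
    grind
  have e10 : z.1.1 1 0 * (ω - 1) = 0 := by
    have h := congrFun (congrFun eD 1) 0
    simp [Dm, Matrix.mul_apply, Fin.sum_univ_three] at h
    grind
  have e12 : z.1.1 1 2 * (ω * (ω - 1)) = 0 := by
    have h := congrFun (congrFun eD 1) 2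
    simp [Dm, Matrix.mul_apply, Fin.sum_univ_three] at h
    grind
  have e20 : z.1.1 2 0 * ω = 0 := by
    have h := congrFun (congrFun eD 2) 0
    simp [Dm, Matrix.mul_apply, Fin.sum_univ_three] at h
    grind
  have e21 : z.1.1 2 1 * (ω * (ω - 1)) = 0 := by
    have h := congrFun (congrFun eD 2) 1
    simp [Dm, Matrix.mul_apply, Fin.sum_univ_three] at h
    grind
  have z01 : z.1.1 0 1 = 0 := (mul_eq_zero.mp e01).resolve_right hω1
  have z02 : z.1.1 0 2 = 0 := (mul_eq_zero.mp e02).resolve_right h0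
  have z10 : z.1.1 1 0 = 0 := (mul_eq_zero.mp e10).resolve_right hω1
  have z12 : z.1.1 1 2 = 0 := (mul_eq_zero.mp e12).resolve_right (mul_ne_zero h0 hω1)
  have z20 : z.1.1 2 0 = 0 := (mul_eq_zero.mp e20).resolve_right h0
  have z21 : z.1.1 2 1 = 0 := (mul_eq_zero.mp e21).resolve_right (mul_ne_zero h0 hω1)
  have z11 : z.1.1 1 1 = z.1.1 0 0 := by
    have h := congrFun (congrFun eW 0) 1
    simp [Wm, Matrix.mul_apply, Fin.sum_univ_three, z01, z21, z02] at h
    exact h
  have z22 : z.1.1 2 2 = z.1.1 0 0 := by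
    have h := congrFun (congrFun eW 0) 2
    simp [Wm, Matrix.mul_apply, Fin.sum_univ_three, z01, z12, z02] at h
    exact h
  refine ⟨z.1.1 0 0, ?_⟩
  ext i j
  fin_cases i <;> fin_cases j <;> simp [z01, z02, z10, z12, z20, z21, z11, z22]

/-- the monomial subgroup -/
def Hm (F : Type*) [Field F] [Fintype F] : Subgroup (SU 3 F 2) where
  carrier := {g | Mono g.1.1}
  mul_mem' := fun {a b} ha hb => mono_mul ha hb
  one_mem' := mono_one
  inv_mem' := by
    intro g hg
    have e : g⁻¹ = g ^ (orderOf g - 1) := by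
      have h1 : g ^ (orderOf g - 1) * g = 1 := by
        rw [← pow_succ, Nat.sub_add_cancel (orderOf_pos g), pow_orderOf_eq_one]
      exact (eq_inv_of_mul_eq_one_left h1).symm
    show Mono (g⁻¹).1.1
    rw [e]
    have e2 : ((g ^ (orderOf g - 1) : SU 3 F 2).1.1) = g.1.1 ^ (orderOf g - 1) := by
      rw [Subgroup.coe_pow, Matrix.SpecialLinearGroup.coe_pow]
    rw [e2]
    exact mono_pow hg _

end four

/-- The subgroup lattice of PSU₃(2) (the solvable group of order 72, realised over the field with 4 elements) is not complemented: some subgroup H has no subgroup X with H ⊔ X = ⊤ and H ⊓ X = ⊥. -/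
theorem result {F : Type*} [Field F] [Fintype F] (hF : Fintype.card F = 4) :
    ¬ ComplementedLattice (Subgroup (Cfsg.PSU 3 F 2)) := by
  classical
  intro hcl
  have h2 := two0 hF
  let H : Subgroup (PSU 3 F 2) := (Hm F).map (QuotientGroup.mk' (Subgroup.center (SU 3 F 2)))
  obtain ⟨K, hK⟩ := hcl.exists_isCompl H
  have hinf : H ⊓ K = ⊥ := hK.inf_eq_bot
  have hsup : H ⊔ K = ⊤ := hK.sup_eq_top
  have hmonoH : ∀ g : SU 3 F 2, Mono g.1.1 → (QuotientGroup.mk g : PSU 3 F 2) ∈ H :=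
    fun g hg => Subgroup.mem_map_of_mem _ hg
  have hKbot : K = ⊥ := by
    rw [eq_bot_iff]
    intro k hk
    obtain ⟨g, rfl⟩ := QuotientGroup.mk_surjective k
    have hU := un_of_mem g.2
    have hdet : g.1.1.det = 1 := g.1.2
    have hgg : Mono (g.1.1 * g.1.1) := by
      by_cases hfull : ∀ i j, g.1.1 i j ≠ 0
      · obtain ⟨i, j, hij⟩ := zero_of_full hF hU hdet hfull
        have hU2 : (g.1.1 * g.1.1) * ct (g.1.1 * g.1.1) = 1 := un_of_mem (g * g).2
        exact mono_of_zero hF hU2 i j hij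
      · push Not at hfull
        obtain ⟨i, j, hij⟩ := hfull
        have hm := mono_of_zero hF hU i j hij
        exact mono_mul hm hm
    have hkk : (QuotientGroup.mk (g * g) : PSU 3 F 2) ∈ H ⊓ K :=
      ⟨hmonoH (g * g) hgg, K.mul_mem hk hk⟩
    rw [hinf, Subgroup.mem_bot] at hkk
    have hc : g * g ∈ Subgroup.center (SU 3 F 2) := (QuotientGroup.eq_one_iff _).mp hkk
    obtain ⟨c, hc'⟩ := center_scalar hF _ hc
    obtain ⟨i, j, hij⟩ := zero_of_sq_scalar hF hU c hc'
    have hkH : (QuotientGroup.mk g : PSU 3 F 2) ∈ H ⊓ K :=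
      ⟨hmonoH g (mono_of_zero hF hU i j hij), hk⟩
    rw [hinf] at hkH
    exact hkH
  rw [hKbot, sup_bot_eq] at hsup
  obtain ⟨ω, h0, h1, hω⟩ := exists_omega hF
  let Ws : SU 3 F 2 := ⟨⟨Wm ω, Wm_det h2 hω⟩, mem_of_un h2 _ (Wm_un h2 hω)⟩
  have hW : (QuotientGroup.mk Ws : PSU 3 F 2) ∈ H := by
    rw [hsup]
    exact Subgroup.mem_top _
  obtain ⟨m, hm, hmW⟩ := hW
  have hmc : m⁻¹ * Ws ∈ Subgroup.center (SU 3 F 2) := QuotientGroup.eq.mp hmW
  obtain ⟨c, hc⟩ := center_scalar hF _ hmc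
  have hWm : Wm ω = c • m.1.1 := by
    have h3 : Ws = m * (m⁻¹ * Ws) := by group
    have h4 : Wm ω = m.1.1 * (m⁻¹ * Ws).1.1 := congrArg (fun x : SU 3 F 2 => x.1.1) h3
    rw [h4, hc, Matrix.mul_smul, mul_one]
  have hmono : Mono m.1.1 := hm
  have e00 : Wm ω 0 0 = c * m.1.1 0 0 := by rw [hWm]; rfl
  have e01 : Wm ω 0 1 = c * m.1.1 0 1 := by rw [hWm]; rfl
  have w00 : Wm ω 0 0 = 1 := by simp [Wm]
  have w01 : Wm ω 0 1 = 1 := by simp [Wm]
  rcases hmono 0 0 1 (by decide) with h | h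
  · rw [h, mul_zero, w00] at e00
    exact one_ne_zero e00
  · rw [h, mul_zero, w01] at e01
    exact one_ne_zero e01

end Cfsg.Agent.S5908
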