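import Cfsg.Statements.S5909
import Cfsg.Agent.S5905
import Mathlib

set_option autoImplicit false
set_option linter.unusedSectionVars false
open Cfsg

namespace Cfsg.Agent.S5909

open Equiv MulAction Cfsg.Agent.S5905
open scoped Pointwise

variable {Ω : Type*} [Fintype Ω] [DecidableEq Ω]

theorem pair_mem {b : ℕ} (f : Ω → Fin b) {x y u v : Ω} (hxy : x ≠ y) (huv : u ≠ v)
    (h1 : f x = f y) (h2 : f u = f v) :
    swap x y * swap u v ∈ W f ⊓ alternatingGroup Ω := by
  refine ⟨(W f).mul_mem (swap_mem_W f x y h1) (swap_mem_W f u v h2), ?_⟩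
  apply Equiv.Perm.mem_alternatingGroup.2
  rw [Equiv.Perm.sign_mul, Equiv.Perm.sign_swap hxy, Equiv.Perm.sign_swap huv]
  rfl

theorem exists_notMem {α : Type*} [Fintype α] [DecidableEq α] (s : Finset α)
    (h : s.card < Fintype.card α) : ∃ x, x ∉ s := by
  by_contra hne
  push Not at hne
  have : s = Finset.univ := Finset.eq_univ_iff_forall.2 hne
  rw [this, Finset.card_univ] at h
  omega

theorem exists_ne_fin {b : ℕ} (hb : 2 ≤ b) (i : Fin b) : ∃ j : Fin b, j ≠ i := by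
  obtain ⟨j, hj⟩ := exists_notMem ({i} : Finset (Fin b)) (by simp; omega)
  exact ⟨j, by simpa using hj⟩

theorem exists_ne_fin2 {b : ℕ} (hb : 3 ≤ b) (i i' : Fin b) : ∃ j : Fin b, j ≠ i ∧ j ≠ i' := by
  obtain ⟨j, hj⟩ := exists_notMem ({i, i'} : Finset (Fin b)) (by
    have := Finset.card_le_two (a := i) (b := i')
    simp only [Fintype.card_fin]; omega)
  simp only [Finset.mem_insert, Finset.mem_singleton, not_or] at hj
  exact ⟨j, hj.1, hj.2⟩

theorem exists_pair {a b : ℕ} (ha : 2 ≤ a) (f : Ω → Fin b) (Φ : Ω ≃ Fin b × Fin a)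
    (hΦ : ∀ x, (Φ x).1 = f x) (j : Fin b) : ∃ u v : Ω, u ≠ v ∧ f u = j ∧ f v = j := by
  refine ⟨Φ.symm (j, ⟨0, by omega⟩), Φ.symm (j, ⟨1, by omega⟩), ?_, ?_, ?_⟩
  · intro h
    have := Φ.symm.injective h
    simp [Fin.ext_iff] at this
  · rw [← hΦ, Equiv.apply_symm_apply]
  · rw [← hΦ, Equiv.apply_symm_apply]

theorem exists_other {a b : ℕ} (ha : 2 ≤ a) (f : Ω → Fin b) (Φ : Ω ≃ Fin b × Fin a)
    (hΦ : ∀ x, (Φ x).1 = f x) (x : Ω) : ∃ y : Ω, y ≠ x ∧ f y = f x := by
  obtain ⟨u, v, huv, hu, hv⟩ := exists_pair ha f Φ hΦ (f x)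
  by_cases h : u = x
  · exact ⟨v, fun h' => huv (h.trans h'.symm), hv⟩
  · exact ⟨u, h, hu⟩

theorem exists_pair_avoid {a b : ℕ} (ha : 3 ≤ a) (f : Ω → Fin b) (Φ : Ω ≃ Fin b × Fin a)
    (hΦ : ∀ x, (Φ x).1 = f x) (x : Ω) :
    ∃ u v : Ω, u ≠ v ∧ u ≠ x ∧ v ≠ x ∧ f u = f x ∧ f v = f x := by
  obtain ⟨k₁, hk₁⟩ := exists_notMem ({(Φ x).2} : Finset (Fin a)) (by simp; omega)
  obtain ⟨k₂, hk₂⟩ := exists_notMem ({(Φ x).2, k₁} : Finset (Fin a)) (by
    have := Finset.card_le_two (a := (Φ x).2) (b := k₁)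
    simp only [Fintype.card_fin]; omega)
  simp only [Finset.mem_singleton] at hk₁
  simp only [Finset.mem_insert, Finset.mem_singleton, not_or] at hk₂
  refine ⟨Φ.symm (f x, k₁), Φ.symm (f x, k₂), ?_, ?_, ?_, ?_, ?_⟩
  · intro h
    have := Φ.symm.injective h
    simp only [Prod.mk.injEq, true_and] at this
    exact hk₂.2 this.symm
  · intro h
    have h1 := congrArg Φ h
    rw [Equiv.apply_symm_apply] at h1
    exact hk₁ (congrArg Prod.snd h1)
  · intro h
    have h1 := congrArg Φ h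
    rw [Equiv.apply_symm_apply] at h1
    exact hk₂.1 (congrArg Prod.snd h1)
  · rw [← hΦ, Equiv.apply_symm_apply]
  · rw [← hΦ, Equiv.apply_symm_apply]

/-- an even fibre-preserving permutation fixing `x` and moving `w` to `w'` -/
theorem exists_fix_move {a b : ℕ} (ha : 2 ≤ a) (hb : 2 ≤ b) (hab : ¬ (a = 2 ∧ b = 2))
    (f : Ω → Fin b) (Φ : Ω ≃ Fin b × Fin a) (hΦ : ∀ x, (Φ x).1 = f x)
    {x w w' : Ω} (hww : w ≠ w') (hf : f w = f w') (hxw : x ≠ w) (hxw' : x ≠ w') :
    ∃ h ∈ W f ⊓ alternatingGroup Ω, h x = x ∧ h w = w' := by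
  obtain ⟨u, v, huv, hfuv, hux, hvx, huw, hvw⟩ : ∃ u v : Ω, u ≠ v ∧ f u = f v ∧ u ≠ x ∧ v ≠ x ∧
      f u ≠ f w ∧ f v ≠ f w := by
    by_cases hfx : f x = f w
    · obtain ⟨j, hj⟩ := exists_ne_fin hb (f w)
      obtain ⟨u, v, huv, hu, hv⟩ := exists_pair ha f Φ hΦ j
      refine ⟨u, v, huv, hu.trans hv.symm, ?_, ?_, ?_, ?_⟩
      · rintro rfl; exact hj (hu.symm.trans hfx)
      · rintro rfl; exact hj (hv.symm.trans hfx)
      · rw [hu]; exact hj
      · rw [hv]; exact hj
    · by_cases ha3 : 3 ≤ a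
      · obtain ⟨u, v, huv, hux, hvx, hu, hv⟩ := exists_pair_avoid ha3 f Φ hΦ x
        exact ⟨u, v, huv, hu.trans hv.symm, hux, hvx, by rw [hu]; exact hfx, by rw [hv]; exact hfx⟩
      · have hb3 : 3 ≤ b := by omega
        obtain ⟨j, hj1, hj2⟩ := exists_ne_fin2 hb3 (f x) (f w)
        obtain ⟨u, v, huv, hu, hv⟩ := exists_pair ha f Φ hΦ j
        refine ⟨u, v, huv, hu.trans hv.symm, ?_, ?_, ?_, ?_⟩
        · rintro rfl; exact hj1 hu.symm
        · rintro rfl; exact hj1 hv.symm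
        · rw [hu]; exact hj2
        · rw [hv]; exact hj2
  refine ⟨swap w w' * swap u v, pair_mem f hww huv hf hfuv, ?_, ?_⟩
  · rw [Perm.mul_apply, swap_apply_of_ne_of_ne (Ne.symm hux) (Ne.symm hvx),
      swap_apply_of_ne_of_ne hxw hxw']
  · have h1 : w ≠ u := fun h => huw (by rw [h])
    have h2 : w ≠ v := fun h => hvw (by rw [h])
    rw [Perm.mul_apply, swap_apply_of_ne_of_ne h1 h2, swap_apply_left]

/-- the permutation of `Ω` induced by a permutation of the fibres -/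
def lift {a b : ℕ} (Φ : Ω ≃ Fin b × Fin a) (π : Perm (Fin b)) : Perm Ω :=
  Φ.trans ((Equiv.prodCongr π (Equiv.refl _)).trans Φ.symm)

theorem f_lift {a b : ℕ} (f : Ω → Fin b) (Φ : Ω ≃ Fin b × Fin a) (hΦ : ∀ x, (Φ x).1 = f x)
    (π : Perm (Fin b)) (x : Ω) : f (lift Φ π x) = π (f x) := by
  show f (Φ.symm (π (Φ x).1, (Φ x).2)) = _
  rw [← hΦ, Equiv.apply_symm_apply, hΦ]

theorem lift_mem_W {a b : ℕ} (f : Ω → Fin b) (Φ : Ω ≃ Fin b × Fin a) (hΦ : ∀ x, (Φ x).1 = f x)
    (π : Perm (Fin b)) : lift Φ π ∈ W f := fun x y => by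
  rw [f_lift f Φ hΦ, f_lift f Φ hΦ]; exact π.injective.eq_iff.symm

theorem lift_fix {a b : ℕ} (f : Ω → Fin b) (Φ : Ω ≃ Fin b × Fin a) (hΦ : ∀ x, (Φ x).1 = f x)
    (π : Perm (Fin b)) (x : Ω) (h : π (f x) = f x) : lift Φ π x = x := by
  show Φ.symm (π (Φ x).1, (Φ x).2) = x
  rw [hΦ, h, ← hΦ]
  simp

/-- an even fibre-preserving permutation moving `w` into the fibre `j` and fixing the points
of the other fibres -/
theorem exists_toFibre {a b : ℕ} (ha : 2 ≤ a) (f : Ω → Fin b) (Φ : Ω ≃ Fin b × Fin a)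
    (hΦ : ∀ x, (Φ x).1 = f x) (w : Ω) (j : Fin b) :
    ∃ h ∈ W f ⊓ alternatingGroup Ω, f (h w) = j ∧ ∀ x, f x ≠ f w → f x ≠ j → h x = x := by
  obtain ⟨σ, hσ⟩ : ∃ σ, σ = lift Φ (swap (f w) j) := ⟨_, rfl⟩
  have hσW : σ ∈ W f := by rw [hσ]; exact lift_mem_W f Φ hΦ _
  have hσw : ∀ z, f z = f w → f (σ z) = j := by
    intro z hz; rw [hσ, f_lift f Φ hΦ, hz, swap_apply_left]
  have hσx : ∀ x, f x ≠ f w → f x ≠ j → σ x = x := fun x h1 h2 => by
    rw [hσ]; exact lift_fix f Φ hΦ _ x (swap_apply_of_ne_of_ne h1 h2)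
  rcases Int.units_eq_one_or (Perm.sign σ) with hs | hs
  · exact ⟨σ, ⟨hσW, Perm.mem_alternatingGroup.2 hs⟩, hσw w rfl, hσx⟩
  · obtain ⟨w'', hw'', hfw''⟩ := exists_other ha f Φ hΦ w
    refine ⟨σ * swap w w'', ⟨(W f).mul_mem hσW (swap_mem_W f w w'' hfw''.symm), ?_⟩, ?_, ?_⟩
    · apply Perm.mem_alternatingGroup.2
      rw [Perm.sign_mul, hs, Perm.sign_swap hw''.symm]; rfl
    · rw [Perm.mul_apply, swap_apply_left]; exact hσw w'' hfw''
    · intro x h1 h2
      have hx1 : x ≠ w := fun h => h1 (by rw [h])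
      have hx2 : x ≠ w'' := fun h => h1 (by rw [h, hfw''])
      rw [Perm.mul_apply, swap_apply_of_ne_of_ne hx1 hx2]; exact hσx x h1 h2

theorem exists_move {a b : ℕ} (ha : 2 ≤ a) (hb : 2 ≤ b) (f : Ω → Fin b)
    (Φ : Ω ≃ Fin b × Fin a) (hΦ : ∀ x, (Φ x).1 = f x) (x y : Ω) :
    ∃ h ∈ W f ⊓ alternatingGroup Ω, h x = y := by
  obtain ⟨h₁, hh₁, h1, -⟩ := exists_toFibre ha f Φ hΦ x (f y)
  by_cases hxy : h₁ x = y
  · exact ⟨h₁, hh₁, hxy⟩
  · obtain ⟨j, hj⟩ := exists_ne_fin hb (f y)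
    obtain ⟨u, v, huv, hu, hv⟩ := exists_pair ha f Φ hΦ j
    refine ⟨swap (h₁ x) y * swap u v * h₁,
      Subgroup.mul_mem _ (pair_mem f hxy huv h1 (hu.trans hv.symm)) hh₁, ?_⟩
    have e1 : h₁ x ≠ u := fun h => hj (by rw [← hu, ← h, h1])
    have e2 : h₁ x ≠ v := fun h => hj (by rw [← hv, ← h, h1])
    rw [Perm.mul_apply, Perm.mul_apply, swap_apply_of_ne_of_ne e1 e2, swap_apply_left]

theorem block_key {M : Subgroup (Perm Ω)} {B : Set Ω} (hB : IsBlock M B) {m : Perm Ω}
    (hm : m ∈ M) {x : Ω} (hx : x ∈ B) (hmx : m x ∈ B) {y : Ω} (hy : y ∈ B) : m y ∈ B := by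
  rcases hB.smul_eq_or_disjoint ⟨m, hm⟩ with h | h
  · rw [← h]; exact Set.smul_mem_smul_set (a := (⟨m, hm⟩ : M)) hy
  · exact absurd hmx (Set.disjoint_left.1 h (Set.smul_mem_smul_set (a := (⟨m, hm⟩ : M)) hx))

theorem prim {a b : ℕ} (ha : 2 ≤ a) (hb : 2 ≤ b) (hab : ¬ (a = 2 ∧ b = 2)) (f : Ω → Fin b)
    (Φ : Ω ≃ Fin b × Fin a) (hΦ : ∀ x, (Φ x).1 = f x) (M : Subgroup (Perm Ω))
    (hHM : W f ⊓ alternatingGroup Ω ≤ M) (hMW : ¬ M ≤ W f) : IsPreprimitive M Ω := by
  have htrans : IsPretransitive M Ω := ⟨fun x y => by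
    obtain ⟨h, hh, hxy⟩ := exists_move ha hb f Φ hΦ x y
    exact ⟨⟨h, hHM hh⟩, hxy⟩⟩
  -- blocks meeting two fibres are everything
  have hC : ∀ B : Set Ω, IsBlock M B → ∀ x ∈ B, ∀ w ∈ B, f w ≠ f x → ∀ z, z ∈ B := by
    intro B hB x hx w hw hwx
    have hA : ∀ x ∈ B, ∀ w ∈ B, f w ≠ f x → ∀ w', f w' = f w → w' ∈ B := by
      intro x hx w hw hwx w' hw'
      by_cases hww : w = w'
      · rw [← hww]; exact hw
      · have hxw : x ≠ w := fun h => hwx (by rw [h])
        have hxw' : x ≠ w' := fun h => hwx (by rw [h, hw'])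
        obtain ⟨h, hh, h1, h2⟩ := exists_fix_move ha hb hab f Φ hΦ hww hw'.symm hxw hxw'
        have := block_key hB (hHM hh) hx (by rw [h1]; exact hx) hw
        rwa [h2] at this
    have hBf : ∀ y ∈ B, ∀ y', f y' = f y → y' ∈ B := by
      intro y hy y' hy'
      by_cases h : f y = f x
      · exact hA w hw y hy (by rw [h]; exact fun h' => hwx h'.symm) y' hy'
      · exact hA x hx y hy h y' hy'
    intro z
    by_cases h1 : f z = f x
    · exact hBf x hx z h1
    · obtain ⟨h, hh, h2, h3⟩ := exists_toFibre ha f Φ hΦ w (f z)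
      by_cases h4 : f z = f w
      · exact hBf w hw z h4
      · have hx' : h x = x := h3 x (fun h' => hwx h'.symm) (fun h' => h1 h'.symm)
        have := block_key hB (hHM hh) hx (by rw [hx']; exact hx) hw
        exact hBf _ this z h2.symm
  refine { toIsPretransitive := htrans, isTrivialBlock_of_isBlock := ?_ }
  intro B hB
  by_contra htriv
  rw [IsTrivialBlock, not_or] at htriv
  obtain ⟨hBs, hBu⟩ := htriv
  rw [Set.not_subsingleton_iff] at hBs
  obtain ⟨x₀, hx₀, y₀, hy₀, hxy₀⟩ := hBs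
  -- a proper block lies in a fibre
  have hsame : ∀ B' : Set Ω, IsBlock M B' → B' ≠ Set.univ → ∀ x ∈ B', ∀ w ∈ B', f w = f x := by
    intro B' hB' hne x hx w hw
    by_contra h
    exact hne (Set.eq_univ_of_forall (hC B' hB' x hx w hw h))
  -- `B` is a fibre
  have hD : ∀ y, f y = f x₀ → y ∈ B := by
    intro y hy
    by_contra hyB
    have h1 : y₀ ≠ y := fun h => hyB (h ▸ hy₀)
    have h2 : x₀ ≠ y := fun h => hyB (h ▸ hx₀)
    have h3 : f y₀ = f y := (hsame B hB hBu x₀ hx₀ y₀ hy₀).trans hy.symm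
    obtain ⟨h, hh, h4, h5⟩ := exists_fix_move ha hb hab f Φ hΦ h1 h3 hxy₀ h2
    have := block_key hB (hHM hh) hx₀ (by rw [h4]; exact hx₀) hy₀
    rw [h5] at this
    exact hyB this
  apply hMW
  have hfwd : ∀ g ∈ M, ∀ y z, f y = f z → f (g y) = f (g z) := by
    intro g hg y z hyz
    obtain ⟨h, hh, hxy⟩ := exists_move ha hb f Φ hΦ x₀ y
    have hhM := hHM hh
    obtain ⟨m, hm⟩ : ∃ m : M, m = ⟨g * h, M.mul_mem hg hhM⟩ := ⟨_, rfl⟩
    have hB' : IsBlock M (m • B) := hB.translate m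
    have hne : m • B ≠ Set.univ := by
      intro h'
      apply hBu
      have : m • B = m • (Set.univ : Set Ω) := by rw [h', Set.smul_set_univ]
      exact smul_left_cancel m this
    have hz' : h⁻¹ z ∈ B := by
      apply hD
      rw [(mem_W f h).1 hh.1 (h⁻¹ z) x₀, hxy]
      simp [hyz]
    have e1 : g y ∈ m • B := by
      have : m • x₀ ∈ m • B := Set.smul_mem_smul_set hx₀
      have e : m • x₀ = g y := by rw [hm]; show g (h x₀) = g y; rw [hxy]
      rwa [e] at this
    have e2 : g z ∈ m • B := by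
      have : m • (h⁻¹ z) ∈ m • B := Set.smul_mem_smul_set hz'
      have e : m • (h⁻¹ z) = g z := by rw [hm]; show g (h (h⁻¹ z)) = g z; simp
      rwa [e] at this
    exact hsame _ hB' hne _ e2 _ e1
  intro g hg y z
  refine ⟨hfwd g hg y z, fun h => ?_⟩
  have := hfwd g⁻¹ (M.inv_mem hg) (g y) (g z) h
  simpa using this

theorem exists_mate {b : ℕ} (f : Ω → Fin b) (Φ : Ω ≃ Fin b × Fin 2) (hΦ : ∀ x, (Φ x).1 = f x)
    (x : Ω) : ∃ x' : Ω, x' ≠ x ∧ f x' = f x ∧ ∀ y, f y = f x → y = x ∨ y = x' := by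
  refine ⟨Φ.symm ((Φ x).1, Fin.rev (Φ x).2), ?_, ?_, ?_⟩
  · intro h
    have h1 := congrArg Φ h
    rw [Equiv.apply_symm_apply] at h1
    have h2 : Fin.rev (Φ x).2 = (Φ x).2 := congrArg Prod.snd h1
    exact absurd h2 ((by decide : ∀ k : Fin 2, Fin.rev k ≠ k) _)
  · rw [← hΦ, Equiv.apply_symm_apply, hΦ]
  · intro y hy
    rcases (by decide : ∀ k k' : Fin 2, k' = k ∨ k' = Fin.rev k) (Φ x).2 (Φ y).2 with h | h
    · left
      apply Φ.injective
      exact Prod.ext (by rw [hΦ, hΦ, hy]) h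
    · right
      rw [Equiv.eq_symm_apply]
      exact Prod.ext (by rw [hΦ, hΦ, hy]) h

theorem exists_split {a b : ℕ} (ha : 1 ≤ a) (f : Ω → Fin b) (Φ : Ω ≃ Fin b × Fin a)
    (hΦ : ∀ x, (Φ x).1 = f x) (g : Perm Ω) (hg : g ∉ W f) :
    ∃ x x', f x = f x' ∧ f (g x) ≠ f (g x') := by
  by_contra hcon
  push Not at hcon
  apply hg
  have hΦs : ∀ p, f (Φ.symm p) = p.1 := by
    intro p; rw [← hΦ, Equiv.apply_symm_apply]
  obtain ⟨π, hπd⟩ : ∃ π : Fin b → Fin b, π = fun i => f (g (Φ.symm (i, ⟨0, by omega⟩))) :=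
    ⟨_, rfl⟩
  have hπ : ∀ x, f (g x) = π (f x) := by
    intro x
    rw [hπd]
    apply hcon
    rw [hΦs]
  have hsurj : Function.Surjective π := by
    intro j
    refine ⟨f (g⁻¹ (Φ.symm (j, ⟨0, by omega⟩))), ?_⟩
    rw [← hπ]
    simp [hΦs]
  have hinj : Function.Injective π := Finite.injective_iff_surjective.2 hsurj
  intro x y
  rw [hπ, hπ]
  exact hinj.eq_iff.symm

theorem swap_comm_disj {x y u v : Ω} (h1 : x ≠ u) (h2 : x ≠ v) (h3 : y ≠ u) (h4 : y ≠ v) :
    swap x y * swap u v = swap u v * swap x y := by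
  ext z
  simp only [Perm.mul_apply]
  by_cases hzx : z = x
  · subst hzx
    rw [swap_apply_of_ne_of_ne h1 h2, swap_apply_left, swap_apply_of_ne_of_ne h3 h4]
  · by_cases hzy : z = y
    · subst hzy
      rw [swap_apply_of_ne_of_ne h3 h4, swap_apply_right, swap_apply_of_ne_of_ne h1 h2]
    · rw [swap_apply_of_ne_of_ne hzx hzy]
      by_cases hzu : z = u
      · subst hzu
        rw [swap_apply_left, swap_apply_of_ne_of_ne (Ne.symm h2) (Ne.symm h4)]
      · by_cases hzv : z = v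
        · subst hzv
          rw [swap_apply_right, swap_apply_of_ne_of_ne (Ne.symm h1) (Ne.symm h3)]
        · rw [swap_apply_of_ne_of_ne hzu hzv, swap_apply_of_ne_of_ne hzx hzy]

theorem three_cycle_two {b : ℕ} (hb3 : 3 ≤ b) (hb4 : b ≠ 4) (f : Ω → Fin b)
    (Φ : Ω ≃ Fin b × Fin 2) (hΦ : ∀ x, (Φ x).1 = f x) (M : Subgroup (Perm Ω))
    (hHM : W f ⊓ alternatingGroup Ω ≤ M) (g : Perm Ω) (hgM : g ∈ M) (hgW : g ∉ W f) :
    ∃ c ∈ M, c.IsThreeCycle := by
  obtain ⟨x, x', hxx, hgx⟩ := exists_split (by norm_num) f Φ hΦ g hgW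
  have hx_ne : x ≠ x' := fun h => hgx (by rw [h])
  obtain ⟨p, hp⟩ : ∃ p, p = g x := ⟨_, rfl⟩
  obtain ⟨p', hp'⟩ : ∃ p', p' = g x' := ⟨_, rfl⟩
  rw [← hp, ← hp'] at hgx
  obtain ⟨pb, hpb1, hpb2, hpb3⟩ := exists_mate f Φ hΦ p
  obtain ⟨pb', hpb'1, hpb'2, hpb'3⟩ := exists_mate f Φ hΦ p'
  have hcard : Fintype.card Ω = b * 2 := by rw [Fintype.card_congr Φ]; simp
  obtain ⟨y, hy⟩ := exists_notMem ({x, x', g⁻¹ pb, g⁻¹ pb'} : Finset Ω) (by
    have := Finset.card_le_four (a := x) (b := x') (c := g⁻¹ pb) (d := g⁻¹ pb'); omega)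
  simp only [Finset.mem_insert, Finset.mem_singleton, not_or] at hy
  obtain ⟨hy1, hy2, hy3, hy4⟩ := hy
  obtain ⟨y', hy'1, hy'2, hy'3⟩ := exists_mate f Φ hΦ y
  obtain ⟨xm, hxm1, hxm2, hxm3⟩ := exists_mate f Φ hΦ x
  have hfibx : ∀ z, f z = f x → z = x ∨ z = x' := by
    intro z hz
    rcases hxm3 x' hxx.symm with h | h
    · exact absurd h.symm hx_ne
    · rw [h]; exact hxm3 z hz
  have hfy : f y ≠ f x := fun h => by
    rcases hfibx y h with h | h
    · exact hy1 h
    · exact hy2 h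
  have hy'x : y' ≠ x := fun h => hfy (by rw [← hy'2, h])
  have hy'x' : y' ≠ x' := fun h => hfy (by rw [← hy'2, h, hxx])
  obtain ⟨q, hq⟩ : ∃ q, q = g y := ⟨_, rfl⟩
  obtain ⟨q', hq'⟩ : ∃ q', q' = g y' := ⟨_, rfl⟩
  have hq1 : q ≠ pb := fun h => hy3 (by rw [← h, hq]; simp)
  have hq2 : q ≠ pb' := fun h => hy4 (by rw [← h, hq]; simp)
  have hqq : q ≠ q' := fun h => hy'1 (g.injective (by rw [← hq, ← hq', h]))
  have hqp : q ≠ p := fun h => hy1 (g.injective (by rw [← hq, ← hp, h]))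
  have hqp' : q ≠ p' := fun h => hy2 (g.injective (by rw [← hq, ← hp', h]))
  have hq'p : q' ≠ p := fun h => hy'x (g.injective (by rw [← hq', ← hp, h]))
  have hq'p' : q' ≠ p' := fun h => hy'x' (g.injective (by rw [← hq', ← hp', h]))
  have hpp : p ≠ p' := fun h => hgx (by rw [h])
  have hpbp' : pb ≠ p' := fun h => hgx (by rw [← hpb2, h])
  have hpb'p : pb' ≠ p := fun h => hgx (by rw [← hpb'2, h])
  have hpbpb' : pb ≠ pb' := fun h => hgx (by rw [← hpb2, h, hpb'2])
  obtain ⟨s, hsd⟩ : ∃ s, s = g * (swap x x' * swap y y') * g⁻¹ := ⟨_, rfl⟩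
  have hsM : s ∈ M := by
    rw [hsd]
    exact M.mul_mem (M.mul_mem hgM (hHM (pair_mem f hx_ne (Ne.symm hy'1) hxx hy'2.symm)))
      (M.inv_mem hgM)
  have hs : s = swap p p' * swap q q' := by
    rw [hsd, hp, hp', hq, hq', swap_apply_apply, swap_apply_apply]
    group
  by_cases hfq : f q = f q'
  · refine ⟨s * (swap q q' * swap p pb),
      M.mul_mem hsM (hHM (pair_mem f hqq (Ne.symm hpb1) hfq hpb2.symm)), ?_⟩
    rw [hs, mul_assoc, swap_mul_self_mul]
    exact Perm.isThreeCycle_swap_mul_swap_same hpp (Ne.symm hpb1) (Ne.symm hpbp')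
  · -- the swap of the two fibres
    obtain ⟨σ, hσd⟩ : ∃ σ, σ = swap p p' * swap pb pb' := ⟨_, rfl⟩
    have hσf : ∀ z, f (σ z) = swap (f p) (f p') (f z) := by
      intro z
      rw [hσd, Perm.mul_apply]
      by_cases hz1 : z = p
      · subst hz1
        rw [swap_apply_of_ne_of_ne (Ne.symm hpb1) (Ne.symm hpb'p), swap_apply_left,
          swap_apply_left]
      · by_cases hz2 : z = p'
        · subst hz2
          rw [swap_apply_of_ne_of_ne (Ne.symm hpbp') (Ne.symm hpb'1), swap_apply_right,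
            swap_apply_right]
        · by_cases hz3 : z = pb
          · subst hz3
            rw [swap_apply_left, swap_apply_of_ne_of_ne hpb'p hpb'1, hpb'2, hpb2,
              swap_apply_left]
          · by_cases hz4 : z = pb'
            · subst hz4
              rw [swap_apply_right, swap_apply_of_ne_of_ne hpb1 hpbp', hpb'2, hpb2,
                swap_apply_right]
            · rw [swap_apply_of_ne_of_ne hz3 hz4, swap_apply_of_ne_of_ne hz1 hz2]
              have h1 : f z ≠ f p := fun h => by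
                rcases hpb3 z h with h | h
                · exact hz1 h
                · exact hz3 h
              have h2 : f z ≠ f p' := fun h => by
                rcases hpb'3 z h with h | h
                · exact hz2 h
                · exact hz4 h
              rw [swap_apply_of_ne_of_ne h1 h2]
    have hσW : σ ∈ W f := fun u v => by
      rw [hσf, hσf]; exact (swap (f p) (f p')).injective.eq_iff.symm
    have hσA : σ ∈ alternatingGroup Ω := by
      apply Perm.mem_alternatingGroup.2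
      rw [hσd, Perm.sign_mul, Perm.sign_swap hpp, Perm.sign_swap hpbpb']
      rfl
    have hσM : σ ∈ M := hHM ⟨hσW, hσA⟩
    have hsσ : s * σ = swap q q' * swap pb pb' := by
      rw [hs, hσd, swap_comm_disj (Ne.symm hqp) (Ne.symm hq'p) (Ne.symm hqp') (Ne.symm hq'p'),
        mul_assoc, swap_mul_self_mul]
    by_cases hc1 : q' = pb
    · refine ⟨s * σ, M.mul_mem hsM hσM, ?_⟩
      rw [hsσ, hc1, swap_comm q pb]
      exact Perm.isThreeCycle_swap_mul_swap_same (Ne.symm hq1) hpbpb' hq2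
    · by_cases hc2 : q' = pb'
      · refine ⟨s * σ, M.mul_mem hsM hσM, ?_⟩
        rw [hsσ, hc2, swap_comm q pb', swap_comm pb pb']
        exact Perm.isThreeCycle_swap_mul_swap_same (Ne.symm hq2) (Ne.symm hpbpb') hq1
      · -- four distinct fibres, hence a fifth one
        have g1 : f q ≠ f p := fun h => by
          rcases hpb3 q h with h | h
          · exact hqp h
          · exact hq1 h
        have g2 : f q ≠ f p' := fun h => by
          rcases hpb'3 q h with h | h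
          · exact hqp' h
          · exact hq2 h
        have g3 : f q' ≠ f p := fun h => by
          rcases hpb3 q' h with h | h
          · exact hq'p h
          · exact hc1 h
        have g4 : f q' ≠ f p' := fun h => by
          rcases hpb'3 q' h with h | h
          · exact hq'p' h
          · exact hc2 h
        have hcard4 : ({f p, f p', f q, f q'} : Finset (Fin b)).card = 4 := by
          rw [Finset.card_insert_of_notMem, Finset.card_insert_of_notMem, Finset.card_pair hfq]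
          · simp only [Finset.mem_insert, Finset.mem_singleton, not_or]
            exact ⟨Ne.symm g2, Ne.symm g4⟩
          · simp only [Finset.mem_insert, Finset.mem_singleton, not_or]
            exact ⟨hgx, Ne.symm g1, Ne.symm g3⟩
        have hb5 : 5 ≤ b := by
          have := Finset.card_le_univ ({f p, f p', f q, f q'} : Finset (Fin b))
          rw [hcard4, Fintype.card_fin] at this
          omega
        obtain ⟨j, hj⟩ := exists_notMem ({f p, f p', f q, f q'} : Finset (Fin b)) (by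
          rw [hcard4, Fintype.card_fin]; omega)
        simp only [Finset.mem_insert, Finset.mem_singleton, not_or] at hj
        obtain ⟨hj1, hj2, hj3, hj4⟩ := hj
        obtain ⟨u, v, huv, hu, hv⟩ := exists_pair (le_refl 2) f Φ hΦ j
        obtain ⟨h, hhd⟩ : ∃ h, h = swap p pb * swap u v := ⟨_, rfl⟩
        have hhM : h ∈ M := by
          rw [hhd]
          exact hHM (pair_mem f (Ne.symm hpb1) huv hpb2.symm (hu.trans hv.symm))
        have ne_u : ∀ z, f z ≠ j → z ≠ u := fun z hz h => hz (by rw [h, hu])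
        have ne_v : ∀ z, f z ≠ j → z ≠ v := fun z hz h => hz (by rw [h, hv])
        have hhp : h p = pb := by
          rw [hhd, Perm.mul_apply, swap_apply_of_ne_of_ne (ne_u p (Ne.symm hj1))
            (ne_v p (Ne.symm hj1)), swap_apply_left]
        have hhp' : h p' = p' := by
          rw [hhd, Perm.mul_apply, swap_apply_of_ne_of_ne (ne_u p' (Ne.symm hj2))
            (ne_v p' (Ne.symm hj2)), swap_apply_of_ne_of_ne (Ne.symm hpp) (Ne.symm hpbp')]
        have hhq : h q = q := by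
          rw [hhd, Perm.mul_apply, swap_apply_of_ne_of_ne (ne_u q (Ne.symm hj3))
            (ne_v q (Ne.symm hj3)), swap_apply_of_ne_of_ne hqp hq1]
        have hhq' : h q' = q' := by
          rw [hhd, Perm.mul_apply, swap_apply_of_ne_of_ne (ne_u q' (Ne.symm hj4))
            (ne_v q' (Ne.symm hj4)), swap_apply_of_ne_of_ne hq'p hc1]
        have e1 : h * swap p p' * h⁻¹ = swap pb p' := by
          rw [← swap_apply_apply, hhp, hhp']
        have e2 : h * swap q q' * h⁻¹ = swap q q' := by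
          rw [← swap_apply_apply, hhq, hhq']
        have e3 : h * s * h⁻¹ = swap pb p' * swap q q' := by
          have : h * s * h⁻¹ = (h * swap p p' * h⁻¹) * (h * swap q q' * h⁻¹) := by
            rw [hs]; group
          rw [this, e1, e2]
        refine ⟨s * (h * s * h⁻¹), M.mul_mem hsM (M.mul_mem (M.mul_mem hhM hsM) (M.inv_mem hhM)),
          ?_⟩
        rw [e3, hs, swap_comm_disj hq1.symm (Ne.symm hc1) (Ne.symm hqp') (Ne.symm hq'p'),
          mul_assoc, swap_mul_self_mul, swap_comm p p', swap_comm pb p']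
        exact Perm.isThreeCycle_swap_mul_swap_same (Ne.symm hpp) (Ne.symm hpbp') (Ne.symm hpb1)

theorem arith (c k : ℕ) (h1 : c ∣ k) (h2 : k ∣ 12) (h3 : 4 ≤ c) (h4 : c < k) : k = 12 := by
  have hk : k ≤ 12 := Nat.le_of_dvd (by norm_num) h2
  have hk5 : 5 ≤ k := by omega
  interval_cases k <;>
    first
    | rfl
    | (exfalso; revert h2; decide)
    | (exfalso; interval_cases c <;> revert h1 <;> decide)

theorem small_case (f : Ω → Fin 2) (Φ : Ω ≃ Fin 2 × Fin 2) (hΦ : ∀ x, (Φ x).1 = f x)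
    (K : Subgroup (alternatingGroup Ω))
    (hK : (W f ⊓ alternatingGroup Ω).subgroupOf (alternatingGroup Ω) < K) : K = ⊤ := by
  have hcard : Fintype.card Ω = 4 := by rw [Fintype.card_congr Φ]; simp
  have hnt : Nontrivial Ω := Fintype.one_lt_card_iff_nontrivial.1 (by omega)
  have hA : Nat.card (alternatingGroup Ω) = 12 := by
    rw [nat_card_alternatingGroup, Nat.card_eq_fintype_card, hcard]; decide
  obtain ⟨H₀, hH₀⟩ : ∃ H₀, H₀ = (W f ⊓ alternatingGroup Ω).subgroupOf (alternatingGroup Ω) :=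
    ⟨_, rfl⟩
  rw [← hH₀] at hK
  have h4 : 4 ≤ Nat.card H₀ := by
    obtain ⟨x₀⟩ : Nonempty Ω := inferInstance
    have hs : Function.Surjective (fun k : H₀ => (k.1.1 : Perm Ω) x₀) := by
      intro y
      obtain ⟨h, hh, hxy⟩ := exists_move (le_refl 2) (le_refl 2) f Φ hΦ x₀ y
      exact ⟨⟨⟨h, hh.2⟩, by rw [hH₀]; exact Subgroup.mem_subgroupOf.2 hh⟩, hxy⟩
    have := Nat.card_le_card_of_surjective _ hs
    rw [Nat.card_eq_fintype_card, hcard] at this
    exact this
  have hd1 : Nat.card H₀ ∣ Nat.card K := Subgroup.card_dvd_of_le hK.le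
  have hd2 : Nat.card K ∣ 12 := hA ▸ Subgroup.card_subgroup_dvd_card K
  have hlt : Nat.card H₀ < Nat.card K := by
    by_contra hle
    push Not at hle
    exact hK.ne (Subgroup.eq_of_le_of_card_ge hK.le hle)
  apply Subgroup.eq_top_of_card_eq
  rw [hA]
  exact arith _ _ hd1 hd2 h4 hlt

/-- Let Ω be a finite set whose size is not 8, and f : Ω → Fin b a labelling with b ≥ 2 whose fibres all have the same size a ≥ 2 (a partition into b blocks of size a). Then the even permutations preserving the partition — the intersection of the imprimitive wreath product S_a ≀ S_b with the alternating group — form a maximal subgroup of the alternating group on Ω. -/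
theorem result {Ω : Type*} [Fintype Ω] [DecidableEq Ω] (h8 : Fintype.card Ω ≠ 8) (a b : ℕ) (ha : 2 ≤ a) (hb : 2 ≤ b)
    (f : Ω → Fin b) (hf : ∀ i : Fin b, Nat.card {x : Ω // f x = i} = a) :
    IsCoatom ((Subgroup.closure {g : Equiv.Perm Ω | ∀ x y : Ω, f x = f y ↔ f (g x) = f (g y)} ⊓ alternatingGroup Ω).subgroupOf (alternatingGroup Ω)) := by
  classical
  rw [closure_eq_W]
  obtain ⟨Φ, hΦ⟩ := exists_coords a b f hf
  have hcard : Fintype.card Ω = b * a := by rw [Fintype.card_congr Φ]; simp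
  refine ⟨?_, fun K hK => ?_⟩
  · intro htop
    obtain ⟨j, hj⟩ := exists_ne_fin hb (⟨0, by omega⟩ : Fin b)
    obtain ⟨x, y, hxy, hx, hy⟩ := exists_pair ha f Φ hΦ ⟨0, by omega⟩
    obtain ⟨z, -, -, hz, -⟩ := exists_pair ha f Φ hΦ j
    have hxz : x ≠ z := fun h => hj (by rw [← hz, ← h, hx])
    have hyz : y ≠ z := fun h => hj (by rw [← hz, ← h, hy])
    have hmem : swap x y * swap x z ∈ alternatingGroup Ω :=
      (Perm.isThreeCycle_swap_mul_swap_same hxy hxz hyz).mem_alternatingGroup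
    have h1 : (⟨_, hmem⟩ : alternatingGroup Ω) ∈
        (W f ⊓ alternatingGroup Ω).subgroupOf (alternatingGroup Ω) := by
      rw [htop]; trivial
    have h2 : swap x y * swap x z ∈ W f := (Subgroup.mem_subgroupOf.1 h1).1
    have h3 := ((mem_W f _).1 h2 x y).1 (hx.trans hy.symm)
    have e1 : (swap x y * swap x z) x = z := by
      rw [Perm.mul_apply, swap_apply_left, swap_apply_of_ne_of_ne (Ne.symm hxz) (Ne.symm hyz)]
    have e2 : (swap x y * swap x z) y = x := by
      rw [Perm.mul_apply, swap_apply_of_ne_of_ne (Ne.symm hxy) hyz, swap_apply_right]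
    rw [e1, e2, hz, hx] at h3
    exact hj h3
  · by_cases hab : a = 2 ∧ b = 2
    · obtain ⟨rfl, rfl⟩ := hab
      exact small_case f Φ hΦ K hK
    · obtain ⟨M, hM⟩ : ∃ M : Subgroup (Perm Ω), M = K.map (alternatingGroup Ω).subtype :=
        ⟨_, rfl⟩
      have hHM : W f ⊓ alternatingGroup Ω ≤ M := by
        intro h hh
        rw [hM]
        exact ⟨⟨h, hh.2⟩, hK.le (Subgroup.mem_subgroupOf.2 hh), rfl⟩
      have hMW : ¬ M ≤ W f := by
        intro hle
        apply not_le_of_gt hK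
        intro k hk
        rw [Subgroup.mem_subgroupOf]
        exact ⟨hle (by rw [hM]; exact ⟨k, hk, rfl⟩), k.2⟩
      have hprim := prim ha hb hab f Φ hΦ M hHM hMW
      have h3 : ∃ c ∈ M, c.IsThreeCycle := by
        by_cases ha3 : 3 ≤ a
        · have hpos : 0 < Fintype.card Ω := by rw [hcard]; positivity
          obtain ⟨x⟩ : Nonempty Ω := Fintype.card_pos_iff.1 hpos
          obtain ⟨u, v, huv, hux, hvx, hu, hv⟩ := exists_pair_avoid ha3 f Φ hΦ x
          have h3c := Perm.isThreeCycle_swap_mul_swap_same (Ne.symm hux) (Ne.symm hvx) huv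
          exact ⟨swap x u * swap x v, hHM ⟨(W f).mul_mem (swap_mem_W f x u hu.symm)
            (swap_mem_W f x v hv.symm), h3c.mem_alternatingGroup⟩, h3c⟩
        · have ha2 : a = 2 := by omega
          subst ha2
          have hb3 : 3 ≤ b := by omega
          have hb4 : b ≠ 4 := by rintro rfl; exact h8 (by rw [hcard])
          obtain ⟨g, hgM, hgW⟩ := SetLike.not_le_iff_exists.1 hMW
          exact three_cycle_two hb3 hb4 f Φ hΦ M hHM g hgM hgW
      obtain ⟨c, hcM, hc3⟩ := h3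
      have hle := Perm.alternatingGroup_le_of_isPreprimitive_of_isThreeCycle_mem hprim hc3 hcM
      rw [eq_top_iff]
      intro k _
      have hk := hle k.2
      rw [hM] at hk
      obtain ⟨k', hk', hkk⟩ := hk
      have : k' = k := Subtype.ext hkk
      rwa [this] at hk'

end Cfsg.Agent.S5909
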