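import Cfsg.Statements.S5910
import Cfsg.Agent.S5905
import Mathlib

set_option autoImplicit false
open Cfsg

namespace Cfsg.Agent.S5910

open Equiv Cfsg.Agent.S5905

/-- the affine plane over the field with two elements -/
abbrev P := ZMod 2 × ZMod 2
/-- the affine space of dimension three over the field with two elements -/
abbrev V := P × ZMod 2

/-- affine permutations -/
def Aff : Subgroup (Perm V) where
  carrier := {h | ∀ u v w : V, h (u + v + w) = h u + h v + h w}
  one_mem' := fun u v w => rfl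
  mul_mem' := by
    intro h₁ h₂ hh₁ hh₂ u v w
    rw [Perm.mul_apply, hh₂, hh₁]
    rfl
  inv_mem' := by
    intro h hh u v w
    apply h.injective
    rw [hh]
    simp

theorem mem_Aff (h : Perm V) : h ∈ Aff ↔ ∀ u v w : V, h (u + v + w) = h u + h v + h w := Iff.rfl

theorem sign_addRight (a : ZMod 2) :
    Perm.sign (Equiv.addRight a : Perm (ZMod 2)) = if a = 0 then 1 else -1 := by
  rcases (by decide : ∀ a : ZMod 2, a = 0 ∨ a = 1) a with rfl | rfl
  · have : (Equiv.addRight (0 : ZMod 2) : Perm (ZMod 2)) = 1 := by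
      ext x
      simp
    rw [this]
    simp
  · have : (Equiv.addRight (1 : ZMod 2) : Perm (ZMod 2)) = swap 0 1 := by
      ext x
      revert x
      decide
    rw [this, Perm.sign_swap (by decide)]
    rfl

set_option maxRecDepth 100000 in
theorem phi_aff : ∀ φ : P → ZMod 2, (∏ i, (if φ i = 0 then (1 : ℤˣ) else -1)) = 1 →
    ∀ i j k : P, φ (i + j + k) = φ i + φ j + φ k := by decide

set_option maxRecDepth 100000 in
theorem sigma_aff : ∀ σ : Perm P, ∀ i j k : P, σ (i + j + k) = σ i + σ j + σ k := by decide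

theorem aff_of_even (h : Perm V) (hP : ∀ u u' : V, u.1 = u'.1 ↔ (h u).1 = (h u').1)
    (hs : Perm.sign h = 1) : h ∈ Aff := by
  have hinj : Function.Injective (fun i : P => (h (i, 0)).1) := by
    intro i j hij
    exact (hP (i, 0) (j, 0)).2 hij
  let σ : Perm P := Equiv.ofBijective _ (Finite.injective_iff_bijective.1 hinj)
  let φ : P → ZMod 2 := fun i => (h (i, 0)).2
  have h0 : ∀ i, h (i, 0) = (σ i, φ i) := fun i => rfl
  have h1 : ∀ i, h (i, 1) = (σ i, φ i + 1) := by
    intro i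
    have ha : (h (i, 1)).1 = σ i := (hP (i, 1) (i, 0)).1 rfl
    have hb : (h (i, 1)).2 ≠ φ i := by
      intro hb
      have h2 : h (i, 1) = h (i, 0) := Prod.ext ha hb
      have h3 := h.injective h2
      have h4 : (1 : ZMod 2) = 0 := congrArg Prod.snd h3
      exact absurd h4 (by decide)
    have hc : (h (i, 1)).2 = φ i + 1 :=
      (by decide : ∀ a b : ZMod 2, a ≠ b → a = b + 1) _ _ hb
    exact Prod.ext ha hc
  have hall : ∀ (i : P) (ε : ZMod 2), h (i, ε) = (σ i, φ i + ε) := by
    intro i ε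
    rcases (by decide : ∀ a : ZMod 2, a = 0 ∨ a = 1) ε with rfl | rfl
    · rw [h0, add_zero]
    · rw [h1]
  have hdec : h = (Equiv.prodCongrLeft (fun _ : ZMod 2 => σ)) *
      (Equiv.prodCongrRight (fun i : P => Equiv.addRight (φ i))) := by
    ext1 ⟨i, ε⟩
    rw [hall, Perm.mul_apply]
    simp [add_comm]
  have hsign : (∏ i, (if φ i = 0 then (1 : ℤˣ) else -1)) = 1 := by
    have h2 := hs
    rw [hdec, Perm.sign_mul, Perm.sign_prodCongrLeft, Perm.sign_prodCongrRight] at h2
    have h3 : (∏ _k : ZMod 2, Perm.sign σ) = 1 := by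
      rw [Finset.prod_const, Finset.card_univ, ZMod.card]
      exact Int.units_sq _
    rw [h3, one_mul] at h2
    simpa [sign_addRight] using h2
  have hφ := phi_aff φ hsign
  intro u v w
  obtain ⟨i, ε₁⟩ := u
  obtain ⟨j, ε₂⟩ := v
  obtain ⟨k, ε₃⟩ := w
  show h (i + j + k, ε₁ + ε₂ + ε₃) = h (i, ε₁) + h (j, ε₂) + h (k, ε₃)
  rw [hall, hall, hall, hall, sigma_aff σ, hφ]
  refine Prod.ext rfl ?_
  show φ i + φ j + φ k + (ε₁ + ε₂ + ε₃) = φ i + ε₁ + (φ j + ε₂) + (φ k + ε₃)
  abel

/-- an affine even permutation not preserving the third coordinate direction -/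
def h₀ : Perm V := swap ((0, 0), 1) ((0, 1), 0) * swap ((1, 0), 1) ((1, 1), 0)

/-- an even permutation which is not affine -/
def m₀ : Perm V := swap ((0, 0), 0) ((0, 0), 1) * swap ((0, 0), 1) ((0, 1), 0)

set_option maxRecDepth 100000 in
theorem h₀_aff : h₀ ∈ Aff := by
  rw [mem_Aff]
  decide

theorem h₀_sign : Perm.sign h₀ = 1 := by
  unfold h₀
  rw [Perm.sign_mul, Perm.sign_swap (by decide), Perm.sign_swap (by decide)]
  rfl

theorem h₀_move : (h₀ ((0, 0), 0)).1 ≠ (h₀ ((0, 0), 1)).1 := by decide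

set_option maxRecDepth 100000 in
theorem m₀_not_aff : m₀ ∉ Aff := by
  rw [mem_Aff]
  decide

theorem m₀_sign : Perm.sign m₀ = 1 := by
  unfold m₀
  rw [Perm.sign_mul, Perm.sign_swap (by decide), Perm.sign_swap (by decide)]
  rfl

/-- Let Ω be a set with 8 elements and f : Ω → Fin 4 a labelling whose four fibres all have size 2 (a partition of the 8 points into 4 pairs). Then the group of even permutations preserving this partition, (S₂ ≀ S₄) ∩ A₈, is not a maximal subgroup of the alternating group A₈ (it lies in a subgroup isomorphic to the affine group AGL₃(2)). -/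
theorem result {Ω : Type*} [Fintype Ω] [DecidableEq Ω] (h8 : Fintype.card Ω = 8)
    (f : Ω → Fin 4) (hf : ∀ i : Fin 4, Nat.card {x : Ω // f x = i} = 2) :
    ¬ IsCoatom ((Subgroup.closure {g : Equiv.Perm Ω | ∀ x y : Ω, f x = f y ↔ f (g x) = f (g y)} ⊓ alternatingGroup Ω).subgroupOf (alternatingGroup Ω)) := by
  rw [closure_eq_W]
  obtain ⟨Φ, hΦ⟩ := exists_coords 2 4 f hf
  have e4 : Fin 4 ≃ P := Fintype.equivOfCardEq (by simp)
  have e2 : Fin 2 ≃ ZMod 2 := Equiv.refl _
  obtain ⟨c, hc⟩ : ∃ c : Ω ≃ V, ∀ x y, f x = f y ↔ (c x).1 = (c y).1 := by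
    refine ⟨Φ.trans (Equiv.prodCongr e4 e2), fun x y => ?_⟩
    show f x = f y ↔ e4 (Φ x).1 = e4 (Φ y).1
    rw [e4.apply_eq_iff_eq, hΦ, hΦ]
  have hWK : W f ⊓ alternatingGroup Ω ≤
      (Aff.comap c.permCongrHom.toMonoidHom) ⊓ alternatingGroup Ω := by
    rintro g ⟨hgW, hgA⟩
    refine ⟨?_, hgA⟩
    show c.permCongr g ∈ Aff
    apply aff_of_even
    · intro u u'
      rw [Equiv.permCongr_apply, Equiv.permCongr_apply, ← hc, ← (mem_W f g).1 hgW, hc,
        Equiv.apply_symm_apply, Equiv.apply_symm_apply]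
    · rw [Equiv.Perm.sign_permCongr]
      exact Equiv.Perm.mem_alternatingGroup.1 hgA
  have hkA : c.symm.permCongr h₀ ∈ alternatingGroup Ω := by
    rw [Equiv.Perm.mem_alternatingGroup, Equiv.Perm.sign_permCongr]
    exact h₀_sign
  have hkK : c.symm.permCongr h₀ ∈ (Aff.comap c.permCongrHom.toMonoidHom) ⊓ alternatingGroup Ω := by
    refine ⟨?_, hkA⟩
    show c.permCongr (c.symm.permCongr h₀) ∈ Aff
    have : c.permCongr (c.symm.permCongr h₀) = h₀ := by
      ext u <;> simp [Equiv.permCongr_apply]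
    rw [this]
    exact h₀_aff
  have hkW : c.symm.permCongr h₀ ∉ W f ⊓ alternatingGroup Ω := by
    rintro ⟨hk, -⟩
    have h1 := (mem_W f _).1 hk (c.symm ((0, 0), 0)) (c.symm ((0, 0), 1))
    rw [hc, hc, Equiv.permCongr_apply, Equiv.permCongr_apply] at h1
    simp only [Equiv.symm_symm, Equiv.apply_symm_apply] at h1
    exact h₀_move (h1.1 trivial)
  have hmA : c.symm.permCongr m₀ ∈ alternatingGroup Ω := by
    rw [Equiv.Perm.mem_alternatingGroup, Equiv.Perm.sign_permCongr]
    exact m₀_sign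
  have hmK : c.symm.permCongr m₀ ∉ (Aff.comap c.permCongrHom.toMonoidHom) ⊓ alternatingGroup Ω := by
    rintro ⟨hm, -⟩
    have h1 : c.permCongr (c.symm.permCongr m₀) ∈ Aff := hm
    have : c.permCongr (c.symm.permCongr m₀) = m₀ := by
      ext u <;> simp [Equiv.permCongr_apply]
    rw [this] at h1
    exact m₀_not_aff h1
  intro hco
  have hlt : (W f ⊓ alternatingGroup Ω).subgroupOf (alternatingGroup Ω) <
      ((Aff.comap c.permCongrHom.toMonoidHom) ⊓ alternatingGroup Ω).subgroupOf (alternatingGroup Ω) := by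
    rw [SetLike.lt_iff_le_and_exists]
    exact ⟨fun x hx => hWK hx, ⟨⟨_, hkA⟩, hkK, hkW⟩⟩
  have htop := hco.2 _ hlt
  rw [Subgroup.subgroupOf_eq_top] at htop
  exact hmK (htop hmA)

end Cfsg.Agent.S5910
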