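import Cfsg.Statements.S5911
import Mathlib

set_option autoImplicit false
open Cfsg

namespace Cfsg.Agent.S5911

open Equiv

section swaps
variable {β : Type*} [DecidableEq β]

/-- a swap moving `a` is `swap a (s a)` -/
theorem swap_of_moves {s : Perm β} (hs : s.IsSwap) {a : β} (ha : s a ≠ a) : s = swap a (s a) := by
  obtain ⟨u, v, huv, rfl⟩ := hs
  rcases (swap_apply_ne_self_iff.1 ha).2 with rfl | rfl
  · rw [swap_apply_left]
  · rw [swap_apply_right, swap_comm]

theorem swap_of_moves_two {s : Perm β} (hs : s.IsSwap) {a b : β} (hab : a ≠ b) (ha : s a ≠ a)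
    (hb : s b ≠ b) : s = swap a b := by
  obtain ⟨u, v, huv, rfl⟩ := hs
  rcases (swap_apply_ne_self_iff.1 ha).2 with rfl | rfl <;>
    rcases (swap_apply_ne_self_iff.1 hb).2 with rfl | rfl
  · exact absurd rfl hab
  · rfl
  · exact swap_comm _ _
  · exact absurd rfl hab

/-- two swaps without common moved point commute -/
theorem swap_comm_of_no_common {s s' : Perm β} (hs : s.IsSwap) (hs' : s'.IsSwap)
    (h : ∀ x, s x ≠ x → s' x = x) : s * s' = s' * s := by
  obtain ⟨a, b, hab, rfl⟩ := hs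
  obtain ⟨u, v, huv, rfl⟩ := hs'
  have ha : swap u v a = a := h a (by rw [swap_apply_left]; exact hab.symm)
  have hb : swap u v b = b := h b (by rw [swap_apply_right]; exact hab)
  have hau : a ≠ u := by
    rintro rfl
    rw [swap_apply_left] at ha
    exact huv ha.symm
  have hav : a ≠ v := by
    rintro rfl
    rw [swap_apply_right] at ha
    exact huv ha
  have hbu : b ≠ u := by
    rintro rfl
    rw [swap_apply_left] at hb
    exact huv hb.symm
  have hbv : b ≠ v := by
    rintro rfl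
    rw [swap_apply_right] at hb
    exact huv hb
  exact (Equiv.Perm.disjoint_swap_swap (by simp [hab, hau, hav, hbu, hbv, huv])).commute.eq

theorem exists_common {s s' : Perm β} (hs : s.IsSwap) (hs' : s'.IsSwap) (h : s * s' ≠ s' * s) :
    ∃ x, s x ≠ x ∧ s' x ≠ x := by
  by_contra hcon
  push Not at hcon
  exact h (swap_comm_of_no_common hs hs' hcon)

/-- pairwise non-commuting swaps (at least four of them) move a common point -/
theorem star {ι : Type*} (t : ι → Perm β) (ht : ∀ i, (t i).IsSwap)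
    (hnc : ∀ i j, i ≠ j → t i * t j ≠ t j * t i) (i₁ i₂ : ι) (h12 : i₁ ≠ i₂)
    (h4 : ∀ a b c : ι, ∃ d, d ≠ a ∧ d ≠ b ∧ d ≠ c) : ∃ a, ∀ i, t i a ≠ a := by
  obtain ⟨a, ha1, ha2⟩ := exists_common (ht i₁) (ht i₂) (hnc i₁ i₂ h12)
  refine ⟨a, ?_⟩
  have h1 : t i₁ = swap a (t i₁ a) := swap_of_moves (ht i₁) ha1
  have h2 : t i₂ = swap a (t i₂ a) := swap_of_moves (ht i₂) ha2
  have hbd : t i₁ a ≠ t i₂ a := by
    intro h
    apply hnc i₁ i₂ h12
    rw [h1, h2, h]
  have key : ∀ i, t i a = a → t i = swap (t i₁ a) (t i₂ a) := by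
    intro i hi
    have hi1 : i ≠ i₁ := by
      rintro rfl
      exact ha1 hi
    have hi2 : i ≠ i₂ := by
      rintro rfl
      exact ha2 hi
    obtain ⟨x, hx1, hx2⟩ := exists_common (ht i) (ht i₁) (hnc i i₁ hi1)
    rw [h1] at hx2
    have hxb : x = t i₁ a := by
      rcases (swap_apply_ne_self_iff.1 hx2).2 with h | h
      · rw [h] at hx1
        exact absurd hi hx1
      · exact h
    obtain ⟨y, hy1, hy2⟩ := exists_common (ht i) (ht i₂) (hnc i i₂ hi2)
    rw [h2] at hy2
    have hyd : y = t i₂ a := by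
      rcases (swap_apply_ne_self_iff.1 hy2).2 with h | h
      · rw [h] at hy1
        exact absurd hi hy1
      · exact h
    rw [hxb] at hx1
    rw [hyd] at hy1
    exact swap_of_moves_two (ht i) hbd hx1 hy1
  intro i hi
  have hib := key i hi
  obtain ⟨i', h1', h2', h3'⟩ := h4 i₁ i₂ i
  by_cases hi' : t i' a = a
  · have := key i' hi'
    apply hnc i' i h3'
    rw [this, hib]
  · have hw := swap_of_moves (ht i') hi'
    obtain ⟨x, hx1, hx2⟩ := exists_common (ht i') (ht i) (hnc i' i h3')
    rw [hib] at hx2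
    rw [hw] at hx1
    have hxa : x ≠ a := by
      rcases (swap_apply_ne_self_iff.1 hx2).2 with h | h
      · rw [h]; exact ha1
      · rw [h]; exact ha2
    have hxw : x = t i' a := by
      rcases (swap_apply_ne_self_iff.1 hx1).2 with h | h
      · exact absurd h hxa
      · exact h
    rcases (swap_apply_ne_self_iff.1 hx2).2 with h | h
    · apply hnc i' i₁ h1'
      rw [hw, ← hxw, h, ← h1]
    · apply hnc i' i₂ h2'
      rw [hw, ← hxw, h, ← h2]

end swaps

/-! ### arithmetic -/

theorem aux_fact : ∀ k, 3 ≤ k → 2 ^ k * (k + 1).factorial < (2 * k).factorial := by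
  intro k hk
  induction k, hk using Nat.le_induction with
  | base => decide
  | succ k hk ih =>
    have h1 : (2 * (k + 1)).factorial = (2 * k + 2) * ((2 * k + 1) * (2 * k).factorial) := by
      rw [show 2 * (k + 1) = 2 * k + 1 + 1 by ring, Nat.factorial_succ, Nat.factorial_succ]
    have h2 : (k + 1 + 1).factorial = (k + 2) * (k + 1).factorial := by
      rw [Nat.factorial_succ]
    rw [h1, h2, pow_succ]
    have h3 : 2 ^ k * 2 * ((k + 2) * (k + 1).factorial) = (2 * (k + 2)) * (2 ^ k * (k + 1).factorial) := by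
      ring
    rw [h3]
    have h4 : 2 * (k + 2) ≤ (2 * k + 2) * (2 * k + 1) := by nlinarith
    calc 2 * (k + 2) * (2 ^ k * (k + 1).factorial)
        < 2 * (k + 2) * (2 * k).factorial := by
          apply Nat.mul_lt_mul_of_pos_left ih (by omega)
      _ ≤ (2 * k + 2) * (2 * k + 1) * (2 * k).factorial := Nat.mul_le_mul_right _ h4
      _ = (2 * k + 2) * ((2 * k + 1) * (2 * k).factorial) := by ring

theorem dioph (m j : ℕ) (hj : 2 ≤ j)
    (h : m.factorial * 2 ^ j * j.factorial = (m + 2 * j - 2).factorial * 2) : m = 0 ∧ j = 3 := by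
  have hm : 0 < m.factorial := Nat.factorial_pos m
  rcases Nat.lt_or_ge j 4 with hj4 | hj4
  · interval_cases j
    · exfalso
      have h1 : (m + 2 * 2 - 2).factorial = (m + 2) * ((m + 1) * m.factorial) := by
        rw [show m + 2 * 2 - 2 = m + 1 + 1 by omega, Nat.factorial_succ, Nat.factorial_succ]
      rw [h1] at h
      have h2 : m.factorial * 4 = m.factorial * ((m + 2) * (m + 1)) := by
        have : (2 : ℕ).factorial = 2 := rfl
        rw [this] at h
        nlinarith
      have h3 := Nat.eq_of_mul_eq_mul_left hm h2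
      rcases Nat.eq_zero_or_pos m with rfl | hpos
      · omega
      · nlinarith
    · have h1 : (m + 2 * 3 - 2).factorial =
          (m + 4) * ((m + 3) * ((m + 2) * ((m + 1) * m.factorial))) := by
        rw [show m + 2 * 3 - 2 = m + 1 + 1 + 1 + 1 by omega, Nat.factorial_succ, Nat.factorial_succ,
          Nat.factorial_succ, Nat.factorial_succ]
      rw [h1] at h
      have h2 : m.factorial * 24 = m.factorial * ((m + 4) * (m + 3) * (m + 2) * (m + 1)) := by
        have : (3 : ℕ).factorial = 6 := rfl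
        rw [this] at h
        nlinarith
      have h3 := Nat.eq_of_mul_eq_mul_left hm h2
      rcases Nat.eq_zero_or_pos m with rfl | hpos
      · exact ⟨rfl, rfl⟩
      · exfalso
        have : 5 * 4 * 3 * 2 ≤ (m + 4) * (m + 3) * (m + 2) * (m + 1) := by
          apply Nat.mul_le_mul (Nat.mul_le_mul (Nat.mul_le_mul _ _) _) _ <;> omega
        omega
  · exfalso
    obtain ⟨k, rfl⟩ : ∃ k, j = k + 1 := ⟨j - 1, by omega⟩
    have h1 := aux_fact k (by omega)
    have h2 : m.factorial * (2 * k).factorial ≤ (m + 2 * k).factorial :=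
      Nat.le_of_dvd (Nat.factorial_pos _) (Nat.factorial_mul_factorial_dvd_factorial_add m (2 * k))
    rw [show m + 2 * (k + 1) - 2 = m + 2 * k by omega, pow_succ] at h
    have h3 : m.factorial * (2 ^ k * (k + 1).factorial) < m.factorial * (2 * k).factorial :=
      Nat.mul_lt_mul_of_pos_left h1 hm
    nlinarith

/-! ### isomorphisms between symmetric groups and swaps -/

section iso
variable {α β : Type*} [Fintype α] [DecidableEq α] [Fintype β] [DecidableEq β]

theorem card_centralizer_eq (ψ : Perm α ≃* Perm β) (t : Perm α) :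
    Nat.card (Subgroup.centralizer {ψ t}) = Nat.card (Subgroup.centralizer {t}) := by
  symm
  refine Nat.card_congr (ψ.toEquiv.subtypeEquiv (fun g => ?_))
  rw [Subgroup.mem_centralizer_singleton_iff, Subgroup.mem_centralizer_singleton_iff]
  constructor
  · intro h
    show ψ g * ψ t = ψ t * ψ g
    rw [← map_mul, ← map_mul, h]
  · intro h
    apply ψ.injective
    rw [map_mul, map_mul]
    exact h

/-- an isomorphism maps a swap to a swap, or (in degree six) to a product of three swaps -/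
theorem swap_or_triple (hcard : Fintype.card α = Fintype.card β) (ψ : Perm α ≃* Perm β)
    (t : Perm α) (ht : t.IsSwap) :
    (ψ t).IsSwap ∨ (Fintype.card α = 6 ∧ (ψ t).cycleType = {2, 2, 2}) := by
  have ho : orderOf (ψ t) = 2 := by rw [MulEquiv.orderOf_eq, ht.orderOf]
  obtain ⟨k, hk⟩ := Equiv.Perm.cycleType_prime_order (σ := ψ t) (by rw [ho]; exact Nat.prime_two)
  rw [ho] at hk
  have hc := card_centralizer_eq ψ t
  rw [Equiv.Perm.nat_card_centralizer, Equiv.Perm.nat_card_centralizer, hk,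
    (Equiv.Perm.isSwap_iff_cycleType.1 ht)] at hc
  have hsum : (k + 1) * 2 ≤ Fintype.card β := by
    have := Equiv.Perm.sum_cycleType_le (ψ t)
    rw [hk, Multiset.sum_replicate, smul_eq_mul] at this
    exact this
  have e1 : (Multiset.replicate (k + 1) 2).sum = (k + 1) * 2 := by
    rw [Multiset.sum_replicate, smul_eq_mul]
  have e2 : (Multiset.replicate (k + 1) 2).prod = 2 ^ (k + 1) := by
    rw [Multiset.prod_replicate]
  have e3 : (Multiset.replicate (k + 1) 2).toFinset = {2} := by
    ext x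
    rw [Multiset.mem_toFinset, Multiset.mem_replicate, Finset.mem_singleton]
    exact ⟨fun h => h.2, fun h => ⟨Nat.succ_ne_zero k, h⟩⟩
  have e4 : ({2} : Multiset ℕ).toFinset = {2} := by simp
  rw [e1, e2, e3, e4] at hc
  simp only [Finset.prod_singleton, Multiset.count_replicate_self, Multiset.sum_singleton,
    Multiset.prod_singleton, Multiset.count_singleton_self, Nat.factorial_one, mul_one] at hc
  by_cases hk0 : k = 0
  · left
    rw [Equiv.Perm.isSwap_iff_cycleType, hk, hk0]
    rfl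
  · right
    obtain ⟨m, hm⟩ : ∃ m, Fintype.card β = m + (k + 1) * 2 := ⟨Fintype.card β - (k + 1) * 2, by omega⟩
    rw [hcard, hm] at hc
    have hd := dioph m (k + 1) (by omega) (by
      rw [show m + (k + 1) * 2 - (k + 1) * 2 = m by omega] at hc
      rw [hc]
      congr 2
      omega)
    obtain ⟨hm0, hk3⟩ := hd
    refine ⟨by rw [hcard, hm, hm0, hk3], ?_⟩
    rw [hk, hk3]
    rfl

theorem exists_ne4 (hα : 5 ≤ Fintype.card α) (a b c d : α) :
    ∃ y, y ≠ a ∧ y ≠ b ∧ y ≠ c ∧ y ≠ d := by
  by_contra hcon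
  push Not at hcon
  have hsub : (Finset.univ : Finset α) ⊆ {a, b, c, d} := by
    intro y _
    by_cases h1 : y = a
    · simp [h1]
    by_cases h2 : y = b
    · simp [h2]
    by_cases h3 : y = c
    · simp [h3]
    have := hcon y h1 h2 h3
    simp [this]
  have h1 := Finset.card_le_card hsub
  have h2 : ({a, b, c, d} : Finset α).card ≤ 4 := Finset.card_le_four
  rw [Finset.card_univ] at h1
  omega

theorem swap_not_comm {x y y' : α} (hy : y ≠ x) (hy' : y' ≠ x) (h : y ≠ y') :
    swap x y * swap x y' ≠ swap x y' * swap x y := by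
  intro heq
  have := congrArg (fun g : Perm α => g x) heq
  simp only [Perm.mul_apply, swap_apply_left] at this
  rw [swap_apply_of_ne_of_ne hy' (Ne.symm h), swap_apply_of_ne_of_ne hy h] at this
  exact h this.symm

theorem exists_center (hα : 5 ≤ Fintype.card α) (ψ : Perm α ≃* Perm β)
    (h1 : ∀ t : Perm α, t.IsSwap → (ψ t).IsSwap) (x : α) :
    ∃ b : β, ∀ y, y ≠ x → ψ (swap x y) b ≠ b := by
  obtain ⟨y₁, hy₁, -, -, -⟩ := exists_ne4 hα x x x x
  obtain ⟨y₂, hy₂, hy₂₁, -, -⟩ := exists_ne4 hα x y₁ x x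
  obtain ⟨b, hb⟩ := star (ι := {y : α // y ≠ x}) (fun y => ψ (swap x y.1))
    (fun y => h1 _ ⟨x, y.1, y.2.symm, rfl⟩)
    (fun y y' hyy' => by
      rw [← map_mul, ← map_mul]
      intro h
      exact swap_not_comm y.2 y'.2 (fun h' => hyy' (Subtype.ext h')) (ψ.injective h))
    ⟨y₁, hy₁⟩ ⟨y₂, hy₂⟩ (fun h => hy₂₁ (congrArg Subtype.val h).symm)
    (fun a b c => by
      obtain ⟨d, hd, hda, hdb, hdc⟩ := exists_ne4 hα x a.1 b.1 c.1
      exact ⟨⟨d, hd⟩, fun h => hda (congrArg Subtype.val h), fun h => hdb (congrArg Subtype.val h),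
        fun h => hdc (congrArg Subtype.val h)⟩)
  exact ⟨b, fun y hy => hb ⟨y, hy⟩⟩

theorem left_inv_aux (hα : 5 ≤ Fintype.card α) (ψ : Perm α ≃* Perm β)
    (h1 : ∀ t : Perm α, t.IsSwap → (ψ t).IsSwap)
    (e : α → β) (e' : β → α) (he : ∀ x y, y ≠ x → ψ (swap x y) (e x) ≠ e x)
    (he' : ∀ b c, c ≠ b → ψ.symm (swap b c) (e' b) ≠ e' b) (x : α) : e' (e x) = x := by
  obtain ⟨y₁, hy₁, -, -, -⟩ := exists_ne4 hα x x x x
  obtain ⟨y₂, hy₂, hy₂₁, -, -⟩ := exists_ne4 hα x y₁ x x
  have key : ∀ y, y ≠ x → e' (e x) = x ∨ e' (e x) = y := by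
    intro y hy
    have hs := swap_of_moves (h1 _ ⟨x, y, hy.symm, rfl⟩) (he x y hy)
    have hmv := he' (e x) (ψ (swap x y) (e x)) (he x y hy)
    rw [← hs, MulEquiv.symm_apply_apply] at hmv
    exact (swap_apply_ne_self_iff.1 hmv).2
  rcases key y₁ hy₁ with h | h
  · exact h
  · rcases key y₂ hy₂ with h' | h'
    · exact h'
    · exact absurd (h.symm.trans h') (Ne.symm hy₂₁)

/-- an isomorphism preserving swaps in both directions is induced by a bijection -/
theorem induced (hα : 5 ≤ Fintype.card α) (hcard : Fintype.card α = Fintype.card β)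
    (ψ : Perm α ≃* Perm β) (h1 : ∀ t : Perm α, t.IsSwap → (ψ t).IsSwap)
    (h2 : ∀ t : Perm β, t.IsSwap → (ψ.symm t).IsSwap) :
    ∃ e : α ≃ β, ∀ g : Perm α, ψ g = e.permCongr g := by
  have hβ : 5 ≤ Fintype.card β := hcard ▸ hα
  choose e he using exists_center hα ψ h1
  choose e' he' using exists_center hβ ψ.symm h2
  have hl : ∀ x, e' (e x) = x := left_inv_aux hα ψ h1 e e' he he'
  have hr : ∀ b, e (e' b) = b := left_inv_aux hβ ψ.symm h2 e' e he' (by
    intro x y hy
    rw [MulEquiv.symm_symm]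
    exact he x y hy)
  let E : α ≃ β := ⟨e, e', hl, hr⟩
  refine ⟨E, ?_⟩
  have hsw : ∀ x y, x ≠ y → ψ (swap x y) = swap (e x) (e y) := by
    intro x y hxy
    refine swap_of_moves_two (h1 _ ⟨x, y, hxy, rfl⟩) (fun h => hxy (E.injective h)) (he x y hxy.symm) ?_
    rw [swap_comm]
    exact he y x hxy
  have hhom : ψ.toMonoidHom = E.permCongrHom.toMonoidHom := by
    apply MonoidHom.eq_of_eqOn_dense Equiv.Perm.closure_isSwap
    rintro t ⟨x, y, hxy, rfl⟩
    show ψ (swap x y) = E.permCongr (swap x y)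
    rw [hsw x y hxy, Equiv.permCongr_def, Equiv.symm_trans_swap_trans]
    rfl
  intro g
  exact congrArg (fun f : Perm α →* Perm β => f g) hhom

end iso

/-! ### the coset action -/

section coset
variable {Ω : Type*} [Fintype Ω] [DecidableEq Ω]

theorem coset_bijective (hn : 5 ≤ Fintype.card Ω) (H : Subgroup (Perm Ω))
    (hH : H.index = Fintype.card Ω) :
    Function.Bijective (MulAction.toPermHom (Perm Ω) (Perm Ω ⧸ H)) := by
  have hcard : 5 ≤ Nat.card Ω := by rw [Nat.card_eq_fintype_card]; exact hn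
  have hcore : H.normalCore = ⊥ := by
    by_contra hne
    have hnt : Nontrivial H.normalCore := (Subgroup.nontrivial_iff_ne_bot _).mpr hne
    have hle : alternatingGroup Ω ≤ H :=
      (Equiv.Perm.alternatingGroup_le_of_normal hcard hnt).trans (Subgroup.normalCore_le H)
    have hdvd := Subgroup.index_dvd_of_le hle
    have : Nontrivial Ω := Fintype.one_lt_card_iff_nontrivial.1 (by omega)
    rw [alternatingGroup.index_eq_two, hH] at hdvd
    have := Nat.le_of_dvd (by norm_num) hdvd
    omega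
  have hinj : Function.Injective (MulAction.toPermHom (Perm Ω) (Perm Ω ⧸ H)) := by
    rw [← MonoidHom.ker_eq_bot_iff, ← Subgroup.normalCore_eq_ker, hcore]
  rw [Nat.bijective_iff_injective_and_card]
  refine ⟨hinj, ?_⟩
  rw [Nat.card_perm, Nat.card_perm]
  have hidx : Nat.card (Perm Ω ⧸ H) = H.index := rfl
  rw [hidx, hH, Nat.card_eq_fintype_card]

theorem mem_iff_fix (H : Subgroup (Perm Ω)) (g : Perm Ω) :
    g ∈ H ↔ MulAction.toPermHom (Perm Ω) (Perm Ω ⧸ H) g (QuotientGroup.mk 1) = QuotientGroup.mk 1 := by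
  show g ∈ H ↔ g • (QuotientGroup.mk 1 : Perm Ω ⧸ H) = QuotientGroup.mk 1
  rw [MulAction.Quotient.smul_mk, QuotientGroup.eq]
  simp

theorem stab_of_induced (H : Subgroup (Perm Ω)) (ψ : Perm Ω ≃* Perm (Perm Ω ⧸ H))
    (hψ : ∀ g, ψ g = MulAction.toPermHom (Perm Ω) (Perm Ω ⧸ H) g)
    (e : Ω ≃ Perm Ω ⧸ H) (he : ∀ g, ψ g = e.permCongr g) :
    H = MulAction.stabilizer (Perm Ω) (e.symm (QuotientGroup.mk 1)) := by
  ext g
  rw [MulAction.mem_stabilizer_iff, mem_iff_fix, ← hψ, he, Equiv.permCongr_apply,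
    Equiv.Perm.smul_def]
  exact (Equiv.eq_symm_apply e).symm

theorem eq_stab_of_fix (H : Subgroup (Perm Ω)) (hH : H.index = Fintype.card Ω) (x : Ω)
    (hx : ∀ h ∈ H, h x = x) : H = MulAction.stabilizer (Perm Ω) x := by
  have hle : H ≤ MulAction.stabilizer (Perm Ω) x := fun h hh => hx h hh
  apply Subgroup.eq_of_le_of_card_ge hle
  have h1 := H.card_mul_index
  have h2 := (MulAction.stabilizer (Perm Ω) x).card_mul_index
  rw [MulAction.index_stabilizer_of_transitive, Nat.card_eq_fintype_card (α := Ω)] at h2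
  rw [hH, ← h2] at h1
  have hpos : 0 < Fintype.card Ω := by
    rw [← hH]
    exact Nat.pos_of_ne_zero Subgroup.index_ne_zero_of_finite
  exact (Nat.eq_of_mul_eq_mul_right hpos h1).ge

theorem fix4 (K : Subgroup (Perm Ω)) (hK : Nat.card K = 3) (h4 : Fintype.card Ω = 4) :
    ∃ x, (∀ k ∈ K, k x = x) ∧ ∀ y, (∀ k ∈ K, k y = y) → y = x := by
  have : Fact (Nat.Prime 3) := ⟨Nat.prime_three⟩
  have hp : IsPGroup 3 K := IsPGroup.of_card (n := 1) (by simpa using hK)
  have hmod := hp.card_modEq_card_fixedPoints Ω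
  rw [Nat.card_eq_fintype_card, h4] at hmod
  have hmem : ∀ y, y ∈ MulAction.fixedPoints K Ω ↔ ∀ k ∈ K, k y = y := by
    intro y
    rw [MulAction.mem_fixedPoints]
    constructor
    · intro h k hk
      exact h ⟨k, hk⟩
    · intro h k
      exact h k.1 k.2
  have hle : Nat.card (MulAction.fixedPoints K Ω) ≤ 4 := by
    have := Nat.card_le_card_of_injective (Subtype.val : MulAction.fixedPoints K Ω → Ω)
      Subtype.val_injective
    rwa [Nat.card_eq_fintype_card (α := Ω), h4] at this
  have hcases : Nat.card (MulAction.fixedPoints K Ω) = 1 ∨ Nat.card (MulAction.fixedPoints K Ω) = 4 := by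
    unfold Nat.ModEq at hmod
    omega
  rcases hcases with h1 | h1
  · obtain ⟨hsub, ⟨x⟩⟩ := Nat.card_eq_one_iff_unique.1 h1
    refine ⟨x.1, (hmem _).1 x.2, fun y hy => ?_⟩
    have : (⟨y, (hmem y).2 hy⟩ : MulAction.fixedPoints K Ω) = x := Subsingleton.elim _ _
    exact congrArg Subtype.val this
  · exfalso
    have hbij : Function.Bijective (Subtype.val : MulAction.fixedPoints K Ω → Ω) := by
      rw [Nat.bijective_iff_injective_and_card]
      exact ⟨Subtype.val_injective, by rw [h1, Nat.card_eq_fintype_card, h4]⟩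
    have hall : ∀ k ∈ K, k = 1 := by
      intro k hk
      ext y
      obtain ⟨z, rfl⟩ := hbij.2 y
      exact (hmem _).1 z.2 k hk
    have : K = ⊥ := by
      rw [eq_bot_iff]
      intro k hk
      rw [Subgroup.mem_bot]
      exact hall k hk
    rw [this, Subgroup.card_bot] at hK
    omega

theorem small (hn : Fintype.card Ω ≤ 4) (H : Subgroup (Perm Ω)) (hH : H.index = Fintype.card Ω) :
    ∃ x : Ω, H = MulAction.stabilizer (Perm Ω) x := by
  have hpos : 0 < Fintype.card Ω := by
    rw [← hH]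
    exact Nat.pos_of_ne_zero Subgroup.index_ne_zero_of_finite
  have hcardH := H.card_mul_index
  rw [Nat.card_perm, Nat.card_eq_fintype_card (α := Ω), hH] at hcardH
  suffices h : ∃ x, ∀ h ∈ H, h x = x by
    obtain ⟨x, hx⟩ := h
    exact ⟨x, eq_stab_of_fix H hH x hx⟩
  have hne : Nonempty Ω := Fintype.card_pos_iff.1 hpos
  obtain ⟨x₀⟩ := hne
  have hcases : Fintype.card Ω = 1 ∨ Fintype.card Ω = 2 ∨ Fintype.card Ω = 3 ∨ Fintype.card Ω = 4 := by
    omega
  rcases hcases with hc | hc | hc | hc <;> rw [hc] at hcardH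
  · -- card = 1
    obtain ⟨x, hx⟩ := Fintype.card_eq_one_iff.1 hc
    exact ⟨x, fun h _ => hx _⟩
  · -- card = 2
    have h1 : Nat.card H = 1 := by
      have : (2 : ℕ).factorial = 2 := rfl
      omega
    have hbot : H = ⊥ := Subgroup.card_eq_one.1 h1
    refine ⟨x₀, fun h hh => ?_⟩
    rw [hbot, Subgroup.mem_bot] at hh
    rw [hh]
    rfl
  · -- card = 3
    have h1 : Nat.card H = 2 := by
      have : (3 : ℕ).factorial = 6 := rfl
      omega
    have : Fact (Nat.Prime 2) := ⟨Nat.prime_two⟩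
    have hp : IsPGroup 2 H := IsPGroup.of_card (n := 1) (by simpa using h1)
    have hnd : ¬ 2 ∣ Nat.card Ω := by
      rw [Nat.card_eq_fintype_card, hc]
      omega
    obtain ⟨x, hx⟩ := hp.nonempty_fixed_point_of_prime_not_dvd_card Ω hnd
    refine ⟨x, fun h hh => ?_⟩
    exact (MulAction.mem_fixedPoints.1 hx) ⟨h, hh⟩
  · -- card = 4
    have h1 : Nat.card H = 6 := by
      have : (4 : ℕ).factorial = 24 := rfl
      omega
    have : Fact (Nat.Prime 3) := ⟨Nat.prime_three⟩
    obtain ⟨K, hK⟩ := Sylow.exists_subgroup_card_pow_prime (G := H) 3 (n := 1) (by rw [h1]; decide)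
    rw [pow_one] at hK
    have hidx : K.index = 2 := by
      have := K.card_mul_index
      rw [hK, h1] at this
      omega
    have hnorm : K.Normal := Subgroup.normal_of_index_eq_two hidx
    have hK' : Nat.card (K.map H.subtype) = 3 := by
      rw [Subgroup.card_map_of_injective H.subtype_injective, hK]
    obtain ⟨x, hx1, hx2⟩ := fix4 (K.map H.subtype) hK' hc
    refine ⟨x, fun h hh => ?_⟩
    apply hx2
    rintro _ ⟨k, hk, rfl⟩
    have hconj : (⟨h, hh⟩ : H)⁻¹ * k * (⟨h, hh⟩ : H) ∈ K := by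
      have := hnorm.conj_mem k hk (⟨h, hh⟩ : H)⁻¹
      simpa using this
    have h2 := hx1 _ ⟨_, hconj, rfl⟩
    have h3 : (H.subtype ((⟨h, hh⟩ : H)⁻¹ * k * (⟨h, hh⟩ : H))) x = h⁻¹ ((k : Perm Ω) (h x)) := rfl
    rw [h3] at h2
    have h4 := congrArg h h2
    simpa using h4

end coset

/-- Let Ω be a finite set whose size n is not 6. Then every subgroup of the symmetric group on Ω of index n is the stabilizer of a point. -/
theorem result {Ω : Type*} [Fintype Ω] [DecidableEq Ω] (h6 : Fintype.card Ω ≠ 6)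
    (H : Subgroup (Equiv.Perm Ω)) (hH : H.index = Fintype.card Ω) :
    ∃ x : Ω, H = MulAction.stabilizer (Equiv.Perm Ω) x := by
  by_cases hn : 5 ≤ Fintype.card Ω
  · have hbij := coset_bijective hn H hH
    have hdec : DecidableEq (Perm Ω ⧸ H) := Classical.decEq _
    have hfin : Fintype (Perm Ω ⧸ H) := Fintype.ofFinite _
    have hcardX : Fintype.card Ω = Fintype.card (Perm Ω ⧸ H) := by
      rw [← Nat.card_eq_fintype_card (α := Perm Ω ⧸ H)]
      have hidx : Nat.card (Perm Ω ⧸ H) = H.index := rfl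
      rw [hidx, hH]
    let ψ : Perm Ω ≃* Perm (Perm Ω ⧸ H) := MulEquiv.ofBijective _ hbij
    have h1 : ∀ t : Perm Ω, t.IsSwap → (ψ t).IsSwap := by
      intro t ht
      rcases swap_or_triple hcardX ψ t ht with h | h
      · exact h
      · exact absurd h.1 h6
    have h2 : ∀ t : Perm (Perm Ω ⧸ H), t.IsSwap → (ψ.symm t).IsSwap := by
      intro t ht
      rcases swap_or_triple hcardX.symm ψ.symm t ht with h | h
      · exact h
      · exact absurd (hcardX.trans h.1) h6
    obtain ⟨e, he⟩ := induced hn hcardX ψ h1 h2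
    exact ⟨_, stab_of_induced H ψ (fun g => rfl) e he⟩
  · exact small (by omega) H hH

end Cfsg.Agent.S5911
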