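import Cfsg.Statements.S5912
import Cfsg.Agent.S5911
import Mathlib

set_option autoImplicit false
open Cfsg

namespace Cfsg.Agent.S5912

open Equiv Cfsg.Agent.S5911

section auto
variable {Ω : Type*} [Fintype Ω] [DecidableEq Ω]

/-- swap-preserving automorphisms -/
def Pres (α : Perm Ω ≃* Perm Ω) : Prop := ∀ t : Perm Ω, t.IsSwap → (α t).IsSwap

theorem isSwap_of_isConj {s t : Perm Ω} (h : IsConj s t) (hs : s.IsSwap) : t.IsSwap := by
  rw [Equiv.Perm.isSwap_iff_cycleType] at hs ⊢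
  rw [← hs]
  exact (Equiv.Perm.isConj_iff_cycleType_eq.1 h).symm

theorem isConj_of_map (α : Perm Ω ≃* Perm Ω) {a b : Perm Ω} (h : IsConj (α a) (α b)) :
    IsConj a b := by
  have := α.symm.toMonoidHom.map_isConj h
  simpa using this

theorem map_isConj' (α : Perm Ω ≃* Perm Ω) {a b : Perm Ω} (h : IsConj a b) :
    IsConj (α a) (α b) := α.toMonoidHom.map_isConj h

theorem pres_symm (α : Perm Ω ≃* Perm Ω) (h : Pres α) : Pres α.symm := by
  intro t ht
  rcases swap_or_triple rfl α.symm t ht with h1 | ⟨h6, h1⟩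
  · exact h1
  · exfalso
    have hsw : (α t).IsSwap := h _ ht
    have hu : α (α.symm t) = t := α.apply_symm_apply _
    have hc : IsConj (α (α.symm t)) (α t) := by
      rw [Equiv.Perm.isConj_iff_cycleType_eq, hu, Equiv.Perm.isSwap_iff_cycleType.1 hsw,
        Equiv.Perm.isSwap_iff_cycleType.1 ht]
    have hc' := isConj_of_map α hc
    rw [Equiv.Perm.isConj_iff_cycleType_eq, h1, Equiv.Perm.isSwap_iff_cycleType.1 ht] at hc'
    exact absurd hc' (by decide)

theorem inner_of_pres (hn : 5 ≤ Fintype.card Ω) (α : Perm Ω ≃* Perm Ω) (h : Pres α) :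
    ∃ σ : Perm Ω, ∀ g, α g = σ * g * σ⁻¹ := by
  obtain ⟨e, he⟩ := induced hn rfl α h (pres_symm α h)
  refine ⟨e, fun g => ?_⟩
  rw [he]
  ext x
  rw [Equiv.permCongr_apply]
  rfl

theorem triple_of_not_pres (α : Perm Ω ≃* Perm Ω) (h : ¬ Pres α) (t : Perm Ω) (ht : t.IsSwap) :
    (α t).cycleType = {2, 2, 2} := by
  unfold Pres at h
  push Not at h
  obtain ⟨t₀, ht₀, hnt₀⟩ := h
  have h0 : (α t₀).cycleType = {2, 2, 2} := ((swap_or_triple rfl α t₀ ht₀).resolve_left hnt₀).2
  have hc : IsConj t₀ t := by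
    rw [Equiv.Perm.isConj_iff_cycleType_eq, Equiv.Perm.isSwap_iff_cycleType.1 ht₀,
      Equiv.Perm.isSwap_iff_cycleType.1 ht]
  have := map_isConj' α hc
  rw [Equiv.Perm.isConj_iff_cycleType_eq] at this
  rw [← h0]
  exact this.symm

theorem not_pres_symm (α : Perm Ω ≃* Perm Ω) (h : ¬ Pres α) : ¬ Pres α.symm := by
  intro h'
  apply h
  have := pres_symm α.symm h'
  rwa [MulEquiv.symm_symm] at this

theorem swap_of_triple (α : Perm Ω ≃* Perm Ω) (h : ¬ Pres α) (u : Perm Ω)
    (hu : u.cycleType = {2, 2, 2}) (a b : Ω) (hab : a ≠ b) : (α u).IsSwap := by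
  have h1 := triple_of_not_pres α.symm (not_pres_symm α h) (swap a b) ⟨a, b, hab, rfl⟩
  have hc : IsConj (α.symm (swap a b)) u := by
    rw [Equiv.Perm.isConj_iff_cycleType_eq, h1, hu]
  have h2 := map_isConj' α hc
  rw [MulEquiv.apply_symm_apply] at h2
  exact isSwap_of_isConj h2 ⟨a, b, hab, rfl⟩

theorem fpf_of_triple (h6 : Fintype.card Ω = 6) (u : Perm Ω) (hu : u.cycleType = {2, 2, 2})
    (y : Ω) : u y ≠ y := by
  have h1 := Equiv.Perm.sum_cycleType u
  rw [hu] at h1
  have h2 : u.support = Finset.univ := Finset.eq_univ_of_card _ (by rw [← h1, h6]; rfl)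
  have : y ∈ u.support := by rw [h2]; exact Finset.mem_univ y
  exact Equiv.Perm.mem_support.1 this

theorem rep (hn : 5 ≤ Fintype.card Ω) (H : Subgroup (Perm Ω)) (hH : H.index = Fintype.card Ω)
    (x : Ω) : ∃ α : Perm Ω ≃* Perm Ω, ∀ g, g ∈ H ↔ α g x = x := by
  have hbij := coset_bijective hn H hH
  have hfin : Fintype (Perm Ω ⧸ H) := Fintype.ofFinite _
  have hcardX : Fintype.card (Perm Ω ⧸ H) = Fintype.card Ω := by
    rw [← Nat.card_eq_fintype_card (α := Perm Ω ⧸ H)]
    exact hH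
  obtain ⟨e, he⟩ : ∃ e : (Perm Ω ⧸ H) ≃ Ω, e (QuotientGroup.mk 1) = x :=
    ⟨(Fintype.equivOfCardEq hcardX).trans
      (Equiv.swap (Fintype.equivOfCardEq hcardX (QuotientGroup.mk 1)) x), by simp⟩
  let ψ : Perm Ω ≃* Perm (Perm Ω ⧸ H) := MulEquiv.ofBijective _ hbij
  refine ⟨ψ.trans e.permCongrHom, fun g => ?_⟩
  rw [mem_iff_fix]
  show _ ↔ e.permCongr (ψ g) x = x
  rw [Equiv.permCongr_apply, ← he, Equiv.symm_apply_apply, e.apply_eq_iff_eq]
  rfl

theorem conj_fix (σ k : Perm Ω) (x : Ω) : (σ * k * σ⁻¹) x = x ↔ k (σ⁻¹ x) = σ⁻¹ x := by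
  rw [Perm.mul_apply, Perm.mul_apply]
  exact Equiv.Perm.eq_inv_iff_eq.symm

end auto

/-! ### the exotic subgroup -/

theorem card_perm5 : Nat.card (Perm (Fin 5)) = 120 := by
  rw [Nat.card_perm, Nat.card_fin]
  rfl

theorem sylow5 : Nat.card (Sylow 5 (Perm (Fin 5))) = 6 := by
  have : Fact (Nat.Prime 5) := ⟨by norm_num⟩
  obtain ⟨P⟩ : Nonempty (Sylow 5 (Perm (Fin 5))) := Sylow.nonempty
  have h1 := card_sylow_modEq_one 5 (Perm (Fin 5))
  have h2 := P.card_dvd_index
  have hidx : (P : Subgroup (Perm (Fin 5))).index = 24 := by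
    have h3 := (P : Subgroup (Perm (Fin 5))).card_mul_index
    rw [card_perm5] at h3
    obtain ⟨k, hk⟩ := IsPGroup.iff_card.1 P.isPGroup'
    have h4 := P.not_dvd_index
    rw [hk] at h3
    have hk1 : k = 1 := by
      rcases Nat.lt_or_ge k 2 with h | h
      · interval_cases k
        · exfalso
          rw [pow_zero, one_mul] at h3
          rw [h3] at h4
          exact h4 (by decide)
        · rfl
      · exfalso
        have h5 : 5 ^ 2 ∣ 5 ^ k := pow_dvd_pow 5 h
        have h6 : 5 ^ k ∣ 120 := ⟨_, h3.symm⟩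
        have h7 : 5 ^ 2 ∣ 120 := h5.trans h6
        exact absurd h7 (by decide)
    rw [hk1] at h3
    omega
  rw [hidx] at h2
  have hle : Nat.card (Sylow 5 (Perm (Fin 5))) ≤ 24 := Nat.le_of_dvd (by norm_num) h2
  have hne1 : Nat.card (Sylow 5 (Perm (Fin 5))) ≠ 1 := by
    intro h
    rw [P.card_eq_index_normalizer, Subgroup.index_eq_one] at h
    have hnorm : (P : Subgroup (Perm (Fin 5))).Normal := Subgroup.normalizer_eq_top_iff.1 h
    have hnt : Nontrivial (P : Subgroup (Perm (Fin 5))) := by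
      rw [Subgroup.nontrivial_iff_ne_bot]
      intro hb
      rw [hb, Subgroup.index_bot, card_perm5] at hidx
      omega
    have hle := Equiv.Perm.alternatingGroup_le_of_normal (by simp) hnt
    have hdvd := Subgroup.index_dvd_of_le hle
    rw [alternatingGroup.index_eq_two, hidx] at hdvd
    exact absurd hdvd (by decide)
  unfold Nat.ModEq at h1
  generalize Nat.card (Sylow 5 (Perm (Fin 5))) = c at *
  interval_cases c <;> omega

theorem theta_injective :
    Function.Injective (MulAction.toPermHom (Perm (Fin 5)) (Sylow 5 (Perm (Fin 5)))) := by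
  have : Fact (Nat.Prime 5) := ⟨by norm_num⟩
  rw [← MonoidHom.ker_eq_bot_iff]
  by_contra hne
  have hnt : Nontrivial (MulAction.toPermHom (Perm (Fin 5)) (Sylow 5 (Perm (Fin 5)))).ker :=
    (Subgroup.nontrivial_iff_ne_bot _).mpr hne
  have hle := Equiv.Perm.alternatingGroup_le_of_normal (by simp) hnt
  obtain ⟨P⟩ : Nonempty (Sylow 5 (Perm (Fin 5))) := Sylow.nonempty
  have hstab : (MulAction.toPermHom (Perm (Fin 5)) (Sylow 5 (Perm (Fin 5)))).ker ≤
      MulAction.stabilizer (Perm (Fin 5)) P := by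
    intro g hg
    rw [MonoidHom.mem_ker] at hg
    rw [MulAction.mem_stabilizer_iff]
    have := congrArg (fun f : Perm (Sylow 5 (Perm (Fin 5))) => f P) hg
    exact this
  have hdvd := Subgroup.index_dvd_of_le (hle.trans hstab)
  rw [alternatingGroup.index_eq_two, MulAction.index_stabilizer_of_transitive, sylow5] at hdvd
  exact absurd hdvd (by decide)

section exotic
variable {Ω : Type*} [Fintype Ω] [DecidableEq Ω]

theorem exists_exotic (h6 : Fintype.card Ω = 6) :
    ∃ H : Subgroup (Perm Ω), H.index = 6 ∧ ∀ y : Ω, ∃ h ∈ H, h y ≠ y := by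
  have : Fact (Nat.Prime 5) := ⟨by norm_num⟩
  have hS : Nat.card (Sylow 5 (Perm (Fin 5))) = 6 := sylow5
  have hinj := theta_injective
  have e : Sylow 5 (Perm (Fin 5)) ≃ Ω :=
    (Finite.equivFinOfCardEq hS).trans (Fintype.equivFinOfCardEq h6).symm
  refine ⟨(MulAction.toPermHom (Perm (Fin 5)) (Sylow 5 (Perm (Fin 5)))).range.map
    e.permCongrHom.toMonoidHom, ?_, ?_⟩
  · have h0 := Subgroup.index_map_equiv
      (MulAction.toPermHom (Perm (Fin 5)) (Sylow 5 (Perm (Fin 5)))).range e.permCongrHom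
    have h1 := (MulAction.toPermHom (Perm (Fin 5)) (Sylow 5 (Perm (Fin 5)))).range.card_mul_index
    have h2 : Nat.card (MulAction.toPermHom (Perm (Fin 5)) (Sylow 5 (Perm (Fin 5)))).range = 120 := by
      rw [← card_perm5]
      exact Nat.card_congr (Equiv.ofInjective _ hinj).symm
    rw [h2, Nat.card_perm, hS] at h1
    have h3 : (6 : ℕ).factorial = 720 := rfl
    have h4 : (MulAction.toPermHom (Perm (Fin 5)) (Sylow 5 (Perm (Fin 5)))).range.index = 6 := by
      omega
    rw [← h4]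
    exact h0
  · intro y
    obtain ⟨Q', hQ'⟩ : ∃ Q' : Sylow 5 (Perm (Fin 5)), Q' ≠ e.symm y := by
      by_contra hcon
      push Not at hcon
      have hsub : Subsingleton (Sylow 5 (Perm (Fin 5))) :=
        ⟨fun a b => (hcon a).trans (hcon b).symm⟩
      have := Finite.card_le_one_iff_subsingleton.2 hsub
      omega
    obtain ⟨g, hg⟩ := MulAction.exists_smul_eq (Perm (Fin 5)) (e.symm y) Q'
    refine ⟨e.permCongr (MulAction.toPermHom (Perm (Fin 5)) (Sylow 5 (Perm (Fin 5))) g),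
      ⟨_, ⟨g, rfl⟩, rfl⟩, ?_⟩
    rw [Equiv.permCongr_apply]
    intro h
    apply hQ'
    have h' : (MulAction.toPermHom (Perm (Fin 5)) (Sylow 5 (Perm (Fin 5))) g) (e.symm y)
        = e.symm y := by
      rw [Equiv.eq_symm_apply]
      exact h
    rw [← hg]
    exact h'

theorem exists_outer (h6 : Fintype.card Ω = 6) : ∃ α : Perm Ω ≃* Perm Ω, ¬ Pres α := by
  obtain ⟨H, hH, hfix⟩ := exists_exotic (Ω := Ω) h6
  obtain ⟨x⟩ : Nonempty Ω := Fintype.card_pos_iff.1 (by omega)
  obtain ⟨α, hα⟩ := rep (by omega) H (by rw [hH, h6]) x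
  refine ⟨α, fun hp => ?_⟩
  obtain ⟨σ, hσ⟩ := inner_of_pres (by omega) α hp
  obtain ⟨h, hh, hmv⟩ := hfix (σ⁻¹ x)
  apply hmv
  have := (hα h).1 hh
  rw [hσ, conj_fix] at this
  exact this

theorem classify (h6 : Fintype.card Ω = 6) (α₀ : Perm Ω ≃* Perm Ω) (h₀ : ¬ Pres α₀)
    (H : Subgroup (Perm Ω)) (hH : H.index = 6) :
    (∃ y : Ω, H = MulAction.stabilizer (Perm Ω) y) ∨
      (∃ y : Ω, H = (MulAction.stabilizer (Perm Ω) y).comap α₀.toMonoidHom) := by
  obtain ⟨x⟩ : Nonempty Ω := Fintype.card_pos_iff.1 (by omega)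
  obtain ⟨α, hα⟩ := rep (by omega) H (by rw [hH, h6]) x
  by_cases hp : Pres α
  · left
    obtain ⟨σ, hσ⟩ := inner_of_pres (by omega) α hp
    refine ⟨σ⁻¹ x, ?_⟩
    ext g
    rw [hα, hσ, MulAction.mem_stabilizer_iff, conj_fix]
    rfl
  · right
    obtain ⟨a, -, -, -, -⟩ := exists_ne4 (α := Ω) (by omega) x x x x
    obtain ⟨b, hba, -, -, -⟩ := exists_ne4 (α := Ω) (by omega) a a a a
    have hγ : Pres (α₀.symm.trans α) := by
      intro t ht
      exact swap_of_triple α hp _ (triple_of_not_pres α₀.symm (not_pres_symm α₀ h₀) t ht) a b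
        hba.symm
    obtain ⟨σ, hσ⟩ := inner_of_pres (by omega) _ hγ
    refine ⟨σ⁻¹ x, ?_⟩
    ext g
    rw [hα, Subgroup.mem_comap, MulAction.mem_stabilizer_iff]
    have h1 : α g = σ * α₀ g * σ⁻¹ := by
      have := hσ (α₀ g)
      rw [← this]
      show α g = α (α₀.symm (α₀ g))
      rw [MulEquiv.symm_apply_apply]
    rw [h1, conj_fix]
    rfl

theorem stab_ne_comap (h6 : Fintype.card Ω = 6) (α₀ : Perm Ω ≃* Perm Ω) (h₀ : ¬ Pres α₀)
    (z y : Ω) : MulAction.stabilizer (Perm Ω) z ≠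
      (MulAction.stabilizer (Perm Ω) y).comap α₀.toMonoidHom := by
  intro h
  obtain ⟨a, ha, -, -, -⟩ := exists_ne4 (α := Ω) (by omega) z z z z
  obtain ⟨b, hb, hba, -, -⟩ := exists_ne4 (α := Ω) (by omega) z a z z
  have hmem : swap a b ∈ MulAction.stabilizer (Perm Ω) z := by
    rw [MulAction.mem_stabilizer_iff, Equiv.Perm.smul_def, swap_apply_of_ne_of_ne ha.symm hb.symm]
  rw [h, Subgroup.mem_comap, MulAction.mem_stabilizer_iff] at hmem
  exact fpf_of_triple h6 _ (triple_of_not_pres α₀ h₀ _ ⟨a, b, hba.symm, rfl⟩) y hmem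

theorem comap_conj (α₀ : Perm Ω ≃* Perm Ω) (x y : Ω) :
    ((MulAction.stabilizer (Perm Ω) x).comap α₀.toMonoidHom).map
      (MulAut.conj (α₀.symm (swap x y))).toMonoidHom =
    (MulAction.stabilizer (Perm Ω) y).comap α₀.toMonoidHom := by
  ext h
  rw [Subgroup.map_equiv_eq_comap_symm']
  simp only [Subgroup.mem_comap, MulAction.mem_stabilizer_iff, Equiv.Perm.smul_def]
  have key : α₀ ((MulAut.conj (α₀.symm (swap x y))).symm h) = (swap x y)⁻¹ * α₀ h * swap x y := by
    rw [MulAut.conj_symm_apply, map_mul, map_mul, map_inv, MulEquiv.apply_symm_apply]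
  show α₀ ((MulAut.conj (α₀.symm (swap x y))).symm h) x = x ↔ α₀ h y = y
  rw [key, Perm.mul_apply, Perm.mul_apply, swap_apply_left, Equiv.Perm.inv_eq_iff_eq,
    swap_apply_left]

end exotic

/-- The symmetric group on a 6-element set Ω has exactly two conjugacy classes of subgroups of index 6: there are two non-conjugate subgroups of index 6 (a point stabilizer and a transitive subgroup isomorphic to S₅), and every subgroup of index 6 is conjugate to one of them. -/
theorem result {Ω : Type*} [Fintype Ω] [DecidableEq Ω] (h6 : Fintype.card Ω = 6) :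
    ∃ H₁ H₂ : Subgroup (Equiv.Perm Ω), H₁.index = 6 ∧ H₂.index = 6 ∧
      (¬ ∃ g : Equiv.Perm Ω, Subgroup.map (MulAut.conj g).toMonoidHom H₁ = H₂) ∧
      ∀ H : Subgroup (Equiv.Perm Ω), H.index = 6 →
        ∃ g : Equiv.Perm Ω, Subgroup.map (MulAut.conj g).toMonoidHom H₁ = H ∨ Subgroup.map (MulAut.conj g).toMonoidHom H₂ = H := by
  obtain ⟨α₀, h₀⟩ := exists_outer (Ω := Ω) h6
  obtain ⟨x⟩ : Nonempty Ω := Fintype.card_pos_iff.1 (by omega)
  refine ⟨MulAction.stabilizer (Perm Ω) x, (MulAction.stabilizer (Perm Ω) x).comap α₀.toMonoidHom,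
    ?_, ?_, ?_, ?_⟩
  · rw [MulAction.index_stabilizer_of_transitive, Nat.card_eq_fintype_card, h6]
  · rw [Subgroup.index_comap_of_surjective _ α₀.surjective,
      MulAction.index_stabilizer_of_transitive, Nat.card_eq_fintype_card, h6]
  · rintro ⟨g, hg⟩
    rw [← MulAction.stabilizer_smul_eq_stabilizer_map_conj] at hg
    exact stab_ne_comap h6 α₀ h₀ _ _ hg
  · intro H hH
    rcases classify h6 α₀ h₀ H hH with ⟨y, rfl⟩ | ⟨y, rfl⟩
    · refine ⟨swap x y, Or.inl ?_⟩
      rw [← MulAction.stabilizer_smul_eq_stabilizer_map_conj, Equiv.Perm.smul_def, swap_apply_left]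
    · exact ⟨α₀.symm (swap x y), Or.inr (comap_conj α₀ x y)⟩

end Cfsg.Agent.S5912
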