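import Cfsg.Statements.S5913

set_option autoImplicit false
open Pointwise
open Cfsg

namespace Cfsg.Agent.S5913

theorem exists_not_commute {S : Type*} [Group S] (hS : ¬ IsMulCommutative S) [IsSimpleGroup S]
    (a : S) (ha : a ≠ 1) : ∃ s : S, a * s * a⁻¹ * s⁻¹ ≠ 1 := by
  by_contra hcon
  push Not at hcon
  have hcomm : ∀ s : S, s * a = a * s := by
    intro s
    have := hcon s
    have h2 : a * s * a⁻¹ = s := by
      have := mul_eq_one_iff_eq_inv.mp this
      simpa using this
    calc s * a = (a * s * a⁻¹) * a := by rw [h2]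
      _ = a * s := by group
  have hmem : a ∈ Subgroup.center S := Subgroup.mem_center_iff.mpr hcomm
  rcases (inferInstance : (Subgroup.center S).Normal).eq_bot_or_eq_top with h | h
  · rw [h, Subgroup.mem_bot] at hmem
    exact ha hmem
  · apply hS
    refine ⟨⟨fun x y => ?_⟩⟩
    have hx : x ∈ Subgroup.center S := by rw [h]; trivial
    exact (Subgroup.mem_center_iff.mp hx y).symm

theorem result {S : Type*} [Group S] [IsSimpleGroup S] (hS : ¬ IsMulCommutative S) (n : ℕ)
    (N : Subgroup (Fin n → S)) [N.Normal] :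
    ∃ T : Finset (Fin n), ∀ x : Fin n → S, x ∈ N ↔ ∀ i, i ∉ T → x i = 1 := by
  classical
  refine ⟨Finset.univ.filter (fun i => ∃ x ∈ N, x i ≠ 1), fun x => ⟨?_, ?_⟩⟩
  · intro hx i hi
    by_contra h
    exact hi (Finset.mem_filter.mpr ⟨Finset.mem_univ i, x, hx, h⟩)
  · intro hx
    have hN : (inferInstance : N.Normal) = (inferInstance : N.Normal) := rfl
    have key : ∀ i : Fin n, (∃ y ∈ N, y i ≠ 1) → ∀ s : S, Pi.mulSingle i s ∈ N := by
      rintro i ⟨y, hy, hyi⟩ s
      have hK : (N.comap (MonoidHom.mulSingle (fun _ : Fin n => S) i)).Normal :=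
        Subgroup.Normal.comap inferInstance _
      obtain ⟨t, ht⟩ := exists_not_commute hS (y i) hyi
      have hmem : Pi.mulSingle i (y i * t * (y i)⁻¹ * t⁻¹) ∈ N := by
        have h1 : y * (Pi.mulSingle i t * y⁻¹ * (Pi.mulSingle i t)⁻¹) ∈ N :=
          N.mul_mem hy (Subgroup.Normal.conj_mem inferInstance _ (N.inv_mem hy) _)
        have h2 : y * (Pi.mulSingle i t * y⁻¹ * (Pi.mulSingle i t)⁻¹) =
            Pi.mulSingle i (y i * t * (y i)⁻¹ * t⁻¹) := by
          funext j
          by_cases hj : j = i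
          · subst hj
            simp [mul_assoc]
          · simp [Pi.mulSingle_eq_of_ne hj]
        rwa [h2] at h1
      rcases hK.eq_bot_or_eq_top with h | h
      · exfalso
        have : (y i * t * (y i)⁻¹ * t⁻¹) ∈ N.comap (MonoidHom.mulSingle (fun _ : Fin n => S) i) := hmem
        rw [h, Subgroup.mem_bot] at this
        exact ht this
      · have : s ∈ N.comap (MonoidHom.mulSingle (fun _ : Fin n => S) i) := by rw [h]; trivial
        exact this
    set H : Fin n → Subgroup S := fun i => if (∃ y ∈ N, y i ≠ 1) then ⊤ else ⊥ with hH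
    have hle : Subgroup.pi Set.univ H ≤ N := by
      rw [Subgroup.pi_le_iff]
      intro i
      by_cases hi : ∃ y ∈ N, y i ≠ 1
      · rintro _ ⟨s, -, rfl⟩
        exact key i hi s
      · simp only [hH, hi, if_false, Subgroup.map_bot, bot_le]
    apply hle
    rw [Subgroup.mem_pi]
    intro i _
    by_cases hi : ∃ y ∈ N, y i ≠ 1
    · simp only [hH, hi, if_true, Subgroup.mem_top]
    · simp only [hH, hi, if_false, Subgroup.mem_bot]
      apply hx
      intro hmem
      exact hi (Finset.mem_filter.mp hmem).2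

end Cfsg.Agent.S5913
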