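import Cfsg.Statements.S5914
import Cfsg.Agent.S5913
import Mathlib

set_option autoImplicit false
open Cfsg

namespace Cfsg.Agent.S5914

section pi
variable {S : Type*} [Group S] {n : ℕ}

/-- coordinate permutation automorphism -/
def permAut (σ : Equiv.Perm (Fin n)) : (Fin n → S) ≃* (Fin n → S) where
  toFun x := fun i => x (σ i)
  invFun x := fun i => x (σ.symm i)
  left_inv x := by funext i; simp
  right_inv x := by funext i; simp
  map_mul' _ _ := rfl

/-- shear automorphism for commutative S -/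
def shear (hcomm : ∀ a b : S, a * b = b * a) (i j : Fin n) (hij : i ≠ j) :
    (Fin n → S) ≃* (Fin n → S) where
  toFun x := x * Pi.mulSingle j (x i)
  invFun x := x * Pi.mulSingle j (x i)⁻¹
  left_inv x := by
    have hi : (x * Pi.mulSingle j (x i) : Fin n → S) i = x i := by
      simp [Pi.mulSingle_eq_of_ne hij]
    show x * Pi.mulSingle j (x i) * Pi.mulSingle j ((x * Pi.mulSingle j (x i) : Fin n → S) i)⁻¹ = x
    rw [hi, Pi.mulSingle_inv, mul_inv_cancel_right]
  right_inv x := by
    have hi : (x * Pi.mulSingle j (x i)⁻¹ : Fin n → S) i = x i := by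
      simp [Pi.mulSingle_eq_of_ne hij]
    show x * Pi.mulSingle j (x i)⁻¹ * Pi.mulSingle j ((x * Pi.mulSingle j (x i)⁻¹ : Fin n → S) i) = x
    rw [hi, Pi.mulSingle_inv, inv_mul_cancel_right]
  map_mul' x y := by
    funext k
    simp only [Pi.mul_apply]
    by_cases hk : k = j
    · subst hk
      rw [Pi.mulSingle_eq_same, Pi.mulSingle_eq_same, Pi.mulSingle_eq_same]
      rw [mul_assoc, mul_assoc, ← mul_assoc (y k), hcomm (y k) (x i), mul_assoc]
    · rw [Pi.mulSingle_eq_of_ne hk, Pi.mulSingle_eq_of_ne hk, Pi.mulSingle_eq_of_ne hk]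
      simp

theorem char_pi [IsSimpleGroup S] (H : Subgroup (Fin n → S)) (hH : H.Characteristic) :
    H = ⊥ ∨ H = ⊤ := by
  classical
  by_cases hbot : H = ⊥
  · exact Or.inl hbot
  right
  have hfix : ∀ (φ : (Fin n → S) ≃* (Fin n → S)) x, x ∈ H → φ x ∈ H := by
    intro φ x hx
    exact (Subgroup.characteristic_iff_le_comap.1 hH φ) hx
  have hnorm : H.Normal := Subgroup.normal_of_characteristic H
  obtain ⟨h, hh, hh1⟩ := (H.bot_or_exists_ne_one).resolve_left hbot
  obtain ⟨i, hi⟩ : ∃ i, h i ≠ 1 := by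
    by_contra hcon
    push Not at hcon
    exact hh1 (funext hcon)
  have stepA : ∃ j s, s ≠ 1 ∧ Pi.mulSingle j s ∈ H := by
    by_cases hcomm : ∀ a b : S, a * b = b * a
    · by_cases hj : ∃ j, i ≠ j
      · obtain ⟨j, hij⟩ := hj
        refine ⟨j, h i, hi, ?_⟩
        have h1 := hfix (shear hcomm i j hij) h hh
        have h2 := H.mul_mem (H.inv_mem hh) h1
        have h3 : h⁻¹ * (shear hcomm i j hij) h = Pi.mulSingle j (h i) := by
          show h⁻¹ * (h * Pi.mulSingle j (h i)) = Pi.mulSingle j (h i)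
          rw [inv_mul_cancel_left]
        rwa [h3] at h2
      · push Not at hj
        refine ⟨i, h i, hi, ?_⟩
        have : Pi.mulSingle i (h i) = h := by
          funext k
          rw [← hj k]
          simp
        rw [this]
        exact hh
    · have hS : ¬ IsMulCommutative S := fun hc => hcomm (fun a b => hc.is_comm.comm a b)
      obtain ⟨t, ht⟩ := Cfsg.Agent.S5913.exists_not_commute hS (h i) hi
      refine ⟨i, _, ht, ?_⟩
      have h1 : h * (Pi.mulSingle i t * h⁻¹ * (Pi.mulSingle i t)⁻¹) ∈ H :=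
        H.mul_mem hh (hnorm.conj_mem _ (H.inv_mem hh) _)
      have h2 : h * (Pi.mulSingle i t * h⁻¹ * (Pi.mulSingle i t)⁻¹) =
          Pi.mulSingle i (h i * t * (h i)⁻¹ * t⁻¹) := by
        funext j
        by_cases hj : j = i
        · subst hj
          simp [mul_assoc]
        · simp [Pi.mulSingle_eq_of_ne hj]
      rwa [h2] at h1
  obtain ⟨j, s, hs, hjs⟩ := stepA
  have stepB : ∀ t, Pi.mulSingle j t ∈ H := by
    have hK : (H.comap (MonoidHom.mulSingle (fun _ : Fin n => S) j)).Normal :=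
      Subgroup.Normal.comap hnorm _
    rcases hK.eq_bot_or_eq_top with h0 | h0
    · exfalso
      have : s ∈ H.comap (MonoidHom.mulSingle (fun _ : Fin n => S) j) := hjs
      rw [h0, Subgroup.mem_bot] at this
      exact hs this
    · intro t
      have : t ∈ H.comap (MonoidHom.mulSingle (fun _ : Fin n => S) j) := by rw [h0]; trivial
      exact this
  have stepC : ∀ k t, Pi.mulSingle k t ∈ H := by
    intro k t
    have h1 := hfix (permAut (Equiv.swap j k)) _ (stepB t)
    have h2 : permAut (Equiv.swap j k) (Pi.mulSingle j t) = Pi.mulSingle k t := by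
      funext l
      show (Pi.mulSingle j t : Fin n → S) (Equiv.swap j k l) = (Pi.mulSingle k t : Fin n → S) l
      by_cases hl : l = k
      · subst hl
        simp
      · rw [Pi.mulSingle_eq_of_ne hl]
        apply Pi.mulSingle_eq_of_ne
        intro h3
        apply hl
        have := congrArg (Equiv.swap j k) h3
        simpa using this
    rwa [h2] at h1
  rw [eq_top_iff]
  intro x _
  exact Subgroup.pi_mem_of_mulSingle_mem x (fun k => stepC k (x k))

end pi

theorem char_of_equiv {G P : Type*} [Group G] [Group P] (e : G ≃* P)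
    (hP : ∀ H : Subgroup P, H.Characteristic → H = ⊥ ∨ H = ⊤) (H : Subgroup G)
    (hH : H.Characteristic) : H = ⊥ ∨ H = ⊤ := by
  have hchar : (H.comap e.symm.toMonoidHom).Characteristic := by
    rw [Subgroup.characteristic_iff_comap_eq]
    intro φ
    ext x
    have h1 := Subgroup.characteristic_iff_comap_eq.1 hH ((e.trans φ).trans e.symm)
    have h2 : e.symm x ∈ H.comap ((e.trans φ).trans e.symm).toMonoidHom ↔ e.symm x ∈ H := by
      rw [h1]
    simpa using h2
  rcases hP _ hchar with h | h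
  · left
    rw [eq_bot_iff]
    intro g hg
    have : e g ∈ H.comap e.symm.toMonoidHom := by simpa using hg
    rw [h, Subgroup.mem_bot] at this
    rw [Subgroup.mem_bot]
    simpa using this
  · right
    rw [eq_top_iff]
    intro g _
    have : e g ∈ H.comap e.symm.toMonoidHom := by rw [h]; trivial
    simpa using this

section fwd
variable {G : Type*} [Group G]

theorem exists_min_normal [Finite G] [Nontrivial G] :
    ∃ N : Subgroup G, N.Normal ∧ N ≠ ⊥ ∧ ∀ B : Subgroup G, B.Normal → B ≤ N → B = ⊥ ∨ B = N := by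
  obtain ⟨N, ⟨hN1, hN2⟩, hmin⟩ := wellFounded_lt.has_min {N : Subgroup G | N.Normal ∧ N ≠ ⊥}
    ⟨⊤, inferInstance, top_ne_bot⟩
  refine ⟨N, hN1, hN2, fun B hB hBN => ?_⟩
  by_cases hb : B = ⊥
  · exact Or.inl hb
  · right
    by_contra hne
    exact hmin B ⟨hB, hb⟩ (lt_of_le_of_ne hBN hne)

def Good (N : Subgroup G) (k : ℕ) (f : (Fin k → ↥N) →* G) : Prop :=
  Function.Injective f ∧ f.range.Normal ∧ N ≤ f.range ∧
    f.range ≤ N ⊔ Subgroup.centralizer (N : Set G)

theorem good_one (N : Subgroup G) (hN : N.Normal) : ∃ f : (Fin 1 → ↥N) →* G, Good N 1 f := by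
  have hr : (N.subtype.comp (Pi.evalMonoidHom (fun _ : Fin 1 => ↥N) 0)).range = N := by
    ext g
    constructor
    · rintro ⟨x, rfl⟩
      exact (x 0).2
    · intro hg
      exact ⟨fun _ => ⟨g, hg⟩, rfl⟩
  refine ⟨N.subtype.comp (Pi.evalMonoidHom (fun _ : Fin 1 => ↥N) 0), ?_, ?_, ?_, ?_⟩
  · intro x y hxy
    funext i
    have : i = 0 := Subsingleton.elim _ _
    subst this
    exact Subtype.ext hxy
  · rw [hr]; exact hN
  · rw [hr]
  · rw [hr]; exact le_sup_left

theorem good_succ (hchar : ∀ H : Subgroup G, H.Characteristic → H = ⊥ ∨ H = ⊤)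
    (N : Subgroup G) (hN : N.Normal) (hNbot : N ≠ ⊥)
    (hmin : ∀ B : Subgroup G, B.Normal → B ≤ N → B = ⊥ ∨ B = N)
    (k : ℕ) (f : (Fin k → ↥N) →* G) (hf : Good N k f) (hne : f.range ≠ ⊤) :
    ∃ f' : (Fin (k + 1) → ↥N) →* G, Good N (k + 1) f' := by
  obtain ⟨hinj, hMnorm, hNM, hMC⟩ := hf
  set M := f.range with hM
  let X : Subgroup G :=
    { carrier := {g | ∀ α : G ≃* G, α g ∈ M}
      one_mem' := fun α => by rw [map_one]; exact M.one_mem
      mul_mem' := fun ha hb α => by rw [map_mul]; exact M.mul_mem (ha α) (hb α)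
      inv_mem' := fun ha α => by rw [map_inv]; exact M.inv_mem (ha α) }
  have hXchar : X.Characteristic := by
    rw [Subgroup.characteristic_iff_le_comap]
    intro φ g hg α
    exact hg (φ.trans α)
  have hXM : X ≤ M := fun g hg => by simpa using hg (MulEquiv.refl G)
  have hX : X = ⊥ := (hchar X hXchar).resolve_right (fun h => hne (top_le_iff.1 (h ▸ hXM)))
  have hex : ∃ α : G ≃* G, ∃ n ∈ N, α n ∉ M := by
    by_contra hcon
    push Not at hcon
    obtain ⟨n, hn, hn1⟩ := (N.bot_or_exists_ne_one).resolve_left hNbot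
    have : n ∈ X := fun α => hcon α n hn
    rw [hX, Subgroup.mem_bot] at this
    exact hn1 this
  obtain ⟨α, n₀, hn₀, hn₀M⟩ := hex
  have hdisj : ∀ n ∈ N, α n ∈ M → n = 1 := by
    have hnorm : (N ⊓ M.comap α.toMonoidHom).Normal :=
      Subgroup.normal_inf_normal N _
    rcases hmin _ hnorm inf_le_left with h | h
    · intro n hn hnM
      have : n ∈ N ⊓ M.comap α.toMonoidHom := ⟨hn, hnM⟩
      rw [h, Subgroup.mem_bot] at this
      exact this
    · exfalso
      have : n₀ ∈ N ⊓ M.comap α.toMonoidHom := by rw [h]; exact hn₀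
      exact hn₀M this.2
  have hN'norm : (N.map α.toMonoidHom).Normal := Subgroup.Normal.map hN _ α.surjective
  have hdisj' : Disjoint M (N.map α.toMonoidHom) := by
    rw [Subgroup.disjoint_def]
    rintro x hxM ⟨n, hn, rfl⟩
    have := hdisj n hn hxM
    rw [this]
    simp
  have hcomm : ∀ y (n : ↥N), Commute (f y) (α (n : G)) := fun y n =>
    Subgroup.commute_of_normal_of_disjoint M _ hMnorm hN'norm hdisj' _ _ ⟨y, rfl⟩ ⟨n, n.2, rfl⟩
  let f' : (Fin (k + 1) → ↥N) →* G :=
    { toFun := fun x => f (Fin.init x) * α (x (Fin.last k) : G)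
      map_one' := by
        have h1 : Fin.init (1 : Fin (k + 1) → ↥N) = 1 := rfl
        rw [h1, map_one]
        simp
      map_mul' := fun x y => by
        have h1 : Fin.init (x * y) = Fin.init x * Fin.init y := rfl
        rw [h1, map_mul]
        simp only [Pi.mul_apply, Subgroup.coe_mul, map_mul]
        rw [mul_assoc, mul_assoc, ← mul_assoc (f (Fin.init y)), (hcomm _ _).eq, mul_assoc] }
  have hf'apply : ∀ x, f' x = f (Fin.init x) * α (x (Fin.last k) : G) := fun x => rfl
  have hMle : M ≤ f'.range := by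
    rintro _ ⟨y, rfl⟩
    refine ⟨Fin.snoc y 1, ?_⟩
    rw [hf'apply, Fin.init_snoc, Fin.snoc_last]
    simp
  refine ⟨f', ?_, ?_, hNM.trans hMle, ?_⟩
  · rw [injective_iff_map_eq_one]
    intro x hx
    rw [hf'apply] at hx
    have h1 : α (x (Fin.last k) : G) ∈ M := by
      have : α (x (Fin.last k) : G) = (f (Fin.init x))⁻¹ := eq_inv_of_mul_eq_one_right hx
      rw [this]
      exact M.inv_mem ⟨_, rfl⟩
    have h2 : (x (Fin.last k) : G) = 1 := hdisj _ (x (Fin.last k)).2 h1
    rw [h2, map_one, mul_one] at hx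
    have h3 : Fin.init x = 1 := (injective_iff_map_eq_one f).1 hinj _ hx
    funext i
    induction i using Fin.lastCases with
    | last => exact Subtype.ext h2
    | cast i => exact congrFun h3 i
  · constructor
    rintro _ ⟨x, rfl⟩ g
    rw [hf'apply]
    obtain ⟨y, hy⟩ : g * f (Fin.init x) * g⁻¹ ∈ M := hMnorm.conj_mem _ ⟨_, rfl⟩ g
    obtain ⟨n', hn', hn'eq⟩ : g * α (x (Fin.last k) : G) * g⁻¹ ∈ N.map α.toMonoidHom :=
      hN'norm.conj_mem _ ⟨_, (x (Fin.last k)).2, rfl⟩ g
    refine ⟨Fin.snoc y ⟨n', hn'⟩, ?_⟩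
    rw [hf'apply, Fin.init_snoc, Fin.snoc_last, hy]
    have : α n' = g * α (x (Fin.last k) : G) * g⁻¹ := hn'eq
    rw [this]
    group
  · rintro _ ⟨x, rfl⟩
    rw [hf'apply]
    refine Subgroup.mul_mem _ (hMC ⟨_, rfl⟩) (Subgroup.mem_sup_right ?_)
    rw [Subgroup.mem_centralizer_iff]
    intro m hm
    obtain ⟨y, hy⟩ := hNM hm
    rw [← hy]
    exact (hcomm y _).eq

theorem good_bound [Finite G] (N : Subgroup G) (hNbot : N ≠ ⊥) (k : ℕ) (f : (Fin k → ↥N) →* G)
    (hf : Function.Injective f) : 2 ^ k ≤ Nat.card G := by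
  have h1 : Nat.card (Fin k → ↥N) ≤ Nat.card G := Nat.card_le_card_of_injective f hf
  rw [Nat.card_fun, Nat.card_fin] at h1
  have h2 : 2 ≤ Nat.card ↥N := (Subgroup.one_lt_card_iff_ne_bot N).2 hNbot
  exact (Nat.pow_le_pow_left h2 k).trans h1

theorem exists_good_top [Finite G] (hchar : ∀ H : Subgroup G, H.Characteristic → H = ⊥ ∨ H = ⊤)
    (N : Subgroup G) (hN : N.Normal) (hNbot : N ≠ ⊥)
    (hmin : ∀ B : Subgroup G, B.Normal → B ≤ N → B = ⊥ ∨ B = N) :
    ∃ k, 1 ≤ k ∧ ∃ f : (Fin k → ↥N) →* G, Good N k f ∧ f.range = ⊤ := by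
  by_contra hcon
  push Not at hcon
  have all : ∀ k, 1 ≤ k → ∃ f : (Fin k → ↥N) →* G, Good N k f := by
    intro k hk
    induction k, hk using Nat.le_induction with
    | base => exact good_one N hN
    | succ k hk ih =>
      obtain ⟨f, hf⟩ := ih
      exact good_succ hchar N hN hNbot hmin k f hf (hcon k hk f hf)
  obtain ⟨f, hf⟩ := all (Nat.card G + 1) (by omega)
  have h1 := good_bound N hNbot _ f hf.1
  have h2 := Nat.lt_two_pow_self (n := Nat.card G + 1)
  omega

theorem simple_N (N : Subgroup G) (hNbot : N ≠ ⊥)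
    (hmin : ∀ B : Subgroup G, B.Normal → B ≤ N → B = ⊥ ∨ B = N)
    (htop : ⊤ ≤ N ⊔ Subgroup.centralizer (N : Set G)) : IsSimpleGroup ↥N := by
  have hnt : Nontrivial ↥N := (Subgroup.nontrivial_iff_ne_bot N).2 hNbot
  refine ⟨fun A hA => ?_⟩
  have hB : (A.map N.subtype).Normal := by
    rw [← Subgroup.normalizer_eq_top_iff, eq_top_iff]
    refine htop.trans (sup_le ?_ ?_)
    · intro g hg
      rw [Subgroup.mem_normalizer_iff]
      intro x
      constructor
      · rintro ⟨a, ha, rfl⟩
        exact ⟨⟨g, hg⟩ * a * ⟨g, hg⟩⁻¹, hA.conj_mem a ha _, rfl⟩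
      · rintro ⟨a, ha, hax⟩
        refine ⟨⟨g, hg⟩⁻¹ * a * ⟨g, hg⟩, ?_, ?_⟩
        · have := hA.conj_mem a ha (⟨g, hg⟩⁻¹)
          simpa using this
        · show g⁻¹ * (N.subtype a) * g = x
          rw [hax]
          group
    · intro g hg
      rw [Subgroup.mem_normalizer_iff]
      intro x
      have key : ∀ y ∈ A.map N.subtype, g * y * g⁻¹ = y := by
        rintro _ ⟨a, ha, rfl⟩
        have := Subgroup.mem_centralizer_iff.1 hg a a.2
        show g * (a : G) * g⁻¹ = a
        rw [← this]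
        simp
      constructor
      · intro hx
        rw [key x hx]
        exact hx
      · intro hx
        have h2 := key _ hx
        have h3 : g * x * g⁻¹ = x := by
          have := congrArg (fun z => g⁻¹ * z * g) h2
          simpa [mul_assoc] using this
        rw [← h3]
        exact hx
  rcases hmin _ hB (by rintro _ ⟨a, -, rfl⟩; exact a.2) with h | h
  · left
    exact (Subgroup.map_eq_bot_iff_of_injective A N.subtype_injective).1 h
  · right
    rw [eq_top_iff]
    intro a _
    have : (a : G) ∈ A.map N.subtype := by rw [h]; exact a.2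
    obtain ⟨b, hb, hba⟩ := this
    have : b = a := Subtype.ext hba
    rw [← this]
    exact hb

theorem final_iso {G N S : Type*} [Group G] [Group N] [Group S] (k : ℕ)
    (e : (Fin k → N) ≃* G) (e' : S ≃* N) : Nonempty (G ≃* (Fin k → S)) :=
  ⟨e.symm.trans (MulEquiv.piCongrRight fun _ => e'.symm)⟩

end fwd

/-- A non-trivial finite group G is characteristically simple (its only characteristic subgroups are 1 and G) if and only if G is isomorphic to a direct power S^n (n ≥ 1) of some simple group S (possibly cyclic of prime order). -/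
theorem result {G : Type*} [Group G] [Finite G] [Nontrivial G] :
    (∀ H : Subgroup G, H.Characteristic → H = ⊥ ∨ H = ⊤) ↔
    ∃ (S : Type) (_ : Group S) (_ : IsSimpleGroup S) (n : ℕ), 1 ≤ n ∧ Nonempty (G ≃* (Fin n → S)) := by
  constructor
  · intro hchar
    obtain ⟨N, hN, hNbot, hmin⟩ := exists_min_normal (G := G)
    obtain ⟨k, hk, f, hf, hftop⟩ := exists_good_top hchar N hN hNbot hmin
    have hsimp : IsSimpleGroup ↥N := simple_N N hNbot hmin (hftop ▸ hf.2.2.2)
    have hbij : Function.Bijective f := ⟨hf.1, MonoidHom.range_eq_top.1 hftop⟩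
    let e₀ : Fin (Nat.card ↥N) ≃ ↥N := (Finite.equivFin ↥N).symm
    refine ⟨Fin (Nat.card ↥N), e₀.group, ?_, k, hk, ?_⟩
    · exact @MulEquiv.isSimpleGroup (Fin (Nat.card ↥N)) e₀.group ↥N _ hsimp e₀.mulEquiv
    · exact @final_iso G ↥N (Fin (Nat.card ↥N)) _ _ e₀.group k (MulEquiv.ofBijective f hbij) e₀.mulEquiv
  · rintro ⟨S, hSg, hSs, n, -, ⟨e⟩⟩ H hH
    exact char_of_equiv e (fun H' hH' => char_pi H' hH') H hH

end Cfsg.Agent.S5914
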