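import Cfsg.Statements.S5945
import Cfsg.Agent.S5912
import Mathlib

set_option autoImplicit false
open Cfsg

namespace Cfsg.Agent.S5945

open Equiv Cfsg.Agent.S5911 Cfsg.Agent.S5912

theorem range_ofSubtype (y : Fin 6) :
    (Equiv.Perm.ofSubtype : Perm {z : Fin 6 // z ≠ y} →* Perm (Fin 6)).range =
      MulAction.stabilizer (Perm (Fin 6)) y := by
  ext g
  rw [MulAction.mem_stabilizer_iff, Equiv.Perm.smul_def]
  constructor
  · rintro ⟨p, rfl⟩
    exact Equiv.Perm.ofSubtype_apply_of_not_mem p (by simp)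
  · intro hg
    have h₁ : ∀ x, g x ≠ y ↔ x ≠ y := by
      intro x
      rw [not_iff_not]
      constructor
      · intro h
        apply g.injective
        rw [h, hg]
      · intro h
        rw [h, hg]
    have h₂ : ∀ x, g x ≠ x → x ≠ y := by
      intro x hx hxy
      apply hx
      rw [hxy, hg]
    exact ⟨g.subtypePerm h₁, Equiv.Perm.ofSubtype_subtypePerm h₁ h₂⟩

theorem stab_iso (y : Fin 6) :
    Nonempty (MulAction.stabilizer (Perm (Fin 6)) y ≃* Perm (Fin 5)) := by
  have hcard : Fintype.card {z : Fin 6 // z ≠ y} = 5 := by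
    simp [Fintype.card_subtype_compl]
  have e1 : Perm {z : Fin 6 // z ≠ y} ≃* Perm (Fin 5) :=
    (Fintype.equivFinOfCardEq hcard).permCongrHom
  have e2 : Perm {z : Fin 6 // z ≠ y} ≃*
      (Equiv.Perm.ofSubtype : Perm {z : Fin 6 // z ≠ y} →* Perm (Fin 6)).range :=
    MonoidHom.ofInjective Equiv.Perm.ofSubtype_injective
  have e3 : (Equiv.Perm.ofSubtype : Perm {z : Fin 6 // z ≠ y} →* Perm (Fin 6)).range ≃*
      MulAction.stabilizer (Perm (Fin 6)) y := MulEquiv.subgroupCongr (range_ofSubtype y)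
  exact ⟨(e3.symm.trans e2.symm).trans e1⟩

/-- the preimage of a subgroup under an automorphism is isomorphic to it -/
def comapIso {G : Type*} [Group G] (α₀ : G ≃* G) (K : Subgroup G) :
    K.comap α₀.toMonoidHom ≃* K where
  toFun g := ⟨α₀ g.1, g.2⟩
  invFun k := ⟨α₀.symm k.1, by
    rw [Subgroup.mem_comap]
    show α₀ (α₀.symm k.1) ∈ K
    rw [MulEquiv.apply_symm_apply]
    exact k.2⟩
  left_inv g := Subtype.ext (α₀.symm_apply_apply _)
  right_inv k := Subtype.ext (α₀.apply_symm_apply _)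
  map_mul' g h := Subtype.ext (map_mul α₀ _ _)

theorem stab_inj (y y' : Fin 6)
    (h : MulAction.stabilizer (Perm (Fin 6)) y = MulAction.stabilizer (Perm (Fin 6)) y') :
    y = y' := by
  by_contra hne
  obtain ⟨z, hz, hz', -, -⟩ := exists_ne4 (α := Fin 6) (by simp) y y' y y
  have hmem : swap y' z ∈ MulAction.stabilizer (Perm (Fin 6)) y := by
    rw [MulAction.mem_stabilizer_iff, Equiv.Perm.smul_def, swap_apply_of_ne_of_ne hne hz.symm]
  rw [h, MulAction.mem_stabilizer_iff, Equiv.Perm.smul_def, swap_apply_left] at hmem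
  exact hz' hmem

theorem idx_stab (y : Fin 6) : (MulAction.stabilizer (Perm (Fin 6)) y).index = 6 := by
  rw [MulAction.index_stabilizer_of_transitive, Nat.card_fin]

theorem idx_comap (α₀ : Perm (Fin 6) ≃* Perm (Fin 6)) (y : Fin 6) :
    ((MulAction.stabilizer (Perm (Fin 6)) y).comap α₀.toMonoidHom).index = 6 := by
  rw [Subgroup.index_comap_of_surjective _ α₀.surjective, idx_stab]

/-- the parametrisation of the index six subgroups -/
def Phi (α₀ : Perm (Fin 6) ≃* Perm (Fin 6)) :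
    Fin 6 ⊕ Fin 6 → {H : Subgroup (Perm (Fin 6)) // H.index = 6}
  | Sum.inl y => ⟨MulAction.stabilizer (Perm (Fin 6)) y, idx_stab y⟩
  | Sum.inr y => ⟨(MulAction.stabilizer (Perm (Fin 6)) y).comap α₀.toMonoidHom, idx_comap α₀ y⟩

theorem Phi_bijective (α₀ : Perm (Fin 6) ≃* Perm (Fin 6)) (h₀ : ¬ Pres α₀) :
    Function.Bijective (Phi α₀) := by
  have h6 : Fintype.card (Fin 6) = 6 := by simp
  constructor
  · rintro (y | y) (y' | y') h
    · have := congrArg Subtype.val h
      exact congrArg Sum.inl (stab_inj y y' this)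
    · have := congrArg Subtype.val h
      exact absurd this (stab_ne_comap h6 α₀ h₀ y y')
    · have := congrArg Subtype.val h
      exact absurd this.symm (stab_ne_comap h6 α₀ h₀ y' y)
    · have := congrArg Subtype.val h
      have h2 := Subgroup.comap_injective α₀.surjective this
      exact congrArg Sum.inr (stab_inj y y' h2)
  · rintro ⟨H, hH⟩
    rcases classify h6 α₀ h₀ H hH with ⟨y, rfl⟩ | ⟨y, rfl⟩
    · exact ⟨Sum.inl y, rfl⟩
    · exact ⟨Sum.inr y, rfl⟩

/-- The symmetric group S_6 has exactly 12 subgroups of index 6; each of them is isomorphic to S_5, and at least one of them is not the stabilizer of any point. -/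
theorem result : Nat.card {H : Subgroup (Equiv.Perm (Fin 6)) // H.index = 6} = 12 ∧ (∀ H : Subgroup (Equiv.Perm (Fin 6)), H.index = 6 → Nonempty (H ≃* Equiv.Perm (Fin 5))) ∧ ∃ H : Subgroup (Equiv.Perm (Fin 6)), H.index = 6 ∧ ∀ a : Fin 6, H ≠ MulAction.stabilizer (Equiv.Perm (Fin 6)) a := by
  have h6 : Fintype.card (Fin 6) = 6 := by simp
  obtain ⟨α₀, h₀⟩ := exists_outer (Ω := Fin 6) h6
  refine ⟨?_, ?_, ?_⟩
  · rw [← Nat.card_congr (Equiv.ofBijective (Phi α₀) (Phi_bijective α₀ h₀))]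
    simp
  · intro H hH
    rcases classify h6 α₀ h₀ H hH with ⟨y, rfl⟩ | ⟨y, rfl⟩
    · exact stab_iso y
    · obtain ⟨e⟩ := stab_iso y
      exact ⟨(comapIso α₀ _).trans e⟩
  · exact ⟨(MulAction.stabilizer (Perm (Fin 6)) 0).comap α₀.toMonoidHom, idx_comap α₀ 0,
      fun a h => stab_ne_comap h6 α₀ h₀ a 0 h.symm⟩

end Cfsg.Agent.S5945
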