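import Cfsg.Statements.S5946

set_option autoImplicit false
open Pointwise
open Cfsg

namespace Cfsg.Agent.S5946

theorem result {F K : Type*} [Field F] [Fintype F] [Field K] [Fintype K] [Algebra F K] (n : ℕ) (hn : 2 ≤ n) (hdim : Module.finrank F K = n) :
    Subgroup.centralizer (((Units.map ((Algebra.lmul F K : K →ₐ[F] Module.End F K) : K →* Module.End F K)).range : Subgroup (Module.End F K)ˣ) : Set (Module.End F K)ˣ) = (Units.map ((Algebra.lmul F K : K →ₐ[F] Module.End F K) : K →* Module.End F K)).range := by
  ext φ
  constructor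
  · intro hφ
    rw [Subgroup.mem_centralizer_iff] at hφ
    have key : ∀ x : K, (φ : Module.End F K) x = (φ : Module.End F K) 1 * x := by
      intro x
      by_cases hx : x = 0
      · subst hx; simp
      · have h := hφ (Units.map ((Algebra.lmul F K : K →ₐ[F] Module.End F K) : K →* Module.End F K) (Units.mk0 x hx)) ⟨_, rfl⟩
        have h2 := congrArg (fun u : (Module.End F K)ˣ => (u : Module.End F K) 1) h
        simp at h2
        rw [← h2, mul_comm]
    have h1 : (φ : Module.End F K) 1 ≠ 0 := by
      intro h0
      have h3 : ((φ⁻¹ : (Module.End F K)ˣ) : Module.End F K) ((φ : Module.End F K) 1) = 1 := by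
        have := Units.inv_mul φ
        exact congrArg (fun u : Module.End F K => u 1) this
      rw [h0, map_zero] at h3
      exact zero_ne_one h3
    refine ⟨Units.mk0 _ h1, ?_⟩
    ext x
    simp [key x]
  · rintro ⟨k, rfl⟩
    rw [Subgroup.mem_centralizer_iff]
    rintro _ ⟨k', rfl⟩
    rw [← map_mul, ← map_mul, mul_comm]

end Cfsg.Agent.S5946
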