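import Mathlib
import Cfsg.Statements.S5947

set_option autoImplicit false
open Cfsg

namespace Cfsg.Agent.S5947

universe u v

section bound

variable {F : Type v} [Field F]

theorem unit_inv_apply {V : Type u} [AddCommGroup V] [Module F V] (c : (Module.End F V)ˣ)
    (x : V) : ((c⁻¹ : (Module.End F V)ˣ) : Module.End F V) ((c : Module.End F V) x) = x := by
  have h := congrArg (fun T : Module.End F V => T x) (Units.inv_mul c)
  exact h

/-- restriction of a family of units to an invariant submodule -/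
noncomputable def resHom {V : Type u} [AddCommGroup V] [Module F V]
    (B : Subgroup (Module.End F V)ˣ) (W : Submodule F V)
    (hW : ∀ c ∈ B, ∀ w ∈ W, ((c : (Module.End F V)ˣ) : Module.End F V) w ∈ W) :
    B →* (Module.End F W)ˣ :=
  MonoidHom.toHomUnits
    { toFun := fun c => (((c : (Module.End F V)ˣ) : Module.End F V)).restrict (hW c c.2)
      map_one' := by
        ext w
        rfl
      map_mul' := fun a b => by
        ext w
        rfl }

theorem resHom_apply {V : Type u} [AddCommGroup V] [Module F V]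
    (B : Subgroup (Module.End F V)ˣ) (W : Submodule F V)
    (hW : ∀ c ∈ B, ∀ w ∈ W, ((c : (Module.End F V)ˣ) : Module.End F V) w ∈ W) (c : B) (w : W) :
    ((((resHom B W hW c : (Module.End F W)ˣ) : Module.End F W) w : W) : V)
      = ((c : (Module.End F V)ˣ) : Module.End F V) (w : V) := rfl

/-- the orbit map of a semiregular group of units is injective -/
theorem orbit_inj {V : Type u} [AddCommGroup V] [Module F V] (B : Subgroup (Module.End F V)ˣ)
    (hsr : ∀ b ∈ B, b ≠ 1 → ∀ v : V, v ≠ 0 → ((b : (Module.End F V)ˣ) : Module.End F V) v ≠ v)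
    (v₀ : V) (hv₀ : v₀ ≠ 0) :
    Function.Injective (fun o : Option B => match o with
      | none => (0 : V)
      | some c => ((c : (Module.End F V)ˣ) : Module.End F V) v₀) := by
  rintro (_ | c) (_ | c') h
  · rfl
  · exfalso
    have h' : ((c' : (Module.End F V)ˣ) : Module.End F V) v₀ = 0 := h.symm
    have h2 := unit_inv_apply (c' : (Module.End F V)ˣ) v₀
    rw [h', map_zero] at h2
    exact hv₀ h2.symm
  · exfalso
    have h' : ((c : (Module.End F V)ˣ) : Module.End F V) v₀ = 0 := h
    have h2 := unit_inv_apply (c : (Module.End F V)ˣ) v₀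
    rw [h', map_zero] at h2
    exact hv₀ h2.symm
  · have h' : ((c : (Module.End F V)ˣ) : Module.End F V) v₀
        = ((c' : (Module.End F V)ˣ) : Module.End F V) v₀ := h
    by_contra hne
    have hne' : (c : (Module.End F V)ˣ)⁻¹ * (c' : (Module.End F V)ˣ) ≠ 1 := by
      intro h1
      apply hne
      have h3 : (c : (Module.End F V)ˣ) = c' := by
        have h4 := congrArg (fun z => (c : (Module.End F V)ˣ) * z) h1
        simpa using h4.symm
      exact congrArg some (Subtype.ext h3)
    refine hsr _ (B.mul_mem (B.inv_mem c.2) c'.2) hne' v₀ hv₀ ?_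
    rw [Units.val_mul, Module.End.mul_apply, ← h', unit_inv_apply]

/-- an abelian group of linear automorphisms of a finite vector space, of order prime to the
characteristic, has fewer elements than the space, and even fewer if it is not semiregular -/
theorem bound_aux (p : ℕ) [CharP F p] :
    ∀ (N : ℕ) (V : Type u) [AddCommGroup V] [Module F V] [Finite V],
    Nat.card V = N → Nontrivial V → ∀ (B : Subgroup (Module.End F V)ˣ),
    (∀ a ∈ B, ∀ b ∈ B, a * b = b * a) → (Nat.card B).Coprime p →
    Nat.card B + 1 ≤ Nat.card V ∧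
    ((∃ b ∈ B, b ≠ 1 ∧ ∃ v : V, v ≠ 0 ∧ ((b : (Module.End F V)ˣ) : Module.End F V) v = v) →
      Nat.card B + 2 ≤ Nat.card V) := by
  intro N
  induction N using Nat.strong_induction_on with
  | _ N ih =>
  intro V _ _ _ hN hnt B hcomm hcop
  haveI hfinE : Finite (Module.End F V) :=
    Finite.of_injective (fun f : Module.End F V => (f : V → V)) DFunLike.coe_injective
  have key : (∃ b ∈ B, b ≠ 1 ∧ ∃ v : V, v ≠ 0 ∧
      ((b : (Module.End F V)ˣ) : Module.End F V) v = v) → Nat.card B + 2 ≤ Nat.card V := by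
    rintro ⟨b, hb, hb1, v, hv0, hbv⟩
    obtain ⟨m, hm⟩ : ∃ m : ℕ, m = orderOf b := ⟨_, rfl⟩
    have hm0 : 0 < m := by rw [hm]; exact orderOf_pos b
    have hmF : ((m : ℕ) : F) ≠ 0 := by
      intro h0
      have h1 : p ∣ m := (CharP.cast_eq_zero_iff F p m).mp h0
      have h2 : m ∣ Nat.card B := by
        have h := orderOf_dvd_natCard (⟨b, hb⟩ : B)
        rw [Subgroup.orderOf_mk] at h
        rw [hm]; exact h
      have h4 : p ∣ Nat.gcd (Nat.card B) p := Nat.dvd_gcd (h1.trans h2) dvd_rfl
      rw [hcop.gcd_eq_one, Nat.dvd_one] at h4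
      have h5 : ((1 : ℕ) : F) = 0 := by
        have h6 := CharP.cast_eq_zero F p
        rw [h4] at h6
        exact h6
      simp at h5
    obtain ⟨bE, hbE⟩ : ∃ bE : Module.End F V,
      bE = ((b : (Module.End F V)ˣ) : Module.End F V) := ⟨_, rfl⟩
    have hbm : bE ^ m = 1 := by
      rw [hbE, hm, ← Units.val_pow_eq_pow_val, pow_orderOf_eq_one, Units.val_one]
    obtain ⟨S, hS⟩ : ∃ S : Module.End F V, S = ∑ i ∈ Finset.range m, bE ^ i := ⟨_, rfl⟩
    have hgs : (bE - 1) * S = 0 := by
      rw [hS, mul_geom_sum, hbm, sub_self]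
    have hbS : bE * S = S := by
      have h := hgs
      rw [sub_mul, one_mul, sub_eq_zero] at h
      exact h
    have hpowS : ∀ i : ℕ, bE ^ i * S = S := by
      intro i
      induction i with
      | zero => rw [pow_zero, one_mul]
      | succ i ih' => rw [pow_succ, mul_assoc, hbS, ih']
    have hSS : S * S = (m : F) • S := by
      calc S * S = (∑ i ∈ Finset.range m, bE ^ i) * S := by rw [← hS]
        _ = ∑ i ∈ Finset.range m, bE ^ i * S := Finset.sum_mul _ _ _
        _ = ∑ i ∈ Finset.range m, S := Finset.sum_congr rfl (fun i _ => hpowS i)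
        _ = m • S := by rw [Finset.sum_const, Finset.card_range]
        _ = (m : F) • S := (Nat.cast_smul_eq_nsmul F m S).symm
    obtain ⟨W, hWdef⟩ : ∃ W : Submodule F V, W = LinearMap.ker (bE - 1) := ⟨_, rfl⟩
    obtain ⟨W', hW'def⟩ : ∃ W' : Submodule F V, W' = LinearMap.ker S := ⟨_, rfl⟩
    have hmemW : ∀ w, w ∈ W ↔ bE w = w := by
      intro w
      rw [hWdef, LinearMap.mem_ker, LinearMap.sub_apply, sub_eq_zero]
      rfl
    have hmemW' : ∀ w, w ∈ W' ↔ S w = 0 := by
      intro w
      rw [hW'def, LinearMap.mem_ker]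
    have hcE : ∀ c ∈ B, ((c : (Module.End F V)ˣ) : Module.End F V) * bE
        = bE * ((c : (Module.End F V)ˣ) : Module.End F V) := by
      intro c hc
      rw [hbE, ← Units.val_mul, ← Units.val_mul, hcomm c hc b hb]
    have hcS : ∀ c ∈ B, ((c : (Module.End F V)ˣ) : Module.End F V) * S
        = S * ((c : (Module.End F V)ˣ) : Module.End F V) := by
      intro c hc
      have h1 : Commute ((c : (Module.End F V)ˣ) : Module.End F V) bE := hcE c hc
      rw [hS]
      exact (Commute.sum_right _ _ _ (fun i _ => h1.pow_right i)).eq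
    have hWinv : ∀ c ∈ B, ∀ w ∈ W, ((c : (Module.End F V)ˣ) : Module.End F V) w ∈ W := by
      intro c hc w hw
      rw [hmemW] at hw ⊢
      have h := congrArg (fun T : Module.End F V => T w) (hcE c hc)
      simp only [Module.End.mul_apply] at h
      rw [← h, hw]
    have hW'inv : ∀ c ∈ B, ∀ w ∈ W', ((c : (Module.End F V)ˣ) : Module.End F V) w ∈ W' := by
      intro c hc w hw
      rw [hmemW'] at hw ⊢
      have h := congrArg (fun T : Module.End F V => T w) (hcS c hc)
      simp only [Module.End.mul_apply] at h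
      rw [← h, hw, map_zero]
    have hSW : ∀ w ∈ W, S w = (m : F) • w := by
      intro w hw
      rw [hmemW] at hw
      have hpw : ∀ i : ℕ, (bE ^ i) w = w := by
        intro i
        induction i with
        | zero => rw [pow_zero]; rfl
        | succ i ih' => rw [pow_succ, Module.End.mul_apply, hw, ih']
      rw [hS, LinearMap.sum_apply, Finset.sum_congr rfl (fun i _ => hpw i), Finset.sum_const,
        Finset.card_range, Nat.cast_smul_eq_nsmul]
    have hdisj : ∀ w, w ∈ W → w ∈ W' → w = 0 := by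
      intro w hw hw'
      have h1 := hSW w hw
      rw [(hmemW' w).mp hw'] at h1
      rcases smul_eq_zero.mp h1.symm with h2 | h2
      · exact absurd h2 hmF
      · exact h2
    have hdec : ∀ x : V, ∃ w ∈ W, ∃ w' ∈ W', w + w' = x := by
      intro x
      refine ⟨(m : F)⁻¹ • S x, ?_, x - (m : F)⁻¹ • S x, ?_, by abel⟩
      · rw [hmemW, map_smul]
        have h := congrArg (fun T : Module.End F V => T x) hbS
        simp only [Module.End.mul_apply] at h
        rw [h]
      · rw [hmemW', map_sub, map_smul]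
        have h := congrArg (fun T : Module.End F V => T x) hSS
        simp only [Module.End.mul_apply, LinearMap.smul_apply] at h
        rw [h, smul_smul, inv_mul_cancel₀ hmF, one_smul, sub_self]
    have hcompl : IsCompl W W' := by
      refine ⟨?_, ?_⟩
      · rw [Submodule.disjoint_def]
        exact hdisj
      · rw [codisjoint_iff, Submodule.eq_top_iff']
        intro x
        rw [Submodule.mem_sup]
        exact hdec x
    have hcardV : Nat.card V = Nat.card W * Nat.card W' := by
      rw [← Nat.card_prod]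
      exact (Nat.card_congr (Submodule.prodEquivOfIsCompl W W' hcompl).toEquiv).symm
    have hvW : v ∈ W := by
      rw [hmemW, hbE]; exact hbv
    haveI hWnt : Nontrivial W :=
      ⟨⟨⟨v, hvW⟩, 0, fun h => hv0 (congrArg Subtype.val h)⟩⟩
    have hW'ex : ∃ x' ∈ W', x' ≠ 0 := by
      by_contra hall
      push Not at hall
      apply hb1
      apply Units.ext
      apply LinearMap.ext
      intro x
      obtain ⟨w, hw, w', hw', rfl⟩ := hdec x
      rw [hall w' hw', add_zero, ← hbE]
      exact (hmemW w).mp hw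
    obtain ⟨x', hx', hx'0⟩ := hW'ex
    haveI hW'nt : Nontrivial W' :=
      ⟨⟨⟨x', hx'⟩, 0, fun h => hx'0 (congrArg Subtype.val h)⟩⟩
    have hW1 : 1 < Nat.card W := Finite.one_lt_card
    have hW'1 : 1 < Nat.card W' := Finite.one_lt_card
    have hltW : Nat.card W < N := by
      rw [← hN, hcardV]
      exact (Nat.lt_mul_iff_one_lt_right (by omega)).mpr hW'1
    have hltW' : Nat.card W' < N := by
      rw [← hN, hcardV]
      exact (Nat.lt_mul_iff_one_lt_left (by omega)).mpr hW1
    obtain ⟨ρ, hρ⟩ : ∃ ρ : B →* (Module.End F W)ˣ, ρ = resHom B W hWinv := ⟨_, rfl⟩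
    obtain ⟨ρ', hρ'⟩ : ∃ ρ' : B →* (Module.End F W')ˣ, ρ' = resHom B W' hW'inv := ⟨_, rfl⟩
    have hcommρ : ∀ x ∈ ρ.range, ∀ y ∈ ρ.range, x * y = y * x := by
      rintro _ ⟨c, rfl⟩ _ ⟨c', rfl⟩
      rw [← map_mul, ← map_mul]
      congr 1
      exact Subtype.ext (hcomm c c.2 c' c'.2)
    have hcommρ' : ∀ x ∈ ρ'.range, ∀ y ∈ ρ'.range, x * y = y * x := by
      rintro _ ⟨c, rfl⟩ _ ⟨c', rfl⟩
      rw [← map_mul, ← map_mul]
      congr 1
      exact Subtype.ext (hcomm c c.2 c' c'.2)
    have hcopρ : (Nat.card ρ.range).Coprime p :=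
      Nat.Coprime.coprime_dvd_left (Subgroup.card_range_dvd ρ) hcop
    have hcopρ' : (Nat.card ρ'.range).Coprime p :=
      Nat.Coprime.coprime_dvd_left (Subgroup.card_range_dvd ρ') hcop
    have h1 := (ih (Nat.card W) hltW W rfl hWnt ρ.range hcommρ hcopρ).1
    have h2 := (ih (Nat.card W') hltW' W' rfl hW'nt ρ'.range hcommρ' hcopρ').1
    haveI : Finite (Module.End F W) :=
      Finite.of_injective (fun f : Module.End F W => (f : W → W)) DFunLike.coe_injective
    haveI : Finite (Module.End F W') :=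
      Finite.of_injective (fun f : Module.End F W' => (f : W' → W')) DFunLike.coe_injective
    have hinj : Function.Injective (fun c : B =>
        ((⟨ρ c, ⟨c, rfl⟩⟩ : ρ.range), (⟨ρ' c, ⟨c, rfl⟩⟩ : ρ'.range))) := by
      intro c c' h
      have e1 : ρ c = ρ c' := congrArg (fun z : ρ.range × ρ'.range => (z.1 : (Module.End F W)ˣ)) h
      have e2 : ρ' c = ρ' c' :=
        congrArg (fun z : ρ.range × ρ'.range => (z.2 : (Module.End F W')ˣ)) h
      apply Subtype.ext
      apply Units.ext
      apply LinearMap.ext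
      intro x
      obtain ⟨w, hw, w', hw', rfl⟩ := hdec x
      have f1 : ((c : (Module.End F V)ˣ) : Module.End F V) w
          = ((c' : (Module.End F V)ˣ) : Module.End F V) w := by
        have h3 := congrArg
          (fun T : (Module.End F W)ˣ => (((T : Module.End F W) ⟨w, hw⟩ : W) : V)) e1
        rw [hρ] at h3
        exact h3
      have f2 : ((c : (Module.End F V)ˣ) : Module.End F V) w'
          = ((c' : (Module.End F V)ˣ) : Module.End F V) w' := by
        have h3 := congrArg
          (fun T : (Module.End F W')ˣ => (((T : Module.End F W') ⟨w', hw'⟩ : W') : V)) e2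
        rw [hρ'] at h3
        exact h3
      rw [map_add, map_add, f1, f2]
    have hle : Nat.card B ≤ Nat.card ρ.range * Nat.card ρ'.range := by
      rw [← Nat.card_prod]
      exact Nat.card_le_card_of_injective _ hinj
    have ha : 0 < Nat.card ρ.range := Nat.card_pos
    have ha' : 0 < Nat.card ρ'.range := Nat.card_pos
    have hmul := Nat.mul_le_mul h1 h2
    rw [hcardV]
    nlinarith
  refine ⟨?_, key⟩
  by_cases hsr : ∃ b ∈ B, b ≠ 1 ∧ ∃ v : V, v ≠ 0 ∧
      ((b : (Module.End F V)ˣ) : Module.End F V) v = v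
  · have := key hsr
    omega
  · push Not at hsr
    obtain ⟨v₀, hv₀⟩ := exists_ne (0 : V)
    have h := Nat.card_le_card_of_injective _ (orbit_inj B hsr v₀ hv₀)
    rw [Finite.card_option] at h
    exact h

end bound

theorem exists_root {F : Type*} [Field F] {R : Type*} [CommRing R] [IsDomain R] [Algebra F R]
    [Fintype R] (N : ℕ) (hN : Fintype.card R = N) (hpow : ∀ r : R, r ^ N = r)
    (f h : Polynomial F) (hh : (Polynomial.X ^ N - Polynomial.X : Polynomial F) = f * h)
    (hhdeg : h.natDegree < N) (hh0 : h ≠ 0) : ∃ c : R, Polynomial.aeval c f = 0 := by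
  by_contra hcon
  push Not at hcon
  have hroot : ∀ ℓ : R, Polynomial.eval ℓ (h.map (algebraMap F R)) = 0 := by
    intro ℓ
    have h1 : Polynomial.aeval ℓ (Polynomial.X ^ N - Polynomial.X : Polynomial F) = 0 := by
      rw [map_sub, map_pow, Polynomial.aeval_X, hpow, sub_self]
    rw [hh, map_mul] at h1
    rcases mul_eq_zero.1 h1 with h2 | h2
    · exact absurd h2 (hcon ℓ)
    · rw [Polynomial.eval_map_algebraMap]
      exact h2
  have h0 := Polynomial.eq_zero_of_natDegree_lt_card_of_eval_eq_zero (h.map (algebraMap F R))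
    (f := id) Function.injective_id hroot (by
      rw [hN]
      exact lt_of_le_of_lt Polynomial.natDegree_map_le hhdeg)
  exact hh0 (Polynomial.map_injective _ (algebraMap F R).injective
    (by rw [h0, Polynomial.map_zero]))

/-- Let F ⊆ K be finite fields with |F| = q and [K : F] = n ≥ 2, regard K as an n-dimensional F-vector space, and let M ≤ GL_F(K) be the Singer group of multiplications by non-zero elements of K (cyclic of order q^n − 1). Assume (n, q) ≠ (6, 2), and that it is not the case that n = 2 with q a prime such that q + 1 is a power of 2. Then every abelian subgroup of GL_F(K) of order q^n − 1 is conjugate to M. -/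
theorem result {F K : Type*} [Field F] [Fintype F] [Field K] [Fintype K] [Algebra F K] (n : ℕ) (hn : 2 ≤ n) (hdim : Module.finrank F K = n)
    (hex1 : ¬ (n = 6 ∧ Fintype.card F = 2))
    (hex2 : ¬ (n = 2 ∧ (Fintype.card F).Prime ∧ ∃ a : ℕ, Fintype.card F + 1 = 2 ^ a))
    (U : Subgroup (Module.End F K)ˣ) (hU : IsMulCommutative U) (hcard : Nat.card U = Fintype.card K - 1) :
    ∃ g : (Module.End F K)ˣ, U.map (MulAut.conj g).toMonoidHom = (Units.map ((Algebra.lmul F K : K →ₐ[F] Module.End F K) : K →* Module.End F K)).range := by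
  classical
  haveI hEfin : Finite (Module.End F K) :=
    Finite.of_injective (fun T : Module.End F K => (T : K → K)) DFunLike.coe_injective
  obtain ⟨p, hp⟩ := CharP.exists F
  have hpF : CharP F p := hp
  have hpK : CharP K p := charP_of_injective_algebraMap (algebraMap F K).injective p
  obtain ⟨k, hpprime, hKcard⟩ := FiniteField.card K p
  have hcomm : ∀ a ∈ U, ∀ b ∈ U, a * b = b * a := by
    intro a ha b hb
    have := hU.is_comm.comm ⟨a, ha⟩ ⟨b, hb⟩
    exact congrArg Subtype.val this
  have hK1 : 1 < Fintype.card K := Fintype.one_lt_card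
  have hcop : (Nat.card U).Coprime p := by
    rw [hcard, hKcard]
    apply Nat.Coprime.symm
    rw [Nat.Prime.coprime_iff_not_dvd hpprime]
    intro h
    have h1 : p ∣ p ^ (k : ℕ) := dvd_pow_self p k.ne_zero
    have h2 : p ∣ p ^ (k : ℕ) - (p ^ (k : ℕ) - 1) := Nat.dvd_sub h1 h
    have h3 : 0 < p ^ (k : ℕ) := Nat.pos_of_ne_zero (pow_ne_zero _ hpprime.ne_zero)
    have e : p ^ (k : ℕ) - (p ^ (k : ℕ) - 1) = 1 := by omega
    rw [e] at h2
    have := Nat.le_of_dvd one_pos h2
    have := hpprime.two_le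
    omega
  have hB := bound_aux (F := F) p (Nat.card K) K rfl inferInstance U hcomm hcop
  have hNK : Nat.card K = Fintype.card K := Nat.card_eq_fintype_card
  have hsemi : ∀ b ∈ U, b ≠ 1 → ∀ v : K, v ≠ 0 →
      ((b : (Module.End F K)ˣ) : Module.End F K) v ≠ v := by
    intro b hb hb1 v hv h
    have := hB.2 ⟨b, hb, hb1, v, hv, h⟩
    omega
  have horb : ∀ x : K, x ≠ 0 → ∃ u ∈ U, ((u : (Module.End F K)ˣ) : Module.End F K) 1 = x := by
    intro x hx
    have hinj := orbit_inj U hsemi (1 : K) one_ne_zero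
    have hbij := hinj.bijective_of_nat_card_le (by rw [Finite.card_option]; omega)
    obtain ⟨o, ho⟩ := hbij.2 x
    rcases o with _ | c
    · exact absurd ho.symm hx
    · exact ⟨c, c.2, ho⟩
  -- the algebra generated by U
  obtain ⟨s, hs⟩ : ∃ s : Set (Module.End F K),
      s = (fun u : (Module.End F K)ˣ => (u : Module.End F K)) '' (U : Set (Module.End F K)ˣ) :=
    ⟨_, rfl⟩
  have hscomm : ∀ a ∈ s, ∀ b ∈ s, a * b = b * a := by
    intro a ha b hb
    rw [hs] at ha hb
    obtain ⟨a', ha', rfl⟩ := ha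
    obtain ⟨b', hb', rfl⟩ := hb
    have := hcomm a' ha' b' hb'
    show ((a' : Module.End F K)) * (b' : Module.End F K)
      = (b' : Module.End F K) * (a' : Module.End F K)
    rw [← Units.val_mul, ← Units.val_mul, this]
  obtain ⟨L, hL⟩ : ∃ L : Subalgebra F (Module.End F K), L = Algebra.adjoin F s := ⟨_, rfl⟩
  have hLc : IsMulCommutative L := by
    rw [hL]
    exact Algebra.isMulCommutative_adjoin F hscomm
  have hUL : ∀ u ∈ U, ((u : (Module.End F K)ˣ) : Module.End F K) ∈ L := by
    intro u hu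
    rw [hL]
    exact Algebra.subset_adjoin (by rw [hs]; exact ⟨u, hu, rfl⟩)
  have hLcomm : ∀ ℓ : L, ∀ u ∈ U, (ℓ : Module.End F K) * ((u : (Module.End F K)ˣ) : Module.End F K)
      = ((u : (Module.End F K)ˣ) : Module.End F K) * (ℓ : Module.End F K) := by
    intro ℓ u hu
    have := hLc.is_comm.comm ℓ ⟨_, hUL u hu⟩
    exact congrArg Subtype.val this
  have hev : ∀ ℓ : L, (ℓ : Module.End F K) 1 = 0 → ℓ = 0 := by
    intro ℓ h
    apply Subtype.ext
    apply LinearMap.ext
    intro x
    by_cases hx : x = 0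
    · rw [hx, map_zero, map_zero]
    · obtain ⟨u, hu, rfl⟩ := horb x hx
      have h1 := congrArg (fun T : Module.End F K => T 1) (hLcomm ℓ u hu)
      simp only [Module.End.mul_apply] at h1
      rw [h1, h, map_zero]
      simp
  have hLinj : ∀ ℓ : L, ℓ ≠ 0 → ∀ x : K, (ℓ : Module.End F K) x = 0 → x = 0 := by
    intro ℓ hℓ x hx
    by_contra hx0
    obtain ⟨u, hu, rfl⟩ := horb x hx0
    have h1 := congrArg (fun T : Module.End F K => T 1) (hLcomm ℓ u hu)
    simp only [Module.End.mul_apply] at h1
    rw [hx] at h1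
    have h2 := unit_inv_apply u ((ℓ : Module.End F K) 1)
    rw [← h1, map_zero] at h2
    exact hℓ (hev ℓ h2.symm)
  haveI hnzd : NoZeroDivisors L := by
    refine ⟨fun {a b} hab => ?_⟩
    by_contra hcon
    push Not at hcon
    have h1 : ((a * b : L) : Module.End F K) 1 = 0 := by
      rw [hab]
      simp
    rw [MulMemClass.coe_mul, Module.End.mul_apply] at h1
    exact hcon.2 (hev b (hLinj a hcon.1 _ h1))
  haveI hdom : IsDomain L := NoZeroDivisors.to_isDomain L
  haveI hLfin : Fintype L := Fintype.ofFinite L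
  have hevbij : Function.Bijective (fun ℓ : L => (ℓ : Module.End F K) 1) := by
    constructor
    · intro a b hab
      have h1 : ((a - b : L) : Module.End F K) 1 = 0 := by
        rw [AddSubgroupClass.coe_sub, LinearMap.sub_apply]
        exact sub_eq_zero.2 hab
      exact sub_eq_zero.1 (hev _ h1)
    · intro x
      by_cases hx : x = 0
      · exact ⟨0, by simp [hx]⟩
      · obtain ⟨u, hu, hux⟩ := horb x hx
        exact ⟨⟨_, hUL u hu⟩, hux⟩
  have hcardL : Fintype.card L = Fintype.card K := Fintype.card_of_bijective hevbij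
  have hLU : ∀ ℓ : L, ℓ ≠ 0 →
      ∃ u ∈ U, (ℓ : Module.End F K) = ((u : (Module.End F K)ˣ) : Module.End F K) := by
    intro ℓ hℓ
    have h1 : (ℓ : Module.End F K) 1 ≠ 0 := fun h => hℓ (hev ℓ h)
    obtain ⟨u, hu, hux⟩ := horb _ h1
    refine ⟨u, hu, ?_⟩
    have := hevbij.1 (a₁ := ℓ) (a₂ := ⟨_, hUL u hu⟩) hux.symm
    exact congrArg Subtype.val this
  have hpowL : ∀ ℓ : L, ℓ ^ Fintype.card K = ℓ := by
    intro ℓ
    by_cases hℓ : ℓ = 0
    · rw [hℓ, zero_pow (by omega)]
    · obtain ⟨u, hu, hℓu⟩ := hLU ℓ hℓ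
      have h1 : (⟨u, hu⟩ : U) ^ Nat.card U = 1 := pow_card_eq_one'
      obtain ⟨m, hm⟩ : ∃ m, Fintype.card K = m + 1 := ⟨Fintype.card K - 1, by omega⟩
      have h2 : u ^ m = 1 := by
        have := congrArg Subtype.val h1
        rw [hcard, hm] at this
        simpa using this
      apply Subtype.ext
      rw [SubmonoidClass.coe_pow, hℓu, hm, pow_succ, ← Units.val_pow_eq_pow_val, h2,
        Units.val_one, one_mul]
  -- a root of the minimal polynomial of a primitive element
  obtain ⟨pb, hpb⟩ : ∃ pb : PowerBasis F K, pb = Field.powerBasisOfFiniteOfSeparable F K :=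
    ⟨_, rfl⟩
  obtain ⟨f, hf⟩ : ∃ f : Polynomial F, f = minpoly F pb.gen := ⟨_, rfl⟩
  obtain ⟨N, hN⟩ : ∃ N, N = Fintype.card K := ⟨_, rfl⟩
  have hfdvd : f ∣ (Polynomial.X ^ N - Polynomial.X : Polynomial F) := by
    rw [hf]
    apply minpoly.dvd
    rw [map_sub, map_pow, Polynomial.aeval_X, hN, FiniteField.pow_card, sub_self]
  obtain ⟨h, hh⟩ := hfdvd
  have hN1 : 1 < N := by rw [hN]; exact hK1
  have hdeg : (Polynomial.X ^ N - Polynomial.X : Polynomial F).natDegree = N :=
    FiniteField.X_pow_card_sub_X_natDegree_eq F hN1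
  have hne : (Polynomial.X ^ N - Polynomial.X : Polynomial F) ≠ 0 :=
    FiniteField.X_pow_card_sub_X_ne_zero F hN1
  have hf0 : f ≠ 0 := by
    rintro rfl
    rw [zero_mul] at hh
    exact hne hh
  have hh0 : h ≠ 0 := by
    rintro rfl
    rw [mul_zero] at hh
    exact hne hh
  have hfdeg : 0 < f.natDegree := by
    rw [hf]
    exact minpoly.natDegree_pos pb.isIntegral_gen
  have hhdeg : h.natDegree < N := by
    have := Polynomial.natDegree_mul hf0 hh0
    rw [← hh, hdeg] at this
    omega
  obtain ⟨c, hc⟩ : ∃ c : L, Polynomial.aeval c f = 0 := by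
    letI : CommRing L :=
      { (inferInstance : Ring L) with mul_comm := fun a b => hLc.is_comm.comm a b }
    exact exists_root (F := F) (R := L) N (by rw [hcardL, hN]) (by rw [hN]; exact hpowL) f h hh
      hhdeg hh0
  have hcE : Polynomial.aeval (c : Module.End F K) (minpoly F pb.gen) = 0 := by
    rw [← hf, ← Polynomial.aeval_subalgebra_coe, hc]
    rfl
  obtain ⟨σ, hσ⟩ : ∃ σ : K →ₐ[F] Module.End F K, σ = pb.lift (c : Module.End F K) hcE :=
    ⟨_, rfl⟩
  have hσL : ∀ x : K, σ x ∈ L := by
    intro x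
    obtain ⟨g, rfl⟩ := pb.exists_eq_aeval' x
    rw [← Polynomial.aeval_algHom_apply, hσ, pb.lift_gen, ← Polynomial.aeval_subalgebra_coe]
    exact Subtype.property _
  have hσinj : Function.Injective σ := (σ : K →+* Module.End F K).injective
  obtain ⟨ψ, hψ⟩ : ∃ ψ : K →ₗ[F] K, ∀ x, ψ x = (σ x) 1 :=
    ⟨(LinearMap.applyₗ (1 : K)).comp σ.toLinearMap, fun x => rfl⟩
  have hψinj : Function.Injective ψ := by
    rw [injective_iff_map_eq_zero]
    intro x hx
    rw [hψ] at hx
    have := hev ⟨σ x, hσL x⟩ hx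
    have h2 : σ x = 0 := congrArg Subtype.val this
    exact hσinj (by rw [h2, map_zero])
  have hψmul : ∀ a x : K, ψ (a * x) = (σ a) (ψ x) := by
    intro a x
    rw [hψ, hψ, map_mul, Module.End.mul_apply]
  obtain ⟨ψe, hψe⟩ : ∃ ψe : K ≃ₗ[F] K, ∀ x, ψe x = ψ x :=
    ⟨LinearEquiv.ofInjectiveEndo ψ hψinj, fun x => rfl⟩
  obtain ⟨gψ, hgψ⟩ : ∃ g : (Module.End F K)ˣ, ∀ x, (g : Module.End F K) x = ψ x :=
    ⟨⟨ψe.toLinearMap, ψe.symm.toLinearMap, LinearMap.ext fun x => by simp,
      LinearMap.ext fun x => by simp⟩, fun x => hψe x⟩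
  obtain ⟨Mg, hMg⟩ : ∃ Mg : Subgroup (Module.End F K)ˣ, Mg = (Units.map
      ((Algebra.lmul F K : K →ₐ[F] Module.End F K) : K →* Module.End F K)).range := ⟨_, rfl⟩
  have hle : Mg.map (MulAut.conj gψ).toMonoidHom ≤ U := by
    rintro _ ⟨m, hm, rfl⟩
    rw [hMg] at hm
    obtain ⟨κ, rfl⟩ := hm
    have hκ0 : σ (κ : K) ≠ 0 := by
      intro h0
      exact κ.ne_zero (hσinj (by rw [h0, map_zero]))
    obtain ⟨u, hu, hσu⟩ := hLU ⟨σ κ, hσL κ⟩ (fun h0 => hκ0 (congrArg Subtype.val h0))
    have hσu' : σ (κ : K) = (u : Module.End F K) := hσu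
    have key : gψ * Units.map ((Algebra.lmul F K : K →ₐ[F] Module.End F K) :
        K →* Module.End F K) κ = u * gψ := by
      apply Units.ext
      apply LinearMap.ext
      intro x
      rw [Units.val_mul, Units.val_mul, Module.End.mul_apply, Module.End.mul_apply, hgψ, hgψ,
        ← hσu', ← hψmul]
      rfl
    show gψ * _ * gψ⁻¹ ∈ U
    rw [key, mul_inv_cancel_right]
    exact hu
  have hinjM : Function.Injective (Units.map
      ((Algebra.lmul F K : K →ₐ[F] Module.End F K) : K →* Module.End F K)) := by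
    intro a b hab
    apply Units.ext
    have := congrArg (fun T : (Module.End F K)ˣ => (T : Module.End F K) 1) hab
    simpa using this
  have hcardM : Nat.card Mg = Fintype.card K - 1 := by
    rw [hMg, Nat.card_congr (MonoidHom.ofInjective hinjM).toEquiv.symm, Nat.card_units,
      Nat.card_eq_fintype_card]
  have hcardM' : Nat.card (Mg.map (MulAut.conj gψ).toMonoidHom) = Nat.card Mg :=
    Subgroup.card_map_of_injective (MulAut.conj gψ).injective
  have hUM : Mg.map (MulAut.conj gψ).toMonoidHom = U :=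
    Subgroup.eq_of_le_of_card_ge hle (by rw [hcardM', hcardM, hcard])
  refine ⟨gψ⁻¹, ?_⟩
  rw [← hMg, ← hUM, Subgroup.map_map]
  have hid : (MulAut.conj gψ⁻¹).toMonoidHom.comp (MulAut.conj gψ).toMonoidHom
      = MonoidHom.id _ := by
    ext x
    simp [MulAut.conj_apply, mul_assoc]
  rw [hid, Subgroup.map_id]

end Cfsg.Agent.S5947
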