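import Mathlib
import Cfsg.Statements.S5985
import Cfsg.Agent.S2172

set_option autoImplicit false
open Cfsg

namespace Cfsg.Agent.S5985

open Matrix
open Cfsg.Agent.Lib.Helper16 (isomG_map qfPlus qfPlus_nondeg)
open Cfsg.Agent.Lib.Helper17 (actLin plusU0 plusU0_ts plusU0_finrank mem_plusU0)

section basic

variable {F : Type*} [Field F]

theorem qplus_elim (d : ℕ) (u w : Fin d → F) :
    Cfsg.quadFormPlus d F (Sum.elim u w) = u ⬝ᵥ w := rfl

theorem qplus_eq (d : ℕ) (v : Fin d ⊕ Fin d → F) :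
    Cfsg.quadFormPlus d F v = (v ∘ Sum.inl) ⬝ᵥ (v ∘ Sum.inr) := rfl

theorem qplus_smul (d : ℕ) (c : F) (v : Fin d ⊕ Fin d → F) :
    Cfsg.quadFormPlus d F (c • v) = c * c * Cfsg.quadFormPlus d F v := by
  have h := QuadraticMap.map_smul (qfPlus d F) c v
  rw [smul_eq_mul] at h
  exact h

theorem one_of_sq (h2 : (2 : F) = 0) (c : F) (hc : c * c = 1) : c = 1 := by
  have h : (c - 1) ^ 2 = 0 := by linear_combination hc + (1 - c) * h2
  exact sub_eq_zero.mp ((pow_eq_zero_iff (by norm_num)).mp h)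

/-- a matrix moving every nonsingular vector off its line is not scalar and fixes no nonsingular
point -/
theorem no_fixed {d : ℕ} (hd : 1 ≤ d) (X : Matrix (Fin d ⊕ Fin d) (Fin d ⊕ Fin d) F)
    (hder : ∀ v, Cfsg.quadFormPlus d F v ≠ 0 → ∀ c : F, X *ᵥ v ≠ c • v) :
    (∀ z : F, X ≠ z • (1 : Matrix (Fin d ⊕ Fin d) (Fin d ⊕ Fin d) F)) ∧
    ¬ ∃ W : Submodule F (Fin d ⊕ Fin d → F),
      (Module.finrank F ↥W = 1 ∧ ∃ v ∈ W, Cfsg.quadFormPlus d F v ≠ 0) ∧
        W.map (Matrix.toLin' X) ≤ W := by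
  constructor
  · intro z hz
    have hv0 : Cfsg.quadFormPlus d F
        (Sum.elim (Pi.single (⟨0, hd⟩ : Fin d) 1) (Pi.single (⟨0, hd⟩ : Fin d) 1)) ≠ 0 := by
      rw [qplus_elim, single_dotProduct, one_mul, Pi.single_eq_same]
      exact one_ne_zero
    refine hder _ hv0 z ?_
    rw [hz, Matrix.smul_mulVec, Matrix.one_mulVec]
  · rintro ⟨W, ⟨hW1, v, hvW, hv⟩, hWx⟩
    have hv0 : (⟨v, hvW⟩ : ↥W) ≠ 0 := by
      intro h
      have h' : v = 0 := congrArg Subtype.val h
      rw [h'] at hv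
      exact hv (QuadraticMap.map_zero (qfPlus d F))
    have hmem : X *ᵥ v ∈ W := hWx (Submodule.mem_map_of_mem hvW)
    obtain ⟨c, hc⟩ := (finrank_eq_one_iff_of_nonzero' (⟨v, hvW⟩ : ↥W) hv0).mp hW1 ⟨X *ᵥ v, hmem⟩
    exact hder v hv c (congrArg Subtype.val hc).symm

end basic

section count

variable {F : Type*} [Field F] [Fintype F]

/-- the number of vectors not orthogonal to a nonzero vector for the dot product -/
theorem card_dot_ne {d : ℕ} (u : Fin d → F) (hu : u ≠ 0) :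
    Nat.card {w : Fin d → F // u ⬝ᵥ w ≠ 0} + Fintype.card F ^ (d - 1) = Fintype.card F ^ d := by
  classical
  obtain ⟨i, hi⟩ : ∃ i, u i ≠ 0 := by
    by_contra hcon
    push Not at hcon
    exact hu (funext hcon)
  let φ : (Fin d → F) →ₗ[F] F := dotProductBilin F F u
  have hφ : ∀ w, φ w = u ⬝ᵥ w := fun w => rfl
  have hsurj : LinearMap.range φ = ⊤ := by
    rw [LinearMap.range_eq_top]
    intro c
    refine ⟨Pi.single i (c / u i), ?_⟩
    rw [hφ, dotProduct_single, mul_div_cancel₀ c hi]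
  have hrn := LinearMap.finrank_range_add_finrank_ker φ
  rw [hsurj, finrank_top, Module.finrank_self, Module.finrank_fintype_fun_eq_card,
    Fintype.card_fin] at hrn
  have hker : Nat.card ↥(LinearMap.ker φ) = Fintype.card F ^ (d - 1) := by
    rw [Module.natCard_eq_pow_finrank (K := F), Nat.card_eq_fintype_card]
    congr 1
    omega
  have htot : Nat.card (Fin d → F) = Fintype.card F ^ d := by
    rw [Nat.card_eq_fintype_card, Fintype.card_fun, Fintype.card_fin]
  have e : {w : Fin d → F // u ⬝ᵥ w ≠ 0} ≃ {w : Fin d → F // ¬ w ∈ LinearMap.ker φ} :=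
    Equiv.subtypeEquivRight (fun w => by rw [LinearMap.mem_ker, hφ])
  rw [Nat.card_congr e, ← hker, ← htot]
  have h1 := Fintype.card_subtype_compl (fun w : Fin d → F => w ∈ LinearMap.ker φ)
  rw [Nat.card_eq_fintype_card, Nat.card_eq_fintype_card, Nat.card_eq_fintype_card, h1]
  have h2 : Fintype.card {w : Fin d → F // w ∈ LinearMap.ker φ} ≤ Fintype.card (Fin d → F) :=
    Fintype.card_subtype_le _
  have h3 : Fintype.card ↥(LinearMap.ker φ) = Fintype.card {w : Fin d → F // w ∈ LinearMap.ker φ} :=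
    Fintype.card_congr (Equiv.refl _)
  omega

/-- the number of nonsingular vectors of the hyperbolic form -/
theorem card_ns (d : ℕ) :
    Nat.card {v : Fin d ⊕ Fin d → F // Cfsg.quadFormPlus d F v ≠ 0} + (Fintype.card F ^ d - 1) * Fintype.card F ^ (d - 1)
      = (Fintype.card F ^ d - 1) * Fintype.card F ^ d := by
  classical
  have e1 : {v : Fin d ⊕ Fin d → F // Cfsg.quadFormPlus d F v ≠ 0} ≃
      {p : (Fin d → F) × (Fin d → F) // p.1 ⬝ᵥ p.2 ≠ 0} :=
    (Equiv.sumArrowEquivProdArrow (Fin d) (Fin d) F).subtypeEquiv (fun v => Iff.rfl)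
  rw [Nat.card_congr e1,
    Nat.card_congr (Equiv.subtypeProdEquivSigmaSubtype (fun u w : Fin d → F => u ⬝ᵥ w ≠ 0)),
    Nat.card_sigma]
  have hterm : ∀ u : Fin d → F, Nat.card {w : Fin d → F // u ⬝ᵥ w ≠ 0} =
      if u = 0 then 0 else Fintype.card F ^ d - Fintype.card F ^ (d - 1) := by
    intro u
    by_cases hu : u = 0
    · rw [if_pos hu, hu]
      have : IsEmpty {w : Fin d → F // (0 : Fin d → F) ⬝ᵥ w ≠ 0} :=
        ⟨fun w => w.2 (zero_dotProduct _)⟩
      exact Nat.card_of_isEmpty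
    · rw [if_neg hu]
      have := card_dot_ne u hu
      omega
  rw [Finset.sum_congr rfl (fun u _ => hterm u), Finset.sum_ite, Finset.sum_const_zero, zero_add,
    Finset.sum_const, smul_eq_mul]
  have hc : (Finset.univ.filter (fun u : Fin d → F => ¬ u = 0)).card = Fintype.card F ^ d - 1 := by
    rw [Finset.filter_ne', Finset.card_erase_of_mem (Finset.mem_univ _), Finset.card_univ,
      Fintype.card_fun, Fintype.card_fin]
  rw [hc]
  have hle : Fintype.card F ^ (d - 1) ≤ Fintype.card F ^ d :=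
    Nat.pow_le_pow_right Fintype.card_pos (Nat.sub_le d 1)
  rw [← Nat.mul_add, Nat.sub_add_cancel hle]

end count

section points

variable {F : Type*} [Field F] [Fintype F]

/-- nonsingular vectors fibre over nonsingular points with fibres of size `q - 1` -/
theorem card_pts (d : ℕ) :
    Nat.card {v : Fin d ⊕ Fin d → F // Cfsg.quadFormPlus d F v ≠ 0} =
      Nat.card {W : Submodule F (Fin d ⊕ Fin d → F) //
        Module.finrank F ↥W = 1 ∧ ∃ v ∈ W, Cfsg.quadFormPlus d F v ≠ 0} * (Fintype.card F - 1) := by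
  classical
  have hne : ∀ v : Fin d ⊕ Fin d → F, Cfsg.quadFormPlus d F v ≠ 0 → v ≠ 0 := by
    intro v hv h
    rw [h] at hv
    exact hv (QuadraticMap.map_zero (qfPlus d F))
  let π : {v : Fin d ⊕ Fin d → F // Cfsg.quadFormPlus d F v ≠ 0} →
      {W : Submodule F (Fin d ⊕ Fin d → F) //
        Module.finrank F ↥W = 1 ∧ ∃ v ∈ W, Cfsg.quadFormPlus d F v ≠ 0} :=
    fun v => ⟨F ∙ v.1, finrank_span_singleton (hne v.1 v.2), v.1,
      Submodule.mem_span_singleton_self _, v.2⟩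
  have hfib : ∀ W : {W : Submodule F (Fin d ⊕ Fin d → F) //
        Module.finrank F ↥W = 1 ∧ ∃ v ∈ W, Cfsg.quadFormPlus d F v ≠ 0},
      Nat.card {v : {v : Fin d ⊕ Fin d → F // Cfsg.quadFormPlus d F v ≠ 0} // π v = W} =
        Fintype.card F - 1 := by
    intro W
    obtain ⟨W, hW1, v₀, hv₀W, hv₀⟩ := W
    have key : ∀ v ∈ W, v ≠ 0 → Cfsg.quadFormPlus d F v ≠ 0 ∧ F ∙ v = W := by
      intro v hvW hv0
      have hv0' : (⟨v, hvW⟩ : ↥W) ≠ 0 := fun h => hv0 (congrArg Subtype.val h)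
      obtain ⟨c, hc⟩ := (finrank_eq_one_iff_of_nonzero' (⟨v, hvW⟩ : ↥W) hv0').mp hW1 ⟨v₀, hv₀W⟩
      have hc' : c • v = v₀ := congrArg Subtype.val hc
      constructor
      · intro h
        rw [← hc', qplus_smul, h, mul_zero] at hv₀
        exact hv₀ rfl
      · apply Submodule.eq_of_le_of_finrank_eq
        · rw [Submodule.span_singleton_le_iff_mem]
          exact hvW
        · rw [finrank_span_singleton hv0, hW1]
    have e : {v : {v : Fin d ⊕ Fin d → F // Cfsg.quadFormPlus d F v ≠ 0} //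
        π v = ⟨W, hW1, v₀, hv₀W, hv₀⟩} ≃ {v : ↥W // v ≠ 0} :=
      { toFun := fun v => ⟨⟨v.1.1, by
            have h := congrArg Subtype.val v.2
            have h' : F ∙ v.1.1 = W := h
            exact (le_of_eq h') (Submodule.mem_span_singleton_self _)⟩, fun h =>
            hne v.1.1 v.1.2 (congrArg Subtype.val h)⟩
        invFun := fun v => ⟨⟨v.1.1, (key v.1.1 v.1.2 (fun h => v.2 (Subtype.ext h))).1⟩,
          Subtype.ext (key v.1.1 v.1.2 (fun h => v.2 (Subtype.ext h))).2⟩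
        left_inv := fun v => rfl
        right_inv := fun v => rfl }
    rw [Nat.card_congr e]
    have h1 := Fintype.card_subtype_compl (fun w : ↥W => w = 0)
    rw [Nat.card_eq_fintype_card, h1, Fintype.card_subtype_eq]
    have h2 : Fintype.card ↥W = Fintype.card F := by
      rw [← Nat.card_eq_fintype_card, Module.natCard_eq_pow_finrank (K := F), hW1, pow_one,
        Nat.card_eq_fintype_card]
    rw [h2]
  rw [← Nat.card_congr (Equiv.sigmaFiberEquiv π), Nat.card_sigma,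
    Finset.sum_congr rfl (fun W _ => hfib W), Finset.sum_const, smul_eq_mul, Finset.card_univ,
    Nat.card_eq_fintype_card]

/-- an odd prime dividing the number of nonsingular points divides `q ^ d - 1` -/
theorem count_dvd [CharP F 2] {d : ℕ} (hd : 1 ≤ d) (r : ℕ) [Fact r.Prime] (hr2 : r ≠ 2)
    (hr : r ∣ Nat.card {W : Submodule F (Fin d ⊕ Fin d → F) //
        Module.finrank F ↥W = 1 ∧ ∃ v ∈ W, Cfsg.quadFormPlus d F v ≠ 0}) :
    r ∣ Fintype.card F ^ d - 1 := by
  have hrp : r.Prime := Fact.out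
  have h1 : r ∣ Nat.card {v : Fin d ⊕ Fin d → F // Cfsg.quadFormPlus d F v ≠ 0} := by
    rw [card_pts]
    exact Dvd.dvd.mul_right hr _
  have h2 := card_ns (F := F) d
  obtain ⟨n, hn⟩ : ∃ n, Fintype.card F = 2 ^ n := by
    obtain ⟨n, -, hn⟩ := FiniteField.card F 2
    exact ⟨n, hn⟩
  have hrq : ¬ r ∣ Fintype.card F := by
    intro h
    rw [hn] at h
    exact hr2 ((Nat.prime_dvd_prime_iff_eq hrp Nat.prime_two).mp (hrp.dvd_of_dvd_pow h))
  have hq1 : 1 ≤ Fintype.card F := Fintype.card_pos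
  have hle : Fintype.card F ^ (d - 1) ≤ Fintype.card F ^ d :=
    Nat.pow_le_pow_right hq1 (Nat.sub_le d 1)
  have h3 : Nat.card {v : Fin d ⊕ Fin d → F // Cfsg.quadFormPlus d F v ≠ 0} =
      (Fintype.card F ^ d - 1) * (Fintype.card F ^ (d - 1) * (Fintype.card F - 1)) := by
    have e : Fintype.card F ^ d = Fintype.card F ^ (d - 1) * Fintype.card F := by
      rw [← pow_succ]
      congr 1
      omega
    have e2 : Fintype.card F ^ (d - 1) * (Fintype.card F - 1) + Fintype.card F ^ (d - 1) =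
        Fintype.card F ^ d := by
      rw [e, Nat.mul_sub, mul_one, Nat.sub_add_cancel]
      exact Nat.le_mul_of_pos_right _ hq1
    have e3 : (Fintype.card F ^ d - 1) * (Fintype.card F ^ (d - 1) * (Fintype.card F - 1)) +
        (Fintype.card F ^ d - 1) * Fintype.card F ^ (d - 1) =
          (Fintype.card F ^ d - 1) * Fintype.card F ^ d := by
      rw [← Nat.mul_add, e2]
    omega
  rw [h3] at h1
  rcases (Nat.Prime.dvd_mul hrp).mp h1 with h | h
  · exact h
  · rcases (Nat.Prime.dvd_mul hrp).mp h with h | h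
    · exact absurd (hrp.dvd_of_dvd_pow h) hrq
    · have h4 := Nat.sub_dvd_pow_sub_pow (Fintype.card F) 1 d
      rw [one_pow] at h4
      exact h.trans h4

end points

section constr

variable {F : Type*} [Field F] [Fintype F] [CharP F 2]

theorem two_zero : (2 : F) = 0 := by
  have h := CharP.cast_eq_zero F 2
  exact_mod_cast h

theorem card_idx (d : ℕ) : Fintype.card (Fin d ⊕ Fin d) = d + d := by
  rw [Fintype.card_sum, Fintype.card_fin]

/-- isometries of odd order lie in the commutator subgroup -/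
theorem odd_mem_omega {d : ℕ} (hd : 4 ≤ d) (x : GL (Fin d ⊕ Fin d) F)
    (hx : ∀ v, Cfsg.quadFormPlus d F ((x : Matrix (Fin d ⊕ Fin d) (Fin d ⊕ Fin d) F) *ᵥ v) =
      Cfsg.quadFormPlus d F v)
    (r : ℕ) (hr : Odd r) (hxr : x ^ r = 1) :
    x ∈ Cfsg.Geo.omegaGL (Cfsg.quadFormPlus d F) := by
  have hmem : x ∈ Cfsg.isometryGroup F (Cfsg.quadFormPlus d F) :=
    (Cfsg.Agent.Lib.Helper16.mem_isometryGroup_iff (qfPlus d F) x).mpr hx
  have : Nonempty (Fin d ⊕ Fin d) := ⟨Sum.inl ⟨0, by omega⟩⟩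
  have hidx : (Cfsg.Omega F (Cfsg.quadFormPlus d F)).index = 2 :=
    Cfsg.Agent.Lib.Helper3.omega_index_char_two (qfPlus d F) two_zero (qfPlus_nondeg d F)
      (Or.inr (by rw [card_idx]; omega))
  obtain ⟨g, hg⟩ : ∃ g : ↥(Cfsg.isometryGroup F (Cfsg.quadFormPlus d F)), g = ⟨x, hmem⟩ :=
    ⟨_, rfl⟩
  have hgr : g ^ r = 1 := by
    apply Subtype.ext
    rw [hg]
    exact hxr
  refine Subgroup.mem_map.mpr ⟨g, ?_, by rw [hg]; rfl⟩
  obtain ⟨k, hk⟩ := hr
  have e : g = (g ^ 2) ^ (k + 1) := by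
    rw [← pow_mul, show 2 * (k + 1) = r + 1 by omega, pow_succ, hgr, one_mul]
  rw [e]
  exact Subgroup.pow_mem _ (Subgroup.sq_mem_of_index_two hidx g) (k + 1)

/-- an involution of the commutator subgroup fixes a nonsingular vector when `d` is odd -/
theorem invol_fix {d : ℕ} (hd : 4 ≤ d) (hodd : Odd d) (x : GL (Fin d ⊕ Fin d) F)
    (hx : x ∈ Cfsg.Geo.omegaGL (Cfsg.quadFormPlus d F))
    (hxx : (x : Matrix (Fin d ⊕ Fin d) (Fin d ⊕ Fin d) F) *
      (x : Matrix (Fin d ⊕ Fin d) (Fin d ⊕ Fin d) F) = 1) :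
    ∃ v, Cfsg.quadFormPlus d F v ≠ 0 ∧
      (x : Matrix (Fin d ⊕ Fin d) (Fin d ⊕ Fin d) F) *ᵥ v = v := by
  have h2 : (2 : F) = 0 := two_zero
  have hev := Cfsg.Agent.S5698.omega_even_rank (qfPlus d F) (qfPlus_nondeg d F)
    (Or.inr (by rw [card_idx]; omega)) hx
  by_contra hcon
  push Not at hcon
  obtain ⟨X, hX⟩ : ∃ X : Matrix (Fin d ⊕ Fin d) (Fin d ⊕ Fin d) F,
      X = (x : Matrix (Fin d ⊕ Fin d) (Fin d ⊕ Fin d) F) := ⟨_, rfl⟩
  rw [← hX] at hev hxx hcon
  obtain ⟨K, hK⟩ : ∃ K : Submodule F (Fin d ⊕ Fin d → F),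
      K = LinearMap.ker (Matrix.toLin' (X - 1)) := ⟨_, rfl⟩
  have hKts : ∀ v ∈ K, qfPlus d F v = 0 := by
    intro v hv
    by_contra h
    refine hcon v h ?_
    rw [hK, LinearMap.mem_ker, Matrix.toLin'_apply, Matrix.sub_mulVec, Matrix.one_mulVec,
      sub_eq_zero] at hv
    exact hv
  have h1 := Cfsg.Agent.S5685.ts_dim_le (qfPlus d F) (qfPlus_nondeg d F) K hKts
  rw [card_idx] at h1
  have h3 : (X - 1).rank + Module.finrank F K = d + d := by
    have h := LinearMap.finrank_range_add_finrank_ker (Matrix.toLin' (X - 1))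
    rw [Module.finrank_fintype_fun_eq_card, card_idx, ← hK] at h
    exact h
  have hsq : (X - 1) * (X - 1) = 0 := by
    have e : (X - 1) * (X - 1) = X * X + 1 - (2 : F) • X := by
      rw [two_smul]
      noncomm_ring
    have e1 : (1 : Matrix (Fin d ⊕ Fin d) (Fin d ⊕ Fin d) F) + 1 = (2 : F) • 1 := (two_smul F _).symm
    rw [e, hxx, h2, zero_smul, sub_zero, e1, h2, zero_smul]
  have h4 : (X - 1).rank ≤ Module.finrank F K := by
    have hle : LinearMap.range (Matrix.toLin' (X - 1)) ≤ K := by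
      rintro _ ⟨y, rfl⟩
      rw [hK, LinearMap.mem_ker, Matrix.toLin'_apply, Matrix.toLin'_apply, Matrix.mulVec_mulVec,
        hsq, Matrix.zero_mulVec]
    exact Submodule.finrank_mono hle
  have h5 : (X - 1).rank = d := by omega
  rw [h5] at hev
  exact (Nat.not_even_iff_odd.mpr hodd) hev

theorem exists_fpf {d : ℕ} (hd : Even d) :
    ∃ σ : Fin d → Fin d, (∀ i, σ (σ i) = i) ∧ ∀ i, σ i ≠ i := by
  obtain ⟨k, rfl⟩ := hd
  refine ⟨fun i => finSumFinEquiv (Sum.swap (finSumFinEquiv.symm i)), fun i => ?_, fun i h => ?_⟩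
  · simp
  · have h' := congrArg finSumFinEquiv.symm h
    rw [Equiv.symm_apply_apply] at h'
    rcases hs : finSumFinEquiv.symm i with a | a
    · rw [hs] at h'
      exact Sum.inr_ne_inl h'
    · rw [hs] at h'
      exact Sum.inl_ne_inr h'

/-- an involution of the commutator subgroup without nonsingular eigenvectors, for `d` even -/
theorem exists_derangement_two {d : ℕ} (hd : 4 ≤ d) (hev : Even d) :
    ∃ x : GL (Fin d ⊕ Fin d) F, x ∈ Cfsg.Geo.omegaGL (Cfsg.quadFormPlus d F) ∧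
      (x : Matrix (Fin d ⊕ Fin d) (Fin d ⊕ Fin d) F) *
        (x : Matrix (Fin d ⊕ Fin d) (Fin d ⊕ Fin d) F) = 1 ∧
      ∀ v, Cfsg.quadFormPlus d F v ≠ 0 → ∀ c : F,
        (x : Matrix (Fin d ⊕ Fin d) (Fin d ⊕ Fin d) F) *ᵥ v ≠ c • v := by
  classical
  have h2 : (2 : F) = 0 := two_zero
  obtain ⟨σ, hσ, hσ'⟩ := exists_fpf hev
  obtain ⟨J, hJ⟩ : ∃ J : Matrix (Fin d) (Fin d) F,
      J = Matrix.of (fun i j => if σ i = j then (1 : F) else 0) := ⟨_, rfl⟩
  have hJv : ∀ w : Fin d → F, J *ᵥ w = w ∘ σ := by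
    intro w
    funext i
    rw [hJ]
    simp [Matrix.mulVec, dotProduct]
  have hJJ : J + J = 0 := by
    rw [← two_smul F J, h2, zero_smul]
  obtain ⟨M, hM⟩ : ∃ M : Matrix (Fin d ⊕ Fin d) (Fin d ⊕ Fin d) F,
      M = Matrix.fromBlocks 1 J 0 1 := ⟨_, rfl⟩
  have hMM : M * M = 1 := by
    rw [hM, Matrix.fromBlocks_multiply]
    simp only [mul_one, one_mul, mul_zero, zero_mul, add_zero, zero_add, hJJ]
    exact Matrix.fromBlocks_one
  have hMv : ∀ v : Fin d ⊕ Fin d → F,
      M *ᵥ v = Sum.elim (v ∘ Sum.inl + (v ∘ Sum.inr) ∘ σ) (v ∘ Sum.inr) := by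
    intro v
    rw [hM, Matrix.fromBlocks_mulVec, Matrix.one_mulVec, Matrix.one_mulVec, Matrix.zero_mulVec,
      zero_add, hJv]
  have hsum : ∀ w : Fin d → F, (w ∘ σ) ⬝ᵥ w = 0 := by
    intro w
    unfold dotProduct
    refine Finset.sum_involution (fun i _ => σ i) ?_ ?_ (fun i _ => Finset.mem_univ _) ?_
    · intro i _
      simp only [Function.comp_apply, hσ]
      have : w (σ i) * w i + w i * w (σ i) = (2 : F) * (w (σ i) * w i) := by ring
      rw [this, h2, zero_mul]
    · intro i _ _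
      exact hσ' i
    · intro i _
      exact hσ i
  have hiso : ∀ v, Cfsg.quadFormPlus d F (M *ᵥ v) = Cfsg.quadFormPlus d F v := by
    intro v
    rw [hMv, qplus_elim, add_dotProduct, hsum, add_zero]
    rfl
  let x : GL (Fin d ⊕ Fin d) F := ⟨M, M, hMM, hMM⟩
  have hxM : (x : Matrix (Fin d ⊕ Fin d) (Fin d ⊕ Fin d) F) = M := rfl
  have hmem : x ∈ Cfsg.isometryGroup F (Cfsg.quadFormPlus d F) :=
    (Cfsg.Agent.Lib.Helper16.mem_isometryGroup_iff (qfPlus d F) x).mpr hiso
  refine ⟨x, ?_, hMM, ?_⟩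
  · refine Subgroup.mem_map.mpr ⟨⟨x, hmem⟩, ?_, rfl⟩
    have hfam := Cfsg.Agent.S2172.family (m := d) (F := F) (by omega) (Or.inr (by omega))
      (plusU0 d F) plusU0_finrank plusU0_ts ⟨x, hmem⟩
    refine hfam.mp ?_
    have hle : plusU0 d F ≤ (plusU0 d F).map (actLin (qfPlus d F) ⟨x, hmem⟩) := by
      intro u hu
      refine Submodule.mem_map.mpr ⟨u, hu, ?_⟩
      show M *ᵥ u = u
      rw [hMv]
      rw [mem_plusU0] at hu
      have h0 : u ∘ Sum.inr = 0 := funext hu
      rw [h0]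
      funext i
      rcases i with i | i
      · simp
      · simp [hu i]
    rw [inf_eq_left.mpr hle, plusU0_finrank, Nat.sub_self]
    exact ⟨0, rfl⟩
  · intro v hv c hc
    rw [hxM] at hc
    have hq : Cfsg.quadFormPlus d F v = c * c * Cfsg.quadFormPlus d F v := by
      rw [← qplus_smul, ← hc, hiso]
    have hc1 : c = 1 := by
      apply one_of_sq h2
      have := mul_right_cancel₀ hv (show c * c * Cfsg.quadFormPlus d F v =
        1 * Cfsg.quadFormPlus d F v by rw [one_mul]; exact hq.symm)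
      exact this
    rw [hc1, one_smul, hMv] at hc
    have hw : v ∘ Sum.inr = 0 := by
      funext i
      have h := congrFun hc (Sum.inl (σ i))
      simp only [Sum.elim_inl, Pi.add_apply, Function.comp_apply, hσ] at h
      have : v (Sum.inr i) = 0 := by
        have h' := add_eq_left.mp h
        exact h'
      exact this
    apply hv
    rw [qplus_eq, hw, dotProduct_zero]

end constr

section oddr

variable {F : Type*} [Field F] [Fintype F] [CharP F 2]

theorem block_pow {d : ℕ} (A D : Matrix (Fin d) (Fin d) F) (n : ℕ) :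
    (Matrix.fromBlocks A 0 0 D) ^ n = Matrix.fromBlocks (A ^ n) 0 0 (D ^ n) := by
  induction n with
  | zero => rw [pow_zero, pow_zero, pow_zero, Matrix.fromBlocks_one]
  | succ n ih =>
    rw [pow_succ, ih, Matrix.fromBlocks_multiply, pow_succ, pow_succ]
    simp only [mul_zero, zero_mul, add_zero, zero_add]

/-- an element of odd prime order of the commutator subgroup without nonsingular eigenvectors -/
theorem exists_derangement_odd {d : ℕ} (hd : 4 ≤ d) (r : ℕ) [Fact r.Prime] (hr2 : r ≠ 2)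
    (hdiv : r ∣ Fintype.card F ^ d - 1) :
    ∃ x : GL (Fin d ⊕ Fin d) F, x ∈ Cfsg.Geo.omegaGL (Cfsg.quadFormPlus d F) ∧
      x ^ r = 1 ∧
      ∀ v, Cfsg.quadFormPlus d F v ≠ 0 → ∀ c : F,
        (x : Matrix (Fin d ⊕ Fin d) (Fin d ⊕ Fin d) F) *ᵥ v ≠ c • v := by
  classical
  have h2 : (2 : F) = 0 := two_zero
  have hrp : r.Prime := Fact.out
  have : NeZero d := ⟨by omega⟩
  have : Fact (Nat.Prime 2) := ⟨Nat.prime_two⟩
  have hfr : Module.finrank F (FiniteField.Extension F 2 d) = d :=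
    FiniteField.finrank_extension F 2 d
  have hcardK : Nat.card (FiniteField.Extension F 2 d) = Fintype.card F ^ d := by
    rw [FiniteField.natCard_extension, Nat.card_eq_fintype_card]
  have hu : Nat.card (FiniteField.Extension F 2 d)ˣ = Fintype.card F ^ d - 1 := by
    rw [Nat.card_units, hcardK]
  have : Finite (FiniteField.Extension F 2 d)ˣ := Nat.finite_of_card_ne_zero (by
    rw [hu]
    intro h0
    rw [h0] at hdiv
    have h1 : 2 ≤ Fintype.card F ^ d := by
      calc 2 ≤ Fintype.card F := Fintype.one_lt_card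
        _ = Fintype.card F ^ 1 := (pow_one _).symm
        _ ≤ Fintype.card F ^ d := Nat.pow_le_pow_right Fintype.card_pos (by omega)
    omega)
  obtain ⟨ζ, hζ⟩ := exists_prime_orderOf_dvd_card' (G := (FiniteField.Extension F 2 d)ˣ) r
    (hu ▸ hdiv)
  obtain ⟨b, -⟩ : ∃ b : Module.Basis (Fin d) F (FiniteField.Extension F 2 d), b = b :=
    ⟨Module.finBasisOfFinrankEq F (FiniteField.Extension F 2 d) hfr, rfl⟩
  obtain ⟨A, hA⟩ : ∃ A : Matrix (Fin d) (Fin d) F,
      A = Algebra.leftMulMatrix b (ζ : FiniteField.Extension F 2 d) := ⟨_, rfl⟩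
  obtain ⟨B, hB⟩ : ∃ B : Matrix (Fin d) (Fin d) F,
      B = Algebra.leftMulMatrix b ((ζ⁻¹ : (FiniteField.Extension F 2 d)ˣ) :
        FiniteField.Extension F 2 d) := ⟨_, rfl⟩
  have hAB : A * B = 1 := by
    rw [hA, hB, ← map_mul, ← Units.val_mul, mul_inv_cancel, Units.val_one, map_one]
  have hBA : B * A = 1 := by
    rw [hA, hB, ← map_mul, ← Units.val_mul, inv_mul_cancel, Units.val_one, map_one]
  have hAr : A ^ r = 1 := by
    rw [hA, ← map_pow, ← Units.val_pow_eq_pow_val, ← hζ, pow_orderOf_eq_one, Units.val_one,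
      map_one]
  have hBr : B ^ r = 1 := by
    rw [hB, ← map_pow, ← Units.val_pow_eq_pow_val, inv_pow, ← hζ, pow_orderOf_eq_one, inv_one,
      Units.val_one, map_one]
  obtain ⟨M, hM⟩ : ∃ M : Matrix (Fin d ⊕ Fin d) (Fin d ⊕ Fin d) F,
      M = Matrix.fromBlocks A 0 0 Bᵀ := ⟨_, rfl⟩
  obtain ⟨M', hM'⟩ : ∃ M' : Matrix (Fin d ⊕ Fin d) (Fin d ⊕ Fin d) F,
      M' = Matrix.fromBlocks B 0 0 Aᵀ := ⟨_, rfl⟩
  have hMM' : M * M' = 1 := by
    rw [hM, hM', Matrix.fromBlocks_multiply]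
    simp only [mul_zero, zero_mul, add_zero, zero_add]
    rw [hAB, ← Matrix.transpose_mul, hAB, Matrix.transpose_one]
    exact Matrix.fromBlocks_one
  have hM'M : M' * M = 1 := by
    rw [hM, hM', Matrix.fromBlocks_multiply]
    simp only [mul_zero, zero_mul, add_zero, zero_add]
    rw [hBA, ← Matrix.transpose_mul, hBA, Matrix.transpose_one]
    exact Matrix.fromBlocks_one
  have hMr : M ^ r = 1 := by
    rw [hM, block_pow, hAr, ← Matrix.transpose_pow, hBr, Matrix.transpose_one]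
    exact Matrix.fromBlocks_one
  have hMv : ∀ v : Fin d ⊕ Fin d → F,
      M *ᵥ v = Sum.elim (A *ᵥ (v ∘ Sum.inl)) (Bᵀ *ᵥ (v ∘ Sum.inr)) := by
    intro v
    rw [hM, Matrix.fromBlocks_mulVec, Matrix.zero_mulVec, Matrix.zero_mulVec, zero_add, add_zero]
  have hiso : ∀ v, Cfsg.quadFormPlus d F (M *ᵥ v) = Cfsg.quadFormPlus d F v := by
    intro v
    rw [hMv, qplus_elim, Matrix.mulVec_transpose, dotProduct_comm, ← Matrix.dotProduct_mulVec,
      Matrix.mulVec_mulVec, hBA, Matrix.one_mulVec, dotProduct_comm]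
    rfl
  let x : GL (Fin d ⊕ Fin d) F := ⟨M, M', hMM', hM'M⟩
  have hxM : (x : Matrix (Fin d ⊕ Fin d) (Fin d ⊕ Fin d) F) = M := rfl
  have hxr : x ^ r = 1 := by
    apply Units.ext
    rw [Units.val_pow_eq_pow_val, hxM, hMr]
    rfl
  refine ⟨x, ?_, hxr, ?_⟩
  · exact odd_mem_omega hd x hiso r (hrp.odd_of_ne_two hr2) hxr
  · intro v hv c hc
    rw [hxM] at hc
    have hq : Cfsg.quadFormPlus d F v = c * c * Cfsg.quadFormPlus d F v := by
      rw [← qplus_smul, ← hc, hiso]
    have hc1 : c = 1 := by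
      apply one_of_sq h2
      exact mul_right_cancel₀ hv (show c * c * Cfsg.quadFormPlus d F v =
        1 * Cfsg.quadFormPlus d F v by rw [one_mul]; exact hq.symm)
    rw [hc1, one_smul, hMv] at hc
    have hu0 : v ∘ Sum.inl ≠ 0 := by
      intro h
      apply hv
      rw [qplus_eq, h, zero_dotProduct]
    have hAu : A *ᵥ (v ∘ Sum.inl) = v ∘ Sum.inl := by
      funext i
      have h := congrFun hc (Sum.inl i)
      exact h
    obtain ⟨y, hy⟩ : ∃ y : FiniteField.Extension F 2 d, ⇑(b.repr y) = v ∘ Sum.inl :=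
      ⟨b.equivFun.symm (v ∘ Sum.inl), b.equivFun.apply_symm_apply _⟩
    have hy0 : y ≠ 0 := by
      intro h
      apply hu0
      rw [← hy, h, map_zero]
      rfl
    rw [← hy, hA, Algebra.leftMulMatrix_mulVec_repr] at hAu
    have h3 : (ζ : FiniteField.Extension F 2 d) * y = y := by
      apply b.repr.injective
      exact DFunLike.coe_injective hAu
    have h4 : (ζ : FiniteField.Extension F 2 d) = 1 := by
      have h5 : ((ζ : FiniteField.Extension F 2 d) - 1) * y = 0 := by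
        rw [sub_mul, one_mul, h3, sub_self]
      rcases mul_eq_zero.mp h5 with h | h
      · exact sub_eq_zero.mp h
      · exact absurd h hy0
    have h6 : ζ = 1 := Units.ext h4
    rw [h6, orderOf_one] at hζ
    exact hrp.one_lt.ne hζ

end oddr

/-- Elements of prime order of Ω⁺_n(q), q even, with no fixed nonsingular 1-space. Here `T = PΩ⁺_n(F)`, `n = 2d ≥ 8`, realised through `Ω⁺_n(q)`, the commutator subgroup of the isometry group of `Q = Σ xᵢyᵢ` over the field `F` with `q` elements; an element of `T` of prime order `r` is an element `x` of `Ω⁺_n(q)` with `x^r` scalar and `x` not scalar; `q` is even (so the centre is trivial). Let Ω be the set of 1-dimensional subspaces spanned by a vector `v` with `Q(v) ≠ 0`, and let `r` be a prime dividing their number. Then every element of `T` of order `r` fixes some nonsingular 1-space if and only if `r = 2` and `n ≡ 2 (mod 4)` (that is, `d` is odd). -/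
theorem result {F : Type*} [Field F] [Fintype F] {p : ℕ} [Fact p.Prime] [CharP F p] {q : ℕ} (hq : Fintype.card F = q)
    (hp : p = 2) (d : ℕ) (hd : 4 ≤ d) (r : ℕ) [Fact r.Prime]
    (hrΩ : r ∣ Nat.card {W : Submodule F (Fin d ⊕ Fin d → F) // Module.finrank F ↥W = 1 ∧ ∃ v ∈ W, Cfsg.quadFormPlus d F v ≠ 0}) :
    (∀ x : GL (Fin d ⊕ Fin d) F, x ∈ Cfsg.Geo.omegaGL (Cfsg.quadFormPlus d F) →
      (∃ z : F, ((x ^ r : GL (Fin d ⊕ Fin d) F) : Matrix (Fin d ⊕ Fin d) (Fin d ⊕ Fin d) F) = z • (1 : Matrix (Fin d ⊕ Fin d) (Fin d ⊕ Fin d) F)) →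
      (∀ z : F, (x : Matrix (Fin d ⊕ Fin d) (Fin d ⊕ Fin d) F) ≠ z • (1 : Matrix (Fin d ⊕ Fin d) (Fin d ⊕ Fin d) F)) →
      ∃ W : Submodule F (Fin d ⊕ Fin d → F), (Module.finrank F ↥W = 1 ∧ ∃ v ∈ W, Cfsg.quadFormPlus d F v ≠ 0) ∧ W.map (Matrix.toLin' (x : Matrix (Fin d ⊕ Fin d) (Fin d ⊕ Fin d) F)) ≤ W) ↔ (r = 2 ∧ Odd d) := by
  subst hp
  have h2 : (2 : F) = 0 := two_zero
  have hd1 : 1 ≤ d := by omega
  constructor
  · intro H
    by_cases hr2 : r = 2
    · refine ⟨hr2, ?_⟩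
      by_contra hodd
      have hev : Even d := Nat.not_odd_iff_even.mp hodd
      obtain ⟨x, hxΩ, hxx, hder⟩ := exists_derangement_two (F := F) hd hev
      obtain ⟨hns, hnf⟩ := no_fixed hd1 _ hder
      refine hnf (H x hxΩ ⟨1, ?_⟩ hns)
      rw [hr2, Units.val_pow_eq_pow_val, pow_two, hxx, one_smul]
    · exfalso
      have hdiv := count_dvd hd1 r hr2 hrΩ
      obtain ⟨x, hxΩ, hxr, hder⟩ := exists_derangement_odd (F := F) hd r hr2 hdiv
      obtain ⟨hns, hnf⟩ := no_fixed hd1 _ hder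
      refine hnf (H x hxΩ ⟨1, ?_⟩ hns)
      rw [hxr, one_smul]
      rfl
  · rintro ⟨rfl, hodd⟩ x hxΩ ⟨z, hz⟩ hns
    have hiso : ∀ v, Cfsg.quadFormPlus d F
        ((x : Matrix (Fin d ⊕ Fin d) (Fin d ⊕ Fin d) F) *ᵥ v) = Cfsg.quadFormPlus d F v := by
      obtain ⟨g, -, rfl⟩ := Subgroup.mem_map.mp hxΩ
      exact fun v => isomG_map (qfPlus d F) g v
    rw [Units.val_pow_eq_pow_val, pow_two] at hz
    have hv0 : Cfsg.quadFormPlus d F
        (Sum.elim (Pi.single (⟨0, hd1⟩ : Fin d) 1) (Pi.single (⟨0, hd1⟩ : Fin d) 1)) ≠ 0 := by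
      rw [qplus_elim, single_dotProduct, one_mul, Pi.single_eq_same]
      exact one_ne_zero
    have hz1 : z = 1 := by
      apply one_of_sq h2
      have h : Cfsg.quadFormPlus d F ((x : Matrix (Fin d ⊕ Fin d) (Fin d ⊕ Fin d) F) *ᵥ
          ((x : Matrix (Fin d ⊕ Fin d) (Fin d ⊕ Fin d) F) *ᵥ
          (Sum.elim (Pi.single (⟨0, hd1⟩ : Fin d) 1) (Pi.single (⟨0, hd1⟩ : Fin d) 1)))) =
          Cfsg.quadFormPlus d F
            (Sum.elim (Pi.single (⟨0, hd1⟩ : Fin d) 1) (Pi.single (⟨0, hd1⟩ : Fin d) 1)) := by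
        rw [hiso, hiso]
      rw [Matrix.mulVec_mulVec, hz, Matrix.smul_mulVec, Matrix.one_mulVec, qplus_smul] at h
      exact mul_right_cancel₀ hv0 (by rw [one_mul]; exact h)
    rw [hz1, one_smul] at hz
    obtain ⟨v, hv, hxv⟩ := invol_fix hd hodd x hxΩ hz
    have hvne : v ≠ 0 := by
      intro h
      rw [h] at hv
      exact hv (QuadraticMap.map_zero (qfPlus d F))
    refine ⟨F ∙ v, ⟨finrank_span_singleton hvne, v, Submodule.mem_span_singleton_self v, hv⟩, ?_⟩
    rw [Submodule.map_span_le]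
    intro w hw
    rw [Set.mem_singleton_iff.mp hw, Matrix.toLin'_apply, hxv]
    exact Submodule.mem_span_singleton_self v

end Cfsg.Agent.S5985
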