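import Mathlib
import Cfsg.Statements.S5986
import Cfsg.Agent.S5985
import Cfsg.Agent.S2173
import Cfsg.Agent.S0290
import Cfsg.Agent.S2616

set_option autoImplicit false
open scoped MatrixGroups
open Cfsg

namespace Cfsg.Agent.S5986

open Matrix
open Cfsg.Agent.Lib.Helper16 (qfPlus qfPlus_coe qfPlus_polar_inl qfPlus_polar_inr qfPlus_q_inl
  qfPlus_q_inr qfPlus_nondeg qfMinus qfMinus_coe qfMinus_polar_inl qfMinus_polar_inr
  qfMinus_polar_zero qfMinus_polar_one qfMinus_q_inl qfMinus_q_inr isomG_map)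

section basic

variable {F : Type*} [Field F]

theorem qminus_smul (k : ℕ) (a b c : F) (v : (Fin k ⊕ Fin k) ⊕ Fin 2 → F) :
    Cfsg.quadFormMinus k F a b (c • v) = c * c * Cfsg.quadFormMinus k F a b v := by
  have h := QuadraticMap.map_smul (qfMinus k F a b) c v
  rw [smul_eq_mul] at h
  exact h

theorem qminus_zero (k : ℕ) (a b : F) :
    Cfsg.quadFormMinus k F a b 0 = 0 := QuadraticMap.map_zero (qfMinus k F a b)

theorem qminus_e0 (k : ℕ) (a b : F) :
    Cfsg.quadFormMinus k F a b (Pi.single (Sum.inr 0) 1) = 1 := by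
  unfold Cfsg.quadFormMinus
  simp [Pi.single_apply]

/-- a matrix moving every nonsingular vector off its line is not scalar and fixes no nonsingular
point -/
theorem no_fixed (k : ℕ) (a b : F) (X : Matrix ((Fin k ⊕ Fin k) ⊕ Fin 2) ((Fin k ⊕ Fin k) ⊕ Fin 2) F)
    (hder : ∀ v, Cfsg.quadFormMinus k F a b v ≠ 0 → ∀ c : F, X *ᵥ v ≠ c • v) :
    (∀ z : F, X ≠ z • (1 : Matrix ((Fin k ⊕ Fin k) ⊕ Fin 2) ((Fin k ⊕ Fin k) ⊕ Fin 2) F)) ∧
    ¬ ∃ W : Submodule F ((Fin k ⊕ Fin k) ⊕ Fin 2 → F),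
      (Module.finrank F ↥W = 1 ∧ ∃ v ∈ W, Cfsg.quadFormMinus k F a b v ≠ 0) ∧
        W.map (Matrix.toLin' X) ≤ W := by
  constructor
  · intro z hz
    have hv0 : Cfsg.quadFormMinus k F a b (Pi.single (Sum.inr 0) 1) ≠ 0 := by
      rw [qminus_e0]
      exact one_ne_zero
    refine hder _ hv0 z ?_
    rw [hz, Matrix.smul_mulVec, Matrix.one_mulVec]
  · rintro ⟨W, ⟨hW1, v, hvW, hv⟩, hWx⟩
    have hv0 : (⟨v, hvW⟩ : ↥W) ≠ 0 := by
      intro h
      have h' : v = 0 := congrArg Subtype.val h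
      rw [h'] at hv
      exact hv (qminus_zero k a b)
    have hmem : X *ᵥ v ∈ W := hWx (Submodule.mem_map_of_mem hvW)
    obtain ⟨c, hc⟩ := (finrank_eq_one_iff_of_nonzero' (⟨v, hvW⟩ : ↥W) hv0).mp hW1 ⟨X *ᵥ v, hmem⟩
    exact hder v hv c (congrArg Subtype.val hc).symm

end basic

section points

variable {F : Type*} [Field F] [Fintype F]

/-- nonsingular vectors fibre over nonsingular points with fibres of size `q - 1` -/
theorem card_pts (k : ℕ) (a b : F) :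
    Nat.card {v : (Fin k ⊕ Fin k) ⊕ Fin 2 → F // Cfsg.quadFormMinus k F a b v ≠ 0} =
      Nat.card {W : Submodule F ((Fin k ⊕ Fin k) ⊕ Fin 2 → F) //
        Module.finrank F ↥W = 1 ∧ ∃ v ∈ W, Cfsg.quadFormMinus k F a b v ≠ 0} * (Fintype.card F - 1) := by
  classical
  have hne : ∀ v : (Fin k ⊕ Fin k) ⊕ Fin 2 → F, Cfsg.quadFormMinus k F a b v ≠ 0 → v ≠ 0 := by
    intro v hv h
    rw [h] at hv
    exact hv (qminus_zero k a b)
  let π : {v : (Fin k ⊕ Fin k) ⊕ Fin 2 → F // Cfsg.quadFormMinus k F a b v ≠ 0} →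
      {W : Submodule F ((Fin k ⊕ Fin k) ⊕ Fin 2 → F) //
        Module.finrank F ↥W = 1 ∧ ∃ v ∈ W, Cfsg.quadFormMinus k F a b v ≠ 0} :=
    fun v => ⟨F ∙ v.1, finrank_span_singleton (hne v.1 v.2), v.1,
      Submodule.mem_span_singleton_self _, v.2⟩
  have hfib : ∀ W : {W : Submodule F ((Fin k ⊕ Fin k) ⊕ Fin 2 → F) //
        Module.finrank F ↥W = 1 ∧ ∃ v ∈ W, Cfsg.quadFormMinus k F a b v ≠ 0},
      Nat.card {v : {v : (Fin k ⊕ Fin k) ⊕ Fin 2 → F // Cfsg.quadFormMinus k F a b v ≠ 0} // π v = W} =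
        Fintype.card F - 1 := by
    intro W
    obtain ⟨W, hW1, v₀, hv₀W, hv₀⟩ := W
    have key : ∀ v ∈ W, v ≠ 0 → Cfsg.quadFormMinus k F a b v ≠ 0 ∧ F ∙ v = W := by
      intro v hvW hv0
      have hv0' : (⟨v, hvW⟩ : ↥W) ≠ 0 := fun h => hv0 (congrArg Subtype.val h)
      obtain ⟨c, hc⟩ := (finrank_eq_one_iff_of_nonzero' (⟨v, hvW⟩ : ↥W) hv0').mp hW1 ⟨v₀, hv₀W⟩
      have hc' : c • v = v₀ := congrArg Subtype.val hc
      constructor
      · intro h
        rw [← hc', qminus_smul, h, mul_zero] at hv₀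
        exact hv₀ rfl
      · apply Submodule.eq_of_le_of_finrank_eq
        · rw [Submodule.span_singleton_le_iff_mem]
          exact hvW
        · rw [finrank_span_singleton hv0, hW1]
    have e : {v : {v : (Fin k ⊕ Fin k) ⊕ Fin 2 → F // Cfsg.quadFormMinus k F a b v ≠ 0} //
        π v = ⟨W, hW1, v₀, hv₀W, hv₀⟩} ≃ {v : ↥W // v ≠ 0} :=
      { toFun := fun v => ⟨⟨v.1.1, by
            have h := congrArg Subtype.val v.2
            have h' : F ∙ v.1.1 = W := h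
            exact (le_of_eq h') (Submodule.mem_span_singleton_self _)⟩, fun h =>
            hne v.1.1 v.1.2 (congrArg Subtype.val h)⟩
        invFun := fun v => ⟨⟨v.1.1, (key v.1.1 v.1.2 (fun h => v.2 (Subtype.ext h))).1⟩,
          Subtype.ext (key v.1.1 v.1.2 (fun h => v.2 (Subtype.ext h))).2⟩
        left_inv := fun v => rfl
        right_inv := fun v => rfl }
    rw [Nat.card_congr e]
    have h1 := Fintype.card_subtype_compl (fun w : ↥W => w = 0)
    rw [Nat.card_eq_fintype_card, h1, Fintype.card_subtype_eq]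
    have h2 : Fintype.card ↥W = Fintype.card F := by
      rw [← Nat.card_eq_fintype_card, Module.natCard_eq_pow_finrank (K := F), hW1, pow_one,
        Nat.card_eq_fintype_card]
    rw [h2]
  rw [← Nat.card_congr (Equiv.sigmaFiberEquiv π), Nat.card_sigma,
    Finset.sum_congr rfl (fun W _ => hfib W), Finset.sum_const, smul_eq_mul, Finset.card_univ,
    Nat.card_eq_fintype_card]

/-- an odd prime dividing the number of nonsingular points divides `q ^ d + 1` -/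
theorem count_dvd [CharP F 2] {d : ℕ} (hd : 1 ≤ d) (a b : F)
    (hab : ∀ x y : F, x ^ 2 + a * x * y + b * y ^ 2 = 0 → x = 0 ∧ y = 0)
    (r : ℕ) [Fact r.Prime] (hr2 : r ≠ 2)
    (hr : r ∣ Nat.card {W : Submodule F ((Fin (d - 1) ⊕ Fin (d - 1)) ⊕ Fin 2 → F) //
        Module.finrank F ↥W = 1 ∧ ∃ v ∈ W, Cfsg.quadFormMinus (d - 1) F a b v ≠ 0}) :
    r ∣ Fintype.card F ^ d + 1 := by
  classical
  have hrp : r.Prime := Fact.out
  have h1 : r ∣ Nat.card {v : (Fin (d - 1) ⊕ Fin (d - 1)) ⊕ Fin 2 → F //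
      Cfsg.quadFormMinus (d - 1) F a b v ≠ 0} := by
    rw [card_pts]
    exact Dvd.dvd.mul_right hr _
  have h2 := Cfsg.Agent.S0290.result (F := F) rfl d hd a b hab
  obtain ⟨n, hn⟩ : ∃ n, Fintype.card F = 2 ^ n := by
    obtain ⟨n, -, hn⟩ := FiniteField.card F 2
    exact ⟨n, hn⟩
  have hrq : ¬ r ∣ Fintype.card F := by
    intro h
    rw [hn] at h
    exact hr2 ((Nat.prime_dvd_prime_iff_eq hrp Nat.prime_two).mp (hrp.dvd_of_dvd_pow h))
  obtain ⟨Q, hQ⟩ : ∃ Q : ℕ, Q = Fintype.card F := ⟨_, rfl⟩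
  have hq1 : 1 ≤ Q := by rw [hQ]; exact Fintype.card_pos
  have htot : Nat.card {v : (Fin (d - 1) ⊕ Fin (d - 1)) ⊕ Fin 2 → F //
      Cfsg.quadFormMinus (d - 1) F a b v ≠ 0} +
      Nat.card {v : (Fin (d - 1) ⊕ Fin (d - 1)) ⊕ Fin 2 → F //
      Cfsg.quadFormMinus (d - 1) F a b v = 0} = Q ^ (2 * d) := by
    have h3 := Fintype.card_subtype_compl (fun v : (Fin (d - 1) ⊕ Fin (d - 1)) ⊕ Fin 2 → F =>
      Cfsg.quadFormMinus (d - 1) F a b v = 0)
    have h4 : Fintype.card ((Fin (d - 1) ⊕ Fin (d - 1)) ⊕ Fin 2 → F) = Q ^ (2 * d) := by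
      rw [Fintype.card_fun, Fintype.card_sum, Fintype.card_sum, Fintype.card_fin, Fintype.card_fin,
        hQ]
      congr 1
      omega
    have h5 := Fintype.card_subtype_le (fun v : (Fin (d - 1) ⊕ Fin (d - 1)) ⊕ Fin 2 → F =>
      Cfsg.quadFormMinus (d - 1) F a b v = 0)
    rw [Nat.card_eq_fintype_card, Nat.card_eq_fintype_card, h3, ← h4]
    omega
  rw [h2, ← hQ] at htot
  have e1 : Q ^ (2 * d - 1) = Q ^ (d - 1) * Q ^ d := by
    rw [← pow_add]
    congr 1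
    omega
  have e2 : Q ^ (2 * d) = Q ^ d * Q ^ d := by
    rw [← pow_add]
    congr 1
    omega
  have e3 : Q ^ d = Q ^ (d - 1) * Q := by
    rw [← pow_succ]
    congr 1
    omega
  obtain ⟨A, hA⟩ : ∃ A : ℕ, A = Q ^ (d - 1) := ⟨_, rfl⟩
  have hA1 : 1 ≤ A := by rw [hA]; exact Nat.one_le_pow _ _ hq1
  rw [e1, e2, e3, ← hA] at htot
  have h6 : Nat.card {v : (Fin (d - 1) ⊕ Fin (d - 1)) ⊕ Fin 2 → F //
      Cfsg.quadFormMinus (d - 1) F a b v ≠ 0} = A * ((Q - 1) * (A * Q + 1)) := by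
    obtain ⟨Q', rfl⟩ : ∃ Q', Q = Q' + 1 := ⟨Q - 1, by omega⟩
    rw [Nat.add_sub_cancel]
    have h7 : A * (A * (Q' + 1)) + A ≥ A * (Q' + 1) :=
      Nat.le_add_right_of_le (Nat.le_mul_of_pos_left _ hA1)
    have h8 : Nat.card {v : (Fin (d - 1) ⊕ Fin (d - 1)) ⊕ Fin 2 → F //
      Cfsg.quadFormMinus (d - 1) F a b v ≠ 0} + (A * (A * (Q' + 1)) + A) =
        A * (Q' + 1) * (A * (Q' + 1)) + A * (Q' + 1) := by omega
    have h9 : A * (Q' * (A * (Q' + 1) + 1)) + (A * (A * (Q' + 1)) + A) =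
        A * (Q' + 1) * (A * (Q' + 1)) + A * (Q' + 1) := by ring
    omega
  have hQ2 : 2 ≤ Q := by rw [hQ]; exact Fintype.one_lt_card
  have h10 : Nat.card {W : Submodule F ((Fin (d - 1) ⊕ Fin (d - 1)) ⊕ Fin 2 → F) //
        Module.finrank F ↥W = 1 ∧ ∃ v ∈ W, Cfsg.quadFormMinus (d - 1) F a b v ≠ 0} =
      A * (A * Q + 1) := by
    have h11 := card_pts (F := F) (d - 1) a b
    rw [h6, ← hQ] at h11
    have h12 : A * (A * Q + 1) * (Q - 1) = A * ((Q - 1) * (A * Q + 1)) := by ring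
    rw [← h12] at h11
    exact (Nat.eq_of_mul_eq_mul_right (by omega) h11).symm
  rw [h10] at hr
  rw [← hQ, e3, ← hA]
  rcases (Nat.Prime.dvd_mul hrp).mp hr with h | h
  · exfalso
    rw [hA] at h
    exact hrq (hQ ▸ hrp.dvd_of_dvd_pow h)
  · exact h

end points

section as

variable {F : Type*} [Field F] [Fintype F] [CharP F 2]

theorem two_zero : (2 : F) = 0 := by
  have h := CharP.cast_eq_zero F 2
  exact_mod_cast h

/-- sums of two non-values of `s ↦ s² + s` are values -/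
theorem as_sum (c₁ c₂ : F) (h₁ : ∀ s : F, s ^ 2 + s + c₁ ≠ 0) (h₂ : ∀ s : F, s ^ 2 + s + c₂ ≠ 0) :
    ∃ s : F, s ^ 2 + s = c₁ + c₂ := by
  classical
  have h2 : (2 : F) = 0 := two_zero
  obtain ⟨φ, hφ⟩ : ∃ φ : F →+ F, ∀ s, φ s = s ^ 2 + s :=
    ⟨AddMonoidHom.mk' (fun s => s ^ 2 + s) (fun s t => by linear_combination (s * t) * h2),
      fun s => rfl⟩
  have hker : Nat.card ↥φ.ker = 2 := by
    rw [Nat.card_eq_two_iff' (0 : ↥φ.ker)]
    refine ⟨⟨1, ?_⟩, ?_, ?_⟩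
    · rw [AddMonoidHom.mem_ker, hφ]
      linear_combination h2
    · intro h
      exact one_ne_zero (congrArg Subtype.val h)
    · rintro ⟨y, hy⟩ hy0
      apply Subtype.ext
      rw [AddMonoidHom.mem_ker, hφ] at hy
      have h3 : y * (y + 1) = 0 := by linear_combination hy
      rcases mul_eq_zero.mp h3 with h | h
      · exact absurd (Subtype.ext h) hy0
      · show y = 1
        linear_combination h - h2
  have hidx : φ.range.index = 2 := by
    have h3 := AddSubgroup.card_mul_index φ.ker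
    have h4 := AddSubgroup.card_mul_index φ.range
    rw [AddSubgroup.index_ker, hker] at h3
    have h5 : 0 < Nat.card ↥φ.range := Nat.card_pos
    rw [← h3, mul_comm 2] at h4
    exact Nat.eq_of_mul_eq_mul_left h5 h4
  have hc₁ : c₁ ∉ φ.range := by
    rintro ⟨s, hs⟩
    apply h₁ s
    rw [hφ] at hs
    rw [hs]
    linear_combination c₁ * h2
  have hc₂ : c₂ ∉ φ.range := by
    rintro ⟨s, hs⟩
    apply h₂ s
    rw [hφ] at hs
    rw [hs]
    linear_combination c₂ * h2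
  have h6 := (AddSubgroup.add_mem_iff_of_index_two hidx (a := c₁) (b := c₂)).mpr
    ⟨fun h => absurd h hc₁, fun h => absurd h hc₂⟩
  obtain ⟨s, hs⟩ := h6
  exact ⟨s, by rw [← hφ]; exact hs⟩

/-- adjusting the second vector of an anisotropic pair -/
theorem as_adjust (a b ζ₀ : F)
    (hab : ∀ x y : F, x ^ 2 + a * x * y + b * y ^ 2 = 0 → x = 0 ∧ y = 0)
    (hζ : ∀ t : F, t ^ 2 + t + ζ₀ ≠ 0) :
    a ≠ 0 ∧ ∃ t : F, t ^ 2 + a * t + b = a ^ 2 * ζ₀ := by
  have h2 : (2 : F) = 0 := two_zero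
  have ha : a ≠ 0 := Cfsg.Agent.S2173.minus_c_ne a b hab
  refine ⟨ha, ?_⟩
  have h₁ : ∀ s : F, s ^ 2 + s + b / a ^ 2 ≠ 0 := by
    intro s hs
    have h3 := hab (a * s) 1 (by
      field_simp at hs
      linear_combination hs)
    exact one_ne_zero h3.2
  obtain ⟨s, hs⟩ := as_sum (b / a ^ 2) ζ₀ h₁ hζ
  refine ⟨a * s, ?_⟩
  field_simp at hs
  linear_combination hs + b * h2

end as

section transfer

variable {F : Type*} [Field F]

/-- a linear map to a coordinate space matching a quadratic form on a basis matches it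
everywhere -/
theorem transfer {V : Type*} [AddCommGroup V] [Module F V] {κ : Type*} [Fintype κ]
    [DecidableEq κ] (Q : QuadraticForm F V) (Q₀ : QuadraticForm F (κ → F))
    (bs : Module.Basis κ F V) (Φ : V →ₗ[F] (κ → F))
    (h1 : ∀ k, Q₀ (Φ (bs k)) = Q (bs k))
    (h2 : ∀ k l, QuadraticMap.polar (⇑Q₀) (Φ (bs k)) (Φ (bs l)) =
      QuadraticMap.polar (⇑Q) (bs k) (bs l)) :
    ∀ v, Q₀ (Φ v) = Q v := by
  have hB : (QuadraticMap.polarBilin Q₀).compl₁₂ Φ Φ = QuadraticMap.polarBilin Q := by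
    apply LinearMap.BilinForm.ext_basis bs
    intro k l
    exact h2 k l
  have hp : ∀ u v, QuadraticMap.polar (⇑Q₀) (Φ u) (Φ v) = QuadraticMap.polar (⇑Q) u v := by
    intro u v
    have h3 := LinearMap.congr_fun₂ hB u v
    exact h3
  intro v
  have hv : v ∈ Submodule.span F (Set.range bs) := by
    rw [bs.span_eq]
    trivial
  induction hv using Submodule.span_induction with
  | mem x hx =>
    obtain ⟨k, rfl⟩ := hx
    exact h1 k
  | zero => rw [map_zero, QuadraticMap.map_zero, QuadraticMap.map_zero]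
  | add x y _ _ hx hy =>
    rw [map_add, QuadraticMap.map_add (⇑Q₀), QuadraticMap.map_add (⇑Q), hx, hy, hp]
  | smul c x _ hx => rw [map_smul, QuadraticMap.map_smul, QuadraticMap.map_smul, hx]

end transfer

section model

variable {F : Type*} [Field F]

/-- the twisted trace form of a field extension with an involutory automorphism -/
theorem model_form {K : Type*} [Field K] [Algebra F K] [FiniteDimensional F K]
    [Algebra.IsSeparable F K] (σ : K ≃ₐ[F] K) (hσ : ∀ u, σ (σ u) = u) (ζ : K)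
    (hζσ : ζ * σ ζ = 1) (hτ : ζ + σ ζ ≠ 0) :
    ∃ Q' : QuadraticForm F K, (QuadraticMap.polarBilin Q').Nondegenerate ∧
      ∀ u, Q' (ζ * u) = Q' u := by
  obtain ⟨β, hβ⟩ : ∃ β : K →ₗ[F] K →ₗ[F] F, ∀ u v, β u v = Algebra.trace F K (ζ * u * σ v) :=
    ⟨LinearMap.mk₂ F (fun u v => Algebra.trace F K (ζ * u * σ v))
      (fun u u' v => by rw [mul_add, add_mul, map_add])
      (fun c u v => by rw [mul_smul_comm, smul_mul_assoc, map_smul])
      (fun u v v' => by rw [map_add, mul_add, map_add])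
      (fun c u v => by rw [map_smul, mul_smul_comm, map_smul]), fun u v => rfl⟩
  refine ⟨LinearMap.BilinMap.toQuadraticMap β, ?_, ?_⟩
  · have key : ∀ u, (∀ v, QuadraticMap.polar (⇑(LinearMap.BilinMap.toQuadraticMap β)) u v = 0) →
        u = 0 := by
      intro u hu
      have h1 : ∀ w, Algebra.traceForm F K ((ζ + σ ζ) * u) w = 0 := by
        intro w
        have h2 := hu (σ w)
        rw [LinearMap.BilinMap.polar_toQuadraticMap, hβ, hβ, hσ] at h2
        have h3 : Algebra.trace F K (ζ * σ w * σ u) = Algebra.trace F K (σ ζ * w * u) := by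
          rw [← Algebra.trace_eq_of_algEquiv σ (ζ * σ w * σ u), map_mul σ, map_mul σ, hσ, hσ]
        rw [Algebra.traceForm_apply, ← h2, h3, ← map_add]
        congr 1
        ring
      have h4 := (traceForm_nondegenerate F K).1 _ h1
      exact (mul_eq_zero.mp h4).resolve_left hτ
    exact ⟨fun u hu => key u hu,
      fun v hv => key v (fun u => by rw [QuadraticMap.polar_comm]; exact hv u)⟩
  · intro u
    have e : ζ * (ζ * u) * (σ ζ * σ u) = ζ * u * σ u := by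
      linear_combination (ζ * u * σ u) * hζσ
    rw [LinearMap.BilinMap.toQuadraticMap_apply, LinearMap.BilinMap.toQuadraticMap_apply, hβ, hβ,
      map_mul σ, e]

/-- a multiplication of prime order has one fixed point on an invariant set containing zero -/
theorem fix_count {K : Type*} [Field K] [Fintype K] [DecidableEq K] (P : K → Prop)
    [DecidablePred P] (ζ : K) (hζ1 : ζ ≠ 1) (r : ℕ) [Fact r.Prime] (hζr : ζ ^ r = 1)
    (hP : ∀ u, P u → P (ζ * u)) (hP0 : P 0) :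
    Nat.card {u : K // P u} ≡ 1 [MOD r] := by
  have hrp : r.Prime := Fact.out
  have hPk : ∀ (k : ℕ) (u : K), P u → P (ζ ^ k * u) := by
    intro k
    induction k with
    | zero => intro u hu; rw [pow_zero, one_mul]; exact hu
    | succ k ih =>
      intro u hu
      rw [pow_succ, mul_assoc]
      exact ih _ (hP u hu)
  have hr1 : r = (r - 1) + 1 := by
    have := hrp.pos
    omega
  obtain ⟨σp, hσp⟩ : ∃ σp : Equiv.Perm {u : K // P u}, ∀ u, (σp u).1 = ζ * u.1 :=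
    ⟨⟨fun u => ⟨ζ * u.1, hP _ u.2⟩, fun u => ⟨ζ ^ (r - 1) * u.1, hPk _ _ u.2⟩,
      fun u => Subtype.ext (by
        show ζ ^ (r - 1) * (ζ * u.1) = u.1
        rw [← mul_assoc, ← pow_succ, ← hr1, hζr, one_mul]),
      fun u => Subtype.ext (by
        show ζ * (ζ ^ (r - 1) * u.1) = u.1
        rw [← mul_assoc, ← pow_succ', ← hr1, hζr, one_mul])⟩, fun u => rfl⟩
  have hpow : ∀ (k : ℕ) (u : {u : K // P u}), ((σp ^ k) u).1 = ζ ^ k * u.1 := by
    intro k
    induction k with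
    | zero => intro u; rw [pow_zero, pow_zero, one_mul]; rfl
    | succ k ih =>
      intro u
      rw [pow_succ, Equiv.Perm.mul_apply, ih, hσp, pow_succ, mul_assoc]
  have hσr : σp ^ r ^ 1 = 1 := by
    ext u
    rw [pow_one, hpow, hζr, one_mul]
    rfl
  have h1 := Equiv.Perm.card_compl_support_modEq hσr
  have h2 : σp.supportᶜ = {⟨0, hP0⟩} := by
    ext u
    rw [Finset.mem_compl, Equiv.Perm.mem_support, not_not, Finset.mem_singleton]
    constructor
    · intro h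
      apply Subtype.ext
      have h3 := congrArg Subtype.val h
      rw [hσp] at h3
      have h4 : (ζ - 1) * u.1 = 0 := by rw [sub_mul, one_mul, h3, sub_self]
      rcases mul_eq_zero.mp h4 with h5 | h5
      · exact absurd (sub_eq_zero.mp h5) hζ1
      · exact h5
    · intro h
      apply Subtype.ext
      rw [hσp, h, mul_zero]
  rw [h2, Finset.card_singleton] at h1
  rw [Nat.card_eq_fintype_card]
  exact h1.symm

/-- the arithmetic excluding the hyperbolic case -/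
theorem plus_arith (A B Qn Z N r d : ℕ) (hr : r.Prime) (hr2 : r ≠ 2) (hAd : A = Qn ^ d)
    (hA : A = B * Qn) (hA1 : 1 ≤ A) (hZN : Z + N = A * A) (hN : N + (A - 1) * B = (A - 1) * A)
    (hdiv : r ∣ A + 1) (hZ : Z ≡ 1 [MOD r]) : False := by
  haveI : Fact r.Prime := ⟨hr⟩
  have e3 : (A : ZMod r) + 1 = 0 := by
    have h := (ZMod.natCast_eq_zero_iff (A + 1) r).2 hdiv
    push_cast at h
    exact h
  have e4 : (Z : ZMod r) = 1 := by
    have h := (ZMod.natCast_eq_natCast_iff Z 1 r).2 hZ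
    push_cast at h
    exact h
  have e1 : (Z : ZMod r) + N = A * A := by
    have h := congrArg (Nat.cast : ℕ → ZMod r) hZN
    push_cast at h
    exact h
  have e2 : (N : ZMod r) + (A - 1) * B = (A - 1) * A := by
    have h := congrArg (Nat.cast : ℕ → ZMod r) hN
    push_cast [Nat.cast_sub hA1] at h
    exact h
  have e5 : (A : ZMod r) = B * Qn := by
    have h := congrArg (Nat.cast : ℕ → ZMod r) hA
    push_cast at h
    exact h
  have e6 : (A : ZMod r) = (Qn : ZMod r) ^ d := by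
    have h := congrArg (Nat.cast : ℕ → ZMod r) hAd
    push_cast at h
    exact h
  have h2ne : (2 : ZMod r) ≠ 0 := by
    intro h
    have h' : ((2 : ℕ) : ZMod r) = 0 := by exact_mod_cast h
    rw [ZMod.natCast_eq_zero_iff] at h'
    exact hr2 ((Nat.prime_dvd_prime_iff_eq hr Nat.prime_two).mp h')
  have h2b : (2 : ZMod r) * ((B : ZMod r) + 1) = 0 := by
    linear_combination e1 - e2 - e4 + (1 + (B : ZMod r)) * e3
  have hB : (B : ZMod r) = -1 := by
    have := (mul_eq_zero.mp h2b).resolve_left h2ne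
    linear_combination this
  have hQ1 : (Qn : ZMod r) = 1 := by
    rw [hB] at e5
    linear_combination e5 - e3
  rw [hQ1, one_pow] at e6
  apply h2ne
  linear_combination e3 - e6

end model

section std

variable {F : Type*} [Field F]

theorem equivFun_basis {V : Type*} [AddCommGroup V] [Module F V] {κ : Type*} [Fintype κ]
    [DecidableEq κ] (bs : Module.Basis κ F V) (i : κ) :
    bs.equivFun (bs i) = Pi.single i (1 : F) := by
  rw [Module.Basis.equivFun_apply, Module.Basis.repr_self, Finsupp.single_eq_pi_single]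

/-- a hyperbolic basis identifies the form with the standard hyperbolic form -/
theorem hyperbolic_equiv {V : Type*} [AddCommGroup V] [Module F V]
    (Q : QuadraticForm F V) (d : ℕ) (bs : Module.Basis (Fin d ⊕ Fin d) F V)
    (h1 : ∀ i, Q (bs (Sum.inl i)) = 0 ∧ Q (bs (Sum.inr i)) = 0)
    (h2 : ∀ i j, QuadraticMap.polar ⇑Q (bs (Sum.inl i)) (bs (Sum.inr j)) = if i = j then 1 else 0)
    (h3 : ∀ i j, QuadraticMap.polar ⇑Q (bs (Sum.inl i)) (bs (Sum.inl j)) = 0 ∧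
      QuadraticMap.polar ⇑Q (bs (Sum.inr i)) (bs (Sum.inr j)) = 0) :
    ∀ v, Cfsg.quadFormPlus d F (bs.equivFun v) = Q v := by
  classical
  apply transfer Q (qfPlus d F) bs bs.equivFun.toLinearMap
  · rintro (i | i)
    · show qfPlus d F (bs.equivFun (bs (Sum.inl i))) = _
      rw [equivFun_basis, qfPlus_q_inl, (h1 i).1]
    · show qfPlus d F (bs.equivFun (bs (Sum.inr i))) = _
      rw [equivFun_basis, qfPlus_q_inr, (h1 i).2]
  · rintro (i | i) (j | j)
    · show QuadraticMap.polar (⇑(qfPlus d F)) (bs.equivFun (bs (Sum.inl i)))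
        (bs.equivFun (bs (Sum.inl j))) = _
      rw [equivFun_basis, equivFun_basis, qfPlus_polar_inl, (h3 i j).1]
      simp [Pi.single_apply]
    · show QuadraticMap.polar (⇑(qfPlus d F)) (bs.equivFun (bs (Sum.inl i)))
        (bs.equivFun (bs (Sum.inr j))) = _
      rw [equivFun_basis, equivFun_basis, qfPlus_polar_inl, h2 i j]
      simp [Pi.single_apply]
    · show QuadraticMap.polar (⇑(qfPlus d F)) (bs.equivFun (bs (Sum.inr i)))
        (bs.equivFun (bs (Sum.inl j))) = _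
      rw [equivFun_basis, equivFun_basis, qfPlus_polar_inr, QuadraticMap.polar_comm, h2 j i]
      simp [Pi.single_apply, eq_comm]
    · show QuadraticMap.polar (⇑(qfPlus d F)) (bs.equivFun (bs (Sum.inr i)))
        (bs.equivFun (bs (Sum.inr j))) = _
      rw [equivFun_basis, equivFun_basis, qfPlus_polar_inr, (h3 i j).2]
      simp [Pi.single_apply]

variable [Fintype F] [CharP F 2]

theorem polar_self_zero' {V : Type*} [AddCommGroup V] [Module F V] (Q : QuadraticForm F V)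
    (x : V) : QuadraticMap.polar (⇑Q) x x = 0 := by
  rw [QuadraticMap.polar_self, two_smul]
  exact CharTwo.add_self_eq_zero _

/-- an elliptic basis identifies the form with the standard minus-type form for any anisotropic
binary part -/
theorem elliptic_equiv {V : Type*} [AddCommGroup V] [Module F V] [FiniteDimensional F V]
    (Q : QuadraticForm F V) (hQ : (QuadraticMap.polarBilin Q).Nondegenerate) (k : ℕ)
    (bs : Module.Basis ((Fin k ⊕ Fin k) ⊕ Fin 2) F V) (ζ₀ : F)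
    (hζ : ∀ t : F, t ^ 2 + t + ζ₀ ≠ 0)
    (h1 : ∀ i, Q (bs (Sum.inl (Sum.inl i))) = 0 ∧ Q (bs (Sum.inl (Sum.inr i))) = 0)
    (h2 : ∀ i j, QuadraticMap.polar ⇑Q (bs (Sum.inl (Sum.inl i))) (bs (Sum.inl (Sum.inr j))) =
      if i = j then 1 else 0)
    (h3 : ∀ i j, QuadraticMap.polar ⇑Q (bs (Sum.inl (Sum.inl i))) (bs (Sum.inl (Sum.inl j))) = 0 ∧
      QuadraticMap.polar ⇑Q (bs (Sum.inl (Sum.inr i))) (bs (Sum.inl (Sum.inr j))) = 0)
    (h4 : ∀ i (s : Fin 2), QuadraticMap.polar ⇑Q (bs (Sum.inl (Sum.inl i))) (bs (Sum.inr s)) = 0 ∧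
      QuadraticMap.polar ⇑Q (bs (Sum.inl (Sum.inr i))) (bs (Sum.inr s)) = 0)
    (hx : Q (bs (Sum.inr 0)) = 1)
    (hxy : QuadraticMap.polar ⇑Q (bs (Sum.inr 0)) (bs (Sum.inr 1)) = 1)
    (hy : Q (bs (Sum.inr 1)) = ζ₀)
    (a b : F) (hab : ∀ x y : F, x ^ 2 + a * x * y + b * y ^ 2 = 0 → x = 0 ∧ y = 0) :
    ∃ Φ : V ≃ₗ[F] ((Fin k ⊕ Fin k) ⊕ Fin 2 → F),
      ∀ v, Cfsg.quadFormMinus k F a b (Φ v) = Q v := by
  classical
  have h2F : (2 : F) = 0 := two_zero
  obtain ⟨ha, t, ht⟩ := as_adjust a b ζ₀ hab hζ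
  obtain ⟨w, hw⟩ : ∃ w : (Fin k ⊕ Fin k) ⊕ Fin 2 → F,
      w = (t / a) • Pi.single (Sum.inr 0) 1 + (a⁻¹ - 1) • Pi.single (Sum.inr 1) 1 := ⟨_, rfl⟩
  obtain ⟨g₂, hg₂⟩ : ∃ g₂ : (Fin k ⊕ Fin k) ⊕ Fin 2 → F,
      g₂ = (t / a) • Pi.single (Sum.inr 0) 1 + a⁻¹ • Pi.single (Sum.inr 1) 1 := ⟨_, rfl⟩
  have hg0 : g₂ (Sum.inr 0) = t / a := by
    rw [hg₂]
    simp [Pi.single_apply]
  have hg1 : g₂ (Sum.inr 1) = a⁻¹ := by
    rw [hg₂]
    simp [Pi.single_apply]
  have hgl : ∀ j, g₂ (Sum.inl j) = 0 := by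
    intro j
    rw [hg₂]
    simp [Pi.single_apply]
  obtain ⟨Φ₀, hΦ₀⟩ : ∃ Φ₀ : V →ₗ[F] ((Fin k ⊕ Fin k) ⊕ Fin 2 → F),
      ∀ v, Φ₀ v = bs.equivFun v + bs.equivFun v (Sum.inr 1) • w :=
    ⟨(LinearMap.id + (LinearMap.proj (Sum.inr 1) :
        ((Fin k ⊕ Fin k) ⊕ Fin 2 → F) →ₗ[F] F).smulRight w) ∘ₗ bs.equivFun.toLinearMap,
      fun v => rfl⟩
  have hΦl : ∀ j, Φ₀ (bs (Sum.inl j)) = Pi.single (Sum.inl j) 1 := by
    intro j
    rw [hΦ₀, equivFun_basis]
    simp [Pi.single_apply]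
  have hΦ0 : Φ₀ (bs (Sum.inr 0)) = Pi.single (Sum.inr 0) 1 := by
    rw [hΦ₀, equivFun_basis]
    simp [Pi.single_apply]
  have hΦ1 : Φ₀ (bs (Sum.inr 1)) = g₂ := by
    rw [hΦ₀, equivFun_basis, Pi.single_eq_same, one_smul, hw, hg₂, sub_smul, one_smul]
    abel
  have A1 : ∀ i (y : (Fin k ⊕ Fin k) ⊕ Fin 2 → F),
      QuadraticMap.polar (⇑(qfMinus k F a b)) (Pi.single (Sum.inl (Sum.inl i)) 1) y =
        y (Sum.inl (Sum.inr i)) := fun i y => qfMinus_polar_inl k F a b i y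
  have A2 : ∀ i (y : (Fin k ⊕ Fin k) ⊕ Fin 2 → F),
      QuadraticMap.polar (⇑(qfMinus k F a b)) (Pi.single (Sum.inl (Sum.inr i)) 1) y =
        y (Sum.inl (Sum.inl i)) := fun i y => qfMinus_polar_inr k F a b i y
  have A3 : ∀ (y : (Fin k ⊕ Fin k) ⊕ Fin 2 → F),
      QuadraticMap.polar (⇑(qfMinus k F a b)) (Pi.single (Sum.inr 0) 1) y =
        2 * y (Sum.inr 0) + a * y (Sum.inr 1) := fun y => qfMinus_polar_zero k F a b y
  have h01 : QuadraticMap.polar (⇑(qfMinus k F a b)) (Φ₀ (bs (Sum.inr 0))) (Φ₀ (bs (Sum.inr 1))) =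
      QuadraticMap.polar (⇑Q) (bs (Sum.inr 0)) (bs (Sum.inr 1)) := by
    rw [hΦ0, hΦ1, A3, hg0, hg1, hxy, h2F, zero_mul, zero_add, mul_inv_cancel₀ ha]
  have hΦ := transfer Q (qfMinus k F a b) bs Φ₀ (by
    rintro ((i | i) | s)
    · rw [hΦl, qfMinus_q_inl, (h1 i).1]
    · rw [hΦl, qfMinus_q_inr, (h1 i).2]
    · fin_cases s
      · show qfMinus k F a b (Φ₀ (bs (Sum.inr 0))) = Q (bs (Sum.inr 0))
        rw [hΦ0, hx]
        exact qminus_e0 k a b
      · show qfMinus k F a b (Φ₀ (bs (Sum.inr 1))) = Q (bs (Sum.inr 1))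
        rw [hΦ1, hy]
        show Cfsg.quadFormMinus k F a b g₂ = ζ₀
        unfold Cfsg.quadFormMinus
        rw [hg0, hg1]
        simp only [hgl, zero_mul, Finset.sum_const_zero, zero_add]
        field_simp
        linear_combination ht) (by
    rintro ((i | i) | s) ((j | j) | s')
    · rw [hΦl, hΦl, A1, (h3 i j).1]
      simp [Pi.single_apply]
    · rw [hΦl, hΦl, A1, h2 i j]
      simp [Pi.single_apply]
    · rw [hΦl, A1, (h4 i s').1]
      fin_cases s'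
      · show (Φ₀ (bs (Sum.inr 0))) (Sum.inl (Sum.inr i)) = 0
        rw [hΦ0]
        simp [Pi.single_apply]
      · show (Φ₀ (bs (Sum.inr 1))) (Sum.inl (Sum.inr i)) = 0
        rw [hΦ1, hgl]
    · rw [hΦl, hΦl, A2, QuadraticMap.polar_comm, h2 j i]
      simp [Pi.single_apply, eq_comm]
    · rw [hΦl, hΦl, A2, (h3 i j).2]
      simp [Pi.single_apply]
    · rw [hΦl, A2, (h4 i s').2]
      fin_cases s'
      · show (Φ₀ (bs (Sum.inr 0))) (Sum.inl (Sum.inl i)) = 0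
        rw [hΦ0]
        simp [Pi.single_apply]
      · show (Φ₀ (bs (Sum.inr 1))) (Sum.inl (Sum.inl i)) = 0
        rw [hΦ1, hgl]
    · rw [QuadraticMap.polar_comm (⇑(qfMinus k F a b)) (Φ₀ (bs (Sum.inr s))) _,
        QuadraticMap.polar_comm (⇑Q) (bs (Sum.inr s)) _, hΦl, A1, (h4 j s).1]
      fin_cases s
      · show (Φ₀ (bs (Sum.inr 0))) (Sum.inl (Sum.inr j)) = 0
        rw [hΦ0]
        simp [Pi.single_apply]
      · show (Φ₀ (bs (Sum.inr 1))) (Sum.inl (Sum.inr j)) = 0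
        rw [hΦ1, hgl]
    · rw [QuadraticMap.polar_comm (⇑(qfMinus k F a b)) (Φ₀ (bs (Sum.inr s))) _,
        QuadraticMap.polar_comm (⇑Q) (bs (Sum.inr s)) _, hΦl, A2, (h4 j s).2]
      fin_cases s
      · show (Φ₀ (bs (Sum.inr 0))) (Sum.inl (Sum.inl j)) = 0
        rw [hΦ0]
        simp [Pi.single_apply]
      · show (Φ₀ (bs (Sum.inr 1))) (Sum.inl (Sum.inl j)) = 0
        rw [hΦ1, hgl]
    · fin_cases s <;> fin_cases s'
      · show QuadraticMap.polar (⇑(qfMinus k F a b)) (Φ₀ (bs (Sum.inr 0))) (Φ₀ (bs (Sum.inr 0))) =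
          QuadraticMap.polar (⇑Q) (bs (Sum.inr 0)) (bs (Sum.inr 0))
        rw [polar_self_zero', polar_self_zero']
      · exact h01
      · show QuadraticMap.polar (⇑(qfMinus k F a b)) (Φ₀ (bs (Sum.inr 1))) (Φ₀ (bs (Sum.inr 0))) =
          QuadraticMap.polar (⇑Q) (bs (Sum.inr 1)) (bs (Sum.inr 0))
        rw [QuadraticMap.polar_comm (⇑(qfMinus k F a b)) (Φ₀ (bs (Sum.inr 1))) _,
          QuadraticMap.polar_comm (⇑Q) (bs (Sum.inr 1)) _]
        exact h01
      · show QuadraticMap.polar (⇑(qfMinus k F a b)) (Φ₀ (bs (Sum.inr 1))) (Φ₀ (bs (Sum.inr 1))) =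
          QuadraticMap.polar (⇑Q) (bs (Sum.inr 1)) (bs (Sum.inr 1))
        rw [polar_self_zero', polar_self_zero'])
  have hinj : Function.Injective Φ₀ := by
    rw [injective_iff_map_eq_zero]
    intro u hu
    apply hQ.1 u
    intro v
    rw [QuadraticMap.polarBilin_apply_apply]
    unfold QuadraticMap.polar
    rw [← hΦ, ← hΦ, ← hΦ, map_add, hu, zero_add, QuadraticMap.map_zero, sub_zero, sub_self]
  have hdim : Module.finrank F V = Module.finrank F ((Fin k ⊕ Fin k) ⊕ Fin 2 → F) := by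
    rw [Module.finrank_eq_card_basis bs, Module.finrank_fintype_fun_eq_card]
  exact ⟨LinearMap.linearEquivOfInjective Φ₀ hinj hdim, fun v => by
    rw [LinearMap.linearEquivOfInjective_apply]
    exact hΦ v⟩

end std

section main

variable {F : Type*} [Field F] [Fintype F] [CharP F 2]

theorem card_idx (k : ℕ) : Fintype.card ((Fin k ⊕ Fin k) ⊕ Fin 2) = k + k + 2 := by
  rw [Fintype.card_sum, Fintype.card_sum, Fintype.card_fin, Fintype.card_fin]

/-- isometries of odd order lie in the commutator subgroup -/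
theorem odd_mem_omega {d : ℕ} (hd : 4 ≤ d) (a b : F)
    (hab : ∀ x y : F, x ^ 2 + a * x * y + b * y ^ 2 = 0 → x = 0 ∧ y = 0)
    (x : GL ((Fin (d - 1) ⊕ Fin (d - 1)) ⊕ Fin 2) F)
    (hx : ∀ v, Cfsg.quadFormMinus (d - 1) F a b
      ((x : Matrix ((Fin (d - 1) ⊕ Fin (d - 1)) ⊕ Fin 2) ((Fin (d - 1) ⊕ Fin (d - 1)) ⊕ Fin 2) F) *ᵥ v) =
      Cfsg.quadFormMinus (d - 1) F a b v)
    (r : ℕ) (hr : Odd r) (hxr : x ^ r = 1) :
    x ∈ Cfsg.Geo.omegaGL (Cfsg.quadFormMinus (d - 1) F a b) := by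
  have hmem : x ∈ Cfsg.isometryGroup F (Cfsg.quadFormMinus (d - 1) F a b) :=
    (Cfsg.Agent.Lib.Helper16.mem_isometryGroup_iff (qfMinus (d - 1) F a b) x).mpr hx
  have : Nonempty ((Fin (d - 1) ⊕ Fin (d - 1)) ⊕ Fin 2) := ⟨Sum.inr 0⟩
  have hidx : (Cfsg.Omega F (Cfsg.quadFormMinus (d - 1) F a b)).index = 2 :=
    Cfsg.Agent.Lib.Helper3.omega_index_char_two (qfMinus (d - 1) F a b) two_zero
      (Cfsg.Agent.S2173.minus_nondeg2 (d - 1) a b hab)
      (Or.inr (by rw [card_idx]; omega))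
  obtain ⟨g, hg⟩ : ∃ g : ↥(Cfsg.isometryGroup F (Cfsg.quadFormMinus (d - 1) F a b)),
      g = ⟨x, hmem⟩ := ⟨_, rfl⟩
  have hgr : g ^ r = 1 := by
    apply Subtype.ext
    rw [hg]
    exact hxr
  refine Subgroup.mem_map.mpr ⟨g, ?_, by rw [hg]; rfl⟩
  obtain ⟨k, hk⟩ := hr
  have e : g = (g ^ 2) ^ (k + 1) := by
    rw [← pow_mul, show 2 * (k + 1) = r + 1 by omega, pow_succ, hgr, one_mul]
  rw [e]
  exact Subgroup.pow_mem _ (Subgroup.sq_mem_of_index_two hidx g) (k + 1)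

/-- the derangement built from a field of degree `2d` with its involutory automorphism -/
theorem derange_of_model {K : Type*} [Field K] [Algebra F K] [Finite K] {d : ℕ} (hd : 4 ≤ d)
    (hfr : Module.finrank F K = 2 * d) (a b : F)
    (hab : ∀ x y : F, x ^ 2 + a * x * y + b * y ^ 2 = 0 → x = 0 ∧ y = 0)
    (r : ℕ) [Fact r.Prime] (hr2 : r ≠ 2) (hdiv : r ∣ Fintype.card F ^ d + 1)
    (σ : K ≃ₐ[F] K) (hσ : ∀ u, σ u = u ^ (Fintype.card F ^ d)) :
    ∃ x : GL ((Fin (d - 1) ⊕ Fin (d - 1)) ⊕ Fin 2) F,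
      x ∈ Cfsg.Geo.omegaGL (Cfsg.quadFormMinus (d - 1) F a b) ∧ x ^ r = 1 ∧
      ∀ v, Cfsg.quadFormMinus (d - 1) F a b v ≠ 0 → ∀ c : F,
        (x : Matrix ((Fin (d - 1) ⊕ Fin (d - 1)) ⊕ Fin 2) ((Fin (d - 1) ⊕ Fin (d - 1)) ⊕ Fin 2) F) *ᵥ v
          ≠ c • v := by
  classical
  have h2 : (2 : F) = 0 := two_zero
  have hrp : r.Prime := Fact.out
  have hfd : FiniteDimensional F K := Module.finite_of_finrank_pos (by rw [hfr]; omega)
  haveI : Fintype K := Fintype.ofFinite K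
  have hcardK : Fintype.card K = Fintype.card F ^ (2 * d) := by
    rw [Module.card_eq_pow_finrank (K := F) (V := K), hfr]
  have hσσ : ∀ u, σ (σ u) = u := by
    intro u
    rw [hσ, hσ, ← pow_mul, ← pow_add, ← two_mul, ← hcardK, FiniteField.pow_card]
  have hu : Nat.card Kˣ = Fintype.card F ^ (2 * d) - 1 := by
    rw [Nat.card_units, Nat.card_eq_fintype_card, hcardK]
  have hdiv2 : r ∣ Nat.card Kˣ := by
    rw [hu]
    have e : Fintype.card F ^ (2 * d) - 1 =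
        (Fintype.card F ^ d - 1) * (Fintype.card F ^ d + 1) := by
      have h1 : 1 ≤ Fintype.card F ^ d := Nat.one_le_pow _ _ Fintype.card_pos
      obtain ⟨A, hA⟩ : ∃ A, Fintype.card F ^ d = A + 1 := ⟨Fintype.card F ^ d - 1, by omega⟩
      rw [two_mul, pow_add, hA, Nat.add_sub_cancel]
      have h3 : (A + 1) * (A + 1) = A * (A + 1 + 1) + 1 := by ring
      rw [h3, Nat.add_sub_cancel]
    rw [e]
    exact Dvd.dvd.mul_left hdiv _
  obtain ⟨ζu, hζu⟩ := exists_prime_orderOf_dvd_card' (G := Kˣ) r hdiv2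
  obtain ⟨ζ, hζ⟩ : ∃ ζ : K, ζ = (ζu : K) := ⟨_, rfl⟩
  have hζr : ζ ^ r = 1 := by
    rw [hζ, ← Units.val_pow_eq_pow_val, ← hζu, pow_orderOf_eq_one, Units.val_one]
  have hζ1 : ζ ≠ 1 := by
    intro h
    have h6 : ζu = 1 := Units.ext (by rw [← hζ, h]; rfl)
    rw [h6, orderOf_one] at hζu
    exact hrp.one_lt.ne hζu
  have hζq : ζ ^ (Fintype.card F ^ d + 1) = 1 := by
    obtain ⟨m, hm⟩ := hdiv
    rw [hm, pow_mul, hζr, one_pow]
  have hζσ : ζ * σ ζ = 1 := by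
    rw [hσ, ← pow_succ', hζq]
  have h2K : (2 : K) = 0 := by
    have h3 := congrArg (algebraMap F K) h2
    rw [map_ofNat, map_zero] at h3
    exact h3
  have hτ : ζ + σ ζ ≠ 0 := by
    intro h0
    have h3 : σ ζ = ζ := by linear_combination h0 - ζ * h2K
    rw [h3] at hζσ
    have h4 : ζu ^ 2 = 1 := Units.ext (by
      rw [Units.val_pow_eq_pow_val, ← hζ, pow_two, hζσ]
      rfl)
    have h5 := orderOf_dvd_of_pow_eq_one h4
    rw [hζu] at h5
    exact hr2 ((Nat.prime_dvd_prime_iff_eq hrp Nat.prime_two).mp h5)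
  obtain ⟨Q', hnd, hinv⟩ := model_form σ hσσ ζ hζσ hτ
  rcases Cfsg.Agent.S2616.result (by omega : 1 ≤ d) hfr Q' hnd with
    ⟨bs, h1, h2', h3⟩ | ⟨bs, ζ₀, hζ₀, h1, h2', h3, h4, hx, hxy, hy⟩
  · exfalso
    have hΦ := hyperbolic_equiv Q' d bs h1 h2' h3
    have hZ := fix_count (fun u : K => Q' u = 0) ζ hζ1 r hζr
      (fun u hu => by rw [hinv]; exact hu) (QuadraticMap.map_zero Q')
    have e1 : Nat.card {u : K // Q' u = 0} =
        Nat.card {c : Fin d ⊕ Fin d → F // Cfsg.quadFormPlus d F c = 0} :=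
      Nat.card_congr (Equiv.subtypeEquiv bs.equivFun.toEquiv (fun u => by
        show Q' u = 0 ↔ Cfsg.quadFormPlus d F (bs.equivFun u) = 0
        rw [hΦ]))
    have hns := Cfsg.Agent.S5985.card_ns (F := F) d
    have htot : Nat.card {c : Fin d ⊕ Fin d → F // Cfsg.quadFormPlus d F c = 0} +
        Nat.card {c : Fin d ⊕ Fin d → F // Cfsg.quadFormPlus d F c ≠ 0} =
        Fintype.card F ^ d * Fintype.card F ^ d := by
      have h5 := Fintype.card_subtype_compl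
        (fun c : Fin d ⊕ Fin d → F => Cfsg.quadFormPlus d F c = 0)
      have h6 : Fintype.card (Fin d ⊕ Fin d → F) = Fintype.card F ^ d * Fintype.card F ^ d := by
        rw [Fintype.card_fun, Fintype.card_sum, Fintype.card_fin, pow_add]
      have h7 := Fintype.card_subtype_le
        (fun c : Fin d ⊕ Fin d → F => Cfsg.quadFormPlus d F c = 0)
      rw [Nat.card_eq_fintype_card, Nat.card_eq_fintype_card, h5, ← h6]
      omega
    rw [e1] at hZ
    exact plus_arith (Fintype.card F ^ d) (Fintype.card F ^ (d - 1)) (Fintype.card F) _ _ r d hrp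
      hr2 rfl (by rw [← pow_succ]; congr 1; omega) (Nat.one_le_pow _ _ Fintype.card_pos) htot hns
      hdiv hZ
  · obtain ⟨Φ, hΦ⟩ := elliptic_equiv Q' hnd (d - 1) bs ζ₀ hζ₀ h1 h2' h3 h4 hx hxy hy a b hab
    obtain ⟨X, hX⟩ : ∃ X : ((Fin (d - 1) ⊕ Fin (d - 1)) ⊕ Fin 2 → F) →ₗ[F]
        ((Fin (d - 1) ⊕ Fin (d - 1)) ⊕ Fin 2 → F), ∀ v, X v = Φ (ζ * Φ.symm v) :=
      ⟨Φ.toLinearMap ∘ₗ (LinearMap.mulLeft F ζ) ∘ₗ Φ.symm.toLinearMap, fun v => rfl⟩
    have hXk : ∀ (k : ℕ) v, (X ^ k) v = Φ (ζ ^ k * Φ.symm v) := by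
      intro k
      induction k with
      | zero =>
        intro v
        rw [pow_zero, pow_zero, one_mul, Φ.apply_symm_apply]
        rfl
      | succ k ih =>
        intro v
        rw [pow_succ, Module.End.mul_apply, ih, hX, Φ.symm_apply_apply, ← mul_assoc, ← pow_succ]
    have hXr : X ^ r = 1 := by
      apply LinearMap.ext
      intro v
      rw [hXk, hζr, one_mul, Φ.apply_symm_apply]
      rfl
    have hXQ : ∀ w, Cfsg.quadFormMinus (d - 1) F a b (X w) =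
        Cfsg.quadFormMinus (d - 1) F a b w := by
      intro w
      rw [hX, hΦ, hinv, ← hΦ, Φ.apply_symm_apply]
    have hr1 : r = (r - 1) + 1 := by
      have := hrp.pos
      omega
    obtain ⟨g, hg⟩ : ∃ g : GL ((Fin (d - 1) ⊕ Fin (d - 1)) ⊕ Fin 2) F,
        (g : Matrix ((Fin (d - 1) ⊕ Fin (d - 1)) ⊕ Fin 2) ((Fin (d - 1) ⊕ Fin (d - 1)) ⊕ Fin 2) F) =
          LinearMap.toMatrix' X := by
      refine ⟨⟨LinearMap.toMatrix' X, LinearMap.toMatrix' (X ^ (r - 1)), ?_, ?_⟩, rfl⟩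
      · rw [← LinearMap.toMatrix'_mul, ← pow_succ', ← hr1, hXr, LinearMap.toMatrix'_one]
      · rw [← LinearMap.toMatrix'_mul, ← pow_succ, ← hr1, hXr, LinearMap.toMatrix'_one]
    have hglin : Matrix.toLin'
        (g : Matrix ((Fin (d - 1) ⊕ Fin (d - 1)) ⊕ Fin 2) ((Fin (d - 1) ⊕ Fin (d - 1)) ⊕ Fin 2) F) = X := by
      rw [hg]
      exact Matrix.toLin'_toMatrix' X
    have hgmul : ∀ w,
        (g : Matrix ((Fin (d - 1) ⊕ Fin (d - 1)) ⊕ Fin 2) ((Fin (d - 1) ⊕ Fin (d - 1)) ⊕ Fin 2) F) *ᵥ w =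
          X w := by
      intro w
      rw [← Matrix.toLin'_apply, hglin]
    have hgr : g ^ r = 1 := by
      apply Units.ext
      rw [Units.val_pow_eq_pow_val, Units.val_one]
      have h1 : Matrix.toLin'
          ((g : Matrix ((Fin (d - 1) ⊕ Fin (d - 1)) ⊕ Fin 2) ((Fin (d - 1) ⊕ Fin (d - 1)) ⊕ Fin 2) F) ^ r)
          = Matrix.toLin'
            (1 : Matrix ((Fin (d - 1) ⊕ Fin (d - 1)) ⊕ Fin 2) ((Fin (d - 1) ⊕ Fin (d - 1)) ⊕ Fin 2) F) := by
        rw [Matrix.toLin'_pow, hglin, hXr, Matrix.toLin'_one]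
        rfl
      exact Matrix.toLin'.injective h1
    have hiso : ∀ v, Cfsg.quadFormMinus (d - 1) F a b
        ((g : Matrix ((Fin (d - 1) ⊕ Fin (d - 1)) ⊕ Fin 2) ((Fin (d - 1) ⊕ Fin (d - 1)) ⊕ Fin 2) F) *ᵥ v) =
        Cfsg.quadFormMinus (d - 1) F a b v := by
      intro v
      rw [hgmul]
      exact hXQ v
    refine ⟨g, odd_mem_omega hd a b hab g hiso r (hrp.odd_of_ne_two hr2) hgr, hgr, ?_⟩
    intro v hv c hc
    rw [hgmul] at hc
    have hq : Cfsg.quadFormMinus (d - 1) F a b v =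
        c * c * Cfsg.quadFormMinus (d - 1) F a b v := by
      rw [← qminus_smul, ← hc, hXQ]
    have hc1 : c = 1 := by
      apply Cfsg.Agent.S5985.one_of_sq h2
      exact mul_right_cancel₀ hv (show c * c * Cfsg.quadFormMinus (d - 1) F a b v =
        1 * Cfsg.quadFormMinus (d - 1) F a b v by rw [one_mul]; exact hq.symm)
    rw [hc1, one_smul, hX] at hc
    have h3 : ζ * Φ.symm v = Φ.symm v := by
      have h4 := congrArg Φ.symm hc
      rw [Φ.symm_apply_apply] at h4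
      exact h4
    have hy0 : Φ.symm v ≠ 0 := by
      intro h
      apply hv
      have h4 : v = 0 := by rw [← Φ.apply_symm_apply v, h, map_zero]
      rw [h4]
      exact qminus_zero _ a b
    have h5 : (ζ - 1) * Φ.symm v = 0 := by rw [sub_mul, one_mul, h3, sub_self]
    rcases mul_eq_zero.mp h5 with h | h
    · exact hζ1 (sub_eq_zero.mp h)
    · exact hy0 h

theorem exists_derangement_odd {d : ℕ} (hd : 4 ≤ d) (a b : F)
    (hab : ∀ x y : F, x ^ 2 + a * x * y + b * y ^ 2 = 0 → x = 0 ∧ y = 0)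
    (r : ℕ) [Fact r.Prime] (hr2 : r ≠ 2) (hdiv : r ∣ Fintype.card F ^ d + 1) :
    ∃ x : GL ((Fin (d - 1) ⊕ Fin (d - 1)) ⊕ Fin 2) F,
      x ∈ Cfsg.Geo.omegaGL (Cfsg.quadFormMinus (d - 1) F a b) ∧ x ^ r = 1 ∧
      ∀ v, Cfsg.quadFormMinus (d - 1) F a b v ≠ 0 → ∀ c : F,
        (x : Matrix ((Fin (d - 1) ⊕ Fin (d - 1)) ⊕ Fin 2) ((Fin (d - 1) ⊕ Fin (d - 1)) ⊕ Fin 2) F) *ᵥ v
          ≠ c • v := by
  haveI : NeZero (2 * d) := ⟨by omega⟩
  haveI : Fact (Nat.Prime 2) := ⟨Nat.prime_two⟩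
  have hfr : Module.finrank F (FiniteField.Extension F 2 (2 * d)) = 2 * d :=
    FiniteField.finrank_extension F 2 (2 * d)
  refine derange_of_model hd hfr a b hab r hr2 hdiv (FiniteField.Extension.frob F 2 (2 * d) ^ d) ?_
  intro u
  rw [FiniteField.Extension.frob_iterate_apply, Nat.card_eq_fintype_card]

end main

/-- Elements of prime order of Ω⁻_n(q), q even, with no fixed nonsingular 1-space. Here `T = PΩ⁻_n(F)`, `n = 2d ≥ 8`, realised through `Ω⁻_n(q)`, the commutator subgroup of the isometry group of `Q = Σ_{i<d−1} xᵢyᵢ + z₁² + a z₁z₂ + b z₂²` with `z₁² + a z₁z₂ + b z₂²` anisotropic, over the field `F` with `q` elements; an element of `T` of prime order `r` is an element `x` of `Ω⁻_n(q)` with `x^r` scalar and `x` not scalar; `q` is even (so the centre is trivial). Let Ω be the set of 1-dimensional subspaces spanned by a vector `v` with `Q(v) ≠ 0`, and let `r` be a prime dividing their number. Then every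 element of `T` of order `r` fixes some nonsingular 1-space if and only if `r = 2`. -/
theorem result {F : Type*} [Field F] [Fintype F] {p : ℕ} [Fact p.Prime] [CharP F p] {q : ℕ} (hq : Fintype.card F = q)
    (hp : p = 2) (d : ℕ) (hd : 4 ≤ d) (a b : F) (hab : ∀ x y : F, x ^ 2 + a * x * y + b * y ^ 2 = 0 → x = 0 ∧ y = 0) (r : ℕ) [Fact r.Prime]
    (hrΩ : r ∣ Nat.card {W : Submodule F ((Fin (d - 1) ⊕ Fin (d - 1)) ⊕ Fin 2 → F) // Module.finrank F ↥W = 1 ∧ ∃ v ∈ W, Cfsg.quadFormMinus (d - 1) F a b v ≠ 0}) :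
    (∀ x : GL ((Fin (d - 1) ⊕ Fin (d - 1)) ⊕ Fin 2) F, x ∈ Cfsg.Geo.omegaGL (Cfsg.quadFormMinus (d - 1) F a b) →
      (∃ z : F, ((x ^ r : GL ((Fin (d - 1) ⊕ Fin (d - 1)) ⊕ Fin 2) F) : Matrix ((Fin (d - 1) ⊕ Fin (d - 1)) ⊕ Fin 2) ((Fin (d - 1) ⊕ Fin (d - 1)) ⊕ Fin 2) F) = z • (1 : Matrix ((Fin (d - 1) ⊕ Fin (d - 1)) ⊕ Fin 2) ((Fin (d - 1) ⊕ Fin (d - 1)) ⊕ Fin 2) F)) →
      (∀ z : F, (x : Matrix ((Fin (d - 1) ⊕ Fin (d - 1)) ⊕ Fin 2) ((Fin (d - 1) ⊕ Fin (d - 1)) ⊕ Fin 2) F) ≠ z • (1 : Matrix ((Fin (d - 1) ⊕ Fin (d - 1)) ⊕ Fin 2) ((Fin (d - 1) ⊕ Fin (d - 1)) ⊕ Fin 2) F)) →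
      ∃ W : Submodule F ((Fin (d - 1) ⊕ Fin (d - 1)) ⊕ Fin 2 → F), (Module.finrank F ↥W = 1 ∧ ∃ v ∈ W, Cfsg.quadFormMinus (d - 1) F a b v ≠ 0) ∧ W.map (Matrix.toLin' (x : Matrix ((Fin (d - 1) ⊕ Fin (d - 1)) ⊕ Fin 2) ((Fin (d - 1) ⊕ Fin (d - 1)) ⊕ Fin 2) F)) ≤ W) ↔ r = 2 := by
  subst hp
  have h2 : (2 : F) = 0 := two_zero
  have hd1 : 1 ≤ d := by omega
  constructor
  · intro H
    by_contra hr2
    have hdiv := count_dvd hd1 a b hab r hr2 hrΩ
    obtain ⟨x, hxΩ, hxr, hder⟩ := exists_derangement_odd (F := F) hd a b hab r hr2 hdiv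
    obtain ⟨hns, hnf⟩ := no_fixed (d - 1) a b _ hder
    refine hnf (H x hxΩ ⟨1, ?_⟩ hns)
    rw [hxr, one_smul]
    rfl
  · rintro rfl x hxΩ ⟨z, hz⟩ hns
    obtain ⟨g, -, hgx⟩ := Subgroup.mem_map.mp hxΩ
    have hiso : ∀ v, Cfsg.quadFormMinus (d - 1) F a b
        ((x : Matrix ((Fin (d - 1) ⊕ Fin (d - 1)) ⊕ Fin 2) ((Fin (d - 1) ⊕ Fin (d - 1)) ⊕ Fin 2) F) *ᵥ v) =
        Cfsg.quadFormMinus (d - 1) F a b v := by
      intro v
      rw [← hgx]
      exact isomG_map (qfMinus (d - 1) F a b) g v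
    rw [Units.val_pow_eq_pow_val, pow_two] at hz
    have hv0 : Cfsg.quadFormMinus (d - 1) F a b (Pi.single (Sum.inr 0) 1) ≠ 0 := by
      rw [qminus_e0]
      exact one_ne_zero
    have hz1 : z = 1 := by
      apply Cfsg.Agent.S5985.one_of_sq h2
      have h : Cfsg.quadFormMinus (d - 1) F a b
          ((x : Matrix ((Fin (d - 1) ⊕ Fin (d - 1)) ⊕ Fin 2) ((Fin (d - 1) ⊕ Fin (d - 1)) ⊕ Fin 2) F) *ᵥ
          ((x : Matrix ((Fin (d - 1) ⊕ Fin (d - 1)) ⊕ Fin 2) ((Fin (d - 1) ⊕ Fin (d - 1)) ⊕ Fin 2) F) *ᵥ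
          (Pi.single (Sum.inr 0) 1))) =
          Cfsg.quadFormMinus (d - 1) F a b (Pi.single (Sum.inr 0) 1) := by
        rw [hiso, hiso]
      rw [Matrix.mulVec_mulVec, hz, Matrix.smul_mulVec, Matrix.one_mulVec, qminus_smul] at h
      exact mul_right_cancel₀ hv0 (by rw [one_mul]; exact h)
    rw [hz1, one_smul] at hz
    have hgg : g * g = 1 := by
      apply Subtype.ext
      apply Units.ext
      have h3 : ((g : GL ((Fin (d - 1) ⊕ Fin (d - 1)) ⊕ Fin 2) F) :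
          Matrix ((Fin (d - 1) ⊕ Fin (d - 1)) ⊕ Fin 2) ((Fin (d - 1) ⊕ Fin (d - 1)) ⊕ Fin 2) F) =
          (x : Matrix ((Fin (d - 1) ⊕ Fin (d - 1)) ⊕ Fin 2) ((Fin (d - 1) ⊕ Fin (d - 1)) ⊕ Fin 2) F) := by
        rw [← hgx]
        rfl
      show ((g : GL ((Fin (d - 1) ⊕ Fin (d - 1)) ⊕ Fin 2) F) :
          Matrix ((Fin (d - 1) ⊕ Fin (d - 1)) ⊕ Fin 2) ((Fin (d - 1) ⊕ Fin (d - 1)) ⊕ Fin 2) F) *
          ((g : GL ((Fin (d - 1) ⊕ Fin (d - 1)) ⊕ Fin 2) F) :
          Matrix ((Fin (d - 1) ⊕ Fin (d - 1)) ⊕ Fin 2) ((Fin (d - 1) ⊕ Fin (d - 1)) ⊕ Fin 2) F) = 1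
      rw [h3, hz]
    have hQnd := Cfsg.Agent.S2173.minus_nondeg2 (d - 1) a b hab
    have hwitt : ∀ U : Submodule F ((Fin (d - 1) ⊕ Fin (d - 1)) ⊕ Fin 2 → F),
        (∀ u ∈ U, qfMinus (d - 1) F a b u = 0) →
        2 * Module.finrank F U < Fintype.card ((Fin (d - 1) ⊕ Fin (d - 1)) ⊕ Fin 2) := by
      intro U hU
      have h3 := Cfsg.Agent.S2173.minus_ts (d - 1) a b hab hQnd U hU
      rw [card_idx]
      omega
    obtain ⟨v, hxv, hv⟩ := Cfsg.Agent.S2173.invol_fix_ns (qfMinus (d - 1) F a b) h2 hwitt g hgg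
    have hvne : v ≠ 0 := by
      intro h
      rw [h] at hv
      exact hv (QuadraticMap.map_zero (qfMinus (d - 1) F a b))
    refine ⟨F ∙ v, ⟨finrank_span_singleton hvne, v, Submodule.mem_span_singleton_self v, hv⟩, ?_⟩
    rw [Submodule.map_span_le]
    intro w hw
    rw [Set.mem_singleton_iff.mp hw, Matrix.toLin'_apply, ← hgx]
    have h4 : ((Cfsg.isometryGroup F (Cfsg.quadFormMinus (d - 1) F a b)).subtype g :
        Matrix ((Fin (d - 1) ⊕ Fin (d - 1)) ⊕ Fin 2) ((Fin (d - 1) ⊕ Fin (d - 1)) ⊕ Fin 2) F) *ᵥ v = v := hxv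
    rw [h4]
    exact Submodule.mem_span_singleton_self v

end Cfsg.Agent.S5986
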